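import Cfsg.Statements.S1012
import Mathlib

set_option autoImplicit false
open Cfsg

namespace Cfsg.Agent.S1012

/-- A group of order 24 containing no element of order 6 is isomorphic to the symmetric group of degree 4. -/
theorem result {G : Type*} [Group G] [Finite G] (h : Nat.card G = 24) (h6 : ∀ g : G, orderOf g ≠ 6) : Nonempty (G ≃* Equiv.Perm (Fin 4)) := by
  classical
  haveI : Fact (Nat.Prime 3) := ⟨by norm_num⟩
  haveI : Fact (Nat.Prime 2) := ⟨Nat.prime_two⟩
  obtain ⟨P⟩ : Nonempty (Sylow 3 G) := inferInstance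
  have hPc : Nat.card (P : Subgroup G) = 3 := by
    obtain ⟨j, hj⟩ := IsPGroup.iff_card.mp P.isPGroup'
    have h1 := P.dvd_card_of_dvd_card (h ▸ (by norm_num : 3 ∣ 24))
    have h2 : 3 ^ j ∣ 24 := h ▸ hj ▸ Subgroup.card_subgroup_dvd_card _
    rw [hj] at h1 ⊢
    have : j < 2 := by
      by_contra hc
      have := (pow_dvd_pow 3 (Nat.le_of_not_lt hc)).trans h2
      norm_num at this
    interval_cases j <;> simp_all
  -- no involution centralises an element of order three
  have h23 : ∀ x y : G, orderOf x = 3 → orderOf y = 2 → Commute x y → False := fun x y hx hy hc =>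
    h6 (x * y) (by rw [hc.orderOf_mul_eq_mul_orderOf_of_coprime (by rw [hx, hy]; norm_num), hx, hy])
  obtain ⟨t, ht⟩ : ∃ t : G, orderOf t = 3 ∧ t ∈ (P : Subgroup G) := by
    obtain ⟨t, ht⟩ := exists_prime_orderOf_dvd_card' (G := (P : Subgroup G)) 3 (by rw [hPc])
    exact ⟨t, by rw [Subgroup.orderOf_coe]; exact ht, t.2⟩
  have hcent : ∀ (H : Subgroup G), 2 ∣ Nat.card H → (∀ z ∈ H, Commute t z) → False := by
    intro H hH hc
    obtain ⟨y, hy⟩ := exists_prime_orderOf_dvd_card' (G := H) 2 hH
    exact h23 t y ht.1 (by rw [Subgroup.orderOf_coe]; exact hy) (hc y y.2)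
  have hPn : ¬ (P : Subgroup G).Normal := by
    intro hn
    let φ : G →* MulAut (P : Subgroup G) := MulAut.conjNormal
    have hd : Nat.card φ.range ∣ 2 := by
      refine (Subgroup.card_subgroup_dvd_card _).trans ?_
      haveI : IsCyclic (P : Subgroup G) := isCyclic_of_prime_card hPc
      rw [IsCyclic.card_mulAut, hPc, Nat.totient_prime (by norm_num)]
    have hk : 2 ∣ Nat.card φ.ker := by
      have hm := φ.ker.card_mul_index
      rw [Subgroup.index_ker, h] at hm
      rcases (Nat.dvd_prime Nat.prime_two).mp hd with e | e <;> rw [e] at hm <;> omega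
    refine hcent φ.ker hk fun z hz => ?_
    have h1 := congrArg (fun f : MulAut (P : Subgroup G) => ((f ⟨t, ht.2⟩ : (P : Subgroup G)) : G)) (hz : φ z = 1)
    change z * t * z⁻¹ = t at h1
    exact (mul_inv_eq_iff_eq_mul.mp h1).symm
  have hn3 : Nat.card (Sylow 3 G) = 4 := by
    have h1 := P.card_dvd_index
    have hi := (P : Subgroup G).card_mul_index
    rw [hPc, h] at hi
    have hi' : (P : Subgroup G).index = 8 := by omega
    rw [hi'] at h1
    have hm : Nat.card (Sylow 3 G) ≡ 1 [MOD 3] := card_sylow_modEq_one 3 G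
    have hne : Nat.card (Sylow 3 G) ≠ 1 := fun e => hPn (by
      haveI := (Nat.card_eq_one_iff_unique.mp e).1
      exact P.normal_of_subsingleton)
    have hmem : Nat.card (Sylow 3 G) ∈ Nat.divisors 8 := Nat.mem_divisors.mpr ⟨h1, by norm_num⟩
    rw [show Nat.divisors 8 = {1, 2, 4, 8} by decide] at hmem
    simp only [Finset.mem_insert, Finset.mem_singleton] at hmem
    unfold Nat.ModEq at hm
    omega
  let φ : G →* Equiv.Perm (Sylow 3 G) := MulAction.toPermHom G (Sylow 3 G)
  have hker : φ.ker = ⊥ := by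
    set K := φ.ker with hK
    have hKN : K ≤ Subgroup.normalizer ((P : Subgroup G) : Set G) := fun g hg =>
      Sylow.smul_eq_iff_mem_normalizer.mp (DFunLike.congr_fun (hg : φ g = 1) P)
    have hNc : Nat.card (Subgroup.normalizer ((P : Subgroup G) : Set G)) = 6 := by
      have hi := (Subgroup.normalizer ((P : Subgroup G) : Set G)).card_mul_index
      have e : Nat.card (Sylow 3 G) = (Subgroup.normalizer ((P : Subgroup G) : Set G)).index :=
        P.card_eq_index_normalizer
      rw [← e, hn3, h] at hi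
      omega
    have hd : Nat.card K ∣ 6 := hNc ▸ Subgroup.card_dvd_of_le hKN
    have hn3' : ¬ 3 ∣ Nat.card K := by
      intro h3
      obtain ⟨s, hs⟩ := exists_prime_orderOf_dvd_card' (G := K) 3 h3
      have hsP : ∀ R : Sylow 3 G, Subgroup.zpowers (s : G) = (R : Subgroup G) := by
        intro R
        have hsN : (s : G) ∈ Subgroup.normalizer (R : Set G) :=
          Sylow.smul_eq_iff_mem_normalizer.mp (DFunLike.congr_fun (s.2 : φ s = 1) R)
        have hY : IsPGroup 3 (Subgroup.zpowers (s : G)) :=
          IsPGroup.of_card (n := 1) (by rw [Nat.card_zpowers, Subgroup.orderOf_coe, hs, pow_one])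
        have : (s : G) ∈ Subgroup.zpowers (s : G) ⊓ Subgroup.normalizer (R : Set G) :=
          ⟨Subgroup.mem_zpowers _, hsN⟩
        rw [hY.inf_normalizer_sylow R] at this
        refine Subgroup.eq_of_le_of_card_ge (Subgroup.zpowers_le.mpr this.2) ?_
        rw [Nat.card_zpowers, Subgroup.orderOf_coe, hs, R.card_eq_multiplicity, ← P.card_eq_multiplicity, hPc]
      have hsub : Subsingleton (Sylow 3 G) := ⟨fun R S => Sylow.ext ((hsP R).symm.trans (hsP S))⟩
      have := Finite.card_le_one_iff_subsingleton.mpr hsub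
      omega
    have h2' : Nat.card K = 1 ∨ Nat.card K = 2 := by
      have hmem : Nat.card K ∈ Nat.divisors 6 := Nat.mem_divisors.mpr ⟨hd, by norm_num⟩
      rw [show Nat.divisors 6 = {1, 2, 3, 6} by decide] at hmem
      simp only [Finset.mem_insert, Finset.mem_singleton] at hmem
      omega
    rcases h2' with e | e
    · exact Subgroup.card_eq_one.mp e
    · exfalso
      haveI : Fintype K := Fintype.ofFinite _
      refine hcent K (by rw [e]) fun z hz => ?_
      by_cases hz1 : z = 1
      · subst hz1; exact Commute.one_right t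
      have hz' : t * z * t⁻¹ ∈ K := (inferInstance : φ.ker.Normal).conj_mem z hz t
      have hne : t * z * t⁻¹ ≠ 1 := fun e' => hz1 (by simpa using e')
      have hc2 := Fintype.card_le_one_iff_subsingleton.mp (show Fintype.card {k : K // k ≠ 1} ≤ 1 by
        rw [Fintype.card_subtype_compl, Fintype.card_subtype_eq, ← Nat.card_eq_fintype_card, e])
      have heq := congrArg (fun k : {k : K // k ≠ 1} => ((k : K) : G))
        (Subsingleton.elim (⟨⟨t * z * t⁻¹, hz'⟩, fun e' => hne (congrArg Subtype.val e')⟩ : {k : K // k ≠ 1})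
          ⟨⟨z, hz⟩, fun e' => hz1 (congrArg Subtype.val e')⟩)
      exact mul_inv_eq_iff_eq_mul.mp heq
  have hinj := (MonoidHom.ker_eq_bot_iff φ).mp hker
  haveI : Fintype (Sylow 3 G) := Fintype.ofFinite _
  let e4 : Sylow 3 G ≃ Fin 4 := Fintype.equivFinOfCardEq (by rw [← Nat.card_eq_fintype_card, hn3])
  let ψ : G →* Equiv.Perm (Fin 4) := e4.permCongrHom.toMonoidHom.comp φ
  have hψ : Function.Injective ψ := e4.permCongrHom.injective.comp hinj
  refine ⟨MulEquiv.ofBijective ψ ((Nat.bijective_iff_injective_and_card ψ).mpr ⟨hψ, ?_⟩)⟩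
  rw [h, Nat.card_eq_fintype_card, Fintype.card_perm, Fintype.card_fin]
  rfl

end Cfsg.Agent.S1012
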