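import Cfsg.Statements.S2324
import Cfsg.Agent.Lib.Classical.TwoDimHalvesCount
-- import your own Cfsg.Agent.* helpers here

set_option autoImplicit false
open Cfsg

namespace Cfsg.Agent.S2324

/-- Over a finite field F with q elements, q odd and q ≥ 5, let u be the upper unitriangular matrix of SL₂ with off-diagonal entry 1 and let δ = (−1)^((q−1)/2). Every irreducible complex character χ of SL₂ of degree (q + 1)/2 satisfies (2χ(u) − 1)² = δq, and every irreducible complex character χ of degree (q − 1)/2 satisfies (2χ(u) + 1)² = δq; that is, χ(u) = (1 ± √(δq))/2 in the first case and χ(u) = (−1 ± √(δq))/2 in the second. Moreover two different irreducible characters of degree (q + 1)/2 take the two different values (their values at u add up to 1), and likewise for degree (q − 1)/2 (values adding up to −1). -/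
theorem result {F : Type*} [Field F] [Fintype F] (hodd : Odd (Fintype.card F)) (hq : 5 ≤ Fintype.card F)
    (u : Matrix.SpecialLinearGroup (Fin 2) F) (hu : (u : Matrix (Fin 2) (Fin 2) F) = !![1, 1; 0, 1]) :
    (∀ χ : Matrix.SpecialLinearGroup (Fin 2) F → ℂ, Cfsg.IsIrrCharacter (Matrix.SpecialLinearGroup (Fin 2) F) χ → χ 1 = (((Fintype.card F + 1) / 2 : ℕ) : ℂ) → (2 * χ u - 1) ^ 2 = (-1 : ℂ) ^ ((Fintype.card F - 1) / 2) * (Fintype.card F : ℂ)) ∧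
    (∀ χ : Matrix.SpecialLinearGroup (Fin 2) F → ℂ, Cfsg.IsIrrCharacter (Matrix.SpecialLinearGroup (Fin 2) F) χ → χ 1 = (((Fintype.card F - 1) / 2 : ℕ) : ℂ) → (2 * χ u + 1) ^ 2 = (-1 : ℂ) ^ ((Fintype.card F - 1) / 2) * (Fintype.card F : ℂ)) ∧
    (∀ χ₁ χ₂ : Matrix.SpecialLinearGroup (Fin 2) F → ℂ, Cfsg.IsIrrCharacter (Matrix.SpecialLinearGroup (Fin 2) F) χ₁ → Cfsg.IsIrrCharacter (Matrix.SpecialLinearGroup (Fin 2) F) χ₂ → χ₁ ≠ χ₂ →
      χ₁ 1 = (((Fintype.card F + 1) / 2 : ℕ) : ℂ) → χ₂ 1 = (((Fintype.card F + 1) / 2 : ℕ) : ℂ) → χ₁ u + χ₂ u = 1) ∧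
    (∀ χ₁ χ₂ : Matrix.SpecialLinearGroup (Fin 2) F → ℂ, Cfsg.IsIrrCharacter (Matrix.SpecialLinearGroup (Fin 2) F) χ₁ → Cfsg.IsIrrCharacter (Matrix.SpecialLinearGroup (Fin 2) F) χ₂ → χ₁ ≠ χ₂ →
      χ₁ 1 = (((Fintype.card F - 1) / 2 : ℕ) : ℂ) → χ₂ 1 = (((Fintype.card F - 1) / 2 : ℕ) : ℂ) → χ₁ u + χ₂ u = -1) := by
  classical
  obtain rfl : u = Cfsg.Lib.Classical.TwoDim.uS 1 := Subtype.ext hu
  obtain ⟨r, hr⟩ := hodd
  have hr2 : 2 ≤ r := by omega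
  have hp : (((Fintype.card F + 1) / 2 : ℕ) : ℂ) = r + 1 := by
    rw [show (Fintype.card F + 1) / 2 = r + 1 by omega]; push_cast; ring
  have hm : (((Fintype.card F - 1) / 2 : ℕ) : ℂ) = r := by rw [show (Fintype.card F - 1) / 2 = r by omega]
  have hqC : (Fintype.card F : ℂ) = 2 * r + 1 := by rw [hr]; push_cast; ring
  have hr' : (Fintype.card F - 1) / 2 = r := by omega
  rw [hp, hm, hr']
  have sq : ∀ χ : Matrix.SpecialLinearGroup (Fin 2) F → ℂ, Cfsg.IsIrrCharacter (Matrix.SpecialLinearGroup (Fin 2) F) χ →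
      (χ 1 = (r : ℂ) ∨ χ 1 = (r : ℂ) + 1) →
      (2 * χ (Cfsg.Lib.Classical.TwoDim.uS 1) - (2 * χ 1 - Fintype.card F)) ^ 2 = (-1 : ℂ) ^ r * Fintype.card F := by
    intro χ hχ hd
    obtain ⟨π, x, χ', hπ, hπ1, hdeg, hχ', hne, hx, hsum⟩ := Cfsg.Lib.Classical.TwoDim.half_cases hr hr2 hχ hd
    have h := (Cfsg.Lib.Classical.TwoDim.half_diff_sq hr hπ hπ1 hχ hχ' hne hx hsum).2
    have hu' := hsum (Cfsg.Lib.Classical.TwoDim.uS 1)
    rw [Cfsg.Lib.Classical.TwoDim.toGL_uS] at hu'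
    have hs := Cfsg.Lib.Classical.TwoDim.sub_u_eq hπ hπ1
    rw [← h]
    congr 1
    linear_combination hdeg - hu' - hs
  have sums : ∀ χ₁ χ₂ : Matrix.SpecialLinearGroup (Fin 2) F → ℂ, Cfsg.IsIrrCharacter (Matrix.SpecialLinearGroup (Fin 2) F) χ₁ →
      Cfsg.IsIrrCharacter (Matrix.SpecialLinearGroup (Fin 2) F) χ₂ → χ₁ ≠ χ₂ →
      (χ₁ 1 = (r : ℂ) ∨ χ₁ 1 = (r : ℂ) + 1) → χ₂ 1 = χ₁ 1 →
      χ₁ (Cfsg.Lib.Classical.TwoDim.uS 1) + χ₂ (Cfsg.Lib.Classical.TwoDim.uS 1) = 2 * χ₁ 1 - Fintype.card F := by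
    intro χ₁ χ₂ h1 h2 h12 hd he
    obtain ⟨π, hπ, hπ1, hdeg, hsum⟩ := Cfsg.Lib.Classical.TwoDim.two_halves hr hr2 h1 h2 h12 hd he
    have hu' := hsum (Cfsg.Lib.Classical.TwoDim.uS 1)
    rw [Cfsg.Lib.Classical.TwoDim.toGL_uS] at hu'
    have hs := Cfsg.Lib.Classical.TwoDim.sub_u_eq hπ hπ1
    linear_combination hdeg - hu' - hs
  refine ⟨fun χ hχ hd => ?_, fun χ hχ hd => ?_, fun χ₁ χ₂ h1 h2 h12 hd he => ?_, fun χ₁ χ₂ h1 h2 h12 hd he => ?_⟩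
  · rw [← sq χ hχ (Or.inr hd), hd]
    congr 1
    linear_combination -hqC
  · rw [← sq χ hχ (Or.inl hd), hd]
    congr 1
    linear_combination -hqC
  · rw [sums χ₁ χ₂ h1 h2 h12 (Or.inr hd) (he.trans hd.symm), hd]
    linear_combination -hqC
  · rw [sums χ₁ χ₂ h1 h2 h12 (Or.inl hd) (he.trans hd.symm), hd]
    linear_combination -hqC

end Cfsg.Agent.S2324
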