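import Cfsg.Statements.S2437
import Cfsg.Agent.Lib.Classical.TwoDimTorusSylow
-- import your own Cfsg.Agent.* helpers here

set_option autoImplicit false
open Cfsg

namespace Cfsg.Agent.S2437

/-- Over a finite field F with q elements, q odd, the upper triangular subgroup of SL₂ (a Borel subgroup, of order q(q − 1)) has exactly q + 3 conjugacy classes. -/
theorem result {F : Type*} [Field F] [Fintype F] (hodd : Odd (Fintype.card F)) :
    Nat.card (ConjClasses ((Cfsg.upperTriangularGL 2 F).comap Matrix.SpecialLinearGroup.toGL)) = Fintype.card F + 3 := by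
  classical
  set B := (Cfsg.upperTriangularGL 2 F).comap Matrix.SpecialLinearGroup.toGL with hB
  have hmem : ∀ g : Matrix.SpecialLinearGroup (Fin 2) F, g ∈ B ↔ (g : Matrix (Fin 2) (Fin 2) F) 1 0 = 0 := fun g => by
    show (g : Matrix (Fin 2) (Fin 2) F).BlockTriangular id ↔ _
    constructor
    · intro h; exact h (by decide : (id 0 : Fin 2) < id 1)
    · intro h i j hij
      fin_cases i <;> fin_cases j <;> simp at hij ⊢
      exact h
  let mkB : Fˣ → F → B := fun a b => ⟨⟨!![(a : F), b; 0, (a⁻¹ : Fˣ)], by simp [Matrix.det_fin_two]⟩, (hmem _).2 (by simp)⟩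
  have hdet : ∀ g : B, (g.1 : Matrix (Fin 2) (Fin 2) F) 0 0 * (g.1 : Matrix (Fin 2) (Fin 2) F) 1 1 = 1 := fun g => by
    have hd := g.1.2
    rw [Matrix.det_fin_two, (hmem _).1 g.2, mul_zero, sub_zero] at hd
    exact hd
  let e : B ≃ Fˣ × F :=
    { toFun := fun g => (Units.mkOfMulEqOne _ _ (hdet g), (g.1 : Matrix (Fin 2) (Fin 2) F) 0 1)
      invFun := fun p => mkB p.1 p.2
      left_inv := fun g => Subtype.ext (Subtype.ext (by
        ext i j; fin_cases i <;> fin_cases j <;> simp [mkB, Units.mkOfMulEqOne, (hmem _).1 g.2]))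
      right_inv := fun p => Prod.ext (Units.ext (by simp [mkB, Units.mkOfMulEqOne])) (by simp [mkB]) }
  have hcomm : ∀ p : (Fˣ × F) × (Fˣ × F), Commute (e.symm p.1) (e.symm p.2) ↔
      p.2.2 * ((p.1.1 : F) - (p.1.1⁻¹ : Fˣ)) = p.1.2 * ((p.2.1 : F) - (p.2.1⁻¹ : Fˣ)) := by
    rintro ⟨⟨a, b⟩, c, d⟩
    show mkB a b * mkB c d = mkB c d * mkB a b ↔ _
    constructor
    · intro h
      have := congrArg (fun z : B => (z.1 : Matrix (Fin 2) (Fin 2) F) 0 1) h
      rw [Subgroup.coe_mul, Subgroup.coe_mul, Matrix.SpecialLinearGroup.coe_mul, Matrix.SpecialLinearGroup.coe_mul] at this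
      simp [mkB, Matrix.mul_apply, Fin.sum_univ_two] at this
      simp only [Units.val_inv_eq_inv_val]
      linear_combination this
    · intro h
      simp only [Units.val_inv_eq_inv_val] at h
      refine Subtype.ext (Subtype.ext ?_)
      rw [Subgroup.coe_mul, Subgroup.coe_mul, Matrix.SpecialLinearGroup.coe_mul, Matrix.SpecialLinearGroup.coe_mul]
      ext i j
      fin_cases i <;> fin_cases j <;> simp [mkB, Matrix.mul_apply, Fin.sum_univ_two] <;>
        first | ring1 | linear_combination h | linear_combination -h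
  set w : Fˣ → F := fun a => (a : F) - (a⁻¹ : Fˣ) with hw
  have e2 : {p : B × B // Commute p.1 p.2} ≃ Σ ac : Fˣ × Fˣ, {bd : F × F // bd.2 * w ac.1 = bd.1 * w ac.2} :=
    ((e.prodCongr e).subtypeEquiv (q := fun p => p.2.2 * w p.1.1 = p.1.2 * w p.2.1) fun p => by
      have h := hcomm (e p.1, e p.2)
      simp only [Equiv.symm_apply_apply] at h
      exact h).trans
    { toFun := fun p => ⟨(p.1.1.1, p.1.2.1), ⟨(p.1.1.2, p.1.2.2), p.2⟩⟩
      invFun := fun s => ⟨((s.1.1, s.2.1.1), (s.1.2, s.2.1.2)), s.2.2⟩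
      left_inv := fun p => rfl
      right_inv := fun s => rfl }
  have hfib : ∀ x y : F, Nat.card {bd : F × F // bd.2 * x = bd.1 * y} =
      Fintype.card F + if x = 0 ∧ y = 0 then Fintype.card F ^ 2 - Fintype.card F else 0 := by
    intro x y
    split_ifs with h
    · rw [Nat.card_congr (Equiv.subtypeUnivEquiv fun bd => by simp [h.1, h.2]), Nat.card_prod,
        Nat.card_eq_fintype_card, sq]
      have := Nat.le_mul_self (Fintype.card F)
      omega
    · rw [add_zero, ← Nat.card_eq_fintype_card (α := F)]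
      by_cases hx : x = 0
      · have hy : y ≠ 0 := fun hy => h ⟨hx, hy⟩
        refine Nat.card_congr ⟨fun bd => bd.1.2, fun d => ⟨(0, d), by simp [hx]⟩, fun bd => ?_, fun d => rfl⟩
        have := bd.2
        simp only [hx, mul_zero] at this
        exact Subtype.ext (Prod.ext ((mul_eq_zero.1 this.symm).resolve_right hy).symm rfl)
      · refine Nat.card_congr ⟨fun bd => bd.1.1, fun b => ⟨(b, b * y / x), by simp [hx]⟩, fun bd => ?_, fun b => rfl⟩
        exact Subtype.ext (Prod.ext rfl (by
          show bd.1.1 * y / x = bd.1.2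
          rw [← bd.2, mul_div_cancel_right₀ _ hx]))
  have h2 : (2 : F) ≠ 0 := Cfsg.Lib.Classical.TwoDim.two_ne_zero_of_odd hodd
  have hw0 : (Finset.univ.filter fun a : Fˣ => w a = 0) = {1, -1} := by
    ext a
    simp only [hw, Finset.mem_filter, Finset.mem_univ, true_and, Finset.mem_insert, Finset.mem_singleton, sub_eq_zero]
    rw [← Units.ext_iff, eq_inv_iff_mul_eq_one, ← sq]
    rw [Units.ext_iff, Units.val_pow_eq_pow_val, Units.val_one, sq_eq_one_iff, ← Units.val_one, ← Units.val_neg,
      ← Units.ext_iff, ← Units.ext_iff]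
  have hpairs := Nat.card_congr e2
  rw [card_comm_eq_card_conjClasses_mul_card, Nat.card_congr e, Nat.card_prod, Nat.card_sigma,
    Finset.sum_congr rfl fun ac _ => hfib (w ac.1) (w ac.2), Finset.sum_add_distrib, Finset.sum_const,
    ← Finset.sum_filter, Finset.sum_const, Finset.card_univ, Fintype.card_prod, Nat.card_eq_fintype_card,
    Nat.card_eq_fintype_card, Fintype.card_units, ← Finset.univ_product_univ,
    Finset.filter_product (fun a => w a = 0) (fun a => w a = 0), Finset.card_product, hw0,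
    Finset.card_pair (fun h => h2 (by have := congrArg Units.val h; push_cast at this; linear_combination this)),
    smul_eq_mul, smul_eq_mul] at hpairs
  obtain ⟨m, hm⟩ := Nat.exists_eq_add_of_lt (Fintype.one_lt_card (α := F))
  simp only [Nat.card_eq_fintype_card, hm] at hpairs ⊢
  rw [show 1 + m + 1 - 1 = m + 1 by omega,
    show (1 + m + 1) ^ 2 - (1 + m + 1) = (1 + m + 1) * (m + 1) by
      rw [Nat.sub_eq_iff_eq_add (Nat.le_self_pow two_ne_zero _)]; ring] at hpairs
  refine Nat.eq_of_mul_eq_mul_right (show 0 < (m + 1) * (1 + m + 1) by positivity) ?_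
  linear_combination hpairs

end Cfsg.Agent.S2437
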