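import Cfsg.Statements.S1465
import Mathlib
import Mathlib
import Cfsg.Agent.Lib.Solv.OddStable
import Cfsg.Agent.Lib.Solv.MinNormal
import Cfsg.Agent.Lib.Solv.Coprime
-- import your own Cfsg.Agent.* helpers here

set_option autoImplicit false
open Cfsg

namespace Cfsg.Agent.S1465

/-- Let p be an odd prime, G a solvable group of odd order, P a normal p-subgroup of G, and X the subgroup generated by a family of abelian p-subgroups of G each normalized by P. Then the image of X in G/C_G(P) lies in O_p(G/C_G(P)); and if O_{p'}(G) = 1 and O_p(G) ∩ C_G(P) ≤ P then X ≤ O_p(G). -/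
theorem result {G : Type*} [Group G] [Finite G] [Group.IsSolvable G] (hodd : Odd (Nat.card G)) (p : ℕ) [Fact p.Prime] (hp : p ≠ 2) (P : Subgroup G) [P.Normal] (hP : IsPGroup p P)
    (S : Set (Subgroup G)) (hS : ∀ B ∈ S, IsMulCommutative B ∧ IsPGroup p B ∧ P ≤ Subgroup.normalizer (B : Set G)) :
    (sSup S).map (QuotientGroup.mk' (Subgroup.centralizer (P : Set G))) ≤ Cfsg.pCore p (G ⧸ Subgroup.centralizer (P : Set G)) ∧
      (Cfsg.pPrimeCore p G = ⊥ → Cfsg.pCore p G ⊓ Subgroup.centralizer (P : Set G) ≤ P → sSup S ≤ Cfsg.pCore p G) := by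
  classical
  have hst := Cfsg.Lib.Solv.normalizerPStable_of_odd hodd hp
  set C := Subgroup.centralizer (P : Set G) with hC
  haveI : C.Normal := inferInstance
  set M₁ := (Cfsg.pCore p (G ⧸ C)).comap (QuotientGroup.mk' C) with hM₁
  have hle : sSup S ≤ M₁ := by
    refine sSup_le fun B hB b hb => ?_
    obtain ⟨hBc, hBp, hPB⟩ := hS B hB
    have hz : Subgroup.zpowers b ≤ B := Subgroup.zpowers_le.2 hb
    have hq : ⁅⁅P, Subgroup.zpowers b⁆, Subgroup.zpowers b⁆ = ⊥ := by
      refine le_bot_iff.1 ((Subgroup.commutator_mono (Subgroup.commutator_mono le_rfl hz) hz).trans ?_)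
      refine (Subgroup.commutator_mono (show ⁅P, B⁆ ≤ B from by rw [Subgroup.commutator_comm]; exact Cfsg.Lib.Solv.commutator_le_of_normalizes hPB) le_rfl).trans
        (Subgroup.commutator_eq_bot_iff_le_centralizer.2 ?_).le
      exact fun c hc => Subgroup.mem_centralizer_iff.2 fun d hd =>
          congr_arg Subtype.val (hBc.is_comm.comm ⟨d, hd⟩ ⟨c, hc⟩)
    obtain ⟨M, hMn, hbM, hMp⟩ := Cfsg.Lib.Solv.quadratic_mem_normal hst P hP b hq
    refine Cfsg.Lib.Solv.le_pCore (hMn.map _ (QuotientGroup.mk'_surjective C)) ?_ (Subgroup.mem_map_of_mem _ hbM)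
    rintro ⟨_, m, hm, rfl⟩
    obtain ⟨k, hk⟩ := hMp m hm
    refine ⟨k, Subtype.ext ?_⟩
    show QuotientGroup.mk' C m ^ p ^ k = 1
    rw [← map_pow]
    exact (QuotientGroup.eq_one_iff _).2 hk
  refine ⟨Subgroup.map_le_iff_le_comap.2 hle, fun hO hle' => hle.trans ?_⟩
  have hCp : IsPGroup p C := by
    have hOC : Cfsg.pPrimeCore p C = ⊥ := by
      have h1 : (Cfsg.pPrimeCore p C).map C.subtype ≤ Cfsg.pPrimeCore p G := by
        refine Cfsg.Lib.Solv.le_pPrimeCore inferInstance ?_
        rw [Subgroup.card_map_of_injective C.subtype_injective]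
        exact Cfsg.Lib.Solv.coprime_pPrimeCore p
      rw [hO, le_bot_iff, Subgroup.map_eq_bot_iff_of_injective _ C.subtype_injective] at h1
      exact h1
    have h2 : (Cfsg.pCore p C).map C.subtype ≤ P := by
      refine le_trans (le_inf ?_ (Subgroup.map_subtype_le _)) hle'
      exact Cfsg.Lib.Solv.le_pCore inferInstance ((Cfsg.Lib.Solv.isPGroup_pCore (G := C) p).map _)
    have h3 : (⊤ : Subgroup C) ≤ Subgroup.centralizer (Cfsg.pCore p C : Set C) := fun c _ =>
      Subgroup.mem_centralizer_iff.2 fun d hd => Subtype.ext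
        (Subgroup.mem_centralizer_iff.1 c.2 (d : G) (h2 ⟨d, hd, rfl⟩))
    have h4 := h3.trans (Cfsg.Lib.Solv.centralizer_pCore_le (G := C) p hOC)
    exact IsPGroup.of_equiv (((Cfsg.Lib.Solv.isPGroup_pCore (G := C) p).to_le h4)) Subgroup.topEquiv
  refine Cfsg.Lib.Solv.le_pCore inferInstance ?_
  exact (Cfsg.Lib.Solv.isPGroup_pCore (G := G ⧸ C) p).comap_of_ker_isPGroup _ (by rwa [QuotientGroup.ker_mk'])

end Cfsg.Agent.S1465
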