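import Cfsg.Statements.S0042
import Mathlib
import Cfsg.Agent.Lib.Solv.Frobenius
import Cfsg.Agent.Lib.Solv.ThompsonKernel
-- import your own Cfsg.Agent.* helpers here

set_option autoImplicit false
open Cfsg

namespace Cfsg.Agent.S0042

/-- In a finite Frobenius group, the Frobenius kernel is (the carrier of) a normal subgroup which is nilpotent. -/
theorem result {G : Type*} [Group G] [Finite G] (H : Subgroup G) (hH : Cfsg.IsFrobeniusComplement H) :
    ∃ N : Subgroup G, (N : Set G) = Cfsg.frobeniusKernel H ∧ N.Normal ∧ Group.IsNilpotent N := by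
  obtain ⟨K, hKn, hKeq, hc⟩ := Cfsg.Lib.Solv.exists_frobeniusKernel hH
  haveI := hKn
  refine ⟨K, hKeq, hKn, ?_⟩
  haveI : Nontrivial H := (Subgroup.nontrivial_iff_ne_bot _).2 hH.1
  obtain ⟨r, hr, hrd⟩ := Nat.exists_prime_and_dvd (Finite.one_lt_card (α := H)).ne'
  haveI := Fact.mk hr
  obtain ⟨h, hh⟩ := exists_prime_orderOf_dvd_card' (G := H) r hrd
  have h1 : (h : G) ≠ 1 := fun e => by
    rw [← Subgroup.orderOf_coe, e, orderOf_one] at hh
    exact hr.ne_one hh.symm
  let φ : K ≃* K := (MulAut.conjNormal : G →* MulAut K) (h : G)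
  refine Cfsg.Lib.Solv.ThompsonKernel.fpf_isNilpotent (φ := φ) (r := r) ⟨hr, fun k hk => ?_, fun k => ?_⟩
  · have h2 : (h : G) * k * (h : G)⁻¹ = k := by
      have := congrArg Subtype.val hk
      simpa [φ, MulAut.conjNormal_apply] using this
    have h3 : (k : G) ∈ K ⊓ Subgroup.centralizer ({(h : G)} : Set G) :=
      ⟨k.2, Subgroup.mem_centralizer_singleton_iff.2 (mul_inv_eq_iff_eq_mul.1 h2).symm⟩
    rw [Cfsg.Lib.Solv.frob_fpf hH hc.disjoint.eq_bot h.2 h1, Subgroup.mem_bot] at h3
    exact Subtype.ext h3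
  · have hit : ∀ (n : ℕ) (z : K), φ^[n] z = (MulAut.conjNormal : G →* MulAut K) ((h : G) ^ n) z := by
      intro n
      induction n with
      | zero => intro z; simp
      | succ n ih =>
        intro z
        rw [Function.iterate_succ_apply, ih, pow_succ, map_mul]
        rfl
    rw [hit, ← hh, ← Subgroup.orderOf_coe, pow_orderOf_eq_one, map_one]
    rfl

end Cfsg.Agent.S0042
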