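import Cfsg.Statements.S0094
import Mathlib
import Cfsg.Agent.Lib.Transfer.PGroupFrattini
-- import your own Cfsg.Agent.* helpers here

set_option autoImplicit false
open Cfsg

namespace Cfsg.Agent.S0094

open scoped commutatorElement

/-- In a special p-group every central element has order dividing p. -/
theorem result {P : Type*} [Group P] [Finite P] {p : ℕ} [Fact p.Prime] (h : Cfsg.IsSpecial p P) (z : P) (hz : z ∈ Subgroup.center P) : z ^ p = 1 := by
  obtain ⟨hP, hfr, hcom⟩ := h
  rw [← hcom, commutator_eq_closure] at hz
  induction hz using Subgroup.closure_induction with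
  | mem w hw =>
    obtain ⟨a, b, rfl⟩ := hw
    have hc : ∀ u v : P, ⁅u, v⁆ ∈ Subgroup.center P := fun u v => by
      rw [← hcom, commutator_def]
      exact Subgroup.commutator_mem_commutator (Subgroup.mem_top u) (Subgroup.mem_top v)
    have key : ∀ n : ℕ, ⁅a ^ n, b⁆ = ⁅a, b⁆ ^ n := by
      intro n
      induction n with
      | zero => simp
      | succ n ih =>
        have e : ⁅a * a ^ n, b⁆ = a * ⁅a ^ n, b⁆ * a⁻¹ * ⁅a, b⁆ := by
          simp only [commutatorElement_def]; group
        rw [pow_succ', e, (Subgroup.mem_center_iff.1 (hc _ _) a), mul_inv_cancel_right, ih,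
          pow_succ]
    rw [← key, commutatorElement_eq_one_iff_mul_comm]
    have : a ^ p ∈ Subgroup.center P := hfr ▸ Lib.Transfer.pow_mem_frattini hP a
    exact (Subgroup.mem_center_iff.1 this b).symm
  | one => simp
  | mul u v hu hv iu iv =>
    rw [← commutator_eq_closure, hcom] at hu
    rw [(show Commute u v from (Subgroup.mem_center_iff.1 hu v).symm).mul_pow, iu, iv, one_mul]
  | inv u hu iu => rw [inv_pow, iu, inv_one]

end Cfsg.Agent.S0094
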