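import Cfsg.Statements.S0109
import Mathlib
import Cfsg.Agent.Lib.PLocal.ActionStableFree
import Cfsg.Agent.Lib.PLocal.QuadraticSection
import Cfsg.Agent.Lib.PLocal.Offender
import Cfsg.Agent.Lib.PLocal.Factorization
import Cfsg.Agent.Lib.Solv.MinNormal
import Cfsg.Agent.S0608
-- import your own Cfsg.Agent.* helpers here

set_option autoImplicit false
open Cfsg

namespace Cfsg.Agent.S0109

/-- The Thompson factorization Theorem for solvable groups states that, with p odd (and abelian Sylow 2-subgroups when p = 3) and no nontrivial normal subgroup of order prime to p, every element of G is a product of an element normalizing J(P) and an element centralizing the elements of order dividing p in the centre of P. -/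
theorem result {G : Type*} [Group G] [Finite G] {p : ℕ} [Fact p.Prime] (hp : p ≠ 2) (hs : Group.IsSolvable G) (h3 : p = 3 → ∀ T : Sylow 2 G, IsMulCommutative T) (hF : ∀ N : Subgroup G, N.Normal → Nat.Coprime (Nat.card N) p → N = ⊥) (P : Sylow p G) (g : G) : ∃ a ∈ Subgroup.normalizer (Cfsg.thompsonSubgroupOf p (P : Subgroup G) : Set G), ∃ c ∈ Subgroup.centralizer {x : G | x ∈ (P : Subgroup G) ∧ (∀ y ∈ (P : Subgroup G), x * y = y * x) ∧ x ^ p = 1}, g = a * c := by
  classical
  have hO : Cfsg.pPrimeCore p G = ⊥ :=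
    hF _ (Cfsg.Lib.Transfer.pPrimeCore_normal p) (Cfsg.Lib.Transfer.coprime_card_pPrimeCore p)
  have hfree : ¬ Cfsg.Involves ↥(Cfsg.qd p) G := by
    intro h
    obtain ⟨H, R, hn, ⟨e⟩⟩ := Cfsg.Lib.PLocal.QuadSection.sl_of_qd h
    by_cases hp3 : p = 3
    · obtain ⟨T⟩ := (inferInstance : Nonempty (Sylow 2 G))
      exact Cfsg.Lib.PLocal.QuadSection.sylow_not_comm hp H (e.toMonoidHom.comp (QuotientGroup.mk' (R.subgroupOf H)))
        (e.surjective.comp (QuotientGroup.mk'_surjective _)) T (h3 hp3 T)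
    · haveI := hs
      haveI : Group.IsSolvable (Matrix.SpecialLinearGroup (Fin 2) (ZMod p)) :=
        Group.isSolvable_of_surjective (f := e.toMonoidHom.comp (QuotientGroup.mk' (R.subgroupOf H)))
          (e.surjective.comp (QuotientGroup.mk'_surjective _))
      have h5 : 5 ≤ p := by
        have := (Fact.out : p.Prime).two_le
        by_contra h'
        interval_cases p <;> first | exact hp rfl | exact hp3 rfl | exact absurd (Fact.out : (4 : ℕ).Prime) (by norm_num)
      haveI : Nontrivial (Matrix.SpecialLinearGroup (Fin 2) (ZMod p)) := by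
        by_contra hne
        rw [not_nontrivial_iff_subsingleton] at hne
        obtain ⟨D, -, hD⟩ := Cfsg.Lib.PLocal.QuadSection.exists_nonabelian_twoGroup (p := p) hp
        exact hD ⟨⟨fun a b => Subsingleton.elim _ _⟩⟩
      refine (Group.IsSolvable.commutator_lt_top_of_nontrivial (Matrix.SpecialLinearGroup (Fin 2) (ZMod p))).ne ?_
      exact Cfsg.Lib.Classical.SLGroup.commutator_sl_eq_top (F := ZMod p) (ι := Fin 2) (Or.inr ⟨2, by
        intro h
        have : ((2 : ℕ) : ZMod p) = 0 := by exact_mod_cast h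
        rw [ZMod.natCast_eq_zero_iff] at this
        have := Nat.le_of_dvd two_pos this
        omega, by
        intro h
        have : ((3 : ℕ) : ZMod p) = 0 := by push_cast; linear_combination h
        rw [ZMod.natCast_eq_zero_iff] at this
        have := Nat.le_of_dvd three_pos this
        omega⟩)
  have hsc : Subgroup.centralizer (Cfsg.pCore p G : Set G) ≤ Cfsg.pCore p G := by
    rw [← Cfsg.Lib.Solv.fitting_eq_pCore p hO]
    haveI := hs
    exact Cfsg.Lib.Solv.centralizer_fitting_le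
  haveI := Cfsg.Lib.Transfer.pCore_normal (G := G) p
  set Y : Subgroup G := ⨆ T : Sylow p G, Cfsg.Lib.PLocal.omegaZ p (T : Subgroup G) with hY
  haveI : Y.Normal := Cfsg.Lib.PLocal.iSup_omegaZ_normal
  have hcore : ∀ T : Sylow p G, Cfsg.Lib.PLocal.omegaZ p (T : Subgroup G) ≤
      Cfsg.pCore p G ⊓ Subgroup.centralizer (Cfsg.pCore p G : Set G) := by
    intro T x hx
    have h1 := Cfsg.Lib.PLocal.omegaOne_le _ hx
    have h2 : x ∈ Subgroup.centralizer (Cfsg.pCore p G : Set G) :=
      Subgroup.centralizer_le (Cfsg.Lib.Transfer.pCore_le_sylow T) h1.2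
    exact ⟨hsc h2, h2⟩
  have hYe : Cfsg.IsElementaryAbelian p Y := by
    have hYcl : Y = Subgroup.closure (⋃ T : Sylow p G, {x : G | x ∈ (T : Subgroup G) ⊓ Subgroup.centralizer ((T : Subgroup G) : Set G) ∧ x ^ p = 1}) := by
      rw [hY, Subgroup.closure_iUnion]; rfl
    rw [hYcl]
    have hmem : ∀ (T : Sylow p G) (x : G), x ∈ (T : Subgroup G) ⊓ Subgroup.centralizer ((T : Subgroup G) : Set G) ∧ x ^ p = 1 →
        x ∈ Cfsg.pCore p G ⊓ Subgroup.centralizer (Cfsg.pCore p G : Set G) := fun T x hx =>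
      hcore T (Cfsg.Lib.PLocal.mem_omegaOne hx.1 hx.2)
    refine Cfsg.Lib.PLocal.elem_closure ?_ ?_
    · intro x hx y hy
      obtain ⟨T, hx⟩ := Set.mem_iUnion.1 hx
      obtain ⟨U, hy⟩ := Set.mem_iUnion.1 hy
      exact Subgroup.mem_centralizer_iff.1 (hmem U y hy).2 x (hmem T x hx).1
    · intro x hx
      obtain ⟨T, hx⟩ := Set.mem_iUnion.1 hx
      exact hx.2
  have hgen : Y ≤ ⨆ S : Sylow p G, Y ⊓ Subgroup.centralizer ((S : Subgroup G) : Set G) :=
    iSup_le fun T => le_iSup_of_le T (le_inf (le_iSup (fun T : Sylow p G => Cfsg.Lib.PLocal.omegaZ p (T : Subgroup G)) T)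
      ((Cfsg.Lib.PLocal.omegaOne_le _).trans inf_le_right))
  have hbot := Cfsg.Lib.PLocal.pCore_quotient_eq_bot Y hgen
  have hJ : Cfsg.thompsonSubgroup p G ≤ Subgroup.centralizer (Y : Set G) := by
    refine sSup_le fun A hA => ?_
    obtain ⟨-, hquad, hne⟩ := Cfsg.Lib.PLocal.thompson_replacement hYe hA
    rw [← Subgroup.commutator_eq_bot_iff_le_centralizer, Subgroup.commutator_comm]
    by_contra hA0
    refine hne hA0 ?_
    rw [Subgroup.commutator_comm, Subgroup.commutator_eq_bot_iff_le_centralizer]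
    intro a ha
    have hst := Cfsg.Lib.PLocal.stableOn_of_free hp hfree Y (Cfsg.Lib.PLocal.elem_isPGroup hYe) a
      (le_bot_iff.1 (le_trans (Subgroup.commutator_mono (Subgroup.commutator_mono le_rfl (Subgroup.zpowers_le.2 ha))
        (Subgroup.zpowers_le.2 ha)) hquad.le))
    rw [hbot, Subgroup.mem_bot, QuotientGroup.eq_one_iff] at hst
    exact hst
  obtain ⟨x, hx, c, hc, n, hn, he⟩ := (Cfsg.Agent.S0608.result hO).2 hJ P g⁻¹
  rw [hO, Subgroup.mem_bot] at hx
  subst hx
  rw [one_mul] at he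
  refine ⟨n⁻¹, inv_mem hn, c⁻¹, inv_mem (Subgroup.mem_centralizer_iff.2 fun z hz => ?_), by rw [← mul_inv_rev, ← he, inv_inv]⟩
  exact Subgroup.mem_centralizer_iff.1 hc z (Cfsg.Lib.PLocal.mem_omegaOne ⟨hz.1, Subgroup.mem_centralizer_iff.2 fun y hy => (hz.2.1 y hy).symm⟩ hz.2.2)

end Cfsg.Agent.S0109
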