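import Cfsg.Statements.S0253
import Mathlib
import Cfsg.Agent.Lib.Classical.LinearOrders
import Cfsg.Agent.Lib.Classical.SLGroup
import Cfsg.Agent.S4150

set_option autoImplicit false
open Cfsg
open scoped Matrix

namespace Cfsg.Agent.S0253

/-- PSL_2(5) is isomorphic to A_5. -/
theorem result {F : Type*} [Field F] [Fintype F] (hF : Fintype.card F = 5) : Nonempty (Matrix.ProjectiveSpecialLinearGroup (Fin 2) F ≃* alternatingGroup (Fin 5)) := by
  classical
  let α := Projectivization F (Fin 2 → F)
  have : Fintype α := Fintype.ofFinite α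
  let φ := MulAction.toPermHom (Matrix.ProjectiveSpecialLinearGroup (Fin 2) F) α
  have hinj : Function.Injective φ := MulAction.toPerm_injective
  have hα : Fintype.card α = 6 := by
    have h := Projectivization.card_of_finrank_two F (Fin 2 → F) (by simp)
    rw [Nat.card_eq_fintype_card, Nat.card_eq_fintype_card, hF] at h
    exact h
  have hcard : Nat.card (Matrix.ProjectiveSpecialLinearGroup (Fin 2) F) = 60 := by
    have h := Cfsg.Lib.Classical.LinearOrders.card_sl_mul (F := F) (n := 2) (by omega)
    have h2 := Cfsg.Lib.Classical.LinearOrders.card_psl_mul (F := F) (n := 2) (by omega)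
    rw [hF, Fin.prod_univ_two] at h
    rw [hF, show Nat.gcd 2 (5 - 1) = 2 from rfl] at h2
    have h' : (5 - 1) * Nat.card (Matrix.SpecialLinearGroup (Fin 2) F) = 480 := h
    omega
  have hr : Nat.card φ.range = 60 := by
    rw [← hcard]; exact (Nat.card_congr (MonoidHom.ofInjective hinj).toEquiv).symm
  haveI : Nontrivial α := Fintype.one_lt_card_iff_nontrivial.1 (by omega)
  -- the image consists of even permutations
  haveI hs : IsSimpleGroup (Matrix.ProjectiveSpecialLinearGroup (Fin 2) F) :=
    Cfsg.Lib.Classical.SLGroup.isSimpleGroup_psl (Or.inr ⟨2, by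
      have h5 : (5 : F) = 0 := by have := FiniteField.cast_card_eq_zero F; rw [hF] at this; exact_mod_cast this
      refine ⟨fun h => ?_, fun h => ?_⟩
      · exact one_ne_zero (α := F) (by linear_combination h5 - 2 * h)
      · exact one_ne_zero (α := F) (by linear_combination 2 * h - h5)⟩)
  have hsign : φ.range ≤ alternatingGroup α := by
    rintro _ ⟨g, rfl⟩
    rcases Subgroup.Normal.eq_bot_or_eq_top (MonoidHom.normal_ker (Equiv.Perm.sign.comp φ)) with h | h
    · have := Nat.card_le_card_of_injective _ ((MonoidHom.ker_eq_bot_iff _).1 h)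
      rw [hcard, Nat.card_eq_fintype_card] at this
      simp at this
    · exact MonoidHom.mem_ker.1 (show g ∈ (Equiv.Perm.sign.comp φ).ker by rw [h]; trivial)
  have hK : (φ.range.subgroupOf (alternatingGroup α)).index = 6 := by
    have h := (φ.range.subgroupOf (alternatingGroup α)).card_mul_index
    rw [Nat.card_congr (Subgroup.subgroupOfEquivOfLe hsign).toEquiv, hr, nat_card_alternatingGroup, Nat.card_eq_fintype_card, hα] at h
    simp [Nat.factorial] at h
    omega
  obtain ⟨e⟩ := Cfsg.Agent.S4150.iso_five hα _ hK
  exact ⟨((MonoidHom.ofInjective hinj).trans (Subgroup.subgroupOfEquivOfLe hsign).symm).trans e⟩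

end Cfsg.Agent.S0253
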