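import Cfsg.Statements.S0255
import Mathlib
import Cfsg.Agent.Lib.Classical.PSLSeven

set_option autoImplicit false
open Cfsg
open scoped Matrix

namespace Cfsg.Agent.S0255

/-- PSL_2(7) is isomorphic to PSL_3(2). -/
theorem result {F K : Type*} [Field F] [Fintype F] [Field K] [Fintype K] (hF : Fintype.card F = 7) (hK : Fintype.card K = 2) : Nonempty (Matrix.ProjectiveSpecialLinearGroup (Fin 2) F ≃* Matrix.ProjectiveSpecialLinearGroup (Fin 3) K) := by
  classical
  haveI : Fact (Nat.Prime 7) := ⟨by norm_num⟩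
  haveI : Fact (Nat.Prime 2) := ⟨Nat.prime_two⟩
  obtain ⟨φ⟩ := Cfsg.Lib.Classical.PermModule.exists_equiv (p := 7) hF
  obtain ⟨ψ⟩ := Cfsg.Lib.Classical.PermModule.exists_equiv (p := 2) hK
  obtain ⟨e1⟩ := Cfsg.Lib.Classical.PSLSeven.psl_congr 2 φ
  obtain ⟨e2⟩ := Cfsg.Lib.Classical.PSLSeven.nonempty_equiv
  obtain ⟨e3⟩ := Cfsg.Lib.Classical.PSLSeven.psl_congr 3 ψ
  have hc : Subgroup.center (Matrix.SpecialLinearGroup (Fin 3) (ZMod 2)) = ⊥ := by
    rw [← Subgroup.card_eq_one, Cfsg.Lib.Classical.LinearOrders.card_center_sl (by norm_num), ZMod.card]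
    rfl
  let e4 : Matrix.ProjectiveSpecialLinearGroup (Fin 3) (ZMod 2) ≃* Matrix.SpecialLinearGroup (Fin 3) (ZMod 2) :=
    (QuotientGroup.quotientMulEquivOfEq hc).trans QuotientGroup.quotientBot
  have hb : Function.Bijective (Matrix.SpecialLinearGroup.toGL : Matrix.SpecialLinearGroup (Fin 3) (ZMod 2) →* GL (Fin 3) (ZMod 2)) := by
    refine ⟨fun a b h => Subtype.ext (congrArg Units.val h), fun g => ⟨⟨g.1, ?_⟩, Units.ext rfl⟩⟩
    have := g.det_ne_zero
    revert this
    generalize g.1.det = d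
    revert d
    decide
  exact ⟨e1.symm.trans (e2.trans ((MulEquiv.ofBijective _ hb).symm.trans (e4.symm.trans e3)))⟩

end Cfsg.Agent.S0255
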