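import Cfsg.Statements.S0436
import Mathlib
import Cfsg.Agent.Lib.ThreeT.Basic

set_option autoImplicit false
open Cfsg

namespace Cfsg.Agent.S0436

/-- For distinct commuting members a, b of a set of 3-transpositions E, a member e of E centralises the product a * b if and only if it centralises both a and b. -/
theorem result {G : Type*} [Group G] {E : Set G} (hE : Cfsg.IsThreeTranspositionSet E) {a b e : G} (ha : a ∈ E) (hb : b ∈ E) (he : e ∈ E) (hab : a ≠ b) (hcomm : Commute a b) : Commute e (a * b) ↔ (Commute e a ∧ Commute e b) := by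
  refine ⟨fun h => ?_, fun ⟨h1, h2⟩ => h1.mul_right h2⟩
  have h2 : Commute e a := Lib.ThreeT.commute_left_of_commute_mul (hE.1 a ha) (hE.1 b hb) (hE.1 e he)
    hab hcomm (Lib.ThreeT.odd_or_two hE he ha) (Lib.ThreeT.odd_or_two hE he hb) h
  have h3 : Commute e b := Lib.ThreeT.commute_left_of_commute_mul (hE.1 b hb) (hE.1 a ha) (hE.1 e he)
    hab.symm hcomm.symm (Lib.ThreeT.odd_or_two hE he hb) (Lib.ThreeT.odd_or_two hE he ha)
    (hcomm.eq ▸ h)
  exact ⟨h2, h3⟩

end Cfsg.Agent.S0436
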