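import Cfsg.Statements.S0437
import Mathlib
import Cfsg.Agent.Lib.ThreeT.Basic

set_option autoImplicit false
open Cfsg

namespace Cfsg.Agent.S0437

/-- For three distinct, pairwise commuting members a, b, c of a set of 3-transpositions E, a member e of E centralises a * b * c if and only if it centralises each of a, b and c. -/
theorem result {G : Type*} [Group G] {E : Set G} (hE : Cfsg.IsThreeTranspositionSet E) {a b c e : G} (ha : a ∈ E) (hb : b ∈ E) (hc : c ∈ E) (he : e ∈ E) (hab : a ≠ b) (hac : a ≠ c) (hbc : b ≠ c) (h₁ : Commute a b) (h₂ : Commute a c) (h₃ : Commute b c) : Commute e (a * b * c) ↔ (Commute e a ∧ Commute e b ∧ Commute e c) := by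
  refine ⟨fun h => ?_, fun ⟨p, q, r⟩ => (p.mul_right q).mul_right r⟩
  have pair : ∀ {p q : G}, p ∈ E → q ∈ E → p ≠ q → Commute p q → Commute e (p * q) →
      Commute e p ∧ Commute e q := by
    intro p q hp hq hpq hc hh
    exact ⟨Lib.ThreeT.commute_left_of_commute_mul (hE.1 p hp) (hE.1 q hq) (hE.1 e he)
      hpq hc (Lib.ThreeT.odd_or_two hE he hp) (Lib.ThreeT.odd_or_two hE he hq) hh,
      Lib.ThreeT.commute_left_of_commute_mul (hE.1 q hq) (hE.1 p hp) (hE.1 e he)
      hpq.symm hc.symm (Lib.ThreeT.odd_or_two hE he hq) (Lib.ThreeT.odd_or_two hE he hp)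
      (hc.eq ▸ hh)⟩
  have ha2 := Lib.ThreeT.mul_self (hE.1 a ha)
  have hb2 := Lib.ThreeT.mul_self (hE.1 b hb)
  have hc2 := Lib.ThreeT.mul_self (hE.1 c hc)
  have he2 := Lib.ThreeT.mul_self (hE.1 e he)
  by_cases hea : Commute e a
  · have : Commute e (b * c) := by
      have := (hea.inv_right).mul_right h
      rwa [mul_assoc a b c, ← mul_assoc, inv_mul_cancel, one_mul] at this
    exact ⟨hea, pair hb hc hbc h₃ this⟩
  by_cases heb : Commute e b
  · have : Commute e (a * c) := by
      have := (heb.inv_right).mul_right h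
      rwa [h₁.eq, mul_assoc b a c, ← mul_assoc, inv_mul_cancel, one_mul] at this
    exact ⟨(pair ha hc hac h₂ this).1, heb, (pair ha hc hac h₂ this).2⟩
  by_cases hec : Commute e c
  · have : Commute e (a * b) := by
      have := h.mul_right hec.inv_right
      rwa [mul_inv_cancel_right] at this
    exact ⟨(pair ha hb hab h₁ this).1, (pair ha hb hab h₁ this).2, hec⟩
  exfalso
  apply hec
  have Ba := Lib.ThreeT.braid hE he ha hea
  have Bb := Lib.ThreeT.braid hE he hb heb
  have Bc := Lib.ThreeT.braid hE hc he (fun h' => hec h'.symm)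
  have h12 : b * a = a * b := h₁.eq.symm
  simp only [mul_assoc] at Ba Bb Bc
  -- `c e c = ab e ab`
  have h1 : a * (b * (e * (a * b))) = c * (e * c) := by
    have h' : e * (a * b * c) = a * b * c * e := h.eq
    have h2' : a * b * c = c * (a * b) := (h₂.symm.mul_right h₃.symm).eq.symm
    have hw : (a * b) * (a * b) = 1 := by
      rw [mul_assoc, ← mul_assoc b a, h12, mul_assoc, ← mul_assoc a a, ha2, one_mul, hb2]
    calc a * (b * (e * (a * b))) = c * (c * (a * b)) * e * (a * b) := by
          rw [Lib.ThreeT.cancel hc2]; simp only [mul_assoc]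
      _ = c * (e * (a * b * c)) * (a * b) := by rw [h', h2']; simp only [mul_assoc]
      _ = c * e * (a * b * c * (a * b)) := by simp only [mul_assoc]
      _ = c * e * (c * ((a * b) * (a * b))) := by rw [h2']; simp only [mul_assoc]
      _ = c * (e * c) := by rw [hw, mul_one, mul_assoc]
  have hw' : e * (a * b) * e = a * (e * (a * (b * (e * b)))) := by
    calc e * (a * b) * e = (e * (a * e)) * (e * (b * e)) := by
          simp only [mul_assoc, Lib.ThreeT.cancel he2]
      _ = a * (e * a) * (b * (e * b)) := by rw [Ba, Bb]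
      _ = _ := by simp only [mul_assoc]
  -- the product of `ab` and its conjugate by `e` commutes with the two of them
  have key : e * (a * b) * e * (a * b) = a * b * (e * (a * b) * e) := by
    rw [hw']
    calc a * (e * (a * (b * (e * b)))) * (a * b)
        = a * (e * (a * (b * (e * (a * (b * b)))))) := by
          simp only [mul_assoc]; rw [← mul_assoc b a, h12, mul_assoc]
      _ = a * (e * (b * (a * (e * a)))) := by
          rw [hb2, mul_one, ← mul_assoc a b, ← h12, mul_assoc]
      _ = a * ((e * (b * e)) * (a * e)) := by rw [← Ba]; simp only [mul_assoc]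
      _ = a * (b * (e * (b * (a * e)))) := by rw [Bb]; simp only [mul_assoc]
      _ = a * (b * (e * (a * (b * e)))) := by rw [← mul_assoc b a, h12, mul_assoc]
      _ = a * (b * (a * (e * (a * (b * (e * b)))))) := by
          congr 2
          rw [← hw']; simp only [mul_assoc]
      _ = a * b * (a * (e * (a * (b * (e * b))))) := by simp only [mul_assoc]
  have k1 : e * (c * (e * c)) = c * (e * c) * e := by
    rw [← h1]
    calc e * (a * (b * (e * (a * b)))) = e * (a * b) * e * (a * b) := by simp only [mul_assoc]
      _ = a * b * (e * (a * b) * e) := key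
      _ = _ := by simp only [mul_assoc]
  rw [Bc] at k1
  simp only [mul_assoc, he2, mul_one, Lib.ThreeT.cancel he2] at k1
  exact k1.symm

end Cfsg.Agent.S0437
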