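import Mathlib
import Cfsg.Statements.S0447
import Cfsg.Agent.Lib.Stem.DoubleCoverEight
import Cfsg.Agent.Lib.Solv.Gaschutz

set_option autoImplicit false
open Cfsg

namespace Cfsg.Agent.S0447

open Equiv

theorem cycleType_double {n : ℕ} (hn : n ≤ 7) {u : Perm (Fin n)} (hu : u ∈ alternatingGroup (Fin n)) (h1 : u ≠ 1)
    (h2 : u * u = 1) : u.cycleType = Multiset.replicate 2 2 := by
  haveI : Fact (Nat.Prime 2) := ⟨Nat.prime_two⟩
  have h22 : orderOf u = 2 := orderOf_eq_prime (by rw [pow_two, h2]) h1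
  obtain ⟨k, hk⟩ := Equiv.Perm.cycleType_prime_order (h22.symm ▸ Nat.prime_two)
  rw [h22] at hk
  have hsum : u.cycleType.sum ≤ n := by
    rw [Equiv.Perm.sum_cycleType]
    exact (Finset.card_le_univ _).trans (Fintype.card_fin n).le
  have hs := Equiv.Perm.mem_alternatingGroup.1 hu
  rw [Equiv.Perm.sign_of_cycleType, hk] at hs
  rw [hk, Multiset.sum_replicate, smul_eq_mul] at hsum
  rcases (by omega : k = 0 ∨ k = 1 ∨ k = 2) with rfl | rfl | rfl
  · exfalso
    revert hs
    simp only [Multiset.sum_replicate, Multiset.card_replicate, smul_eq_mul]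
    decide
  · exact hk
  · exfalso
    revert hs
    simp only [Multiset.sum_replicate, Multiset.card_replicate, smul_eq_mul]
    decide

/-- The shape of the dihedral two-subgroup. -/
def shape {G : Type*} [Group G] (a c : G) {m : ℕ} (w : Fin m × Bool) : G :=
  c ^ w.1.val * bif w.2 then a else 1

theorem no_involution_lift {H : Type} [Group H] [Finite H] {n : ℕ} (hn : n ≤ 7)
    (φ : H →* alternatingGroup (Fin n)) (hsurj : Function.Surjective φ) (hker : φ.ker = Subgroup.center H)
    (hc : Nat.card (Subgroup.center H) = 2) (hns : ∀ L : Subgroup H, ¬ (Subgroup.center H).IsComplement' L)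
    (p q : Fin n) (hpq : p ≠ q) (s t : alternatingGroup (Fin n)) (hcomm : swap p q * (s : Perm (Fin n)) = s * swap p q)
    (hs : s * s = 1) (hs1 : s ≠ 1) (ht : t * t = 1) (ht1 : t ≠ 1) (m : ℕ) (hm : 0 < m) (hm2 : 2 ∣ m)
    (hstm : (s * t) ^ m = 1) (hinj : Function.Injective (shape s (s * t) : Fin m × Bool → alternatingGroup (Fin n)))
    (hodd : ∀ d, d * (2 * m) = Nat.card (alternatingGroup (Fin n)) → d % 2 = 1)
    (x : H) (hx : x * x = 1) (hx1 : φ x ≠ 1) : False := by
  classical
  have hz : ∀ h : H, φ h = 1 → h ∈ Subgroup.center H := fun h hh => hker.le (MonoidHom.mem_ker.2 hh)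
  have hsq : ∀ c ∈ Subgroup.center H, c * c = 1 := fun c hc' => by
    have := orderOf_dvd_natCard (⟨c, hc'⟩ : Subgroup.center H)
    rw [hc] at this
    have h := congrArg Subtype.val (orderOf_dvd_iff_pow_eq_one.1 this)
    simpa [pow_two] using h
  have hprod : ∀ (h c : H), c ∈ Subgroup.center H → h * h = 1 → h * c * (h * c) = 1 := fun h c hc' hh => by
    rw [mul_assoc h c, ← mul_assoc c h c, ← Subgroup.mem_center_iff.1 hc' h, mul_assoc h c c, hsq c hc', mul_one, hh]
  -- every element over an involution squares to one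
  have hbase : ∀ u : alternatingGroup (Fin n), u ≠ 1 → u * u = 1 → ∀ h : H, φ h = u → h * h = 1 := by
    intro u hu1 hu h hh
    have hxx : φ x * φ x = 1 := by rw [← map_mul, hx, map_one]
    have ty : ∀ v : alternatingGroup (Fin n), v ≠ 1 → v * v = 1 →
        (v : Perm (Fin n)).cycleType = Multiset.replicate 2 2 := fun v h1 h2 =>
      cycleType_double hn v.2 (fun e => h1 (Subtype.ext e)) (congrArg Subtype.val h2)
    have conj : ∀ v : alternatingGroup (Fin n), v ≠ 1 → v * v = 1 → ∃ g, g * s * g⁻¹ = v := by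
      intro v h1 h2
      obtain ⟨g, hg⟩ := isConj_iff.1 (Equiv.Perm.isConj_iff_cycleType_eq.2 ((ty s hs1 hs).trans (ty v h1 h2).symm))
      rcases Int.units_eq_one_or (Equiv.Perm.sign g) with hgs | hgs
      · exact ⟨⟨g, Equiv.Perm.mem_alternatingGroup.2 hgs⟩, Subtype.ext hg⟩
      · refine ⟨⟨g * swap p q, Equiv.Perm.mem_alternatingGroup.2 ?_⟩, Subtype.ext ?_⟩
        · rw [map_mul, hgs, Equiv.Perm.sign_swap hpq]; rfl
        · show g * swap p q * (s : Perm (Fin n)) * (g * swap p q)⁻¹ = v
          rw [← hg, mul_assoc g, hcomm, mul_inv_rev, swap_inv]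
          simp [mul_assoc]
    obtain ⟨g1, hg1⟩ := conj (φ x) hx1 hxx
    obtain ⟨g2, hg2⟩ := conj u hu1 hu
    obtain ⟨k, hk⟩ := hsurj (g2 * g1⁻¹)
    have hy : k * x * k⁻¹ * (k * x * k⁻¹) = 1 := by
      simp only [mul_assoc, inv_mul_cancel_left]; rw [← mul_assoc x x, hx, one_mul, mul_inv_cancel]
    have hd : (k * x * k⁻¹)⁻¹ * h ∈ Subgroup.center H := hz _ (by
      rw [map_mul, map_inv, map_mul, map_mul, map_inv, hk, hh, ← hg1, ← hg2]; group)
    have := hprod _ _ hd hy
    rwa [mul_inv_cancel_left] at this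
  obtain ⟨a, ha⟩ := hsurj s
  obtain ⟨b, hb⟩ := hsurj t
  have ha2 := hbase s hs1 hs a ha
  have hb2 := hbase t ht1 ht b hb
  set c := a * b with hcdef
  have hφc : φ c = s * t := by rw [hcdef, map_mul, ha, hb]
  have hcm : c ^ m = 1 := by
    obtain ⟨j, hj⟩ := hm2
    have hju : φ (c ^ j) ≠ 1 := by
      rw [map_pow, hφc]
      intro h
      have := @hinj (⟨j, by omega⟩, false) (⟨0, hm⟩, false) (by simp [shape, h])
      simp only [Prod.mk.injEq, Fin.mk.injEq, and_true] at this
      omega
    have := hbase (φ (c ^ j)) hju (by rw [map_pow, hφc, ← pow_add, ← two_mul, ← hj, hstm]) _ rfl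
    rwa [← pow_add, ← two_mul, ← hj] at this
  have hac : a * c = c⁻¹ * a := by
    have hainv : a⁻¹ = a := inv_eq_of_mul_eq_one_right ha2
    have hbinv : b⁻¹ = b := inv_eq_of_mul_eq_one_right hb2
    rw [hcdef, mul_inv_rev, hainv, hbinv, ← mul_assoc, ha2, one_mul, mul_assoc, ha2, mul_one]
  have hconj : ∀ i : ℤ, a * c ^ i = c ^ (-i) * a := fun i => by
    rw [zpow_neg, ← inv_zpow]
    exact (show SemiconjBy a c c⁻¹ from hac).zpow_right i
  have hnorm : ∀ i : ℤ, ∃ j : Fin m, c ^ i = c ^ (j : ℕ) := by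
    intro i
    refine ⟨⟨(i % (m : ℤ)).toNat, ?_⟩, ?_⟩
    · have := Int.emod_lt_of_pos i (show (0 : ℤ) < m by omega)
      omega
    · rw [← zpow_natCast, Int.toNat_of_nonneg (Int.emod_nonneg _ (by omega))]
      conv_lhs => rw [← Int.emod_add_mul_ediv i m, zpow_add, zpow_mul, zpow_natCast, hcm, one_zpow, mul_one]
  -- the dihedral subgroup
  let A : Subgroup H :=
    { carrier := {h | ∃ (i : ℤ) (e : Bool), h = c ^ i * bif e then a else 1}
      one_mem' := ⟨0, false, by simp⟩
      mul_mem' := by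
        rintro _ _ ⟨i, e, rfl⟩ ⟨j, e', rfl⟩
        cases e
        · exact ⟨i + j, e', by rw [cond_false, mul_one, zpow_add, mul_assoc]⟩
        · refine ⟨i + -j, !e', ?_⟩
          rw [cond_true, mul_assoc, ← mul_assoc a, hconj, zpow_add, mul_assoc, mul_assoc]
          cases e' <;> simp [ha2]
      inv_mem' := by
        rintro _ ⟨i, e, rfl⟩
        cases e
        · exact ⟨-i, false, by simp⟩
        · refine ⟨i, true, inv_eq_of_mul_eq_one_right ?_⟩
          rw [cond_true, mul_assoc, ← mul_assoc a, hconj, mul_assoc, ha2, mul_one, ← zpow_add, add_neg_cancel,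
            zpow_zero] }
  have hφshape : ∀ w : Fin m × Bool, φ (shape a c w) = shape s (s * t) w := by
    rintro ⟨i, e⟩
    cases e <;> simp [shape, map_mul, map_pow, hφc, ha]
  have memA : ∀ h, h ∈ A → ∃ w : Fin m × Bool, shape a c w = h := by
    rintro h ⟨i, e, rfl⟩
    obtain ⟨j, hj⟩ := hnorm i
    exact ⟨(j, e), by rw [hj]; rfl⟩
  have hAK : A ⊓ Subgroup.center H = ⊥ := by
    rw [eq_bot_iff]
    rintro h ⟨hA, hh⟩
    obtain ⟨w, rfl⟩ := memA h hA
    have h1 : shape s (s * t) w = shape s (s * t) ((⟨0, hm⟩, false) : Fin m × Bool) := by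
      rw [← hφshape, MonoidHom.mem_ker.1 (hker.ge hh)]; simp [shape]
    rw [hinj h1, Subgroup.mem_bot]
    simp [shape]
  have hmap : Nat.card (A.map φ) = 2 * m := by
    have hbij : Function.Bijective (fun w : Fin m × Bool =>
        (⟨φ (shape a c w), shape a c w, ⟨(w.1.val : ℤ), w.2, by simp [shape]⟩, rfl⟩ : A.map φ)) :=
      ⟨fun u v h => hinj (by rw [← hφshape, ← hφshape]; exact congrArg Subtype.val h), fun ⟨g, h, hA, hg⟩ => by
        obtain ⟨w, rfl⟩ := memA h hA
        exact ⟨w, Subtype.ext hg⟩⟩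
    rw [← Nat.card_congr (Equiv.ofBijective _ hbij)]
    simp [mul_comm]
  have hidx : (Subgroup.center H ⊔ A).index = (A.map φ).index := by
    rw [← hker, sup_comm, ← Subgroup.comap_map_eq, Subgroup.index_comap_of_surjective _ hsurj]
  have hcop : (Nat.card (Subgroup.center H)).Coprime (Subgroup.center H ⊔ A).index := by
    rw [hc, hidx, Nat.coprime_two_left, Nat.odd_iff]
    exact hodd _ (by rw [← hmap]; exact (A.map φ).index_mul_card)
  obtain ⟨L, hL⟩ := Cfsg.Lib.Solv.Gaschutz.complement_exists (Subgroup.center H ⊔ A) le_sup_left hcop A hAK rfl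
  exact hns L hL

theorem unique_involution {H : Type} [Group H] [Finite H] {n : ℕ} (hn : n ≤ 7)
    (hH : Cfsg.IsNonsplitDoubleCover H (alternatingGroup (Fin n))) (x : H) (hx : orderOf x = 2) :
    x ∈ Subgroup.center H := by
  haveI : Fact (Nat.Prime 2) := ⟨Nat.prime_two⟩
  obtain ⟨hc, ⟨e⟩, hns⟩ := hH
  set φ : H →* alternatingGroup (Fin n) := e.toMonoidHom.comp (QuotientGroup.mk' _) with hφ
  have hsurj : Function.Surjective φ := e.surjective.comp (QuotientGroup.mk'_surjective _)
  have hker : φ.ker = Subgroup.center H := by ext h; simp [hφ]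
  by_contra hxc
  have hx1 : φ x ≠ 1 := fun h => hxc (hker.le (MonoidHom.mem_ker.2 h))
  have hx2 : x * x = 1 := by rw [← pow_two, ← hx, pow_orderOf_eq_one]
  have hd : orderOf (φ x) = 2 := orderOf_eq_prime (by rw [← map_pow, pow_two, hx2, map_one]) hx1
  have hdvd := hd ▸ orderOf_dvd_natCard (φ x)
  rcases (by omega : n < 4 ∨ n = 4 ∨ n = 5 ∨ n = 6 ∨ n = 7) with h | h | h | h | h
  · interval_cases n <;> rw [Nat.card_eq_fintype_card] at hdvd <;> revert hdvd <;> decide +kernel
  all_goals subst h
  all_goals first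
    | exact no_involution_lift hn φ hsurj hker hc hns 0 1 (by decide) ⟨swap 0 1 * swap 2 3, Equiv.Perm.mem_alternatingGroup.2 (by decide +kernel)⟩
        ⟨swap 0 2 * swap 1 3, Equiv.Perm.mem_alternatingGroup.2 (by decide +kernel)⟩ (by decide +kernel) (by decide +kernel) (by decide +kernel)
        (by decide +kernel) (by decide +kernel) 2 two_pos dvd_rfl (by decide +kernel)
        (by intro u v; revert u v; decide +kernel)
        (fun d hd' => by rw [Nat.card_eq_fintype_card, card_alternatingGroup, Fintype.card_fin] at hd'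
                         norm_num [Nat.factorial] at hd'; omega) x hx2 hx1
    | exact no_involution_lift hn φ hsurj hker hc hns 0 1 (by decide) ⟨swap 0 1 * swap 2 3, Equiv.Perm.mem_alternatingGroup.2 (by decide +kernel)⟩
        ⟨swap 0 2 * swap 4 5, Equiv.Perm.mem_alternatingGroup.2 (by decide +kernel)⟩ (by decide +kernel) (by decide +kernel) (by decide +kernel)
        (by decide +kernel) (by decide +kernel) 4 (by norm_num) (by norm_num) (by decide +kernel)
        (by intro u v; revert u v; decide +kernel)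
        (fun d hd' => by rw [Nat.card_eq_fintype_card, card_alternatingGroup, Fintype.card_fin] at hd'
                         norm_num [Nat.factorial] at hd'; omega) x hx2 hx1

/-- Involutions in double covers of alternating groups: for n ≤ 7, a finite non-split double cover of the alternating group of degree n has exactly one element of order 2 (the central one); for degree 8 there is a non-split double cover with two distinct involutions. -/
theorem result : (∀ (n : ℕ) (H : Type) (_ : Group H) (_ : Finite H), n ≤ 7 → Cfsg.IsNonsplitDoubleCover H (alternatingGroup (Fin n)) → ∀ x y : H, orderOf x = 2 → orderOf y = 2 → x = y) ∧ ∃ (H : Type) (_ : Group H) (_ : Finite H), Cfsg.IsNonsplitDoubleCover H (alternatingGroup (Fin 8)) ∧ ∃ x y : H, x ≠ y ∧ orderOf x = 2 ∧ orderOf y = 2 := by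
  refine ⟨fun n H _ _ hn hH x y hx hy => ?_, Cfsg.Lib.DoubleCoverEight.H, inferInstance, inferInstance,
    Cfsg.Lib.DoubleCoverEight.spec⟩
  have hxc := unique_involution hn hH x hx
  have hyc := unique_involution hn hH y hy
  obtain ⟨u, v, huv, huniv⟩ := Nat.card_eq_two_iff.1 hH.1
  have hne : ∀ w : H, orderOf w = 2 → ∀ hw : w ∈ Subgroup.center H, (⟨w, hw⟩ : Subgroup.center H) ≠ 1 :=
    fun w h2 hw h => by
      have : w = 1 := congrArg Subtype.val h
      rw [this, orderOf_one] at h2
      exact absurd h2 (by decide)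
  have mem : ∀ w : Subgroup.center H, w = u ∨ w = v := fun w => by
    simpa using huniv.ge (Set.mem_univ w)
  apply congrArg Subtype.val (show (⟨x, hxc⟩ : Subgroup.center H) = ⟨y, hyc⟩ from ?_)
  rcases mem 1 with h | h <;> rcases mem ⟨x, hxc⟩ with a | a <;> rcases mem ⟨y, hyc⟩ with b | b
  all_goals first | exact a.trans b.symm | exact absurd (a.trans h.symm) (hne x hx hxc) | exact absurd (b.trans h.symm) (hne y hy hyc)

end Cfsg.Agent.S0447
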