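import Cfsg.Statements.S4068
import Cfsg.Agent.Lib.Solv.PrimeOrdersTI
import Cfsg.Agent.Lib.Solv.FiveHundredFour
import Cfsg.Agent.Lib.Invol.Counting

set_option autoImplicit false
open Cfsg

namespace Cfsg.Agent.S4068

open Cfsg.Lib.Solv Cfsg.Lib.Solv.PrimeOrders

theorem factor_three_plus {n b : ℕ} (h : 2 ^ n + 1 = 3 ^ b) : n ≤ 3 := by
  by_contra hn
  have h8 : (3 : ℕ) ^ b % 8 = 1 := by
    rw [← h, Nat.add_mod, show 2 ^ n = 8 * 2 ^ (n - 3) by rw [show (8 : ℕ) = 2 ^ 3 from rfl, ← pow_add]; congr 1; omega,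
      Nat.mul_mod_right]
  obtain ⟨c, rfl⟩ : 2 ∣ b := by
    by_contra hb
    obtain ⟨c, rfl⟩ : ∃ c, b = 2 * c + 1 := ⟨b / 2, by omega⟩
    rw [pow_succ, pow_mul, Nat.mul_mod, Nat.pow_mod] at h8
    norm_num at h8
  have h1 : (3 ^ c + 1) * (3 ^ c - 1) = 2 ^ n := by
    rw [← Nat.sq_sub_sq, ← pow_mul, mul_comm c, ← h, one_pow, Nat.add_sub_cancel]
  obtain ⟨i, -, hi⟩ := (Nat.dvd_prime_pow Nat.prime_two).1 (Dvd.intro _ h1)
  obtain ⟨j, -, hj⟩ := (Nat.dvd_prime_pow Nat.prime_two).1 (Dvd.intro_left _ h1)
  have hc : 1 ≤ 3 ^ c := Nat.one_le_pow _ _ (by norm_num)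
  have hij : 2 ^ i = 2 ^ j + 2 := by omega
  have hj1 : j ≤ 1 := by
    by_contra hj2
    obtain ⟨j', rfl⟩ : ∃ j', j = j' + 2 := ⟨j - 2, by omega⟩
    rcases i with _ | _ | i
    · simp at hij
    · simp at hij
    · rw [pow_succ, pow_succ, pow_add] at hij; omega
  have h2 : 2 ^ n = 2 ^ (i + j) := by rw [pow_add, ← hi, ← hj, h1]
  have h3 := Nat.pow_right_injective le_rfl h2
  have h4 : 2 ^ j ≤ 2 := by interval_cases j <;> norm_num
  have h5 : 2 ^ i ≤ 2 ^ 2 := by norm_num; omega
  have := (Nat.pow_le_pow_iff_right one_lt_two).1 h5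
  omega

theorem factor_three_minus {n a : ℕ} (h : 2 ^ n = 3 ^ a + 1) : n ≤ 2 := by
  by_contra hn
  have h8 : 2 ^ n % 8 = 0 := by
    rw [show 2 ^ n = 8 * 2 ^ (n - 3) by rw [show (8 : ℕ) = 2 ^ 3 from rfl, ← pow_add]; congr 1; omega,
      Nat.mul_mod_right]
  rw [h] at h8
  obtain ⟨c, rfl | rfl⟩ := Nat.even_or_odd' a
  · rw [Nat.add_mod, pow_mul, Nat.pow_mod] at h8
    norm_num at h8
  · rw [Nat.add_mod, pow_succ, pow_mul, Nat.mul_mod, Nat.pow_mod] at h8
    norm_num at h8

theorem two_real {h A B m : ℕ} (hh : 2 ≤ h) (hm : m + 1 = 2 * h) (hA : 0 < A) (hdvd : m ∣ A)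
    (he : A * B + 1 = h * A + h * B) : A = m ∧ B = 2 * h + 1 := by
  obtain ⟨k, rfl⟩ := hdvd
  have hk : 1 ≤ k := by rcases Nat.eq_zero_or_pos k with rfl | hk <;> first | omega | simp at hA
  zify at hh hm he hk ⊢
  set d : ℤ := (B : ℤ) - h with hd
  have e1 : ((m : ℤ) * k - h) * d = (h : ℤ) ^ 2 - 1 := by rw [hd]; linear_combination he
  have hm' : (m : ℤ) = 2 * h - 1 := by linarith
  have hA' : (h : ℤ) - 1 ≤ (m : ℤ) * k - h := by nlinarith
  have hd0 : 0 < d := by
    by_contra hd0
    nlinarith
  have hdiv : (m : ℤ) ∣ 2 * d - 3 :=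
    ⟨4 * k * d - 2 * d - (m : ℤ) - 2, by rw [hm'] at e1 ⊢; linear_combination (-4) * e1⟩
  have hd1 : (h : ℤ) + 1 ≤ d := by
    rcases lt_trichotomy (2 * d - 3) 0 with hlt | heq | hgt
    · have hd1' : d = 1 := by omega
      rw [hd1'] at hdiv
      norm_num at hdiv
      have := Int.le_of_dvd one_pos hdiv
      omega
    · omega
    · have := Int.le_of_dvd hgt hdiv
      omega
  have hk1 : (k : ℤ) = 1 := by nlinarith
  rw [hk1, mul_one] at e1
  have : d = h + 1 := by
    have h0 : ((h : ℤ) - 1) * (d - (h + 1)) = 0 := by rw [hm'] at e1; linear_combination e1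
    rcases mul_eq_zero.1 h0 with h0 | h0 <;> linarith
  refine ⟨by exact_mod_cast (by rw [hk1, mul_one] : (m : ℤ) * k = m), by linarith⟩

theorem one_real {h A B m : ℕ} (hh : 2 ≤ h) (hm : m + 1 = 2 * h) (hdvd : m ∣ A * B) (hA : 1 < A)
    (hcopA : A.Coprime B) (he : A * B + 1 = h * A + h) : False := by
  have hA1 : A ∣ h - 1 := by
    have h1 : A ∣ h * A + (h - 1) := ⟨B, by omega⟩
    exact (Nat.dvd_add_right (dvd_mul_left A h)).1 h1
  have hAle : A ≤ h - 1 := Nat.le_of_dvd (by omega) hA1
  have hcop : Nat.Coprime m A := by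
    refine (Nat.Coprime.coprime_dvd_right hA1 ?_)
    rw [show m = 1 + 2 * (h - 1) by omega, Nat.coprime_add_mul_right_left]
    exact Nat.coprime_one_left _
  have hmB : m ≤ B := Nat.le_of_dvd (by rcases Nat.eq_zero_or_pos B with rfl | hB <;> simp_all) (hcop.dvd_of_dvd_mul_left hdvd)
  nlinarith

theorem iso_alternating_of_card_sixty {G : Type*} [Group G] [Finite G] [IsSimpleGroup G]
    (hG : Nat.card G = 60) {H : Subgroup G} (hH : H.index = 5) : Nonempty (G ≃* alternatingGroup (Fin 5)) := by
  classical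
  have hne : H ≠ ⊤ := fun e => by rw [e, Subgroup.index_top] at hH; omega
  let φ := MulAction.toPermHom G (G ⧸ H)
  have hinj : Function.Injective φ := by
    rw [← MonoidHom.ker_eq_bot_iff]
    refine ((inferInstance : φ.ker.Normal).eq_bot_or_eq_top).resolve_right ?_
    intro e
    apply hne
    rw [eq_top_iff, ← e, ← Subgroup.normalCore_eq_ker]
    exact H.normalCore_le
  let eq5 := Finite.equivFinOfCardEq (show Nat.card (G ⧸ H) = 5 by rw [← H.index_eq_card]; exact hH)
  let ψ : G →* Equiv.Perm (Fin 5) := (Equiv.permCongrHom eq5).toMonoidHom.comp φ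
  have hψ : Function.Injective ψ := (Equiv.permCongrHom eq5).injective.comp hinj
  have hrange : ψ.range = alternatingGroup (Fin 5) := by
    refine Equiv.Perm.eq_alternatingGroup_of_index_eq_two ?_
    have h1 := ψ.range.card_mul_index
    rw [← Nat.card_congr (MonoidHom.ofInjective hψ).toEquiv, hG, Nat.card_perm, Nat.card_fin] at h1
    norm_num [Nat.factorial] at h1
    omega
  exact ⟨(MonoidHom.ofInjective hψ).trans (MulEquiv.subgroupCongr hrange)⟩

/-- A finite non-solvable group on which its automorphism group has exactly four orbits is isomorphic to the alternating group of degree 5. -/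
theorem result {G : Type*} [Group G] [Finite G] (hns : ¬ Group.IsSolvable G)
    (h4 : Nat.card (MulAction.orbitRel.Quotient (MulAut G) G) = 4) : Nonempty (G ≃* alternatingGroup (Fin 5)) := by
  classical
  haveI := Fintype.ofFinite G
  -- the four orbits are determined by the order
  have h3le : 3 ≤ (Nat.card G).primeFactors.card := by
    by_contra hlt
    refine hns ?_
    obtain ⟨p, q, hp, hq, hsub⟩ : ∃ p q : ℕ, p.Prime ∧ q.Prime ∧ (Nat.card G).primeFactors ⊆ {p, q} := by
      rcases Nat.lt_or_ge (Nat.card G).primeFactors.card 2 with h1 | h1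
      · rcases (Nat.card G).primeFactors.eq_empty_or_nonempty with h0 | ⟨p, hp⟩
        · exact ⟨2, 2, Nat.prime_two, Nat.prime_two, by simp [h0, -Nat.card_eq_fintype_card]⟩
        · refine ⟨p, p, Nat.prime_of_mem_primeFactors hp, Nat.prime_of_mem_primeFactors hp, fun x hx => ?_⟩
          simp [Finset.card_le_one.1 (by omega) x hx p hp]
      · obtain ⟨p, q, -, he⟩ := Finset.card_eq_two.1 (show (Nat.card G).primeFactors.card = 2 by omega)
        exact ⟨p, q, Nat.prime_of_mem_primeFactors (he ▸ Finset.mem_insert_self _ _),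
          Nat.prime_of_mem_primeFactors (he ▸ Finset.mem_insert_of_mem (Finset.mem_singleton_self _)), he.le⟩
    refine Cfsg.Lib.Characters.isSolvable_of_card_eq_pow_mul_pow hp hq _ G rfl ?_
    by_cases hpq : p = q
    · subst hpq
      refine ⟨(Nat.card G).primeFactorsList.length, 0, ?_⟩
      rw [pow_zero, mul_one]
      refine Nat.eq_prime_pow_of_unique_prime_dvd Nat.card_pos.ne' fun {r} hr hrd => ?_
      simpa using hsub (Nat.mem_primeFactors.2 ⟨hr, hrd, Nat.card_pos.ne'⟩)
    · refine ⟨(Nat.card G).factorization p, (Nat.card G).factorization q, ?_⟩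
      conv_lhs => rw [← Nat.prod_factorization_pow_eq_self (Nat.card_pos (α := G)).ne']
      rw [Finsupp.prod, Nat.support_factorization, Finset.prod_subset hsub, Finset.prod_pair hpq]
      intro r hr hr'
      rw [Finsupp.notMem_support_iff.1 (by rwa [Nat.support_factorization]), pow_zero]
  haveI : Fintype (MulAction.orbitRel.Quotient (MulAut G) G) := Fintype.ofFinite _
  let f : MulAction.orbitRel.Quotient (MulAut G) G → ℕ := Quotient.lift orderOf (by
    rintro a b ⟨φ, rfl⟩
    exact MulEquiv.orderOf_eq φ b)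
  have hfmk : ∀ x : G, f (Quotient.mk _ x) = orderOf x := fun x => rfl
  have hsubset : insert 1 (Nat.card G).primeFactors ⊆ Finset.univ.image f := by
    intro r hr
    rw [Finset.mem_image]
    rcases Finset.mem_insert.1 hr with rfl | hr
    · exact ⟨Quotient.mk _ 1, Finset.mem_univ _, by rw [hfmk, orderOf_one]⟩
    · haveI := Fact.mk (Nat.prime_of_mem_primeFactors hr)
      obtain ⟨x, hx⟩ := exists_prime_orderOf_dvd_card' (G := G) r (Nat.dvd_of_mem_primeFactors hr)
      exact ⟨Quotient.mk _ x, Finset.mem_univ _, by rw [hfmk, hx]⟩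
  have hc1 : 4 ≤ (insert 1 (Nat.card G).primeFactors).card := by
    rw [Finset.card_insert_of_notMem fun h1 => Nat.not_prime_one (Nat.prime_of_mem_primeFactors h1)]
    omega
  have hQ4 : (Finset.univ : Finset (MulAction.orbitRel.Quotient (MulAut G) G)).card = 4 := by
    rw [Finset.card_univ, ← Nat.card_eq_fintype_card, h4]
  have hc2 : (Finset.univ.image f).card ≤ 4 := Finset.card_image_le.trans hQ4.le
  have hSeq := Finset.eq_of_subset_of_card_le hsubset (hc2.trans hc1)
  have hfinj : Function.Injective f := by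
    have h1 : (Finset.univ.image f).card = (Finset.univ : Finset (MulAction.orbitRel.Quotient (MulAut G) G)).card :=
      le_antisymm Finset.card_image_le (by rw [hQ4]; exact hc1.trans (Finset.card_le_card hsubset))
    exact fun a b hab => Finset.card_image_iff.1 h1 (Finset.mem_univ a) (Finset.mem_univ b) hab
  have h3 : (Nat.card G).primeFactors.card = 3 := by
    have := (Finset.card_le_card hsubset).trans hc2
    rw [Finset.card_insert_of_notMem fun h1 => Nat.not_prime_one (Nat.prime_of_mem_primeFactors h1)] at this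
    omega
  have hall : AllPrime G := by
    intro g hg
    have h1 : orderOf g ∈ insert 1 (Nat.card G).primeFactors := by
      rw [hSeq, Finset.mem_image]
      exact ⟨Quotient.mk _ g, Finset.mem_univ _, hfmk g⟩
    exact (Finset.mem_insert.1 h1).elim (fun e => absurd (orderOf_eq_one_iff.1 e) hg) Nat.prime_of_mem_primeFactors
  have horbit : ∀ x y : G, orderOf x = orderOf y → ∃ φ : MulAut G, φ x = y := by
    intro x y hxy
    exact Quotient.exact (hfinj (show f (Quotient.mk _ y) = f (Quotient.mk _ x) by rw [hfmk, hfmk, hxy]))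
  have hcex : ∀ {p : ℕ}, p.Prime → p ∣ Nat.card G → ∃ x : G, orderOf x = p := fun {p} hp hd => by
    haveI := Fact.mk hp
    exact exists_prime_orderOf_dvd_card' p hd
  have hne1 : ∀ {x : G} {p : ℕ}, p.Prime → orderOf x = p → x ≠ 1 := fun {x p} hp hx e => by
    rw [e, orderOf_one] at hx; exact hp.ne_one hx.symm
  -- simplicity
  haveI : Nontrivial G := by
    by_contra h
    haveI := not_nontrivial_iff_subsingleton.1 h
    exact hns inferInstance
  haveI hsimp : IsSimpleGroup G := ⟨fun K hK => by
    haveI := hK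
    by_contra! hcon
    obtain ⟨M, hMn, hMK, hM1, hMmin⟩ := exists_minimal_normal_le hcon.1
    haveI := hMn
    by_cases hMs : Group.IsSolvable M
    · obtain ⟨-, p, hp, hMp, -⟩ := minimal_normal_elementary hM1 hMs hMmin
      haveI := Fact.mk hp
      set O := Cfsg.pCore p G with hO
      haveI hOn : O.Normal := inferInstance
      have hMO : M ≤ O := le_pCore hMn hMp
      obtain ⟨x, hx, hx1⟩ := (Subgroup.bot_or_exists_ne_one O).resolve_left fun e => hM1 (le_bot_iff.1 (e ▸ hMO))
      have hall' : ∀ y : G, orderOf y = p → y ∈ O := by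
        intro y hy
        obtain ⟨φ, hφ⟩ := horbit x y (by rw [hy, hall.orderOf_of_mem hp (isPGroup_pCore p) hx hx1])
        rw [← hφ]
        exact Subgroup.characteristic_iff_map_le.1 inferInstance φ ⟨x, hx, rfl⟩
      haveI : Group.IsSolvable O := by
        haveI := (isPGroup_pCore (G := G) p).isNilpotent
        infer_instance
      have hpq : ¬ p ∣ Nat.card (G ⧸ O) := fun hd => by
        obtain ⟨y, hy⟩ := exists_prime_orderOf_dvd_card' (G := G ⧸ O) p hd
        obtain ⟨z, rfl⟩ := QuotientGroup.mk'_surjective O y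
        have hz1 : z ≠ 1 := fun e => by rw [e, map_one, orderOf_one] at hy; exact hp.ne_one hy.symm
        have hz : orderOf z = p := hall.eq_of_dvd hz1 hp (hy ▸ orderOf_map_dvd _ z)
        rw [show QuotientGroup.mk' O z = 1 from (QuotientGroup.eq_one_iff z).2 (hall' z hz), orderOf_one] at hy
        exact hp.ne_one hy.symm
      have hpG : p ∈ (Nat.card G).primeFactors := Nat.mem_primeFactors.2 ⟨hp, (hall.orderOf_of_mem hp (isPGroup_pCore p) hx hx1) ▸ orderOf_dvd_natCard x, Nat.card_pos.ne'⟩
      obtain ⟨q, r, -, hqr⟩ := Finset.card_eq_two.1 (show ((Nat.card G).primeFactors.erase p).card = 2 by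
        rw [Finset.card_erase_of_mem hpG, h3])
      have hq := Finset.mem_of_mem_erase (hqr ▸ Finset.mem_insert_self q {r})
      have hr := Finset.mem_of_mem_erase (hqr ▸ Finset.mem_insert_of_mem (Finset.mem_singleton_self r) : r ∈ (Nat.card G).primeFactors.erase p)
      haveI : Group.IsSolvable (G ⧸ O) := by
        refine Cfsg.Lib.Characters.isSolvable_of_card_eq_pow_mul_pow (Nat.prime_of_mem_primeFactors hq)
          (Nat.prime_of_mem_primeFactors hr) _ _ rfl ?_
        have hne : q ≠ r := fun e => by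
          rw [e, Finset.pair_eq_singleton] at hqr
          have := congrArg Finset.card hqr
          rw [Finset.card_erase_of_mem hpG, h3, Finset.card_singleton] at this
          omega
        refine ⟨(Nat.card (G ⧸ O)).factorization q, (Nat.card (G ⧸ O)).factorization r, ?_⟩
        conv_lhs => rw [← Nat.prod_factorization_pow_eq_self (Nat.card_pos (α := G ⧸ O)).ne']
        rw [Finsupp.prod, Nat.support_factorization, Finset.prod_subset (s₂ := {q, r}), Finset.prod_pair hne]
        · intro s hs
          rw [← hqr, Finset.mem_erase]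
          exact ⟨fun e => hpq (e ▸ Nat.dvd_of_mem_primeFactors hs),
            Nat.primeFactors_mono (Subgroup.card_quotient_dvd_card O) Nat.card_pos.ne' hs⟩
        · intro s hs hs'
          rw [Finsupp.notMem_support_iff.1 (by rwa [Nat.support_factorization]), pow_zero]
      exact hns (Group.isSolvable_of_ker_le_range O.subtype (QuotientGroup.mk' O)
        (by rw [QuotientGroup.ker_mk', Subgroup.range_subtype]))
    · have hthree : ∀ r ∈ (Nat.card G).primeFactors, r ∣ Nat.card M := by
        by_contra! hcon'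
        obtain ⟨r, hr, hrM⟩ := hcon'
        obtain ⟨q, s, hqs', hqr⟩ := Finset.card_eq_two.1 (show ((Nat.card G).primeFactors.erase r).card = 2 by
          rw [Finset.card_erase_of_mem hr, h3])
        refine hMs ?_
        have hq := Finset.mem_of_mem_erase (hqr ▸ Finset.mem_insert_self q {s})
        have hs := Finset.mem_of_mem_erase (hqr ▸ Finset.mem_insert_of_mem (Finset.mem_singleton_self s) : s ∈ (Nat.card G).primeFactors.erase r)
        refine Cfsg.Lib.Characters.isSolvable_of_card_eq_pow_mul_pow (Nat.prime_of_mem_primeFactors hq)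
          (Nat.prime_of_mem_primeFactors hs) _ _ rfl
          ⟨(Nat.card M).factorization q, (Nat.card M).factorization s, ?_⟩
        conv_lhs => rw [← Nat.prod_factorization_pow_eq_self (Nat.card_pos (α := M)).ne']
        rw [Finsupp.prod, Nat.support_factorization, Finset.prod_subset (s₂ := {q, s}), Finset.prod_pair hqs']
        · intro t ht
          rw [← hqr, Finset.mem_erase]
          exact ⟨fun e => hrM (e ▸ Nat.dvd_of_mem_primeFactors ht),
            Nat.primeFactors_mono M.card_subgroup_dvd_card Nat.card_pos.ne' ht⟩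
        · intro t _ ht'
          rw [Finsupp.notMem_support_iff.1 (by rwa [Nat.support_factorization]), pow_zero]
      have hchar : ∀ φ : MulAut G, M.map φ.toMonoidHom = M := by
        intro φ
        by_contra hne
        haveI hn2 : (M.map φ.toMonoidHom).Normal := hMn.map _ φ.surjective
        rcases hMmin (M ⊓ M.map φ.toMonoidHom) inferInstance inf_le_left with h1 | h1
        · obtain ⟨r, hr, s, hs, hrs⟩ := Finset.one_lt_card.1 (show 1 < (Nat.card G).primeFactors.card by omega)
          haveI := Fact.mk (Nat.prime_of_mem_primeFactors hr)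
          haveI := Fact.mk (Nat.prime_of_mem_primeFactors hs)
          obtain ⟨x, hx⟩ := exists_prime_orderOf_dvd_card' (G := M) r (hthree r hr)
          obtain ⟨y, hy⟩ := exists_prime_orderOf_dvd_card' (G := M) s (hthree s hs)
          rw [← Subgroup.orderOf_coe] at hx hy
          have hy' : orderOf (φ (y : G)) = s := by rw [MulEquiv.orderOf_eq, hy]
          have hc : Commute (x : G) (φ (y : G)) :=
            Subgroup.commute_of_normal_of_disjoint M _ hMn hn2 (disjoint_iff.2 h1) _ _ x.2 ⟨y, y.2, rfl⟩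
          exact hrs (hx.symm.trans ((hall.orderOf_eq_of_commute hc (hne1 (Nat.prime_of_mem_primeFactors hr) hx)
            (hne1 (Nat.prime_of_mem_primeFactors hs) hy')).trans hy'))
        · refine hne (Subgroup.eq_of_le_of_card_ge (h1.symm.le.trans inf_le_right) ?_).symm
          rw [Subgroup.card_map_of_injective φ.injective]
      have htop : M = ⊤ := by
        rw [Subgroup.eq_top_iff']
        intro g
        by_cases hg : g = 1
        · rw [hg]; exact one_mem _
        · haveI := Fact.mk (hall g hg)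
          obtain ⟨x, hx⟩ := exists_prime_orderOf_dvd_card' (G := M) (orderOf g)
            (hthree _ (Nat.mem_primeFactors.2 ⟨hall g hg, orderOf_dvd_natCard g, Nat.card_pos.ne'⟩))
          obtain ⟨φ, hφ⟩ := horbit (x : G) g (by rw [Subgroup.orderOf_coe, hx])
          rw [← hφ]
          exact (hchar φ).le ⟨x, x.2, rfl⟩
      exact hcon.2 (top_le_iff.1 (htop ▸ hMK))⟩
  have hncomm : ¬ IsMulCommutative G := fun h => hns (Group.isSolvable_of_comm fun a b => h.is_comm.comm a b)
  have hTI : ∀ (p : ℕ) [Fact p.Prime] (P Q : Sylow p G), P ≠ Q → (P : Subgroup G) ⊓ Q = ⊥ :=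
    fun p _ P Q => sylow_ti hall h3.le p P Q
  -- centralizers are the Sylow subgroups
  have hCP : ∀ (p : ℕ) [Fact p.Prime] (P : Sylow p G), ∀ x ∈ (P : Subgroup G), x ≠ 1 →
      Subgroup.centralizer ({x} : Set G) = P := by
    intro p hp P x hxP hx
    refine le_antisymm (centralizer_le hall (hTI p) P hxP hx) ?_
    haveI : Nontrivial (P : Subgroup G) := ⟨⟨x, hxP⟩, 1, fun e => hx (congrArg Subtype.val e)⟩
    obtain ⟨⟨z, hz⟩, hz1⟩ := @exists_ne _ P.isPGroup'.center_nontrivial 1
    have hzne : (z : G) ≠ 1 := fun e => hz1 (Subtype.ext (Subtype.ext e))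
    obtain ⟨φ, hφ⟩ := horbit (z : G) x (by
      rw [hall.orderOf_of_mem hp.out P.isPGroup' z.2 hzne, hall.orderOf_of_mem hp.out P.isPGroup' hxP hx])
    have hle : (P : Subgroup G).map φ.toMonoidHom ≤ Subgroup.centralizer ({x} : Set G) := by
      rintro _ ⟨y, hy, rfl⟩
      rw [Subgroup.mem_centralizer_singleton_iff, ← hφ]
      show φ y * φ (z : G) = φ (z : G) * φ y
      rw [← map_mul, ← map_mul]
      exact congrArg φ (congrArg Subtype.val (Subgroup.mem_center_iff.1 hz ⟨y, hy⟩))
    refine (Subgroup.eq_of_le_of_card_ge (hle.trans (centralizer_le hall (hTI p) P hxP hx)) ?_).ge.trans hle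
    rw [Subgroup.card_map_of_injective φ.injective]
  have habel : ∀ (p : ℕ) [Fact p.Prime] (P : Sylow p G), ∀ x ∈ (P : Subgroup G), ∀ y ∈ (P : Subgroup G), x * y = y * x := by
    intro p _ P x hx y hy
    by_cases hx1 : x = 1
    · rw [hx1, one_mul, mul_one]
    · exact (Subgroup.mem_centralizer_singleton_iff.1 (hCP p P x hx hx1 ▸ hy)).symm
  have hsylmem : ∀ (p : ℕ) [Fact p.Prime] (x : G), orderOf x = p → ∃ P : Sylow p G, x ∈ (P : Subgroup G) := by
    intro p _ x hx
    obtain ⟨P, hP⟩ := (IsPGroup.of_card (n := 1) (G := Subgroup.zpowers x) (by rw [Nat.card_zpowers, hx, pow_one])).exists_le_sylow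
    exact ⟨P, hP (Subgroup.mem_zpowers x)⟩
  -- even order
  have h2G : 2 ∣ Nat.card G := by
    by_contra h2
    exact hns (odd_solvable _ G rfl hall (Nat.odd_iff.2 (by omega)) h3.le)
  haveI hf2 : Fact (Nat.Prime 2) := ⟨Nat.prime_two⟩
  let S : Sylow 2 G := default
  have hexp : ∀ x ∈ (S : Subgroup G), x * x = 1 := fun x hx => by
    by_cases hx1 : x = 1
    · rw [hx1, one_mul]
    · rw [← pow_two, ← hall.orderOf_of_mem Nat.prime_two S.isPGroup' hx hx1, pow_orderOf_eq_one]
  obtain ⟨t, ht⟩ := hcex Nat.prime_two h2G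
  have ht1 := hne1 Nat.prime_two ht
  have hsq : ∀ a : G, orderOf a = 2 → a * a = 1 := fun a ha => by rw [← pow_two, ← ha, pow_orderOf_eq_one]
  have hord2 : ∀ a : G, a ≠ 1 → a * a = 1 → orderOf a = 2 := fun a ha h => orderOf_eq_prime (by rw [pow_two, h]) ha
  -- one class of involutions
  have hclass : ∀ a b : G, orderOf a = 2 → orderOf b = 2 → IsConj a b := by
    intro a b ha hb
    by_contra hab
    have hcomm : ∀ k : G, IsConj a k → Commute k b := by
      intro k hk
      have hk2 : k * k = 1 := by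
        obtain ⟨g, rfl⟩ := isConj_iff.1 hk
        rw [← pow_two, conj_pow, pow_two, hsq a ha, mul_one, mul_inv_cancel]
      have hkb : k * b ≠ 1 := fun e => hab ((eq_inv_of_mul_eq_one_left e).trans (inv_eq_of_mul_eq_one_right (hsq b hb)) ▸ hk)
      have hkinv : k⁻¹ = k := inv_eq_of_mul_eq_one_right hk2
      have hbinv : b⁻¹ = b := inv_eq_of_mul_eq_one_right (hsq b hb)
      by_cases h2' : orderOf (k * b) = 2
      · have h1 := hsq _ h2'
        show k * b = b * k
        rw [eq_inv_of_mul_eq_one_left h1, mul_inv_rev, hkinv, hbinv]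
      · exfalso
        obtain ⟨j, hj⟩ := (hall _ hkb).odd_of_ne_two h2'
        set x := k * b with hx
        set u := x ^ (j + 1) with hu
        have hu2 : u * u = x := by
          rw [hu, ← pow_add, show j + 1 + (j + 1) = orderOf x + 1 by omega, pow_succ, pow_orderOf_eq_one, one_mul]
        have hkx : k * x * k⁻¹ = x⁻¹ := by
          rw [hx, hkinv, mul_inv_rev, hkinv, hbinv, ← mul_assoc, hk2, one_mul]
        have hku : k * u * k⁻¹ = u⁻¹ := by rw [hu, ← conj_pow, hkx, inv_pow]
        refine hab (hk.trans (isConj_iff.2 ⟨u⁻¹, ?_⟩))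
        calc u⁻¹ * k * u⁻¹⁻¹ = (k * u * k⁻¹) * k * u := by rw [hku, inv_inv]
          _ = k * (u * u) := by group
          _ = k * x := by rw [hu2]
          _ = b := by rw [hx, ← mul_assoc, hk2, one_mul]
    have hb1 := hne1 Nat.prime_two hb
    have htop : Subgroup.normalClosure ({a} : Set G) = ⊤ :=
      (Subgroup.normalClosure_normal).eq_bot_or_eq_top.resolve_left fun e => hne1 Nat.prime_two ha
        ((Subgroup.mem_bot).1 (e ▸ Subgroup.subset_normalClosure rfl : a ∈ (⊥ : Subgroup G)))
    have hcen : b ∈ Subgroup.center G := by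
      have hle : Subgroup.normalClosure ({a} : Set G) ≤ Subgroup.centralizer ({b} : Set G) := by
        rw [Subgroup.normalClosure, Subgroup.closure_le]
        intro k hk
        rw [Group.mem_conjugatesOfSet_iff] at hk
        obtain ⟨a', ha', hk⟩ := hk
        rw [Set.mem_singleton_iff] at ha'
        subst ha'
        exact Subgroup.mem_centralizer_singleton_iff.2 (hcomm k hk).eq
      rw [htop] at hle
      exact Subgroup.mem_center_iff.2 fun g => Subgroup.mem_centralizer_singleton_iff.1 (hle (Subgroup.mem_top g))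
    rcases (inferInstance : (Subgroup.center G).Normal).eq_bot_or_eq_top with h | h
    · exact hb1 ((Subgroup.mem_bot).1 (h ▸ hcen))
    · exact hncomm ⟨⟨fun x y => Subgroup.mem_center_iff.1 (h ▸ Subgroup.mem_top y) x⟩⟩
  set s := Nat.card (S : Subgroup G) with hs
  have hinvI : Nat.card {a : G // orderOf a = 2} * s = Nat.card G := by
    obtain ⟨T, hT⟩ := hsylmem 2 t ht
    have h1 := Cfsg.Lib.Invol.conjClass_ncard_mul t
    rw [hCP 2 T t hT ht1, Nat.card_congr (T.equiv S).toEquiv] at h1
    refine Eq.trans ?_ h1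
    congr 1
    refine Nat.card_congr (Equiv.subtypeEquivRight fun a => ⟨fun ha => hclass t a ht ha, fun ha => ?_⟩)
    obtain ⟨g, rfl⟩ := isConj_iff.1 ha
    rw [← ht]
    exact (SemiconjBy.orderOf_eq g (by simp [SemiconjBy, mul_assoc])).symm
  -- the real elements
  let R : ℕ → ℕ := fun p => if hp : p.Prime then
    (haveI := Fact.mk hp
     if 2 ∣ Nat.card (Subgroup.normalizer (((default : Sylow p G) : Subgroup G) : Set G)) then
       Nat.card ((default : Sylow p G) : Subgroup G) - 1 else 0) else 0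
  have hodd_fiber : ∀ p ∈ (Nat.card G).primeFactors.erase 2,
      (∑ x ∈ Finset.univ.filter (fun x : G => orderOf x = p),
        (Finset.univ.filter fun a : G => orderOf a = 2 ∧ orderOf (a * x) = 2).card) * 2 = Nat.card G * R p := by
    intro p hp
    obtain ⟨hp2, hpm⟩ := Finset.mem_erase.1 hp
    haveI := Fact.mk (Nat.prime_of_mem_primeFactors hpm)
    have hpp : p.Prime := Nat.prime_of_mem_primeFactors hpm
    set P0 : Sylow p G := default with hP0
    set N0 := Subgroup.normalizer ((P0 : Subgroup G) : Set G)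
    have hcardN : ∀ P : Sylow p G, Nat.card (Subgroup.normalizer ((P : Subgroup G) : Set G)) = Nat.card N0 := fun P => by
      have h1 := Subgroup.card_mul_index (Subgroup.normalizer ((P : Subgroup G) : Set G))
      have h2 := Subgroup.card_mul_index N0
      rw [show Subgroup.index (Subgroup.normalizer ((P : Subgroup G) : Set G)) = _ from P.card_eq_index_normalizer.symm] at h1
      rw [show Subgroup.index (Subgroup.normalizer ((P0 : Subgroup G) : Set G)) = _ from P0.card_eq_index_normalizer.symm] at h2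
      exact mul_right_cancel₀ (Nat.card_pos (α := Sylow p G)).ne' (h1.trans h2.symm)
    -- inverting involutions
    have hinvol : ∀ (P : Sylow p G), ∀ a ∈ Subgroup.normalizer ((P : Subgroup G) : Set G), orderOf a = 2 →
        ∀ x ∈ (P : Subgroup G), a * x * a⁻¹ = x⁻¹ := by
      intro P a ha hao x hx
      set y := a * x * a⁻¹
      have hy : y ∈ (P : Subgroup G) := (Subgroup.mem_normalizer_iff.1 ha x).1 hx
      by_contra hne
      have hyx : x * y ≠ 1 := fun e => hne (eq_inv_of_mul_eq_one_right e)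
      have hfixed : a * (x * y) = x * y * a := by
        rw [← mul_inv_eq_iff_eq_mul]
        calc a * (x * y) * a⁻¹ = y * ((a * a) * x * (a * a)⁻¹) := by simp only [y]; group
          _ = y * x := by rw [hsq a hao]; group
          _ = x * y := habel p P y hy x hx
      have h1 := hall.orderOf_eq_of_commute (hfixed : Commute a (x * y)) (hne1 Nat.prime_two hao) hyx
      rw [hao, hall.orderOf_of_mem hpp P.isPGroup' (mul_mem hx hy) hyx] at h1
      exact hp2 h1.symm
    -- the fibre over an element
    have hF : ∀ (P : Sylow p G), ∀ x ∈ (P : Subgroup G), x ≠ 1 →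
        (Finset.univ.filter fun a : G => orderOf a = 2 ∧ orderOf (a * x) = 2) =
          Finset.univ.filter fun a : G => orderOf a = 2 ∧ a ∈ Subgroup.normalizer ((P : Subgroup G) : Set G) := by
      intro P x hx hx1
      refine Finset.filter_congr fun a _ => and_congr_right fun ha => ⟨fun h => ?_, fun h => ?_⟩
      · refine mem_normalizer_of_conj_mem (hTI p) hx1 hx ?_
        have h1 : a * x * a⁻¹ = x⁻¹ := by
          rw [inv_eq_of_mul_eq_one_right (hsq a ha)]
          exact eq_inv_of_mul_eq_one_left (by simpa [mul_assoc] using hsq _ h)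
        rw [h1]; exact inv_mem hx
      · have h1 := hinvol P a h ha x hx
        refine hord2 _ (fun e => ?_) ?_
        · have h3 : orderOf a = orderOf x := by rw [eq_inv_of_mul_eq_one_left e, orderOf_inv]
          rw [ha, hall.orderOf_of_mem hpp P.isPGroup' hx hx1] at h3
          exact hp2 h3.symm
        · calc a * x * (a * x) = a * x * a⁻¹ * (a * a) * x := by group
            _ = 1 := by rw [h1, hsq a ha, mul_one, inv_mul_cancel]
    have hcount : ∀ P : Sylow p G,
        (Finset.univ.filter fun a : G => orderOf a = 2 ∧ a ∈ Subgroup.normalizer ((P : Subgroup G) : Set G)).card =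
          if 2 ∣ Nat.card N0 then Nat.card (P : Subgroup G) else 0 := by
      intro P
      split_ifs with h2N
      · rw [← hcardN P] at h2N
        obtain ⟨w, hw⟩ := exists_prime_orderOf_dvd_card' (G := Subgroup.normalizer ((P : Subgroup G) : Set G)) 2 h2N
        rw [← Subgroup.orderOf_coe] at hw
        rw [Nat.card_eq_fintype_card, ← Finset.card_univ]
        symm
        refine Finset.card_bij (fun v _ => (w : G) * v) (fun v _ => ?_) (fun v _ v' _ e => Subtype.ext (mul_left_cancel e))
          fun a ha => ?_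
        · have hv := hinvol P w w.2 hw v v.2
          refine Finset.mem_filter.2 ⟨Finset.mem_univ _, hord2 _ (fun e => ?_) ?_,
            mul_mem w.2 (Subgroup.le_normalizer v.2)⟩
          · have h1 : (w : G) ∈ (P : Subgroup G) := by rw [eq_inv_of_mul_eq_one_left e]; exact inv_mem v.2
            exact hp2 ((hall.orderOf_of_mem hpp P.isPGroup' h1 (hne1 Nat.prime_two hw)).symm.trans hw)
          · calc (w : G) * v * (w * v) = (w : G) * v * (w : G)⁻¹ * ((w : G) * w) * v := by group
              _ = 1 := by rw [hv, hsq _ hw, mul_one, inv_mul_cancel]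
        · obtain ⟨-, ha2, haN⟩ := Finset.mem_filter.1 ha
          have hmem : (w : G)⁻¹ * a ∈ (P : Subgroup G) := by
            obtain ⟨x, hx, hx1⟩ := (Subgroup.bot_or_exists_ne_one (P : Subgroup G)).resolve_left fun e => by
              have := P.dvd_card_of_dvd_card (Nat.dvd_of_mem_primeFactors hpm)
              rw [e, Subgroup.card_bot, Nat.dvd_one] at this
              exact hpp.ne_one this
            refine (hCP p P x hx hx1).le (Subgroup.mem_centralizer_singleton_iff.2 ?_)
            have e1 := hinvol P a haN ha2 x hx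
            have e2 := hinvol P w w.2 hw _ (inv_mem hx)
            rw [inv_inv] at e2
            calc (w : G)⁻¹ * a * x = (w : G)⁻¹ * (a * x * a⁻¹) * a := by group
              _ = (w : G)⁻¹ * x⁻¹ * a := by rw [e1]
              _ = (w : G)⁻¹ * x⁻¹ * ((w : G) * (w : G)⁻¹) * a := by group
              _ = ((w : G) * x⁻¹ * (w : G)⁻¹) * ((w : G)⁻¹ * a) := by
                rw [inv_eq_of_mul_eq_one_right (hsq _ hw)]; group
              _ = x * ((w : G)⁻¹ * a) := by rw [e2]
          exact ⟨⟨_, hmem⟩, Finset.mem_univ _, mul_inv_cancel_left _ _⟩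
      · refine Finset.card_eq_zero.2 (Finset.filter_eq_empty_iff.2 fun {a} _ ⟨ha, haN⟩ => h2N ?_)
        rw [← hcardN P, ← ha, ← Subgroup.orderOf_mk (a := a) (ha := haN)]
        exact orderOf_dvd_natCard _
    have hterm : ∀ x ∈ Finset.univ.filter (fun x : G => orderOf x = p),
        (Finset.univ.filter fun a : G => orderOf a = 2 ∧ orderOf (a * x) = 2).card =
          if 2 ∣ Nat.card N0 then Nat.card (P0 : Subgroup G) else 0 := by
      intro x hx
      have hxo := (Finset.mem_filter.1 hx).2
      obtain ⟨P, hP⟩ := hsylmem p x hxo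
      rw [hF P x hP (hne1 hpp hxo), hcount P, Nat.card_congr (P.equiv P0).toEquiv]
    rw [Finset.sum_congr rfl hterm, Finset.sum_const, smul_eq_mul, ← Fintype.card_subtype, ← Nat.card_eq_fintype_card,
      card_orderOf hall (hTI p) P0]
    simp only [R, dif_pos hpp]
    by_cases h2N : 2 ∣ Nat.card N0
    · rw [if_pos h2N, if_pos h2N]
      -- the normalizer is twice the Sylow subgroup
      obtain ⟨w, hw⟩ := exists_prime_orderOf_dvd_card' (G := N0) 2 h2N
      rw [← Subgroup.orderOf_coe] at hw
      have hwP : (w : G) ∉ (P0 : Subgroup G) := fun h =>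
        hp2 ((hall.orderOf_of_mem hpp P0.isPGroup' h (hne1 Nat.prime_two hw)).symm.trans hw)
      have hinvset : ∀ a ∈ N0, orderOf a = 2 → (w : G)⁻¹ * a ∈ (P0 : Subgroup G) := by
        intro a haN ha
        have hsurj : a ∈ Finset.univ.filter fun a : G => orderOf a = 2 ∧ a ∈ N0 :=
          Finset.mem_filter.2 ⟨Finset.mem_univ _, ha, haN⟩
        have hsub : (Finset.univ.filter fun v : G => v ∈ (P0 : Subgroup G)).image (fun v => (w : G) * v) ⊆
            Finset.univ.filter fun a : G => orderOf a = 2 ∧ a ∈ N0 := by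
          intro b hb
          obtain ⟨v, hv, rfl⟩ := Finset.mem_image.1 hb
          replace hv := (Finset.mem_filter.1 hv).2
          refine Finset.mem_filter.2 ⟨Finset.mem_univ _, hord2 _ (fun e => hwP ?_) ?_, mul_mem w.2 (Subgroup.le_normalizer hv)⟩
          · rw [eq_inv_of_mul_eq_one_left e]; exact inv_mem hv
          · calc (w : G) * v * (w * v) = (w : G) * v * (w : G)⁻¹ * ((w : G) * w) * v := by group
              _ = 1 := by rw [hinvol P0 w w.2 hw v hv, hsq _ hw, mul_one, inv_mul_cancel]
        have heq := Finset.eq_of_subset_of_card_le hsub (by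
          rw [hcount P0, if_pos h2N, Finset.card_image_of_injective _ (mul_right_injective _), Nat.card_eq_fintype_card,
            Fintype.card_subtype])
        rw [← heq] at hsurj
        obtain ⟨v, hv, rfl⟩ := Finset.mem_image.1 hsurj
        rw [inv_mul_cancel_left]
        exact (Finset.mem_filter.1 hv).2
      have hN0 : Nat.card N0 = Nat.card (P0 : Subgroup G) * 2 := by
        let H' := (P0 : Subgroup G).subgroupOf N0
        have hi : H'.index = 2 := by
          rw [Subgroup.index_eq_two_iff]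
          refine ⟨w, fun y => ?_⟩
          have hyw : (y : G) * w * (y : G)⁻¹ ∈ N0 := mul_mem (mul_mem y.2 w.2) (inv_mem y.2)
          have hyo : orderOf ((y : G) * w * (y : G)⁻¹) = 2 := by
            rw [← hw]; exact (SemiconjBy.orderOf_eq (y : G) (by simp [SemiconjBy, mul_assoc])).symm
          set v := (w : G)⁻¹ * ((y : G) * w * (y : G)⁻¹) with hv
          have hvP : v ∈ (P0 : Subgroup G) := hinvset _ hyw hyo
          obtain ⟨j, hj⟩ := hpp.odd_of_ne_two hp2
          set u := v ^ (j + 1) with hu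
          have huP : u ∈ (P0 : Subgroup G) := pow_mem hvP _
          have hu2 : u * u = v := by
            by_cases hv1 : v = 1
            · rw [hu, hv1, one_pow, one_mul]
            · rw [hu, ← pow_add, show j + 1 + (j + 1) = orderOf v + 1 by
                rw [hall.orderOf_of_mem hpp P0.isPGroup' hvP hv1]; omega, pow_succ, pow_orderOf_eq_one, one_mul]
          have hwu := hinvol P0 w w.2 hw u huP
          have hcomm : Commute (u * (y : G)) w := by
            show u * y * w = w * (u * y)
            have e : (y : G) * w * (y : G)⁻¹ = w * v := by rw [hv, mul_inv_cancel_left]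
            calc u * y * w = u * ((y : G) * w * (y : G)⁻¹) * y := by group
              _ = u * (w * (u * u)) * y := by rw [e, hu2]
              _ = u * ((w : G) * u * (w : G)⁻¹) * w * u * y := by group
              _ = w * (u * y) := by rw [hwu]; group
          have key : (u * (y : G) = 1) ∨ (w : G)⁻¹ * (u * y) ∈ (P0 : Subgroup G) := by
            by_cases h1 : u * (y : G) = 1
            · exact Or.inl h1
            · exact Or.inr (hinvset _ (mul_mem (Subgroup.le_normalizer huP) y.2)
                ((hall.orderOf_eq_of_commute hcomm h1 (hne1 Nat.prime_two hw)).trans hw))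
          have hxor : ¬ ((y : G) ∈ (P0 : Subgroup G) ∧ (y : G) * w ∈ (P0 : Subgroup G)) :=
            fun ⟨h1, h2⟩ => hwP ((Subgroup.mul_mem_cancel_left _ h1).1 h2)
          simp only [H', Subgroup.mem_subgroupOf, Subgroup.coe_mul]
          rcases key with h1 | h1
          · have hyP : (y : G) ∈ (P0 : Subgroup G) := by rw [eq_inv_of_mul_eq_one_right h1]; exact inv_mem huP
            exact Or.inr ⟨hyP, fun h => hxor ⟨hyP, h⟩⟩
          · have hywP : (y : G) * w ∈ (P0 : Subgroup G) := by
              have e : (y : G) = u⁻¹ * w * ((w : G)⁻¹ * (u * y)) := by group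
              rw [e]
              have h2 := hinvol P0 w w.2 hw _ h1
              rw [show u⁻¹ * (w : G) * ((w : G)⁻¹ * (u * y)) * w = u⁻¹ * ((w : G) * ((w : G)⁻¹ * (u * y)) * (w : G)⁻¹) * ((w:G) * w) by group,
                h2, hsq _ hw, mul_one]
              exact mul_mem (inv_mem huP) (inv_mem h1)
            exact Or.inl ⟨hywP, fun h => hxor ⟨h, hywP⟩⟩
        have h1 := Subgroup.card_mul_index H'
        rw [hi, Nat.card_congr (Subgroup.subgroupOfEquivOfLe Subgroup.le_normalizer).toEquiv] at h1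
        exact h1.symm
      obtain ⟨c, hc1, hc2, -⟩ := exists_normalizer_index P0
      rw [← hc2, ← hc1, hN0]
      ring
    · rw [if_neg h2N, if_neg h2N, mul_zero, zero_mul, mul_zero]
  -- counting pairs of involutions
  set I := Nat.card {a : G // orderOf a = 2} with hI
  have hIfin : (Finset.univ.filter fun a : G => orderOf a = 2).card = I := by
    rw [hI, Nat.card_eq_fintype_card, Fintype.card_subtype]
  have h2mem : 2 ∈ (Nat.card G).primeFactors := Nat.mem_primeFactors.2 ⟨Nat.prime_two, h2G, Nat.card_pos.ne'⟩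
  have htwo : ∀ x ∈ Finset.univ.filter (fun x : G => orderOf x = 2),
      (Finset.univ.filter fun a : G => orderOf a = 2 ∧ orderOf (a * x) = 2).card = s - 2 := by
    intro x hx
    have hxo := (Finset.mem_filter.1 hx).2
    have hx1 := hne1 Nat.prime_two hxo
    obtain ⟨T, hT⟩ := hsylmem 2 x hxo
    have heq : (Finset.univ.filter fun a : G => orderOf a = 2 ∧ orderOf (a * x) = 2) =
        ((Finset.univ.filter fun a : G => a ∈ (T : Subgroup G)).erase 1).erase x := by
      ext a
      simp only [Finset.mem_filter, Finset.mem_univ, true_and, Finset.mem_erase]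
      constructor
      · rintro ⟨ha, hax⟩
        refine ⟨fun e => ?_, hne1 Nat.prime_two ha, ?_⟩
        · rw [e, hsq x hxo, orderOf_one] at hax; omega
        · rw [← hCP 2 T x hT hx1, Subgroup.mem_centralizer_singleton_iff]
          rw [eq_inv_of_mul_eq_one_left (hsq _ hax), mul_inv_rev, inv_eq_of_mul_eq_one_right (hsq a ha),
            inv_eq_of_mul_eq_one_right (hsq x hxo)]
      · rintro ⟨hax, ha1, haT⟩
        refine ⟨hall.orderOf_of_mem Nat.prime_two T.isPGroup' haT ha1,
          hall.orderOf_of_mem Nat.prime_two T.isPGroup' (mul_mem haT hT) fun e => hax ?_⟩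
        rw [eq_inv_of_mul_eq_one_left e, inv_eq_of_mul_eq_one_right (hsq x hxo)]
    rw [heq, Finset.card_erase_of_mem (by simp [hx1, hT]), Finset.card_erase_of_mem (by simp [one_mem]),
      ← Fintype.card_subtype, ← Nat.card_eq_fintype_card, hs, Nat.card_congr (T.equiv S).toEquiv]
    omega
  have hpairs : 2 * (I * I) = 2 * I + 2 * (I * (s - 2)) +
      Nat.card G * ∑ p ∈ (Nat.card G).primeFactors.erase 2, R p := by
    have hmaps : ∀ x ∈ (Finset.univ : Finset G), orderOf x ∈ insert 1 (Nat.card G).primeFactors := by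
      intro x _
      by_cases hx : x = 1
      · simp [hx]
      · exact Finset.mem_insert_of_mem (Nat.mem_primeFactors.2 ⟨hall x hx, orderOf_dvd_natCard x, Nat.card_pos.ne'⟩)
    have hsum : ∑ x : G, (Finset.univ.filter fun a : G => orderOf a = 2 ∧ orderOf (a * x) = 2).card = I * I := by
      calc ∑ x : G, (Finset.univ.filter fun a : G => orderOf a = 2 ∧ orderOf (a * x) = 2).card
          = ∑ x : G, ∑ a : G, if orderOf a = 2 ∧ orderOf (a * x) = 2 then 1 else 0 :=
            Finset.sum_congr rfl fun x _ => Finset.card_filter _ _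
        _ = ∑ a : G, ∑ x : G, if orderOf a = 2 ∧ orderOf (a * x) = 2 then 1 else 0 := Finset.sum_comm
        _ = ∑ a : G, if orderOf a = 2 then I else 0 := by
          refine Finset.sum_congr rfl fun a _ => ?_
          by_cases ha : orderOf a = 2
          · simp only [ha, true_and, if_true]
            exact (Equiv.sum_comp (Equiv.mulLeft a) (fun b : G => if orderOf b = 2 then 1 else 0) |>.trans
              (Finset.card_filter _ _).symm).trans hIfin
          · simp [ha]
        _ = I * I := by rw [← Finset.sum_filter, Finset.sum_const, hIfin, smul_eq_mul]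
    rw [← hsum, ← Finset.sum_fiberwise_of_maps_to hmaps,
      Finset.sum_insert (fun h1 => Nat.not_prime_one (Nat.prime_of_mem_primeFactors h1)),
      ← Finset.add_sum_erase _ _ h2mem, Finset.mul_sum]
    have hone : (Finset.univ.filter fun x : G => orderOf x = 1) = {1} := by ext x; simp
    rw [hone, Finset.sum_singleton, Finset.sum_congr rfl htwo, Finset.sum_const, smul_eq_mul, hIfin,
      ← Finset.sum_congr rfl hodd_fiber, ← Finset.sum_mul]
    simp only [mul_one, and_self, hIfin]
    ring
  -- the two odd primes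
  obtain ⟨p, q, hpq, hpqe⟩ := Finset.card_eq_two.1 (show ((Nat.card G).primeFactors.erase 2).card = 2 by
    rw [Finset.card_erase_of_mem h2mem, h3])
  rw [hpqe, Finset.sum_pair hpq] at hpairs
  have hpmem : p ∈ (Nat.card G).primeFactors.erase 2 := hpqe ▸ Finset.mem_insert_self _ _
  have hqmem : q ∈ (Nat.card G).primeFactors.erase 2 := hpqe ▸ Finset.mem_insert_of_mem (Finset.mem_singleton_self _)
  obtain ⟨hp2, hpm⟩ := Finset.mem_erase.1 hpmem
  obtain ⟨hq2, hqm⟩ := Finset.mem_erase.1 hqmem
  haveI := Fact.mk (Nat.prime_of_mem_primeFactors hpm)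
  haveI := Fact.mk (Nat.prime_of_mem_primeFactors hqm)
  let P : Sylow p G := default
  let Q : Sylow q G := default
  set A := Nat.card (P : Subgroup G) with hA
  set B := Nat.card (Q : Subgroup G) with hB
  have hAdvd : p ∣ A := P.dvd_card_of_dvd_card (Nat.dvd_of_mem_primeFactors hpm)
  have hBdvd : q ∣ B := Q.dvd_card_of_dvd_card (Nat.dvd_of_mem_primeFactors hqm)
  have hA1 : 1 < A := lt_of_lt_of_le (Nat.prime_of_mem_primeFactors hpm).one_lt (Nat.le_of_dvd Nat.card_pos hAdvd)
  have hB1 : 1 < B := lt_of_lt_of_le (Nat.prime_of_mem_primeFactors hqm).one_lt (Nat.le_of_dvd Nat.card_pos hBdvd)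
  have hcardG : Nat.card G = s * (A * B) := by
    have e : (Nat.card G).primeFactors = {2, p, q} := by
      rw [← Finset.insert_erase h2mem, hpqe]
    conv_lhs => rw [← Nat.prod_factorization_pow_eq_self (Nat.card_pos (α := G)).ne']
    rw [Finsupp.prod, Nat.support_factorization, e, Finset.prod_insert (by simp [Ne.symm hp2, Ne.symm hq2]),
      Finset.prod_pair hpq, hs, hA, hB, S.card_eq_multiplicity, P.card_eq_multiplicity, Q.card_eq_multiplicity]
  obtain ⟨k, hk⟩ := IsPGroup.iff_card.1 S.isPGroup'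
  rw [← hs] at hk
  have hk1 : 1 ≤ k := by
    rcases k with _ | k
    · have := S.dvd_card_of_dvd_card h2G
      rw [← hs, hk] at this
      norm_num at this
    · omega
  -- the normalizer of S
  obtain ⟨c, hcN, hcG, -⟩ := exists_normalizer_index S
  have hcs : c = s - 1 := by
    have h1 : I = Nat.card (Sylow 2 G) * (s - 1) := card_orderOf hall (hTI 2) S
    have h2 : Nat.card (Sylow 2 G) * s * (s - 1) = Nat.card (Sylow 2 G) * s * c := by
      rw [mul_assoc _ s c, hcG, ← hinvI, h1]; ring
    exact (mul_left_cancel₀ (mul_ne_zero Nat.card_pos.ne' Nat.card_pos.ne') h2).symm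
  have hk2 : 2 ≤ k := by
    by_contra hlt
    obtain rfl : k = 1 := by omega
    rw [hcs, hk, ← hs, hk] at hcN
    norm_num [-Nat.card_eq_fintype_card] at hcN
    exact normalizer_ne hns (hTI 2) S h2G (Subgroup.eq_of_le_of_card_ge Subgroup.le_normalizer
      (le_of_eq (hcN.trans (by rw [← hs, hk]; norm_num [-Nat.card_eq_fintype_card])))).symm
  obtain ⟨h, hh⟩ : ∃ h, s = 2 * h := ⟨2 ^ (k - 1), by rw [hk, ← pow_succ', Nat.sub_add_cancel hk1]⟩
  have hh2 : 2 ≤ h := by
    have : 2 ^ 2 ≤ s := hk ▸ Nat.pow_le_pow_right two_pos hk2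
    omega
  -- the equation
  have heq : A * B + 1 = 2 * h + h * (R p + R q) := by
    have hG := hcardG
    zify [show 2 ≤ s by omega] at hpairs hinvI hG hh hh2 ⊢
    have hs0 : (s : ℤ) ≠ 0 := by linarith
    have hG0 : (Nat.card G : ℤ) ≠ 0 := by exact_mod_cast (Nat.card_pos (α := G)).ne'
    have h1 : (2 * (Nat.card G : ℤ)) * (Nat.card G) =
        (2 * (s : ℤ) * ((s : ℤ) - 1) + (s : ℤ) * s * (R p + R q)) * (Nat.card G) := by
      have e : (2 * (I : ℤ) * s) * ((I : ℤ) * s) = (2 * I + 2 * (I * ((s : ℤ) - 2)) + (Nat.card G) * (R p + R q)) * s * s := by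
        linear_combination (s : ℤ) * s * hpairs
      rw [hinvI] at e
      linear_combination e + (2 * (s : ℤ) * ((s : ℤ) - 1)) * hinvI - 2 * (Nat.card G : ℤ) * hinvI
    have h2 := mul_right_cancel₀ hG0 h1
    rw [hG] at h2
    have h3 : (2 * (s : ℤ)) * ((A : ℤ) * B + 1) = (2 * (s : ℤ)) * (2 * h + h * (R p + R q)) := by
      rw [hh] at h2 ⊢; linear_combination h2
    exact mul_left_cancel₀ (mul_ne_zero two_ne_zero hs0) h3
  have hm : (s - 1) ∣ A * B := by
    have h1 : Nat.card G = s * (Nat.card (Sylow 2 G) * (s - 1)) := by rw [← hcG, hcs]; ring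
    exact ⟨Nat.card (Sylow 2 G), by
      have h2 := mul_left_cancel₀ (Nat.card_pos (α := (S : Subgroup G))).ne' (hcardG.symm.trans h1)
      rw [h2, mul_comm]⟩
  have hRp : R p = if 2 ∣ Nat.card (Subgroup.normalizer ((P : Subgroup G) : Set G)) then A - 1 else 0 := by
    simp only [R, dif_pos (Nat.prime_of_mem_primeFactors hpm)]; rfl
  have hRq : R q = if 2 ∣ Nat.card (Subgroup.normalizer ((Q : Subgroup G) : Set G)) then B - 1 else 0 := by
    simp only [R, dif_pos (Nat.prime_of_mem_primeFactors hqm)]; rfl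
  have hcop : A.Coprime B := by
    obtain ⟨a, ha⟩ := IsPGroup.iff_card.1 P.isPGroup'
    obtain ⟨b, hb⟩ := IsPGroup.iff_card.1 Q.isPGroup'
    rw [hA, hB, ha, hb]
    exact Nat.Coprime.pow _ _ ((Nat.coprime_primes (Fact.out) (Fact.out)).2 hpq)
  by_cases hrp : 2 ∣ Nat.card (Subgroup.normalizer ((P : Subgroup G) : Set G))
  swap
  · rw [hRp, if_neg hrp, zero_add, hRq] at heq
    split_ifs at heq with hrq
    · refine (one_real (m := s - 1) hh2 (by omega) (mul_comm A B ▸ hm) hB1 hcop.symm ?_).elim
      rw [mul_comm B]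
      obtain ⟨B', hB'⟩ : ∃ B', B = B' + 1 := ⟨B - 1, by omega⟩
      rw [hB', Nat.add_sub_cancel] at heq
      rw [hB', heq]
      ring
    · -- the Sylow two subgroup would be normal
      exfalso
      have hN : Nat.card (Subgroup.normalizer ((S : Subgroup G) : Set G)) = Nat.card G := by
        rw [hcN, hcs, hcardG, ← hs]
        congr 1
        omega
      have htop := (Subgroup.card_eq_iff_eq_top _).1 hN
      rcases (Subgroup.normalizer_eq_top_iff.1 htop).eq_bot_or_eq_top with e | e
      · rw [hs, e, Subgroup.card_bot] at hk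
        have := Nat.one_lt_two_pow (show k ≠ 0 by omega)
        omega
      · rw [hs, e, Subgroup.card_top] at hcardG
        have h4 : 4 ≤ A * B := by nlinarith
        nlinarith [Nat.card_pos (α := G)]
  by_cases hrq : 2 ∣ Nat.card (Subgroup.normalizer ((Q : Subgroup G) : Set G))
  swap
  · rw [hRp, if_pos hrp, hRq, if_neg hrq, add_zero] at heq
    refine (one_real (m := s - 1) hh2 (by omega) hm hA1 hcop ?_).elim
    obtain ⟨A', hA'⟩ : ∃ A', A = A' + 1 := ⟨A - 1, by omega⟩
    rw [hA', Nat.add_sub_cancel] at heq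
    rw [hA', heq]
    ring
  rw [hRp, if_pos hrp, hRq, if_pos hrq] at heq
  have heq' : A * B + 1 = h * A + h * B := by
    rw [heq]
    obtain ⟨A', hA'⟩ : ∃ A', A = A' + 1 := ⟨A - 1, by omega⟩
    obtain ⟨B', hB'⟩ : ∃ B', B = B' + 1 := ⟨B - 1, by omega⟩
    rw [hA', hB', Nat.add_sub_cancel, Nat.add_sub_cancel]
    ring
  -- `s - 1` is a prime power
  have hTne : ∀ (r : ℕ) [Fact r.Prime] (T : Sylow r G), r ∣ Nat.card G → (T : Subgroup G) ≠ ⊥ := fun r hr T hd e => by
    have := T.dvd_card_of_dvd_card hd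
    rw [e, Subgroup.card_bot, Nat.dvd_one] at this
    exact hr.out.ne_one this
  have hN2 : ∀ (r : ℕ) [Fact r.Prime], r ≠ 2 → r ∣ Nat.card G → ∀ T : Sylow r G,
      2 ∣ Nat.card (Subgroup.normalizer ((T : Subgroup G) : Set G)) →
      ∀ x ∈ Subgroup.normalizer ((T : Subgroup G) : Set G), orderOf x ≠ r → x ≠ 1 → orderOf x = 2 := by
    intro r hr hr2 hrG T hT x hx hxr hx1
    haveI := Fact.mk (hall x hx1)
    obtain ⟨w, hw⟩ := exists_prime_orderOf_dvd_card' (G := Subgroup.normalizer ((T : Subgroup G) : Set G)) 2 hT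
    rw [← Subgroup.orderOf_coe] at hw
    by_contra hx2
    obtain ⟨v, hv, hv1⟩ := (Subgroup.bot_or_exists_ne_one (T : Subgroup G)).resolve_left (hTne r T hrG)
    -- `x` and `w` commute modulo `T`
    set u := (w : G) * x * (w : G)⁻¹ * x⁻¹ with hu
    have hinvw : ∀ z ∈ Subgroup.normalizer ((T : Subgroup G) : Set G), orderOf z = 2 → z * v * z⁻¹ = v⁻¹ := by
      intro z hz hz2
      set y := z * v * z⁻¹
      have hy : y ∈ (T : Subgroup G) := (Subgroup.mem_normalizer_iff.1 hz v).1 hv
      by_contra hne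
      have hyx : v * y ≠ 1 := fun e => hne (eq_inv_of_mul_eq_one_right e)
      have hfixed : z * (v * y) = v * y * z := by
        rw [← mul_inv_eq_iff_eq_mul]
        calc z * (v * y) * z⁻¹ = y * ((z * z) * v * (z * z)⁻¹) := by simp only [y]; group
          _ = y * v := by rw [hsq z hz2]; group
          _ = v * y := habel r T y hy v hv
      have h1 := hall.orderOf_eq_of_commute (hfixed : Commute z (v * y)) (hne1 Nat.prime_two hz2) hyx
      rw [hz2, hall.orderOf_of_mem hr.out T.isPGroup' (mul_mem hv hy) hyx] at h1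
      exact hr2 h1.symm
    have hz2 : orderOf (x * (w : G) * x⁻¹) = 2 := by
      rw [← hw]; exact (SemiconjBy.orderOf_eq x (by simp [SemiconjBy, mul_assoc])).symm
    have e1 := hinvw _ (mul_mem (mul_mem hx w.2) (inv_mem hx)) hz2
    have e2 := hinvw _ w.2 hw
    have hmem : (w : G)⁻¹ * (x * w * x⁻¹) ∈ (T : Subgroup G) := by
      refine (hCP r T v hv hv1).le (Subgroup.mem_centralizer_singleton_iff.2 ?_)
      rw [← mul_inv_eq_iff_eq_mul]
      calc (w : G)⁻¹ * (x * w * x⁻¹) * v * ((w : G)⁻¹ * (x * w * x⁻¹))⁻¹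
          = (w : G)⁻¹ * (x * w * x⁻¹ * v * (x * w * x⁻¹)⁻¹) * w := by group
        _ = ((w : G)⁻¹ * v * w)⁻¹ := by rw [e1]; group
        _ = ((w : G) * v * (w : G)⁻¹)⁻¹ := by rw [inv_eq_of_mul_eq_one_right (hsq _ hw)]
        _ = v := by rw [e2, inv_inv]
    set v' := (w : G)⁻¹ * (x * w * x⁻¹) with hv'
    obtain ⟨j, hj⟩ := hr.out.odd_of_ne_two hr2
    set u' := v' ^ (j + 1) with hu'
    have hu2 : u' * u' = v' := by
      by_cases hv1' : v' = 1
      · rw [hu', hv1', one_pow, one_mul]
      · rw [hu', ← pow_add, show j + 1 + (j + 1) = orderOf v' + 1 by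
          rw [hall.orderOf_of_mem hr.out T.isPGroup' hmem hv1']; omega, pow_succ, pow_orderOf_eq_one, one_mul]
    have hwu : (w : G) * u' * (w : G)⁻¹ = u'⁻¹ := by
      by_cases hu1 : u' = 1
      · simp [hu1]
      have hy : (w : G) * u' * (w : G)⁻¹ ∈ (T : Subgroup G) := (Subgroup.mem_normalizer_iff.1 w.2 u').1 (pow_mem hmem _)
      by_contra hne
      have hyx : u' * ((w : G) * u' * (w : G)⁻¹) ≠ 1 := fun e => hne (eq_inv_of_mul_eq_one_right e)
      have hfixed : (w : G) * (u' * ((w : G) * u' * (w : G)⁻¹)) = u' * ((w : G) * u' * (w : G)⁻¹) * w := by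
        rw [← mul_inv_eq_iff_eq_mul]
        calc (w : G) * (u' * ((w : G) * u' * (w : G)⁻¹)) * (w : G)⁻¹
            = ((w : G) * u' * (w : G)⁻¹) * (((w : G) * w) * u' * ((w : G) * w)⁻¹) := by group
          _ = ((w : G) * u' * (w : G)⁻¹) * u' := by rw [hsq _ hw]; group
          _ = u' * ((w : G) * u' * (w : G)⁻¹) := habel r T _ hy _ (pow_mem hmem _)
      have h1 := hall.orderOf_eq_of_commute (hfixed : Commute (w : G) _) (hne1 Nat.prime_two hw) hyx
      rw [hw, hall.orderOf_of_mem hr.out T.isPGroup' (mul_mem (pow_mem hmem _) hy) hyx] at h1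
      exact hr2 h1.symm
    have hcomm : Commute (u' * x) (w : G) := by
      show u' * x * w = w * (u' * x)
      have e : x * w * x⁻¹ = w * v' := by rw [hv', mul_inv_cancel_left]
      calc u' * x * w = u' * (x * w * x⁻¹) * x := by group
        _ = u' * (w * (u' * u')) * x := by rw [e, hu2]
        _ = u' * ((w : G) * u' * (w : G)⁻¹) * w * u' * x := by group
        _ = w * (u' * x) := by rw [hwu]; group
    by_cases h1 : u' * x = 1
    · exact hxr (hall.orderOf_of_mem hr.out T.isPGroup' (by rw [eq_inv_of_mul_eq_one_right h1]; exact inv_mem (pow_mem hmem _)) hx1)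
    · have h2 := (hall.orderOf_eq_of_commute hcomm h1 (hne1 Nat.prime_two hw)).trans hw
      have e3 := hinvw _ (mul_mem (Subgroup.le_normalizer (pow_mem hmem _)) hx) h2
      -- so `x` inverts `v`, hence has even order
      have e4 : x * v * x⁻¹ = v⁻¹ := by
        have hu'v : u'⁻¹ * v⁻¹ * u' = v⁻¹ := by
          rw [mul_assoc, habel r T _ (inv_mem hv) _ (pow_mem hmem _), inv_mul_cancel_left]
        calc x * v * x⁻¹ = u'⁻¹ * (u' * x * v * (u' * x)⁻¹) * u' := by group
          _ = v⁻¹ := by rw [e3, hu'v]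
      obtain ⟨i, hi⟩ := (hall x hx1).odd_of_ne_two hx2
      have hpow : ∀ n : ℕ, x ^ (2 * n) * v * (x ^ (2 * n))⁻¹ = v := by
        intro n
        induction n with
        | zero => simp
        | succ n ih =>
          calc x ^ (2 * (n + 1)) * v * (x ^ (2 * (n + 1)))⁻¹
              = x * (x * (x ^ (2 * n) * v * (x ^ (2 * n))⁻¹) * x⁻¹) * x⁻¹ := by
                rw [show 2 * (n + 1) = 1 + 1 + 2 * n by ring, pow_add, pow_add, pow_one]; group
            _ = v := by rw [ih, e4, show x * v⁻¹ * x⁻¹ = (x * v * x⁻¹)⁻¹ by group, e4, inv_inv]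
      have h5 : v = v⁻¹ := by
        have h6 := hpow i
        have h7 : x ^ orderOf x * v * (x ^ orderOf x)⁻¹ = v⁻¹ := by
          rw [hi, pow_succ']
          calc x * x ^ (2 * i) * v * (x * x ^ (2 * i))⁻¹ = x * (x ^ (2 * i) * v * (x ^ (2 * i))⁻¹) * x⁻¹ := by group
            _ = v⁻¹ := by rw [h6, e4]
        rwa [pow_orderOf_eq_one, one_mul, inv_one, mul_one] at h7
      have h8 : orderOf v = 2 := hord2 v hv1 (by nth_rewrite 2 [h5]; rw [mul_inv_cancel])
      rw [hall.orderOf_of_mem hr.out T.isPGroup' hv hv1] at h8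
      exact hr2 h8
  obtain ⟨K, hK⟩ := Subgroup.exists_right_complement'_of_coprime
    (N := (S : Subgroup G).subgroupOf (Subgroup.normalizer ((S : Subgroup G) : Set G))) (by
      rw [Nat.card_congr (Subgroup.subgroupOfEquivOfLe Subgroup.le_normalizer).toEquiv]
      refine (IsPGroup.iff_card.1 S.isPGroup').choose_spec ▸ (Nat.Coprime.pow_left _ ((Nat.prime_two).coprime_iff_not_dvd.2 ?_))
      intro h2
      exact S.not_dvd_index (h2.trans (Subgroup.relIndex_dvd_index_of_le Subgroup.le_normalizer)))
  have hKcard : Nat.card K = s - 1 := by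
    have h1 := hK.card_mul
    rw [Nat.card_congr (Subgroup.subgroupOfEquivOfLe Subgroup.le_normalizer).toEquiv, hcN, hcs] at h1
    exact mul_left_cancel₀ Nat.card_pos.ne' h1
  have hKodd : Odd (Nat.card K) := by rw [hKcard, Nat.odd_iff]; omega
  haveI : Group.IsSolvable K := odd_solvable _ K rfl ((hall.subgroup _).subgroup K) hKodd
    ((Finset.card_le_card (Nat.primeFactors_mono ((Subgroup.card_subgroup_dvd_card K).trans
      (Subgroup.card_subgroup_dvd_card _)) Nat.card_pos.ne')).trans h3.le)
  haveI : Nontrivial K := Finite.one_lt_card_iff_nontrivial.1 (by omega)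
  obtain ⟨M, hMn, -, hM1, hMmin⟩ := exists_minimal_normal_le (N := (⊤ : Subgroup K)) top_ne_bot
  haveI := hMn
  obtain ⟨-, r, hr, hMr, -⟩ := minimal_normal_elementary hM1 inferInstance hMmin
  haveI := Fact.mk hr
  obtain ⟨x, hxM, hx1⟩ := (Subgroup.bot_or_exists_ne_one M).resolve_left hM1
  have hxG1 : (((x : K) : ↥(Subgroup.normalizer ((S : Subgroup G) : Set G))) : G) ≠ 1 := fun e => hx1 (Subtype.ext (Subtype.ext e))
  have hxo : orderOf (((x : K) : ↥(Subgroup.normalizer ((S : Subgroup G) : Set G))) : G) = r := by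
    rw [Subgroup.orderOf_coe, Subgroup.orderOf_coe]
    exact ((hall.subgroup _).subgroup K).orderOf_of_mem hr hMr hxM hx1
  have hr2 : r ≠ 2 := fun e => by
    have := hKodd.of_dvd_nat (hxo ▸ (by rw [Subgroup.orderOf_coe, Subgroup.orderOf_coe]; exact orderOf_dvd_natCard x) : r ∣ Nat.card K)
    rw [e] at this
    exact absurd this (by decide)
  obtain ⟨T, hxT⟩ := hsylmem r _ hxo
  have hrpq : r = p ∨ r = q := by
    have : r ∈ (Nat.card G).primeFactors.erase 2 :=
      Finset.mem_erase.2 ⟨hr2, Nat.mem_primeFactors.2 ⟨hr, hxo ▸ orderOf_dvd_natCard _, Nat.card_pos.ne'⟩⟩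
    rw [hpqe, Finset.mem_insert, Finset.mem_singleton] at this
    exact this
  have hreal : 2 ∣ Nat.card (Subgroup.normalizer ((T : Subgroup G) : Set G)) := by
    have hcn : ∀ (U : Sylow r G), Nat.card (Subgroup.normalizer ((U : Subgroup G) : Set G)) =
        Nat.card (Subgroup.normalizer ((T : Subgroup G) : Set G)) := fun U => by
      have h1 := Subgroup.card_mul_index (Subgroup.normalizer ((U : Subgroup G) : Set G))
      have h2 := Subgroup.card_mul_index (Subgroup.normalizer ((T : Subgroup G) : Set G))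
      rw [show Subgroup.index (Subgroup.normalizer ((U : Subgroup G) : Set G)) = _ from U.card_eq_index_normalizer.symm] at h1
      rw [show Subgroup.index (Subgroup.normalizer ((T : Subgroup G) : Set G)) = _ from T.card_eq_index_normalizer.symm] at h2
      exact mul_right_cancel₀ (Nat.card_pos (α := Sylow r G)).ne' (h1.trans h2.symm)
    rcases hrpq with rfl | rfl
    · exact hcn P ▸ hrp
    · exact hcn Q ▸ hrq
  have hmr : ∃ e, s - 1 = r ^ e := by
    refine ⟨(s - 1).primeFactorsList.length, Nat.eq_prime_pow_of_unique_prime_dvd (by omega) fun {l} hl hld => ?_⟩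
    by_contra hlr
    haveI := Fact.mk hl
    obtain ⟨y, hy⟩ := exists_prime_orderOf_dvd_card' (G := K) l (hKcard ▸ hld)
    set yG := (((y : K) : ↥(Subgroup.normalizer ((S : Subgroup G) : Set G))) : G)
    have hyo : orderOf yG = l := by rw [Subgroup.orderOf_coe, Subgroup.orderOf_coe, hy]
    have hmem : y * x * y⁻¹ ∈ M := hMn.conj_mem x hxM y
    have hconjT : yG * (((x : K) : ↥(Subgroup.normalizer ((S : Subgroup G) : Set G))) : G) * yG⁻¹ ∈ (T : Subgroup G) := by
      rw [← hCP r T _ hxT hxG1, Subgroup.mem_centralizer_singleton_iff]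
      have hc : (y * x * y⁻¹) * x = x * (y * x * y⁻¹) := by
        have hab := (minimal_normal_elementary hM1 inferInstance hMmin).1
        exact congrArg Subtype.val (hab.is_comm.comm ⟨_, hmem⟩ ⟨x, hxM⟩)
      exact congrArg (fun z : K => ((z : ↥(Subgroup.normalizer ((S : Subgroup G) : Set G))) : G)) hc
    have hyN := mem_normalizer_of_conj_mem (hTI r) hxG1 hxT hconjT
    have h2 := hN2 r hr2 (hxo ▸ orderOf_dvd_natCard _) T hreal yG hyN (by rw [hyo]; exact hlr) (hne1 hl hyo)
    rw [hyo] at h2
    have := hKodd.of_dvd_nat (hKcard ▸ hld)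
    rw [h2] at this
    exact absurd this (by decide)
  obtain ⟨e, he⟩ := hmr
  have hdiv : (s - 1) ∣ A ∨ (s - 1) ∣ B := by
    rcases hrpq with rfl | rfl
    · left
      obtain ⟨b, hb⟩ := IsPGroup.iff_card.1 Q.isPGroup'
      refine (Nat.Coprime.dvd_of_dvd_mul_right ?_ hm)
      rw [he, hB, hb]
      exact Nat.Coprime.pow _ _ ((Nat.coprime_primes Fact.out Fact.out).2 hpq)
    · right
      obtain ⟨a, ha⟩ := IsPGroup.iff_card.1 P.isPGroup'
      refine (Nat.Coprime.dvd_of_dvd_mul_left ?_ hm)
      rw [he, hA, ha]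
      exact Nat.Coprime.pow _ _ ((Nat.coprime_primes Fact.out Fact.out).2 hpq.symm)
  -- both cases, normalised so that `s - 1 = A0` and `B0 = s + 1`
  obtain ⟨a, b, Ta, hab, hAB⟩ : ∃ (a b : ℕ) (_ : a.Prime) (hab : a ≠ b),
      b.Prime ∧ (∃ i j, s - 1 = a ^ i ∧ s + 1 = b ^ j) ∧ Nat.card G = s * ((s - 1) * (s + 1)) := by
    rcases hdiv with hd | hd
    · obtain ⟨e1, e2⟩ := two_real hh2 (by omega) (by omega) hd heq'
      obtain ⟨i, hi⟩ := IsPGroup.iff_card.1 P.isPGroup'
      obtain ⟨j, hj⟩ := IsPGroup.iff_card.1 Q.isPGroup'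
      exact ⟨p, q, Fact.out, hpq, Fact.out, ⟨i, j, e1 ▸ hi, by rw [hh, ← e2]; exact hj⟩,
        by rw [hcardG, e1, e2, ← hh]⟩
    · obtain ⟨e1, e2⟩ := two_real (A := B) (B := A) hh2 (by omega) (by omega) hd (by rw [mul_comm]; linarith)
      obtain ⟨i, hi⟩ := IsPGroup.iff_card.1 Q.isPGroup'
      obtain ⟨j, hj⟩ := IsPGroup.iff_card.1 P.isPGroup'
      exact ⟨q, p, Fact.out, hpq.symm, Fact.out, ⟨i, j, e1 ▸ hi, by rw [hh, ← e2]; exact hj⟩,
        by rw [hcardG, e1, e2, ← hh, mul_comm (s + 1)]⟩
  obtain ⟨hbp, ⟨i, j, hi, hj⟩, hGc⟩ := hAB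
  have hk3 : k = 2 ∨ k = 3 := by
    have h3d : 3 ∣ s - 1 ∨ 3 ∣ s + 1 := by
      have : ¬ 3 ∣ s := by
        rw [hk]
        intro hd
        exact absurd (Nat.prime_three.dvd_of_dvd_pow hd) (by decide)
      rcases (show s % 3 = 1 ∨ s % 3 = 2 by omega) with e | e
      · exact Or.inl (Nat.dvd_of_mod_eq_zero (by omega))
      · exact Or.inr (Nat.dvd_of_mod_eq_zero (by omega))
    rcases h3d with h3d | h3d
    · rw [hi] at h3d
      obtain rfl : 3 = a := (Nat.prime_dvd_prime_iff_eq Nat.prime_three Ta).1 (Nat.prime_three.dvd_of_dvd_pow h3d)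
      have := factor_three_minus (n := k) (a := i) (by rw [← hi, ← hk]; omega)
      omega
    · rw [hj] at h3d
      obtain rfl : 3 = b := (Nat.prime_dvd_prime_iff_eq Nat.prime_three hbp).1 (Nat.prime_three.dvd_of_dvd_pow h3d)
      have := factor_three_plus (n := k) (b := j) (by rw [← hj, hk])
      omega
  rcases hk3 with rfl | rfl
  · -- order sixty
    norm_num [-Nat.card_eq_fintype_card] at hk
    rw [hk] at hGc hcs
    norm_num [-Nat.card_eq_fintype_card] at hGc hcs
    refine iso_alternating_of_card_sixty hGc (H := Subgroup.normalizer ((S : Subgroup G) : Set G)) ?_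
    have h1 := Subgroup.card_mul_index (Subgroup.normalizer ((S : Subgroup G) : Set G))
    rw [hcN, hGc, hcs, ← hs, hk] at h1
    omega
  · -- order five hundred and four
    exfalso
    norm_num [-Nat.card_eq_fintype_card] at hk
    rw [hk] at hGc hcs
    norm_num [-Nat.card_eq_fintype_card] at hGc hcs
    set H := Subgroup.normalizer ((S : Subgroup G) : Set G)
    have hHc : Nat.card H = 56 := by rw [hcN, ← hs, hk, hcs]
    have hH9 : H.index = 9 := by
      have h1 := Subgroup.card_mul_index H
      rw [hHc, hGc] at h1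
      omega
    haveI : Fact (Nat.Prime 7) := ⟨by norm_num⟩
    obtain ⟨τ, hτ⟩ := exists_prime_orderOf_dvd_card' (G := H) 7 (by rw [hHc]; norm_num)
    rw [← Subgroup.orderOf_coe] at hτ
    obtain ⟨T7, hT7⟩ := hsylmem 7 (τ : G) hτ
    have h7pq : 7 = p ∨ 7 = q := by
      have : 7 ∈ (Nat.card G).primeFactors.erase 2 :=
        Finset.mem_erase.2 ⟨by norm_num, Nat.mem_primeFactors.2 ⟨by norm_num, hτ ▸ orderOf_dvd_natCard _, Nat.card_pos.ne'⟩⟩
      rw [hpqe, Finset.mem_insert, Finset.mem_singleton] at this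
      exact this
    have hreal7 : 2 ∣ Nat.card (Subgroup.normalizer ((T7 : Subgroup G) : Set G)) := by
      have hcn : ∀ (U : Sylow 7 G), Nat.card (Subgroup.normalizer ((U : Subgroup G) : Set G)) =
          Nat.card (Subgroup.normalizer ((T7 : Subgroup G) : Set G)) := fun U => by
        have h1 := Subgroup.card_mul_index (Subgroup.normalizer ((U : Subgroup G) : Set G))
        have h2 := Subgroup.card_mul_index (Subgroup.normalizer ((T7 : Subgroup G) : Set G))
        rw [show Subgroup.index (Subgroup.normalizer ((U : Subgroup G) : Set G)) = _ from U.card_eq_index_normalizer.symm] at h1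
        rw [show Subgroup.index (Subgroup.normalizer ((T7 : Subgroup G) : Set G)) = _ from T7.card_eq_index_normalizer.symm] at h2
        exact mul_right_cancel₀ (Nat.card_pos (α := Sylow 7 G)).ne' (h1.trans h2.symm)
      rcases h7pq with rfl | rfl
      · exact hcn P ▸ hrp
      · exact hcn Q ▸ hrq
    obtain ⟨w, hw⟩ := exists_prime_orderOf_dvd_card' (G := Subgroup.normalizer ((T7 : Subgroup G) : Set G)) 2 hreal7
    rw [← Subgroup.orderOf_coe] at hw
    have hwτ : (w : G) * τ * (w : G)⁻¹ = (τ : G)⁻¹ := by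
      have hy := (Subgroup.mem_normalizer_iff.1 w.2 (τ : G)).1 hT7
      by_contra hne
      have hyx : (τ : G) * ((w : G) * τ * (w : G)⁻¹) ≠ 1 := fun e => hne (eq_inv_of_mul_eq_one_right e)
      have hfixed : (w : G) * ((τ : G) * ((w : G) * τ * (w : G)⁻¹)) = (τ : G) * ((w : G) * τ * (w : G)⁻¹) * w := by
        rw [← mul_inv_eq_iff_eq_mul]
        calc (w : G) * ((τ : G) * ((w : G) * τ * (w : G)⁻¹)) * (w : G)⁻¹
            = ((w : G) * τ * (w : G)⁻¹) * (((w : G) * w) * τ * ((w : G) * w)⁻¹) := by group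
          _ = ((w : G) * τ * (w : G)⁻¹) * τ := by rw [hsq _ hw]; group
          _ = (τ : G) * ((w : G) * τ * (w : G)⁻¹) := habel 7 T7 _ hy _ hT7
      have h1 := hall.orderOf_eq_of_commute (hfixed : Commute (w : G) _) (hne1 Nat.prime_two hw) hyx
      rw [hw, hall.orderOf_of_mem (by norm_num) T7.isPGroup' (mul_mem hT7 hy) hyx] at h1
      norm_num at h1
    refine Cfsg.Lib.Solv.FiveHundredFour.no_such_group (S : Subgroup G) H Subgroup.le_normalizer
      (by rw [← hs, hk]) hH9 hexp (fun g hg x hx => (Subgroup.mem_normalizer_iff.1 hg x).1 hx)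
      (fun g hg x hx hgx => by_contra fun hx1 => hg (mem_normalizer_of_conj_mem (hTI 2) hx1 hx hgx))
      (fun x hx hxx => ?_) (fun x hx => ?_) (fun x y hc => hall.orderOf_eq_of_commute hc) τ τ.2 hτ w hw hwτ
    · by_cases hx1 : x = 1
      · rw [hx1]; exact one_mem _
      · exact mem_sylow_of_mem_normalizer S hx (hord2 x hx1 hxx)
    · have hd : orderOf x ∣ 2 ^ 3 * (3 ^ 2 * 7) := by
        have := orderOf_dvd_natCard x
        rwa [hGc] at this
      rcases (hall x hx).dvd_mul.1 hd with h | h
      · exact Or.inl ((Nat.prime_dvd_prime_iff_eq (hall x hx) Nat.prime_two).1 ((hall x hx).dvd_of_dvd_pow h))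
      · rcases (hall x hx).dvd_mul.1 h with h | h
        · exact Or.inr (Or.inl ((Nat.prime_dvd_prime_iff_eq (hall x hx) Nat.prime_three).1 ((hall x hx).dvd_of_dvd_pow h)))
        · exact Or.inr (Or.inr ((Nat.prime_dvd_prime_iff_eq (hall x hx) (by norm_num)).1 h))

end Cfsg.Agent.S4068
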