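import Cfsg.Statements.S0494
import Cfsg.Agent.S4068
import Cfsg.Agent.Lib.Transfer.Action
-- import your own Cfsg.Agent.* helpers here

set_option autoImplicit false
open Cfsg

namespace Cfsg.Agent.S0494

/-- A simple group of order 60 is isomorphic to the alternating group of degree 5. -/
theorem result {G : Type*} [Group G] [Finite G] [IsSimpleGroup G]
    (h : Nat.card G = 60) : Nonempty (G ≃* alternatingGroup (Fin 5)) := by
  haveI := Fact.mk Nat.prime_two
  obtain ⟨S⟩ : Nonempty (Sylow 2 G) := inferInstance
  have hS : Nat.card (S : Subgroup G) = 4 := by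
    rw [S.card_eq_multiplicity, h]
    rw [show (60 : ℕ).factorization 2 = 2 by
      rw [show (60 : ℕ) = 2 ^ 2 * 15 from rfl, Nat.factorization_mul (by norm_num) (by norm_num), Finsupp.add_apply,
        Nat.prime_two.factorization_pow, Finsupp.single_eq_same, Nat.factorization_eq_zero_of_not_dvd (by norm_num)]]
    norm_num
  let N := Subgroup.normalizer ((S : Subgroup G) : Set G)
  have h4 : 4 ∣ Nat.card N := hS ▸ Subgroup.card_dvd_of_le Subgroup.le_normalizer
  have hdvd : Nat.card N ∣ 60 := h ▸ Subgroup.card_subgroup_dvd_card N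
  have hne4 : Nat.card N ≠ 4 := by
    intro h4'
    have hNS : N = (S : Subgroup G) :=
      (Subgroup.eq_of_le_of_card_ge Subgroup.le_normalizer (by rw [h4', hS])).symm
    haveI : IsMulCommutative (S : Subgroup G) :=
      IsPGroup.isMulCommutative_of_card_eq_prime_sq (p := 2) (by rw [hS]; norm_num)
    obtain ⟨P, K, hK, hc⟩ := Cfsg.Lib.Transfer.hasNormalPComplement_of_normalizer_le_centralizer S
      (show N ≤ _ by rw [hNS]; exact Subgroup.le_centralizer (S : Subgroup G))
    have hP : Nat.card (P : Subgroup G) = 4 := by rw [P.card_eq_multiplicity, ← S.card_eq_multiplicity, hS]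
    have h1 := hc.card_mul
    rw [hP, h] at h1
    rcases hK.eq_bot_or_eq_top with rfl | rfl
    · rw [Subgroup.card_bot] at h1; omega
    · rw [Subgroup.card_top, h] at h1; omega
  have hmi := N.card_mul_index
  rw [h] at hmi
  have hle := Nat.le_of_dvd (by norm_num) hdvd
  have hi0 : N.index ≠ 0 := Subgroup.index_ne_zero_of_finite
  have hi1 : N.index ≠ 1 := by
    intro h1
    have hn : (S : Subgroup G).Normal := Subgroup.normalizer_eq_top_iff.1 (Subgroup.index_eq_one.1 h1)
    rcases hn.eq_bot_or_eq_top with e | e <;> rw [e] at hS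
    · simp at hS
    · rw [Subgroup.card_top, h] at hS; omega
  have hi3 : N.index ≠ 3 := by
    intro h3
    let φ := MulAction.toPermHom G (G ⧸ N)
    have hinj : Function.Injective φ := by
      rw [← MonoidHom.ker_eq_bot_iff]
      refine ((inferInstance : φ.ker.Normal).eq_bot_or_eq_top).resolve_right fun e => hi1 ?_
      rw [Subgroup.index_eq_one, eq_top_iff, ← e, ← Subgroup.normalCore_eq_ker]
      exact N.normalCore_le
    have := Subgroup.card_dvd_of_injective φ hinj
    rw [h, Nat.card_perm, ← N.index_eq_card, h3] at this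
    norm_num [Nat.factorial] at this
  have h5 : N.index = 5 := by
    obtain ⟨c, hc⟩ := h4
    rw [hc] at hmi hne4
    have hmi' : c * N.index = 15 := by rw [mul_assoc] at hmi; omega
    have hci : N.index ∣ 15 := Dvd.intro_left _ hmi'
    have : N.index ≤ 15 := Nat.le_of_dvd (by norm_num) hci
    interval_cases hi : N.index <;> omega
  exact Cfsg.Agent.S4068.iso_alternating_of_card_sixty h h5

end Cfsg.Agent.S0494
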