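import Cfsg.Statements.S0495
import Mathlib
import Cfsg.Agent.Lib.Recog.SimplePSLTwoPrime
import Cfsg.Agent.Lib.Classical.PSLSeven
-- import your own Cfsg.Agent.* helpers here

set_option autoImplicit false
open Cfsg

namespace Cfsg.Agent.S0495

/-- A simple group of order 168 is isomorphic to the projective special linear group of dimension 2 over the field with
7 elements. -/
theorem result {G : Type*} [Group G] [Finite G] [IsSimpleGroup G]
    (h : Nat.card G = 168) {F : Type*} [Field F] [Fintype F] (hF : Fintype.card F = 7) :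
    Nonempty (G ≃* Matrix.ProjectiveSpecialLinearGroup (Fin 2) F) := by
  haveI : Fact (Nat.Prime 7) := ⟨by norm_num⟩
  obtain ⟨p, hp⟩ := CharP.exists F
  obtain ⟨m, hpp, hm⟩ := FiniteField.card F p
  have hp7 : p = 7 := by
    have hd : p ∣ 7 := by rw [← hF, hm]; exact dvd_pow_self p m.ne_zero
    exact (Nat.prime_dvd_prime_iff_eq hpp (by norm_num)).1 hd
  subst hp7
  obtain ⟨e⟩ := Cfsg.Lib.Recog.SimplePSLTwo.nonempty_equiv (G := G) (p := 7) (k := 3) (by norm_num)
    Nat.prime_three (by norm_num) (by rw [h]) (by norm_num)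
    (fun n hn hn7 => by
      have := Nat.le_of_dvd (by norm_num) hn
      interval_cases n <;> first | omega | (norm_num at hn))
  have φ : ZMod 7 ≃+* F := ZMod.ringEquiv F hF
  obtain ⟨e'⟩ := Cfsg.Lib.Classical.PSLSeven.psl_congr 2 φ
  exact ⟨e.trans e'⟩

end Cfsg.Agent.S0495
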