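import Cfsg.Statements.S0521
import Cfsg.Agent.Lib.Solv.OddStable
import Cfsg.Agent.Lib.Solv.Coprime2
import Cfsg.Agent.Lib.Solv.MinNormal
import Cfsg.Agent.Lib.Solv.PGroupBasic
import Cfsg.Agent.Lib.Transfer.PGroupNormal
-- import your own Cfsg.Agent.* helpers here

set_option autoImplicit false
open Cfsg

namespace Cfsg.Agent.S0521

open Subgroup
open Cfsg.Lib.Solv

universe v

/-- In a `p`-group with cyclic derived subgroup, every element acts quadratically on a normal
elementary abelian subgroup. -/
theorem quadratic_of_cyclic_commutator {P : Type v} [Group P] [Finite P] {p : ℕ} [Fact p.Prime]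
    (hP : IsPGroup p P) (hc : IsCyclic (_root_.commutator P)) (V : Subgroup P) [V.Normal]
    (hV : ∀ v ∈ V, v ^ p = 1) (x : P) : ⁅⁅V, zpowers x⁆, zpowers x⁆ = ⊥ := by
  classical
  let W := _root_.commutator P ⊓ V
  haveI : W.Normal := normal_inf_normal _ _
  have hle : ⁅V, zpowers x⁆ ≤ W :=
    le_inf (by rw [_root_.commutator_def]; exact commutator_mono le_top le_top) (commutator_le_left _ _)
  suffices hW : W ≤ center P by
    rw [commutator_eq_bot_iff_le_centralizer]
    exact (hle.trans hW).trans (center_le_centralizer _)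
  by_cases hW0 : W = ⊥
  · rw [hW0]; exact bot_le
  have hne := Cfsg.Lib.Transfer.inf_center_ne_bot hP W hW0
  obtain ⟨⟨z, hzW, hzC⟩, hz⟩ := ((W ⊓ center P).ne_bot_iff_exists_ne_one.1 hne)
  have hz1 : z ≠ 1 := fun h => hz (Subtype.ext h)
  intro w hw
  haveI := Fintype.ofFinite (_root_.commutator P)
  have hzo : orderOf (⟨z, hzW.1⟩ : _root_.commutator P) = p := by
    rw [Subgroup.orderOf_mk]; exact orderOf_eq_prime (hV z hzW.2) hz1
  let fin := Finset.univ.filter fun a : _root_.commutator P => a ^ p = 1
  let zs := Finset.univ.filter fun a : _root_.commutator P => a ∈ zpowers (⟨z, hzW.1⟩ : _root_.commutator P)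
  have hsub : zs ⊆ fin := fun a ha => by
    simp only [zs, Finset.mem_filter, Finset.mem_univ, true_and] at ha
    obtain ⟨i, rfl⟩ := ha
    simp only [fin, Finset.mem_filter, Finset.mem_univ, true_and]
    show ((⟨z, hzW.1⟩ : _root_.commutator P) ^ i) ^ p = 1
    rw [← zpow_natCast, ← zpow_mul, mul_comm, zpow_mul, zpow_natCast, ← hzo, pow_orderOf_eq_one, one_zpow]
  have hcard : fin.card ≤ zs.card := by
    refine (IsCyclic.card_pow_eq_one_le (Fact.out : p.Prime).pos).trans (le_of_eq ?_)
    rw [← hzo, ← Fintype.card_zpowers]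
    simp only [zs, Fintype.card_subtype]
  have hwz : (⟨w, hw.1⟩ : _root_.commutator P) ∈ zs := by
    rw [Finset.eq_of_subset_of_card_le hsub hcard]
    simp only [fin, Finset.mem_filter, Finset.mem_univ, true_and]
    exact Subtype.ext (hV w hw.2)
  simp only [zs, Finset.mem_filter, Finset.mem_univ, true_and] at hwz
  obtain ⟨i, hi⟩ := hwz
  rw [← show z ^ i = w from congrArg Subtype.val hi]
  exact (center P).zpow_mem hzC i

theorem sylow_le_core {T : Type v} [Group T] [Finite T] [Group.IsSolvable T] (hodd : Odd (Nat.card T))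
    {p : ℕ} [Fact p.Prime] (hp : p ≠ 2) (hO : Cfsg.pPrimeCore p T = ⊥) (S : Sylow p T)
    (hS : IsCyclic (_root_.commutator (S : Subgroup T))) : (S : Subgroup T) ≤ Cfsg.pCore p T := by
  intro x hx
  let V := Cfsg.pCore p T
  have hV : IsPGroup p V := isPGroup_pCore p
  let Φ : Subgroup T := (frattini V).map V.subtype
  haveI : Φ.Normal := by
    haveI : (frattini V).Characteristic := frattini_characteristic
    infer_instance
  let g := QuotientGroup.mk' Φ
  have hg : Function.Surjective g := QuotientGroup.mk'_surjective Φ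
  let V1 := V.map g
  haveI : V1.Normal := (inferInstance : V.Normal).map g hg
  have hV1e : ∀ v ∈ V1, v ^ p = 1 := by
    rintro _ ⟨v, hv, rfl⟩
    rw [← map_pow]
    exact (QuotientGroup.eq_one_iff (v ^ p)).2 ⟨⟨v, hv⟩ ^ p, pow_mem_frattini hV _, rfl⟩
  let S1 := (S : Subgroup T).map g
  have hS1 : IsPGroup p S1 := S.isPGroup'.map g
  have hS1c : IsCyclic (_root_.commutator S1) := by
    have h : _root_.commutator S1 = (_root_.commutator (S : Subgroup T)).map (g.subgroupMap (S : Subgroup T)) := by
      rw [_root_.commutator_def, _root_.commutator_def, map_commutator,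
        map_top_of_surjective _ (g.subgroupMap_surjective _)]
    rw [h]
    haveI := hS
    exact isCyclic_of_surjective ((g.subgroupMap (S : Subgroup T)).subgroupMap (_root_.commutator (S : Subgroup T)))
      (MonoidHom.subgroupMap_surjective _ _)
  have hV1S : V1 ≤ S1 := map_mono (pCore_le_sylow p S)
  haveI : (V1.subgroupOf S1).Normal := inferInstance
  have hq1 := quadratic_of_cyclic_commutator hS1 hS1c (V1.subgroupOf S1)
    (fun v hv => Subtype.ext (hV1e v hv)) ⟨g x, mem_map_of_mem g hx⟩
  have hq : ⁅⁅V1, zpowers (g x)⁆, zpowers (g x)⁆ = ⊥ := by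
    have h := congrArg (Subgroup.map S1.subtype) hq1
    rwa [map_commutator, map_commutator, map_subgroupOf_eq_of_le hV1S, MonoidHom.map_zpowers,
      Subgroup.map_bot] at h
  have hodd1 : Odd (Nat.card (T ⧸ Φ)) := Odd.of_dvd_nat hodd (card_quotient_dvd_card Φ)
  obtain ⟨M, hM, hxM, hMp⟩ := quadratic_mem_normal (normalizerPStable_of_odd hodd1 hp) V1
    (hV.map g) (g x) hq
  haveI := hM
  let C0 := (centralizer (V1 : Set (T ⧸ Φ))).comap g
  have hC0 : IsPGroup p C0 := by
    refine IsPGroup.of_card (n := (Nat.card C0).primeFactorsList.length)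
      (Nat.eq_prime_pow_of_unique_prime_dvd Nat.card_pos.ne' fun {q} hq hd => ?_)
    haveI := Fact.mk hq
    by_contra hqp
    obtain ⟨c, hc⟩ := exists_prime_orderOf_dvd_card' q hd
    rw [← Subgroup.orderOf_coe] at hc
    obtain ⟨n, hn⟩ := IsPGroup.iff_card.1 hV
    obtain ⟨m, hm⟩ := IsPGroup.iff_card.1 (hV.to_subgroup (frattini V))
    have hcV : (c : T) ∈ centralizer (V : Set T) := by
      refine (centralizes_of_frattini (zpowers (c : T)) V (by rw [normalizer_eq_top]; exact le_top)
        (by rw [Nat.card_zpowers, hc, hm]; exact Nat.Coprime.pow_right _ ((Nat.coprime_primes hq Fact.out).2 hqp))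
        ?_) (mem_zpowers _)
      intro a ha k hk
      have haC : a ∈ C0 := zpowers_le.2 c.2 ha
      have h := mem_centralizer_iff.1 haC (g k) (mem_map_of_mem g hk)
      refine (QuotientGroup.eq_one_iff _).1 ?_
      show g (a * k * a⁻¹ * k⁻¹) = 1
      rw [map_mul, map_mul, map_mul, map_inv, map_inv, ← h]
      group
    have h1 : orderOf (c : T) ∣ p ^ n := hn ▸ orderOf_mk (c : T) (centralizer_pCore_le p hO hcV) ▸
      orderOf_dvd_natCard _
    exact hqp ((Nat.prime_dvd_prime_iff_eq hq Fact.out).1 (hq.dvd_of_dvd_pow (hc ▸ h1)))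
  have hMV : M.comap g ≤ Cfsg.pCore p T := by
    refine le_pCore inferInstance fun m => ?_
    obtain ⟨k, hk⟩ := hMp (g m) m.2
    rw [← map_pow] at hk
    obtain ⟨j, hj⟩ := hC0 ⟨(m : T) ^ p ^ k, hk⟩
    refine ⟨k + j, Subtype.ext ?_⟩
    have h := congrArg Subtype.val hj
    simpa [pow_add, pow_mul] using h
  exact hMV hxM


/-- Let X be a finite solvable group of odd order, p a prime and S a Sylow p-subgroup of X whose commutator subgroup is
cyclic. Then the product of the largest normal subgroup of X of order prime to p with S is a normal subgroup of X. -/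
theorem result {X : Type*} [Group X] [Finite X] [Group.IsSolvable X]
    (hX : Odd (Nat.card X)) (p : ℕ) [Fact p.Prime] (S : Sylow p X) (hS : IsCyclic (commutator (S : Subgroup X))) :
    (Cfsg.pPrimeCore p X ⊔ (S : Subgroup X)).Normal := by
  classical
  by_cases hp : p = 2
  · subst hp
    have h : (S : Subgroup X) = ⊥ := by
      rw [← card_eq_one]
      obtain ⟨n, hn⟩ := IsPGroup.iff_card.1 S.isPGroup'
      rcases n with _ | n
      · simpa using hn
      · exfalso
        have hd : 2 ∣ Nat.card X := (hn ▸ dvd_pow_self 2 n.succ_ne_zero).trans (card_subgroup_dvd_card _)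
        exact (Nat.not_even_iff_odd.2 hX) (even_iff_two_dvd.2 hd)
    rw [h, sup_bot_eq]
    infer_instance
  let K := Cfsg.pPrimeCore p X
  let f := QuotientGroup.mk' K
  have hf : Function.Surjective f := QuotientGroup.mk'_surjective K
  haveI : Group.IsSolvable (X ⧸ K) := Group.isSolvable_of_surjective hf
  let S' : Sylow p (X ⧸ K) := S.mapSurjective hf
  have hS'coe : (S' : Subgroup (X ⧸ K)) = (S : Subgroup X).map f := rfl
  have hS' : IsCyclic (_root_.commutator ((S : Subgroup X).map f)) := by
    have h : _root_.commutator ((S : Subgroup X).map f) =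
        (_root_.commutator (S : Subgroup X)).map (f.subgroupMap (S : Subgroup X)) := by
      rw [_root_.commutator_def, _root_.commutator_def, map_commutator,
        map_top_of_surjective _ (f.subgroupMap_surjective _)]
    rw [h]
    haveI := hS
    exact isCyclic_of_surjective ((f.subgroupMap (S : Subgroup X)).subgroupMap (_root_.commutator (S : Subgroup X)))
      (MonoidHom.subgroupMap_surjective _ _)
  have h1 : (S' : Subgroup (X ⧸ K)) ≤ Cfsg.pCore p (X ⧸ K) :=
    sylow_le_core (Odd.of_dvd_nat hX (card_quotient_dvd_card K)) hp (pPrimeCore_quotient_eq_bot p) S' hS'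
  have h2 : (S : Subgroup X).map f = Cfsg.pCore p (X ⧸ K) := le_antisymm h1 (pCore_le_sylow p S')
  have h3 : K ⊔ (S : Subgroup X) = (Cfsg.pCore p (X ⧸ K)).comap f := by
    rw [← h2, comap_map_eq, QuotientGroup.ker_mk', sup_comm]
  rw [h3]
  exact (inferInstance : (Cfsg.pCore p (X ⧸ K)).Normal).comap f

end Cfsg.Agent.S0521
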