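import Cfsg.Statements.S0593
import Mathlib
import Cfsg.Agent.Lib.PLocal.QuadraticSection
-- import your own Cfsg.Agent.* helpers here

set_option autoImplicit false
open Cfsg Cfsg.Lib
open scoped commutatorElement

namespace Cfsg.Agent.S0593

/-- For odd p, a faithful group on an elementary abelian p-group generated by two quadratically acting elements is a p-group or has non-abelian Sylow 2-subgroups. -/
theorem result {G : Type*} [Group G] [Finite G] {p : ℕ} [Fact p.Prime] (hp : p ≠ 2) (V H : Subgroup G) (hV : Cfsg.IsElementaryAbelian p V) (hHV : H ≤ Subgroup.normalizer (V : Set G)) (hf : H ⊓ Subgroup.centralizer (V : Set G) = ⊥) (a b : G) (hab : H = Subgroup.closure {a, b}) (ha : ⁅⁅V, Subgroup.zpowers a⁆, Subgroup.zpowers a⁆ = ⊥) (hb : ⁅⁅V, Subgroup.zpowers b⁆, Subgroup.zpowers b⁆ = ⊥) (hnp : ¬ IsPGroup p H) (T : Sylow 2 H) : ¬ IsMulCommutative T := by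
  have haH : a ∈ H := hab ▸ Subgroup.subset_closure (Or.inl rfl)
  have hbH : b ∈ H := hab ▸ Subgroup.subset_closure (Or.inr rfl)
  have : a ∉ (pCore p H).map H.subtype ∨ b ∉ (pCore p H).map H.subtype := by
    by_contra! hc
    have hle : H ≤ (pCore p H).map H.subtype := by
      conv_lhs => rw [hab]
      rw [Subgroup.closure_le]
      rintro g (rfl | rfl)
      · exact hc.1
      · exact hc.2
    exact hnp (((Solv.isPGroup_pCore (G := H) p).map H.subtype).to_le hle)
  rcases this with hna | hna
  · obtain ⟨K, f, hfs⟩ := PLocal.QuadSection.exists_hom_of_section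
      (PLocal.QuadSection.section_of_faithful hp V H hV hHV hf a haH ha hna)
    exact PLocal.QuadSection.sylow_not_comm hp K f hfs T
  · obtain ⟨K, f, hfs⟩ := PLocal.QuadSection.exists_hom_of_section
      (PLocal.QuadSection.section_of_faithful hp V H hV hHV hf b hbH hb hna)
    exact PLocal.QuadSection.sylow_not_comm hp K f hfs T

end Cfsg.Agent.S0593
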