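import Cfsg.Statements.S0594
import Mathlib
import Cfsg.Agent.Lib.PLocal.QuadraticSection
-- import your own Cfsg.Agent.* helpers here

set_option autoImplicit false
open Cfsg Cfsg.Lib
open scoped commutatorElement

namespace Cfsg.Agent.S0594

/-- For odd p, two quadratic generators of a faithful group that is not a p-group, one of which acts nontrivially on a normal subgroup of order prime to p, force p = 3 and a section isomorphic to SL(2,3). -/
theorem result {G : Type*} [Group G] [Finite G] {p : ℕ} [Fact p.Prime] (hp : p ≠ 2) (V H : Subgroup G) (hV : Cfsg.IsElementaryAbelian p V) (hHV : H ≤ Subgroup.normalizer (V : Set G)) (hf : H ⊓ Subgroup.centralizer (V : Set G) = ⊥) (a b : G) (hab : H = Subgroup.closure {a, b}) (ha : ⁅⁅V, Subgroup.zpowers a⁆, Subgroup.zpowers a⁆ = ⊥) (hb : ⁅⁅V, Subgroup.zpowers b⁆, Subgroup.zpowers b⁆ = ⊥) (hnp : ¬ IsPGroup p H) (Q : Subgroup G) (hQH : Q ≤ H) (hQn : H ≤ Subgroup.normalizer (Q : Set G)) (hQ : (Nat.card Q).Coprime p) (hQa : ⁅Q, Subgroup.zpowers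 a⁆ ≠ ⊥) : p = 3 ∧ ∃ (K L : Subgroup G) (hL : (L.subgroupOf K).Normal), K ≤ H ∧ Nonempty ((K ⧸ L.subgroupOf K) ≃* Matrix.SpecialLinearGroup (Fin 2) (ZMod 3)) := by
  have haH : a ∈ H := hab ▸ Subgroup.subset_closure (Or.inl rfl)
  have hap : a ^ p = 1 := by
    refine Subgroup.mem_bot.1 (hf ▸ ⟨pow_mem haH p, Subgroup.mem_centralizer_iff.2 fun v hv => ?_⟩)
    set d := a * v * a⁻¹ * v⁻¹ with hd
    have hdV : d ∈ V := mul_mem ((Subgroup.mem_normalizer_iff.1 (hHV haH) v).1 hv) (inv_mem hv)
    have hdc : Commute a d := by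
      have h1 : ⁅⁅v, a⁆, a⁆ = 1 := Subgroup.mem_bot.1 (ha ▸ Subgroup.commutator_mem_commutator
        (Subgroup.commutator_mem_commutator hv (Subgroup.mem_zpowers a)) (Subgroup.mem_zpowers a))
      have h2 : Commute ⁅v, a⁆ a := commutatorElement_eq_one_iff_mul_comm.1 h1
      have h3 : d = ⁅v, a⁆⁻¹ := by rw [hd, commutatorElement_def]; group
      rw [h3]
      exact h2.symm.inv_right
    have key : ∀ k : ℕ, a ^ k * v = d ^ k * v * a ^ k := by
      intro k
      induction k with
      | zero => simp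
      | succ k ih =>
        calc a ^ (k + 1) * v = a * (a ^ k * v) := by rw [pow_succ', mul_assoc]
          _ = a * d ^ k * v * a ^ k := by rw [ih]; group
          _ = d ^ k * (a * v) * a ^ k := by rw [(hdc.pow_right k).eq]; group
          _ = d ^ k * (d * v * a) * a ^ k := by rw [show a * v = d * v * a from by rw [hd]; group]
          _ = _ := by rw [pow_succ, pow_succ']; group
    rw [key p, hV.2 d hdV, one_mul]
  set H0 := Q ⊔ Subgroup.zpowers a with hH0
  have hH0H : H0 ≤ H := sup_le hQH (Subgroup.zpowers_le.2 haH)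
  set Q0 := Q.subgroupOf H0 with hQ0def
  haveI hQ0n : Q0.Normal := Subgroup.normal_subgroupOf_of_le_normalizer (hH0H.trans hQn)
  have hQc : Nat.card Q0 = Nat.card Q := Nat.card_congr (Subgroup.subgroupOfEquivOfLe le_sup_left).toEquiv
  have hQ0 : (Nat.card Q0).Coprime p := hQc ▸ hQ
  have hidx : ∃ k : ℕ, Q0.index = p ^ k := by
    have h1 : Q0.index ∣ p := by
      set A := (Subgroup.zpowers a).subgroupOf H0
      have h2 : A ⊔ Q0 = ⊤ := by
        rw [sup_comm, hQ0def, ← Subgroup.subgroupOf_sup le_sup_left le_sup_right, Subgroup.subgroupOf_eq_top]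
      rw [← Subgroup.relIndex_top_right, ← h2, Subgroup.relIndex_sup_right]
      refine (Subgroup.relIndex_dvd_card _ _).trans ?_
      rw [Nat.card_congr (Subgroup.subgroupOfEquivOfLe le_sup_right).toEquiv, Nat.card_zpowers]
      exact orderOf_dvd_of_pow_eq_one hap
    obtain ⟨k, -, hk⟩ := (Nat.dvd_prime_pow (Fact.out : p.Prime)).1 (show Q0.index ∣ p ^ 1 by rwa [pow_one])
    exact ⟨k, hk⟩
  have hsep : IsPSolvable p H0 := by
    refine ⟨2, ![⊥, Q0, ⊤], rfl, rfl, ?_, ?_, ?_⟩
    · refine Fin.monotone_iff_le_succ.2 fun i => ?_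
      fin_cases i
      · exact bot_le
      · exact le_top
    · intro i
      fin_cases i
      · exact (inferInstance : (⊥ : Subgroup H0).Normal)
      · exact hQ0n
      · exact (inferInstance : (⊤ : Subgroup H0).Normal)
    · intro i
      fin_cases i
      · exact Or.inr (by simpa [Subgroup.relIndex_bot_left] using hQ0)
      · exact Or.inl (by simpa [Subgroup.relIndex_top_right] using hidx)
  have hna : a ∉ (pCore p H0).map H0.subtype := by
    intro hmem
    refine hQa (eq_bot_iff.2 (Subgroup.commutator_le.2 ?_))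
    intro x hx y hy
    set P0 := (pCore p H0).map H0.subtype
    have hyP : y ∈ P0 := Subgroup.zpowers_le.2 hmem hy
    have hnorm : H0 ≤ Subgroup.normalizer (P0 : Set G) := fun g hg =>
      Subgroup.le_normalizer_map H0.subtype ⟨⟨g, hg⟩, by rw [Subgroup.normalizer_eq_top]; exact Subgroup.mem_top _, rfl⟩
    have hy0 : y ∈ H0 := Subgroup.mem_sup_right hy
    have hxy : ⁅x, y⁆ ∈ Q := by
      rw [commutatorElement_def, mul_assoc, mul_assoc, ← mul_assoc y]
      exact mul_mem hx ((Subgroup.mem_normalizer_iff.1 (hQn (hH0H hy0)) _).1 (inv_mem hx))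
    have hxy' : ⁅x, y⁆ ∈ P0 := by
      rw [commutatorElement_def]
      exact mul_mem ((Subgroup.mem_normalizer_iff.1 (hnorm (Subgroup.mem_sup_left hx)) y).1 hyP) (inv_mem hyP)
    obtain ⟨j, hj⟩ := IsPGroup.iff_card.1 ((Solv.isPGroup_pCore (G := H0) p).map H0.subtype)
    refine Subgroup.mem_bot.2 (orderOf_eq_one_iff.1 (Nat.eq_one_of_dvd_coprimes (hQ.pow_right j) ?_ ?_))
    · exact Subgroup.orderOf_dvd_natCard Q hxy
    · rw [← hj]; exact Subgroup.orderOf_dvd_natCard P0 hxy'
  have h := PLocal.QuadSection.section_of_faithful hp V H0 hV (hH0H.trans hHV)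
    (eq_bot_iff.2 (le_trans (inf_le_inf_right _ hH0H) hf.le)) a (Subgroup.mem_sup_right (Subgroup.mem_zpowers a)) ha hna
  obtain ⟨K, f, hfs⟩ := PLocal.QuadSection.exists_hom_of_section h
  obtain rfl := PLocal.QuadSection.eq_three_of_section hp hsep K f hfs
  obtain ⟨K', L', hL', hKH, he⟩ := h
  exact ⟨rfl, K', L', hL', hKH.trans hH0H, he⟩

end Cfsg.Agent.S0594
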