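import Cfsg.Statements.S0618
import Mathlib
import Cfsg.Agent.Lib.PLocal.FFFailure
import Cfsg.Agent.S0608
-- import your own Cfsg.Agent.* helpers here

set_option autoImplicit false
open Cfsg

namespace Cfsg.Agent.S0618

open Subgroup Cfsg.Lib.PLocal.FF
open scoped IsMulCommutative

/-- A p-separable group with trivial p'-core in which the Thompson factorization fails has p = 2 or 3, and J(G) induces on the normal closure of Ω₁(Z(S)) a group containing a normal SL(2, p). -/
theorem result {G : Type*} [Group G] [Finite G] {p : ℕ} [Fact p.Prime] (hsep : Cfsg.IsPSolvable p G) (hO : Cfsg.pPrimeCore p G = ⊥) (hnf : ¬ Cfsg.IsThompsonFactorizable p G) : (p = 2 ∨ p = 3) ∧ ∃ E : Subgroup G, Subgroup.centralizer ((⨆ S : Sylow p G, Cfsg.omegaOne p ((S : Subgroup G) ⊓ Subgroup.centralizer ((S : Subgroup G) : Set G))) : Set G) ≤ E ∧ E ≤ Cfsg.thompsonSubgroup p G ⊔ Subgroup.centralizer ((⨆ S : Sylow p G, Cfsg.omegaOne p ((S : Subgroup G) ⊓ Subgroup.centralizer ((S : Subgroup G) : Set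 G))) : Set G) ∧ Cfsg.thompsonSubgroup p G ⊔ Subgroup.centralizer ((⨆ S : Sylow p G, Cfsg.omegaOne p ((S : Subgroup G) ⊓ Subgroup.centralizer ((S : Subgroup G) : Set G))) : Set G) ≤ Subgroup.normalizer (E : Set G) ∧ ∃ hn : ((Subgroup.centralizer ((⨆ S : Sylow p G, Cfsg.omegaOne p ((S : Subgroup G) ⊓ Subgroup.centralizer ((S : Subgroup G) : Set G))) : Set G)).subgroupOf E).Normal, Nonempty ((↥E ⧸ (Subgroup.centralizer ((⨆ S : Sylow p G, Cfsg.omegaOne p ((S : Subgroup G) ⊓ Subgroup.centralizer ((S : Subgroup G) : Set G))) : Set G)).subgroupOf E) ≃* Matrix.SpecialLinearGroup (Fin 2) (ZMod p)) := by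
  have hJ : ¬ Cfsg.thompsonSubgroup p G ≤ centralizer (omegaV p G : Set G) :=
    fun h => hnf ((Cfsg.Agent.S0608.result hO).2 h)
  rw [show centralizer (⨆ S : Sylow p G, (Cfsg.omegaOne p ((S : Subgroup G) ⊓ centralizer ((S : Subgroup G) : Set G)) : Set G))
      = centralizer (omegaV p G : Set G) by
    rw [omegaV, iSup_eq_closure, centralizer_closure]; rfl]
  haveI : (omegaV p G).Normal := Cfsg.Lib.PLocal.iSup_omegaZ_normal
  have hV := omegaV_elem hsep hO
  haveI := hV.1
  have hmod : ∀ x : Additive ↥(omegaV p G), p • x = 0 := fun x => Subtype.ext (hV.2 _ (Additive.toMul x).2)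
  haveI := AddCommGroup.zmodModule hmod
  have hO' := pCore_quot_omegaV (G := G) (p := p)
  have h := hyp_jRep (omegaV p G) hsep hO'
  obtain ⟨B, hB, hcB⟩ := exists_gen_jRep (omegaV p G) hsep hV hO' hJ
  have hgen := gens_jRep (omegaV p G) hsep hV hO'
  set C := centralizer (omegaV p G : Set G)
  set q := QuotientGroup.mk' C
  set D := (blk (Cfsg.pPrimeCore p ↥(jBar p (omegaV p G))) B).map (jBar p (omegaV p G)).subtype
  have hker : ∀ x ∈ C, q x = 1 := fun x hx => (QuotientGroup.eq_one_iff x).2 hx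
  refine ⟨prime_two_or_three h hB hcB, D.comap q, fun x hx => ?_, ?_, ?_, inferInstance, ?_⟩
  · rw [mem_comap, hker x hx]; exact one_mem D
  · refine (comap_mono (map_subtype_le _)).trans (le_of_eq ?_)
    rw [jBar, comap_map_eq, QuotientGroup.ker_mk']
  · refine sup_le ?_ (fun c hc => mem_normalizer_fintype fun x hx => ?_)
    · intro g hg
      refine mem_normalizer_fintype fun x hx => ?_
      obtain ⟨y, hy, hyx⟩ := hx
      exact ⟨⟨q g, mem_map_of_mem q hg⟩ * y * ⟨q g, mem_map_of_mem q hg⟩⁻¹, (blk_normal h hgen hB hcB).conj_mem y hy _,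
        by simp [← hyx]⟩
    · show q (c * x * c⁻¹) ∈ D
      rw [map_mul, map_mul, map_inv, hker c hc, one_mul, inv_one, mul_one]
      exact hx
  · obtain ⟨e⟩ := slTwo_blk h hB hcB
    exact ⟨(preimageQuot D).trans (((blk _ B).equivMapOfInjective _ (jBar p (omegaV p G)).subtype_injective).symm.trans e)⟩

end Cfsg.Agent.S0618
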