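import Cfsg.Statements.S0620
import Mathlib
import Cfsg.Agent.Lib.PLocal.FFCoprimeGroup
-- import your own Cfsg.Agent.* helpers here

set_option autoImplicit false
open Cfsg

namespace Cfsg.Agent.S0620

open Subgroup Cfsg.Lib.PLocal.FF
open scoped IsMulCommutative

theorem thompsonOf_le {L : Type*} [Group L] [Finite L] {p : ℕ} [Fact p.Prime] (S : Sylow p L) :
    Cfsg.thompsonSubgroupOf p (S : Subgroup L) ≤ Cfsg.thompsonSubgroup p L := by
  rw [Cfsg.Lib.PLocal.thompsonSubgroupOf_eq_iSup]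
  refine iSup₂_le fun A hA => Cfsg.Lib.PLocal.le_thompsonSubgroup ⟨hA.2.1, fun B hB => ?_⟩
  obtain ⟨T, hT⟩ := (Cfsg.Lib.PLocal.elem_isPGroup hB).exists_le_sylow
  obtain ⟨g, rfl⟩ := MulAction.exists_smul_eq L S T
  have hle : B.map (MulAut.conj g⁻¹).toMonoidHom ≤ (S : Subgroup L) := by
    rintro _ ⟨b, hb, rfl⟩
    obtain ⟨s, hs, rfl⟩ := hT hb
    show g⁻¹ * (g * s * g⁻¹) * g⁻¹⁻¹ ∈ _
    rwa [show g⁻¹ * (g * s * g⁻¹) * g⁻¹⁻¹ = s by group]
  rw [← card_map_of_injective (K := B) (f := (MulAut.conj g⁻¹).toMonoidHom) (MulAut.conj g⁻¹).injective]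
  exact hA.2.2 _ hle (Cfsg.Lib.PLocal.elem_map hB _)

/-- Under coprime action of an elementary abelian q-group X on a p-separable group K with trivial p'-core, K is generated by the normalizer of J(S), the centralizer of Ω₁(Z(S)) and the fixed points of X. -/
theorem result {G : Type*} [Group G] [Finite G] {p : ℕ} [Fact p.Prime] {q : ℕ} [Fact q.Prime] (K X : Subgroup G) (hXK : X ≤ Subgroup.normalizer (K : Set G)) (hX : Cfsg.IsElementaryAbelian q X) (hq : ¬ q ∣ Nat.card K) (hsep : Cfsg.IsPSolvable p ↥K) (hO : Cfsg.pPrimeCore p ↥K = ⊥) (S : Sylow p ↥K) : (Subgroup.normalizer (Cfsg.thompsonSubgroupOf p (S : Subgroup ↥K) : Set ↥K) ⊔ Subgroup.centralizer (Cfsg.omegaOne p ((S : Subgroup ↥K) ⊓ Subgroup.centralizer ((S : Subgroup ↥K) : Set ↥K)) : Set ↥K) ⊔ (Subgroup.centralizer (X : Set G)).subgroupOf K) = ⊤ := by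
  haveI : (omegaV p ↥K).Normal := Cfsg.Lib.PLocal.iSup_omegaZ_normal
  have hV := omegaV_elem hsep hO
  haveI := hV.1
  have hmod : ∀ x : Additive ↥(omegaV p ↥K), p • x = 0 := fun x => Subtype.ext (hV.2 _ (Additive.toMul x).2)
  haveI := AddCommGroup.zmodModule hmod
  have hO' := pCore_quot_omegaV (G := ↥K) (p := p)
  set V := omegaV p ↥K
  have h := hyp_jRep V hsep hO'
  have hgen := gens_jRep V hsep hV hO'
  obtain ⟨α, τ, hops, hτ, hlift⟩ := exists_ops p hXK hX hq V (fun x => omegaV_map _)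
  haveI := jBar_normal (p := p) V
  set C := centralizer (V : Set ↥K) with hCdef
  set mk := QuotientGroup.mk' C
  set JS := Cfsg.thompsonSubgroupOf p (S : Subgroup ↥K)
  set R := normalizer (JS : Set ↥K) ⊔ Subgroup.centralizer (Cfsg.omegaOne p ((S : Subgroup ↥K) ⊓ Subgroup.centralizer ((S : Subgroup ↥K) : Set ↥K)) : Set ↥K) ⊔ (Subgroup.centralizer (X : Set G)).subgroupOf K
  have hCR : C ≤ R := (centralizer_le (le_iSup (fun T : Sylow p ↥K => Cfsg.Lib.PLocal.omegaZ p (T : Subgroup ↥K)) S)).trans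
    (le_sup_right.trans le_sup_left)
  have hNR : normalizer (JS : Set ↥K) ≤ R := le_sup_left.trans le_sup_left
  have hXR : (Subgroup.centralizer (X : Set G)).subgroupOf K ≤ R := le_sup_right
  have hSR : (S : Subgroup ↥K) ≤ R := fun s hs => hNR (by
    refine Cfsg.Lib.PLocal.mem_normalizer_of_map_conj ?_
    rw [← Cfsg.Lib.PLocal.thompsonSubgroupOf_conj]
    congr 1
    ext y
    rw [Cfsg.Lib.PLocal.conj_map_iff, mul_mem_cancel_right hs, mul_mem_cancel_left (Subgroup.inv_mem _ hs)])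
  set R' := (R.map mk).subgroupOf (jBar p V)
  have hblk : ∀ B ∈ Gens (jRep (p := p) V), B ≤ R' := by
    intro B hB
    set E := blk (Cfsg.pPrimeCore p ↥(jBar p V)) B
    haveI : E.Normal := blk_normal h hgen hB.1 hB.2
    obtain ⟨D, L, hDfix, hDe, -, -, -⟩ := exists_diag h hgen hops hB
    have hsn : (E.map (jBar p V).subtype).IsSubnormal :=
      Subgroup.IsSubnormal.trans' (inferInstance : E.Normal).isSubnormal (inferInstance : (jBar p V).Normal).isSubnormal
    obtain ⟨Q, hQ⟩ := Cfsg.Lib.Solv.sylow_inf_subnormal hsn (S.mapSurjective (QuotientGroup.mk'_surjective C))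
    let e₀ := E.equivMapOfInjective (jBar p V).subtype (jBar p V).subtype_injective
    let Q' : Sylow p ↥E := Q.comapOfInjective e₀.toMonoidHom e₀.injective (by
      rw [MonoidHom.range_eq_top.2 e₀.surjective]; exact le_top)
    have hQR : ∀ q ∈ (Q' : Subgroup ↥E), (q : ↥(jBar p V)) ∈ R' := by
      intro q hq
      have h1 : e₀ q ∈ (Q : Subgroup ↥(E.map (jBar p V).subtype)) := hq
      rw [hQ] at h1
      obtain ⟨s, hs, hsq⟩ := h1
      exact ⟨s, hSR hs, hsq⟩
    intro b hb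
    have hbE : b ∈ E := (le_sup_right : B ≤ _) hb
    have hp : IsPGroup p (B.subgroupOf E) :=
      (IsPGroup.of_card (n := 1) (by rw [hB.2, pow_one])).of_equiv (subgroupOfEquivOfLe (le_sup_right : B ≤ E)).symm
    obtain ⟨T, hT⟩ := hp.exists_le_sylow
    obtain ⟨e, rfl⟩ := MulAction.exists_smul_eq ↥E Q' T
    obtain ⟨q, hq, hqb⟩ := hT (show (⟨b, hbE⟩ : ↥E) ∈ B.subgroupOf E from hb)
    have hz := (mem_inf.1 (hDe e)).2
    have hDR : D e ∈ R' := by
      obtain ⟨c, hc, hce⟩ := hlift (D e) (fun x => hDfix x e)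
      exact ⟨c, hXR hc, hce⟩
    have h2 : b = D e * (q : ↥(jBar p V)) * (D e)⁻¹ := by
      have hb' : b = (e : ↥(jBar p V)) * (q : ↥(jBar p V)) * (e : ↥(jBar p V))⁻¹ := (congrArg Subtype.val hqb).symm
      have hcm : (q : ↥(jBar p V)) * ((e : ↥(jBar p V))⁻¹ * D e) = ((e : ↥(jBar p V))⁻¹ * D e) * (q : ↥(jBar p V)) :=
        mem_centralizer_iff.1 hz _ q.2
      calc b = _ := hb'
        _ = (e : ↥(jBar p V)) * ((q : ↥(jBar p V)) * ((e : ↥(jBar p V))⁻¹ * D e)) * (D e)⁻¹ := by group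
        _ = _ := by rw [hcm]; group
    rw [h2]
    exact mul_mem (mul_mem hDR (hQR q hq)) (Subgroup.inv_mem _ hDR)
  set J := Cfsg.thompsonSubgroup p ↥K
  have hJR : J ≤ R := by
    intro g hg
    have h1 : (⟨mk g, g, hg, rfl⟩ : ↥(jBar p V)) ∈ R' := (hgen.ge.trans (sSup_le hblk)) (Subgroup.mem_top _)
    obtain ⟨r, hr, hrg⟩ := h1
    have h2 : r⁻¹ * g ∈ C := QuotientGroup.eq.1 hrg
    rw [← mul_inv_cancel_left r g]
    exact mul_mem hr (hCR h2)
  haveI := Cfsg.Lib.PLocal.thompsonSubgroup_characteristic (G := ↥K) (p := p)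
  set N := J ⊔ C
  haveI : N.Normal := inferInstanceAs (J ⊔ C).Normal
  set Y := (S : Subgroup ↥K) ⊓ N
  have hJY : JS ≤ Y := le_inf (Cfsg.Lib.PLocal.thompsonSubgroupOf_le _) ((thompsonOf_le S).trans le_sup_left)
  have hJ := Cfsg.Lib.PLocal.thompsonSubgroupOf_eq_of_le (inf_le_left : Y ≤ (S : Subgroup ↥K)) hJY
  obtain ⟨P, hP⟩ := Cfsg.Lib.Solv.sylow_inf_subnormal (inferInstance : N.Normal).isSubnormal S
  have htop : Subgroup.normalizer (((P : Subgroup ↥N).map N.subtype : Subgroup ↥K) : Set ↥K) ⊔ N = ⊤ :=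
    P.normalizer_sup_eq_top
  rw [hP, subgroupOf_map_subtype] at htop
  refine eq_top_iff.2 (htop.ge.trans (sup_le (le_trans ?_ hNR) (sup_le hJR hCR)))
  intro n hn
  refine Cfsg.Lib.PLocal.mem_normalizer_of_map_conj ?_
  show JS.map _ = JS
  rw [show JS = Cfsg.thompsonSubgroupOf p Y from hJ.symm, ← Cfsg.Lib.PLocal.thompsonSubgroupOf_conj]
  congr 1
  ext y
  rw [Cfsg.Lib.PLocal.conj_map_iff, Subgroup.mem_normalizer_iff''.1 hn y]

end Cfsg.Agent.S0620
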