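import Cfsg.Statements.S0621
import Mathlib
import Cfsg.Agent.Lib.PLocal.FFCoprimeGroup
import Cfsg.Agent.S0608
-- import your own Cfsg.Agent.* helpers here

set_option autoImplicit false
open Cfsg

namespace Cfsg.Agent.S0621

open Subgroup Cfsg.Lib.PLocal.FF
open scoped IsMulCommutative

/-- Let K be p-separable with O_p'(K) = 1, normalized by an elementary abelian q-group X for a prime q not dividing the order of K. If the Thompson factorization fails in K, then p is 2 or 3 and the fixed points of X contain a plane W of order p² and a subgroup inducing SL(2, p) on it. -/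
theorem result {G : Type*} [Group G] [Finite G] {p : ℕ} [Fact p.Prime] {q : ℕ} [Fact q.Prime] (K X : Subgroup G) (hXK : X ≤ Subgroup.normalizer (K : Set G)) (hX : Cfsg.IsElementaryAbelian q X) (hq : ¬ q ∣ Nat.card K) (hsep : Cfsg.IsPSolvable p ↥K) (hO : Cfsg.pPrimeCore p ↥K = ⊥) (hnf : ¬ Cfsg.IsThompsonFactorizable p ↥K) : (p = 2 ∨ p = 3) ∧ ∃ W D : Subgroup G, W ≤ K ⊓ Subgroup.centralizer (X : Set G) ∧ D ≤ K ⊓ Subgroup.centralizer (X : Set G) ∧ Cfsg.IsElementaryAbelian p W ∧ Nat.card W = p ^ 2 ∧ D ≤ Subgroup.normalizer (W : Set G) ∧ ∃ hn : ((Subgroup.centralizer (W : Set G)).subgroupOf D).Normal, Nonempty ((↥D ⧸ (Subgroup.centralizer (W : Set G)).subgroupOf D) ≃* Matrix.SpecialLinearGroup (Fin 2) (ZMod p)) := by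
  have hJ : ¬ Cfsg.thompsonSubgroup p ↥K ≤ centralizer (omegaV p ↥K : Set ↥K) := fun hle => hnf ((Cfsg.Agent.S0608.result hO).2 hle)
  haveI : (omegaV p ↥K).Normal := Cfsg.Lib.PLocal.iSup_omegaZ_normal
  have hV := omegaV_elem hsep hO
  haveI := hV.1
  have hmod : ∀ x : Additive ↥(omegaV p ↥K), p • x = 0 := fun x => Subtype.ext (hV.2 _ (Additive.toMul x).2)
  haveI := AddCommGroup.zmodModule hmod
  have hO' := pCore_quot_omegaV (G := ↥K) (p := p)
  set V := omegaV p ↥K
  have h := hyp_jRep V hsep hO'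
  have hgen := gens_jRep V hsep hV hO'
  obtain ⟨B, hB⟩ := exists_gen_jRep V hsep hV hO' hJ
  obtain ⟨α, τ, hops, hτ, hlift⟩ := exists_ops p hXK hX hq V (fun x => omegaV_map _)
  obtain ⟨D, L, hDfix, hDe, hLfix, hLinj, hDL⟩ := exists_diag h hgen hops hB
  set C := centralizer (V : Set ↥K)
  set mk := QuotientGroup.mk' C
  set U := toG (LinearMap.range L)
  have hDinj : Function.Injective D := by
    rw [injective_iff_map_eq_one]
    intro e he
    have hes : (e : ↥(jBar p V)) ∈ blk (Cfsg.pPrimeCore p ↥(jBar p V)) B ⊓ stab (jRep (p := p) V) (pl (jRep (p := p) V) (Cfsg.pPrimeCore p ↥(jBar p V)) B) := by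
      refine ⟨e.2, fun w hw => ?_⟩
      have h1 := hDL e ⟨w, hw⟩
      rw [he, map_one, Module.End.one_apply] at h1
      exact (congrArg Subtype.val (hLinj h1)).symm
    rw [blk_inf_stab h hB.1 hB.2, mem_bot] at hes
    exact Subtype.ext hes
  let P : Subgroup ↥K := (centralizer (X : Set G)).subgroupOf K ⊓ (D.range.map (jBar p V).subtype).comap mk
  have hact : ∀ k ∈ P, ∀ w, ∃ e, mk k = ((D e : ↥(jBar p V)) : ↥K ⧸ C) ∧ normalRep (p := p) k (L w) = L
      ⟨jRep (p := p) V (e : ↥(jBar p V)) (w : Additive ↥V), bracket_invariant (le_normalizer e.2) w.2⟩ := by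
    intro k hk w
    obtain ⟨_, ⟨e, rfl⟩, he⟩ := hk.2
    refine ⟨e, he.symm, ?_⟩
    rw [← hDL e w]
    show _ = quotRep (p := p) ((D e : ↥(jBar p V)) : ↥K ⧸ C) (L w)
    rw [show ((D e : ↥(jBar p V)) : ↥K ⧸ C) = mk k from he]
    rfl
  have hUV : U ≤ V := fun x hx => (mem_toG.1 hx).1
  obtain ⟨eSL⟩ := slTwo_blk h hB.1 hB.2
  refine ⟨prime_two_or_three h hB.1 hB.2, U.map K.subtype, P.map K.subtype, ?_, ?_, ?_, ?_, ?_, ?_⟩
  · rintro _ ⟨u, hu, rfl⟩
    obtain ⟨huV, w, hw⟩ := mem_toG.1 hu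
    refine ⟨u.2, mem_centralizer_iff.2 fun x hx => mul_inv_eq_iff_eq_mul.1 ?_⟩
    have h2 := hτ ⟨x, hx⟩ (L w)
    rw [hLfix, hw] at h2
    exact (congrArg Subtype.val h2).symm
  · rintro _ ⟨k, hk, rfl⟩; exact ⟨k.2, hk.1⟩
  · exact Cfsg.Lib.PLocal.elem_map (Cfsg.Lib.PLocal.elem_le hV hUV) _
  · rw [card_map_of_injective K.subtype_injective, card_toG, ← Nat.card_congr (LinearEquiv.ofInjective L hLinj).toEquiv]
    exact card_bracket_blk h hB.1 hB.2
  · rintro _ ⟨k, hk, rfl⟩
    refine mem_normalizer_fintype ?_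
    rintro _ ⟨u, hu, rfl⟩
    obtain ⟨huV, w, hw⟩ := mem_toG.1 hu
    obtain ⟨e, -, he⟩ := hact k hk w
    refine ⟨k * u * k⁻¹, mem_toG.2 ⟨(inferInstance : V.Normal).conj_mem u huV k, ⟨jRep (p := p) V (e : ↥(jBar p V)) (w : Additive ↥V),
      bracket_invariant (le_normalizer e.2) w.2⟩, ?_⟩, rfl⟩
    rw [← he, hw]; rfl
  · let f₁ : ↥(P.map K.subtype) →* ↥(D.range.map (jBar p V).subtype) :=
      ((mk.comp P.subtype).codRestrict _ fun k => k.2.2).comp (P.equivMapOfInjective K.subtype K.subtype_injective).symm.toMonoidHom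
    let f : ↥(P.map K.subtype) →* Matrix.SpecialLinearGroup (Fin 2) (ZMod p) :=
      (eSL.toMonoidHom.comp ((MonoidHom.ofInjective hDinj).symm.toMonoidHom.comp
        ((D.range.equivMapOfInjective (jBar p V).subtype (jBar p V).subtype_injective).symm.toMonoidHom))).comp f₁
    have hf₁ : Function.Surjective f₁ := by
      rintro ⟨_, ⟨_, ⟨e, rfl⟩, rfl⟩⟩
      obtain ⟨c, hc, hce⟩ := hlift (D e) (fun x => hDfix x e)
      have hcP : c ∈ P := ⟨hc, ⟨D e, ⟨e, rfl⟩, hce.symm⟩⟩
      exact ⟨P.equivMapOfInjective K.subtype K.subtype_injective ⟨c, hcP⟩, Subtype.ext (by simp [f₁, mk]; exact hce)⟩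
    have hf : Function.Surjective f := ((eSL.surjective.comp ((MonoidHom.ofInjective hDinj).symm.surjective.comp
        (D.range.equivMapOfInjective (jBar p V).subtype (jBar p V).subtype_injective).symm.surjective))).comp hf₁
    have hker : f.ker = (centralizer ((U.map K.subtype : Subgroup G) : Set G)).subgroupOf (P.map K.subtype) := by
      have h0 : f.ker = f₁.ker := by
        ext k
        rw [MonoidHom.mem_ker, MonoidHom.mem_ker]
        simp [f]
      rw [h0]
      ext ⟨g, hg⟩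
      obtain ⟨k, hk, rfl⟩ := id hg
      have hfk : ((f₁ ⟨K.subtype k, hg⟩ : ↥(D.range.map (jBar p V).subtype)) : ↥K ⧸ C) = mk k := by
        have : (P.equivMapOfInjective K.subtype K.subtype_injective).symm ⟨K.subtype k, hg⟩ = ⟨k, hk⟩ := by
          rw [MulEquiv.symm_apply_eq]; exact Subtype.ext rfl
        show mk ((P.equivMapOfInjective K.subtype K.subtype_injective).symm ⟨K.subtype k, hg⟩ : ↥K) = _
        rw [this]
      rw [MonoidHom.mem_ker, mem_subgroupOf, Subtype.ext_iff, hfk]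
      constructor
      · intro h1
        rw [mem_centralizer_iff]
        rintro _ ⟨u, hu, rfl⟩
        exact congrArg Subtype.val (mem_centralizer_iff.1 ((QuotientGroup.eq_one_iff k).1 h1) u (hUV hu))
      · intro h1
        obtain ⟨_, ⟨e, rfl⟩, he⟩ := hk.2
        have hes : (e : ↥(jBar p V)) ∈ blk (Cfsg.pPrimeCore p ↥(jBar p V)) B ⊓ stab (jRep (p := p) V) (pl (jRep (p := p) V) (Cfsg.pPrimeCore p ↥(jBar p V)) B) := by
          refine ⟨e.2, fun w hw => ?_⟩
          obtain ⟨e', he', hL⟩ := hact k hk ⟨w, hw⟩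
          have hee : e' = e := hDinj (Subtype.ext (he'.symm.trans he.symm))
          subst hee
          have hLw : ((Additive.toMul (L ⟨w, hw⟩) : ↥V) : ↥K) ∈ U :=
            mem_toG.2 ⟨(Additive.toMul (L ⟨w, hw⟩)).2, ⟨w, hw⟩, rfl⟩
          have h2 : normalRep (p := p) k (L ⟨w, hw⟩) = L ⟨w, hw⟩ :=
            (normalRep_fix_iff _ _).2 (Subtype.ext (mem_centralizer_iff.1 h1 _ ⟨_, hLw, rfl⟩).symm)
          rw [h2] at hL
          exact (congrArg Subtype.val (hLinj hL)).symm
        rw [blk_inf_stab h hB.1 hB.2, mem_bot] at hes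
        rw [show e = 1 from Subtype.ext hes, map_one] at he
        exact he.symm
    haveI hn : ((centralizer ((U.map K.subtype : Subgroup G) : Set G)).subgroupOf (P.map K.subtype)).Normal := hker ▸ inferInstance
    exact ⟨hn, ⟨(QuotientGroup.quotientMulEquivOfEq hker.symm).trans (QuotientGroup.quotientKerEquivOfSurjective f hf)⟩⟩

end Cfsg.Agent.S0621
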