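import Cfsg.Statements.S0625
import Mathlib
import Cfsg.Agent.Lib.PLocal.ActionStableFree
import Cfsg.Agent.Lib.PLocal.QuadraticSection
-- import your own Cfsg.Agent.* helpers here

set_option autoImplicit false
open Cfsg

namespace Cfsg.Agent.S0625

/-- A p-separable group with p at least 5 is p-stable in the action sense. -/
theorem result {G : Type*} [Group G] [Finite G] {p : ℕ} [Fact p.Prime] (hp : 5 ≤ p) (hsep : Cfsg.IsPSolvable p G) : Cfsg.IsActionPStable p G := by
  refine Cfsg.Lib.PLocal.isActionPStable_of_free (by omega) fun h => ?_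
  obtain ⟨H, R, hn, ⟨e⟩⟩ := Cfsg.Lib.PLocal.QuadSection.sl_of_qd h
  exact Cfsg.Lib.PLocal.QuadSection.not_pSolvable_sl hp
    (Cfsg.Lib.PLocal.IsPSolvable.of_surjective (e.toMonoidHom.comp (QuotientGroup.mk' (R.subgroupOf H)))
      (e.surjective.comp (QuotientGroup.mk'_surjective _)) (Cfsg.Lib.PLocal.QuadSection.pSolvable_subgroup hsep H))

end Cfsg.Agent.S0625
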