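import Cfsg.Statements.S0626
import Mathlib
import Cfsg.Agent.Lib.PLocal.ActionStableFree
import Cfsg.Agent.Lib.PLocal.QuadraticSection
-- import your own Cfsg.Agent.* helpers here

set_option autoImplicit false
open Cfsg

namespace Cfsg.Agent.S0626

/-- For odd p, groups whose Sylow 2-subgroups are abelian are p-stable in the action sense. -/
theorem result {G : Type*} [Group G] [Finite G] {p : ℕ} [Fact p.Prime] (hp : p ≠ 2) (hab : ∀ T : Sylow 2 G, IsMulCommutative T) : Cfsg.IsActionPStable p G := by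
  refine Cfsg.Lib.PLocal.isActionPStable_of_free hp fun h => ?_
  obtain ⟨H, R, hn, ⟨e⟩⟩ := Cfsg.Lib.PLocal.QuadSection.sl_of_qd h
  obtain ⟨T⟩ := (inferInstance : Nonempty (Sylow 2 G))
  exact Cfsg.Lib.PLocal.QuadSection.sylow_not_comm hp H (e.toMonoidHom.comp (QuotientGroup.mk' (R.subgroupOf H)))
    (e.surjective.comp (QuotientGroup.mk'_surjective _)) T (hab T)

end Cfsg.Agent.S0626
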