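import Cfsg.Statements.S0627
import Mathlib
import Cfsg.Agent.Lib.PLocal.StableClosure
import Cfsg.Agent.Lib.PLocal.Constraint
import Cfsg.Agent.Lib.Solv.Cores
import Cfsg.Agent.S0625
-- import your own Cfsg.Agent.* helpers here

set_option autoImplicit false
open Cfsg

namespace Cfsg.Agent.S0627

open Subgroup Cfsg.Lib.PLocal Cfsg.Lib.PLocal.StableClosure

/-- In a p-separable group with p at least 5, the normalizer of W(S) supplements the largest normal subgroup of order prime to p. -/
theorem result {G : Type*} [Group G] [Finite G] {p : ℕ} [Fact p.Prime] (hp : 5 ≤ p) (hsep : Cfsg.IsPSolvable p G) (S : Sylow p G) : Cfsg.pPrimeCore p G ⊔ Subgroup.normalizer (((Cfsg.stableNormalClosure p ↥(S : Subgroup G)).map (S : Subgroup G).subtype) : Set G) = ⊤ := by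
  set O := Cfsg.pPrimeCore p G
  haveI : O.Normal := Cfsg.Lib.Transfer.pPrimeCore_normal p
  have hO : (Nat.card O).Coprime p :=
    ((Fact.out : p.Prime).coprime_iff_not_dvd.2 (Cfsg.Lib.Solv.not_dvd_card_pPrimeCore p)).symm
  set W := wOf p (S : Subgroup G)
  set mk := QuotientGroup.mk' O
  have hsur : Function.Surjective mk := QuotientGroup.mk'_surjective O
  have hd : O ⊓ (S : Subgroup G) = ⊥ := by
    obtain ⟨n, hn⟩ := IsPGroup.iff_card.1 S.isPGroup'
    exact Subgroup.inf_eq_bot_of_coprime (by rw [hn]; exact hO.pow_right n)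
  have hinj : Set.InjOn mk (S : Subgroup G) := fun x hx y hy h => injOn_mk O _ hd hx hy h
  have hsep' : Cfsg.IsPSolvable p (G ⧸ O) := IsPSolvable.of_surjective mk hsur hsep
  have hn := wOf_normal (Cfsg.Agent.S0625.result hp hsep')
    (selfCentralizingCore_of_pSolvable hsep' (Cfsg.Lib.Solv.pPrimeCore_quotient_eq_bot p)) (S.mapSurjective hsur)
  rw [Sylow.coe_mapSurjective, wOf_map mk S.isPGroup' hinj] at hn
  refine eq_top_iff.2 fun g _ => ?_
  have hle : W.map (MulAut.conj g).toMonoidHom ≤ O ⊔ W := map_conj_le_sup fun x hx => by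
    rw [map_mul, map_mul, map_inv]
    exact hn.conj_mem _ ⟨x, hx, rfl⟩ (mk g)
  obtain ⟨o, ho, hog⟩ := exists_mul_mem_normalizer O W hO (S.isPGroup'.to_le (map_subtype_le _)) hle
  rw [← inv_mul_cancel_left o g]
  exact mul_mem (mem_sup_left (Subgroup.inv_mem _ ho)) (mem_sup_right hog)

end Cfsg.Agent.S0627
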