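import Cfsg.Statements.S0628
import Mathlib
import Cfsg.Agent.Lib.PLocal.StableClosure
import Cfsg.Agent.Lib.PLocal.FunctorCriterion
import Cfsg.Agent.Lib.PLocal.Constraint
import Cfsg.Agent.S0626
-- import your own Cfsg.Agent.* helpers here

set_option autoImplicit false
open Cfsg

namespace Cfsg.Agent.S0628

open Subgroup Cfsg.Lib.PLocal Cfsg.Lib.PLocal.StableClosure
open scoped commutatorElement

universe u

theorem charFunctor {p : ℕ} [Fact p.Prime] :
    Cfsg.IsCharPFunctor.{u} p (fun (Q : Type u) [Group Q] => Cfsg.stableNormalClosure p Q) :=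
  ⟨fun Q _ _ hQ hnt => (Cfsg.Agent.S0622.result hQ).2.2.2.1 hnt,
    fun Q R _ _ _ hQ φ => (Cfsg.Agent.S0622.result hQ).2.2.2.2 R φ⟩

theorem abelian_sylowTwo {L : Type u} [Group L] [Finite L] {p : ℕ} [Fact p.Prime] (hp : p ≠ 2) (T : Sylow p L)
    (K : Subgroup L) [K.Normal] (hKc : ⁅K, K⁆ ≤ Cfsg.pCore p L) (hKT : K ⊔ (T : Subgroup L) = ⊤) (U : Sylow 2 L) :
    IsMulCommutative U := by
  have h2p : Nat.Coprime 2 p := (Nat.coprime_primes Nat.prime_two (Fact.out : p.Prime)).2 (Ne.symm hp)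
  have hUK : ∀ x ∈ (U : Subgroup L), x ∈ K := by
    intro x hx
    obtain ⟨a, ha, t, ht, hat⟩ := mem_sup_of_normal_left.1 (hKT ▸ mem_top x)
    obtain ⟨i, hi⟩ := T.isPGroup' ⟨t, ht⟩
    obtain ⟨j, hj⟩ := U.isPGroup' ⟨x, hx⟩
    have e : (x : L ⧸ K) = (t : L ⧸ K) := by
      rw [← hat, QuotientGroup.mk_mul, (QuotientGroup.eq_one_iff a).2 ha, one_mul]
    refine (QuotientGroup.eq_one_iff x).1 (orderOf_eq_one_iff.1 ?_)
    refine Nat.eq_one_of_dvd_coprimes (Nat.Coprime.pow j i h2p) ?_ ?_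
    · refine orderOf_dvd_of_pow_eq_one ?_
      rw [← QuotientGroup.mk_pow, show x ^ 2 ^ j = 1 from congrArg Subtype.val hj, QuotientGroup.mk_one]
    · refine orderOf_dvd_of_pow_eq_one ?_
      rw [e, ← QuotientGroup.mk_pow, show t ^ p ^ i = 1 from congrArg Subtype.val hi, QuotientGroup.mk_one]
  refine ⟨⟨fun a b => ?_⟩⟩
  have hm : (⁅a, b⁆ : ↥(U : Subgroup L)).1 ∈ Cfsg.pCore p L :=
    hKc (commutator_mem_commutator (hUK _ a.2) (hUK _ b.2))
  obtain ⟨i, hi⟩ := Cfsg.Lib.Transfer.pCore_isPGroup p ⟨_, hm⟩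
  obtain ⟨j, hj⟩ := U.isPGroup' ⁅a, b⁆
  refine commutatorElement_eq_one_iff_mul_comm.1 (orderOf_eq_one_iff.1 ?_)
  refine Nat.eq_one_of_dvd_coprimes (Nat.Coprime.pow j i h2p) (orderOf_dvd_of_pow_eq_one hj)
    (orderOf_dvd_of_pow_eq_one (Subtype.ext ?_))
  have h5 := congrArg Subtype.val hi
  rw [SubmonoidClass.coe_pow] at h5 ⊢
  simpa using h5

/-- The normal p-complement Theorem of Thompson in the form with W(S): for odd p, G has a normal p-complement as soon as the normalizer of the characteristic subgroup W(S) of a Sylow p-subgroup S has one. -/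
theorem result {G : Type*} [Group G] [Finite G] {p : ℕ} [Fact p.Prime] (hp : p ≠ 2) (S : Sylow p G) (hN : Cfsg.HasNormalPComplement p ↥(Subgroup.normalizer (((Cfsg.stableNormalClosure p ↥(S : Subgroup G)).map (S : Subgroup G).subtype) : Set G))) : Cfsg.HasNormalPComplement p G := by
  refine FunctorCriterion.complement_of_smallNormal charFunctor ?_ S hN
  intro L _ _ _ hc T K m hKn _ hKc _ _ hKT _
  haveI := hKn
  exact wOf_normal (Cfsg.Agent.S0626.result hp fun U => abelian_sylowTwo hp T K hKc hKT U) hc T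

end Cfsg.Agent.S0628
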