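import Cfsg.Statements.S0656
import Cfsg.Agent.Lib.PStable.Stable

set_option autoImplicit false
open Cfsg

namespace Cfsg.Agent.S0656

/-- For odd p, a faithful group on an elementary abelian p-group with no nontrivial normal p-subgroup in which some nontrivial p-element acts quadratically has a section isomorphic to SL(2, p). -/
theorem result {G : Type*} [Group G] [Finite G] {p : ℕ} [Fact p.Prime] (hp : p ≠ 2) (V H : Subgroup G) (hV : Cfsg.IsElementaryAbelian p V) (hHV : H ≤ Subgroup.normalizer (V : Set G)) (hf : H ⊓ Subgroup.centralizer (V : Set G) = ⊥) (hO : Cfsg.pCore p ↥H = ⊥) (x : G) (hxH : x ∈ H) (hx1 : x ≠ 1) (hxp : ∃ k : ℕ, orderOf x = p ^ k) (hq : ⁅⁅V, Subgroup.zpowers x⁆, Subgroup.zpowers x⁆ = ⊥) : ∃ (K L : Subgroup G) (hL : (L.subgroupOf K).Normal), K ≤ H ∧ Nonempty ((K ⧸ L.subgroupOf K) ≃* Matrix.SpecialLinearGroup (Fin 2) (ZMod p)) := by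
  haveI hn : ((Subgroup.centralizer (V : Set G)).subgroupOf H).Normal := by
    have : (Subgroup.centralizer (V : Set G)).subgroupOf H = ⊥ := by
      rw [Subgroup.subgroupOf_eq_bot, disjoint_iff, inf_comm]; exact hf
    rw [this]; infer_instance
  refine (Cfsg.Lib.PStable.sections_of_quadratic hp V H hV hHV x hxH ?_ hq).1
  intro hx
  apply hx1
  haveI : (Cfsg.pCore p (↥H ⧸ (Subgroup.centralizer (V : Set G)).subgroupOf H)).Normal :=
    Cfsg.Lib.Transfer.pCore_normal p
  set q := QuotientGroup.mk' ((Subgroup.centralizer (V : Set G)).subgroupOf H) with hq'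
  have hker : q.ker = ⊥ := by
    rw [hq', QuotientGroup.ker_mk', Subgroup.subgroupOf_eq_bot, disjoint_iff, inf_comm]; exact hf
  have hle : (Cfsg.pCore p (↥H ⧸ (Subgroup.centralizer (V : Set G)).subgroupOf H)).comap q ≤ Cfsg.pCore p ↥H :=
    Cfsg.Lib.Solv.le_pCore (Subgroup.Normal.comap inferInstance q)
      ((Cfsg.Lib.Solv.isPGroup_pCore p).comap_of_injective q ((MonoidHom.ker_eq_bot_iff q).mp hker))
  have := hle hx
  rw [hO, Subgroup.mem_bot] at this
  exact congrArg Subtype.val this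

end Cfsg.Agent.S0656
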