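import Cfsg.Statements.S0657
import Mathlib
import Cfsg.Agent.Lib.PLocal.QuadraticSection
-- import your own Cfsg.Agent.* helpers here

set_option autoImplicit false
open Cfsg Cfsg.Lib
open scoped commutatorElement

namespace Cfsg.Agent.S0657

/-- For odd p, a group that fails to be p-stable modulo its largest normal subgroup of order prime to p, and whose upper p-series does not stop there, has a section isomorphic to SL(2, p). -/
theorem result {G : Type*} [Group G] [Finite G] {p : ℕ} [Fact p.Prime] (hp : p ≠ 2) (hO : Cfsg.pPrimeCore p G < Cfsg.pPrimePCore p G) (hns : ¬ Cfsg.IsPStable p (G ⧸ Cfsg.pPrimeCore p G)) : ∃ (K L : Subgroup G) (hL : (L.subgroupOf K).Normal), K ≤ ⊤ ∧ Nonempty ((K ⧸ L.subgroupOf K) ≃* Matrix.SpecialLinearGroup (Fin 2) (ZMod p)) := by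
  have hodd : Odd p := (Fact.out : p.Prime).odd_of_ne_two hp
  haveI := Transfer.pPrimeCore_normal (G := G) p
  set q := QuotientGroup.mk' (pPrimeCore p G)
  have hne : pCore p (G ⧸ pPrimeCore p G) ≠ ⊥ := by
    intro e
    refine hO.ne (le_antisymm hO.le fun x hx => ?_)
    have : q x ∈ pCore p (G ⧸ pPrimeCore p G) := hx
    rw [e, Subgroup.mem_bot] at this
    exact (QuotientGroup.eq_one_iff x).1 this
  have hnfree : Involves ↥(qd p) (G ⧸ pPrimeCore p G) := by
    by_contra hfree
    refine hns ⟨hodd, hne, fun A P _ hP hAP _ _ hquad => ?_⟩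
    have hst := PStable.normalizerPStable_of_free hp hfree
    rintro _ ⟨⟨x, hxN⟩, hxA, rfl⟩
    refine hst P hP x hxN (eq_bot_iff.2 ?_)
    rw [← hquad]
    have hxA' : Subgroup.zpowers x ≤ A := Subgroup.zpowers_le.2 hxA
    exact Subgroup.commutator_mono (Subgroup.commutator_mono le_rfl hxA') hxA'
  obtain ⟨K, L, hL, he⟩ := PStable.involves_of_quotient q (QuotientGroup.mk'_surjective _)
    (PLocal.QuadSection.sl_of_qd hnfree)
  exact ⟨K, L, hL, le_top, he⟩

end Cfsg.Agent.S0657
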