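import Cfsg.Statements.S0802
import Mathlib
import Cfsg.Agent.Lib.Classical.QuatTwo
import Cfsg.Agent.Lib.PStable.Dickson

set_option autoImplicit false
open Cfsg
open scoped Matrix

namespace Cfsg.Agent.S0802

/-- PSL_2(p^n) has a subgroup isomorphic to A_4 if and only if it is not the case that p = 2 and n is odd. -/
theorem result {F : Type*} [Field F] [Fintype F] (p n : ℕ) [Fact p.Prime] [CharP F p] (hF : Fintype.card F = p ^ n) : (∃ H : Subgroup (Matrix.ProjectiveSpecialLinearGroup (Fin 2) F), Nonempty (H ≃* alternatingGroup (Fin 4))) ↔ ¬ (p = 2 ∧ Odd n) := by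
  by_cases hp : p = 2
  swap
  · simp only [hp, false_and, not_false_eq_true, iff_true]
    haveI : NeZero (2 : F) := ⟨fun h => hp ((Nat.prime_dvd_prime_iff_eq (Fact.out : p.Prime) Nat.prime_two).1
      ((CharP.cast_eq_zero_iff F p 2).1 (by exact_mod_cast h)))⟩
    exact Cfsg.Lib.QuatTwo.exists_A4
  subst hp
  simp only [true_and]
  have h2 : (2 : F) = 0 := CharTwo.two_eq_zero
  have hn0 : n ≠ 0 := by
    rintro rfl
    have := Fintype.one_lt_card (α := F)
    omega
  have hcen : ∀ B : Matrix.SpecialLinearGroup (Fin 2) F, B ∈ Subgroup.center _ → B = 1 := by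
    intro B hB
    rcases Cfsg.Lib.Fusion.PSLTwo.eq_of_mem_center hB with h | h
    · exact h
    · rw [h]
      apply Subtype.ext
      rw [Matrix.SpecialLinearGroup.coe_neg, Matrix.SpecialLinearGroup.coe_one]
      ext i j
      rw [Matrix.neg_apply, CharTwo.neg_eq]
  let f := QuotientGroup.mk' (Subgroup.center (Matrix.SpecialLinearGroup (Fin 2) F))
  have hf : Function.Bijective f := ⟨fun a b h => by
      have := hcen (a⁻¹ * b) (QuotientGroup.eq.1 h)
      exact inv_mul_eq_one.1 this, QuotientGroup.mk'_surjective _⟩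
  let E := MulEquiv.ofBijective f hf
  constructor
  · rintro ⟨H, ⟨e⟩⟩ hodd
    let φ : alternatingGroup (Fin 4) →* Matrix.SpecialLinearGroup (Fin 2) F :=
      (E.symm.toMonoidHom.comp H.subtype).comp e.symm.toMonoidHom
    have hφ : Function.Injective φ := (E.symm.injective.comp Subtype.val_injective).comp e.symm.injective
    let s : alternatingGroup (Fin 4) := ⟨Equiv.swap 0 1 * Equiv.swap 1 2, Equiv.Perm.mem_alternatingGroup.2 (by decide)⟩
    let v : alternatingGroup (Fin 4) := ⟨Equiv.swap 0 1 * Equiv.swap 2 3, Equiv.Perm.mem_alternatingGroup.2 (by decide)⟩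
    set S := φ s with hSdef
    set V := φ v with hVdef
    set W := S * V * S⁻¹ with hWdef
    have hW : W = φ (s * v * s⁻¹) := by rw [map_mul, map_mul, map_inv]
    have hV2 : V * V = 1 := by rw [← map_mul, show v * v = 1 by decide, map_one]
    have hV1 : V ≠ 1 := fun h => absurd (hφ (h.trans φ.map_one.symm)) (by decide)
    have hWV : W ≠ V := fun h => absurd (hφ (hW.symm.trans h)) (by decide)
    have hcomm : W * V = V * W := by
      rw [hW, ← map_mul, ← map_mul, show s * v * s⁻¹ * v = v * (s * v * s⁻¹) by decide]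
    have hS3 : S * S * S = 1 := by rw [← map_mul, ← map_mul, show s * s * s = 1 by decide, map_one]
    have hns : ¬ Cfsg.Lib.PStable.IsScalar2 V := by
      intro h
      rcases (Cfsg.Lib.PStable.isScalar2_iff V).1 h with h | h
      · exact hV1 h
      · exact hV1 (h.trans (hcen _ Cfsg.Lib.Fusion.PSLTwo.neg_one_mem_center))
    obtain ⟨u, v0, w00, w01, w10, w11⟩ := Cfsg.Lib.PStable.exists_linear_of_commute hns hcomm
    have hW2 : W * W = 1 := by rw [hWdef, conj_mul, hV2, mul_one, mul_inv_cancel]
    -- traces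
    have htr : ∀ X : Matrix.SpecialLinearGroup (Fin 2) F, X * X = 1 → X.1 1 1 = X.1 0 0 := by
      intro X hX
      have hd := X.2
      rw [Matrix.det_fin_two] at hd
      have hm : X.1 * X.1 = 1 := by rw [← Matrix.SpecialLinearGroup.coe_mul, hX]; rfl
      have e00 := congrFun (congrFun hm 0) 0
      have e11 := congrFun (congrFun hm 1) 1
      simp [Matrix.mul_apply, Fin.sum_univ_two] at e00 e11
      have : (X.1 0 0 + X.1 1 1) ^ 2 = 0 := by linear_combination e00 + e11 + 2 * hd + 2 * h2
      have := pow_eq_zero_iff two_ne_zero |>.1 this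
      linear_combination this - X.1 0 0 * h2
    have hVd := V.2
    have hWd := W.2
    rw [Matrix.det_fin_two] at hVd hWd
    rw [htr V hV2] at hVd w11
    rw [htr W hW2] at hWd
    rw [w00, w01, w10] at hWd
    have hv0 : v0 = 1 + u := by
      have : (u + v0 - 1) ^ 2 = 0 := by
        linear_combination hWd - u ^ 2 * hVd + (u * v0 - u - v0 + 1 - u * V.1 0 0 * v0) * h2
      have := pow_eq_zero_iff two_ne_zero |>.1 this
      linear_combination this - u * h2
    -- conjugation by S multiplies V - 1 by u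
    set N := V.1 - 1 with hNdef
    have hSN : S.1 * N = u • N * S.1 := by
      have hWm : W.1 - 1 = u • N := by
        ext i j
        rw [hNdef, Matrix.smul_apply, Matrix.sub_apply, Matrix.sub_apply, smul_eq_mul]
        fin_cases i <;> fin_cases j <;> simp
        · linear_combination w00 + hv0 + u * h2
        · linear_combination w01
        · linear_combination w10
        · linear_combination w11 + hv0 + u * h2 - u * (htr V hV2)
      rw [← hWm, hNdef, sub_mul, mul_sub, one_mul, mul_one, ← Matrix.SpecialLinearGroup.coe_mul, ← Matrix.SpecialLinearGroup.coe_mul,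
        hWdef, inv_mul_cancel_right]
    have hu3 : N = u ^ 3 • N := by
      have h3 : S.1 * S.1 * S.1 = 1 := by
        rw [← Matrix.SpecialLinearGroup.coe_mul, ← Matrix.SpecialLinearGroup.coe_mul, hS3]; rfl
      have : S.1 * S.1 * S.1 * N = u ^ 3 • N * (S.1 * S.1 * S.1) := by
        have hSN1 : S.1 * N = u • (N * S.1) := by rw [hSN, Matrix.smul_mul]
        have hSN2 : ∀ X : Matrix (Fin 2) (Fin 2) F, S.1 * (N * X) = u • (N * (S.1 * X)) := fun X => by
          rw [← Matrix.mul_assoc, hSN1, Matrix.smul_mul, Matrix.mul_assoc]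
        simp only [Matrix.mul_assoc, hSN1, hSN2, Matrix.smul_mul, Matrix.mul_smul, smul_smul]
        congr 1
        ring
      rwa [h3, Matrix.one_mul, Matrix.mul_one] at this
    have hN0 : N ≠ 0 := fun h => hV1 (Subtype.ext (sub_eq_zero.1 h))
    have hu : u ^ 3 = 1 := by
      by_contra h
      refine hN0 ((smul_eq_zero.1 (?_ : (1 - u ^ 3) • N = 0)).resolve_left (sub_ne_zero.2 (Ne.symm h)))
      rw [sub_smul, one_smul, ← hu3, sub_self]
    have hu0 : u ≠ 0 := by rintro rfl; simp at hu
    have hu1 : u = 1 := by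
      have hq : u ^ (Fintype.card F - 1) = 1 := FiniteField.pow_card_sub_one_eq_one u hu0
      have h3 : ¬ 3 ∣ Fintype.card F - 1 := by
        rw [hF]
        obtain ⟨k, rfl⟩ := hodd
        have : (2 : ℕ) ^ (2 * k + 1) % 3 = 2 := by
          rw [pow_succ, pow_mul, Nat.mul_mod, Nat.pow_mod]; norm_num
        generalize (2 : ℕ) ^ (2 * k + 1) = Q at this ⊢
        omega
      have hg : Nat.gcd 3 (Fintype.card F - 1) = 1 := (Nat.Prime.coprime_iff_not_dvd Nat.prime_three).2 h3
      have := pow_gcd_eq_one.2 ⟨hu, hq⟩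
      rwa [hg, pow_one] at this
    apply hWV
    apply Cfsg.Lib.QuatTwo.ext_entries
    · rw [w00, hv0, hu1]; linear_combination h2
    · rw [w01, hu1, one_mul]
    · rw [w10, hu1, one_mul]
    · rw [w11, hv0, hu1, htr V hV2]; linear_combination h2
  · intro hev
    rw [Nat.not_odd_iff_even] at hev
    haveI : Fact (Nat.Prime 3) := ⟨Nat.prime_three⟩
    have h3 : 3 ∣ Nat.card Fˣ := by
      rw [Nat.card_units, Nat.card_eq_fintype_card, hF]
      obtain ⟨k, rfl⟩ := hev
      have : (2 : ℕ) ^ (k + k) % 3 = 1 := by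
        rw [← two_mul, pow_mul, Nat.pow_mod]; norm_num
      omega
    obtain ⟨w0, hw0⟩ := exists_prime_orderOf_dvd_card' 3 h3
    set ω : F := (w0 : F) with hω
    have hω3 : ω ^ 3 = 1 := by rw [hω, ← Units.val_pow_eq_pow_val, ← hw0, pow_orderOf_eq_one, Units.val_one]
    have hω1 : ω ≠ 1 := fun h => by
      rw [show w0 = 1 from Units.ext h, orderOf_one] at hw0; omega
    have hsum : ω ^ 2 + ω + 1 = 0 :=
      (mul_eq_zero.1 (show (ω - 1) * (ω ^ 2 + ω + 1) = 0 by linear_combination hω3)).resolve_left (sub_ne_zero.2 hω1)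
    have hω0 : ω ≠ 0 := Units.ne_zero w0
    let w : Matrix.SpecialLinearGroup (Fin 2) F := ⟨!![ω, 0; 0, ω ^ 2], by rw [Matrix.det_fin_two_of]; linear_combination hω3⟩
    let U : F → Matrix.SpecialLinearGroup (Fin 2) F := Cfsg.Lib.PStable.upperU
    have hU0 : ∀ {a b : F}, f (U a) = f (U b) → a = b := fun h => Cfsg.Lib.PStable.upperU_injective (hf.1 h)
    have hadd : ∀ a b : F, U a * U b = U (a + b) := fun a b => (Cfsg.Lib.PStable.upperU_add a b).symm
    have hwU : ∀ t, w * U t = U (ω ^ 2 * t) * w := by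
      intro t
      apply Cfsg.Lib.QuatTwo.ext_entries <;>
        rw [Matrix.SpecialLinearGroup.coe_mul, Matrix.SpecialLinearGroup.coe_mul] <;>
        simp [w, U, Cfsg.Lib.PStable.upperU, Matrix.mul_apply, Fin.sum_univ_two]
      linear_combination -(ω * t) * hω3
    have hwU' : ∀ t, f w * f (U t) * (f w)⁻¹ = f (U (ω ^ 2 * t)) := fun t => by
      rw [← map_mul, hwU, map_mul, mul_inv_cancel_right]
    have h0 : f (U 0) = 1 := by rw [show U 0 = 1 from Cfsg.Lib.PStable.upperU_zero, map_one]
    have hwf : w ^ 3 = 1 := by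
      apply Cfsg.Lib.QuatTwo.ext_entries <;>
        rw [pow_succ, pow_two, Matrix.SpecialLinearGroup.coe_mul, Matrix.SpecialLinearGroup.coe_mul] <;>
        simp [w, Matrix.mul_apply, Fin.sum_univ_two]
      · linear_combination hω3
      · linear_combination (ω ^ 3 + 1) * hω3
    have R : Cfsg.Lib.QuatTwo.Rel (f (U 1)) (f (U (ω ^ 2))) (f w) :=
      { hx := by rw [← map_mul, hadd, CharTwo.add_self_eq_zero, h0]
        hy := by rw [← map_mul, hadd, CharTwo.add_self_eq_zero, h0]
        hc := by rw [← map_mul, ← map_mul, hadd, hadd, add_comm]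
        hx1 := fun h => one_ne_zero (hU0 (h.trans h0.symm))
        hy1 := fun h => pow_ne_zero 2 hω0 (hU0 (h.trans h0.symm))
        hxy := fun h => hω1 (by have := hU0 h; linear_combination hω3 + ω * this)
        hw := by rw [← map_pow, hwf, map_one]
        hw1 := fun h => by
          have := hf.1 (h.trans f.map_one.symm)
          exact hω1 (congrArg (fun X : Matrix.SpecialLinearGroup (Fin 2) F => X.1 0 0) this)
        hwx := by rw [hwU', mul_one]
        hwy := by
          rw [hwU', ← map_mul, hadd]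
          congr 2
          linear_combination ω * hω3 - hsum + ω * h2 }
    exact ⟨_, R.nonempty_A4⟩

end Cfsg.Agent.S0802
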