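import Cfsg.Statements.S0848
import Cfsg.Agent.Lib.Characters.ProductCount
import Cfsg.Agent.S0111
-- import your own Cfsg.Agent.* helpers here

set_option autoImplicit false
open Cfsg

namespace Cfsg.Agent.S0848

set_option maxHeartbeats 4000000
open Cfsg.Lib.Characters DihedralGroup
open scoped ComplexConjugate commutatorElement

abbrev D4 := DihedralGroup 4

theorem d4_center : ∀ x : D4, (∀ y, x * y = y * x) → x = 1 ∨ x = r 2 := by decide
theorem d4_rot : ∀ k : ZMod 4, (r k : D4) * r k = 1 → r k = (1 : D4) ∨ r k = (r 2 : D4) := by decide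
theorem d4_flip : (sr 0 : D4) * r 1 * (sr 0)⁻¹ = (r 1)⁻¹ := by decide
theorem d4_r1sq : (r 1 : D4) * r 1 = r 2 := by decide
theorem d4_r1_cent : (Finset.univ.filter fun x : D4 => x * r 1 = r 1 * x).card = 4 := by decide
theorem d4_count_a : (Finset.univ.filter fun x : D4 =>
    (x * x = 1 ∧ x ≠ 1) ∧ ((x * r 1) * (x * r 1) = 1 ∧ x * r 1 ≠ 1)).card = 4 := by decide
theorem d4_count_t : (Finset.univ.filter fun x : D4 =>
    (x * x = 1 ∧ x ≠ 1) ∧ ((x * r 2) * (x * r 2) = 1 ∧ x * r 2 ≠ 1)).card = 4 := by decide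
theorem d4_univ : (Finset.univ : Finset D4) = {r 0, r 1, r 2, r 3, sr 0, sr 1, sr 2, sr 3} := by decide
theorem d4_inv : ∀ i : ZMod 4, (sr i : D4) * sr i = 1 ∧ sr i ≠ (1 : D4) := by decide

def lin : Fin 3 → D4 → ℤˣ
  | 0, _ => 1
  | 1, r _ => 1
  | 1, sr _ => -1
  | 2, r i => if i = 1 ∨ i = 3 then -1 else 1
  | 2, sr i => if i = 1 ∨ i = 3 then -1 else 1

theorem lin_mul : ∀ j x y, lin j (x * y) = lin j x * lin j y := by decide

theorem sq_eq_one_or {n : ℤ} (h0 : n ≠ 0) (h : n ^ 2 ≤ 3) : n = 1 ∨ n = -1 := by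
  have h1 : n < 2 := by nlinarith
  have h2 : -2 < n := by nlinarith
  omega

theorem core (d1 d2 d3 d5 : ℕ) (u1 u2 u3 x1 x2 x3 w : ℤ) (N : ℕ) (hN : 0 < N)
    (h1 : 0 < d1) (h2 : 0 < d2) (h3 : 0 < d3) (h5 : 0 < d5)
    (v1 : u1 = 1 ∨ u1 = -1) (v2 : u2 = 1 ∨ u2 = -1) (v3 : u3 = 1 ∨ u3 = -1)
    (e1 : x1 = -u1) (e2 : x2 = -u2) (e3 : u3 = x3) (hw : w ^ 2 = 4)
    (hu : 1 + u1 * d1 + u2 * d2 + u3 * d3 + w * d5 = 0) (hx : 1 + x1 * d1 + x2 * d2 + x3 * d3 = 0)
    (hA : (8 : ℤ) ∣ (d1 : ℤ) + 5 * u1 + 2 * x1)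
    (hS : (N : ℚ) * (1 + x1 / d1 + x2 / d2 + x3 / d3) = 256)
    (hT : (N : ℚ) * (1 + u1 / d1 + u2 / d2 + u3 / d3 + (w : ℚ) ^ 3 / d5) = 256) :
    N = 168 ∨ N = 360 := by
  subst e1 e2 e3
  obtain ⟨A, hAe⟩ : ∃ A : ℤ, A = u1 * d1 := ⟨_, rfl⟩
  obtain ⟨B, hBe⟩ : ∃ B : ℤ, B = u2 * d2 := ⟨_, rfl⟩
  obtain ⟨C, hCe⟩ : ∃ C : ℤ, C = u3 * d3 := ⟨_, rfl⟩
  obtain ⟨E, hEe⟩ : ∃ E : ℤ, E = w * d5 := ⟨_, rfl⟩
  have hA0 : (A : ℚ) ≠ 0 := by rcases v1 with rfl | rfl <;> simp [hAe, h1.ne']
  have hB0 : (B : ℚ) ≠ 0 := by rcases v2 with rfl | rfl <;> simp [hBe, h2.ne']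
  have hC0 : (C : ℚ) ≠ 0 := by rcases v3 with rfl | rfl <;> simp [hCe, h3.ne']
  have hw0 : w ≠ 0 := by intro h; subst h; norm_num at hw
  have hE0 : (E : ℚ) ≠ 0 := by simp [hEe, hw0, h5.ne']
  have r1 : (u1 : ℚ) / d1 = 1 / A := by rcases v1 with rfl | rfl <;> simp [hAe] <;> ring
  have r2 : (u2 : ℚ) / d2 = 1 / B := by rcases v2 with rfl | rfl <;> simp [hBe] <;> ring
  have r3 : (u3 : ℚ) / d3 = 1 / C := by rcases v3 with rfl | rfl <;> simp [hCe] <;> ring
  have hw' : (w : ℚ) ^ 2 = 4 := by exact_mod_cast hw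
  have r5 : (w : ℚ) ^ 3 / d5 = 16 / E := by
    rw [hEe]; push_cast
    have hd : (d5 : ℚ) ≠ 0 := Nat.cast_ne_zero.2 h5.ne'
    have hwq : (w : ℚ) ≠ 0 := Int.cast_ne_zero.2 hw0
    rw [div_eq_div_iff hd (mul_ne_zero hwq hd)]
    linear_combination (d5 : ℚ) * ((w : ℚ) ^ 2 + 4) * hw'
  push_cast at hS
  rw [neg_div, neg_div, r1, r2, r3] at hS
  rw [r1, r2, r3, r5] at hT
  have hN0 : (N : ℚ) ≠ 0 := Nat.cast_ne_zero.2 hN.ne'
  have hdiff : (2 : ℚ) / A + 2 / B + 16 / E = 0 := by
    refine (mul_eq_zero.1 (?_ : (N : ℚ) * (2 / A + 2 / B + 16 / E) = 0)).resolve_left hN0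
    linear_combination hT - hS
  have hABE : (A + B) * E + 8 * A * B = 0 := by
    have : ((A + B) * E + 8 * A * B : ℚ) = 0 := by
      field_simp at hdiff
      linear_combination hdiff / 2
    exact_mod_cast this
  have hE2 : E = -2 * (A + B) := by
    rw [hAe, hBe, hEe]
    linarith
  have hAB : A = B := by
    rw [hE2] at hABE
    have : (A - B) ^ 2 = 0 := by
      have h : 2 * (A - B) ^ 2 = 0 := by linear_combination -hABE
      simpa using h
    exact sub_eq_zero.1 (pow_eq_zero_iff two_ne_zero |>.1 this)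
  have hC2 : C = 2 * A - 1 := by
    have : -1 = -A - B + C := by rw [hAe, hBe, hCe]; linarith
    omega
  subst hAB
  subst hC2
  have hmain : (N : ℤ) * (2 * (A - 1) ^ 2) = 256 * (A * (2 * A - 1)) := by
    have h : ((N : ℚ)) * (2 * ((A : ℚ) - 1) ^ 2) = 256 * ((A : ℚ) * (2 * (A : ℚ) - 1)) := by
      push_cast at hC0 hS
      have hC1 : (A : ℚ) * 2 - 1 ≠ 0 := fun h => hC0 (by linarith)
      field_simp at hS
      linear_combination hS
    exact_mod_cast h
  have hmod : A % 8 = 5 := by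
    obtain ⟨k, hk⟩ := hA
    rcases v1 with rfl | rfl <;> omega
  have hdvd : (A - 1) ^ 2 ∣ 128 := by
    have hc : IsCoprime ((A - 1) ^ 2) (A * (2 * A - 1)) :=
      (show IsCoprime (A - 1) (A * (2 * A - 1)) from ⟨-(2 * A + 1), 1, by ring⟩).pow_left
    refine hc.dvd_of_dvd_mul_right ⟨(N : ℤ), ?_⟩
    linarith
  have hb := Int.le_of_dvd (by norm_num) hdvd
  have hb1 : A ≤ 12 := by nlinarith
  have hb2 : -10 ≤ A := by nlinarith
  have : A = -3 ∨ A = 5 := by omega
  rcases this with rfl | rfl <;> omega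


/-- If a finite group equals its own commutator subgroup and contains an involution whose centralizer is isomorphic to the dihedral group of order 8, then the group has order 168 or 360. -/
theorem result {G : Type*} [Group G] [Finite G] (hperf : commutator G = ⊤) (t : G) (ht : orderOf t = 2) (e : Subgroup.centralizer ({t} : Set G) ≃* DihedralGroup 4) : Nat.card G = 168 ∨ Nat.card G = 360 := by
  classical
  haveI := Fintype.ofFinite G
  haveI : Fact (Nat.Prime 2) := ⟨Nat.prime_two⟩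
  set C := Subgroup.centralizer ({t} : Set G) with hC
  have ht1 : t ≠ 1 := fun h => by rw [h, orderOf_one] at ht; omega
  have ht2 : t * t = 1 := by rw [← sq, ← ht]; exact pow_orderOf_eq_one t
  have inv_iff : ∀ x : G, orderOf x = 2 ↔ x * x = 1 ∧ x ≠ 1 := fun x => by
    rw [← sq, orderOf_eq_prime_iff]
  have mem_C : ∀ x : G, x ∈ C ↔ x * t = t * x := fun x => Subgroup.mem_centralizer_singleton_iff
  let tC : C := ⟨t, (mem_C t).2 rfl⟩
  have he2 : e tC = r 2 := by
    refine (d4_center _ fun y => ?_).resolve_left fun h => ht1 ?_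
    · obtain ⟨x, rfl⟩ := e.surjective y
      rw [← map_mul, ← map_mul]
      exact congrArg e (Subtype.ext ((mem_C x).1 x.2).symm)
    · exact congrArg Subtype.val (e.injective (h.trans (map_one e).symm))
  have hCc : Nat.card C = 8 := by rw [Nat.card_congr e.toEquiv, DihedralGroup.nat_card]
  obtain ⟨P, hCP⟩ := (IsPGroup.of_card (p := 2) (n := 3) (by rw [hCc]; norm_num) : IsPGroup 2 C).exists_le_sylow
  have hPC : (P : Subgroup G) = C := by
    refine le_antisymm ?_ hCP
    haveI : Nontrivial (P : Subgroup G) := ⟨⟨⟨t, hCP tC.2⟩, 1, fun h => ht1 (congrArg Subtype.val h)⟩⟩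
    haveI : Nontrivial (Subgroup.center (P : Subgroup G)) := P.isPGroup'.center_nontrivial
    obtain ⟨z, hz⟩ := exists_ne (1 : Subgroup.center (P : Subgroup G))
    have hzc : ∀ y : G, y ∈ (P : Subgroup G) → y * ((z : (P : Subgroup G)) : G) = ((z : (P : Subgroup G)) : G) * y :=
      fun y hy => congrArg Subtype.val (Subgroup.mem_center_iff.1 z.2 ⟨y, hy⟩)
    have hzC : ((z : (P : Subgroup G)) : G) ∈ C := (mem_C _).2 (hzc t (hCP tC.2)).symm
    have hz2 : e ⟨_, hzC⟩ = e tC := by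
      rw [he2]
      refine (d4_center _ fun y => ?_).resolve_left fun h => hz ?_
      · obtain ⟨x, rfl⟩ := e.surjective y
        rw [← map_mul, ← map_mul]
        exact congrArg e (Subtype.ext (hzc x (hCP x.2)).symm)
      · have h2 := congrArg Subtype.val (e.injective (h.trans (map_one e).symm))
        exact Subtype.ext (Subtype.ext h2)
    have hzt : ((z : (P : Subgroup G)) : G) = t := congrArg Subtype.val (e.injective hz2)
    intro y hy
    rw [mem_C, ← hzt]
    exact hzc y hy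
  let aC : C := e.symm (r 1)
  let a : G := aC
  have haa : a * a = t := by
    have : aC * aC = tC := e.injective (by rw [map_mul, e.apply_symm_apply, d4_r1sq, he2])
    exact congrArg Subtype.val this
  have hnt : ∀ y : G, orderOf y = 2 → IsConj t y := by
    intro y hy
    have hrot : ∀ g : G, g * y * g⁻¹ ∈ Subgroup.zpowers a → g * y * g⁻¹ = t := by
      intro g hg
      obtain ⟨k, hk⟩ := Subgroup.mem_zpowers_iff.1 hg
      have ho : orderOf (g * y * g⁻¹) = 2 := (MulEquiv.orderOf_eq (MulAut.conj g) y).trans hy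
      have h1 : e (aC ^ k) = r (k : ZMod 4) := by
        rw [map_zpow, e.apply_symm_apply, DihedralGroup.r_one_zpow]
      have h2 : (aC ^ k : C) * aC ^ k = 1 := Subtype.ext (by
        show ((aC ^ k : C) : G) * ((aC ^ k : C) : G) = 1
        rw [SubgroupClass.coe_zpow, show ((aC : G)) ^ k = g * y * g⁻¹ from hk]
        exact ((inv_iff _).1 ho).1)
      have h3 := congrArg e h2
      rw [map_mul, h1, map_one] at h3
      rcases d4_rot _ h3 with h4 | h4
      · refine absurd ?_ ((inv_iff _).1 ho).2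
        rw [← hk]
        exact (SubgroupClass.coe_zpow aC k).symm.trans (congrArg Subtype.val (e.injective ((h1.trans h4).trans (map_one e).symm)))
      · rw [← hk]
        exact (SubgroupClass.coe_zpow aC k).symm.trans (congrArg Subtype.val (e.injective ((h1.trans h4).trans he2.symm)))
    obtain ⟨Q, hQ⟩ := (IsPGroup.of_card (p := 2) (n := 1) (by rw [Nat.card_zpowers, hy, pow_one]) : IsPGroup 2 (Subgroup.zpowers y)).exists_le_sylow
    obtain ⟨g, hg⟩ := MulAction.exists_smul_eq G Q P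
    have hgy : g * y * g⁻¹ ∈ (P : Subgroup G) := by
      rw [← hg, Sylow.coe_subgroup_smul]
      exact Subgroup.smul_mem_pointwise_smul y (MulAut.conj g) _ (hQ (Subgroup.mem_zpowers y))
    by_cases hin : g * y * g⁻¹ ∈ Subgroup.zpowers a
    · exact (isConj_iff.2 ⟨g, rfl⟩ : IsConj y (g * y * g⁻¹)).symm.trans (IsConj.refl _) |> fun h => (hrot g hin) ▸ h
    · have hQle : Subgroup.zpowers a ≤ (P : Subgroup G) := Subgroup.zpowers_le.2 (hCP aC.2)
      have hidx : (Subgroup.zpowers a).relIndex (P : Subgroup G) = 2 := by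
        have h := ((Subgroup.zpowers a).subgroupOf (P : Subgroup G)).card_mul_index
        rw [Nat.card_congr (Subgroup.subgroupOfEquivOfLe hQle).toEquiv, Nat.card_zpowers, hPC, hCc,
          show orderOf a = 4 by rw [Subgroup.orderOf_coe, MulEquiv.orderOf_eq e.symm, DihedralGroup.orderOf_r_one]] at h
        rw [hPC]
        unfold Subgroup.relIndex
        omega
      rcases Cfsg.Agent.S0111.result P (Subgroup.zpowers a) hQle hidx (g * y * g⁻¹)
        ((MulEquiv.orderOf_eq (MulAut.conj g) y).trans hy) hgy hin with ⟨M, hM, hMi, hM'⟩ | ⟨k, hk⟩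
      · exfalso
        haveI := hM
        have hcy : IsCyclic (G ⧸ M) := by
          haveI : Fact (Nat.Prime 2) := ⟨Nat.prime_two⟩
          exact isCyclic_of_prime_card (p := 2) (by rw [← Subgroup.index_eq_card, hMi])
        have hle : commutator G ≤ M := by
          rw [commutator_eq_closure, Subgroup.closure_le]
          rintro _ ⟨p, q, rfl⟩
          letI := hcy.commGroup
          rw [SetLike.mem_coe, ← QuotientGroup.eq_one_iff]
          show QuotientGroup.mk' M ⁅p, q⁆ = 1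
          rw [map_commutatorElement, commutatorElement_eq_one_iff_mul_comm, mul_comm]
        rw [hperf] at hle
        exact hM' (hle (Subgroup.mem_top _))
      · have h1 : k * (g * y * g⁻¹) * k⁻¹ = (k * g) * y * (k * g)⁻¹ := by group
        rw [h1] at hk
        exact (isConj_iff.2 ⟨k * g, hrot _ hk⟩ : IsConj y t).symm
  -- counting
  have hp2 : ∀ p q c : G, p * p = 1 → p * q = c → q = p * c := fun p q c h h' => by
    rw [← h', ← mul_assoc, h, one_mul]
  have hcount : ∀ c : C, (∀ x : G, x * x = 1 → (x * (c : G)) * (x * (c : G)) = 1 → x ∈ C) → ∀ z : D4, e c = z →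
      pairCount t (c : G) = (Finset.univ.filter fun x : D4 => (x * x = 1 ∧ x ≠ 1) ∧ ((x * z) * (x * z) = 1 ∧ x * z ≠ 1)).card := by
    rintro c hin z rfl
    rw [pairCount, ← Fintype.card_subtype, ← Nat.card_eq_fintype_card]
    have hord : ∀ x : G, IsConj t x ↔ x * x = 1 ∧ x ≠ 1 := fun x => by
      rw [← inv_iff]
      refine ⟨fun h => ?_, hnt x⟩
      obtain ⟨g, rfl⟩ := isConj_iff.1 h
      exact (MulEquiv.orderOf_eq (MulAut.conj g) t).trans ht
    have hmap : ∀ x : C, ((x : G) * x = 1 ∧ (x : G) ≠ 1) ↔ (e x * e x = 1 ∧ e x ≠ 1) := fun x => by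
      have h1 : ∀ y : C, e y = 1 ↔ (y : G) = 1 := fun y => by
        rw [← map_one e, e.injective.eq_iff, Subtype.ext_iff]; rfl
      rw [← map_mul, h1 (x * x), Ne, Ne, h1 x]
      rfl
    refine Nat.card_congr ?_
    exact
      { toFun := fun p => ⟨e ⟨p.1.1, hin p.1.1 ((hord _).1 p.2.1).1 (by
            have h := ((hord _).1 p.2.2.1).1
            have h2 : p.1.2 = p.1.1 * (c : G) := hp2 _ _ _ ((hord _).1 p.2.1).1 p.2.2.2
            rwa [h2] at h)⟩, by
          have h2 : p.1.2 = p.1.1 * (c : G) := hp2 _ _ _ ((hord _).1 p.2.1).1 p.2.2.2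
          have hx := (hord _).1 p.2.1
          have hy := (hord _).1 p.2.2.1
          refine ⟨(hmap _).1 hx, ?_⟩
          rw [← map_mul]
          refine (hmap _).1 ?_
          show (p.1.1 * (c : G)) * (p.1.1 * (c : G)) = 1 ∧ p.1.1 * (c : G) ≠ 1
          rw [← h2]; exact hy⟩
        invFun := fun x => ⟨(((e.symm x.1 : C) : G), ((e.symm x.1 * c : C) : G)),
          (hord _).2 ((hmap _).2 (by rw [e.apply_symm_apply]; exact x.2.1)),
          (hord ((e.symm x.1 * c : C) : G)).2 ((hmap (e.symm x.1 * c)).2 (by rw [map_mul, e.apply_symm_apply]; exact x.2.2)), by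
            have h := ((hmap (e.symm x.1)).2 (by rw [e.apply_symm_apply]; exact x.2.1)).1
            show ((e.symm x.1 : C) : G) * ((e.symm x.1 * c : C) : G) = c
            rw [Subgroup.coe_mul, ← mul_assoc, h, one_mul]⟩
        left_inv := fun p => by
          have h2 : p.1.2 = p.1.1 * (c : G) := hp2 _ _ _ ((hord _).1 p.2.1).1 p.2.2.2
          refine Subtype.ext (Prod.ext ?_ ?_)
          · simp
          · simp [h2]
        right_inv := fun x => Subtype.ext (by simp) }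
  have hinvt : ∀ x : G, x * x = 1 → x⁻¹ = x := fun x h => inv_eq_of_mul_eq_one_right h
  have hna : pairCount t a = 4 := by
    rw [hcount aC ?_ (r 1) (e.apply_symm_apply _), d4_count_a]
    intro x hx hxa
    rw [mem_C, ← haa]
    have h1 : x * a * x = a⁻¹ := eq_inv_of_mul_eq_one_left (by
      show x * a * x * a = 1
      rw [mul_assoc (x * a)]; exact hxa)
    have h2 : x * (a * a) * x = (a * a)⁻¹ := by
      rw [show x * (a * a) * x = (x * a * x) * (x⁻¹ * x⁻¹) * (x * a * x) * (x * x) * ((x * a * x)⁻¹ * (x * a * x)) * 1 * (x * x)⁻¹ by group,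
        hx, hinvt x hx, hx, h1]
      group
    rw [haa, hinvt t ht2] at h2
    rw [haa]
    calc x * t = x * t * (x * x) := by rw [hx, mul_one]
      _ = x * t * x * x := by group
      _ = t * x := by rw [h2]
  have hnt4 : pairCount t t = 4 := by
    rw [show pairCount t t = pairCount t ((tC : C) : G) from rfl, hcount tC ?_ (r 2) he2, d4_count_t]
    intro x hx hxt
    rw [mem_C]
    have h := hinvt _ hxt
    rw [mul_inv_rev, hinvt x hx, hinvt t ht2] at h
    exact h.symm
  have haC : Nat.card (Subgroup.centralizer ({a} : Set G)) = 4 := by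
    have hle : Subgroup.centralizer ({a} : Set G) ≤ C := fun x hx => by
      have h : x * a = a * x := Subgroup.mem_centralizer_singleton_iff.1 hx
      rw [mem_C, ← haa, ← mul_assoc, h, mul_assoc, h, ← mul_assoc]
    rw [← d4_r1_cent, ← Fintype.card_subtype, ← Nat.card_eq_fintype_card,
      ← Nat.card_congr (Subgroup.subgroupOfEquivOfLe hle).toEquiv]
    refine Nat.card_congr (e.toEquiv.subtypeEquiv fun x => ?_)
    rw [Subgroup.mem_subgroupOf, Subgroup.mem_centralizer_singleton_iff]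
    show ((x : G) * (aC : G) = (aC : G) * x) ↔ e x * r 1 = r 1 * e x
    rw [show (r 1 : D4) = e aC from (e.apply_symm_apply _).symm, ← map_mul, ← map_mul, e.injective.eq_iff, Subtype.ext_iff]
    rfl
  have hainv : IsConj a a⁻¹ := by
    refine isConj_iff.2 ⟨((e.symm (sr 0) : C) : G), ?_⟩
    exact congrArg Subtype.val (show e.symm (sr 0) * aC * (e.symm (sr 0))⁻¹ = aC⁻¹ by
      rw [← map_inv, ← map_mul, ← map_mul, d4_flip, map_inv])
  -- character data
  have hdata : ∀ χ : IrrCharacter G, ∃ (d : ℕ) (u x : ℤ), 0 < d ∧ (χ : G → ℂ) 1 = d ∧ (χ : G → ℂ) t = u ∧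
      (χ : G → ℂ) a = x ∧ (8 : ℤ) ∣ (d : ℤ) + 5 * u + 2 * x ∧ (2 : ℤ) ∣ u - x := by
    intro χ
    obtain ⟨d, hd0, hd⟩ := χ.2.exists_degree_pos
    have hcf := isClassFunction_iff_isConj.mp χ.2.isClassFunction
    have hk : ∀ j : Fin 3, ∃ k : ℕ, ∑ z : D4, (χ : G → ℂ) ((e.symm z : C) : G) * ((lin j z : ℤ) : ℂ) = 8 * (k : ℂ) := by
      intro j
      let f : D4 →* ℤˣ := MonoidHom.mk' (lin j) (lin_mul j)
      let L : C →* ℂˣ := ((Units.map (Int.castRingHom ℂ).toMonoidHom).comp f).comp e.toMonoidHom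
      obtain ⟨k, hk⟩ := classInner_nat (isCharacter_restrict χ.2.isCharacter C) (isIrrCharacter_linear L).isCharacter
      refine ⟨k, ?_⟩
      rw [← hk, classInner, hCc]
      push_cast
      rw [← mul_assoc, mul_inv_cancel₀ (by norm_num), one_mul]
      refine Fintype.sum_equiv e.symm.toEquiv _ _ fun z => ?_
      simp [L, f]
    have hsr : ∀ i : ZMod 4, (χ : G → ℂ) ((e.symm (sr i) : C) : G) = (χ : G → ℂ) t := by
      intro i
      refine (hcf _ _ (hnt _ ((inv_iff _).2 ⟨?_, ?_⟩))).symm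
      · exact congrArg Subtype.val (show e.symm (sr i) * e.symm (sr i) = 1 by rw [← map_mul, (d4_inv i).1, map_one])
      · intro h
        exact (d4_inv i).2 (e.symm.injective ((Subtype.ext h : e.symm (sr i) = 1).trans (map_one e.symm).symm))
    have hr0 : (χ : G → ℂ) ((e.symm (r 0) : C) : G) = (d : ℂ) := by
      rw [← DihedralGroup.one_def, map_one]; exact hd
    have hr2 : (χ : G → ℂ) ((e.symm (r 2) : C) : G) = (χ : G → ℂ) t := by rw [← he2, e.symm_apply_apply]
    have hr3 : (χ : G → ℂ) ((e.symm (r 3) : C) : G) = (χ : G → ℂ) a := by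
      rw [show (r 3 : D4) = (r 1)⁻¹ by decide, map_inv]
      exact (hcf _ _ hainv).symm
    obtain ⟨k0, h0⟩ := hk 0
    obtain ⟨k1, h1⟩ := hk 1
    obtain ⟨k2, h2⟩ := hk 2
    rw [d4_univ] at h0 h1 h2
    rw [Finset.sum_insert (by decide), Finset.sum_insert (by decide), Finset.sum_insert (by decide),
      Finset.sum_insert (by decide), Finset.sum_insert (by decide), Finset.sum_insert (by decide),
      Finset.sum_insert (by decide), Finset.sum_singleton, hr0, hr2, hr3, hsr, hsr, hsr, hsr] at h0 h1 h2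
    rw [show ((e.symm (r 1) : C) : G) = a from rfl] at h0 h1 h2
    simp only [lin] at h0 h1 h2
    norm_num [show ¬((0 : ZMod 4) = 1 ∨ (0 : ZMod 4) = 3) by decide, show ¬((2 : ZMod 4) = 1 ∨ (2 : ZMod 4) = 3) by decide,
      show ((1 : ZMod 4) = 1 ∨ (1 : ZMod 4) = 3) by decide, show ((3 : ZMod 4) = 1 ∨ (3 : ZMod 4) = 3) by decide] at h0 h1 h2
    refine ⟨d, (k0 : ℤ) - k1, 2 * ((k0 : ℤ) - k2) - ((k0 : ℤ) - k1), hd0, hd, ?_, ?_, ?_, ⟨-((k0 : ℤ) - k2) + ((k0 : ℤ) - k1), by ring⟩⟩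
    · push_cast; linear_combination (h0 - h1) / 8
    · push_cast; linear_combination (h0 - h2) / 4 - (h0 - h1) / 8
    · refine ⟨(k0 : ℤ), ?_⟩
      have : ((d : ℂ) + 5 * ((k0 : ℂ) - k1) + 2 * (2 * ((k0 : ℂ) - k2) - ((k0 : ℂ) - k1))) = 8 * (k0 : ℂ) := by
        linear_combination h0 - 3 * (h0 - h1) / 8 - (h0 - h2) / 2
      exact_mod_cast this
  choose d u x hd0 hd hu hx h8 hpar using hdata
  have hne_ta : ¬ IsConj t a := fun h => by
    obtain ⟨g, hg⟩ := isConj_iff.1 h
    refine ht1 (haa.symm.trans ?_)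
    rw [← hg, show g * t * g⁻¹ * (g * t * g⁻¹) = g * (t * t) * g⁻¹ by group, ht2]; group
  have hne_t1 : ¬ IsConj t 1 := fun h => ht1 (isConj_one_left.1 h)
  have hne_a1 : ¬ IsConj a 1 := fun h => ht1 (by rw [← haa, show a = 1 from isConj_one_left.1 h, one_mul])
  have cast : ∀ f : IrrCharacter G → ℤ, ∀ n : ℤ, ∑ χ, ((f χ : ℤ) : ℂ) = (n : ℂ) → ∑ χ, f χ = n := fun f n h => by
    rw [← Int.cast_sum] at h; exact_mod_cast h
  have s1 : ∑ χ, u χ ^ 2 = 8 := cast _ _ (by
    have h := column_orthogonality t t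
    rw [if_pos (IsConj.refl t), ← hC, hCc] at h
    refine Eq.trans (Finset.sum_congr rfl fun χ _ => ?_) (h.trans (by norm_num))
    rw [hu]; simp [sq])
  have s2 : ∑ χ, x χ ^ 2 = 4 := cast _ _ (by
    have h := column_orthogonality a a
    rw [if_pos (IsConj.refl a), haC] at h
    refine Eq.trans (Finset.sum_congr rfl fun χ _ => ?_) (h.trans (by norm_num))
    rw [hx]; simp [sq])
  have s3 : ∑ χ, u χ * x χ = 0 := cast _ _ (by
    have h := column_orthogonality t a
    rw [if_neg hne_ta] at h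
    refine Eq.trans (Finset.sum_congr rfl fun χ _ => ?_) (h.trans (by norm_num))
    rw [hu, hx]; simp)
  have s4 : ∑ χ, u χ * (d χ : ℤ) = 0 := cast _ _ (by
    have h := column_orthogonality t 1
    rw [if_neg hne_t1] at h
    refine Eq.trans (Finset.sum_congr rfl fun χ _ => ?_) (h.trans (by norm_num))
    rw [hu, hd]; simp)
  have s5 : ∑ χ, x χ * (d χ : ℤ) = 0 := cast _ _ (by
    have h := column_orthogonality a 1
    rw [if_neg hne_a1] at h
    refine Eq.trans (Finset.sum_congr rfl fun χ _ => ?_) (h.trans (by norm_num))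
    rw [hx, hd]; simp)
  have hK : (Nat.card {y : G // IsConj t y} : ℚ) * 8 = Nat.card G := by
    have h := card_conj_mul_card_centralizer t
    rw [← hC, hCc] at h
    exact_mod_cast h
  have hG0 : (Nat.card G : ℚ) ≠ 0 := Nat.cast_ne_zero.2 Nat.card_pos.ne'
  have hform : ∀ (c : G) (v : IrrCharacter G → ℤ), (∀ χ : IrrCharacter G, (χ : G → ℂ) c = v χ) → pairCount t c = 4 →
      (Nat.card G : ℚ) * ∑ χ, (u χ : ℚ) ^ 2 * (v χ : ℚ) / (d χ : ℚ) = 256 := by
    intro c v hv hc
    have h := pairCount_formula t c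
    rw [hc] at h
    simp only [hu, hd, hv, map_intCast] at h
    have h' : (Nat.card G : ℚ) * 4 = (Nat.card {y : G // IsConj t y} : ℚ) ^ 2 * ∑ χ, (u χ : ℚ) ^ 2 * (v χ : ℚ) / (d χ : ℚ) := by
      exact_mod_cast h
    refine mul_left_cancel₀ hG0 ?_
    rw [← hK] at h' ⊢
    linear_combination (-64 : ℚ) * h'
  have hS := hform a x hx hna
  have hT := hform t u hu hnt4
  -- the support
  let χ0 : IrrCharacter G := ⟨fun _ => 1, isIrrCharacter_one⟩
  have hd1 : d χ0 = 1 := by have h : (1 : ℂ) = (d χ0 : ℂ) := hd χ0; exact_mod_cast h.symm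
  have hu1 : u χ0 = 1 := by have h : (1 : ℂ) = (u χ0 : ℂ) := hu χ0; exact_mod_cast h.symm
  have hx1 : x χ0 = 1 := by have h : (1 : ℂ) = (x χ0 : ℂ) := hx χ0; exact_mod_cast h.symm
  set R := Finset.univ.erase χ0 with hR
  set X := R.filter fun χ => x χ ≠ 0 with hX
  have hxR : ∑ χ ∈ R, x χ ^ 2 = 3 := by
    have := Finset.add_sum_erase Finset.univ (fun χ => x χ ^ 2) (Finset.mem_univ χ0)
    simp only [hx1, s2] at this
    rw [hR]; linarith
  have hxv : ∀ χ ∈ X, x χ = 1 ∨ x χ = -1 := fun χ hχ => by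
    obtain ⟨hχR, hne⟩ := Finset.mem_filter.1 hχ
    exact sq_eq_one_or hne (hxR ▸ Finset.single_le_sum (f := fun χ => x χ ^ 2) (fun i _ => sq_nonneg _) hχR)
  have hXc : X.card = 3 := by
    have h : ∑ χ ∈ X, x χ ^ 2 = 3 := by
      refine (Finset.sum_subset (Finset.filter_subset _ _) fun χ h1 h2 => ?_).trans hxR
      simp only [hX, Finset.mem_filter, h1, true_and, not_not] at h2
      simp [h2]
    rw [Finset.sum_congr rfl fun χ hχ => show x χ ^ 2 = 1 by rcases hxv χ hχ with h | h <;> simp [h],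
      Finset.sum_const] at h
    simp only [nsmul_eq_mul, mul_one] at h
    exact_mod_cast h
  have huR : ∑ χ ∈ R, u χ ^ 2 = 7 := by
    have := Finset.add_sum_erase Finset.univ (fun χ => u χ ^ 2) (Finset.mem_univ χ0)
    simp only [hu1, s1] at this
    rw [hR]; linarith
  have huv : ∀ χ ∈ X, u χ = 1 ∨ u χ = -1 := fun χ hχ => by
    have h7 : u χ ^ 2 ≤ 7 := huR ▸ Finset.single_le_sum (f := fun χ => u χ ^ 2) (fun i _ => sq_nonneg _) (Finset.mem_filter.1 hχ).1
    have hb1 : u χ < 3 := by nlinarith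
    have hb2 : -3 < u χ := by nlinarith
    obtain ⟨k, hk⟩ := hpar χ
    rcases hxv χ hχ with h | h <;> omega
  set Y := R.filter fun χ => ¬ x χ ≠ 0 with hY
  have hYs : ∑ χ ∈ Y, u χ ^ 2 = 4 := by
    have h := Finset.sum_filter_add_sum_filter_not R (fun χ => x χ ≠ 0) (fun χ => u χ ^ 2)
    rw [← hX, ← hY, huR, Finset.sum_congr rfl fun χ hχ => show u χ ^ 2 = 1 by rcases huv χ hχ with h | h <;> simp [h],
      Finset.sum_const, hXc] at h
    simp only [nsmul_eq_mul, mul_one, Nat.cast_ofNat] at h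
    linarith
  obtain ⟨w, hwY, hw0⟩ := Finset.exists_ne_zero_of_sum_ne_zero (by rw [hYs]; norm_num : ∑ χ ∈ Y, u χ ^ 2 ≠ 0)
  have hx0 : ∀ χ ∈ Y, x χ = 0 := fun χ hχ => not_not.1 (Finset.mem_filter.1 hχ).2
  have hev : ∀ χ ∈ Y, u χ ≠ 0 → 4 ≤ u χ ^ 2 := fun χ hχ h0 => by
    obtain ⟨k, hk⟩ := hpar χ
    rw [hx0 χ hχ, sub_zero] at hk
    rw [hk] at h0 ⊢
    have : k ≠ 0 := fun h => h0 (by simp [h])
    have h1 : 0 < k ^ 2 := by positivity
    nlinarith
  have hwsplit := Finset.add_sum_erase Y (fun χ => u χ ^ 2) hwY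
  simp only [hYs] at hwsplit
  have hwnn : 0 ≤ ∑ χ ∈ Y.erase w, u χ ^ 2 := Finset.sum_nonneg fun i _ => sq_nonneg _
  have hw4 : u w ^ 2 = 4 := by linarith [hev w hwY (fun h => hw0 (by simp [h]))]
  have hrest : ∀ χ ∈ Y, χ ≠ w → u χ = 0 := fun χ hχ hne => by
    by_contra h0
    have := Finset.single_le_sum (f := fun χ => u χ ^ 2) (fun i _ => sq_nonneg _) (Finset.mem_erase.2 ⟨hne, hχ⟩)
    linarith [hev χ hχ h0]
  obtain ⟨A, B, D, hAB, hAD, hBD, hXe⟩ := Finset.card_eq_three.1 hXc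
  have hsum : ∀ {R' : Type} [AddCommMonoid R'] (f : IrrCharacter G → R'),
      (∀ χ, u χ = 0 → x χ = 0 → f χ = 0) → ∑ χ, f χ = f χ0 + (f A + (f B + f D) + f w) := by
    intro R' _ f hf
    rw [← Finset.add_sum_erase Finset.univ f (Finset.mem_univ χ0), ← hR,
      ← Finset.sum_filter_add_sum_filter_not R (fun χ => x χ ≠ 0) f, ← hX, ← hY, hXe,
      Finset.sum_eq_single_of_mem w hwY fun χ hχ hne => hf χ (hrest χ hχ hne) (hx0 χ hχ),
      Finset.sum_insert (by simp [hAB, hAD]), Finset.sum_pair hBD]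
  have hxw : x w = 0 := hx0 w hwY
  have mA : A ∈ X := by rw [hXe]; simp
  have mB : B ∈ X := by rw [hXe]; simp
  have mD : D ∈ X := by rw [hXe]; simp
  rw [hsum _ fun χ a b => by simp [a, b]] at s3 s4 s5 hS hT
  simp only [hu1, hx1, hd1, hxw, Int.cast_one, Int.cast_zero, Nat.cast_one, mul_one, one_mul, mul_zero, zero_mul,
    add_zero, zero_div, one_pow, div_one] at s3 s4 s5 hS hT
  have sq1 : ∀ χ ∈ X, (u χ : ℚ) ^ 2 = 1 := fun χ hχ => by rcases huv χ hχ with h | h <;> simp [h]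
  have cub : ∀ χ ∈ X, (u χ : ℚ) ^ 2 * (u χ : ℚ) = u χ := fun χ hχ => by rw [sq1 χ hχ, one_mul]
  rw [sq1 A mA, sq1 B mB, sq1 D mD] at hS hT
  simp only [one_mul] at hS hT
  have hN : 0 < Nat.card G := Nat.card_pos
  rcases huv A mA with a1 | a1 <;> rcases huv B mB with b1 | b1 <;> rcases huv D mD with c1 | c1 <;>
    rcases hxv A mA with a2 | a2 <;> rcases hxv B mB with b2 | b2 <;> rcases hxv D mD with c2 | c2 <;>
    first
    | (exfalso; rw [a1, b1, c1, a2, b2, c2] at s3; omega)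
    | exact core (d A) (d B) (d D) (d w) (u A) (u B) (u D) (x A) (x B) (x D) (u w) _ hN (hd0 A) (hd0 B) (hd0 D) (hd0 w)
        (huv A mA) (huv B mB) (huv D mD) (by omega) (by omega) (by omega) hw4 (by linarith) (by linarith) (h8 A)
        (by linear_combination hS) (by linear_combination hT)
    | exact core (d A) (d D) (d B) (d w) (u A) (u D) (u B) (x A) (x D) (x B) (u w) _ hN (hd0 A) (hd0 D) (hd0 B) (hd0 w)
        (huv A mA) (huv D mD) (huv B mB) (by omega) (by omega) (by omega) hw4 (by linarith) (by linarith) (h8 A)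
        (by linear_combination hS) (by linear_combination hT)
    | exact core (d B) (d D) (d A) (d w) (u B) (u D) (u A) (x B) (x D) (x A) (u w) _ hN (hd0 B) (hd0 D) (hd0 A) (hd0 w)
        (huv B mB) (huv D mD) (huv A mA) (by omega) (by omega) (by omega) hw4 (by linarith) (by linarith) (h8 B)
        (by linear_combination hS) (by linear_combination hT)

end Cfsg.Agent.S0848
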