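import Cfsg.Statements.S0899
import Cfsg.Agent.S0898
import Cfsg.Agent.Lib.Blocks.Blichfeldt
import Cfsg.Agent.Lib.Blocks.SmallDegreePSolvable
-- import your own Cfsg.Agent.* helpers here

set_option autoImplicit false
open Cfsg

namespace Cfsg.Agent.S0899

open Cfsg.Lib.Characters Subgroup

universe u

/-- The condition on the degree and the prime. -/
def Cond (p n : ℕ) (G : Type u) [Group G] : Prop :=
  (n + 1) ^ 2 ≤ p ∨ (n + 1 < p ∧ ∀ K : Subgroup G, ¬ p ^ 2 ∣ Nat.card K → ∀ Q : Sylow p K, (Q : Subgroup K).Normal)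

theorem Cond.lt {p n : ℕ} [hp : Fact p.Prime] {G : Type u} [Group G] (h : Cond p n G) : n + 1 < p := by
  rcases h with h | h
  · rcases Nat.eq_zero_or_pos n with rfl | hn
    · exact hp.out.one_lt
    · nlinarith
  · exact h.1

theorem Cond.sub {p n : ℕ} [Fact p.Prime] {G : Type u} [Group G] [Finite G] (h : Cond p n G) (M : Subgroup G) : Cond p n M := by
  rcases h with h | ⟨h1, h2⟩
  · exact Or.inl h
  refine Or.inr ⟨h1, fun K hK Q => ?_⟩
  let e : K ≃* (K.map M.subtype) := K.equivMapOfInjective M.subtype M.subtype_injective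
  let Q' : Sylow p (K.map M.subtype : Subgroup G) := Q.mapSurjective (f := e.toMonoidHom) e.surjective
  have hQ' := h2 (K.map M.subtype) (by rwa [← Nat.card_congr e.toEquiv]) Q'
  have hback : (Q : Subgroup K) = ((Q : Subgroup K).map e.toMonoidHom).comap e.toMonoidHom :=
    (Subgroup.comap_map_eq_self_of_injective e.injective _).symm
  have hQ'' : ((Q : Subgroup K).map e.toMonoidHom).Normal := hQ'
  rw [hback]
  exact hQ''.comap _

/-- A central element of the derived subgroup in an abelian Sylow subgroup is trivial. -/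
theorem central_commutator {G : Type u} [Group G] [Finite G] {p : ℕ} [Fact p.Prime] (P : Sylow p G)
    (hab : ∀ a ∈ (P : Subgroup G), ∀ b ∈ (P : Subgroup G), a * b = b * a) {z : G}
    (hz : z ∈ (P : Subgroup G)) (hc : z ∈ center G) (hd : z ∈ commutator G) : z = 1 := by
  letI : CommGroup (P : Subgroup G) :=
    { (inferInstance : Group (P : Subgroup G)) with
      mul_comm := fun a b => Subtype.ext (hab _ a.2 _ b.2) }
  have key : ∀ (k : ℕ) (g₀ : G), g₀⁻¹ * z ^ k * g₀ ∈ (P : Subgroup G) → g₀⁻¹ * z ^ k * g₀ = z ^ k := by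
    intro k g₀ _
    have h1 : g₀ * z ^ k = z ^ k * g₀ := mem_center_iff.mp (pow_mem hc k) g₀
    rw [mul_assoc, ← h1, inv_mul_cancel_left]
  have h := MonoidHom.transfer_eq_pow (MonoidHom.id (P : Subgroup G)) z key
  have hker : commutator G ≤ (MonoidHom.transfer (MonoidHom.id (P : Subgroup G))).ker :=
    Abelianization.commutator_subset_ker _
  rw [MonoidHom.mem_ker.mp (hker hd), MonoidHom.id_apply] at h
  have h1 : z ^ (P : Subgroup G).index = 1 := (congrArg Subtype.val h).symm
  obtain ⟨k, hk⟩ := P.isPGroup' ⟨z, hz⟩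
  have h2 : z ^ p ^ k = 1 := congrArg Subtype.val hk
  have hcop : Nat.Coprime (P : Subgroup G).index (p ^ k) :=
    ((Nat.Prime.coprime_iff_not_dvd Fact.out).mpr P.not_dvd_index).symm.pow_right k
  have := Nat.eq_one_of_dvd_coprimes hcop (orderOf_dvd_of_pow_eq_one h1) (orderOf_dvd_of_pow_eq_one h2)
  exact orderOf_eq_one_iff.mp this

set_option maxHeartbeats 2000000 in
/-- The main induction. -/
theorem main (p : ℕ) [hp : Fact p.Prime] (n : ℕ) : ∀ (m : ℕ) (G : Type u) [Group G] [Finite G]
    (χ : G → ℂ), IsCharacter G χ → (∀ g, χ g = χ 1 → g = 1) → χ 1 = n → Cond p n G →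
    Nat.card G ≤ m → ∀ P : Sylow p G, (P : Subgroup G).Normal := by
  intro m
  induction m with
  | zero => intro G _ _ χ _ _ _ _ h; exact absurd (Nat.card_pos (α := G)) (by omega)
  | succ m ih =>
    intro G _ _ χ hχ hf hn hcond hcard P
    classical
    haveI := Fintype.ofFinite G
    by_contra hP
    have hnp := hcond.lt
    have hsub : ∀ M : Subgroup G, M ≠ ⊤ → ∀ Q : Sylow p M, (Q : Subgroup M).Normal := fun M hM Q => by
      have hlt : Nat.card M < Nat.card G := lt_of_le_of_ne (Nat.le_of_dvd Nat.card_pos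
        M.card_subgroup_dvd_card) fun h => hM (eq_top_of_card_eq M h)
      exact ih M (fun x => χ x) (isCharacter_restrict hχ M) (fun g hg => Subtype.ext (hf g hg)) hn
        (hcond.sub M) (by omega) Q
    -- conjugates inside a proper subgroup coincide
    have huniq : ∀ M : Subgroup G, M ≠ ⊤ → ∀ Q R : Sylow p G, (Q : Subgroup G) ≤ M →
        (R : Subgroup G) ≤ M → Q = R := by
      intro M hM Q R hQ hR
      have h1 := hsub M hM (Q.subtype hQ)
      haveI := Sylow.unique_of_normal (Q.subtype hQ) h1
      exact Sylow.subtype_injective (Subsingleton.elim (Q.subtype hQ) (R.subtype hR))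
    have hM : ∀ M : Subgroup G, M.Normal → (P : Subgroup G) ≤ M → M = ⊤ := by
      intro M hMn hPM
      by_contra hne
      refine hP ⟨fun y hy g => ?_⟩
      have h1 : ((g • P : Sylow p G) : Subgroup G) ≤ M := by
        rw [Sylow.coe_subgroup_smul]
        rintro _ ⟨x, hx, rfl⟩
        exact hMn.conj_mem x (hPM hx) g
      rw [← huniq M hne (g • P) P h1 hPM, Sylow.coe_subgroup_smul]
      exact ⟨y, hy, rfl⟩
    -- abelian
    have hab : ∀ a ∈ (P : Subgroup G), ∀ b ∈ (P : Subgroup G), a * b = b * a := by
      intro a ha b hb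
      have h := Cfsg.Lib.Blocks.commute_of_faithful_small
        (isCharacter_restrict hχ (P : Subgroup G)) (fun g hg => Subtype.ext (hf g hg)) hn
        (fun q hq hd => by
          obtain ⟨k, hk⟩ := P.isPGroup'.exists_card_eq
          rw [hk] at hd
          rw [(Nat.prime_dvd_prime_iff_eq hq hp.out).mp (hq.dvd_of_dvd_pow hd)]
          omega) ⟨a, ha⟩ ⟨b, hb⟩
      exact congrArg Subtype.val h
    have hPC : ∀ a ∈ (P : Subgroup G), (P : Subgroup G) ≤ centralizer ({a} : Set G) := fun a ha b hb =>
      mem_centralizer_singleton_iff.mpr (hab b hb a ha)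
    rcases eq_or_ne (commutator G) ⊤ with hperf | hperf
    swap
    · -- the soluble case
      refine hP (Cfsg.Lib.Blocks.SchurBound.normal_of_small ?_ hχ hf hn hnp P)
      set D := commutator G
      obtain ⟨T⟩ : Nonempty (Sylow p D) := inferInstance
      have hTn := hsub D hperf T
      set T' := (T : Subgroup D).map D.subtype with hT'
      haveI hTG : T'.Normal := by
        haveI := Sylow.characteristic_of_normal T hTn
        exact inferInstance
      have hTP : T' ≤ (P : Subgroup G) := by
        have hTp : IsPGroup p T' := T.isPGroup'.map _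
        obtain ⟨R, hR⟩ := hTp.exists_le_sylow
        obtain ⟨g, rfl⟩ := MulAction.exists_smul_eq G R P
        intro t ht
        rw [Sylow.coe_subgroup_smul]
        exact ⟨g⁻¹ * t * g, hR (hTG.conj_mem' t ht g), by simp [mul_assoc]⟩
      have hT1 : T' = ⊥ := by
        have hC := hM (centralizer (T' : Set G)) inferInstance fun b hb => mem_centralizer_iff.mpr fun t ht =>
          hab t (hTP ht) b hb
        rw [eq_bot_iff]
        intro t ht
        refine central_commutator P hab (hTP ht) (mem_center_iff.mpr fun y => ?_) ?_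
        · exact (mem_centralizer_iff.mp (hC ▸ mem_top y : y ∈ centralizer (T' : Set G)) t ht).symm
        · obtain ⟨d, -, rfl⟩ := ht
          exact d.2
      have hcop : (Nat.card D).Coprime p := by
        refine (hp.out.coprime_iff_not_dvd.mpr fun hd => ?_).symm
        have h1 := T.dvd_card_of_dvd_card hd
        rw [Nat.card_congr ((T : Subgroup D).equivMapOfInjective D.subtype D.subtype_injective).toEquiv,
          ← hT', hT1, card_bot] at h1
        exact hp.out.not_dvd_one h1
      -- a normal subgroup of index prime to the prime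
      let E : Subgroup G := D ⊔ (P : Subgroup G)
      have hE : E = ⊤ := hM E (by
        refine ⟨fun x hx y => ?_⟩
        have h1 : y * x * y⁻¹ * x⁻¹ ∈ D :=
          commutator_mem_commutator (mem_top y) (mem_top x)
        have h2 := mul_mem (mem_sup_left h1 : _ ∈ E) hx
        rwa [inv_mul_cancel_right] at h2) le_sup_right
      refine ⟨2, ![⊥, D, ⊤], rfl, rfl, ?_, ?_, ?_⟩
      · rw [Fin.monotone_iff_le_succ]
        intro i
        fin_cases i <;> simp
      · intro i
        fin_cases i
        · exact inferInstanceAs (⊥ : Subgroup G).Normal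
        · exact inferInstanceAs D.Normal
        · exact inferInstanceAs (⊤ : Subgroup G).Normal
      · intro i
        fin_cases i
        · right
          simpa using hcop
        · left
          have h1 : D.relIndex ⊤ ∣ Nat.card (P : Subgroup G) := by
            rw [← hE]; rw [show E = D ⊔ (P : Subgroup G) from rfl, Subgroup.relIndex_sup_left]
            exact Subgroup.relIndex_dvd_card _ _
          obtain ⟨k, hk⟩ := P.isPGroup'.exists_card_eq
          obtain ⟨j, -, hj⟩ := (Nat.dvd_prime_pow hp.out).mp (hk ▸ h1)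
          exact ⟨j, by simpa using hj⟩
    -- the perfect case
    have hbot : (P : Subgroup G) ≠ ⊥ := fun h => hP (by rw [h]; infer_instance)
    have hZ : (P : Subgroup G) ⊓ center G = ⊥ := by
      rw [eq_bot_iff]
      rintro z ⟨hz, hc⟩
      exact central_commutator P hab hz hc (hperf ▸ mem_top z)
    have hproper : ∀ g : G, g ∉ center G → centralizer ({g} : Set G) ≠ ⊤ := fun g hg h =>
      hg (mem_center_iff.mpr fun y => mem_centralizer_singleton_iff.mp (h ▸ mem_top y))
    have hone : ∀ g : G, g ∉ center G → ∀ a b : G,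
        centralizer ({g} : Set G) ⊓ (P : Subgroup G).map (MulAut.conj a).toMonoidHom ≠ ⊥ →
        centralizer ({g} : Set G) ⊓ (P : Subgroup G).map (MulAut.conj b).toMonoidHom ≠ ⊥ →
        (P : Subgroup G).map (MulAut.conj a).toMonoidHom = (P : Subgroup G).map (MulAut.conj b).toMonoidHom := by
      intro g hg a b ha hb
      obtain ⟨u, ⟨hug, hua⟩, hu1⟩ := (Subgroup.bot_or_exists_ne_one _).resolve_left ha
      obtain ⟨v, ⟨hvg, hvb⟩, hv1⟩ := (Subgroup.bot_or_exists_ne_one _).resolve_left hb
      have hcoe : ∀ c : G, ((c • P : Sylow p G) : Subgroup G) = (P : Subgroup G).map (MulAut.conj c).toMonoidHom :=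
        fun c => by rw [Sylow.coe_subgroup_smul]; rfl
      have hcent : ∀ c : G, ∀ w ∈ (P : Subgroup G).map (MulAut.conj c).toMonoidHom, w ≠ 1 →
          w ∉ center G ∧ (P : Subgroup G).map (MulAut.conj c).toMonoidHom ≤ centralizer ({w} : Set G) := by
        rintro c _ ⟨w, hw, rfl⟩ hw1
        refine ⟨fun hc => ?_, ?_⟩
        · have hwc : w ∈ center G := by
            have := (inferInstance : (center G).Normal).conj_mem _ hc c⁻¹
            simpa [mul_assoc] using this
          have hw0 : w = 1 := by
            have : w ∈ (P : Subgroup G) ⊓ center G := ⟨hw, hwc⟩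
            rwa [hZ, mem_bot] at this
          exact hw1 (by simp [hw0])
        · rintro _ ⟨x, hx, rfl⟩
          rw [mem_centralizer_singleton_iff, ← map_mul, ← map_mul, hab x hx w hw]
      obtain ⟨huZ, huP⟩ := hcent a u hua hu1
      obtain ⟨hvZ, hvP⟩ := hcent b v hvb hv1
      -- a common Sylow subgroup of the centralizer
      have hu' : IsPGroup p ((P : Subgroup G).map (MulAut.conj a).toMonoidHom) := P.isPGroup'.map _
      have hv' : IsPGroup p ((P : Subgroup G).map (MulAut.conj b).toMonoidHom) := P.isPGroup'.map _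
      set C := centralizer ({g} : Set G)
      have hul : IsPGroup p (zpowers (⟨u, hug⟩ : C)) := by
        refine IsPGroup.of_injective (hu'.to_le (zpowers_le.mpr hua) : IsPGroup p (zpowers u))
          ((C.subtype.comp (zpowers (⟨u, hug⟩ : C)).subtype).codRestrict (zpowers u) ?_) ?_
        · rintro ⟨x, hx⟩
          obtain ⟨i, rfl⟩ := mem_zpowers_iff.mp hx
          exact mem_zpowers_iff.mpr ⟨i, by simp⟩
        · intro x y h
          exact Subtype.ext (Subtype.ext (congrArg (fun z => (z.1 : G)) h :))
      have hvl : IsPGroup p (zpowers (⟨v, hvg⟩ : C)) := by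
        refine IsPGroup.of_injective (hv'.to_le (zpowers_le.mpr hvb) : IsPGroup p (zpowers v))
          ((C.subtype.comp (zpowers (⟨v, hvg⟩ : C)).subtype).codRestrict (zpowers v) ?_) ?_
        · rintro ⟨x, hx⟩
          obtain ⟨i, rfl⟩ := mem_zpowers_iff.mp hx
          exact mem_zpowers_iff.mpr ⟨i, by simp⟩
        · intro x y h
          exact Subtype.ext (Subtype.ext (congrArg (fun z => (z.1 : G)) h :))
      obtain ⟨Su, hSu⟩ := hul.exists_le_sylow
      obtain ⟨Sv, hSv⟩ := hvl.exists_le_sylow
      haveI := Sylow.unique_of_normal Su (hsub C (hproper g hg) Su)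
      have hSS : Su = Sv := Subsingleton.elim _ _
      have hcomm : v * u = u * v := by
        have hab' : ∀ x y : C, x ∈ (Su : Subgroup C) → y ∈ (Su : Subgroup C) → x * y = y * x := by
          intro x y hx hy
          obtain ⟨R, hR⟩ := (Su.isPGroup'.map C.subtype).exists_le_sylow
          obtain ⟨c, hc⟩ := MulAction.exists_smul_eq G P R
          have hx' : (x : G) ∈ (R : Subgroup G) := hR ⟨x, hx, rfl⟩
          have hy' : (y : G) ∈ (R : Subgroup G) := hR ⟨y, hy, rfl⟩
          rw [← hc, hcoe] at hx' hy'
          obtain ⟨x0, hx0, hx1⟩ := hx'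
          obtain ⟨y0, hy0, hy1⟩ := hy'
          refine Subtype.ext ?_
          rw [coe_mul, coe_mul, ← hx1, ← hy1, ← map_mul, ← map_mul, hab x0 hx0 y0 hy0]
        exact congrArg Subtype.val (hab' ⟨v, hvg⟩ ⟨u, hug⟩ (hSS ▸ hSv (mem_zpowers _))
          (hSu (mem_zpowers _)))
      -- move to the centralizer of the first element
      have hvCu : v ∈ centralizer ({u} : Set G) := mem_centralizer_singleton_iff.mpr hcomm
      have hvA : v ∈ (P : Subgroup G).map (MulAut.conj a).toMonoidHom := by
        set C' := centralizer ({u} : Set G)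
        have hSa := hsub C' (hproper u huZ) ((a • P).subtype (hcoe a ▸ huP))
        haveI := Sylow.unique_of_normal _ hSa
        have hwl : IsPGroup p (zpowers (⟨v, hvCu⟩ : C')) := by
          refine IsPGroup.of_injective (hv'.to_le (zpowers_le.mpr hvb) : IsPGroup p (zpowers v))
            ((C'.subtype.comp (zpowers (⟨v, hvCu⟩ : C')).subtype).codRestrict (zpowers v) ?_) ?_
          · rintro ⟨x, hx⟩
            obtain ⟨i, rfl⟩ := mem_zpowers_iff.mp hx
            exact mem_zpowers_iff.mpr ⟨i, by simp⟩
          · intro x y h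
            exact Subtype.ext (Subtype.ext (congrArg (fun z => (z.1 : G)) h :))
        obtain ⟨Sw, hSw⟩ := hwl.exists_le_sylow
        have hmem := hSw (mem_zpowers (⟨v, hvCu⟩ : C'))
        rw [Subsingleton.elim Sw ((a • P).subtype (hcoe a ▸ huP)), Sylow.coe_subtype,
          mem_subgroupOf, hcoe] at hmem
        exact hmem
      have hav := (hcent a v hvA hv1).2
      have := huniq _ (hproper v hvZ) (a • P) (b • P) (hcoe a ▸ hav) (hcoe b ▸ hvP)
      rw [← hcoe, ← hcoe, this]
    -- a constituent nontrivial on the Sylow subgroup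
    haveI := Fintype.ofFinite (P : Subgroup G)
    obtain ⟨k, hk⟩ := exists_decomposition hχ
    obtain ⟨μ, hμk, u, hu, hμu⟩ : ∃ μ : IrrCharacter G, k μ ≠ 0 ∧ ∃ u ∈ (P : Subgroup G), (μ : G → ℂ) u ≠ (μ : G → ℂ) 1 := by
      by_contra hcon
      push Not at hcon
      refine hbot ((Subgroup.eq_bot_iff_forall _).mpr fun x hx => hf x ?_)
      rw [hk]
      simp only [Finset.sum_apply, Pi.smul_apply, smul_eq_mul]
      refine Finset.sum_congr rfl fun μ _ => ?_
      by_cases h : k μ = 0
      · simp [h]
      · rw [hcon μ h x hx]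
    obtain ⟨d, hd0, hd⟩ := μ.2.exists_degree_pos
    have hdn : d ≤ n := by
      refine (constituent_degree hχ μ.2 ?_ hn hd).1
      rw [hk, classInner_sum_irr]
      exact Nat.cast_ne_zero.mpr hμk
    have hd1 : (μ : G → ℂ) 1 ≠ 1 := by
      intro h1
      obtain ⟨lam, hlam⟩ := exists_hom_of_degree_one μ.2.isCharacter h1
      have hker : commutator G ≤ lam.ker := Abelianization.commutator_subset_ker _
      rw [hperf, top_le_iff] at hker
      refine hμu ?_
      have hu' : lam u = 1 := MonoidHom.mem_ker.mp (hker ▸ mem_top u)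
      rw [hlam]
      simp [hu']
    have h2 := (Cfsg.Agent.S0898.result (P : Subgroup G) hab hZ hone μ μ.2 ⟨u, hu, hμu⟩).2 hd1
      fun M hMn hPM => hM M hMn hPM
    rw [hd, Complex.natCast_re] at h2
    have h3 : Nat.card (P : Subgroup G) < (1 + d) ^ 2 := by exact_mod_cast h2
    have h4 : (1 + d) ^ 2 ≤ (n + 1) ^ 2 := Nat.pow_le_pow_left (by omega) 2
    obtain ⟨j, hj⟩ := P.isPGroup'.exists_card_eq
    have hj0 : j ≠ 0 := by rintro rfl; exact hbot (card_eq_one.mp (by simpa using hj))
    rcases hcond with h | ⟨h, hK⟩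
    · have : p ^ 1 ≤ p ^ j := Nat.pow_le_pow_right hp.out.pos (by omega)
      rw [pow_one, ← hj] at this
      omega
    · by_cases hsq : p ^ 2 ∣ Nat.card G
      · have hdd : p ^ 2 ∣ Nat.card (P : Subgroup G) := P.pow_dvd_card_of_pow_dvd_card hsq
        have := Nat.le_of_dvd Nat.card_pos hdd
        have h5 : (n + 1) ^ 2 ≤ p ^ 2 := Nat.pow_le_pow_left h.le 2
        omega
      · have hn' := hK ⊤ (by rwa [card_top]) (P.subtype le_top)
        refine hP ⟨fun y hy g => ?_⟩
        have := hn'.conj_mem ⟨y, mem_top y⟩ hy ⟨g, mem_top g⟩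
        exact this

/-- Let G be a finite group with a faithful complex representation of degree n (on Fin n → ℂ) and p a prime. Suppose either that (n + 1) ^ 2 ≤ p, or that n + 1 < p and every subgroup of G whose order is not divisible by p ^ 2 has a normal Sylow p-subgroup. Then every Sylow p-subgroup of G is normal. -/
theorem result {G : Type*} [Group G] [Finite G] (n : ℕ) (ρ : Representation ℂ G (Fin n → ℂ)) (hρ : Function.Injective ρ) (p : ℕ) [Fact p.Prime] (h : (n + 1) ^ 2 ≤ p ∨ (n + 1 < p ∧ ∀ K : Subgroup G, ¬ p ^ 2 ∣ Nat.card K → ∀ Q : Sylow p K, (Q : Subgroup K).Normal)) (P : Sylow p G) : (P : Subgroup G).Normal := by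
  classical
  refine main p n (Nat.card G) G ρ.character (isCharacter_character ρ) (fun g hg => hρ ?_) ?_ h le_rfl P
  · rw [map_one]
    exact (char_eq_one_iff ρ g).mp hg
  · simp

end Cfsg.Agent.S0899
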