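import Cfsg.Statements.S0975
import Cfsg.Agent.Lib.SimpleOrder.DefectOneSetup

set_option autoImplicit false
open Cfsg

namespace Cfsg.Agent.S0975

theorem two_pat : ∀ f < 62, ∀ f₀ < 62, ¬ Cfsg.Lib.SimpleOrder.DefectOne.TwoPat 13 3744 f f₀ := by
  unfold Cfsg.Lib.SimpleOrder.DefectOne.TwoPat
  decide +kernel

theorem two_no {f f₀ : ℕ} (h : Cfsg.Lib.SimpleOrder.DefectOne.TwoPat 13 3744 f f₀) : False :=
  two_pat f (by obtain ⟨-, -, -, -, -, hs⟩ := h; nlinarith) f₀ (by obtain ⟨-, -, -, -, -, hs⟩ := h; nlinarith) h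

/-- No finite simple group has order 3744 = 2^5 * 3^2 * 13. -/
theorem result {G : Type*} [Group G] [Finite G] [IsSimpleGroup G] : Nat.card G ≠ 3744 := by
  intro h
  haveI : Fact (Nat.Prime 13) := ⟨by norm_num⟩
  obtain ⟨n, m, c, hn, hmod, hn1, hmd, hm1, hr, h2, h2', h3, h4⟩ :=
    Cfsg.Lib.SimpleOrder.DefectOne.restrictions 13 288 (G := G) (by omega) (by norm_num) (by norm_num)
  rw [h] at h2 h2' h3 h4
  have hnd : n ∈ Nat.divisors 288 := Nat.mem_divisors.mpr ⟨⟨c * m, by rw [← hr]; ring⟩, by norm_num⟩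
  have hmd' : m ∈ Nat.divisors 12 := Nat.mem_divisors.mpr ⟨hmd, by norm_num⟩
  have hnv : n = 144 := ((by decide +kernel : ∀ n ∈ Nat.divisors 288, n % 13 = 1 → n = 1 ∨ n = 144) n hnd hmod).resolve_left hn1
  subst hnv
  have hcm : c * m = 2 := by omega
  have hm2 : m = 2 := ((Nat.dvd_prime Nat.prime_two).mp ⟨c, by rw [← hcm, mul_comm]⟩).resolve_left hm1
  obtain ⟨f, f₀, hpat, -⟩ := h2 hm2 (by norm_num)
  exact two_no hpat

end Cfsg.Agent.S0975
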