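import Cfsg.Statements.S0976
import Cfsg.Agent.Lib.SimpleOrder.DefectOneSetup

set_option autoImplicit false
open Cfsg

set_option synthInstance.maxSize 512

namespace Cfsg.Agent.S0976

theorem two_pat : ∀ f < 64, ∀ f₀ < 64, Cfsg.Lib.SimpleOrder.DefectOne.TwoPat 7 4032 f f₀ → f = 8 ∧ f₀ = 9 := by
  unfold Cfsg.Lib.SimpleOrder.DefectOne.TwoPat
  decide +kernel

theorem two_small {f f₀ : ℕ} (h : Cfsg.Lib.SimpleOrder.DefectOne.TwoPat 7 4032 f f₀) : f = 8 ∧ f₀ = 9 :=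
  two_pat f (by obtain ⟨-, -, -, -, -, hs⟩ := h; nlinarith) f₀ (by obtain ⟨-, -, -, -, -, hs⟩ := h; nlinarith) h

theorem cand : ∀ x < 64, 2 ≤ x → x ∣ 4032 → (x % 7 = 1 ∨ x % 7 = 6) → x = 6 ∨ x = 8 ∨ x = 36 ∨ x = 48 := by
  decide +kernel

theorem cand0 : ∀ x < 100, x ∣ 4032 → (x % 7 = 3 ∨ x % 7 = 4) → x = 3 ∨ x = 4 ∨ x = 18 ∨ x = 24 ∨ x = 32 := by
  decide +kernel

theorem three_small {f g f₀ : ℕ} (h : Cfsg.Lib.SimpleOrder.DefectOne.ThreePat 7 4032 f g f₀) :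
    f < 2 * 7 ∨ g < 2 * 7 := by
  obtain ⟨hf, hg, hrel, hmod0, hf2, hg2, hfd, hgd, hd0, hsq⟩ := h
  rcases cand f (by nlinarith) hf2 hfd hf with rfl | rfl | rfl | rfl
  · omega
  · omega
  all_goals
    rcases cand g (by nlinarith) hg2 hgd hg with rfl | rfl | rfl | rfl <;>
      first
        | omega
        | (have := cand0 f₀ (by omega) hd0 hmod0; omega)

/-- No finite simple group has order 4032 = 2^6 * 3^2 * 7. -/
theorem result {G : Type*} [Group G] [Finite G] [IsSimpleGroup G] : Nat.card G ≠ 4032 := by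
  intro h
  haveI : Fact (Nat.Prime 7) := ⟨by norm_num⟩
  obtain ⟨n, m, c, hn, hmod, hn1, hmd, hm1, hr, h2, h2', h3, h4⟩ :=
    Cfsg.Lib.SimpleOrder.DefectOne.restrictions 7 576 (G := G) (by omega) (by norm_num) (by norm_num)
  rw [h] at h2 h2' h3 h4
  have hnd : n ∈ Nat.divisors 576 := Nat.mem_divisors.mpr ⟨⟨c * m, by rw [← hr]; ring⟩, by norm_num⟩
  have hmd' : m ∈ Nat.divisors 6 := Nat.mem_divisors.mpr ⟨hmd, by norm_num⟩
  have hnv := ((by decide +kernel : ∀ n ∈ Nat.divisors 576, n % 7 = 1 → n = 1 ∨ n = 8 ∨ n = 36 ∨ n = 64 ∨ n = 288) n hnd hmod).resolve_left hn1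
  have hmv := (by decide +kernel : ∀ m ∈ Nat.divisors 6, m = 1 ∨ m = 2 ∨ m = 3 ∨ m = 6) m hmd'
  have hG : ¬ IsMulCommutative G := Cfsg.Lib.SimpleOrder.not_comm_of_not_prime (by rw [h]; norm_num)
  rcases hnv with rfl | rfl | rfl | rfl
  · have := Nat.le_of_dvd (by norm_num) (Cfsg.Lib.SimpleOrder.card_dvd_of_sylow_succ hG (p := 7) (by norm_num) (by rw [← hn]))
    omega
  · have hm2 : m = 2 := by
      clear h2 h2' h3 h4
      rcases hmv with rfl | rfl | rfl | rfl <;> omega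
    obtain ⟨f, f₀, hpat, hs, -⟩ := h2 hm2 (by norm_num)
    have := hs (by rw [(two_small hpat).1]; norm_num)
    subst this hm2
    clear h2 h2' h3 h4
    omega
  · have hm3 : m = 3 := by
      clear h2 h2' h3 h4
      rcases hmv with rfl | rfl | rfl | rfl <;> omega
    obtain ⟨f, g, f₀, hpat, hs, hs'⟩ := h3 hm3 le_rfl
    have hc1 : c = 1 := by
      rcases three_small hpat with e | e
      · exact hs e
      · exact hs' e
    subst hc1 hm3
    clear h2 h2' h3 h4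
    omega
  · have hcm : c * m = 2 := by omega
    have hm2 : m = 2 := ((Nat.dvd_prime Nat.prime_two).mp ⟨c, by rw [← hcm, mul_comm]⟩).resolve_left hm1
    subst hm2
    obtain ⟨f, f₀, k, hpat, hk, hk2, hle⟩ := h2' rfl (by norm_num) (by omega)
    obtain ⟨rfl, rfl⟩ := two_small hpat
    have hk' : k ≤ 63 := (by decide +kernel : ∀ k ∈ Nat.divisors 4032, ¬ 2 ∣ k → k ≤ 63) k
      (Nat.mem_divisors.mpr ⟨hk, by norm_num⟩) hk2
    nlinarith

end Cfsg.Agent.S0976
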