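import Cfsg.Statements.S0982
import Cfsg.Agent.Lib.Recog.SimplePSLTwoPrime
import Cfsg.Agent.Lib.Classical.PSLSeven

set_option autoImplicit false
open Cfsg

namespace Cfsg.Agent.S0982

/-- A simple group of order 6072 is isomorphic to the projective special linear group of dimension 2 over the field with 23 elements. -/
theorem result {G : Type*} [Group G] [Finite G] [IsSimpleGroup G] (h : Nat.card G = 6072) {F : Type*} [Field F] [Fintype F] (hF : Fintype.card F = 23) : Nonempty (G ≃* Matrix.ProjectiveSpecialLinearGroup (Fin 2) F) := by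
  haveI : Fact (Nat.Prime 23) := ⟨by norm_num⟩
  obtain ⟨e⟩ := Cfsg.Lib.Recog.SimplePSLTwo.nonempty_equiv (G := G) (p := 23) (k := 11) (by norm_num)
    (by norm_num) (by norm_num) (by rw [h]) (by norm_num)
    (fun n hn hn23 => (by decide +kernel : ∀ m ∈ Nat.divisors 264, m % 23 = 1 → m = 1 ∨ m = 24) n
      (Nat.mem_divisors.mpr ⟨hn, by norm_num⟩) hn23)
  obtain ⟨e'⟩ := Cfsg.Lib.Classical.PSLSeven.psl_congr 2 (ZMod.ringEquivOfPrime F (by norm_num) hF)
  exact ⟨e.trans e'⟩

end Cfsg.Agent.S0982
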