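import Cfsg.Statements.S1009
import Mathlib.GroupTheory.Sylow
import Mathlib.Tactic.Group
import Mathlib.Order.Preorder.Finite

set_option autoImplicit false
open Cfsg
open scoped Pointwise

namespace Cfsg.Agent.S1009

/-- Brodkey's Theorem: if a finite group has abelian Sylow p-subgroups, then there are two Sylow p-subgroups whose intersection equals the intersection of all Sylow p-subgroups. -/
theorem result {G : Type*} [Group G] [Finite G] (p : ℕ) [Fact p.Prime] (hab : ∀ P : Sylow p G, IsMulCommutative ↥(P : Subgroup G)) : ∃ P Q : Sylow p G, (P : Subgroup G) ⊓ (Q : Subgroup G) = ⨅ R : Sylow p G, (R : Subgroup G) := by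
  classical
  obtain ⟨pq, hpq, hmin⟩ := Set.Finite.exists_minimalFor
    (fun pq : Sylow p G × Sylow p G => (pq.1 : Subgroup G) ⊓ (pq.2 : Subgroup G)) Set.univ Set.finite_univ
    Set.univ_nonempty
  obtain ⟨P, Q⟩ := pq
  refine ⟨P, Q, le_antisymm (le_iInf fun R => ?_) (le_inf (iInf_le _ P) (iInf_le _ Q))⟩
  set D := (P : Subgroup G) ⊓ (Q : Subgroup G)
  set C := Subgroup.centralizer (D : Set G)
  have hPC : (P : Subgroup G) ≤ C := fun x hx => Subgroup.mem_centralizer_iff.mpr fun y hy => by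
    haveI := hab P
    exact congrArg Subtype.val (mul_comm' (⟨y, hy.1⟩ : (P : Subgroup G)) ⟨x, hx⟩)
  have hQC : (Q : Subgroup G) ≤ C := fun x hx => Subgroup.mem_centralizer_iff.mpr fun y hy => by
    haveI := hab Q
    exact congrArg Subtype.val (mul_comm' (⟨y, hy.2⟩ : (Q : Subgroup G)) ⟨x, hx⟩)
  obtain ⟨S, hS⟩ := (R.isPGroup'.comap_of_injective C.subtype Subtype.val_injective).exists_le_sylow
  obtain ⟨c, hc⟩ := MulAction.exists_smul_eq C (P.subtype hPC) S
  set Q' : Sylow p G := (c : G) • Q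
  have hkey : (R : Subgroup G) ⊓ (Q' : Subgroup G) ≤ D := by
    rintro x ⟨hxR, hxQ⟩
    have hxQ' : (c : G)⁻¹ * x * c ∈ (Q : Subgroup G) := by
      have : x ∈ MulAut.conj (c : G) • (Q : Subgroup G) := hxQ
      simpa [Subgroup.mem_pointwise_smul_iff_inv_smul_mem, MulAut.conj_apply, mul_assoc] using this
    have hxC : x ∈ C := by
      have h1 := C.mul_mem (C.mul_mem c.2 (hQC hxQ')) (C.inv_mem c.2)
      rwa [show (c : G) * ((c : G)⁻¹ * x * c) * (c : G)⁻¹ = x by group] at h1
    have hxS : (⟨x, hxC⟩ : C) ∈ (S : Subgroup C) := hS hxR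
    rw [← hc] at hxS
    have hxP : (c : G)⁻¹ * x * c ∈ (P : Subgroup G) := by
      have : (⟨x, hxC⟩ : C) ∈ MulAut.conj c • (P.subtype hPC : Subgroup C) := hxS
      rw [Subgroup.mem_pointwise_smul_iff_inv_smul_mem] at this
      simpa [MulAut.conj_apply, mul_assoc, Subgroup.mem_subgroupOf] using this
    have hD : (c : G)⁻¹ * x * c ∈ D := ⟨hxP, hxQ'⟩
    have hcomm := Subgroup.mem_centralizer_iff.mp c.2 _ hD
    have : x = (c : G)⁻¹ * x * c := by
      apply mul_left_cancel (a := (c : G)⁻¹)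
      apply mul_right_cancel (b := (c : G))
      calc (c : G)⁻¹ * x * c = (c : G)⁻¹ * ((c : G) * ((c : G)⁻¹ * x * c)) := by group
        _ = (c : G)⁻¹ * (((c : G)⁻¹ * x * c) * c) := by rw [← hcomm]
        _ = (c : G)⁻¹ * ((c : G)⁻¹ * x * c) * c := by group
    rw [this]; exact hD
  exact le_trans (hmin (j := (R, Q')) (Set.mem_univ _) hkey) inf_le_left

end Cfsg.Agent.S1009
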