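import Cfsg.Statements.S1150
import Cfsg.Agent.Lib.Tw.G2
-- import your own Cfsg.Agent.* helpers here

set_option autoImplicit false
open Cfsg

namespace Cfsg.Agent.S1150

section helper

open Cfsg.Lie Cfsg.Lib.Tw.G2

theorem isCyclic_H {K : Type*} [Field K] [Fintype K] {m : ℕ} (hK : Fintype.card K = 3 ^ (2 * m + 1)) :
    IsCyclic ↥(chevG2.diagonalSubgroup K ⊓ twistedG2 K (3 ^ m)) := by
  obtain ⟨T⟩ := exists_setup hK
  rw [show twistedG2 K (3 ^ m) = (T.full hK).toParts.G1 from rfl, ← (T.full hK).toParts.fix_eq,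
    T.S.H_fix_eq T.obs]
  let ψ : Kˣ →* ↥T.S.fixT :=
    { toFun := fun x => ⟨fun i => if i = n1 then x else Units.map T.g.toRingHom.toMonoidHom x,
        (T.mem_fixT hK).2 (by simp [n0, n1])⟩
      map_one' := Subtype.ext (funext fun i => by simp)
      map_mul' := fun x y => Subtype.ext (funext fun i => by simp; split_ifs <;> simp) }
  have hψ : Function.Surjective ψ := fun c => ⟨c.1 n1, by
    have a := (T.mem_fixT hK).1 c.2
    refine Subtype.ext (funext fun i => Units.ext ?_)
    rcases node_cases i with rfl | rfl <;> simp [ψ, n0, n1]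
    exact a.symm⟩
  have : IsCyclic ↥T.S.fixT := isCyclic_of_surjective ψ hψ
  exact isCyclic_of_surjective _ (MonoidHom.subgroupMap_surjective _ T.S.fixT)

end helper


/-- In the small Ree group ²G₂(q), q = 3^(2m+1), realised as G¹ inside the Chevalley group G₂ over the field with q elements (θ the 3^m-th power map), with H¹ = G¹ ∩ H and U¹ = G¹ ∩ U the intersections with the ambient diagonal and positive unipotent subgroups: `H¹` is cyclic. -/
theorem result {K : Type*} [Field K] [Fintype K] {m : ℕ} (hK : Fintype.card K = 3 ^ (2 * m + 1)) :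
    IsCyclic ↥(Cfsg.Lie.chevG2.diagonalSubgroup K ⊓ Cfsg.Lie.twistedG2 K (3 ^ m)) := by
  exact isCyclic_H hK

end Cfsg.Agent.S1150
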