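import Cfsg.Statements.S1151
import Cfsg.Agent.S1150
import Cfsg.Agent.S1114
-- import your own Cfsg.Agent.* helpers here

set_option autoImplicit false
open Cfsg

namespace Cfsg.Agent.S1151

section helper

open Cfsg.Lie Cfsg.Lib.Tw Cfsg.Lib.Tw.G2 Cfsg.Lib.Chev

theorem card_odd {K : Type*} [Field K] [Fintype K] {m : ℕ} (hK : Fintype.card K = 3 ^ (2 * m + 1)) :
    2 * Nat.card {h : ↥(chevG2.diagonalSubgroup K ⊓ twistedG2 K (3 ^ m)) // Odd (orderOf h)} =
      3 ^ (2 * m + 1) - 1 := by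
  have hcard := Cfsg.Agent.S1114.result hK
  have := Cfsg.Agent.S1150.result hK
  generalize hH : chevG2.diagonalSubgroup K ⊓ twistedG2 K (3 ^ m) = H at *
  have hpos : 0 < Nat.card H := Nat.card_pos_iff.2 ⟨⟨1⟩, by
    subst hH
    infer_instance⟩
  have : Finite H := Nat.finite_of_card_ne_zero hpos.ne'
  let _ : CommGroup H := IsCyclic.commGroup
  have h4 : 3 ^ (2 * m + 1) % 4 = 3 := by
    rw [pow_succ, pow_mul, Nat.mul_mod, Nat.pow_mod]; norm_num
  set n := (3 ^ (2 * m + 1) - 1) / 2 with hn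
  have hn2 : Nat.card H = 2 * n := by omega
  have hno : Odd n := Nat.odd_iff.2 (by omega)
  have he : ∀ x : H, Odd (orderOf x) ↔ x ∈ (powMonoidHom n : H →* H).ker := by
    intro x
    rw [MonoidHom.mem_ker, powMonoidHom_apply]
    constructor
    · intro hx
      refine orderOf_dvd_iff_pow_eq_one.1 ?_
      exact (Nat.Coprime.dvd_of_dvd_mul_left ((Nat.coprime_two_right).2 hx) (hn2 ▸ orderOf_dvd_natCard x))
    · intro hx
      exact hno.of_dvd_nat (orderOf_dvd_of_pow_eq_one hx)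
  rw [Nat.card_congr (Equiv.subtypeEquivRight he), IsCyclic.card_powMonoidHom_ker, hn2, Nat.gcd_mul_left_left]
  omega

theorem centralizer_eq_bot {K : Type*} [Field K] [Fintype K] {m : ℕ} (hK : Fintype.card K = 3 ^ (2 * m + 1))
    {h : GL chevG2.Idx K} (hh : h ∈ chevG2.diagonalSubgroup K ⊓ twistedG2 K (3 ^ m)) (h1 : h ≠ 1)
    (hodd : Odd (orderOf h)) :
    (chevG2.posUnipotent K ⊓ twistedG2 K (3 ^ m)) ⊓ Subgroup.centralizer {h} = ⊥ := by
  obtain ⟨T⟩ := exists_setup hK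
  rw [show twistedG2 K (3 ^ m) = (T.full hK).toParts.G1 from rfl, ← (T.full hK).toParts.fix_eq,
    T.S.H_fix_eq T.obs] at hh
  obtain ⟨c, hc, rfl⟩ := hh
  have hc0 : (c n0 : K) = T.g (c n1 : K) := (T.mem_fixT hK).1 hc
  have hpow : c ^ orderOf (torusFin chevG2 auxG2 K c) = 1 := by
    rw [← Subgroup.mem_bot, ← Setup.ker_bot (K := K), MonoidHom.mem_ker, map_pow, pow_orderOf_eq_one]
  set y : K := (c n1 : K) with hy
  have hy0 : y ≠ 0 := (c n1).ne_zero
  have hy1 : y ≠ 1 := by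
    intro e
    refine h1 ?_
    have : c = 1 := funext fun i => Units.ext (by
      rcases node_cases i with rfl | rfl
      · simpa [e] using hc0
      · simpa [hy] using e)
    rw [this, map_one]
  have hyo : ∀ k : ℕ, y ^ k = 1 → ¬ k ∣ 2 := by
    intro k hk hk2
    have ho : orderOf (c n1) ∣ orderOf (torusFin chevG2 auxG2 K c) :=
      orderOf_dvd_of_pow_eq_one (congrFun hpow n1)
    have h2 : orderOf (c n1) ∣ 2 :=
      (orderOf_dvd_of_pow_eq_one (Units.ext (by simpa [hy] using hk))).trans hk2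
    have := Nat.eq_one_of_dvd_coprimes ((Nat.coprime_two_right).2 hodd) ho h2
    exact hy1 (by rw [hy, orderOf_eq_one_iff.1 this]; rfl)
  have hff : T.f (T.f y) = y ^ 3 := by
    have h9 := FiniteField.pow_card (y ^ 3)
    rw [hK] at h9
    rw [T.fval, T.fval, ← pow_mul]
    conv_rhs => rw [← h9]
    rw [← pow_mul]
    congr 1
    ring
  have hg3 : T.g y ^ 3 = T.f y := T.gcube y
  have hv : ∀ r, (tchar auxG2 c r : K) = T.g y ^ auxG2.cA n0 r * y ^ auxG2.cA n1 r := by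
    intro r
    rw [tchar, show (∏ k : Fin chevG2.rank, c k ^ auxG2.cA k r) = c n0 ^ auxG2.cA n0 r * c n1 ^ auxG2.cA n1 r
      from Fin.prod_univ_two fun k : Fin 2 => c k ^ auxG2.cA k r]
    simp [hc0, hy]
  have hA : auxG2.cA n0 6 = -3 ∧ auxG2.cA n1 6 = 2 ∧ auxG2.cA n0 10 = 3 ∧ auxG2.cA n1 10 = -1 ∧
      auxG2.cA n0 11 = 0 ∧ auxG2.cA n1 11 = 1 := by decide +kernel
  have hg0 : T.g y ≠ 0 := (map_ne_zero T.g).2 hy0
  have h6 : (tchar auxG2 c 6 : K) ≠ 1 := by
    rw [hv, hA.1, hA.2.1, zpow_neg, show (3 : ℤ) = ((3 : ℕ) : ℤ) from rfl, zpow_natCast, hg3,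
      show (2 : ℤ) = ((2 : ℕ) : ℤ) from rfl, zpow_natCast]
    intro e
    have hf : T.f y = y ^ 2 := (inv_mul_eq_one₀ ((map_ne_zero T.f).2 hy0)).1 e
    rw [hf, map_pow, hf, ← pow_mul] at hff
    exact hy1 (mul_left_cancel₀ (pow_ne_zero 3 hy0) (by linear_combination hff))
  have h10 : (tchar auxG2 c 10 : K) ≠ 1 := by
    rw [hv, hA.2.2.1, hA.2.2.2.1, zpow_neg_one, show (3 : ℤ) = ((3 : ℕ) : ℤ) from rfl, zpow_natCast, hg3]
    intro e
    have hf : T.f y = y := (mul_inv_eq_one₀ hy0).1 e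
    rw [hf, hf] at hff
    exact hyo 2 (mul_left_cancel₀ hy0 (by linear_combination -hff)) dvd_rfl
  have h11 : (tchar auxG2 c 11 : K) ≠ 1 := by
    rw [hv, hA.2.2.2.2.1, hA.2.2.2.2.2, zpow_zero, zpow_one, one_mul]
    exact hy1
  rw [T.U_eq hK, eq_bot_iff]
  rintro x ⟨hx, hxc⟩
  obtain ⟨t, u, v, rfl⟩ := (T.fixU_eq hK x).1 hx
  have e := T.conj_word hK hc true t u v
  rw [← Subgroup.mem_centralizer_singleton_iff.1 hxc, mul_inv_cancel_right] at e
  obtain ⟨-, et, -, -, eu, ev⟩ := T.W_inj hK _ _ _ _ _ _ _ _ _ _ _ _ e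
  have key : ∀ {χ w : K}, χ ≠ 1 → w = χ * w → w = 0 := fun {χ w} hχ ew => by
    rcases mul_eq_zero.1 (show (χ - 1) * w = 0 by linear_combination -ew) with h | h
    · exact absurd (sub_eq_zero.1 h) hχ
    · exact h
  obtain rfl := key h6 et
  obtain rfl := key h10 eu
  obtain rfl := key h11 ev
  rw [Subgroup.mem_bot]
  simp [G2Data.word, Setup.g2, G2Data.W, G2Data.Q, X_zero]

end helper


/-- In the small Ree group ²G₂(q), q = 3^(2m+1), realised as G¹ inside the Chevalley group G₂ over the field with q elements (θ the 3^m-th power map), with H¹ = G¹ ∩ H and U¹ = G¹ ∩ U the intersections with the ambient diagonal and positive unipotent subgroups: `H¹` has exactly `(q - 1)/2` elements of odd order, and each non-identity one centralises no non-identity element of `U¹`. -/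
theorem result {K : Type*} [Field K] [Fintype K] {m : ℕ} (hK : Fintype.card K = 3 ^ (2 * m + 1)) :
    2 * Nat.card {h : ↥(Cfsg.Lie.chevG2.diagonalSubgroup K ⊓ Cfsg.Lie.twistedG2 K (3 ^ m)) // Odd (orderOf h)} = 3 ^ (2 * m + 1) - 1 ∧
      ∀ h ∈ (Cfsg.Lie.chevG2.diagonalSubgroup K ⊓ Cfsg.Lie.twistedG2 K (3 ^ m)), h ≠ 1 → Odd (orderOf h) →
        (Cfsg.Lie.chevG2.posUnipotent K ⊓ Cfsg.Lie.twistedG2 K (3 ^ m)) ⊓ Subgroup.centralizer {h} = ⊥ := by
  refine ⟨card_odd hK, fun h hh h1 hodd => ?_⟩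
  exact centralizer_eq_bot hK hh h1 hodd

end Cfsg.Agent.S1151
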