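import Cfsg.Statements.S1153
import Cfsg.Agent.S1150
import Cfsg.Agent.S1151
import Cfsg.Agent.S1114
-- import your own Cfsg.Agent.* helpers here

set_option autoImplicit false
open Cfsg

namespace Cfsg.Agent.S1153

section helper

open Cfsg.Lie Cfsg.Lib.Tw Cfsg.Lib.Tw.G2 Cfsg.Lib.Chev MulAction

set_option maxHeartbeats 1000000 in
theorem three_points {K : Type*} [Field K] [Fintype K] {m : ℕ} (hK : Fintype.card K = 3 ^ (2 * m + 1)) :
    (∀ x y z : ↥(twistedG2 K (3 ^ m)) ⧸ ((chevG2.borelSubgroup K ⊓ twistedG2 K (3 ^ m))).subgroupOf (twistedG2 K (3 ^ m)), x ≠ y → x ≠ z → y ≠ z →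
        Nat.card ↥(stabilizer ↥(twistedG2 K (3 ^ m)) x ⊓ stabilizer ↥(twistedG2 K (3 ^ m)) y ⊓ stabilizer ↥(twistedG2 K (3 ^ m)) z) ≤ 2) ∧
      ∃ x y z : ↥(twistedG2 K (3 ^ m)) ⧸ ((chevG2.borelSubgroup K ⊓ twistedG2 K (3 ^ m))).subgroupOf (twistedG2 K (3 ^ m)), x ≠ y ∧ x ≠ z ∧ y ≠ z ∧
        Nat.card ↥(stabilizer ↥(twistedG2 K (3 ^ m)) x ⊓ stabilizer ↥(twistedG2 K (3 ^ m)) y ⊓ stabilizer ↥(twistedG2 K (3 ^ m)) z) = 2 := by
  classical
  obtain ⟨T⟩ := exists_setup hK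
  set P := (T.full hK).toParts with hP
  set n := P.nJ T.J0 with hn
  have hnG : n ∈ twistedG2 K (3 ^ m) := P.nJ_mem T.J0
  have hnN : n ∈ chevG2.monomialSubgroup K := P.nJ_mon T.J0
  have hact : Acts chevG2 auxG2 n (T.O.piJ T.J0) := P.nJ_acts T.J0
  have hUw : Uw chevG2 auxG2 K (T.O.piJ T.J0) = chevG2.posUnipotent K := Uw_w0 T.w0 certG2
  have hnn : n * n ∈ chevG2.diagonalSubgroup K :=
    mem_H_of_acts_one certG2 (mul_mem hnN hnN) (by
      have := hact.mul hact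
      rwa [(T.full hK).sq_piJ T.J0] at this)
  have hBVone : ∀ y, y ∈ chevG2.borelSubgroup K → y ∈ chevG2.negUnipotent K → y = 1 := by
    intro y h1 h2
    have : y ∈ chevG2.borelSubgroup K ⊓ chevG2.negUnipotent K := Subgroup.mem_inf.2 ⟨h1, h2⟩
    rwa [B_inf_V certG2, Subgroup.mem_bot] at this
  have hflip : ∀ v ∈ chevG2.posUnipotent K, n * v * n⁻¹ ∈ chevG2.borelSubgroup K → v = 1 := by
    intro v hv hB
    have h1 := hBVone _ hB (hact.conj_Uw certG2 (by rw [hUw]; exact hv))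
    exact conj_eq_one_iff.1 h1
  have hnH : ∀ t ∈ chevG2.diagonalSubgroup K, n * t * n⁻¹ ∈ chevG2.diagonalSubgroup K :=
    fun t ht => N_normalizes_H certG2 hnN ht
  have hA : ∀ g ∈ chevG2.borelSubgroup K, n * g * n⁻¹ ∈ chevG2.borelSubgroup K → g ∈ chevG2.diagonalSubgroup K := by
    intro g hg hg'
    obtain ⟨v, hv, t, ht, rfl⟩ := (mem_B_iff certG2).1 hg
    rw [show n * (v * t) * n⁻¹ = (n * v * n⁻¹) * (n * t * n⁻¹) by group] at hg'
    rw [hflip v hv (((chevG2.borelSubgroup K).mul_mem_cancel_right (H_le_B (hnH t ht))).1 hg'), one_mul]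
    exact ht
  have hninv : n⁻¹ ∉ chevG2.borelSubgroup K := by
    intro h
    have hH : n ∈ chevG2.diagonalSubgroup K := by
      rw [← B_inf_N certG2]
      exact Subgroup.mem_inf.2 ⟨by simpa using (chevG2.borelSubgroup K).inv_mem h, hnN⟩
    have h1 : T.O.piJ T.J0 = 1 := hact.unique certG2 (acts_H certG2 hH)
    have h2 := T.w0 ⟨6, by decide +kernel⟩
    rw [h1] at h2
    exact absurd h2 (by decide +kernel)
  set B1 := (chevG2.borelSubgroup K ⊓ twistedG2 K (3 ^ m)).subgroupOf (twistedG2 K (3 ^ m)) with hB1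
  have hmk : ∀ g h : ↥(twistedG2 K (3 ^ m)), ((g : ↥(twistedG2 K (3 ^ m)) ⧸ B1) = (h : ↥(twistedG2 K (3 ^ m)) ⧸ B1)) ↔
      (g : GL chevG2.Idx K)⁻¹ * h ∈ chevG2.borelSubgroup K := by
    intro g h
    rw [QuotientGroup.eq, hB1, Subgroup.mem_subgroupOf, Subgroup.mem_inf]
    exact ⟨fun e => e.1, fun e => ⟨e, (g⁻¹ * h : ↥(twistedG2 K (3 ^ m))).2⟩⟩
  -- every coset but the base one
  have hC : ∀ g : ↥(twistedG2 K (3 ^ m)), (g : GL chevG2.Idx K) ∉ chevG2.borelSubgroup K →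
      ∃ v ∈ chevG2.posUnipotent K ⊓ twistedG2 K (3 ^ m),
        (g : GL chevG2.Idx K)⁻¹ * (v * n⁻¹) ∈ chevG2.borelSubgroup K := by
    intro g hg
    obtain ⟨π, hπ, hform⟩ := P.fixed_form (P.le_fix g.2)
    have hcase : π = 1 ∨ π = T.O.piJ T.J0 := by
      refine T.O.induction_W1 (P := fun π => π = 1 ∨ π = T.O.piJ T.J0) (Or.inl rfl) ?_ π hπ
      intro π _ J _ _ ih
      rw [T.J_eq J] at ih
      rcases ih with ih | ih
      · exact Or.inr (mul_inv_eq_one.1 ih)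
      · refine Or.inl ?_
        rw [mul_inv_eq_iff_eq_mul.1 ih, (T.full hK).sq_piJ]
    rcases hcase with rfl | rfl
    · obtain ⟨k, hk, hkN, hkact⟩ := P.exists_rep hπ
      obtain ⟨b, hb, u, hu, e⟩ := hform k hk hkN hkact
      exact absurd (e ▸ mul_mem (mul_mem hb.1 (H_le_B (mem_H_of_acts_one certG2 hkN hkact)))
        (U_le_B (Uw_le_U certG2 hu.1))) hg
    obtain ⟨b, hb, u, hu, e⟩ := hform n hnG hnN hact
    obtain ⟨v, hv, t, ht, rfl⟩ := fixed_B_split hb.1 hb.2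
    refine ⟨v, Subgroup.mem_inf.2 ⟨hv.1, P.U_le hv⟩, ?_⟩
    rw [e, show (v * t * n * u)⁻¹ * (v * n⁻¹) = u⁻¹ * ((n * n)⁻¹ * (n * t⁻¹ * n⁻¹)) by group]
    exact mul_mem (inv_mem (U_le_B (Uw_le_U certG2 hu.1)))
      (H_le_B (mul_mem (inv_mem hnn) (hnH _ (inv_mem ht.1))))
  have hcyc := Cfsg.Agent.S1150.result hK
  -- the bound, in standard position
  have hbound : ∀ w : ↥(twistedG2 K (3 ^ m)), (w : GL chevG2.Idx K) ∈ chevG2.posUnipotent K → w ≠ 1 →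
      Nat.card ↥(stabilizer ↥(twistedG2 K (3 ^ m)) ((1 : ↥(twistedG2 K (3 ^ m))) : ↥(twistedG2 K (3 ^ m)) ⧸ B1) ⊓ stabilizer ↥(twistedG2 K (3 ^ m)) (((⟨n, hnG⟩ : ↥(twistedG2 K (3 ^ m)))⁻¹ : ↥(twistedG2 K (3 ^ m))) : ↥(twistedG2 K (3 ^ m)) ⧸ B1) ⊓
        stabilizer ↥(twistedG2 K (3 ^ m)) ((w * (⟨n, hnG⟩ : ↥(twistedG2 K (3 ^ m)))⁻¹ : ↥(twistedG2 K (3 ^ m))) : ↥(twistedG2 K (3 ^ m)) ⧸ B1)) ≤ 2 := by
    intro w hw hw1
    set St := stabilizer ↥(twistedG2 K (3 ^ m)) ((1 : ↥(twistedG2 K (3 ^ m))) : ↥(twistedG2 K (3 ^ m)) ⧸ B1) ⊓ stabilizer ↥(twistedG2 K (3 ^ m)) (((⟨n, hnG⟩ : ↥(twistedG2 K (3 ^ m)))⁻¹ : ↥(twistedG2 K (3 ^ m))) : ↥(twistedG2 K (3 ^ m)) ⧸ B1) ⊓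
        stabilizer ↥(twistedG2 K (3 ^ m)) ((w * (⟨n, hnG⟩ : ↥(twistedG2 K (3 ^ m)))⁻¹ : ↥(twistedG2 K (3 ^ m))) : ↥(twistedG2 K (3 ^ m)) ⧸ B1)
    have hmem : ∀ h : ↥(twistedG2 K (3 ^ m)), h ∈ St →
        (h : GL chevG2.Idx K) ∈ chevG2.diagonalSubgroup K ⊓ twistedG2 K (3 ^ m) ∧
        (h : GL chevG2.Idx K) * (h : GL chevG2.Idx K) = 1 := by
      intro h hh
      have h1 : (h : GL chevG2.Idx K) ∈ chevG2.borelSubgroup K := by
        have := (hmk 1 (h * 1)).1 (mem_stabilizer_iff.1 hh.1.1).symm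
        simpa using this
      have h2 : n * (h : GL chevG2.Idx K) * n⁻¹ ∈ chevG2.borelSubgroup K := by
        have := (hmk _ (h * (⟨n, hnG⟩ : ↥(twistedG2 K (3 ^ m)))⁻¹)).1 (mem_stabilizer_iff.1 hh.1.2).symm
        simpa [mul_assoc] using this
      have hH := hA _ h1 h2
      refine ⟨Subgroup.mem_inf.2 ⟨hH, h.2⟩, ?_⟩
      have h3 : n * (w : GL chevG2.Idx K)⁻¹ * h * w * n⁻¹ ∈ chevG2.borelSubgroup K := by
        have := (hmk _ (h * (w * (⟨n, hnG⟩ : ↥(twistedG2 K (3 ^ m)))⁻¹))).1 (mem_stabilizer_iff.1 hh.2).symm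
        simpa [mul_assoc] using this
      have hcomm : (w : GL chevG2.Idx K)⁻¹ * h * w * (h : GL chevG2.Idx K)⁻¹ = 1 := by
        refine hflip _ ?_ ?_
        · rw [show (w : GL chevG2.Idx K)⁻¹ * h * w * (h : GL chevG2.Idx K)⁻¹ =
            (w : GL chevG2.Idx K)⁻¹ * (h * w * (h : GL chevG2.Idx K)⁻¹) by group]
          exact mul_mem (inv_mem hw) (H_normalizes_U certG2 hH hw)
        · rw [show n * ((w : GL chevG2.Idx K)⁻¹ * h * w * (h : GL chevG2.Idx K)⁻¹) * n⁻¹ =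
            (n * (w : GL chevG2.Idx K)⁻¹ * h * w * n⁻¹) * (n * (h : GL chevG2.Idx K)⁻¹ * n⁻¹) by group]
          exact mul_mem h3 (H_le_B (hnH _ (inv_mem hH)))
      by_contra hne
      have hodd : Odd (orderOf ((h : GL chevG2.Idx K) * h)) := by
        have hc := Cfsg.Agent.S1114.result hK
        have hd := orderOf_dvd_natCard (⟨(h : GL chevG2.Idx K), Subgroup.mem_inf.2 ⟨hH, h.2⟩⟩ :
          ↥(chevG2.diagonalSubgroup K ⊓ twistedG2 K (3 ^ m)))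
        rw [hc, ← Subgroup.orderOf_coe] at hd
        have h4 : 3 ^ (2 * m + 1) % 4 = 3 := by
          rw [pow_succ, pow_mul, Nat.mul_mod, Nat.pow_mod]; norm_num
        refine Odd.of_dvd_nat (n := (3 ^ (2 * m + 1) - 1) / 2) (Nat.odd_iff.2 (by omega)) ?_
        rw [orderOf_dvd_iff_pow_eq_one, ← pow_two, ← pow_mul, ← orderOf_dvd_iff_pow_eq_one]
        refine hd.trans (dvd_of_eq ?_)
        omega
      have hHH : (h : GL chevG2.Idx K) * h ∈ chevG2.diagonalSubgroup K ⊓ twistedG2 K (3 ^ m) :=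
        Subgroup.mem_inf.2 ⟨mul_mem hH hH, mul_mem h.2 h.2⟩
      have hbot := (Cfsg.Agent.S1151.result hK).2 _ hHH hne hodd
      have hcm : (h : GL chevG2.Idx K) * w = w * h := by
        rw [mul_inv_eq_one] at hcomm
        calc (h : GL chevG2.Idx K) * w = w * ((w : GL chevG2.Idx K)⁻¹ * h * w) := by group
          _ = _ := by rw [hcomm]
      have hwc : (w : GL chevG2.Idx K) ∈ (chevG2.posUnipotent K ⊓ twistedG2 K (3 ^ m)) ⊓
          Subgroup.centralizer {(h : GL chevG2.Idx K) * h} :=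
        Subgroup.mem_inf.2 ⟨Subgroup.mem_inf.2 ⟨hw, w.2⟩, Subgroup.mem_centralizer_singleton_iff.2 (by
          rw [← mul_assoc, ← hcm, mul_assoc, ← hcm, mul_assoc])⟩
      rw [hbot, Subgroup.mem_bot] at hwc
      exact hw1 (Subtype.ext hwc)
    have := Fintype.ofFinite ↥(chevG2.diagonalSubgroup K ⊓ twistedG2 K (3 ^ m))
    refine le_trans (Nat.card_le_card_of_injective
      (fun h : St => (⟨⟨((h : ↥(twistedG2 K (3 ^ m))) : GL chevG2.Idx K), (hmem h h.2).1⟩, by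
        refine Subtype.ext ?_
        show ((h : ↥(twistedG2 K (3 ^ m))) : GL chevG2.Idx K) ^ 2 = 1
        rw [pow_two]; exact (hmem h h.2).2⟩ :
        {x : ↥(chevG2.diagonalSubgroup K ⊓ twistedG2 K (3 ^ m)) // x ^ 2 = 1}))
      (fun a b e => Subtype.ext (Subtype.ext (congrArg (fun x => ((Subtype.val x : ↥(chevG2.diagonalSubgroup K ⊓ twistedG2 K (3 ^ m))) : GL chevG2.Idx K)) e)))) ?_
    rw [Nat.card_eq_fintype_card, Fintype.card_subtype]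
    exact IsCyclic.card_pow_eq_one_le two_pos
  constructor
  · intro x y z hxy hxz hyz
    obtain ⟨g0, rfl⟩ := QuotientGroup.mk_surjective x
    obtain ⟨g1, rfl⟩ := QuotientGroup.mk_surjective y
    obtain ⟨g2, rfl⟩ := QuotientGroup.mk_surjective z
    have h1 : ((g0⁻¹ * g1 : ↥(twistedG2 K (3 ^ m))) : GL chevG2.Idx K) ∉ chevG2.borelSubgroup K := fun e => hxy ((hmk _ _).2 (by simpa using e))
    obtain ⟨v, hv, e1⟩ := hC _ h1
    set v' : ↥(twistedG2 K (3 ^ m)) := ⟨v, hv.2⟩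
    set k : ↥(twistedG2 K (3 ^ m)) := v'⁻¹ * g0⁻¹ with hk
    have ex : k • (g0 : ↥(twistedG2 K (3 ^ m)) ⧸ B1) = ((1 : ↥(twistedG2 K (3 ^ m))) : ↥(twistedG2 K (3 ^ m)) ⧸ B1) := (hmk _ _).2 (by
      simpa [hk, v', mul_assoc] using U_le_B hv.1)
    have ey : k • (g1 : ↥(twistedG2 K (3 ^ m)) ⧸ B1) = (((⟨n, hnG⟩ : ↥(twistedG2 K (3 ^ m)))⁻¹ : ↥(twistedG2 K (3 ^ m))) : ↥(twistedG2 K (3 ^ m)) ⧸ B1) := (hmk _ _).2 (by
      simpa [hk, v', mul_assoc] using e1)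
    have h2 : ((k * g2 : ↥(twistedG2 K (3 ^ m))) : GL chevG2.Idx K) ∉ chevG2.borelSubgroup K := fun e => hxz (by
      refine MulAction.injective k (ex.trans ?_)
      exact (hmk _ _).2 (by simpa using e))
    obtain ⟨w, hw, e2⟩ := hC _ h2
    set w' : ↥(twistedG2 K (3 ^ m)) := ⟨w, hw.2⟩
    have ez : k • (g2 : ↥(twistedG2 K (3 ^ m)) ⧸ B1) = ((w' * (⟨n, hnG⟩ : ↥(twistedG2 K (3 ^ m)))⁻¹ : ↥(twistedG2 K (3 ^ m))) : ↥(twistedG2 K (3 ^ m)) ⧸ B1) := (hmk _ _).2 (by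
      simpa [w'] using e2)
    have hw1 : w' ≠ 1 := fun e => hyz (MulAction.injective k (by dsimp only; rw [ey, ez, e, one_mul]))
    refine le_of_eq_of_le ?_ (hbound w' hw.1 hw1)
    rw [← ex, ← ey, ← ez, stabilizer_smul_eq_stabilizer_map_conj, stabilizer_smul_eq_stabilizer_map_conj,
      stabilizer_smul_eq_stabilizer_map_conj, ← Subgroup.map_inf_eq _ _ _ (MulEquiv.injective _),
      ← Subgroup.map_inf_eq _ _ _ (MulEquiv.injective _), Subgroup.card_map_of_injective (MulEquiv.injective _)]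
  · let c : Fin chevG2.rank → Kˣ := fun _ => -1
    have hc : c ∈ T.S.fixT := (T.mem_fixT hK).2 (by simp [c])
    set w : GL chevG2.Idx K := (T.g2 hK true).word 0 1 0 with hwdef
    have hwU : w ∈ chevG2.posUnipotent K ⊓ twistedG2 K (3 ^ m) := by
      rw [T.U_eq hK]; exact (T.fixU_eq hK _).2 ⟨_, _, _, rfl⟩
    have hw1 : w ≠ 1 := by
      intro e
      rw [← T.W_zero hK true] at e
      obtain ⟨-, -, -, -, eu, -⟩ := T.W_inj hK _ _ _ _ _ _ _ _ _ _ _ _ e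
      exact one_ne_zero eu
    set h0 := torusFin chevG2 auxG2 K c with hh0
    have hh : h0 ∈ chevG2.diagonalSubgroup K ⊓ twistedG2 K (3 ^ m) := by
      rw [show twistedG2 K (3 ^ m) = P.G1 from rfl, ← P.fix_eq, T.S.H_fix_eq T.obs]
      exact ⟨c, hc, rfl⟩
    have hh1 : h0 ≠ 1 := by
      intro e
      have : c ∈ (torusFin chevG2 auxG2 K).ker := e
      rw [Setup.ker_bot, Subgroup.mem_bot] at this
      have h2 : ((c n0 : Kˣ) : K) = 1 := by rw [this]; rfl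
      simp only [c, Units.val_neg, Units.val_one] at h2
      exact two_ne_zero' hK (by linear_combination -h2)
    have hchi : (tchar auxG2 c 10 : K) = 1 := by
      rw [tchar, show (∏ k : Fin chevG2.rank, c k ^ auxG2.cA k 10) = c n0 ^ auxG2.cA n0 10 * c n1 ^ auxG2.cA n1 10
        from Fin.prod_univ_two fun k : Fin 2 => c k ^ auxG2.cA k 10,
        show auxG2.cA n0 10 = 3 by decide +kernel, show auxG2.cA n1 10 = -1 by decide +kernel]
      show (((-1 : Kˣ) ^ (3 : ℤ) * (-1) ^ (-1 : ℤ) : Kˣ) : K) = 1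
      rw [zpow_neg_one, inv_neg, inv_one, show (3 : ℤ) = ((3 : ℕ) : ℤ) from rfl, zpow_natCast,
        Odd.neg_one_pow (by decide), neg_mul_neg, one_mul, Units.val_one]
    have hcm : h0 * w = w * h0 := by
      have e := T.conj_word hK hc true 0 1 0
      rw [mul_zero, mul_zero, mul_one, show rootG true 4 = 10 from rfl, hchi] at e
      exact mul_inv_eq_iff_eq_mul.1 e
    let N' : ↥(twistedG2 K (3 ^ m)) := ⟨n, hnG⟩
    let W' : ↥(twistedG2 K (3 ^ m)) := ⟨w, hwU.2⟩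
    let H' : ↥(twistedG2 K (3 ^ m)) := ⟨h0, hh.2⟩
    refine ⟨((1 : ↥(twistedG2 K (3 ^ m))) : ↥(twistedG2 K (3 ^ m)) ⧸ B1), ((N'⁻¹ : ↥(twistedG2 K (3 ^ m))) : ↥(twistedG2 K (3 ^ m)) ⧸ B1), ((W' * N'⁻¹ : ↥(twistedG2 K (3 ^ m))) : ↥(twistedG2 K (3 ^ m)) ⧸ B1), ?_, ?_, ?_, ?_⟩
    · intro e; exact hninv (by simpa [N'] using (hmk _ _).1 e)
    · intro e
      have h := (hmk _ _).1 e
      simp only [N', W', OneMemClass.coe_one, inv_one, one_mul, Subgroup.coe_mul, InvMemClass.coe_inv] at h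
      exact hninv ((chevG2.borelSubgroup K).mul_mem_cancel_left (U_le_B hwU.1) |>.1 h)
    · intro e
      have h := (hmk _ _).1 e
      simp only [N', W', inv_inv, Subgroup.coe_mul, InvMemClass.coe_inv, ← mul_assoc] at h
      exact hw1 (hflip _ hwU.1 h)
    · refine le_antisymm (hbound W' hwU.1 (fun e => hw1 (congrArg Subtype.val e))) ?_
      have hH' : H' ∈ stabilizer ↥(twistedG2 K (3 ^ m)) ((1 : ↥(twistedG2 K (3 ^ m))) : ↥(twistedG2 K (3 ^ m)) ⧸ B1) ⊓ stabilizer ↥(twistedG2 K (3 ^ m)) ((N'⁻¹ : ↥(twistedG2 K (3 ^ m))) : ↥(twistedG2 K (3 ^ m)) ⧸ B1) ⊓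
          stabilizer ↥(twistedG2 K (3 ^ m)) ((W' * N'⁻¹ : ↥(twistedG2 K (3 ^ m))) : ↥(twistedG2 K (3 ^ m)) ⧸ B1) := by
        refine ⟨⟨mem_stabilizer_iff.2 ((hmk (H' * 1) 1).2 ?_), mem_stabilizer_iff.2 ((hmk (H' * N'⁻¹) _).2 ?_)⟩,
          mem_stabilizer_iff.2 ((hmk (H' * (W' * N'⁻¹)) _).2 ?_)⟩
        · simpa [H'] using H_le_B hh.1
        · simp only [H', N', Subgroup.coe_mul, InvMemClass.coe_inv, mul_inv_rev, inv_inv]
          exact H_le_B (hnH _ (inv_mem hh.1))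
        · simp only [H', N', W', Subgroup.coe_mul, InvMemClass.coe_inv]
          rw [show (h0 * (w * n⁻¹))⁻¹ * (w * n⁻¹) = n * ((h0 * w)⁻¹ * w) * n⁻¹ by group, hcm,
            show (w * h0)⁻¹ * w = h0⁻¹ by group]
          exact H_le_B (hnH _ (inv_mem hh.1))
      have hne : (⟨H', hH'⟩ : ↥(stabilizer ↥(twistedG2 K (3 ^ m)) ((1 : ↥(twistedG2 K (3 ^ m))) : ↥(twistedG2 K (3 ^ m)) ⧸ B1) ⊓ stabilizer ↥(twistedG2 K (3 ^ m)) ((N'⁻¹ : ↥(twistedG2 K (3 ^ m))) : ↥(twistedG2 K (3 ^ m)) ⧸ B1) ⊓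
          stabilizer ↥(twistedG2 K (3 ^ m)) ((W' * N'⁻¹ : ↥(twistedG2 K (3 ^ m))) : ↥(twistedG2 K (3 ^ m)) ⧸ B1))) ≠ 1 := fun e => hh1 (congrArg (fun x => ((x.1 : ↥(twistedG2 K (3 ^ m))) : GL chevG2.Idx K)) e)
      have : Nontrivial ↥(stabilizer ↥(twistedG2 K (3 ^ m)) ((1 : ↥(twistedG2 K (3 ^ m))) : ↥(twistedG2 K (3 ^ m)) ⧸ B1) ⊓ stabilizer ↥(twistedG2 K (3 ^ m)) ((N'⁻¹ : ↥(twistedG2 K (3 ^ m))) : ↥(twistedG2 K (3 ^ m)) ⧸ B1) ⊓
          stabilizer ↥(twistedG2 K (3 ^ m)) ((W' * N'⁻¹ : ↥(twistedG2 K (3 ^ m))) : ↥(twistedG2 K (3 ^ m)) ⧸ B1)) := ⟨_, _, hne⟩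
      exact Finite.one_lt_card

end helper


/-- In the small Ree group ²G₂(q), q = 3^(2m+1), realised as G¹ inside the Chevalley group G₂ over the field with q elements, with `B¹ = G¹ ∩ B`: in the action of `G¹` on the cosets of `B¹`, the joint stabiliser of any three distinct cosets has order at most 2, and for some three distinct cosets it has order exactly 2. -/
theorem result {K : Type*} [Field K] [Fintype K] {m : ℕ} (hK : Fintype.card K = 3 ^ (2 * m + 1)) :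
    (∀ x y z : ↥(Cfsg.Lie.twistedG2 K (3 ^ m)) ⧸ ((Cfsg.Lie.chevG2.borelSubgroup K ⊓ Cfsg.Lie.twistedG2 K (3 ^ m))).subgroupOf (Cfsg.Lie.twistedG2 K (3 ^ m)), x ≠ y → x ≠ z → y ≠ z →
        Nat.card ↥(MulAction.stabilizer ↥(Cfsg.Lie.twistedG2 K (3 ^ m)) x ⊓ MulAction.stabilizer ↥(Cfsg.Lie.twistedG2 K (3 ^ m)) y ⊓ MulAction.stabilizer ↥(Cfsg.Lie.twistedG2 K (3 ^ m)) z) ≤ 2) ∧
      ∃ x y z : ↥(Cfsg.Lie.twistedG2 K (3 ^ m)) ⧸ ((Cfsg.Lie.chevG2.borelSubgroup K ⊓ Cfsg.Lie.twistedG2 K (3 ^ m))).subgroupOf (Cfsg.Lie.twistedG2 K (3 ^ m)), x ≠ y ∧ x ≠ z ∧ y ≠ z ∧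
        Nat.card ↥(MulAction.stabilizer ↥(Cfsg.Lie.twistedG2 K (3 ^ m)) x ⊓ MulAction.stabilizer ↥(Cfsg.Lie.twistedG2 K (3 ^ m)) y ⊓ MulAction.stabilizer ↥(Cfsg.Lie.twistedG2 K (3 ^ m)) z) = 2 := by
  exact three_points hK

end Cfsg.Agent.S1153
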