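import Cfsg.Statements.S1349
import Mathlib
import Cfsg.Agent.Lib.Solv.DihedralPairs
-- import your own Cfsg.Agent.* helpers here

set_option autoImplicit false
open Cfsg

namespace Cfsg.Agent.S1349

/-- Let G be finite, L ≤ G solvable of odd order, and A an elementary abelian 2-subgroup of order 2^d (d ≥ 1) normalizing L with C_A(L) = 1. Then there are subgroups A_1, …, A_d of A of order 2 generating A and subgroups L_1, …, L_d of L such that each A_i ⊔ L_i is dihedral of order 2 n_i with n_i odd and at least 3, and A_i ⊔ L_i commutes elementwise with A_j ⊔ L_j for i ≠ j. -/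
theorem result {G : Type*} [Group G] [Finite G] (L A : Subgroup G) (hLs : Group.IsSolvable ↥L) (hLodd : Odd (Nat.card ↥L)) (hA : Cfsg.IsElementaryAbelian 2 A) (d : ℕ) (hd : 1 ≤ d) (hAd : Nat.card ↥A = 2 ^ d) (hAL : A ≤ Subgroup.normalizer (L : Set G)) (hfaith : A ⊓ Subgroup.centralizer (L : Set G) = ⊥) : ∃ (Ai : Fin d → Subgroup G) (Li : Fin d → Subgroup G) (n : Fin d → ℕ), (∀ i, Ai i ≤ A ∧ Nat.card ↥(Ai i) = 2 ∧ Li i ≤ L ∧ Odd (n i) ∧ 3 ≤ n i ∧ Nonempty (↥(Ai i ⊔ Li i) ≃* DihedralGroup (n i))) ∧ (⨆ i, Ai i) = A ∧ ∀ i j, i ≠ j → ∀ x ∈ Ai i ⊔ Li i, ∀ y ∈ Ai j ⊔ Li j, x * y = y * x := by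
  obtain ⟨a, x, hp, hcl, hc, hxx⟩ :=
    Cfsg.Lib.Solv.DihedralPairs.exists_pairs_solvable L A hLs hLodd hA d hAd hAL hfaith
  have hord : ∀ i, Odd (orderOf (x i)) := fun i => by
    have h := orderOf_dvd_natCard (⟨x i, (hp i).2.2.1⟩ : ↥L)
    rw [← Subgroup.orderOf_coe] at h
    exact hLodd.of_dvd_nat h
  refine ⟨fun i => Subgroup.zpowers (a i), fun i => Subgroup.zpowers (x i), fun i => orderOf (x i),
    fun i => ⟨Subgroup.zpowers_le.2 (hp i).1, ?_, Subgroup.zpowers_le.2 (hp i).2.2.1, hord i, ?_, ?_⟩, ?_, ?_⟩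
  · rw [Nat.card_zpowers]; exact orderOf_eq_prime (hA.2 _ (hp i).1) (hp i).2.1
  · obtain ⟨k, hk⟩ := hord i
    have : orderOf (x i) ≠ 1 := fun h => (hp i).2.2.2.1 (orderOf_eq_one_iff.1 h)
    show 3 ≤ orderOf (x i)
    omega
  · refine Cfsg.Lib.Solv.DihedralPairs.dihedral_iso (hA.2 _ (hp i).1) (hp i).2.2.2.2 fun h => ?_
    obtain ⟨k, hk⟩ := hord i
    have h1 := Subgroup.card_dvd_of_le (Subgroup.zpowers_le.2 h)
    rw [Nat.card_zpowers, Nat.card_zpowers, orderOf_eq_prime (hA.2 _ (hp i).1) (hp i).2.1] at h1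
    omega
  · conv_rhs => rw [← hcl]
    rw [← Set.iUnion_singleton_eq_range, Subgroup.closure_iUnion]
    simp only [← Subgroup.zpowers_eq_closure]
  · intro i j hij
    have key : Subgroup.zpowers (a i) ⊔ Subgroup.zpowers (x i) ≤
        Subgroup.centralizer ((Subgroup.zpowers (a j) ⊔ Subgroup.zpowers (x j) : Subgroup G) : Set G) := by
      rw [Subgroup.le_centralizer_iff]
      refine sup_le ?_ ?_ <;> rw [Subgroup.zpowers_le, ← Subgroup.zpowers_le, Subgroup.le_centralizer_iff] <;>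
        refine sup_le ?_ ?_ <;> rw [Subgroup.zpowers_le, Subgroup.zpowers_eq_closure,
          Subgroup.centralizer_closure, Subgroup.mem_centralizer_iff] <;>
        intro y hy <;> rw [Set.mem_singleton_iff.1 hy]
      · exact Cfsg.Lib.PLocal.elem_comm hA (hp j).1 (hp i).1
      · exact hc j i hij.symm
      · exact (hc i j hij).symm
      · exact hxx j i
    exact fun u hu v hv => (Subgroup.mem_centralizer_iff.1 (key hu) v hv).symm

end Cfsg.Agent.S1349
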