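import Cfsg.Statements.S1457
import Mathlib
import Mathlib
import Cfsg.Agent.Lib.Solv.OddStable
import Cfsg.Agent.Lib.Solv.MinNormal
import Cfsg.Agent.Lib.Solv.Coprime
-- import your own Cfsg.Agent.* helpers here

set_option autoImplicit false
open Cfsg

namespace Cfsg.Agent.S1457

/-- Let G be a solvable group of odd order, p a prime, S a Sylow p-subgroup of G and A an abelian subgroup of S normal in S. Then A ≤ O_{p',p}(G). -/
theorem result {G : Type*} [Group G] [Finite G] [Group.IsSolvable G] (hodd : Odd (Nat.card G)) (p : ℕ) [Fact p.Prime] (S : Sylow p G) (A : Subgroup G) (hA : A ≤ (S : Subgroup G)) (hAc : IsMulCommutative A)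
    (hAn : (S : Subgroup G) ≤ Subgroup.normalizer (A : Set G)) :
    A ≤ Cfsg.pPrimePCore p G := by
  classical
  have hpp : p.Prime := Fact.out
  by_cases hp : p = 2
  · subst hp
    intro a ha
    obtain ⟨k, hk⟩ := S.isPGroup' ⟨a, hA ha⟩
    have hk' : a ^ 2 ^ k = 1 := congr_arg Subtype.val hk
    have h1 : (orderOf a).Coprime (2 ^ k) :=
      Nat.Coprime.pow_right k ((Nat.coprime_two_right.2 hodd).coprime_dvd_left (orderOf_dvd_natCard a))
    rw [orderOf_eq_one_iff.1 (Nat.Coprime.eq_one_of_dvd h1 (orderOf_dvd_of_pow_eq_one hk'))]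
    exact one_mem _
  set U := Cfsg.pPrimeCore p G with hU
  set q := QuotientGroup.mk' U with hq
  haveI : U.Normal := inferInstance
  have hoddH : Odd (Nat.card (G ⧸ U)) := hodd.of_dvd_nat (Subgroup.card_quotient_dvd_card U)
  have hst := Cfsg.Lib.Solv.normalizerPStable_of_odd hoddH hp
  set P₀ := Cfsg.pCore p (G ⧸ U) with hP₀
  show A ≤ P₀.comap q
  rw [← Subgroup.map_le_iff_le_comap]
  have hP₀A : P₀ ≤ Subgroup.normalizer ((A.map q : Subgroup (G ⧸ U)) : Set (G ⧸ U)) := by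
    refine le_trans ?_ ((Subgroup.map_mono hAn).trans (Subgroup.le_normalizer_map q))
    rw [hq, ← Sylow.coe_mapSurjective (QuotientGroup.mk'_surjective U) S]
    exact Cfsg.Lib.Solv.pCore_le_sylow p _
  intro a ha
  have hz : Subgroup.zpowers a ≤ A.map q := Subgroup.zpowers_le.2 ha
  have hcA : IsMulCommutative ↥(A.map q) := by
    refine ⟨⟨?_⟩⟩
    rintro ⟨_, x, hx, rfl⟩ ⟨_, y, hy, rfl⟩
    refine Subtype.ext ?_
    show q x * q y = q y * q x
    rw [← map_mul, ← map_mul, show x * y = y * x from congr_arg Subtype.val (hAc.is_comm.comm ⟨x, hx⟩ ⟨y, hy⟩)]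
  have hquad : ⁅⁅P₀, Subgroup.zpowers a⁆, Subgroup.zpowers a⁆ = ⊥ := by
    refine le_bot_iff.1 ((Subgroup.commutator_mono (Subgroup.commutator_mono le_rfl hz) hz).trans ?_)
    refine (Subgroup.commutator_mono (show ⁅P₀, (A.map q)⁆ ≤ (A.map q) from by rw [Subgroup.commutator_comm]; exact Cfsg.Lib.Solv.commutator_le_of_normalizes hP₀A) le_rfl).trans
      (Subgroup.commutator_eq_bot_iff_le_centralizer.2 ?_).le
    exact fun c hc => Subgroup.mem_centralizer_iff.2 fun d hd =>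
        congr_arg Subtype.val (hcA.is_comm.comm ⟨d, hd⟩ ⟨c, hc⟩)
  obtain ⟨M, hMn, haM, hMp⟩ := Cfsg.Lib.Solv.quadratic_mem_normal hst P₀ (Cfsg.Lib.Solv.isPGroup_pCore p) a hquad
  have hC := Cfsg.Lib.Solv.centralizer_pCore_le (G := G ⧸ U) p (Cfsg.Lib.Solv.pPrimeCore_quotient_eq_bot (G := G) p)
  refine Cfsg.Lib.Solv.le_pCore hMn ?_ haM
  rintro ⟨m, hm⟩
  obtain ⟨k, hk⟩ := hMp m hm
  obtain ⟨j, hj⟩ := Cfsg.Lib.Solv.isPGroup_pCore (G := G ⧸ U) p ⟨_, hC hk⟩
  refine ⟨k + j, Subtype.ext ?_⟩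
  show m ^ p ^ (k + j) = 1
  rw [pow_add, pow_mul]
  exact congr_arg Subtype.val hj

end Cfsg.Agent.S1457
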