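import Cfsg.Statements.S1458
import Cfsg.Agent.Lib.Solv.OddStable
import Cfsg.Agent.Lib.Solv.MinNormal
import Cfsg.Agent.Lib.Solv.Cores
import Cfsg.Agent.Lib.PLocal.ZJElementary
import Cfsg.Agent.Lib.PStable.ZJControl

set_option autoImplicit false
set_option linter.style.haveILetI false
open Cfsg Subgroup

namespace Cfsg.Agent.S1458

open Cfsg.Lib

/-- Let G be a solvable group of odd order, p a prime and S a Sylow p-subgroup of G. Then the subgroup generated by the centre of the Thompson subgroup of S and O_{p'}(G) is normal in G. -/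
theorem result {G : Type*} [Group G] [Finite G] [Group.IsSolvable G] (hodd : Odd (Nat.card G)) (p : ℕ) [Fact p.Prime] (S : Sylow p G) :
    (Cfsg.centerThompsonOf p (S : Subgroup G) ⊔ Cfsg.pPrimeCore p G).Normal := by
  rw [PLocal.centerThompsonOf_eq_jZ]
  set X := (S : Subgroup G)
  set O := pPrimeCore p G
  by_cases hp : p = 2
  · have hX : X = ⊥ := by
      obtain ⟨n, hn⟩ := IsPGroup.iff_card.1 S.2
      refine Subgroup.eq_bot_of_card_eq X ?_
      rcases Nat.eq_zero_or_pos n with h0 | h0
      · rw [hn, h0, pow_zero]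
      · have h2 : p ∣ Nat.card G :=
          (dvd_pow_self p h0.ne').trans (hn.symm.dvd.trans X.card_subgroup_dvd_card)
        rw [hp] at h2
        exact absurd (even_iff_two_dvd.2 h2) (Nat.not_even_iff_odd.2 hodd)
    rw [le_bot_iff.1 ((PLocal.jZ_le X).trans hX.le), bot_sup_eq]
    infer_instance
  set π := QuotientGroup.mk' O
  have hsurj : Function.Surjective π := QuotientGroup.mk'_surjective O
  set S' : Sylow p (G ⧸ O) := S.mapSurjective hsurj
  have hcop : (Nat.card X).Coprime (Nat.card O) := by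
    obtain ⟨n, hn⟩ := IsPGroup.iff_card.1 S.2
    rw [hn]
    exact ((Solv.coprime_pPrimeCore (G := G) p).pow_right n).symm
  have hf : Set.InjOn π X := by
    intro x hx y hy he
    have h1 : x⁻¹ * y ∈ X ⊓ O := ⟨X.mul_mem (X.inv_mem hx) hy, QuotientGroup.eq.1 he⟩
    rw [Subgroup.inf_eq_bot_of_coprime hcop, mem_bot, inv_mul_eq_one] at h1
    exact h1
  have hodd' : Odd (Nat.card (G ⧸ O)) := hodd.of_dvd_nat O.card_quotient_dvd_card
  have hmap : PLocal.jZ p (S' : Subgroup (G ⧸ O)) = (PLocal.jZ p X).map π := PLocal.jZ_map π hf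
  haveI := PLocal.jZ_normal (G := G ⧸ O) hp
    (Solv.centralizer_pCore_le p (Solv.pPrimeCore_quotient_eq_bot p)) S'
    (PStable.stableFor_of_normalizerPStable (Solv.normalizerPStable_of_odd hodd' hp) _)
  have h2 : PLocal.jZ p X ⊔ O = (PLocal.jZ p (S' : Subgroup (G ⧸ O))).comap π := by
    rw [hmap, comap_map_eq, QuotientGroup.ker_mk']
  rw [h2]
  exact Subgroup.Normal.comap inferInstance _

end Cfsg.Agent.S1458
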