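import Cfsg.Statements.S1612
import Mathlib
import Cfsg.Agent.Lib.ThreeT.Fischer

set_option autoImplicit false
set_option linter.style.haveILetI false
open Cfsg

namespace Cfsg.Agent.S1612

/-- In a 3-transposition group (no solvable normal subgroup, perfect derived group), the normaliser of a commuting set of transpositions of maximum size contains a Sylow 2-subgroup and is doubly transitive on the set. -/
theorem result {G : Type*} [Group G] [Finite G] (hsol : ∀ N : Subgroup G, N.Normal → Group.IsSolvable ↥N → N = ⊥) (hperf : ⁅commutator G, commutator G⁆ = commutator G) {D : Set G} (hD : Cfsg.IsThreeTranspositionClass D) {E : Set G} (hE : E ⊆ D) (hc : ∀ a ∈ E, ∀ b ∈ E, Commute a b) (hmax : ∀ E' : Set G, E' ⊆ D → (∀ a ∈ E', ∀ b ∈ E', Commute a b) → E'.ncard ≤ E.ncard) : (∃ P : Sylow 2 G, (P : Subgroup G) ≤ Subgroup.normalizer E) ∧ ∀ a ∈ E, ∀ b ∈ E, ∀ c ∈ E, ∀ d ∈ E, a ≠ b → c ≠ d → ∃ g ∈ Subgroup.normalizer E, g * a * g⁻¹ = c ∧ g * b * g⁻¹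 = d := by
  classical
  haveI : Fact (Nat.Prime 2) := ⟨Nat.prime_two⟩
  have h := Lib.ThreeT.Big.of_perfect hD hsol hperf
  -- commuting members of one Sylow 2-subgroup
  have hTcomm : ∀ {H : Subgroup G}, IsPGroup 2 H → ∀ a ∈ D, a ∈ H → ∀ b ∈ D, b ∈ H → Commute a b := by
    intro H hH a ha haH b hb hbH
    by_contra hnc
    have h3 := (h.tset.2 a ha b hb).resolve_left fun h2 =>
      hnc ((Lib.ThreeT.commute_iff_sq (h.tset.1 a ha) (h.tset.1 b hb)).2 h2)
    obtain ⟨k, hk⟩ := (IsPGroup.iff_orderOf.1 hH) ⟨a * b, H.mul_mem haH hbH⟩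
    rw [Subgroup.orderOf_mk] at hk
    have hd := hk ▸ orderOf_dvd_of_pow_eq_one h3
    have : k = 0 := by
      by_contra hk0
      exact absurd ((dvd_pow_self 2 hk0).trans hd) (by norm_num)
    rw [this, pow_zero, orderOf_eq_one_iff, mul_eq_one_iff_eq_inv,
      Lib.ThreeT.inv_self (h.tset.1 b hb)] at hk
    exact hnc (hk ▸ Commute.refl _)
  haveI : IsMulCommutative (Subgroup.closure E) :=
    Subgroup.isMulCommutative_closure fun a ha b hb => (hc a ha b hb).eq
  have hEp : IsPGroup 2 (Subgroup.closure E) := by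
    have h2 : ∀ x ∈ Subgroup.closure E, x ^ 2 = 1 := by
      intro x hx
      induction hx using Subgroup.closure_induction with
      | mem x hx => rw [← h.tset.1 x (hE hx)]; exact pow_orderOf_eq_one x
      | one => simp
      | mul x y hx hy h1 h2 =>
        rw [Commute.mul_pow ?_, h1, h2, one_mul]
        exact congrArg Subtype.val (mul_comm' (⟨x, hx⟩ : Subgroup.closure E) ⟨y, hy⟩)
      | inv x _ h => rw [inv_pow, h, inv_one]
    exact fun x => ⟨1, Subtype.ext (by simpa using h2 x x.2)⟩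
  -- `E` is the set of members of any 2-subgroup containing it
  have hweak : ∀ {H : Subgroup G}, IsPGroup 2 H → E ⊆ H → ∀ x, x ∈ D → x ∈ H → x ∈ E := by
    intro H hH hEH x hx hxH
    have he : E = {y | y ∈ D ∧ y ∈ H} := Set.eq_of_subset_of_ncard_le (fun y hy => ⟨hE hy, hEH hy⟩)
      (hmax _ (fun y hy => hy.1) fun a ha b hb => hTcomm hH a ha.1 ha.2 b hb.1 hb.2)
    rw [he]; exact ⟨hx, hxH⟩
  have hnorm : ∀ g : G, (∀ x ∈ E, g * x * g⁻¹ ∈ E) → g ∈ Subgroup.normalizer E := by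
    intro g hg
    have hsurj : Set.SurjOn (fun x => g * x * g⁻¹) E E := by
      have himg : (fun x => g * x * g⁻¹) '' E = E := Set.eq_of_subset_of_ncard_le
        (by rintro _ ⟨x, hx, rfl⟩; exact hg x hx)
        (le_of_eq (Set.ncard_image_of_injective E (MulAut.conj g).injective).symm)
      exact himg.ge
    rw [Subgroup.mem_set_normalizer_iff]
    refine fun x => ⟨hg x, fun hx => ?_⟩
    obtain ⟨y, hy, hye⟩ := hsurj hx
    rwa [← mul_left_cancel (mul_right_cancel hye)]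
  refine ⟨?_, ?_⟩
  · obtain ⟨T, hT⟩ := hEp.exists_le_sylow
    refine ⟨T, fun g hg => hnorm g fun x hx => ?_⟩
    exact hweak T.isPGroup' (fun y hy => hT (Subgroup.subset_closure hy)) _ (h.conj g x (hE hx))
      (T.mul_mem (T.mul_mem hg (hT (Subgroup.subset_closure hx))) (T.inv_mem hg))
  intro a ha b hb c hc' d hd hab hcd
  obtain ⟨g1, hg1⟩ := h.trans a (hE ha) c (hE hc')
  have hb1 : g1 * b * g1⁻¹ ∈ Lib.ThreeT.com D c := ⟨h.conj g1 b (hE hb),
    fun e => hab (mul_left_cancel (mul_right_cancel (hg1.trans e.symm))),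
    hg1 ▸ (Lib.ThreeT.commute_conj_iff g1).2 (hc a ha b hb)⟩
  obtain ⟨g2, hg2, hg2b⟩ := h.com_conj (hE hc') hb1 ⟨hE hd, hcd.symm, hc c hc' d hd⟩
  set g := g2 * g1 with hg
  have hga : g * a * g⁻¹ = c := by
    rw [hg, ← Lib.ThreeT.conj_conj, hg1]
    exact Lib.ThreeT.fix_iff_commute.2 (Lib.ThreeT.commute_of_mem_closure_com hg2)
  have hgb : g * b * g⁻¹ = d := by rw [hg, ← Lib.ThreeT.conj_conj, hg2b]
  -- Sylow subgroups of the centralizer of `c` and `d`
  set C := Subgroup.centralizer ({c, d} : Set G) with hC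
  have hEC : Subgroup.closure E ≤ C := by
    rw [Subgroup.closure_le]
    intro x hx
    refine Subgroup.mem_centralizer_iff.2 ?_
    rintro w (rfl | rfl)
    · exact (hc _ hc' x hx).eq
    · exact (hc _ hd x hx).eq
  set E' := (Subgroup.closure E).map (MulAut.conj g).toMonoidHom with hE'
  have hE'C : E' ≤ C := by
    rw [hE', MonoidHom.map_closure, Subgroup.closure_le]
    rintro _ ⟨x, hx, rfl⟩
    refine Subgroup.mem_centralizer_iff.2 ?_
    rintro w (rfl | rfl)
    · rw [← hga]; exact ((Lib.ThreeT.commute_conj_iff g).2 (hc a ha x hx)).eq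
    · rw [← hgb]; exact ((Lib.ThreeT.commute_conj_iff g).2 (hc b hb x hx)).eq
  obtain ⟨T0, hT0⟩ := (hEp.comap_subtype (K := C)).exists_le_sylow
  obtain ⟨T1, hT1⟩ := ((hEp.map (MulAut.conj g).toMonoidHom).comap_subtype (K := C)).exists_le_sylow
  obtain ⟨k, hk⟩ := MulAction.exists_smul_eq C T1 T0
  have hfix : ∀ x ∈ ({c, d} : Set G), (k : G) * x * (k : G)⁻¹ = x := fun x hx => by
    rw [← Subgroup.mem_centralizer_iff.1 k.2 x hx, mul_inv_cancel_right]
  refine ⟨k * g, hnorm _ fun x hx => ?_, ?_, ?_⟩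
  · have hx' : g * x * g⁻¹ ∈ E' := ⟨x, Subgroup.subset_closure hx, rfl⟩
    have h2 : k * (⟨g * x * g⁻¹, hE'C hx'⟩ : C) * k⁻¹ ∈ T0 := by
      rw [← hk]
      show _ ∈ ((k • T1 : Sylow 2 C) : Subgroup C)
      rw [Sylow.coe_subgroup_smul, Subgroup.mem_pointwise_smul_iff_inv_smul_mem]
      refine hT1 ?_
      have : (MulAut.conj k)⁻¹ • (k * (⟨g * x * g⁻¹, hE'C hx'⟩ : C) * k⁻¹) =
          ⟨g * x * g⁻¹, hE'C hx'⟩ := by
        rw [← map_inv, MulAut.smul_def, MulAut.conj_apply]; group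
      rw [this]; exact hx'
    refine hweak (H := (T0 : Subgroup C).map C.subtype) (T0.isPGroup'.map _)
      (fun y hy => ⟨⟨y, hEC (Subgroup.subset_closure hy)⟩, hT0 (Subgroup.subset_closure hy), rfl⟩)
      _ (h.conj _ x (hE hx)) ⟨_, h2, ?_⟩
    show (k : G) * (g * x * g⁻¹) * (k : G)⁻¹ = _
    rw [Lib.ThreeT.conj_conj]
  · rw [← Lib.ThreeT.conj_conj, hga]; exact hfix c (Or.inl rfl)
  · rw [← Lib.ThreeT.conj_conj, hgb]; exact hfix d (Or.inr rfl)

end Cfsg.Agent.S1612
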