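import Cfsg.Statements.S1755
import Mathlib
import Cfsg.Agent.Lib.ThreeT.Components
import Cfsg.Agent.Lib.Comp.FStar
-- import your own Cfsg.Agent.* helpers here

set_option autoImplicit false
open Cfsg

namespace Cfsg.Agent.S1755

theorem eq_of_cyclic_two {H : Type*} [Group H] [Finite H] [IsCyclic H] {x y : H}
    (hx : orderOf x = 2) (hy : orderOf y = 2) : x = y := by
  classical
  haveI := Fintype.ofFinite H
  by_contra hne
  have hcard := IsCyclic.card_pow_eq_one_le (α := H) (n := 2) (by norm_num)
  have hsub : ({1, x, y} : Finset H) ⊆ (Finset.univ : Finset H).filter (fun a => a ^ 2 = 1) := by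
    intro a ha
    simp only [Finset.mem_insert, Finset.mem_singleton] at ha
    rcases ha with rfl | rfl | rfl
    · simp
    · simp [← hx, pow_orderOf_eq_one]
    · simp [← hy, pow_orderOf_eq_one]
  have h3 := (Finset.card_le_card hsub).trans hcard
  rw [Finset.card_insert_of_notMem, Finset.card_insert_of_notMem, Finset.card_singleton] at h3
  · omega
  · simpa using hne
  · simp only [Finset.mem_insert, Finset.mem_singleton, not_or]
    exact ⟨fun h => by simp [← h] at hx, fun h => by simp [← h] at hy⟩

theorem involution_eq_center {Q : Type*} [Group Q] [Finite Q] (hQ : Cfsg.IsOfSymplecticType Q)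
    (B : Subgroup Q) (hBc : B.Characteristic) (hBa : IsMulCommutative B) {b w : Q} (hb : b ∈ B)
    (hob : orderOf b = 2) (hw : w ∈ Subgroup.center Q) (how : orderOf w = 2) : b = w := by
  haveI : IsCyclic B := hQ.2 B hBc hBa
  haveI : IsCyclic (Subgroup.center Q) := hQ.2 _ inferInstance inferInstance
  have hbz : b ∈ Subgroup.center Q := by
    rw [Subgroup.mem_center_iff]
    intro q
    haveI := hBc
    have hn : B.Normal := inferInstance
    have hq : (⟨q * b * q⁻¹, hn.conj_mem b hb q⟩ : B) = ⟨b, hb⟩ := by
      refine eq_of_cyclic_two ?_ (by rwa [Subgroup.orderOf_mk])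
      rw [Subgroup.orderOf_mk, ← hob]
      exact (MulAut.conj q).orderOf_eq b
    have h : q * b * q⁻¹ = b := congrArg Subtype.val hq
    calc q * b = q * b * q⁻¹ * q := by group
      _ = b * q := by rw [h]
  have := eq_of_cyclic_two (x := (⟨b, hbz⟩ : Subgroup.center Q)) (y := ⟨w, hw⟩)
    (by rwa [Subgroup.orderOf_mk]) (by rwa [Subgroup.orderOf_mk])
  exact congrArg Subtype.val this


/-- Let G be a finite group and let z be an involution of G such that Q, the generalized Fitting subgroup of the centralizer C of z, is a 2-group of symplectic type (every characteristic abelian subgroup of Q is cyclic). Let B be a characteristic abelian subgroup of Q, viewed as a subgroup of G. Then for every g in G, the conjugate of B by g either equals B or meets B trivially. -/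
theorem result {G : Type*} [Group G] [Finite G] (z : G) (hz : orderOf z = 2) (hQ : Cfsg.IsOfSymplecticType ↥(Cfsg.generalizedFittingSubgroup ↥(Subgroup.centralizer ({z} : Set G))))
    (B : Subgroup ↥(Cfsg.generalizedFittingSubgroup ↥(Subgroup.centralizer ({z} : Set G)))) (hBc : B.Characteristic) (hBa : IsMulCommutative ↥B) (g : G) :
    ((B.map (Cfsg.generalizedFittingSubgroup ↥(Subgroup.centralizer ({z} : Set G))).subtype).map (Subgroup.centralizer ({z} : Set G)).subtype).map (MulAut.conj g).toMonoidHom =
        (B.map (Cfsg.generalizedFittingSubgroup ↥(Subgroup.centralizer ({z} : Set G))).subtype).map (Subgroup.centralizer ({z} : Set G)).subtype ∨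
      ((B.map (Cfsg.generalizedFittingSubgroup ↥(Subgroup.centralizer ({z} : Set G))).subtype).map (Subgroup.centralizer ({z} : Set G)).subtype).map (MulAut.conj g).toMonoidHom ⊓
        (B.map (Cfsg.generalizedFittingSubgroup ↥(Subgroup.centralizer ({z} : Set G))).subtype).map (Subgroup.centralizer ({z} : Set G)).subtype = ⊥ := by
  classical
  have hzC : z ∈ (Subgroup.centralizer ({z} : Set G)) := Subgroup.mem_centralizer_iff.2 fun x hx => by rw [Set.mem_singleton_iff.1 hx]
  have hzc : (⟨z, hzC⟩ : (Subgroup.centralizer ({z} : Set G))) ∈ Subgroup.center (Subgroup.centralizer ({z} : Set G)) := by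
    rw [Subgroup.mem_center_iff]
    intro c
    exact Subtype.ext (Subgroup.mem_centralizer_iff.1 c.2 z rfl).symm
  have hzF : (⟨z, hzC⟩ : (Subgroup.centralizer ({z} : Set G))) ∈ (Cfsg.generalizedFittingSubgroup ↥(Subgroup.centralizer ({z} : Set G))) :=
    (le_sup_right : Cfsg.fittingSubgroup _ ≤ Cfsg.generalizedFittingSubgroup _)
      (Cfsg.Lib.ThreeT.center_le_fitting hzc)
  have hzF' : (⟨⟨z, hzC⟩, hzF⟩ : (Cfsg.generalizedFittingSubgroup ↥(Subgroup.centralizer ({z} : Set G)))) ∈ Subgroup.center (Cfsg.generalizedFittingSubgroup ↥(Subgroup.centralizer ({z} : Set G))) := by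
    rw [Subgroup.mem_center_iff]
    intro c
    exact Subtype.ext (Subgroup.mem_center_iff.1 hzc c)
  have hord : orderOf (⟨⟨z, hzC⟩, hzF⟩ : (Cfsg.generalizedFittingSubgroup ↥(Subgroup.centralizer ({z} : Set G)))) = 2 := by
    rw [← Subgroup.orderOf_coe, ← Subgroup.orderOf_coe]; exact hz
  have huniq : ∀ x : G, x ∈ (B.map (Cfsg.generalizedFittingSubgroup ↥(Subgroup.centralizer ({z} : Set G))).subtype).map (Subgroup.centralizer ({z} : Set G)).subtype → orderOf x = 2 → x = z := by
    rintro _ ⟨_, ⟨b, hb, rfl⟩, rfl⟩ hx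
    have := involution_eq_center hQ B hBc hBa hb
      (by rw [← Subgroup.orderOf_coe, ← Subgroup.orderOf_coe]; exact hx) hzF' hord
    rw [this]; rfl
  by_cases hbot : ((B.map (Cfsg.generalizedFittingSubgroup ↥(Subgroup.centralizer ({z} : Set G))).subtype).map (Subgroup.centralizer ({z} : Set G)).subtype).map (MulAut.conj g).toMonoidHom ⊓
      (B.map (Cfsg.generalizedFittingSubgroup ↥(Subgroup.centralizer ({z} : Set G))).subtype).map (Subgroup.centralizer ({z} : Set G)).subtype = ⊥
  · exact Or.inr hbot
  left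
  obtain ⟨x, hx, hx1⟩ := (Subgroup.bot_or_exists_ne_one _).resolve_left hbot
  have hP : IsPGroup 2 ↥((B.map (Cfsg.generalizedFittingSubgroup ↥(Subgroup.centralizer ({z} : Set G))).subtype).map (Subgroup.centralizer ({z} : Set G)).subtype) := ((hQ.1.to_subgroup B).map _).map _
  obtain ⟨k, hk⟩ := IsPGroup.iff_orderOf.1 hP ⟨x, (Subgroup.mem_inf.1 hx).2⟩
  rw [Subgroup.orderOf_mk] at hk
  cases k with
  | zero => exact absurd (orderOf_eq_one_iff.1 (by simpa using hk)) hx1
  | succ k =>
    have h2 : orderOf (x ^ 2 ^ k) = 2 := by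
      rw [orderOf_pow_of_dvd (by positivity) (by rw [hk]; exact pow_dvd_pow 2 (by omega)), hk,
        pow_succ, Nat.mul_div_cancel_left _ (by positivity)]
    obtain ⟨h1, h1'⟩ := Subgroup.mem_inf.1 hx
    have e1 := huniq _ (pow_mem h1' _) h2
    obtain ⟨u, hu, hue⟩ := pow_mem h1 (2 ^ k)
    have hu2 : orderOf u = 2 := by
      rw [← h2, ← hue]; exact ((MulAut.conj g).orderOf_eq u).symm
    have e2 := huniq u hu hu2
    rw [e1, e2] at hue
    have hgz : g * z * g⁻¹ = z := hue
    have hgC : g ∈ (Subgroup.centralizer ({z} : Set G)) := by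
      rw [Subgroup.mem_centralizer_iff]
      intro y hy
      rw [Set.mem_singleton_iff.1 hy]
      calc z * g = g * z * g⁻¹ * g := by rw [hgz]
        _ = g * z := by group
    haveI := hBc
    haveI hFn : (Cfsg.generalizedFittingSubgroup ↥(Subgroup.centralizer ({z} : Set G))).Normal := inferInstance
    have hmapn : (B.map (Cfsg.generalizedFittingSubgroup ↥(Subgroup.centralizer ({z} : Set G))).subtype).Normal := inferInstance
    refine Subgroup.eq_of_le_of_card_ge ?_ (le_of_eq ?_)
    · rintro _ ⟨_, ⟨b, hb, rfl⟩, rfl⟩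
      exact ⟨⟨g, hgC⟩ * b * ⟨g, hgC⟩⁻¹, hmapn.conj_mem b hb _, rfl⟩
    · exact (Subgroup.card_map_of_injective (MulAut.conj g).injective).symm

end Cfsg.Agent.S1755
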