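import Cfsg.Statements.S1774
import Cfsg.Agent.S1755
import Cfsg.Agent.Lib.Comp.FStar
import Cfsg.Agent.Lib.ThreeT.Components
import Cfsg.Agent.Lib.Solv.PGroupBasic
import Cfsg.Agent.Lib.Solv.Cores
import Cfsg.Agent.Lib.Transfer.PGroupNormal
-- import your own Cfsg.Agent.* helpers here

set_option autoImplicit false
open Cfsg
open scoped commutatorElement

namespace Cfsg.Agent.S1774

open Subgroup

/-- In a 2-group of symplectic type and exponent 4 all squares lie in the subgroup of order 2 of the centre. -/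
theorem sq_mem {Q : Type*} [Group Q] [Finite Q] (hQ : Cfsg.IsOfSymplecticType Q) (h4 : ∀ q : Q, q ^ 4 = 1)
    {w : Q} (hw : w ∈ center Q) (how : orderOf w = 2) (q : Q) : q * q = 1 ∨ q * q = w := by
  classical
  haveI := Fact.mk Nat.prime_two
  have hP : IsPGroup 2 Q := hQ.1
  let B := (center ↥(frattini Q)).map (frattini Q).subtype
  haveI : (frattini Q).Characteristic := frattini_characteristic
  have hBc : B.Characteristic := by
    rw [characteristic_iff_map_le]
    intro φ
    rintro _ ⟨_, ⟨x, hx, rfl⟩, rfl⟩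
    have hmem : φ x ∈ frattini Q :=
      (characteristic_iff_map_le.1 (inferInstance : (frattini Q).Characteristic) φ) ⟨x, x.2, rfl⟩
    refine ⟨⟨φ x, hmem⟩, mem_center_iff.2 fun y => Subtype.ext ?_, rfl⟩
    have hy : φ.symm y ∈ frattini Q :=
      (characteristic_iff_map_le.1 (inferInstance : (frattini Q).Characteristic) φ.symm) ⟨y, y.2, rfl⟩
    have h := congrArg (fun t : frattini Q => φ (t : Q)) (mem_center_iff.1 hx ⟨φ.symm y, hy⟩)
    simpa using h
  have hBa : IsMulCommutative B := ⟨⟨fun a b => Subtype.ext (by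
    obtain ⟨a', ha, ha'⟩ := a.2
    obtain ⟨b', hb, hb'⟩ := b.2
    show (a : Q) * b = b * a
    rw [← ha', ← hb']
    exact congrArg Subtype.val (mem_center_iff.1 hb a'))⟩⟩
  have hinv : ∀ x ∈ B, x * x = 1 → x = 1 ∨ x = w := fun x hx hxx => or_iff_not_imp_left.2 fun hx1 =>
    S1755.involution_eq_center hQ B hBc hBa hx (orderOf_eq_prime (by rw [pow_two]; exact hxx) hx1) hw how
  have hq4 : ∀ x : Q, x * x * (x * x) = 1 := fun x =>
    calc x * x * (x * x) = x ^ 4 := by simp only [pow_succ, pow_zero, one_mul, mul_assoc]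
      _ = 1 := h4 x
  have hwc : ∀ t : Q, Commute t w := mem_center_iff.1 hw
  have hpowF : ∀ x : Q, x * x ∈ frattini Q := fun x => pow_two x ▸ Cfsg.Lib.Solv.pow_mem_frattini hP x
  by_cases hΦ : frattini Q = ⊥
  · left
    have h := hpowF q
    rwa [hΦ, mem_bot] at h
  have hww : w * w = 1 := by rw [← pow_two, ← how, pow_orderOf_eq_one]
  have hwB : w ∈ B := by
    haveI : Nontrivial (frattini Q) := (nontrivial_iff_ne_bot _).2 hΦ
    haveI := (hP.to_subgroup (frattini Q)).center_nontrivial
    obtain ⟨n, hn⟩ := IsPGroup.iff_card.1 ((hP.to_subgroup (frattini Q)).to_subgroup (center ↥(frattini Q)))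
    obtain ⟨e, he⟩ := exists_prime_orderOf_dvd_card' (G := center ↥(frattini Q)) 2 (by
      rw [hn]
      rcases n with _ | n
      · have := Finite.one_lt_card (α := center ↥(frattini Q)); rw [hn] at this; simp at this
      · exact dvd_pow_self 2 n.succ_ne_zero)
    have heB : ((e : frattini Q) : Q) ∈ B := ⟨_, e.2, rfl⟩
    have heo : orderOf ((e : frattini Q) : Q) = 2 := by rw [Subgroup.orderOf_coe, Subgroup.orderOf_coe, he]
    rw [← S1755.involution_eq_center hQ B hBc hBa heB heo hw how]
    exact heB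
  -- an element moved only inside `⟨w⟩` is central in the Frattini subgroup
  have hcenΦ : ∀ x ∈ frattini Q, (∀ g : Q, g * x * g⁻¹ * x⁻¹ ∈ zpowers w) → x ∈ B := by
    intro x hx hmove
    let f : Q →* Q := MonoidHom.mk' (fun g => g * x * g⁻¹ * x⁻¹) fun g h => by
      obtain ⟨i, hi⟩ := hmove h
      change w ^ i = _ at hi
      have hc : ∀ t : Q, Commute t (h * x * h⁻¹ * x⁻¹) := fun t =>
        hi ▸ ((hwc t).zpow_right i)
      calc g * h * x * (g * h)⁻¹ * x⁻¹ = g * (h * x * h⁻¹ * x⁻¹) * (x * g⁻¹ * x⁻¹) := by group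
        _ = (h * x * h⁻¹ * x⁻¹) * g * (x * g⁻¹ * x⁻¹) := by rw [(hc g).eq]
        _ = (h * x * h⁻¹ * x⁻¹) * (g * x * g⁻¹ * x⁻¹) := by group
        _ = (g * x * g⁻¹ * x⁻¹) * (h * x * h⁻¹ * x⁻¹) := ((hc _).eq).symm
    have hle : frattini Q ≤ f.ker := by
      refine Cfsg.Lib.Solv.frattini_le_of_elementary_quotient (p := 2) f.ker ?_ ?_
      · rw [_root_.commutator_def, commutator_le]
        intro a _ b _
        obtain ⟨i, hi⟩ := hmove a
        change w ^ i = _ at hi
        rw [MonoidHom.mem_ker, map_commutatorElement, commutatorElement_eq_one_iff_mul_comm]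
        show Commute (f a) (f b)
        rw [show f a = w ^ i from hi.symm]
        exact ((hwc _).zpow_right i).symm
      · intro a
        rw [MonoidHom.mem_ker, map_pow, pow_two]
        obtain ⟨i, hi⟩ := hmove a
        change w ^ i = f a at hi
        rw [← hi, ← zpow_add, ← two_mul, zpow_mul, zpow_ofNat, pow_two, hww, one_zpow]
    refine ⟨⟨x, hx⟩, mem_center_iff.2 fun y => Subtype.ext ?_, rfl⟩
    exact mul_inv_eq_iff_eq_mul.1 (mul_inv_eq_one.1 (MonoidHom.mem_ker.1 (hle y.2)))
  by_cases hsmall : frattini Q ≤ zpowers w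
  · obtain ⟨i, hi⟩ := hsmall (hpowF q)
    change w ^ i = q * q at hi
    rcases Int.even_or_odd' i with ⟨j, rfl | rfl⟩
    · left; rw [← hi, zpow_mul, zpow_ofNat, pow_two, hww, one_zpow]
    · right; rw [← hi, zpow_add, zpow_mul, zpow_ofNat, pow_two, hww, one_zpow, one_mul, zpow_one]
  haveI hWn : (zpowers w).Normal := ⟨fun a ha g => by
    obtain ⟨i, rfl⟩ := ha
    show g * w ^ i * g⁻¹ ∈ _
    rw [((hwc g).zpow_right i).eq, mul_inv_cancel_right]
    exact zpow_mem (mem_zpowers w) i⟩
  have hwF : w ∈ frattini Q := (map_subtype_le _ : B ≤ frattini Q) hwB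
  obtain ⟨U, b, hUn, -, hUΦ, -, hbU, hbW, hU, hbmove⟩ :=
    Cfsg.Lib.Transfer.exists_normal_step hP (zpowers w) (frattini Q)
      (lt_of_le_not_ge (zpowers_le.2 hwF) hsmall)
  haveI := hUn
  have hbB := hcenΦ b (hUΦ hbU) hbmove
  have hbb : b * b = w := by
    rcases hinv (b * b) (B.mul_mem hbB hbB) (hq4 b) with e | e
    · rcases hinv b hbB e with rfl | rfl
      · exact absurd (one_mem _) hbW
      · exact absurd (mem_zpowers _) hbW
    · exact e
  have hUmem : ∀ y ∈ U, ∃ j : ℤ, y = b ^ j := by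
    intro y hy
    have hle : U ≤ zpowers b := by
      rw [hU]
      exact sup_le (zpowers_le.2 ⟨2, by show b ^ (2 : ℤ) = w; rw [zpow_ofNat, pow_two, hbb]⟩) le_rfl
    obtain ⟨j, hj⟩ := hle hy
    exact ⟨j, hj.symm⟩
  have hsmallU : ∀ y ∈ U, y * y = 1 → y ∈ zpowers w := by
    intro y hy hyy
    rcases hinv y (by obtain ⟨j, rfl⟩ := hUmem y hy; exact B.zpow_mem hbB j) hyy with rfl | rfl
    · exact one_mem _
    · exact mem_zpowers _
  rcases eq_or_lt_of_le hUΦ with hUeq | hlt
  · -- the Frattini subgroup is cyclic of order 4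
    have h := hpowF q
    rw [← hUeq] at h
    obtain ⟨i, hi⟩ := hsmallU _ h (hq4 q)
    change w ^ i = q * q at hi
    rcases Int.even_or_odd' i with ⟨j, rfl | rfl⟩
    · left; rw [← hi, zpow_mul, zpow_ofNat, pow_two, hww, one_zpow]
    · right; rw [← hi, zpow_add, zpow_mul, zpow_ofNat, pow_two, hww, one_zpow, one_mul, zpow_one]
  exfalso
  obtain ⟨U2, c, hU2n, hUU2, hU2Φ, hcard, hcU2, hcU, hU2, hcmove⟩ :=
    Cfsg.Lib.Transfer.exists_normal_step hP U (frattini Q) hlt
  have hbc : Commute b c := by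
    obtain ⟨b', hb', hbe⟩ := hbB
    have h := congrArg Subtype.val (mem_center_iff.1 hb' ⟨c, hU2Φ hcU2⟩)
    rw [← hbe]
    exact h.symm
  have hccU : c * c ∈ U := by
    have h2 : (U.subgroupOf U2).index = 2 := by
      have h := (U.subgroupOf U2).card_mul_index
      rw [Nat.card_congr (subgroupOfEquivOfLe hUU2).toEquiv, hcard, mul_comm 2] at h
      exact Nat.eq_of_mul_eq_mul_left Nat.card_pos h
    have h := sq_mem_of_index_two h2 (⟨c, hcU2⟩ : U2)
    rw [pow_two] at h
    exact h
  obtain ⟨s, hsΦ, hsU, hss, hsmove⟩ : ∃ s ∈ frattini Q, s ∉ U ∧ s * s = 1 ∧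
      ∀ g : Q, g * s * g⁻¹ * s⁻¹ ∈ U := by
    rcases hsmallU (c * c) hccU (hq4 c) with ⟨i, hi⟩
    change w ^ i = c * c at hi
    rcases Int.even_or_odd' i with ⟨j, rfl | rfl⟩
    · rw [zpow_mul, zpow_ofNat, pow_two, hww, one_zpow] at hi
      exact ⟨c, hU2Φ hcU2, hcU, hi.symm, hcmove⟩
    · rw [zpow_add, zpow_mul, zpow_ofNat, pow_two, hww, one_zpow, one_mul, zpow_one] at hi
      refine ⟨c * b, (frattini Q).mul_mem (hU2Φ hcU2) (hUΦ hbU), fun h => hcU ?_, ?_, fun g => ?_⟩
      · have := U.mul_mem h (U.inv_mem hbU)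
        rwa [mul_inv_cancel_right] at this
      · calc c * b * (c * b) = c * (b * c) * b := by group
          _ = (c * c) * (b * b) := by rw [hbc.eq]; group
          _ = 1 := by rw [← hi, hbb, hww]
      · have h1 : g * (c * b) * g⁻¹ * (c * b)⁻¹ =
            (g * c * g⁻¹ * c⁻¹) * (c * (g * b * g⁻¹ * b⁻¹) * c⁻¹) := by group
        rw [h1]
        refine U.mul_mem (hcmove g) ?_
        exact hUn.conj_mem _ ((hU ▸ le_sup_left : zpowers w ≤ U) (hbmove g)) c
  have hsB : s ∈ B := hcenΦ s hsΦ fun g => by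
    refine hsmallU _ (hsmove g) ?_
    have hgs : g * s * g⁻¹ * (g * s * g⁻¹) = 1 := by
      calc g * s * g⁻¹ * (g * s * g⁻¹) = g * (s * s) * g⁻¹ := by group
        _ = 1 := by rw [hss]; group
    have hsi : s⁻¹ = s := inv_eq_of_mul_eq_one_right hss
    have hcomm : Commute (g * s * g⁻¹ * s⁻¹) s := by
      obtain ⟨j, hj⟩ := hUmem _ (hsmove g)
      rw [hj]
      obtain ⟨b', hb', hbe⟩ := hbB
      have h := congrArg Subtype.val (mem_center_iff.1 hb' ⟨s, hsΦ⟩)
      have hbs : Commute b s := by rw [← hbe]; exact h.symm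
      exact hbs.zpow_left j
    calc g * s * g⁻¹ * s⁻¹ * (g * s * g⁻¹ * s⁻¹)
        = (g * s * g⁻¹ * s⁻¹) * s * ((s⁻¹ * (g * s * g⁻¹ * s⁻¹) * s) * s⁻¹) := by group
      _ = (g * s * g⁻¹ * s⁻¹) * s * ((g * s * g⁻¹ * s⁻¹) * s⁻¹) := by
          rw [mul_assoc s⁻¹, hcomm.eq, inv_mul_cancel_left]
      _ = (g * s * g⁻¹) * ((g * s * g⁻¹) * (s⁻¹ * s⁻¹)) := by group
      _ = 1 := by rw [hsi, hss, mul_one, hgs]
  rcases hinv s hsB hss with rfl | rfl
  · exact hsU (one_mem _)
  · exact hsU ((hU ▸ le_sup_left : zpowers s ≤ U) (mem_zpowers _))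


variable {G : Type*} [Group G]

/-- The properties of `(z, O_2(C(z)))` used in the proof. -/
structure Good (z : G) (Q : Subgroup G) : Prop where
  ord : z * z = 1
  ne : z ≠ 1
  mem : z ∈ Q
  normal : ∀ h : G, h * z = z * h → ∀ q ∈ Q, h * q * h⁻¹ ∈ Q
  le : ∀ q ∈ Q, q * z = z * q
  sq : ∀ q ∈ Q, q * q = 1 ∨ q * q = z
  comm : ∀ a ∈ Q, ∀ b ∈ Q, a * b = b * a ∨ a * b = z * (b * a)
  cen : ∀ h : G, h * z = z * h → (∀ q ∈ Q, h * q = q * h) → h ∈ Q
  cinv : ∀ w ∈ Q, (∀ q ∈ Q, w * q = q * w) → w * w = 1 → w = 1 ∨ w = z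
  two : (∀ h : G, h * z = z * h → ∃ k, h ^ 2 ^ k = 1) → ∀ h : G, h * z = z * h → h ∈ Q

theorem exists_moving {z z' : G} {Q : Subgroup G} (hQ : Good z Q) (hin : z' ∈ Q) (h1 : z' ≠ 1)
    (hne : z' ≠ z) (hsq : z' * z' = 1) : ∃ u ∈ Q, u * z' * u⁻¹ = z * z' := by
  by_contra h
  push Not at h
  have : ∀ q ∈ Q, z' * q = q * z' := fun q hq => by
    rcases hQ.comm q hq z' hin with e | e
    · exact e.symm
    · refine absurd ?_ (h q hq)
      rw [e]; group
  rcases hQ.cinv z' hin this hsq with e | e
  · exact h1 e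
  · exact hne e

theorem mem_conj [Finite G] {z z' : G} {Q Q' : Subgroup G} (hQ : Good z Q) (hQ' : Good z' Q') (g : G)
    (hg : g * z * g⁻¹ = z') (hQQ' : ∀ q ∈ Q, g * q * g⁻¹ ∈ Q') (hin : z' ∈ Q) (hne : z' ≠ z) :
    z ∈ Q' := by
  classical
  obtain ⟨u, hu, huz⟩ := exists_moving hQ hin hQ'.ne hne hQ'.ord
  by_contra hz
  have hzz' : z' * z = z * z' := hQ.le z' hin
  -- nothing in `Q'` moves `z` to `z * z'`
  have hno : ∀ t ∈ Q', t * z * t⁻¹ ≠ z * z' := by
    intro t ht hte
    apply hz
    have hxz : (u * t) * z * (u * t)⁻¹ = z' := by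
      calc (u * t) * z * (u * t)⁻¹ = u * (t * z * t⁻¹) * u⁻¹ := by group
        _ = (u * z * u⁻¹) * (u * z' * u⁻¹) := by rw [hte]; group
        _ = z * (z * z') := by rw [hQ.le u hu, huz]; group
        _ = z' := by rw [← mul_assoc, hQ.ord, one_mul]
    have hxz' : (u * t) * z' * (u * t)⁻¹ = z * z' := by
      calc (u * t) * z' * (u * t)⁻¹ = u * (t * z' * t⁻¹) * u⁻¹ := by group
        _ = u * z' * u⁻¹ := by rw [hQ'.le t ht, mul_inv_cancel_right]
        _ = _ := huz
    have hk : (g⁻¹ * (u * t)) * z = z * (g⁻¹ * (u * t)) := by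
      calc g⁻¹ * (u * t) * z = g⁻¹ * ((u * t) * z * (u * t)⁻¹) * (u * t) := by group
        _ = z * (g⁻¹ * (u * t)) := by rw [hxz, ← hg]; group
    have h1 := hQQ' _ (hQ.normal _ hk z' hin)
    have h2 : z * z' ∈ Q' := by
      rw [← hxz']
      convert h1 using 1
      group
    have := Q'.mul_mem h2 (Q'.inv_mem hQ'.mem)
    rwa [mul_inv_cancel_right] at this
  have hT2 : ∀ v ∈ Q', (z * v * z⁻¹ * v⁻¹ = 1 ∨ z * v * z⁻¹ * v⁻¹ = z') → v * z = z * v := by
    intro v hv h
    rcases h with h | h
    · rw [mul_inv_eq_one, mul_inv_eq_iff_eq_mul] at h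
      exact h.symm
    · exfalso
      apply hno v hv
      have e : v * z⁻¹ * v⁻¹ = z⁻¹ * z' := by rw [← h]; group
      rw [inv_eq_of_mul_eq_one_right hQ.ord] at e
      exact e
  have hA : ∀ a ∈ Q, a ∈ Q' → a = 1 ∨ a = z' := by
    intro a ha ha'
    have haR : ∀ r ∈ Q, r * z' = z' * r → r * a = a * r := by
      intro r hr hrz'
      rcases hQ.comm r hr a ha with e | e
      · exact e
      · exfalso
        apply hz
        have h1 := Q'.mul_mem (hQ'.normal r hrz' a ha') (Q'.inv_mem ha')
        have h2 : r * a * r⁻¹ * a⁻¹ = z := by rw [e]; group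
        rwa [h2] at h1
    have hcent : ∀ b ∈ Q, b ∈ Q' → (∀ r ∈ Q, r * z' = z' * r → r * b = b * r) → b * u = u * b → b = 1 := by
      intro b hb hb' hbR hbu
      have hball : ∀ q ∈ Q, b * q = q * b := by
        intro q hq
        rcases hQ.comm q hq z' hin with e | e
        · exact (hbR q hq e).symm
        · have h1 : (u⁻¹ * q) * z' = z' * (u⁻¹ * q) := by
            have : u⁻¹ * (z * z') * u = z' := by rw [← huz]; group
            calc u⁻¹ * q * z' = u⁻¹ * (z * z') * q := by rw [mul_assoc, e]; group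
              _ = z' * (u⁻¹ * q) := by
                nth_rewrite 2 [← this]
                group
          have h2 := hbR _ (Q.mul_mem (Q.inv_mem hu) hq) h1
          calc b * q = (b * u) * (u⁻¹ * q) := by group
            _ = u * (b * (u⁻¹ * q)) := by rw [hbu, mul_assoc]
            _ = q * b := by rw [← h2]; group
      have hbb : b * b = 1 := (hQ.sq b hb).resolve_right fun e => hz (e ▸ Q'.mul_mem hb' hb')
      exact (hQ.cinv b hb hball hbb).resolve_right fun e => hz (e ▸ hb')
    rcases hQ.comm a ha u hu with e | e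
    · exact Or.inl (hcent a ha ha' haR e)
    · right
      have h := hcent (a * z') (Q.mul_mem ha hin) (Q'.mul_mem ha' hQ'.mem) (fun r hr hrz' => by
        rw [← mul_assoc, haR r hr hrz', mul_assoc, hrz', ← mul_assoc]) ?_
      · rw [mul_eq_one_iff_eq_inv, inv_eq_of_mul_eq_one_right hQ'.ord] at h
        exact h
      · have h3 : z' * u = z * (u * z') := by
          have : u * z' = z * z' * u := by rw [← huz]; group
          rw [this, ← mul_assoc, ← mul_assoc, hQ.ord, one_mul]
        calc a * z' * u = a * (z' * u) := mul_assoc _ _ _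
          _ = (a * z) * (u * z') := by rw [h3, mul_assoc]
          _ = z * (a * u) * z' := by rw [hQ.le a ha]; group
          _ = (z * z) * (u * a) * z' := by rw [e]; group
          _ = u * (a * z') := by rw [hQ.ord]; group
  -- action of `R = Q ∩ C(z')` on `Q'`
  have hact : ∀ r ∈ Q, r * z' = z' * r → ∀ t ∈ Q', t * z = z * t →
      r * t * r⁻¹ = t ∨ r * t * r⁻¹ = t * z' := by
    intro r hr hrz' t ht htz
    have h1 : t⁻¹ * (r * t * r⁻¹) ∈ Q' := Q'.mul_mem (Q'.inv_mem ht) (hQ'.normal r hrz' t ht)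
    have h2 : t⁻¹ * (r * t * r⁻¹) ∈ Q := by
      have h := Q.mul_mem (hQ.normal t⁻¹ ((show Commute t z from htz).inv_left).eq r hr) (Q.inv_mem hr)
      simpa [mul_assoc] using h
    rcases hA _ h2 h1 with e | e
    · exact Or.inl (inv_mul_eq_one.1 e).symm
    · exact Or.inr (inv_mul_eq_iff_eq_mul.1 e)
  have hstep : ∀ r ∈ Q, r * z' = z' * r → ∀ q ∈ Q', ∃ d ∈ Q', d * z = z * d ∧ r * q * r⁻¹ = q * d := by
    intro r hr hrz' q hq
    have hzq : z * q * z⁻¹ ∈ Q' := hQ'.normal z hzz'.symm q hq
    let w := z * q * z⁻¹ * q⁻¹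
    have hw : w ∈ Q' := Q'.mul_mem hzq (Q'.inv_mem hq)
    have hwz : w * z = z * w := by
      refine hT2 w hw ?_
      have e : z * w * z⁻¹ * w⁻¹ = (w * w)⁻¹ := by
        calc z * w * z⁻¹ * w⁻¹ = (z * z) * q * (z⁻¹ * q⁻¹ * z⁻¹) * w⁻¹ := by simp only [w]; group
          _ = q * (z * q⁻¹ * z⁻¹) * w⁻¹ := by
            simp only [hQ.ord, one_mul, inv_eq_of_mul_eq_one_right hQ.ord, mul_assoc]
          _ = _ := by simp only [w]; group
      rcases hQ'.sq w hw with h | h
      · exact Or.inl (by rw [e, h, inv_one])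
      · exact Or.inr (by rw [e, h, inv_eq_of_mul_eq_one_right hQ'.ord])
    have hd : q⁻¹ * (r * q * r⁻¹) ∈ Q' := Q'.mul_mem (Q'.inv_mem hq) (hQ'.normal r hrz' q hq)
    refine ⟨_, hd, hT2 _ hd ?_, by group⟩
    have hrz : r * z = z * r := hQ.le r hr
    have e1 : z * (r * q * r⁻¹) * z⁻¹ * (r * q * r⁻¹)⁻¹ = r * w * r⁻¹ := by
      calc z * (r * q * r⁻¹) * z⁻¹ * (r * q * r⁻¹)⁻¹
          = (z * r) * q * (r⁻¹ * z⁻¹) * (r * q⁻¹ * r⁻¹) := by group
        _ = (r * z) * q * (z⁻¹ * r⁻¹) * (r * q⁻¹ * r⁻¹) := by rw [hrz, ← mul_inv_rev z r, ← mul_inv_rev r z, hrz]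
        _ = r * w * r⁻¹ := by simp only [w]; group
    have e2 : z * (q⁻¹ * (r * q * r⁻¹)) * z⁻¹ * (q⁻¹ * (r * q * r⁻¹))⁻¹ = q⁻¹ * (w⁻¹ * (r * w * r⁻¹)) * q := by
      rw [← e1]; simp only [w]; group
    rw [e2]
    rcases hact r hr hrz' w hw hwz with h | h
    · left; rw [h]; group
    · right
      rw [h, inv_mul_cancel_left]
      have h' := hQ'.le q hq
      rw [mul_assoc, ← h', inv_mul_cancel_left]
  have hcase : (∃ r ∈ Q, r * z' = z' * r ∧ r * r = z) ∨
      (∃ r ∈ Q, r * z' = z' * r ∧ ∃ s ∈ Q, s * z' = z' * s ∧ r * s = z * (s * r)) := by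
    by_contra hsmall
    push Not at hsmall
    obtain ⟨hsq1, hcomm1⟩ := hsmall
    -- then `C(z)` is a 2-group equal to `Q`
    have hR : ∀ r ∈ Q, r * z' = z' * r → r = 1 ∨ r = z ∨ r = z' ∨ r = z * z' := by
      intro r hr hrz'
      have hrr : r * r = 1 := (hQ.sq r hr).resolve_right (hsq1 r hr hrz')
      have hRc : ∀ s ∈ Q, s * z' = z' * s → r * s = s * r := fun s hs hsz' =>
        (hQ.comm r hr s hs).resolve_right (hcomm1 r hr hrz' s hs hsz')
      have key : ∀ b ∈ Q, (∀ s ∈ Q, s * z' = z' * s → b * s = s * b) → b * u = u * b → b * b = 1 →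
          b = 1 ∨ b = z := by
        intro b hb hbR hbu hbb
        refine hQ.cinv b hb (fun q hq => ?_) hbb
        rcases hQ.comm q hq z' hin with e | e
        · exact hbR q hq e
        · have h1 : (u⁻¹ * q) * z' = z' * (u⁻¹ * q) := by
            have : u⁻¹ * (z * z') * u = z' := by rw [← huz]; group
            calc u⁻¹ * q * z' = u⁻¹ * (z * z') * q := by rw [mul_assoc, e]; group
              _ = z' * (u⁻¹ * q) := by
                nth_rewrite 2 [← this]
                group
          have h2 := hbR _ (Q.mul_mem (Q.inv_mem hu) hq) h1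
          calc b * q = (b * u) * (u⁻¹ * q) := by group
            _ = u * (b * (u⁻¹ * q)) := by rw [hbu, mul_assoc]
            _ = q * b := by rw [h2]; group
      rcases hQ.comm r hr u hu with e | e
      · rcases key r hr hRc e hrr with h | h
        · exact Or.inl h
        · exact Or.inr (Or.inl h)
      · have h := key (r * z') (Q.mul_mem hr hin) (fun s hs hsz' => by
          rw [mul_assoc, ← hsz', ← mul_assoc, hRc s hs hsz', mul_assoc]) ?_ ?_
        · rcases h with h | h
          · refine Or.inr (Or.inr (Or.inl ?_))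
            rw [mul_eq_one_iff_eq_inv, inv_eq_of_mul_eq_one_right hQ'.ord] at h; exact h
          · refine Or.inr (Or.inr (Or.inr ?_))
            rw [← h, mul_assoc, hQ'.ord, mul_one]
        · have h3 : z' * u = z * (u * z') := by
            have : u * z' = z * z' * u := by rw [← huz]; group
            rw [this, ← mul_assoc, ← mul_assoc, hQ.ord, one_mul]
          calc r * z' * u = r * (z' * u) := mul_assoc _ _ _
            _ = (r * z) * (u * z') := by rw [h3, mul_assoc]
            _ = z * (r * u) * z' := by rw [hQ.le r hr]; group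
            _ = (z * z) * (u * r) * z' := by rw [e]; group
            _ = u * (r * z') := by rw [hQ.ord]; group
        · calc r * z' * (r * z') = r * (z' * r) * z' := by group
            _ = (r * r) * (z' * z') := by rw [← hrz']; group
            _ = 1 := by rw [hrr, hQ'.ord, one_mul]
    obtain ⟨y, hy, hyy, hyz⟩ : ∃ y ∈ Q, y * y = z ∧ y * z' = z * z' * y := by
      have huz2 : u * z' = z * z' * u := by rw [← huz]; group
      rcases hQ.sq u hu with e | e
      · refine ⟨u * z', Q.mul_mem hu hin, ?_, ?_⟩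
        · calc u * z' * (u * z') = (z * z' * u) * (u * z') := congrArg (· * (u * z')) huz2
            _ = z * z' * (u * u) * z' := by group
            _ = z := by rw [e, mul_one, mul_assoc, hQ'.ord, mul_one]
        · exact (congrArg (· * z') huz2).trans (by group)
      · exact ⟨u, hu, e, huz2⟩
    have hQmem : ∀ q ∈ Q, q = 1 ∨ q = z ∨ q = z' ∨ q = z * z' ∨ q = y ∨ q = y * z ∨ q = y * z' ∨ q = y * (z * z') := by
      intro q hq
      rcases hQ.comm q hq z' hin with e | e
      · rcases hR q hq e with h | h | h | h <;> simp [h]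
      · have h1 : (y⁻¹ * q) * z' = z' * (y⁻¹ * q) := by
          have : y⁻¹ * (z * z') * y = z' := by rw [mul_assoc, ← hyz, inv_mul_cancel_left]
          calc y⁻¹ * q * z' = y⁻¹ * (z * z') * q := by rw [mul_assoc, e]; group
            _ = z' * (y⁻¹ * q) := by
              nth_rewrite 2 [← this]
              group
        rcases hR _ (Q.mul_mem (Q.inv_mem hy) hq) h1 with h | h | h | h <;>
          simp [inv_mul_eq_iff_eq_mul.1 h]
    have hyz0 : y * z = z * y := hQ.le y hy
    have hyz' : y * z' * (y * z') = 1 := by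
      calc y * z' * (y * z') = (y * z') * y * z' := by group
        _ = z * z' * (y * y) * z' := by rw [hyz]; group
        _ = z * (z' * z) * z' := by rw [hyy]; group
        _ = (z * z) * (z' * z') := by rw [hzz']; group
        _ = 1 := by rw [hQ.ord, hQ'.ord, one_mul]
    have hyzz' : y * (z * z') * (y * (z * z')) = 1 := by
      calc y * (z * z') * (y * (z * z')) = (y * z) * z' * ((y * z) * z') := by group
        _ = z * (y * z') * (z * (y * z')) := by rw [hyz0]; group
        _ = z * ((y * z') * z) * (y * z') := by group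
        _ = z * z * ((y * z') * (y * z')) := by rw [hQ.le _ (Q.mul_mem hy hin)]; group
        _ = 1 := by rw [hQ.ord, hyz', one_mul]
    have hodd : ∀ h : G, h * z = z * h → Odd (orderOf h) → h = 1 := by
      intro h hhz ho
      have hy1 : ∀ k : G, k * z = z * k → k * y * k⁻¹ = y ∨ k * y * k⁻¹ = y * z := by
        intro k hk
        have hsq : k * y * k⁻¹ * (k * y * k⁻¹) = z := by
          calc k * y * k⁻¹ * (k * y * k⁻¹) = k * (y * y) * k⁻¹ := by group
            _ = z := by rw [hyy, hk, mul_inv_cancel_right]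
        rcases hQmem _ (hQ.normal k hk y hy) with e | e | e | e | e | e | e | e
        · exact absurd (by rw [e, mul_one] at hsq; exact hsq.symm) hQ.ne
        · exact absurd (by rw [e, hQ.ord] at hsq; exact hsq.symm) hQ.ne
        · exact absurd (by rw [e, hQ'.ord] at hsq; exact hsq.symm) hQ.ne
        · exfalso
          rw [e, show z * z' * (z * z') = z * (z' * z) * z' by group, hzz',
            show z * (z * z') * z' = (z * z) * (z' * z') by group, hQ.ord, hQ'.ord, one_mul] at hsq
          exact hQ.ne hsq.symm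
        · exact Or.inl e
        · exact Or.inr e
        · exact absurd (by rw [e, hyz'] at hsq; exact hsq.symm) hQ.ne
        · exact absurd (by rw [e, hyzz'] at hsq; exact hsq.symm) hQ.ne
      have hh2 : ∀ k : G, k * z = z * k → (k * k) * y * (k * k)⁻¹ = y := by
        intro k hk
        rcases hy1 k hk with e | e
        · calc (k * k) * y * (k * k)⁻¹ = k * (k * y * k⁻¹) * k⁻¹ := by group
            _ = y := by rw [e, e]
        · calc (k * k) * y * (k * k)⁻¹ = k * (k * y * k⁻¹) * k⁻¹ := by group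
            _ = (k * y * k⁻¹) * (k * z * k⁻¹) := by nth_rewrite 1 [e]; group
            _ = y := by rw [e, hk, mul_inv_cancel_right, mul_assoc, hQ.ord, mul_one]
      have hhh : (h * h) * z = z * (h * h) := ((show Commute h z from hhz).mul_left hhz).eq
      have hz'1 : ∀ k : G, k * z = z * k → k * y * k⁻¹ = y → (k * k) * z' * (k * k)⁻¹ = z' ∨
          (k * k) * z' * (k * k)⁻¹ = z * z' := by
        intro k hk hky
        have hsq : k * z' * k⁻¹ * (k * z' * k⁻¹) = 1 := by
          calc k * z' * k⁻¹ * (k * z' * k⁻¹) = k * (z' * z') * k⁻¹ := by group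
            _ = 1 := by rw [hQ'.ord]; group
        have e0 : (k * k) * z' * (k * k)⁻¹ = k * (k * z' * k⁻¹) * k⁻¹ := by group
        rcases hQmem _ (hQ.normal k hk z' hin) with e | e | e | e | e | e | e | e
        · exact absurd (conj_eq_one_iff.1 e) hQ'.ne
        · exfalso
          apply hne
          have h1 : k * z' * k⁻¹ = k * z * k⁻¹ := by rw [e, hk, mul_inv_cancel_right]
          simpa using h1
        · left; rw [e0, e, e]
        · left
          rw [e0, e, show k * (z * z') * k⁻¹ = (k * z * k⁻¹) * (k * z' * k⁻¹) by group, e, hk,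
            mul_inv_cancel_right, ← mul_assoc, hQ.ord, one_mul]
        · exfalso; rw [e, hyy] at hsq; exact hQ.ne hsq
        · exfalso
          rw [e, show y * z * (y * z) = y * (z * y) * z by group, ← hyz0,
            show y * (y * z) * z = (y * y) * (z * z) by group, hyy, hQ.ord, mul_one] at hsq
          exact hQ.ne hsq
        · right
          rw [e0, e, show k * (y * z') * k⁻¹ = (k * y * k⁻¹) * (k * z' * k⁻¹) by group, e, hky,
            ← mul_assoc, hyy]
        · right
          rw [e0, e, show k * (y * (z * z')) * k⁻¹ = (k * y * k⁻¹) * ((k * z * k⁻¹) * (k * z' * k⁻¹)) by group,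
            e, hky, hk, mul_inv_cancel_right]
          calc y * (z * (y * (z * z'))) = y * ((z * y) * (z * z')) := by group
            _ = (y * y) * ((z * z) * z') := by rw [← hyz0]; group
            _ = z * z' := by rw [hyy, hQ.ord, one_mul]
      have h4z : ∀ k : G, k * z = z * k → (k * k) * z' * (k * k)⁻¹ = z * z' →
          (k * k) * (k * k) * z' * ((k * k) * (k * k))⁻¹ = z' := by
        intro k hk e
        have hkk : (k * k) * z = z * (k * k) := ((show Commute k z from hk).mul_left hk).eq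
        rw [show (k * k) * (k * k) * z' * ((k * k) * (k * k))⁻¹ = (k * k) * ((k * k) * z' * (k * k)⁻¹) * (k * k)⁻¹ by group,
          e, show (k * k) * (z * z') * (k * k)⁻¹ = ((k * k) * z * (k * k)⁻¹) * ((k * k) * z' * (k * k)⁻¹) by group,
          e, hkk, mul_inv_cancel_right, ← mul_assoc, hQ.ord, one_mul]
      -- a 2-power of `h` centralizes `Q`
      let m := h * h
      have hm : m * y * m⁻¹ = y := hh2 h hhz
      let n := m * m * (m * m)
      have hmm : (m * m) * z = z * (m * m) := ((show Commute m z from hhh).mul_left hhh).eq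
      have hnz : n * z = z * n := ((show Commute (m * m) z from hmm).mul_left hmm).eq
      have hny : n * y = y * n := by
        have hmy : Commute m y := mul_inv_eq_iff_eq_mul.1 hm
        exact ((hmy.mul_left hmy).mul_left (hmy.mul_left hmy)).eq
      have hnz' : n * z' = z' * n := by
        rcases hz'1 m hhh hm with e | e
        · have hmz : Commute (m * m) z' := mul_inv_eq_iff_eq_mul.1 e
          exact (hmz.mul_left hmz).eq
        · exact mul_inv_eq_iff_eq_mul.1 (h4z m hhh e)
      have hnall : ∀ q ∈ Q, n * q = q * n := by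
        intro q hq
        have c1 : Commute n z := hnz
        have c2 : Commute n z' := hnz'
        have c3 : Commute n y := hny
        rcases hQmem q hq with rfl | rfl | rfl | rfl | rfl | rfl | rfl | rfl
        · rw [mul_one, one_mul]
        · exact c1.eq
        · exact c2.eq
        · exact (c1.mul_right c2).eq
        · exact c3.eq
        · exact (c3.mul_right c1).eq
        · exact (c3.mul_right c2).eq
        · exact (c3.mul_right (c1.mul_right c2)).eq
      have hnQ := hQ.cen n hnz hnall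
      have hn4 : h ^ 32 = 1 := by
        have hq4 : ∀ q ∈ Q, q * q * (q * q) = 1 := fun q hq => by
          rcases hQ.sq q hq with e | e <;> rw [e]
          · exact one_mul 1
          · exact hQ.ord
        rw [← hq4 n hnQ]
        simp only [n, m, pow_succ, pow_zero, one_mul, mul_assoc]
      have h1 : orderOf h ∣ 2 ^ 5 := orderOf_dvd_of_pow_eq_one (by norm_num; exact hn4)
      exact orderOf_eq_one_iff.1 (Nat.eq_one_of_dvd_coprimes (Nat.Coprime.pow_right 5 ho.coprime_two_right)
        dvd_rfl h1)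
    have hC : ∀ h : G, h * z = z * h → h ∈ Q := hQ.two fun h hh => by
      obtain ⟨k, m, hm, hkm⟩ := Nat.exists_eq_two_pow_mul_odd (orderOf_pos h).ne'
      refine ⟨k, hodd _ ((show Commute h z from hh).pow_left _).eq ?_⟩
      rw [orderOf_pow_of_dvd (by positivity) ⟨m, hkm⟩, hkm, Nat.mul_div_cancel_left _ (by positivity)]
      exact hm
    apply hz
    have h1 : (g⁻¹ * z * g) * z = z * (g⁻¹ * z * g) := by
      calc g⁻¹ * z * g * z = g⁻¹ * (z * (g * z * g⁻¹)) * g := by group
        _ = g⁻¹ * ((g * z * g⁻¹) * z) * g := by rw [hg, hzz']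
        _ = z * (g⁻¹ * z * g) := by group
    have := hQQ' _ (hC _ h1)
    simpa [mul_assoc] using this
  have hQ'z : ∀ q ∈ Q', q * z = z * q := by
    intro q hq
    have hfin : ∀ d e : G, d ∈ Q' → e ∈ Q' → d * z = z * d → e * z = z * e → z * (q * d) * z⁻¹ = q * e →
        (d * e⁻¹ = 1 ∨ d * e⁻¹ = z' ∨ e * d⁻¹ = z') → q * z = z * q := by
      intro d e hd he hdz hez h hde
      refine hT2 q hq ?_
      have h2 : z * q * z⁻¹ * q⁻¹ = q * (e * d⁻¹) * q⁻¹ := by
        have : z * q * z⁻¹ = z * (q * d) * z⁻¹ * (z * d⁻¹ * z⁻¹) := by group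
        rw [this, h, show z * d⁻¹ * z⁻¹ = d⁻¹ by
          rw [← (show Commute d z from hdz).inv_left.eq, mul_inv_cancel_right]]
        group
      have hc : ∀ f : G, f = 1 ∨ f = z' → q * f * q⁻¹ = f := by
        rintro f (rfl | rfl)
        · group
        · rw [hQ'.le q hq, mul_inv_cancel_right]
      rcases hde with h3 | h3 | h3
      · rw [h2, mul_inv_eq_one.1 h3]; left; group
      · have h4 : e * d⁻¹ = z' := by
          rw [← inv_eq_of_mul_eq_one_right hQ'.ord, ← h3]; group
        rw [h2, h4]; exact Or.inr (hc _ (Or.inr rfl))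
      · rw [h2, h3]; exact Or.inr (hc _ (Or.inr rfl))
    rcases hcase with ⟨r, hr, hrz', hrr⟩ | ⟨r, hr, hrz', s, hs, hsz', hrs⟩
    · obtain ⟨d, hd, hdz, hqd⟩ := hstep r hr hrz' q hq
      refine hfin 1 (d * (r * d * r⁻¹)) Q'.one_mem (Q'.mul_mem hd (hQ'.normal r hrz' d hd)) (by group)
        ((show Commute d z from hdz).mul_left ((show Commute r z from hQ.le r hr).mul_left hdz |>.mul_left
          (show Commute r z from hQ.le r hr).inv_left)).eq ?_ ?_
      · calc z * (q * 1) * z⁻¹ = r * (r * q * r⁻¹) * r⁻¹ := by rw [← hrr]; group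
          _ = (r * q * r⁻¹) * (r * d * r⁻¹) := by nth_rewrite 1 [hqd]; group
          _ = _ := by rw [hqd]; group
      · rcases hact r hr hrz' d hd hdz with e | e <;> rw [e]
        · rcases hQ'.sq d hd with f | f <;> rw [f]
          · left; group
          · right; right; group
        · rw [← mul_assoc]
          rcases hQ'.sq d hd with f | f <;> rw [f]
          · right; right; group
          · left; rw [hQ'.ord]; group
    · obtain ⟨d, hd, hdz, hqd⟩ := hstep r hr hrz' q hq
      obtain ⟨e, he, hez, hqe⟩ := hstep s hs hsz' q hq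
      have cr : Commute r z := hQ.le r hr
      have cs : Commute s z := hQ.le s hs
      refine hfin (e * (s * d * s⁻¹)) (d * (r * e * r⁻¹)) (Q'.mul_mem he (hQ'.normal s hsz' d hd))
        (Q'.mul_mem hd (hQ'.normal r hrz' e he))
        ((show Commute e z from hez).mul_left ((cs.mul_left hdz).mul_left cs.inv_left)).eq
        ((show Commute d z from hdz).mul_left ((cr.mul_left hez).mul_left cr.inv_left)).eq ?_ ?_
      · calc z * (q * (e * (s * d * s⁻¹))) * z⁻¹ = z * ((s * q * s⁻¹) * (s * d * s⁻¹)) * z⁻¹ := by rw [hqe]; group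
          _ = z * (s * (r * q * r⁻¹) * s⁻¹) * z⁻¹ := by rw [hqd]; group
          _ = (z * (s * r)) * q * (z * (s * r))⁻¹ := by group
          _ = (r * q * r⁻¹) * (r * e * r⁻¹) := by
            rw [← hrs]
            calc r * s * q * (r * s)⁻¹ = r * (s * q * s⁻¹) * r⁻¹ := by group
              _ = _ := by rw [hqe]; group
          _ = _ := by rw [hqd]; group
      · have hde : ∀ a ∈ Q', ∀ b ∈ Q', a * b = b * a ∨ a * b = z' * (b * a) := hQ'.comm
        have hz'c : ∀ a ∈ Q', Commute a z' := fun a ha => hQ'.le a ha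
        have hd' : s * d * s⁻¹ = d ∨ s * d * s⁻¹ = d * z' := hact s hs hsz' d hd hdz
        have he' : r * e * r⁻¹ = e ∨ r * e * r⁻¹ = e * z' := hact r hr hrz' e he hez
        have hz'i : z'⁻¹ = z' := inv_eq_of_mul_eq_one_right hQ'.ord
        have hbase : e * d * (d * e)⁻¹ = 1 ∨ e * d * (d * e)⁻¹ = z' := by
          rcases hde e he d hd with c | c
          · left; rw [c, mul_inv_cancel]
          · right; rw [c, mul_inv_cancel_right]
        rcases hd' with a | a <;> rcases he' with b | b <;> rw [a, b]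
        · rcases hbase with c | c
          · exact Or.inl c
          · exact Or.inr (Or.inl c)
        · have : e * d * (d * (e * z'))⁻¹ = e * d * (d * e)⁻¹ * z' := by
            calc e * d * (d * (e * z'))⁻¹ = e * d * (z'⁻¹ * (d * e)⁻¹) := by group
              _ = e * d * ((d * e)⁻¹ * z'⁻¹) := by rw [((hz'c _ (Q'.mul_mem hd he)).inv_inv).eq]
              _ = _ := by rw [hz'i]; group
          rw [this]
          rcases hbase with c | c <;> rw [c]
          · exact Or.inr (Or.inl (one_mul z'))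
          · exact Or.inl hQ'.ord
        · have : e * (d * z') * (d * e)⁻¹ = e * d * (d * e)⁻¹ * z' := by
            calc e * (d * z') * (d * e)⁻¹ = e * d * (z' * (d * e)⁻¹) := by group
              _ = e * d * ((d * e)⁻¹ * z') := by rw [((hz'c _ (Q'.inv_mem (Q'.mul_mem hd he)))).eq]
              _ = _ := by group
          rw [this]
          rcases hbase with c | c <;> rw [c]
          · exact Or.inr (Or.inl (one_mul z'))
          · exact Or.inl hQ'.ord
        · have : e * (d * z') * (d * (e * z'))⁻¹ = e * d * (d * e)⁻¹ := by group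
          rw [this]
          rcases hbase with c | c
          · exact Or.inl c
          · exact Or.inr (Or.inl c)
  exact hz (hQ'.cen z hzz'.symm fun q hq => (hQ'z q hq).symm)

/-- Let G be a finite group and let z be an involution of G such that Q, the generalized Fitting subgroup of the centralizer C of z, is a 2-group of symplectic type (every characteristic abelian subgroup of Q is cyclic); suppose every element of Q has order dividing 4. Let g ∈ G with z' = g z g⁻¹ ≠ z and z' ∈ Q. Then z lies in the conjugate g Q g⁻¹, and the subgroup X generated by Q and g Q g⁻¹ induces every automorphism of the four-group generated by z and z': for any two distinct non-identity elements u, v of that four-group there is x ∈ X with x z x⁻¹ = u and x z' x⁻¹ = v. -/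
theorem result {G : Type*} [Group G] [Finite G] (z : G) (hz : orderOf z = 2) (hQ : Cfsg.IsOfSymplecticType ↥(Cfsg.generalizedFittingSubgroup ↥(Subgroup.centralizer ({z} : Set G))))
    (h4 : ∀ q ∈ (Cfsg.generalizedFittingSubgroup ↥(Subgroup.centralizer ({z} : Set G))).map (Subgroup.centralizer ({z} : Set G)).subtype, q ^ 4 = 1) (g : G) (hne : g * z * g⁻¹ ≠ z) (hin : g * z * g⁻¹ ∈ (Cfsg.generalizedFittingSubgroup ↥(Subgroup.centralizer ({z} : Set G))).map (Subgroup.centralizer ({z} : Set G)).subtype) :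
    z ∈ ((Cfsg.generalizedFittingSubgroup ↥(Subgroup.centralizer ({z} : Set G))).map (Subgroup.centralizer ({z} : Set G)).subtype).map (MulAut.conj g).toMonoidHom ∧
      ∀ u ∈ Subgroup.closure ({z, g * z * g⁻¹} : Set G), ∀ v ∈ Subgroup.closure ({z, g * z * g⁻¹} : Set G),
        u ≠ 1 → v ≠ 1 → u ≠ v →
          ∃ x ∈ (Cfsg.generalizedFittingSubgroup ↥(Subgroup.centralizer ({z} : Set G))).map (Subgroup.centralizer ({z} : Set G)).subtype ⊔ ((Cfsg.generalizedFittingSubgroup ↥(Subgroup.centralizer ({z} : Set G))).map (Subgroup.centralizer ({z} : Set G)).subtype).map (MulAut.conj g).toMonoidHom, x * z * x⁻¹ = u ∧ x * (g * z * g⁻¹) * x⁻¹ = v := by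
  classical
  haveI := Fact.mk Nat.prime_two
  let C := Subgroup.centralizer ({z} : Set G)
  let F := Cfsg.generalizedFittingSubgroup ↥C
  let Q := F.map C.subtype
  show z ∈ Q.map (MulAut.conj g).toMonoidHom ∧ _
  have hzC : z ∈ C := Subgroup.mem_centralizer_singleton_iff.2 rfl
  have hmemC : ∀ h : G, h ∈ C ↔ h * z = z * h := fun h => Subgroup.mem_centralizer_singleton_iff
  have hzcen : (⟨z, hzC⟩ : C) ∈ Subgroup.center C := Subgroup.mem_center_iff.2 fun c =>
    Subtype.ext ((hmemC c).1 c.2)
  have hzF : (⟨z, hzC⟩ : C) ∈ F :=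
    Cfsg.Lib.Comp.fitting_le_fstar (Cfsg.Lib.ThreeT.center_le_fitting hzcen)
  haveI hFn : F.Normal := by
    show (Cfsg.generalizedFittingSubgroup ↥C).Normal
    unfold Cfsg.generalizedFittingSubgroup
    exact Subgroup.sup_normal _ _
  have hw : (⟨⟨z, hzC⟩, hzF⟩ : F) ∈ Subgroup.center F := Subgroup.mem_center_iff.2 fun c =>
    Subtype.ext (Subgroup.mem_center_iff.1 hzcen (c : C))
  have hwo : orderOf (⟨⟨z, hzC⟩, hzF⟩ : F) = 2 := by
    rw [Subgroup.orderOf_mk, Subgroup.orderOf_mk]; exact hz
  have hzz : z * z = 1 := by rw [← pow_two, ← hz, pow_orderOf_eq_one]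
  have h4F : ∀ q : F, q ^ 4 = 1 := fun q => Subtype.ext (Subtype.ext (by
    simpa using h4 _ ⟨(q : C), q.2, rfl⟩))
  have hsqF := sq_mem hQ h4F hw hwo
  have hgood : Good z Q :=
    { ord := hzz
      ne := fun e => by simp [e] at hz
      mem := ⟨_, hzF, rfl⟩
      normal := by
        rintro h hh _ ⟨q, hq, rfl⟩
        exact ⟨⟨h, (hmemC h).2 hh⟩ * q * ⟨h, (hmemC h).2 hh⟩⁻¹, hFn.conj_mem q hq _, rfl⟩
      le := by
        rintro _ ⟨q, hq, rfl⟩
        exact (hmemC q).1 q.2
      sq := by
        rintro _ ⟨q, hq, rfl⟩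
        rcases hsqF ⟨q, hq⟩ with e | e
        · left; exact congrArg (fun t : F => ((t : C) : G)) e
        · right; exact congrArg (fun t : F => ((t : C) : G)) e
      comm := by
        rintro _ ⟨a, ha, rfl⟩ _ ⟨b, hb, rfl⟩
        have key : ∀ a b : F, a * b = b * a ∨ a * b = ⟨⟨z, hzC⟩, hzF⟩ * (b * a) := by
          intro a b
          set w : F := ⟨⟨z, hzC⟩, hzF⟩
          have hwc : ∀ t : F, Commute t w := Subgroup.mem_center_iff.1 hw
          have hww : w * w = 1 := by rw [← pow_two, ← hwo, pow_orderOf_eq_one]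
          -- modulo the central `w` all squares are trivial
          let P := fun t : F => t = 1 ∨ t = w
          have hPm : ∀ s t : F, P s → P t → P (s * t) := by
            rintro s t (rfl | rfl) (rfl | rfl)
            · exact Or.inl (one_mul 1)
            · exact Or.inr (one_mul w)
            · exact Or.inr (mul_one w)
            · exact Or.inl hww
          have hPc : ∀ s t : F, P s → t * s * t⁻¹ = s := by
            rintro s t (rfl | rfl)
            · group
            · rw [(hwc t).eq, mul_inv_cancel_right]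
          have hPi : ∀ s : F, P s → P s⁻¹ := by
            rintro s (rfl | rfl)
            · exact Or.inl inv_one
            · exact Or.inr (inv_eq_of_mul_eq_one_right hww)
          have e : a * b * a⁻¹ * b⁻¹ = (a * b) * (a * b) * (b⁻¹ * (a * a)⁻¹ * b) * (b * b)⁻¹ := by group
          have hPe : P (a * b * a⁻¹ * b⁻¹) := by
            rw [e]
            refine hPm _ _ (hPm _ _ (hsqF _) ?_) (hPi _ (hsqF _))
            have := hPc _ b⁻¹ (hPi _ (hsqF a))
            rw [inv_inv] at this
            rw [this]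
            exact hPi _ (hsqF a)
          rcases hPe with h | h
          · left; rwa [mul_inv_eq_one, mul_inv_eq_iff_eq_mul] at h
          · right
            rw [mul_inv_eq_iff_eq_mul, mul_inv_eq_iff_eq_mul, mul_assoc] at h
            exact h
        rcases key ⟨a, ha⟩ ⟨b, hb⟩ with e | e
        · left; exact congrArg (fun t : F => ((t : C) : G)) e
        · right; exact congrArg (fun t : F => ((t : C) : G)) e
      cen := fun h hh hall => ⟨⟨h, (hmemC h).2 hh⟩, Cfsg.Lib.Comp.centralizer_fstar_le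
        (Subgroup.mem_centralizer_iff.2 fun q hq => Subtype.ext (hall _ ⟨q, hq, rfl⟩).symm), rfl⟩
      cinv := by
        rintro _ ⟨q, hq, rfl⟩ hall hqq
        by_cases hq1 : (q : G) = 1
        · exact Or.inl hq1
        right
        have hqc : (⟨q, hq⟩ : F) ∈ Subgroup.center F := Subgroup.mem_center_iff.2 fun t =>
          Subtype.ext (Subtype.ext (hall _ ⟨(t : C), t.2, rfl⟩).symm)
        have hqo : orderOf (⟨q, hq⟩ : F) = 2 := by
          rw [Subgroup.orderOf_mk, ← Subgroup.orderOf_coe]
          exact orderOf_eq_prime (by rw [pow_two]; exact hqq) hq1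
        have h := S1755.involution_eq_center hQ (Subgroup.center F) inferInstance inferInstance hqc hqo hw hwo
        exact congrArg (fun t : F => ((t : C) : G)) h
      two := by
        intro h2 h hh
        have hC : IsPGroup 2 C := fun c => by
          obtain ⟨k, hk⟩ := h2 c ((hmemC c).1 c.2)
          exact ⟨k, Subtype.ext (by simpa using hk)⟩
        refine ⟨⟨h, (hmemC h).2 hh⟩, ?_, rfl⟩
        exact Cfsg.Lib.Comp.fitting_le_fstar (Cfsg.Lib.Solv.le_fitting_of_isPGroup (p := 2) (N := (⊤ : Subgroup C))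
          (hC.to_subgroup ⊤) (Subgroup.mem_top _)) }
  let Q' := Q.map (MulAut.conj g).toMonoidHom
  have hmem' : ∀ x, x ∈ Q' ↔ g⁻¹ * x * g ∈ Q := by
    intro x
    constructor
    · rintro ⟨y, hy, rfl⟩; simpa [mul_assoc] using hy
    · exact fun h => ⟨_, h, by simp [mul_assoc]⟩
  have hcj : ∀ x : G, g⁻¹ * (g * x * g⁻¹) * g = x := fun x => by group
  have htr : ∀ a b : G, (g⁻¹ * a * g) * (g⁻¹ * b * g) = g⁻¹ * (a * b) * g := fun a b => by group
  have hinj : ∀ a b : G, g⁻¹ * a * g = g⁻¹ * b * g → a = b := fun a b h => by simpa using h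
  let z' := g * z * g⁻¹
  have hz'1 : g⁻¹ * z' * g = z := hcj z
  have hgood' : Good z' Q' :=
    { ord := by apply hinj; rw [← htr, hz'1, hzz]; group
      ne := fun e => hgood.ne (by rw [← hz'1, e]; group)
      mem := (hmem' _).2 (by rw [hz'1]; exact hgood.mem)
      normal := fun h hh q hq => (hmem' _).2 (by
        have h1 := hgood.normal (g⁻¹ * h * g) (by rw [← hz'1, htr, htr, hh]) _ ((hmem' q).1 hq)
        simpa [mul_assoc] using h1)
      le := fun q hq => hinj _ _ (by rw [← htr q z', ← htr z' q, hz'1]; exact hgood.le _ ((hmem' q).1 hq))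
      sq := fun q hq => by
        rcases hgood.sq _ ((hmem' q).1 hq) with e | e
        · left; apply hinj; rw [← htr, e]; group
        · right; apply hinj; rw [← htr, e, hz'1]
      comm := fun a ha b hb => by
        rcases hgood.comm _ ((hmem' a).1 ha) _ ((hmem' b).1 hb) with e | e
        · left; apply hinj; rwa [← htr, ← htr]
        · right; apply hinj; rw [← htr, ← htr z', ← htr b, hz'1]; exact e
      cen := fun h hh hall => (hmem' h).2 (hgood.cen _ (by rw [← hz'1, htr, htr, hh]) fun q hq => by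
        have h1 := hall (g * q * g⁻¹) ((hmem' _).2 (by rw [hcj]; exact hq))
        rw [← hcj q, htr, htr, h1])
      cinv := fun w hw hall hww => by
        rcases hgood.cinv _ ((hmem' w).1 hw) (fun q hq => by
          have h1 := hall (g * q * g⁻¹) ((hmem' _).2 (by rw [hcj]; exact hq))
          rw [← hcj q, htr, htr, h1]) (by rw [htr, hww]; group) with e | e
        · left; apply hinj; rw [e]; group
        · right; apply hinj; rw [e, hz'1]
      two := fun h2 h hh => (hmem' h).2 (hgood.two (fun k hk => by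
        obtain ⟨i, hi⟩ := h2 (g * k * g⁻¹) (hinj _ _ (by rw [← htr (g * k * g⁻¹) z', ← htr z' (g * k * g⁻¹), hcj, hz'1]; exact hk))
        rw [conj_pow, conj_eq_one_iff] at hi
        exact ⟨i, hi⟩) _ (by rw [← hz'1, htr, htr, hh])) }
  have hzQ' : z ∈ Q' := mem_conj hgood hgood' g rfl (fun q hq => ⟨q, hq, rfl⟩) hin hne
  refine ⟨hzQ', ?_⟩
  obtain ⟨a, ha, haz⟩ := exists_moving hgood hin hgood'.ne hne hgood'.ord
  obtain ⟨b, hb, hbz⟩ := exists_moving hgood' hzQ' hgood.ne hne.symm hzz
  have hzz' : z' * z = z * z' := hgood.le z' hin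
  rw [hzz'] at hbz
  let X := Q ⊔ Q'
  have haX : a ∈ X := Subgroup.mem_sup_left ha
  have hbX : b ∈ X := Subgroup.mem_sup_right hb
  have haz0 : a * z * a⁻¹ = z := by rw [hgood.le a ha, mul_inv_cancel_right]
  have hbz0 : b * z' * b⁻¹ = z' := by rw [hgood'.le b hb, mul_inv_cancel_right]
  have hcl : ∀ x ∈ Subgroup.closure ({z, z'} : Set G), x = 1 ∨ x = z ∨ x = z' ∨ x = z * z' := by
    let K : Subgroup G :=
      { carrier := {x | x = 1 ∨ x = z ∨ x = z' ∨ x = z * z'}
        one_mem' := Or.inl rfl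
        mul_mem' := fun {x y} hx hy => by
          have e1 : z * (z * z') = z' := by rw [← mul_assoc, hzz, one_mul]
          have e2 : z' * (z * z') = z := by rw [← mul_assoc, hzz', mul_assoc, hgood'.ord, mul_one]
          have e3 : z * z' * z = z' := by rw [mul_assoc, hzz', e1]
          have e4 : z * z' * z' = z := by rw [mul_assoc, hgood'.ord, mul_one]
          have e5 : z * z' * (z * z') = 1 := by rw [← mul_assoc, e3, hgood'.ord]
          rcases hx with rfl | rfl | rfl | rfl <;> rcases hy with rfl | rfl | rfl | rfl <;>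
            simp [hzz, hgood'.ord, e1, e2, e3, e4, e5, hzz']
        inv_mem' := fun {x} hx => by
          rcases hx with rfl | rfl | rfl | rfl
          · exact Or.inl inv_one
          · exact Or.inr (Or.inl (inv_eq_of_mul_eq_one_right hzz))
          · exact Or.inr (Or.inr (Or.inl (inv_eq_of_mul_eq_one_right hgood'.ord)))
          · refine Or.inr (Or.inr (Or.inr ?_))
            rw [mul_inv_rev, inv_eq_of_mul_eq_one_right hzz, inv_eq_of_mul_eq_one_right hgood'.ord, hzz'] }
    exact fun x hx => (Subgroup.closure_le K).2 (by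
      rintro y (rfl | rfl)
      · exact Or.inr (Or.inl rfl)
      · exact Or.inr (Or.inr (Or.inl rfl))) hx
  have haz' : a * (z * z') * a⁻¹ = z' := by
    rw [show a * (z * z') * a⁻¹ = (a * z * a⁻¹) * (a * z' * a⁻¹) by group, haz0, haz, ← mul_assoc, hzz, one_mul]
  have hbz' : b * (z * z') * b⁻¹ = z := by
    rw [show b * (z * z') * b⁻¹ = (b * z * b⁻¹) * (b * z' * b⁻¹) by group, hbz, hbz0, mul_assoc, hgood'.ord, mul_one]
  intro u hu v hv hu1 hv1 huv
  show ∃ x ∈ X, x * z * x⁻¹ = u ∧ x * z' * x⁻¹ = v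
  rcases hcl u hu with e | e | e | e <;> rcases hcl v hv with f | f | f | f <;>
    simp only [e, f] at hu1 hv1 huv ⊢ <;>
    first
      | exact absurd rfl hu1
      | exact absurd rfl hv1
      | exact absurd rfl huv
      | skip
  · exact ⟨1, X.one_mem, by group, by group⟩
  · exact ⟨a, haX, haz0, haz⟩
  · refine ⟨a * b * a, X.mul_mem (X.mul_mem haX hbX) haX, ?_, ?_⟩
    · calc a * b * a * z * (a * b * a)⁻¹ = a * (b * (a * z * a⁻¹) * b⁻¹) * a⁻¹ := by group
        _ = _ := by rw [haz0, hbz, haz']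
    · calc a * b * a * z' * (a * b * a)⁻¹ = a * (b * (a * z' * a⁻¹) * b⁻¹) * a⁻¹ := by group
        _ = _ := by rw [haz, hbz', haz0]
  · refine ⟨a * b, X.mul_mem haX hbX, ?_, ?_⟩
    · calc a * b * z * (a * b)⁻¹ = a * (b * z * b⁻¹) * a⁻¹ := by group
        _ = _ := by rw [hbz, haz']
    · calc a * b * z' * (a * b)⁻¹ = a * (b * z' * b⁻¹) * a⁻¹ := by group
        _ = _ := by rw [hbz0, haz]
  · refine ⟨b * a, X.mul_mem hbX haX, ?_, ?_⟩
    · calc b * a * z * (b * a)⁻¹ = b * (a * z * a⁻¹) * b⁻¹ := by group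
        _ = _ := by rw [haz0, hbz]
    · calc b * a * z' * (b * a)⁻¹ = b * (a * z' * a⁻¹) * b⁻¹ := by group
        _ = _ := by rw [haz, hbz']
  · exact ⟨b, hbX, hbz, hbz0⟩

end Cfsg.Agent.S1774
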