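import Cfsg.Statements.S1784
import Cfsg.Agent.Lib.Comp.FStar
import Cfsg.Agent.Lib.ThreeT.Components
import Cfsg.Agent.Lib.Solv.PGroupBasic
-- import your own Cfsg.Agent.* helpers here

set_option autoImplicit false
open Cfsg
open scoped commutatorElement

namespace Cfsg.Agent.S1784

open Subgroup

variable {G : Type*} [Group G] [Finite G]

/-- Enlarging a subgroup of an extraspecial group halves the centralizer at most as often as it doubles. -/
theorem card_mono (Q : Subgroup G) (z : G) (hz : z * z = 1)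
    (hcomm : ∀ a ∈ Q, ∀ b ∈ Q, a * b * a⁻¹ * b⁻¹ ∈ zpowers z) (D' : Subgroup G) (hD' : D' ≤ Q)
    (D : Subgroup G) (hD : D ≤ D') :
    Nat.card ↥(Q ⊓ centralizer (D : Set G)) * Nat.card D ≤
      Nat.card ↥(Q ⊓ centralizer (D' : Set G)) * Nat.card D' := by
  induction D using (wellFounded_gt (α := Subgroup G)).induction with
  | _ D ih =>
    rcases eq_or_lt_of_le hD with rfl | hlt
    · exact le_rfl
    obtain ⟨d, hd, hdD⟩ := SetLike.exists_of_lt hlt
    have hlt1 : D < D ⊔ zpowers d := lt_of_le_of_ne le_sup_left fun h =>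
      hdD (h ▸ mem_sup_right (mem_zpowers d))
    have h1 := ih _ hlt1 (sup_le hD (zpowers_le.2 hd))
    refine le_trans ?_ h1
    have hcard : 2 * Nat.card D ≤ Nat.card ↥(D ⊔ zpowers d) := by
      obtain ⟨c, hc⟩ := card_dvd_of_le hlt1.le
      have hne : Nat.card D ≠ Nat.card ↥(D ⊔ zpowers d) := fun h =>
        hlt1.ne (eq_of_le_of_card_ge hlt1.le h.ge)
      have hpos : 0 < Nat.card ↥(D ⊔ zpowers d) := Nat.card_pos
      rcases c with _ | _ | c
      · omega
      · omega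
      · rw [hc, mul_comm 2]
        exact Nat.mul_le_mul_left _ (by omega)
    let E := Q ⊓ centralizer (D : Set G)
    let E1 := E ⊓ centralizer ({d} : Set G)
    have hE1 : E1 ≤ Q ⊓ centralizer ((D ⊔ zpowers d : Subgroup G) : Set G) := fun x hx =>
      ⟨hx.1.1, le_centralizer_iff.1 (sup_le (le_centralizer_iff.1 ((inf_le_left.trans inf_le_right) : E1 ≤ centralizer (D : Set G)))
        (zpowers_le.2 (mem_centralizer_iff.2 fun y hy =>
          mem_centralizer_singleton_iff.1 ((inf_le_right : E1 ≤ centralizer ({d} : Set G)) hy))) : D ⊔ zpowers d ≤ centralizer ((E1 : Subgroup G) : Set G)) hx⟩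
    have hidx : Nat.card E ≤ 2 * Nat.card E1 := by
      by_cases hEd : E ≤ centralizer ({d} : Set G)
      · rw [show E1 = E from inf_eq_left.2 hEd]; omega
      obtain ⟨r, hrE, hr⟩ := SetLike.not_le_iff_exists.1 hEd
      have key : ∀ s ∈ E, s ∉ centralizer ({d} : Set G) → s * d * s⁻¹ = z * d := by
        intro s hs hsd
        obtain ⟨i, hi⟩ := hcomm s hs.1 d (hD' hd)
        change z ^ i = s * d * s⁻¹ * d⁻¹ at hi
        rcases Int.even_or_odd' i with ⟨j, rfl | rfl⟩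
        · exfalso
          rw [zpow_mul, zpow_ofNat, pow_two, hz, one_zpow] at hi
          refine hsd (mem_centralizer_singleton_iff.2 ?_)
          exact mul_inv_eq_iff_eq_mul.1 (mul_inv_eq_one.1 hi.symm)
        · rw [zpow_add, zpow_mul, zpow_ofNat, pow_two, hz, one_zpow, one_mul, zpow_one] at hi
          rw [hi, inv_mul_cancel_right]
      have hidx2 : (E1.subgroupOf E).index ≤ 2 := by
        refine le_of_eq (Subgroup.index_eq_two_iff.2 ⟨⟨r, hrE⟩, fun b => ?_⟩)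
        have hmem : ∀ x : E, x ∈ E1.subgroupOf E ↔ (x : G) ∈ centralizer ({d} : Set G) := fun x =>
          ⟨fun h => h.2, fun h => ⟨x.2, h⟩⟩
        simp only [hmem, Subgroup.coe_mul]
        by_cases hb : (b : G) ∈ centralizer ({d} : Set G)
        · refine Or.inr ⟨hb, fun h => hr ?_⟩
          have := mul_mem (inv_mem hb) h
          rwa [inv_mul_cancel_left] at this
        · refine Or.inl ⟨?_, hb⟩
          have h2 := key b b.2 hb
          have h3 := key r hrE hr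
          refine mem_centralizer_singleton_iff.2 (mul_inv_eq_iff_eq_mul.1 ?_)
          calc (b : G) * r * d * ((b : G) * r)⁻¹ = (b : G) * (r * d * r⁻¹) * (b : G)⁻¹ := by group
            _ = (b : G) * z * (b : G)⁻¹ * ((b : G) * d * (b : G)⁻¹) := by rw [h3]; group
            _ = (b : G) * z * (b : G)⁻¹ * z * d := by rw [h2, mul_assoc _ z d]
            _ = d := by
              have hzb : (b : G) * z * (b : G)⁻¹ * z⁻¹ = 1 ∨ (b : G) * z * (b : G)⁻¹ * z⁻¹ = z := by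
                have hzQ : z ∈ Q := by
                  rw [← mul_inv_cancel_right z d, ← h2]
                  exact Q.mul_mem (Q.mul_mem (Q.mul_mem b.2.1 (hD' hd)) (Q.inv_mem b.2.1)) (Q.inv_mem (hD' hd))
                obtain ⟨i, hi⟩ := hcomm b b.2.1 z hzQ
                change z ^ i = _ at hi
                rcases Int.even_or_odd' i with ⟨j, rfl | rfl⟩
                · left; rw [← hi, zpow_mul, zpow_ofNat, pow_two, hz, one_zpow]
                · right; rw [← hi, zpow_add, zpow_mul, zpow_ofNat, pow_two, hz, one_zpow, one_mul, zpow_one]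
              rcases hzb with e | e
              · rw [mul_inv_eq_one] at e
                rw [e, hz, one_mul]
              · exfalso
                rw [mul_inv_eq_iff_eq_mul, hz, conj_eq_one_iff] at e
                rw [e, one_mul] at h2
                exact hb (mem_centralizer_singleton_iff.2 (mul_inv_eq_iff_eq_mul.1 h2))
      have h2 := (E1.subgroupOf E).card_mul_index
      rw [Nat.card_congr (subgroupOfEquivOfLe inf_le_left).toEquiv] at h2
      rw [← h2, mul_comm 2]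
      exact Nat.mul_le_mul_left _ hidx2
    calc Nat.card E * Nat.card D ≤ 2 * Nat.card E1 * Nat.card D := Nat.mul_le_mul_right _ hidx
      _ = Nat.card E1 * (2 * Nat.card D) := by ring
      _ ≤ _ := Nat.mul_le_mul (card_le_of_le hE1) hcard

theorem double_centralizer (Q : Subgroup G) (z : G) (hzQ : z ∈ Q) (hz : z * z = 1)
    (hcomm : ∀ a ∈ Q, ∀ b ∈ Q, a * b * a⁻¹ * b⁻¹ ∈ zpowers z)
    (hcen : Q ⊓ centralizer (Q : Set G) = zpowers z) (D : Subgroup G) (hzD : z ∈ D) (hDQ : D ≤ Q) :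
    Q ⊓ centralizer ((Q ⊓ centralizer (D : Set G) : Subgroup G) : Set G) ≤ D := by
  let E := Q ⊓ centralizer (D : Set G)
  let F := Q ⊓ centralizer (E : Set G)
  have hDF : D ≤ F := le_inf hDQ (le_centralizer_iff.1 inf_le_right)
  have hQz : Q ≤ centralizer ((zpowers z : Subgroup G) : Set G) := by
    rw [← hcen]
    exact le_centralizer_iff.1 inf_le_right
  have h1 := card_mono Q z hz hcomm D hDQ (zpowers z) (zpowers_le.2 hzD)
  rw [inf_eq_left.2 hQz] at h1
  have h2 := card_mono Q z hz hcomm Q le_rfl F inf_le_left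
  rw [hcen] at h2
  have hEF : E ≤ Q ⊓ centralizer (F : Set G) := le_inf inf_le_left (le_centralizer_iff.1 inf_le_right)
  have h3 : Nat.card E * Nat.card F ≤ Nat.card E * Nat.card D :=
    calc Nat.card E * Nat.card F ≤ Nat.card ↥(Q ⊓ centralizer (F : Set G)) * Nat.card F :=
          Nat.mul_le_mul_right _ (card_le_of_le hEF)
      _ ≤ Nat.card (zpowers z) * Nat.card Q := h2
      _ = Nat.card Q * Nat.card (zpowers z) := mul_comm _ _
      _ ≤ _ := h1
  exact (eq_of_le_of_card_ge hDF (Nat.le_of_mul_le_mul_left h3 Nat.card_pos)).ge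


/-- Let G be a finite group and let z be an involution of G such that Q, the generalized Fitting subgroup of the centralizer C of z, is a 2-group of symplectic type (every characteristic abelian subgroup of Q is cyclic); suppose Q is extraspecial, and view Q inside G. Let α be an involution of C that is not in Q, and let Q₀ be the subgroup of those q ∈ Q whose commutator with α lies in the subgroup generated by z. Then (a) the subgroup generated by the commutators α q α⁻¹ q⁻¹, q ∈ Q, equals the centre of Q₀; and (b) if Q₀ is not contained in the product of the centralizer of α in Q with the subgroup generated by z, then some element of Q conjugates α to α z. -/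
theorem result {G : Type*} [Group G] [Finite G] (z : G) (hz : orderOf z = 2) (hQ : Cfsg.IsOfSymplecticType ↥(Cfsg.generalizedFittingSubgroup ↥(Subgroup.centralizer ({z} : Set G)))) (hE : Cfsg.IsExtraspecial 2 ↥(Cfsg.generalizedFittingSubgroup ↥(Subgroup.centralizer ({z} : Set G))))
    (α : G) (hα : orderOf α = 2) (hαC : α ∈ Subgroup.centralizer ({z} : Set G)) (hαQ : α ∉ (Cfsg.generalizedFittingSubgroup ↥(Subgroup.centralizer ({z} : Set G))).map (Subgroup.centralizer ({z} : Set G)).subtype)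
    (Q₀ : Subgroup G) (hQ₀ : ∀ q : G, q ∈ Q₀ ↔ (q ∈ (Cfsg.generalizedFittingSubgroup ↥(Subgroup.centralizer ({z} : Set G))).map (Subgroup.centralizer ({z} : Set G)).subtype ∧ α * q * α⁻¹ * q⁻¹ ∈ Subgroup.zpowers z)) :
    Subgroup.closure ((fun q : G => α * q * α⁻¹ * q⁻¹) '' ((Cfsg.generalizedFittingSubgroup ↥(Subgroup.centralizer ({z} : Set G))).map (Subgroup.centralizer ({z} : Set G)).subtype : Set G)) = (Subgroup.center ↥Q₀).map Q₀.subtype ∧
      (¬ Q₀ ≤ ((Cfsg.generalizedFittingSubgroup ↥(Subgroup.centralizer ({z} : Set G))).map (Subgroup.centralizer ({z} : Set G)).subtype ⊓ Subgroup.centralizer ({α} : Set G)) ⊔ Subgroup.zpowers z →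
        ∃ q ∈ (Cfsg.generalizedFittingSubgroup ↥(Subgroup.centralizer ({z} : Set G))).map (Subgroup.centralizer ({z} : Set G)).subtype, q * α * q⁻¹ = α * z) := by
  classical
  haveI := Fact.mk Nat.prime_two
  set C := Subgroup.centralizer ({z} : Set G) with hC
  set F := Cfsg.generalizedFittingSubgroup ↥C with hF
  have hzC : z ∈ C := Subgroup.mem_centralizer_singleton_iff.2 rfl
  have hzcen : (⟨z, hzC⟩ : C) ∈ Subgroup.center C := Subgroup.mem_center_iff.2 fun g =>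
    Subtype.ext (Subgroup.mem_centralizer_singleton_iff.1 g.2)
  have hzF : (⟨z, hzC⟩ : C) ∈ F :=
    Cfsg.Lib.Comp.fitting_le_fstar (Cfsg.Lib.ThreeT.center_le_fitting hzcen)
  set Q := F.map C.subtype with hQdef
  have hzQ : z ∈ Q := ⟨_, hzF, rfl⟩
  have hzz : z * z = 1 := by rw [← pow_two, ← hz, pow_orderOf_eq_one]
  have hαα : α * α = 1 := by rw [← pow_two, ← hα, pow_orderOf_eq_one]
  have hαi : α⁻¹ = α := inv_eq_of_mul_eq_one_right hαα
  have hαz : α * z = z * α := Subgroup.mem_centralizer_singleton_iff.1 hαC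
  obtain ⟨⟨hFp, hFr, hFc⟩, hFcard⟩ := hE
  have hzFc : (⟨⟨z, hzC⟩, hzF⟩ : F) ∈ Subgroup.center F := Subgroup.mem_center_iff.2 fun g =>
    Subtype.ext (Subgroup.mem_center_iff.1 hzcen (g : C))
  have hcenF : Subgroup.center F = Subgroup.zpowers (⟨⟨z, hzC⟩, hzF⟩ : F) := by
    refine (Subgroup.eq_of_le_of_card_ge (Subgroup.zpowers_le.2 hzFc) ?_).symm
    rw [hFcard, Nat.card_zpowers, Subgroup.orderOf_mk, Subgroup.orderOf_mk, hz]
  have hdown : ∀ w : F, w ∈ Subgroup.center F → ((w : C) : G) ∈ Subgroup.zpowers z := by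
    intro w hw
    rw [hcenF] at hw
    obtain ⟨i, rfl⟩ := hw
    exact ⟨i, by simp⟩
  have hcomm : ∀ a ∈ Q, ∀ b ∈ Q, a * b * a⁻¹ * b⁻¹ ∈ Subgroup.zpowers z := by
    rintro _ ⟨a, ha, rfl⟩ _ ⟨b, hb, rfl⟩
    exact hdown (⟨a, ha⟩ * ⟨b, hb⟩ * (⟨a, ha⟩ : F)⁻¹ * (⟨b, hb⟩ : F)⁻¹) (hFc ▸
      (Subgroup.commutator_mem_commutator (Subgroup.mem_top _) (Subgroup.mem_top _) :
        ⁅(⟨a, ha⟩ : F), (⟨b, hb⟩ : F)⁆ ∈ _root_.commutator F))
  have hsq : ∀ a ∈ Q, a * a ∈ Subgroup.zpowers z := by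
    rintro _ ⟨a, ha, rfl⟩
    exact hdown (⟨a, ha⟩ * ⟨a, ha⟩) (hFr ▸ pow_two (⟨a, ha⟩ : F) ▸ Cfsg.Lib.Solv.pow_mem_frattini hFp _)
  have hcen : Q ⊓ Subgroup.centralizer (Q : Set G) = Subgroup.zpowers z := by
    refine le_antisymm ?_ ?_
    · rintro _ ⟨⟨a, ha, rfl⟩, hac⟩
      refine hdown ⟨a, ha⟩ (Subgroup.mem_center_iff.2 fun g => Subtype.ext (Subtype.ext ?_))
      exact Subgroup.mem_centralizer_iff.1 hac _ ⟨_, g.2, rfl⟩
    · rw [Subgroup.zpowers_le]
      refine ⟨hzQ, Subgroup.mem_centralizer_iff.2 ?_⟩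
      rintro _ ⟨a, ha, rfl⟩
      exact Subgroup.mem_centralizer_singleton_iff.1 a.2
  have hαQn : ∀ q ∈ Q, α * q * α⁻¹ ∈ Q := by
    rintro _ ⟨a, ha, rfl⟩
    refine ⟨⟨α, hαC⟩ * a * ⟨α, hαC⟩⁻¹, ?_, rfl⟩
    have hn : F.Normal := by
      rw [hF]; unfold Cfsg.generalizedFittingSubgroup
      exact Subgroup.sup_normal _ _
    exact hn.conj_mem a ha _
  have hzpfix : ∀ w ∈ Subgroup.zpowers z, α * w * α⁻¹ = w := by
    rintro _ ⟨i, rfl⟩
    rw [← conj_zpow, hαz, mul_inv_cancel_right]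
  have hcZ : ∀ w ∈ Subgroup.zpowers z, ∀ x ∈ Q, x * w = w * x := fun w hw x hx =>
    (Subgroup.mem_centralizer_iff.1 (hcen.ge hw).2 x hx)
  -- commuting with a commutator
  have key : ∀ q ∈ Q, ∀ r ∈ Q, (α * q * α⁻¹ * q⁻¹) * r = r * (α * q * α⁻¹ * q⁻¹) ↔
      q * (α * r * α⁻¹ * r⁻¹) = (α * r * α⁻¹ * r⁻¹) * q := by
    intro q hq r hr
    let e := fun a b : G => a * b * a⁻¹ * b⁻¹
    have he : ∀ a b : G, e a b = 1 ↔ a * b = b * a := fun a b => by
      show a * b * a⁻¹ * b⁻¹ = 1 ↔ _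
      rw [mul_inv_eq_one, mul_inv_eq_iff_eq_mul]
    have hd : α * q * α⁻¹ * q⁻¹ ∈ Q := Q.mul_mem (hαQn q hq) (Q.inv_mem hq)
    have hu : α * r * α⁻¹ * r⁻¹ ∈ Q := Q.mul_mem (hαQn r hr) (Q.inv_mem hr)
    have h1 : e (α * q * α⁻¹) r = e q r * e (α * q * α⁻¹ * q⁻¹) r := by
      have h := hcZ (e q r) (hcomm q hq r hr) _ hd
      show α * q * α⁻¹ * r * (α * q * α⁻¹)⁻¹ * r⁻¹ = _
      calc α * q * α⁻¹ * r * (α * q * α⁻¹)⁻¹ * r⁻¹
          = (α * q * α⁻¹ * q⁻¹) * e q r * (r * (α * q * α⁻¹ * q⁻¹)⁻¹ * r⁻¹) := by simp only [e]; group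
        _ = e q r * e (α * q * α⁻¹ * q⁻¹) r := by rw [h]; simp only [e]; group
    have h2 : e q (α * r * α⁻¹) = e q (α * r * α⁻¹ * r⁻¹) * e q r := by
      have h := hcZ (e q r) (hcomm q hq r hr) _ hu
      show q * (α * r * α⁻¹) * q⁻¹ * (α * r * α⁻¹)⁻¹ = _
      calc q * (α * r * α⁻¹) * q⁻¹ * (α * r * α⁻¹)⁻¹
          = q * (α * r * α⁻¹ * r⁻¹) * q⁻¹ * (e q r * (α * r * α⁻¹ * r⁻¹)⁻¹) := by simp only [e]; group
        _ = e q (α * r * α⁻¹ * r⁻¹) * e q r := by
          have h' : (α * r * α⁻¹ * r⁻¹)⁻¹ * e q r = e q r * (α * r * α⁻¹ * r⁻¹)⁻¹ :=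
            (show Commute (α * r * α⁻¹ * r⁻¹) (e q r) from h).inv_left.eq
          rw [← h']; simp only [e]; group
    have h3 : e (α * q * α⁻¹) r = e q (α * r * α⁻¹) := by
      have h := hzpfix _ (hcomm q hq _ (hαQn r hr))
      have e1 : e (α * q * α⁻¹) r = α * e q (α⁻¹ * r * α) * α⁻¹ := by simp only [e]; group
      have e2 : α⁻¹ * r * α = α * r * α⁻¹ := by rw [hαi]
      rw [e1, e2]
      exact h
    have hmain : e q (α * r * α⁻¹ * r⁻¹) = e (α * q * α⁻¹ * q⁻¹) r := by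
      rw [h3, h2] at h1
      have h := hcZ (e q r) (hcomm q hq r hr) _ (show e (α * q * α⁻¹ * q⁻¹) r ∈ Q from
        Q.mul_mem (Q.mul_mem (Q.mul_mem hd hr) (Q.inv_mem hd)) (Q.inv_mem hr))
      rw [← h, mul_left_inj] at h1
      exact h1
    rw [← he, ← he, hmain]
  let D := Subgroup.closure ((fun q : G => α * q * α⁻¹ * q⁻¹) '' (Q : Set G))
  have hDQ : D ≤ Q := (Subgroup.closure_le _).2 (by
    rintro _ ⟨q, hq, rfl⟩
    exact Q.mul_mem (hαQn q hq) (Q.inv_mem hq))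
  have hQ0C : ∀ r ∈ Q, r ∈ Subgroup.centralizer (D : Set G) ↔ r ∈ Q₀ := by
    intro r hr
    have hu : α * r * α⁻¹ * r⁻¹ ∈ Q := Q.mul_mem (hαQn r hr) (Q.inv_mem hr)
    rw [hQ₀]
    constructor
    · intro h
      refine ⟨hr, hcen.le ⟨hu, Subgroup.mem_centralizer_iff.2 fun q hq => (key q hq r hr).1 ?_⟩⟩
      exact Subgroup.mem_centralizer_iff.1 h _ (Subgroup.subset_closure ⟨q, hq, rfl⟩)
    · rintro ⟨-, h⟩
      have hle : D ≤ Subgroup.centralizer ({r} : Set G) := (Subgroup.closure_le _).2 (by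
        rintro _ ⟨q, hq, rfl⟩
        exact Subgroup.mem_centralizer_singleton_iff.2 ((key q hq r hr).2 (hcZ _ h q hq)))
      exact Subgroup.mem_centralizer_iff.2 fun d hd => Subgroup.mem_centralizer_singleton_iff.1 (hle hd)
  have hDQ0 : D ≤ Q₀ := (Subgroup.closure_le _).2 (by
    rintro _ ⟨q, hq, rfl⟩
    have hd : α * q * α⁻¹ * q⁻¹ ∈ Q := Q.mul_mem (hαQn q hq) (Q.inv_mem hq)
    rw [SetLike.mem_coe, hQ₀]
    refine ⟨hd, ?_⟩
    have e : α * (α * q * α⁻¹ * q⁻¹) * α⁻¹ * (α * q * α⁻¹ * q⁻¹)⁻¹ =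
        ((α * q * α⁻¹ * q⁻¹) * (α * q * α⁻¹ * q⁻¹))⁻¹ := by
      calc α * (α * q * α⁻¹ * q⁻¹) * α⁻¹ * (α * q * α⁻¹ * q⁻¹)⁻¹
          = (α * α) * q * α⁻¹ * q⁻¹ * α⁻¹ * (α * q * α⁻¹ * q⁻¹)⁻¹ := by group
        _ = q * α * q⁻¹ * α⁻¹ * (α * q * α⁻¹ * q⁻¹)⁻¹ := by rw [hαα, one_mul]; nth_rewrite 1 [hαi]; rfl
        _ = _ := by group
    rw [e]
    exact inv_mem (hsq _ hd))
  have hne : ∃ q ∈ Q, α * q ≠ q * α := by
    by_contra h
    push Not at h
    have h1 : (⟨α, hαC⟩ : C) ∈ Subgroup.centralizer (F : Set C) := Subgroup.mem_centralizer_iff.2 fun a ha =>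
      Subtype.ext (h _ ⟨a, ha, rfl⟩).symm
    exact hαQ ⟨_, Cfsg.Lib.Comp.centralizer_fstar_le h1, rfl⟩
  have hzD : z ∈ D := by
    obtain ⟨q, hq, hqn⟩ := hne
    let d := α * q * α⁻¹ * q⁻¹
    have hdD : d ∈ D := Subgroup.subset_closure ⟨q, hq, rfl⟩
    have hd1 : d ≠ 1 := fun h => hqn (by rwa [mul_inv_eq_one, mul_inv_eq_iff_eq_mul] at h)
    by_cases hdz : d ∈ Subgroup.zpowers z
    · obtain ⟨i, hi⟩ := hdz
      change z ^ i = d at hi
      rcases Int.even_or_odd' i with ⟨j, rfl | rfl⟩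
      · exfalso; rw [zpow_mul, zpow_ofNat, pow_two, hzz, one_zpow] at hi; exact hd1 hi.symm
      · rw [zpow_add, zpow_mul, zpow_ofNat, pow_two, hzz, one_zpow, one_mul, zpow_one] at hi
        rw [hi]; exact hdD
    obtain ⟨r, hr, hrd⟩ : ∃ r ∈ Q, r * d * r⁻¹ * d⁻¹ ≠ 1 := by
      by_contra h
      push Not at h
      refine hdz (hcen.le ⟨hDQ hdD, Subgroup.mem_centralizer_iff.2 fun r hr => ?_⟩)
      have := h r hr
      rwa [mul_inv_eq_one, mul_inv_eq_iff_eq_mul] at this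
    have hnorm : r * d * r⁻¹ ∈ D := by
      have h1 : α * (r * q) * α⁻¹ * (r * q)⁻¹ = (α * r * α⁻¹ * r⁻¹) * (r * d * r⁻¹) := by
        simp only [d]; group
      have h2 : α * (r * q) * α⁻¹ * (r * q)⁻¹ ∈ D := Subgroup.subset_closure ⟨r * q, Q.mul_mem hr hq, rfl⟩
      have h3 : α * r * α⁻¹ * r⁻¹ ∈ D := Subgroup.subset_closure ⟨r, hr, rfl⟩
      have := D.mul_mem (D.inv_mem h3) h2
      rwa [h1, inv_mul_cancel_left] at this
    obtain ⟨i, hi⟩ := hcomm r hr d (hDQ hdD)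
    change z ^ i = _ at hi
    rcases Int.even_or_odd' i with ⟨j, rfl | rfl⟩
    · exfalso; rw [zpow_mul, zpow_ofNat, pow_two, hzz, one_zpow] at hi; exact hrd hi.symm
    · rw [zpow_add, zpow_mul, zpow_ofNat, pow_two, hzz, one_zpow, one_mul, zpow_one] at hi
      rw [hi]; exact D.mul_mem hnorm (D.inv_mem hdD)
  refine ⟨le_antisymm ?_ ?_, fun hnle => ?_⟩
  · intro d hd
    refine ⟨⟨d, hDQ0 hd⟩, Subgroup.mem_center_iff.2 fun g => Subtype.ext ?_, rfl⟩
    have hgQ : (g : G) ∈ Q := ((hQ₀ g).1 g.2).1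
    exact (Subgroup.mem_centralizer_iff.1 ((hQ0C g hgQ).2 g.2) d hd).symm
  · rintro _ ⟨d, hd, rfl⟩
    have hdQ : (d : G) ∈ Q := ((hQ₀ d).1 d.2).1
    refine double_centralizer Q z hzQ hzz hcomm hcen D hzD hDQ ⟨hdQ, Subgroup.mem_centralizer_iff.2 fun r hr => ?_⟩
    exact congrArg Subtype.val (Subgroup.mem_center_iff.1 hd ⟨r, (hQ0C r hr.1).1 hr.2⟩)
  · obtain ⟨q, hq0, hqn⟩ := SetLike.not_le_iff_exists.1 hnle
    obtain ⟨hqQ, hqz⟩ := (hQ₀ q).1 hq0
    refine ⟨q, hqQ, ?_⟩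
    obtain ⟨i, hi⟩ := hqz
    change z ^ i = _ at hi
    rcases Int.even_or_odd' i with ⟨j, rfl | rfl⟩
    · exfalso
      rw [zpow_mul, zpow_ofNat, pow_two, hzz, one_zpow, eq_comm, mul_inv_eq_one, mul_inv_eq_iff_eq_mul] at hi
      exact hqn (Subgroup.mem_sup_left ⟨hqQ, Subgroup.mem_centralizer_singleton_iff.2 hi.symm⟩)
    · rw [zpow_add, zpow_mul, zpow_ofNat, pow_two, hzz, one_zpow, one_mul, zpow_one] at hi
      rw [hi, hαi]
      calc q * α * q⁻¹ = (α * α) * q * α * q⁻¹ := by rw [hαα, one_mul]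
        _ = α * (α * q * α * q⁻¹) := by simp only [mul_assoc]

end Cfsg.Agent.S1784
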