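import Cfsg.Statements.S1892
import Mathlib
import Cfsg.Agent.Lib.Solv.Coprime2
import Cfsg.Agent.Lib.PLocal.Constraint
-- import your own Cfsg.Agent.* helpers here

set_option autoImplicit false
open Cfsg

open scoped commutatorElement
namespace Cfsg.Agent.S1892

/-- Let S be a finite p-solvable group with no nontrivial normal subgroup of order prime to p, A a p-subgroup of S, and Q a nontrivial A-invariant subgroup of order prime to p with [A, Q] = Q. Then the commutator [O_p(S), A, Q] is nontrivial. -/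
theorem result {S : Type*} [Group S] [Finite S] {p : ℕ} [Fact p.Prime]
    (hS : Cfsg.IsPSolvable p S) (hred : Cfsg.pPrimeCore p S = ⊥)
    (A Q : Subgroup S) (hA : IsPGroup p A) (hQ : ¬ p ∣ Nat.card Q) (hQ1 : Q ≠ ⊥)
    (hinv : ∀ a ∈ A, ∀ x ∈ Q, a * x * a⁻¹ ∈ Q) (hAQ : ⁅A, Q⁆ = Q) :
    ⁅⁅Cfsg.pCore p S, A⁆, Q⁆ ≠ ⊥ := by
  intro h
  haveI := Cfsg.Lib.Transfer.pCore_normal (G := S) p
  set O := Cfsg.pCore p S with hO
  set U := ⁅O, A⁆ with hU
  have hUQ : U ≤ Subgroup.centralizer (Q : Set S) := Subgroup.commutator_eq_bot_iff_le_centralizer.1 h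
  have hUO : U ≤ O := Subgroup.commutator_le_left O A
  have hAU : A ≤ Subgroup.normalizer (U : Set S) := Cfsg.Lib.Solv.le_normalizer_commutator_right O A
  have hAO : ∀ a ∈ A, ∀ o ∈ O, a * o * a⁻¹ * o⁻¹ ∈ U := fun a ha o ho => by
    have := inv_mem (Subgroup.commutator_mem_commutator ho ha (H₁ := O) (H₂ := A))
    simpa [commutatorElement_def, mul_assoc] using this
  have hQU : ∀ q ∈ Q, ∀ u ∈ U, q * u = u * q := fun q hq u hu => Subgroup.mem_centralizer_iff.1 (hUQ hu) q hq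
  let W : Subgroup S :=
    { carrier := {g | g ∈ Subgroup.centralizer (U : Set S) ∧ ∀ o ∈ O, g * o * g⁻¹ * o⁻¹ ∈ U}
      one_mem' := ⟨one_mem _, fun o _ => by simp⟩
      mul_mem' := fun {g g'} hg hg' => ⟨mul_mem hg.1 hg'.1, fun o ho => by
        have h1 := hg'.2 o ho
        have h2 := hg.2 o ho
        rw [show g * g' * o * (g * g')⁻¹ * o⁻¹ = (g * (g' * o * g'⁻¹ * o⁻¹) * g⁻¹) * (g * o * g⁻¹ * o⁻¹) by group,
          show g * (g' * o * g'⁻¹ * o⁻¹) * g⁻¹ = g' * o * g'⁻¹ * o⁻¹ by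
            rw [← Subgroup.mem_centralizer_iff.1 hg.1 _ h1]; group]
        exact mul_mem h1 h2⟩
      inv_mem' := fun {g} hg => ⟨inv_mem hg.1, fun o ho => by
        have ho' : g⁻¹ * o * g ∈ O := by
          have := (inferInstance : O.Normal).conj_mem o ho g⁻¹; rwa [inv_inv] at this
        have h1 := inv_mem (hg.2 _ ho')
        rw [show g⁻¹ * o * g⁻¹⁻¹ * o⁻¹ = (g * (g⁻¹ * o * g) * g⁻¹ * (g⁻¹ * o * g)⁻¹)⁻¹ by group]
        exact h1⟩ }
  have hle : Q ≤ W := by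
    rw [← hAQ, Subgroup.commutator_le]
    intro a ha q hq
    have hQmem : a * q * a⁻¹ * q⁻¹ ∈ Q := mul_mem (hinv a ha q hq) (inv_mem hq)
    refine ⟨Subgroup.mem_centralizer_iff.2 fun u hu => (hQU _ hQmem u hu).symm, fun o ho => ?_⟩
    rw [commutatorElement_def]
    set o₁ := q⁻¹ * o * q with ho₁
    have ho₁O : o₁ ∈ O := by
      have := (inferInstance : O.Normal).conj_mem o ho q⁻¹; rwa [inv_inv] at this
    set u₁ := a⁻¹ * o₁ * a⁻¹⁻¹ * o₁⁻¹ with hu₁
    have hu₁U : u₁ ∈ U := hAO _ (inv_mem ha) _ ho₁O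
    have e : a * q * a⁻¹ * q⁻¹ * o * (a * q * a⁻¹ * q⁻¹)⁻¹ * o⁻¹ =
        (a * u₁ * a⁻¹) * (a * o * a⁻¹ * o⁻¹) := by
      calc _ = a * (q * (u₁ * o₁) * q⁻¹) * a⁻¹ * o⁻¹ := by rw [hu₁, ho₁]; group
        _ = a * ((q * u₁) * o₁ * q⁻¹) * a⁻¹ * o⁻¹ := by group
        _ = a * ((u₁ * q) * o₁ * q⁻¹) * a⁻¹ * o⁻¹ := by rw [hQU q hq _ hu₁U]
        _ = _ := by rw [ho₁]; group
    rw [e]
    exact mul_mem ((Subgroup.mem_normalizer_iff.1 (hAU ha) _).1 hu₁U) (hAO a ha o ho)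
  have hOQ : ⁅O, Q⁆ ≤ U := Subgroup.commutator_le.2 fun o ho q hq => by
    have := inv_mem ((hle hq).2 o ho)
    simpa [commutatorElement_def, mul_assoc] using this
  have hp : IsPGroup p ↥O := Cfsg.Lib.Solv.isPGroup_pCore p
  haveI : Group.IsNilpotent ↥O := hp.isNilpotent
  obtain ⟨n, hn⟩ := IsPGroup.iff_card.1 hp
  have hcop : (Nat.card Q).Coprime (Nat.card ↥O) := by
    rw [hn]; exact ((Fact.out : p.Prime).coprime_iff_not_dvd.2 hQ).symm.pow_right n
  have hbot := Cfsg.Lib.Solv.centralizes_of_commutator_commutator_eq_bot Q O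
    (by rw [Subgroup.normalizer_eq_top]; exact le_top) hcop (Or.inr inferInstance)
    (le_bot_iff.1 ((Subgroup.commutator_mono hOQ le_rfl).trans h.le))
  have hQO : Q ≤ O := by
    refine le_trans ?_ (fun g hg => Cfsg.Lib.PLocal.selfCentralizingCore_of_pSolvable hS hred hg)
    rw [Subgroup.le_centralizer_iff]
    exact Subgroup.commutator_eq_bot_iff_le_centralizer.1 hbot
  exact hQ1 (Subgroup.card_eq_one.1 (Nat.eq_one_of_dvd_coprimes hcop dvd_rfl (Subgroup.card_dvd_of_le hQO)))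

end Cfsg.Agent.S1892
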