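import Cfsg.Statements.S1894
import Mathlib
import Cfsg.Agent.Lib.Transfer.PGroupNormal
-- import your own Cfsg.Agent.* helpers here

set_option autoImplicit false
open Cfsg

namespace Cfsg.Agent.S1894

/-- Let P be a finite p-group, A a normal subgroup of P and B an abelian subgroup of A that is normal in P. Then some subgroup C of A containing B is normal in P and is self-centralizing and normal in A (C ∈ SCN(A)). -/
theorem result {P : Type*} [Group P] [Finite P] {p : ℕ} [Fact p.Prime] (hP : IsPGroup p P)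
    (A : Subgroup P) [A.Normal] (B : Subgroup P) [B.Normal] (hBA : B ≤ A) (hB : IsMulCommutative B) :
    ∃ C : Subgroup P, C.Normal ∧ B ≤ C ∧ Cfsg.IsSCN A C := by
  obtain ⟨C, ⟨hCn, hBC, hCA, hCc⟩, hmax⟩ := (Set.toFinite {C : Subgroup P |
    C.Normal ∧ B ≤ C ∧ C ≤ A ∧ IsMulCommutative C}).exists_maximal ⟨B, inferInstance, le_rfl, hBA, hB⟩
  refine ⟨C, hCn, hBC, hCA, ?_, ?_⟩
  · rw [Subgroup.normalizer_eq_top]
    exact le_top
  haveI := hCc
  haveI := hCn
  have hle : C ≤ A ⊓ Subgroup.centralizer (C : Set P) := le_inf hCA (Subgroup.le_centralizer C)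
  by_contra hne
  obtain ⟨B', b, hBn, hCB, hB'le, -, hb, hbC, hBeq, -⟩ :=
    Cfsg.Lib.Transfer.exists_normal_step hP C _ (lt_of_le_of_ne hle (Ne.symm hne))
  have hB'C : B' ≤ Subgroup.centralizer (C : Set P) := hB'le.trans inf_le_right
  have hcen : B' ≤ Subgroup.centralizer (B' : Set P) := by
    refine Subgroup.le_centralizer_iff.1 ?_
    conv_lhs => rw [hBeq]
    refine sup_le (Subgroup.le_centralizer_iff.1 hB'C) (Subgroup.zpowers_le.2 ?_)
    have hb' : B' ≤ Subgroup.centralizer ({b} : Set P) := by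
      rw [hBeq]
      refine sup_le (fun a ha => ?_) (Subgroup.zpowers_le.2 (Subgroup.mem_centralizer_singleton_iff.2 rfl))
      exact Subgroup.mem_centralizer_singleton_iff.2 (Subgroup.mem_centralizer_iff.1 (hB'C hb) a ha)
    exact Subgroup.mem_centralizer_iff.2 fun y hy => Subgroup.mem_centralizer_singleton_iff.1 (hb' hy)
  exact hbC (hmax ⟨hBn, hBC.trans hCB, hB'le.trans inf_le_left,
    Subgroup.le_centralizer_iff_isMulCommutative.1 hcen⟩ hCB hb)

end Cfsg.Agent.S1894
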