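import Cfsg.Statements.S1897
import Cfsg.Agent.Lib.Classical.PSLSeven
import Cfsg.Agent.Lib.Classical.U33Check
-- import your own Cfsg.Agent.* helpers here

set_option autoImplicit false
open Cfsg

namespace Cfsg.Agent.S1897
open Cfsg.Lib.Classical.U33Data

instance : Fact (Nat.Prime 3) := ⟨Nat.prime_three⟩
instance : Fact (Nat.Prime 7) := ⟨by norm_num⟩

theorem mat_ext {R : Type*} {A C : Matrix (Fin 3) (Fin 3) R} (h : ∀ i j, A i j = C i j) : A = C := Matrix.ext h

abbrev L := GL (Fin 3) (ZMod 2)

noncomputable def bits (g : L) : B := fun i j => g.1 i j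

theorem bits_det (g : L) : detB (bits g) ≠ 0 := by
  have h := ((Matrix.isUnit_iff_isUnit_det g.1).1 g.isUnit).ne_zero
  rw [Matrix.det_fin_three] at h
  exact h

theorem bits_mul (g h : L) : bits (g * h) = mulB (bits g) (bits h) := by
  funext i j
  simp [bits, mulB, Matrix.mul_apply, Fin.sum_univ_three]

theorem bits_one : bits (1 : L) = oneB := by
  funext i j
  simp [bits, oneB, Matrix.one_apply]

theorem bits_inj : Function.Injective bits := fun g h e =>
  Units.ext (mat_ext fun i j => congrFun (congrFun e i) j)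

noncomputable def genL (s : Fin 2) : L :=
  Matrix.GeneralLinearGroup.mkOfDetNeZero (Matrix.of (gen s)) (by
    rw [Matrix.det_fin_three]
    exact gen_det s)

theorem bits_gen (s : Fin 2) : bits (genL s) = gen s := rfl

theorem addP_eq (x y : P) : addP x y = (x.1 + y.1, x.2 + y.2) := rfl

theorem pair_norm : ∀ z : P, z.1 * z.1 + z.2 * z.2 = 0 → z = (0, 0) := by decide

variable {F : Type*} [Field F] [Fintype F]

theorem charThree (hF : Fintype.card F = 9) : CharP F 3 := by
  obtain ⟨n, hp, hn⟩ := FiniteField.card F (ringChar F)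
  rw [hF] at hn
  have hd : (ringChar F) ∣ 3 ^ 2 := by
    rw [show (3 : ℕ) ^ 2 = 9 by norm_num, hn]
    exact dvd_pow_self _ n.pos.ne'
  have h3 : ringChar F = 3 := (Nat.prime_dvd_prime_iff_eq hp Nat.prime_three).1 (hp.dvd_of_dvd_pow hd)
  exact h3 ▸ ringChar.charP F

theorem exists_i (hF : Fintype.card F = 9) : ∃ i : F, i * i = -1 := by
  obtain ⟨i, hi⟩ := (FiniteField.isSquare_neg_one_iff (F := F)).2 (by omega)
  exact ⟨i, hi.symm⟩

section Psi

variable [CharP F 3] (i : F)

noncomputable def psi (x : P) : F := ZMod.castHom dvd_rfl F x.1 + ZMod.castHom dvd_rfl F x.2 * i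

theorem psi_add (x y : P) : psi i (addP x y) = psi i x + psi i y := by
  simp only [psi, addP, map_add]; ring

theorem psi_sub (x y : P) : psi i (subP x y) = psi i x - psi i y := by
  simp only [psi, subP, map_sub]; ring

variable (hi : i * i = -1)
include hi

theorem psi_mul (x y : P) : psi i (mulP x y) = psi i x * psi i y := by
  simp only [psi, mulP, map_add, map_sub, map_mul]
  linear_combination (-(ZMod.castHom (dvd_refl 3) F x.2 * ZMod.castHom (dvd_refl 3) F y.2)) * hi

theorem psi_one : psi i ((1, 0) : P) = 1 := by simp [psi]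

theorem psi_conj (x : P) : psi i (conjP x) = psi i x ^ 3 := by
  have h1 : ∀ a : ZMod 3, (ZMod.castHom (dvd_refl 3) F a) ^ 3 = ZMod.castHom (dvd_refl 3) F a := fun a => by
    rw [← map_pow, ZMod.pow_card]
  simp only [psi, conjP, map_neg]
  rw [add_pow_char, mul_pow, h1, h1, show i ^ 3 = -i by rw [pow_succ, pow_two, hi]; ring]
  ring

theorem psi_inj : Function.Injective (psi (F := F) i) := by
  intro x y h
  have h0 : psi i (subP x y) = 0 := by rw [psi_sub, h, sub_self]
  have key : ∀ z : P, psi i z = 0 → z = (0, 0) := by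
    intro z hz
    have hn : ZMod.castHom (dvd_refl 3) F (z.1 * z.1 + z.2 * z.2) = 0 := by
      rw [map_add, map_mul, map_mul]
      have hz' : ZMod.castHom (dvd_refl 3) F z.1 + ZMod.castHom (dvd_refl 3) F z.2 * i = 0 := hz
      linear_combination (ZMod.castHom (dvd_refl 3) F z.1 - ZMod.castHom (dvd_refl 3) F z.2 * i) * hz' +
        (ZMod.castHom (dvd_refl 3) F z.2 * ZMod.castHom (dvd_refl 3) F z.2) * hi
    have hn' : z.1 * z.1 + z.2 * z.2 = 0 := (ZMod.castHom (dvd_refl 3) F).injective (hn.trans (map_zero _).symm)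
    exact pair_norm z hn'
  have := key _ h0
  simp only [subP, Prod.mk.injEq, sub_eq_zero] at this
  exact Prod.ext this.1 this.2

omit hi in
noncomputable def mat (A : M) : Matrix (Fin 3) (Fin 3) F := Matrix.of fun j k => psi i (A j k)

theorem mat_mul (A C : M) : mat i (mulM A C) = mat i A * mat i C := by
  refine mat_ext fun j k => ?_
  simp [mat, mulM, Matrix.mul_apply, Fin.sum_univ_three, psi_add, psi_mul i hi]

theorem mat_det (A : M) : (mat i A).det = psi i (detP A) := by
  rw [Matrix.det_fin_three]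
  simp [mat, detP, psi_add, psi_sub, psi_mul i hi]

theorem mat_one : mat i oneM = 1 := by
  refine mat_ext fun j k => ?_
  by_cases h : j = k <;> simp [mat, oneM, h, psi, Matrix.one_apply]

theorem mat_inj {A C : M} (h : mat i A = mat i C) : A = C := by
  funext j k
  exact psi_inj i hi (congrFun (congrFun h j) k)

theorem mat_preserve {A : M} (hA : gram A = oneM) (u v : Fin 3 → F) :
    hermForm 3 F 3 ((mat i A).mulVec u) ((mat i A).mulVec v) = hermForm 3 F 3 u v := by
  have h : ∀ j k : Fin 3, psi i (A 0 j) * psi i (A 0 k) ^ 3 + psi i (A 1 j) * psi i (A 1 k) ^ 3 +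
      psi i (A 2 j) * psi i (A 2 k) ^ 3 = if j = k then 1 else 0 := by
    intro j k
    have := congrArg (psi i) (congrFun (congrFun hA j) k)
    simp only [gram, psi_add, psi_mul i hi, psi_conj i hi] at this
    rw [this]
    by_cases h : j = k <;> simp [oneM, h, psi]
  simp only [hermForm, mat, Matrix.mulVec, dotProduct, Fin.sum_univ_three, Matrix.of_apply, add_pow_char, mul_pow]
  have h00 := h 0 0; have h01 := h 0 1; have h02 := h 0 2
  have h10 := h 1 0; have h11 := h 1 1; have h12 := h 1 2
  have h20 := h 2 0; have h21 := h 2 1; have h22 := h 2 2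
  simp only [Fin.isValue, ↓reduceIte, if_true] at h00 h11 h22
  rw [if_neg (by decide)] at h01 h02 h10 h12 h20 h21
  linear_combination u 0 * v 0 ^ 3 * h00 + u 0 * v 1 ^ 3 * h01 + u 0 * v 2 ^ 3 * h02 +
    u 1 * v 0 ^ 3 * h10 + u 1 * v 1 ^ 3 * h11 + u 1 * v 2 ^ 3 * h12 +
    u 2 * v 0 ^ 3 * h20 + u 2 * v 1 ^ 3 * h21 + u 2 * v 2 ^ 3 * h22

noncomputable def su (g : L) : ↥(SU 3 F 3) :=
  ⟨⟨mat i (rep (bits g)), by rw [mat_det i hi, rep_det _ (bits_det g), psi_one i hi]⟩,
    fun u v => mat_preserve i hi (rep_gram _ (bits_det g)) u v⟩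

theorem su_val (g : L) : ((su i hi g : ↥(SU 3 F 3)) : Matrix.SpecialLinearGroup (Fin 3) F).1 = mat i (rep (bits g)) := rfl

theorem su_gen_mul (s : Fin 2) (g : L) : su i hi (genL s * g) = su i hi (genL s) * su i hi g := by
  refine Subtype.ext (Subtype.ext ?_)
  show mat i (rep (bits (genL s * g))) = mat i (rep (bits (genL s))) * mat i (rep (bits g))
  rw [bits_mul, bits_gen, rep_mul _ (bits_det g) s, mat_mul i hi]

theorem su_one : su i hi (1 : L) = 1 := by
  refine Subtype.ext (Subtype.ext ?_)
  show mat i (rep (bits (1 : L))) = 1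
  rw [bits_one, rep_one, mat_one i hi]

theorem su_mul (g h : L) : su i hi (g * h) = su i hi g * su i hi h := by
  let wordL : List (Fin 2) → L := fun w => (w.map genL).prod
  have hev : ∀ w, bits (wordL w) = evalW w := by
    intro w
    induction w with
    | nil => exact bits_one
    | cons s w ih => show bits (genL s * wordL w) = _; rw [bits_mul, bits_gen, ih]; rfl
  have hw : ∀ w, ∀ h : L, su i hi (wordL w * h) = su i hi (wordL w) * su i hi h := by
    intro w
    induction w with
    | nil => intro h; show su i hi ((1 : L) * h) = su i hi (1 : L) * _; rw [one_mul, su_one, one_mul]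
    | cons s w ih =>
      intro h
      show su i hi (genL s * wordL w * h) = su i hi (genL s * wordL w) * _
      rw [mul_assoc, su_gen_mul, ih, su_gen_mul, mul_assoc]
  obtain ⟨w, rfl⟩ : ∃ w, wordL w = g :=
    ⟨_, bits_inj ((hev _).trans (word_spec _ (bits_det g)))⟩
  exact hw w h

noncomputable def toPSU : L →* Cfsg.PSU 3 F 3 :=
  (QuotientGroup.mk' _).comp (MonoidHom.mk' (su i hi) (su_mul i hi))

theorem toPSU_inj : Function.Injective (toPSU i hi) := by
  rw [injective_iff_map_eq_one]
  intro g hg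
  have hc : su i hi g ∈ Subgroup.center ↥(SU 3 F 3) := (QuotientGroup.eq_one_iff _).1 hg
  by_contra hne
  obtain ⟨s, hs⟩ := rep_sep _ (bits_det g) (fun e => hne (bits_inj (e.trans bits_one.symm)))
  refine hs (mat_inj i hi ?_)
  rw [mat_mul i hi, mat_mul i hi]
  have h := Subgroup.mem_center_iff.1 hc (su i hi (genL s))
  exact (congrArg (fun x : ↥(SU 3 F 3) => (x : Matrix.SpecialLinearGroup (Fin 3) F).1) h).symm

end Psi


/-- The projective special unitary group PSU₃(3) (realised over the field with 9 elements) has a subgroup isomorphic to PSL₂(7). -/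
theorem result {F : Type*} [Field F] [Fintype F] (hF : Fintype.card F = 9)
    {K : Type*} [Field K] [Fintype K] (hK : Fintype.card K = 7) :
    ∃ H : Subgroup (Cfsg.PSU 3 F 3), Nonempty (H ≃* Matrix.ProjectiveSpecialLinearGroup (Fin 2) K) := by
  haveI := charThree hF
  obtain ⟨i, hi⟩ := exists_i hF
  obtain ⟨e⟩ := Cfsg.Lib.Classical.PSLSeven.nonempty_equiv
  obtain ⟨e7⟩ : Nonempty (ZMod 7 ≃+* K) := ⟨ZMod.ringEquivOfPrime K (by norm_num) hK⟩
  obtain ⟨eP⟩ : Nonempty (Matrix.ProjectiveSpecialLinearGroup (Fin 2) (ZMod 7) ≃* Matrix.ProjectiveSpecialLinearGroup (Fin 2) K) :=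
    Cfsg.Lib.Classical.PSLSeven.psl_congr 2 e7
  exact ⟨_, ⟨((MonoidHom.ofInjective (toPSU_inj i hi)).symm.trans e.symm).trans eP⟩⟩


end Cfsg.Agent.S1897
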