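import Cfsg.Statements.S1898
import Mathlib
-- import your own Cfsg.Agent.* helpers here

set_option autoImplicit false
open Cfsg

namespace Cfsg.Agent.S1898

/-- Let X be a finite 2-group whose derived subgroup is elementary abelian and central. Then the subgroup generated by the elements of order dividing 4 has exponent dividing 4, and every automorphism of X fixing each element of order dividing 4 has 2-power order. -/
theorem result {X : Type*} [Group X] [Finite X] (hX : IsPGroup 2 X)
    (hel : Cfsg.IsElementaryAbelian 2 (commutator X)) (hcen : commutator X ≤ Subgroup.center X) :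
    (∀ x ∈ Subgroup.closure {g : X | g ^ 4 = 1}, x ^ 4 = 1) ∧
      ∀ φ : MulAut X, (∀ g : X, g ^ 4 = 1 → φ g = g) → ∃ k : ℕ, φ ^ (2 ^ k) = 1 := by
  obtain ⟨hab, hexp⟩ := hel
  have hc : ∀ a b : X, a * b * a⁻¹ * b⁻¹ ∈ commutator X := fun a b =>
    Subgroup.commutator_mem_commutator (Subgroup.mem_top a) (Subgroup.mem_top b)
  have hz : ∀ a b y : X, y * (a * b * a⁻¹ * b⁻¹) = (a * b * a⁻¹ * b⁻¹) * y := fun a b y =>
    Subgroup.mem_center_iff.1 (hcen (hc a b)) y
  have hsqc : ∀ x y : X, y * (x * x) = x * x * y := fun x y => by
    set c := y * x * y⁻¹ * x⁻¹ with hcd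
    have hyx : y * x = c * (x * y) := by rw [hcd]; group
    have hc2 : c * c = 1 := (pow_two c).symm.trans (hexp c (hc y x))
    have hzc : ∀ w, c * w = w * c := fun w => (hz y x w).symm
    calc y * (x * x) = (y * x) * x := (mul_assoc _ _ _).symm
      _ = c * (x * y) * x := by rw [hyx]
      _ = c * x * (y * x) := by simp only [mul_assoc]
      _ = c * x * (c * (x * y)) := by rw [hyx]
      _ = c * ((x * c) * (x * y)) := by simp only [mul_assoc]
      _ = c * ((c * x) * (x * y)) := by rw [hzc x]
      _ = (c * c) * (x * x * y) := by simp only [mul_assoc]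
      _ = x * x * y := by rw [hc2, one_mul]
  have h4 : ∀ x y : X, (x * y) ^ 4 = x ^ 4 * y ^ 4 := fun x y => by
    set c := y * x * y⁻¹ * x⁻¹ with hcd
    have hyx : y * x = c * (x * y) := by rw [hcd]; group
    have hc2 : c * c = 1 := (pow_two c).symm.trans (hexp c (hc y x))
    have hsq : x * y * (x * y) = c * (x * x * (y * y)) := by
      calc x * y * (x * y) = x * (y * x) * y := by simp only [mul_assoc]
        _ = x * (c * (x * y)) * y := by rw [hyx]
        _ = (x * c) * (x * y * y) := by simp only [mul_assoc]
        _ = (c * x) * (x * y * y) := by rw [show x * c = c * x from hz y x x]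
        _ = c * (x * x * (y * y)) := by simp only [mul_assoc]
    have hzc : ∀ w, c * w = w * c := fun w => (hz y x w).symm
    have : (x * y) ^ 4 = c * c * ((x * x * (y * y)) * (x * x * (y * y))) := by
      rw [show (x * y) ^ 4 = (x * y * (x * y)) * (x * y * (x * y)) by
        simp only [pow_succ, pow_zero, one_mul, mul_assoc], hsq]
      rw [mul_assoc c, ← mul_assoc (x * x * (y * y)) c, ← hzc]; simp only [mul_assoc]
    rw [this, hc2, one_mul]
    calc x * x * (y * y) * (x * x * (y * y)) = x * x * (y * y * (x * x)) * (y * y) := by group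
      _ = x * x * (x * x * (y * y)) * (y * y) := by rw [hsqc x (y * y)]
      _ = x ^ 4 * y ^ 4 := by simp only [pow_succ, pow_zero, one_mul, mul_assoc]
  constructor
  · intro x hx
    induction hx using Subgroup.closure_induction with
    | mem g hg => exact hg
    | one => exact one_pow 4
    | mul a b _ _ ha hb => rw [h4, ha, hb, one_mul]
    | inv a _ ha => rw [inv_pow, ha, inv_one]
  · intro φ hφ
    haveI : Finite (MulAut X) := inferInstance
    obtain ⟨k, m, hm, hkm⟩ := Nat.exists_eq_two_pow_mul_odd (orderOf_pos φ).ne'
    refine ⟨k, ?_⟩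
    set ψ := φ ^ (2 ^ k) with hψ
    have hψm : ψ ^ m = 1 := by rw [hψ, ← pow_mul, ← hkm, pow_orderOf_eq_one]
    have hψ4 : ∀ g : X, g ^ 4 = 1 → ψ g = g := by
      intro g hg
      have : ∀ j : ℕ, (φ ^ j) g = g := by
        intro j
        induction j with
        | zero => rfl
        | succ j ih => rw [pow_succ, MulAut.mul_apply, hφ g hg, ih]
      exact this _
    have key : ∀ e : ℕ, ∀ x : X, x ^ (2 ^ e) = 1 → ψ x = x := by
      intro e
      induction e with
      | zero => intro x hx; rw [pow_zero, pow_one] at hx; rw [hx, map_one]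
      | succ e ih =>
        intro x hx
        have hx2 : ψ (x ^ 2) = x ^ 2 := ih _ (by rw [← pow_mul, ← pow_succ']; exact hx)
        set d := x⁻¹ * ψ x with hd
        have hd4 : d ^ 4 = 1 := by
          rw [hd, h4, ← map_pow, show x ^ 4 = (x ^ 2) ^ 2 by rw [← pow_mul], map_pow, hx2, ← pow_mul, inv_pow]
          exact inv_mul_cancel _
        have hψd := hψ4 d hd4
        have hj : ∀ j : ℕ, (ψ ^ j) x = x * d ^ j := by
          intro j
          induction j with
          | zero => simp
          | succ j ihj =>
            rw [pow_succ', MulAut.mul_apply, ihj, map_mul, map_pow, hψd,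
              show ψ x = x * d by rw [hd]; group, mul_assoc, ← pow_succ']
        have h1 := hj m
        rw [hψm, MulAut.one_apply] at h1
        have hdm : d ^ m = 1 := by
          have := h1.symm; rwa [mul_eq_left] at this
        have hd1 : d = 1 := by
          rw [← orderOf_eq_one_iff]
          have h4' : orderOf d ∣ 2 ^ 2 := orderOf_dvd_of_pow_eq_one hd4
          have hco : Nat.Coprime (2 ^ 2) m := Nat.Coprime.pow_left 2 (Nat.coprime_two_left.2 hm)
          exact Nat.eq_one_of_dvd_coprimes hco h4' (orderOf_dvd_of_pow_eq_one hdm)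
        calc ψ x = x * d := by rw [hd]; group
          _ = x := by rw [hd1, mul_one]
    ext x
    obtain ⟨e, he⟩ := hX x
    exact key e x he

end Cfsg.Agent.S1898
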