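import Cfsg.Statements.S1899
import Mathlib
-- import your own Cfsg.Agent.* helpers here

set_option autoImplicit false
open Cfsg

namespace Cfsg.Agent.S1899

/-- Let a dihedral group of order 2n, n odd and n > 1, act on a finite abelian 2-group A through automorphisms d and t with d^n = 1, t² = 1 and t d t⁻¹ = d⁻¹, and suppose that d fixes only the identity. Then A is the internal direct product of C_A(t) and its image under d. -/
theorem result {A : Type*} [CommGroup A] [Finite A] (hA : IsPGroup 2 A)
    {n : ℕ} (hn : Odd n) (hn1 : 1 < n) (d t : MulAut A) (hd : d ^ n = 1) (ht : t ^ 2 = 1) (hdt : t * d * t⁻¹ = d⁻¹)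
    (hfix : ∀ a : A, d a = a → a = 1) :
    (MulEquiv.toMonoidHom t).eqLocus (MonoidHom.id A) ⊓ ((MulEquiv.toMonoidHom t).eqLocus (MonoidHom.id A)).map d.toMonoidHom = ⊥ ∧
      (MulEquiv.toMonoidHom t).eqLocus (MonoidHom.id A) ⊔ ((MulEquiv.toMonoidHom t).eqLocus (MonoidHom.id A)).map d.toMonoidHom = ⊤ := by
  have ht' : ∀ x, t (t x) = x := fun x => by
    rw [← MulAut.mul_apply, ← pow_two, ht, MulAut.one_apply]
  have htd : ∀ x, t (d x) = d⁻¹ (t x) := fun x => by
    have : t * d = d⁻¹ * t := by rw [← hdt]; group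
    rw [← MulAut.mul_apply, this, MulAut.mul_apply]
  have htd' : ∀ x, t (d⁻¹ x) = d (t x) := fun x => by
    have h : t * d⁻¹ = d * t := by
      have h' : (t * d * t⁻¹)⁻¹ = (d⁻¹)⁻¹ := by rw [hdt]
      have : t * d⁻¹ * t⁻¹ = d := by
        calc t * d⁻¹ * t⁻¹ = (t * d * t⁻¹)⁻¹ := by group
          _ = d := by rw [h', inv_inv]
      calc t * d⁻¹ = (t * d⁻¹ * t⁻¹) * t := by group
        _ = d * t := by rw [this]
    rw [← MulAut.mul_apply, h, MulAut.mul_apply]
  have h2 : ∀ b, d (d b) = b → b = 1 := fun b hb => by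
    have hk : ∀ k : ℕ, (d ^ (2 * k)) b = b := by
      intro k
      induction k with
      | zero => simp
      | succ k ih => rw [show 2 * (k + 1) = 2 * k + 2 by ring, pow_add, MulAut.mul_apply, pow_two, MulAut.mul_apply, hb, ih]
    obtain ⟨m, rfl⟩ := hn
    apply hfix
    have h1 : (d ^ (2 * m + 1)) b = b := by rw [hd]; rfl
    rw [pow_succ', MulAut.mul_apply, hk] at h1
    exact h1
  let φ : A →* A := MonoidHom.mk' (fun x => d x / d⁻¹ x) (fun x y => by
    simp only [map_mul]; exact (div_mul_div_comm _ _ _ _).symm)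
  have hinj : Function.Injective φ := by
    rw [injective_iff_map_eq_one]
    intro x hx
    have hx' : d x = d⁻¹ x := div_eq_one.1 hx
    apply h2
    rw [hx']; exact MulEquiv.apply_symm_apply d x
  have hsurj : Function.Surjective φ := Finite.injective_iff_surjective.1 hinj
  constructor
  · rw [eq_bot_iff]
    rintro a ⟨ha, b, hb, rfl⟩
    have ha' : t (d b) = d b := ha
    have hb' : t b = b := hb
    rw [htd, hb'] at ha'
    have : d (d b) = b := by rw [← ha']; exact MulEquiv.apply_symm_apply d b
    rw [Subgroup.mem_bot, h2 b this]; exact map_one d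
  · rw [eq_top_iff]
    intro a _
    obtain ⟨c, hc⟩ := hsurj (a / t a)
    have hc' : d c / d⁻¹ c = a / t a := hc
    have htc : t c = c := by
      apply hinj
      show d (t c) / d⁻¹ (t c) = d c / d⁻¹ c
      rw [← htd' c, ← htd c, ← map_div, ← inv_div (d c) (d⁻¹ c), hc', map_inv, map_div, ht', inv_div]
    have hc1 : t (a / d c) = a / d c := by
      rw [map_div, htd, htc]
      rw [div_eq_div_iff_div_eq_div] at hc'
      rw [div_eq_div_iff_div_eq_div, eq_comm]
      first
        | exact hc'.symm
        | exact hc'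
        | (rw [eq_comm]; rw [div_eq_div_iff_mul_eq_mul] at hc' ⊢; rw [mul_comm] at hc'; rw [hc', mul_comm])
    rw [show a = (a / d c) * d c by rw [div_mul_cancel]]
    exact Subgroup.mul_mem_sup hc1 ⟨c, htc, rfl⟩

end Cfsg.Agent.S1899
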