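import Cfsg.Statements.S1900
import Mathlib
import Cfsg.Agent.Lib.Sig.Basic
-- import your own Cfsg.Agent.* helpers here

set_option autoImplicit false
open Cfsg

open scoped commutatorElement
namespace Cfsg.Agent.S1900

/-- Let S = PQ be a finite group with P a normal Sylow p-subgroup and Q elementary abelian of order q², q a prime different from p. If exactly two subgroups X₁, X₂ of order q in Q have a nontrivial centralizer in P, then P is the internal direct product of C_P(X₁) and C_P(X₂): they commute elementwise, meet trivially and generate P. -/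
theorem result {S : Type*} [Group S] [Finite S] {p q : ℕ} [Fact p.Prime] [Fact q.Prime] (hpq : p ≠ q)
    (P : Sylow p S) [(P : Subgroup S).Normal] (Q : Subgroup S) (hQ : Cfsg.IsElementaryAbelian q Q) (hQc : Nat.card Q = q ^ 2)
    (hS : (P : Subgroup S) ⊔ Q = ⊤)
    (X₁ X₂ : Subgroup S) (h₁ : X₁ ≤ Q) (h₂ : X₂ ≤ Q) (h₁₂ : X₁ ≠ X₂) (hc₁ : Nat.card X₁ = q) (hc₂ : Nat.card X₂ = q)
    (hf₁ : (P : Subgroup S) ⊓ Subgroup.centralizer (X₁ : Set S) ≠ ⊥)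
    (hf₂ : (P : Subgroup S) ⊓ Subgroup.centralizer (X₂ : Set S) ≠ ⊥)
    (honly : ∀ X : Subgroup S, X ≤ Q → Nat.card X = q →
      (P : Subgroup S) ⊓ Subgroup.centralizer (X : Set S) ≠ ⊥ → X = X₁ ∨ X = X₂) :
    ⁅(P : Subgroup S) ⊓ Subgroup.centralizer (X₁ : Set S), (P : Subgroup S) ⊓ Subgroup.centralizer (X₂ : Set S)⁆ = ⊥ ∧
      ((P : Subgroup S) ⊓ Subgroup.centralizer (X₁ : Set S)) ⊓ ((P : Subgroup S) ⊓ Subgroup.centralizer (X₂ : Set S)) = ⊥ ∧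
      ((P : Subgroup S) ⊓ Subgroup.centralizer (X₁ : Set S)) ⊔ ((P : Subgroup S) ⊓ Subgroup.centralizer (X₂ : Set S)) = P := by
  classical
  have hq := (Fact.out : q.Prime)
  have hp := (Fact.out : p.Prime)
  have hcomQ : ∀ a ∈ Q, ∀ b ∈ Q, a * b = b * a := fun a ha b hb =>
    congrArg Subtype.val (hQ.1.is_comm.comm (⟨a, ha⟩ : ↥Q) ⟨b, hb⟩)
  have hgen1 : ∀ X : Subgroup S, X ≤ Q → Nat.card X = q → ∀ x ∈ X, x ≠ 1 → Subgroup.zpowers x = X := fun X hX hXc x hx hx1 =>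
    Subgroup.eq_of_le_of_card_ge (Subgroup.zpowers_le.2 hx)
      (by rw [Nat.card_zpowers, orderOf_eq_prime (hQ.2 x (hX hx)) hx1, hXc])
  have hex : ∀ X : Subgroup S, Nat.card X = q → ∃ x ∈ X, x ≠ 1 := fun X hXc => by
    haveI : Nontrivial ↥X := Finite.one_lt_card_iff_nontrivial.1 (hXc ▸ hq.one_lt)
    obtain ⟨⟨x, hx⟩, hx1⟩ := exists_ne (1 : ↥X)
    exact ⟨x, hx, fun h => hx1 (Subtype.ext h)⟩
  obtain ⟨y₁, hy₁, hy₁'⟩ := hex X₁ hc₁
  obtain ⟨y₂, hy₂, hy₂'⟩ := hex X₂ hc₂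
  have hy₂n : y₂ ∉ X₁ := fun h => h₁₂
    ((hgen1 X₁ h₁ hc₁ y₂ h hy₂').symm.trans (hgen1 X₂ h₂ hc₂ y₂ hy₂ hy₂'))
  have hy₁n : y₁ ∉ X₂ := fun h => h₁₂
    ((hgen1 X₁ h₁ hc₁ y₁ hy₁ hy₁').symm.trans (hgen1 X₂ h₂ hc₂ y₁ h hy₁'))
  set C₁ := (P : Subgroup S) ⊓ Subgroup.centralizer (X₁ : Set S) with hC₁
  set C₂ := (P : Subgroup S) ⊓ Subgroup.centralizer (X₂ : Set S) with hC₂
  have hCQ : (P : Subgroup S) ⊓ Subgroup.centralizer (Q : Set S) = ⊥ := by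
    by_contra hne
    set z := y₁ * y₂
    have hz1 : z ≠ 1 := fun h => hy₂n (by
      rw [show y₂ = y₁⁻¹ from eq_inv_of_mul_eq_one_right h]; exact inv_mem hy₁)
    have hzQ : z ∈ Q := mul_mem (h₁ hy₁) (h₂ hy₂)
    have h := honly (Subgroup.zpowers z) (Subgroup.zpowers_le.2 hzQ)
      (by rw [Nat.card_zpowers, orderOf_eq_prime (hQ.2 z hzQ) hz1])
      (fun hb => hne (le_bot_iff.1 (hb ▸ inf_le_inf_left _ (Subgroup.centralizer_le (Subgroup.zpowers_le.2 hzQ)))))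
    have hzm := Subgroup.mem_zpowers z
    rcases h with h | h <;> rw [h] at hzm
    · exact hy₂n (by have := mul_mem (inv_mem hy₁) hzm; rwa [inv_mul_cancel_left] at this)
    · exact hy₁n (by have := mul_mem hzm (inv_mem hy₂); rwa [mul_inv_cancel_right] at this)
  have hdis : C₁ ⊓ C₂ = ⊥ := by
    have hQeq : X₁ ⊔ X₂ = Q := by
      have hle : X₁ ⊔ X₂ ≤ Q := sup_le h₁ h₂
      have hd := Subgroup.card_dvd_of_le hle
      rw [hQc] at hd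
      obtain ⟨i, hi, hi'⟩ := (Nat.dvd_prime_pow hq).1 hd
      have hlt : Nat.card X₁ < Nat.card ↥(X₁ ⊔ X₂) := by
        refine lt_of_le_of_ne (Subgroup.card_le_of_le le_sup_left) fun hc => hy₂n ?_
        rw [Subgroup.eq_of_le_of_card_ge (le_sup_left : X₁ ≤ X₁ ⊔ X₂) hc.ge]
        exact Subgroup.mem_sup_right hy₂
      rw [hc₁, hi'] at hlt
      refine Subgroup.eq_of_le_of_card_ge hle ?_
      rw [hQc, hi']
      have h1i : 1 < i := (Nat.pow_lt_pow_iff_right hq.one_lt).1 (by rwa [pow_one])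
      rw [show i = 2 by omega]
    rw [eq_bot_iff, ← hCQ, ← hQeq]
    intro x hx
    obtain ⟨hx1, hx2⟩ := Subgroup.mem_inf.1 hx
    refine Subgroup.mem_inf.2 ⟨(Subgroup.mem_inf.1 hx1).1, ?_⟩
    have : X₁ ⊔ X₂ ≤ Subgroup.centralizer ({x} : Set S) := sup_le
      (fun w hw => Subgroup.mem_centralizer_singleton_iff.2 (Subgroup.mem_centralizer_iff.1 (Subgroup.mem_inf.1 hx1).2 w hw))
      (fun w hw => Subgroup.mem_centralizer_singleton_iff.2 (Subgroup.mem_centralizer_iff.1 (Subgroup.mem_inf.1 hx2).2 w hw))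
    exact Subgroup.mem_centralizer_iff.2 fun w hw => Subgroup.mem_centralizer_singleton_iff.1 (this hw)
  have hPq : ∀ U : Subgroup S, U ≤ (P : Subgroup S) → ¬ q ∣ Nat.card U := fun U hU hd => by
    obtain ⟨n, hn⟩ := IsPGroup.iff_card.1 (P.isPGroup'.to_le hU)
    rw [hn] at hd
    exact hpq ((Nat.prime_dvd_prime_iff_eq hq hp).1 (hq.dvd_of_dvd_pow hd)).symm
  -- generation
  have hgenU : ∀ U : Subgroup S, U ≤ (P : Subgroup S) → Q ≤ Subgroup.normalizer (U : Set S) →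
      U ≤ (U ⊓ C₁) ⊔ (U ⊓ C₂) := by
    intro U hU hQU
    refine le_trans (le_inf le_rfl fun x _ => Subgroup.mem_centralizer_iff.2 fun b hb => by
      rw [Subgroup.coe_bot, Set.mem_singleton_iff] at hb; simp [hb])
      ((Cfsg.Lib.Sig.le_iSup_centralizer_index Q U hQ (hPq U hU) hQU ⊥ bot_le).trans (iSup_le ?_))
    rintro ⟨B, hB, hBi⟩
    by_cases hbot : U ⊓ Subgroup.centralizer (B : Set S) = ⊥
    · rw [hbot]; exact bot_le
    have hne : (P : Subgroup S) ⊓ Subgroup.centralizer (B : Set S) ≠ ⊥ := fun h =>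
      hbot (le_bot_iff.1 (h ▸ inf_le_inf_right _ hU))
    have hd := Subgroup.card_dvd_of_le hB
    rw [hQc] at hd
    obtain ⟨i, hi, hi'⟩ := (Nat.dvd_prime_pow hq).1 hd
    have h1 := (B.subgroupOf Q).card_mul_index
    rw [Nat.card_congr (Subgroup.subgroupOfEquivOfLe hB).toEquiv, hQc, hi'] at h1
    have h2 : q ^ 2 ≤ q ^ i * q := h1 ▸ Nat.mul_le_mul_left _ hBi
    rw [← pow_succ] at h2
    have h3 := (Nat.pow_le_pow_iff_right hq.one_lt).1 h2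
    rcases (show i = 1 ∨ i = 2 by omega) with rfl | rfl
    · rcases honly B hB (by rw [hi', pow_one]) hne with rfl | rfl
      · exact (le_inf inf_le_left (le_inf (inf_le_left.trans hU) inf_le_right)).trans le_sup_left
      · exact (le_inf inf_le_left (le_inf (inf_le_left.trans hU) inf_le_right)).trans le_sup_right
    · exact absurd (Subgroup.eq_of_le_of_card_ge hB (by rw [hQc, hi'])) (fun h => hne (h ▸ hCQ))
  have hQP : Q ≤ Subgroup.normalizer ((P : Subgroup S) : Set S) := by rw [Subgroup.normalizer_eq_top]; exact le_top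
  have hsup : C₁ ⊔ C₂ = (P : Subgroup S) := le_antisymm (sup_le inf_le_left inf_le_left)
    ((hgenU _ le_rfl hQP).trans (sup_le_sup inf_le_right inf_le_right))
  refine ⟨?_, hdis, hsup⟩
  -- the elements `y₁, y₂`
  have hinv : ∀ (X : Subgroup S), X ≤ Q → ∀ y ∈ Q, ∀ v ∈ (P : Subgroup S) ⊓ Subgroup.centralizer (X : Set S),
      y * v * y⁻¹ ∈ (P : Subgroup S) ⊓ Subgroup.centralizer (X : Set S) := by
    intro X hX y hy v hv
    obtain ⟨hv1, hv2⟩ := Subgroup.mem_inf.1 hv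
    refine Subgroup.mem_inf.2 ⟨(inferInstance : (P : Subgroup S).Normal).conj_mem v hv1 y,
      Subgroup.mem_centralizer_iff.2 fun w hw => ?_⟩
    have h := Subgroup.mem_centralizer_iff.1 hv2 w hw
    have hc := hcomQ w (hX hw) y hy
    calc w * (y * v * y⁻¹) = (w * y) * v * y⁻¹ := by group
      _ = y * (w * v) * y⁻¹ := by rw [hc]; group
      _ = y * v * (w * y⁻¹) := by rw [h]; group
      _ = y * v * (y⁻¹ * w) := by rw [hcomQ w (hX hw) y⁻¹ (inv_mem hy)]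
      _ = y * v * y⁻¹ * w := by group
  have hfix1 : ∀ v ∈ C₂, y₁ * v * y₁⁻¹ = v → v = 1 := by
    intro v hv h
    refine Subgroup.mem_bot.1 (hdis ▸ Subgroup.mem_inf.2 ⟨Subgroup.mem_inf.2 ⟨(Subgroup.mem_inf.1 hv).1, ?_⟩, hv⟩)
    rw [← hgen1 X₁ h₁ hc₁ y₁ hy₁ hy₁', Subgroup.zpowers_eq_closure, Subgroup.centralizer_closure,
      Subgroup.mem_centralizer_singleton_iff]
    exact (mul_inv_eq_iff_eq_mul.1 h).symm
  have hfix2 : ∀ v ∈ C₁, y₂ * v * y₂⁻¹ = v → v = 1 := by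
    intro v hv h
    refine Subgroup.mem_bot.1 (hdis ▸ Subgroup.mem_inf.2 ⟨hv, Subgroup.mem_inf.2 ⟨(Subgroup.mem_inf.1 hv).1, ?_⟩⟩)
    rw [← hgen1 X₂ h₂ hc₂ y₂ hy₂ hy₂', Subgroup.zpowers_eq_closure, Subgroup.centralizer_closure,
      Subgroup.mem_centralizer_singleton_iff]
    exact (mul_inv_eq_iff_eq_mul.1 h).symm
  -- surjectivity of `v ↦ v⁻¹ y v y⁻¹`
  have hsurj : ∀ (V : Subgroup S) (y : S), (∀ v ∈ V, y * v * y⁻¹ ∈ V) → (∀ v ∈ V, y * v * y⁻¹ = v → v = 1) →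
      ∀ w ∈ V, ∃ v ∈ V, v⁻¹ * (y * v * y⁻¹) = w := by
    intro V y hy hf w hw
    have hinj : Function.Injective (fun v : V => (⟨(v : S)⁻¹ * (y * v * y⁻¹), mul_mem (inv_mem v.2) (hy v v.2)⟩ : V)) := by
      intro a b e
      have e' : (a : S)⁻¹ * (y * a * y⁻¹) = (b : S)⁻¹ * (y * b * y⁻¹) := congrArg Subtype.val e
      have := hf ((b : S) * (a : S)⁻¹) (mul_mem b.2 (inv_mem a.2)) (by
        calc y * ((b : S) * (a : S)⁻¹) * y⁻¹ = (b : S) * ((b : S)⁻¹ * (y * b * y⁻¹)) * ((a : S)⁻¹ * (y * a * y⁻¹))⁻¹ * (a : S)⁻¹ := by group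
          _ = _ := by rw [e']; group)
      exact Subtype.ext (mul_inv_eq_one.1 this).symm
    obtain ⟨v, hv⟩ := (Finite.injective_iff_surjective.1 hinj) ⟨w, hw⟩
    exact ⟨v, v.2, congrArg Subtype.val hv⟩
  -- descend the central series
  haveI : Group.IsNilpotent ↥(P : Subgroup S) := P.isPGroup'.isNilpotent
  let Z : ℕ → Subgroup S := fun n => (Subgroup.upperCentralSeries ↥(P : Subgroup S) n).map (P : Subgroup S).subtype
  have hZP : ∀ n, Z n ≤ (P : Subgroup S) := fun n => Subgroup.map_subtype_le _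
  have hZn : ∀ n, (Z n).Normal := fun n => ConjAct.normal_of_characteristic_of_normal
  obtain ⟨N, hN⟩ := Group.IsNilpotent.nilpotent (G := ↥(P : Subgroup S))
  have key : ∀ (d n : ℕ), N ≤ n + d → ∀ a ∈ C₁, ∀ b ∈ C₂, a * b * a⁻¹ * b⁻¹ ∈ Z n := by
    intro d
    induction d with
    | zero =>
      intro n hn a ha b hb
      have htop : Subgroup.upperCentralSeries ↥(P : Subgroup S) n = ⊤ :=
        eq_top_iff.2 (hN ▸ Subgroup.upperCentralSeries_mono _ hn)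
      show _ ∈ (Subgroup.upperCentralSeries ↥(P : Subgroup S) n).map _
      rw [htop, ← MonoidHom.range_eq_map, Subgroup.range_subtype]
      have ha' := (Subgroup.mem_inf.1 ha).1
      have hb' := (Subgroup.mem_inf.1 hb).1
      exact mul_mem (mul_mem (mul_mem ha' hb') (inv_mem ha')) (inv_mem hb')
    | succ d ih =>
      intro n hn
      have hnext := ih (n + 1) (by omega)
      haveI := hZn n
      set π := QuotientGroup.mk' (Z n)
      set U := Z (n + 1) with hU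
      have hcen : ∀ u ∈ U, ∀ x ∈ (P : Subgroup S), π u * π x = π x * π u := by
        rintro _ ⟨u, hu, rfl⟩ x hx
        rw [← map_mul, ← map_mul, QuotientGroup.mk'_apply, QuotientGroup.mk'_apply, QuotientGroup.eq]
        refine ⟨((u * ⟨x, hx⟩)⁻¹ * (⟨x, hx⟩ * u)), ?_, rfl⟩
        have h := (Subgroup.mem_upperCentralSeries_succ_iff (G := ↥(P : Subgroup S))).1 hu ⟨x, hx⟩⁻¹
        have h' := (inferInstance : (Subgroup.upperCentralSeries ↥(P : Subgroup S) n).Normal).conj_mem _ h u⁻¹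
        simp only [commutatorElement_def, inv_inv, mul_inv_rev, mul_assoc, mul_inv_cancel, inv_mul_cancel,
          mul_inv_cancel_left, inv_mul_cancel_left, mul_one] at h' ⊢
        exact h'
      have hdec : ∀ u ∈ U, ∃ u₁ ∈ U ⊓ C₁, ∃ u₂ ∈ U ⊓ C₂, π u = π u₁ * π u₂ := by
        intro u hu
        have hm := Subgroup.mem_map_of_mem π (hgenU U (hZP _) (by haveI := hZn (n + 1); rw [Subgroup.normalizer_eq_top]; exact le_top) hu)
        rw [Subgroup.map_sup, ← SetLike.mem_coe, Subgroup.coe_mul_of_left_le_normalizer_right] at hm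
        · obtain ⟨_, ⟨u₁, hu₁, rfl⟩, _, ⟨u₂, hu₂, rfl⟩, he⟩ := hm
          exact ⟨u₁, hu₁, u₂, hu₂, he.symm⟩
        · rintro _ ⟨u₁, hu₁, rfl⟩
          refine Subgroup.centralizer_le_normalizer _ (Subgroup.mem_centralizer_iff.2 ?_)
          rintro _ ⟨u₂, hu₂, rfl⟩
          exact (hcen u₁ (Subgroup.mem_inf.1 hu₁).1 u₂ (hZP _ (Subgroup.mem_inf.1 hu₂).1)).symm
      have hmem : ∀ a ∈ C₁, ∀ b ∈ C₂, ∃ u₁ ∈ U ⊓ C₁, ∃ u₂ ∈ U ⊓ C₂,
          π (a * b * a⁻¹ * b⁻¹) = π u₁ * π u₂ := fun a ha b hb => hdec _ (hnext a ha b hb)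
      have hL : ∀ a ∈ C₁, ∀ b ∈ C₂, ∃ u₂ ∈ U ⊓ C₂, π (a * b * a⁻¹ * b⁻¹) = π u₂ := by
        intro a ha b hb
        obtain ⟨v, hv, hvb⟩ := hsurj C₂ y₁ (fun v hv => hinv X₂ h₂ y₁ (h₁ hy₁) v hv) hfix1 b hb
        obtain ⟨u₁, hu₁, u₂, hu₂, he⟩ := hmem a ha v hv
        have hv' : y₁ * v * y₁⁻¹ ∈ C₂ := hinv X₂ h₂ y₁ (h₁ hy₁) v hv
        refine ⟨u₂⁻¹ * (y₁ * u₂ * y₁⁻¹), mul_mem (inv_mem hu₂)
          (Subgroup.mem_inf.2 ⟨(hZn (n + 1)).conj_mem _ (Subgroup.mem_inf.1 hu₂).1 y₁,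
            hinv X₂ h₂ y₁ (h₁ hy₁) u₂ (Subgroup.mem_inf.1 hu₂).2⟩), ?_⟩
        have hay : y₁ * a = a * y₁ := Subgroup.mem_centralizer_iff.1 (Subgroup.mem_inf.1 ha).2 y₁ hy₁
        have hu1y : y₁ * u₁ = u₁ * y₁ :=
          Subgroup.mem_centralizer_iff.1 (Subgroup.mem_inf.1 (Subgroup.mem_inf.1 hu₁).2).2 y₁ hy₁
        have e1 : π (y₁ * (a * v * a⁻¹ * v⁻¹) * y₁⁻¹) = π u₁ * π (y₁ * u₂ * y₁⁻¹) := by
          rw [map_mul, map_mul, he, ← map_mul, ← map_mul, ← map_mul, ← map_mul]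
          congr 1
          calc y₁ * (u₁ * u₂) * y₁⁻¹ = (y₁ * u₁) * u₂ * y₁⁻¹ := by group
            _ = _ := by rw [hu1y]; group
        have e2 : y₁ * (a * v * a⁻¹ * v⁻¹) * y₁⁻¹ = a * (y₁ * v * y₁⁻¹) * a⁻¹ * (y₁ * v * y₁⁻¹)⁻¹ := by
          calc _ = (y₁ * a) * v * (y₁ * a)⁻¹ * (y₁ * v⁻¹ * y₁⁻¹) := by group
            _ = _ := by rw [hay]; group
        rw [← hvb]
        set w := y₁ * v * y₁⁻¹ with hw
        -- multiplicativity
        have hvP := (Subgroup.mem_inf.1 hv).1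
        have hmul : π (a * (v⁻¹ * w) * a⁻¹ * (v⁻¹ * w)⁻¹) = π (a * v * a⁻¹ * v⁻¹)⁻¹ * π (a * w * a⁻¹ * w⁻¹) := by
          have h1 : a * w * a⁻¹ * w⁻¹ = (a * v * a⁻¹ * v⁻¹) * (v * (a * (v⁻¹ * w) * a⁻¹ * (v⁻¹ * w)⁻¹) * v⁻¹) := by group
          have h2 : π (v * (a * (v⁻¹ * w) * a⁻¹ * (v⁻¹ * w)⁻¹) * v⁻¹) = π (a * (v⁻¹ * w) * a⁻¹ * (v⁻¹ * w)⁻¹) := by
            rw [map_mul π (v * _), map_mul π v, map_inv, ← hcen _ (hnext a ha _ (mul_mem (inv_mem hv) hv')) v hvP,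
              mul_inv_cancel_right]
          rw [h1, map_mul π (a * v * a⁻¹ * v⁻¹), h2, map_inv, inv_mul_cancel_left]
        rw [hmul, ← e2, e1, map_inv, he, map_mul π u₂⁻¹, map_inv]
        group
      have hR : ∀ a ∈ C₁, ∀ b ∈ C₂, ∃ u₁ ∈ U ⊓ C₁, π (a * b * a⁻¹ * b⁻¹) = π u₁ := by
        intro a ha b hb
        obtain ⟨v, hv, hva⟩ := hsurj C₁ y₂ (fun v hv => hinv X₁ h₁ y₂ (h₂ hy₂) v hv) hfix2 a ha
        obtain ⟨u₁, hu₁, u₂, hu₂, he⟩ := hmem v hv b hb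
        have hv' : y₂ * v * y₂⁻¹ ∈ C₁ := hinv X₁ h₁ y₂ (h₂ hy₂) v hv
        refine ⟨u₁⁻¹ * (y₂ * u₁ * y₂⁻¹), mul_mem (inv_mem hu₁)
          (Subgroup.mem_inf.2 ⟨(hZn (n + 1)).conj_mem _ (Subgroup.mem_inf.1 hu₁).1 y₂,
            hinv X₁ h₁ y₂ (h₂ hy₂) u₁ (Subgroup.mem_inf.1 hu₁).2⟩), ?_⟩
        have hby : y₂ * b = b * y₂ := Subgroup.mem_centralizer_iff.1 (Subgroup.mem_inf.1 hb).2 y₂ hy₂
        have hu2y : y₂ * u₂ = u₂ * y₂ :=
          Subgroup.mem_centralizer_iff.1 (Subgroup.mem_inf.1 (Subgroup.mem_inf.1 hu₂).2).2 y₂ hy₂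
        have e1 : π (y₂ * (v * b * v⁻¹ * b⁻¹) * y₂⁻¹) = π (y₂ * u₁ * y₂⁻¹) * π u₂ := by
          rw [map_mul, map_mul, he, ← map_mul, ← map_mul, ← map_mul, ← map_mul]
          congr 1
          calc y₂ * (u₁ * u₂) * y₂⁻¹ = y₂ * u₁ * y₂⁻¹ * ((y₂ * u₂) * y₂⁻¹) := by group
            _ = _ := by rw [hu2y]; group
        have e2 : y₂ * (v * b * v⁻¹ * b⁻¹) * y₂⁻¹ = (y₂ * v * y₂⁻¹) * b * (y₂ * v * y₂⁻¹)⁻¹ * b⁻¹ := by
          calc _ = y₂ * v * y₂⁻¹ * ((y₂ * b) * y₂⁻¹) * (y₂ * v⁻¹ * y₂⁻¹) * ((y₂ * b) * y₂⁻¹)⁻¹ := by group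
            _ = _ := by rw [hby]; group
        rw [← hva]
        set w := y₂ * v * y₂⁻¹ with hw
        have hvP := (Subgroup.mem_inf.1 hv).1
        have hwv : v⁻¹ * w ∈ C₁ := mul_mem (inv_mem hv) hv'
        have hmul : π ((v⁻¹ * w) * b * (v⁻¹ * w)⁻¹ * b⁻¹) = π (w * b * w⁻¹ * b⁻¹) * (π (v * b * v⁻¹ * b⁻¹))⁻¹ := by
          have h1 : w * b * w⁻¹ * b⁻¹ = (v * ((v⁻¹ * w) * b * (v⁻¹ * w)⁻¹ * b⁻¹) * v⁻¹) * (v * b * v⁻¹ * b⁻¹) := by group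
          have h2 : π (v * ((v⁻¹ * w) * b * (v⁻¹ * w)⁻¹ * b⁻¹) * v⁻¹) = π ((v⁻¹ * w) * b * (v⁻¹ * w)⁻¹ * b⁻¹) := by
            rw [map_mul π (v * _), map_mul π v, map_inv, ← hcen _ (hnext _ hwv b hb) v hvP, mul_inv_cancel_right]
          rw [h1, map_mul π (v * _ * v⁻¹), h2, mul_inv_cancel_right]
        rw [hmul, ← e2, e1, he, map_mul π u₁⁻¹, map_inv π u₁]
        rw [mul_inv_rev, mul_assoc, mul_inv_cancel_left]
        have := hcen u₁⁻¹ (inv_mem (Subgroup.mem_inf.1 hu₁).1) (y₂ * u₁ * y₂⁻¹)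
          ((inferInstance : (P : Subgroup S).Normal).conj_mem _ (hZP _ (Subgroup.mem_inf.1 hu₁).1) y₂)
        rw [map_inv] at this
        exact this.symm
      intro a ha b hb
      obtain ⟨u₂, hu₂, e₂⟩ := hL a ha b hb
      obtain ⟨u₁, hu₁, e₁⟩ := hR a ha b hb
      have hu₂C := (Subgroup.mem_inf.1 hu₂).2
      have hw : u₁⁻¹ * u₂ ∈ Z n := by
        rw [← QuotientGroup.eq, ← QuotientGroup.mk'_apply, ← QuotientGroup.mk'_apply]; exact e₁.symm.trans e₂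
      have hu1y : y₁ * u₁ = u₁ * y₁ :=
        Subgroup.mem_centralizer_iff.1 (Subgroup.mem_inf.1 (Subgroup.mem_inf.1 hu₁).2).2 y₁ hy₁
      have hd : u₂⁻¹ * (y₁ * u₂ * y₁⁻¹) ∈ Z n ⊓ C₂ := by
        refine Subgroup.mem_inf.2 ⟨?_, mul_mem (inv_mem hu₂C) (hinv X₂ h₂ y₁ (h₁ hy₁) u₂ hu₂C)⟩
        rw [show u₂⁻¹ * (y₁ * u₂ * y₁⁻¹) = (u₁⁻¹ * u₂)⁻¹ * (y₁ * (u₁⁻¹ * u₂) * y₁⁻¹) by
          have e : y₁ * u₁⁻¹ = u₁⁻¹ * y₁ := by
            calc y₁ * u₁⁻¹ = u₁⁻¹ * (u₁ * y₁) * u₁⁻¹ := by group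
              _ = _ := by rw [← hu1y]; group
          calc u₂⁻¹ * (y₁ * u₂ * y₁⁻¹) = (u₁⁻¹ * u₂)⁻¹ * ((u₁⁻¹ * y₁) * u₂ * y₁⁻¹) := by group
            _ = _ := by rw [← e]; group]
        exact mul_mem (inv_mem hw) ((hZn n).conj_mem _ hw y₁)
      obtain ⟨v, hv, hve⟩ := hsurj (Z n ⊓ C₂) y₁ (fun v hv => Subgroup.mem_inf.2
        ⟨(hZn n).conj_mem _ (Subgroup.mem_inf.1 hv).1 y₁, hinv X₂ h₂ y₁ (h₁ hy₁) v (Subgroup.mem_inf.1 hv).2⟩)
        (fun v hv => hfix1 v (Subgroup.mem_inf.1 hv).2) _ hd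
      have huv := hfix1 (u₂ * v⁻¹) (mul_mem hu₂C (inv_mem (Subgroup.mem_inf.1 hv).2)) (by
        calc y₁ * (u₂ * v⁻¹) * y₁⁻¹ = u₂ * (u₂⁻¹ * (y₁ * u₂ * y₁⁻¹)) * (v⁻¹ * (y₁ * v * y₁⁻¹))⁻¹ * v⁻¹ := by group
          _ = _ := by rw [hve]; group)
      rw [mul_inv_eq_one] at huv
      rw [← QuotientGroup.eq_one_iff]
      show π _ = 1
      rw [e₂, huv]
      exact (QuotientGroup.eq_one_iff _).2 (Subgroup.mem_inf.1 hv).1
  rw [← le_bot_iff, Subgroup.commutator_le]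
  intro a ha b hb
  have h := key N 0 (by omega) a ha b hb
  simp only [Z, Subgroup.upperCentralSeries_zero, Subgroup.map_bot] at h
  exact h

end Cfsg.Agent.S1900
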