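import Cfsg.Statements.S1901
import Mathlib
import Cfsg.Agent.Lib.Solv.PComplement
import Cfsg.Agent.Lib.PLocal.Constraint
-- import your own Cfsg.Agent.* helpers here

set_option autoImplicit false
open Cfsg

namespace Cfsg.Agent.S1901

/-- Let G be a finite p-solvable group and Q a subgroup of order prime to p such that p divides the index of C_G(Q) in N_G(Q). Then Q normalizes no Sylow p-subgroup of G. -/
theorem result {G : Type*} [Group G] [Finite G] {p : ℕ} [Fact p.Prime]
    (hG : Cfsg.IsPSolvable p G) (Q : Subgroup G) (hQ : ¬ p ∣ Nat.card Q)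
    (hA : p ∣ (Subgroup.centralizer (Q : Set G)).relIndex (Subgroup.normalizer (Q : Set G)))
    (P : Sylow p G) : ¬ Q ≤ Subgroup.normalizer ((P : Subgroup G) : Set G) := by
  intro hQP
  classical
  have key : ∀ (n : ℕ) (H : Type u_1) [Group H] [Finite H], Nat.card H ≤ n → Cfsg.IsPSolvable p H →
      ∀ (P : Sylow p H) (Q : Subgroup H), (Nat.card Q).Coprime p → Q ≤ Subgroup.normalizer ((P : Subgroup H) : Set H) →
      ∀ x ∈ Subgroup.normalizer (Q : Set H), (∃ k : ℕ, x ^ p ^ k = 1) → ∀ q ∈ Q, x * q * x⁻¹ = q := by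
    intro n
    induction n with
    | zero => intro H _ _ h; exact absurd h (by have := Nat.card_pos (α := H); omega)
    | succ n ih =>
      intro H _ _ hn hH P Q hQ hQP x hx ⟨k, hk⟩ q hq
      by_cases h1 : Nat.card H = 1
      · haveI : Subsingleton H := (Nat.card_eq_one_iff_unique.1 h1).1
        exact Subsingleton.elim _ _
      obtain ⟨N, hNn, hN, hNp⟩ := Cfsg.Lib.Solv.exists_normal_p_or_coprime hH h1
      haveI := hNn
      set π := QuotientGroup.mk' N
      have hπ : Function.Surjective π := QuotientGroup.mk'_surjective N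
      have hcard : Nat.card (H ⧸ N) ≤ n := by
        have := N.card_mul_index
        rw [Subgroup.index_eq_card] at this
        have h2 : 1 < Nat.card N := (Subgroup.one_lt_card_iff_ne_bot N).2 hN
        have h3 : 0 < Nat.card (H ⧸ N) := Nat.card_pos
        nlinarith
      have hmod := ih (H ⧸ N) hcard (Cfsg.Lib.PLocal.IsPSolvable.of_surjective π hπ hH) (P.mapSurjective hπ)
        (Q.map π) (hQ.coprime_dvd_left (Subgroup.card_map_dvd _ _))
        ((Subgroup.map_mono hQP).trans (Subgroup.le_normalizer_map _))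
        (π x) (Subgroup.le_normalizer_map _ (Subgroup.mem_map_of_mem _ hx)) ⟨k, by rw [← map_pow, hk, map_one]⟩
      set Q₁ := Q ⊓ N with hQ₁
      have he : x * q * x⁻¹ * q⁻¹ ∈ Q₁ := by
        refine Subgroup.mem_inf.2 ⟨mul_mem ((Subgroup.mem_normalizer_iff.1 hx q).1 hq) (inv_mem hq), ?_⟩
        rw [← QuotientGroup.ker_mk' N, MonoidHom.mem_ker]
        have := hmod (π q) (Subgroup.mem_map_of_mem _ hq)
        simp only [map_mul, map_inv]
        rw [this, mul_inv_cancel]
      have hfix : ∀ e ∈ Q₁, x * e * x⁻¹ = e := by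
        rcases hNp with hNp | hNp
        · intro e he
          obtain ⟨m, hm⟩ := IsPGroup.iff_orderOf.1 hNp ⟨e, (Subgroup.mem_inf.1 he).2⟩
          rw [Subgroup.orderOf_mk] at hm
          have : e = 1 := orderOf_eq_one_iff.1 (Nat.eq_one_of_dvd_coprimes (hQ.pow_right m)
            (Subgroup.orderOf_dvd_natCard _ (Subgroup.mem_inf.1 he).1) hm.dvd)
          simp [this]
        -- a Sylow subgroup centralizes `Q₁`
        set C := Subgroup.centralizer (Q₁ : Set H) with hC
        have hPC : (P : Subgroup H) ≤ C := by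
          intro s hs
          rw [Subgroup.mem_centralizer_iff]
          intro e he
          obtain ⟨heQ, heN⟩ := Subgroup.mem_inf.1 he
          have hd : e * s * e⁻¹ * s⁻¹ = 1 := by
            have h2 : e * s * e⁻¹ * s⁻¹ ∈ (P : Subgroup H) :=
              mul_mem ((Subgroup.mem_normalizer_iff.1 (hQP heQ) s).1 hs) (inv_mem hs)
            have h3 : e * s * e⁻¹ * s⁻¹ ∈ N := by
              rw [show e * s * e⁻¹ * s⁻¹ = e * (s * e⁻¹ * s⁻¹) by group]
              exact mul_mem heN (hNn.conj_mem _ (inv_mem heN) s)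
            obtain ⟨m, hm⟩ := IsPGroup.iff_orderOf.1 P.isPGroup' ⟨_, h2⟩
            rw [Subgroup.orderOf_mk] at hm
            exact orderOf_eq_one_iff.1 (Nat.eq_one_of_dvd_coprimes (hNp.pow_right m)
              (Subgroup.orderOf_dvd_natCard _ h3) hm.dvd)
          exact mul_inv_eq_iff_eq_mul.1 (mul_inv_eq_one.1 hd)
        set M := Subgroup.normalizer (Q₁ : Set H) with hM
        have hxM : x ∈ M := by
          rw [hM, Subgroup.mem_normalizer_iff]
          intro e
          simp only [hQ₁, Subgroup.mem_inf]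
          rw [← Subgroup.mem_normalizer_iff.1 hx e,
            ← Subgroup.mem_normalizer_iff.1 (Subgroup.normalizer_eq_top (H := N) ▸ Subgroup.mem_top x) e]
        haveI : (C.subgroupOf M).Normal := Subgroup.normal_subgroupOf_centralizer_normalizer _
        have hidx : (C.subgroupOf M).index.Coprime p := by
          refine ((Fact.out : p.Prime).coprime_iff_not_dvd.2 fun hd => P.not_dvd_index ?_).symm
          refine hd.trans ?_
          show C.relIndex M ∣ _
          exact (Subgroup.relIndex_dvd_index_of_le (show C ≤ M from Subgroup.centralizer_le_normalizer _)).trans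
            (Subgroup.index_dvd_of_le hPC)
        have hxC : (⟨x, hxM⟩ : M) ∈ C.subgroupOf M := by
          rw [← QuotientGroup.eq_one_iff, ← orderOf_eq_one_iff]
          refine Nat.eq_one_of_dvd_coprimes (hidx.pow_right k) ?_ ?_
          · rw [Subgroup.index_eq_card]; exact orderOf_dvd_natCard _
          · refine (orderOf_map_dvd (QuotientGroup.mk' _) _).trans ?_
            rw [Subgroup.orderOf_mk]; exact orderOf_dvd_of_pow_eq_one hk
        intro e he
        exact mul_inv_eq_iff_eq_mul.2 (Subgroup.mem_centralizer_iff.1 hxC e he).symm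
      set e := x * q * x⁻¹ * q⁻¹ with hedef
      have hj : ∀ j : ℕ, x ^ j * q * (x ^ j)⁻¹ = e ^ j * q := by
        intro j
        induction j with
        | zero => simp
        | succ j ihj =>
          calc x ^ (j + 1) * q * (x ^ (j + 1))⁻¹ = x * (x ^ j * q * (x ^ j)⁻¹) * x⁻¹ := by group
            _ = (x * e ^ j * x⁻¹) * (e * q) := by rw [ihj, hedef]; group
            _ = e ^ (j + 1) * q := by rw [← conj_pow, hfix e he, ← mul_assoc, ← pow_succ]
      have h2 := hj (p ^ k)
      rw [hk, one_mul, inv_one, mul_one, right_eq_mul] at h2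
      have he1 : e = 1 := orderOf_eq_one_iff.1 (Nat.eq_one_of_dvd_coprimes (hQ.pow_right k)
        (Subgroup.orderOf_dvd_natCard _ (Subgroup.mem_inf.1 he).1) (orderOf_dvd_of_pow_eq_one h2))
      exact mul_inv_eq_one.1 he1
  set M := Subgroup.normalizer (Q : Set G) with hM
  obtain ⟨R⟩ := (inferInstance : Nonempty (Sylow p ↥M))
  have hR : (R : Subgroup ↥M) ≤ (Subgroup.centralizer (Q : Set G)).subgroupOf M := by
    intro r hr
    obtain ⟨k, hk⟩ := R.isPGroup' ⟨r, hr⟩
    have hk' := congrArg Subtype.val hk
    have hk'' : (r : G) ^ p ^ k = 1 := congrArg Subtype.val hk'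
    refine Subgroup.mem_subgroupOf.2 (Subgroup.mem_centralizer_iff.2 fun q hq => ?_)
    have := key (Nat.card G) G le_rfl hG P Q ((Fact.out : p.Prime).coprime_iff_not_dvd.2 hQ).symm hQP r r.2
      ⟨k, hk''⟩ q hq
    exact (mul_inv_eq_iff_eq_mul.1 this).symm
  exact R.not_dvd_index (hA.trans (Subgroup.index_dvd_of_le hR))

end Cfsg.Agent.S1901
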