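import Cfsg.Statements.S1902
import Mathlib
import Cfsg.Agent.Lib.PLocal.InvariantOmega
import Cfsg.Agent.Lib.Blocks.PrincipalTypeCore
-- import your own Cfsg.Agent.* helpers here

set_option autoImplicit false
open Cfsg

namespace Cfsg.Agent.S1902

/-- Let p be an odd prime, G a finite p-solvable group, and B an elementary abelian subgroup of order p² such that B is the subgroup generated by the elements of order p of some Sylow p-subgroup of C_G(b₀), for some nontrivial b₀ ∈ B. Then every B-invariant subgroup of G of order prime to p lies in O_{p'}(G). -/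
theorem result {G : Type*} [Group G] [Finite G] {p : ℕ} [Fact p.Prime] (hp : p ≠ 2)
    (hG : Cfsg.IsPSolvable p G) (B : Subgroup G) (hB : Cfsg.IsElementaryAbelian p B) (hBc : Nat.card B = p ^ 2)
    (b₀ : G) (hb₀ : b₀ ∈ B) (hb₁ : b₀ ≠ 1) (P : Sylow p ↥(Subgroup.centralizer ({b₀} : Set G)))
    (hBP : B = Subgroup.closure {x : G | x ∈ ((P : Subgroup ↥(Subgroup.centralizer ({b₀} : Set G))).map
      (Subgroup.centralizer ({b₀} : Set G)).subtype : Subgroup G) ∧ orderOf x = p})
    (Q : Subgroup G) (hQ : ¬ p ∣ Nat.card Q) (hinv : ∀ b ∈ B, ∀ x ∈ Q, b * x * b⁻¹ ∈ Q) :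
    Q ≤ Cfsg.pPrimeCore p G := by
  have hp' := (Fact.out : p.Prime)
  haveI := Fintype.ofFinite G
  haveI := hB.1
  have hcon : Cfsg.IsPConstrained p G := Cfsg.Lib.Blocks.isPConstrained_of_pSolvable hG
  refine Cfsg.Lib.PLocal.le_pPrimeCore_of_omega hp hcon (A := B)
    (fun b => ⟨1, Subtype.ext (by simpa using hB.2 b b.2)⟩) (fun x hx hxp => ?_)
    ((Nat.Prime.coprime_iff_not_dvd hp').2 hQ).symm ?_
  · -- `B ⟨x⟩` is an elementary abelian `p`-subgroup of `(Subgroup.centralizer ({b₀} : Set G))(b₀)`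
    by_cases hx1 : x = 1
    · rw [hx1]; exact one_mem B
    set E := Subgroup.closure ((B : Set G) ∪ {x}) with hE
    have hgen : ∀ u ∈ (B : Set G) ∪ {x}, ∀ v ∈ (B : Set G) ∪ {x}, u * v = v * u := by
      rintro u (hu | hu) v (hv | hv)
      · exact congrArg Subtype.val (mul_comm' (⟨u, hu⟩ : B) ⟨v, hv⟩)
      · rw [Set.mem_singleton_iff.1 hv]; exact Subgroup.mem_centralizer_iff.1 hx u hu
      · rw [Set.mem_singleton_iff.1 hu]; exact (Subgroup.mem_centralizer_iff.1 hx v hv).symm
      · rw [Set.mem_singleton_iff.1 hu, Set.mem_singleton_iff.1 hv]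
    haveI hEc : IsMulCommutative ↥E := Subgroup.isMulCommutative_closure hgen
    have hEp : ∀ u ∈ E, u ^ p = 1 := by
      intro u hu
      induction hu using Subgroup.closure_induction with
      | mem u hu =>
        rcases hu with hu | hu
        · exact hB.2 u hu
        · rw [Set.mem_singleton_iff.1 hu]; exact hxp
      | one => exact one_pow p
      | mul u v hu hv h1 h2 =>
        have huv : Commute u v := congrArg Subtype.val (mul_comm' (⟨u, hu⟩ : E) ⟨v, hv⟩)
        rw [huv.mul_pow, h1, h2, one_mul]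
      | inv u hu h1 => rw [inv_pow, h1, inv_one]
    have hEC : E ≤ (Subgroup.centralizer ({b₀} : Set G)) := by
      rw [hE, Subgroup.closure_le]
      rintro u (hu | hu)
      · rw [SetLike.mem_coe, Subgroup.mem_centralizer_singleton_iff]
        exact congrArg Subtype.val (mul_comm' (⟨u, hu⟩ : B) ⟨b₀, hb₀⟩)
      · rw [Set.mem_singleton_iff.1 hu, SetLike.mem_coe, Subgroup.mem_centralizer_singleton_iff]
        exact (Subgroup.mem_centralizer_iff.1 hx b₀ hb₀).symm
    have hEP : IsPGroup p (E.subgroupOf (Subgroup.centralizer ({b₀} : Set G))) := fun u =>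
      ⟨1, Subtype.ext (Subtype.ext (by simpa using hEp _ u.2))⟩
    obtain ⟨R, hR⟩ := hEP.exists_le_sylow
    obtain ⟨g, hg⟩ := MulAction.exists_smul_eq (Subgroup.centralizer ({b₀} : Set G)) R P
    have hmap : ∀ u ∈ E, (g : G) * u * (g : G)⁻¹ ∈ B := by
      intro u hu
      by_cases hu1 : u = 1
      · rw [hu1, mul_one, mul_inv_cancel]; exact one_mem B
      rw [hBP]
      refine Subgroup.subset_closure ⟨?_, ?_⟩
      · refine ⟨g * ⟨u, hEC hu⟩ * g⁻¹, ?_, rfl⟩
        rw [← hg, SetLike.mem_coe, Sylow.coe_subgroup_smul]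
        exact ⟨⟨u, hEC hu⟩, hR hu, rfl⟩
      · exact orderOf_eq_prime (by rw [conj_pow, hEp u hu, mul_one, mul_inv_cancel])
          (fun h => hu1 (conj_eq_one_iff.1 h))
    have hcard : Nat.card E ≤ Nat.card B :=
      Nat.card_le_card_of_injective (fun u : E => (⟨(g : G) * u * (g : G)⁻¹, hmap u u.2⟩ : B))
        (fun u v h => Subtype.ext (by simpa using congrArg Subtype.val h))
    have hBE : B ≤ E := fun b hb => Subgroup.subset_closure (Or.inl hb)
    rw [Subgroup.eq_of_le_of_card_ge hBE hcard]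
    exact Subgroup.subset_closure (Or.inr rfl)
  · intro b hb
    rw [Subgroup.mem_normalizer_iff]
    refine fun y => ⟨hinv b hb y, fun hy => ?_⟩
    have := hinv b⁻¹ (inv_mem hb) _ hy
    simpa [mul_assoc] using this

end Cfsg.Agent.S1902
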