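import Cfsg.Statements.S1905
import Cfsg.Agent.Lib.TwoFus.StronglyEmbedded
-- import your own Cfsg.Agent.* helpers here

set_option autoImplicit false
open Cfsg
open scoped Pointwise

namespace Cfsg.Agent.S1905

/-- Let M be a subgroup of even order of a finite group S such that M contains the centralizer in S of each of its involutions and the normal core of M in S has odd order. Then all involutions of S are conjugate. If moreover N_S(X) ≤ M for a Sylow 2-subgroup X of M and I is an involution in the centre of X, then all involutions of M are conjugate in M and M = M₀ C_M(I) for some subgroup M₀ of M of odd order. -/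
theorem result {S : Type*} [Group S] [Finite S] (M : Subgroup S) (hM : Even (Nat.card M))
    (hC : ∀ i ∈ M, orderOf i = 2 → Subgroup.centralizer ({i} : Set S) ≤ M) (hcore : Odd (Nat.card M.normalCore)) :
    (∀ x y : S, orderOf x = 2 → orderOf y = 2 → IsConj x y) ∧
      ∀ (X : Sylow 2 M) (I : M), I ∈ (Subgroup.center ↥(X : Subgroup ↥M)).map (X : Subgroup ↥M).subtype → orderOf I = 2 →
        Subgroup.normalizer (((X : Subgroup M).map M.subtype : Subgroup S) : Set S) ≤ M →
        (∀ x y : M, orderOf x = 2 → orderOf y = 2 → IsConj x y) ∧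
          ∃ M₀ : Subgroup M, Odd (Nat.card M₀) ∧
            ∀ m : M, ∃ a ∈ M₀, ∃ c ∈ Subgroup.centralizer ({I} : Set M), m = a * c := by
  classical
  haveI := Fact.mk Nat.prime_two
  open Cfsg.Lib.Invol in
  have hcoreM : ∀ i ∈ M, orderOf i = 2 → ∃ g : S, g * i * g⁻¹ ∉ M := by
    intro i hi hi2
    by_contra h
    push Not at h
    have h1 : i ∈ M.normalCore := h
    have h2 : 2 ∣ Nat.card M.normalCore := hi2 ▸ Subgroup.orderOf_dvd_natCard _ h1
    exact Nat.not_odd_iff_even.2 (even_iff_two_dvd.2 h2) hcore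
  have hcomm : ∀ g i : S, i ∈ M → orderOf i = 2 → Commute g i → g ∈ M := fun g i hi hi2 h =>
    hC i hi hi2 (Subgroup.mem_centralizer_singleton_iff.2 h.eq)
  obtain ⟨t, htM, ht2⟩ : ∃ t ∈ M, orderOf t = 2 := by
    obtain ⟨t, ht⟩ := exists_prime_orderOf_dvd_card' (G := ↥M) 2 (even_iff_two_dvd.1 hM)
    exact ⟨t, t.2, by rwa [Subgroup.orderOf_coe]⟩
  obtain ⟨g0, hg0⟩ := hcoreM t htM ht2
  have hu02 : orderOf (g0 * t * g0⁻¹) = 2 := Cfsg.Lib.Invol.orderTwo_conj g0 ht2
  have hoddprod : ∀ a i : S, orderOf a = 2 → a ∉ M → i ∈ M → orderOf i = 2 → Odd (orderOf (a * i)) := by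
    intro a i ha haM hi hi2
    by_contra h
    rw [Nat.not_odd_iff_even] at h
    exact haM (hcomm a _ (hcomm _ i hi hi2 (Cfsg.Lib.Invol.commute_half_right ha hi2 h))
      (Cfsg.Lib.Invol.orderTwo_half h) (Cfsg.Lib.Invol.commute_half_left ha hi2 h).symm)
  refine ⟨?_, ?_⟩
  · have key : ∀ a : S, orderOf a = 2 → IsConj a (g0 * t * g0⁻¹) := by
      intro a ha
      by_cases haM : a ∈ M
      · exact (Cfsg.Lib.Invol.isConj_of_odd hu02 ha (hoddprod _ _ hu02 hg0 haM ha)).symm
      · exact (Cfsg.Lib.Invol.isConj_of_odd ha ht2 (hoddprod _ _ ha haM htM ht2)).trans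
          (Cfsg.Lib.Invol.isConj_of_odd hu02 ht2 (hoddprod _ _ hu02 hg0 htM ht2)).symm
    exact fun x y hx hy => (key x hx).trans (key y hy).symm
  intro X I hI hI2 hN
  have hse : Cfsg.IsStronglyEmbedded M := by
    refine ⟨fun e => hg0 (e ▸ Subgroup.mem_top _), hM, fun g hg => ?_⟩
    by_contra heven
    rw [Nat.not_odd_iff_even, even_iff_two_dvd] at heven
    obtain ⟨⟨j, hjM, hjg⟩, hj2⟩ := exists_prime_orderOf_dvd_card' 2 heven
    rw [← Subgroup.orderOf_coe] at hj2
    change orderOf j = 2 at hj2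
    obtain ⟨i, hiM, hij⟩ := hjg
    change g * i * g⁻¹ = j at hij
    obtain ⟨P, hP⟩ := (IsPGroup.of_card (p := 2) (n := 1)
      (show Nat.card (Subgroup.zpowers (⟨j, hjM⟩ : M)) = 2 ^ 1 by
        rw [Nat.card_zpowers, Subgroup.orderOf_mk, hj2, pow_one])).exists_le_sylow
    obtain ⟨m, rfl⟩ := MulAction.exists_smul_eq M X P
    have hI' : I ∈ (X : Subgroup M) ∧ ∀ x ∈ (X : Subgroup M), x * I = I * x := by
      obtain ⟨I', hI', rfl⟩ := hI
      exact ⟨I'.2, fun x hx => congrArg Subtype.val (Subgroup.mem_center_iff.1 hI' ⟨x, hx⟩)⟩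
    have hjX : m⁻¹ * (⟨j, hjM⟩ : M) * m ∈ (X : Subgroup M) := by
      have h := hP (Subgroup.mem_zpowers _)
      change _ ∈ MulAut.conj _ • (X : Subgroup M) at h
      rw [Subgroup.mem_pointwise_smul_iff_inv_smul_mem] at h
      simpa [MulAut.smul_def, mul_assoc] using h
    -- `w` is the central involution of that Sylow subgroup
    let w : S := (m : S) * (I : S) * (m : S)⁻¹
    have hwM : w ∈ M := M.mul_mem (M.mul_mem m.2 I.2) (M.inv_mem m.2)
    have hw2 : orderOf w = 2 := Cfsg.Lib.Invol.orderTwo_conj _ (by rw [Subgroup.orderOf_coe]; exact hI2)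
    have hwj : Commute w j := by
      have h := congrArg Subtype.val (hI'.2 _ hjX)
      simp only [Subgroup.coe_mul, InvMemClass.coe_inv] at h
      show (m : S) * I * (m : S)⁻¹ * j = j * ((m : S) * I * (m : S)⁻¹)
      calc (m : S) * I * (m : S)⁻¹ * j = (m : S) * ((I : S) * ((m : S)⁻¹ * j * m)) * (m : S)⁻¹ := by group
        _ = _ := by rw [← h]; group
    have hg' : ∀ c : S, Commute c j → g⁻¹ * c * g ∈ M := by
      intro c hc
      refine hcomm _ i hiM ?_ ?_
      · have h := Cfsg.Lib.Invol.orderTwo_conj g⁻¹ hj2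
        rw [← hij] at h
        simpa [mul_assoc] using h
      · show g⁻¹ * c * g * i = i * (g⁻¹ * c * g)
        calc g⁻¹ * c * g * i = g⁻¹ * (c * (g * i * g⁻¹)) * g := by group
          _ = g⁻¹ * ((g * i * g⁻¹) * c) * g := by rw [hij, hc.eq]
          _ = _ := by group
    have hwg := hg' w hwj
    have hw2' : orderOf (g⁻¹ * w * g) = 2 := by simpa using Cfsg.Lib.Invol.orderTwo_conj g⁻¹ hw2
    -- the whole Sylow subgroup lies in the conjugate of `M`
    have hXg : ∀ x ∈ (X : Subgroup M), g⁻¹ * ((m : S) * (x : S) * (m : S)⁻¹) * g ∈ M := by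
      intro x hx
      refine hcomm _ _ hwg hw2' ?_
      have h := congrArg Subtype.val (hI'.2 x hx)
      simp only [Subgroup.coe_mul] at h
      show g⁻¹ * ((m : S) * x * (m : S)⁻¹) * g * (g⁻¹ * w * g) = g⁻¹ * w * g * (g⁻¹ * ((m : S) * x * (m : S)⁻¹) * g)
      calc g⁻¹ * ((m : S) * x * (m : S)⁻¹) * g * (g⁻¹ * w * g)
          = g⁻¹ * (m : S) * ((x : S) * I) * (m : S)⁻¹ * g := by simp only [w]; group
        _ = _ := by rw [h]; simp only [w]; group
    let φ : (X : Subgroup M) →* M := MonoidHom.mk'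
      (fun x => ⟨g⁻¹ * ((m : S) * ((x : M) : S) * (m : S)⁻¹) * g, hXg x x.2⟩)
      (fun a b => Subtype.ext (by simp [mul_assoc]))
    obtain ⟨P', hP'⟩ := ((IsPGroup.of_surjective X.isPGroup' φ.rangeRestrict φ.rangeRestrict_surjective) :
      IsPGroup 2 φ.range).exists_le_sylow
    obtain ⟨n, rfl⟩ := MulAction.exists_smul_eq M X P'
    apply hg
    have hmem : (n : S)⁻¹ * g⁻¹ * (m : S) ∈ M := by
      refine hN (Subgroup.mem_normalizer_fintype ?_)
      rintro _ ⟨x, hx, rfl⟩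
      have h := hP' ⟨⟨x, hx⟩, rfl⟩
      change _ ∈ MulAut.conj _ • (X : Subgroup M) at h
      rw [Subgroup.mem_pointwise_smul_iff_inv_smul_mem] at h
      refine ⟨_, h, ?_⟩
      simp [φ, MulAut.smul_def, mul_assoc]
    have h2 := M.mul_mem (M.mul_mem n.2 hmem) (M.inv_mem m.2)
    have h3 : g⁻¹ ∈ M := by simpa [mul_assoc] using h2
    simpa using M.inv_mem h3
  obtain ⟨u, hu, hu2⟩ := Cfsg.Lib.TwoFus.se_exists_not_mem hse
  have hord : ∀ x : M, orderOf x = 2 → orderOf (x : S) = 2 := fun x hx => by rwa [Subgroup.orderOf_coe]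
  refine ⟨fun x y hx hy => ?_, (M ⊓ M.map (MulAut.conj u).toMonoidHom).subgroupOf M, ?_, fun m => ?_⟩
  · obtain ⟨d, hd, hde⟩ := Cfsg.Lib.TwoFus.se_transitive hse hu2 hu x.2 (hord x hx) y.2 (hord y hy)
    exact isConj_iff.2 ⟨⟨d, hd.1⟩, Subtype.ext hde⟩
  · rw [Nat.card_congr (Subgroup.subgroupOfEquivOfLe inf_le_left).toEquiv]
    exact hse.2.2 u hu
  · obtain ⟨d, hd, hde⟩ := Cfsg.Lib.TwoFus.se_transitive hse hu2 hu I.2 (hord I hI2)
      (M.mul_mem (M.mul_mem m.2 I.2) (M.inv_mem m.2)) (Cfsg.Lib.Invol.orderTwo_conj _ (hord I hI2))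
    refine ⟨⟨d, hd.1⟩, hd, (⟨d, hd.1⟩ : M)⁻¹ * m, Subgroup.mem_centralizer_singleton_iff.2 ?_, by group⟩
    apply Subtype.ext
    show d⁻¹ * (m : S) * I = I * (d⁻¹ * m)
    calc d⁻¹ * (m : S) * I = d⁻¹ * ((m : S) * I * (m : S)⁻¹) * m := by group
      _ = d⁻¹ * (d * (I : S) * d⁻¹) * m := by rw [hde]
      _ = _ := by group

end Cfsg.Agent.S1905
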