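import Cfsg.Statements.S1907
import Mathlib
import Cfsg.Agent.Lib.Transfer.CoreFusion
-- import your own Cfsg.Agent.* helpers here

set_option autoImplicit false
open Cfsg

namespace Cfsg.Agent.S1907

/-- Let P be a Sylow p-subgroup of a finite group G, H = P ∩ O_{p',p}(G), N = N_G(H) and D = O_{p'}(G). (a) If y is an element of p-power order of N and d ∈ D with d⁻¹ y d ∈ N, then d = d₁ d₂ with d₁ ∈ C_D(y) and d₂ ∈ C_D(H). (b) Two elements of P that are conjugate in G are conjugate in N. -/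
theorem result {G : Type*} [Group G] [Finite G] {p : ℕ} [Fact p.Prime] (P : Sylow p G) :
    (∀ y ∈ Subgroup.normalizer (((P : Subgroup G) ⊓ Cfsg.pPrimePCore p G : Subgroup G) : Set G), (∃ k : ℕ, orderOf y = p ^ k) →
      ∀ d ∈ Cfsg.pPrimeCore p G, d⁻¹ * y * d ∈ Subgroup.normalizer (((P : Subgroup G) ⊓ Cfsg.pPrimePCore p G : Subgroup G) : Set G) →
        ∃ d₁ ∈ Cfsg.pPrimeCore p G ⊓ Subgroup.centralizer ({y} : Set G),
          ∃ d₂ ∈ Cfsg.pPrimeCore p G ⊓ Subgroup.centralizer (((P : Subgroup G) ⊓ Cfsg.pPrimePCore p G : Subgroup G) : Set G), d = d₁ * d₂) ∧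
    ∀ x y : G, x ∈ (P : Subgroup G) → y ∈ (P : Subgroup G) → IsConj x y →
      ∃ n ∈ Subgroup.normalizer (((P : Subgroup G) ⊓ Cfsg.pPrimePCore p G : Subgroup G) : Set G), n * x * n⁻¹ = y := by
  set R := (P : Subgroup G) ⊓ Cfsg.pPrimePCore p G with hR
  set N := Subgroup.normalizer (R : Set G) with hN
  set O := Cfsg.pPrimeCore p G with hO
  haveI hnorm : (Cfsg.pPrimePCore p G).Normal := by unfold Cfsg.pPrimePCore; infer_instance
  haveI hOn : O.Normal := Cfsg.pPrimeCore_normal p G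
  have hPN : (P : Subgroup G) ≤ N := by
    intro s (hs : s ∈ (P : Subgroup G))
    refine Subgroup.mem_normalizer_iff.2 fun x => ⟨fun hx => ⟨(mul_mem (mul_mem hs hx.1) (inv_mem hs) : _ ∈ (_ : Subgroup G)),
      hnorm.conj_mem x hx.2 s⟩, fun hx => ?_⟩
    refine ⟨?_, ?_⟩
    · have := mul_mem (mul_mem (inv_mem hs) hx.1) hs
      rwa [show s⁻¹ * (s * x * s⁻¹) * s = x by group] at this
    · have := hnorm.conj_mem _ hx.2 s⁻¹
      simpa [mul_assoc] using this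
  have hOR : O ⊓ R = ⊥ := le_bot_iff.1 fun x hx =>
    Subgroup.mem_bot.2 (Cfsg.Lib.Transfer.eq_of_mem_pgroup_core P.2 hx.2.1 hx.1)
  have part1 : ∀ y ∈ N, (∃ k : ℕ, orderOf y = p ^ k) → ∀ d ∈ O, d⁻¹ * y * d ∈ N →
      ∃ d₁ ∈ O ⊓ Subgroup.centralizer ({y} : Set G),
        ∃ d₂ ∈ O ⊓ Subgroup.centralizer (R : Set G), d = d₁ * d₂ := by
    intro y hy ⟨k, hk⟩ d hd hdy
    set K := O ⊓ Subgroup.centralizer (R : Set G) with hK
    set c := y⁻¹ * (d⁻¹ * y * d) with hc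
    have hcO : c ∈ O := by
      rw [hc, show y⁻¹ * (d⁻¹ * y * d) = (y⁻¹ * d⁻¹ * y⁻¹⁻¹) * d by group]
      exact mul_mem (hOn.conj_mem _ (inv_mem hd) _) hd
    have hcN : c ∈ N := mul_mem (inv_mem hy) hdy
    have hcK : c ∈ K := ⟨hcO, Cfsg.Lib.PLocal.mem_centralizer_of_disjoint hOR hcN fun r hr => by
      rw [show c * r * c⁻¹ * r⁻¹ = c * (r * c⁻¹ * r⁻¹) by group]
      exact mul_mem hcO (hOn.conj_mem _ (inv_mem hcO) r)⟩
    set Y := Subgroup.zpowers y with hY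
    set U := Subgroup.zpowers (d⁻¹ * y * d) with hU
    have hYK : Y ≤ Subgroup.normalizer (K : Set G) := Subgroup.zpowers_le.2 (by
      rw [← Cfsg.Lib.Solv.conj_smul_eq_self_iff, hK, Subgroup.smul_inf,
        Cfsg.Lib.Solv.conj_smul_normal, Cfsg.Lib.Solv.conj_smul_eq_self_iff.2
          (Cfsg.Lib.Solv.normalizer_le_normalizer_centralizer R hy)])
    have hUY : U ≤ Y ⊔ K := Subgroup.zpowers_le.2 (by
      rw [show d⁻¹ * y * d = y * c by rw [hc]; group]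
      exact mul_mem (Subgroup.mem_sup_left (Subgroup.mem_zpowers y)) (Subgroup.mem_sup_right hcK))
    have hKc : (Nat.card ↥K).Coprime p :=
      (Cfsg.Lib.Solv.coprime_pPrimeCore p).coprime_dvd_left (Subgroup.card_dvd_of_le inf_le_left)
    have hdy' : orderOf (d⁻¹ * y * d) = p ^ k := by
      rw [← hk, show d⁻¹ * y * d = MulAut.conj d⁻¹ y by simp [MulAut.conj_apply],
        MulEquiv.orderOf_eq]
    have hcopY : ∀ {u : G}, orderOf u = p ^ k → (Nat.card ↥(Subgroup.zpowers u)).Coprime (Nat.card ↥K) :=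
      fun {u} hu => by rw [Nat.card_zpowers, hu]; exact (hKc.pow_right k).symm
    obtain ⟨n, hn, hUn⟩ := Cfsg.Lib.Solv.exists_conj_le K Y U hYK hUY (hcopY hk) (hcopY hdy')
      (Or.inr inferInstance)
    obtain ⟨v, hv, hve⟩ := hUn (Subgroup.mem_zpowers _)
    obtain ⟨i, rfl⟩ := Subgroup.mem_zpowers_iff.1 hv
    have hve' : n * y ^ i * n⁻¹ = d⁻¹ * y * d := hve
    have hi : y ^ i * y⁻¹ = 1 := by
      refine Cfsg.Lib.Transfer.eq_of_mem_pgroup_core (S := Y)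
        (IsPGroup.of_card (n := k) (by rw [Nat.card_zpowers, hk]))
        (mul_mem (zpow_mem (Subgroup.mem_zpowers y) i) (inv_mem (Subgroup.mem_zpowers y))) ?_
      have h1 : y ^ i * y⁻¹ = (n⁻¹ * d⁻¹) * (y * (d * n) * y⁻¹) := by
        calc y ^ i * y⁻¹ = n⁻¹ * (n * y ^ i * n⁻¹) * n * y⁻¹ := by group
          _ = _ := by rw [hve']; group
      rw [h1]
      exact mul_mem (mul_mem (inv_mem hn.1) (inv_mem hd)) (hOn.conj_mem _ (mul_mem hd hn.1) y)
    rw [mul_inv_eq_one.1 hi] at hve'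
    refine ⟨d * n, ⟨mul_mem hd hn.1, Subgroup.mem_centralizer_singleton_iff.2 ?_⟩,
      n⁻¹, inv_mem hn, by group⟩
    calc d * n * y = d * (n * y * n⁻¹) * n := by group
      _ = y * (d * n) := by rw [hve']; group
  refine ⟨part1, fun x y hx hy hxy => ?_⟩
  obtain ⟨g, hg⟩ := isConj_iff.1 hxy
  obtain ⟨o, ho, hn⟩ := Cfsg.Lib.Transfer.exists_core_mul_normalizer P g
  have hpow : ∃ k : ℕ, orderOf y = p ^ k := by
    obtain ⟨k, hk⟩ := IsPGroup.iff_orderOf.1 P.2 ⟨y, hy⟩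
    exact ⟨k, by rwa [Subgroup.orderOf_mk] at hk⟩
  obtain ⟨d₁, hd₁, d₂, hd₂, hd⟩ := part1 y (hPN hy) hpow o⁻¹ (inv_mem ho) (by
    rw [inv_inv, ← hg, show o * (g * x * g⁻¹) * o⁻¹ = (o * g) * x * (o * g)⁻¹ by group]
    exact mul_mem (mul_mem hn (hPN hx)) (inv_mem hn))
  refine ⟨d₂ * (o * g), mul_mem (Subgroup.centralizer_le_normalizer _ hd₂.2) hn, ?_⟩
  have hc : d₁⁻¹ * y * d₁ = y := by
    rw [mul_assoc, ← (Subgroup.mem_centralizer_singleton_iff.1 hd₁.2), ← mul_assoc,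
      inv_mul_cancel, one_mul]
  have hd2 : d₂ = d₁⁻¹ * o⁻¹ := by rw [hd]; group
  calc d₂ * (o * g) * x * (d₂ * (o * g))⁻¹ = d₁⁻¹ * (g * x * g⁻¹) * d₁ := by rw [hd2]; group
    _ = y := by rw [hg, hc]

end Cfsg.Agent.S1907
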