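import Cfsg.Statements.S1924
import Cfsg.Agent.Lib.Transfer.NormalPComplement
-- import your own Cfsg.Agent.* helpers here

set_option autoImplicit false
open Cfsg

namespace Cfsg.Agent.S1924

open Subgroup

/-- A fixed-point-free cyclic `2`-group of permutations with an odd number of orbits is odd. -/
theorem sign_eq_neg_one {α : Type*} [Fintype α] [DecidableEq α] (σ : Equiv.Perm α) {m o : ℕ}
    (hm : 1 ≤ m) (ho : Odd o) (hσ : σ ^ 2 ^ m = 1) (hfix : ∀ j a, (σ ^ j) a = a → 2 ^ m ∣ j)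
    (hc : Fintype.card α = 2 ^ m * o) : Equiv.Perm.sign σ = -1 := by
  have hlen : ∀ l ∈ σ.cycleType, l = 2 ^ m := by
    intro l hl
    refine Nat.dvd_antisymm (((Equiv.Perm.dvd_of_mem_cycleType hl)).trans (orderOf_dvd_of_pow_eq_one hσ)) ?_
    rw [Equiv.Perm.cycleType_def, Multiset.mem_map] at hl
    obtain ⟨c, hcm, rfl⟩ := hl
    obtain ⟨hcyc, hag⟩ := Equiv.Perm.mem_cycleFactorsFinset_iff.1 hcm
    obtain ⟨a, ha⟩ := hcyc.nonempty_support
    refine hfix _ a ?_
    have h1 : (c ^ c.support.card) a = a := by rw [← hcyc.orderOf, pow_orderOf_eq_one]; rfl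
    have h2 : ∀ k : ℕ, (σ ^ k) a = (c ^ k) a := by
      intro k
      induction k with
      | zero => rfl
      | succ k ih =>
        rw [pow_succ', pow_succ', Equiv.Perm.mul_apply, Equiv.Perm.mul_apply, ih]
        exact (hag _ (Equiv.Perm.pow_apply_mem_support.2 ha)).symm
    exact (h2 _).trans h1
  have hsupp : σ.support = Finset.univ := by
    refine Finset.eq_univ_of_forall fun a => Equiv.Perm.mem_support.2 fun ha => ?_
    have h1 := hfix 1 a (by simpa using ha)
    exact absurd (Nat.le_of_dvd Nat.one_pos h1) (by have := Nat.one_lt_two_pow (by omega : m ≠ 0); omega)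
  have hrep : σ.cycleType = Multiset.replicate (Multiset.card σ.cycleType) (2 ^ m) :=
    Multiset.eq_replicate_card.2 hlen
  have hsum : σ.cycleType.sum = 2 ^ m * o := by
    rw [Equiv.Perm.sum_cycleType, hsupp, Finset.card_univ, hc]
  have hcard : Multiset.card σ.cycleType = o := by
    have h2 := hsum
    rw [hrep, Multiset.sum_replicate, smul_eq_mul, mul_comm] at h2
    exact Nat.eq_of_mul_eq_mul_left (by positivity) h2
  rw [Equiv.Perm.sign_of_cycleType, hsum, hcard]
  exact Odd.neg_one_pow ((Even.mul_right (Nat.even_pow.2 ⟨even_two, by omega⟩) o).add_odd ho)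

/-- The sign of the action on cosets keeps a semiregular `2`-element out of the residual. -/
theorem not_mem_residual {K : Type*} [Group K] [Finite K] (H : Subgroup K) (y : K) {m o : ℕ}
    (hm : 1 ≤ m) (ho : Odd o) (hy : y ^ 2 ^ m = 1) (hsr : ∀ j g, g⁻¹ * y ^ j * g ∈ H → 2 ^ m ∣ j)
    (hi : H.index = 2 ^ m * o) : y ∉ Cfsg.pResidual 2 K := by
  classical
  haveI := Fintype.ofFinite (K ⧸ H)
  let f : K →* ℤˣ := Equiv.Perm.sign.comp (MulAction.toPermHom K (K ⧸ H))
  have hker : Cfsg.pResidual 2 K ≤ f.ker := by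
    refine (Subgroup.closure_le _).2 fun g hg => ?_
    rw [SetLike.mem_coe, MonoidHom.mem_ker]
    have h1 : orderOf (f g) ∣ 2 := orderOf_dvd_of_pow_eq_one (Int.units_sq (f g))
    exact orderOf_eq_one_iff.1 (Nat.eq_one_of_dvd_coprimes hg (orderOf_map_dvd f g) h1)
  intro hK
  have h2 : f y = -1 := by
    refine sign_eq_neg_one _ hm ho (by rw [← map_pow, hy, map_one]) (fun j a ha => ?_)
      (by rw [← hi, Subgroup.index_eq_card, Nat.card_eq_fintype_card])
    rw [← map_pow] at ha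
    induction a using QuotientGroup.induction_on with
    | _ g =>
      refine hsr j g ?_
      have h3 : ((g : K) : K ⧸ H) = ((y ^ j * g : K) : K ⧸ H) := ha.symm
      simpa [mul_assoc] using QuotientGroup.eq.1 h3
  exact absurd ((MonoidHom.mem_ker.1 (hker hK)).symm.trans h2) (by decide)

theorem isPGroup_orderOf {G : Type*} [Group G] [Finite G] {D : Subgroup G} (hD : IsPGroup 2 D)
    {d : G} (hd : d ∈ D) : ∃ k, orderOf d = 2 ^ k := by
  obtain ⟨k, hk⟩ := hD.exists_orderOf_eq_pow ⟨d, hd⟩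
  exact ⟨k, by rw [← hk, Subgroup.orderOf_mk]⟩

/-- Off a cyclic subgroup of index two, a dihedral group has only involutions. -/
theorem orderOf_eq_two_of_notMem {D : Type*} [Group D] [Finite D] {n : ℕ} (hn : 2 ≤ n)
    (e : D ≃* DihedralGroup n) (C : Subgroup D) (hC : IsCyclic C) (hi : C.index = 2) {d : D}
    (hd : d ∉ C) : orderOf d = 2 := by
  haveI : NeZero n := ⟨by omega⟩
  have hd1 : d ≠ 1 := fun h => hd (h ▸ C.one_mem)
  refine orderOf_eq_prime ?_ hd1
  obtain ⟨⟨c, hcC⟩, hc⟩ := hC.exists_generator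
  have hcard : Nat.card C = n := by
    have h1 := C.index_mul_card
    rw [hi, Nat.card_congr e.toEquiv, DihedralGroup.nat_card] at h1
    omega
  have hco : orderOf c = n := by
    rw [← hcard, ← orderOf_eq_card_of_forall_mem_zpowers hc, Subgroup.orderOf_mk]
  rw [← orderOf_dvd_iff_pow_eq_one, ← e.orderOf_eq d]
  cases hed : e d with
  | sr i => rw [DihedralGroup.orderOf_sr]
  | r i =>
    cases hec : e c with
    | sr k =>
      have h2 : n = 2 := by rw [← hco, ← e.orderOf_eq c, hec, DihedralGroup.orderOf_sr]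
      subst h2
      rw [DihedralGroup.orderOf_r]
      exact Nat.div_dvd_of_dvd (Nat.gcd_dvd_left _ _)
    | r k =>
      exfalso
      have h3 : orderOf (DihedralGroup.r k : DihedralGroup n) = n := by
        rw [← hec, e.orderOf_eq, hco]
      have h4 : Subgroup.zpowers (DihedralGroup.r k : DihedralGroup n) = Subgroup.zpowers (DihedralGroup.r 1) := by
        refine Subgroup.eq_of_le_of_card_ge ?_ ?_
        · rw [Subgroup.zpowers_le]
          exact ⟨(k.val : ℤ), by simp⟩
        · rw [Nat.card_zpowers, Nat.card_zpowers, h3, DihedralGroup.orderOf_r_one]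
      have h5 : DihedralGroup.r i ∈ Subgroup.zpowers (DihedralGroup.r k : DihedralGroup n) := by
        rw [h4]; exact ⟨(i.val : ℤ), by simp⟩
      obtain ⟨z, hz⟩ := h5
      apply hd
      have h6 : d = c ^ z := e.injective (by rw [map_zpow, hec, hed]; exact hz.symm)
      rw [h6]; exact C.zpow_mem hcC z

/-- A consequence of Thompson's transfer lemma. Let G be a finite group, L a subgroup with O²(L) = L, T a Sylow 2-subgroup of L and S a Sylow 2-subgroup of G containing T. Suppose D ≤ S is a dihedral subgroup of order at least 4 (the four-group counts) with D ∩ T = 1 and S = TD as a set of products (so |S| = |T|·|D|), and C ≤ D is cyclic of index 2 in D. If no involution of D outside C is G-conjugate to an involution of the subgroup generated by T and C, and the involution of C is not G-conjugate to any involution of T, then G has a normal subgroup K, containing every Sylow 2-subgroup of L as a Sylow 2-subgroup, with G = KD. -/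
theorem result {G : Type*} [Group G] [Finite G] (L T S D C : Subgroup G) (hL : Cfsg.pResidual 2 ↥L = ⊤)
    (hTL : T ≤ L) (hT2 : IsPGroup 2 T) (hTsyl : ¬ 2 ∣ T.relIndex L)
    (hS2 : IsPGroup 2 S) (hSsyl : ¬ 2 ∣ S.index) (hTS : T ≤ S)
    (hDS : D ≤ S) (hDih : ∃ n : ℕ, 2 ≤ n ∧ Nonempty (↥D ≃* DihedralGroup n)) (hDT : D ⊓ T = ⊥) (hTD : T ⊔ D = S) (hTDc : Nat.card T * Nat.card D = Nat.card S)
    (hCD : C ≤ D) (hC : IsCyclic ↥C) (hCi : C.relIndex D = 2)
    (h1 : ∀ x ∈ D, x ∉ C → orderOf x = 2 → ∀ g : G, g * x * g⁻¹ ∈ T ⊔ C → False)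
    (h2 : ∀ c ∈ C, orderOf c = 2 → ∀ g : G, g * c * g⁻¹ ∈ T → False) :
    ∃ K : Subgroup G, K.Normal ∧ K ⊔ D = ⊤ ∧
      ∀ T' : Subgroup G, T' ≤ L → IsPGroup 2 T' → ¬ 2 ∣ T'.relIndex L → T' ≤ K ∧ ¬ 2 ∣ T'.relIndex K := by
  classical
  haveI : Fact (Nat.Prime 2) := ⟨Nat.prime_two⟩
  haveI := Cfsg.Lib.Transfer.pResidual_normal (G := G) 2
  set K := Cfsg.pResidual 2 G with hKdef
  have hD2 : IsPGroup 2 D := hS2.to_le hDS
  have hLK : L ≤ K := by
    intro x hx
    exact Cfsg.Lib.Transfer.pResidual_subgroup_le (p := 2) L ⟨⟨x, hx⟩, hL ▸ Subgroup.mem_top _, rfl⟩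
  have hTK : T ≤ K := hTL.trans hLK
  -- `S` is the product of `T` and `D`
  have hinj : Function.Injective (fun q : T × D => (⟨(q.1 : G) * q.2, S.mul_mem (hTS q.1.2) (hDS q.2.2)⟩ : S)) := by
    rintro ⟨t, d⟩ ⟨t', d'⟩ h
    have h1 : (t : G) * d = t' * d' := congrArg Subtype.val h
    have h2 : (t' : G)⁻¹ * t = d' * (d : G)⁻¹ := by
      rw [eq_mul_inv_iff_mul_eq, mul_assoc, h1, inv_mul_cancel_left]
    have h3 : (t' : G)⁻¹ * t ∈ D ⊓ T :=
      ⟨h2 ▸ D.mul_mem d'.2 (D.inv_mem d.2), T.mul_mem (T.inv_mem t'.2) t.2⟩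
    rw [hDT, Subgroup.mem_bot, inv_mul_eq_one] at h3
    have h4 : t = t' := Subtype.ext h3.symm
    subst h4
    exact Prod.ext rfl (Subtype.ext (mul_left_cancel h1))
  have hbij := hinj.bijective_of_nat_card_le (by rw [Nat.card_prod, hTDc])
  have hprod : ∀ s ∈ S, ∃ t ∈ T, ∃ d ∈ D, s = t * d := by
    intro s hs
    obtain ⟨⟨t, d⟩, h⟩ := hbij.2 ⟨s, hs⟩
    exact ⟨t, t.2, d, d.2, (congrArg Subtype.val h).symm⟩
  have hsub : ∀ B : Subgroup G, T ≤ B → B ≤ S → Nat.card B = Nat.card T * Nat.card ↥(B ⊓ D) := by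
    intro B hTB hBS
    rw [← Nat.card_prod]
    refine (Nat.card_congr (Equiv.ofBijective
      (fun q : T × ↥(B ⊓ D) => (⟨(q.1 : G) * q.2, B.mul_mem (hTB q.1.2) q.2.2.1⟩ : B)) ⟨?_, ?_⟩)).symm
    · rintro ⟨t, d⟩ ⟨t', d'⟩ h
      have h1 := @hinj (t, ⟨d, d.2.2⟩) (t', ⟨d', d'.2.2⟩)
        (Subtype.ext (congrArg Subtype.val h :))
      simp only [Prod.mk.injEq, Subtype.ext_iff] at h1
      exact Prod.ext (Subtype.ext h1.1) (Subtype.ext h1.2)
    · rintro ⟨b, hb⟩
      obtain ⟨t, ht, d, hd, rfl⟩ := hprod b (hBS hb)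
      exact ⟨(⟨t, ht⟩, ⟨d, ⟨(Subgroup.mul_mem_cancel_left _ (hTB ht)).1 hb, hd⟩⟩), rfl⟩
  -- involutions off `C`
  obtain ⟨n, hn, ⟨e⟩⟩ := hDih
  have hinv : ∀ x ∈ D, x ∉ C → orderOf x = 2 := by
    intro x hx hxC
    have := orderOf_eq_two_of_notMem hn e (C.subgroupOf D)
      ((Subgroup.subgroupOfEquivOfLe hCD).isCyclic.2 hC) hCi (d := ⟨x, hx⟩)
      (fun h => hxC (Subgroup.mem_subgroupOf.1 h))
    rwa [Subgroup.orderOf_mk] at this
  have hTCD : (T ⊔ C) ⊓ D = C := by
    refine le_antisymm (fun x hx => ?_) (le_inf le_sup_right hCD)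
    by_contra hxC
    exact h1 x hx.2 hxC (hinv x hx.2 hxC) 1 (by simpa using hx.1)
  have hSidx : Odd S.index := Nat.odd_iff.2 (Nat.two_dvd_ne_zero.1 hSsyl)
  have hcardD : Nat.card D = Nat.card C * 2 := by
    rw [← hCi, ← Subgroup.card_mul_index (C.subgroupOf D), Subgroup.relIndex,
      Nat.card_congr (Subgroup.subgroupOfEquivOfLe hCD).toEquiv]
  have hidx : (T ⊔ C).index = 2 * S.index := by
    have h3 : Nat.card ↥(T ⊔ C) * (T ⊔ C).index = Nat.card S * S.index := by
      rw [Subgroup.card_mul_index, Subgroup.card_mul_index]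
    rw [hsub _ le_sup_left (sup_le hTS (hCD.trans hDS)), hTCD, ← hTDc, hcardD] at h3
    exact Nat.eq_of_mul_eq_mul_left (Nat.mul_pos Nat.card_pos Nat.card_pos) (h3.trans (by ring))
  have hDK : K ⊓ D ≤ C := by
    rintro x ⟨hxK, hxD⟩
    by_contra hxC
    have hx2 := hinv x hxD hxC
    refine not_mem_residual (T ⊔ C) x le_rfl hSidx ?_ (fun j g hg => ?_) (by rw [hidx, pow_one]) hxK
    · rw [pow_one, ← hx2, pow_orderOf_eq_one]
    · rw [pow_one]
      rcases Nat.even_or_odd j with hj | hj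
      · exact hj.two_dvd
      · exfalso
        obtain ⟨i, rfl⟩ := hj
        refine h1 x hxD hxC hx2 g⁻¹ ?_
        rw [pow_succ, pow_mul, ← hx2, pow_orderOf_eq_one, one_pow, one_mul] at hg
        simpa using hg
  -- `K` meets `D` trivially
  have hS' : (hS2.toSylow hSsyl : Subgroup G) = S := rfl
  have hUK : ¬ 2 ∣ (S ⊓ K).relIndex K := by
    rw [Subgroup.inf_relIndex_right]
    intro h
    have h4 : K.relIndex S = K.index := by
      rw [← Subgroup.relIndex_sup_right S K, sup_comm,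
        show K ⊔ S = ⊤ from hS' ▸ Cfsg.Lib.Transfer.pResidual_sup_sylow (hS2.toSylow hSsyl), Subgroup.relIndex_top_right]
    have h5 : S.relIndex K * K.index = K.relIndex S * S.index := by
      rw [← Subgroup.inf_relIndex_right S K, Subgroup.relIndex_mul_index inf_le_right,
        ← Subgroup.inf_relIndex_left S K, Subgroup.relIndex_mul_index inf_le_left]
    rw [h4, mul_comm] at h5
    exact hSsyl (Nat.eq_of_mul_eq_mul_left (Nat.pos_of_ne_zero Subgroup.index_ne_zero_of_finite) h5 ▸ h)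
  have hTcard : Nat.card T * T.relIndex L = Nat.card L := by
    rw [← Nat.card_congr (Subgroup.subgroupOfEquivOfLe hTL).toEquiv]
    exact Subgroup.card_mul_index _
  have hUcard : Nat.card ↥(S ⊓ K) * (S ⊓ K).relIndex K = Nat.card K := by
    rw [← Nat.card_congr (Subgroup.subgroupOfEquivOfLe (inf_le_right : S ⊓ K ≤ K)).toEquiv]
    exact Subgroup.card_mul_index _
  rw [hsub _ (le_inf hTS hTK) inf_le_left] at hUcard
  have hKD : S ⊓ K ⊓ D = ⊥ := by
    set C1 := S ⊓ K ⊓ D with hC1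
    have hC1C : C1 ≤ C := fun x hx => hDK ⟨hx.1.2, hx.2⟩
    by_contra hne
    haveI := hC
    haveI hC1cyc : IsCyclic C1 := isCyclic_of_injective (Subgroup.inclusion hC1C) (Subgroup.inclusion_injective hC1C)
    obtain ⟨⟨c, hcC1⟩, hc⟩ := hC1cyc.exists_generator
    have hco : orderOf c = Nat.card C1 := by
      rw [← orderOf_eq_card_of_forall_mem_zpowers hc, Subgroup.orderOf_mk]
    obtain ⟨m, hm⟩ := isPGroup_orderOf hD2 (inf_le_right (a := S ⊓ K) hcC1)
    have hm1 : 1 ≤ m := by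
      rcases m with _ | m
      · exact absurd (Subgroup.card_eq_one.1 (hco.symm.trans hm)) hne
      · omega
    have hcK : c ∈ K := hcC1.1.2
    -- the residual of `G` is its own residual
    have hKK : (⟨c, hcK⟩ : K) ∈ Cfsg.pResidual 2 K := by
      have h3 : K ≤ (Cfsg.pResidual 2 K).map K.subtype := by
        conv_lhs => rw [hKdef]
        refine (Subgroup.closure_le _).2 fun g hg => ?_
        refine ⟨⟨g, Subgroup.subset_closure hg⟩, Subgroup.subset_closure ?_, rfl⟩
        show Nat.Coprime (orderOf _) 2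
        rw [← Subgroup.orderOf_coe]
        exact hg
      obtain ⟨⟨_, _⟩, hw, rfl⟩ := h3 hcK
      exact hw
    have hLidx : L.relIndex K * Nat.card L = Nat.card K := by
      rw [← Nat.card_congr (Subgroup.subgroupOfEquivOfLe hLK).toEquiv]
      exact Subgroup.index_mul_card _
    have hmain : L.relIndex K * T.relIndex L = 2 ^ m * (S ⊓ K).relIndex K := by
      apply Nat.eq_of_mul_eq_mul_left (Nat.card_pos (α := T))
      rw [← hm, hco]
      calc _ = L.relIndex K * (Nat.card T * T.relIndex L) := by ring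
        _ = Nat.card K := by rw [hTcard, hLidx]
        _ = _ := by rw [← hUcard]; ring
    have hco2 : Nat.Coprime (2 ^ m) (T.relIndex L) :=
      Nat.Coprime.pow_left m (Nat.prime_two.coprime_iff_not_dvd.2 hTsyl)
    obtain ⟨o, ho⟩ := hco2.dvd_of_dvd_mul_right (Dvd.intro _ hmain.symm)
    have hoo : Odd o := by
      rw [ho, mul_assoc] at hmain
      have h5 := Nat.eq_of_mul_eq_mul_left (by positivity) hmain
      refine Nat.odd_iff.2 (Nat.two_dvd_ne_zero.1 fun h6 => hUK ?_)
      exact h5 ▸ h6.mul_right _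
    refine not_mem_residual (L.subgroupOf K) ⟨c, hcK⟩ hm1 hoo
      (Subtype.ext (by simp [← hm, pow_orderOf_eq_one])) (fun j g hg => ?_) ho hKK
    by_contra hj
    -- a power of `c^j` is the involution of `C1`
    have hj0 : j ≠ 0 := fun h => hj (h ▸ dvd_zero _)
    obtain ⟨i, hi⟩ := (Nat.dvd_prime_pow Nat.prime_two).1 (hm ▸ orderOf_pow_dvd (x := c) j : orderOf (c ^ j) ∣ 2 ^ m)
    obtain ⟨i, rfl⟩ : ∃ i', i = i' + 1 := by
      rcases i with _ | i
      · exact absurd (hm ▸ orderOf_dvd_of_pow_eq_one (orderOf_eq_one_iff.1 hi.2)) hj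
      · exact ⟨i, rfl⟩
    set z := (c ^ j) ^ 2 ^ i with hz
    have hzo : orderOf z = 2 := by
      rw [hz, orderOf_pow_of_dvd (by positivity) (hi.2 ▸ pow_dvd_pow 2 (Nat.le_succ i)), hi.2, pow_succ,
        Nat.mul_div_cancel_left _ (by positivity)]
    have hzL : (g : G)⁻¹ * z * g ∈ L := by
      have h7 := L.pow_mem (Subgroup.mem_subgroupOf.1 hg) (2 ^ i)
      simp only [Subgroup.coe_mul, Subgroup.coe_inv, SubgroupClass.coe_pow] at h7
      rwa [← MulAut.conj_symm_apply, ← map_pow, MulAut.conj_symm_apply] at h7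
    set w : L := ⟨(g : G)⁻¹ * z * g, hzL⟩ with hw
    have hw2 : IsPGroup 2 (Subgroup.zpowers w) := by
      refine IsPGroup.of_card (n := 1) ?_
      rw [Nat.card_zpowers, hw, Subgroup.orderOf_mk, ← MulAut.conj_symm_apply, MulEquiv.orderOf_eq, hzo, pow_one]
    obtain ⟨P, hP⟩ := hw2.exists_le_sylow
    have hT' : IsPGroup 2 (T.subgroupOf L) := hT2.of_equiv (Subgroup.subgroupOfEquivOfLe hTL).symm
    obtain ⟨l, hl⟩ := MulAction.exists_smul_eq L P (hT'.toSylow hTsyl)
    have h8 : l * w * l⁻¹ ∈ (hT'.toSylow hTsyl : Subgroup L) := by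
      rw [← hl, Sylow.coe_subgroup_smul]
      exact ⟨w, hP (Subgroup.mem_zpowers w), rfl⟩
    refine h2 z (C.pow_mem (C.pow_mem (hC1C hcC1) j) _) hzo ((l : G) * (g : G)⁻¹) ?_
    have h9 : ((l * w * l⁻¹ : L) : G) ∈ T := h8
    simpa [hw, mul_assoc] using h9
  rw [hKD, Subgroup.card_bot, mul_one] at hUcard
  refine ⟨K, inferInstance, ?_, fun T' hT'L hT'2 hT'syl => ⟨hT'L.trans hLK, ?_⟩⟩
  · have h3 := Cfsg.Lib.Transfer.pResidual_sup_sylow (hS2.toSylow hSsyl)
    rw [hS', ← hTD, ← sup_assoc] at h3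
    rwa [sup_eq_left.2 hTK] at h3
  · have h4 : Nat.card T' * T'.relIndex L = Nat.card L := by
      rw [← Nat.card_congr (Subgroup.subgroupOfEquivOfLe hT'L).toEquiv]
      exact Subgroup.card_mul_index _
    have h5 : Nat.card T' * T'.relIndex K = Nat.card K := by
      rw [← Nat.card_congr (Subgroup.subgroupOfEquivOfLe (hT'L.trans hLK)).toEquiv]
      exact Subgroup.card_mul_index _
    obtain ⟨a, ha⟩ := IsPGroup.iff_card.1 hT'2
    obtain ⟨b, hb⟩ := IsPGroup.iff_card.1 hT2
    have h6 : Nat.card T' = Nat.card T := by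
      have h7 : 2 ^ a * T'.relIndex L = 2 ^ b * T.relIndex L := by rw [← ha, ← hb, h4, hTcard]
      rw [ha, hb]
      refine Nat.dvd_antisymm ?_ ?_
      · exact (Nat.Coprime.pow_left a (Nat.prime_two.coprime_iff_not_dvd.2 hTsyl)).dvd_of_dvd_mul_right
          (Dvd.intro _ h7)
      · exact (Nat.Coprime.pow_left b (Nat.prime_two.coprime_iff_not_dvd.2 hT'syl)).dvd_of_dvd_mul_right
          (Dvd.intro _ h7.symm)
    rw [h6, ← hUcard] at h5
    rw [Nat.eq_of_mul_eq_mul_left Nat.card_pos h5]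
    exact hUK

end Cfsg.Agent.S1924
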