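import Cfsg.Statements.S1939
import Mathlib
import Cfsg.Agent.Lib.Invol.Isolated
-- import your own Cfsg.Agent.* helpers here

set_option autoImplicit false
open Cfsg

namespace Cfsg.Agent.S1939

/-- Let S be a Sylow p-subgroup of the finite group G and a an element of S that is the only G-conjugate of a lying in S. Then every power of a has the same property: for every n, the only G-conjugate of a^n lying in S is a^n. -/
theorem result {G : Type*} [Group G] [Finite G] {p : ℕ} [Fact p.Prime] (S : Sylow p G) (a : G)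
    (haS : a ∈ (S : Subgroup G)) (hwc : ∀ g : G, g * a * g⁻¹ ∈ (S : Subgroup G) → g * a * g⁻¹ = a) (n : ℕ) :
    ∀ g : G, g * a ^ n * g⁻¹ ∈ (S : Subgroup G) → g * a ^ n * g⁻¹ = a ^ n := by
  intro g hy
  set y := g * a ^ n * g⁻¹ with hydef
  have hcent : ∀ s ∈ (S : Subgroup G), Commute s a := fun s hs => by
    have e := hwc s (mul_mem (mul_mem hs haS) (inv_mem hs))
    calc s * a = s * a * s⁻¹ * s := by group
      _ = a * s := by rw [e]
  set H := Subgroup.centralizer ({y} : Set G) with hH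
  have haH : a ∈ H := Subgroup.mem_centralizer_singleton_iff.2 (hcent y hy).eq.symm
  have hbH : g * a * g⁻¹ ∈ H := by
    refine Subgroup.mem_centralizer_singleton_iff.2 ?_
    show Commute (MulAut.conj g a) (MulAut.conj g (a ^ n))
    exact ((Commute.refl a).pow_right n).map (MulAut.conj g)
  have hpa : IsPGroup p ↥(Subgroup.zpowers a) := S.isPGroup'.to_le (Subgroup.zpowers_le.2 haS)
  have hpb : IsPGroup p ↥(Subgroup.zpowers (g * a * g⁻¹)) := by
    have e : Subgroup.zpowers (g * a * g⁻¹) = (Subgroup.zpowers a).map (MulAut.conj g).toMonoidHom := by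
      rw [MonoidHom.map_zpowers]
      rfl
    rw [e]
    exact hpa.map _
  obtain ⟨R, hR⟩ := (hpa.comap_subtype : IsPGroup p ↥((Subgroup.zpowers a).subgroupOf H)).exists_le_sylow
  obtain ⟨⟨c, hcH⟩, hc⟩ := Cfsg.Lib.Invol.exists_conj_mem_sylow
    (hpb.comap_subtype : IsPGroup p ↥((Subgroup.zpowers (g * a * g⁻¹)).subgroupOf H)) R
  obtain ⟨x, hx⟩ := Cfsg.Lib.Invol.exists_conj_mem_sylow (R.isPGroup'.map H.subtype) S
  have h1 : x * a * x⁻¹ = a := hwc x (hx a ⟨⟨a, haH⟩, hR (Subgroup.mem_zpowers a), rfl⟩)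
  have hm : c * (g * a * g⁻¹) * c⁻¹ ∈ (R : Subgroup H).map H.subtype :=
    ⟨_, hc ⟨g * a * g⁻¹, hbH⟩ (Subgroup.mem_zpowers _), rfl⟩
  have h2 : x * c * g * a * (x * c * g)⁻¹ = a := by
    refine hwc _ ?_
    have := hx _ hm
    rw [show x * c * g * a * (x * c * g)⁻¹ = x * (c * (g * a * g⁻¹) * c⁻¹) * x⁻¹ by group]
    exact this
  have h3 : c * g * a * (c * g)⁻¹ = a := by
    calc c * g * a * (c * g)⁻¹ = x⁻¹ * (x * c * g * a * (x * c * g)⁻¹) * x := by group
      _ = x⁻¹ * (x * a * x⁻¹) * x := by rw [h2, h1]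
      _ = a := by group
  have h4 : c * g * a ^ n * (c * g)⁻¹ = a ^ n := by
    rw [← conj_pow, h3]
  have hcy := Subgroup.mem_centralizer_singleton_iff.1 hcH
  calc y = c * y * c⁻¹ := by rw [hcy]; group
    _ = c * g * a ^ n * (c * g)⁻¹ := by rw [hydef]; group
    _ = a ^ n := h4

end Cfsg.Agent.S1939
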