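import Cfsg.Statements.S1940
import Mathlib
-- import your own Cfsg.Agent.* helpers here

set_option autoImplicit false
open Cfsg

namespace Cfsg.Agent.S1940

/-- Let the finite group L act by automorphisms on the finite abelian group M, and let N be an L-invariant subgroup of M such that M/N is a p-group on which L acts trivially (every l • m lies in the coset mN). If every element of M is a product of an element of N and an element fixed by a Sylow p-subgroup T of L, then every element of M is a product of an element of N and an element fixed by all of L. -/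
theorem result {L : Type*} [Group L] [Finite L] {M : Type*} [CommGroup M] [Finite M] [MulDistribMulAction L M]
    {p : ℕ} [Fact p.Prime] (N : Subgroup M) (hN : ∀ (l : L) (m : M), m ∈ N → l • m ∈ N)
    (hquot : IsPGroup p (M ⧸ N)) (htriv : ∀ (l : L) (m : M), (l • m) * m⁻¹ ∈ N) (T : Sylow p L)
    (hT : ∀ m : M, ∃ n ∈ N, ∃ c : M, (∀ t ∈ (T : Subgroup L), t • c = c) ∧ m = n * c) :
    ∀ m : M, ∃ n ∈ N, ∃ c : M, (∀ l : L, l • c = c) ∧ m = n * c := by
  classical
  have := Fintype.ofFinite (L ⧸ (T : Subgroup L))
  intro m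
  obtain ⟨n, hn, c, hc, rfl⟩ := hT m
  have hwd : ∀ a b : L, QuotientGroup.leftRel (T : Subgroup L) a b → a • c = b • c := by
    intro a b h
    rw [QuotientGroup.leftRel_apply] at h
    calc a • c = a • ((a⁻¹ * b) • c) := by rw [hc _ h]
      _ = b • c := by rw [smul_smul, mul_inv_cancel_left]
  let f : L ⧸ (T : Subgroup L) → M := fun q => Quotient.liftOn' q (fun l => l • c) hwd
  have hf : ∀ (l : L) q, l • f q = f (l • q) := by
    intro l q
    induction q using Quotient.inductionOn' with
    | h a => exact (mul_smul l a c).symm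
  have hfix : ∀ l : L, l • ∏ q, f q = ∏ q, f q := fun l => by
    rw [Finset.smul_prod']
    exact Fintype.prod_equiv (MulAction.toPerm l) _ _ fun q => hf l q
  have hmod : ((∏ q, f q : M) : M ⧸ N) = (c : M ⧸ N) ^ (T : Subgroup L).index := by
    rw [Subgroup.index_eq_card, Nat.card_eq_fintype_card, ← Finset.card_univ, ← Finset.prod_const,
      QuotientGroup.mk_prod]
    refine Finset.prod_congr rfl fun q _ => ?_
    induction q using Quotient.inductionOn' with
    | h a =>
      refine QuotientGroup.eq.2 ?_
      have := inv_mem (htriv a c)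
      rwa [mul_inv_rev, inv_inv, mul_comm] at this
  obtain ⟨k, hk⟩ := hquot (c : M ⧸ N)
  obtain ⟨u, hu⟩ : ∃ u : ℕ, ((T : Subgroup L).index * u) ≡ 1 [MOD p ^ k] := by
    obtain ⟨u, -, hu⟩ := Nat.exists_mul_mod_eq_of_coprime 1
      ((((Fact.out : p.Prime).coprime_iff_not_dvd).2 T.not_dvd_index).symm.pow_right k)
      (pow_ne_zero k (Fact.out : p.Prime).ne_zero)
    exact ⟨u, by rw [Nat.ModEq, hu]⟩
  set d := (∏ q, f q) ^ u with hd
  have hdc : (d : M ⧸ N) = (c : M ⧸ N) := by
    rw [hd, QuotientGroup.mk_pow, hmod, ← pow_mul]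
    conv_rhs => rw [← pow_one (c : M ⧸ N)]
    exact pow_eq_pow_iff_modEq.2 (hu.of_dvd (orderOf_dvd_of_pow_eq_one hk))
  refine ⟨n * (c * d⁻¹), mul_mem hn ?_, d, fun l => by rw [hd, smul_pow', hfix], by group⟩
  rw [← QuotientGroup.eq_one_iff, QuotientGroup.mk_mul, QuotientGroup.mk_inv, hdc, mul_inv_cancel]

end Cfsg.Agent.S1940
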