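import Cfsg.Statements.S1941
import Mathlib
import Cfsg.Agent.Lib.Comp.FStar
import Cfsg.Agent.Lib.Solv.MinNormal
import Cfsg.Agent.Lib.Transfer.Basic
-- import your own Cfsg.Agent.* helpers here

set_option autoImplicit false
open Cfsg

namespace Cfsg.Agent.S1941

/-- Let G be a finite group with no nontrivial normal subgroup of order prime to p, T a Sylow p-subgroup of G and E(G) the layer of G (the subgroup generated by its components). An automorphism of G of p-power order that fixes T and E(G) elementwise is inner. -/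
theorem result {G : Type*} [Group G] [Finite G] {p : ℕ} [Fact p.Prime] (hcore : Cfsg.pPrimeCore p G = ⊥)
    (T : Sylow p G) (α : MulAut G) (hα : ∃ j : ℕ, orderOf α = p ^ j) (hfixT : ∀ x ∈ (T : Subgroup G), α x = x)
    (hfixE : ∀ x ∈ Cfsg.layer G, α x = x) : ∃ g : G, ∀ x : G, α x = g * x * g⁻¹ := by
  classical
  set F := Cfsg.generalizedFittingSubgroup G with hF
  haveI := Cfsg.Lib.Comp.fstar_characteristic (G := G)
  haveI := Cfsg.Lib.Transfer.pCore_normal (G := G) p
  have hfit := Cfsg.Lib.Solv.fitting_eq_pCore p hcore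
  have hpc : IsPGroup p ↥(Cfsg.pCore p G) := Cfsg.Lib.Solv.isPGroup_pCore p
  have hpT : Cfsg.pCore p G ≤ (T : Subgroup G) := hpc.le_sylow_of_normal T
  have hfix : ∀ y ∈ F, α y = y := by
    intro y hy
    have hle : F ≤ MonoidHom.eqLocus α.toMonoidHom (MonoidHom.id G) := by
      rw [hF]; unfold Cfsg.generalizedFittingSubgroup
      exact sup_le (fun z hz => hfixE z hz) (fun z hz => hfixT z (hpT (hfit.le hz)))
    exact hle hy
  set Z := Subgroup.centralizer (F : Set G) with hZ
  haveI hZn : Z.Normal := Subgroup.normal_centralizer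
  have hZle : Z ≤ Cfsg.pCore p G := (Cfsg.Lib.Comp.centralizer_fstar_le_fitting).trans hfit.le
  haveI hZc : IsMulCommutative ↥Z := ⟨⟨fun a b => Subtype.ext
    (Subgroup.mem_centralizer_iff.1 b.2 a
      (Cfsg.Lib.Comp.fitting_le_fstar (hfit.ge (hZle a.2))))⟩⟩
  let cgZ : CommGroup ↥Z := { (inferInstance : Group ↥Z) with mul_comm := hZc.is_comm.comm }
  letI := cgZ
  have hcZ : ∀ g : G, α g * g⁻¹ ∈ Z := by
    intro g
    rw [hZ, Subgroup.mem_centralizer_iff]
    intro y hy
    have h1 : g⁻¹ * y * g ∈ F := by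
      have := (inferInstance : F.Normal).conj_mem y hy g⁻¹; rwa [inv_inv] at this
    have h2 := hfix _ h1
    rw [map_mul, map_mul, map_inv, hfix y hy] at h2
    calc y * (α g * g⁻¹) = α g * ((α g)⁻¹ * y * α g) * g⁻¹ := by group
      _ = α g * g⁻¹ * y := by rw [h2]; group
  let c : G → ↥Z := fun g => ⟨α g * g⁻¹, hcZ g⟩
  let φ : G → (↥Z →* ↥Z) := fun g => MonoidHom.mk' (fun z => ⟨g * z * g⁻¹, hZn.conj_mem z z.2 g⟩)
    (fun a b => Subtype.ext (show g * ((a : G) * b) * g⁻¹ = g * a * g⁻¹ * (g * b * g⁻¹) by group))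
  have hcm : ∀ g h, c (g * h) = c g * φ g (c h) := fun g h => Subtype.ext (by
    show α (g * h) * (g * h)⁻¹ = α g * g⁻¹ * (g * (α h * h⁻¹) * g⁻¹)
    rw [map_mul]; group)
  have hct : ∀ g, ∀ t ∈ (T : Subgroup G), c (g * t) = c g := fun g t ht => Subtype.ext (by
    show α (g * t) * (g * t)⁻¹ = α g * g⁻¹
    rw [map_mul, hfixT t ht]; group)
  haveI := Fintype.ofFinite (G ⧸ (T : Subgroup G))
  set s : ↥Z := ∏ q : G ⧸ (T : Subgroup G), c q.out with hs
  have hsum : ∀ g, φ g s = (c g)⁻¹ ^ (T : Subgroup G).index * s := by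
    intro g
    rw [hs, map_prod]
    have e : ∀ q : G ⧸ (T : Subgroup G), φ g (c q.out) = (c g)⁻¹ * c (g • q).out := by
      intro q
      obtain ⟨t, ht⟩ := QuotientGroup.mk_out_eq_mul (T : Subgroup G) (g * q.out)
      have e2 : (g • q).out = g * q.out * t := by
        rw [← ht]; conv_lhs => rw [← QuotientGroup.out_eq' q]
        rfl
      rw [e2, hct _ _ t.2, hcm, inv_mul_cancel_left]
    rw [Finset.prod_congr rfl (fun q _ => e q), Finset.prod_mul_distrib, Finset.prod_const, Finset.card_univ,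
      ← Nat.card_eq_fintype_card, ← Subgroup.index_eq_card]
    congr 1
    exact Fintype.prod_equiv (MulAction.toPerm g) _ _ (fun q => rfl)
  have hco : (Nat.card ↥Z).Coprime (T : Subgroup G).index := by
    obtain ⟨n, hn⟩ := IsPGroup.iff_card.1 (hpc.to_le hZle)
    rw [hn]; exact ((Fact.out : p.Prime).coprime_iff_not_dvd.2 T.not_dvd_index).pow_left n
  obtain ⟨w, hw⟩ := (powCoprime hco).surjective s
  refine ⟨w, fun g => ?_⟩
  have h1 := hsum g
  rw [← hw] at h1
  simp only [powCoprime_apply, map_pow, ← mul_pow] at h1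
  have h2 : φ g w = (c g)⁻¹ * w := (powCoprime hco).injective (by simpa using h1)
  have h3 : g * (w : G) * g⁻¹ = (α g * g⁻¹)⁻¹ * (w : G) := congrArg Subtype.val h2
  calc α g = (α g) * (g⁻¹ * (g * w * g⁻¹)) * g * (w : G)⁻¹ := by group
    _ = (w : G) * g * (w : G)⁻¹ := by rw [h3]; group

end Cfsg.Agent.S1941
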