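import Cfsg.Statements.S1944
import Mathlib
import Cfsg.Agent.Lib.Transfer.CoreFusion
-- import your own Cfsg.Agent.* helpers here

set_option autoImplicit false
open Cfsg

namespace Cfsg.Agent.S1944

/-- Let S be a Sylow p-subgroup of the finite group G and suppose that the centre Z(S) lies in O_{p',p}(G). The elements of S each of which is its only G-conjugate in S form a subgroup W of Z(S); W is then a direct factor of Z(S): there is a subgroup K of Z(S) with W ∩ K = 1 and WK = Z(S). -/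
theorem result {G : Type*} [Group G] [Finite G] {p : ℕ} [Fact p.Prime] (S : Sylow p G)
    (hZ : ((S : Subgroup G) ⊓ Subgroup.centralizer ((S : Subgroup G) : Set G)) ≤ Cfsg.pPrimePCore p G) :
    ∃ W K : Subgroup G, (∀ x : G, x ∈ W ↔ (x ∈ (S : Subgroup G) ∧ ∀ g : G, g * x * g⁻¹ ∈ (S : Subgroup G) → g * x * g⁻¹ = x)) ∧
      K ≤ ((S : Subgroup G) ⊓ Subgroup.centralizer ((S : Subgroup G) : Set G)) ∧ W ⊓ K = ⊥ ∧ W ⊔ K = ((S : Subgroup G) ⊓ Subgroup.centralizer ((S : Subgroup G) : Set G)) := by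
  classical
  set R := (S : Subgroup G) ⊓ Cfsg.pPrimePCore p G with hR
  set N := Subgroup.normalizer (R : Set G) with hN
  set Z := (S : Subgroup G) ⊓ Subgroup.centralizer ((S : Subgroup G) : Set G) with hZdef
  set A := R ⊓ Subgroup.centralizer (R : Set G) with hA
  haveI hnorm : (Cfsg.pPrimePCore p G).Normal := by unfold Cfsg.pPrimePCore; infer_instance
  have hSN : (S : Subgroup G) ≤ N := by
    intro s (hs : s ∈ (S : Subgroup G))
    refine Subgroup.mem_normalizer_iff.2 fun x => ⟨fun hx => ⟨(mul_mem (mul_mem hs hx.1) (inv_mem hs) : _ ∈ (_ : Subgroup G)),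
      hnorm.conj_mem x hx.2 s⟩, fun hx => ?_⟩
    refine ⟨?_, ?_⟩
    · have := mul_mem (mul_mem (inv_mem hs) hx.1) hs
      rwa [show s⁻¹ * (s * x * s⁻¹) * s = x by group] at this
    · have := hnorm.conj_mem _ hx.2 s⁻¹
      simpa [mul_assoc] using this
  have hZA : Z ≤ A := fun x hx => ⟨⟨hx.1, hZ hx⟩, Subgroup.centralizer_le inf_le_left hx.2⟩
  have hconjA : ∀ n ∈ N, ∀ x ∈ A, n * x * n⁻¹ ∈ A := by
    intro n hn x hx
    refine ⟨(Subgroup.mem_normalizer_iff.1 hn x).1 hx.1, Subgroup.mem_centralizer_iff.2 fun r hr => ?_⟩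
    have h := Subgroup.mem_centralizer_iff.1 hx.2 (n⁻¹ * r * n)
      ((Subgroup.mem_normalizer_iff''.1 hn r).1 hr)
    calc r * (n * x * n⁻¹) = n * (n⁻¹ * r * n * x) * n⁻¹ := by group
      _ = n * (x * (n⁻¹ * r * n)) * n⁻¹ := by rw [h]
      _ = n * x * n⁻¹ * r := by group
  have hAc : ∀ x ∈ A, ∀ y ∈ A, Commute x y := fun x hx y hy =>
    Subgroup.mem_centralizer_iff.1 hy.2 x hx.1
  letI : CommGroup ↥A :=
    { (inferInstance : Group ↥A) with mul_comm := fun x y => Subtype.ext (hAc _ x.2 _ y.2).eq }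
  -- conjugation of a fixed element of `A` by cosets
  set S' := (S : Subgroup G).subgroupOf N with hS'
  let conjA : ↥N → ↥A → ↥A := fun n x => ⟨(n : G) * (x : G) * (n : G)⁻¹, hconjA n n.2 x x.2⟩
  have hwd : ∀ x : ↥A, (x : G) ∈ Z → ∀ n m : ↥N, n⁻¹ * m ∈ S' → conjA n x = conjA m x := by
    intro x hx n m hnm
    refine Subtype.ext ?_
    have h := Subgroup.mem_centralizer_iff.1 hx.2 _ (Subgroup.mem_subgroupOf.1 hnm)
    have h' : (↑(n⁻¹ * m) : G) = (n : G)⁻¹ * (m : G) := rfl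
    rw [h'] at h
    show (n : G) * (x : G) * (n : G)⁻¹ = (m : G) * (x : G) * (m : G)⁻¹
    calc (n : G) * (x : G) * (n : G)⁻¹
        = (n : G) * ((x : G) * ((n : G)⁻¹ * (m : G))) * (m : G)⁻¹ := by group
      _ = (n : G) * (((n : G)⁻¹ * (m : G)) * (x : G)) * (m : G)⁻¹ := by rw [h]
      _ = _ := by group
  haveI : Fintype (↥N ⧸ S') := Fintype.ofFinite _
  let τ : ↥(Z.subgroupOf A) →* ↥A :=
    { toFun := fun x => ∏ c : ↥N ⧸ S', conjA c.out x.1
      map_one' := Finset.prod_eq_one fun c _ => Subtype.ext (by simp [conjA])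
      map_mul' := fun x y => by
        rw [← Finset.prod_mul_distrib]
        exact Finset.prod_congr rfl fun c _ => Subtype.ext (by simp [conjA, mul_assoc]) }
  -- `τ` lands in the fixed points of `N`
  have hτ : ∀ (x : ↥(Z.subgroupOf A)) (n : ↥N), conjA n (τ x) = τ x := by
    intro x n
    let ψ : ↥A →* ↥A :=
      { toFun := conjA n
        map_one' := Subtype.ext (by simp [conjA])
        map_mul' := fun a b => Subtype.ext (by simp [conjA, mul_assoc]) }
    show ψ (∏ c : ↥N ⧸ S', conjA c.out x.1) = ∏ c : ↥N ⧸ S', conjA c.out x.1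
    rw [map_prod]
    refine Fintype.prod_equiv (MulAction.toPerm n) _ _ fun c => ?_
    show conjA n (conjA c.out x.1) = conjA (n • c).out x.1
    rw [show conjA n (conjA c.out x.1) = conjA (n * c.out) x.1 from
      Subtype.ext (by simp [conjA, mul_assoc])]
    refine hwd x.1 (Subgroup.mem_subgroupOf.1 x.2) _ _ (QuotientGroup.eq.1 ?_)
    rw [QuotientGroup.out_eq']
    conv_rhs => rw [← QuotientGroup.out_eq' c]
    rfl
  set k := Nat.card (↥N ⧸ S') with hk
  have hkp : Nat.Coprime k p := by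
    refine ((Nat.Prime.coprime_iff_not_dvd Fact.out).2 fun h => S.not_dvd_index ?_).symm
    rw [hk, ← Subgroup.index_eq_card] at h
    exact h.trans (Subgroup.relIndex_dvd_index_of_le hSN)
  have hτfix : ∀ x : ↥(Z.subgroupOf A), (∀ n : ↥N, conjA n x.1 = x.1) → τ x = x.1 ^ k := by
    intro x hx
    show ∏ c : ↥N ⧸ S', conjA c.out x.1 = _
    rw [Finset.prod_congr rfl fun c _ => hx c.out, Finset.prod_const, Finset.card_univ,
      ← Nat.card_eq_fintype_card]
  let W : Subgroup G :=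
    { carrier := {x | x ∈ A ∧ ∀ n ∈ N, n * x * n⁻¹ = x}
      one_mem' := ⟨one_mem _, fun n _ => by simp⟩
      mul_mem' := fun {a b} ha hb => ⟨mul_mem ha.1 hb.1, fun n hn => by
        rw [show n * (a * b) * n⁻¹ = (n * a * n⁻¹) * (n * b * n⁻¹) by group, ha.2 n hn, hb.2 n hn]⟩
      inv_mem' := fun {a} ha => ⟨inv_mem ha.1, fun n hn => by
        rw [← conj_inv, ha.2 n hn]⟩ }
  have hWZ : W ≤ Z := fun x hx => ⟨hx.1.1.1, Subgroup.mem_centralizer_iff.2 fun s hs =>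
    mul_inv_eq_iff_eq_mul.1 (hx.2 s (hSN hs))⟩
  set K := (τ.ker.map (Z.subgroupOf A).subtype).map A.subtype with hK
  have hKZ : K ≤ Z := by
    rintro _ ⟨_, ⟨x, -, rfl⟩, rfl⟩
    exact Subgroup.mem_subgroupOf.1 x.2
  have hpow : ∀ {y : G}, y ∈ Z → y ^ k = 1 → y = 1 := by
    intro y hy h
    obtain ⟨j, hj⟩ := IsPGroup.iff_orderOf.1 S.2 ⟨y, hy.1⟩
    rw [Subgroup.orderOf_mk] at hj
    exact orderOf_eq_one_iff.1 (Nat.eq_one_of_dvd_coprimes (hkp.pow_right j).symm (hj ▸ dvd_rfl)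
      (orderOf_dvd_of_pow_eq_one h))
  refine ⟨W, K, fun x => ⟨fun hx => ⟨hx.1.1.1, fun g hg => ?_⟩, fun ⟨hxS, hx⟩ => ?_⟩, hKZ, ?_, ?_⟩
  · -- a conjugate of a fixed element
    obtain ⟨o, ho, hn⟩ := Cfsg.Lib.Transfer.exists_core_mul_normalizer S g
    have h1 : o⁻¹ * x * o = g * x * g⁻¹ := by
      have h2 := hx.2 _ hn
      calc o⁻¹ * x * o = o⁻¹ * ((o * g) * x * (o * g)⁻¹) * o := by rw [h2]
        _ = g * x * g⁻¹ := by group
    have h3 : g * x * g⁻¹ * x⁻¹ = 1 := by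
      refine Cfsg.Lib.Transfer.eq_of_mem_pgroup_core S.2 (mul_mem hg (inv_mem hx.1.1.1)) ?_
      rw [← h1, show o⁻¹ * x * o * x⁻¹ = o⁻¹ * (x * o * x⁻¹) by group]
      exact mul_mem (inv_mem ho) ((Cfsg.pPrimeCore_normal p G).conj_mem o ho x)
    exact mul_inv_eq_one.1 h3
  · -- conversely
    have hxZ : x ∈ Z := ⟨hxS, Subgroup.mem_centralizer_iff.2 fun s hs =>
      mul_inv_eq_iff_eq_mul.1 (hx s (mul_mem (mul_mem hs hxS) (inv_mem hs)))⟩
    exact ⟨hZA hxZ, fun n hn => hx n (hconjA n hn x (hZA hxZ)).1.1⟩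
  · refine le_bot_iff.1 fun x hx => ?_
    obtain ⟨hxW, y, ⟨w, hw, rfl⟩, rfl⟩ := hx
    have hw' := hτfix w fun n => Subtype.ext (hxW.2 n n.2)
    rw [MonoidHom.mem_ker.1 hw] at hw'
    exact Subgroup.mem_bot.2 (hpow (Subgroup.mem_subgroupOf.1 w.2)
      (congrArg Subtype.val hw'.symm))
  · refine le_antisymm (sup_le hWZ hKZ) fun x hx => ?_
    -- split off the norm
    set x' : ↥(Z.subgroupOf A) := ⟨⟨x, hZA hx⟩, hx⟩ with hx'
    obtain ⟨j, hj⟩ := IsPGroup.iff_orderOf.1 S.2 ⟨x, hx.1⟩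
    rw [Subgroup.orderOf_mk] at hj
    obtain ⟨e, he1, he0⟩ := Nat.chineseRemainder (hkp.pow_right j) 0 1
    obtain ⟨l, hl⟩ := Nat.modEq_zero_iff_dvd.1 he1
    set w : ↥A := τ x' ^ l with hw
    have hwW : (w : G) ∈ W := by
      refine ⟨w.2, fun n hn => ?_⟩
      show n * ((τ x' ^ l : ↥A) : G) * n⁻¹ = ((τ x' ^ l : ↥A) : G)
      rw [Subgroup.coe_pow, ← conj_pow]
      exact congrArg (fun a : ↥A => (a : G) ^ l) (hτ x' ⟨n, hn⟩)
    set w' : ↥(Z.subgroupOf A) := ⟨w, hWZ hwW⟩ with hw'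
    have hker : x' * w'⁻¹ ∈ τ.ker := by
      rw [MonoidHom.mem_ker, map_mul, map_inv,
        hτfix w' (fun n => Subtype.ext (hwW.2 n n.2)), mul_inv_eq_one]
      show τ x' = (τ x' ^ l) ^ k
      rw [← pow_mul, mul_comm l k, ← hl]
      have hord : orderOf (τ x') ∣ p ^ j := (orderOf_map_dvd τ x').trans (by
        rw [← Subgroup.orderOf_coe, ← Subgroup.orderOf_coe]; exact hj ▸ dvd_rfl)
      conv_lhs => rw [← pow_one (τ x')]
      exact pow_eq_pow_iff_modEq.2 (he0.symm.of_dvd hord)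
    have hmem : x * (w : G)⁻¹ ∈ K := ⟨_, ⟨_, hker, rfl⟩, rfl⟩
    rw [show x = (x * (w : G)⁻¹) * (w : G) by group]
    exact mul_mem (Subgroup.mem_sup_right hmem) (Subgroup.mem_sup_left hwW)

end Cfsg.Agent.S1944
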