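import Cfsg.Statements.S2799
import Cfsg.Agent.Lib.Fusion.GroupModel

set_option autoImplicit false
set_option linter.style.haveILetI false
open Cfsg Cfsg.FusionSystem Cfsg.Lib.Fusion

namespace Cfsg.Agent.S2799

/-- Let S be a Sylow p-subgroup of the finite group G, J(S) the subgroup generated by the abelian subgroups of S of largest order, and x an element of S lying in the centre of N_G(J(S)). Assume that p is odd, or that x is a p-th power of an element of Z(S), or that the symmetric group of degree 4 is not involved in G. Then x is weakly closed in S with respect to G: every G-conjugate of x that lies in S equals x. -/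
theorem result {G : Type*} [Group G] [Finite G] {p : ℕ} [Fact p.Prime] (S : Sylow p G) (x : G) (hxS : x ∈ (S : Subgroup G)) (hxZ : x ∈ (Subgroup.center ↥(Subgroup.normalizer ((Cfsg.thompsonSubgroupAOf (S : Subgroup G)) : Set G))).map (Subgroup.normalizer ((Cfsg.thompsonSubgroupAOf (S : Subgroup G)) : Set G)).subtype) (h : p ≠ 2 ∨ (∃ z ∈ (S : Subgroup G) ⊓ Subgroup.centralizer ((S : Subgroup G) : Set G), z ^ p = x) ∨ ¬ Cfsg.Involves (Equiv.Perm (Fin 4)) G) : ∀ g : G, g * x * g⁻¹ ∈ (S : Subgroup G) → g * x * g⁻¹ = x := by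
  classical
  have hS : IsPGroup p (S : Subgroup G) := S.isPGroup'
  have hF := saturated_group S
  set J := Cfsg.thompsonSubgroupAOf (S : Subgroup G) with hJdef
  have hJe : wSub fJ (S : Subgroup G) = J := fJ_map_subtype' _
  have hJS : J ≤ (S : Subgroup G) := Subgroup.map_subtype_le _
  have hSJ : (S : Subgroup G) ≤ Subgroup.normalizer (J : Set G) := by
    have h1 := fJ_invariant hS (le_rfl : (S : Subgroup G) ≤ (S : Subgroup G))
    rw [hJe] at h1
    exact ((le_normalizerIn le_rfl).trans h1).trans normalizerIn_le_normalizer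
  obtain ⟨⟨x', hx'N⟩, hx', rfl⟩ := hxZ
  have hcomm : ∀ n ∈ Subgroup.normalizer (J : Set G), n * x' = x' * n := fun n hn =>
    congrArg Subtype.val (Subgroup.mem_center_iff.1 hx' ⟨n, hn⟩)
  have hxc : ∀ y ∈ (S : Subgroup G), y * x' = x' * y := fun y hy => hcomm y (hSJ hy)
  have hfix : FixAt (Cfsg.groupFusionSystem (S : Subgroup G)) (wSub fJ (S : Subgroup G)) x' := by
    rw [hJe]
    intro R f hJR _ hf hfJ hxR
    obtain ⟨-, c, hc⟩ := mor_group_iff.1 hf
    have hcN : c ∈ Subgroup.normalizer (J : Set G) := by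
      refine Cfsg.Lib.PLocal.mem_normalizer_of_map_conj (Subgroup.eq_of_le_of_card_ge ?_
        (Subgroup.card_map_of_injective (MulAut.conj c).injective).ge)
      rintro _ ⟨y, hy, rfl⟩
      show c * y * c⁻¹ ∈ J
      rw [← (hc y (hJR hy)).1]
      have h1 := mem_img_of_mem (f := f) hy
      rwa [hfJ] at h1
    rw [(hc x' hxR).1, hcomm c hcN, mul_inv_cancel_right]
  have hcase : (∃ z ∈ (S : Subgroup G), (∀ y ∈ (S : Subgroup G), y * z = z * y) ∧ z ^ p = x') ∨
      (p ≠ 2 ∨ LocModels (Cfsg.groupFusionSystem (S : Subgroup G)) p (Equiv.Perm (Fin 4))) := by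
    rcases h with h | ⟨z, hz, hzp⟩ | h
    · exact Or.inr (Or.inl h)
    · exact Or.inl ⟨z, hz.1, fun y hy => Subgroup.mem_centralizer_iff.1 hz.2 y hy, hzp⟩
    · exact Or.inr (Or.inr (locModels_group S h))
  have hall := fixAll_of_fixAt hS hF hxS hxc hcase hfix
  intro g hg
  refine hall (Subgroup.zpowers x') (fun y => g * y * g⁻¹)
    (mor_group_conj (Subgroup.zpowers_le.2 hxS) fun y hy => ?_) (Subgroup.mem_zpowers _)
  obtain ⟨i, rfl⟩ := Subgroup.mem_zpowers_iff.1 hy
  rw [← conj_zpow]
  exact zpow_mem hg i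

end Cfsg.Agent.S2799
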