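import Cfsg.Statements.S1945
import Mathlib
import Cfsg.Agent.Lib.Fusion.GroupModel
import Cfsg.Agent.Lib.PLocal.ThompsonS4
import Cfsg.Agent.Lib.PLocal.Constraint
import Cfsg.Agent.Lib.Fusion.GlaubermanCenter
import Cfsg.Agent.Lib.Solv.Cores
import Cfsg.Agent.S2799
-- import your own Cfsg.Agent.* helpers here

set_option autoImplicit false
open Cfsg
open scoped commutatorElement

namespace Cfsg.Agent.S1945

/-- A complement to the fixed elements, from the norm. -/
theorem direct_factor {G : Type*} [Group G] [Finite G] {p : ℕ} [Fact p.Prime] (Z0 : Subgroup G)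
    (hZp : IsPGroup p Z0) (hZc : ∀ a ∈ Z0, ∀ b ∈ Z0, a * b = b * a) {H : Type*} [Group H] [Finite H]
    (j : Z0 →* H) (hj : Function.Injective j) (A T : Subgroup H) [A.Normal]
    (hA : ∀ a ∈ A, ∀ b ∈ A, a * b = b * a) (hjA : ∀ z, j z ∈ A)
    (hjT : ∀ z, ∀ t ∈ T, t * j z = j z * t) (hT : ¬ p ∣ T.index) (P : G → Prop)
    (hPZ : ∀ x, P x → x ∈ Z0) (hPc : ∀ z : Z0, P z → ∀ h, h * j z = j z * h)
    (hback : ∀ a ∈ A, (∀ h, h * a = a * h) → ∃ z : Z0, P z ∧ j z = a) :
    ∃ W K : Subgroup G, (∀ x, x ∈ W ↔ P x) ∧ K ≤ Z0 ∧ W ⊓ K = ⊥ ∧ W ⊔ K = Z0 := by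
  classical
  letI : CommGroup A :=
    { (inferInstance : Group A) with mul_comm := fun u v => Subtype.ext (hA u u.2 v v.2) }
  haveI : Fintype (H ⧸ T) := Fintype.ofFinite _
  let cA : H →* MulAut A := MulAut.conjNormal
  have hcA : ∀ (h : H) (a : A), ((cA h a : A) : H) = h * a * h⁻¹ := fun h a => rfl
  let jA : Z0 →* A := j.codRestrict A hjA
  let f : Z0 → H ⧸ T → A := fun z c => Quotient.liftOn' c (fun h => cA h (jA z))
    (fun a b hab => by
      have h' : a⁻¹ * b ∈ T := QuotientGroup.leftRel_apply.1 hab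
      refine Subtype.ext ?_
      rw [hcA, hcA]
      calc a * j z * a⁻¹ = a * (j z * (a⁻¹ * b)) * b⁻¹ := by group
        _ = b * j z * b⁻¹ := by rw [← hjT z _ h']; group)
  have hf : ∀ z (h : H), f z (QuotientGroup.mk h) = cA h (jA z) := fun z h => rfl
  let N : Z0 →* A :=
    { toFun := fun z => ∏ c, f z c
      map_one' := Finset.prod_eq_one fun c _ => by
        obtain ⟨h, rfl⟩ := QuotientGroup.mk_surjective c
        rw [hf, map_one, map_one]
      map_mul' := fun a b => by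
        rw [← Finset.prod_mul_distrib]
        refine Finset.prod_congr rfl fun c _ => ?_
        obtain ⟨h, rfl⟩ := QuotientGroup.mk_surjective c
        rw [hf, hf, hf, map_mul, map_mul] }
  have hN : ∀ z (g : H), g * (N z : H) = (N z : H) * g := by
    intro z g
    have h1 : cA g (N z) = N z := by
      show cA g (∏ c, f z c) = ∏ c, f z c
      rw [map_prod]
      refine Fintype.prod_equiv (MulAction.toPerm g) _ _ fun c => ?_
      obtain ⟨h, rfl⟩ := QuotientGroup.mk_surjective c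
      show _ = f z (QuotientGroup.mk (g * h))
      rw [hf, hf, map_mul]
      rfl
    have h2 := congrArg Subtype.val h1
    rw [hcA] at h2
    exact mul_inv_eq_iff_eq_mul.1 h2
  have hpow : ∀ z : Z0, P z → N z = jA z ^ T.index := by
    intro z hz
    show (∏ c, f z c) = _
    rw [Finset.prod_eq_pow_card (b := jA z) fun c _ => by
      obtain ⟨h, rfl⟩ := QuotientGroup.mk_surjective c
      refine Subtype.ext ?_
      rw [hf, hcA]
      show h * j z * h⁻¹ = j z
      rw [hPc z hz h, mul_inv_cancel_right], Finset.card_univ, ← Nat.card_eq_fintype_card]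
    rfl
  let W' : Subgroup Z0 :=
    { carrier := {z | ∀ h, h * j z = j z * h}
      one_mem' := fun h => by simp
      mul_mem' := fun {a b} ha hb h => by
        rw [map_mul, ← mul_assoc, ha h, mul_assoc, hb h, mul_assoc]
      inv_mem' := fun {a} ha h => by
        rw [map_inv]
        exact (show Commute h (j a) from ha h).inv_right }
  have hW' : ∀ z : Z0, z ∈ W' ↔ P z := by
    refine fun z => ⟨fun hz => ?_, fun hz => hPc z hz⟩
    obtain ⟨w, hw, hwe⟩ := hback _ (hjA z) hz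
    rwa [hj hwe] at hw
  refine ⟨W'.map Z0.subtype, N.ker.map Z0.subtype, fun x => ⟨?_, fun hx => ?_⟩,
    Subgroup.map_subtype_le _, ?_, ?_⟩
  · rintro ⟨z, hz, rfl⟩
    exact (hW' z).1 hz
  · exact ⟨⟨x, hPZ x hx⟩, (hW' _).2 hx, rfl⟩
  · rw [← Subgroup.map_inf _ _ _ Z0.subtype_injective, Subgroup.map_eq_bot_iff_of_injective _
      Z0.subtype_injective, eq_bot_iff]
    rintro z ⟨hz, hzk⟩
    have h1 : jA z ^ T.index = 1 := (hpow z ((hW' z).1 hz)).symm.trans hzk
    have h2 : z ^ T.index = 1 := hj (by rw [map_pow, map_one]; exact congrArg Subtype.val h1)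
    obtain ⟨i, hi⟩ := hZp z
    exact Subgroup.mem_bot.2 (orderOf_eq_one_iff.1 (Nat.eq_one_of_dvd_coprimes
      (((Fact.out : p.Prime).coprime_iff_not_dvd.2 hT).symm.pow_right i)
      (orderOf_dvd_of_pow_eq_one h2) (orderOf_dvd_of_pow_eq_one hi)))
  · rw [← Subgroup.map_sup]
    rw [show W' ⊔ N.ker = ⊤ from eq_top_iff.2 fun z _ => ?_, ← MonoidHom.range_eq_map,
      Subgroup.range_subtype]
    letI : CommGroup Z0 :=
      { (inferInstance : Group Z0) with mul_comm := fun u v => Subtype.ext (hZc u u.2 v v.2) }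
    obtain ⟨w, hw, hwe⟩ := hback _ (N z).2 (hN z)
    obtain ⟨i, hi⟩ := hZp w
    obtain ⟨n, hn⟩ := exists_pow_eq_self_of_coprime (x := w) (Nat.Coprime.coprime_dvd_right
      (orderOf_dvd_of_pow_eq_one hi) (((Fact.out : p.Prime).coprime_iff_not_dvd.2 hT).symm.pow_right i))
    have hk : (w ^ n)⁻¹ * z ∈ N.ker := by
      rw [MonoidHom.mem_ker, map_mul, map_inv, inv_mul_eq_one, hpow _ ((hW' _).1
        (pow_mem ((hW' w).2 hw) n)), ← map_pow, ← pow_mul, mul_comm, pow_mul, hn]
      exact Subtype.ext hwe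
    have h := mul_mem (Subgroup.mem_sup_left (T := N.ker) (pow_mem ((hW' w).2 hw) n))
      (Subgroup.mem_sup_right (S := W') hk)
    rwa [mul_inv_cancel_left] at h

/-- Let S be a Sylow p-subgroup of the finite group G, and assume that p is odd or that G is solvable. The elements of S each of which is its only G-conjugate in S form a subgroup W of Z(S); W is then a direct factor of Z(S): there is a subgroup K of Z(S) with W ∩ K = 1 and WK = Z(S). (For p = 2 and G not solvable this can fail.) -/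
theorem result {G : Type*} [Group G] [Finite G] {p : ℕ} [Fact p.Prime] (S : Sylow p G) (h : p ≠ 2 ∨ Group.IsSolvable G) :
    ∃ W K : Subgroup G, (∀ x : G, x ∈ W ↔ (x ∈ (S : Subgroup G) ∧ ∀ g : G, g * x * g⁻¹ ∈ (S : Subgroup G) → g * x * g⁻¹ = x)) ∧
      K ≤ ((S : Subgroup G) ⊓ Subgroup.centralizer ((S : Subgroup G) : Set G)) ∧ W ⊓ K = ⊥ ∧ W ⊔ K = ((S : Subgroup G) ⊓ Subgroup.centralizer ((S : Subgroup G) : Set G)) := by
  classical
  set Z0 := (S : Subgroup G) ⊓ Subgroup.centralizer ((S : Subgroup G) : Set G) with hZ0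
  have hZp : IsPGroup p Z0 := S.isPGroup'.to_le inf_le_left
  have hZc : ∀ a ∈ Z0, ∀ b ∈ Z0, a * b = b * a := fun a ha b hb =>
    Subgroup.mem_centralizer_iff.1 hb.2 a ha.1
  set P : G → Prop := fun x =>
    x ∈ (S : Subgroup G) ∧ ∀ g : G, g * x * g⁻¹ ∈ (S : Subgroup G) → g * x * g⁻¹ = x
  have hPZ : ∀ x, P x → x ∈ Z0 := fun x hx => ⟨hx.1, Subgroup.mem_centralizer_iff.2 fun s hs =>
    mul_inv_eq_iff_eq_mul.1 (hx.2 s (mul_mem (mul_mem hs hx.1) (inv_mem hs)))⟩
  by_cases hp2 : p ≠ 2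
  · set J := Cfsg.thompsonSubgroupAOf (S : Subgroup G) with hJdef
    set H := Subgroup.normalizer (J : Set G) with hH
    have hJe : J = Cfsg.Lib.PLocal.jA (S : Subgroup G) := Cfsg.Lib.PLocal.thompsonSubgroupAOf_eq_jA _
    have hJS : J ≤ (S : Subgroup G) := hJe ▸ Cfsg.Lib.PLocal.jA_le _
    have hSH : (S : Subgroup G) ≤ H := by
      rw [hH, hJe]
      exact Subgroup.le_normalizer.trans (Cfsg.Lib.PLocal.normalizer_le_jA _)
    have hZJ : Z0 ≤ J := by
      intro z hz
      obtain ⟨A, hA⟩ := Cfsg.Lib.PLocal.maxF_nonempty (P := Cfsg.Lib.PLocal.Ab)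
        Cfsg.Lib.PLocal.ab_bot (S : Subgroup G)
      rw [hJe]
      exact le_sSup hA (Cfsg.Lib.Fusion.mem_of_mem_maxF hA hz.1 fun a ha =>
        Subgroup.mem_centralizer_iff.1 hz.2 a (hA.1 ha))
    set A := (J ⊓ Subgroup.centralizer (J : Set G)).subgroupOf H with hAdef
    haveI : A.Normal := ⟨fun a ha h => by
      refine ⟨(Subgroup.mem_normalizer_iff.1 h.2 _).1 ha.1, Subgroup.mem_centralizer_iff.2 fun y hy => ?_⟩
      have hy' : (h : G)⁻¹ * y * h ∈ J := by
        simpa using (Subgroup.mem_normalizer_iff.1 (inv_mem h.2) y).1 hy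
      have h1 : ((h : G)⁻¹ * y * h) * (a : G) = (a : G) * ((h : G)⁻¹ * y * h) :=
        Subgroup.mem_centralizer_iff.1 ha.2 _ hy'
      show y * ((h : G) * a * (h : G)⁻¹) = (h : G) * a * (h : G)⁻¹ * y
      calc y * ((h : G) * a * (h : G)⁻¹) = (h : G) * (((h : G)⁻¹ * y * h) * a) * (h : G)⁻¹ := by group
        _ = (h : G) * a * (h : G)⁻¹ * y := by rw [h1]; group⟩
    refine direct_factor Z0 hZp hZc (Subgroup.inclusion (inf_le_left.trans hSH))
      (Subgroup.inclusion_injective _) A ((S : Subgroup G).subgroupOf H)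
      (fun a ha b hb => Subtype.ext (Subgroup.mem_centralizer_iff.1 hb.2 _ ha.1))
      (fun z => ⟨hZJ z.2, Subgroup.centralizer_le hJS z.2.2⟩)
      (fun z t ht => Subtype.ext (Subgroup.mem_centralizer_iff.1 z.2.2 _ ht)) ?_ P hPZ ?_ ?_
    · intro hdvd
      exact S.not_dvd_index (hdvd.trans ((Subgroup.relIndex_dvd_index_of_le hSH)))
    · intro z hz g
      refine Subtype.ext (mul_inv_eq_iff_eq_mul.1 (hz.2 g ?_))
      exact hJS ((Subgroup.mem_normalizer_iff.1 g.2 _).1 (hZJ z.2))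
    · intro a ha hac
      have haS : (a : G) ∈ (S : Subgroup G) := hJS ha.1
      have haZ : (a : G) ∈ Z0 := ⟨haS, Subgroup.mem_centralizer_iff.2 fun s hs =>
        congrArg Subtype.val (hac ⟨s, hSH hs⟩)⟩
      exact ⟨⟨a, haZ⟩, ⟨haS, Cfsg.Agent.S2799.result S a haS
        ⟨a, Subgroup.mem_center_iff.2 hac, rfl⟩ (Or.inl hp2)⟩, rfl⟩
  · have hsol : Group.IsSolvable G := h.resolve_left hp2
    haveI := Cfsg.Lib.Transfer.pPrimeCore_normal (G := G) p
    set O := Cfsg.pPrimeCore p G with hO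
    set q := QuotientGroup.mk' O with hq
    have hqs : Function.Surjective q := QuotientGroup.mk'_surjective O
    set T := S.mapSurjective hqs with hT
    have hd : ∀ x ∈ (S : Subgroup G), x ∈ O → x = 1 := by
      intro x hx hxO
      obtain ⟨n, hn⟩ := S.isPGroup' ⟨x, hx⟩
      exact orderOf_eq_one_iff.1 (Nat.eq_one_of_dvd_coprimes
        ((Cfsg.Lib.Transfer.coprime_card_pPrimeCore (G := G) p).pow_right n)
        (Subgroup.orderOf_dvd_natCard O hxO)
        (orderOf_dvd_of_pow_eq_one (congrArg Subtype.val hn)))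
    haveI : (Cfsg.pCore p (G ⧸ O)).Normal := Cfsg.Lib.Transfer.pCore_normal p
    have hc : Subgroup.centralizer (Cfsg.pCore p (G ⧸ O) : Set (G ⧸ O)) ≤ Cfsg.pCore p (G ⧸ O) :=
      Cfsg.Lib.Solv.centralizer_pCore_le p (Cfsg.Lib.Solv.pPrimeCore_quotient_eq_bot p)
    set A := Cfsg.pCore p (G ⧸ O) ⊓ Subgroup.centralizer (Cfsg.pCore p (G ⧸ O) : Set (G ⧸ O))
    have hOT : Cfsg.pCore p (G ⧸ O) ≤ (T : Subgroup (G ⧸ O)) := Cfsg.Lib.Transfer.pCore_le_sylow T
    have hqc : ∀ z : Z0, ∀ t ∈ (T : Subgroup (G ⧸ O)), t * q z = q z * t := by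
      rintro z _ ⟨s, hs, rfl⟩
      rw [← map_mul, ← map_mul]
      exact congrArg q (Subgroup.mem_centralizer_iff.1 z.2.2 s hs)
    refine direct_factor Z0 hZp hZc (q.comp Z0.subtype) ?_ A (T : Subgroup (G ⧸ O))
      (fun a ha b hb => Subgroup.mem_centralizer_iff.1 hb.2 _ ha.1) ?_ hqc T.not_dvd_index P hPZ ?_ ?_
    · refine (injective_iff_map_eq_one _).2 fun z hz => Subtype.ext (hd z z.2.1 ?_)
      exact (QuotientGroup.eq_one_iff _).1 hz
    · intro z
      have h1 : q z ∈ Subgroup.centralizer (Cfsg.pCore p (G ⧸ O) : Set (G ⧸ O)) :=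
        Subgroup.mem_centralizer_iff.2 fun t ht => hqc z t (hOT ht)
      exact ⟨hc h1, h1⟩
    · intro z hz hb
      obtain ⟨g, rfl⟩ := hqs hb
      set X : Subgroup G := ((S : Subgroup G).map q).comap q with hX
      have hSX : (S : Subgroup G) ≤ X := fun s hs => ⟨s, hs, rfl⟩
      have hzX : g * (z : G) * g⁻¹ ∈ X := by
        show q (g * (z : G) * g⁻¹) ∈ (T : Subgroup (G ⧸ O))
        rw [map_mul, map_mul, map_inv]
        have h1 : q z ∈ Cfsg.pCore p (G ⧸ O) := hc (Subgroup.mem_centralizer_iff.2 fun t ht =>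
          hqc z t (hOT ht))
        exact hOT ((Cfsg.Lib.Transfer.pCore_normal p).conj_mem _ h1 _)
      have hzp : IsPGroup p (Subgroup.zpowers (g * (z : G) * g⁻¹)) :=
        (S.isPGroup'.map (MulAut.conj g).toMonoidHom).to_le
          (Subgroup.zpowers_le.2 ⟨(z : G), hz.1, rfl⟩)
      obtain ⟨T', hT'⟩ := (hzp.comap_of_injective X.subtype X.subtype_injective).exists_le_sylow
      obtain ⟨x, hx⟩ := MulAction.exists_smul_eq X T' (S.subtype hSX)
      have h1 : x * ⟨_, hzX⟩ * x⁻¹ ∈ ((x • T' : Sylow p X) : Subgroup X) :=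
        ⟨⟨_, hzX⟩, hT' (show (⟨_, hzX⟩ : X) ∈ (Subgroup.zpowers (g * (z : G) * g⁻¹)).subgroupOf X from
          Subgroup.mem_zpowers _), rfl⟩
      rw [hx] at h1
      have h2 := hz.2 ((x : G) * g) (by
        have h3 : (x : G) * (g * (z : G) * g⁻¹) * (x : G)⁻¹ ∈ (S : Subgroup G) := h1
        convert h3 using 1
        group)
      have h4 : q x * (q g * q z * (q g)⁻¹) * (q x)⁻¹ = q z := by
        have := congrArg q h2
        simpa [map_mul, map_inv, mul_assoc] using this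
      show q g * q z = q z * q g
      refine mul_inv_eq_iff_eq_mul.1 ?_
      calc q g * q z * (q g)⁻¹ = (q x)⁻¹ * (q x * (q g * q z * (q g)⁻¹) * (q x)⁻¹) * q x := by group
        _ = q z := by rw [h4, mul_assoc, ← hqc z (q x) x.2, inv_mul_cancel_left]
    · intro a ha hac
      obtain ⟨s, hs, rfl⟩ := hOT ha.1
      have hsc : s ∈ Z0 := by
        refine ⟨hs, Subgroup.mem_centralizer_iff.2 fun t ht => ?_⟩
        have h1 : ⁅t, s⁆ ∈ O := (QuotientGroup.eq_one_iff (N := O) _).1 (by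
          show q ⁅t, s⁆ = 1
          rw [map_commutatorElement, commutatorElement_eq_one_iff_mul_comm]
          exact hac (q t))
        have h2 := hd _ (mul_mem (mul_mem (mul_mem ht hs) (inv_mem ht)) (inv_mem hs)) h1
        exact commutatorElement_eq_one_iff_mul_comm.1 h2
      refine ⟨⟨s, hsc⟩, ⟨hs, fun g hg => ?_⟩, rfl⟩
      refine (inv_mul_eq_one.1 (hd _ (mul_mem (inv_mem hs) hg) ((QuotientGroup.eq_one_iff (N := O) _).1 ?_))).symm
      show q (s⁻¹ * (g * s * g⁻¹)) = 1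
      rw [map_mul, map_mul, map_mul, map_inv, map_inv, hac (q g), mul_inv_cancel_right, inv_mul_cancel]

end Cfsg.Agent.S1945
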