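import Cfsg.Statements.S1946
import Mathlib
import Cfsg.Agent.Lib.Transfer.Frobenius
import Cfsg.Agent.Lib.Transfer.StronglyClosedOrder
-- import your own Cfsg.Agent.* helpers here

set_option autoImplicit false
open Cfsg

open scoped commutatorElement
namespace Cfsg.Agent.S1946

/-- Let P be a Sylow p-subgroup of the finite group G. Then G has a normal p-complement if and only if P controls the fusion of its elements of order dividing p (dividing 4 when p = 2): whenever such an element a of P has a G-conjugate g a g⁻¹ in P, that conjugate is already x a x⁻¹ for some x in P. -/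
theorem result {G : Type*} [Group G] [Finite G] {p : ℕ} [Fact p.Prime] (P : Sylow p G) :
    Cfsg.HasNormalPComplement p G ↔
      ∀ a ∈ (P : Subgroup G), (a ^ p = 1 ∨ (p = 2 ∧ a ^ 4 = 1)) → ∀ g : G, g * a * g⁻¹ ∈ (P : Subgroup G) →
        ∃ x ∈ (P : Subgroup G), g * a * g⁻¹ = x * a * x⁻¹ := by
  constructor
  · intro h a ha _ g hg
    obtain ⟨z, hz, he⟩ := (Cfsg.Lib.Transfer.controlsOwnFusion_iff P).2 h a ha _ hg ⟨g, rfl⟩
    exact ⟨z, hz, he.symm⟩
  intro h
  rw [Cfsg.Lib.Transfer.frobenius_iff P]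
  haveI : Group.IsNilpotent ↥(P : Subgroup G) := P.isPGroup'.isNilpotent
  obtain ⟨n, hn⟩ := Subgroup.nilpotent_iff_lowerCentralSeries.1 (P.isPGroup'.isNilpotent)
  let L : ℕ → Subgroup G := fun i => ((⊤ : Subgroup ↥(P : Subgroup G)).lowerCentralSeries i).map (P : Subgroup G).subtype
  have hstep : ∀ i, ∀ a ∈ L i, ∀ x ∈ (P : Subgroup G), x * a * x⁻¹ * a⁻¹ ∈ L (i + 1) := by
    rintro i _ ⟨a, ha, rfl⟩ x hx
    refine ⟨(⁅a, (⟨x, hx⟩ : ↥(P : Subgroup G))⁆)⁻¹, inv_mem ?_, by simp [commutatorElement_def, mul_assoc]⟩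
    rw [Subgroup.lowerCentralSeries_succ]
    exact Subgroup.commutator_mem_commutator ha (Subgroup.mem_top _)
  have hsub : ∀ (d i : ℕ), n ≤ i + d → ∀ Q : Subgroup G, Q ≤ (P : Subgroup G) →
      ∀ g ∈ Subgroup.normalizer (Q : Set G), (orderOf g).Coprime p →
      ∀ a ∈ Q, a ∈ L i → (a ^ p = 1 ∨ (p = 2 ∧ a ^ 4 = 1)) → g * a * g⁻¹ = a := by
    intro d
    induction d with
    | zero =>
      intro i hi Q _ g _ _ a _ ha _
      obtain ⟨w, hw, rfl⟩ := ha
      have hw' := (Subgroup.lowerCentralSeries_antitone (⊤ : Subgroup ↥(P : Subgroup G)) hi) hw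
      rw [hn, Subgroup.mem_bot] at hw'
      simp [hw']
    | succ d ih =>
      intro i hi Q hQ g hg hgc a haQ haL ha
      have hQg : ∀ j : ℕ, g ^ j * a * (g ^ j)⁻¹ ∈ Q := fun j =>
        (Subgroup.mem_normalizer_iff.1 ((Subgroup.normalizer (Q : Set G)).pow_mem hg j) a).1 haQ
      have hcoset : ∀ j : ℕ, g ^ j * a * (g ^ j)⁻¹ * a⁻¹ ∈ L (i + 1) := by
        intro j
        obtain ⟨x, hx, he⟩ := h a (hQ haQ) ha (g ^ j) (hQ (hQg j))
        rw [he]
        exact hstep i a haL x hx
      let c : ℕ → G := fun j => g ^ (j + 1) * a * (g ^ (j + 1))⁻¹ * (g ^ j * a * (g ^ j)⁻¹)⁻¹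
      have hcQ : ∀ j, c j ∈ Q := fun j => mul_mem (hQg _) (inv_mem (hQg _))
      have hcL : ∀ j, c j ∈ L (i + 1) := fun j => by
        have e : c j = (g ^ (j + 1) * a * (g ^ (j + 1))⁻¹ * a⁻¹) * (g ^ j * a * (g ^ j)⁻¹ * a⁻¹)⁻¹ := by
          simp only [c]; group
        rw [e]; exact mul_mem (hcoset _) (inv_mem (hcoset _))
      let R : Subgroup G := Subgroup.closure (Set.range c)
      have hRQ : R ≤ Q := (Subgroup.closure_le _).2 (Set.range_subset_iff.2 hcQ)
      have hRL : R ≤ L (i + 1) := (Subgroup.closure_le _).2 (Set.range_subset_iff.2 hcL)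
      have hRg : g ∈ Subgroup.normalizer (R : Set G) := by
        refine Cfsg.Lib.Transfer.mem_normalizer_of_conj_mem fun x hx => ?_
        induction hx using Subgroup.closure_induction with
        | mem x hx =>
          obtain ⟨j, rfl⟩ := hx
          refine Subgroup.subset_closure ⟨j + 1, ?_⟩
          simp only [c]; group
        | one => simpa using R.one_mem
        | mul x y _ _ ihx ihy =>
          rw [show g * (x * y) * g⁻¹ = (g * x * g⁻¹) * (g * y * g⁻¹) by group]; exact mul_mem ihx ihy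
        | inv x _ ihx =>
          rw [show g * x⁻¹ * g⁻¹ = (g * x * g⁻¹)⁻¹ by group]; exact inv_mem ihx
      have hfix := Cfsg.Lib.Transfer.commute_of_fix_small (P.isPGroup'.to_le (hRQ.trans hQ)) hRg hgc
        (fun x hx hxs => ih (i + 1) (by omega) R (hRQ.trans hQ) g hRg hgc x hx (hRL hx) hxs)
        (c 0) (Subgroup.subset_closure ⟨0, rfl⟩)
      set e := c 0 with he
      have hga : g * a * g⁻¹ = e * a := by simp only [he, c]; simp
      have hj : ∀ j : ℕ, g ^ j * a * (g ^ j)⁻¹ = e ^ j * a := by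
        intro j
        induction j with
        | zero => simp
        | succ j ihj =>
          calc g ^ (j + 1) * a * (g ^ (j + 1))⁻¹ = g * (g ^ j * a * (g ^ j)⁻¹) * g⁻¹ := by group
            _ = (g * e ^ j * g⁻¹) * (g * a * g⁻¹) := by rw [ihj]; group
            _ = e ^ j * (e * a) := by rw [← conj_pow, hfix, hga]
            _ = e ^ (j + 1) * a := by rw [← mul_assoc, ← pow_succ]
      have h1 := hj (orderOf g)
      rw [pow_orderOf_eq_one, one_mul, inv_one, mul_one, right_eq_mul] at h1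
      obtain ⟨k, hk⟩ := IsPGroup.iff_orderOf.1 P.isPGroup' ⟨e, hQ (hcQ 0)⟩
      rw [Subgroup.orderOf_mk] at hk
      have he1 : e = 1 := orderOf_eq_one_iff.1
        (Nat.eq_one_of_dvd_coprimes (hgc.pow_right k) (orderOf_dvd_of_pow_eq_one h1) hk.dvd)
      rw [hga, he1, one_mul]
  intro Q hQ g hg hgc
  rw [Subgroup.mem_centralizer_iff]
  intro x hx
  have := Cfsg.Lib.Transfer.commute_of_fix_small (P.isPGroup'.to_le hQ) hg hgc
    (fun a ha hs => hsub n 0 (by omega) Q hQ g hg hgc a ha (by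
      simp only [L, Subgroup.lowerCentralSeries_zero, ← MonoidHom.range_eq_map, Subgroup.range_subtype]
      exact hQ ha) hs) x hx
  exact (mul_inv_eq_iff_eq_mul.1 this).symm

end Cfsg.Agent.S1946
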