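import Cfsg.Statements.S1947
import Mathlib
import Cfsg.Agent.Lib.Transfer.Frobenius
import Cfsg.Agent.Lib.Transfer.StronglyClosedOrder
-- import your own Cfsg.Agent.* helpers here

set_option autoImplicit false
open Cfsg

open scoped commutatorElement
namespace Cfsg.Agent.S1947

/-- Let G be a finite group and p a prime. If every element of G of order dividing p (dividing 4 when p = 2) lies in some fixed term Z_n(G) of the upper central series, then G has a normal p-complement. -/
theorem result {G : Type*} [Group G] [Finite G] {p : ℕ} [Fact p.Prime] (n : ℕ)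
    (h : ∀ a : G, (a ^ p = 1 ∨ (p = 2 ∧ a ^ 4 = 1)) → a ∈ Subgroup.upperCentralSeries G n) : Cfsg.HasNormalPComplement p G := by
  obtain ⟨P⟩ := (inferInstance : Nonempty (Sylow p G))
  rw [Cfsg.Lib.Transfer.frobenius_iff P]
  intro Q hQ g hg hgc
  have key : ∀ i : ℕ, ∀ a ∈ Q, a ∈ Subgroup.upperCentralSeries G i → g * a * g⁻¹ = a := by
    intro i
    induction i with
    | zero => intro a _ ha; rw [Subgroup.upperCentralSeries_zero, Subgroup.mem_bot] at ha; simp [ha]
    | succ i ih =>
      intro a haQ ha
      set e := g * a * g⁻¹ * a⁻¹ with he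
      have heQ : e ∈ Q := mul_mem ((Subgroup.mem_normalizer_iff.1 hg a).1 haQ) (inv_mem haQ)
      have heZ : e ∈ Subgroup.upperCentralSeries G i := by
        have := (Subgroup.mem_upperCentralSeries_succ_iff (G := G)).1 ha g
        have h2 := inv_mem this
        simp only [commutatorElement_def, mul_inv_rev, inv_inv] at h2
        first
          | exact this
          | (simpa [he, mul_assoc] using this)
          | (simpa [he, mul_assoc] using h2)
      have hfix := ih e heQ heZ
      have hga : g * a * g⁻¹ = e * a := by rw [he]; group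
      have hj : ∀ j : ℕ, g ^ j * a * (g ^ j)⁻¹ = e ^ j * a := by
        intro j
        induction j with
        | zero => simp
        | succ j ihj =>
          calc g ^ (j + 1) * a * (g ^ (j + 1))⁻¹ = g * (g ^ j * a * (g ^ j)⁻¹) * g⁻¹ := by group
            _ = (g * e ^ j * g⁻¹) * (g * a * g⁻¹) := by rw [ihj]; group
            _ = e ^ j * (e * a) := by rw [← conj_pow, hfix, hga]
            _ = e ^ (j + 1) * a := by rw [← mul_assoc, ← pow_succ]
      have h1 := hj (orderOf g)
      rw [pow_orderOf_eq_one, one_mul, inv_one, mul_one, right_eq_mul] at h1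
      obtain ⟨k, hk⟩ := IsPGroup.iff_orderOf.1 P.isPGroup' ⟨e, hQ heQ⟩
      rw [Subgroup.orderOf_mk] at hk
      have he1 : e = 1 := orderOf_eq_one_iff.1
        (Nat.eq_one_of_dvd_coprimes (hgc.pow_right k) (orderOf_dvd_of_pow_eq_one h1) hk.dvd)
      rw [hga, he1, one_mul]
  rw [Subgroup.mem_centralizer_iff]
  intro x hx
  have := Cfsg.Lib.Transfer.commute_of_fix_small (P.isPGroup'.to_le hQ) hg hgc
    (fun a ha hs => key n a ha (h a hs)) x hx
  exact (mul_inv_eq_iff_eq_mul.1 this).symm

end Cfsg.Agent.S1947
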