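import Cfsg.Statements.S1948
import Mathlib
import Cfsg.Agent.Lib.Comp.Constrained
import Cfsg.Agent.Lib.PLocal.Constraint
import Cfsg.Agent.Lib.Transfer.NormalPComplement
import Cfsg.Agent.Lib.Transfer.Action
-- import your own Cfsg.Agent.* helpers here

set_option autoImplicit false
open Cfsg

namespace Cfsg.Agent.S1948

open scoped Pointwise

/-- Let S be a Sylow p-subgroup of the finite group G. Then G = N_G(S)·O_{p'}(G) if and only if G is p-constrained and N_G(S) controls fusion in S, in the sense that whenever a subgroup Q of S has a conjugate g Q g⁻¹ inside S, the element g is a product n c with n normalizing S and c centralizing Q. -/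
theorem result {G : Type*} [Group G] [Finite G] {p : ℕ} [Fact p.Prime] (S : Sylow p G) :
    Subgroup.normalizer ((S : Subgroup G) : Set G) ⊔ Cfsg.pPrimeCore p G = ⊤ ↔
      (Cfsg.IsPConstrained p G ∧
        ∀ Q : Subgroup G, Q ≤ (S : Subgroup G) → ∀ g : G, Q.map (MulAut.conj g).toMonoidHom ≤ (S : Subgroup G) →
          ∃ n ∈ Subgroup.normalizer ((S : Subgroup G) : Set G), ∃ c ∈ Subgroup.centralizer (Q : Set G), g = n * c) := by
  haveI := Cfsg.Lib.Transfer.pPrimeCore_normal (G := G) p
  set O := Cfsg.pPrimeCore p G with hO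
  have hdisj : (S : Subgroup G) ⊓ O = ⊥ := by
    obtain ⟨n, hn⟩ := IsPGroup.iff_card.1 S.2
    refine Subgroup.inf_eq_bot_of_coprime ?_
    rw [hn]
    exact ((Cfsg.Lib.Transfer.coprime_card_pPrimeCore p).symm).pow_left n
  constructor
  · intro h
    refine ⟨?_, fun Q hQ g hg => ?_⟩
    · rw [Cfsg.Lib.PLocal.isPConstrained_iff_quotient]
      set q := QuotientGroup.mk' O with hq
      have hs : Function.Surjective q := QuotientGroup.mk'_surjective O
      set Sb : Sylow p (G ⧸ O) := S.mapSurjective hs with hSb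
      haveI hn : (Sb : Subgroup (G ⧸ O)).Normal := by
        rw [← Subgroup.normalizer_eq_top_iff, eq_top_iff]
        intro y _
        obtain ⟨x, rfl⟩ := hs y
        have hx : x ∈ ((Subgroup.normalizer ((S : Subgroup G) : Set G) ⊔ O : Subgroup G) : Set G) := by
          rw [h]; exact Subgroup.mem_top x
        rw [Subgroup.mul_normal] at hx
        obtain ⟨n, hn, o, ho, rfl⟩ := hx
        rw [map_mul, show q o = 1 from (QuotientGroup.eq_one_iff o).2 ho, mul_one]
        exact (Subgroup.le_normalizer_map q) ⟨n, hn, rfl⟩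
      have hle : (Sb : Subgroup (G ⧸ O)) ≤ Cfsg.pCore p (G ⧸ O) := le_sSup ⟨hn, Sb.2⟩
      have heq : Cfsg.pCore p (G ⧸ O) = Sb :=
        Sb.3 (Cfsg.Lib.Transfer.pCore_isPGroup p) hle
      show Subgroup.centralizer (Cfsg.pCore p (G ⧸ O) : Set (G ⧸ O)) ≤ Cfsg.pCore p (G ⧸ O)
      rw [heq]
      set C := Subgroup.centralizer ((Sb : Subgroup (G ⧸ O)) : Set (G ⧸ O)) with hC
      haveI : C.Normal := Subgroup.normal_centralizer
      have hcomp : Cfsg.HasNormalPComplement p ↥C := by
        obtain ⟨P⟩ := (inferInstance : Nonempty (Sylow p ↥C))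
        refine Cfsg.Lib.Transfer.hasNormalPComplement_of_normalizer_le_centralizer P fun y _ => ?_
        rw [Subgroup.mem_centralizer_iff]
        intro x hx
        obtain ⟨P', hP'⟩ := (P.2.map C.subtype).exists_le_sylow
        haveI : Subsingleton (Sylow p (G ⧸ O)) := (Sylow.unique_of_normal Sb hn).instSubsingleton
        have hxS : (x : G ⧸ O) ∈ (Sb : Subgroup (G ⧸ O)) :=
          Subsingleton.elim P' Sb ▸ hP' (Subgroup.mem_map_of_mem C.subtype hx)
        exact Subtype.ext (Subgroup.mem_centralizer_iff.1 y.2 _ hxS)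
      rw [Cfsg.Lib.Transfer.hasNormalPComplement_iff_pResidual] at hcomp
      have hbot : Cfsg.pResidual p ↥C = ⊥ := by
        haveI := Cfsg.Lib.Transfer.pResidual_characteristic (G := ↥C) p
        have h1 : ((Cfsg.pResidual p ↥C).map C.subtype) ≤ Cfsg.pPrimeCore p (G ⧸ O) :=
          Cfsg.Lib.Transfer.le_pPrimeCore inferInstance
            (by rwa [Subgroup.card_map_of_injective C.subtype_injective])
        rw [Cfsg.Lib.Solv.pPrimeCore_quotient_eq_bot (G := G) p, le_bot_iff,
          Subgroup.map_eq_bot_iff_of_injective _ C.subtype_injective] at h1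
        exact h1
      obtain ⟨k, hk⟩ := Cfsg.Lib.Transfer.exists_index_pResidual_eq_pow (G := ↥C) (p := p)
      rw [hbot, Subgroup.index_bot] at hk
      obtain ⟨P', hP'⟩ := (IsPGroup.of_card hk).exists_le_sylow
      haveI : Subsingleton (Sylow p (G ⧸ O)) := (Sylow.unique_of_normal Sb hn).instSubsingleton
      exact Subsingleton.elim P' Sb ▸ hP'
    · have hx : g ∈ ((Subgroup.normalizer ((S : Subgroup G) : Set G) ⊔ O : Subgroup G) : Set G) := by
        rw [h]; exact Subgroup.mem_top g
      rw [Subgroup.mul_normal] at hx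
      obtain ⟨n, hn, o, ho, rfl⟩ := hx
      refine ⟨n, hn, o, Subgroup.mem_centralizer_iff.2 fun u hu => ?_, rfl⟩
      have h1 : n * o * u * (n * o)⁻¹ ∈ (S : Subgroup G) :=
        hg (Subgroup.mem_map_of_mem (MulAut.conj (n * o)).toMonoidHom hu)
      have h2 : o * u * o⁻¹ ∈ (S : Subgroup G) := by
        refine (Subgroup.mem_normalizer_iff.1 hn _).2 ?_
        rwa [show n * (o * u * o⁻¹) * n⁻¹ = n * o * u * (n * o)⁻¹ by group]
      have h3 : o * u * o⁻¹ * u⁻¹ ∈ (S : Subgroup G) ⊓ O := by
        refine ⟨(S : Subgroup G).mul_mem h2 ((S : Subgroup G).inv_mem (hQ hu)), ?_⟩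
        rw [show o * u * o⁻¹ * u⁻¹ = o * (u * o⁻¹ * u⁻¹) by group]
        exact O.mul_mem ho (Subgroup.Normal.conj_mem inferInstance _ (O.inv_mem ho) u)
      rw [hdisj, Subgroup.mem_bot, mul_inv_eq_one, mul_inv_eq_iff_eq_mul] at h3
      exact h3.symm
  · rintro ⟨hpc, hctl⟩
    set T := Cfsg.pPrimePCore p G with hT
    haveI : T.Normal := by
      haveI := Cfsg.Lib.Transfer.pCore_normal (G := G ⧸ O) p
      exact Subgroup.Normal.comap inferInstance _
    obtain ⟨P0⟩ : Nonempty (Sylow p ↥T) := inferInstance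
    obtain ⟨P', hP'⟩ := (P0.2.map T.subtype).exists_le_sylow
    obtain ⟨g, rfl⟩ := MulAction.exists_smul_eq G P' S
    set P := (MulAut.conjNormal (H := T) g) • P0 with hP
    have hPS : (P : Subgroup ↥T).map T.subtype ≤ ((g • P' : Sylow p G) : Subgroup G) := by
      rintro _ ⟨_, ⟨u, hu, rfl⟩, rfl⟩
      exact Subgroup.smul_mem_pointwise_smul _ _ _ (hP' (Subgroup.mem_map_of_mem T.subtype hu))
    set Q := (P : Subgroup ↥T).map T.subtype with hQ
    set S' := ((g • P' : Sylow p G) : Subgroup G) with hS'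
    refine eq_top_iff.2 fun x _ => ?_
    have hfr : Subgroup.normalizer (Q : Set G) ⊔ T = ⊤ := by
      rw [hQ]; exact Sylow.normalizer_sup_eq_top P
    have hTle : T ≤ Subgroup.normalizer (S' : Set G) ⊔ O := by
      rw [hT, ← Cfsg.Lib.Comp.sylow_sup_core_eq P]
      exact sup_le (hPS.trans (Subgroup.le_normalizer.trans le_sup_left)) le_sup_right
    have hx : x ∈ Subgroup.normalizer (Q : Set G) ⊔ T := hfr ▸ Subgroup.mem_top x
    refine (sup_le (fun y hy => ?_) hTle : Subgroup.normalizer (Q : Set G) ⊔ T ≤ _) hx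
    obtain ⟨n, hn, c, hc, rfl⟩ := hctl Q hPS y (by
      rintro _ ⟨u, hu, rfl⟩
      exact hPS ((Subgroup.mem_normalizer_iff.1 hy u).1 hu))
    exact mul_mem (Subgroup.mem_sup_left hn) (hTle (hpc P hc))

end Cfsg.Agent.S1948
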