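import Cfsg.Statements.S1949
import Mathlib
import Cfsg.Agent.Lib.Transfer.Critical
-- import your own Cfsg.Agent.* helpers here

set_option autoImplicit false
open Cfsg

namespace Cfsg.Agent.S1949

open scoped commutatorElement

theorem pow_mul_of_commutes {P : Type*} [Group P] {x y c : P} (h : y * x = x * y * c)
    (hcx : Commute c x) (hcy : Commute c y) : ∀ n : ℕ, y ^ n * x = x * y ^ n * c ^ n := by
  intro n
  induction n with
  | zero => simp
  | succ n ih =>
    calc y ^ (n + 1) * x = y * (y ^ n * x) := by rw [pow_succ', mul_assoc]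
      _ = y * x * y ^ n * c ^ n := by rw [ih]; group
      _ = x * y * (c * y ^ n) * c ^ n := by rw [h]; group
      _ = x * y * (y ^ n * c) * c ^ n := by rw [(hcy.pow_right n).eq]
      _ = _ := by rw [pow_succ' y, pow_succ' c]; group

theorem mul_pow_class_two {P : Type*} [Group P] {x y c : P} (h : y * x = x * y * c)
    (hcx : Commute c x) (hcy : Commute c y) : ∀ n : ℕ, (x * y) ^ n = x ^ n * y ^ n * c ^ (n.choose 2) := by
  intro n
  induction n with
  | zero => simp
  | succ n ih =>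
    have hz : Commute (c ^ n.choose 2) (x * y) := (hcx.mul_right hcy).pow_left _
    have hy : Commute (c ^ n) y := hcy.pow_left n
    calc (x * y) ^ (n + 1) = x ^ n * y ^ n * (c ^ (n.choose 2) * (x * y)) := by rw [pow_succ, ih]; group
      _ = x ^ n * y ^ n * (x * y * c ^ (n.choose 2)) := by rw [hz.eq]
      _ = x ^ n * (y ^ n * x) * y * c ^ (n.choose 2) := by group
      _ = x ^ n * x * y ^ n * (c ^ n * y) * c ^ (n.choose 2) := by rw [pow_mul_of_commutes h hcx hcy n]; group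
      _ = x ^ n * x * y ^ n * (y * c ^ n) * c ^ (n.choose 2) := by rw [hy.eq]
      _ = _ := by
        rw [Nat.choose_succ_succ' n 1, Nat.choose_one_right, pow_add, pow_succ, pow_succ y]
        group

theorem centralizer_inv {P : Type*} [Group P] (G : Subgroup (MulAut P)) (K : Subgroup P)
    (hK : ∀ α ∈ G, ∀ x ∈ K, α x ∈ K) : ∀ α ∈ G, ∀ x ∈ Subgroup.centralizer (K : Set P), α x ∈ Subgroup.centralizer (K : Set P) := by
  intro α hα x hx
  rw [Subgroup.mem_centralizer_iff] at hx ⊢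
  intro y hy
  have h := congrArg α (hx (α⁻¹ y) (hK α⁻¹ (inv_mem hα) y hy))
  simpa [map_mul] using h

theorem normal_of_inv {P : Type*} [Group P] (G : Subgroup (MulAut P)) (hG : Cfsg.Inn P ≤ G) (K : Subgroup P)
    (hK : ∀ α ∈ G, ∀ x ∈ K, α x ∈ K) : K.Normal :=
  ⟨fun x hx g => hK (MulAut.conj g) (hG ⟨g, rfl⟩) x hx⟩

/-- Let P be a finite p-group and G a group of automorphisms of P containing the inner automorphisms. Then there is a G-invariant subgroup D of P, contained in the subgroup generated by the elements x⁻¹α(x) with x in P and α in O^p(G), of exponent dividing p when p is odd and dividing 4 when p = 2, with [D, P] ≤ Z(D), such that every automorphism in G of order prime to p that fixes D elementwise is the identity; moreover every maximal abelian subgroup A of D is normal in P and every automorphism in G fixing A elementwise has p-power order. -/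
theorem result {P : Type*} [Group P] [Finite P] {p : ℕ} [Fact p.Prime] (hP : IsPGroup p P)
    (G : Subgroup (MulAut P)) (hG : Cfsg.Inn P ≤ G) :
    ∃ D : Subgroup P,
      (∀ α ∈ G, D.map α.toMonoidHom = D) ∧
      D ≤ Subgroup.closure {y : P | ∃ α ∈ Cfsg.pResidual p ↥G, ∃ x : P, y = x⁻¹ * (α : MulAut P) x} ∧
      (∀ d ∈ D, d ^ p = 1 ∨ (p = 2 ∧ d ^ 4 = 1)) ∧
      ⁅D, (⊤ : Subgroup P)⁆ ≤ D ⊓ Subgroup.centralizer (D : Set P) ∧
      (∀ α ∈ G, (orderOf α).Coprime p → (∀ d ∈ D, α d = d) → α = 1) ∧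
      ∀ A : Subgroup P, A ≤ D → IsMulCommutative ↥A →
        (∀ B : Subgroup P, A ≤ B → B ≤ D → IsMulCommutative ↥B → B = A) →
        A.Normal ∧ ∀ α ∈ G, (∀ a ∈ A, α a = a) → ∃ k : ℕ, orderOf α = p ^ k := by
  classical
  have hp : p.Prime := Fact.out
  set R := Subgroup.closure {y : P | ∃ α ∈ Cfsg.pResidual p ↥G, ∃ x : P, y = x⁻¹ * (α : MulAut P) x} with hR
  haveI hresn : (Cfsg.pResidual p ↥G).Normal := by
    refine Subgroup.Normal.mk fun a ha g => ?_
    have hle : (Cfsg.pResidual p ↥G).map (MulAut.conj g).toMonoidHom ≤ Cfsg.pResidual p ↥G := by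
      unfold Cfsg.pResidual
      rw [MonoidHom.map_closure, Subgroup.closure_le]
      rintro _ ⟨b, hb, rfl⟩
      refine Subgroup.subset_closure ?_
      show Nat.Coprime (orderOf ((MulAut.conj g).toMonoidHom b)) p
      rw [orderOf_injective (MulAut.conj g).toMonoidHom (MulAut.conj g).injective]
      exact hb
    exact hle ⟨a, ha, rfl⟩
  have hRG : ∀ α ∈ G, ∀ x ∈ R, α x ∈ R := by
    intro β hβ x hx
    induction hx using Subgroup.closure_induction with
    | mem y hy =>
      obtain ⟨α, hα, x, rfl⟩ := hy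
      refine Subgroup.subset_closure ⟨⟨β, hβ⟩ * α * (⟨β, hβ⟩ : G)⁻¹, hresn.conj_mem α hα _, β x, ?_⟩
      simp [map_mul, MulAut.mul_apply]
    | one => rw [map_one]; exact one_mem _
    | mul a b _ _ ha hb => rw [map_mul]; exact mul_mem ha hb
    | inv a _ ha => rw [map_inv]; exact inv_mem ha
  -- the abelian subgroup
  obtain ⟨Z, ⟨hZR, hZG, hZa⟩, hmax⟩ :=
    (Set.toFinite {Z : Subgroup P | Z ≤ R ∧ (∀ α ∈ G, ∀ x ∈ Z, α x ∈ Z) ∧ IsMulCommutative Z}).exists_maximal
      ⟨⊥, bot_le, fun α _ x hx => by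
        rw [Subgroup.mem_bot] at hx ⊢
        rw [hx, map_one], inferInstance⟩
  haveI := hZa
  haveI hZn : Z.Normal := normal_of_inv G hG Z hZG
  let q := QuotientGroup.mk' Z
  have hq : ∀ a : P, q a = 1 ↔ a ∈ Z := fun a => QuotientGroup.eq_one_iff a
  let H : Subgroup P :=
    { carrier := {x | x ∈ R ∧ x ∈ Subgroup.centralizer (Z : Set P) ∧ x ^ p ∈ Z ∧ ∀ g : P, g * x * g⁻¹ * x⁻¹ ∈ Z}
      one_mem' := ⟨one_mem _, one_mem _, by simp, fun g => by simp⟩
      mul_mem' := fun {a b} ⟨haR, haC, hap, hac⟩ ⟨hbR, hbC, hbp, hbc⟩ => by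
        have ca : ∀ g, Commute (q g) (q a) := fun g => by
          have := (hq _).2 (hac g)
          simp only [map_mul, map_inv, mul_inv_eq_one, mul_inv_eq_iff_eq_mul, one_mul] at this
          exact this
        refine ⟨mul_mem haR hbR, mul_mem haC hbC, ?_, fun g => ?_⟩
        · rw [← hq, map_pow, map_mul, (ca b).symm.mul_pow, ← map_pow, ← map_pow, (hq _).2 hap, (hq _).2 hbp, one_mul]
        · have : g * (a * b) * g⁻¹ * (a * b)⁻¹ =
              (g * a * g⁻¹ * a⁻¹) * (a * (g * b * g⁻¹ * b⁻¹) * a⁻¹) := by group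
          rw [this]
          exact mul_mem (hac g) (hZn.conj_mem _ (hbc g) a)
      inv_mem' := fun {a} ⟨haR, haC, hap, hac⟩ => ⟨inv_mem haR, inv_mem haC, by rw [inv_pow]; exact inv_mem hap,
        fun g => by
        have : g * a⁻¹ * g⁻¹ * a⁻¹⁻¹ = a⁻¹ * (g * a * g⁻¹ * a⁻¹)⁻¹ * a⁻¹⁻¹ := by group
        rw [this]
        exact hZn.conj_mem _ (inv_mem (hac g)) _⟩ }
  have hHG : ∀ α ∈ G, ∀ x ∈ H, α x ∈ H := fun α hα x hx =>
    ⟨hRG α hα x hx.1, centralizer_inv G Z hZG α hα x hx.2.1, by rw [← map_pow]; exact hZG α hα _ hx.2.2.1,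
      fun g => by
        have := hZG α hα _ (hx.2.2.2 (α⁻¹ g))
        simpa [map_mul] using this⟩
  haveI hHn : H.Normal := normal_of_inv G hG H hHG
  have hZH : Z ≤ H := fun x hx => ⟨hZR hx, Subgroup.le_centralizer Z hx, pow_mem hx p,
    fun g => mul_mem (hZn.conj_mem x hx g) (inv_mem hx)⟩
  have hZCH : Z ≤ Subgroup.centralizer (H : Set P) := Subgroup.le_centralizer_iff.1 (fun x hx => hx.2.1)
  have hcent : H ⊓ Subgroup.centralizer (H : Set P) ≤ Z := by
    refine hmax ⟨fun x hx => hx.1.1, fun α hα x hx => ⟨hHG α hα x hx.1, centralizer_inv G H hHG α hα x hx.2⟩, ?_⟩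
      (le_inf hZH hZCH)
    rw [← Subgroup.le_centralizer_iff_isMulCommutative]
    exact inf_le_right.trans (Subgroup.centralizer_le inf_le_left)
  haveI hRn : R.Normal := normal_of_inv G hG R hRG
  have hCH : R ⊓ Subgroup.centralizer (H : Set P) ≤ H := by
    haveI : (R ⊓ Subgroup.centralizer (H : Set P)).Normal :=
      normal_of_inv G hG _ fun α hα x hx => ⟨hRG α hα x hx.1, centralizer_inv G H hHG α hα x hx.2⟩
    by_contra hQ
    have hlt : Z < R ⊓ Subgroup.centralizer (H : Set P) :=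
      lt_of_le_of_ne (le_inf hZR hZCH) fun e => hQ (e ▸ hZH)
    obtain ⟨B, b, -, hZB, hBQ, hBc, hb, hbZ, -, hbg⟩ := Cfsg.Lib.Transfer.exists_normal_step hP Z _ hlt
    have hbp : b ^ p ∈ Z := by
      have hi : (Z.subgroupOf B).index = p := by
        have h1 := (Z.subgroupOf B).card_mul_index
        rw [Nat.card_congr (Subgroup.subgroupOfEquivOfLe hZB).toEquiv, hBc, mul_comm p] at h1
        exact Nat.eq_of_mul_eq_mul_left Nat.card_pos h1
      have := (Z.subgroupOf B).pow_index_mem ⟨b, hb⟩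
      rwa [hi] at this
    exact hbZ (hcent ⟨⟨(hBQ hb).1, Subgroup.centralizer_le hZH (hBQ hb).2, hbp, hbg⟩, (hBQ hb).2⟩)
  -- commutators inside `H`
  have hcomm : ∀ x ∈ H, ∀ y ∈ H, ∃ c ∈ Z, y * x = x * y * c ∧ Commute c x ∧ Commute c y ∧ c ^ p = 1 := by
    intro x hx y hy
    refine ⟨y⁻¹ * x⁻¹ * y * x, ?_, by group, ?_⟩
    · have := (inv_mem hx : x⁻¹ ∈ H).2.2.2 y⁻¹
      simpa [mul_assoc] using this
    · have hcZ : y⁻¹ * x⁻¹ * y * x ∈ Z := by
        have := (inv_mem hx : x⁻¹ ∈ H).2.2.2 y⁻¹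
        simpa [mul_assoc] using this
      have hcx : Commute (y⁻¹ * x⁻¹ * y * x) x := Subgroup.mem_centralizer_iff.1 hx.2.1 _ hcZ
      have hcy : Commute (y⁻¹ * x⁻¹ * y * x) y := Subgroup.mem_centralizer_iff.1 hy.2.1 _ hcZ
      refine ⟨hcx, hcy, ?_⟩
      have h := pow_mul_of_commutes (x := x) (y := y) (c := y⁻¹ * x⁻¹ * y * x) (by group) hcx hcy p
      rw [show y ^ p * x = x * y ^ p from Subgroup.mem_centralizer_iff.1 hx.2.1 _ hy.2.2.1, left_eq_mul] at h
      exact h
  -- the exponent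
  obtain ⟨e, hpe, hch, hee, hexp⟩ : ∃ e : ℕ, p ∣ e ∧ p ∣ e.choose 2 ∧
      (∀ w c : P, c ^ p = 1 → w ^ p * c ^ p.choose 2 = 1 → Commute w c → w ^ e = 1) ∧
      (∀ d : P, d ^ e = 1 → d ^ p = 1 ∨ (p = 2 ∧ d ^ 4 = 1)) := by
    by_cases hp2 : p = 2
    · subst hp2
      refine ⟨4, by norm_num, by decide, fun w c hc hw hwc => ?_, fun d hd => Or.inr ⟨rfl, hd⟩⟩
      rw [show Nat.choose 2 2 = 1 from rfl, pow_one, mul_eq_one_iff_eq_inv] at hw
      rw [show (4 : ℕ) = 2 * 2 from rfl, pow_mul, hw, inv_pow, hc, inv_one]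
    · refine ⟨p, dvd_rfl, hp.dvd_choose_self (by norm_num) (lt_of_le_of_ne hp.two_le (Ne.symm hp2)),
        fun w c hc hw _ => ?_, fun d hd => Or.inl hd⟩
      obtain ⟨k, hk⟩ := hp.dvd_choose_self (by norm_num : 2 ≠ 0) (lt_of_le_of_ne hp.two_le (Ne.symm hp2))
      rwa [hk, pow_mul, hc, one_pow, mul_one] at hw
  let D : Subgroup P :=
    { carrier := {x | x ∈ H ∧ x ^ e = 1}
      one_mem' := ⟨one_mem _, one_pow e⟩
      mul_mem' := fun {a b} ⟨ha, hae⟩ ⟨hb, hbe⟩ => by
        obtain ⟨c, -, hc, hca, hcb, hcp⟩ := hcomm a ha b hb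
        obtain ⟨k, hk⟩ := hch
        refine ⟨mul_mem ha hb, ?_⟩
        rw [mul_pow_class_two hc hca hcb e, hae, hbe, hk, pow_mul, hcp, one_pow, one_mul, one_mul]
      inv_mem' := fun {a} ⟨ha, hae⟩ => ⟨inv_mem ha, by rw [inv_pow, hae, inv_one]⟩ }
  have hDG : ∀ α ∈ G, ∀ x ∈ D, α x ∈ D := fun α hα x hx =>
    ⟨hHG α hα x hx.1, by rw [← map_pow, hx.2, map_one]⟩
  haveI hDn : D.Normal := normal_of_inv G hG D hDG
  have hDP : ⁅D, (⊤ : Subgroup P)⁆ ≤ D ⊓ Subgroup.centralizer (D : Set P) := by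
    rw [Subgroup.commutator_le]
    intro x hx g _
    rw [show ⁅x, g⁆ = x * (g * x⁻¹ * g⁻¹) from by rw [commutatorElement_def]; group]
    refine ⟨mul_mem hx (hDn.conj_mem _ (inv_mem hx) g), Subgroup.centralizer_le (fun y hy => hy.1) (hZCH ?_)⟩
    have := inv_mem (hx.1.2.2.2 g)
    rwa [show (g * x * g⁻¹ * x⁻¹)⁻¹ = x * (g * x⁻¹ * g⁻¹) by group] at this
  have hfaith : ∀ α ∈ G, (orderOf α).Coprime p → (∀ d ∈ D, α d = d) → α = 1 := by
    intro α hα hcop hfix
    have hit : ∀ x, (α.toMonoidHom)^[orderOf α] x = x := by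
      have h : ∀ (k : ℕ) (x : P), (α.toMonoidHom)^[k] x = (α ^ k) x := by
        intro k
        induction k with
        | zero => intro x; rfl
        | succ k ih => intro x; rw [Function.iterate_succ_apply', ih, pow_succ', MulAut.mul_apply]; rfl
      intro x
      rw [h, pow_orderOf_eq_one, MulAut.one_apply]
    have htr : ∀ x : P, α (x⁻¹ * α x) = x⁻¹ * α x → α x = x := fun x hx =>
      Cfsg.Lib.Transfer.fixed_of_translate hP α.toMonoidHom hcop hit (g := x) (z := x⁻¹ * α x)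
        (show α x = x * (x⁻¹ * α x) by group) hx
    have hstep : ∀ x ∈ H, α (x ^ p) = x ^ p → α x = x := by
      intro x hx hxp
      have hw : x⁻¹ * α x ∈ H := mul_mem (inv_mem hx) (hHG α hα x hx)
      obtain ⟨c, hcZ, hc, hcx, hcw, hcp⟩ := hcomm x hx _ hw
      refine htr x (hfix _ ⟨hw, hee _ c hcp ?_ hcw.symm⟩)
      have h := mul_pow_class_two hc hcx hcw p
      rw [show x * (x⁻¹ * α x) = α x by group, ← map_pow, hxp, mul_assoc, left_eq_mul] at h
      exact h
    have hfZ : ∀ (k : ℕ), ∀ z ∈ Z, z ^ p ^ k = 1 → α z = z := by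
      intro k
      induction k with
      | zero =>
        intro z _ hz
        rw [pow_zero, pow_one] at hz
        rw [hz, map_one]
      | succ k ih =>
        intro z hz hzk
        exact hstep z (hZH hz) (ih _ (pow_mem hz p) (by rw [← pow_mul, ← pow_succ', hzk]))
    have hfH : ∀ x ∈ H, α x = x := fun x hx => by
      obtain ⟨k, hk⟩ := hP (x ^ p)
      exact hstep x hx (hfZ k _ hx.2.2.1 hk)
    have hfR : ∀ r ∈ R, α r = r := by
      intro r hr
      have hcz : r⁻¹ * α r ∈ Subgroup.centralizer (H : Set P) := ?_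
      refine htr r (hfH _ (hCH ⟨R.mul_mem (R.inv_mem hr) (hRG α hα r hr), hcz⟩))
      rw [Subgroup.mem_centralizer_iff]
      intro x hx
      have h1 : r * x * r⁻¹ ∈ H := hHn.conj_mem x hx r
      have h2 := hfH _ h1
      rw [map_mul, map_mul, map_inv, hfH x hx] at h2
      calc x * (r⁻¹ * α r) = r⁻¹ * (r * x * r⁻¹) * α r := by group
        _ = r⁻¹ * (α r * x * (α r)⁻¹) * α r := by rw [h2]
        _ = _ := by group
    refine MulEquiv.ext fun x => ?_
    refine htr x (hfR _ (Subgroup.subset_closure ⟨⟨α, hα⟩, Subgroup.subset_closure ?_, x, rfl⟩))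
    show Nat.Coprime (orderOf (⟨α, hα⟩ : G)) p
    rwa [Subgroup.orderOf_mk]
  refine ⟨D, fun α hα => ?_, fun d hd => hd.1.1, fun d hd => hexp d hd.2, hDP, hfaith, fun A hAD hAc hAmax => ?_⟩
  · refine le_antisymm ?_ fun x hx => ⟨α⁻¹ x, hDG _ (inv_mem hα) x hx, ?_⟩
    · rintro _ ⟨x, hx, rfl⟩
      exact hDG α hα x hx
    · show α (α⁻¹ x) = x
      simp
  have hA : A ≤ Subgroup.centralizer (A : Set P) := Subgroup.le_centralizer_iff_isMulCommutative.2 hAc
  have hadd : ∀ x ∈ D, x ∈ Subgroup.centralizer (A : Set P) → x ∈ A := by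
    intro x hx hxA
    have hB : A ⊔ Subgroup.zpowers x = A := by
      refine hAmax _ le_sup_left (sup_le hAD (Subgroup.zpowers_le.2 hx)) ?_
      rw [← Subgroup.le_centralizer_iff_isMulCommutative]
      have h2 : Subgroup.zpowers x ≤ Subgroup.centralizer (Subgroup.zpowers x : Set P) := Subgroup.le_centralizer _
      have h1 : Subgroup.zpowers x ≤ Subgroup.centralizer (A : Set P) := Subgroup.zpowers_le.2 hxA
      refine sup_le ?_ ?_
      · exact Subgroup.le_centralizer_iff.1 (sup_le hA h1)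
      · exact Subgroup.le_centralizer_iff.1 (sup_le (Subgroup.le_centralizer_iff.1 h1) h2)
    rw [← hB]
    exact (le_sup_right : _ ≤ A ⊔ Subgroup.zpowers x) (Subgroup.mem_zpowers x)
  have hAn : A.Normal := by
    refine ⟨fun a ha g => ?_⟩
    have h := hDP (Subgroup.commutator_mem_commutator (inv_mem (hAD ha)) (Subgroup.mem_top g))
    have hmem : ⁅a⁻¹, g⁆ ∈ A := hadd _ h.1 (Subgroup.centralizer_le hAD h.2)
    have := mul_mem ha hmem
    rwa [show a * ⁅a⁻¹, g⁆ = g * a * g⁻¹ by rw [commutatorElement_def]; group] at this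
  refine ⟨hAn, fun α hα hfix => ?_⟩
  obtain ⟨k, m, hm, hαk⟩ := Nat.exists_eq_pow_mul_and_not_dvd (n := orderOf α)
    (isOfFinOrder_of_finite α).orderOf_pos.ne' p hp.ne_one
  have hβ : orderOf (α ^ p ^ k) = m := by
    rw [orderOf_pow_of_dvd (pow_ne_zero k hp.ne_zero) ⟨m, hαk⟩, hαk, Nat.mul_div_cancel_left _ (pow_pos hp.pos k)]
  have hcop : (orderOf (α ^ p ^ k)).Coprime p := by
    rw [hβ]; exact ((Nat.Prime.coprime_iff_not_dvd hp).2 hm).symm
  have hβA : ∀ a ∈ A, (α ^ p ^ k) a = a := by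
    intro a ha
    generalize p ^ k = n
    induction n with
    | zero => rfl
    | succ n ih => rw [pow_succ, MulAut.mul_apply, hfix a ha, ih]
  refine ⟨k, ?_⟩
  have h1 : α ^ p ^ k = 1 := by
    set β := α ^ p ^ k with hβdef
    have hβG : β ∈ G := pow_mem hα _
    refine hfaith β hβG hcop fun d hd => ?_
    have hit : ∀ x, (β.toMonoidHom)^[orderOf β] x = x := by
      have h : ∀ (j : ℕ) (x : P), (β.toMonoidHom)^[j] x = (β ^ j) x := by
        intro j
        induction j with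
        | zero => intro x; rfl
        | succ j ih => intro x; rw [Function.iterate_succ_apply', ih, pow_succ', MulAut.mul_apply]; rfl
      intro x
      rw [h, pow_orderOf_eq_one, MulAut.one_apply]
    refine Cfsg.Lib.Transfer.fixed_of_translate hP β.toMonoidHom hcop hit (g := d) (z := d⁻¹ * β d)
      (show β d = d * (d⁻¹ * β d) by group) (hβA _ (hadd _ (mul_mem (inv_mem hd) (hDG β hβG d hd)) ?_))
    rw [Subgroup.mem_centralizer_iff]
    intro x hx
    have h2 := hβA _ (hAn.conj_mem x hx d)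
    rw [map_mul, map_mul, map_inv, hβA x hx] at h2
    calc x * (d⁻¹ * β d) = d⁻¹ * (d * x * d⁻¹) * β d := by group
      _ = d⁻¹ * (β d * x * (β d)⁻¹) * β d := by rw [h2]
      _ = _ := by group
  rw [h1, orderOf_one] at hβ
  rw [hαk, ← hβ, mul_one]

end Cfsg.Agent.S1949
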