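import Cfsg.Statements.S1952
import Mathlib
import Cfsg.Agent.Lib.PLocal.ElementaryAbelian
-- import your own Cfsg.Agent.* helpers here

set_option autoImplicit false
open Cfsg

namespace Cfsg.Agent.S1952

open Polynomial

/-- The shift on functions on `ZMod p`. -/
private def shift (p : ℕ) : (ZMod p → ZMod p) →ₗ[ZMod p] (ZMod p → ZMod p) where
  toFun v i := v (i + 1)
  map_add' _ _ := rfl
  map_smul' _ _ := rfl

private theorem shift_pow (p : ℕ) (j : ℕ) (v : ZMod p → ZMod p) (i : ZMod p) :
    ((shift p) ^ j) v i = v (i + j) := by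
  induction j generalizing i with
  | zero => simp
  | succ j ih =>
    rw [pow_succ', Module.End.mul_apply]
    change ((shift p) ^ j) v (i + 1) = _
    rw [ih]; push_cast; ring_nf

/-- A vector of nonzero sum generates the regular module. -/
private theorem generates {p : ℕ} [Fact p.Prime] (R : Submodule (ZMod p) (ZMod p → ZMod p))
    (hR : ∀ w ∈ R, shift p w ∈ R) {v : ZMod p → ZMod p} (hv : v ∈ R) (hsum : ∑ i, v i ≠ 0) : R = ⊤ := by
  classical
  have hpoly : ∀ q : (ZMod p)[X], ∀ w ∈ R, aeval (shift p) q w ∈ R := by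
    intro q
    induction q using Polynomial.induction_on' with
    | add f g hf hg => intro w hw; rw [map_add, LinearMap.add_apply]; exact add_mem (hf w hw) (hg w hw)
    | monomial n a =>
      intro w hw
      rw [aeval_monomial, Module.algebraMap_end_eq_smul_id, Module.End.mul_apply]
      refine R.smul_mem a ?_
      change ((shift p) ^ n) w ∈ R
      clear a
      induction n with
      | zero => simpa using hw
      | succ n ih => rw [pow_succ', Module.End.mul_apply]; exact hR _ ih
  set δ : ZMod p → ZMod p := Pi.single 0 1 with hδ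
  have hδi : ∀ (i : ZMod p) (n : ℕ), ((shift p) ^ n) δ i = if i = -(n : ZMod p) then 1 else 0 := by
    intro i n
    rw [shift_pow, hδ, Pi.single_apply]
    simp only [← eq_neg_iff_add_eq_zero]
  set Q : (ZMod p)[X] := ∑ i : ZMod p, C (v i) * X ^ (-i).val with hQ
  have hv' : aeval (shift p) Q δ = v := by
    funext k
    rw [hQ, map_sum, LinearMap.sum_apply, Finset.sum_apply, Finset.sum_eq_single k]
    · rw [map_mul, aeval_C, map_pow, aeval_X, Module.algebraMap_end_eq_smul_id, Module.End.mul_apply]
      change v k • (((shift p) ^ (-k).val) δ k) = v k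
      rw [hδi, ZMod.natCast_zmod_val, neg_neg, if_pos rfl, smul_eq_mul, mul_one]
    · intro i _ hi
      rw [map_mul, aeval_C, map_pow, aeval_X, Module.algebraMap_end_eq_smul_id, Module.End.mul_apply]
      change v i • (((shift p) ^ (-i).val) δ k) = 0
      rw [hδi, ZMod.natCast_zmod_val, neg_neg, if_neg (Ne.symm hi), smul_zero]
    · intro h; exact absurd (Finset.mem_univ k) h
  have hS : (shift p) ^ p = 1 := by
    refine LinearMap.ext fun w => funext fun i => ?_
    rw [shift_pow, ZMod.natCast_self, add_zero]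
    rfl
  set c : ZMod p := ∑ i, v i with hc
  have hQp : aeval (shift p) (Q ^ p) = c • (1 : Module.End (ZMod p) (ZMod p → ZMod p)) := by
    have he : Polynomial.eval 1 Q = c := by
      rw [hQ, eval_finsetSum, hc]
      exact Finset.sum_congr rfl fun i _ => by simp
    rw [← ZMod.expand_card, expand_aeval, hS]
    rw [show (1 : Module.End (ZMod p) (ZMod p → ZMod p)) = algebraMap (ZMod p) _ 1 from (map_one _).symm,
      aeval_algebraMap_apply]
    rw [coe_aeval_eq_eval, he, map_one]
    exact Algebra.algebraMap_eq_smul_one c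
  have hδR : δ ∈ R := by
    have h1 : aeval (shift p) (Q ^ (p - 1)) v = c • δ := by
      conv_lhs => rw [← hv', ← Module.End.mul_apply, ← map_mul, ← pow_succ,
        Nat.sub_add_cancel (Fact.out : p.Prime).pos, hQp]
      rfl
    have h2 := R.smul_mem c⁻¹ (hpoly (Q ^ (p - 1)) v hv)
    rwa [h1, smul_smul, inv_mul_cancel₀ hsum, one_smul] at h2
  refine eq_top_iff.2 fun w _ => ?_
  have hw : w = ∑ i : ZMod p, w i • ((shift p) ^ (-i).val) δ := by
    funext k
    rw [Finset.sum_apply, Finset.sum_eq_single k]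
    · rw [Pi.smul_apply, hδi, ZMod.natCast_zmod_val, neg_neg, if_pos rfl, smul_eq_mul, mul_one]
    · intro i _ hi
      rw [Pi.smul_apply, hδi, ZMod.natCast_zmod_val, neg_neg, if_neg (Ne.symm hi), smul_zero]
    · intro h; exact absurd (Finset.mem_univ k) h
  rw [hw]
  refine sum_mem fun i _ => R.smul_mem _ ?_
  have := hpoly (X ^ (-i).val) δ hδR
  rwa [map_pow, aeval_X] at this

private theorem exists_hom_module {M : Type*} [AddCommGroup M] {p : ℕ} [Fact p.Prime] [Module (ZMod p) M]
    {t : M} (ht : t ≠ 0) : ∃ l : M →+ ZMod p, l t ≠ 0 := by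
  by_contra hc
  push Not at hc
  exact ht ((Module.forall_dual_apply_eq_zero_iff (ZMod p) t).1 fun l => hc l.toAddMonoidHom)

private theorem exists_hom {M : Type*} [AddCommGroup M] {p : ℕ} [Fact p.Prime] (h : ∀ a : M, p • a = 0)
    {t : M} (ht : t ≠ 0) : ∃ l : M →+ ZMod p, l t ≠ 0 :=
  @exists_hom_module M _ p _ (AddCommGroup.zmodModule h) t ht

private theorem main {P : Type*} [Group P] [Finite P] {p : ℕ} [hp : Fact p.Prime] (hP : IsPGroup p P)
    (A : Subgroup P) [hAn : A.Normal] (hA : Cfsg.IsElementaryAbelian p A) (hidx : A.index = p) (x y : P)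
    (hx : x ∈ A) (_hy : y ∉ A) (hprod : ((List.range p).map (fun i => (y ^ i)⁻¹ * x * y ^ i)).prod ≠ 1) :
    ∃ (Q : Sylow p (Equiv.Perm (Fin (p ^ 2)))) (f : P →* ↥(Q : Subgroup (Equiv.Perm (Fin (p ^ 2))))), Function.Surjective f := by
  classical
  letI : CommGroup ↥A := { (inferInstance : Group ↥A) with mul_comm := hA.1.is_comm.comm }
  have hnp : ∀ a : Additive ↥A, p • a = 0 := fun a => by
    change Additive.ofMul ((Additive.toMul a) ^ p) = 0
    rw [show (Additive.toMul a) ^ p = 1 from Subtype.ext (hA.2 _ (Additive.toMul a).2)]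
    rfl
  have hyp : y ^ p ∈ A := by
    have h : (y : P ⧸ A) ^ p = 1 := by
      have hc : Nat.card (P ⧸ A) = p := by rw [← hidx]; rfl
      exact hc ▸ pow_card_eq_one'
    rw [← QuotientGroup.mk_pow] at h
    exact (QuotientGroup.eq_one_iff _).1 h
  -- the conjugates
  let cj : ℕ → ↥A → ↥A := fun i a => ⟨(y ^ i)⁻¹ * a * y ^ i, by
    simpa using hAn.conj_mem a a.2 (y ^ i)⁻¹⟩
  have hcj0 : ∀ a, cj 0 a = a := fun a => Subtype.ext (by simp [cj])
  have hcjp : ∀ a, cj p a = a := fun a => Subtype.ext (by
    change (y ^ p)⁻¹ * (a : P) * y ^ p = a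
    rw [mul_assoc, Cfsg.Lib.PLocal.elem_comm hA a.2 hyp, ← mul_assoc, inv_mul_cancel, one_mul])
  have hcjcomp : ∀ i j a, cj i (cj j a) = cj (j + i) a := fun i j a => Subtype.ext (by
    simp [cj, pow_add, mul_assoc])
  have hcjmul : ∀ i a b, cj i (a * b) = cj i a * cj i b := fun i a b => Subtype.ext (by
    simp [cj, mul_assoc])
  have hcjmod : ∀ n a, cj n a = cj (n % p) a := by
    intro n a
    induction n using Nat.strong_induction_on with
    | _ n ih =>
      rcases Nat.lt_or_ge n p with h | h
      · rw [Nat.mod_eq_of_lt h]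
      · rw [Nat.mod_eq_sub_mod h, ← ih (n - p) (by have := hp.out.pos; omega)]
        conv_lhs => rw [show n = (n - p) + p by omega, ← hcjcomp, hcjp]
  set t : ↥A := ∏ i ∈ Finset.range p, cj i ⟨x, hx⟩ with ht
  have ht1 : t ≠ 1 := by
    intro h
    apply hprod
    have h' := congrArg Subtype.val h
    have h2 : (t : P) = ((List.range p).map (fun i => (y ^ i)⁻¹ * x * y ^ i)).prod := by
      rw [ht, Finset.prod_eq_multiset_prod, Finset.range_val, Multiset.range, Multiset.map_coe,
        Multiset.prod_coe]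
      rw [show ((((List.range p).map fun i => cj i ⟨x, hx⟩).prod : ↥A) : P) =
        A.subtype ((List.range p).map fun i => cj i ⟨x, hx⟩).prod from rfl, map_list_prod, List.map_map]
      rfl
    rw [← h2]; exact h'
  obtain ⟨l, hl⟩ := exists_hom hnp (t := Additive.ofMul t) fun h => ht1 (Additive.ofMul.injective h)
  let Φ : Additive ↥A →+ (ZMod p → ZMod p) :=
    (AddMonoidHom.mk' (fun a i => l (Additive.ofMul (cj i.val (Additive.toMul a)))) fun a b => by
      funext i
      change l (Additive.ofMul (cj i.val (Additive.toMul a * Additive.toMul b))) = _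
      rw [hcjmul, ofMul_mul, map_add]; rfl)
  have hΦ : ∀ (a : ↥A) (i : ZMod p), Φ (Additive.ofMul a) i = l (Additive.ofMul (cj i.val a)) := fun a i => rfl
  have hΦtop : AddSubgroup.toZModSubmodule p Φ.range = ⊤ := by
    refine generates _ ?_ ⟨Additive.ofMul ⟨x, hx⟩, rfl⟩ ?_
    · rintro _ ⟨a, rfl⟩
      refine ⟨Additive.ofMul (cj 1 (Additive.toMul a)), funext fun i => ?_⟩
      change l (Additive.ofMul (cj i.val (cj 1 (Additive.toMul a)))) =
        l (Additive.ofMul (cj (i + 1).val (Additive.toMul a)))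
      rw [hcjcomp, hcjmod (1 + i.val), ZMod.val_add, ZMod.val_one, add_comm i.val 1]
    · intro h
      apply hl
      rw [ht, ofMul_prod, map_sum, ← h]
      simp only [hΦ]
      refine Finset.sum_bij' (fun i _ => (i : ZMod p)) (fun i _ => i.val) (fun i _ => Finset.mem_univ _)
        (fun i _ => Finset.mem_range.2 (ZMod.val_lt i)) (fun i hi => ZMod.val_cast_of_lt (Finset.mem_range.1 hi))
        (fun i _ => ZMod.natCast_zmod_val i) fun i hi => ?_
      rw [ZMod.val_cast_of_lt (Finset.mem_range.1 hi)]
  have hΦs : Function.Surjective Φ := fun w => (hΦtop.ge Submodule.mem_top : w ∈ AddSubgroup.toZModSubmodule p Φ.range)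
  let ψ : ↥A →* Multiplicative (ZMod p → ZMod p) := AddMonoidHom.toMultiplicativeRight Φ
  have hψs : Function.Surjective ψ := fun w => by
    obtain ⟨a, ha⟩ := hΦs (Multiplicative.toAdd w)
    exact ⟨Additive.toMul a, congrArg Multiplicative.ofAdd ha⟩
  let χ : ↥A →* Multiplicative (ZMod p) := AddMonoidHom.toMultiplicativeRight l
  have hχs : Function.Surjective χ := fun w => by
    obtain ⟨a, ha⟩ : ∃ a, l a = Multiplicative.toAdd w :=
      ⟨(Multiplicative.toAdd w / l (Additive.ofMul t)).val • Additive.ofMul t, by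
        rw [map_nsmul, nsmul_eq_mul, ZMod.natCast_zmod_val, div_mul_cancel₀ _ hl]⟩
    exact ⟨Additive.toMul a, congrArg Multiplicative.ofAdd ha⟩
  set U := χ.ker.map A.subtype with hU
  have hUidx : U.index = p ^ 2 := by
    rw [hU, Subgroup.index_map_subtype, hidx, Subgroup.index_ker, MonoidHom.range_eq_top.2 hχs,
      Subgroup.card_top, Nat.card_congr Multiplicative.toAdd, Nat.card_zmod, pow_two]
  let e : P ⧸ U ≃ Fin (p ^ 2) := Finite.equivFinOfCardEq hUidx
  let f : P →* Equiv.Perm (Fin (p ^ 2)) :=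
    (Equiv.permCongrHom e).toMonoidHom.comp (MulAction.toPermHom P (P ⧸ U))
  have hker : f.ker ≤ ψ.ker.map A.subtype := by
    intro g hg
    have hg' : g ∈ U.normalCore := by
      rw [Subgroup.normalCore_eq_ker, MonoidHom.mem_ker]
      refine (Equiv.permCongrHom e).injective ?_
      rw [map_one]; exact hg
    have hgA : g ∈ A := Subgroup.map_subtype_le _ (Subgroup.normalCore_le U hg')
    refine ⟨⟨g, hgA⟩, ?_, rfl⟩
    refine congrArg Multiplicative.ofAdd (funext fun i => ?_)
    have hi : (y ^ i.val)⁻¹ * g * y ^ i.val ∈ U := by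
      refine Subgroup.normalCore_le U ?_
      simpa using (Subgroup.normalCore_normal U).conj_mem g hg' (y ^ i.val)⁻¹
    obtain ⟨a, ha, hae⟩ := hi
    have hae' : a = cj i.val ⟨g, hgA⟩ := Subtype.ext hae
    rw [hae'] at ha
    exact congrArg Multiplicative.toAdd ha
  have hfp : IsPGroup p f.range := hP.of_surjective f.rangeRestrict f.rangeRestrict_surjective
  obtain ⟨Q, hQ⟩ := hfp.exists_le_sylow
  refine ⟨Q, f.codRestrict _ fun g => hQ ⟨g, rfl⟩, ?_⟩
  suffices hle : (Q : Subgroup _) ≤ f.range by
    rintro ⟨q, hq⟩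
    obtain ⟨g, hg⟩ := hle hq
    exact ⟨g, Subtype.ext hg⟩
  refine (Subgroup.eq_of_le_of_card_ge hQ ?_).ge
  have hQc : Nat.card (Q : Subgroup (Equiv.Perm (Fin (p ^ 2)))) = p ^ (p + 1) := by
    rw [Q.card_eq_multiplicity, Nat.card_perm, Nat.card_fin, Nat.factorization_def _ hp.out]
    congr 1
    rw [pow_two, padicValNat_factorial_mul]
    conv_lhs => rw [show p.factorial = (p * 1).factorial by rw [mul_one]]
    rw [padicValNat_factorial_mul, Nat.factorial_one, padicValNat.one]
    omega
  have h1 := f.ker.card_mul_index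
  rw [Subgroup.index_ker] at h1
  have h2 := Subgroup.card_le_of_le hker
  rw [Subgroup.card_map_of_injective A.subtype_injective] at h2
  have h3 := ψ.ker.card_mul_index
  rw [Subgroup.index_ker, MonoidHom.range_eq_top.2 hψs, Subgroup.card_top,
    Nat.card_congr Multiplicative.toAdd, Nat.card_fun, Nat.card_zmod] at h3
  have h4 := A.card_mul_index
  rw [hidx, ← h3, ← h1, mul_assoc, ← pow_succ] at h4
  rw [hQc]
  have h5 : 0 < Nat.card ↥f.ker := Nat.card_pos
  by_contra hc
  push Not at hc
  have h6 := Nat.mul_lt_mul_of_le_of_lt h2 hc Nat.card_pos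
  omega


/-- Let P be a finite p-group with a normal elementary abelian subgroup A of index p, and let x ∈ A and y ∈ P with y outside A. If the product of the p conjugates y^(-i) x y^i (i = 0, …, p−1) is not the identity, then the wreath product Z_p ≀ Z_p, realised as a Sylow p-subgroup of the symmetric group of degree p², is a homomorphic image of P. -/
theorem result {P : Type*} [Group P] [Finite P] {p : ℕ} [Fact p.Prime] (hP : IsPGroup p P) (A : Subgroup P) [A.Normal]
    (hA : Cfsg.IsElementaryAbelian p A) (hidx : A.index = p) (x y : P) (hx : x ∈ A) (hy : y ∉ A)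
    (hprod : ((List.range p).map (fun i => (y ^ i)⁻¹ * x * y ^ i)).prod ≠ 1) :
    ∃ (Q : Sylow p (Equiv.Perm (Fin (p ^ 2)))) (f : P →* ↥(Q : Subgroup (Equiv.Perm (Fin (p ^ 2))))), Function.Surjective f := by
  exact main hP A hA hidx x y hx hy hprod

end Cfsg.Agent.S1952
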