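import Cfsg.Statements.S1954
import Cfsg.Agent.Lib.PLocal.FamilyInd

set_option autoImplicit false
open Cfsg
open scoped commutatorElement Pointwise Classical

namespace Cfsg.Agent.S1954

/-- Agreement with an element of `M`. -/
theorem isReal_agree {G : Type*} [Group G] (S : Set G) (M : Subgroup G) :
    Cfsg.Lib.PLocal.Climb.IsReal S (fun B g => ∃ m ∈ M, ∀ b ∈ B, g⁻¹ * b * g = m⁻¹ * b * m) where
  one := fun _ => ⟨1, M.one_mem, fun _ _ => rfl⟩
  mul := by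
    rintro B x y - - ⟨a, ha, hae⟩ ⟨b, hb, hbe⟩
    refine ⟨a * b, M.mul_mem ha hb, fun c hc => ?_⟩
    calc (x * y)⁻¹ * c * (x * y) = y⁻¹ * (x⁻¹ * c * x) * y := by group
      _ = b⁻¹ * (x⁻¹ * c * x) * b := hbe _ ⟨c, hc, rfl⟩
      _ = b⁻¹ * (a⁻¹ * c * a) * b := by rw [hae c hc]
      _ = _ := by group
  mono := fun hBB ⟨a, ha, hae⟩ => ⟨a, ha, fun b hb => hae b (hBB hb)⟩
  inv := by
    rintro B x - - ⟨a, ha, hae⟩
    refine ⟨a⁻¹, M.inv_mem ha, ?_⟩
    rintro _ ⟨b, hb, rfl⟩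
    calc x⁻¹⁻¹ * (x⁻¹ * b * x) * x⁻¹ = a⁻¹⁻¹ * (a⁻¹ * b * a) * a⁻¹ := by group
      _ = a⁻¹⁻¹ * (x⁻¹ * b * x) * a⁻¹ := by rw [hae b hb]

open Cfsg.Lib.PLocal.Climb Cfsg.Lib.PLocal.FamilyInd in
/-- Elements stabilizing the series `1 ≤ T ∩ N ≤ T` act as elements of the Sylow subgroup. -/
theorem stab_agree {G : Type*} [Group G] [Finite G] {p : ℕ} [Fact p.Prime] (S : Sylow p G) {T C1 : Subgroup G}
    (hTS : T ≤ (S : Subgroup G)) (hT : Fully p (S : Subgroup G) T) (hC1 : C1 ≤ Subgroup.normalizer (T : Set G))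
    (hconj : ∀ z ∈ Subgroup.normalizer (T : Set G), ∀ c ∈ C1, z⁻¹ * c * z ∈ C1)
    (hcomm : ∀ c ∈ C1, ∀ t ∈ T, ⁅t⁻¹, c⁻¹⁆ * c = c * ⁅t⁻¹, c⁻¹⁆)
    {c : G} (hc : c ∈ C1) : ∃ s ∈ (S : Subgroup G), ∀ t ∈ T, c⁻¹ * t * c = s⁻¹ * t * s := by
  set CT := Subgroup.centralizer (T : Set G) ⊓ C1 with hCT
  set X := (S : Subgroup G) ⊓ C1 with hX
  have hXn : X ≤ Subgroup.normalizer (CT : Set G) := by
    intro x hx
    rw [← inv_inv x]
    refine Subgroup.inv_mem _ (Cfsg.Lib.PLocal.mem_normalizer_of_conj_le fun v hv => ?_)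
    rw [inv_inv]
    refine ⟨Subgroup.mem_centralizer_iff.2 fun t ht => ?_, hconj x (hC1 hx.2) v hv.2⟩
    have h1 := Subgroup.mem_centralizer_iff.1 hv.1 (x * t * x⁻¹) ((Subgroup.mem_normalizer_iff.1 (hC1 hx.2) t).1 ht)
    calc t * (x⁻¹ * v * x) = x⁻¹ * (x * t * x⁻¹ * v) * x := by group
      _ = x⁻¹ * (v * (x * t * x⁻¹)) * x := by rw [h1]
      _ = _ := by group
  have hle : C1 ≤ X ⊔ CT := by
    refine Subgroup.relIndex_eq_one.1 (Nat.eq_one_iff_not_exists_prime_dvd.2 fun r hr hrd => ?_)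
    by_cases hrp : r = p
    · subst hrp
      exact inf_index_of_fully S hT hC1 hconj (hrd.trans (Subgroup.relIndex_dvd_of_le_left C1 le_sup_left))
    · haveI := Fact.mk hr
      obtain ⟨R0⟩ := (inferInstance : Nonempty (Sylow r C1))
      refine R0.not_dvd_index (hrd.trans (Subgroup.index_dvd_of_le fun v hv => ?_))
      obtain ⟨k, hk⟩ := R0.isPGroup' ⟨v, hv⟩
      have hk' : (v : G) ^ r ^ k = 1 := congrArg (fun w : (R0 : Subgroup C1) => ((w : C1) : G)) hk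
      refine Subgroup.mem_sup_right ⟨Subgroup.mem_centralizer_iff.2 fun t ht => ?_, v.2⟩
      set z := ⁅t⁻¹, (v : G)⁻¹⁆ with hz
      have hze : z = t⁻¹ * ((v : G)⁻¹ * t * v) := by simp [hz, commutatorElement_def, mul_assoc]
      have hzT : z ∈ T := by
        rw [hze]
        exact T.mul_mem (T.inv_mem ht) ((Subgroup.mem_normalizer_iff''.1 (hC1 v.2) t).1 ht)
      have hvz : Commute (v : G) z := (hcomm v v.2 t ht).symm
      have hit : ∀ m : ℕ, ((v : G) ^ m)⁻¹ * t * (v : G) ^ m = t * z ^ m := by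
        intro m
        induction m with
        | zero => simp
        | succ m ih =>
          calc ((v : G) ^ (m + 1))⁻¹ * t * (v : G) ^ (m + 1)
              = (v : G)⁻¹ * (((v : G) ^ m)⁻¹ * t * (v : G) ^ m) * v := by rw [pow_succ]; group
            _ = ((v : G)⁻¹ * t * v) * ((v : G)⁻¹ * z ^ m * v) := by rw [ih]; group
            _ = t * z * z ^ m := by
              rw [mul_assoc (v : G)⁻¹ (z ^ m) v, ← (hvz.pow_right m).eq, inv_mul_cancel_left, hze]; group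
            _ = _ := by rw [mul_assoc, ← pow_succ']
      have h1 := hit (r ^ k)
      rw [hk'] at h1
      obtain ⟨j, hj⟩ := (S.isPGroup'.to_le hTS) ⟨z, hzT⟩
      have h4 : z = 1 := orderOf_eq_one_iff.1 (Nat.eq_one_of_dvd_coprimes
        (((Nat.coprime_primes hr Fact.out).2 hrp).pow k j)
        (orderOf_dvd_of_pow_eq_one (by simpa using h1.symm))
        (orderOf_dvd_of_pow_eq_one (congrArg Subtype.val hj)))
      rw [hze, inv_mul_eq_one] at h4
      calc t * (v : G) = v * ((v : G)⁻¹ * t * v) := by group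
        _ = v * t := by rw [← h4]
  have h1 := hle hc
  rw [← SetLike.mem_coe, Subgroup.coe_mul_of_left_le_normalizer_right _ _ hXn] at h1
  obtain ⟨s, hs, d, hd, rfl⟩ := h1
  refine ⟨s, hs.1, fun t ht => ?_⟩
  have h3 : s⁻¹ * t * s ∈ T := (Subgroup.mem_normalizer_iff''.1 (hC1 hs.2) t).1 ht
  calc (s * d)⁻¹ * t * (s * d) = d⁻¹ * ((s⁻¹ * t * s) * d) := by group
    _ = d⁻¹ * (d * (s⁻¹ * t * s)) := by rw [Subgroup.mem_centralizer_iff.1 hd.1 _ h3]
    _ = _ := by group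

/-- Let N be a normal subgroup of the finite group G, P a Sylow p-subgroup of G, and V a subgroup of P ∩ N normal in P ∩ N such that N_N(V) controls strong fusion in P ∩ N with respect to N (whenever a subgroup A of P ∩ N has n A n⁻¹ ≤ P ∩ N for some n in N, then n = h c with h in N_N(V) and c in C_N(A)). Let W be the subgroup generated by the conjugates of V under N_G(P ∩ N). Then N_G(W) controls strong fusion in P with respect to G. -/
theorem result {G : Type*} [Group G] [Finite G] {p : ℕ} [Fact p.Prime] (N : Subgroup G) [N.Normal] (P : Sylow p G) (V : Subgroup G)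
    (hV : V ≤ (P : Subgroup G) ⊓ N) (hVn : ∀ x ∈ (P : Subgroup G) ⊓ N, V.map (MulAut.conj x).toMonoidHom = V)
    (hctrl : ∀ A : Subgroup G, A ≤ (P : Subgroup G) ⊓ N → ∀ n ∈ N, A.map (MulAut.conj n).toMonoidHom ≤ (P : Subgroup G) ⊓ N →
      ∃ h ∈ N ⊓ Subgroup.normalizer (V : Set G), ∃ c ∈ N ⊓ Subgroup.centralizer (A : Set G), n = h * c)
    (W : Subgroup G) (hW : W = Subgroup.closure (⋃ x ∈ Subgroup.normalizer (((P : Subgroup G) ⊓ N : Subgroup G) : Set G),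
      ((V.map (MulAut.conj x).toMonoidHom : Subgroup G) : Set G))) :
    ∀ A : Subgroup G, A ≤ (P : Subgroup G) → ∀ g : G, A.map (MulAut.conj g).toMonoidHom ≤ (P : Subgroup G) →
        ∃ h ∈ Subgroup.normalizer (W : Set G), ∃ c ∈ Subgroup.centralizer (A : Set G), g = h * c := by
  classical
  set Q := (P : Subgroup G) ⊓ N with hQ
  set NQ := Subgroup.normalizer ((Q : Subgroup G) : Set G) with hNQ
  have hPNQ : (P : Subgroup G) ≤ NQ := fun x hx => Cfsg.Lib.PLocal.mem_normalizer_of_conj_le fun q hq =>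
    ⟨(P : Subgroup G).mul_mem ((P : Subgroup G).mul_mem hx hq.1) ((P : Subgroup G).inv_mem hx),
      (inferInstance : N.Normal).conj_mem q hq.2 x⟩
  have hVQ : ∀ x ∈ NQ, V.map (MulAut.conj x).toMonoidHom ≤ Q := by
    rintro x hx _ ⟨v, hv, rfl⟩
    exact (Subgroup.mem_normalizer_iff.1 hx v).1 (hV hv)
  -- every conjugate controls
  have hone : ∀ x ∈ NQ, ∀ A : Subgroup G, A ≤ Q → ∀ n ∈ N, (∀ a ∈ A, n * a * n⁻¹ ∈ Q) →
      ∃ h ∈ N, h ∈ Subgroup.normalizer ((V.map (MulAut.conj x).toMonoidHom : Subgroup G) : Set G) ∧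
        ∀ a ∈ A, n * a * n⁻¹ = h * a * h⁻¹ := by
    intro x hx A hA n hn hnA
    obtain ⟨h, hh, c, hc, he⟩ := hctrl (A.map (MulAut.conj x⁻¹).toMonoidHom) (by
        rintro _ ⟨a, ha, rfl⟩
        exact (Subgroup.mem_normalizer_iff.1 (NQ.inv_mem hx) a).1 (hA ha))
      (x⁻¹ * n * x) (by simpa using (inferInstance : N.Normal).conj_mem n hn x⁻¹) (by
        rintro _ ⟨_, ⟨a, ha, rfl⟩, rfl⟩
        show x⁻¹ * n * x * (x⁻¹ * a * x⁻¹⁻¹) * (x⁻¹ * n * x)⁻¹ ∈ Q
        have := (Subgroup.mem_normalizer_iff.1 (NQ.inv_mem hx) _).1 (hnA a ha)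
        simpa [mul_assoc] using this)
    refine ⟨x * h * x⁻¹, (inferInstance : N.Normal).conj_mem h hh.1 x,
      Cfsg.Lib.PLocal.mem_normalizer_of_conj_le ?_, fun a ha => ?_⟩
    · rintro _ ⟨v, hv, rfl⟩
      exact ⟨h * v * h⁻¹, (Subgroup.mem_normalizer_iff.1 hh.2 v).1 hv, by simp [mul_assoc]⟩
    · have h1 : (x⁻¹ * a * x) * c = c * (x⁻¹ * a * x) :=
        Subgroup.mem_centralizer_iff.1 hc.2 _ ⟨a, ha, by simp⟩
      calc n * a * n⁻¹ = x * ((x⁻¹ * n * x) * (x⁻¹ * a * x) * (x⁻¹ * n * x)⁻¹) * x⁻¹ := by group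
        _ = x * (h * (c * (x⁻¹ * a * x)) * c⁻¹ * h⁻¹) * x⁻¹ := by rw [he]; group
        _ = x * (h * ((x⁻¹ * a * x) * c) * c⁻¹ * h⁻¹) * x⁻¹ := by rw [h1]
        _ = _ := by group
  -- all conjugates together
  set 𝒱 := {U : Subgroup G | ∃ x ∈ NQ, U = V.map (MulAut.conj x).toMonoidHom} with h𝒱
  have hall : ∀ F : Finset (Subgroup G), (∀ U ∈ F, U ∈ 𝒱) → ∀ A : Subgroup G, A ≤ Q → ∀ n ∈ N,
      (∀ a ∈ A, n * a * n⁻¹ ∈ Q) → ∃ h ∈ N, (∀ U ∈ F, h ∈ Subgroup.normalizer (U : Set G)) ∧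
        ∀ a ∈ A, n * a * n⁻¹ = h * a * h⁻¹ := by
    intro F
    induction F using Finset.induction with
    | empty => intro _ A _ n hn _; exact ⟨n, hn, by simp, fun a _ => rfl⟩
    | @insert U F hU ih =>
      intro hF A hA n hn hnA
      obtain ⟨x, hx, rfl⟩ := hF U (Finset.mem_insert_self _ _)
      set U := V.map (MulAut.conj x).toMonoidHom with hUdef
      obtain ⟨h1, h1N, h1U, h1e⟩ := hone x hx A hA n hn hnA
      have hAU : A ⊔ U ≤ Q := sup_le hA (hVQ x hx)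
      obtain ⟨h2, h2N, h2F, h2e⟩ := ih (fun U' hU' => hF U' (Finset.mem_insert_of_mem hU')) (A ⊔ U) hAU h1 h1N (by
        intro a ha
        have h3 : A ⊔ U ≤ Q.comap (MulAut.conj h1).toMonoidHom := sup_le
          (fun a ha => by
            show h1 * a * h1⁻¹ ∈ Q
            rw [← h1e a ha]; exact hnA a ha)
          (fun u hu => hVQ x hx ((Subgroup.mem_normalizer_iff.1 h1U u).1 hu))
        exact h3 ha)
      refine ⟨h2, h2N, fun U' hU' => ?_, fun a ha => (h1e a ha).trans (h2e a (Subgroup.mem_sup_left ha))⟩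
      rcases Finset.mem_insert.1 hU' with rfl | hU'
      · refine Cfsg.Lib.PLocal.mem_normalizer_of_conj_le fun u hu => ?_
        rw [← h2e u (Subgroup.mem_sup_right hu)]
        exact (Subgroup.mem_normalizer_iff.1 h1U u).1 hu
      · exact h2F U' hU'
  set M := Subgroup.normalizer (W : Set G) with hM
  have hWgen : ∀ h : G, (∀ x ∈ NQ, ∀ v ∈ V, h * (x * v * x⁻¹) * h⁻¹ ∈ W) → h ∈ M := by
    intro h hh
    refine Cfsg.Lib.PLocal.mem_normalizer_of_conj_le fun w hw => ?_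
    have hle : W ≤ W.comap (MulAut.conj h).toMonoidHom := by
      nth_rewrite 1 [hW]
      rw [Subgroup.closure_le]
      intro u hu
      simp only [Set.mem_iUnion] at hu
      obtain ⟨x, hx, v, hv, rfl⟩ := hu
      exact hh x hx v hv
    exact hle hw
  have hmemW : ∀ x ∈ NQ, ∀ v ∈ V, x * v * x⁻¹ ∈ W := fun x hx v hv => by
    rw [hW]
    exact Subgroup.subset_closure (Set.mem_iUnion₂.2 ⟨x, hx, v, hv, rfl⟩)
  have hNQM : NQ ≤ M := fun h hh => hWgen h fun x hx v hv => by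
    rw [show h * (x * v * x⁻¹) * h⁻¹ = (h * x) * v * (h * x)⁻¹ by group]
    exact hmemW _ (NQ.mul_mem hh hx) v hv
  have hPM : (P : Subgroup G) ≤ M := hPNQ.trans hNQM
  have hNctrl : ∀ A : Subgroup G, A ≤ Q → ∀ n ∈ N, (∀ a ∈ A, n * a * n⁻¹ ∈ Q) →
      ∃ h ∈ N, h ∈ M ∧ ∀ a ∈ A, n * a * n⁻¹ = h * a * h⁻¹ := by
    intro A hA n hn hnA
    obtain ⟨h, hh, hhU, he⟩ := hall (Set.toFinite 𝒱).toFinset (fun U hU => (Set.toFinite 𝒱).mem_toFinset.1 hU)
      A hA n hn hnA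
    refine ⟨h, hh, hWgen h fun x hx v hv => ?_, he⟩
    obtain ⟨v', hv', hv'e⟩ := (Subgroup.mem_normalizer_iff.1
      (hhU _ ((Set.toFinite 𝒱).mem_toFinset.2 ⟨x, hx, rfl⟩)) (x * v * x⁻¹)).1 ⟨v, hv, rfl⟩
    rw [← hv'e]
    exact hmemW x hx v' hv'
  have hR := isReal_agree ((P : Subgroup G) : Set G) M
  have hall' : ∀ {B : Set G} {g : G}, B ⊆ ((P : Subgroup G) : Set G) →
      Cfsg.Lib.Transfer.conjR g B ⊆ ((P : Subgroup G) : Set G) → ∃ m ∈ M, ∀ b ∈ B, g⁻¹ * b * g = m⁻¹ * b * m := by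
    intro B g hB hg
    refine Cfsg.Lib.PLocal.Climb.global P (R := fun B g => ∃ m ∈ M, ∀ b ∈ B, g⁻¹ * b * g = m⁻¹ * b * m)
      (Good := Cfsg.Lib.PLocal.Climb.Fully p (P : Subgroup G)) hR
      (fun U _ => Cfsg.Lib.PLocal.Climb.move_fully P U) ?_ ?_ (fun k hbig T hT hTP _ hk _ y hy => ?_) hB hg
    · intro y hy
      refine ⟨y, hNQM (Cfsg.Lib.PLocal.mem_normalizer_of_conj_le fun q hq =>
        ⟨(Subgroup.mem_normalizer_iff.1 hy q).1 hq.1, (inferInstance : N.Normal).conj_mem q hq.2 y⟩), fun _ _ => rfl⟩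
    · intro B hB y
      exact ⟨1, M.one_mem, fun b hb => by rw [Set.mem_singleton_iff.1 (hB hb)]; group⟩
    set NT := Subgroup.normalizer (T : Set G) with hNT
    set T0 := T ⊓ N with hT0
    have hT0Q : T0 ≤ Q := le_inf (inf_le_left.trans hTP) inf_le_right
    have hNTT0 : ∀ z ∈ NT, ∀ t ∈ T0, z * t * z⁻¹ ∈ T0 := fun z hz t ht =>
      ⟨(Subgroup.mem_normalizer_iff.1 hz t).1 ht.1, (inferInstance : N.Normal).conj_mem t ht.2 z⟩
    -- a normal subgroup of `N(T)` leads to a larger set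
    have hgrow : ∀ D : Subgroup G, D ≤ NT → (∀ z ∈ NT, ∀ c ∈ D, z⁻¹ * c * z ∈ D) → ¬ (P : Subgroup G) ⊓ D ≤ T →
        (∀ c ∈ D, ∃ m ∈ M, ∀ b ∈ (T : Set G), c⁻¹ * b * c = m⁻¹ * b * m) →
        ∃ m ∈ M, ∀ b ∈ (T : Set G), y⁻¹ * b * y = m⁻¹ * b * m := by
      intro D hDN hconj hne hD
      set X := (P : Subgroup G) ⊓ D with hX
      obtain ⟨c, hc, hcsub⟩ := Cfsg.Lib.PLocal.Climb.exists_conjR_subset (H := D)
        (Q := Cfsg.Lib.PLocal.Climb.cj y X) (P := X)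
        (by
          rw [← SetLike.coe_subset_coe, Cfsg.Lib.Transfer.coe_map_conj_inv]
          rintro _ ⟨a, ha, rfl⟩
          exact hconj y hy a ha.2)
        ((P.isPGroup'.to_le inf_le_left).map _) inf_le_right (P.isPGroup'.to_le inf_le_left)
        (Cfsg.Lib.PLocal.FamilyInd.inf_index_of_fully P hT hDN hconj)
      rw [Cfsg.Lib.Transfer.coe_map_conj_inv, ← Cfsg.Lib.Transfer.conjR_mul] at hcsub
      have hzN : y * c ∈ NT := NT.mul_mem hy (hDN hc)
      have h1 : ∃ m ∈ M, ∀ b ∈ ((T : Set G) ∪ (X : Set G)), (y * c)⁻¹ * b * (y * c) = m⁻¹ * b * m := by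
        refine hbig _ (Set.union_subset (fun a ha => hTP ha) (fun a ha => ha.1)) (lt_of_le_of_lt hk
          (Set.Finite.card_lt_card (Set.toFinite _) ⟨Set.subset_union_left, fun h => hne fun z hz => h (Or.inr hz)⟩))
          _ ?_
        rintro _ ⟨a, ha | ha, rfl⟩
        · exact hTP ((Subgroup.mem_normalizer_iff''.1 hzN a).1 ha)
        · exact (hcsub ⟨a, ha, rfl⟩).1
      have hzT := Cfsg.Lib.Transfer.conjR_subgroup_of_mem_normalizer (H := T) hzN
      have h3 := hR.mul (fun a ha => hTP ha) (hzT.le.trans fun a ha => hTP ha)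
        (hR.mono Set.subset_union_left h1) (hzT.symm ▸ hD c⁻¹ (D.inv_mem hc))
      rwa [mul_inv_cancel_right] at h3
    set C1 := N ⊓ Subgroup.centralizer (T0 : Set G) ⊓ NT with hC1
    have hconj1 : ∀ z ∈ NT, ∀ c ∈ C1, z⁻¹ * c * z ∈ C1 := by
      intro z hz c hc
      refine ⟨⟨by simpa using (inferInstance : N.Normal).conj_mem c hc.1.1 z⁻¹,
        Subgroup.mem_centralizer_iff.2 fun t ht => ?_⟩, NT.mul_mem (NT.mul_mem (NT.inv_mem hz) hc.2) hz⟩
      have h1 := Subgroup.mem_centralizer_iff.1 hc.1.2 _ (hNTT0 z hz t ht)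
      calc t * (z⁻¹ * c * z) = z⁻¹ * (z * t * z⁻¹ * c) * z := by group
        _ = z⁻¹ * (c * (z * t * z⁻¹)) * z := by rw [h1]
        _ = _ := by group
    have hcomm : ∀ c ∈ C1, ∀ t ∈ T, ⁅t⁻¹, c⁻¹⁆ * c = c * ⁅t⁻¹, c⁻¹⁆ := by
      intro c hc t ht
      have h1 : ⁅t⁻¹, c⁻¹⁆ ∈ T0 := by
        constructor
        · rw [show ⁅t⁻¹, c⁻¹⁆ = t⁻¹ * (c⁻¹ * t * c) by simp [commutatorElement_def, mul_assoc]]
          exact T.mul_mem (T.inv_mem ht) ((Subgroup.mem_normalizer_iff''.1 hc.2 t).1 ht)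
        · rw [show ⁅t⁻¹, c⁻¹⁆ = (t⁻¹ * c⁻¹ * t⁻¹⁻¹) * c by simp [commutatorElement_def, mul_assoc]]
          exact N.mul_mem ((inferInstance : N.Normal).conj_mem _ (N.inv_mem hc.1.1) _) hc.1.1
      exact Subgroup.mem_centralizer_iff.1 hc.1.2 _ h1
    have hC1M : ∀ c ∈ C1, ∃ m ∈ M, ∀ b ∈ (T : Set G), c⁻¹ * b * c = m⁻¹ * b * m := fun c hc => by
      obtain ⟨s, hs, he⟩ := stab_agree P hTP hT inf_le_right hconj1 hcomm hc
      exact ⟨s, hPM hs, he⟩
    by_cases hX1 : ¬ (P : Subgroup G) ⊓ C1 ≤ T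
    · exact hgrow C1 inf_le_right hconj1 hX1 hC1M
    rw [not_not] at hX1
    by_cases hN1 : (P : Subgroup G) ⊓ (N ⊓ NT) ≤ T
    · -- `Q ≤ T`
      have hQT : Q ≤ T := by
        by_contra hne
        set D := T ⊔ Q
        have hDp : IsPGroup p D := P.isPGroup'.to_le (sup_le hTP inf_le_left)
        have hlt : T < D := lt_of_le_of_ne le_sup_left fun e => hne (e ▸ le_sup_right)
        haveI : Group.IsNilpotent D := hDp.isNilpotent
        obtain ⟨d, hd, hdT⟩ := SetLike.exists_of_lt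
          (Group.normalizerCondition_of_isNilpotent (T.subgroupOf D) (lt_top_iff_ne_top.2 fun e => hlt.ne
            (le_antisymm hlt.le (Subgroup.subgroupOf_eq_top.1 e))))
        have hdN : (d : G) ∈ NT := Cfsg.Lib.PLocal.mem_normalizer_of_conj_le fun t ht =>
          (Subgroup.mem_normalizer_iff.1 hd ⟨t, hlt.le ht⟩).1 ht
        have hd2 : (d : G) ∈ ((T ⊔ Q : Subgroup G) : Set G) := d.2
        rw [Subgroup.coe_mul_of_left_le_normalizer_right _ _ (hTP.trans hPNQ)] at hd2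
        obtain ⟨t, ht, s, hs, hts⟩ := hd2
        refine hdT ?_
        show (d : G) ∈ T
        rw [← hts]
        refine T.mul_mem ht (hN1 ⟨hs.1, hs.2, ?_⟩)
        have h5 := NT.mul_mem (NT.inv_mem (Subgroup.le_normalizer ht)) hdN
        rwa [← hts, inv_mul_cancel_left] at h5
      refine ⟨y, hNQM ?_, fun _ _ => rfl⟩
      refine Cfsg.Lib.PLocal.mem_normalizer_of_conj_le fun q hq => ?_
      have h := hNTT0 y hy q ⟨hQT hq, hq.2⟩
      exact hT0Q h
    refine hgrow (N ⊓ NT) inf_le_right (fun z hz c hc => ⟨by simpa using (inferInstance : N.Normal).conj_mem c hc.1 z⁻¹,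
      NT.mul_mem (NT.mul_mem (NT.inv_mem hz) hc.2) hz⟩) hN1 fun n hn => ?_
    -- the centric case
    set C0 := N ⊓ Subgroup.centralizer (T0 : Set G) with hC0
    have hC0n : T ≤ Subgroup.normalizer (C0 : Set G) := fun t ht =>
      Cfsg.Lib.PLocal.mem_normalizer_of_conj_le fun c hc => by
        refine ⟨(inferInstance : N.Normal).conj_mem c hc.1 t, Subgroup.mem_centralizer_iff.2 fun u hu => ?_⟩
        have h1 := Subgroup.mem_centralizer_iff.1 hc.2 _ (hNTT0 t⁻¹ (NT.inv_mem (Subgroup.le_normalizer ht)) u hu)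
        calc u * (t * c * t⁻¹) = t * (t⁻¹ * u * t⁻¹⁻¹ * c) * t⁻¹ := by group
          _ = t * (c * (t⁻¹ * u * t⁻¹⁻¹)) * t⁻¹ := by rw [h1]
          _ = _ := by group
    set H0 := T ⊔ C0 with hH0
    obtain ⟨RR, hRR⟩ := ((P.isPGroup'.to_le hTP).comap_of_injective H0.subtype H0.subtype_injective).exists_le_sylow
    set R0 := (RR : Subgroup H0).map H0.subtype with hR0
    have hTR : T ≤ R0 := fun t ht => ⟨⟨t, Subgroup.mem_sup_left ht⟩, hRR ht, rfl⟩
    have hR0T : R0 ≤ T := by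
      by_contra hne
      have hp0 : IsPGroup p R0 := RR.isPGroup'.map _
      haveI : Group.IsNilpotent R0 := hp0.isNilpotent
      have hlt : T < R0 := lt_of_le_of_ne hTR fun e => hne e.ge
      obtain ⟨d, hd, hdT⟩ := SetLike.exists_of_lt
        (Group.normalizerCondition_of_isNilpotent (T.subgroupOf R0) (lt_top_iff_ne_top.2 fun e => hlt.ne
          (le_antisymm hlt.le (Subgroup.subgroupOf_eq_top.1 e))))
      have hdN : (d : G) ∈ NT := Cfsg.Lib.PLocal.mem_normalizer_of_conj_le fun t ht =>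
        (Subgroup.mem_normalizer_iff.1 hd ⟨t, hTR ht⟩).1 ht
      have hd2 : (d : G) ∈ ((T ⊔ C0 : Subgroup G) : Set G) := Subgroup.map_subtype_le _ d.2
      rw [Subgroup.coe_mul_of_left_le_normalizer_right _ _ hC0n] at hd2
      obtain ⟨t, ht, s, hs, hts⟩ := hd2
      have hsR : s ∈ R0 := by
        have h5 := R0.mul_mem (R0.inv_mem (hTR ht)) d.2
        rwa [← hts, inv_mul_cancel_left] at h5
      have hsN : s ∈ NT := by
        have h5 := NT.mul_mem (NT.inv_mem (Subgroup.le_normalizer ht)) hdN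
        rwa [← hts, inv_mul_cancel_left] at h5
      obtain ⟨k', hk', hksub⟩ := Cfsg.Lib.PLocal.Climb.exists_conjR_subset (H := C1)
        (Q := Subgroup.zpowers s) (P := (P : Subgroup G) ⊓ C1) (Subgroup.zpowers_le.2 ⟨hs, hsN⟩)
        (hp0.to_le (Subgroup.zpowers_le.2 hsR)) inf_le_right (P.isPGroup'.to_le inf_le_left)
        (Cfsg.Lib.PLocal.FamilyInd.inf_index_of_fully P hT inf_le_right hconj1)
      have h6 := (Subgroup.mem_normalizer_iff.1 hk'.2 _).1 (hX1 (hksub ⟨s, Subgroup.mem_zpowers s, rfl⟩))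
      refine hdT ?_
      show (d : G) ∈ T
      rw [← hts]
      exact T.mul_mem ht (by simpa [mul_assoc] using h6)
    have hidx : ¬ p ∣ T.relIndex H0 := by
      rw [show T = R0 from le_antisymm hTR hR0T, Subgroup.relIndex, Subgroup.subgroupOf, hR0,
        Subgroup.comap_map_eq_self_of_injective H0.subtype_injective]
      exact RR.not_dvd_index
    -- an element of `M` with the same action on `T0`
    obtain ⟨h, hhN, hhM, hhe⟩ := hNctrl T0 hT0Q n⁻¹ (N.inv_mem hn.1) fun t ht =>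
      hT0Q (hNTT0 _ (NT.inv_mem hn.2) t ht)
    set c0 := n * h with hc0
    have hc0C : c0 ∈ C0 := by
      refine ⟨N.mul_mem hn.1 hhN, Subgroup.mem_centralizer_iff.2 fun t ht => ?_⟩
      have h1 := hhe t ht
      rw [inv_inv] at h1
      calc t * (n * h) = n * (n⁻¹ * t * n) * h := by group
        _ = n * (h * t * h⁻¹) * h := by rw [h1]
        _ = n * h * t := by group
    set H1 := H0 ⊓ M
    have hTH1 : T ≤ H1 := le_inf le_sup_left (hTP.trans hPM)
    have hsub : Cfsg.Lib.PLocal.Climb.cj c0 T ≤ H1 := by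
      rintro _ ⟨t, ht, rfl⟩
      show c0⁻¹ * t * c0⁻¹⁻¹ ∈ H1
      rw [inv_inv]
      refine ⟨H0.mul_mem (H0.mul_mem (H0.inv_mem (Subgroup.mem_sup_right hc0C)) (Subgroup.mem_sup_left ht))
        (Subgroup.mem_sup_right hc0C), ?_⟩
      rw [hc0, show (n * h)⁻¹ * t * (n * h) = h⁻¹ * (n⁻¹ * t * n) * h by group]
      exact M.mul_mem (M.mul_mem (M.inv_mem hhM) (hPM (hTP ((Subgroup.mem_normalizer_iff''.1 hn.2 t).1 ht)))) hhM
    obtain ⟨e, he, hesub⟩ := Cfsg.Lib.PLocal.Climb.exists_conjR_subset hsub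
      ((P.isPGroup'.to_le hTP).map _) hTH1 (P.isPGroup'.to_le hTP) fun hd => hidx (hd.trans
        (Dvd.intro _ (Subgroup.relIndex_mul_relIndex T H1 H0 hTH1 inf_le_left)))
    have he0 : e ∈ ((T ⊔ C0 : Subgroup G) : Set G) := he.1
    rw [Subgroup.coe_mul_of_left_le_normalizer_right _ _ hC0n] at he0
    obtain ⟨t0, ht0, c', hc', hte⟩ := he0
    set g2 := c0 * e with hg2
    rw [Cfsg.Lib.Transfer.coe_map_conj_inv, ← Cfsg.Lib.Transfer.conjR_mul] at hesub
    have hg2N : g2 ∈ NT := by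
      rw [← inv_inv g2]
      refine NT.inv_mem (Cfsg.Lib.PLocal.mem_normalizer_of_conj_le fun t ht => ?_)
      rw [inv_inv]
      exact hesub ⟨t, ht, rfl⟩
    have ht0N : t0 ∈ NT := Subgroup.le_normalizer ht0
    have hcC1 : g2 * t0⁻¹ ∈ C1 := by
      refine ⟨?_, NT.mul_mem hg2N (NT.inv_mem ht0N)⟩
      have h7 : t0 * c' * t0⁻¹ ∈ C0 := (Subgroup.mem_normalizer_iff.1 (hC0n ht0) c').1 hc'
      rw [hg2, ← hte, show c0 * (t0 * c') * t0⁻¹ = c0 * (t0 * c' * t0⁻¹) by group]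
      exact C0.mul_mem hc0C h7
    obtain ⟨m, hm, hme⟩ := hC1M _ hcC1
    refine ⟨m * (t0 * e⁻¹ * h⁻¹), M.mul_mem hm (M.mul_mem (M.mul_mem (hPM (hTP ht0)) (M.inv_mem he.2))
      (M.inv_mem hhM)), fun b hb => ?_⟩
    calc n⁻¹ * b * n
        = (t0 * e⁻¹ * h⁻¹)⁻¹ * ((g2 * t0⁻¹)⁻¹ * b * (g2 * t0⁻¹)) * (t0 * e⁻¹ * h⁻¹) := by rw [hg2, hc0]; group
      _ = (t0 * e⁻¹ * h⁻¹)⁻¹ * (m⁻¹ * b * m) * (t0 * e⁻¹ * h⁻¹) := by rw [hme b hb]
      _ = _ := by group
  intro A hA g hg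
  obtain ⟨m, hm, hme⟩ := hall' (B := (A : Set G)) (g := g⁻¹) (fun a ha => hA ha) (by
    rintro _ ⟨a, ha, rfl⟩
    exact hg ⟨a, ha, by simp⟩)
  refine ⟨m⁻¹, M.inv_mem hm, m * g, Subgroup.mem_centralizer_iff.2 fun a ha => ?_, by group⟩
  have h1 := hme a ha
  rw [inv_inv] at h1
  calc a * (m * g) = m * (m⁻¹ * a * m) * g := by group
    _ = m * (g * a * g⁻¹) * g := by rw [h1]
    _ = _ := by group

end Cfsg.Agent.S1954
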