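import Cfsg.Statements.S3246
import Mathlib
import Cfsg.Agent.Lib.PLocal.Constraint
import Cfsg.Agent.Lib.Transfer.PGroupNormal
import Cfsg.Agent.Lib.Solv.Cores
-- import your own Cfsg.Agent.* helpers here

set_option autoImplicit false
open Cfsg

namespace Cfsg.Agent.S3246

open Cfsg.Lib.PLocal Subgroup

instance : Fact (Nat.Prime 2) := ⟨Nat.prime_two⟩

variable {G : Type*} [Group G] [Finite G]

/-- Trivial odd core and self-centralizing 2-core. -/
def Good (H : Subgroup G) : Prop :=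
  pPrimeCore 2 ↥H = ⊥ ∧ SelfCentralizingCore 2 ↥H

theorem good_congr {X Y : Type*} [Group X] [Finite X] [Group Y] [Finite Y] (e : X ≃* Y)
    (h : pPrimeCore 2 X = ⊥ ∧ SelfCentralizingCore 2 X) :
    pPrimeCore 2 Y = ⊥ ∧ SelfCentralizingCore 2 Y :=
  ⟨by rw [← map_pPrimeCore_equiv e, h.1, Subgroup.map_bot], selfCentralizingCore_congr e h.2⟩

theorem good_of_constrained {H : Subgroup G} (h : Cfsg.IsPConstrained 2 ↥H ∧ Cfsg.oddCore ↥H = ⊥) :
    Good H :=
  ⟨h.2, (isPConstrained_iff_of_core_eq_bot h.2).1 h.1⟩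

theorem good_local {M : Subgroup G} (hM : Good M) {P H : Subgroup G} (hP : IsPGroup 2 P) (hPM : P ≤ M)
    (hHM : H ≤ M) (hHN : H ≤ normalizer (P : Set G)) (hCH : M ⊓ centralizer (P : Set G) ≤ H)
    (hPH : P ≤ H) : Good H := by
  refine good_congr (subgroupOfEquivOfLe hHM)
    (local_core hM.2 (P := P.subgroupOf M) (H := H.subgroupOf M)
      (hP.of_equiv (subgroupOfEquivOfLe hPM).symm) ?_ ?_ (Or.inr fun x hx => hPH hx))
  · intro h hh
    rw [mem_normalizer_iff]
    intro x
    exact mem_normalizer_iff.1 (hHN hh) (x : G)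
  · intro c hc
    refine hCH ⟨c.2, mem_centralizer_iff.2 fun a ha => ?_⟩
    exact congrArg Subtype.val (mem_centralizer_iff.1 hc (⟨a, hPM ha⟩ : M) ha)

omit [Finite G] in
theorem normalizer_zpowers_involution {t : G} (ht : orderOf t = 2) :
    normalizer ((zpowers t : Subgroup G) : Set G) = centralizer ({t} : Set G) := by
  have hmem : ∀ y ∈ zpowers t, y = 1 ∨ y = t := by
    intro y hy
    obtain ⟨n, rfl⟩ := mem_zpowers_iff.1 hy
    rw [← zpow_mod_orderOf, ht]
    rcases Int.emod_two_eq_zero_or_one n with e | e <;> simp [e]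
  ext g
  constructor
  · intro hg
    rcases hmem _ ((mem_normalizer_iff.1 hg t).1 (mem_zpowers t)) with e | e
    · exfalso
      have : t = 1 := by simpa using e
      rw [this, orderOf_one] at ht; omega
    · exact mem_centralizer_singleton_iff.2 (mul_inv_eq_iff_eq_mul.1 e)
  · intro hg
    refine centralizer_le_normalizer _ (mem_centralizer_iff.2 fun y hy => ?_)
    have hc := mem_centralizer_singleton_iff.1 hg
    rcases hmem y hy with rfl | rfl
    · simp
    · exact hc.symm

theorem good_centralizer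
    (h : (∀ M : Subgroup G, Cfsg.IsMaximalTwoLocal M → Cfsg.IsPConstrained 2 ↥M ∧ Cfsg.oddCore ↥M = ⊥) ∨
      (∀ t : G, orderOf t = 2 → Cfsg.IsPConstrained 2 ↥(Subgroup.centralizer ({t} : Set G)) ∧
        Cfsg.oddCore ↥(Subgroup.centralizer ({t} : Set G)) = ⊥))
    {t : G} (ht : orderOf t = 2) : Good (centralizer ({t} : Set G)) := by
  rcases h with h | h
  swap
  · exact good_of_constrained (h t ht)
  have hP : IsPGroup 2 (zpowers t) := IsPGroup.of_card (n := 1) (by rw [Nat.card_zpowers, ht, pow_one])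
  have hne : zpowers t ≠ ⊥ := by
    intro e
    have := Nat.card_zpowers t
    rw [e, card_bot, ht] at this
    omega
  have hC : Cfsg.IsTwoLocal (centralizer ({t} : Set G)) :=
    ⟨_, hP, hne, (normalizer_zpowers_involution ht).symm⟩
  obtain ⟨M, hle, hM⟩ := (Set.toFinite {N : Subgroup G | Cfsg.IsTwoLocal N}).exists_le_maximal hC
  have hM' : Good M := good_of_constrained (h M ⟨hM.1, fun N hN hle => le_antisymm (hM.2 hN hle) hle⟩)
  have htC : zpowers t ≤ centralizer ({t} : Set G) := zpowers_le.2 (mem_centralizer_singleton_iff.2 rfl)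
  refine good_local hM' hP (htC.trans hle) hle (normalizer_zpowers_involution ht).ge ?_ htC
  exact fun x hx => mem_centralizer_singleton_iff.2 (mem_centralizer_iff.1 hx.2 t (mem_zpowers t)).symm

theorem good_two_local (hgood : ∀ t : G, orderOf t = 2 → Good (centralizer ({t} : Set G)))
    (T : Subgroup G) (hT : IsPGroup 2 T) (hTb : T ≠ ⊥) : Good (normalizer (T : Set G)) := by
  haveI : Nontrivial T := (Subgroup.nontrivial_iff_ne_bot T).2 hTb
  haveI := hT.center_nontrivial
  obtain ⟨c, hc⟩ := exists_prime_orderOf_dvd_card' (G := center T) 2 (by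
    obtain ⟨n, hn0, hn⟩ := (hT.to_subgroup (center T)).nontrivial_iff_card.1 inferInstance
    rw [hn]; exact dvd_pow_self 2 hn0.ne')
  set t : G := ((c : T) : G) with htdef
  have ht : orderOf t = 2 := by rw [htdef, orderOf_coe, orderOf_coe, hc]
  set N := normalizer (T : Set G) with hN
  set L := T ⊔ centralizer (T : Set G) with hL
  have hCN : centralizer (T : Set G) ≤ N := centralizer_le_normalizer _
  have hLN : L ≤ N := sup_le le_normalizer hCN
  have htc : ∀ a ∈ T, a * t = t * a := fun a ha =>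
    congrArg Subtype.val (mem_center_iff.1 c.2 ⟨a, ha⟩)
  have hTC : T ≤ centralizer ({t} : Set G) := fun a ha => mem_centralizer_singleton_iff.2 (htc a ha)
  have hLC : L ≤ centralizer ({t} : Set G) := sup_le hTC fun x hx =>
    mem_centralizer_singleton_iff.2 (mem_centralizer_iff.1 hx t (c : T).2).symm
  have hLg : Good L := good_local (hgood t ht) hT hTC hLC hLN (inf_le_right.trans le_sup_right) le_sup_left
  set L' := L.subgroupOf N with hL'
  have hLg' : pPrimeCore 2 ↥L' = ⊥ ∧ SelfCentralizingCore 2 ↥L' :=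
    good_congr (subgroupOfEquivOfLe hLN).symm hLg
  haveI hTn : (T.subgroupOf N).Normal := normal_in_normalizer
  haveI : L'.Normal := by
    rw [hL', hL, subgroupOf_sup le_normalizer hCN]
    haveI : ((centralizer (T : Set G)).subgroupOf N).Normal := by
      refine ⟨fun x hx g => ?_⟩
      rw [mem_subgroupOf, mem_centralizer_iff] at hx ⊢
      intro a ha
      have ha' : (g : G)⁻¹ * a * g ∈ T := (mem_normalizer_iff''.1 g.2 a).1 ha
      have := hx _ ha'
      show a * ((g : G) * x * (g : G)⁻¹) = (g : G) * x * (g : G)⁻¹ * a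
      calc a * ((g : G) * x * (g : G)⁻¹) = (g : G) * ((g : G)⁻¹ * a * g * x) * (g : G)⁻¹ := by group
        _ = (g : G) * (x * ((g : G)⁻¹ * a * g)) * (g : G)⁻¹ := by rw [this]
        _ = (g : G) * x * (g : G)⁻¹ * a := by group
    infer_instance
  have hT2 : IsPGroup 2 (T.subgroupOf N) := hT.of_equiv (subgroupOfEquivOfLe le_normalizer).symm
  have hcomm : ∀ x : N, (∀ a ∈ T.subgroupOf N, a * x = x * a) → x ∈ L' := fun x hx =>
    mem_subgroupOf.2 (le_sup_right (a := T) (mem_centralizer_iff.2 fun a ha =>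
      congrArg Subtype.val (hx ⟨a, le_normalizer ha⟩ ha)))
  constructor
  · have hdis : Disjoint (T.subgroupOf N) (pPrimeCore 2 N) := by
      rw [disjoint_iff]
      obtain ⟨n, hn⟩ := IsPGroup.iff_card.1 hT2
      exact inf_eq_bot_of_coprime (by rw [hn]; exact ((Cfsg.Lib.Solv.coprime_pPrimeCore 2).symm.pow_left n))
    have hle : pPrimeCore 2 N ≤ L' := fun x hx => hcomm x fun a ha =>
      (commute_of_normal_of_disjoint _ _ hTn (Cfsg.Lib.Transfer.pPrimeCore_normal 2) hdis a x ha hx).eq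
    have := Cfsg.Lib.Solv.map_pPrimeCore_subgroup 2 L'
    rw [hLg'.1, Subgroup.map_bot, inf_eq_left.2 hle] at this
    exact this.symm
  · intro x hx
    have hTle : T.subgroupOf N ≤ pCore 2 N := Cfsg.Lib.Solv.le_pCore hTn hT2
    have hxL : x ∈ L' := hcomm x fun a ha => mem_centralizer_iff.1 hx a (hTle ha)
    have hsub := Cfsg.Lib.Solv.map_pCore_subgroup 2 L'
    have hx' : (⟨x, hxL⟩ : L') ∈ pCore 2 ↥L' := hLg'.2 (mem_centralizer_iff.2 fun a ha => by
      have : (a : N) ∈ pCore 2 N ⊓ L' := hsub ▸ mem_map_of_mem _ ha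
      exact Subtype.ext (mem_centralizer_iff.1 hx _ this.1))
    have : x ∈ pCore 2 N ⊓ L' := hsub ▸ ⟨_, hx', rfl⟩
    exact this.1

theorem fixed_trivial (hgood : ∀ t : G, orderOf t = 2 → Good (centralizer ({t} : Set G)))
    (S : Sylow 2 G) (X : Subgroup G) (hX : Odd (Nat.card X)) (hSX : (S : Subgroup G) ≤ normalizer (X : Set G))
    (t : G) (ht : orderOf t = 2)
    (hidx : ((S : Subgroup G) ⊓ centralizer ({t} : Set G)).relIndex (S : Subgroup G) ≤ 2) :
    X ⊓ centralizer ({t} : Set G) = ⊥ := by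
  set C := centralizer ({t} : Set G) with hC
  set S0 := (S : Subgroup G) ⊓ C with hS0
  obtain ⟨T, hT⟩ := (((S.isPGroup'.to_le (inf_le_left : S0 ≤ (S : Subgroup G)))).of_equiv
    (subgroupOfEquivOfLe (inf_le_right : S0 ≤ C)).symm).exists_le_sylow
  set T' := (T : Subgroup C).map C.subtype with hT'
  have hS0T : S0 ≤ T' := fun x hx => ⟨⟨x, hx.2⟩, hT (mem_subgroupOf.2 hx), rfl⟩
  have hT'p : IsPGroup 2 T' := T.isPGroup'.map _
  obtain ⟨U, hU⟩ := hT'p.exists_le_sylow
  have hcard : Nat.card T' ≤ Nat.card (S : Subgroup G) := by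
    refine (card_le_of_le hU).trans ?_
    rw [U.card_eq_multiplicity, S.card_eq_multiplicity]
  have h1 : Nat.card S0 * S0.relIndex (S : Subgroup G) = Nat.card (S : Subgroup G) := by
    rw [relIndex, ← Nat.card_congr (subgroupOfEquivOfLe (inf_le_left : S0 ≤ (S : Subgroup G))).toEquiv]
    exact card_mul_index _
  have h2 : Nat.card S0 * S0.relIndex T' = Nat.card T' := by
    rw [relIndex, ← Nat.card_congr (subgroupOfEquivOfLe hS0T).toEquiv]
    exact card_mul_index _
  have hi : S0.relIndex T' ≤ 2 := by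
    have : 0 < Nat.card S0 := Nat.card_pos
    nlinarith
  set Q := (pCore 2 ↥C).map C.subtype with hQ
  have hQT : Q ≤ T' := map_mono (Cfsg.Lib.Solv.pCore_le_sylow 2 T)
  refine (eq_bot_iff_forall _).2 fun y hy => ?_
  have hyodd : Odd (orderOf y) := hX.of_dvd_nat (orderOf_mk y hy.1 ▸ orderOf_dvd_natCard (⟨y, hy.1⟩ : X))
  haveI := Cfsg.Lib.Transfer.pCore_normal (G := ↥C) 2
  have hQn : ∀ c ∈ C, ∀ q ∈ Q, c * q * c⁻¹ ∈ Q := by
    rintro c hc _ ⟨q, hq, rfl⟩
    exact ⟨⟨c, hc⟩ * q * ⟨c, hc⟩⁻¹, (inferInstance : (pCore 2 ↥C).Normal).conj_mem q hq _, rfl⟩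
  have hQp : IsPGroup 2 Q := (Cfsg.Lib.Solv.isPGroup_pCore 2).map _
  -- `y` centralizes `Q ⊓ S0`
  have hcen : ∀ q ∈ Q, q ∈ S0 → y * q * y⁻¹ = q := by
    intro q hq hq0
    have hm1 : y * q * y⁻¹ * q⁻¹ ∈ Q := Q.mul_mem (hQn y hy.2 q hq) (Q.inv_mem hq)
    have hm2 : y * q * y⁻¹ * q⁻¹ ∈ X := by
      have := (mem_normalizer_iff.1 (hSX hq0.1) y⁻¹).1 (X.inv_mem hy.1)
      rw [show y * q * y⁻¹ * q⁻¹ = y * (q * y⁻¹ * q⁻¹) by group]
      exact X.mul_mem hy.1 this
    have hbot : Q ⊓ X = ⊥ := by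
      obtain ⟨n, hn⟩ := IsPGroup.iff_card.1 hQp
      exact inf_eq_bot_of_coprime (by rw [hn]; exact (Nat.coprime_two_left.2 hX).pow_left n)
    have : y * q * y⁻¹ * q⁻¹ ∈ Q ⊓ X := ⟨hm1, hm2⟩
    rw [hbot, mem_bot] at this
    exact mul_inv_eq_one.1 this
  have hall : ∀ q ∈ Q, y * q * y⁻¹ = q := by
    intro q hq
    by_cases hq0 : q ∈ S0
    · exact hcen q hq hq0
    have h2' : (S0.subgroupOf T').index = 2 := by
      have hne : S0.relIndex T' ≠ 1 := fun e => hq0 (relIndex_eq_one.1 e (hQT hq))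
      have hpos : S0.relIndex T' ≠ 0 := index_ne_zero_of_finite
      show S0.relIndex T' = 2
      omega
    have hq' : y * q * y⁻¹ ∉ S0 := by
      intro hm
      have e := hcen _ (hQn y hy.2 q hq) hm
      have e' : y * q * y⁻¹ = q := by
        have := congrArg (fun r => y⁻¹ * r * y) e
        simpa [mul_assoc] using this
      exact hq0 (e' ▸ hm)
    set r := q⁻¹ * (y * q * y⁻¹) with hr
    have hrS : r ∈ S0 := by
      have hiff := Subgroup.mul_mem_iff_of_index_two h2'
        (a := (⟨q⁻¹, T'.inv_mem (hQT hq)⟩ : T')) (b := ⟨_, hQT (hQn y hy.2 q hq)⟩)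
      have := hiff.2 ⟨fun h => absurd (by simpa using S0.inv_mem (mem_subgroupOf.1 h)) hq0,
        fun h => absurd (mem_subgroupOf.1 h) hq'⟩
      exact mem_subgroupOf.1 this
    have hrQ : r ∈ Q := Q.mul_mem (Q.inv_mem hq) (hQn y hy.2 q hq)
    have hit : ∀ n : ℕ, y ^ n * q * (y ^ n)⁻¹ = q * r ^ n := by
      intro n
      induction n with
      | zero => simp
      | succ n ih =>
          have hfix : y * r ^ n * y⁻¹ = r ^ n := by rw [← conj_pow, hcen r hrQ hrS]
          calc y ^ (n + 1) * q * (y ^ (n + 1))⁻¹ = y * (y ^ n * q * (y ^ n)⁻¹) * y⁻¹ := by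
                rw [pow_succ']; group
            _ = y * (q * r ^ n) * y⁻¹ := by rw [ih]
            _ = (y * q * y⁻¹) * (y * r ^ n * y⁻¹) := by group
            _ = (q * r) * r ^ n := by rw [hfix, hr, mul_inv_cancel_left]
            _ = q * r ^ (n + 1) := by rw [pow_succ', mul_assoc]
    have hrn : r ^ orderOf y = 1 := by
      have := hit (orderOf y)
      simpa [pow_orderOf_eq_one] using this.symm
    obtain ⟨k, hk⟩ := IsPGroup.iff_orderOf.1 hQp ⟨r, hrQ⟩
    rw [orderOf_mk] at hk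
    have : orderOf r = 1 := Nat.eq_one_of_dvd_coprimes
      ((Nat.coprime_two_left.2 hyodd).pow_left k) (hk ▸ dvd_refl (orderOf r)) (orderOf_dvd_of_pow_eq_one hrn)
    have hr1 : r = 1 := orderOf_eq_one_iff.1 this
    rw [hr, inv_mul_eq_one] at hr1
    exact hr1.symm
  have hmem : (⟨y, hy.2⟩ : C) ∈ pCore 2 ↥C := (hgood t ht).2 (mem_centralizer_iff.2 fun q hq =>
    Subtype.ext (mul_inv_eq_iff_eq_mul.1 (hall _ (mem_map_of_mem _ hq))).symm)
  obtain ⟨k, hk⟩ := IsPGroup.iff_orderOf.1 (Cfsg.Lib.Solv.isPGroup_pCore 2) (⟨_, hmem⟩ : pCore 2 ↥C)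
  rw [orderOf_mk, orderOf_mk] at hk
  exact orderOf_eq_one_iff.1 (Nat.eq_one_of_dvd_coprimes
    ((Nat.coprime_two_left.2 hyodd).pow_left k) (hk ▸ dvd_refl _) (dvd_refl _))

omit [Finite G] in
theorem conj_inv_of_free {X : Subgroup G} [Finite X] {u : G} (hu : u * u = 1)
    (huX : u ∈ normalizer (X : Set G)) (hC : X ⊓ centralizer ({u} : Set G) = ⊥) :
    ∀ x ∈ X, u * x * u⁻¹ = x⁻¹ := by
  let φ : X →* X := (X.normalizerMonoidHom ⟨u, huX⟩ : MulAut X).toMonoidHom
  have hf : MonoidHom.FixedPointFree φ := by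
    intro x hx
    have e : u * (x : G) * u⁻¹ = x := congrArg Subtype.val hx
    have hm : (x : G) ∈ X ⊓ centralizer ({u} : Set G) :=
      ⟨x.2, mem_centralizer_singleton_iff.2 (mul_inv_eq_iff_eq_mul.1 e).symm⟩
    rw [hC, mem_bot] at hm
    exact Subtype.ext hm
  have h2 : Function.Involutive φ := by
    intro x
    apply Subtype.ext
    show u * (u * (x : G) * u⁻¹) * u⁻¹ = x
    rw [show u⁻¹ = u from inv_eq_of_mul_eq_one_right hu,
      show u * (u * (x : G) * u) * u = (u * u) * x * (u * u) by group, hu, one_mul, mul_one]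
  intro x hx
  have := congrFun (hf.coe_eq_inv_of_involutive h2) ⟨x, hx⟩
  exact congrArg Subtype.val this

theorem no_signalizer (hgood : ∀ t : G, orderOf t = 2 → Good (centralizer ({t} : Set G)))
    (S : Sylow 2 G) (A : Subgroup G) (hA : Cfsg.IsSCN (S : Subgroup G) A) (hA3 : ¬ Cfsg.PRankLE 2 2 ↥A)
    (X : Subgroup G) (hX : Odd (Nat.card ↥X)) (hSX : (S : Subgroup G) ≤ normalizer (X : Set G)) : X = ⊥ := by
  obtain ⟨hAS, hSA, hAC⟩ := hA
  have hAab : ∀ a ∈ A, ∀ b ∈ A, a * b = b * a := by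
    intro a ha b hb
    rw [← hAC] at hb
    exact mem_centralizer_iff.1 hb.2 a ha
  let W : Subgroup G :=
    { carrier := {a | a ∈ A ∧ a * a = 1}
      one_mem' := ⟨A.one_mem, mul_one 1⟩
      mul_mem' := by
        rintro a b ⟨ha, ha2⟩ ⟨hb, hb2⟩
        refine ⟨A.mul_mem ha hb, ?_⟩
        rw [show a * b * (a * b) = a * (b * a) * b by group, ← hAab a ha b hb,
          show a * (a * b) * b = (a * a) * (b * b) by group, ha2, hb2, one_mul]
      inv_mem' := by
        rintro a ⟨ha, ha2⟩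
        exact ⟨A.inv_mem ha, by rw [← mul_inv_rev, ha2, inv_one]⟩ }
  have hWS : W ≤ (S : Subgroup G) := fun a ha => hAS ha.1
  have hW4 : 4 < Nat.card W := by
    rw [Cfsg.PRankLE] at hA3
    push Not at hA3
    obtain ⟨E, hE, hE2, hEc⟩ := hA3
    refine lt_of_lt_of_le (by simpa using hEc) ?_
    refine Nat.card_le_card_of_injective (fun x : E => (⟨((x : A) : G), (x : A).2, ?_⟩ : W)) ?_
    · have := congrArg Subtype.val (hE2 x x.2)
      simpa [pow_two] using this
    · intro a b e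
      exact Subtype.ext (Subtype.ext (congrArg (fun w : W => (w : G)) e))
  set WS := W.subgroupOf (S : Subgroup G) with hWSd
  haveI : WS.Normal := by
    refine ⟨fun a ha g => ?_⟩
    rw [hWSd, mem_subgroupOf] at ha ⊢
    refine ⟨(mem_normalizer_iff.1 (hSA g.2) (a : G)).1 ha.1, ?_⟩
    have h2 : (a : G) * a = 1 := ha.2
    show (g : G) * a * (g : G)⁻¹ * ((g : G) * a * (g : G)⁻¹) = 1
    rw [show (g : G) * a * (g : G)⁻¹ * ((g : G) * a * (g : G)⁻¹) = (g : G) * ((a : G) * a) * (g : G)⁻¹ by group, h2]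
    group
  have hWScard : Nat.card WS = Nat.card W := Nat.card_congr (subgroupOfEquivOfLe hWS).toEquiv
  have hWSne : WS ≠ ⊥ := fun e => by rw [e, card_bot] at hWScard; omega
  obtain ⟨⟨z, hzS⟩, hz, hz1⟩ := (bot_or_exists_ne_one (WS ⊓ center ↥(S : Subgroup G))).resolve_left
    (Cfsg.Lib.Transfer.inf_center_ne_bot S.isPGroup' WS hWSne)
  have hzW : z ∈ W := mem_subgroupOf.1 hz.1
  have hzG1 : z ≠ 1 := fun e => hz1 (Subtype.ext e)
  have hzo : orderOf z = 2 := orderOf_eq_prime (by rw [pow_two]; exact hzW.2) hzG1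
  have hzc : ∀ s ∈ (S : Subgroup G), s * z = z * s := fun s hs =>
    congrArg Subtype.val (mem_center_iff.1 hz.2 ⟨s, hs⟩)
  -- an involution with at most two conjugates
  set Z := zpowers (⟨z, hzS⟩ : ↥(S : Subgroup G)) with hZd
  haveI : Z.Normal := by
    refine ⟨fun a ha g => ?_⟩
    obtain ⟨n, rfl⟩ := mem_zpowers_iff.1 ha
    have hc : Commute g ((⟨z, hzS⟩ : ↥(S : Subgroup G)) ^ n) :=
      Commute.zpow_right (show Commute g ⟨z, hzS⟩ from Subtype.ext (hzc g g.2)) n
    rw [hc.eq, mul_inv_cancel_right]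
    exact zpow_mem (mem_zpowers _) n
  set π := QuotientGroup.mk' Z
  haveI : (WS.map π).Normal := Subgroup.Normal.map inferInstance π (QuotientGroup.mk'_surjective Z)
  have hne : WS.map π ≠ ⊥ := by
    rw [Ne, Subgroup.map_eq_bot_iff, QuotientGroup.ker_mk']
    intro hle
    have := card_le_of_le hle
    rw [hWScard, hZd, Nat.card_zpowers, Subgroup.orderOf_mk, hzo] at this
    omega
  obtain ⟨q, hq, hq1⟩ := (bot_or_exists_ne_one (WS.map π ⊓ center _)).resolve_left
    (Cfsg.Lib.Transfer.inf_center_ne_bot (S.isPGroup'.to_quotient Z) (WS.map π) hne)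
  obtain ⟨⟨t, htS⟩, htW, rfl⟩ := hq.1
  have htW' : t ∈ W := mem_subgroupOf.1 htW
  have hmem : ∀ y ∈ Z, (y : G) = 1 ∨ (y : G) = z := by
    intro y hy
    obtain ⟨n, rfl⟩ := mem_zpowers_iff.1 hy
    rw [← zpow_mod_orderOf, Subgroup.orderOf_mk, hzo]
    rcases Int.emod_two_eq_zero_or_one n with e | e <;> simp [e]
  have htne : ∀ y, y = 1 ∨ y = z → t ≠ y := by
    rintro y (rfl | rfl) rfl
    · exact hq1 (map_one π)
    · exact hq1 ((QuotientGroup.eq_one_iff _).2 (mem_zpowers _))
  have hto : orderOf t = 2 := orderOf_eq_prime (by rw [pow_two]; exact htW'.2) (htne 1 (Or.inl rfl))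
  have hconj : ∀ s ∈ (S : Subgroup G), s * t * s⁻¹ = t ∨ s * t * s⁻¹ = t * z := by
    intro s hs
    have := mem_center_iff.1 hq.2 (π ⟨s, hs⟩)
    rw [← map_mul, ← map_mul, QuotientGroup.mk'_apply, QuotientGroup.mk'_apply, QuotientGroup.eq] at this
    rcases hmem _ this with e | e
    · left
      have e' : (s * t)⁻¹ * (t * s) = 1 := e
      rw [inv_mul_eq_one] at e'
      rw [e', mul_inv_cancel_right]
    · right
      have e' : (s * t)⁻¹ * (t * s) = z := e
      have : t * s = s * t * z := by rw [← e']; group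
      have hz' : s * t = t * s * z := by
        rw [this, mul_assoc, hzW.2, mul_one]
      rw [hz', mul_assoc t s z, hzc s hs, ← mul_assoc, mul_inv_cancel_right]
  have htz : t * z = z * t := hAab t htW'.1 z hzW.1
  have hidx : ∀ u, u = t ∨ u = t * z →
      ((S : Subgroup G) ⊓ centralizer ({u} : Set G)).relIndex (S : Subgroup G) ≤ 2 := by
    intro u hu
    rw [inf_relIndex_left]
    rw [relIndex, index]
    have key : ∀ g ∈ (S : Subgroup G), g * u * g⁻¹ = u ∨ g * u * g⁻¹ = u * z := by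
      intro g hg
      rcases hu with rfl | rfl
      · exact hconj g hg
      · have hgz : g * z * g⁻¹ = z := by rw [hzc g hg, mul_inv_cancel_right]
        have e : g * (t * z) * g⁻¹ = (g * t * g⁻¹) * (g * z * g⁻¹) := by group
        rcases hconj g hg with h | h <;> rw [e, h, hgz]
        · exact Or.inl rfl
        · exact Or.inr rfl
    classical
    let F : ↥(S : Subgroup G) ⧸ (centralizer ({u} : Set G)).subgroupOf (S : Subgroup G) → Bool :=
      fun q => decide ((q.out : G) * u * (q.out : G)⁻¹ = u)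
    have hF : Function.Injective F := by
      intro a b e
      simp only [F, decide_eq_decide] at e
      have hab : (a.out : G) * u * (a.out : G)⁻¹ = (b.out : G) * u * (b.out : G)⁻¹ := by
        rcases key _ a.out.2 with ha | ha
        · rw [ha, e.1 ha]
        · rcases key _ b.out.2 with hb | hb
          · rw [e.2 hb, hb]
          · rw [ha, hb]
      rw [← QuotientGroup.out_eq' a, ← QuotientGroup.out_eq' b, QuotientGroup.eq, mem_subgroupOf]
      refine mem_centralizer_singleton_iff.2 ?_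
      show ((a.out : G)⁻¹ * b.out) * u = u * ((a.out : G)⁻¹ * b.out)
      calc ((a.out : G)⁻¹ * b.out) * u = (a.out : G)⁻¹ * ((b.out : G) * u * (b.out : G)⁻¹) * b.out := by group
        _ = u * ((a.out : G)⁻¹ * b.out) := by rw [← hab]; group
    have := Nat.card_le_card_of_injective F hF
    rwa [Nat.card_eq_fintype_card (α := Bool), Fintype.card_bool] at this
  have htzo : orderOf (t * z) = 2 := by
    refine orderOf_eq_prime ?_ ?_
    · rw [pow_two, show t * z * (t * z) = t * (z * t) * z by group, ← htz,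
        show t * (t * z) * z = (t * t) * (z * z) by group, htW'.2, hzW.2, one_mul]
    · intro e
      refine htne z (Or.inr rfl) ?_
      rw [mul_eq_one_iff_eq_inv] at e
      rw [e]
      exact inv_eq_of_mul_eq_one_right hzW.2
  have hfree : ∀ u, orderOf u = 2 → ((S : Subgroup G) ⊓ centralizer ({u} : Set G)).relIndex (S : Subgroup G) ≤ 2 →
      u ∈ (S : Subgroup G) → ∀ x ∈ X, u * x * u⁻¹ = x⁻¹ := fun u hu hi huS =>
    conj_inv_of_free (by have := pow_orderOf_eq_one u; rwa [hu, pow_two] at this) (hSX huS)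
      (fixed_trivial hgood S X hX hSX u hu hi)
  have hz' := hfree z hzo (by
    rw [inf_relIndex_left, relIndex_eq_one.2 (fun s hs => mem_centralizer_singleton_iff.2 (hzc s hs))]
    norm_num) hzS
  have ht' := hfree t hto (hidx t (Or.inl rfl)) htS
  have htz' := hfree (t * z) htzo (hidx _ (Or.inr rfl)) ((S : Subgroup G).mul_mem htS hzS)
  refine (eq_bot_iff_forall _).2 fun x hx => ?_
  have e1 : t * z * x * (t * z)⁻¹ = x := by
    rw [show t * z * x * (t * z)⁻¹ = t * (z * x * z⁻¹) * t⁻¹ by group, hz' x hx, ht' _ (X.inv_mem hx), inv_inv]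
  have e2 : x = x⁻¹ := e1.symm.trans (htz' x hx)
  have hsq : x ^ 2 = 1 := by rw [pow_two]; exact mul_eq_one_iff_eq_inv.2 e2
  exact orderOf_eq_one_iff.1 (Nat.eq_one_of_dvd_coprimes (Nat.coprime_two_left.2 hX)
    (orderOf_dvd_of_pow_eq_one hsq) (orderOf_mk x hx ▸ orderOf_dvd_natCard (⟨x, hx⟩ : X)))


/-- Let G be a finite group whose Sylow 2-subgroup S has a self-centralizing normal subgroup of rank at least 3. Suppose that either every maximal 2-local subgroup of G is 2-constrained with no nontrivial normal subgroup of odd order, or the centralizer of every involution of G is 2-constrained with no nontrivial normal subgroup of odd order. Then S normalizes no nontrivial subgroup of G of odd order and every 2-local subgroup of G is 2-constrained. -/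
theorem result {G : Type*} [Group G] [Finite G]
    (S : Sylow 2 G) (A : Subgroup G) (hA : Cfsg.IsSCN (S : Subgroup G) A) (hA3 : ¬ Cfsg.PRankLE 2 2 ↥A)
    (h : (∀ M : Subgroup G, Cfsg.IsMaximalTwoLocal M → Cfsg.IsPConstrained 2 ↥M ∧ Cfsg.oddCore ↥M = ⊥) ∨
      (∀ t : G, orderOf t = 2 → Cfsg.IsPConstrained 2 ↥(Subgroup.centralizer ({t} : Set G)) ∧
        Cfsg.oddCore ↥(Subgroup.centralizer ({t} : Set G)) = ⊥)) :
    (∀ X : Subgroup G, Odd (Nat.card ↥X) → (S : Subgroup G) ≤ Subgroup.normalizer (X : Set G) → X = ⊥) ∧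
      (∀ T : Subgroup G, IsPGroup 2 ↥T → T ≠ ⊥ → Cfsg.IsPConstrained 2 ↥(Subgroup.normalizer (T : Set G))) := by
  have hgood : ∀ t : G, orderOf t = 2 → Good (Subgroup.centralizer ({t} : Set G)) := fun t ht =>
    good_centralizer h ht
  refine ⟨fun X hX hSX => no_signalizer hgood S A hA hA3 X hX hSX, fun T hT hTb => ?_⟩
  have := good_two_local hgood T hT hTb
  exact (isPConstrained_iff_of_core_eq_bot this.1).2 this.2

end Cfsg.Agent.S3246
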