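import Cfsg.Statements.S3244
import Mathlib
import Cfsg.Agent.S3246
import Cfsg.Agent.Lib.Invol.IsolatedStructure
import Cfsg.Agent.Lib.Transfer.PGroupNormal
-- import your own Cfsg.Agent.* helpers here

set_option autoImplicit false
open Cfsg

namespace Cfsg.Agent.S3244

open Cfsg.Lib.PLocal Subgroup
open Cfsg.Agent.S3246 (Good good_congr good_two_local normalizer_zpowers_involution)

instance : Fact (Nat.Prime 2) := ⟨Nat.prime_two⟩

variable {G : Type*} [Group G] [Finite G]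

/-- The odd core of the centralizer of `a`, as a subgroup of the group. -/
def th (a : G) : Subgroup G :=
  (pPrimeCore 2 ↥(centralizer ({a} : Set G))).map (centralizer ({a} : Set G)).subtype

theorem th_le (a : G) : th a ≤ centralizer ({a} : Set G) := map_subtype_le _

theorem th_odd (a : G) : Odd (Nat.card (th a)) := by
  rw [th, card_map_of_injective (subtype_injective _)]
  exact Nat.coprime_two_left.1 (Cfsg.Lib.Solv.coprime_pPrimeCore 2).symm

theorem th_conj (a g x : G) (hx : x ∈ th a) : g * x * g⁻¹ ∈ th (g * a * g⁻¹) := by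
  obtain ⟨y, hy, rfl⟩ := hx
  have hto : ∀ y : G, y ∈ centralizer ({a} : Set G) → g * y * g⁻¹ ∈ centralizer ({g * a * g⁻¹} : Set G) := by
    intro y hy
    have h := mem_centralizer_singleton_iff.1 hy
    refine mem_centralizer_singleton_iff.2 ?_
    calc g * y * g⁻¹ * (g * a * g⁻¹) = g * (y * a) * g⁻¹ := by group
      _ = g * (a * y) * g⁻¹ := by rw [h]
      _ = g * a * g⁻¹ * (g * y * g⁻¹) := by group
  have hinv : ∀ y : G, y ∈ centralizer ({g * a * g⁻¹} : Set G) → g⁻¹ * y * g ∈ centralizer ({a} : Set G) := by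
    intro y hy
    have h := mem_centralizer_singleton_iff.1 hy
    refine mem_centralizer_singleton_iff.2 ?_
    calc g⁻¹ * y * g * a = g⁻¹ * (y * (g * a * g⁻¹)) * g := by group
      _ = g⁻¹ * (g * a * g⁻¹ * y) * g := by rw [h]
      _ = a * (g⁻¹ * y * g) := by group
  let e : ↥(centralizer ({a} : Set G)) ≃* ↥(centralizer ({g * a * g⁻¹} : Set G)) :=
    { toFun := fun y => ⟨g * y * g⁻¹, hto y y.2⟩
      invFun := fun y => ⟨g⁻¹ * y * g, hinv y y.2⟩
      left_inv := fun y => Subtype.ext (by group)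
      right_inv := fun y => Subtype.ext (by group)
      map_mul' := fun y y' => Subtype.ext (by
        show g * ((y : G) * y') * g⁻¹ = g * y * g⁻¹ * (g * y' * g⁻¹)
        group) }
  refine ⟨e y, ?_, rfl⟩
  rw [← map_pPrimeCore_equiv e]
  exact mem_map_of_mem _ hy

theorem th_normalized {a g : G} (h : g * a = a * g) : ∀ x ∈ th a, g * x * g⁻¹ ∈ th a := by
  intro x hx
  have := th_conj a g x hx
  rwa [h, mul_inv_cancel_right] at this

theorem mem_normalizer_of_conj {X : Subgroup G} {g : G} (h : ∀ x ∈ X, g * x * g⁻¹ ∈ X) :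
    g ∈ normalizer (X : Set G) := by
  haveI : Finite X := inferInstance
  rw [mem_normalizer_iff]
  intro x
  refine ⟨h x, fun hx => ?_⟩
  let f : X → X := fun y => ⟨g * y * g⁻¹, h y y.2⟩
  have hf : Function.Injective f := fun y y' e =>
    Subtype.ext (mul_left_cancel (mul_right_cancel (congrArg Subtype.val e)))
  obtain ⟨y, hy⟩ := (Finite.injective_iff_surjective.1 hf) ⟨_, hx⟩
  have : g * (y : G) * g⁻¹ = g * x * g⁻¹ := congrArg Subtype.val hy
  rw [← mul_left_cancel (mul_right_cancel this)]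
  exact y.2

theorem balance (hcon : ∀ T : Subgroup G, IsPGroup 2 ↥T → T ≠ ⊥ →
      Cfsg.IsPConstrained 2 ↥(normalizer (T : Set G))) {a b : G} (ha : a * a = 1) (hb : orderOf b = 2)
    (hab : a * b = b * a) : th a ⊓ centralizer ({b} : Set G) ≤ th b := by
  set B := centralizer ({b} : Set G) with hB
  have hBc : Cfsg.IsPConstrained 2 ↥B := by
    have hP : IsPGroup 2 (zpowers b) := IsPGroup.of_card (n := 1) (by rw [Nat.card_zpowers, hb, pow_one])
    have hne : zpowers b ≠ ⊥ := fun e => by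
      have := Nat.card_zpowers b
      rw [e, card_bot, hb] at this
      omega
    rw [hB, ← normalizer_zpowers_involution hb]
    exact hcon _ hP hne
  set a' : B := ⟨a, mem_centralizer_singleton_iff.2 hab⟩
  have hP : IsPGroup 2 (zpowers a') := by
    obtain ⟨k, -, hk⟩ := (Nat.dvd_prime_pow Nat.prime_two).1 (show orderOf a' ∣ 2 ^ 1 by
      rw [pow_one]; exact orderOf_dvd_of_pow_eq_one (Subtype.ext (by show a ^ 2 = 1; rw [pow_two, ha])))
    exact IsPGroup.of_card (n := k) (by rw [Nat.card_zpowers, hk])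
  obtain ⟨-, hcore, -⟩ := local_constrained (p := 2) hBc hP
  set D := centralizer ((zpowers a' : Subgroup B) : Set B) with hD
  intro x hx
  set Y := (((th a ⊓ B).subgroupOf B).subgroupOf D) with hY
  have hYn : Y.Normal := by
    refine ⟨fun y hy d => ?_⟩
    have hy' : ((y : B) : G) ∈ th a ⊓ B := hy
    have hd : ((d : B) : G) * a = a * ((d : B) : G) :=
      congrArg Subtype.val (mem_centralizer_iff.1 d.2 a' (mem_zpowers a')).symm
    exact ⟨th_normalized hd _ hy'.1, (d * y * d⁻¹ : D).1.2⟩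
  have hYc : (Nat.card Y).Coprime 2 := by
    refine Nat.Coprime.coprime_dvd_left ?_ (Nat.coprime_two_left.2 (th_odd a)).symm
    have h1 : Nat.card Y = Nat.card ((Y.map D.subtype).map B.subtype) := by
      rw [card_map_of_injective (subtype_injective _), card_map_of_injective (subtype_injective _)]
    rw [h1]
    refine card_dvd_of_le ?_
    rintro _ ⟨_, ⟨y, hy, rfl⟩, rfl⟩
    exact (show ((y : B) : G) ∈ th a ⊓ B from hy).1
  have hxD : (⟨x, hx.2⟩ : B) ∈ D := by
    refine mem_centralizer_iff.2 fun w hw => ?_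
    obtain ⟨n, rfl⟩ := mem_zpowers_iff.1 hw
    have hxa := mem_centralizer_singleton_iff.1 (th_le a hx.1)
    exact ((show Commute (⟨x, hx.2⟩ : B) a' from Subtype.ext hxa).zpow_right n).eq.symm
  have hmem : (⟨⟨x, hx.2⟩, hxD⟩ : D) ∈ pPrimeCore 2 ↥D := Cfsg.Lib.Solv.le_pPrimeCore hYn hYc hx
  have : (⟨x, hx.2⟩ : B) ∈ pPrimeCore 2 ↥B ⊓ D := hcore ▸ ⟨_, hmem, rfl⟩
  exact ⟨_, this.1, rfl⟩

theorem conj_inv_free {X : Subgroup G} {u : G} (hu : u * u = 1) (huX : ∀ x ∈ X, u * x * u⁻¹ ∈ X)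
    (hC : X ⊓ centralizer ({u} : Set G) = ⊥) : ∀ x ∈ X, u * x * u⁻¹ = x⁻¹ :=
  Cfsg.Agent.S3246.conj_inv_of_free hu (mem_normalizer_of_conj huX) hC

theorem eq_one_of_sq {X : Subgroup G} (hX : Odd (Nat.card X)) {x : G} (hx : x ∈ X) (h : x ^ 2 = 1) : x = 1 :=
  orderOf_eq_one_iff.1 (Nat.eq_one_of_dvd_coprimes (Nat.coprime_two_left.2 hX)
    (orderOf_dvd_of_pow_eq_one h) (orderOf_mk x hx ▸ orderOf_dvd_natCard (⟨x, hx⟩ : X)))

theorem three {X : Subgroup G} (hX : Odd (Nat.card X)) {u v : G} (hu : u * u = 1) (hv : v * v = 1)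
    (huv : u * v = v * u) (huX : ∀ x ∈ X, u * x * u⁻¹ ∈ X) (hvX : ∀ x ∈ X, v * x * v⁻¹ ∈ X)
    (h1 : X ⊓ centralizer ({u} : Set G) = ⊥) (h2 : X ⊓ centralizer ({v} : Set G) = ⊥)
    (h3 : X ⊓ centralizer ({u * v} : Set G) = ⊥) : X = ⊥ := by
  refine (eq_bot_iff_forall _).2 fun x hx => ?_
  have e1 := conj_inv_free hu huX h1
  have e2 := conj_inv_free hv hvX h2
  have e : u * v * x * (u * v)⁻¹ = x := by
    rw [show u * v * x * (u * v)⁻¹ = u * (v * x * v⁻¹) * u⁻¹ by group, e2 x hx, e1 _ (X.inv_mem hx), inv_inv]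
  have : x ∈ X ⊓ centralizer ({u * v} : Set G) :=
    ⟨hx, mem_centralizer_singleton_iff.2 (mul_inv_eq_iff_eq_mul.1 e).symm⟩
  rwa [h3, mem_bot] at this

/-- Two abelian odd groups inverted by `z` with `t` and `t * z` as their fixing involutions commute. -/
theorem th_commute (hcon : ∀ T : Subgroup G, IsPGroup 2 ↥T → T ≠ ⊥ →
      Cfsg.IsPConstrained 2 ↥(normalizer (T : Set G)))
    {z t r : G} (hz : z * z = 1) (ht : t * t = 1) (hr : r * r = 1) (hzt : z * t = t * z)
    (hzr : z * r = r * z) (htr : t * r = r * t) (hr1 : r ≠ 1) (hrz : r ≠ z) (hrt : r ≠ t)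
    (hrtz : r ≠ t * z)
    (hinv : ∀ a, a * a = 1 → a ≠ 1 → z * a = a * z → ∀ x ∈ th a, z * x * z⁻¹ = x⁻¹) (ht1 : t ≠ 1) (htz : t ≠ z)
    {x w : G} (hx : x ∈ th t) (hw : w ∈ th (t * z)) : x * w = w * x := by
  have hsq : ∀ {a b : G}, a * a = 1 → b * b = 1 → a * b = b * a → a * b * (a * b) = 1 := by
    intro a b ha hb hab
    rw [show a * b * (a * b) = a * (b * a) * b by group, ← hab,
      show a * (a * b) * b = (a * a) * (b * b) by group, ha, hb, one_mul]
  have hne : ∀ {a b : G}, b * b = 1 → a ≠ b → a * b ≠ 1 := by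
    intro a b hb hab e
    exact hab (by rw [mul_eq_one_iff_eq_inv] at e; rw [e]; exact inv_eq_of_mul_eq_one_right hb)
  have hord : ∀ {a : G}, a * a = 1 → a ≠ 1 → orderOf a = 2 := fun h h1 =>
    orderOf_eq_prime (by rw [pow_two]; exact h) h1
  have hrzo := hsq hr hz hzr.symm
  have htzo := hsq ht hz hzt.symm
  have htro := hsq ht hr htr
  have hzt' : z * (t * z) = t * z * z := by rw [← mul_assoc, hzt]
  have htzr : t * z * r = r * (t * z) := by rw [mul_assoc, hzr, ← mul_assoc, htr, mul_assoc]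
  have htrz : z * (t * r) = t * r * z := by rw [← mul_assoc, hzt, mul_assoc, hzr, mul_assoc]
  have hab : ∀ a, a * a = 1 → a ≠ 1 → z * a = a * z → ∀ p ∈ th a, ∀ q ∈ th a, p * q = q * p := by
    intro a ha ha1 hza p hp q hq
    have e := hinv a ha ha1 hza
    have h1 : z * (p * q) * z⁻¹ = (p * q)⁻¹ := e _ ((th a).mul_mem hp hq)
    rw [show z * (p * q) * z⁻¹ = (z * p * z⁻¹) * (z * q * z⁻¹) by group, e p hp, e q hq, mul_inv_rev] at h1
    calc p * q = (q⁻¹ * p⁻¹)⁻¹ := by group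
      _ = (p⁻¹ * q⁻¹)⁻¹ := by rw [h1]
      _ = q * p := by group
  -- splitting of a square
  have hsplit : ∀ a, a * a = 1 → a ≠ 1 → z * a = a * z → r * a = a * r → ∀ p ∈ th a,
      ∃ p1 ∈ th a, ∃ p2 ∈ th a, p ^ 2 = p1 * p2 ∧ r * p1 * r⁻¹ = p1 ∧ r * z * p2 * (r * z)⁻¹ = p2 := by
    intro a ha ha1 hza hra p hp
    have hrp : r * p * r⁻¹ ∈ th a := th_normalized hra p hp
    have hrr : ∀ q, r * (r * q * r⁻¹) * r⁻¹ = q := fun q => by
      rw [show r⁻¹ = r from inv_eq_of_mul_eq_one_right hr,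
        show r * (r * q * r) * r = (r * r) * q * (r * r) by group, hr, one_mul, mul_one]
    refine ⟨p * (r * p * r⁻¹), (th a).mul_mem hp hrp, p * (r * p * r⁻¹)⁻¹,
      (th a).mul_mem hp ((th a).inv_mem hrp), ?_, ?_, ?_⟩
    · rw [pow_two, hab a ha ha1 hza p hp _ ((th a).inv_mem hrp)]
      group
    · rw [show r * (p * (r * p * r⁻¹)) * r⁻¹ = (r * p * r⁻¹) * (r * (r * p * r⁻¹) * r⁻¹) by group, hrr]
      exact hab a ha ha1 hza _ hrp p hp
    · set q := p * (r * p * r⁻¹)⁻¹ with hq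
      have hqm : q ∈ th a := (th a).mul_mem hp ((th a).inv_mem hrp)
      rw [show r * z * q * (r * z)⁻¹ = r * (z * q * z⁻¹) * r⁻¹ by group, hinv a ha ha1 hza q hqm]
      have : r * q⁻¹ * r⁻¹ = (r * (r * p * r⁻¹) * r⁻¹) * (r * p * r⁻¹)⁻¹ := by rw [hq]; group
      rw [this, hrr]
  obtain ⟨x1, hx1, x2, hx2, hxe, hx1f, hx2f⟩ := hsplit t ht ht1 hzt htr.symm x hx
  obtain ⟨w1, hw1, w2, hw2, hwe, hw1f, hw2f⟩ :=
    hsplit (t * z) htzo (hne hz htz) hzt' htzr.symm w hw
  have hfix : ∀ {a p : G}, a * p * a⁻¹ = p → p ∈ centralizer ({a} : Set G) := fun h =>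
    mem_centralizer_singleton_iff.2 (mul_inv_eq_iff_eq_mul.1 h).symm
  have hth : ∀ {a p : G}, p ∈ th a → a * p * a⁻¹ = p := fun h =>
    mul_inv_eq_iff_eq_mul.2 (mem_centralizer_singleton_iff.1 (th_le _ h)).symm
  have hro := hord hr hr1
  have hrz1 := hne hz hrz
  have hrzc : r * z * (t * r) = t * r * (r * z) := by
    rw [show r * z * (t * r) = r * (z * (t * r)) by group, htrz]
    rw [show r * (t * r * z) = (r * t) * (r * z) by group, ← htr]
  have hrc : r * (t * r) = t * r * r := by rw [← mul_assoc, ← htr]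
  have htr1 : t * r ≠ 1 := hne hr hrt.symm
  -- both parts in a common abelian core
  have a11 : x1 * w1 = w1 * x1 := hab r hr hr1 hzr _
    (balance hcon ht hro htr ⟨hx1, hfix hx1f⟩) _ (balance hcon htzo hro htzr ⟨hw1, hfix hw1f⟩)
  have a22 : x2 * w2 = w2 * x2 := by
    have hc : t * (r * z) = r * z * t := by rw [← mul_assoc, htr, mul_assoc, ← hzt, mul_assoc]
    have hc' : t * z * (r * z) = r * z * (t * z) := by
      rw [← mul_assoc, htzr, mul_assoc r (t * z) z, ← hzt', mul_assoc]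
    exact hab (r * z) hrzo hrz1 (by rw [← mul_assoc, hzr]) _
      (balance hcon ht (hord hrzo hrz1) hc ⟨hx2, hfix hx2f⟩) _
      (balance hcon htzo (hord hrzo hrz1) hc' ⟨hw2, hfix hw2f⟩)
  have cross : ∀ {p q : G}, p ∈ th r → t * p * t⁻¹ = p → q ∈ th (r * z) → t * z * q * (t * z)⁻¹ = q →
      p * q = q * p := by
    intro p q hp hpt hq hqt
    refine hab (t * r) htro htr1 htrz _ (balance hcon hr (hord htro htr1) hrc ⟨hp, hfix ?_⟩) _
      (balance hcon hrzo (hord htro htr1) hrzc ⟨hq, hfix ?_⟩)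
    · rw [show t * r * p * (t * r)⁻¹ = t * (r * p * r⁻¹) * t⁻¹ by group, hth hp, hpt]
    · have e : t * r = t * z * (r * z) := by
        rw [show t * z * (r * z) = t * (z * r) * z by group, hzr,
          show t * (r * z) * z = t * r * (z * z) by group, hz, mul_one]
      rw [e, show t * z * (r * z) * q * (t * z * (r * z))⁻¹ = t * z * (r * z * q * (r * z)⁻¹) * (t * z)⁻¹ by group,
        hth hq, hqt]
  have cross' : ∀ {p q : G}, p ∈ th r → t * z * p * (t * z)⁻¹ = p → q ∈ th (r * z) → t * q * t⁻¹ = q →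
      p * q = q * p := by
    intro p q hp hpt hq hqt
    have htzr1 : t * z * r ≠ 1 := hne hr hrtz.symm
    have htzro : t * z * r * (t * z * r) = 1 := hsq htzo hr htzr
    have hcz : z * (t * z * r) = t * z * r * z := by
      rw [← mul_assoc, hzt', mul_assoc (t * z) z r, hzr, ← mul_assoc]
    have hc1 : r * (t * z * r) = t * z * r * r := by rw [← mul_assoc, ← htzr]
    have hc2 : r * z * (t * z * r) = t * z * r * (r * z) := by
      rw [mul_assoc r z, hcz, ← mul_assoc r, hc1, mul_assoc]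
    refine hab (t * z * r) htzro htzr1 hcz _ (balance hcon hr (hord htzro htzr1) hc1 ⟨hp, hfix ?_⟩) _
      (balance hcon hrzo (hord htzro htzr1) hc2 ⟨hq, hfix ?_⟩)
    · rw [show t * z * r * p * (t * z * r)⁻¹ = t * z * (r * p * r⁻¹) * (t * z)⁻¹ by group, hth hp, hpt]
    · have e : t * z * r = t * (r * z) := by rw [mul_assoc, hzr]
      rw [e, show t * (r * z) * q * (t * (r * z))⁻¹ = t * (r * z * q * (r * z)⁻¹) * t⁻¹ by group, hth hq, hqt]
  have a12 : x1 * w2 = w2 * x1 := by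
    have hc' : t * z * (r * z) = r * z * (t * z) := by
      rw [← mul_assoc, htzr, mul_assoc r (t * z) z, ← hzt', mul_assoc]
    exact cross (balance hcon ht hro htr ⟨hx1, hfix hx1f⟩) (hth hx1)
      (balance hcon htzo (hord hrzo hrz1) hc' ⟨hw2, hfix hw2f⟩) (hth hw2)
  have a21 : x2 * w1 = w1 * x2 := by
    have hc : t * (r * z) = r * z * t := by rw [← mul_assoc, htr, mul_assoc, ← hzt, mul_assoc]
    exact (cross' (balance hcon htzo hro htzr ⟨hw1, hfix hw1f⟩) (hth hw1)
      (balance hcon ht (hord hrzo hrz1) hc ⟨hx2, hfix hx2f⟩) (hth hx2)).symm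
  have hc2 : Commute (x ^ 2) (w ^ 2) := by
    rw [hxe, hwe]
    exact Commute.mul_left (Commute.mul_right a11 a12) (Commute.mul_right a21 a22)
  have hox : (2 : ℕ).Coprime (orderOf x) := Nat.coprime_two_left.2
    ((th_odd t).of_dvd_nat (orderOf_mk x hx ▸ orderOf_dvd_natCard (⟨x, hx⟩ : th t)))
  have how : (2 : ℕ).Coprime (orderOf w) := Nat.coprime_two_left.2
    ((th_odd _).of_dvd_nat (orderOf_mk w hw ▸ orderOf_dvd_natCard (⟨w, hw⟩ : th (t * z))))
  obtain ⟨i, hi⟩ := exists_pow_eq_self_of_coprime hox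
  obtain ⟨j, hj⟩ := exists_pow_eq_self_of_coprime how
  rw [← hi, ← hj]
  exact (hc2.pow_pow i j).eq

section Main

variable (S : Sylow 2 G) (A : Subgroup G) (hA : Cfsg.IsSCN (S : Subgroup G) A) (hA3 : ¬ Cfsg.PRankLE 2 2 ↥A)
  (hinv : ∀ X : Subgroup G, Odd (Nat.card ↥X) → (S : Subgroup G) ≤ Subgroup.normalizer (X : Set G) → X = ⊥)
  (hcon : ∀ T : Subgroup G, IsPGroup 2 ↥T → T ≠ ⊥ → Cfsg.IsPConstrained 2 ↥(Subgroup.normalizer (T : Set G)))

include hinv in
theorem th_central {z : G} (hzc : ∀ s ∈ (S : Subgroup G), s * z = z * s) : th z = ⊥ :=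
  hinv _ (th_odd z) fun s hs => mem_normalizer_of_conj (th_normalized (hzc s hs))

include hA hA3 in
/-- A normal elementary abelian subgroup of order at least eight with a distinguished four group. -/
theorem exists_elementary :
    ∃ (W : Subgroup G) (z t r : G), W ≤ (S : Subgroup G) ∧ (∀ s ∈ (S : Subgroup G), ∀ a ∈ W, s * a * s⁻¹ ∈ W) ∧
      (∀ a ∈ W, a * a = 1) ∧ (∀ a ∈ W, ∀ b ∈ W, a * b = b * a) ∧ z ∈ W ∧ z ≠ 1 ∧
      (∀ s ∈ (S : Subgroup G), s * z = z * s) ∧ t ∈ W ∧ t ≠ 1 ∧ t ≠ z ∧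
      (∀ s ∈ (S : Subgroup G), s * t * s⁻¹ = t ∨ s * t * s⁻¹ = t * z) ∧
      r ∈ W ∧ r ≠ 1 ∧ r ≠ z ∧ r ≠ t ∧ r ≠ t * z ∧ 4 < Nat.card W := by
  classical
  obtain ⟨hAS, hSA, hAC⟩ := hA
  have hAab : ∀ a ∈ A, ∀ b ∈ A, a * b = b * a := by
    intro a ha b hb
    rw [← hAC] at hb
    exact mem_centralizer_iff.1 hb.2 a ha
  let W : Subgroup G :=
    { carrier := {a | a ∈ A ∧ a * a = 1}
      one_mem' := ⟨A.one_mem, mul_one 1⟩
      mul_mem' := by
        rintro a b ⟨ha, ha2⟩ ⟨hb, hb2⟩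
        refine ⟨A.mul_mem ha hb, ?_⟩
        rw [show a * b * (a * b) = a * (b * a) * b by group, ← hAab a ha b hb,
          show a * (a * b) * b = (a * a) * (b * b) by group, ha2, hb2, one_mul]
      inv_mem' := by
        rintro a ⟨ha, ha2⟩
        exact ⟨A.inv_mem ha, by rw [← mul_inv_rev, ha2, inv_one]⟩ }
  have hWS : W ≤ (S : Subgroup G) := fun a ha => hAS ha.1
  have hW4 : 4 < Nat.card W := by
    rw [Cfsg.PRankLE] at hA3
    push Not at hA3
    obtain ⟨E, hE, hE2, hEc⟩ := hA3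
    refine lt_of_lt_of_le (by simpa using hEc) ?_
    refine Nat.card_le_card_of_injective (fun x : E => (⟨((x : A) : G), (x : A).2, ?_⟩ : W)) ?_
    · have := congrArg Subtype.val (hE2 x x.2)
      simpa [pow_two] using this
    · intro a b e
      exact Subtype.ext (Subtype.ext (congrArg (fun w : W => (w : G)) e))
  have hWn : ∀ s ∈ (S : Subgroup G), ∀ a ∈ W, s * a * s⁻¹ ∈ W := by
    intro s hs a ha
    refine ⟨(mem_normalizer_iff.1 (hSA hs) a).1 ha.1, ?_⟩
    rw [show s * a * s⁻¹ * (s * a * s⁻¹) = s * (a * a) * s⁻¹ by group, ha.2]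
    group
  set WS := W.subgroupOf (S : Subgroup G) with hWSd
  haveI : WS.Normal := ⟨fun a ha g => hWn g g.2 a ha⟩
  have hWScard : Nat.card WS = Nat.card W := Nat.card_congr (subgroupOfEquivOfLe hWS).toEquiv
  have hWSne : WS ≠ ⊥ := fun e => by rw [e, card_bot] at hWScard; omega
  obtain ⟨⟨z, hzS⟩, hz, hz1⟩ := (bot_or_exists_ne_one (WS ⊓ center ↥(S : Subgroup G))).resolve_left
    (Cfsg.Lib.Transfer.inf_center_ne_bot S.isPGroup' WS hWSne)
  have hzW : z ∈ W := hz.1
  have hzG1 : z ≠ 1 := fun e => hz1 (Subtype.ext e)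
  have hzo : orderOf z = 2 := orderOf_eq_prime (by rw [pow_two]; exact hzW.2) hzG1
  have hzc : ∀ s ∈ (S : Subgroup G), s * z = z * s := fun s hs =>
    congrArg Subtype.val (mem_center_iff.1 hz.2 ⟨s, hs⟩)
  set Z := zpowers (⟨z, hzS⟩ : ↥(S : Subgroup G)) with hZd
  haveI : Z.Normal := by
    refine ⟨fun a ha g => ?_⟩
    obtain ⟨n, rfl⟩ := mem_zpowers_iff.1 ha
    have hc : Commute g ((⟨z, hzS⟩ : ↥(S : Subgroup G)) ^ n) :=
      Commute.zpow_right (show Commute g ⟨z, hzS⟩ from Subtype.ext (hzc g g.2)) n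
    rw [hc.eq, mul_inv_cancel_right]
    exact zpow_mem (mem_zpowers _) n
  set π := QuotientGroup.mk' Z
  haveI : (WS.map π).Normal := Subgroup.Normal.map inferInstance π (QuotientGroup.mk'_surjective Z)
  have hne : WS.map π ≠ ⊥ := by
    rw [Ne, Subgroup.map_eq_bot_iff, QuotientGroup.ker_mk']
    intro hle
    have := card_le_of_le hle
    rw [hWScard, hZd, Nat.card_zpowers, Subgroup.orderOf_mk, hzo] at this
    omega
  obtain ⟨q, hq, hq1⟩ := (bot_or_exists_ne_one (WS.map π ⊓ center _)).resolve_left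
    (Cfsg.Lib.Transfer.inf_center_ne_bot (S.isPGroup'.to_quotient Z) (WS.map π) hne)
  obtain ⟨⟨t, htS⟩, htW, rfl⟩ := hq.1
  have htW' : t ∈ W := htW
  have hmem : ∀ y ∈ Z, (y : G) = 1 ∨ (y : G) = z := by
    intro y hy
    obtain ⟨n, rfl⟩ := mem_zpowers_iff.1 hy
    rw [← zpow_mod_orderOf, Subgroup.orderOf_mk, hzo]
    rcases Int.emod_two_eq_zero_or_one n with e | e <;> simp [e]
  have htne : ∀ y, y = 1 ∨ y = z → t ≠ y := by
    rintro y (rfl | rfl) rfl
    · exact hq1 (map_one π)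
    · exact hq1 ((QuotientGroup.eq_one_iff _).2 (mem_zpowers _))
  have hconj : ∀ s ∈ (S : Subgroup G), s * t * s⁻¹ = t ∨ s * t * s⁻¹ = t * z := by
    intro s hs
    have := mem_center_iff.1 hq.2 (π ⟨s, hs⟩)
    rw [← map_mul, ← map_mul, QuotientGroup.mk'_apply, QuotientGroup.mk'_apply, QuotientGroup.eq] at this
    rcases hmem _ this with e | e
    · left
      have e' : (s * t)⁻¹ * (t * s) = 1 := e
      rw [inv_mul_eq_one] at e'
      rw [e', mul_inv_cancel_right]
    · right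
      have e' : (s * t)⁻¹ * (t * s) = z := e
      have : t * s = s * t * z := by rw [← e']; group
      have hz' : s * t = t * s * z := by
        rw [this, mul_assoc, hzW.2, mul_one]
      rw [hz', mul_assoc t s z, hzc s hs, ← mul_assoc, mul_inv_cancel_right]
  -- a further element
  obtain ⟨r, hr, hr'⟩ : ∃ r ∈ W, r ∉ ({1, z, t, t * z} : Finset G) := by
    by_contra hcon'
    push Not at hcon'
    classical
    have := Nat.card_le_card_of_injective
      (fun x : W => (⟨x.1, hcon' x x.2⟩ : {y : G // y ∈ ({1, z, t, t * z} : Finset G)}))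
      (fun a b e => Subtype.ext (congrArg (fun q : {y : G // y ∈ ({1, z, t, t * z} : Finset G)} => q.1) e))
    rw [Nat.card_eq_finsetCard] at this
    have h4 : ({1, z, t, t * z} : Finset G).card ≤ 4 := Finset.card_le_four
    omega
  simp only [Finset.mem_insert, Finset.mem_singleton, not_or] at hr'
  exact ⟨W, z, t, r, hWS, hWn, fun a ha => ha.2, fun a ha b hb => hAab a ha.1 b hb.1, hzW, hzG1, hzc,
    htW', htne 1 (Or.inl rfl), htne z (Or.inr rfl), hconj, hr, hr'.1, hr'.2.1, hr'.2.2.1, hr'.2.2.2, hW4⟩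

include hA hA3 hinv hcon in
theorem core_free {u : G} (hu : orderOf u = 2) : Good (centralizer ({u} : Set G)) := by
  obtain ⟨W, z, t, r, hWS, hWn, hW2, hWab, hzW, hz1, hzc, htW, ht1, htz, htc, hrW, hr1, hrz, hrt, hrtz, hW4⟩ :=
    exists_elementary S A hA hA3
  have hord : ∀ {a : G}, a * a = 1 → a ≠ 1 → orderOf a = 2 := fun h h1 =>
    orderOf_eq_prime (by rw [pow_two]; exact h) h1
  have hzb := th_central S hinv hzc
  have hzo := hord (hW2 z hzW) hz1
  have hfreez : ∀ a, a * a = 1 → a * z = z * a → th a ⊓ centralizer ({z} : Set G) = ⊥ := fun a ha hc =>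
    le_bot_iff.1 (hzb ▸ balance hcon ha hzo hc)
  have hzinv : ∀ a, a * a = 1 → a ≠ 1 → z * a = a * z → ∀ x ∈ th a, z * x * z⁻¹ = x⁻¹ := fun a ha _ hc =>
    conj_inv_free (hW2 z hzW) (th_normalized hc) (hfreez a ha hc.symm)
  have hzt := hWab z hzW t htW
  -- the two cores at `t` and `t * z` vanish
  have hcomm : ∀ x ∈ th t, ∀ w ∈ th (t * z), x * w = w * x := fun x hx w hw =>
    th_commute hcon (hW2 z hzW) (hW2 t htW) (hW2 r hrW) hzt (hWab z hzW r hrW) (hWab t htW r hrW)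
      hr1 hrz hrt hrtz hzinv ht1 htz hx hw
  let Y : Subgroup G :=
    { carrier := {y | ∃ x ∈ th t, ∃ w ∈ th (t * z), y = x * w}
      one_mem' := ⟨1, one_mem _, 1, one_mem _, (mul_one 1).symm⟩
      mul_mem' := by
        rintro _ _ ⟨x, hx, w, hw, rfl⟩ ⟨x', hx', w', hw', rfl⟩
        refine ⟨x * x', (th t).mul_mem hx hx', w * w', (th _).mul_mem hw hw', ?_⟩
        calc x * w * (x' * w') = x * (w * x') * w' := by group
          _ = x * (x' * w) * w' := by rw [← hcomm x' hx' w hw]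
          _ = x * x' * (w * w') := by group
      inv_mem' := by
        rintro _ ⟨x, hx, w, hw, rfl⟩
        refine ⟨x⁻¹, (th t).inv_mem hx, w⁻¹, (th _).inv_mem hw, ?_⟩
        rw [mul_inv_rev]
        exact (hcomm _ ((th t).inv_mem hx) _ ((th _).inv_mem hw)).symm }
  have hYodd : Odd (Nat.card Y) := by
    let f : th t × th (t * z) →* G :=
      { toFun := fun p => (p.1 : G) * p.2
        map_one' := mul_one 1
        map_mul' := fun p q => by
          show ((p.1 : G) * q.1) * ((p.2 : G) * q.2) = (p.1 : G) * p.2 * ((q.1 : G) * q.2)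
          calc ((p.1 : G) * q.1) * ((p.2 : G) * q.2) = (p.1 : G) * ((q.1 : G) * p.2) * q.2 := by group
            _ = (p.1 : G) * ((p.2 : G) * q.1) * q.2 := by rw [hcomm _ q.1.2 _ p.2.2]
            _ = _ := by group }
    have hle : Y ≤ f.range := by
      rintro _ ⟨x, hx, w, hw, rfl⟩
      exact ⟨(⟨x, hx⟩, ⟨w, hw⟩), rfl⟩
    refine Odd.of_dvd_nat ?_ ((card_dvd_of_le hle).trans (card_range_dvd f))
    rw [Nat.card_prod]
    exact (th_odd t).mul (th_odd _)
  have hYbot : Y = ⊥ := by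
    refine hinv Y hYodd fun s hs => mem_normalizer_of_conj ?_
    rintro _ ⟨x, hx, w, hw, rfl⟩
    have h1 := th_conj t s x hx
    have h2 := th_conj (t * z) s w hw
    have e2 : s * (t * z) * s⁻¹ = (s * t * s⁻¹) * z := by
      rw [show s * (t * z) * s⁻¹ = (s * t * s⁻¹) * (s * z * s⁻¹) by group,
        mul_inv_eq_iff_eq_mul.2 (hzc s hs)]
    rw [e2] at h2
    rcases htc s hs with e | e <;> rw [e] at h1 h2
    · exact ⟨_, h1, _, h2, by group⟩
    · rw [mul_assoc, hW2 z hzW, mul_one] at h2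
      refine ⟨_, h2, _, h1, ?_⟩
      rw [show s * (x * w) * s⁻¹ = (s * x * s⁻¹) * (s * w * s⁻¹) by group]
      exact (hcomm _ h2 _ h1).symm
  have htb : th t = ⊥ := (eq_bot_iff_forall _).2 fun x hx => by
    have : x ∈ Y := ⟨x, hx, 1, one_mem _, (mul_one x).symm⟩
    rwa [hYbot, mem_bot] at this
  have htzb : th (t * z) = ⊥ := (eq_bot_iff_forall _).2 fun x hx => by
    have : x ∈ Y := ⟨1, one_mem _, x, hx, (one_mul x).symm⟩
    rwa [hYbot, mem_bot] at this
  have hfree : ∀ {a b : G}, a * a = 1 → b * b = 1 → b ≠ 1 → a * b = b * a → th b = ⊥ →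
      th a ⊓ centralizer ({b} : Set G) = ⊥ := fun ha hb hb1 hc hbot =>
    le_bot_iff.1 (hbot ▸ balance hcon ha (hord hb hb1) hc)
  have hW : ∀ a ∈ W, a ≠ 1 → th a = ⊥ := by
    intro a ha ha1
    have htz1 : t * z ≠ 1 := fun e => htz (by
      rw [mul_eq_one_iff_eq_inv] at e; rw [e]; exact inv_eq_of_mul_eq_one_right (hW2 z hzW))
    refine three (th_odd a) (hW2 z hzW) (hW2 t htW) hzt (th_normalized (hWab z hzW a ha))
      (th_normalized (hWab t htW a ha)) (hfreez a (hW2 a ha) (hWab a ha z hzW))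
      (hfree (hW2 a ha) (hW2 t htW) ht1 (hWab a ha t htW) htb) ?_
    rw [hzt]
    exact hfree (hW2 a ha) (hW2 _ (W.mul_mem htW hzW)) htz1 (hWab a ha _ (W.mul_mem htW hzW)) htzb
  have hSu : ∀ v ∈ (S : Subgroup G), orderOf v = 2 → th v = ⊥ := by
    intro v hv hvo
    have hv2 : v * v = 1 := by
      have := pow_orderOf_eq_one v
      rwa [hvo, pow_two] at this
    let f : W →* W :=
      { toFun := fun a => ⟨v * a * v⁻¹ * (a : G)⁻¹, W.mul_mem (hWn v hv a a.2) (W.inv_mem a.2)⟩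
        map_one' := Subtype.ext (by simp)
        map_mul' := fun a b => Subtype.ext (by
          show v * ((a : G) * b) * v⁻¹ * ((a : G) * b)⁻¹ = v * a * v⁻¹ * (a : G)⁻¹ * (v * b * v⁻¹ * (b : G)⁻¹)
          have hc := hWab _ (hWn v hv b b.2) _ (W.inv_mem b.2)
          have hc2 := hWab _ (W.mul_mem (hWn v hv b b.2) (W.inv_mem b.2)) _ (W.inv_mem a.2)
          calc v * ((a : G) * b) * v⁻¹ * ((a : G) * b)⁻¹
              = v * a * v⁻¹ * ((v * b * v⁻¹ * (b : G)⁻¹) * (a : G)⁻¹) := by group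
            _ = v * a * v⁻¹ * ((a : G)⁻¹ * (v * b * v⁻¹ * (b : G)⁻¹)) := by rw [hc2]
            _ = _ := by group) }
    have him : f.range ≤ f.ker := by
      rintro _ ⟨a, rfl⟩
      rw [MonoidHom.mem_ker]
      apply Subtype.ext
      show v * (v * a * v⁻¹ * (a : G)⁻¹) * v⁻¹ * (v * a * v⁻¹ * (a : G)⁻¹)⁻¹ = 1
      have hvi : v⁻¹ = v := inv_eq_of_mul_eq_one_right hv2
      have hai : (a : G)⁻¹ = a := inv_eq_of_mul_eq_one_right (hW2 a a.2)
      have hvav : v * (a : G) * v * (v * a * v) = 1 := by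
        rw [show v * (a : G) * v * (v * a * v) = v * ((a : G) * (v * v) * a) * v by group, hv2, mul_one,
          hW2 a a.2, mul_one, hv2]
      have hm : v * (a : G) * v ∈ W := by
        have := hWn v hv a a.2
        rwa [hvi] at this
      have hc : (a : G) * (v * a * v) = v * a * v * a := hWab a a.2 _ hm
      rw [hvi, hai, show v * (v * (a : G) * v * a) * v = (v * v) * a * (v * a * v) by group, hv2, one_mul,
        hc, mul_inv_cancel]
    have hmul : Nat.card f.ker * Nat.card f.range = Nat.card W := by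
      rw [← index_ker f]; exact f.ker.card_mul_index
    have hker : 3 ≤ Nat.card f.ker := by
      have := card_le_of_le him
      by_contra hlt
      push Not at hlt
      nlinarith
    obtain ⟨b, hbk, hb1, hbz⟩ : ∃ b : W, b ∈ f.ker ∧ b ≠ 1 ∧ (b : G) ≠ z := by
      by_contra hcon'
      push Not at hcon'
      classical
      have := Nat.card_le_card_of_injective
        (fun x : f.ker => (⟨x.1, by
          by_cases h : x.1 = 1
          · simp [h]
          · rw [show x.1 = ⟨z, hzW⟩ from Subtype.ext (hcon' x x.2 h)]; simp⟩ :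
          {y : W // y ∈ ({1, ⟨z, hzW⟩} : Finset W)}))
        (fun a b e => Subtype.ext (congrArg (fun q : {y : W // y ∈ ({1, ⟨z, hzW⟩} : Finset W)} => q.1) e))
      rw [Nat.card_eq_finsetCard] at this
      have h2 : ({1, ⟨z, hzW⟩} : Finset W).card ≤ 2 := Finset.card_le_two
      omega
    have hvb : v * (b : G) = b * v := by
      have := congrArg Subtype.val (MonoidHom.mem_ker.1 hbk)
      have h' : v * (b : G) * v⁻¹ * (b : G)⁻¹ = 1 := this
      exact mul_inv_eq_iff_eq_mul.1 (mul_inv_eq_one.1 h')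
    have hb1' : (b : G) ≠ 1 := fun e => hb1 (Subtype.ext e)
    have hzb1 : z * (b : G) ≠ 1 := fun e => hbz (by
      rw [mul_eq_one_iff_inv_eq] at e; rw [← e]; exact inv_eq_of_mul_eq_one_right (hW2 z hzW))
    refine three (th_odd v) (hW2 z hzW) (hW2 b b.2) (hWab z hzW b b.2)
      (th_normalized (hzc v hv).symm) (th_normalized hvb.symm) (hfreez v hv2 (hzc v hv))
      (hfree hv2 (hW2 b b.2) hb1' hvb (hW b b.2 hb1')) ?_
    refine hfree hv2 (hW2 _ (W.mul_mem hzW b.2)) hzb1 ?_ (hW _ (W.mul_mem hzW b.2) hzb1)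
    rw [← mul_assoc, hzc v hv, mul_assoc, hvb, mul_assoc]
  have hub : th u = ⊥ := by
    have hup : IsPGroup 2 (zpowers u) := IsPGroup.of_card (n := 1) (by rw [Nat.card_zpowers, hu, pow_one])
    obtain ⟨U, hU⟩ := hup.exists_le_sylow
    obtain ⟨g, hg⟩ := MulAction.exists_smul_eq G U S
    have hmem : g * u * g⁻¹ ∈ (S : Subgroup G) := by
      rw [← hg, Sylow.coe_subgroup_smul]
      exact Subgroup.smul_mem_pointwise_smul u (MulAut.conj g) _ (hU (mem_zpowers u))
    have hgo : orderOf (g * u * g⁻¹) = 2 := by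
      rw [← hu]; exact (MulAut.conj g).orderOf_eq u
    refine (eq_bot_iff_forall _).2 fun x hx => ?_
    have := th_conj u g x hx
    rw [hSu _ hmem hgo, mem_bot] at this
    simpa using this
  have hO : pPrimeCore 2 ↥(centralizer ({u} : Set G)) = ⊥ := by
    apply Subgroup.map_injective (subtype_injective _)
    rw [Subgroup.map_bot]; exact hub
  refine ⟨hO, (isPConstrained_iff_of_core_eq_bot hO).1 ?_⟩
  rw [← normalizer_zpowers_involution hu]
  refine hcon _ (IsPGroup.of_card (n := 1) (by rw [Nat.card_zpowers, hu, pow_one])) fun e => ?_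
  have := Nat.card_zpowers u
  rw [e, card_bot, hu] at this
  omega

end Main

theorem two_local_centralizer {u : G} (hu : orderOf u = 2) :
    Cfsg.IsTwoLocal (centralizer ({u} : Set G)) :=
  ⟨zpowers u, IsPGroup.of_card (n := 1) (by rw [Nat.card_zpowers, hu, pow_one]), fun e => by
    have := Nat.card_zpowers u
    rw [e, card_bot, hu] at this
    omega, (normalizer_zpowers_involution hu).symm⟩

theorem cyclic_involution_unique {H : Type*} [Group H] [Finite H] [IsCyclic H] {a b : H}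
    (ha : orderOf a = 2) (hb : orderOf b = 2) : a = b := by
  classical
  haveI := Fintype.ofFinite H
  have hle := IsCyclic.card_pow_eq_one_le (α := H) (n := 2) (by norm_num)
  by_contra hne
  have h3 : ({1, a, b} : Finset H).card = 3 := by
    rw [Finset.card_eq_three]
    exact ⟨1, a, b, fun e => by rw [← e, orderOf_one] at ha; omega,
      fun e => by rw [← e, orderOf_one] at hb; omega, hne, rfl⟩
  have hsub : ({1, a, b} : Finset H) ⊆ Finset.univ.filter fun x => x ^ 2 = 1 := by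
    intro x hx
    simp only [Finset.mem_insert, Finset.mem_singleton] at hx
    refine Finset.mem_filter.2 ⟨Finset.mem_univ x, ?_⟩
    rcases hx with rfl | rfl | rfl
    · simp
    · rw [← ha, pow_orderOf_eq_one]
    · rw [← hb, pow_orderOf_eq_one]
  have := (Finset.card_le_card hsub).trans hle
  omega

/-- Under the cyclic centre assumption a maximal 2-local is the centralizer of the involution in the
centre of one of its Sylow subgroups, which is Sylow in the whole group. -/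
theorem maximal_info (hgood : ∀ t : G, orderOf t = 2 → Good (centralizer ({t} : Set G)))
    (hcyc : ∀ M : Subgroup G, Cfsg.IsMaximalTwoLocal M → IsCyclic ↥(center ↥(pCore 2 ↥M)))
    {M : Subgroup G} (hM : Cfsg.IsMaximalTwoLocal M) (T0 : Sylow 2 M) :
    ∃ (T : Sylow 2 G) (u : G), (T : Subgroup G) = (T0 : Subgroup M).map M.subtype ∧ orderOf u = 2 ∧
      u ∈ (T : Subgroup G) ∧ (∀ s ∈ (T : Subgroup G), s * u = u * s) ∧
      M ≤ centralizer ({u} : Set G) ∧
      ∀ c ∈ (T : Subgroup G), orderOf c = 2 → (∀ s ∈ (T : Subgroup G), s * c = c * s) → c = u := by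
  obtain ⟨⟨P, hP, hPne, hPM⟩, hmax⟩ := hM
  have hgM : Good M := hPM ▸ good_two_local hgood P hP hPne
  haveI := hcyc M ⟨⟨P, hP, hPne, hPM⟩, hmax⟩
  set Q := pCore 2 ↥M with hQ
  haveI : Q.Normal := Cfsg.Lib.Transfer.pCore_normal 2
  set T' := (T0 : Subgroup M).map M.subtype with hT'
  have hQT : Q ≤ (T0 : Subgroup M) := Cfsg.Lib.Solv.pCore_le_sylow 2 T0
  have hPQ : P.subgroupOf M ≤ Q := by
    have hPM' : P ≤ M := hPM ▸ le_normalizer
    refine Cfsg.Lib.Solv.le_pCore ⟨fun x hx g => ?_⟩ (hP.of_equiv (subgroupOfEquivOfLe hPM').symm)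
    have hg : (g : G) ∈ normalizer (P : Set G) := hPM ▸ g.2
    exact (mem_normalizer_iff.1 hg (x : G)).1 hx
  have hTne : Nontrivial ↥(T0 : Subgroup M) := by
    rw [Subgroup.nontrivial_iff_ne_bot]
    intro e
    obtain ⟨x, hx, hx1⟩ := (bot_or_exists_ne_one P).resolve_left hPne
    have : (⟨x, hPM ▸ le_normalizer hx⟩ : M) ∈ (T0 : Subgroup M) := hQT (hPQ hx)
    rw [e, mem_bot] at this
    exact hx1 (congrArg Subtype.val this)
  haveI := hTne
  haveI := T0.isPGroup'.center_nontrivial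
  obtain ⟨c0, hc0⟩ := exists_prime_orderOf_dvd_card' (G := center ↥(T0 : Subgroup M)) 2 (by
    obtain ⟨n, hn0, hn⟩ := (T0.isPGroup'.to_subgroup (center ↥(T0 : Subgroup M))).nontrivial_iff_card.1 inferInstance
    rw [hn]; exact dvd_pow_self 2 hn0.ne')
  set u0 : M := ((c0 : ↥(T0 : Subgroup M)) : M) with hu0
  have hu0o : orderOf u0 = 2 := by rw [hu0, orderOf_coe, orderOf_coe, hc0]
  -- central elements of `T0` lie in the centre of `Q`
  have hcz : ∀ c : M, c ∈ (T0 : Subgroup M) → (∀ s ∈ (T0 : Subgroup M), s * c = c * s) →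
      c ∈ Q ∧ ∀ q ∈ Q, q * c = c * q := fun c _ hcc =>
    ⟨hgM.2 (mem_centralizer_iff.2 fun q hq => hcc q (hQT hq)), fun q hq => hcc q (hQT hq)⟩
  obtain ⟨hu0Q, hu0c⟩ := hcz u0 (c0 : ↥(T0 : Subgroup M)).2
    (fun s hs => congrArg Subtype.val (mem_center_iff.1 c0.2 ⟨s, hs⟩))
  have huniq : ∀ c : M, c ∈ Q → (∀ q ∈ Q, q * c = c * q) → orderOf c = 2 → c = u0 := by
    intro c hc hcc hco
    have e := cyclic_involution_unique (H := ↥(center ↥Q))
      (a := ⟨⟨c, hc⟩, mem_center_iff.2 fun q => Subtype.ext (hcc q q.2)⟩)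
      (b := ⟨⟨u0, hu0Q⟩, mem_center_iff.2 fun q => Subtype.ext (hu0c q q.2)⟩)
      (by rw [orderOf_mk, orderOf_mk, hco]) (by rw [orderOf_mk, orderOf_mk, hu0o])
    exact congrArg (fun y : ↥(center ↥Q) => ((y : ↥Q) : M)) e
  have hMc : M ≤ centralizer ({(u0 : G)} : Set G) := by
    intro g hg
    have hconj := huniq (⟨g, hg⟩ * u0 * ⟨g, hg⟩⁻¹) ((inferInstance : Q.Normal).conj_mem _ hu0Q _) (fun q hq => by
      have hq' : (⟨g, hg⟩ : M)⁻¹ * q * ⟨g, hg⟩ ∈ Q := by
        simpa using (inferInstance : Q.Normal).conj_mem q hq (⟨g, hg⟩ : M)⁻¹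
      have := hu0c _ hq'
      calc q * (⟨g, hg⟩ * u0 * (⟨g, hg⟩ : M)⁻¹) = ⟨g, hg⟩ * ((⟨g, hg⟩ : M)⁻¹ * q * ⟨g, hg⟩ * u0) * (⟨g, hg⟩ : M)⁻¹ := by group
        _ = ⟨g, hg⟩ * (u0 * ((⟨g, hg⟩ : M)⁻¹ * q * ⟨g, hg⟩)) * (⟨g, hg⟩ : M)⁻¹ := by rw [this]
        _ = _ := by group) ((MulAut.conj (⟨g, hg⟩ : M)).orderOf_eq u0 ▸ hu0o)
    exact mem_centralizer_singleton_iff.2 (congrArg Subtype.val (mul_inv_eq_iff_eq_mul.1 hconj))
  have huo : orderOf (u0 : G) = 2 := by rw [orderOf_coe]; exact hu0o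
  have hMeq : centralizer ({(u0 : G)} : Set G) = M := hmax _ (two_local_centralizer huo) hMc
  have hNT : normalizer (T' : Set G) ≤ M := by
    intro g hg
    have hu0T : (u0 : G) ∈ T' := mem_map_of_mem _ (c0 : ↥(T0 : Subgroup M)).2
    obtain ⟨w, hw, hwe⟩ : g * (u0 : G) * g⁻¹ ∈ T' := (mem_normalizer_iff.1 hg _).1 hu0T
    have hwc : ∀ s ∈ (T0 : Subgroup M), s * w = w * s := by
      intro s hs
      obtain ⟨s', hs', hse⟩ : g⁻¹ * (s : G) * g ∈ T' :=
        (mem_normalizer_iff''.1 hg _).1 (mem_map_of_mem _ hs)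
      have h' : (s' : G) * u0 = u0 * s' :=
        congrArg Subtype.val (congrArg Subtype.val (mem_center_iff.1 c0.2 ⟨s', hs'⟩))
      apply Subtype.ext
      show (s : G) * (w : G) = (w : G) * s
      have hwe' : (w : G) = g * u0 * g⁻¹ := hwe
      have hse' : (s : G) = g * s' * g⁻¹ := by
        have : (s' : G) = g⁻¹ * s * g := hse
        rw [this]; group
      rw [hwe', hse', show g * (s' : G) * g⁻¹ * (g * u0 * g⁻¹) = g * ((s' : G) * u0) * g⁻¹ by group, h']
      group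
    have hwo : orderOf w = 2 := by
      rw [← orderOf_coe, show (w : G) = g * u0 * g⁻¹ from hwe, ← huo]
      exact (MulAut.conj g).orderOf_eq _
    obtain ⟨hwQ, hwqc⟩ := hcz w hw hwc
    have hwu := huniq w hwQ hwqc hwo
    rw [← hMeq]
    refine mem_centralizer_singleton_iff.2 (mul_inv_eq_iff_eq_mul.1 ?_)
    exact hwe.symm.trans (congrArg Subtype.val hwu)
  obtain ⟨T, hT⟩ := (T0.isPGroup'.map M.subtype).exists_le_sylow
  have hTeq : (T : Subgroup G) = T' := by
    refine le_antisymm ?_ hT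
    by_contra hne
    have hlt : T'.subgroupOf (T : Subgroup G) < ⊤ :=
      lt_top_iff_ne_top.2 fun h => hne (subgroupOf_eq_top.1 h)
    haveI := T.isPGroup'.isNilpotent
    obtain ⟨x, hxN, hxT⟩ := SetLike.exists_of_lt
      (Group.normalizerCondition_of_isNilpotent (T'.subgroupOf (T : Subgroup G)) hlt)
    have hxN' : (x : G) ∈ normalizer (T' : Set G) := mem_normalizer_of_conj fun y hy =>
      mem_subgroupOf.1 ((mem_normalizer_iff.1 hxN ⟨y, hT hy⟩).1 (mem_subgroupOf.2 hy))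
    have hxM : (x : G) ∈ M := hNT hxN'
    set T'' := ((T : Subgroup G) ⊓ M).subgroupOf M with hT''
    have hle : (T0 : Subgroup M) ≤ T'' := fun y hy => ⟨hT (mem_map_of_mem _ hy), y.2⟩
    have hp : IsPGroup 2 T'' := (T.isPGroup'.to_le inf_le_left).of_equiv (subgroupOfEquivOfLe inf_le_right).symm
    have := T0.is_maximal' hp hle
    refine hxT (mem_subgroupOf.2 (mem_map.2 ⟨⟨x, hxM⟩, ?_, rfl⟩))
    rw [← this]
    exact ⟨x.2, hxM⟩
  refine ⟨T, u0, hTeq, huo, hTeq ▸ mem_map_of_mem _ (c0 : ↥(T0 : Subgroup M)).2, ?_, hMc, ?_⟩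
  · intro s hs
    exact mem_centralizer_singleton_iff.1 (hMc (map_subtype_le _ (hTeq ▸ hs)))
  · intro c hc hco hcc
    obtain ⟨w, hw, rfl⟩ : c ∈ T' := hTeq ▸ hc
    obtain ⟨hwQ, hwqc⟩ := hcz w hw fun s hs =>
      Subtype.ext (hcc _ (hTeq ▸ mem_map_of_mem _ hs))
    rw [show M.subtype w = (w : G) from rfl, orderOf_coe] at hco
    exact congrArg Subtype.val (huniq w hwQ hwqc hco)

theorem exists_maximal_above {N : Subgroup G} (hN : Cfsg.IsTwoLocal N) :
    ∃ M : Subgroup G, Cfsg.IsMaximalTwoLocal M ∧ N ≤ M := by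
  obtain ⟨M, hle, hM⟩ := (Set.toFinite {N : Subgroup G | Cfsg.IsTwoLocal N}).exists_le_maximal hN
  exact ⟨M, ⟨hM.1, fun K hK hle => le_antisymm (hM.2 hK hle) hle⟩, hle⟩


/-- Say that a finite group G is of characteristic 2 type in the early sense when a Sylow 2-subgroup S of G has a self-centralizing normal subgroup of rank at least 3, S normalizes no nontrivial subgroup of odd order, and every 2-local subgroup of G is 2-constrained. If G is a non-abelian simple group of characteristic 2 type in this sense, then for some maximal 2-local subgroup M of G the centre of O₂(M) is not cyclic. -/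
theorem result {G : Type*} [Group G] [Finite G] [IsSimpleGroup G]
    (hG : ¬ IsMulCommutative G) (S : Sylow 2 G) (A : Subgroup G) (hA : Cfsg.IsSCN (S : Subgroup G) A) (hA3 : ¬ Cfsg.PRankLE 2 2 ↥A)
    (hinv : ∀ X : Subgroup G, Odd (Nat.card ↥X) → (S : Subgroup G) ≤ Subgroup.normalizer (X : Set G) → X = ⊥)
    (hcon : ∀ T : Subgroup G, IsPGroup 2 ↥T → T ≠ ⊥ → Cfsg.IsPConstrained 2 ↥(Subgroup.normalizer (T : Set G))) :
    ∃ M : Subgroup G, Cfsg.IsMaximalTwoLocal M ∧ ¬ IsCyclic ↥(Subgroup.center ↥(Cfsg.pCore 2 ↥M)) := by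
  by_contra hno
  push Not at hno
  have hgood : ∀ t : G, orderOf t = 2 → Cfsg.Agent.S3246.Good (Subgroup.centralizer ({t} : Set G)) :=
    fun t ht => core_free S A hA hA3 hinv hcon ht
  obtain ⟨W, z, t, r, hWS, -, hW2, -, hzW, hz1, hzc, -⟩ := exists_elementary S A hA hA3
  have hzo : orderOf z = 2 := orderOf_eq_prime (by rw [pow_two]; exact hW2 z hzW) hz1
  have hzS : z ∈ (S : Subgroup G) := hWS hzW
  have hSC : (S : Subgroup G) ≤ Subgroup.centralizer ({z} : Set G) := fun s hs =>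
    Subgroup.mem_centralizer_singleton_iff.2 (hzc s hs)
  -- the unique central involution of `S`
  have huS : ∀ c ∈ (S : Subgroup G), orderOf c = 2 → (∀ s ∈ (S : Subgroup G), s * c = c * s) → c = z := by
    obtain ⟨M, hM, hle⟩ := exists_maximal_above (two_local_centralizer hzo)
    obtain ⟨T, u, hT, -, -, -, -, huniq⟩ := maximal_info hgood hno hM (S.subtype (hSC.trans hle))
    have hTS : (T : Subgroup G) = (S : Subgroup G) := by
      rw [hT, Sylow.coe_subtype, Subgroup.subgroupOf_map_subtype, inf_eq_left.2 (hSC.trans hle)]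
    intro c hc hco hcc
    rw [huniq c (hTS ▸ hc) hco (hTS ▸ hcc), huniq z (hTS ▸ hzS) hzo (hTS ▸ hzc)]
  -- every 2-local centralizes a conjugate of `z`
  have hlocal : ∀ N : Subgroup G, Cfsg.IsTwoLocal N →
      ∃ w : G, IsConj z w ∧ N ≤ Subgroup.centralizer ({w} : Set G) := by
    intro N hN
    obtain ⟨M, hM, hle⟩ := exists_maximal_above hN
    obtain ⟨T0⟩ := (inferInstance : Nonempty (Sylow 2 M))
    obtain ⟨T, u, hT, huo, huT, huc, hMu, -⟩ := maximal_info hgood hno hM T0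
    refine ⟨u, ?_, hle.trans hMu⟩
    obtain ⟨g, hg⟩ := MulAction.exists_smul_eq G T S
    have hmap : ∀ x, x ∈ (T : Subgroup G) ↔ g * x * g⁻¹ ∈ (S : Subgroup G) := fun x => by
      rw [← hg, Sylow.coe_subgroup_smul]
      exact (Subgroup.smul_mem_pointwise_smul_iff (a := MulAut.conj g)).symm
    have e := huS (g * u * g⁻¹) ((hmap u).1 huT) (huo ▸ (MulAut.conj g).orderOf_eq u) fun s hs => by
      have hs' : g⁻¹ * s * g ∈ (T : Subgroup G) := (hmap _).2 (by simpa [mul_assoc] using hs)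
      calc s * (g * u * g⁻¹) = g * ((g⁻¹ * s * g) * u) * g⁻¹ := by group
        _ = g * (u * (g⁻¹ * s * g)) * g⁻¹ := by rw [huc _ hs']
        _ = g * u * g⁻¹ * s := by group
    exact IsConj.symm (isConj_iff.2 ⟨g, e⟩)
  -- a conjugate of `z` in `S` different from `z`
  obtain ⟨g, hgc, hgne⟩ : ∃ g, Commute z (g * z * g⁻¹) ∧ g * z * g⁻¹ ≠ z := by
    by_contra hiso
    push Not at hiso
    have hsup := Cfsg.Lib.Invol.oddCore_sup_centralizer (z := z) ⟨hzo, hiso⟩
    have hOn : (Cfsg.oddCore G).Normal := Cfsg.Lib.Transfer.pPrimeCore_normal 2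
    rcases hOn.eq_bot_or_eq_top with e | e
    · rw [e, bot_sup_eq] at hsup
      have hzZ : z ∈ Subgroup.center G := Subgroup.mem_center_iff.2 fun h =>
        Subgroup.mem_centralizer_singleton_iff.1 (hsup ▸ Subgroup.mem_top h)
      rcases (inferInstance : (Subgroup.center G).Normal).eq_bot_or_eq_top with e' | e'
      · rw [e', Subgroup.mem_bot] at hzZ
        exact hz1 hzZ
      · exact hG ⟨⟨fun a b => (Subgroup.mem_center_iff.1 (e' ▸ Subgroup.mem_top b) a)⟩⟩
    · have hco := Cfsg.Lib.Solv.coprime_pPrimeCore (G := G) 2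
      rw [show Cfsg.pPrimeCore 2 G = ⊤ from e, Subgroup.card_top] at hco
      have h2 : 2 ∣ Nat.card G := hzo ▸ orderOf_dvd_natCard z
      have := Nat.eq_one_of_dvd_coprimes hco h2 (dvd_refl 2)
      omega
  have hgS : ∃ c ∈ Subgroup.centralizer ({z} : Set G), c * (g * z * g⁻¹) * c⁻¹ ∈ (S : Subgroup G) := by
    set C := Subgroup.centralizer ({z} : Set G)
    set w : C := ⟨g * z * g⁻¹, Subgroup.mem_centralizer_singleton_iff.2 hgc.eq.symm⟩
    have hwo : orderOf w = 2 := by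
      rw [← Subgroup.orderOf_coe]
      exact hzo ▸ (MulAut.conj g).orderOf_eq z
    obtain ⟨U, hU⟩ := (IsPGroup.of_card (p := 2) (n := 1) (G := Subgroup.zpowers w)
      (by rw [Nat.card_zpowers, hwo, pow_one])).exists_le_sylow
    obtain ⟨c, hc⟩ := MulAction.exists_smul_eq C U (S.subtype hSC)
    refine ⟨c, c.2, ?_⟩
    have h : c * w * c⁻¹ ∈ (S.subtype hSC : Subgroup C) := by
      rw [← hc, Sylow.coe_subgroup_smul]
      exact Subgroup.smul_mem_pointwise_smul w (MulAut.conj c) _ (hU (Subgroup.mem_zpowers w))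
    rw [Sylow.coe_subtype] at h
    exact h
  obtain ⟨c, hcC, hcS⟩ := hgS
  let cand : Set G := {x | x ∈ (S : Subgroup G) ∧ IsConj z x ∧ x ≠ z}
  have hne : cand.Nonempty := by
    refine ⟨_, hcS, isConj_iff.2 ⟨c * g, by group⟩, fun e => hgne ?_⟩
    have hcz := Subgroup.mem_centralizer_singleton_iff.1 hcC
    have e2 : c * z * c⁻¹ = z := by rw [hcz, mul_inv_cancel_right]
    exact mul_left_cancel (mul_right_cancel (e.trans e2.symm))
  obtain ⟨z1, ⟨hz1S, hz1c, hz1ne⟩, hmaxz⟩ := Set.exists_max_image cand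
    (fun x => Nat.card ↥((S : Subgroup G) ⊓ Subgroup.centralizer ({x} : Set G))) (Set.toFinite _) hne
  set R := (S : Subgroup G) ⊓ Subgroup.centralizer ({z1} : Set G) with hR
  have hz1o : orderOf z1 = 2 := by
    obtain ⟨k, rfl⟩ := isConj_iff.1 hz1c
    exact hzo ▸ (MulAut.conj k).orderOf_eq z
  have hzR : z ∈ R := ⟨hzS, Subgroup.mem_centralizer_singleton_iff.2 (hzc z1 hz1S).symm⟩
  have hRp : IsPGroup 2 R := S.isPGroup'.to_le inf_le_left
  -- a 2-group in `C(z) ⊓ C(z1)` containing `R` equals `R`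
  have hmaxR : ∀ U : Subgroup G, IsPGroup 2 U → R ≤ U → U ≤ Subgroup.centralizer ({z} : Set G) →
      U ≤ Subgroup.centralizer ({z1} : Set G) → U = R := by
    intro U hU hRU hUz hUz1
    set C := Subgroup.centralizer ({z} : Set G)
    obtain ⟨V, hV⟩ := (hU.of_equiv (Subgroup.subgroupOfEquivOfLe hUz).symm).exists_le_sylow
    obtain ⟨d, hd⟩ := MulAction.exists_smul_eq C V (S.subtype hSC)
    have hin : ∀ y ∈ U, (d : G) * y * (d : G)⁻¹ ∈ (S : Subgroup G) := by
      intro y hy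
      have h : d * ⟨y, hUz hy⟩ * d⁻¹ ∈ (S.subtype hSC : Subgroup C) := by
        rw [← hd, Sylow.coe_subgroup_smul]
        exact Subgroup.smul_mem_pointwise_smul _ (MulAut.conj d) _ (hV (Subgroup.mem_subgroupOf.2 hy))
      rw [Sylow.coe_subtype] at h
      exact h
    have hdz : (d : G) * z * (d : G)⁻¹ = z := by
      rw [Subgroup.mem_centralizer_singleton_iff.1 d.2, mul_inv_cancel_right]
    have hz1R : z1 ∈ R := ⟨hz1S, Subgroup.mem_centralizer_singleton_iff.2 rfl⟩
    have hx : (d : G) * z1 * (d : G)⁻¹ ∈ cand := ⟨hin _ (hRU hz1R),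
      hz1c.trans (isConj_iff.2 ⟨d, rfl⟩), fun e =>
        hz1ne (mul_left_cancel (mul_right_cancel (e.trans hdz.symm)))⟩
    have hle := hmaxz _ hx
    refine (Subgroup.eq_of_le_of_card_ge hRU ?_).symm
    refine le_trans ?_ hle
    refine Nat.card_le_card_of_injective (fun y : U => (⟨(d : G) * y * (d : G)⁻¹, hin y y.2,
      Subgroup.mem_centralizer_singleton_iff.2 ?_⟩ : ↥((S : Subgroup G) ⊓
        Subgroup.centralizer ({(d : G) * z1 * (d : G)⁻¹} : Set G)))) ?_
    · calc (d : G) * y * (d : G)⁻¹ * ((d : G) * z1 * (d : G)⁻¹) = (d : G) * ((y : G) * z1) * (d : G)⁻¹ := by group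
        _ = (d : G) * (z1 * y) * (d : G)⁻¹ := by rw [Subgroup.mem_centralizer_singleton_iff.1 (hUz1 y.2)]
        _ = _ := by group
    · intro a b e
      exact Subtype.ext (mul_left_cancel (mul_right_cancel (congrArg Subtype.val e)))
  have hNloc : Cfsg.IsTwoLocal (Subgroup.normalizer (R : Set G)) :=
    ⟨R, hRp, fun e => by rw [e, Subgroup.mem_bot] at hzR; exact hz1 hzR, rfl⟩
  obtain ⟨w, hzw, hNw⟩ := hlocal _ hNloc
  have hwR : ∀ y ∈ R, y * w = w * y := fun y hy =>
    Subgroup.mem_centralizer_singleton_iff.1 (hNw (Subgroup.le_normalizer hy))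
  have hwo : orderOf w = 2 := by
    obtain ⟨k, rfl⟩ := isConj_iff.1 hzw
    exact hzo ▸ (MulAut.conj k).orderOf_eq z
  have hwmem : w ∈ R := by
    have hwn : Subgroup.zpowers w ≤ Subgroup.normalizer (R : Set G) := Subgroup.zpowers_le.2
      (Subgroup.centralizer_le_normalizer _ (Subgroup.mem_centralizer_iff.2 hwR))
    have hU : IsPGroup 2 ↥(Subgroup.zpowers w ⊔ R) :=
      IsPGroup.to_sup_of_normal_right' (IsPGroup.of_card (n := 1) (by rw [Nat.card_zpowers, hwo, pow_one]))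
        hRp hwn
    have he := hmaxR _ hU le_sup_right
      (sup_le (Subgroup.zpowers_le.2 (Subgroup.mem_centralizer_singleton_iff.2 (hwR z hzR).symm))
        (inf_le_left.trans hSC))
      (sup_le (Subgroup.zpowers_le.2 (Subgroup.mem_centralizer_singleton_iff.2
        (hwR z1 ⟨hz1S, Subgroup.mem_centralizer_singleton_iff.2 rfl⟩).symm)) inf_le_right)
    exact he ▸ (le_sup_left : Subgroup.zpowers w ≤ Subgroup.zpowers w ⊔ R) (Subgroup.mem_zpowers w)
  -- strictly larger normalizers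
  have grow : ∀ T : Sylow 2 G, R ≤ (T : Subgroup G) → R ≠ (T : Subgroup G) →
      ∃ y, y ∈ (T : Subgroup G) ∧ y ∈ Subgroup.normalizer (R : Set G) ∧ y ∉ R := by
    intro T hRT hne'
    have hlt : R.subgroupOf (T : Subgroup G) < ⊤ :=
      lt_top_iff_ne_top.2 fun h => hne' (le_antisymm hRT (Subgroup.subgroupOf_eq_top.1 h))
    haveI := T.isPGroup'.isNilpotent
    obtain ⟨x, hxN, hxR⟩ := SetLike.exists_of_lt
      (Group.normalizerCondition_of_isNilpotent (R.subgroupOf (T : Subgroup G)) hlt)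
    exact ⟨x, x.2, mem_normalizer_of_conj fun y hy =>
      Subgroup.mem_subgroupOf.1 ((Subgroup.mem_normalizer_iff.1 hxN ⟨y, hRT hy⟩).1 (Subgroup.mem_subgroupOf.2 hy)),
      fun h => hxR (Subgroup.mem_subgroupOf.2 h)⟩
  have hRS : R ≠ (S : Subgroup G) := by
    intro e
    exact hz1ne (huS z1 hz1S hz1o fun s hs =>
      Subgroup.mem_centralizer_singleton_iff.1 (e.ge hs).2)
  have hwz : w = z := by
    by_contra hne'
    obtain ⟨y, hyS, hyN, hyR⟩ := grow S inf_le_left hRS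
    have hyw := Subgroup.mem_centralizer_singleton_iff.1 (hNw hyN)
    have hle := hmaxz w ⟨hwmem.1, hzw, hne'⟩
    have hsub : R < (S : Subgroup G) ⊓ Subgroup.centralizer ({w} : Set G) := by
      refine lt_of_le_of_ne (fun x hx => ⟨hx.1, Subgroup.mem_centralizer_singleton_iff.2 (hwR x hx)⟩) fun e => ?_
      exact hyR (e ▸ ⟨hyS, Subgroup.mem_centralizer_singleton_iff.2 hyw⟩)
    have h1 : Nat.card R < Nat.card ↥((S : Subgroup G) ⊓ Subgroup.centralizer ({w} : Set G)) := by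
      refine lt_of_le_of_ne (Subgroup.card_le_of_le hsub.le) fun e => hsub.ne ?_
      exact Subgroup.eq_of_le_of_card_ge hsub.le e.ge
    exact absurd hle (not_le.2 h1)
  rw [hwz] at hNw
  obtain ⟨k, hk⟩ := isConj_iff.1 hz1c
  have hSk : ∀ x, x ∈ ((k • S : Sylow 2 G) : Subgroup G) ↔ k⁻¹ * x * k ∈ (S : Subgroup G) := fun x => by
    rw [Sylow.coe_subgroup_smul, Subgroup.mem_pointwise_smul_iff_inv_smul_mem]
    simp [MulAut.smul_def]
  have hkc : ∀ x ∈ ((k • S : Sylow 2 G) : Subgroup G), x * z1 = z1 * x := by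
    intro x hx
    have := hzc _ ((hSk x).1 hx)
    rw [← hk]
    calc x * (k * z * k⁻¹) = k * ((k⁻¹ * x * k) * z) * k⁻¹ := by group
      _ = k * (z * (k⁻¹ * x * k)) * k⁻¹ := by rw [this]
      _ = k * z * k⁻¹ * x := by group
  set C1 := Subgroup.centralizer ({z1} : Set G)
  have hkle : ((k • S : Sylow 2 G) : Subgroup G) ≤ C1 := fun x hx =>
    Subgroup.mem_centralizer_singleton_iff.2 (hkc x hx)
  obtain ⟨U1, hU1⟩ := (hRp.of_equiv (Subgroup.subgroupOfEquivOfLe (inf_le_right : R ≤ C1)).symm).exists_le_sylow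
  have hU1c : Nat.card (U1 : Subgroup C1) = Nat.card (S : Subgroup G) := by
    rw [U1.card_eq_multiplicity, ← ((k • S : Sylow 2 G).subtype hkle).card_eq_multiplicity, Sylow.coe_subtype,
      Nat.card_congr (Subgroup.subgroupOfEquivOfLe hkle).toEquiv, (k • S : Sylow 2 G).card_eq_multiplicity,
      S.card_eq_multiplicity]
  set T1 := (U1 : Subgroup C1).map C1.subtype
  obtain ⟨T, hT⟩ := (U1.isPGroup'.map C1.subtype).exists_le_sylow
  have hTT : (T : Subgroup G) = T1 := (Subgroup.eq_of_le_of_card_ge hT (by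
    rw [Subgroup.card_map_of_injective C1.subtype_injective, hU1c, T.card_eq_multiplicity,
      S.card_eq_multiplicity])).symm
  have hRT : R ≤ (T : Subgroup G) := fun x hx => hTT ▸ ⟨⟨x, hx.2⟩, hU1 (Subgroup.mem_subgroupOf.2 hx), rfl⟩
  have hRT' : R ≠ (T : Subgroup G) := fun e => hRS (Subgroup.eq_of_le_of_card_ge inf_le_left (by
    rw [e, T.card_eq_multiplicity, S.card_eq_multiplicity]))
  obtain ⟨y, hyT, hyN, hyR⟩ := grow T hRT hRT'
  have hU : IsPGroup 2 ↥((T : Subgroup G) ⊓ Subgroup.centralizer ({z} : Set G)) := T.isPGroup'.to_le inf_le_left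
  have he := hmaxR _ hU (fun x hx => ⟨hRT hx, hSC hx.1⟩) inf_le_right
    (fun x hx => Subgroup.map_subtype_le _ (hTT ▸ hx.1))
  exact hyR (he ▸ ⟨hyT, hNw hyN⟩)

end Cfsg.Agent.S3244
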