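import Cfsg.Statements.S1957
import Cfsg.Agent.S3244
import Cfsg.Agent.Lib.Solv.Cores
import Cfsg.Agent.Lib.Solv.Coprime2
-- import your own Cfsg.Agent.* helpers here

set_option autoImplicit false
open Cfsg

namespace Cfsg.Agent.S1957
open Subgroup

instance : Fact (Nat.Prime 2) := ⟨Nat.prime_two⟩

theorem mem_pCore_of_small_commutators {H : Type*} [Group H] [Finite H]
    (hchar : centralizer (Cfsg.pCore 2 H : Set H) ≤ Cfsg.pCore 2 H)
    (u : H) (hu : u * u = 1) (huc : ∀ h : H, h * u = u * h) (x : H)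
    (hx : ∀ q ∈ Cfsg.pCore 2 H, x * q * x⁻¹ = q ∨ x * q * x⁻¹ = u * q) :
    x ∈ Cfsg.pCore 2 H := by
  haveI hQ : (Cfsg.pCore 2 H).Normal := sSup_normal _ fun _ h => h.1
  let A : Subgroup H :=
    { carrier := {h | ∀ q ∈ Cfsg.pCore 2 H, h * q * h⁻¹ = q ∨ h * q * h⁻¹ = u * q}
      one_mem' := fun q _ => Or.inl (by simp)
      mul_mem' := by
        intro a b ha hb q hq
        have e : a * b * q * (a * b)⁻¹ = a * (b * q * b⁻¹) * a⁻¹ := by group
        have e2 : a * (u * q) * a⁻¹ = u * (a * q * a⁻¹) := by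
          rw [← mul_assoc, huc a]; group
        rcases hb q hq with hb' | hb' <;> rcases ha q hq with ha' | ha'
        · left; rw [e, hb', ha']
        · right; rw [e, hb', ha']
        · right; rw [e, hb', e2, ha']
        · left; rw [e, hb', e2, ha', ← mul_assoc, hu, one_mul]
      inv_mem' := by
        intro a ha q hq
        have hq' : a⁻¹ * q * a⁻¹⁻¹ ∈ Cfsg.pCore 2 H := hQ.conj_mem q hq a⁻¹
        rcases ha _ hq' with e | e
        · left
          rw [show a * (a⁻¹ * q * a⁻¹⁻¹) * a⁻¹ = q by group] at e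
          exact e.symm
        · right
          rw [show a * (a⁻¹ * q * a⁻¹⁻¹) * a⁻¹ = q by group] at e
          conv_rhs => rw [e, ← mul_assoc, hu, one_mul] }
  have hAn : A.Normal := by
    refine ⟨fun a ha g q hq => ?_⟩
    have hq' : g⁻¹ * q * g⁻¹⁻¹ ∈ Cfsg.pCore 2 H := hQ.conj_mem q hq g⁻¹
    have e1 : g * a * g⁻¹ * q * (g * a * g⁻¹)⁻¹ = g * (a * (g⁻¹ * q * g⁻¹⁻¹) * a⁻¹) * g⁻¹ := by group
    rcases ha _ hq' with e | e
    · left; rw [e1, e]; group
    · right; rw [e1, e, ← mul_assoc g u, huc g]; group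
  have hAp : IsPGroup 2 A := by
    rintro ⟨a, ha⟩
    have h2 : a ^ 2 ∈ Cfsg.pCore 2 H := by
      refine hchar (mem_centralizer_iff.2 fun q hq => ?_)
      have : a ^ 2 * q * (a ^ 2)⁻¹ = q := by
        rw [show a ^ 2 * q * (a ^ 2)⁻¹ = a * (a * q * a⁻¹) * a⁻¹ by rw [pow_two]; group]
        rcases ha q hq with e | e
        · rw [e, e]
        · rw [e, ← mul_assoc, huc a, mul_assoc u, mul_assoc u, e, ← mul_assoc, hu, one_mul]
      exact (mul_inv_eq_iff_eq_mul.1 this).symm
    obtain ⟨k, hk⟩ := Cfsg.Lib.Solv.isPGroup_pCore 2 ⟨_, h2⟩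
    refine ⟨k + 1, Subtype.ext ?_⟩
    show a ^ 2 ^ (k + 1) = 1
    rw [pow_succ', pow_mul]
    exact congrArg Subtype.val hk
  exact Cfsg.Lib.Solv.le_pCore hAn hAp (show x ∈ A from hx)

variable {G : Type*} [Group G] [Finite G]

theorem centralizes_fixed (h2 : Cfsg.IsCharacteristicTwoType G) (P : Sylow 2 G) (U : Subgroup G)
    (hUP : U ≤ (P : Subgroup G)) (hUn : (P : Subgroup G) ≤ normalizer (U : Set G)) (hU4 : IsKleinFour ↥U)
    (hUZ : ¬ IsCyclic ↥((P : Subgroup G) ⊓ centralizer ((P : Subgroup G) : Set G)) →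
      U ≤ centralizer ((P : Subgroup G) : Set G))
    {u : G} (huU : u ∈ U) (hu1 : u ≠ 1) {w : G} (hwU : w ∈ U) :
    ∃ hw : w ∈ centralizer ({u} : Set G),
      (⟨w, hw⟩ : centralizer ({u} : Set G)) ∈ Cfsg.pCore 2 ↥(centralizer ({u} : Set G)) := by
  classical
  have hcard : Nat.card U = 4 := hU4.card_four
  have hsq : ∀ a ∈ U, a * a = 1 := fun a ha =>
    congrArg Subtype.val (IsKleinFour.mul_self (⟨a, ha⟩ : U))
  have hcomm : ∀ a ∈ U, ∀ b ∈ U, a * b = b * a := fun a ha b hb => by
    have h := hsq _ (U.mul_mem ha hb)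
    calc a * b = (a * b)⁻¹ := (inv_eq_of_mul_eq_one_right h).symm
      _ = b⁻¹ * a⁻¹ := mul_inv_rev a b
      _ = b * a := by rw [inv_eq_of_mul_eq_one_right (hsq a ha), inv_eq_of_mul_eq_one_right (hsq b hb)]
  have hw : w ∈ centralizer ({u} : Set G) := mem_centralizer_singleton_iff.2 (hcomm w hwU u huU)
  refine ⟨hw, ?_⟩
  set H := centralizer ({u} : Set G) with hHd
  haveI hQn : (Cfsg.pCore 2 ↥H).Normal := sSup_normal _ fun _ h => h.1
  have hord : orderOf u = 2 := orderOf_eq_prime (by rw [pow_two]; exact hsq u huU) hu1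
  have hchar : centralizer (Cfsg.pCore 2 ↥H : Set ↥H) ≤ Cfsg.pCore 2 ↥H := by
    have hp : IsPGroup 2 (zpowers u) := IsPGroup.of_card (n := 1) (by rw [Nat.card_zpowers, hord, pow_one])
    have hne : zpowers u ≠ ⊥ := fun e => hu1 (mem_bot.1 (e ▸ mem_zpowers u))
    have := h2.2 _ hp hne
    rw [Cfsg.Agent.S3246.normalizer_zpowers_involution hord] at this
    exact this
  have huH : u ∈ H := mem_centralizer_singleton_iff.2 rfl
  have huc : ∀ h : ↥H, h * ⟨u, huH⟩ = ⟨u, huH⟩ * h := fun h => Subtype.ext (mem_centralizer_singleton_iff.1 h.2)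
  set P0 := (P : Subgroup G) ⊓ H with hP0
  by_cases hcy : IsCyclic ↥((P : Subgroup G) ⊓ centralizer ((P : Subgroup G) : Set G))
  swap
  · -- `U` is central in `P`
    have hU := hUZ hcy
    have hPH : (P : Subgroup G) ≤ H := fun y hy =>
      mem_centralizer_singleton_iff.2 (mem_centralizer_iff.1 (hU huU) y hy)
    refine hchar (mem_centralizer_iff.2 fun q hq => Subtype.ext ?_)
    have hqP : (q : G) ∈ (P : Subgroup G) :=
      Cfsg.Lib.Solv.pCore_le_sylow 2 (P.subtype hPH) hq
    exact mem_centralizer_iff.1 (hU hwU) q hqP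
  haveI := hcy
  haveI : (U.subgroupOf (P : Subgroup G)).Normal := normal_subgroupOf_of_le_normalizer hUn
  have hUb : U.subgroupOf (P : Subgroup G) ≠ ⊥ := fun e => by
    have := Nat.card_congr (subgroupOfEquivOfLe hUP).toEquiv
    rw [e, card_bot, hcard] at this
    omega
  obtain ⟨⟨z, hzP⟩, hz, hz1⟩ := (bot_or_exists_ne_one (U.subgroupOf (P : Subgroup G) ⊓ center _)).resolve_left
    (Cfsg.Lib.Transfer.inf_center_ne_bot P.isPGroup' _ hUb)
  have hzU : z ∈ U := hz.1
  have hz1' : z ≠ 1 := fun e => hz1 (Subtype.ext e)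
  have hzc : ∀ y ∈ (P : Subgroup G), y * z = z * y := fun y hy =>
    congrArg Subtype.val (mem_center_iff.1 hz.2 ⟨y, hy⟩)
  have huniq : ∀ a : G, a ∈ (P : Subgroup G) → (∀ y ∈ (P : Subgroup G), y * a = a * y) → a * a = 1 → a ≠ 1 →
      a = z := by
    intro a haP hac ha2 ha1
    have hm : ∀ {b : G}, b ∈ (P : Subgroup G) → (∀ y ∈ (P : Subgroup G), y * b = b * y) →
        b ∈ (P : Subgroup G) ⊓ centralizer ((P : Subgroup G) : Set G) :=
      fun hb hc => ⟨hb, mem_centralizer_iff.2 hc⟩
    refine congrArg Subtype.val (Cfsg.Agent.S3244.cyclic_involution_unique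
      (a := (⟨a, hm haP hac⟩ : ↥((P : Subgroup G) ⊓ centralizer ((P : Subgroup G) : Set G))))
      (b := ⟨z, hm hzP hzc⟩) ?_ ?_)
    · exact orderOf_eq_prime (Subtype.ext (by show a ^ 2 = 1; rw [pow_two]; exact ha2)) (fun e => ha1 (congrArg Subtype.val e))
    · exact orderOf_eq_prime (Subtype.ext (by show z ^ 2 = 1; rw [pow_two]; exact hsq z hzU)) (fun e => hz1' (congrArg Subtype.val e))
  have hshift : ∀ a ∈ U, ∀ y ∈ (P : Subgroup G), y * a * y⁻¹ = a ∨ y * a * y⁻¹ = z * a := by
    intro a ha y hy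
    have hy' : y * a * y⁻¹ ∈ U := (mem_normalizer_iff.1 (hUn hy) a).1 ha
    by_contra hne
    push Not at hne
    have hinj : ∀ {b : G}, y * a * y⁻¹ = y * b * y⁻¹ → a = b := fun e => mul_left_cancel (mul_right_cancel e)
    by_cases ha1 : a = 1
    · exact hne.1 (by rw [ha1]; group)
    by_cases haz : a = z
    · exact hne.1 (by rw [haz, hzc y hy]; group)
    have h1 : y * a * y⁻¹ ≠ 1 := fun e => ha1 (hinj (e.trans (by group)))
    have h3 : y * a * y⁻¹ ≠ z := fun e => haz (hinj (e.trans (by rw [hzc y hy]; group)))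
    have h4 : ({1, a, z, z * a, y * a * y⁻¹} : Finset G).card = 5 := by
      have hzne : z * a ≠ 1 := fun e => haz (by
        calc a = z * (z * a) := by rw [← mul_assoc, hsq z hzU, one_mul]
          _ = z := by rw [e, mul_one])
      have hza : z * a ≠ a := fun e => hz1' (mul_eq_right.1 e)
      have hzz : z * a ≠ z := fun e => ha1 (mul_eq_left.1 e)
      rw [Finset.card_insert_of_notMem, Finset.card_insert_of_notMem, Finset.card_insert_of_notMem,
        Finset.card_insert_of_notMem, Finset.card_singleton] <;>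
        simp [Ne.symm hne.1, Ne.symm hne.2, Ne.symm h1, Ne.symm h3, Ne.symm hza, Ne.symm hzz, Ne.symm hzne,
          Ne.symm ha1, Ne.symm hz1', haz]
    have hle := Nat.card_le_card_of_injective
      (fun x : {v : G // v ∈ ({1, a, z, z * a, y * a * y⁻¹} : Finset G)} => (⟨x.1, by
        have hx := x.2
        simp only [Finset.mem_insert, Finset.mem_singleton] at hx
        rcases hx with h | h | h | h | h <;> rw [h]
        exacts [U.one_mem, ha, hzU, U.mul_mem hzU ha, hy']⟩ : U))
      (fun x x' e => Subtype.ext (congrArg (fun q : U => (q : G)) e))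
    rw [Nat.card_eq_finsetCard, h4, hcard] at hle
    omega
  by_cases huz : u = z
  · -- the central involution
    have hPH : (P : Subgroup G) ≤ H := fun y hy => mem_centralizer_singleton_iff.2 (huz ▸ hzc y hy)
    refine mem_pCore_of_small_commutators hchar ⟨u, huH⟩ (Subtype.ext (hsq u huU)) huc _ fun q hq => ?_
    have hqP : (q : G) ∈ (P : Subgroup G) := Cfsg.Lib.Solv.pCore_le_sylow 2 (P.subtype hPH) hq
    rcases hshift w hwU q hqP with e | e
    · left; apply Subtype.ext
      show w * (q : G) * w⁻¹ = q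
      rw [← mul_inv_eq_iff_eq_mul.1 e]; group
    · right; apply Subtype.ext
      show w * (q : G) * w⁻¹ = u * q
      have e' := mul_inv_eq_iff_eq_mul.1 e
      have hcz : (q : G) * z = z * q := hzc q hqP
      rw [huz]
      calc w * (q : G) * w⁻¹ = z * (z * w * q) * w⁻¹ := by
            rw [show z * (z * w * (q : G)) = (z * z) * (w * q) by group, hsq z hzU, one_mul]
        _ = z * q := by rw [← e']; group
  -- a noncentral involution
  have hzH : z ∈ H := mem_centralizer_singleton_iff.2 (hcomm z hzU u huU)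
  set Q := Cfsg.pCore 2 ↥H with hQd
  have huQ : (⟨u, huH⟩ : ↥H) ∈ Q :=
    mem_pCore_of_small_commutators hchar ⟨u, huH⟩ (Subtype.ext (hsq u huU)) huc _
      (fun q _ => Or.inl (by rw [← huc q]; group))
  have hP0z : ∀ y ∈ P0, y * z = z * y := fun y hy => hzc y hy.1
  have hidx : Nat.card (P : Subgroup G) ≤ 2 * Nat.card P0 := by
    classical
    rcases Classical.em (∃ y ∈ (P : Subgroup G), y ∉ H) with ⟨y0, hy0, hy0H⟩ | h
    swap
    · push Not at h
      have := card_le_of_le (show (P : Subgroup G) ≤ P0 from fun y hy => ⟨hy, h y hy⟩)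
      omega
    have hy0u : y0 * u * y0⁻¹ = z * u := (hshift u huU y0 hy0).resolve_left fun e =>
      hy0H (mem_centralizer_singleton_iff.2 (mul_inv_eq_iff_eq_mul.1 e))
    have hmem : ∀ y : ↥(P : Subgroup G), (y : G) ∉ H → (y0⁻¹ * y : G) ∈ P0 := by
      intro y hy
      have hyu : (y : G) * u * (y : G)⁻¹ = z * u := (hshift u huU y y.2).resolve_left fun e =>
        hy (mem_centralizer_singleton_iff.2 (mul_inv_eq_iff_eq_mul.1 e))
      refine ⟨(P : Subgroup G).mul_mem ((P : Subgroup G).inv_mem hy0) y.2, mem_centralizer_singleton_iff.2 (mul_inv_eq_iff_eq_mul.1 ?_)⟩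
      rw [show y0⁻¹ * (y : G) * u * (y0⁻¹ * (y : G))⁻¹ = y0⁻¹ * ((y : G) * u * (y : G)⁻¹) * y0 by group,
        hyu, ← hy0u]
      group
    have := Nat.card_le_card_of_injective
      (fun y : ↥(P : Subgroup G) => if h : (y : G) ∈ H then Sum.inl (⟨y, y.2, h⟩ : P0)
        else Sum.inr (⟨y0⁻¹ * y, hmem y h⟩ : P0))
      (by
        intro a b e
        dsimp only at e
        split_ifs at e with ha hb hb
        · exact Subtype.ext (congrArg (fun q : P0 => (q : G)) (Sum.inl.inj e))
        · exact Subtype.ext (mul_left_cancel (congrArg (fun q : P0 => (q : G)) (Sum.inr.inj e))))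
    rw [Nat.card_sum] at this
    omega
  obtain ⟨R, hR⟩ := (P.isPGroup'.to_le (show P0 ≤ (P : Subgroup G) from inf_le_left)).of_equiv
    (subgroupOfEquivOfLe (show P0 ≤ H from inf_le_right)).symm |>.exists_le_sylow
  have hQR : Q ≤ (R : Subgroup ↥H) := Cfsg.Lib.Solv.pCore_le_sylow 2 R
  have hzQ : (⟨z, hzH⟩ : ↥H) ∈ Q := by
    refine mem_pCore_of_small_commutators hchar ⟨u, huH⟩ (Subtype.ext (hsq u huU)) huc _ fun q hq => ?_
    by_cases hqP : (q : G) ∈ P0
    · left; apply Subtype.ext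
      show z * (q : G) * z⁻¹ = q
      rw [← hP0z q hqP]; group
    set R' := (R : Subgroup ↥H).map H.subtype with hR'
    have hR'p : IsPGroup 2 R' := R.isPGroup'.map _
    obtain ⟨P1, hP1⟩ := hR'p.exists_le_sylow
    have hP0R : P0 ≤ R' := fun y hy => ⟨⟨y, hy.2⟩, hR hy, rfl⟩
    have hqR : (q : G) ∈ R' := ⟨q, hQR hq, rfl⟩
    have hc1 : Nat.card ↥(P1 : Subgroup G) = Nat.card ↥(P : Subgroup G) := Nat.card_congr (Sylow.equiv P1 P).toEquiv
    have hlt : Nat.card P0 < Nat.card R' := by
      refine lt_of_le_of_ne (card_le_of_le hP0R) fun e => hqP ?_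
      rw [eq_of_le_of_card_ge hP0R e.ge]; exact hqR
    have hd : Nat.card P0 ∣ Nat.card R' := card_dvd_of_le hP0R
    have hR2 : Nat.card R' = 2 * Nat.card P0 ∧ Nat.card R' = Nat.card ↥(P : Subgroup G) := by
      have h1 := card_le_of_le hP1
      obtain ⟨m, hm⟩ := hd
      have hm2 : 2 ≤ m := by
        by_contra hm2
        interval_cases m <;> omega
      have : Nat.card P0 * 2 ≤ Nat.card P0 * m := Nat.mul_le_mul_left _ hm2
      omega
    have hRP1 : R' = (P1 : Subgroup G) := eq_of_le_of_card_ge hP1 (by omega)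
    have hP0n : (P0.subgroupOf R').Normal := by
      refine normal_of_index_eq_two ?_
      have := card_mul_index (P0.subgroupOf R')
      rw [Nat.card_congr (subgroupOfEquivOfLe hP0R).toEquiv, hR2.1] at this
      have hpos : 0 < Nat.card P0 := Nat.card_pos
      nlinarith
    have hconjP0 : ∀ y ∈ P0, (q : G) * y * (q : G)⁻¹ ∈ P0 := fun y hy =>
      hP0n.conj_mem ⟨y, hP0R hy⟩ hy ⟨q, hqR⟩
    have hq2 : (q : G) ^ 2 ∈ P0 := by
      have hi : (P0.subgroupOf R').index = 2 := by
        have := card_mul_index (P0.subgroupOf R')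
        rw [Nat.card_congr (subgroupOfEquivOfLe hP0R).toEquiv, hR2.1] at this
        have hpos : 0 < Nat.card P0 := Nat.card_pos
        nlinarith
      exact Subgroup.sq_mem_of_index_two hi (⟨q, hqR⟩ : R')
    set z' := (q : G) * z * (q : G)⁻¹ with hz'
    have hzP0 : z ∈ P0 := ⟨hzP, hzH⟩
    have hz'P0 : z' ∈ P0 := hconjP0 z hzP0
    have hz'c : ∀ y ∈ P0, y * z' = z' * y := by
      intro y hy
      have h1 : (q : G)⁻¹ * y * (q : G) ∈ P0 := by
        have := hP0n.conj_mem ⟨y, hP0R hy⟩ hy (⟨q, hqR⟩ : R')⁻¹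
        simpa [mem_subgroupOf] using this
      have h2 := hP0z _ h1
      calc y * z' = (q : G) * (((q : G)⁻¹ * y * q) * z) * (q : G)⁻¹ := by rw [hz']; group
        _ = (q : G) * (z * ((q : G)⁻¹ * y * q)) * (q : G)⁻¹ := by rw [h2]
        _ = z' * y := by rw [hz']; group
    set c := z * z' with hc
    have hcP0 : c ∈ P0 := P0.mul_mem hzP0 hz'P0
    have hqc : (q : G) * c * (q : G)⁻¹ = c := by
      have h2 : (q : G) * z' * (q : G)⁻¹ = z := by
        rw [hz', show (q : G) * ((q : G) * z * (q : G)⁻¹) * (q : G)⁻¹ = (q : G) ^ 2 * z * ((q : G) ^ 2)⁻¹ by rw [pow_two]; group,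
          hP0z _ hq2, mul_inv_cancel_right]
      rw [hc, show (q : G) * (z * z') * (q : G)⁻¹ = ((q : G) * z * (q : G)⁻¹) * ((q : G) * z' * (q : G)⁻¹) by group,
        h2, ← hz', hz'c z hzP0]
    have hcR : ∀ y ∈ R', y * c = c * y := by
      intro y hy
      have hcy : ∀ v ∈ P0, v * c = c * v := fun v hv => by
        calc v * c = v * z * z' := (mul_assoc _ _ _).symm
          _ = z * v * z' := by rw [hP0z v hv]
          _ = z * (v * z') := mul_assoc _ _ _
          _ = z * (z' * v) := by rw [hz'c v hv]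
          _ = c * v := (mul_assoc _ _ _).symm
      by_cases hyP : y ∈ P0
      · exact hcy y hyP
      · have h1 : (q : G)⁻¹ * y ∈ P0 := by
          have := (mul_mem_iff_of_index_two (a := (⟨q, hqR⟩ : R')⁻¹) (b := ⟨y, hy⟩) (by
            have := card_mul_index (P0.subgroupOf R')
            rw [Nat.card_congr (subgroupOfEquivOfLe hP0R).toEquiv, hR2.1] at this
            have hpos : 0 < Nat.card P0 := Nat.card_pos
            nlinarith : (P0.subgroupOf R').index = 2)).2 ?_
          · exact this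
          · exact iff_of_false (fun hh => hqP (inv_mem_iff.1 hh)) (fun hh => hyP hh)
        calc y * c = (q : G) * (((q : G)⁻¹ * y) * c) := by group
          _ = (q : G) * c * (q : G)⁻¹ * y := by rw [hcy _ h1]; group
          _ = c * y := by rw [hqc]
    have hz'2 : z' * z' = 1 := by
      rw [hz', show (q : G) * z * (q : G)⁻¹ * ((q : G) * z * (q : G)⁻¹) = (q : G) * (z * z) * (q : G)⁻¹ by group,
        hsq z hzU]; group
    have hc2 : c * c = 1 := by
      calc c * c = z * (z' * z) * z' := by rw [hc]; group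
        _ = z * (z * z') * z' := by rw [hz'c z hzP0]
        _ = (z * z) * (z' * z') := by group
        _ = 1 := by rw [hsq z hzU, hz'2, one_mul]
    have hcu : c = 1 ∨ c = u := by
      by_cases hc1' : c = 1
      · exact Or.inl hc1'
      right
      obtain ⟨g, hg⟩ := MulAction.exists_smul_eq G P P1
      have hmem : ∀ y : G, y ∈ R' ↔ g⁻¹ * y * g ∈ (P : Subgroup G) := by
        intro y
        rw [hRP1, ← hg, Sylow.coe_subgroup_smul, mem_pointwise_smul_iff_inv_smul_mem]
        simp [MulAut.smul_def]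
      have hmem' : ∀ x : G, x ∈ (P : Subgroup G) → g * x * g⁻¹ ∈ R' := fun x hx => (hmem _).2 (by
        rw [show g⁻¹ * (g * x * g⁻¹) * g = x by group]; exact hx)
      have hpull : ∀ a : G, a ∈ R' → (∀ y ∈ R', y * a = a * y) → a * a = 1 → a ≠ 1 →
          g⁻¹ * a * g = z := by
        intro a ha hac ha2 ha1
        refine huniq _ ((hmem a).1 ha) (fun x hx => ?_) ?_ ?_
        · calc x * (g⁻¹ * a * g) = g⁻¹ * ((g * x * g⁻¹) * a) * g := by group
            _ = g⁻¹ * (a * (g * x * g⁻¹)) * g := by rw [hac _ (hmem' x hx)]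
            _ = g⁻¹ * a * g * x := by group
        · rw [show g⁻¹ * a * g * (g⁻¹ * a * g) = g⁻¹ * (a * a) * g by group, ha2]; group
        · intro e
          apply ha1
          calc a = g * (g⁻¹ * a * g) * g⁻¹ := by group
            _ = 1 := by rw [e]; group
      have huR : u ∈ R' := hP0R ⟨hUP huU, huH⟩
      have hucR : ∀ y ∈ R', y * u = u * y := by
        rintro _ ⟨y, _, rfl⟩
        exact mem_centralizer_singleton_iff.1 y.2
      have e1 := hpull c (hP0R hcP0) hcR hc2 hc1'
      have e2 := hpull u huR hucR (hsq u huU) hu1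
      exact mul_left_cancel (mul_right_cancel (e1.trans e2.symm))
    have hzq : z * (q : G) * z⁻¹ = c * q := by
      rw [hc, hz', inv_eq_of_mul_eq_one_right (hsq z hzU)]; group
    rcases hcu with e | e
    · left
      apply Subtype.ext
      show z * (q : G) * z⁻¹ = q
      rw [hzq, e, one_mul]
    · right
      apply Subtype.ext
      show z * (q : G) * z⁻¹ = u * q
      rw [hzq, e]
  -- now every element of `U`
  have hgen : ({1, z, u, z * u} : Finset G).card = 4 := by
    have h1 : z * u ≠ 1 := fun e => huz (by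
      calc u = z * (z * u) := by rw [← mul_assoc, hsq z hzU, one_mul]
        _ = z := by rw [e, mul_one])
    rw [Finset.card_insert_of_notMem, Finset.card_insert_of_notMem, Finset.card_insert_of_notMem,
      Finset.card_singleton] <;> simp [Ne.symm hz1', Ne.symm hu1, Ne.symm h1, Ne.symm huz, hu1, hz1']
  have hw' : w ∈ ({1, z, u, z * u} : Finset G) := by
    by_contra hw'
    have hle := Nat.card_le_card_of_injective
      (fun x : {v : G // v ∈ insert w ({1, z, u, z * u} : Finset G)} => (⟨x.1, by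
        have hx := x.2
        simp only [Finset.mem_insert, Finset.mem_singleton] at hx
        rcases hx with h | h | h | h | h <;> rw [h]
        exacts [hwU, U.one_mem, hzU, huU, U.mul_mem hzU huU]⟩ : U))
      (fun x x' e => Subtype.ext (congrArg (fun q : U => (q : G)) e))
    rw [Nat.card_eq_finsetCard, Finset.card_insert_of_notMem hw', hgen, hcard] at hle
    omega
  simp only [Finset.mem_insert, Finset.mem_singleton] at hw'
  rcases hw' with rfl | rfl | rfl | rfl
  · exact one_mem _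
  · exact hzQ
  · exact huQ
  · exact Q.mul_mem hzQ huQ


/-- Let `G` be a finite non-abelian simple group in which every local subgroup is solvable and which is of characteristic 2 type. Let `P` be a Sylow 2-subgroup of `G` and `U` a normal subgroup of `P` that is a four-group, with `U` central in `P` if the centre of `P` is not cyclic. Then `U` centralizes every subgroup of odd order of `G` that it normalizes. -/
theorem result {G : Type*} [Group G] [Finite G]
    [IsSimpleGroup G] (hna : ¬ IsMulCommutative G) (hN : Cfsg.IsNGroup G) (h2 : Cfsg.IsCharacteristicTwoType G)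
    (P : Sylow 2 G) (U : Subgroup G) (hUP : U ≤ (P : Subgroup G)) (hUn : (P : Subgroup G) ≤ Subgroup.normalizer (U : Set G))
    (hU4 : IsKleinFour ↥U)
    (hUZ : ¬ IsCyclic ↥((P : Subgroup G) ⊓ Subgroup.centralizer ((P : Subgroup G) : Set G)) →
      U ≤ Subgroup.centralizer ((P : Subgroup G) : Set G))
    (K : Subgroup G) (hK : Odd (Nat.card K)) (hUK : U ≤ Subgroup.normalizer (K : Set G)) :
    U ≤ Subgroup.centralizer (K : Set G) := by
  haveI := hU4
  have : IsMulCommutative ↥U := ⟨⟨fun a b => by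
    have h := IsKleinFour.mul_self (a * b)
    calc a * b = (a * b)⁻¹ := (inv_eq_of_mul_eq_one_right h).symm
      _ = b⁻¹ * a⁻¹ := mul_inv_rev a b
      _ = b * a := by rw [inv_eq_of_mul_eq_one_right (IsKleinFour.mul_self a), inv_eq_of_mul_eq_one_right (IsKleinFour.mul_self b)]⟩⟩
  have hcard : Nat.card U = 4 := hU4.card_four
  have hncy : ¬ IsCyclic ↥U := fun h => IsKleinFour.not_isCyclic h
  have hcop : (Nat.card U).Coprime (Nat.card K) := by
    rw [hcard, show (4 : ℕ) = 2 ^ 2 from rfl]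
    exact (Nat.coprime_two_left.2 hK).pow_left 2
  rw [Subgroup.le_centralizer_iff]
  refine Cfsg.Lib.Solv.le_of_fixed_le U K _ hncy hUK hcop fun u hu hu1 => ?_
  intro k hk
  refine Subgroup.mem_centralizer_iff.2 fun w hw => ?_
  obtain ⟨hwH, hwQ⟩ := centralizes_fixed h2 P U hUP hUn hU4 hUZ hu hu1 hw
  set H := Subgroup.centralizer ({u} : Set G)
  haveI hQn : (Cfsg.pCore 2 ↥H).Normal := sSup_normal _ fun _ h => h.1
  let k' : ↥H := ⟨k, hk.2⟩
  have hc : k' * ⟨w, hwH⟩ * k'⁻¹ * (⟨w, hwH⟩ : ↥H)⁻¹ ∈ Cfsg.pCore 2 ↥H :=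
    mul_mem (hQn.conj_mem _ hwQ k') (inv_mem hwQ)
  have hcK : k * w * k⁻¹ * w⁻¹ ∈ K := by
    rw [show k * w * k⁻¹ * w⁻¹ = k * (w * k⁻¹ * w⁻¹) by group]
    exact K.mul_mem hk.1 ((Subgroup.mem_normalizer_iff.1 (hUK hw) k⁻¹).1 (K.inv_mem hk.1))
  obtain ⟨n, hn⟩ := IsPGroup.iff_orderOf.1 (Cfsg.Lib.Solv.isPGroup_pCore 2) (⟨_, hc⟩ : Cfsg.pCore 2 ↥H)
  have h1 : orderOf (k * w * k⁻¹ * w⁻¹) ∣ Nat.card K :=
    orderOf_mk _ hcK ▸ orderOf_dvd_natCard (⟨_, hcK⟩ : K)
  have h2' : orderOf (k * w * k⁻¹ * w⁻¹) ∣ 2 ^ n := by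
    rw [← hn, Subgroup.orderOf_mk]
    exact (orderOf_map_dvd H.subtype _)
  have := Nat.eq_one_of_dvd_coprimes ((Nat.coprime_two_left.2 hK).pow_left n) h2' h1
  rw [orderOf_eq_one_iff, mul_inv_eq_one, mul_inv_eq_iff_eq_mul] at this
  exact this.symm


end Cfsg.Agent.S1957
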