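import Cfsg.Statements.S1989
import Cfsg.Agent.Lib.PLocal.KInfFusion
import Cfsg.Agent.Lib.PStable.QdFail

set_option autoImplicit false
universe u
open Cfsg

namespace Cfsg.Agent.S1989

/-- Let p be an odd prime and G a finite group. Then Qd(p) (the natural semidirect product of an elementary abelian group of order p² by SL₂(p)) is not involved in G if and only if, in every section K/R of G and for every Sylow p-subgroup T of K/R, the lower K-infinity subgroup of T controls strong fusion in K/R. -/
theorem result {G : Type u} [Group G] [Finite G] {p : ℕ} [Fact p.Prime] (hp : p ≠ 2) : ¬ Cfsg.Involves ↥(Cfsg.qd p) G ↔ ∀ (K R : Subgroup G) [hR : (R.subgroupOf K).Normal], ∀ T : Sylow p (↥K ⧸ R.subgroupOf K), Cfsg.ControlsStrongFusion p (Cfsg.inducedFunctor (G := (↥K ⧸ R.subgroupOf K)) Cfsg.kInfLower (T : Subgroup (↥K ⧸ R.subgroupOf K))) := by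
  constructor
  · intro hfree K R hR T
    refine Cfsg.Lib.PLocal.KInfSmall.ctrl_kInfLower (fun L _ _ hL => ?_) T
    refine Cfsg.Lib.PStable.normalizerPStable_of_free hp fun h =>
      Cfsg.Lib.PStable.not_involves_section hfree K R ?_
    obtain ⟨K', R', hR', ⟨e'⟩⟩ := hL
    exact Cfsg.Lib.Fusion.involves_of_injective K'.subtype K'.subtype_injective
      (Cfsg.Lib.Fusion.involves_of_surjective (e'.toMonoidHom.comp (QuotientGroup.mk' (R'.subgroupOf K')))
        (e'.surjective.comp (QuotientGroup.mk'_surjective _)) h)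
  · intro h hinv
    obtain ⟨K, R, hR, ⟨e⟩⟩ := hinv
    obtain ⟨T⟩ : Nonempty (Sylow p (↥K ⧸ R.subgroupOf K)) := inferInstance
    have hW := Cfsg.Lib.PLocal.KInfSmall.isCharPFunctor_lower.{u} p
    refine Cfsg.Lib.PStable.not_familyControls_of_qd e ?_
      (Cfsg.Lib.PLocal.KInfSmall.family_of_controlsStrongFusion hW T (h K R T))
    intro W hW'
    rw [Set.mem_singleton_iff.1 hW']
    exact hW

end Cfsg.Agent.S1989
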