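import Cfsg.Statements.S2001
import Cfsg.Agent.Lib.PLocal.ClimbPair

set_option autoImplicit false
open Cfsg
open scoped commutatorElement

namespace Cfsg.Agent.S2001

/-- Let p be a prime dividing the order of the finite group G, P a Sylow p-subgroup, W a conjugacy functor for p on G with Z(H) ≤ W(H) for every nontrivial p-subgroup H, and V a central functor: a conjugacy functor with V(H) ≤ Z(H), and V(H) ≤ V(K) whenever Z(H) ≤ Z(K), for nontrivial p-subgroups H, K. Say that W with V controls transfer in a subgroup L when some Sylow p-subgroup Q of L satisfies Q ∩ L' = (Q ∩ (N_L(W(Q)))')·(Q ∩ (C_L(V(Q)))') as a product of two subgroups. If W with V controls transfer in N_G(H) for every subgroup H with Z(P) ≤ H ≤ P, then W with V controls transfer in G. -/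
theorem result {G : Type*} [Group G] [Finite G] {p : ℕ} [Fact p.Prime] (hdiv : p ∣ Nat.card G) (P : Sylow p G) (W V : Subgroup G → Subgroup G) (hW : Cfsg.IsConjugacyFunctor p W) (hV : Cfsg.IsConjugacyFunctor p V) (hWZ : ∀ H : Subgroup G, IsPGroup p ↥H → H ⊓ Subgroup.centralizer ((H : Subgroup G) : Set G) ≤ W H) (hVZ : ∀ H : Subgroup G, IsPGroup p ↥H → V H ≤ H ⊓ Subgroup.centralizer ((H : Subgroup G) : Set G)) (hVmono : ∀ H K : Subgroup G, IsPGroup p ↥H → IsPGroup p ↥K → H ≠ ⊥ → K ≠ ⊥ → H ⊓ Subgroup.centralizer ((H : Subgroup G) : Set G) ≤ K ⊓ Subgroup.centralizer ((K : Subgroup G) : Set G) → V H ≤ V K) (hloc : ∀ H : Subgroup G, (P : Subgroup G) ⊓ Subgroup.centralizer (((P : Subgroup G) : Subgroup G) : Set G) ≤ H → H ≤ (P : Subgroup G) → ∃ Q : Subgroup G, Q ≤ Subgroup.normalizer ((H : Subgroup G) : Set G) ∧ IsPGroup p ↥Q ∧ ¬ p ∣ (Q).relIndex (Subgroup.normalizer ((H : Subgroup G) : Set G)) ∧ ∀ x : G, x ∈ Q ⊓ ⁅Subgroup.normalizer ((H : Subgroup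 G) : Set G), Subgroup.normalizer ((H : Subgroup G) : Set G)⁆ ↔ ∃ a ∈ Q ⊓ ⁅Subgroup.normalizer ((H : Subgroup G) : Set G) ⊓ Subgroup.normalizer ((W Q : Subgroup G) : Set G), Subgroup.normalizer ((H : Subgroup G) : Set G) ⊓ Subgroup.normalizer ((W Q : Subgroup G) : Set G)⁆, ∃ b ∈ Q ⊓ ⁅Subgroup.normalizer ((H : Subgroup G) : Set G) ⊓ Subgroup.centralizer ((V Q : Subgroup G) : Set G), Subgroup.normalizer ((H : Subgroup G) : Set G) ⊓ Subgroup.centralizer ((V Q : Subgroup G) : Set G)⁆, x = a * b) : ∃ Q : Subgroup G, IsPGroup p ↥Q ∧ ¬ p ∣ Q.index ∧ ∀ x : G, x ∈ Q ⊓ commutator G ↔ ∃ a ∈ Q ⊓ ⁅Subgroup.normalizer ((W Q : Subgroup G) : Set G), Subgroup.normalizer ((W Q : Subgroup G) : Set G)⁆, ∃ b ∈ Q ⊓ ⁅Subgroup.centralizer ((V Q : Subgroup G) : Set G), Subgroup.centralizer ((V Q : Subgroup G) : Set G)⁆, x = a * b := by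
  classical
  have hPne : (P : Subgroup G) ≠ ⊥ := fun h => P.not_dvd_index (by rw [h, Subgroup.index_bot]; exact hdiv)
  set NW := Subgroup.normalizer ((W (P : Subgroup G) : Subgroup G) : Set G) with hNW
  set CV := Subgroup.centralizer ((V (P : Subgroup G) : Subgroup G) : Set G) with hCV
  have hPW : (P : Subgroup G) ≤ NW :=
    Subgroup.le_normalizer.trans (Cfsg.Lib.PLocal.Climb.functor_normalizer_le hW P.isPGroup')
  have hPV : ∀ X : Subgroup G, IsPGroup p X → X ≤ Subgroup.centralizer ((V X : Subgroup G) : Set G) :=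
    fun X hX x hx => Subgroup.mem_centralizer_iff.2 fun v hv =>
      ((Subgroup.mem_centralizer_iff.1 (hVZ X hX hv).2) x hx).symm
  set F := ((P : Subgroup G) ⊓ ⁅NW, NW⁆) ⊔ ((P : Subgroup G) ⊓ ⁅CV, CV⁆) with hF
  have hpair : ∀ (X Y : Subgroup G), (P : Subgroup G) ≤ X → (P : Subgroup G) ≤ Y → ∀ b y : G, b ∈ (P : Subgroup G) →
      y ∈ X → y⁻¹ * b * y ∈ (P : Subgroup G) → b⁻¹ * (y⁻¹ * b * y) ∈ (P : Subgroup G) ⊓ ⁅X, X⁆ := by
    intro X Y hX hY b y hb hy hby
    refine ⟨(P : Subgroup G).mul_mem ((P : Subgroup G).inv_mem hb) hby, ?_⟩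
    rw [show b⁻¹ * (y⁻¹ * b * y) = ⁅b⁻¹, y⁻¹⁆ by simp [commutatorElement_def, mul_assoc]]
    exact Subgroup.commutator_mem_commutator (Subgroup.inv_mem _ (hX hb)) (Subgroup.inv_mem _ hy)
  have hall : ∀ {B : Set G} {g : G}, B ⊆ ((P : Subgroup G) : Set G) →
      Cfsg.Lib.Transfer.conjR g B ⊆ ((P : Subgroup G) : Set G) → Cfsg.Lib.PLocal.Climb.Diff F B g := by
    intro B g hB hg
    refine Cfsg.Lib.PLocal.Climb.pair_global P (Cfsg.Lib.PLocal.Climb.isReal_diff _ F) hW hWZ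
      (fun {B g g'} h e b hb => by rw [e b hb]; exact h b hb)
      (fun B hB y => Cfsg.Lib.PLocal.Climb.diff_bot hB y)
      (fun x hx B hB hxB b hb => Subgroup.mem_sup_left
        (hpair NW CV hPW (hPV _ P.isPGroup') b x (hB hb) hx (hxB ⟨b, hb, rfl⟩))) ?_ hB hg
    intro T hT hzT hTS hT1 hstepW
    obtain ⟨Q, hQN, hQp, hQidx, hQ⟩ := hloc T hzT hTS
    set N := Subgroup.normalizer ((T : Subgroup G) : Set G) with hN
    set PT := Cfsg.Lib.PLocal.Climb.sN (P : Subgroup G) T with hPT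
    have hPTp := Cfsg.Lib.PLocal.Climb.isPGroup_sN P T
    have hVle : V (P : Subgroup G) ≤ V PT := hVmono _ _ P.isPGroup' hPTp hPne
      (fun h => hT1 (le_bot_iff.1 ((le_inf hTS Subgroup.le_normalizer).trans h.le)))
      (Cfsg.Lib.PLocal.Climb.le_centre_sN P hTS)
    let K : Bool → Subgroup G → Subgroup G := fun i X =>
      cond i (N ⊓ Subgroup.normalizer ((W X : Subgroup G) : Set G))
        (N ⊓ Subgroup.centralizer ((V X : Subgroup G) : Set G))
    refine Cfsg.Lib.PLocal.Climb.diff_of_transfer P hT (fun i => K i PT) ?_ ?_ ?_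
    · rintro (_ | _)
      · exact ⟨le_inf inf_le_right (hPV _ hPTp), inf_le_left⟩
      · exact ⟨le_inf inf_le_right (Subgroup.le_normalizer.trans
          (Cfsg.Lib.PLocal.Climb.functor_normalizer_le hW hPTp)), inf_le_left⟩
    · refine Cfsg.Lib.PLocal.Climb.transfer_at inf_le_right hPTp hT hQN hQp hQidx K ?_ ?_
      · rintro (_ | _) h hh
        · simp only [K, cond_false]
          rw [Cfsg.Lib.PLocal.Climb.functor_cj hV hPTp, Cfsg.Lib.PLocal.Climb.centralizer_cj,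
            Cfsg.Lib.PLocal.Climb.cj_inf, Cfsg.Lib.PLocal.Climb.cj_eq_of_mem (Subgroup.le_normalizer hh)]
        · simp only [K, cond_true]
          rw [Cfsg.Lib.PLocal.Climb.functor_cj hW hPTp, Cfsg.Lib.PLocal.Climb.cj_inf_normalizer hh]
      · intro x hx
        obtain ⟨a, ha, b, hb, rfl⟩ := (hQ x).1 hx
        exact Subgroup.mul_mem _ (le_iSup (fun i => Q ⊓ ⁅K i Q, K i Q⁆) true ha)
          (le_iSup (fun i => Q ⊓ ⁅K i Q, K i Q⁆) false hb)
    · rintro (_ | _) x hx B hB hxB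
      · exact fun b hb => Subgroup.mem_sup_right
          (hpair CV NW (hPV _ P.isPGroup') hPW b x (hB hb).1 (Subgroup.centralizer_le hVle hx.2)
            (hxB ⟨b, hb, rfl⟩).1)
      · exact hstepW x hx B hB hxB
  refine ⟨(P : Subgroup G), P.isPGroup', P.not_dvd_index, fun x => ⟨fun hx => ?_, ?_⟩⟩
  · have h1 : x ∈ F := by
      refine Cfsg.Lib.PLocal.Climb.inf_commutator_le le_top P.isPGroup'
        (by rw [Subgroup.relIndex_top_right]; exact P.not_dvd_index) (fun b hb y _ hby => ?_) hx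
      exact hall (B := {b}) (Set.singleton_subset_iff.2 hb) (by rintro _ ⟨_, rfl, rfl⟩; exact hby) b rfl
    have hle : (P : Subgroup G) ⊓ ⁅NW, NW⁆ ≤ Subgroup.normalizer (((P : Subgroup G) ⊓ ⁅CV, CV⁆ : Subgroup G) : Set G) := by
      intro a ha
      have haC : a ∈ CV := hPV _ P.isPGroup' ha.1
      have h2 : a ∈ Subgroup.normalizer ((⁅CV, CV⁆ : Subgroup G) : Set G) := by
        have := Subgroup.normal_subgroupOf_iff_le_normalizer (H := ⁅CV, CV⁆) (K := CV)
          (Subgroup.commutator_le_self CV)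
        refine this.1 ?_ haC
        rw [Subgroup.normal_subgroupOf_iff (Subgroup.commutator_le_self CV)]
        intro h k hh hk
        have hk' : CV.map (MulAut.conj k).toMonoidHom = CV := by
          rw [← inv_inv k]
          exact Cfsg.Lib.PLocal.Climb.cj_eq_of_mem (Subgroup.le_normalizer (CV.inv_mem hk))
        rw [show (⁅CV, CV⁆ : Subgroup G) = ⁅CV.map (MulAut.conj k).toMonoidHom, CV.map (MulAut.conj k).toMonoidHom⁆ by
          rw [hk'], ← Subgroup.map_commutator]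
        exact ⟨h, hh, rfl⟩
      have h3 := Subgroup.le_normalizer (H := (P : Subgroup G)) ha.1
      refine Subgroup.mem_normalizer_iff.2 fun y => ?_
      exact and_congr (Subgroup.mem_normalizer_iff.1 h3 y) (Subgroup.mem_normalizer_iff.1 h2 y)
    rw [hF, ← SetLike.mem_coe, Subgroup.coe_mul_of_left_le_normalizer_right _ _ hle] at h1
    obtain ⟨a, ha, b, hb, rfl⟩ := h1
    exact ⟨a, ha, b, hb, rfl⟩
  · rintro ⟨a, ha, b, hb, rfl⟩
    exact Subgroup.mul_mem _ ⟨ha.1, Subgroup.commutator_mono le_top le_top ha.2⟩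
      ⟨hb.1, Subgroup.commutator_mono le_top le_top hb.2⟩

end Cfsg.Agent.S2001
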