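import Cfsg.Statements.S2002
import Cfsg.Agent.Lib.PLocal.ClimbPair

set_option autoImplicit false
open Cfsg
open scoped commutatorElement

namespace Cfsg.Agent.S2002

/-- Let p be a prime dividing the order of the finite group G, P a Sylow p-subgroup, W a conjugacy functor for p on G with Z(H) ≤ W(H) for every nontrivial p-subgroup H, and V a central functor (a conjugacy functor with V(H) ≤ Z(H), and V(H) ≤ V(K) whenever Z(H) ≤ Z(K)). Say that W with V controls strong fusion in a subgroup L when some Sylow p-subgroup Q of L has the property: whenever X ⊆ Q and a ∈ L with a⁻¹Xa ⊆ Q, then a = c b with c ∈ C_L(X) and b = b₁ ⋯ bₙ a product of elements each in N_L(W(Q)) or in C_L(V(Q)) such that every partial conjugate (b₁ ⋯ bₖ)⁻¹ X (b₁ ⋯ bₖ) lies in Q. If W with V controls strong fusion in N_G(H) for every subgroup H with Z(P) ≤ H ≤ P, then W with V controls strong fusion in G. -/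
theorem result {G : Type*} [Group G] [Finite G] {p : ℕ} [Fact p.Prime] (hdiv : p ∣ Nat.card G) (P : Sylow p G) (W V : Subgroup G → Subgroup G) (hW : Cfsg.IsConjugacyFunctor p W) (hV : Cfsg.IsConjugacyFunctor p V) (hWZ : ∀ H : Subgroup G, IsPGroup p ↥H → H ⊓ Subgroup.centralizer ((H : Subgroup G) : Set G) ≤ W H) (hVZ : ∀ H : Subgroup G, IsPGroup p ↥H → V H ≤ H ⊓ Subgroup.centralizer ((H : Subgroup G) : Set G)) (hVmono : ∀ H K : Subgroup G, IsPGroup p ↥H → IsPGroup p ↥K → H ≠ ⊥ → K ≠ ⊥ → H ⊓ Subgroup.centralizer ((H : Subgroup G) : Set G) ≤ K ⊓ Subgroup.centralizer ((K : Subgroup G) : Set G) → V H ≤ V K) (hloc : ∀ H : Subgroup G, (P : Subgroup G) ⊓ Subgroup.centralizer (((P : Subgroup G) : Subgroup G) : Set G) ≤ H → H ≤ (P : Subgroup G) → ∃ Q : Subgroup G, Q ≤ Subgroup.normalizer ((H : Subgroup G) : Set G) ∧ IsPGroup p ↥Q ∧ ¬ p ∣ (Q).relIndex (Subgroup.normalizer ((H : Subgroup G) : Set G)) ∧ ∀ (X : Set G) (a : G), X ⊆ Q →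 a ∈ Subgroup.normalizer ((H : Subgroup G) : Set G) → (fun x => a⁻¹ * x * a) '' X ⊆ Q → ∃ c ∈ Subgroup.normalizer ((H : Subgroup G) : Set G) ⊓ Subgroup.centralizer X, ∃ (n : ℕ) (b : Fin n → G), (∀ i, b i ∈ Subgroup.normalizer ((H : Subgroup G) : Set G) ⊓ Subgroup.normalizer ((W Q : Subgroup G) : Set G) ∨ b i ∈ Subgroup.normalizer ((H : Subgroup G) : Set G) ⊓ Subgroup.centralizer ((V Q : Subgroup G) : Set G)) ∧ a = c * (List.ofFn b).prod ∧ ∀ k : ℕ, k ≤ n → (fun x => (((List.ofFn b).take k).prod)⁻¹ * x * ((List.ofFn b).take k).prod) '' ((fun x => c⁻¹ * x * c) '' X) ⊆ Q) : ∃ Q : Subgroup G, IsPGroup p ↥Q ∧ ¬ p ∣ Q.index ∧ ∀ (X : Set G) (a : G), X ⊆ Q → (fun x => a⁻¹ * x * a) '' X ⊆ Q → ∃ c ∈ Subgroup.centralizer X, ∃ (n : ℕ) (b : Fin n → G), (∀ i, b i ∈ ⊤ ⊓ Subgroup.normalizer ((W Q : Subgroup G) : Set G) ∨ b i ∈ ⊤ ⊓ Subgroup.centralizer ((V Q : Subgroup G) : Set G)) ∧ a = c * (List.ofFn b).prod ∧ ∀ k : ℕ, k ≤ n → (fun x =>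 (((List.ofFn b).take k).prod)⁻¹ * x * ((List.ofFn b).take k).prod) '' ((fun x => c⁻¹ * x * c) '' X) ⊆ Q := by
  classical
  have hPne : (P : Subgroup G) ≠ ⊥ := fun h => P.not_dvd_index (by rw [h, Subgroup.index_bot]; exact hdiv)
  have hZne := Cfsg.Lib.PLocal.Climb.zS_ne_bot P hPne
  let M : Set G := {x | x ∈ Subgroup.normalizer ((W (P : Subgroup G) : Subgroup G) : Set G) ∨
    x ∈ Subgroup.centralizer ((V (P : Subgroup G) : Subgroup G) : Set G)}
  have hR := Cfsg.Lib.PLocal.Climb.isReal_fus (S := ((P : Subgroup G) : Set G)) (M := M)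
    (fun x hx => hx.imp (Subgroup.inv_mem _) (Subgroup.inv_mem _))
  have hall : ∀ {B : Set G} {g : G}, B ⊆ ((P : Subgroup G) : Set G) →
      Cfsg.Lib.Transfer.conjR g B ⊆ ((P : Subgroup G) : Set G) →
      Cfsg.Lib.PLocal.Climb.Fus ((P : Subgroup G) : Set G) M B g := by
    intro B g hB hg
    refine Cfsg.Lib.PLocal.Climb.pair_global P hR hW hWZ (fun h e => h.congr e)
      (fun B hB y => Cfsg.Lib.PLocal.Climb.fus_bot hB y)
      (fun x hx B _ hxB => .of_mem (Or.inl hx) hxB) ?_ hB hg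
    intro T hT hzT hTS hT1 hstepW B hB y hy hyB
    obtain ⟨Q, hQN, hQp, hQidx, hQ⟩ := hloc T hzT hTS
    set N := Subgroup.normalizer ((T : Subgroup G) : Set G) with hN
    set PT := Cfsg.Lib.PLocal.Climb.sN (P : Subgroup G) T with hPT
    have hPTp := Cfsg.Lib.PLocal.Climb.isPGroup_sN P T
    have hzz := Cfsg.Lib.PLocal.Climb.le_centre_sN P hTS
    have hVle : V (P : Subgroup G) ≤ V PT := hVmono _ _ P.isPGroup' hPTp hPne
      (fun h => hT1 (le_bot_iff.1 ((le_inf hTS Subgroup.le_normalizer).trans h.le))) hzz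
    refine Cfsg.Lib.PLocal.Climb.real_of_steps P hR inf_le_left inf_le_right hT hQN hQp hQidx
      (fun X => {x | x ∈ N ⊓ Subgroup.normalizer ((W X : Subgroup G) : Set G) ∨
        x ∈ N ⊓ Subgroup.centralizer ((V X : Subgroup G) : Set G)}) ?_ ?_ (fun h e => h.congr e) ?_ hy hB ?_
    · intro h hh x hx
      rcases hx with hx | hx
      · refine Or.inl ⟨N.mul_mem (N.mul_mem hh hx.1) (N.inv_mem hh), ?_⟩
        have h2 : x ∈ Subgroup.normalizer ((W (Cfsg.Lib.PLocal.Climb.cj h PT) : Subgroup G) : Set G) := hx.2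
        rw [Cfsg.Lib.PLocal.Climb.functor_cj hW hPTp,
          Cfsg.Lib.Transfer.mem_normalizer_map_conj_inv] at h2
        exact h2
      · refine Or.inr ⟨N.mul_mem (N.mul_mem hh hx.1) (N.inv_mem hh), ?_⟩
        have h2 : x ∈ Subgroup.centralizer ((V (Cfsg.Lib.PLocal.Climb.cj h PT) : Subgroup G) : Set G) := hx.2
        rw [Cfsg.Lib.PLocal.Climb.functor_cj hV hPTp, Cfsg.Lib.PLocal.Climb.centralizer_cj] at h2
        obtain ⟨u, hu, rfl⟩ := h2
        simpa [mul_assoc] using hu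
    · intro X a hX ha haX
      obtain ⟨c, hc, n, b, hb, hab, himg⟩ := hQ X a hX ha haX
      have hcX : ∀ x ∈ X, c⁻¹ * x * c = x := fun x hx => by
        rw [mul_assoc, Subgroup.mem_centralizer_iff.1 hc.2 x hx, inv_mul_cancel_left]
      have himage : (fun x => c⁻¹ * x * c) '' X = X :=
        (Set.image_congr hcX).trans (Set.image_id' X)
      refine ⟨(List.ofFn b).prod, Cfsg.Lib.PLocal.Climb.steps_of_list _ _ (List.forall_mem_ofFn_iff.2 hb)
        (fun k hk => ?_), fun x hx => ?_⟩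
      · have := himg k (by simpa using hk)
        rwa [himage] at this
      · rw [hab, mul_inv_rev]
        calc (List.ofFn b).prod⁻¹ * c⁻¹ * x * (c * (List.ofFn b).prod)
            = (List.ofFn b).prod⁻¹ * (c⁻¹ * x * c) * (List.ofFn b).prod := by group
          _ = _ := by rw [hcX x hx]
    · rintro x (hx | hx) B hB hxB
      · exact hstepW x hx B hB hxB
      · exact .of_mem (Or.inr (Subgroup.centralizer_le hVle hx.2)) (hxB.trans fun a ha => ha.1)
    · rintro _ ⟨b, hb, rfl⟩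
      exact ⟨hyB ⟨b, hb, rfl⟩, N.mul_mem (N.mul_mem (N.inv_mem hy) (hB hb).2) hy⟩
  refine ⟨(P : Subgroup G), P.isPGroup', P.not_dvd_index, fun X a hX haX => ?_⟩
  obtain ⟨a', hs, he⟩ := hall hX haX
  obtain ⟨n, b, hb, hprod, himg⟩ := hs.exists_list hX
  have hcX : ∀ x ∈ X, (a * a'⁻¹)⁻¹ * x * (a * a'⁻¹) = x := fun x hx => by
    calc (a * a'⁻¹)⁻¹ * x * (a * a'⁻¹) = a' * (a⁻¹ * x * a) * a'⁻¹ := by group
      _ = a' * (a'⁻¹ * x * a') * a'⁻¹ := by rw [he x hx]
      _ = x := by group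
  refine ⟨a * a'⁻¹, Subgroup.mem_centralizer_iff.2 fun x hx => ?_, n, b,
    fun i => (hb i).imp (fun h => ⟨Subgroup.mem_top _, h⟩) (fun h => ⟨Subgroup.mem_top _, h⟩),
    by rw [hprod, inv_mul_cancel_right], fun k hk => ?_⟩
  · calc x * (a * a'⁻¹) = (a * a'⁻¹) * ((a * a'⁻¹)⁻¹ * x * (a * a'⁻¹)) := by group
      _ = _ := by rw [hcX x hx]
  · rw [Set.image_congr hcX, Set.image_id']
    exact himg k hk

end Cfsg.Agent.S2002
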