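import Cfsg.Statements.S2117
import Cfsg.Agent.Lib.Stem.Criterion
import Cfsg.Agent.Lib.PStable.Dickson
import Cfsg.Agent.Lib.Classical.SLTwoSub
import Cfsg.Agent.S0261
import Cfsg.Agent.S0262

set_option autoImplicit false
open Cfsg

namespace Cfsg.Agent.S2117

open Cfsg.Lib.PStable Cfsg.Agent.Stem
open scoped commutatorElement

universe u

section
variable {F : Type u} [Field F]

theorem exists_consecutive [Fintype F] (p : ℕ) [Fact p.Prime] [CharP F p]
    (h4 : Fintype.card F ≠ 4) (h9 : Fintype.card F ≠ 9) (hnp : Fintype.card F ≠ p) :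
    ∃ c t s : F, c = t ^ 2 ∧ c + 1 = s ^ 2 ∧ c ≠ 0 ∧ c + 1 ≠ 0 ∧ c ^ 2 + c + 1 ≠ 0 := by
  classical
  obtain ⟨n, hp, hn⟩ := FiniteField.card F p
  have hn2 : 2 ≤ (n : ℕ) := by
    have := n.pos
    by_contra h
    exact hnp (by rw [hn, show (n : ℕ) = 1 by omega, pow_one])
  have pick : ∀ Q : Polynomial F, Q ≠ 0 → Q.natDegree < Fintype.card F → ∃ v, Q.eval v ≠ 0 := by
    intro Q hQ hdeg
    by_contra h
    push Not at h
    exact hQ (Polynomial.eq_zero_of_natDegree_lt_card_of_eval_eq_zero' Q Finset.univ (fun v _ => h v)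
      (by simpa using hdeg))
  open Polynomial in
  by_cases h2 : p = 2
  · subst h2
    have h8 : 8 ≤ Fintype.card F := by
      have hne : (n : ℕ) ≠ 2 := fun h => h4 (by rw [hn, h]; norm_num)
      rw [hn]
      calc 8 = 2 ^ 3 := rfl
        _ ≤ _ := Nat.pow_le_pow_right (by norm_num) (by omega)
    let Q : F[X] := X * (X + 1) * (X ^ 2 + X + 1)
    have hQ : Q ≠ 0 := by
      refine mul_ne_zero (mul_ne_zero X_ne_zero ?_) ?_ <;> intro h <;> simpa using congrArg (eval 0) h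
    obtain ⟨c, hc⟩ := pick Q hQ (lt_of_le_of_lt (show Q.natDegree ≤ 4 by simp only [Q]; compute_degree) (by omega))
    simp [Q] at hc
    obtain ⟨t, ht⟩ := FiniteField.isSquare_of_char_two (ringChar.eq F 2) c
    obtain ⟨s, hs⟩ := FiniteField.isSquare_of_char_two (ringChar.eq F 2) (c + 1)
    exact ⟨c, t, s, by rw [ht, pow_two], by rw [hs, pow_two], hc.1.1, hc.1.2, hc.2⟩
  · have h14 : 14 ≤ Fintype.card F := by
      have hp3 : 3 ≤ p := by have := hp.two_le; omega
      by_cases h3 : p = 3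
      · subst h3
        have hne : (n : ℕ) ≠ 2 := fun h => h9 (by rw [hn, h]; norm_num)
        rw [hn]
        calc 14 ≤ 3 ^ 3 := by norm_num
          _ ≤ _ := Nat.pow_le_pow_right (by norm_num) (by omega)
      · have hp5 : 4 ≤ p := by omega
        rw [hn]
        calc 14 ≤ 4 ^ 2 := by norm_num
          _ ≤ p ^ 2 := Nat.pow_le_pow_left hp5 2
          _ ≤ _ := Nat.pow_le_pow_right hp.pos hn2
    have h20 : (2 : F) ≠ 0 := Ring.two_ne_zero (by rw [ringChar.eq F p]; exact h2)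
    let Q : F[X] := X * (X ^ 4 - 1) * ((X ^ 2 - 1) ^ 4 + C 4 * X ^ 2 * (X ^ 2 - 1) ^ 2 + C 16 * X ^ 4)
    have hQ : Q ≠ 0 := by
      refine mul_ne_zero (mul_ne_zero X_ne_zero ?_) ?_ <;> intro h <;> simpa using congrArg (eval 0) h
    obtain ⟨v, hv⟩ := pick Q hQ (lt_of_le_of_lt (show Q.natDegree ≤ 13 by simp only [Q]; compute_degree) (by omega))
    simp only [Q, eval_mul, eval_add, eval_sub, eval_pow, eval_X, eval_one, eval_C] at hv
    obtain ⟨⟨hv0, hv1⟩, hv2⟩ : (v ≠ 0 ∧ v ^ 4 - 1 ≠ 0) ∧ _ ≠ (0 : F) := by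
      rw [← mul_ne_zero_iff, ← mul_ne_zero_iff]; exact hv
    refine ⟨((v ^ 2 - 1) / (2 * v)) ^ 2, (v ^ 2 - 1) / (2 * v), (v ^ 2 + 1) / (2 * v), rfl, ?_, ?_, ?_, ?_⟩
    · field_simp; ring
    · have : v ^ 2 - 1 ≠ 0 := fun h => hv1 (by linear_combination (v ^ 2 + 1) * h)
      positivity
    · rw [show ((v ^ 2 - 1) / (2 * v)) ^ 2 + 1 = ((v ^ 2 + 1) / (2 * v)) ^ 2 by field_simp; ring]
      have : v ^ 2 + 1 ≠ 0 := fun h => hv1 (by linear_combination (v ^ 2 - 1) * h)
      exact pow_ne_zero 2 (div_ne_zero this (mul_ne_zero h20 hv0))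
    · intro h
      apply hv2
      field_simp at h
      linear_combination h

/-- the diagonal element -/
def diagT (t : F) (ht : t ≠ 0) : Matrix.SpecialLinearGroup (Fin 2) F :=
  ⟨!![t, 0; 0, t⁻¹], by simp [Matrix.det_fin_two, ht]⟩

theorem diagT_mul_upperU (t : F) (ht : t ≠ 0) (a : F) :
    diagT t ht * upperU a = upperU (t ^ 2 * a) * diagT t ht := by
  refine Subtype.ext ?_
  show (!![t, 0; 0, t⁻¹] : Matrix (Fin 2) (Fin 2) F) * (upperU a : Matrix.SpecialLinearGroup (Fin 2) F).1 =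
    (upperU (t ^ 2 * a) : Matrix.SpecialLinearGroup (Fin 2) F).1 * !![t, 0; 0, t⁻¹]
  ext i j
  fin_cases i <;> fin_cases j <;> simp [upperU, Matrix.mul_apply, Fin.sum_univ_two] <;> field_simp

/-- lifts of upper unitriangular elements commute -/
theorem lifts_commute {Γ : Type u} [Group Γ] (σ : Γ →* Matrix.SpecialLinearGroup (Fin 2) F)
    (hs : Function.Surjective σ) (hc : σ.ker ≤ Subgroup.center Γ)
    {c t s : F} (hct : c = t ^ 2) (hcs : c + 1 = s ^ 2) (hc0 : c ≠ 0) (hc1 : c + 1 ≠ 0)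
    (hd : c ^ 2 + c + 1 ≠ 0) (x y : Γ) (a b : F) (hx : σ x = upperU a) (hy : σ y = upperU b) :
    x * y = y * x := by
  choose L hL using fun a : F => hs (upperU a)
  have cz : ∀ {z : Γ}, σ z = 1 → ∀ g, g * z = z * g := fun hz g =>
    Subgroup.mem_center_iff.mp (hc (MonoidHom.mem_ker.mpr hz)) g
  have hwd : ∀ {x y : Γ} {a b : F}, σ x = upperU a → σ y = upperU b → ⁅x, y⁆ = ⁅L a, L b⁆ := by
    intro x y a b hx hy
    have hk : σ ((L a)⁻¹ * x) = 1 := by rw [map_mul, map_inv, hL, hx, inv_mul_cancel]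
    have hl : σ ((L b)⁻¹ * y) = 1 := by rw [map_mul, map_inv, hL, hy, inv_mul_cancel]
    have h1 : ∀ (p q z : Γ), σ z = 1 → ⁅p * z, q⁆ = ⁅p, q⁆ := by
      intro p q z hz
      rw [commutatorElement_def, commutatorElement_def]
      calc p * z * q * (p * z)⁻¹ * q⁻¹ = p * (z * q) * z⁻¹ * p⁻¹ * q⁻¹ := by group
        _ = _ := by rw [← cz hz q]; group
    have h2 : ∀ (p q z : Γ), σ z = 1 → ⁅p, q * z⁆ = ⁅p, q⁆ := by
      intro p q z hz
      rw [← commutatorElement_inv, h1 q p z hz, commutatorElement_inv]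
    calc ⁅x, y⁆ = ⁅L a * ((L a)⁻¹ * x), L b * ((L b)⁻¹ * y)⁆ := by simp
      _ = _ := by rw [h1 _ _ _ hk, h2 _ _ _ hl]
  set f : F → F → Γ := fun a b => ⁅L a, L b⁆ with hf
  have hfc : ∀ a b g, g * f a b = f a b * g := fun a b => cz (by
    rw [hf, map_commutatorElement, hL, hL, commutatorElement_eq_one_iff_mul_comm, ← upperU_add, ← upperU_add, add_comm])
  have haddl : ∀ a a' b, f (a + a') b = f a b * f a' b := by
    intro a a' b
    show ⁅L (a + a'), L b⁆ = _
    rw [← hwd (x := L a * L a') (y := L b) (by rw [map_mul, hL, hL, upperU_add]) (hL b)]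
    calc ⁅L a * L a', L b⁆ = (L a * f a' b) * (L a)⁻¹ * f a b := by simp only [hf, commutatorElement_def]; group
      _ = f a' b * f a b := by rw [hfc a' b (L a)]; group
      _ = _ := hfc _ _ _
  have haddr : ∀ a b b', f a (b + b') = f a b * f a b' := by
    intro a b b'
    show ⁅L a, L (b + b')⁆ = _
    rw [← hwd (x := L a) (y := L b * L b') (hL a) (by rw [map_mul, hL, hL, upperU_add])]
    calc ⁅L a, L b * L b'⁆ = f a b * ((L b * f a b') * (L b)⁻¹) := by simp only [hf, commutatorElement_def]; group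
      _ = _ := by rw [hfc a b' (L b)]; group
  have hinv : ∀ (t : F), t ≠ 0 → ∀ a b, f (t ^ 2 * a) (t ^ 2 * b) = f a b := by
    intro t ht a b
    obtain ⟨T, hT⟩ := hs (diagT t ht)
    have hl : ∀ a, σ (T * L a * T⁻¹) = upperU (t ^ 2 * a) := fun a => by
      rw [map_mul, map_mul, map_inv, hT, hL, diagT_mul_upperU, mul_inv_cancel_right]
    show ⁅L _, L _⁆ = ⁅L a, L b⁆
    rw [← hwd (hl a) (hl b)]
    calc ⁅T * L a * T⁻¹, T * L b * T⁻¹⁆ = T * f a b * T⁻¹ := by simp only [hf, commutatorElement_def]; group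
      _ = f a b := by rw [hfc]; group
  have hswap : ∀ (l : F), (∃ t, l = t ^ 2) → l ≠ 0 → ∀ a b, f (l * a) b = f a (l⁻¹ * b) := by
    rintro l ⟨t, rfl⟩ hl a b
    have ht : t ≠ 0 := fun h => hl (by simp [h])
    rw [← hinv t ht a ((t ^ 2)⁻¹ * b)]
    congr 1
    field_simp
  have hzero : ∀ a b, f a b = 1 := by
    intro a b
    set D := c⁻¹ + 1 - (c + 1)⁻¹ with hD
    have hD0 : D ≠ 0 := by
      rw [show D = (c ^ 2 + c + 1) / (c * (c + 1)) by rw [hD]; field_simp; ring]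
      exact div_ne_zero hd (mul_ne_zero hc0 hc1)
    have h1 : f a ((c + 1)⁻¹ * (D⁻¹ * b)) = f a (c⁻¹ * (D⁻¹ * b) + (D⁻¹ * b)) := by
      rw [← hswap (c + 1) ⟨s, hcs⟩ hc1, show (c + 1) * a = c * a + a by ring, haddl,
        hswap c ⟨t, hct⟩ hc0, ← haddr]
    rw [show c⁻¹ * (D⁻¹ * b) + D⁻¹ * b = (c + 1)⁻¹ * (D⁻¹ * b) + b by
      field_simp
      rw [hD]; field_simp; ring, haddr] at h1
    exact left_eq_mul.mp h1
  rw [← commutatorElement_eq_one_iff_mul_comm, hwd hx hy]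
  exact hzero a b

/-- the upper unitriangular group is a Sylow subgroup -/
theorem exists_sylow_upper [Fintype F] (p : ℕ) [Fact p.Prime] [CharP F p] :
    ∃ R : Sylow p (Matrix.SpecialLinearGroup (Fin 2) F), ∀ g, g ∈ R → ∃ a, g = upperU a := by
  classical
  let U : Subgroup (Matrix.SpecialLinearGroup (Fin 2) F) :=
    { carrier := Set.range upperU
      one_mem' := ⟨0, upperU_zero⟩
      mul_mem' := by rintro _ _ ⟨a, rfl⟩ ⟨b, rfl⟩; exact ⟨a + b, upperU_add a b⟩
      inv_mem' := by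
        rintro _ ⟨a, rfl⟩
        exact ⟨-a, eq_inv_of_mul_eq_one_left (by rw [← upperU_add, neg_add_cancel, upperU_zero])⟩ }
  have hU : IsPGroup p U := by
    rintro ⟨_, a, rfl⟩
    refine ⟨1, Subtype.ext ?_⟩
    show upperU a ^ p ^ 1 = 1
    rw [pow_one, ← upperU_nsmul, nsmul_eq_mul, CharP.cast_eq_zero, zero_mul, upperU_zero]
  obtain ⟨R, hR⟩ := hU.exists_le_sylow
  refine ⟨R, ?_⟩
  suffices htop : U.subgroupOf (R : Subgroup _) = ⊤ by
    intro g hg
    obtain ⟨a, ha⟩ := Subgroup.subgroupOf_eq_top.mp htop hg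
    exact ⟨a, ha.symm⟩
  by_contra hne
  haveI := R.isPGroup'.isNilpotent
  have hlt := Group.normalizerCondition_of_isNilpotent (U.subgroupOf (R : Subgroup (Matrix.SpecialLinearGroup (Fin 2) F))) (lt_top_iff_ne_top.mpr hne)
  obtain ⟨g, hg, hgU⟩ := SetLike.exists_of_lt hlt
  apply hgU
  show (g : Matrix.SpecialLinearGroup (Fin 2) F) ∈ Set.range upperU
  obtain ⟨b, hb⟩ : ((g * ⟨upperU 1, hR ⟨1, rfl⟩⟩ * g⁻¹ : (R : Subgroup _)) : Matrix.SpecialLinearGroup (Fin 2) F) ∈
      Set.range upperU := (Subgroup.mem_normalizer_iff.mp hg _).mp (show upperU (1 : F) ∈ U from ⟨1, rfl⟩)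
  have h10 : (g : Matrix.SpecialLinearGroup (Fin 2) F) 1 0 = 0 := by
    have h := conj_upperU_entry (g : Matrix.SpecialLinearGroup (Fin 2) F) 1
    rw [show (g : Matrix.SpecialLinearGroup (Fin 2) F) * upperU 1 * (g : Matrix.SpecialLinearGroup (Fin 2) F)⁻¹ =
      upperU b from hb.symm] at h
    simpa [upperU] using h
  obtain ⟨k, hk⟩ := R.isPGroup' g
  have hk' : (g : Matrix.SpecialLinearGroup (Fin 2) F) ^ p ^ k = 1 := congrArg Subtype.val hk
  have h00 : ((g : Matrix.SpecialLinearGroup (Fin 2) F) 0 0) ^ p ^ k = 1 := by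
    rw [← (Cfsg.Lib.SLTwoSub.pow_tri h10 (p ^ k)).2, hk']; simp
  have h1 : (g : Matrix.SpecialLinearGroup (Fin 2) F) 0 0 = 1 := by
    have h := sub_pow_char_pow (p := p) ((g : Matrix.SpecialLinearGroup (Fin 2) F) 0 0) 1 k
    rw [h00, one_pow, sub_self] at h
    exact sub_eq_zero.mp (eq_zero_of_pow_eq_zero h)
  exact ⟨_, (eq_upperU h10 h1).symm⟩

end

/-- For a finite field with q elements, q ≠ 4 and q ≠ 9, the special linear group SL₂ has trivial Schur multiplier (here the Schur multiplier is described through stem extensions, as in the definitions). -/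
theorem result {F : Type*} [Field F] [Fintype F] (h4 : Fintype.card F ≠ 4) (h9 : Fintype.card F ≠ 9) : Cfsg.HasCyclicSchurMultiplier (Matrix.SpecialLinearGroup (Fin 2) F) 1 := by
  classical
  obtain ⟨p, hchar⟩ := CharP.exists F
  haveI := hchar
  haveI : Fact p.Prime := ⟨CharP.char_is_prime F p⟩
  refine multiplier_one_of_sylow_kills fun l _ => ?_
  by_cases hlp : l = p
  · subst hlp
    obtain ⟨R, hR⟩ := exists_sylow_upper (F := F) l
    refine ⟨R, killsIn_of_comm fun Γ _ _ σ hs hc x y hx hy => ?_⟩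
    obtain ⟨a, ha⟩ := hR _ hx
    obtain ⟨b, hb⟩ := hR _ hy
    by_cases hnp : Fintype.card F = l
    · -- the prime field: everything lies over a cyclic group
      haveI : IsAddCyclic F := isAddCyclic_of_prime_card (p := l) (by rw [Nat.card_eq_fintype_card, hnp])
      obtain ⟨e, he⟩ := IsAddCyclic.exists_generator (α := F)
      obtain ⟨E, hE⟩ := hs (upperU e)
      have key : ∀ w : Γ, ∀ c : F, σ w = upperU c → ∃ (n : ℕ) (z : Γ), σ z = 1 ∧ w = E ^ n * z := by
        intro w c hw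
        obtain ⟨n, hn⟩ := (mem_multiples_iff_mem_zmultiples.mpr (he c) : c ∈ AddSubmonoid.multiples e)
        refine ⟨n, (E ^ n)⁻¹ * w, ?_, by group⟩
        have hn' : n • e = c := hn
        rw [map_mul, map_inv, map_pow, hE, hw, ← hn', upperU_nsmul, inv_mul_cancel]
      obtain ⟨n, z, hz, rfl⟩ := key x a ha
      obtain ⟨m, z', hz', rfl⟩ := key y b hb
      have c1 := Subgroup.mem_center_iff.mp (hc (MonoidHom.mem_ker.mpr hz))
      have c2 := Subgroup.mem_center_iff.mp (hc (MonoidHom.mem_ker.mpr hz'))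
      have k1 : Commute z (E ^ m * z') := (c1 _).symm
      have k2 : Commute (E ^ n) (E ^ m * z') := ((Commute.refl E).pow_pow n m).mul_right (c2 _)
      exact k2.mul_left k1
    · obtain ⟨c, t, s, h1, h2, h3, h5, h6⟩ := exists_consecutive (F := F) l h4 h9 hnp
      exact lifts_commute σ hs hc h1 h2 h3 h5 h6 x y a b ha hb
  · obtain ⟨R⟩ := (inferInstance : Nonempty (Sylow l (Matrix.SpecialLinearGroup (Fin 2) F)))
    refine ⟨R, killsIn_of_noCentralExt ?_⟩
    by_cases hl2 : l = 2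
    · subst hl2
      have hodd : Odd (Fintype.card F) := by
        rw [Nat.odd_iff]
        exact FiniteField.odd_card_of_char_ne_two (by rw [ringChar.eq F p]; exact fun h => hlp h.symm)
      obtain ⟨k, -, ⟨e⟩⟩ := Cfsg.Agent.S0261.result hodd R
      refine noCentralExt_of_equiv e (noCentralExt_dihedral_like (QuaternionGroup.a 1) (QuaternionGroup.xa 0) (2 ^ k) ?_ ?_ ⟨2, ?_⟩ ?_)
      · intro g
        rcases g with i | i
        · exact ⟨((i.val : ℕ) : ℤ), Or.inl (by rw [zpow_natCast, QuaternionGroup.a_one_pow]; simp)⟩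
        · exact ⟨((i.val : ℕ) : ℤ), Or.inr (by rw [zpow_natCast, QuaternionGroup.a_one_pow]; simp)⟩
      · rw [mul_inv_eq_iff_eq_mul, eq_inv_mul_iff_mul_eq]; simp
      · simp [zpow_two, QuaternionGroup.a_one_pow]
      · intro j hj
        have hd := orderOf_dvd_iff_zpow_eq_one.mpr hj
        rw [QuaternionGroup.orderOf_a_one] at hd
        push_cast at hd ⊢
        exact (mul_dvd_mul_iff_left (by norm_num : (2 : ℤ) ≠ 0)).mp hd
    · haveI := Cfsg.Agent.S0262.result p l hl2 hlp R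
      exact noCentralExt_cyclic

end Cfsg.Agent.S2117
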