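import Cfsg.Statements.S2087
import Cfsg.Agent.Lib.Stem.Cover
import Cfsg.Agent.S2117
import Cfsg.Agent.S0255
import Cfsg.Agent.Lib.Classical.LinearOrders

set_option autoImplicit false
open Cfsg

namespace Cfsg.Agent.S2087

open scoped commutatorElement

/-- two anticommuting elements -/
theorem exists_pair : ∃ a b : Matrix.SpecialLinearGroup (Fin 2) (ZMod 7),
    ⁅a, b⁆ ≠ 1 ∧ ⁅a, b⁆ ∈ Subgroup.center (Matrix.SpecialLinearGroup (Fin 2) (ZMod 7)) := by
  suffices h : ∀ a b : Matrix.SpecialLinearGroup (Fin 2) (ZMod 7),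
      (a : Matrix (Fin 2) (Fin 2) (ZMod 7)) = !![0, 1; -1, 0] → (b : Matrix (Fin 2) (Fin 2) (ZMod 7)) = !![2, 3; 3, -2] →
      ⁅a, b⁆ ≠ 1 ∧ ⁅a, b⁆ ∈ Subgroup.center (Matrix.SpecialLinearGroup (Fin 2) (ZMod 7)) from
    ⟨_, _, h ⟨!![0, 1; -1, 0], by rw [Matrix.det_fin_two]; decide⟩
      ⟨!![2, 3; 3, -2], by rw [Matrix.det_fin_two]; decide⟩ rfl rfl⟩
  intro a b ha hb
  constructor
  · rw [Ne, commutatorElement_eq_one_iff_mul_comm]
    intro h
    have := congrArg (fun t : Matrix.SpecialLinearGroup (Fin 2) (ZMod 7) => (t : Matrix (Fin 2) (Fin 2) (ZMod 7)) 0 0) h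
    simp only [Matrix.SpecialLinearGroup.coe_mul, ha, hb] at this
    revert this
    decide
  · rw [Matrix.SpecialLinearGroup.mem_center_iff]
    refine ⟨-1, by decide, ?_⟩
    rw [commutatorElement_def]
    simp only [Matrix.SpecialLinearGroup.coe_mul, Matrix.SpecialLinearGroup.coe_inv, ha, hb, Matrix.adjugate_fin_two_of]
    decide

/-- Exceptional Schur multiplier: over the field with 2 elements, PSL₃ has Schur multiplier cyclic of order 2 (here the Schur multiplier is described through stem extensions, as in the definitions). -/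
theorem result {F : Type*} [Field F] [Fintype F] (hF : Fintype.card F = 2) : Cfsg.HasCyclicSchurMultiplier (Matrix.ProjectiveSpecialLinearGroup (Fin 3) F) 2 := by
  classical
  haveI : Fact (Nat.Prime 7) := ⟨by norm_num⟩
  obtain ⟨e⟩ := Cfsg.Agent.S0255.result (F := ZMod 7) (K := F) (ZMod.card 7) hF
  let S := Matrix.SpecialLinearGroup (Fin 2) (ZMod 7)
  let Z : Subgroup S := Subgroup.center S
  let σ : S →* Matrix.ProjectiveSpecialLinearGroup (Fin 3) F := e.toMonoidHom.comp (QuotientGroup.mk' Z)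
  have hker : σ.ker = Z := by
    ext x
    rw [MonoidHom.mem_ker]
    exact ⟨fun h => (QuotientGroup.eq_one_iff x).mp (e.injective (h.trans (map_one e).symm)),
      fun h => by
        show e _ = 1
        rw [show (QuotientGroup.mk' Z) x = 1 from (QuotientGroup.eq_one_iff x).mpr h, map_one]⟩
  have hZ : Nat.card Z = 2 := by
    rw [Cfsg.Lib.Classical.LinearOrders.card_center_sl (by norm_num), ZMod.card]
    decide
  obtain ⟨a, b, hab, habZ⟩ := Cfsg.Agent.S2087.exists_pair
  have hd : Z ≤ commutator S := by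
    intro z hz
    haveI := Fact.mk Nat.prime_two
    have : (⟨z, hz⟩ : Z) ∈ Subgroup.zpowers (⟨⁅a, b⁆, habZ⟩ : Z) :=
      mem_zpowers_of_prime_card (p := 2) hZ fun h => hab (congrArg Subtype.val h)
    obtain ⟨k, hk⟩ := this
    rw [show z = ⁅a, b⁆ ^ k from (congrArg Subtype.val hk).symm]
    exact Subgroup.zpow_mem _ (Subgroup.commutator_mem_commutator (Subgroup.mem_top _) (Subgroup.mem_top _)) k
  haveI : IsCyclic σ.ker := isCyclic_of_prime_card (p := 2) (by rw [hker, hZ])
  exact Cfsg.Agent.Stem.multiplier_of_cover (σ := σ)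
    ⟨e.surjective.comp (QuotientGroup.mk'_surjective Z), hker.le, hker.le.trans hd⟩
    (mulEquivOfCyclicCardEq (by rw [hker, hZ, Nat.card_congr Multiplicative.toAdd, Nat.card_zmod]))
    (Cfsg.Agent.S2117.result (F := ZMod 7) (by rw [ZMod.card]; norm_num) (by rw [ZMod.card]; norm_num))

end Cfsg.Agent.S2087
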