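import Cfsg.Statements.S2162
import Cfsg.Agent.Lib.Classical.InvolJordan
-- import your own Cfsg.Agent.* helpers here

set_option autoImplicit false
open Cfsg

namespace Cfsg.Agent.S2162

/-- Conjugacy of involutions in the special linear group over a finite field of characteristic two, in dimension at least 3: two elements of order 2 of SL_n(F) are conjugate in SL_n(F) exactly when the matrices a − 1 and b − 1 have the same rank (the rank of a − 1 is the dimension of the commutator space [V, a]). -/
theorem result {F : Type*} [Field F] [Fintype F] [CharP F 2] {n : ℕ} (hn : 3 ≤ n) (a b : Matrix.SpecialLinearGroup (Fin n) F) (ha : orderOf a = 2) (hb : orderOf b = 2) :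
    IsConj a b ↔ ((a : Matrix (Fin n) (Fin n) F) - 1).rank = ((b : Matrix (Fin n) (Fin n) F) - 1).rank := by
  classical
  constructor
  · intro h
    obtain ⟨c, hc⟩ := isConj_iff.1 h
    have e : ((b : Matrix (Fin n) (Fin n) F) - 1) =
        (c : Matrix (Fin n) (Fin n) F) * ((a : Matrix (Fin n) (Fin n) F) - 1) *
          ((c⁻¹ : Matrix.SpecialLinearGroup (Fin n) F) : Matrix (Fin n) (Fin n) F) := by
      rw [Matrix.mul_sub, Matrix.sub_mul, Matrix.mul_one, ← Matrix.SpecialLinearGroup.coe_mul,
        ← Matrix.SpecialLinearGroup.coe_mul, ← Matrix.SpecialLinearGroup.coe_mul, mul_inv_cancel, hc]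
      rfl
    rw [e, Matrix.rank_mul_eq_left_of_isUnit_det _ _ (by rw [Matrix.SpecialLinearGroup.det_coe]; exact isUnit_one),
      Matrix.rank_mul_eq_right_of_isUnit_det _ _ (by rw [Matrix.SpecialLinearGroup.det_coe]; exact isUnit_one)]
  · intro hr
    have hsq0 : ∀ x : Matrix.SpecialLinearGroup (Fin n) F, orderOf x = 2 →
        ∀ v, Matrix.mulVecLin ((x : Matrix (Fin n) (Fin n) F) - 1) (Matrix.mulVecLin ((x : Matrix (Fin n) (Fin n) F) - 1) v) = 0 := by
      intro x hx v
      have h2 : x * x = 1 := by rw [← pow_two, ← hx, pow_orderOf_eq_one]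
      have h3 : (x : Matrix (Fin n) (Fin n) F) * (x : Matrix (Fin n) (Fin n) F) = 1 := by
        rw [← Matrix.SpecialLinearGroup.coe_mul, h2]; rfl
      rw [Matrix.mulVecLin_apply, Matrix.mulVecLin_apply, Matrix.mulVec_mulVec]
      have e : ((x : Matrix (Fin n) (Fin n) F) - 1) * ((x : Matrix (Fin n) (Fin n) F) - 1) =
          (2 : F) • (1 - (x : Matrix (Fin n) (Fin n) F)) := by
        rw [Matrix.sub_mul, Matrix.one_mul, Matrix.mul_sub, Matrix.mul_one, h3, two_smul]; abel
      rw [e, CharTwo.two_eq_zero, zero_smul, Matrix.zero_mulVec]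
    have hN0 : Matrix.mulVecLin ((a : Matrix (Fin n) (Fin n) F) - 1) ≠ 0 := by
      intro h
      have h' : Matrix.toLin' ((a : Matrix (Fin n) (Fin n) F) - 1) = 0 := h
      rw [map_eq_zero_iff _ Matrix.toLin'.injective, sub_eq_zero] at h'
      have : a = 1 := Subtype.ext h'
      rw [this, orderOf_one] at ha
      omega
    have hchar : ringChar F = 2 := ringChar.eq F 2
    obtain ⟨g, hg, hgN⟩ := InvolJordan.exists_intertwine _ _ (hsq0 a ha) (hsq0 b hb) hr hN0
      (fun c => FiniteField.isSquare_of_char_two hchar c)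
    let G : Matrix.SpecialLinearGroup (Fin n) F :=
      ⟨LinearMap.toMatrix' (g : (Fin n → F) →ₗ[F] (Fin n → F)), by rw [LinearMap.det_toMatrix', hg]⟩
    refine isConj_iff.2 ⟨G, ?_⟩
    rw [mul_inv_eq_iff_eq_mul]
    apply Subtype.ext
    rw [Matrix.SpecialLinearGroup.coe_mul, Matrix.SpecialLinearGroup.coe_mul]
    apply Matrix.toLin'.injective
    refine LinearMap.ext fun v => ?_
    show Matrix.toLin' (LinearMap.toMatrix' (g : (Fin n → F) →ₗ[F] (Fin n → F)) * (a : Matrix (Fin n) (Fin n) F)) v =
      Matrix.toLin' ((b : Matrix (Fin n) (Fin n) F) * LinearMap.toMatrix' (g : (Fin n → F) →ₗ[F] (Fin n → F))) v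
    rw [Matrix.toLin'_mul, Matrix.toLin'_mul, Matrix.toLin'_toMatrix']
    have h := hgN v
    simp only [Matrix.mulVecLin_apply, Matrix.sub_mulVec, Matrix.one_mulVec, map_sub, sub_left_inj] at h
    simpa using h

end Cfsg.Agent.S2162
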