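import Cfsg.Statements.S2163
import Mathlib
-- import your own Cfsg.Agent.* helpers here

set_option autoImplicit false
open Cfsg

namespace Cfsg.Agent.S2163

/-- Over a finite field of characteristic two and for n ≥ 3: for every ℓ with 1 ≤ ℓ and 2ℓ ≤ n, the matrix j_ℓ that is the identity plus the entries 1 in positions (n − ℓ + i, i) for i < ℓ (an identity block of size ℓ in the lower left corner) lies in SL_n(F), has order 2, and j_ℓ − 1 has rank ℓ. Together with the conjugacy criterion by rank, these matrices represent the conjugacy classes of involutions of SL_n(F). -/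
theorem result {F : Type*} [Field F] [Fintype F] [CharP F 2] {n : ℕ} (hn : 3 ≤ n) (ℓ : ℕ) (h1 : 1 ≤ ℓ) (h2 : 2 * ℓ ≤ n) :
    ∃ a : Matrix.SpecialLinearGroup (Fin n) F, (a : Matrix (Fin n) (Fin n) F) = 1 + Matrix.of (fun i j : Fin n => if j.val < ℓ ∧ i.val = j.val + (n - ℓ) then (1 : F) else 0) ∧ orderOf a = 2 ∧ ((a : Matrix (Fin n) (Fin n) F) - 1).rank = ℓ := by
  classical
  haveI : Fact (Nat.Prime 2) := ⟨Nat.prime_two⟩
  set N : Matrix (Fin n) (Fin n) F := Matrix.of (fun i j : Fin n => if j.val < ℓ ∧ i.val = j.val + (n - ℓ) then (1 : F) else 0) with hN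
  have hdet : (1 + N).det = 1 := by
    rw [Matrix.det_of_isLowerTriangular]
    · refine Finset.prod_eq_one fun i _ => ?_
      simp [hN, Matrix.one_apply]
      omega
    · intro i j hij
      have hij' : i < j := hij
      have : (i : ℕ) < j := hij'
      simp [hN, Matrix.one_apply, hij'.ne]
      omega
  have hsq : N * N = 0 := by
    ext i j
    rw [Matrix.mul_apply]
    refine Finset.sum_eq_zero fun k _ => ?_
    simp only [hN, Matrix.of_apply]
    split_ifs <;> simp <;> omega
  let a : Matrix.SpecialLinearGroup (Fin n) F := ⟨1 + N, hdet⟩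
  have ha1 : (a : Matrix (Fin n) (Fin n) F) - 1 = N := by show 1 + N - 1 = N; abel
  refine ⟨a, rfl, orderOf_eq_prime ?_ ?_, ?_⟩
  · rw [pow_two]
    refine Subtype.ext ?_
    show (1 + N) * (1 + N) = 1
    have h22 : N + N = 0 := by ext i j; exact CharTwo.add_self_eq_zero _
    rw [add_mul, mul_add, mul_add, one_mul, mul_one, one_mul, hsq, add_zero, add_assoc, h22, add_zero]
  · intro h
    have := congrFun (congrFun (congrArg Subtype.val h) (⟨n - ℓ, by omega⟩ : Fin n)) (⟨0, by omega⟩ : Fin n)
    simp [a, hN, Matrix.one_apply, Fin.ext_iff] at this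
    omega
  · rw [ha1]
    let e : Fin ℓ → Fin n := fun j => ⟨j + (n - ℓ), by omega⟩
    have hr : LinearMap.range N.mulVecLin = Submodule.span F (Set.range fun j => (Pi.single (e j) 1 : Fin n → F)) := by
      rw [Matrix.range_mulVecLin]
      refine le_antisymm (Submodule.span_le.2 ?_) (Submodule.span_le.2 ?_)
      · rintro _ ⟨j, rfl⟩
        by_cases hj : (j : ℕ) < ℓ
        · refine Submodule.subset_span ⟨⟨j, hj⟩, ?_⟩
          funext i
          simp [hN, Matrix.col, Pi.single_apply, e, Fin.ext_iff, hj]
        · rw [show N.col j = 0 from funext fun i => by simp [hN, Matrix.col, hj]]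
          exact Submodule.zero_mem _
      · rintro _ ⟨j, rfl⟩
        refine Submodule.subset_span ⟨⟨j, by omega⟩, ?_⟩
        funext i
        simp [hN, Matrix.col, Pi.single_apply, e, Fin.ext_iff]
    rw [Matrix.rank, hr, finrank_span_eq_card, Fintype.card_fin]
    have he : Function.Injective e := fun x y h => Fin.ext (by simpa [e, Fin.ext_iff] using h)
    have := (Pi.basisFun F (Fin n)).linearIndependent.comp e he
    simpa [Function.comp_def, Pi.basisFun_apply] using this

end Cfsg.Agent.S2163
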