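import Cfsg.Statements.S2164
import Cfsg.Agent.Lib.LinAlg.HermitianGU
import Cfsg.Agent.Lib.LinAlg.UnipotentClasses
import Cfsg.Agent.S2587

set_option autoImplicit false
open Cfsg

namespace Cfsg.Agent.S2164

open Matrix Cfsg.Lib.Jordan

variable {F : Type*} [Field F] [Fintype F] [CharP F 2] {n q : ℕ}

theorem sub_one_sq {g : GL (Fin n) F} (hn : 0 < n) (h : g ^ 2 = 1) :
    ((g : Matrix (Fin n) (Fin n) F) - 1) ^ 2 = 0 := by
  haveI : Fact (Nat.Prime 2) := ⟨Nat.prime_two⟩
  haveI : Nonempty (Fin n) := ⟨⟨0, hn⟩⟩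
  simpa using (order_pow_iff 2 g 1).1 (by simpa using h)

theorem kerDim_eq (N : Matrix (Fin n) (Fin n) F) (r : ℕ) : kerDim N r + (N ^ r).rank = n := by
  rw [kerDim, ← Matrix.toLin'_pow, Matrix.rank, ← Matrix.toLin'_apply', add_comm,
    LinearMap.finrank_range_add_finrank_ker, Module.finrank_fin_fun]

theorem gl_conj {g h : GL (Fin n) F} (hg : ((g : Matrix (Fin n) (Fin n) F) - 1) ^ 2 = 0)
    (hh : ((h : Matrix (Fin n) (Fin n) F) - 1) ^ 2 = 0)
    (hr : ((g : Matrix (Fin n) (Fin n) F) - 1).rank = ((h : Matrix (Fin n) (Fin n) F) - 1).rank) : IsConj g h := by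
  obtain ⟨μ, hμ⟩ := exists_unip g hg
  obtain ⟨ν, hν⟩ := exists_unip h hh
  have hk : ∀ r, kerDim ((g : Matrix (Fin n) (Fin n) F) - 1) r = kerDim ((h : Matrix (Fin n) (Fin n) F) - 1) r := by
    intro r
    have h1 := kerDim_eq ((g : Matrix (Fin n) (Fin n) F) - 1) r
    have h2 := kerDim_eq ((h : Matrix (Fin n) (Fin n) F) - 1) r
    have h3 : (((g : Matrix (Fin n) (Fin n) F) - 1) ^ r).rank = (((h : Matrix (Fin n) (Fin n) F) - 1) ^ r).rank := by
      rcases r with _ | _ | r
      · simp
      · simpa using hr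
      · rw [pow_eq_zero_of_le (by omega) hg, pow_eq_zero_of_le (by omega) hh]
    omega
  obtain ⟨E, hE⟩ := (isConj_iff_intertwine _ _).1 hμ
  obtain ⟨E', hE'⟩ := (isConj_iff_intertwine _ _).1 hν
  rw [unip_sub_one] at hE hE'
  obtain rfl : μ = ν := partition_eq_of_kerDim fun r => by
    rw [← kerDim_nilMat (F := F), ← kerDim_nilMat (F := F)]
    exact (finrank_ker_congr E hE r).symm.trans ((hk r).trans (finrank_ker_congr E' hE' r))
  exact hμ.trans hν.symm

theorem exists_model {σ : F ≃+* F} (hσ : ∀ a, σ a = a ^ q) {r : ℕ} (hr : 1 ≤ r) (hrn : r + r ≤ n) :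
    ∃ P ∈ Cfsg.GU n F q, ((P : Matrix (Fin n) (Fin n) F) - 1) ^ 2 = 0 ∧
      ((P : Matrix (Fin n) (Fin n) F) - 1).rank = r ∧
      ∀ c : F, σ c * c = 1 → ∃ Z ∈ Cfsg.GU n F q, Z * P = P * Z ∧ (Z : Matrix (Fin n) (Fin n) F).det = c ^ 2 := by
  let π : Fin n → Fin n := fun i => if h : i.1 < r then ⟨i.1 + r, by omega⟩ else
    if h' : i.1 < r + r then ⟨i.1 - r, by omega⟩ else i
  have hπ : Function.Involutive π := fun i => by
    by_cases h : i.1 < r
    · have e : π i = ⟨i.1 + r, by omega⟩ := dif_pos h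
      rw [e]
      exact (dif_neg (show ¬ i.1 + r < r by omega)).trans
        ((dif_pos (show i.1 + r < r + r by omega)).trans (Fin.ext (Nat.add_sub_cancel i.1 r)))
    · by_cases h' : i.1 < r + r
      · have e : π i = ⟨i.1 - r, by omega⟩ := (dif_neg h).trans (dif_pos h')
        rw [e]
        exact (dif_pos (show i.1 - r < r by omega)).trans (Fin.ext (show i.1 - r + r = i.1 by omega))
      · have e : π i = i := (dif_neg h).trans (dif_neg h')
        rw [e, e]
  let M : Matrix (Fin n) (Fin n) F := Matrix.of fun i j => if π i = j then 1 else 0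
  have hMt : M.transpose = M := by
    ext i j
    simp only [M, transpose_apply, of_apply]
    exact if_congr ⟨fun h => by rw [← h, hπ], fun h => by rw [← h, hπ]⟩ rfl rfl
  have hMM : M * M = 1 := by
    ext i j
    simp only [M, mul_apply, of_apply, ite_mul, one_mul, zero_mul, Finset.sum_ite_eq, Finset.mem_univ, if_true,
      hπ i, one_apply]
  have hMs : M.map σ.toRingHom = M := by
    ext i j
    simp only [M, Matrix.map_apply, of_apply]
    split_ifs <;> simp
  refine ⟨⟨M, M, hMM, hMM⟩, (Cfsg.Lib.HermNorm.gu_iff hσ).2 ?_, ?_, ?_, ?_⟩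
  · show Cfsg.Lib.HermNorm.st σ.toRingHom M * M = 1
    rw [Cfsg.Lib.HermNorm.st, hMs, hMt, hMM]
  · exact sub_one_sq (by omega) (Units.ext (by rw [pow_two]; exact hMM))
  · show (M - 1).rank = r
    let A : Matrix (Fin n) (Fin r) F := Matrix.of fun i k => if i.1 = k.1 ∨ i.1 = k.1 + r then 1 else 0
    have hAB : M - 1 = A * A.transpose := by
      ext i j
      rw [mul_apply, Matrix.sub_apply, CharTwo.sub_eq_add]
      simp only [A, M, of_apply, transpose_apply, one_apply]
      by_cases h2 : i.1 < r + r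
      · let k0 : Fin r := ⟨if i.1 < r then i.1 else i.1 - r, by split_ifs <;> omega⟩
        rw [Finset.sum_eq_single k0 (fun k _ hk => by
          have hk' : k.1 ≠ if i.1 < r then i.1 else i.1 - r := fun e => hk (Fin.ext e)
          split_ifs at hk' <;> rw [if_neg (by omega), zero_mul]) (by simp)]
        simp only [π, k0, Fin.ext_iff]
        split_ifs <;> simp_all <;> omega
      · rw [Finset.sum_eq_zero fun k _ => by rw [if_neg (by omega), zero_mul],
          show π i = i by simp only [π]; rw [dif_neg (by omega), dif_neg h2]]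
        split_ifs <;> simp [CharTwo.add_self_eq_zero]
    refine le_antisymm (hAB ▸ (rank_mul_le_left _ _).trans ((rank_le_width A).trans le_rfl)) ?_
    let f : Fin r → Fin n := fun k => ⟨k.1, by omega⟩
    have hsub : (M - 1).submatrix f f = 1 := by
      ext i j
      rw [submatrix_apply, Matrix.sub_apply, CharTwo.sub_eq_add]
      simp only [M, of_apply, one_apply, π, f, Fin.ext_iff]
      rw [dif_pos i.2, if_neg (by simp; omega), zero_add]
    calc r = ((M - 1).submatrix f f).rank := by rw [hsub, rank_one, Fintype.card_fin]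
      _ ≤ (M - 1).rank := rank_submatrix_le _ _ _
  · intro c hc
    let d : Fin n → F := fun i => if i.1 = 0 ∨ i.1 = r then c else 1
    have hd : (diagonal d).det = c ^ 2 := by
      rw [det_diagonal, Finset.prod_ite, Finset.prod_const, Finset.prod_const_one, mul_one]
      congr 1
      rw [show (Finset.univ.filter fun i : Fin n => i.1 = 0 ∨ i.1 = r) = {⟨0, by omega⟩, ⟨r, by omega⟩} by
        ext i; simp [Fin.ext_iff]]
      exact Finset.card_pair (by simp [Fin.ext_iff]; omega)
    refine ⟨GeneralLinearGroup.mkOfDetNeZero _ (hd.symm ▸ pow_ne_zero 2 (right_ne_zero_of_mul_eq_one hc)),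
      (Cfsg.Lib.HermNorm.gu_iff hσ).2 ?_, Units.ext ?_, hd⟩
    · show Cfsg.Lib.HermNorm.st σ.toRingHom (diagonal d) * diagonal d = 1
      rw [Cfsg.Lib.HermNorm.st, diagonal_map (map_zero _), diagonal_transpose, diagonal_mul_diagonal, ← diagonal_one]
      congr 1
      funext i
      simp only [d, Function.comp_apply]
      split_ifs
      · exact hc
      · simp
    · show diagonal d * M = M * diagonal d
      ext i j
      simp only [M, diagonal_mul, mul_diagonal, of_apply]
      by_cases h : π i = j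
      · rw [if_pos h, mul_one, one_mul, ← h]
        simp only [d, π]
        split_ifs <;> simp_all <;> omega
      · rw [if_neg h, mul_zero, zero_mul]


/-- Conjugacy of involutions in the special unitary group SU_n(q), q even, n ≥ 3, realised over the field F with q² elements as the matrices of determinant 1 preserving the form Σ u_i v_i^q: for two elements of order 2 of SU_n(q) the following are equivalent — they are conjugate in SU_n(q); they are conjugate in SL_n(F); the matrices a − 1 and b − 1 have the same rank. -/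
theorem result {F : Type*} [Field F] [Fintype F] [CharP F 2] {n q : ℕ} (hF : Fintype.card F = q ^ 2) (hn : 3 ≤ n) (a b : ↥(Cfsg.SU n F q)) (ha : orderOf a = 2) (hb : orderOf b = 2) :
    (IsConj a b ↔ IsConj (a : Matrix.SpecialLinearGroup (Fin n) F) (b : Matrix.SpecialLinearGroup (Fin n) F)) ∧
    (IsConj a b ↔ (((a : Matrix.SpecialLinearGroup (Fin n) F) : Matrix (Fin n) (Fin n) F) - 1).rank = (((b : Matrix.SpecialLinearGroup (Fin n) F) : Matrix (Fin n) (Fin n) F) - 1).rank) := by
  have main : (((a : Matrix.SpecialLinearGroup (Fin n) F) : Matrix (Fin n) (Fin n) F) - 1).rank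
      = (((b : Matrix.SpecialLinearGroup (Fin n) F) : Matrix (Fin n) (Fin n) F) - 1).rank → IsConj a b := by
    intro hr
    obtain ⟨σ, hne, hσ, hinv⟩ := Cfsg.Lib.Classical.exists_frobSq hF
    let ga : GL (Fin n) F := Matrix.SpecialLinearGroup.toGL (a : Matrix.SpecialLinearGroup (Fin n) F)
    let gb : GL (Fin n) F := Matrix.SpecialLinearGroup.toGL (b : Matrix.SpecialLinearGroup (Fin n) F)
    have hga : ga ∈ Cfsg.GU n F q := a.2
    have hgb : gb ∈ Cfsg.GU n F q := b.2
    have h2a : ((ga : Matrix (Fin n) (Fin n) F) - 1) ^ 2 = 0 := sub_one_sq (by omega) (by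
      rw [← map_pow, ← SubmonoidClass.coe_pow, ← ha, pow_orderOf_eq_one, OneMemClass.coe_one, map_one])
    have h2b : ((gb : Matrix (Fin n) (Fin n) F) - 1) ^ 2 = 0 := sub_one_sq (by omega) (by
      rw [← map_pow, ← SubmonoidClass.coe_pow, ← hb, pow_orderOf_eq_one, OneMemClass.coe_one, map_one])
    set r := ((gb : Matrix (Fin n) (Fin n) F) - 1).rank with hrdef
    have hr1 : 1 ≤ r := by
      by_contra h
      have h0 : (gb : Matrix (Fin n) (Fin n) F) - 1 = 0 := by
        have h1 : LinearMap.range ((gb : Matrix (Fin n) (Fin n) F) - 1).mulVecLin = ⊥ :=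
          Submodule.finrank_eq_zero.1 (show ((gb : Matrix (Fin n) (Fin n) F) - 1).rank = 0 by omega)
        exact Matrix.toLin'.injective ((LinearMap.range_eq_bot.1 h1).trans (map_zero _).symm)
      have hb1 : b = 1 := Subtype.ext (Subtype.ext (sub_eq_zero.1 h0))
      rw [hb1, orderOf_one] at hb
      omega
    have hr2 : r + r ≤ n := by
      have := Matrix.rank_add_rank_le_card_of_mul_eq_zero (A := (gb : Matrix (Fin n) (Fin n) F) - 1) (B := (gb : Matrix (Fin n) (Fin n) F) - 1) (by rw [← pow_two, h2b])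
      rwa [Fintype.card_fin] at this
    obtain ⟨P, hP, hP2, hPr, hPZ⟩ := exists_model hσ hr1 hr2
    obtain ⟨U, hU⟩ := isConj_iff.1 ((Cfsg.Agent.S2587.result hF ⟨ga, hga⟩ ⟨gb, hgb⟩).2 (gl_conj h2a h2b hr))
    obtain ⟨V, hV⟩ := isConj_iff.1 ((Cfsg.Agent.S2587.result hF ⟨P, hP⟩ ⟨gb, hgb⟩).2 (gl_conj hP2 h2b hPr))
    have hUn : σ ((U : GL (Fin n) F) : Matrix (Fin n) (Fin n) F).det * ((U : GL (Fin n) F) : Matrix (Fin n) (Fin n) F).det = 1 := by
      have h := congrArg Matrix.det ((Cfsg.Lib.HermNorm.gu_iff hσ).1 U.2)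
      rw [Matrix.det_mul, Matrix.det_one, Cfsg.Lib.HermNorm.st, Matrix.det_transpose, ← RingHom.mapMatrix_apply,
        ← RingHom.map_det] at h
      exact h
    set δ := ((U : GL (Fin n) F) : Matrix (Fin n) (Fin n) F).det with hδ
    -- `q + 1` is odd, so `δ⁻¹` is a square in the group of norm one elements
    have hq : Odd (q + 1) := by
      refine Even.add_one ?_
      have h2 : 2 ∣ q ^ 2 := by
        rw [← hF]
        haveI : Fact (Nat.Prime 2) := ⟨Nat.prime_two⟩
        obtain ⟨k, -, hk⟩ := FiniteField.card F 2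
        rw [hk]
        exact dvd_pow_self 2 k.ne_zero
      exact even_iff_two_dvd.2 (Nat.prime_two.dvd_of_dvd_pow h2)
    obtain ⟨k, hk⟩ := hq
    have hδ0 : δ ≠ 0 := right_ne_zero_of_mul_eq_one hUn
    have hδq : δ ^ (2 * k + 1) = 1 := by rw [← hk, pow_succ, ← hσ, hUn]
    have hc : σ (δ ^ k) * δ ^ k = 1 := by rw [map_pow, ← mul_pow, hUn, one_pow]
    obtain ⟨Z, hZ, hZP, hZd⟩ := hPZ _ hc
    have hV' : (V : GL (Fin n) F) * P * (V : GL (Fin n) F)⁻¹ = gb := congrArg Subtype.val hV
    have hU' : (U : GL (Fin n) F) * ga * (U : GL (Fin n) F)⁻¹ = gb := congrArg Subtype.val hU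
    set W : GL (Fin n) F := (V : GL (Fin n) F) * Z * (V : GL (Fin n) F)⁻¹ * U with hW
    have hWm : W ∈ Cfsg.GU n F q := mul_mem (mul_mem (mul_mem V.2 hZ) (inv_mem V.2)) U.2
    have hWd : (W : Matrix (Fin n) (Fin n) F).det = 1 := by
      rw [hW]
      simp only [Units.val_mul, Matrix.det_mul]
      rw [mul_comm ((V : GL (Fin n) F) : Matrix (Fin n) (Fin n) F).det, mul_assoc (Z : Matrix (Fin n) (Fin n) F).det,
        ← Matrix.det_mul, Units.mul_inv, Matrix.det_one, mul_one, hZd, ← hδ, ← pow_mul, mul_comm k 2, ← pow_succ, hδq]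
    have hWe : W * ga * W⁻¹ = gb := by
      calc W * ga * W⁻¹ = (V : GL (Fin n) F) * Z * (V : GL (Fin n) F)⁻¹ * gb * ((V : GL (Fin n) F) * Z * (V : GL (Fin n) F)⁻¹)⁻¹ := by
            rw [hW, ← hU']; group
        _ = (V : GL (Fin n) F) * (Z * P) * Z⁻¹ * (V : GL (Fin n) F)⁻¹ := by rw [← hV']; group
        _ = gb := by rw [hZP, ← hV']; group
    refine isConj_iff.2 ⟨⟨⟨_, hWd⟩, hWm⟩, mul_inv_eq_iff_eq_mul.2 (Subtype.ext (Subtype.ext ?_))⟩
    exact congrArg Units.val (mul_inv_eq_iff_eq_mul.1 hWe)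
  have hrank : IsConj (a : Matrix.SpecialLinearGroup (Fin n) F) (b : Matrix.SpecialLinearGroup (Fin n) F) →
      (((a : Matrix.SpecialLinearGroup (Fin n) F) : Matrix (Fin n) (Fin n) F) - 1).rank
      = (((b : Matrix.SpecialLinearGroup (Fin n) F) : Matrix (Fin n) (Fin n) F) - 1).rank := by
    intro h
    obtain ⟨c, hc⟩ := isConj_iff.1 h
    have e : (c : Matrix (Fin n) (Fin n) F) * (a : Matrix.SpecialLinearGroup (Fin n) F) =
        (b : Matrix.SpecialLinearGroup (Fin n) F) * (c : Matrix (Fin n) (Fin n) F) := by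
      rw [← Matrix.SpecialLinearGroup.coe_mul, ← Matrix.SpecialLinearGroup.coe_mul, ← hc, inv_mul_cancel_right]
    have hc1 : IsUnit (c : Matrix (Fin n) (Fin n) F).det := by rw [c.2]; exact isUnit_one
    rw [← Matrix.rank_mul_eq_right_of_isUnit_det _ (((a : Matrix.SpecialLinearGroup (Fin n) F) : Matrix (Fin n) (Fin n) F) - 1) hc1,
      mul_sub, mul_one, e, ← sub_one_mul, Matrix.rank_mul_eq_left_of_isUnit_det _ _ hc1]
  exact ⟨⟨(Cfsg.SU n F q).subtype.map_isConj, fun h => main (hrank h)⟩,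
    ⟨fun h => hrank ((Cfsg.SU n F q).subtype.map_isConj h), main⟩⟩

end Cfsg.Agent.S2164
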