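import Cfsg.Statements.S2165
import Mathlib
-- import your own Cfsg.Agent.* helpers here

set_option autoImplicit false
open Cfsg

namespace Cfsg.Agent.S2165

/-- In SU_n(q), q even, n ≥ 3 (matrices of determinant 1 over the field with q² elements preserving Σ u_i v_i^q): for every ℓ with 1 ≤ ℓ and 2ℓ ≤ n, the permutation matrix of the involution of {0, …, n−1} exchanging i and n − ℓ + i for each i < ℓ lies in SU_n(q), has order 2, and differs from the identity by a matrix of rank ℓ. So every rank between 1 and n/2 occurs for involutions of SU_n(q). -/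
theorem result {F : Type*} [Field F] [Fintype F] [CharP F 2] {n q : ℕ} (hF : Fintype.card F = q ^ 2) (hn : 3 ≤ n) (ℓ : ℕ) (h1 : 1 ≤ ℓ) (h2 : 2 * ℓ ≤ n) :
    ∃ a : ↥(Cfsg.SU n F q), (((a : Matrix.SpecialLinearGroup (Fin n) F) : Matrix (Fin n) (Fin n) F) = Matrix.of (fun i j : Fin n => if (j.val < ℓ ∧ i.val = j.val + (n - ℓ)) ∨ (i.val < ℓ ∧ j.val = i.val + (n - ℓ)) ∨ (i = j ∧ ℓ ≤ i.val ∧ i.val < n - ℓ) then (1 : F) else 0)) ∧ orderOf a = 2 ∧ ((((a : Matrix.SpecialLinearGroup (Fin n) F) : Matrix (Fin n) (Fin n) F)) - 1).rank = ℓ := by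
  classical
  haveI : Fact (Nat.Prime 2) := ⟨Nat.prime_two⟩
  let p : Fin n → Fin n := fun i =>
    if h : (i : ℕ) < ℓ then ⟨i + (n - ℓ), by omega⟩ else if n - ℓ ≤ (i : ℕ) then ⟨i - (n - ℓ), by omega⟩ else i
  have hpp : Function.Involutive p := fun i => by
    simp only [p]
    by_cases h : (i : ℕ) < ℓ
    · rw [dif_pos h, dif_neg (by simp only; omega), if_pos (by simp only; omega)]
      exact Fin.ext (by simp)
    rw [dif_neg h]
    by_cases h' : n - ℓ ≤ (i : ℕ)
    · rw [if_pos h', dif_pos (by simp only; omega)]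
      exact Fin.ext (by simp only; omega)
    · rw [if_neg h', dif_neg h, if_neg h']
  let π : Equiv.Perm (Fin n) := Function.Involutive.toPerm p hpp
  set M : Matrix (Fin n) (Fin n) F := Matrix.of (fun i j : Fin n => if (j.val < ℓ ∧ i.val = j.val + (n - ℓ)) ∨ (i.val < ℓ ∧ j.val = i.val + (n - ℓ)) ∨ (i = j ∧ ℓ ≤ i.val ∧ i.val < n - ℓ) then (1 : F) else 0) with hM
  have hMp : M = π.permMatrix F := by
    ext i j
    rw [hM, Matrix.of_apply, Equiv.Perm.permMatrix, PEquiv.toMatrix_apply]
    simp only [Equiv.toPEquiv_apply, Option.mem_def, Option.some.injEq, π, Function.Involutive.coe_toPerm]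
    refine if_congr ?_ rfl rfl
    simp only [p]
    split_ifs <;> simp [Fin.ext_iff] <;> omega
  have hdet : M.det = 1 := by
    rw [hMp, Matrix.det_permutation]
    rcases Int.units_eq_one_or (Equiv.Perm.sign π) with e | e <;> simp [e, CharTwo.neg_eq]
  have hmv : ∀ u : Fin n → F, M.mulVec u = u ∘ π := fun u => by rw [hMp, Matrix.permMatrix_mulVec]
  have hmem : (⟨M, hdet⟩ : Matrix.SpecialLinearGroup (Fin n) F) ∈ Cfsg.SU n F q := by
    intro u v
    show Cfsg.hermForm n F q (M.mulVec u) (M.mulVec v) = _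
    rw [hmv, hmv]
    exact Equiv.sum_comp π (fun i => u i * v i ^ q)
  refine ⟨⟨⟨M, hdet⟩, hmem⟩, ?_, orderOf_eq_prime ?_ ?_, ?_⟩
  · rfl
  · rw [pow_two]
    refine Subtype.ext (Subtype.ext (Matrix.ext_iff_mulVec.2 fun u => ?_))
    show (M * M).mulVec u = (1 : Matrix (Fin n) (Fin n) F).mulVec u
    rw [← Matrix.mulVec_mulVec, hmv, hmv, Matrix.one_mulVec]
    funext i
    show u (p (p i)) = u i
    rw [hpp i]
  · intro h
    have := congrFun (congrFun (congrArg (fun x : Cfsg.SU n F q => ((x : Matrix.SpecialLinearGroup (Fin n) F) : Matrix (Fin n) (Fin n) F)) h) (⟨0, by omega⟩ : Fin n)) (⟨0, by omega⟩ : Fin n)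
    simp [hM] at this
    omega
  · show (M - 1).rank = ℓ
    let u : Fin ℓ → (Fin n → F) := fun j => fun i => if (i : ℕ) = j ∨ (i : ℕ) = j + (n - ℓ) then 1 else 0
    have hr : LinearMap.range (M - 1).mulVecLin = Submodule.span F (Set.range u) := by
      rw [Matrix.range_mulVecLin]
      refine le_antisymm (Submodule.span_le.2 ?_) (Submodule.span_le.2 ?_)
      · rintro _ ⟨j, rfl⟩
        by_cases hj : (j : ℕ) < ℓ
        · refine Submodule.subset_span ⟨⟨j, hj⟩, ?_⟩
          funext i
          simp only [u, hM, Matrix.col, Matrix.transpose_apply, Matrix.sub_apply, Matrix.of_apply, Matrix.one_apply, Fin.ext_iff]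
          split_ifs <;> simp [CharTwo.neg_eq] <;> omega
        by_cases hj' : n - ℓ ≤ (j : ℕ)
        · refine Submodule.subset_span ⟨⟨j - (n - ℓ), by omega⟩, ?_⟩
          funext i
          simp only [u, hM, Matrix.col, Matrix.transpose_apply, Matrix.sub_apply, Matrix.of_apply, Matrix.one_apply, Fin.ext_iff]
          split_ifs <;> simp [CharTwo.neg_eq] <;> omega
        · rw [show (M - 1).col j = 0 from ?_]
          · exact Submodule.zero_mem _
          funext i
          simp only [Pi.zero_apply, hM, Matrix.col, Matrix.transpose_apply, Matrix.sub_apply, Matrix.of_apply, Matrix.one_apply, Fin.ext_iff]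
          split_ifs <;> simp [CharTwo.neg_eq] <;> omega
      · rintro _ ⟨j, rfl⟩
        refine Submodule.subset_span ⟨⟨j, by omega⟩, ?_⟩
        funext i
        simp only [u, hM, Matrix.col, Matrix.transpose_apply, Matrix.sub_apply, Matrix.of_apply, Matrix.one_apply, Fin.ext_iff]
        split_ifs <;> simp [CharTwo.neg_eq] <;> omega
    rw [Matrix.rank, hr, finrank_span_eq_card, Fintype.card_fin]
    rw [Fintype.linearIndependent_iff]
    intro g hg j
    have := congrFun hg ⟨j, by omega⟩
    rw [Finset.sum_apply, Finset.sum_eq_single j] at this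
    · simpa [u] using this
    · intro k _ hk
      have : (k : ℕ) ≠ j := fun h => hk (Fin.ext h)
      simp [u]
      omega
    · simp

end Cfsg.Agent.S2165
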