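import Cfsg.Statements.S2167
import Cfsg.Agent.Lib.Classical.SympInvol
-- import your own Cfsg.Agent.* helpers here

set_option autoImplicit false
open Cfsg

namespace Cfsg.Agent.S2167

/-- For an involution t of the symplectic group Sp_{2m}(F), m ≥ 2, F a finite field of characteristic two (matrices A with A J Aᵀ = J acting on column vectors, alternating form f(u, v) = u ⬝ (J v)): the set V(t) of vectors v with f(v, t v) = 0 has either q^{2m} or q^{2m−1} elements, q the order of F (it is a subspace of codimension at most 1), and if it is the whole space then t − 1 has even rank. -/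
theorem result {F : Type*} [Field F] [Fintype F] [CharP F 2] {m : ℕ} (hm : 2 ≤ m) (a : ↥(Matrix.symplecticGroup (Fin m) F)) (ha : orderOf a = 2) :
    (Nat.card {v : Fin m ⊕ Fin m → F // Cfsg.sympForm m F v (Matrix.mulVec ((a : ↥(Matrix.symplecticGroup (Fin m) F)) : Matrix (Fin m ⊕ Fin m) (Fin m ⊕ Fin m) F) v) = 0} = Fintype.card F ^ (2 * m) ∨ Nat.card {v : Fin m ⊕ Fin m → F // Cfsg.sympForm m F v (Matrix.mulVec ((a : ↥(Matrix.symplecticGroup (Fin m) F)) : Matrix (Fin m ⊕ Fin m) (Fin m ⊕ Fin m) F) v) = 0} * Fintype.card F = Fintype.card F ^ (2 * m)) ∧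
    ((∀ v : Fin m ⊕ Fin m → F, Cfsg.sympForm m F v (Matrix.mulVec ((a : ↥(Matrix.symplecticGroup (Fin m) F)) : Matrix (Fin m ⊕ Fin m) (Fin m ⊕ Fin m) F) v) = 0) → Even (((a : ↥(Matrix.symplecticGroup (Fin m) F)) : Matrix (Fin m ⊕ Fin m) (Fin m ⊕ Fin m) F) - 1).rank) := by
  classical
  set ι := Fin m ⊕ Fin m
  set A : Matrix ι ι F := ((a : ↥(Matrix.symplecticGroup (Fin m) F)) : Matrix ι ι F) with hA
  set J : Matrix ι ι F := Matrix.J (Fin m) F with hJ
  have h2 : (2 : F) = 0 := CharTwo.two_eq_zero
  have hAA : A * A = 1 := by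
    have := pow_orderOf_eq_one a
    rw [ha, sq] at this
    exact congrArg Subtype.val this
  have hT : A.transpose * J = J * A := by
    have h : A.transpose * J * A = J := by
      have := SymplecticGroup.mem_iff'.1 a.2
      exact this
    calc A.transpose * J = A.transpose * J * (A * A) := by rw [hAA, Matrix.mul_one]
      _ = J * A := by rw [← Matrix.mul_assoc, h]
  have hJT : J.transpose = J := by
    rw [hJ, Matrix.J_transpose]
    ext i j
    rw [Matrix.neg_apply, CharTwo.neg_eq]
  have hJdet : IsUnit J.det := Matrix.isUnit_det_J _ _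
  have hself : ∀ v : ι → F, v ⬝ᵥ J.mulVec v = 0 := by
    intro v
    rw [hJ, Matrix.J, Matrix.fromBlocks_mulVec, dotProduct, Fintype.sum_sum_type]
    simp only [Matrix.zero_mulVec, Matrix.one_mulVec, Matrix.neg_mulVec, zero_add, add_zero, Sum.elim_inl, Sum.elim_inr, Pi.neg_apply, Function.comp_apply]
    rw [← Finset.sum_add_distrib]
    exact Finset.sum_eq_zero fun i _ => by ring
  let φ : (ι → F) → F := fun v => v ⬝ᵥ J.mulVec (A.mulVec v)
  have hφ : ∀ v, Cfsg.sympForm m F v (A.mulVec v) = φ v := fun v => rfl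
  have hcross : ∀ v w : ι → F, w ⬝ᵥ J.mulVec (A.mulVec v) = v ⬝ᵥ J.mulVec (A.mulVec w) := by
    intro v w
    rw [Matrix.mulVec_mulVec, Matrix.mulVec_mulVec, Matrix.dotProduct_mulVec, ← Matrix.mulVec_transpose, dotProduct_comm,
      Matrix.transpose_mul, hJT, hT]
  obtain ⟨ψ, hψ⟩ : ∃ ψ : (ι → F) →ₗ[F] F, ∀ v, ψ v = 0 ↔ φ v = 0 := by
    refine ⟨{ toFun := fun v => (frobeniusEquiv F 2).symm (φ v), map_add' := fun v w => ?_, map_smul' := fun c v => ?_ }, fun v => ?_⟩
    · rw [← map_add]
      refine congrArg _ ?_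
      simp only [φ, Matrix.mulVec_add, dotProduct_add, add_dotProduct]
      rw [hcross v w]
      linear_combination (v ⬝ᵥ J.mulVec (A.mulVec w)) * h2
    · refine (frobeniusEquiv F 2).injective ?_
      simp only [RingHom.id_apply, smul_eq_mul, map_mul, RingEquiv.apply_symm_apply, frobeniusEquiv_apply]
      simp only [φ, Matrix.mulVec_smul, dotProduct_smul, smul_dotProduct, smul_eq_mul, frobenius_def]
      ring
    · exact map_eq_zero_iff _ (frobeniusEquiv F 2).symm.injective
  refine ⟨?_, fun hall => ?_⟩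
  · have e : Nat.card {v : ι → F // Cfsg.sympForm m F v (A.mulVec v) = 0} = Nat.card (LinearMap.ker ψ) :=
      Nat.card_congr (Equiv.subtypeEquivRight fun v => by rw [hφ, LinearMap.mem_ker, hψ])
    rw [e]
    have hc : Nat.card (LinearMap.ker ψ) = Fintype.card F ^ Module.finrank F (LinearMap.ker ψ) := by
      rw [← Nat.card_eq_fintype_card]; exact Module.natCard_eq_pow_finrank
    have hn := ψ.finrank_range_add_finrank_ker
    rw [Module.finrank_fintype_fun_eq_card, show Fintype.card ι = 2 * m by simp [ι]; omega] at hn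
    have hr : Module.finrank F (LinearMap.range ψ) ≤ 1 := (Submodule.finrank_le _).trans (by rw [Module.finrank_self])
    rcases Nat.le_one_iff_eq_zero_or_eq_one.1 hr with h | h
    · exact Or.inl (by rw [hc, show Module.finrank F (LinearMap.ker ψ) = 2 * m by omega])
    · exact Or.inr (by rw [hc, ← pow_succ, show Module.finrank F (LinearMap.ker ψ) + 1 = 2 * m by omega])
  · set M : Matrix ι ι F := J * (A - 1) with hM
    have hrk : M.rank = (A - 1).rank := Matrix.rank_mul_eq_right_of_isUnit_det J (A - 1) hJdet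
    rw [← hrk]
    let B : LinearMap.BilinForm F (ι → F) := Matrix.toBilin' M
    have hBapp : ∀ u v, B u v = u ⬝ᵥ M.mulVec v := fun u v => Matrix.toBilin'_apply' M u v
    have hBalt : B.IsAlt := fun v => by
      rw [hBapp, hM, ← Matrix.mulVec_mulVec, Matrix.sub_mulVec, Matrix.one_mulVec, Matrix.mulVec_sub, dotProduct_sub, hself]
      have := hall v
      rw [hφ] at this
      rw [show φ v = v ⬝ᵥ J.mulVec (A.mulVec v) from rfl] at this
      rw [this, sub_zero]
    obtain ⟨S, hS⟩ := Submodule.exists_isCompl (LinearMap.ker M.mulVecLin)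
    have hnd : Cfsg.Lib.SympInvol.Nondeg B S := by
      intro u hu hu0
      have hall' : ∀ x, B x u = 0 := fun x => by
        obtain ⟨k, hk, s, hs, rfl⟩ := Submodule.mem_sup.1 (hS.sup_eq_top ▸ Submodule.mem_top : x ∈ LinearMap.ker M.mulVecLin ⊔ S)
        rw [map_add, LinearMap.add_apply, ← LinearMap.IsAlt.neg hBalt u k, ← LinearMap.IsAlt.neg hBalt u s, hu0 s hs, hBapp u k,
          show M.mulVec k = 0 from hk]
        simp
      have hk : u ∈ LinearMap.ker M.mulVecLin := by
        refine LinearMap.mem_ker.2 (funext fun i => ?_)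
        have := hall' (Pi.single i 1)
        rw [hBapp, single_dotProduct, one_mul] at this
        exact this
      exact (Submodule.mem_bot F).1 (hS.inf_eq_bot ▸ ⟨hk, hu⟩)
    obtain ⟨k, r, e, f, hh, -, -, -, hspan⟩ := Cfsg.Lib.SympInvol.exists_sys B hBalt LinearMap.id (fun _ _ => rfl) Function.injective_id
      (fun _ _ => True) True (fun a b _ => ⟨Submodule.subset_span (Set.mem_insert _ _), Submodule.subset_span (Set.mem_insert_of_mem _ rfl)⟩)
      (fun S' _ hn hne => by
        left
        obtain ⟨x, hx, hx0⟩ := Submodule.exists_mem_ne_zero_of_ne_bot hne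
        obtain ⟨y, hy, hxy⟩ : ∃ y ∈ S', B x y ≠ 0 := by
          by_contra hcon
          push Not at hcon
          exact hx0 (hn x hx hcon)
        exact ⟨x, hx, (B x y)⁻¹ • y, Submodule.smul_mem _ _ hy, by rw [map_smul, smul_eq_mul, inv_mul_cancel₀ hxy], trivial⟩)
      S (by simp) hnd
    have hfr : Module.finrank F S = M.rank := by
      have h1 := Submodule.finrank_add_eq_of_isCompl hS
      have h2' := M.mulVecLin.finrank_range_add_finrank_ker
      show _ = Module.finrank F (LinearMap.range M.mulVecLin)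
      omega
    rw [← hfr, ← hspan, finrank_span_eq_card (Cfsg.Lib.SympInvol.hyp_linearIndependent B hBalt hh), Fintype.card_sum]
    exact ⟨_, rfl⟩

end Cfsg.Agent.S2167
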