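import Cfsg.Statements.S2172
import Cfsg.Agent.Lib.Classical.InvolOmega
import Cfsg.Agent.Lib.Classical.LeviOmega
import Cfsg.Agent.Lib.Classical.OmegaSum
import Cfsg.Agent.Lib.Classical.SingularDim
-- import your own Cfsg.Agent.* helpers here

set_option autoImplicit false
open Cfsg

namespace Cfsg.Agent.S2172

/-- Splitting of involution classes from O to Ω for the hyperbolic quadratic form Q = Σ x_i y_i in dimension 2m over a finite field F of characteristic two, m ≥ 4. Let t, s be involutions of the commutator subgroup Ω that are conjugate in the full isometry group O. If it is not the case that t − 1 has rank m and Q(v + t v) = 0 for every vector v, then t and s are conjugate by an element of Ω. If t − 1 has rank m and Q(v + t v) = 0 for all v, then t and s are conjugate by an element of Ω exactly when the intersection of the images of t − 1 and s − 1 has even dimension (so the class of t in O meets at most two classes of Ω). -/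
theorem result {F : Type*} [Field F] [Fintype F] [CharP F 2] {m : ℕ} (hm : 4 ≤ m) (t s : ↥(Cfsg.isometryGroup F (Cfsg.quadFormPlus m F))) (ht : orderOf t = 2) (hs : orderOf s = 2) (htO : t ∈ Cfsg.Omega F (Cfsg.quadFormPlus m F)) (hsO : s ∈ Cfsg.Omega F (Cfsg.quadFormPlus m F)) (hconj : IsConj t s) :
    (¬ (((((t : ↥(Cfsg.isometryGroup F (Cfsg.quadFormPlus m F))) : GL (Fin m ⊕ Fin m) F) : Matrix (Fin m ⊕ Fin m) (Fin m ⊕ Fin m) F) - 1).rank = m ∧ ∀ v : Fin m ⊕ Fin m → F, Cfsg.quadFormPlus m F (v + Matrix.mulVec (((t : ↥(Cfsg.isometryGroup F (Cfsg.quadFormPlus m F))) : GL (Fin m ⊕ Fin m) F) : Matrix (Fin m ⊕ Fin m) (Fin m ⊕ Fin m) F) v) = 0) →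
      ∃ g ∈ Cfsg.Omega F (Cfsg.quadFormPlus m F), g * t * g⁻¹ = s) ∧
    ((((((t : ↥(Cfsg.isometryGroup F (Cfsg.quadFormPlus m F))) : GL (Fin m ⊕ Fin m) F) : Matrix (Fin m ⊕ Fin m) (Fin m ⊕ Fin m) F) - 1).rank = m ∧ ∀ v : Fin m ⊕ Fin m → F, Cfsg.quadFormPlus m F (v + Matrix.mulVec (((t : ↥(Cfsg.isometryGroup F (Cfsg.quadFormPlus m F))) : GL (Fin m ⊕ Fin m) F) : Matrix (Fin m ⊕ Fin m) (Fin m ⊕ Fin m) F) v) = 0) →
      ((∃ g ∈ Cfsg.Omega F (Cfsg.quadFormPlus m F), g * t * g⁻¹ = s) ↔
        Even (Module.finrank F ↥(LinearMap.range (Matrix.toLin' ((((t : ↥(Cfsg.isometryGroup F (Cfsg.quadFormPlus m F))) : GL (Fin m ⊕ Fin m) F) : Matrix (Fin m ⊕ Fin m) (Fin m ⊕ Fin m) F) - 1)) ⊓ LinearMap.range (Matrix.toLin' ((((s : ↥(Cfsg.isometryGroup F (Cfsg.quadFormPlus m F))) : GL (Fin m ⊕ Fin m) F) : Matrix (Fin m ⊕ Fin m) (Fin m ⊕ Fin m) F) - 1)))))) := by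
  open Cfsg.Lib.Classical OrthMatrix Reflections Spinor LeviOmega in
  classical
  have hf : ∀ v, Qp F m v = Cfsg.quadFormPlus m F v := Qp_apply
  have hB : (QuadraticMap.polarBilin (Qp F m)).Nondegenerate := Qp_nondeg
  have hex := hex_plus (F := F) (m := m) (Or.inr (by omega))
  have h2 : (2 : F) = 0 := CharTwo.two_eq_zero
  have ht1 : t * t = 1 := by have := pow_orderOf_eq_one t; rwa [ht, pow_two] at this
  have hd := InvolOmega.fix_dim hf hB h2 ht1
  have hn : Module.finrank F (Fin m ⊕ Fin m → F) = 2 * m := by simp; omega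
  have hrange : ∀ v, (Qp F m) (v + (eI hf t).1 v) = Cfsg.quadFormPlus m F (v + Matrix.mulVec (((t : ↥(Cfsg.isometryGroup F (Cfsg.quadFormPlus m F))) : GL (Fin m ⊕ Fin m) F) : Matrix (Fin m ⊕ Fin m) (Fin m ⊕ Fin m) F) v) := fun v => by
    rw [hf, eI_apply]
  refine ⟨fun hnot => InvolOmega.exists_conj hf hB hex h2 hconj ?_, ?_⟩
  · by_contra hno
    push Not at hno
    have hts : PlusFamilies.TS (Qp F m) (fixSp (Qp F m) (eI hf t)) := fun u hu => hno u (mem_fixSp.1 hu)
    have h3 := hts.finrank_le hB hn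
    refine hnot ⟨by omega, fun v => ?_⟩
    rw [← hrange]
    refine hts _ (InvolOmega.mov_le_fix hf h2 ht1 (mem_movSp.2 ⟨v, ?_⟩))
    have : (eI hf t).1 v - v - (v + (eI hf t).1 v) = -((2 : F) • v) := by rw [two_smul]; abel
    rw [← sub_eq_zero, this, h2, zero_smul, neg_zero]
  · rintro ⟨hr, hQ⟩
    set U := movSp (Qp F m) (eI hf t) with hU
    have hUts : PlusFamilies.TS (Qp F m) U := by
      intro x hx
      obtain ⟨z, rfl⟩ := mem_movSp.1 hx
      have : (eI hf t).1 z - z = z + (eI hf t).1 z := by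
        have : (eI hf t).1 z - z - (z + (eI hf t).1 z) = -((2 : F) • z) := by rw [two_smul]; abel
        rw [← sub_eq_zero, this, h2, zero_smul, neg_zero]
      rw [this, hrange]
      exact hQ z
    have hUd : Module.finrank F U = m := (InvolOmega.rank_eq hf t).symm.trans hr
    have hmem : Even m := hr ▸ (InvolOmega.mem_iff_rank hf hB hex h2 t).1 htO
    rw [← InvolOmega.movSp_eq_range hf t, ← InvolOmega.movSp_eq_range hf s]
    have key : ∀ g, g * t * g⁻¹ = s → (Even (Module.finrank F ↥(U ⊓ movSp (Qp F m) (eI hf s))) ↔ g ∈ Cfsg.Omega F (Cfsg.quadFormPlus m F)) := by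
      intro g hg
      rw [InvolOmega.mem_iff hf hB hex h2, ← OmegaMove.even_iff_delta hB hex hn hUts hUd (eI hf g)]
      have hmap : U.map (eI hf g).1.toLinearMap = movSp (Qp F m) (eI hf s) := by
        have hgt : ∀ z, (eI hf g).1 ((eI hf t).1 z) = (eI hf s).1 ((eI hf g).1 z) := fun z => by
          have e : eI hf g * eI hf t = eI hf s * eI hf g := by rw [← map_mul, ← map_mul, ← hg, inv_mul_cancel_right]
          exact LinearEquiv.congr_fun (congrArg Subtype.val e) z
        ext y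
        rw [Submodule.mem_map, mem_movSp]
        constructor
        · rintro ⟨x, hx, rfl⟩
          obtain ⟨z, rfl⟩ := mem_movSp.1 hx
          exact ⟨(eI hf g).1 z, by rw [← hgt, ← map_sub]; rfl⟩
        · rintro ⟨w, rfl⟩
          refine ⟨(eI hf t).1 ((eI hf g).1.symm w) - (eI hf g).1.symm w, mem_movSp.2 ⟨_, rfl⟩, ?_⟩
          show (eI hf g).1 _ = _
          rw [map_sub, hgt, LinearEquiv.apply_symm_apply]
      have hle : Module.finrank F ↥(U ⊓ movSp (Qp F m) (eI hf s)) ≤ m :=
        (Submodule.finrank_mono inf_le_left).trans hUd.le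
      rw [hmap, Nat.even_sub hle]
      exact (iff_true_left hmem).symm
    constructor
    · rintro ⟨g, hg, e⟩
      exact (key g e).2 hg
    · intro he
      obtain ⟨g, hg⟩ := isConj_iff.1 hconj
      exact ⟨g, (key g hg).1 he, hg⟩

end Cfsg.Agent.S2172
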