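import Cfsg.Statements.S2173
import Cfsg.Agent.Lib.Classical.InvolOmega
import Cfsg.Agent.Lib.Classical.LeviOmega
import Cfsg.Agent.Lib.Classical.OmegaSum
import Cfsg.Agent.Lib.Classical.SingularDim
-- import your own Cfsg.Agent.* helpers here

set_option autoImplicit false
open Cfsg

namespace Cfsg.Agent.S2173

/-- For the quadratic form Σ x_i y_i + (z₁² + c z₁ z₂ + d z₂²) in dimension 2m with anisotropic binary part over a finite field F of characteristic two, m ≥ 4 (minus type): two involutions of the commutator subgroup Ω that are conjugate in the full isometry group O are conjugate by an element of Ω (no class of involutions of O inside Ω splits). -/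
theorem result {F : Type*} [Field F] [Fintype F] [CharP F 2] {m : ℕ} (hm : 4 ≤ m) (c d : F) (hcd : ∀ z₁ z₂ : F, z₁ ^ 2 + c * z₁ * z₂ + d * z₂ ^ 2 = 0 → z₁ = 0 ∧ z₂ = 0) (t s : ↥(Cfsg.isometryGroup F (Cfsg.quadFormMinus (m - 1) F c d))) (ht : orderOf t = 2) (hs : orderOf s = 2) (htO : t ∈ Cfsg.Omega F (Cfsg.quadFormMinus (m - 1) F c d)) (hsO : s ∈ Cfsg.Omega F (Cfsg.quadFormMinus (m - 1) F c d)) (hconj : IsConj t s) :
    ∃ g ∈ Cfsg.Omega F (Cfsg.quadFormMinus (m - 1) F c d), g * t * g⁻¹ = s := by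
  open Cfsg.Lib.Classical OrthMatrix Reflections Spinor LeviOmega in
  classical
  have h2 : (2 : F) = 0 := CharTwo.two_eq_zero
  let Q2 : QuadraticForm F (Fin 2 → F) := QuadraticMap.proj 0 0 + c • QuadraticMap.proj 0 1 + d • QuadraticMap.proj 1 1
  let Q := OmegaSum.Qsum (LeviOmega.Qp F (m - 1)) Q2
  have hf : ∀ v, Q v = Cfsg.quadFormMinus (m - 1) F c d v := fun v => by
    simp [Q, OmegaSum.Qsum_apply, OmegaSum.sumFn, LeviOmega.Qp_apply, Cfsg.quadFormMinus, Cfsg.quadFormPlus, Q2]
    ring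
  have hc0 : c ≠ 0 := by
    intro e
    obtain ⟨r, hr⟩ := FiniteField.isSquare_of_char_two (ringChar.eq F 2) d
    refine one_ne_zero (hcd r 1 ?_).2
    rw [e, hr]
    linear_combination r * r * h2
  have h₂ : (QuadraticMap.polarBilin Q2).Nondegenerate := by
    refine QuadOrders.nondeg_of_left (fun x y => Witt.polar_symm' _ x y) fun x hx => ?_
    have e0 := hx (Pi.single 0 1)
    have e1 := hx (Pi.single 1 1)
    simp [Q2, QuadraticMap.polarBilin_apply_apply, QuadraticMap.polar] at e0 e1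
    have a0 : c * x 1 = 0 := by linear_combination e0 - x 0 * h2
    have a1 : c * x 0 = 0 := by linear_combination e1 - d * x 1 * h2
    funext i
    fin_cases i
    exacts [(mul_eq_zero.1 a1).resolve_left hc0, (mul_eq_zero.1 a0).resolve_left hc0]
  have hB : (QuadraticMap.polarBilin Q).Nondegenerate := OmegaSum.Qsum_nondeg _ _ Qp_nondeg h₂
  have hex : (∃ a : F, a ≠ 0 ∧ a ≠ 1) ∨ Module.finrank F ((Fin (m - 1) ⊕ Fin (m - 1)) ⊕ Fin 2 → F) ≠ 4 :=
    Or.inr (by simp; omega)
  refine InvolOmega.exists_conj hf hB hex h2 hconj ?_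
  by_contra hno
  push Not at hno
  have ht1 : t * t = 1 := by have := pow_orderOf_eq_one t; rwa [ht, pow_two] at this
  have h1 := (InvolOmega.fix_dim hf hB h2 ht1).1
  have h3 := Cfsg.Agent.SingularDim.finrank_le_minus hcd (fixSp Q (eI hf t))
    (fun u hu => (hf u).symm.trans (hno u (mem_fixSp.1 hu)))
  simp at h1
  omega

end Cfsg.Agent.S2173
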