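import Cfsg.Statements.S2178
import Cfsg.Agent.Lib.Chev.RootCent
import Cfsg.Agent.Lib.Chev.All
-- import your own Cfsg.Agent.* helpers here

set_option autoImplicit false
open Cfsg

namespace Cfsg.Agent.S2178

/-- Centralizers of the long and the short root involutions in the Chevalley group G of type F₄ over a finite field F of characteristic two (this problem's root numbering for type F₄, from the Chevalley data module: fundamental roots p₁, p₂ short, p₃, p₄ long, with indices 33, 27, 25, 24, their negatives 14, 20, 22, 23; highest root 47, highest short root 44; U the subgroup generated by the positive root subgroups). For an element t of G with matrix x_47(1): the centralizer of t in G is the subgroup generated by U and the root subgroups X_{−p₁}, X_{−p₂}, X_{−p₃} (the unipotent radical of the maximal parabolic subgroup whose Levi factor has fundamental roots p₁, p₂, p₃, together with that Levi factor's root subgroups; the Levi factor is of type C₃). For an element u of G with matrix x_44(1): the centralizer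 of u in G is generated by U and X_{−p₂}, X_{−p₃}, X_{−p₄} (the same construction for the Levi factor with fundamental roots p₂, p₃, p₄, of type B₃). -/
theorem result {F : Type*} [Field F] [Fintype F] [CharP F 2] (t u : GL Cfsg.Lie.chevF4.Idx F) (ht : (t : Matrix Cfsg.Lie.chevF4.Idx Cfsg.Lie.chevF4.Idx F) = Cfsg.Lie.chevF4.x F 47 1) (hu : (u : Matrix Cfsg.Lie.chevF4.Idx Cfsg.Lie.chevF4.Idx F) = Cfsg.Lie.chevF4.x F 44 1) :
    Cfsg.Lie.chevF4.group F ⊓ Subgroup.centralizer {t} = Cfsg.Lie.chevF4.posUnipotent F ⊔ Cfsg.Lie.chevF4.rootSubgroup F 14 ⊔ Cfsg.Lie.chevF4.rootSubgroup F 20 ⊔ Cfsg.Lie.chevF4.rootSubgroup F 22 ∧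
    Cfsg.Lie.chevF4.group F ⊓ Subgroup.centralizer {u} = Cfsg.Lie.chevF4.posUnipotent F ⊔ Cfsg.Lie.chevF4.rootSubgroup F 20 ⊔ Cfsg.Lie.chevF4.rootSubgroup F 22 ⊔ Cfsg.Lie.chevF4.rootSubgroup F 23 := by
  have h2 : (2 : F) = 0 := CharTwo.two_eq_zero
  refine ⟨?_, ?_⟩
  · rw [Cfsg.Lib.Chev.centralizer_root Cfsg.Lib.Chev.certF4 h2
      (r := 47) (sp := 3) (l := [14, 20, 22]) (O := [47, 46, 45, 43, 32, 42, 31, 41, 26, 30, 24, 25, 23, 22, 21, 17, 16, 6, 5, 15, 4, 2, 1, 0]) (by decide +kernel) ht]
    refine le_antisymm (sup_le (le_sup_of_le_left (le_sup_of_le_left le_sup_left)) ((Subgroup.closure_le _).2 ?_))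
      (sup_le (sup_le (sup_le le_sup_left (Cfsg.Lib.Chev.rootSubgroup_le_list (by simp)))
        (Cfsg.Lib.Chev.rootSubgroup_le_list (by simp))) (Cfsg.Lib.Chev.rootSubgroup_le_list (by simp)))
    rintro g ⟨s, hs, c, hg⟩
    have key : g ∈ Cfsg.Lie.chevF4.rootSubgroup F s := Subgroup.subset_closure ⟨c, hg⟩
    simp only [List.mem_cons, List.not_mem_nil, or_false] at hs
    rcases hs with rfl | rfl | rfl
    exacts [Subgroup.mem_sup_left (Subgroup.mem_sup_left (Subgroup.mem_sup_right key)),
      Subgroup.mem_sup_left (Subgroup.mem_sup_right key), Subgroup.mem_sup_right key]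
  · rw [Cfsg.Lib.Chev.centralizer_root Cfsg.Lib.Chev.certF4 h2
      (r := 44) (sp := 0) (l := [20, 22, 23]) (O := [44, 40, 39, 38, 36, 37, 29, 35, 28, 34, 27, 33, 20, 14, 13, 19, 12, 18, 10, 11, 9, 8, 7, 3]) (by decide +kernel) hu]
    refine le_antisymm (sup_le (le_sup_of_le_left (le_sup_of_le_left le_sup_left)) ((Subgroup.closure_le _).2 ?_))
      (sup_le (sup_le (sup_le le_sup_left (Cfsg.Lib.Chev.rootSubgroup_le_list (by simp)))
        (Cfsg.Lib.Chev.rootSubgroup_le_list (by simp))) (Cfsg.Lib.Chev.rootSubgroup_le_list (by simp)))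
    rintro g ⟨s, hs, c, hg⟩
    have key : g ∈ Cfsg.Lie.chevF4.rootSubgroup F s := Subgroup.subset_closure ⟨c, hg⟩
    simp only [List.mem_cons, List.not_mem_nil, or_false] at hs
    rcases hs with rfl | rfl | rfl
    exacts [Subgroup.mem_sup_left (Subgroup.mem_sup_left (Subgroup.mem_sup_right key)),
      Subgroup.mem_sup_left (Subgroup.mem_sup_right key), Subgroup.mem_sup_right key]

end Cfsg.Agent.S2178
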