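import Cfsg.Statements.S2214
import Cfsg.Agent.Lib.Chev.SubField
import Cfsg.Agent.Lib.Chev.All
-- import your own Cfsg.Agent.* helpers here

set_option autoImplicit false
open Cfsg

namespace Cfsg.Agent.S2214

/-- Let k be an algebraically closed field of prime characteristic p, G the adjoint Chevalley group of type G₂, B₂, D₄, F₄, E₆, E₇ or E₈ over k (the matrix group generated by the root elements x_s(t), t ∈ k, acting on the Lie algebra), q = p^a with a ≥ 1, and K a subgroup of G containing every root element x_s(t) with t^q = t and consisting of matrices all of whose entries c satisfy c^q = c. Then the centralizer of K in G is trivial, and the normalizer of K in G is exactly the set of elements of G all of whose entries c satisfy c^q = c. -/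
theorem result {k : Type*} [Field k] [IsAlgClosed k] (p : ℕ) [Fact p.Prime] [CharP k p] (D : Cfsg.Lie.ChevalleyDatum) (hD : D ∈ [Cfsg.Lie.chevG2, Cfsg.Lie.chevB2, Cfsg.Lie.chevD4, Cfsg.Lie.chevF4, Cfsg.Lie.chevE6, Cfsg.Lie.chevE7, Cfsg.Lie.chevE8]) (a : ℕ) (ha : 1 ≤ a) (K : Subgroup (GL D.Idx k)) (hKG : K ≤ D.group k)
    (hLK : Subgroup.closure {g : GL D.Idx k | ∃ (s : ℕ) (t : k), t ^ (p ^ a) = t ∧ (g : Matrix D.Idx D.Idx k) = D.x k s t} ≤ K)
    (hKfix : ∀ g ∈ K, ∀ i j : D.Idx, ((g : Matrix D.Idx D.Idx k) i j) ^ (p ^ a) = (g : Matrix D.Idx D.Idx k) i j) :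
    D.group k ⊓ Subgroup.centralizer (K : Set (GL D.Idx k)) = ⊥ ∧
    ∀ g : GL D.Idx k, g ∈ D.group k → (g ∈ Subgroup.normalizer (K : Set (GL D.Idx k)) ↔ ∀ i j : D.Idx, ((g : Matrix D.Idx D.Idx k) i j) ^ (p ^ a) = (g : Matrix D.Idx D.Idx k) i j) := by
  obtain ⟨A, hc⟩ := Cfsg.Lib.Chev.certified_of_mem hD
  have hp : p.Prime := Fact.out
  let σ : k ≃+* k := iterateFrobeniusEquiv k p a
  have hσ : ∀ x, σ x = x ^ p ^ a := fun x => by simp [σ, iterateFrobenius_def]
  have hKfix' : ∀ g ∈ K, Cfsg.Lib.Chev.emap D (σ : k →+* k) g = g := fun g hg =>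
    Units.ext (Matrix.ext fun i j => (hσ _).trans (hKfix g hg i j))
  have hKx : ∀ s < D.nroots, ∀ t : k, σ t = t → Cfsg.Lib.Chev.xg D k s t ∈ K := fun s hs t ht =>
    hLK (Subgroup.subset_closure ⟨s, t, (hσ t).symm.trans ht, Cfsg.Lib.Chev.coe_xg hc hs t⟩)
  have hcent : ∀ g ∈ D.group k, g ∈ Subgroup.centralizer (K : Set (GL D.Idx k)) → g = 1 := fun g hg hgC =>
    Cfsg.Lib.Chev.eq_one_of_commute_roots hc hg fun s hs =>
      (Subgroup.mem_centralizer_iff.1 hgC _ (hKx s hs 1 (map_one σ))).symm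
  refine ⟨(Subgroup.eq_bot_iff_forall _).2 fun g hg => hcent g hg.1 hg.2, fun g hg => ⟨fun hn i j => ?_, fun hf => ?_⟩⟩
  · have hσg : Cfsg.Lib.Chev.emap D (σ : k →+* k) g ∈ D.group k :=
      Cfsg.Lib.Chev.map_group_le hc _ ⟨g, hg, rfl⟩
    have h1 : (Cfsg.Lib.Chev.emap D (σ : k →+* k) g)⁻¹ * g = 1 := by
      refine hcent _ ((D.group k).mul_mem ((D.group k).inv_mem hσg) hg) (Subgroup.mem_centralizer_iff.2 fun y hy => ?_)
      have h2 := hKfix' _ ((Subgroup.mem_normalizer_iff.1 hn y).1 hy)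
      rw [map_mul, map_mul, map_inv, hKfix' y hy] at h2
      calc y * ((Cfsg.Lib.Chev.emap D (σ : k →+* k) g)⁻¹ * g)
          = (Cfsg.Lib.Chev.emap D (σ : k →+* k) g)⁻¹ *
            (Cfsg.Lib.Chev.emap D (σ : k →+* k) g * y * (Cfsg.Lib.Chev.emap D (σ : k →+* k) g)⁻¹) * g := by group
        _ = (Cfsg.Lib.Chev.emap D (σ : k →+* k) g)⁻¹ * (g * y * g⁻¹) * g := by rw [h2]
        _ = _ := by group
    rw [inv_mul_eq_one] at h1
    rw [← hσ, ← RingEquiv.coe_toRingHom, ← Cfsg.Lib.Chev.emap_apply, h1]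
  · exact Cfsg.Lib.Chev.fixed_normalizes hc σ hKG hKx hKfix' hg
      (Units.ext (Matrix.ext fun i j => (hσ _).trans (hf i j)))

end Cfsg.Agent.S2214
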