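import Cfsg.Statements.S2231
import Cfsg.Agent.Lib.Classical.SL2PGroup
import Cfsg.Agent.Lib.PLocal.QdData
-- import your own Cfsg.Agent.* helpers here

set_option autoImplicit false
open Cfsg

namespace Cfsg.Agent.S2231
open Cfsg.Lib.PLocal

/-- Let p be an odd prime and K a finite field of characteristic p. Then Qd(p) (the natural semidirect product of an elementary abelian group of order p² by SL₂(p)) is not involved in the projective special linear group PSL₂(K). -/
theorem result {p : ℕ} [Fact p.Prime] (hp : p ≠ 2) {K : Type*} [Field K] [Fintype K] [CharP K p] : ¬ Cfsg.Involves ↥(Cfsg.qd p) (Matrix.ProjectiveSpecialLinearGroup (Fin 2) K) := by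
  rintro ⟨S, R, hn, ⟨e⟩⟩
  classical
  let ψ : S →* ↥(Cfsg.qd p) := e.toMonoidHom.comp (QuotientGroup.mk' (R.subgroupOf S))
  have hψ : Function.Surjective ψ := e.surjective.comp (QuotientGroup.mk'_surjective _)
  have : Finite ↥(Cfsg.qd p) := Finite.of_surjective ψ hψ
  -- p-subgroups of Qd(p) are commutative
  have key : ∀ (P : Subgroup ↥(Cfsg.qd p)), IsPGroup p P → ∀ a ∈ P, ∀ b ∈ P, a * b = b * a := by
    intro P hP a ha b hb
    obtain ⟨Q, hQ⟩ := hP.exists_le_sylow
    obtain ⟨T⟩ := (inferInstance : Nonempty (Sylow p S))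
    obtain ⟨x, hx⟩ := MulAction.exists_smul_eq (↥(Cfsg.qd p)) (T.mapSurjective hψ) Q
    have ha' := hQ ha
    have hb' := hQ hb
    rw [← hx] at ha' hb'
    obtain ⟨_, ⟨u, hu, rfl⟩, rfl⟩ := ha'
    obtain ⟨_, ⟨w, hw, rfl⟩, rfl⟩ := hb'
    have hT : IsPGroup p ((T : Subgroup S).map S.subtype) := T.2.map _
    have huw : u * w = w * u := Subtype.ext
      (SL2PGroup.psl_pgroup_commute hT (Subgroup.mem_map_of_mem _ hu) (Subgroup.mem_map_of_mem _ hw))
    show x * ψ u * x⁻¹ * (x * ψ w * x⁻¹) = x * ψ w * x⁻¹ * (x * ψ u * x⁻¹)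
    rw [conj_mul, conj_mul, ← map_mul, ← map_mul, huw]
  -- a nonabelian p-subgroup
  let x : ↥(Cfsg.qd p) := qdMk 1 1 0 1 0 0 (by ring)
  let v : ↥(Cfsg.qd p) := qdMk 1 0 0 1 0 1 (by ring)
  have hx : IsPGroup p (Subgroup.zpowers x) := by
    intro a
    refine ⟨1, ?_⟩
    obtain ⟨i, hi⟩ := Subgroup.mem_zpowers_iff.1 a.2
    apply Subtype.ext
    rw [pow_one, SubgroupClass.coe_pow, OneMemClass.coe_one, ← hi, ← zpow_natCast, ← zpow_mul, mul_comm, zpow_mul,
      zpow_natCast, upper_pow, qdMk_one]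
    rw [show (qdMk 1 (p : ZMod p) 0 1 0 0 (by ring)) = qdMk 1 0 0 1 0 0 (by ring) from
      qdMk_congr rfl (ZMod.natCast_self p) rfl rfl rfl rfl, ← qdMk_one, one_zpow]
  have := qdTrans_normal (p := p)
  have hV : IsPGroup p (qdTrans p) := IsPGroup.of_card (qdTrans_card (p := p))
  have h := key _ (hV.to_sup_of_normal_left hx) x (Subgroup.mem_sup_right (Subgroup.mem_zpowers x)) v
    (Subgroup.mem_sup_left ⟨0, 1, rfl⟩)
  rw [qdMk_mul, qdMk_mul] at h
  obtain ⟨-, -, -, -, h5, -⟩ := qdMk_inj h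
  simp at h5

end Cfsg.Agent.S2231
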