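import Cfsg.Statements.S2245
import Cfsg.Agent.Lib.PermGroup.SylowOvergroup2Main
-- import your own Cfsg.Agent.* helpers here

set_option autoImplicit false
open Cfsg

namespace Cfsg.Agent.S2245

/-- For n ≥ 5 with n ≠ 6, a Sylow 2-subgroup of the alternating group A_n lies in exactly one maximal subgroup of A_n if and only if n = 2^k + 1 for some k ≥ 2; the same holds for the symmetric group S_n. -/
theorem result (n : ℕ) (hn : 5 ≤ n) (h6 : n ≠ 6) :
    ((∀ R : Sylow 2 ↥(alternatingGroup (Fin n)), (∃! M : Subgroup ↥(alternatingGroup (Fin n)), IsCoatom M ∧ (R : Subgroup ↥(alternatingGroup (Fin n))) ≤ M) ↔ ∃ k : ℕ, 2 ≤ k ∧ n = 2 ^ k + 1) ∧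
    (∀ R : Sylow 2 (Equiv.Perm (Fin n)), (∃! M : Subgroup (Equiv.Perm (Fin n)), IsCoatom M ∧ (R : Subgroup (Equiv.Perm (Fin n))) ≤ M) ↔ ∃ k : ℕ, 2 ≤ k ∧ n = 2 ^ k + 1)) := by
  refine ⟨fun R => ?_, fun R => ?_⟩
  · obtain ⟨S, hS⟩ := (R.2.map (alternatingGroup (Fin n)).subtype).exists_le_sylow
    have hR : ∀ x, x ∈ (R : Subgroup (alternatingGroup (Fin n))) ↔ (alternatingGroup (Fin n)).subtype x ∈ S := by
      intro x
      refine ⟨fun hx => hS ⟨x, hx, rfl⟩, fun hx => ?_⟩
      have h := R.3 (Q := (S : Subgroup (Equiv.Perm (Fin n))).comap (alternatingGroup (Fin n)).subtype)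
        (S.2.comap_of_injective _ (Subgroup.subtype_injective _)) (fun y hy => hS ⟨y, hy, rfl⟩)
      exact h ▸ hx
    have hA : ∀ y ∈ alternatingGroup (Fin n), ∃ x, (alternatingGroup (Fin n)).subtype x = y :=
      fun y hy => ⟨⟨y, hy⟩, rfl⟩
    open scoped Pointwise in
    have hstab : ∀ s : Set (Fin n), s.Nonempty → sᶜ.Nonempty → n ≠ 2 * s.ncard →
        IsCoatom ((MulAction.stabilizer (Equiv.Perm (Fin n)) s).comap (alternatingGroup (Fin n)).subtype) :=
      fun s h1 h2 h3 => alternatingGroup.isCoatom_stabilizer h1 h2 (by rwa [Nat.card_fin])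
    have htop : ∀ L : Subgroup (alternatingGroup (Fin n)), (R : Subgroup _) ≤ L →
        (∀ x : alternatingGroup (Fin n), (alternatingGroup (Fin n)).subtype x ∈ alternatingGroup (Fin n) → x ∈ L) →
        L = ⊤ := fun L _ h => (Subgroup.eq_top_iff' _).2 fun x => h x x.2
    refine ⟨fun hu => by_contra fun hk => ?_, fun ⟨k, hk, e⟩ => ?_⟩
    · exact Cfsg.Lib.PermGroup.SylowTwo.not_unique _ (Subgroup.subtype_injective _) hA S _ hR hstab htop hn h6 hk hu
    · exact Cfsg.Lib.PermGroup.SylowTwo.unique _ (Subgroup.subtype_injective _) hA S _ hR hstab htop hk e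
  · have hR : ∀ x, x ∈ (R : Subgroup (Equiv.Perm (Fin n))) ↔ MonoidHom.id _ x ∈ R := fun x => Iff.rfl
    have hA : ∀ y ∈ alternatingGroup (Fin n), ∃ x, MonoidHom.id (Equiv.Perm (Fin n)) x = y :=
      fun y _ => ⟨y, rfl⟩
    open scoped Pointwise in
    have hstab : ∀ s : Set (Fin n), s.Nonempty → sᶜ.Nonempty → n ≠ 2 * s.ncard →
        IsCoatom ((MulAction.stabilizer (Equiv.Perm (Fin n)) s).comap (MonoidHom.id _)) := by
      intro s h1 h2 h3
      rw [Subgroup.comap_id]
      exact Equiv.Perm.isCoatom_stabilizer h1 h2 (by rwa [Nat.card_fin])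
    have htop : ∀ L : Subgroup (Equiv.Perm (Fin n)), (R : Subgroup _) ≤ L →
        (∀ x, MonoidHom.id (Equiv.Perm (Fin n)) x ∈ alternatingGroup (Fin n) → x ∈ L) → L = ⊤ := by
      intro L hL h
      obtain ⟨τ, -, hev, hod, -, hsw⟩ := Cfsg.Lib.PermGroup.SylowTwo.exists_inv R
      obtain ⟨p, hp⟩ : ∃ p, τ p ≠ p := by
        by_contra hh
        push Not at hh
        rcases Nat.even_or_odd n with he | ho
        · exact hev he ⟨0, by omega⟩ (hh _)
        · obtain ⟨c, -, hu⟩ := hod (Nat.not_even_iff_odd.2 ho)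
          have h0 := (hu ⟨0, by omega⟩ (hh _)).trans (hu ⟨1, by omega⟩ (hh _)).symm
          simp at h0
      refine (Subgroup.eq_top_iff' _).2 fun x => ?_
      rcases Int.units_eq_one_or (Equiv.Perm.sign x) with hx | hx
      · exact h x hx
      · have h2 : x * Equiv.swap p (τ p) ∈ alternatingGroup (Fin n) := by
          rw [Equiv.Perm.mem_alternatingGroup, map_mul, hx, Equiv.Perm.sign_swap hp.symm]
          rfl
        have h3 : x * Equiv.swap p (τ p) * Equiv.swap p (τ p) ∈ L :=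
          mul_mem (h (x * Equiv.swap p (τ p)) h2) (hL (hsw p))
        rwa [mul_assoc, Equiv.swap_mul_self, mul_one] at h3
    refine ⟨fun hu => by_contra fun hk => ?_, fun ⟨k, hk, e⟩ => ?_⟩
    · exact Cfsg.Lib.PermGroup.SylowTwo.not_unique _ Function.injective_id hA R _ hR hstab htop hn h6 hk hu
    · exact Cfsg.Lib.PermGroup.SylowTwo.unique _ Function.injective_id hA R _ hR hstab htop hk e

end Cfsg.Agent.S2245
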