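import Cfsg.Statements.S2253
import Mathlib
import Cfsg.Agent.Lib.PermGroup.NilpotentBound

set_option autoImplicit false
open Cfsg

namespace Cfsg.Agent.S2253

/-- Let n be a natural number not congruent to 3 modulo 4. Then every nilpotent subgroup of the symmetric group on n letters has order at most the order of a Sylow 2-subgroup (so the nilpotent subgroups of largest order are exactly the Sylow 2-subgroups). -/
theorem result  (n : ℕ) (hn : n % 4 ≠ 3)
    (N : Subgroup (Equiv.Perm (Fin n))) (hN : Group.IsNilpotent N)
    (P : Sylow 2 (Equiv.Perm (Fin n))) :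
    Nat.card N ≤ Nat.card P := by
  have h := Cfsg.Lib.PermGroup.NilpotentBound.card_le_bd n N (Fin n) hN (Nat.card_fin n)
  rw [Cfsg.Lib.PermGroup.NilpotentBound.bd, if_neg hn] at h
  rw [P.card_eq_multiplicity, Nat.card_perm, Nat.card_fin, Nat.factorization_def _ Nat.prime_two]
  exact h

end Cfsg.Agent.S2253
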