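import Cfsg.Statements.S2254
import Mathlib
import Cfsg.Agent.Lib.PermGroup.NilpotentExtremal

set_option autoImplicit false
open Cfsg

namespace Cfsg.Agent.S2254

open Cfsg.Lib.PermGroup.NilpotentBound

/-- Let n ≡ 3 (mod 4). Then every nilpotent subgroup of the symmetric group on n letters has order at most 3 times the order of a Sylow 2-subgroup of the symmetric group on n − 3 letters; the bound is attained by a nilpotent subgroup isomorphic to the direct product of such a Sylow 2-subgroup with a cyclic group of order 3; and any two nilpotent subgroups attaining the bound are conjugate. -/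
theorem result  (n : ℕ) (hn : n % 4 = 3)
    (P : Sylow 2 (Equiv.Perm (Fin (n - 3)))) :
    (∀ N : Subgroup (Equiv.Perm (Fin n)), Group.IsNilpotent N → Nat.card N ≤ 3 * Nat.card P) ∧
    (∃ M : Subgroup (Equiv.Perm (Fin n)), Group.IsNilpotent M ∧ Nat.card M = 3 * Nat.card P ∧
      Nonempty (M ≃* (↥(P : Subgroup (Equiv.Perm (Fin (n - 3)))) × Multiplicative (ZMod 3)))) ∧
    (∀ N₁ N₂ : Subgroup (Equiv.Perm (Fin n)), Group.IsNilpotent N₁ → Group.IsNilpotent N₂ →
      Nat.card N₁ = 3 * Nat.card P → Nat.card N₂ = 3 * Nat.card P →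
      ∃ g : Equiv.Perm (Fin n), N₂ = N₁.map (MulAut.conj g).toMonoidHom) := by
  classical
  obtain ⟨m, rfl⟩ : ∃ m, n = 3 + m := ⟨n - 3, by omega⟩
  revert P
  rw [Nat.add_sub_cancel_left]
  intro P
  haveI := Fact.mk Nat.prime_two
  haveI : Fact (Nat.Prime 3) := ⟨Nat.prime_three⟩
  have hz : Nat.card (Subgroup.zpowers (finRotate 3)) = 3 := by
    rw [Nat.card_zpowers]; exact orderOf_eq_prime (by decide) (by decide)
  have hP : Nat.card P = tp m := by
    rw [P.card_eq_multiplicity, Nat.factorization_def _ Nat.prime_two, Nat.card_perm, Nat.card_fin, tp]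
  let A := (Subgroup.zpowers (finRotate 3)).prod (P : Subgroup (Equiv.Perm (Fin m)))
  let e₀ := ((Subgroup.equivMapOfInjective A _ (emb_injective m)).symm.trans (Subgroup.prodEquiv _ _)).trans MulEquiv.prodComm
  let M := A.map (emb m)
  have hM : Nat.card M = 3 * Nat.card P := by
    rw [Nat.card_congr e₀.toEquiv, Nat.card_prod, hz, mul_comm]
  have eM : M ≃* (↥(P : Subgroup (Equiv.Perm (Fin m))) × Multiplicative (ZMod 3)) :=
    e₀.trans (MulEquiv.prodCongr (MulEquiv.refl _) (mulEquivOfPrimeCardEq (p := 3) hz (by simp [Nat.card_eq_fintype_card])))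
  have hMn : Group.IsNilpotent M := by
    haveI : Group.IsNilpotent (P : Subgroup (Equiv.Perm (Fin m))) := P.isPGroup'.isNilpotent
    exact Group.nilpotent_of_mulEquiv eM.symm
  refine ⟨fun N hN => ?_, ⟨M, hMn, hM, ⟨eM⟩⟩, ?_⟩
  · have h := card_le_bd (3 + m) N (Fin (3 + m)) hN (Nat.card_fin _)
    rw [bd, if_pos hn, Nat.add_sub_cancel_left] at h
    rw [hP]; exact h
  have key : ∀ N : Subgroup (Equiv.Perm (Fin (3 + m))), Group.IsNilpotent N → Nat.card N = 3 * Nat.card P →
      ∃ g, N.map (MulAut.conj g).toMonoidHom = M := by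
    intro N hN hc
    obtain ⟨v, hv⟩ := IsPGroup.iff_card.mp P.isPGroup'
    obtain ⟨c, hcN, hc3, T, hTN, hT2, hTc, hfix⟩ := extremal (by rw [Nat.card_fin]; exact hn) N hN
      (hc.trans (by rw [hv])) (by rw [Nat.card_fin, Nat.add_sub_cancel_left, ← hP, hv, pow_succ]; omega)
    obtain ⟨σ, hσ⟩ := isConj_iff.mp (Equiv.Perm.isConj_iff_cycleType_eq.mpr (hc3.cycleType.trans (rot_isThreeCycle m).cycleType.symm))
    let f := (MulAut.conj σ).toMonoidHom
    have hf : Function.Injective f := (MulAut.conj σ).injective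
    obtain ⟨T', hT'c, -, hT'⟩ := eq_prod m (N.map f) (T.map f) (Subgroup.map_mono hTN) ⟨c, hcN, hσ⟩
      (by rw [← Nat.card_congr (Subgroup.equivMapOfInjective N f hf).toEquiv, ← Nat.card_congr (Subgroup.equivMapOfInjective T f hf).toEquiv, hc, hTc, hv]) (by
      rintro _ ⟨t, ht, rfl⟩ x hx
      have h1 : c (σ⁻¹ x) ≠ σ⁻¹ x := by
        intro h; apply hx; rw [← hσ, Equiv.Perm.mul_apply, Equiv.Perm.mul_apply, h]; exact σ.apply_symm_apply x
      show (σ * t * σ⁻¹) x = x
      rw [Equiv.Perm.mul_apply, Equiv.Perm.mul_apply, hfix t ht _ h1]; exact σ.apply_symm_apply x)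
    rw [← Nat.card_congr (Subgroup.equivMapOfInjective T f hf).toEquiv, hTc, ← hv, P.card_eq_multiplicity] at hT'c
    obtain ⟨τ, hτ⟩ := MulAction.exists_smul_eq (Equiv.Perm (Fin m)) (Sylow.ofCard T' hT'c) P
    refine ⟨emb m (1, τ) * σ, ?_⟩
    have : N.map (MulAut.conj (emb m (1, τ) * σ)).toMonoidHom = (N.map f).map (MulAut.conj (emb m (1, τ))).toMonoidHom := by
      rw [Subgroup.map_map]; congr 1 <;> (ext1 x; simp [f, mul_assoc])
    rw [this, ← hT', Subgroup.map_map]
    show _ = A.map (emb m)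
    rw [show A = (((Subgroup.zpowers (finRotate 3)).prod T').map (MulAut.conj ((1, τ) : Equiv.Perm (Fin 3) × Equiv.Perm (Fin m))).toMonoidHom) from ?_,
      Subgroup.map_map]
    · congr 1; ext1 x; simp [map_mul, ← map_inv]
    · have hPe : (P : Subgroup (Equiv.Perm (Fin m))) = T'.map (MulAut.conj τ).toMonoidHom := by
        rw [← hτ]; rfl
      ext ⟨a, b⟩
      simp only [A, Subgroup.mem_prod, hPe, Subgroup.mem_map, MulEquiv.coe_toMonoidHom, MulAut.conj_apply]
      constructor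
      · rintro ⟨ha, t, ht, rfl⟩; exact ⟨(a, t), ⟨ha, ht⟩, by ext1 <;> simp⟩
      · rintro ⟨⟨a', t⟩, ⟨ha, ht⟩, h⟩
        obtain ⟨rfl, rfl⟩ := Prod.mk.injEq .. ▸ h
        exact ⟨by simpa using ha, t, ht, by simp⟩
  intro N₁ N₂ h₁ h₂ c₁ c₂
  obtain ⟨g₁, hg₁⟩ := key N₁ h₁ c₁
  obtain ⟨g₂, hg₂⟩ := key N₂ h₂ c₂
  refine ⟨g₂⁻¹ * g₁, ?_⟩
  apply Subgroup.map_injective (f := (MulAut.conj g₂).toMonoidHom) (MulAut.conj g₂).injective
  show N₂.map (MulAut.conj g₂).toMonoidHom = (N₁.map (MulAut.conj (g₂⁻¹ * g₁)).toMonoidHom).map (MulAut.conj g₂).toMonoidHom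
  rw [hg₂, Subgroup.map_map, ← hg₁]
  congr 1; ext1 x; simp [mul_assoc]

end Cfsg.Agent.S2254
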