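import Cfsg.Statements.S2255
import Mathlib
import Cfsg.Agent.Lib.PermGroup.NilpotentBoundAlt

set_option autoImplicit false
open Cfsg

namespace Cfsg.Agent.S2255

/-- Let n be a natural number not congruent to 3 modulo 4, with n ∉ {5, 6, 9}. Then every nilpotent subgroup of the alternating group on n letters has order at most the order of a Sylow 2-subgroup of the alternating group (so the nilpotent subgroups of largest order are exactly the Sylow 2-subgroups). -/
theorem result  (n : ℕ) (hn : n % 4 ≠ 3)
    (h5 : n ≠ 5) (h6 : n ≠ 6) (h9 : n ≠ 9)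
    (N : Subgroup (alternatingGroup (Fin n))) (hN : Group.IsNilpotent N)
    (P : Sylow 2 (alternatingGroup (Fin n))) :
    Nat.card N ≤ Nat.card P := by
  classical
  open Cfsg.Lib.PermGroup.NilpotentBound in
  have h := card_le_bdAlt n N (Fin n) hN (fun g => Equiv.Perm.mem_alternatingGroup.mp (g : alternatingGroup (Fin n)).2) (Nat.card_fin n)
  unfold Cfsg.Lib.PermGroup.NilpotentBound.bdAlt at h
  rcases Nat.lt_or_ge n 3 with h3 | h3
  · rw [if_pos h3] at h
    exact h.trans Nat.card_pos
  rw [if_neg (by omega), if_neg (by omega), if_neg h5, if_neg h6, if_neg h9, Cfsg.Lib.PermGroup.NilpotentBound.bd, if_neg hn] at h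
  refine h.trans ?_
  haveI : Nontrivial (Fin n) := Fin.nontrivial_iff_two_le.mpr (by omega)
  have hc : 2 * Nat.card (alternatingGroup (Fin n)) = n.factorial := by
    rw [Nat.card_eq_fintype_card, two_mul_card_alternatingGroup, Fintype.card_perm, Fintype.card_fin]
  rw [P.card_eq_multiplicity, Nat.factorization_def _ Nat.prime_two, Cfsg.Lib.PermGroup.NilpotentBound.tp, ← hc,
    padicValNat.mul (by norm_num) Nat.card_pos.ne', padicValNat.self (by norm_num), pow_add, pow_one,
    Nat.mul_div_cancel_left _ two_pos]

end Cfsg.Agent.S2255
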