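import Cfsg.Statements.S2256
import Mathlib
import Cfsg.Agent.Lib.PermGroup.NilpotentExtremal

set_option autoImplicit false
open Cfsg

namespace Cfsg.Agent.S2256

open Cfsg.Lib.PermGroup.NilpotentBound

/-- Let n ≡ 3 (mod 4) with n ≥ 7. Then every nilpotent subgroup of the alternating group on n letters has order at most 3 times the order of a Sylow 2-subgroup of the alternating group on n − 3 letters; the bound is attained by a nilpotent subgroup isomorphic to the direct product of such a Sylow 2-subgroup with a cyclic group of order 3; and any two nilpotent subgroups of the alternating group attaining the bound are conjugate in it. -/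
theorem result  (n : ℕ) (hn : n % 4 = 3) (h7 : 7 ≤ n)
    (P : Sylow 2 (alternatingGroup (Fin (n - 3)))) :
    (∀ N : Subgroup (alternatingGroup (Fin n)), Group.IsNilpotent N → Nat.card N ≤ 3 * Nat.card P) ∧
    (∃ M : Subgroup (alternatingGroup (Fin n)), Group.IsNilpotent M ∧ Nat.card M = 3 * Nat.card P ∧
      Nonempty (M ≃* (↥(P : Subgroup (alternatingGroup (Fin (n - 3)))) × Multiplicative (ZMod 3)))) ∧
    (∀ N₁ N₂ : Subgroup (alternatingGroup (Fin n)), Group.IsNilpotent N₁ → Group.IsNilpotent N₂ →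
      Nat.card N₁ = 3 * Nat.card P → Nat.card N₂ = 3 * Nat.card P →
      ∃ g : alternatingGroup (Fin n), N₂ = N₁.map (MulAut.conj g).toMonoidHom) := by
  classical
  obtain ⟨m, rfl⟩ : ∃ m, n = 3 + m := ⟨n - 3, by omega⟩
  revert P
  rw [Nat.add_sub_cancel_left]
  intro P
  haveI := Fact.mk Nat.prime_two
  haveI : Fact (Nat.Prime 3) := ⟨Nat.prime_three⟩
  have hz : Nat.card (Subgroup.zpowers (finRotate 3)) = 3 := by
    rw [Nat.card_zpowers]; exact orderOf_eq_prime (by decide) (by decide)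
  haveI : Nontrivial (Fin m) := Fin.nontrivial_iff_two_le.mpr (by omega)
  have hP2 : 2 * Nat.card P = tp m := by
    have hc : 2 * Nat.card (alternatingGroup (Fin m)) = m.factorial := by
      rw [Nat.card_eq_fintype_card, two_mul_card_alternatingGroup, Fintype.card_perm, Fintype.card_fin]
    rw [P.card_eq_multiplicity, Nat.factorization_def _ Nat.prime_two, tp, ← hc,
      padicValNat.mul (by norm_num) Nat.card_pos.ne', padicValNat.self (by norm_num), pow_add, pow_one]
  let P₀ := (P : Subgroup (alternatingGroup (Fin m))).map (alternatingGroup (Fin m)).subtype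
  let eP := (Subgroup.equivMapOfInjective (P : Subgroup (alternatingGroup (Fin m))) _ (alternatingGroup (Fin m)).subtype_injective).symm
  let A := (Subgroup.zpowers (finRotate 3)).prod P₀
  have hA : A.map (emb m) ≤ alternatingGroup (Fin (3 + m)) := by
    rintro _ ⟨⟨a, b⟩, ⟨ha, ⟨b', -, hb⟩⟩, rfl⟩
    rw [Equiv.Perm.mem_alternatingGroup, sign_emb]
    obtain ⟨i, rfl⟩ := Subgroup.mem_zpowers_iff.mp ha
    rw [show b = (b' : Equiv.Perm (Fin m)) from hb.symm, Equiv.Perm.mem_alternatingGroup.mp b'.2, map_zpow, sign_finRotate]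
    simp
  let e₀ := (((Subgroup.subgroupOfEquivOfLe hA).trans (Subgroup.equivMapOfInjective A _ (emb_injective m)).symm).trans
    (Subgroup.prodEquiv _ _)).trans MulEquiv.prodComm
  let M := (A.map (emb m)).subgroupOf (alternatingGroup (Fin (3 + m)))
  have hM : Nat.card M = 3 * Nat.card P := by
    rw [Nat.card_congr e₀.toEquiv, Nat.card_prod, hz, mul_comm, Nat.card_congr eP.toEquiv]
  have eM : M ≃* (↥(P : Subgroup (alternatingGroup (Fin m))) × Multiplicative (ZMod 3)) :=
    e₀.trans (MulEquiv.prodCongr eP (mulEquivOfPrimeCardEq (p := 3) hz (by simp [Nat.card_eq_fintype_card])))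
  have hMn : Group.IsNilpotent M := by
    haveI : Group.IsNilpotent (P : Subgroup (alternatingGroup (Fin m))) := P.isPGroup'.isNilpotent
    exact Group.nilpotent_of_mulEquiv eM.symm
  refine ⟨fun N hN => ?_, ⟨M, hMn, hM, ⟨eM⟩⟩, ?_⟩
  · have h := card_le_bdAlt (3 + m) N (Fin (3 + m)) hN (fun g => Equiv.Perm.mem_alternatingGroup.mp (g : alternatingGroup (Fin (3 + m))).2) (Nat.card_fin _)
    rw [bdAlt, if_neg (by omega), if_neg (by omega), if_neg (by omega), if_neg (by omega), if_neg (by omega),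
      bd, if_pos hn, Nat.add_sub_cancel_left, ← hP2] at h
    omega
  have key : ∀ N : Subgroup (alternatingGroup (Fin (3 + m))), Group.IsNilpotent N → Nat.card N = 3 * Nat.card P →
      ∃ g, N.map (MulAut.conj g).toMonoidHom = M := by
    intro N hN hc
    obtain ⟨v, hv⟩ := IsPGroup.iff_card.mp P.isPGroup'
    let H := N.map (alternatingGroup (Fin (3 + m))).subtype
    let eH := Subgroup.equivMapOfInjective N _ (alternatingGroup (Fin (3 + m))).subtype_injective
    obtain ⟨c, hcN, hc3, T, hTN, hT2, hTc, hfix⟩ := extremal (by rw [Nat.card_fin]; exact hn) H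
      (Group.nilpotent_of_mulEquiv eH) ((Nat.card_congr eH.toEquiv).symm.trans (hc.trans (by rw [hv])))
      (by rw [Nat.card_fin, Nat.add_sub_cancel_left, ← hP2, hv, pow_succ]; omega)
    obtain ⟨σ', hσ'⟩ := isConj_iff.mp (alternatingGroup.isThreeCycle_isConj (by rw [Nat.card_fin]; omega)
      (σ := ⟨c, hc3.mem_alternatingGroup⟩) (τ := ⟨rot m, (rot_isThreeCycle m).mem_alternatingGroup⟩) hc3 (rot_isThreeCycle m))
    have hσ : (σ' : Equiv.Perm (Fin (3 + m))) * c * (σ' : Equiv.Perm (Fin (3 + m)))⁻¹ = rot m :=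
      congrArg Subtype.val hσ'
    obtain ⟨σ, hσA⟩ := σ'
    simp only at hσ
    let f := (MulAut.conj σ).toMonoidHom
    have hf : Function.Injective f := (MulAut.conj σ).injective
    obtain ⟨T', hT'c, hT'T, hT'⟩ := eq_prod m (H.map f) (T.map f) (Subgroup.map_mono hTN) ⟨c, hcN, hσ⟩
      (by rw [← Nat.card_congr (Subgroup.equivMapOfInjective H f hf).toEquiv, ← Nat.card_congr (Subgroup.equivMapOfInjective T f hf).toEquiv, ← Nat.card_congr eH.toEquiv, hc, hTc, hv]) (by
      rintro _ ⟨t, ht, rfl⟩ x hx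
      have h1 : c (σ⁻¹ x) ≠ σ⁻¹ x := by
        intro h; apply hx; rw [← hσ, Equiv.Perm.mul_apply, Equiv.Perm.mul_apply, h]; exact σ.apply_symm_apply x
      show (σ * t * σ⁻¹) x = x
      rw [Equiv.Perm.mul_apply, Equiv.Perm.mul_apply, hfix t ht _ h1]; exact σ.apply_symm_apply x)
    have hT'A : T' ≤ alternatingGroup (Fin m) := by
      intro b hb
      obtain ⟨t, ht, hbt⟩ : (emb m).comp (MonoidHom.inr _ _) b ∈ T.map f := hT'T ▸ Subgroup.mem_map_of_mem _ hb
      obtain ⟨⟨t', ht'⟩, -, rfl⟩ := hTN ht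
      have h2 := congrArg Equiv.Perm.sign hbt
      simp only [MonoidHom.comp_apply, MonoidHom.inr_apply, sign_emb, map_one, one_mul, f] at h2
      rw [Equiv.Perm.mem_alternatingGroup, ← h2]
      simp [Equiv.Perm.mem_alternatingGroup.mp ht']
    rw [← Nat.card_congr (Subgroup.equivMapOfInjective T f hf).toEquiv, hTc, ← hv,
      ← Nat.card_congr (Subgroup.subgroupOfEquivOfLe hT'A).toEquiv, P.card_eq_multiplicity] at hT'c
    obtain ⟨τ, hτ⟩ := MulAction.exists_smul_eq (alternatingGroup (Fin m)) (Sylow.ofCard _ hT'c) P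
    have hg : emb m (1, (τ : Equiv.Perm (Fin m))) * σ ∈ alternatingGroup (Fin (3 + m)) :=
      Subgroup.mul_mem _ (by rw [Equiv.Perm.mem_alternatingGroup, sign_emb]; simp [Equiv.Perm.mem_alternatingGroup.mp τ.2]) hσA
    refine ⟨⟨_, hg⟩, ?_⟩
    apply Subgroup.map_injective (alternatingGroup (Fin (3 + m))).subtype_injective
    have hPe : P₀ = T'.map (MulAut.conj (τ : Equiv.Perm (Fin m))).toMonoidHom := by
      have hP' : (P : Subgroup (alternatingGroup (Fin m))) = (T'.subgroupOf (alternatingGroup (Fin m))).map (MulAut.conj τ).toMonoidHom := by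
        rw [← hτ]; rfl
      show (P : Subgroup (alternatingGroup (Fin m))).map _ = _
      rw [hP', Subgroup.map_map]
      ext b
      constructor
      · rintro ⟨t, ht, rfl⟩; exact ⟨t, ht, rfl⟩
      · rintro ⟨t, ht, rfl⟩; exact ⟨⟨t, hT'A ht⟩, ht, rfl⟩
    have e1 : (N.map (MulAut.conj (⟨_, hg⟩ : alternatingGroup (Fin (3 + m)))).toMonoidHom).map (alternatingGroup (Fin (3 + m))).subtype
        = (H.map f).map (MulAut.conj (emb m (1, (τ : Equiv.Perm (Fin m))))).toMonoidHom := by
      simp only [H, Subgroup.map_map]; congr 1 <;> (ext1 x; simp [f, mul_assoc])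
    rw [e1, ← hT', Subgroup.map_map, Subgroup.map_subgroupOf_eq_of_le hA]
    rw [show A = (((Subgroup.zpowers (finRotate 3)).prod T').map (MulAut.conj ((1, (τ : Equiv.Perm (Fin m))) : Equiv.Perm (Fin 3) × Equiv.Perm (Fin m))).toMonoidHom) from ?_,
      Subgroup.map_map]
    · congr 1; ext1 x; simp [map_mul, ← map_inv]
    · ext ⟨a, b⟩
      simp only [A, Subgroup.mem_prod, hPe, Subgroup.mem_map, MulEquiv.coe_toMonoidHom, MulAut.conj_apply]
      constructor
      · rintro ⟨ha, t, ht, rfl⟩; exact ⟨(a, t), ⟨ha, ht⟩, by ext1 <;> simp⟩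
      · rintro ⟨⟨a', t⟩, ⟨ha, ht⟩, h⟩
        obtain ⟨rfl, rfl⟩ := Prod.mk.injEq .. ▸ h
        exact ⟨by simpa using ha, t, ht, by simp⟩
  intro N₁ N₂ h₁ h₂ c₁ c₂
  obtain ⟨g₁, hg₁⟩ := key N₁ h₁ c₁
  obtain ⟨g₂, hg₂⟩ := key N₂ h₂ c₂
  refine ⟨g₂⁻¹ * g₁, ?_⟩
  apply Subgroup.map_injective (f := (MulAut.conj g₂).toMonoidHom) (MulAut.conj g₂).injective
  show N₂.map (MulAut.conj g₂).toMonoidHom = (N₁.map (MulAut.conj (g₂⁻¹ * g₁)).toMonoidHom).map (MulAut.conj g₂).toMonoidHom
  rw [hg₂, Subgroup.map_map, ← hg₁]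
  congr 1; ext1 x; simp [mul_assoc]

end Cfsg.Agent.S2256
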