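import Cfsg.Statements.S2268

-- import your own Cfsg.Agent.* helpers here

set_option autoImplicit false
open Cfsg

namespace Cfsg.Agent.S2268

/-- Let G be a finite group with an abelian Sylow p-subgroup P and let Q ≤ P. Then N_G(Q) = (N_G(Q) ∩ N_G(P))·C_G(Q), so that N_G(Q)/C_G(Q) is a homomorphic image of the subgroup (N_G(Q) ∩ N_G(P))/C_G(P) of N_G(P)/C_G(P); in particular the order of N_G(Q)/C_G(Q) divides the order of N_G(P)/C_G(P). -/
theorem result {G : Type*} [Group G] [Finite G] {p : ℕ} [Fact p.Prime]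
    (P : Sylow p G) (hP : IsMulCommutative (P : Subgroup G)) (Q : Subgroup G) (hQ : Q ≤ (P : Subgroup G)) :
    Subgroup.normalizer (Q : Set G) =
      (Subgroup.normalizer (Q : Set G) ⊓ Subgroup.normalizer ((P : Subgroup G) : Set G)) ⊔ Subgroup.centralizer (Q : Set G) ∧
    ((Subgroup.centralizer (Q : Set G)).subgroupOf (Subgroup.normalizer (Q : Set G))).index ∣ ((Subgroup.centralizer ((P : Subgroup G) : Set G)).subgroupOf (Subgroup.normalizer ((P : Subgroup G) : Set G))).index := by
  classical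
  have hPC : (P : Subgroup G) ≤ Subgroup.centralizer (Q : Set G) := fun x hx => Subgroup.mem_centralizer_iff.2 fun y hy =>
    congrArg Subtype.val (hP.is_comm.comm ⟨y, hQ hy⟩ ⟨x, hx⟩)
  have hCP : Subgroup.centralizer ((P : Subgroup G) : Set G) ≤ Subgroup.centralizer (Q : Set G) :=
    Subgroup.centralizer_le hQ
  have hle : Subgroup.centralizer (Q : Set G) ≤ Subgroup.normalizer (Q : Set G) := Subgroup.centralizer_le_normalizer _
  have hPP : Subgroup.centralizer ((P : Subgroup G) : Set G) ≤ Subgroup.normalizer ((P : Subgroup G) : Set G) :=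
    Subgroup.centralizer_le_normalizer _
  set N := Subgroup.normalizer (Q : Set G)
  set C := Subgroup.centralizer (Q : Set G)
  set M := Subgroup.normalizer ((P : Subgroup G) : Set G)
  have hconjC : ∀ n ∈ N, ∀ c ∈ C, n * c * n⁻¹ ∈ C := fun n hn c hc => Subgroup.mem_centralizer_iff.2 fun y hy => by
    have h1 : n⁻¹ * y * n ∈ Q := by
      have := (Subgroup.mem_normalizer_iff.1 (inv_mem hn) y).1 hy
      simpa using this
    have h3 := Subgroup.mem_centralizer_iff.1 hc _ h1
    calc y * (n * c * n⁻¹) = n * ((n⁻¹ * y * n) * c) * n⁻¹ := by group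
      _ = n * (c * (n⁻¹ * y * n)) * n⁻¹ := by rw [h3]
      _ = _ := by group
  have hfr : N = (N ⊓ M) ⊔ C := by
    refine le_antisymm (fun n hn => ?_) (sup_le inf_le_left hle)
    have hP' : ((n • P : Sylow p G) : Subgroup G) ≤ C := by
      rintro _ ⟨z, hz, rfl⟩
      exact hconjC n hn z (hPC hz)
    obtain ⟨⟨c, hc⟩, hcP⟩ := MulAction.exists_smul_eq ↥C ((n • P).subtype hP') (P.subtype hPC)
    have hcn : (c * n) • P = P := by
      rw [mul_smul]
      apply Sylow.subtype_injective (hP := by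
        rintro _ ⟨z, hz, rfl⟩
        exact C.mul_mem (C.mul_mem hc (hP' hz)) (C.inv_mem hc)) (hQ := hPC)
      rw [← hcP, Sylow.smul_subtype]
      rfl
    have hM : c * n ∈ N ⊓ M := ⟨mul_mem (hle hc) hn, Sylow.smul_eq_iff_mem_normalizer.1 hcn⟩
    have : n = c⁻¹ * (c * n) := by group
    rw [this]
    exact mul_mem (Subgroup.mem_sup_right (inv_mem hc)) (Subgroup.mem_sup_left hM)
  refine ⟨hfr, ?_⟩
  show C.relIndex N ∣ (Subgroup.centralizer ((P : Subgroup G) : Set G)).relIndex M
  haveI hCN : (C.subgroupOf N).Normal := ⟨fun c hc g => hconjC g.1 g.2 c.1 hc⟩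
  have h2 : C.relIndex N = C.relIndex (N ⊓ M) := by
    let f : ↥(N ⊓ M) →* ↥N ⧸ C.subgroupOf N :=
      (QuotientGroup.mk' (C.subgroupOf N)).comp (Subgroup.inclusion (inf_le_left : N ⊓ M ≤ N))
    have hker : f.ker = C.subgroupOf (N ⊓ M) := by
      ext x
      simp [f, QuotientGroup.eq_one_iff, Subgroup.mem_subgroupOf]
    have hf : Function.Surjective f := by
      intro q
      obtain ⟨⟨n, hn⟩, rfl⟩ := QuotientGroup.mk_surjective q
      have hn' : n ∈ (N ⊓ M) ⊔ C := hfr ▸ hn
      have hnorm : N ⊓ M ≤ Subgroup.normalizer (C : Set G) := fun x hx => Subgroup.mem_normalizer_iff.2 fun c =>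
        ⟨hconjC x hx.1 c, fun h => by
          have := hconjC x⁻¹ (inv_mem hx.1) _ h
          simpa [mul_assoc] using this⟩
      rw [← SetLike.mem_coe, Subgroup.coe_mul_of_left_le_normalizer_right _ _ hnorm, Set.mem_mul] at hn'
      obtain ⟨x, hx, c, hc, e⟩ := hn'
      refine ⟨⟨x, hx⟩, ?_⟩
      refine (QuotientGroup.eq (s := C.subgroupOf N)).2 ?_
      show x⁻¹ * n ∈ C
      rw [← e, inv_mul_cancel_left]
      exact hc
    rw [Subgroup.relIndex, Subgroup.relIndex, ← hker, Subgroup.index_ker, MonoidHom.range_eq_top.2 hf, Subgroup.card_top,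
      Subgroup.index_eq_card]
  rw [h2]
  refine dvd_trans (Subgroup.relIndex_dvd_of_le_left _ hCP) ?_
  exact ⟨_, (Subgroup.relIndex_mul_relIndex _ (N ⊓ M) M (le_inf (hCP.trans hle) hPP) inf_le_right).symm⟩

end Cfsg.Agent.S2268
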