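import Cfsg.Statements.S2269
import Mathlib

set_option autoImplicit false
open Cfsg

namespace Cfsg.Agent.S2269

open Equiv

/-- extension of a permutation of `Fin m` to `Fin n` -/
noncomputable def emb {m n : ℕ} (h : m ≤ n) : Perm (Fin m) →* Perm (Fin n) :=
  Perm.viaEmbeddingHom (Fin.castLEEmb h)

theorem emb_fix {m n : ℕ} (h : m ≤ n) (σ : Perm (Fin m)) {i : Fin n} (hi : m ≤ (i : ℕ)) : emb h σ i = i := by
  rw [emb, Perm.viaEmbeddingHom_apply]
  refine Perm.viaEmbedding_apply_of_notMem _ _ _ ?_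
  rintro ⟨j, rfl⟩
  have := j.isLt
  simp at hi
  omega

theorem emb_inj {m n : ℕ} (h : m ≤ n) : Function.Injective (emb h) := Perm.viaEmbeddingHom_injective _

theorem sign_emb {m n : ℕ} (h : m ≤ n) (σ : Perm (Fin m)) : Perm.sign (emb h σ) = Perm.sign σ := by
  classical
  rw [emb, Perm.viaEmbeddingHom_apply, Perm.viaEmbedding]
  convert Perm.sign_extendDomain σ (Equiv.ofInjective _ (Fin.castLEEmb h).injective) using 3 <;> rfl

theorem not_sq_dvd_factorial {p : ℕ} (hp : p.Prime) : ∀ n : ℕ, n < 2 * p → ¬ p ^ 2 ∣ n.factorial := by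
  intro n
  induction n with
  | zero =>
    intro _ h
    have := Nat.le_of_dvd one_pos h
    have := hp.two_le
    nlinarith
  | succ n ih =>
    intro hn h
    rw [Nat.factorial_succ] at h
    by_cases he : n + 1 = p
    · rw [sq, he] at h
      have h1 := (Nat.mul_dvd_mul_iff_left hp.pos).mp h
      have h2 := (hp.dvd_factorial).mp h1
      omega
    · refine ih (by omega) ((Nat.Coprime.pow_left 2 (hp.coprime_iff_not_dvd.mpr ?_)).dvd_of_dvd_mul_left h)
      rintro ⟨c, hc⟩
      rcases c with _ | _ | c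
      · omega
      · omega
      · have h3 : p * (c + 1 + 1) = p * c + 2 * p := by ring
        omega

variable {n : ℕ}

local notation "A[" n "]" => alternatingGroup (Fin n)

theorem odd_case (hn : 5 ≤ n) {p : ℕ} [Fact p.Prime] (hp : p ≠ 2) (P : Sylow p (A[n]))
    (hP : IsMulCommutative (P : Subgroup (A[n]))) :
    2 ∣ ((Subgroup.centralizer ((P : Subgroup (A[n])) : Set (A[n]))).subgroupOf (Subgroup.normalizer ((P : Subgroup (A[n])) : Set (A[n])))).index ∨ IsCyclic (P : Subgroup (A[n])) := by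
  classical
  have hpp : p.Prime := Fact.out
  have hp3 : 3 ≤ p := by have := hpp.two_le; omega
  by_cases hlt : n < p + 2
  · refine Or.inr ?_
    have h1 : Nat.card (P : Subgroup (A[n])) ∣ n.factorial := by
      refine (Subgroup.card_subgroup_dvd_card _).trans ((Subgroup.card_subgroup_dvd_card _).trans ?_)
      rw [Nat.card_perm, Nat.card_fin]
    obtain ⟨k, hk⟩ := IsPGroup.iff_card.mp P.isPGroup'
    rw [hk] at h1
    rcases k with _ | _ | k
    · exact isCyclic_of_card_dvd_prime (p := p) (by rw [hk]; exact one_dvd p)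
    · exact isCyclic_of_prime_card (p := p) (by rw [hk, pow_one])
    · exact absurd ((pow_dvd_pow p (by omega)).trans h1) (not_sq_dvd_factorial hpp n (by omega))
  refine Or.inl ?_
  push Not at hlt
  have hpn : p ≤ n := by omega
  set x : Perm (Fin n) := emb hpn (finRotate p) with hx
  obtain ⟨p', hp'⟩ : ∃ p', p = p' + 2 := ⟨p - 2, by omega⟩
  have hord : orderOf (finRotate p) = p := by
    subst hp'
    rw [(isCycle_finRotate).orderOf, support_finRotate, Finset.card_univ, Fintype.card_fin]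
  have hxo : orderOf x = p := (orderOf_injective (emb hpn) (emb_inj hpn) _).trans hord
  have hodd : Odd p := hpp.odd_of_ne_two hp
  have hxs : Perm.sign x = 1 := by
    have h1 : Perm.sign x ^ p = 1 := by rw [← map_pow, ← hxo, pow_orderOf_eq_one, map_one]
    rcases Int.units_eq_one_or (Perm.sign x) with h | h
    · exact h
    · rw [h, hodd.neg_one_pow] at h1
      exact absurd h1 (by decide)
  obtain ⟨σ₀, hσ₀⟩ := isConj_iff.mp (Perm.isConj_of_cycleType_eq (σ := x) (τ := x⁻¹) (Perm.cycleType_inv x).symm)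
  set τ : Perm (Fin n) := Equiv.swap ⟨p, by omega⟩ ⟨p + 1, by omega⟩ with hτ
  have hτx : τ * x = x * τ := by
    refine (Perm.Disjoint.commute fun i => ?_)
    by_cases hi : p ≤ (i : ℕ)
    · exact Or.inr (emb_fix hpn _ hi)
    · refine Or.inl (Equiv.swap_apply_of_ne_of_ne ?_ ?_) <;> intro h <;> rw [h] at hi <;> simp at hi
  obtain ⟨σ, hσs, hσ⟩ : ∃ σ : Perm (Fin n), Perm.sign σ = 1 ∧ σ * x * σ⁻¹ = x⁻¹ := by
    rcases Int.units_eq_one_or (Perm.sign σ₀) with h | h
    · exact ⟨σ₀, h, hσ₀⟩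
    · refine ⟨σ₀ * τ, ?_, ?_⟩
      · rw [map_mul, h, hτ, Perm.sign_swap (by simp)]; decide
      · calc σ₀ * τ * x * (σ₀ * τ)⁻¹ = σ₀ * (τ * x) * τ⁻¹ * σ₀⁻¹ := by group
          _ = σ₀ * x * σ₀⁻¹ := by rw [hτx]; group
          _ = x⁻¹ := hσ₀
  let X : A[n] := ⟨x, Perm.mem_alternatingGroup.mpr hxs⟩
  let s : A[n] := ⟨σ, Perm.mem_alternatingGroup.mpr hσs⟩
  have hs : s * X * s⁻¹ = X⁻¹ := Subtype.ext hσ
  have hXp : IsPGroup p (Subgroup.zpowers X) := IsPGroup.iff_card.mpr ⟨1, by
    rw [Nat.card_zpowers, pow_one, ← hxo]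
    exact (orderOf_injective (A[n]).subtype (Subgroup.subtype_injective _) X).symm⟩
  obtain ⟨Q, hQ⟩ := hXp.exists_le_sylow
  obtain ⟨u, hu⟩ := MulAction.exists_smul_eq (A[n]) Q P
  have hX' : u * X * u⁻¹ ∈ (P : Subgroup (A[n])) := by
    rw [← hu]
    exact ⟨X, hQ (Subgroup.mem_zpowers X), rfl⟩
  set Y : A[n] := u * X * u⁻¹ with hY
  have hY2 : Y ≠ Y⁻¹ := by
    intro h
    have h1 : orderOf Y = p := by
      rw [hY, ← MulAut.conj_apply, MulEquiv.orderOf_eq,
        ← orderOf_injective (A[n]).subtype (Subgroup.subtype_injective _) X]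
      exact hxo
    have h2 : Y ^ 2 = 1 := by rw [sq]; nth_rw 2 [h]; rw [mul_inv_cancel]
    have := Nat.le_of_dvd two_pos (h1 ▸ orderOf_dvd_of_pow_eq_one h2)
    omega
  have hg : (u * s⁻¹ * u⁻¹)⁻¹ * Y * (u * s⁻¹ * u⁻¹) = Y⁻¹ := by
    rw [hY]
    calc (u * s⁻¹ * u⁻¹)⁻¹ * (u * X * u⁻¹) * (u * s⁻¹ * u⁻¹) = u * (s * X * s⁻¹) * u⁻¹ := by group
      _ = u * X⁻¹ * u⁻¹ := by rw [hs]
      _ = _ := by group
  haveI := hP
  obtain ⟨m, hmN, hm⟩ := P.conj_eq_normalizer_conj_of_mem Y _ hX' (by rw [hg]; exact (P : Subgroup (A[n])).inv_mem hX')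
  rw [hg] at hm
  set C := (Subgroup.centralizer ((P : Subgroup (A[n])) : Set (A[n]))).subgroupOf (Subgroup.normalizer ((P : Subgroup (A[n])) : Set (A[n]))) with hC
  haveI : C.Normal := by
    refine ⟨fun a ha b => ?_⟩
    rw [hC, Subgroup.mem_subgroupOf, Subgroup.mem_centralizer_iff] at ha ⊢
    intro y hy
    have h1 : (b : A[n])⁻¹ * y * b ∈ (P : Subgroup (A[n])) := by
      refine (Subgroup.mem_normalizer_iff.mp b.2 _).mpr ?_
      rw [show (b : A[n]) * ((b : A[n])⁻¹ * y * b) * (b : A[n])⁻¹ = y by group]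
      exact hy
    have h2 := ha _ h1
    simp only [Subgroup.coe_mul, Subgroup.coe_inv]
    calc y * (↑b * ↑a * (↑b)⁻¹) = ↑b * ((↑b)⁻¹ * y * ↑b * ↑a) * (↑b)⁻¹ := by group
      _ = ↑b * (↑a * ((↑b)⁻¹ * y * ↑b)) * (↑b)⁻¹ := by rw [h2]
      _ = _ := by group
  rcases Nat.even_or_odd C.index with he | ho
  · exact even_iff_two_dvd.mp he
  exfalso
  set M : Subgroup.normalizer ((P : Subgroup (A[n])) : Set (A[n])) := ⟨m, hmN⟩ with hM
  have hpow := C.pow_index_mem M
  rw [hC, Subgroup.mem_subgroupOf, Subgroup.mem_centralizer_iff] at hpow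
  have h3 := hpow Y hX'
  simp only [SubmonoidClass.coe_pow] at h3
  have hstep : ∀ k : ℕ, (m ^ k)⁻¹ * Y * m ^ k = if Even k then Y else Y⁻¹ := by
    intro k
    induction k with
    | zero => simp
    | succ k ih =>
      calc (m ^ (k + 1))⁻¹ * Y * m ^ (k + 1) = m⁻¹ * ((m ^ k)⁻¹ * Y * m ^ k) * m := by rw [pow_succ]; group
        _ = _ := by
          rw [ih]
          by_cases hk : Even k
          · rw [if_pos hk, if_neg (Nat.even_add_one.not.mpr (not_not.mpr hk))]; exact hm.symm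
          · rw [if_neg hk, if_pos (Nat.even_add_one.mpr hk)]
            calc m⁻¹ * Y⁻¹ * m = (m⁻¹ * Y * m)⁻¹ := by group
              _ = Y := by rw [← hm, inv_inv]
  have h4 := hstep C.index
  rw [if_neg (Nat.not_even_iff_odd.mpr ho), mul_assoc, h3, inv_mul_cancel_left] at h4
  exact hY2 h4

theorem two_ge_six (hn : 6 ≤ n) (P : Sylow 2 (A[n])) (hP : IsMulCommutative (P : Subgroup (A[n]))) : False := by
  classical
  let a₀ : Perm (Fin 6) := Equiv.swap 0 1 * Equiv.swap 2 3
  let b₀ : Perm (Fin 6) := Equiv.swap 0 2 * Equiv.swap 4 5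
  have ha : Perm.sign a₀ = 1 := by decide
  have hb : Perm.sign b₀ = 1 := by decide
  have h1 : a₀ * a₀ = 1 := by decide
  have h2 : (a₀ * b₀) ^ 4 = 1 := by decide
  have h3 : a₀ * (a₀ * b₀) * a₀⁻¹ = (a₀ * b₀)⁻¹ := by decide
  have h4 : a₀ * b₀ ≠ b₀ * a₀ := by decide
  let a : A[n] := ⟨emb hn a₀, Perm.mem_alternatingGroup.mpr ((sign_emb hn a₀).trans ha)⟩
  let c : A[n] := ⟨emb hn (a₀ * b₀), Perm.mem_alternatingGroup.mpr ((sign_emb hn _).trans (by rw [map_mul, ha, hb, one_mul]))⟩
  have hc : c ^ 4 = 1 := Subtype.ext (by rw [SubmonoidClass.coe_pow, ← map_pow, h2, map_one]; rfl)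
  have ha2 : a * a = 1 := Subtype.ext (by rw [Subgroup.coe_mul, ← map_mul, h1, map_one]; rfl)
  have hac : a * c * a⁻¹ = c⁻¹ := Subtype.ext (by
    simp only [Subgroup.coe_mul, Subgroup.coe_inv, a, c, ← map_mul, ← map_inv]
    rw [h3])
  have hcN : Subgroup.zpowers a ≤ Subgroup.normalizer ((Subgroup.zpowers c : Subgroup (A[n])) : Set (A[n])) := by
    rw [Subgroup.zpowers_le, Subgroup.mem_normalizer_iff]
    intro y
    have key : ∀ z ∈ Subgroup.zpowers c, a * z * a⁻¹ ∈ Subgroup.zpowers c := by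
      rintro z ⟨j, rfl⟩
      refine ⟨-j, ?_⟩
      show c ^ (-j) = a * c ^ j * a⁻¹
      rw [← conj_zpow, hac, inv_zpow, zpow_neg]
    refine ⟨key y, fun h => ?_⟩
    have h5 := key _ h
    have hai : a⁻¹ = a := inv_eq_of_mul_eq_one_right ha2
    rwa [show a * (a * y * a⁻¹) * a⁻¹ = (a * a) * y * (a⁻¹ * a⁻¹) by group, hai, ha2, one_mul, mul_one] at h5
  have hpa : IsPGroup 2 (Subgroup.zpowers a) := IsPGroup.iff_card.mpr (by
    obtain ⟨i, -, hi⟩ := (Nat.dvd_prime_pow Nat.prime_two).mp (orderOf_dvd_of_pow_eq_one (show a ^ 2 ^ 1 = 1 by rw [pow_one, sq]; exact ha2))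
    exact ⟨i, by rw [Nat.card_zpowers, hi]⟩)
  have hpc : IsPGroup 2 (Subgroup.zpowers c) := IsPGroup.iff_card.mpr (by
    obtain ⟨i, -, hi⟩ := (Nat.dvd_prime_pow Nat.prime_two).mp (orderOf_dvd_of_pow_eq_one (show c ^ 2 ^ 2 = 1 from hc))
    exact ⟨i, by rw [Nat.card_zpowers, hi]⟩)
  obtain ⟨Q, hQ⟩ := (IsPGroup.to_sup_of_normal_right' hpa hpc hcN).exists_le_sylow
  obtain ⟨u, hu⟩ := MulAction.exists_smul_eq (A[n]) Q P
  have hmem : ∀ z ∈ (Q : Subgroup (A[n])), u * z * u⁻¹ ∈ (P : Subgroup (A[n])) := fun z hz => by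
    rw [← hu]; exact ⟨z, hz, rfl⟩
  haveI := hP
  have h5 := setLike_mul_comm (s := (P : Subgroup (A[n]))) (hmem a (hQ (Subgroup.mem_sup_left (Subgroup.mem_zpowers a))))
    (hmem c (hQ (Subgroup.mem_sup_right (Subgroup.mem_zpowers c))))
  have h6 : u * (a * c) * u⁻¹ = u * (c * a) * u⁻¹ := by
    calc u * (a * c) * u⁻¹ = u * a * u⁻¹ * (u * c * u⁻¹) := by group
      _ = _ := h5
      _ = _ := by group
  have h7 := congrArg (fun z : A[n] => (z : Perm (Fin n))) (mul_left_cancel (mul_right_cancel h6))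
  simp only [Subgroup.coe_mul, a, c, ← map_mul] at h7
  have h8 := emb_inj hn h7
  rw [← mul_assoc, h1, one_mul] at h8
  apply h4
  calc a₀ * b₀ = a₀ * (a₀ * b₀ * a₀) := by rw [← h8]
    _ = (a₀ * a₀) * b₀ * a₀ := by group
    _ = b₀ * a₀ := by rw [h1, one_mul]

set_option maxRecDepth 4000 in
theorem five (P : Sylow 2 (A[5])) :
    ((Subgroup.centralizer ((P : Subgroup (A[5])) : Set (A[5]))).subgroupOf (Subgroup.normalizer ((P : Subgroup (A[5])) : Set (A[5])))).index = 3 ∧ IsKleinFour (P : Subgroup (A[5])) := by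
  let a : A[5] := ⟨Equiv.swap 0 1 * Equiv.swap 2 3, Perm.mem_alternatingGroup.mpr (by decide)⟩
  let b : A[5] := ⟨Equiv.swap 0 2 * Equiv.swap 1 3, Perm.mem_alternatingGroup.mpr (by decide)⟩
  let V : Subgroup (A[5]) :=
    { carrier := {1, a, b, a * b}
      mul_mem' := by
        intro x y hx hy
        simp only [Set.mem_insert_iff, Set.mem_singleton_iff] at hx hy ⊢
        rcases hx with rfl | rfl | rfl | rfl <;> rcases hy with rfl | rfl | rfl | rfl <;> decide
      one_mem' := by simp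
      inv_mem' := by
        intro x hx
        simp only [Set.mem_insert_iff, Set.mem_singleton_iff] at hx ⊢
        rcases hx with rfl | rfl | rfl | rfl <;> decide }
  have hmemV : ∀ x, x ∈ V ↔ x ∈ ({1, a, b, a * b} : Finset (A[5])) := by intro x; simp [V]
  have hVcard : Nat.card V = 4 := by
    rw [Nat.card_congr (Equiv.subtypeEquivRight hmemV), Nat.card_eq_finsetCard]
    decide
  have hA : Nat.card (A[5]) = 60 := by rw [Nat.card_eq_fintype_card]; decide
  have hPcard : Nat.card (P : Subgroup (A[5])) = 4 := by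
    rw [P.card_eq_multiplicity, hA, show (60 : ℕ) = 2 ^ 2 * 15 by norm_num, Nat.factorization_mul (by norm_num) (by norm_num),
      Finsupp.add_apply, Nat.Prime.factorization_pow Nat.prime_two, Finsupp.single_eq_same,
      Nat.factorization_eq_zero_of_not_dvd (by norm_num), add_zero]
    norm_num
  have hVp : IsPGroup 2 V := IsPGroup.iff_card.mpr ⟨2, by rw [hVcard]; norm_num⟩
  obtain ⟨Q, hQ⟩ := hVp.exists_le_sylow
  obtain ⟨u, hu⟩ := MulAction.exists_smul_eq (A[5]) Q P
  have hPV : (P : Subgroup (A[5])) = V.map (MulAut.conj u).toMonoidHom := by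
    refine (Subgroup.eq_of_le_of_card_ge ?_ ?_).symm
    · rw [← hu]
      rintro _ ⟨z, hz, rfl⟩
      exact ⟨z, hQ hz, rfl⟩
    · rw [← Nat.card_congr (V.equivMapOfInjective _ (MulAut.conj u).injective).toEquiv, hVcard, hPcard]
  let Nf : Finset (A[5]) := Finset.univ.filter fun g => (g * a * g⁻¹ ∈ ({1, a, b, a * b} : Finset (A[5]))) ∧ g * b * g⁻¹ ∈ ({1, a, b, a * b} : Finset (A[5]))
  have hNf : Nf.card = 12 := by decide
  have hNV : ∀ g, g ∈ Subgroup.normalizer (V : Set (A[5])) ↔ g ∈ Nf := by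
    intro g
    simp only [Nf, Finset.mem_filter, Finset.mem_univ, true_and, ← hmemV]
    constructor
    · intro h
      exact ⟨(Subgroup.mem_normalizer_iff.mp h a).mp (by simp [V]), (Subgroup.mem_normalizer_iff.mp h b).mp (by simp [V])⟩
    · rintro ⟨h1, h2⟩
      have key : ∀ y ∈ V, g * y * g⁻¹ ∈ V := by
        intro y hy
        rcases hy with rfl | rfl | rfl | rfl
        · simp
        · exact h1
        · exact h2
        · rw [show g * (a * b) * g⁻¹ = g * a * g⁻¹ * (g * b * g⁻¹) by group]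
          exact V.mul_mem h1 h2
      have heq : V.map (MulAut.conj g).toMonoidHom = V := by
        refine Subgroup.eq_of_le_of_card_ge ?_ ?_
        · rintro _ ⟨y, hy, rfl⟩; exact key y hy
        · rw [← Nat.card_congr (V.equivMapOfInjective _ (MulAut.conj g).injective).toEquiv]
      rw [Subgroup.mem_normalizer_iff]
      intro y
      refine ⟨key y, fun hy => ?_⟩
      rw [← heq] at hy
      obtain ⟨z, hz, he⟩ := hy
      have : z = y := (MulAut.conj g).injective he
      exact this ▸ hz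
  have hNVcard : Nat.card (Subgroup.normalizer (V : Set (A[5]))) = 12 := by
    rw [Nat.card_congr (Equiv.subtypeEquivRight hNV), Nat.card_eq_finsetCard, hNf]
  let Cf : Finset (A[5]) := Finset.univ.filter fun g => g * a = a * g ∧ g * b = b * g
  have hCf : Cf.card = 4 := by decide
  have hCV : Nat.card (Subgroup.centralizer (V : Set (A[5]))) = 4 := by
    have hC : ∀ g, g ∈ Subgroup.centralizer (V : Set (A[5])) ↔ g ∈ Cf := by
      intro g
      simp only [Cf, Finset.mem_filter, Finset.mem_univ, true_and, Subgroup.mem_centralizer_iff]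
      constructor
      · intro h
        exact ⟨(h a (by simp [V])).symm, (h b (by simp [V])).symm⟩
      · rintro ⟨h1, h2⟩ y hy
        rcases hy with rfl | rfl | rfl | rfl
        · simp
        · exact h1.symm
        · exact h2.symm
        · rw [mul_assoc, ← h2, ← mul_assoc, ← h1, mul_assoc]
    rw [Nat.card_congr (Equiv.subtypeEquivRight hC), Nat.card_eq_finsetCard, hCf]
  have hN : Nat.card (Subgroup.normalizer ((P : Subgroup (A[5])) : Set (A[5]))) = 12 := by
    rw [hPV, ← Subgroup.map_equiv_normalizer_eq V (MulAut.conj u),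
      ← Nat.card_congr ((Subgroup.normalizer (V : Set (A[5]))).equivMapOfInjective _ (MulAut.conj u).injective).toEquiv, hNVcard]
  have hC : Nat.card (Subgroup.centralizer ((P : Subgroup (A[5])) : Set (A[5]))) = 4 := by
    have : Subgroup.centralizer ((P : Subgroup (A[5])) : Set (A[5])) = (Subgroup.centralizer (V : Set (A[5]))).map (MulAut.conj u).toMonoidHom := by
      rw [hPV]
      ext g
      simp only [Subgroup.mem_centralizer_iff, Subgroup.mem_map_equiv, MulAut.conj_symm_apply, SetLike.mem_coe]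
      constructor
      · intro h y hy
        have h1 := h (u * y * u⁻¹) (by rwa [show u⁻¹ * (u * y * u⁻¹) * u = y by group])
        calc y * (u⁻¹ * g * u) = u⁻¹ * (u * y * u⁻¹ * g) * u := by group
          _ = u⁻¹ * (g * (u * y * u⁻¹)) * u := by rw [h1]
          _ = _ := by group
      · intro h y hy
        have h1 := h _ hy
        calc y * g = u * (u⁻¹ * y * u * (u⁻¹ * g * u)) * u⁻¹ := by group
          _ = u * (u⁻¹ * g * u * (u⁻¹ * y * u)) * u⁻¹ := by rw [h1]
          _ = _ := by group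
    rw [this, ← Nat.card_congr ((Subgroup.centralizer (V : Set (A[5]))).equivMapOfInjective _ (MulAut.conj u).injective).toEquiv, hCV]
  constructor
  · have h1 := Subgroup.card_mul_index ((Subgroup.centralizer ((P : Subgroup (A[5])) : Set (A[5]))).subgroupOf (Subgroup.normalizer ((P : Subgroup (A[5])) : Set (A[5]))))
    rw [Nat.card_congr (Subgroup.subgroupOfEquivOfLe (Subgroup.centralizer_le_normalizer _)).toEquiv, hC, hN] at h1
    omega
  · have hexp : ∀ g : A[5], g ^ 4 = 1 → g ^ 2 = 1 := by decide +kernel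
    haveI : Fact (Nat.Prime 2) := ⟨Nat.prime_two⟩
    haveI : Nontrivial (P : Subgroup (A[5])) := Finite.one_lt_card_iff_nontrivial.mp (by rw [hPcard]; norm_num)
    refine IsKleinFour.mk hPcard ((Monoid.exponent_eq_prime_iff Nat.prime_two).mpr ?_)
    intro g hg
    have h4 : (g : A[5]) ^ 4 = 1 := by
      have h5 : g ^ 4 = 1 := by rw [← hPcard]; exact pow_card_eq_one'
      exact_mod_cast congrArg Subtype.val h5
    exact orderOf_eq_prime (Subtype.ext (by rw [SubmonoidClass.coe_pow]; exact hexp _ h4)) hg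

/-- Let n ≥ 5 and let P be an abelian Sylow p-subgroup of the alternating group A_n. Then N(P)/C(P) (taken in A_n) has even order, or P is cyclic, except when n = 5 and p = 2, where P is a four-group and N(P)/C(P) has order 3. -/
theorem result (n : ℕ) (hn : 5 ≤ n) {p : ℕ} [Fact p.Prime]
    (P : Sylow p (alternatingGroup (Fin n))) (hP : IsMulCommutative (P : Subgroup (alternatingGroup (Fin n)))) :
    (¬ (n = 5 ∧ p = 2) → 2 ∣ ((Subgroup.centralizer ((P : Subgroup (alternatingGroup (Fin n))) : Set (alternatingGroup (Fin n)))).subgroupOf (Subgroup.normalizer ((P : Subgroup (alternatingGroup (Fin n))) : Set (alternatingGroup (Fin n))))).index ∨ IsCyclic (P : Subgroup (alternatingGroup (Fin n)))) ∧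
    ((n = 5 ∧ p = 2) → ((Subgroup.centralizer ((P : Subgroup (alternatingGroup (Fin n))) : Set (alternatingGroup (Fin n)))).subgroupOf (Subgroup.normalizer ((P : Subgroup (alternatingGroup (Fin n))) : Set (alternatingGroup (Fin n))))).index = 3 ∧ IsKleinFour (P : Subgroup (alternatingGroup (Fin n)))) := by
  refine ⟨fun h => ?_, ?_⟩
  · by_cases hp : p = 2
    · subst hp
      exact (two_ge_six (by by_contra h6; exact h ⟨by omega, rfl⟩) P hP).elim
    · exact odd_case hn hp P hP
  · rintro ⟨rfl, rfl⟩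
    exact five P

end Cfsg.Agent.S2269
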