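import Cfsg.Statements.S2270
import Mathlib.GroupTheory.Transfer
import Mathlib.GroupTheory.Perm.Cycle.Type
-- import your own Cfsg.Agent.* helpers here

set_option autoImplicit false
open Cfsg

namespace Cfsg.Agent.S2270

/-- Let n ≥ 3, p an odd prime, and P an abelian Sylow p-subgroup of the symmetric group S_n (with p dividing n!, so that P ≠ 1). Then N(P)/C(P) has even order. -/
theorem result (n : ℕ) (hn : 3 ≤ n) {p : ℕ} [Fact p.Prime] (hp : p ≠ 2) (hpn : p ≤ n)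
    (P : Sylow p (Equiv.Perm (Fin n))) (hP : IsMulCommutative (P : Subgroup (Equiv.Perm (Fin n)))) :
    2 ∣ ((Subgroup.centralizer ((P : Subgroup (Equiv.Perm (Fin n))) : Set (Equiv.Perm (Fin n)))).subgroupOf (Subgroup.normalizer ((P : Subgroup (Equiv.Perm (Fin n))) : Set (Equiv.Perm (Fin n))))).index := by
  classical
  have hpdvd : p ∣ Nat.card (Equiv.Perm (Fin n)) := by
    rw [Nat.card_eq_fintype_card, Fintype.card_perm, Fintype.card_fin]
    exact Nat.dvd_factorial (Fact.out : p.Prime).pos hpn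
  obtain ⟨⟨x, hx⟩, hx1⟩ : ∃ x : (P : Subgroup (Equiv.Perm (Fin n))), x ≠ 1 := by
    by_contra! h
    have hb : (P : Subgroup (Equiv.Perm (Fin n))) = ⊥ := by
      rw [eq_bot_iff]
      intro y hy
      exact Subtype.ext_iff.1 (h ⟨y, hy⟩)
    exact P.ne_bot_of_dvd_card hpdvd hb
  have hconj : IsConj x x⁻¹ := by
    rw [Equiv.Perm.isConj_iff_cycleType_eq, Equiv.Perm.cycleType_inv]
  obtain ⟨c, hc⟩ := isConj_iff.1 hconj
  obtain ⟨g, hg, hgx⟩ := Sylow.conj_eq_normalizer_conj_of_mem P (_hP := hP) x c⁻¹ hx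
    (by rw [inv_inv, hc]; exact inv_mem hx)
  rw [inv_inv, hc] at hgx
  set N := Subgroup.normalizer ((P : Subgroup (Equiv.Perm (Fin n))) : Set (Equiv.Perm (Fin n)))
  set C := (Subgroup.centralizer ((P : Subgroup (Equiv.Perm (Fin n))) : Set (Equiv.Perm (Fin n)))).subgroupOf N with hC
  have hCn : C.Normal := by
    refine ⟨fun c hc' m => ?_⟩
    rw [hC, Subgroup.mem_subgroupOf, Subgroup.mem_centralizer_iff] at hc' ⊢
    intro z hz
    have hm := (Subgroup.mem_normalizer_iff'.1 m.2 ((m : (Equiv.Perm (Fin n)))⁻¹ * z)).2 (show (m : (Equiv.Perm (Fin n))) * ((m : (Equiv.Perm (Fin n)))⁻¹ * z) ∈ (P : Subgroup (Equiv.Perm (Fin n))) by rw [mul_inv_cancel_left]; exact hz)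
    have h := hc' _ hm
    simp only [Subgroup.coe_mul, Subgroup.coe_inv]
    calc z * ((m : (Equiv.Perm (Fin n))) * c * (m : (Equiv.Perm (Fin n)))⁻¹) = (m : (Equiv.Perm (Fin n))) * (((m : (Equiv.Perm (Fin n)))⁻¹ * z * m) * c) * (m : (Equiv.Perm (Fin n)))⁻¹ := by simp only [mul_assoc, mul_inv_cancel_left]
      _ = (m : (Equiv.Perm (Fin n))) * (c * ((m : (Equiv.Perm (Fin n)))⁻¹ * z * m)) * (m : (Equiv.Perm (Fin n)))⁻¹ := by rw [h]
      _ = (m : (Equiv.Perm (Fin n))) * c * (m : (Equiv.Perm (Fin n)))⁻¹ * z := by simp only [mul_assoc, mul_inv_cancel_left, mul_inv_cancel, mul_one]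
  rw [Subgroup.index_eq_card]
  by_contra hndvd
  set y : N := ⟨g, hg⟩
  have ho : Odd (orderOf (y : N ⧸ C)) := by
    rw [← Nat.not_even_iff_odd, even_iff_two_dvd]
    exact fun h => hndvd (h.trans (orderOf_dvd_natCard _))
  have hpow : y ^ orderOf (y : N ⧸ C) ∈ C := by
    rw [← QuotientGroup.eq_one_iff, QuotientGroup.mk_pow, pow_orderOf_eq_one]
  have hinv2 : g * g * x = x * (g * g) := by
    have h1 : g⁻¹ * x * g = x⁻¹ := hgx.symm
    have h2 : x * g = g * x⁻¹ := by rw [← h1]; simp only [mul_assoc, mul_inv_cancel_left]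
    calc g * g * x = g * (g * x⁻¹⁻¹) := by rw [inv_inv, mul_assoc]
      _ = g * (x⁻¹ * g) := by
        congr 1
        rw [inv_inv, eq_inv_mul_iff_mul_eq, ← mul_assoc, h2, mul_assoc, inv_mul_cancel, mul_one]
      _ = x * g * g := by rw [h2, mul_assoc]
      _ = x * (g * g) := mul_assoc _ _ _
  obtain ⟨j, hj⟩ := ho
  rw [hj, hC, Subgroup.mem_subgroupOf, Subgroup.coe_pow, Subgroup.mem_centralizer_iff] at hpow
  have h3 : x * g ^ (2 * j + 1) = g ^ (2 * j + 1) * x := hpow x hx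
  have h4 : Commute x (g ^ (2 * j)) := by
    rw [pow_mul, pow_two]
    exact Commute.pow_right (hinv2.symm : Commute x (g * g)) j
  have h5 : x * g = g * x := by
    rw [pow_succ, ← mul_assoc, h4.eq, mul_assoc, mul_assoc] at h3
    exact mul_left_cancel h3
  rw [mul_assoc, h5, inv_mul_cancel_left] at hgx
  have h6 : x ^ 2 = 1 := by
    calc x ^ 2 = x⁻¹ * x := by rw [pow_two]; conv_lhs => arg 1; rw [← hgx]
      _ = 1 := inv_mul_cancel x
  obtain ⟨k, hk⟩ := P.isPGroup' ⟨x, hx⟩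
  have hk' : x ^ p ^ k = 1 := Subtype.ext_iff.1 hk
  obtain ⟨i, hi⟩ := ((Fact.out : p.Prime).odd_of_ne_two hp).pow (n := k)
  rw [hi, pow_succ, pow_mul, h6, one_pow, one_mul] at hk'
  exact hx1 (Subtype.ext hk')

end Cfsg.Agent.S2270
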