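import Cfsg.Statements.S2278
import Cfsg.Agent.Lib.RootSub.Transv

set_option autoImplicit false
set_option maxHeartbeats 1600000
open Cfsg

namespace Cfsg.Agent.S2278

open Matrix Cfsg.Lib.RootSub Cfsg.Lib.Classical

variable {F : Type*} [Field F]

/-- upper unitriangular matrix -/
def up (a a' e : F) : Matrix.SpecialLinearGroup (Fin 3) F :=
  ⟨!![1, a, e; 0, 1, a'; 0, 0, 1], by simp [Matrix.det_fin_three]⟩

/-- lower unitriangular matrix -/
def lo (b c : F) : Matrix.SpecialLinearGroup (Fin 3) F :=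
  ⟨!![1, 0, 0; b, 1, 0; c, b, 1], by simp [Matrix.det_fin_three]⟩

theorem coe_up (a a' e : F) : (up a a' e : Matrix (Fin 3) (Fin 3) F) = !![1, a, e; 0, 1, a'; 0, 0, 1] := rfl

theorem coe_lo (b c : F) : (lo b c : Matrix (Fin 3) (Fin 3) F) = !![1, 0, 0; b, 1, 0; c, b, 1] := rfl

theorem up_mul (a a' e x x' y : F) : up a a' e * up x x' y = up (a + x) (a' + x') (y + a * x' + e) := by
  apply Subtype.ext
  ext i j
  fin_cases i <;> fin_cases j <;> simp [coe_up, Matrix.mul_apply, Fin.sum_univ_three] <;> ring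

theorem up_zero : up (0 : F) 0 0 = 1 := by
  apply Subtype.ext
  ext i j
  fin_cases i <;> fin_cases j <;> simp [coe_up]

theorem up_inv (a a' e : F) : (up a a' e)⁻¹ = up (-a) (-a') (a * a' - e) := by
  rw [inv_eq_iff_mul_eq_one, up_mul, ← up_zero]
  congr 1 <;> ring

/-- inverse of `lo` -/
def loi (b c : F) : Matrix.SpecialLinearGroup (Fin 3) F :=
  ⟨!![1, 0, 0; -b, 1, 0; b * b - c, -b, 1], by simp [Matrix.det_fin_three]⟩

theorem coe_loi (b c : F) : (loi b c : Matrix (Fin 3) (Fin 3) F) = !![1, 0, 0; -b, 1, 0; b * b - c, -b, 1] := rfl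

theorem lo_inv (b c : F) : (lo b c)⁻¹ = loi b c := by
  rw [inv_eq_iff_mul_eq_one]
  apply Subtype.ext
  ext i j
  fin_cases i <;> fin_cases j <;> simp [coe_loi, coe_lo, Matrix.mul_apply, Fin.sum_univ_three] <;> ring

section
variable (H : Subgroup (Matrix.SpecialLinearGroup (Fin 3) F))

/-- superdiagonals realised in `H` -/
def sd : AddSubgroup (F × F) where
  carrier := {v | ∃ e, up v.1 v.2 e ∈ H}
  zero_mem' := ⟨0, by simpa [up_zero] using H.one_mem⟩
  add_mem' := by
    rintro v v' ⟨e, he⟩ ⟨e', he'⟩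
    exact ⟨_, by simpa [up_mul] using H.mul_mem he he'⟩
  neg_mem' := by
    rintro v ⟨e, he⟩
    exact ⟨_, by simpa [up_inv] using H.inv_mem he⟩

/-- multipliers of `sd H` -/
def mult : Subring (F × F) where
  carrier := {r | ∀ v ∈ sd H, r * v ∈ sd H}
  one_mem' := fun v hv => by simpa using hv
  mul_mem' := fun {r s} hr hs v hv => by rw [mul_assoc]; exact hr _ (hs _ hv)
  zero_mem' := fun v _ => by simp
  add_mem' := fun {r s} hr hs v hv => by rw [add_mul]; exact add_mem (hr _ hv) (hs _ hv)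
  neg_mem' := fun {r} hr v hv => by rw [neg_mul]; exact neg_mem (hr _ hv)

theorem mem_mult (T : Matrix.SpecialLinearGroup (Fin 3) F) (hT : T ∈ H) (d1 d2 d3 s1 s2 s3 z1 z2 : F)
    (hc : (T : Matrix (Fin 3) (Fin 3) F) = !![d1, s1, s3; 0, d2, s2; 0, 0, d3])
    (h1 : d1 = z1 * d2) (h2 : d2 = z2 * d3) : (z1, z2) ∈ mult H := by
  rintro ⟨a, a'⟩ ⟨e, he⟩
  have hd : d3 ≠ 0 := by
    intro h
    have := T.2
    rw [hc, Matrix.det_fin_three] at this
    simp [h] at this
  refine ⟨(d1 * e + s1 * a' - z1 * a * s2) / d3, ?_⟩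
  have key : T * up a a' e = up (z1 * a) (z2 * a') ((d1 * e + s1 * a' - z1 * a * s2) / d3) * T := by
    apply Subtype.ext
    ext i j
    fin_cases i <;> fin_cases j <;>
      simp [coe_up, hc, Matrix.mul_apply, Fin.sum_univ_three, h1, h2] <;> field_simp <;> ring
  have := H.mul_mem (H.mul_mem hT he) (H.inv_mem hT)
  rw [key, mul_inv_cancel_right] at this
  exact this

end

/-- once the superdiagonals are everything, the group is everything -/
theorem eq_top (b c : F) (hb : b ≠ 0) (H : Subgroup (Matrix.SpecialLinearGroup (Fin 3) F))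
    (hwH : lo b c ∈ H) (hfull : ∀ a a' : F, ((a, a') : F × F) ∈ sd H) : H = ⊤ := by
  classical
  have hZ : ∀ a : F, up 0 0 a ∈ H := by
    intro a
    obtain ⟨e, he⟩ := hfull a 0
    obtain ⟨e', he'⟩ := hfull 0 1
    have := H.mul_mem (H.mul_mem he he') (H.mul_mem (H.inv_mem he) (H.inv_mem he'))
    simp [up_inv, up_mul] at this
    convert this using 2
    ring
  have hU : ∀ a a' e : F, up a a' e ∈ H := by
    intro a a' e
    obtain ⟨e0, h0⟩ := hfull a a'
    have := H.mul_mem h0 (hZ (e - e0))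
    rw [up_mul] at this
    convert this using 2 <;> ring
  let e2 : Fin 3 → F := ![0, 0, 1]
  have hP2 : ∀ v, ∀ hv : e2 ⬝ᵥ v = 0, el v e2 hv 1 ∈ H := by
    intro v hv
    have h2 : v 2 = 0 := by simpa [e2, dotProduct, Fin.sum_univ_three] using hv
    convert hU 0 (v 1) (v 0) using 1
    refine Subtype.ext (ext_mulVec fun x => ?_)
    rw [coe_el, tv_mulVec, coe_up]
    ext i
    fin_cases i <;> simp [e2, dotProduct, Matrix.mulVec, Fin.sum_univ_three, h2] <;> ring
  -- the set of good functionals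
  let P : Set (Fin 3 → F) := {φ | ∀ v, ∀ hv : φ ⬝ᵥ v = 0, el v φ hv 1 ∈ H}
  have hPL : e2 ∈ P := hP2
  have congr_el : ∀ {v φ v' φ' : Fin 3 → F} (h1 : φ ⬝ᵥ v = 0) (h2 : φ' ⬝ᵥ v' = 0) (k k' : F),
      k • v = k' • v' → φ = φ' → el v φ h1 k = el v' φ' h2 k' := by
    intro v φ v' φ' h1 h2 k k' e1 e2
    exact Subtype.ext (by rw [coe_el, coe_el, e1, e2])
  have hPc : ∀ φ ∈ P, ∀ x ∈ H, φ ᵥ* (x : Matrix (Fin 3) (Fin 3) F) ∈ P := by
    intro φ hφ x hx v hv
    have hv' : φ ⬝ᵥ ((x : Matrix (Fin 3) (Fin 3) F) *ᵥ v) = 0 := by rw [dotProduct_mulVec, hv]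
    obtain ⟨h1, e1⟩ := conj_el x⁻¹ _ φ 1 hv'
    have hm := mul_mem (mul_mem (inv_mem hx) (hφ _ hv')) (inv_mem (inv_mem hx))
    rw [e1] at hm
    convert hm using 1
    refine congr_el _ _ _ _ ?_ (by rw [inv_inv])
    rw [Matrix.mulVec_mulVec, ← Matrix.SpecialLinearGroup.coe_mul, inv_mul_cancel, Matrix.SpecialLinearGroup.coe_one, Matrix.one_mulVec]
  have hPs : ∀ φ ∈ P, ∀ r : F, r • φ ∈ P := by
    intro φ hφ r v hv
    by_cases hr : r = 0
    · subst hr
      have : el v ((0 : F) • φ) hv 1 = 1 := Subtype.ext (by simp [tv_zero_right])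
      rw [this]; exact one_mem _
    have hv' : φ ⬝ᵥ (r • v) = 0 := by rw [smul_dotProduct] at hv; rw [dotProduct_smul]; exact hv
    convert hφ _ hv' using 1
    exact Subtype.ext (by rw [coe_el, coe_el, one_smul, one_smul, tv_smul])
  have hPa : ∀ φ ∈ P, ∀ ψ ∈ P, φ + ψ ∈ P := by
    intro φ hφ ψ hψ
    by_cases hex : ∃ v, ψ ⬝ᵥ v = 0 ∧ φ ⬝ᵥ v ≠ 0
    · obtain ⟨v, h1, h2⟩ := hex
      have h1' : ψ ⬝ᵥ ((φ ⬝ᵥ v)⁻¹ • v) = 0 := by rw [dotProduct_smul, h1, smul_zero]
      have := hPc φ hφ _ (hψ _ h1')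
      rw [coe_el, one_smul, vecMul_tv, dotProduct_smul, smul_eq_mul, inv_mul_cancel₀ h2, one_smul] at this
      exact this
    · push Not at hex
      by_cases hψ0 : ψ = 0
      · rw [hψ0, add_zero]; exact hφ
      obtain ⟨i, hi⟩ := Function.ne_iff.1 hψ0
      have : φ = (φ i / ψ i) • ψ := by
        funext j
        have hz := hex (Pi.single j 1 - (ψ j / ψ i) • Pi.single i 1) (by
          simp [dotProduct_sub, dotProduct_smul]
          field_simp [show ψ i ≠ 0 from hi]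
          ring)
        simp [dotProduct_sub, dotProduct_smul] at hz
        simp only [Pi.smul_apply, smul_eq_mul]
        linear_combination hz
      rw [this, show (φ i / ψ i) • ψ + ψ = (φ i / ψ i + 1) • ψ by rw [add_smul, one_smul]]
      exact hPs ψ hψ _
  have hsub : ∀ φ ∈ P, ∀ ψ ∈ P, φ - ψ ∈ P := by
    intro φ hφ ψ hψ
    have := hPa φ hφ _ (hPs ψ hψ (-1))
    simpa [sub_eq_add_neg] using this
  have ha : (![c, b, 0] : Fin 3 → F) ∈ P := by
    have := hsub _ (hPc _ hPL _ hwH) _ hPL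
    convert this using 1
    ext i
    fin_cases i <;> simp [e2, coe_lo, Matrix.vecMul, dotProduct, Fin.sum_univ_three]
  have hb' : (![b * b - c, -b, 0] : Fin 3 → F) ∈ P := by
    have := hsub _ (hPc _ hPL _ (H.inv_mem hwH)) _ hPL
    convert this using 1
    ext i
    rw [lo_inv]
    fin_cases i <;> simp [e2, coe_loi, Matrix.vecMul, dotProduct, Fin.sum_univ_three]
  have h0 : (![1, 0, 0] : Fin 3 → F) ∈ P := by
    convert hPs _ (hPa _ ha _ hb') (b * b)⁻¹ using 1
    ext i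
    fin_cases i <;> simp [hb] <;> field_simp
  have h1 : (![0, 1, 0] : Fin 3 → F) ∈ P := by
    convert hPs _ (hsub _ ha _ (hPs _ h0 c)) b⁻¹ using 1
    ext i
    fin_cases i <;> simp [hb]
  have hPall : ∀ φ, φ ∈ P := by
    intro φ
    convert hPa _ (hPa _ (hPs _ h0 (φ 0)) _ (hPs _ h1 (φ 1))) _ (hPs _ hPL (φ 2)) using 1
    ext i
    fin_cases i <;> simp [e2]
  refine eq_top_iff.2 fun x _ => ?_
  have hgl := ker_det_le_of_tvGL_mem (H.map Matrix.SpecialLinearGroup.toGL) fun v φ h0 _ _ =>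
    ⟨el v φ h0 1, hPall φ v h0, Units.ext (show tv ((1 : F) • v) φ = tv v φ by rw [one_smul])⟩
  obtain ⟨x', hx', e'⟩ := Subgroup.mem_map.1 (hgl (x := Matrix.SpecialLinearGroup.toGL x)
    (by rw [MonoidHom.mem_ker]; exact Units.ext x.2))
  have : x' = x := Subtype.ext (congrArg Units.val e')
  rwa [← this]


/-- the statement from suitable parameters -/
theorem of_full (b c f : F) (hb : b ≠ 0)
    (hfull : ∀ H : Subgroup (Matrix.SpecialLinearGroup (Fin 3) F), up 1 1 f ∈ H → lo b c ∈ H →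
      ∀ a a' : F, ((a, a') : F × F) ∈ sd H) :
    ∃ u g : Matrix.SpecialLinearGroup (Fin 3) F, IsNilpotent ((u : Matrix (Fin 3) (Fin 3) F) - 1) ∧
      ((u : Matrix (Fin 3) (Fin 3) F) - 1) ^ (3 - 1) ≠ 0 ∧
      Subgroup.closure ({u, g * u * g⁻¹} : Set (Matrix.SpecialLinearGroup (Fin 3) F)) = ⊤ := by
  obtain ⟨g, hgc⟩ : ∃ g : Matrix.SpecialLinearGroup (Fin 3) F,
      (g : Matrix (Fin 3) (Fin 3) F) = !![0, 0, -b⁻¹; 0, -1, 0; -b, f * b - c * b⁻¹, 0] :=
    ⟨⟨_, by simp [Matrix.det_fin_three, hb]⟩, rfl⟩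
  have hg : g * up 1 1 f * g⁻¹ = lo b c := by
    rw [mul_inv_eq_iff_eq_mul]
    apply Subtype.ext
    ext i j
    fin_cases i <;> fin_cases j <;>
      simp [hgc, coe_up, coe_lo, Matrix.mul_apply, Fin.sum_univ_three, hb] <;> field_simp <;> ring
  refine ⟨up 1 1 f, g, ⟨3, ?_⟩, ?_, ?_⟩
  · ext i j
    fin_cases i <;> fin_cases j <;> simp [coe_up, pow_succ, Matrix.mul_apply, Fin.sum_univ_three, Matrix.one_apply]
  · intro h
    have := congrFun (congrFun h 0) 2
    simp [coe_up, pow_succ, Matrix.mul_apply, Fin.sum_univ_three, Matrix.one_apply] at this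
  · rw [hg]
    have hu : up 1 1 f ∈ Subgroup.closure ({up 1 1 f, lo b c} : Set (Matrix.SpecialLinearGroup (Fin 3) F)) :=
      Subgroup.subset_closure (Set.mem_insert _ _)
    have hw : lo b c ∈ Subgroup.closure ({up 1 1 f, lo b c} : Set (Matrix.SpecialLinearGroup (Fin 3) F)) :=
      Subgroup.subset_closure (Set.mem_insert_of_mem _ rfl)
    exact eq_top b c hb _ hw (hfull _ hu hw)

section Finite
variable [Fintype F]

/-- a cube of a generator generates the field, and is conjugate to its inverse in five small cases only -/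
theorem mult_top (x : F) (hx : x ≠ 0) (hgen : orderOf x = Fintype.card F - 1)
    (hq : Fintype.card F ∉ ({2, 3, 4, 7, 16} : Finset ℕ))
    (R : Subring (F × F)) (hz : (x ^ 3, (x ^ 3)⁻¹) ∈ R) : ∀ v, v ∈ R := by
  classical
  have hq2 : 1 < Fintype.card F := Fintype.one_lt_card
  have hdvd : ∀ m, (x ^ 3) ^ m = 1 → Fintype.card F - 1 ∣ 3 * m := fun m hm => by
    rw [← hgen]; exact orderOf_dvd_of_pow_eq_one (by rw [pow_mul, hm])
  have hproj : ∀ S : Subring F, x ^ 3 ∈ S → ∀ a, a ∈ S := by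
    intro S hzS
    let K : Subfield F :=
      { S with
        inv_mem' := fun a ha => by
          by_cases h0 : a = 0
          · subst h0; simpa using S.zero_mem
          · have h1 : a ^ (Fintype.card F - 2) * a = 1 := by
              rw [← pow_succ, show Fintype.card F - 2 + 1 = Fintype.card F - 1 by omega,
                FiniteField.pow_card_sub_one_eq_one a h0]
            rw [← eq_inv_of_mul_eq_one_left h1] at *
            exact S.pow_mem ha _ }
    have hKz : (x ^ 3) ^ (Fintype.card K - 1) = 1 := by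
      have := FiniteField.pow_card_sub_one_eq_one (⟨x ^ 3, hzS⟩ : K)
        (fun h => pow_ne_zero 3 hx (congrArg Subtype.val h))
      exact congrArg Subtype.val this
    have hc := Module.card_eq_pow_finrank (K := K) (V := F)
    have hk : 1 < Fintype.card K := Fintype.one_lt_card
    by_cases hd : 2 ≤ Module.finrank K F
    · exfalso
      have h1 : Fintype.card K ^ 2 ≤ Fintype.card F := by rw [hc]; exact Nat.pow_le_pow_right (by omega) hd
      have h2 := Nat.le_of_dvd (by omega) (hdvd _ hKz)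
      simp only [Finset.mem_insert, Finset.mem_singleton] at hq
      have : Fintype.card F ≤ 4 := by
        have : Fintype.card K ≤ 2 := by nlinarith [Nat.sub_add_cancel hk.le, Nat.sub_add_cancel hq2.le]
        omega
      omega
    · intro a
      have hd1 : Module.finrank K F = 1 := by
        have := Module.finrank_pos (R := K) (M := F); omega
      have hbij : Function.Bijective (fun k : K => (k : F)) :=
        (Fintype.bijective_iff_injective_and_card _).2 ⟨Subtype.val_injective, by rw [hc, hd1, pow_one]⟩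
      obtain ⟨k, rfl⟩ := hbij.2 a
      exact k.2
  have hone : ((1, 0) : F × F) ∈ R → ∀ v, v ∈ R := by
    intro h v
    obtain ⟨s, hs, e1⟩ := Subring.mem_map.1 (hproj (R.map (RingHom.fst F F)) ⟨_, hz, rfl⟩ v.1)
    have hz2 : x ^ 3 ∈ R.map (RingHom.snd F F) := by
      have h1 : (x ^ 3)⁻¹ ∈ R.map (RingHom.snd F F) := ⟨_, hz, rfl⟩
      have h2 : x ^ 3 = ((x ^ 3)⁻¹) ^ (Fintype.card F - 2) := by
        have h0 := FiniteField.pow_card_sub_one_eq_one ((x ^ 3)⁻¹) (inv_ne_zero (pow_ne_zero 3 hx))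
        rw [show Fintype.card F - 1 = Fintype.card F - 2 + 1 by omega, pow_succ] at h0
        rw [eq_inv_of_mul_eq_one_left h0, inv_inv]
      rw [h2]; exact Subring.pow_mem _ h1 _
    obtain ⟨t, ht, e2⟩ := Subring.mem_map.1 (hproj (R.map (RingHom.snd F F)) hz2 v.2)
    have := R.add_mem (R.mul_mem h hs) (R.mul_mem (R.sub_mem R.one_mem h) ht)
    convert this using 1
    ext
    · simp [← e1]
    · simp [← e2]
  apply hone
  by_contra h10
  -- otherwise `R` is the graph of a field automorphism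
  have hker : ∀ s ∈ R, s.1 = 0 → s.2 = 0 := by
    intro s hs h1
    by_contra h2
    have hz2 : x ^ 3 ∈ R.map (RingHom.snd F F) := by
      have h1 : (x ^ 3)⁻¹ ∈ R.map (RingHom.snd F F) := ⟨_, hz, rfl⟩
      have h2 : x ^ 3 = ((x ^ 3)⁻¹) ^ (Fintype.card F - 2) := by
        have h0 := FiniteField.pow_card_sub_one_eq_one ((x ^ 3)⁻¹) (inv_ne_zero (pow_ne_zero 3 hx))
        rw [show Fintype.card F - 1 = Fintype.card F - 2 + 1 by omega, pow_succ] at h0
        rw [eq_inv_of_mul_eq_one_left h0, inv_inv]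
      rw [h2]; exact Subring.pow_mem _ h1 _
    obtain ⟨t, ht, e2⟩ := Subring.mem_map.1 (hproj (R.map (RingHom.snd F F)) hz2 s.2⁻¹)
    apply h10
    convert R.sub_mem R.one_mem (R.mul_mem hs ht) using 1
    have e2' : t.2 = s.2⁻¹ := e2
    ext
    · simp [h1]
    · simp [e2', h2]
  have hex : ∀ a : F, ∃ a', (a, a') ∈ R := fun a => by
    obtain ⟨s, hs, e1⟩ := Subring.mem_map.1 (hproj (R.map (RingHom.fst F F)) ⟨_, hz, rfl⟩ a)
    exact ⟨s.2, by convert hs using 1; exact Prod.ext e1.symm rfl⟩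
  choose s hs using hex
  have huniq : ∀ a a', (a, a') ∈ R → s a = a' := fun a a' h => by
    have := hker _ (R.sub_mem (hs a) h) (by simp)
    simpa [sub_eq_zero] using this
  let σ : F →+* F :=
    { toFun := s
      map_one' := huniq _ _ R.one_mem
      map_mul' := fun a a' => huniq _ _ (R.mul_mem (hs a) (hs a'))
      map_zero' := huniq _ _ R.zero_mem
      map_add' := fun a a' => huniq _ _ (R.add_mem (hs a) (hs a')) }
  obtain ⟨p, hp, n, hpp, hcard⟩ := FiniteField.card' F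
  haveI := Fact.mk hpp
  letI := ZMod.algebra F p
  let σ' : F →ₐ[ZMod p] F :=
    { σ with commutes' := fun r => RingHom.congr_fun (RingHom.ext_zmod (σ.comp (algebraMap (ZMod p) F)) (algebraMap (ZMod p) F)) r }
  obtain ⟨i, hi⟩ := (FiniteField.bijective_frobeniusAlgHom_pow (ZMod p) F).2 σ'
  have hσ : (x ^ 3) ^ (p ^ (i : ℕ)) = (x ^ 3)⁻¹ := by
    have h1 := DFunLike.congr_fun hi (x ^ 3)
    rw [AlgHom.coe_pow, FiniteField.coe_frobeniusAlgHom, pow_iterate, ZMod.card] at h1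
    exact h1.trans (huniq _ _ hz)
  have hfin : Module.finrank (ZMod p) F = n := by
    have := Module.card_eq_pow_finrank (K := ZMod p) (V := F)
    rw [ZMod.card, hcard] at this
    exact (Nat.pow_right_injective hpp.two_le this).symm
  have hin : (i : ℕ) < (n : ℕ) := hfin ▸ i.2
  have hd : Fintype.card F - 1 ∣ 3 * (p ^ (i : ℕ) + 1) :=
    hdvd _ (by rw [pow_succ, hσ, inv_mul_cancel₀ (pow_ne_zero 3 hx)])
  obtain ⟨d, hd'⟩ := Nat.exists_eq_add_of_lt hin
  apply hq
  rw [hcard, hd', pow_succ, pow_add] at hd ⊢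
  generalize hP : p ^ (i : ℕ) = P at hd ⊢
  have hP1 : 1 ≤ P := hP ▸ Nat.one_le_pow _ _ hpp.pos
  rw [mul_assoc] at hd ⊢
  obtain ⟨Q, hQ, hQ2⟩ : ∃ Q, p ^ d * p = Q ∧ 2 ≤ Q :=
    ⟨_, rfl, le_trans hpp.two_le (Nat.le_mul_of_pos_left _ (pow_pos hpp.pos d))⟩
  rw [hQ] at hd ⊢
  have hle := Nat.le_of_dvd (by omega) hd
  simp only [Finset.mem_insert, Finset.mem_singleton]
  have hsmall : P * Q ≤ 16 := by
    rcases Nat.lt_or_ge Q 4 with hQ4 | hQ4
    · obtain rfl | rfl : Q = 2 ∨ Q = 3 := by omega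
      · obtain ⟨k, hk⟩ := hd
        have : P * 2 - 1 ∣ 9 := by
          have h1 : P * 2 - 1 ∣ 2 * (3 * (P + 1)) := ⟨2 * k, by rw [hk]; ring⟩
          have h2 : 2 * (3 * (P + 1)) = 3 * (P * 2 - 1) + 9 := by omega
          rw [h2] at h1
          exact (Nat.dvd_add_right (dvd_mul_left _ _)).1 h1
        have := Nat.le_of_dvd (by omega) this
        omega
      · have : P * 3 - 1 ∣ 4 := by
          have h2 : 3 * (P + 1) = (P * 3 - 1) + 4 := by omega
          rw [h2] at hd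
          exact Nat.dvd_add_self_left.1 hd
        have := Nat.le_of_dvd (by omega) this
        omega
    · have h1 : P * 4 ≤ P * Q := Nat.mul_le_mul_left P hQ4
      have hP4 : P ≤ 4 := by omega
      interval_cases P <;> omega
  have hpQ : p ∣ Q := hQ ▸ dvd_mul_left _ _
  have hpP : P = 1 ∨ p ∣ P := by
    by_cases h0 : (i : ℕ) = 0
    · exact Or.inl (by rw [← hP, h0, pow_zero])
    · exact Or.inr (hP ▸ dvd_pow_self p h0)
  have hP5 : P ≤ 8 := by
    have := Nat.mul_le_mul_left P hQ2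
    omega
  have hQ5 : Q ≤ 16 := by
    have := Nat.mul_le_mul_right Q hP1
    omega
  interval_cases P <;> interval_cases Q <;> (first | omega | (revert hd; decide) | skip)
  all_goals (
    rcases hpP with h | h
    · omega
    · have := (Nat.dvd_gcd h hpQ)
      norm_num at this
      have := hpp.two_le
      omega)

end Finite

theorem map_up {K : Type*} [Field K] (φ : K →+* F) (a a' e : K) :
    Matrix.SpecialLinearGroup.map φ (up a a' e) = up (φ a) (φ a') (φ e) := by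
  apply Subtype.ext
  ext i j
  fin_cases i <;> fin_cases j <;> simp [coe_up, RingHom.mapMatrix_apply]

theorem map_lo {K : Type*} [Field K] (φ : K →+* F) (b c : K) :
    Matrix.SpecialLinearGroup.map φ (lo b c) = lo (φ b) (φ c) := by
  apply Subtype.ext
  ext i j
  fin_cases i <;> fin_cases j <;> simp [coe_lo, RingHom.mapMatrix_apply]

theorem map_loi {K : Type*} [Field K] (φ : K →+* F) (b c : K) :
    Matrix.SpecialLinearGroup.map φ (loi b c) = loi (φ b) (φ c) := by
  apply Subtype.ext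
  ext i j
  fin_cases i <;> fin_cases j <;> simp [coe_loi, RingHom.mapMatrix_apply]

variable {H : Subgroup (Matrix.SpecialLinearGroup (Fin 3) F)}

theorem one_one_mem {f : F} (hu : up 1 1 f ∈ H) : ((1, 1) : F × F) ∈ sd H := ⟨f, hu⟩

theorem loi_mem {b c : F} (hw : lo b c ∈ H) : loi b c ∈ H := lo_inv b c ▸ H.inv_mem hw

theorem ui_mem {f : F} (hu : up 1 1 f ∈ H) : up (-1) (-1) (1 - f) ∈ H := by
  have := H.inv_mem hu
  rwa [up_inv, mul_one] at this

theorem prime_full {p : ℕ} (φ : ZMod p ≃+* F) (h1 : ((1, 1) : F × F) ∈ sd H) (h10 : ((1, 0) : F × F) ∈ sd H)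
    (a a' : F) : ((a, a') : F × F) ∈ sd H := by
  have h01 : ((0, 1) : F × F) ∈ sd H := by simpa using sub_mem h1 h10
  obtain ⟨m, rfl⟩ := φ.surjective a
  obtain ⟨m', rfl⟩ := φ.surjective a'
  obtain ⟨k, rfl⟩ := ZMod.intCast_surjective m
  obtain ⟨k', rfl⟩ := ZMod.intCast_surjective m'
  simpa using add_mem (zsmul_mem h10 k) (zsmul_mem h01 k')

theorem mult_full (h1 : ((1, 1) : F × F) ∈ sd H) (h : ∀ a a' : F, ((a, a') : F × F) ∈ mult H) (a a' : F) :
    ((a, a') : F × F) ∈ sd H := by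
  simpa using h a a' _ h1

theorem gen_mult (x : F) (hgen : ∀ a : F, a ≠ 0 → ∃ k : ℕ, a = x ^ (k + 1))
    (hl : ((x, 0) : F × F) ∈ mult H) (hr : ((0, x) : F × F) ∈ mult H) (a a' : F) :
    ((a, a') : F × F) ∈ mult H := by
  have hl' : ((a, 0) : F × F) ∈ mult H := by
    by_cases ha : a = 0
    · subst ha; exact zero_mem _
    · obtain ⟨k, rfl⟩ := hgen a ha
      have := Subring.pow_mem _ hl (k + 1)
      simpa [Prod.pow_def] using this
  have hr' : ((0, a') : F × F) ∈ mult H := by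
    by_cases ha : a' = 0
    · subst ha; exact zero_mem _
    · obtain ⟨k, rfl⟩ := hgen a' ha
      have := Subring.pow_mem _ hr (k + 1)
      simpa [Prod.pow_def] using this
  simpa using add_mem hl' hr'

variable [Fintype F]

theorem exists_gen : ∃ x : F, x ≠ 0 ∧ orderOf x = Fintype.card F - 1 ∧
    ∀ a : F, a ≠ 0 → ∃ k : ℕ, a = x ^ (k + 1) := by
  classical
  obtain ⟨g, hg⟩ := IsCyclic.exists_generator (α := Fˣ)
  refine ⟨g, g.ne_zero, ?_, fun a ha => ?_⟩
  · rw [orderOf_units, orderOf_eq_card_of_forall_mem_zpowers hg, Nat.card_eq_fintype_card, Fintype.card_units]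
  · obtain ⟨k, hk⟩ := (mem_powers_iff_mem_zpowers (x := g) (y := Units.mk0 a ha)).2 (hg _)
    refine ⟨k + (orderOf g - 1), ?_⟩
    have h0 := orderOf_pos g
    rw [show k + (orderOf g - 1) + 1 = k + orderOf g by omega, ← Units.val_pow_eq_pow_val, pow_add,
      pow_orderOf_eq_one, mul_one]
    exact (congrArg Units.val hk).symm

theorem full_generic (hq : Fintype.card F ∉ ({2, 3, 4, 7, 16} : Finset ℕ)) :
    ∃ b c f : F, b ≠ 0 ∧ ∀ H : Subgroup (Matrix.SpecialLinearGroup (Fin 3) F), up 1 1 f ∈ H → lo b c ∈ H →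
      ∀ a a' : F, ((a, a') : F × F) ∈ sd H := by
  obtain ⟨x, hx, ho, -⟩ := exists_gen (F := F)
  have hbig : 4 < Fintype.card F := by
    have := Fintype.one_lt_card (α := F)
    simp only [Finset.mem_insert, Finset.mem_singleton] at hq
    omega
  have hxne : x + 1 ≠ 0 := by
    intro h
    have h2 : x ^ 2 = 1 := by linear_combination (x - 1) * h
    have := Nat.le_of_dvd (by norm_num) (orderOf_dvd_of_pow_eq_one h2)
    omega
  obtain ⟨t, ht⟩ : ∃ t : F, t = -(1 + x) := ⟨_, rfl⟩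
  have ht0 : t ≠ 0 := by
    rw [ht, neg_ne_zero, add_comm]; exact hxne
  obtain ⟨b, hb⟩ : ∃ b : F, b = -t ^ 2 / x := ⟨_, rfl⟩
  have hb0 : b ≠ 0 := by rw [hb]; exact div_ne_zero (neg_ne_zero.2 (pow_ne_zero 2 ht0)) hx
  obtain ⟨c, hc⟩ : ∃ c : F, c = -t ^ 3 / x := ⟨_, rfl⟩
  obtain ⟨f, hf⟩ : ∃ f : F, f = -(2 + b + t) / (t * b) := ⟨_, rfl⟩
  have hx2 : -1 - x ≠ 0 := by rw [← neg_add', neg_ne_zero, add_comm]; exact hxne
  refine ⟨b, c, f, hb0, fun H hu hw => mult_full (one_one_mem hu) fun a a' => ?_⟩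
  refine mult_top x hx ho hq _ ?_ (a, a')
  refine mem_mult H _ (H.mul_mem (H.mul_mem hw hu) hw) x (x ^ 2)⁻¹ x (1 + b * f) (b * f + 1) f _ _ ?_ ?_ ?_
  · ext i j
    fin_cases i <;> fin_cases j <;>
      simp [coe_up, coe_lo, Matrix.mul_apply, Fin.sum_univ_three, hc, hf, hb, ht] <;> field_simp <;> ring_nf <;> field_simp <;> ring
  · field_simp
  · field_simp

theorem full_two (hq : Fintype.card F = 2) :
    ∃ b c f : F, b ≠ 0 ∧ ∀ H : Subgroup (Matrix.SpecialLinearGroup (Fin 3) F), up 1 1 f ∈ H → lo b c ∈ H →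
      ∀ a a' : F, ((a, a') : F × F) ∈ sd H := by
  let φ := ZMod.ringEquivOfPrime F (by norm_num) hq
  have key : lo (1 : ZMod 2) 1 * up 1 1 1 * up 1 1 1 * lo 1 1 * up 1 1 1 * lo 1 1 = up 1 0 0 := by decide
  refine ⟨1, 1, 1, one_ne_zero, fun H hu hw => prime_full φ (one_one_mem hu) ⟨0, ?_⟩⟩
  have h := congrArg (Matrix.SpecialLinearGroup.map (φ : ZMod 2 →+* F)) key
  simp only [map_mul, map_up, map_lo, map_one, map_zero] at h
  simp only [← h]
  exact H.mul_mem (H.mul_mem (H.mul_mem (H.mul_mem (H.mul_mem hw hu) hu) hw) hu) hw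

theorem full_three (hq : Fintype.card F = 3) :
    ∃ b c f : F, b ≠ 0 ∧ ∀ H : Subgroup (Matrix.SpecialLinearGroup (Fin 3) F), up 1 1 f ∈ H → lo b c ∈ H →
      ∀ a a' : F, ((a, a') : F × F) ∈ sd H := by
  let φ := ZMod.ringEquivOfPrime F (by norm_num) hq
  have key : lo (1 : ZMod 3) 0 * up 1 1 1 * loi 1 0 * up (-1) (-1) (1 - 1) * loi 1 0 * up 1 1 1 * loi 1 0 =
      up (-1) 0 (-1) := by decide
  refine ⟨1, 0, 1, one_ne_zero, fun H hu hw => prime_full φ (one_one_mem hu) ?_⟩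
  have h := congrArg (Matrix.SpecialLinearGroup.map (φ : ZMod 3 →+* F)) key
  simp only [map_mul, map_up, map_lo, map_loi, map_one, map_zero, map_neg, map_sub] at h
  have hm : ((-1, 0) : F × F) ∈ sd H := by
    refine ⟨-1, ?_⟩
    simp only [← h]
    exact H.mul_mem (H.mul_mem (H.mul_mem (H.mul_mem (H.mul_mem (H.mul_mem hw hu) (loi_mem hw)) (ui_mem hu))
      (loi_mem hw)) hu) (loi_mem hw)
  simpa using neg_mem hm

theorem fact_seven : Fact (Nat.Prime 7) := ⟨by norm_num⟩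

attribute [local instance] fact_seven

theorem full_seven (hq : Fintype.card F = 7) :
    ∃ b c f : F, b ≠ 0 ∧ ∀ H : Subgroup (Matrix.SpecialLinearGroup (Fin 3) F), up 1 1 f ∈ H → lo b c ∈ H →
      ∀ a a' : F, ((a, a') : F × F) ∈ sd H := by
  let φ := ZMod.ringEquivOfPrime F (by norm_num) hq
  have key : ((lo (5 : ZMod 7) 3 * up 1 1 6 * lo 5 3 * lo 5 3 * up 1 1 6 * loi 5 3 : Matrix.SpecialLinearGroup (Fin 3) (ZMod 7)) : Matrix (Fin 3) (Fin 3) (ZMod 7)) =
      !![-5, 5, 3; 0, 5, 0; 0, 0, 5] := by decide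
  refine ⟨φ 5, φ 3, φ 6, by rw [map_ne_zero]; decide, fun H hu hw => prime_full φ (one_one_mem hu) ?_⟩
  let Φ := Matrix.SpecialLinearGroup.map (n := Fin 3) (φ : ZMod 7 →+* F)
  have hT : Φ (lo 5 3 * up 1 1 6 * lo 5 3 * lo 5 3 * up 1 1 6 * loi 5 3) ∈ H := by
    simp only [Φ, map_mul, map_up, map_lo, map_loi, map_one, RingEquiv.coe_toRingHom]
    exact H.mul_mem (H.mul_mem (H.mul_mem (H.mul_mem (H.mul_mem hw hu) hw) hw) hu) (loi_mem hw)
  have hm : ((-1, 1) : F × F) ∈ mult H := by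
    refine mem_mult H _ hT (φ (-5)) (φ 5) (φ 5) (φ 5) (φ 0) (φ 3) _ _ ?_ ?_ ?_
    · ext i j
      have := congrFun (congrFun key i) j
      rw [Matrix.SpecialLinearGroup.map_apply_coe, RingHom.mapMatrix_apply, Matrix.map_apply, this]
      fin_cases i <;> fin_cases j <;> simp
    · simp
    · simp
  have h2 : ((2, 0) : F × F) ∈ sd H := by
    convert sub_mem (one_one_mem hu) (hm _ (one_one_mem hu)) using 1
    ext <;> norm_num
  convert nsmul_mem h2 4 using 1
  have h8 : (8 : F) = 1 := by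
    rw [← map_ofNat φ 8, ← map_one φ]; congr 1
  ext <;> simp
  linear_combination -h8

theorem full_four (hq : Fintype.card F = 4) :
    ∃ b c f : F, b ≠ 0 ∧ ∀ H : Subgroup (Matrix.SpecialLinearGroup (Fin 3) F), up 1 1 f ∈ H → lo b c ∈ H →
      ∀ a a' : F, ((a, a') : F × F) ∈ sd H := by
  obtain ⟨w, hw0, ho, hgen⟩ := exists_gen (F := F)
  rw [hq] at ho
  haveI : CharP F 2 := by
    haveI := Fact.mk (show Nat.Prime 2 by norm_num)
    exact charP_of_card_eq_prime_pow (show Fintype.card F = 2 ^ 2 by rw [hq]; norm_num)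
  have h2 : (2 : F) = 0 := CharTwo.two_eq_zero
  have h3 : w ^ 3 = 1 := by have := pow_orderOf_eq_one w; rwa [ho] at this
  have hne : w - 1 ≠ 0 := by
    intro h
    have : orderOf w = 1 := by rw [orderOf_eq_one_iff]; exact sub_eq_zero.1 h
    omega
  have hr : w ^ 2 + w + 1 = 0 := by
    have : (w - 1) * (w ^ 2 + w + 1) = 0 := by linear_combination h3
    exact (mul_eq_zero.1 this).resolve_left hne
  refine ⟨w, w, w, hw0, fun H hu hw => ?_⟩
  have hwi := loi_mem hw
  have hui := ui_mem hu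
  have hm : ((w ^ 2, w ^ 2) : F × F) ∈ mult H := by
    refine mem_mult H _ (H.mul_mem (H.mul_mem (H.mul_mem (H.mul_mem (H.mul_mem (H.mul_mem (H.mul_mem (H.mul_mem
      hw hu) hw) hu) hwi) hui) hwi) hui) hw) w (w + 1) 1 (w + 1) 1 w _ _ ?_ ?_ ?_
    · ext i j
      fin_cases i <;> fin_cases j <;>
        simp [coe_up, coe_lo, coe_loi, Matrix.mul_apply, Fin.sum_univ_three] <;> grind
    · grind
    · grind
  have hs : ((0, w + 1) : F × F) ∈ sd H := by
    refine ⟨w + 1, ?_⟩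
    convert H.mul_mem (H.mul_mem (H.mul_mem (H.mul_mem (H.mul_mem hw hu) hw) hw) hui) hwi using 1
    apply Subtype.ext
    ext i j
    fin_cases i <;> fin_cases j <;>
      simp [coe_up, coe_lo, coe_loi, Matrix.mul_apply, Fin.sum_univ_three] <;> grind
  have hpow : ∀ a : F, a ≠ 0 → ((a, a) : F × F) ∈ mult H := by
    intro a ha
    obtain ⟨k, rfl⟩ := hgen a ha
    have := Subring.pow_mem _ hm (2 * (k + 1))
    have e : (w ^ 2) ^ (2 * (k + 1)) = w ^ (k + 1) := by
      rw [← pow_mul, show 2 * (2 * (k + 1)) = 3 * (k + 1) + (k + 1) by ring, pow_add, pow_mul, h3, one_pow, one_mul]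
    simpa [Prod.pow_def, e] using this
  have hall : ∀ a : F, ((0, a) : F × F) ∈ sd H := by
    intro a
    by_cases ha : a = 0
    · subst ha; exact zero_mem _
    have hw1 : w + 1 ≠ 0 := by
      intro h; apply hw0
      have : w ^ 2 = 0 := by linear_combination hr - h
      simpa using this
    have := hpow (a * (w + 1)⁻¹) (mul_ne_zero ha (inv_ne_zero hw1)) _ hs
    simpa [hw1] using this
  intro a a'
  by_cases ha : a = 0
  · subst ha; exact hall a'
  · have h := add_mem (hpow a ha _ (one_one_mem hu)) (hall (a' - a))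
    simpa using h

theorem full_sixteen (hq : Fintype.card F = 16) :
    ∃ b c f : F, b ≠ 0 ∧ ∀ H : Subgroup (Matrix.SpecialLinearGroup (Fin 3) F), up 1 1 f ∈ H → lo b c ∈ H →
      ∀ a a' : F, ((a, a') : F × F) ∈ sd H := by
  obtain ⟨x, hx0, ho, hgenx⟩ := exists_gen (F := F)
  rw [hq] at ho
  haveI : CharP F 2 := by
    haveI := Fact.mk (show Nat.Prime 2 by norm_num)
    exact charP_of_card_eq_prime_pow (show Fintype.card F = 2 ^ 4 by rw [hq]; norm_num)
  have h2 : (2 : F) = 0 := CharTwo.two_eq_zero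
  have h15 : x ^ 15 = 1 := by have := pow_orderOf_eq_one x; rwa [ho] at this
  have hn : ∀ k, k = 3 ∨ k = 5 → x ^ k - 1 ≠ 0 := by
    intro k hk h
    have := Nat.le_of_dvd (by omega) (orderOf_dvd_of_pow_eq_one (sub_eq_zero.1 h))
    omega
  have hprod : (x ^ 3 - 1) * (x ^ 4 + x ^ 3 + x ^ 2 + x + 1) * ((x ^ 4 + x + 1) * (x ^ 4 + x ^ 3 + 1)) = 0 := by
    grind
  have h5 : x ^ 4 + x ^ 3 + x ^ 2 + x + 1 ≠ 0 := fun h => hn 5 (Or.inr rfl) (by linear_combination (x - 1) * h)
  have hroot : x ^ 4 + x + 1 = 0 ∨ x ^ 4 + x ^ 3 + 1 = 0 :=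
    mul_eq_zero.1 ((mul_eq_zero.1 hprod).resolve_left (mul_ne_zero (hn 3 (Or.inl rfl)) h5))
  obtain ⟨w, hr, hgen⟩ : ∃ w : F, w ^ 4 + w + 1 = 0 ∧ ∀ a : F, a ≠ 0 → ∃ k : ℕ, a = w ^ (k + 1) := by
    rcases hroot with h | h
    · exact ⟨x, h, hgenx⟩
    · refine ⟨x⁻¹, by field_simp; linear_combination h, fun a ha => ?_⟩
      obtain ⟨k, hk⟩ := hgenx a⁻¹ (inv_ne_zero ha)
      exact ⟨k, by rw [inv_pow, ← hk, inv_inv]⟩
  refine ⟨w ^ 3 + w ^ 2 + w + 1, w ^ 3, 1, ?_, fun H hu hw => ?_⟩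
  · intro h; grind
  have hwi := loi_mem hw
  have hm : ((w ^ 3 + 1, w ^ 2) : F × F) ∈ mult H := by
    refine mem_mult H _ (H.mul_mem (H.mul_mem (H.mul_mem (H.mul_mem hw hu) hwi) hu) hwi)
      (w ^ 2 + w + 1) (w ^ 3 + w ^ 2 + w) (w ^ 3 + w) 0 0 (w + 1) _ _ ?_ ?_ ?_
    · ext i j
      fin_cases i <;> fin_cases j <;>
        simp [coe_up, coe_lo, coe_loi, Matrix.mul_apply, Fin.sum_univ_three] <;> grind
    · grind
    · grind
  have hp : ∀ k, (((w ^ 3 + 1) ^ k, (w ^ 2) ^ k) : F × F) ∈ mult H := fun k => by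
    simpa [Prod.pow_def] using Subring.pow_mem _ hm k
  refine mult_full (one_one_mem hu) (gen_mult w hgen ?_ ?_)
  · convert add_mem (add_mem (add_mem (hp 0) (hp 1)) (hp 3)) (hp 7) using 1
    ext <;> simp <;> grind
  · convert add_mem (add_mem (add_mem (hp 0) (hp 4)) (hp 6)) (hp 7) using 1
    ext <;> simp <;> grind

/-- Let F be a finite field. Then SL_3(F) is generated by two conjugate regular unipotent elements: there are u with u − 1 nilpotent and (u − 1)² ≠ 0, and g, such that u and g u g⁻¹ generate SL_3(F). -/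
theorem result {F : Type*} [Field F] [Fintype F] :
    ∃ u g : Matrix.SpecialLinearGroup (Fin 3) F, IsNilpotent ((u : Matrix (Fin 3) (Fin 3) F) - 1) ∧ ((u : Matrix (Fin 3) (Fin 3) F) - 1) ^ (3 - 1) ≠ 0 ∧
      Subgroup.closure ({u, g * u * g⁻¹} : Set (Matrix.SpecialLinearGroup (Fin 3) F)) = ⊤ := by
  have key : ∃ b c f : F, b ≠ 0 ∧ ∀ H : Subgroup (Matrix.SpecialLinearGroup (Fin 3) F), up 1 1 f ∈ H →
      lo b c ∈ H → ∀ a a' : F, ((a, a') : F × F) ∈ sd H := by
    by_cases hq : Fintype.card F ∈ ({2, 3, 4, 7, 16} : Finset ℕ)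
    · simp only [Finset.mem_insert, Finset.mem_singleton] at hq
      rcases hq with h | h | h | h | h
      exacts [full_two h, full_three h, full_four h, full_seven h, full_sixteen h]
    · exact full_generic hq
  obtain ⟨b, c, f, hb, h⟩ := key
  exact of_full b c f hb h

end Cfsg.Agent.S2278
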