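import Cfsg.Statements.S2280
import Cfsg.Agent.Lib.RootSub.Transv

set_option autoImplicit false
open Cfsg

namespace Cfsg.Agent.S2280

open Matrix Cfsg.Lib.RootSub Cfsg.Lib.Classical
open scoped commutatorElement

variable {F : Type*} [Field F]

/-- superdiagonal ones -/
def nil (n : ℕ) : Matrix (Fin n) (Fin n) F := Matrix.of fun i j => if j.val = i.val + 1 then 1 else 0

/-- antidiagonal with alternating signs -/
def anti (n : ℕ) : Matrix (Fin n) (Fin n) F := Matrix.of fun i j => if i.val + j.val + 1 = n then (-1) ^ i.val else 0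

theorem nil_pow (n k : ℕ) (i j : Fin n) : (nil (F := F) n ^ k) i j = if j.val = i.val + k then 1 else 0 := by
  induction k generalizing j with
  | zero => simp [Matrix.one_apply, Fin.ext_iff, eq_comm]
  | succ k ih =>
    rw [pow_succ, Matrix.mul_apply]
    simp only [ih]
    simp only [nil, Matrix.of_apply, ite_mul, one_mul, zero_mul]
    by_cases hk : i.val + k < n
    · rw [Finset.sum_eq_single (⟨i.val + k, hk⟩ : Fin n)]
      · simp [add_assoc]
      · intro b _ hb
        rw [if_neg fun e => hb (Fin.ext e)]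
      · simp
    · rw [Finset.sum_eq_zero, if_neg]
      · omega
      · intro b _
        rw [if_neg]; omega

theorem anti_det : ∀ n : ℕ, (anti (F := F) n).det = 1
  | 0 => Matrix.det_isEmpty
  | n + 1 => by
    rw [Matrix.det_succ_column_zero, Finset.sum_eq_single (Fin.last n)]
    · have : ((anti (F := F) (n + 1)).submatrix (Fin.last n).succAbove Fin.succ) = anti n := by
        ext i j
        simp [anti, Fin.succAbove_last, add_assoc]
        refine if_congr (by omega) rfl rfl
      rw [this, anti_det n]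
      simp [anti, ← pow_add, ← two_mul, pow_mul]
    · intro b _ hb
      have : b.val ≠ n := fun e => hb (Fin.ext e)
      simp [anti, this]
    · simp

theorem anti_nil (n : ℕ) : anti (F := F) n * nil n = -((nil n).transpose * anti n) := by
  ext i j
  rw [Matrix.mul_apply, Matrix.neg_apply, Matrix.mul_apply]
  simp only [Matrix.transpose_apply, nil, anti, Matrix.of_apply]
  by_cases h : i.val + j.val = n
  · have hi : 0 < i.val := by have := j.isLt; omega
    have hj : 0 < j.val := by have := i.isLt; omega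
    have := i.isLt; have := j.isLt
    rw [Finset.sum_eq_single (⟨j.val - 1, by omega⟩ : Fin n), Finset.sum_eq_single (⟨i.val - 1, by omega⟩ : Fin n)]
    · obtain ⟨k, hk⟩ := Nat.exists_eq_succ_of_ne_zero hi.ne'
      rw [if_pos (by dsimp only; omega), if_pos (by dsimp only; omega), if_pos (by dsimp only; omega),
        if_pos (by dsimp only; omega)]
      simp only [hk, Nat.succ_sub_one, pow_succ]
      ring
    · intro b _ hb
      rw [if_neg (show ¬ i.val = b.val + 1 from fun e => hb (Fin.ext (by dsimp only; omega))), zero_mul]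
    · simp
    · intro b _ hb
      rw [if_neg (show ¬ j.val = b.val + 1 from fun e => hb (Fin.ext (by dsimp only; omega))), mul_zero]
    · simp
  · rw [Finset.sum_eq_zero, Finset.sum_eq_zero, neg_zero]
    · intro b _
      by_cases e : i.val = b.val + 1
      · rw [if_neg (show ¬ b.val + j.val + 1 = n by omega), mul_zero]
      · rw [if_neg e, zero_mul]
    · intro b _
      by_cases e : j.val = b.val + 1
      · rw [if_neg (show ¬ i.val + b.val + 1 = n by omega), zero_mul]
      · rw [if_neg e, mul_zero]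

/-- Let F be a finite field and n ≥ 3. Then SL_n(F) is generated by three conjugate regular unipotent elements: there are u with u − 1 nilpotent and (u − 1)^(n−1) ≠ 0, and g, h, such that u, g u g⁻¹ and h u h⁻¹ generate SL_n(F). -/
theorem result {F : Type*} [Field F] [Fintype F] (n : ℕ) (hn : 3 ≤ n) :
    ∃ u g h : Matrix.SpecialLinearGroup (Fin n) F, (IsNilpotent ((u : Matrix (Fin n) (Fin n) F) - 1) ∧ ((u : Matrix (Fin n) (Fin n) F) - 1) ^ (n - 1) ≠ 0) ∧
      Subgroup.closure ({u, g * u * g⁻¹, h * u * h⁻¹} : Set (Matrix.SpecialLinearGroup (Fin n) F)) = ⊤ := by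
  classical
  obtain ⟨m, rfl⟩ : ∃ m, n = m + 3 := ⟨n - 3, by omega⟩
  let e : Fin (m + 3) → (Fin (m + 3) → F) := fun i => Pi.single i 1
  let L : Fin (m + 3) := Fin.last (m + 2)
  set N := nil (F := F) (m + 3) with hN
  have hdet : (1 + N).det = 1 := by
    rw [Matrix.det_of_upperTriangular]
    · simp [hN, nil]
    · intro i j hij
      have h1 : i ≠ j := ne_of_gt hij
      have h2 : ¬ (j.val = i.val + 1) := by have : j.val < i.val := hij; omega
      simp [hN, nil, Matrix.one_apply_ne h1, h2]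
  let u : Matrix.SpecialLinearGroup (Fin (m + 3)) F := ⟨1 + N, hdet⟩
  let h : Matrix.SpecialLinearGroup (Fin (m + 3)) F := ⟨anti (m + 3), anti_det _⟩
  obtain ⟨lam, hlam⟩ := IsCyclic.exists_generator (α := Fˣ)
  have h1L : (1 : Fin (m + 3)) ≠ L := by simp [L, Fin.ext_iff]
  have h0L : (0 : Fin (m + 3)) ≠ L := by simp [L, Fin.ext_iff]
  let g : Matrix.SpecialLinearGroup (Fin (m + 3)) F :=
    ⟨Matrix.transvection 1 L (-(lam : F)), Matrix.det_transvection_of_ne _ _ h1L _⟩
  refine ⟨u, g, h, ⟨⟨m + 3, ?_⟩, ?_⟩, ?_⟩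
  · show ((1 + N) - 1) ^ (m + 3) = 0
    ext i j
    rw [add_sub_cancel_left, hN, nil_pow]
    simp; omega
  · show ((1 + N) - 1) ^ (m + 3 - 1) ≠ 0
    intro h'
    have := congrFun (congrFun h' 0) L
    rw [add_sub_cancel_left, hN, nil_pow, if_pos (by simp [L])] at this
    exact one_ne_zero this
  set H := Subgroup.closure ({u, g * u * g⁻¹, h * u * h⁻¹} : Set (Matrix.SpecialLinearGroup (Fin (m + 3)) F)) with hH
  have huH : u ∈ H := Subgroup.subset_closure (by simp)
  -- the lower regular unipotent element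
  set w := h * u * h⁻¹ with hwdef
  have hwH : w ∈ H := Subgroup.subset_closure (by simp [hwdef])
  have hw : (w : Matrix (Fin (m + 3)) (Fin (m + 3)) F) = 1 - N.transpose := by
    have key : (h : Matrix (Fin (m + 3)) (Fin (m + 3)) F) * (1 + N) = (1 - N.transpose) * (h : Matrix (Fin (m + 3)) (Fin (m + 3)) F) := by
      show anti (m + 3) * (1 + N) = (1 - N.transpose) * anti (m + 3)
      rw [mul_add, sub_mul, mul_one, one_mul, hN, anti_nil, sub_eq_add_neg]
    calc (w : Matrix (Fin (m + 3)) (Fin (m + 3)) F)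
        = (h : Matrix (Fin (m + 3)) (Fin (m + 3)) F) * (1 + N) * ((h⁻¹ : Matrix.SpecialLinearGroup (Fin (m + 3)) F) : Matrix (Fin (m + 3)) (Fin (m + 3)) F) := rfl
      _ = (1 - N.transpose) * ((h * h⁻¹ : Matrix.SpecialLinearGroup (Fin (m + 3)) F) : Matrix (Fin (m + 3)) (Fin (m + 3)) F) := by
          rw [key, mul_assoc]; rfl
      _ = _ := by rw [mul_inv_cancel]; simp
  have hL0 : e L ⬝ᵥ e 0 = 0 := by simp [e, h0L]
  have hN1 : N *ᵥ Pi.single (1 : Fin (m + 3)) (1 : F) = Pi.single 0 1 := by
    rw [Matrix.mulVec_single_one]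
    ext i
    simp only [Matrix.col_apply, hN, nil, Matrix.of_apply, Pi.single_apply, Fin.ext_iff, Fin.val_one, Fin.val_zero]
    grind
  have hN0 : N *ᵥ Pi.single (0 : Fin (m + 3)) (1 : F) = 0 := by
    rw [Matrix.mulVec_single_one]
    ext i
    simp [hN, nil]
  -- seed transvection
  have hseed : el (e 0) (e L) hL0 (lam : F) ∈ H := by
    have hu' : g * u * g⁻¹ ∈ H := Subgroup.subset_closure (by simp)
    have key : g * u = u * el (e 0) (e L) hL0 (lam : F) * g := by
      refine Subtype.ext (ext_mulVec fun x => ?_)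
      show (Matrix.transvection 1 L (-(lam : F)) * (1 + N)) *ᵥ x =
        ((1 + N) * tv ((lam : F) • e 0) (e L) * Matrix.transvection 1 L (-(lam : F))) *ᵥ x
      have hNL : (N *ᵥ x) L = 0 := by
        simp only [Matrix.mulVec, dotProduct, hN, nil, Matrix.of_apply]
        refine Finset.sum_eq_zero fun b _ => ?_
        rw [if_neg (by simp [L]; omega), zero_mul]
      simp only [← Matrix.mulVec_mulVec, transvection_mulVec, tv_mulVec, Matrix.add_mulVec, Matrix.one_mulVec,
        Matrix.mulVec_add, Matrix.mulVec_smul, hN0, hN1, e, Pi.add_apply, hNL, single_dotProduct, one_mul,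
        Pi.smul_apply, smul_eq_mul, Pi.single_apply, if_neg h1L.symm, mul_zero, add_zero, smul_zero, smul_smul]
      ext i
      simp only [Pi.add_apply, Pi.smul_apply, smul_eq_mul]
      ring
    have : g * u * g⁻¹ = u * el (e 0) (e L) hL0 (lam : F) := by rw [key, mul_inv_cancel_right]
    rw [this] at hu'
    exact (H.mul_mem_cancel_left huH).1 hu'
  -- basic actions
  have hwe : ∀ i : Fin (m + 3), ∀ (hi : i.val + 1 < m + 3), (w : Matrix (Fin (m + 3)) (Fin (m + 3)) F) *ᵥ e i = e i - e ⟨i.val + 1, hi⟩ := by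
    intro i hi
    rw [hw, Matrix.sub_mulVec, Matrix.one_mulVec]
    congr 1
    ext j
    rw [Matrix.mulVec_single_one]
    simp [e, hN, nil, Pi.single_apply, Fin.ext_iff, eq_comm]
  set one' : Fin (m + 3) → F := fun _ => 1 with hone
  have hφ1 : (e L) ᵥ* ((w⁻¹ : Matrix.SpecialLinearGroup (Fin (m + 3)) F) : Matrix (Fin (m + 3)) (Fin (m + 3)) F) = one' := by
    have h1 : one' ᵥ* (w : Matrix (Fin (m + 3)) (Fin (m + 3)) F) = e L := by
      rw [hw, Matrix.vecMul_sub, Matrix.vecMul_one]
      ext j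
      simp only [Pi.sub_apply, Matrix.vecMul, dotProduct, hone, one_mul, Matrix.transpose_apply, hN, nil,
        Matrix.of_apply, e, Pi.single_apply]
      by_cases hj : j = L
      · rw [if_pos hj, Finset.sum_eq_zero, sub_zero]
        intro b _; rw [if_neg (by subst hj; simp [L]; omega)]
      · have hj' : j.val + 1 < m + 3 := by
          have : j.val ≠ m + 2 := fun e => hj (Fin.ext e)
          omega
        rw [if_neg hj, Finset.sum_eq_single (⟨j.val + 1, hj'⟩ : Fin (m + 3)), if_pos rfl, sub_self]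
        · intro b _ hb; rw [if_neg fun e => hb (Fin.ext e)]
        · simp
    rw [← h1, Matrix.vecMul_vecMul]
    have : (w : Matrix (Fin (m + 3)) (Fin (m + 3)) F) * ((w⁻¹ : Matrix.SpecialLinearGroup (Fin (m + 3)) F) : Matrix (Fin (m + 3)) (Fin (m + 3)) F) = 1 :=
      congrArg Subtype.val (mul_inv_cancel w)
    rw [this, Matrix.vecMul_one]
  have hLu : (e L) ᵥ* ((u⁻¹ : Matrix.SpecialLinearGroup (Fin (m + 3)) F) : Matrix (Fin (m + 3)) (Fin (m + 3)) F) = e L := by
    have h1 : (e L) ᵥ* (u : Matrix (Fin (m + 3)) (Fin (m + 3)) F) = e L := by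
      show (e L) ᵥ* (1 + N) = e L
      rw [Matrix.vecMul_add, Matrix.vecMul_one, Matrix.single_one_vecMul]
      ext j
      simp [hN, nil, L]
      omega
    conv_lhs => rw [← h1, Matrix.vecMul_vecMul]
    have : (u : Matrix (Fin (m + 3)) (Fin (m + 3)) F) * ((u⁻¹ : Matrix.SpecialLinearGroup (Fin (m + 3)) F) : Matrix (Fin (m + 3)) (Fin (m + 3)) F) = 1 :=
      congrArg Subtype.val (mul_inv_cancel u)
    rw [this, Matrix.vecMul_one]
  have congr_el : ∀ {v φ v' φ' : Fin (m + 3) → F} (h1 : φ ⬝ᵥ v = 0) (h2 : φ' ⬝ᵥ v' = 0) (c c' : F),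
      c • v = c' • v' → φ = φ' → el v φ h1 c = el v' φ' h2 c' := by
    intro v φ v' φ' h1 h2 c c' e1 e2
    exact Subtype.ext (by rw [coe_el, coe_el, e1, e2])
  -- pushing a transvection along w
  have hpush : ∀ (v : Fin (m + 3) → F) (hv : e L ⬝ᵥ v = 0), el v (e L) hv 1 ∈ H → ∀ (c : F),
      el (e 0) (e L) hL0 c ∈ H → ∀ (h' : e L ⬝ᵥ ((w : Matrix (Fin (m + 3)) (Fin (m + 3)) F) *ᵥ v) = 0),
      el ((w : Matrix (Fin (m + 3)) (Fin (m + 3)) F) *ᵥ v) (e L) h' c ∈ H := by
    intro v hv hvH c hc h'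
    obtain ⟨h1, e1⟩ := conj_el w v (e L) 1 hv
    have hm1 := mul_mem (mul_mem hwH hvH) (inv_mem hwH)
    rw [e1] at hm1
    have hone0 : ((e L) ᵥ* ((w⁻¹ : Matrix.SpecialLinearGroup (Fin (m + 3)) F) : Matrix (Fin (m + 3)) (Fin (m + 3)) F)) ⬝ᵥ e 0 = 1 := by
      rw [hφ1]; simp [e, hone]
    have hm2 := mul_mem (mul_mem (mul_mem hm1 hc) (inv_mem hm1)) (inv_mem hc)
    rw [← commutatorElement_def, commutator_el h1 hL0 h', hone0] at hm2
    simpa using hm2
  have hA : ∀ c : F, el (e 0) (e L) hL0 c ∈ H := by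
    let S : AddSubgroup F :=
      { carrier := {c | el (e 0) (e L) hL0 c ∈ H}
        zero_mem' := by simp [el_zero]
        add_mem' := fun {a b} ha hb => by
          show el (e 0) (e L) hL0 (a + b) ∈ H
          rw [← el_mul]; exact mul_mem ha hb
        neg_mem' := fun {a} ha => by
          show el (e 0) (e L) hL0 (-a) ∈ H
          rw [← el_inv]; exact inv_mem ha }
    have hmul : ∀ s ∈ S, ∀ t ∈ S, s * t ∈ S := by
      intro s hs t ht
      have hsv : e L ⬝ᵥ (s • e 0) = 0 := by rw [dotProduct_smul, hL0, smul_zero]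
      have hvH : el (s • e 0) (e L) hsv 1 ∈ H := by
        rw [congr_el hsv hL0 1 s (one_smul _ _) rfl]; exact hs
      have hw0 : (w : Matrix (Fin (m + 3)) (Fin (m + 3)) F) *ᵥ (s • e 0) = s • (e 0 - e 1) := by
        rw [Matrix.mulVec_smul, hwe 0 (by simp)]
        congr 3
      have h' : e L ⬝ᵥ ((w : Matrix (Fin (m + 3)) (Fin (m + 3)) F) *ᵥ (s • e 0)) = 0 := by
        rw [hw0]; simp [e, h0L, h1L]
      have hm := hpush _ hsv hvH t ht h'
      obtain ⟨h1, e1⟩ := conj_el u _ (e L) t h'
      have hm2 := mul_mem (mul_mem huH hm) (inv_mem huH)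
      rw [e1] at hm2
      have hm3 := mul_mem hm (inv_mem hm2)
      show el (e 0) (e L) hL0 (s * t) ∈ H
      convert hm3 using 1
      rw [el_inv]
      refine Subtype.ext ?_
      rw [Matrix.SpecialLinearGroup.coe_mul, coe_el, coe_el, coe_el, hLu, hw0,
        tv_mul_left _ _ _ (by rw [dotProduct_smul, Matrix.mulVec_smul, dotProduct_smul]; simp [Matrix.add_mulVec, Matrix.mulVec_sub, Matrix.mulVec_smul, e, u, h0L, h1L, hN0, hN1]; right; right; simp [Matrix.one_apply_ne h0L.symm, Matrix.one_apply_ne h1L.symm, hN, nil, L])]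
      congr 1
      show (s * t) • e 0 = t • s • (e 0 - e 1) + -t • ((1 + N) *ᵥ (s • (e 0 - e 1)))
      rw [Matrix.mulVec_smul, Matrix.add_mulVec, Matrix.one_mulVec, Matrix.mulVec_sub, hN0, hN1]
      ext i
      simp [e]
      ring
    intro c
    have hlS : (lam : F) ∈ S := hseed
    have hpow : ∀ k : ℕ, (lam : F) ^ (k + 1) ∈ S := by
      intro k
      induction k with
      | zero => simpa using hlS
      | succ k ih => rw [pow_succ]; exact hmul _ ih _ hlS
    by_cases hc : c = 0
    · subst hc; exact S.zero_mem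
    obtain ⟨k, hk⟩ := (mem_powers_iff_mem_zpowers (x := lam) (y := Units.mk0 c hc)).2 (hlam _)
    have hk' : c = (lam : F) ^ k := by
      have := congrArg Units.val hk
      simpa using this.symm
    have ho : (lam : F) ^ k = (lam : F) ^ (k + (orderOf lam - 1) + 1) := by
      have : k + (orderOf lam - 1) + 1 = k + orderOf lam := by have := orderOf_pos lam; omega
      rw [this, pow_add, ← Units.val_pow_eq_pow_val lam (orderOf lam), pow_orderOf_eq_one, Units.val_one, mul_one]
    show c ∈ S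
    rw [hk', ho]
    exact hpow _
  -- all transvections with functional e L
  let X : Submodule F (Fin (m + 3) → F) :=
    { carrier := {v | ∃ hv : e L ⬝ᵥ v = 0, ∀ c, el v (e L) hv c ∈ H}
      zero_mem' := ⟨dotProduct_zero _, fun c => by
        have : el (0 : Fin (m + 3) → F) (e L) (dotProduct_zero _) c = 1 := Subtype.ext (by simp [tv_zero_left])
        rw [this]; exact one_mem _⟩
      add_mem' := by
        rintro a b ⟨ha, ha'⟩ ⟨hb, hb'⟩
        refine ⟨by rw [dotProduct_add, ha, hb, add_zero], fun c => ?_⟩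
        have : el (a + b) (e L) (by rw [dotProduct_add, ha, hb, add_zero]) c = el a (e L) ha c * el b (e L) hb c :=
          Subtype.ext (by
            rw [Matrix.SpecialLinearGroup.coe_mul, coe_el, coe_el, coe_el, tv_mul_left _ _ _ (by rw [dotProduct_smul, hb, smul_zero]), smul_add])
        rw [this]; exact mul_mem (ha' c) (hb' c)
      smul_mem' := by
        rintro r a ⟨ha, ha'⟩
        refine ⟨by rw [dotProduct_smul, ha, smul_zero], fun c => ?_⟩
        rw [congr_el (by rw [dotProduct_smul, ha, smul_zero]) ha c (c * r) (smul_smul _ _ _) rfl]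
        exact ha' _ }
  have hXe : ∀ k : ℕ, ∀ hk : k < m + 2, e ⟨k, by omega⟩ ∈ X := by
    intro k
    induction k with
    | zero => intro _; exact ⟨hL0, hA⟩
    | succ k ih =>
      intro hk
      have hi : e (⟨k, by omega⟩ : Fin (m + 3)) ∈ X := ih (by omega)
      obtain ⟨hv, hv'⟩ := hi
      have he := hwe ⟨k, by omega⟩ (by simp; omega)
      have h' : e L ⬝ᵥ ((w : Matrix (Fin (m + 3)) (Fin (m + 3)) F) *ᵥ e ⟨k, by omega⟩) = 0 := by
        have e1 : (⟨k, by omega⟩ : Fin (m + 3)) ≠ L := Fin.ne_of_val_ne (by simp [L]; omega)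
        have e2 : (⟨k + 1, by omega⟩ : Fin (m + 3)) ≠ L := Fin.ne_of_val_ne (by simp [L]; omega)
        rw [he]; simp [e, e1, e2, Ne.symm e1, Ne.symm e2]
      have hx : (w : Matrix (Fin (m + 3)) (Fin (m + 3)) F) *ᵥ e ⟨k, by omega⟩ ∈ X :=
        ⟨h', fun c => hpush _ hv (hv' 1) c (hA c) h'⟩
      have := X.sub_mem (ih (by omega)) hx
      rw [he, sub_sub_cancel] at this
      exact this
  have hXall : ∀ v, e L ⬝ᵥ v = 0 → v ∈ X := by
    intro v hv
    rw [pi_eq_sum_univ' v]
    refine Submodule.sum_mem _ fun i _ => ?_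
    by_cases hi : i = L
    · have : v i = 0 := by subst hi; simpa [e] using hv
      simp [this]
    · have hi' : i.val < m + 2 := by
        have : i.val ≠ m + 2 := fun e => hi (Fin.ext e)
        omega
      have := X.smul_mem (v i) (hXe i.val hi')
      simpa [e, Pi.single_apply, eq_comm] using this
  -- the set of good functionals
  let P : Set (Fin (m + 3) → F) := {φ | ∀ v, ∀ hv : φ ⬝ᵥ v = 0, el v φ hv 1 ∈ H}
  have hPL : e L ∈ P := fun v hv => by
    obtain ⟨hv', h'⟩ := hXall v hv
    exact h' 1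
  have hPc : ∀ φ ∈ P, ∀ x ∈ H, φ ᵥ* (x : Matrix (Fin (m + 3)) (Fin (m + 3)) F) ∈ P := by
    intro φ hφ x hx v hv
    have hv' : φ ⬝ᵥ ((x : Matrix (Fin (m + 3)) (Fin (m + 3)) F) *ᵥ v) = 0 := by rw [dotProduct_mulVec, hv]
    obtain ⟨h1, e1⟩ := conj_el x⁻¹ _ φ 1 hv'
    have hm := mul_mem (mul_mem (inv_mem hx) (hφ _ hv')) (inv_mem (inv_mem hx))
    rw [e1] at hm
    convert hm using 1
    refine congr_el _ _ _ _ ?_ (by rw [inv_inv])
    rw [Matrix.mulVec_mulVec, ← Matrix.SpecialLinearGroup.coe_mul, inv_mul_cancel, Matrix.SpecialLinearGroup.coe_one, Matrix.one_mulVec]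
  have hPs : ∀ φ ∈ P, ∀ r : F, r • φ ∈ P := by
    intro φ hφ r v hv
    by_cases hr : r = 0
    · subst hr
      have : el v ((0 : F) • φ) hv 1 = 1 := Subtype.ext (by simp [tv_zero_right])
      rw [this]; exact one_mem _
    have hv' : φ ⬝ᵥ (r • v) = 0 := by rw [smul_dotProduct] at hv; rw [dotProduct_smul]; exact hv
    convert hφ _ hv' using 1
    exact Subtype.ext (by rw [coe_el, coe_el, one_smul, one_smul, tv_smul])
  have hPa : ∀ φ ∈ P, ∀ ψ ∈ P, φ + ψ ∈ P := by
    intro φ hφ ψ hψ
    by_cases hex : ∃ v, ψ ⬝ᵥ v = 0 ∧ φ ⬝ᵥ v ≠ 0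
    · obtain ⟨v, h1, h2⟩ := hex
      have h1' : ψ ⬝ᵥ ((φ ⬝ᵥ v)⁻¹ • v) = 0 := by rw [dotProduct_smul, h1, smul_zero]
      have := hPc φ hφ _ (hψ _ h1')
      rw [coe_el, one_smul, vecMul_tv, dotProduct_smul, smul_eq_mul, inv_mul_cancel₀ h2, one_smul] at this
      exact this
    · push Not at hex
      by_cases hψ0 : ψ = 0
      · rw [hψ0, add_zero]; exact hφ
      obtain ⟨i, hi⟩ := Function.ne_iff.1 hψ0
      have : φ = (φ i / ψ i) • ψ := by
        funext j
        have hz := hex (Pi.single j 1 - (ψ j / ψ i) • Pi.single i 1) (by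
          simp [dotProduct_sub, dotProduct_smul]
          field_simp [show ψ i ≠ 0 from hi]
          ring)
        simp [dotProduct_sub, dotProduct_smul] at hz
        simp only [Pi.smul_apply, smul_eq_mul]
        linear_combination hz
      rw [this, show (φ i / ψ i) • ψ + ψ = (φ i / ψ i + 1) • ψ by rw [add_smul, one_smul]]
      exact hPs ψ hψ _
  have hPe : ∀ k : ℕ, ∀ j : Fin (m + 3), j.val + k = m + 2 → e j ∈ P := by
    intro k
    induction k with
    | zero =>
      intro j hj
      rw [show j = L from Fin.ext (by simp [L]; omega)]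
      exact hPL
    | succ k ih =>
      intro j hj
      have h1 := ih ⟨j.val + 1, by omega⟩ (by simp; omega)
      have h2 := hPa _ h1 _ (hPs _ (hPc _ h1 _ hwH) (-1))
      convert h2 using 1
      rw [hw, Matrix.vecMul_sub, Matrix.vecMul_one, Matrix.single_one_vecMul]
      ext i
      simp [e, hN, nil, Pi.single_apply, Fin.ext_iff]
      grind
  have hPall : ∀ φ, φ ∈ P := by
    intro φ
    rw [pi_eq_sum_univ' φ]
    refine Finset.sum_induction _ (· ∈ P) (fun a b ha hb => hPa a ha b hb) (by simpa using hPs _ hPL 0) fun i _ => ?_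
    have := hPs _ (hPe (m + 2 - i.val) i (by omega)) (φ i)
    simpa [e, Pi.single_apply, eq_comm] using this
  refine eq_top_iff.2 fun x _ => ?_
  have hgl := ker_det_le_of_tvGL_mem (H.map Matrix.SpecialLinearGroup.toGL) fun v φ h0 _ _ =>
    ⟨el v φ h0 1, hPall φ v h0, Units.ext (show tv ((1 : F) • v) φ = tv v φ by rw [one_smul])⟩
  obtain ⟨x', hx', e'⟩ := Subgroup.mem_map.1 (hgl (x := Matrix.SpecialLinearGroup.toGL x)
    (by rw [MonoidHom.mem_ker]; exact Units.ext x.2))
  have : x' = x := Subtype.ext (congrArg Units.val e')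
  rwa [← this]

end Cfsg.Agent.S2280
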