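import Cfsg.Statements.S2331
import Cfsg.Agent.Lib.Classical.GLTwoForm
-- import your own Cfsg.Agent.* helpers here

set_option autoImplicit false
open Cfsg

namespace Cfsg.Agent.S2331

/-- Over a finite field with q elements, q even, the special linear group SL₂ has exactly q + 1 conjugacy classes. -/
theorem result {F : Type*} [Field F] [Fintype F] [CharP F 2] :
    Nat.card (ConjClasses (Matrix.SpecialLinearGroup (Fin 2) F)) = Fintype.card F + 1 := by
  classical
  let S := Matrix.SpecialLinearGroup (Fin 2) F
  let M2 := Matrix (Fin 2) (Fin 2) F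
  let comp : F → S := fun t => ⟨!![0, -1; 1, t], by simp [Matrix.det_fin_two]⟩
  let f : Option F → ConjClasses S := fun x => x.elim (ConjClasses.mk 1) (fun t => ConjClasses.mk (comp t))
  have hinv : ∀ A B : S, ConjClasses.mk A = ConjClasses.mk B →
      (A : M2).trace = (B : M2).trace ∧ (A = 1 → B = 1) := by
    intro A B h
    obtain ⟨c, rfl⟩ := isConj_iff.1 (ConjClasses.mk_eq_mk_iff_isConj.1 h)
    refine ⟨?_, fun ha => by rw [ha]; simp⟩
    rw [Matrix.SpecialLinearGroup.coe_mul, Matrix.SpecialLinearGroup.coe_mul, Matrix.trace_mul_comm,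
      ← Matrix.mul_assoc, ← Matrix.SpecialLinearGroup.coe_mul, inv_mul_cancel,
      Matrix.SpecialLinearGroup.coe_one, Matrix.one_mul]
  have hf : Function.Bijective f := by
    refine ⟨?_, ?_⟩
    · rintro (_ | t) (_ | s) h
      · rfl
      · exfalso
        have := congrArg (fun g : S => (g : M2) 1 0) ((hinv _ _ h).2 rfl)
        simp [comp] at this
      · exfalso
        have := congrArg (fun g : S => (g : M2) 1 0) ((hinv _ _ h.symm).2 rfl)
        simp [comp] at this
      · have := (hinv _ _ h).1
        simp [comp, Matrix.trace_fin_two] at this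
        rw [this]
    · intro c
      induction c using Quotient.inductionOn with
      | h A =>
      by_cases hs : ∃ a : F, (A : M2) = Matrix.diagonal fun _ => a
      · obtain ⟨a, ha⟩ := hs
        have h1 := A.2
        rw [ha, Matrix.det_diagonal] at h1
        simp at h1
        have ha1 : a = 1 := by
          rcases h1 with h | h
          · exact h
          · rw [h, CharTwo.neg_eq]
        refine ⟨none, congrArg ConjClasses.mk ?_⟩
        apply Subtype.ext; rw [ha, ha1, Matrix.diagonal_one]; rfl
      · push Not at hs
        obtain ⟨P, hP, hPA⟩ := GLTwoForm.exists_companion (A : M2) hs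
        obtain ⟨r, hr⟩ := FiniteField.isSquare_of_char_two (ringChar.eq F 2) P.det
        have hr0 : r ≠ 0 := fun h => hP (by rw [hr, h, mul_zero])
        have hd : (r⁻¹ • P).det = 1 := by
          rw [Matrix.det_smul, Fintype.card_fin, hr]; field_simp
        let u : S := ⟨r⁻¹ • P, hd⟩
        refine ⟨some (A : M2).trace, ?_⟩
        apply ConjClasses.mk_eq_mk_iff_isConj.2
        rw [isConj_iff]
        refine ⟨u, mul_inv_eq_iff_eq_mul.2 ?_⟩
        apply Subtype.ext
        show (r⁻¹ • P) * !![0, -1; 1, (A : M2).trace] = (A : M2) * (r⁻¹ • P)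
        rw [Matrix.smul_mul, Matrix.mul_smul, hPA, A.2]
  rw [← Nat.card_congr (Equiv.ofBijective f hf), Finite.card_option, Nat.card_eq_fintype_card]

end Cfsg.Agent.S2331
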