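import Cfsg.Statements.S2300
import Cfsg.Agent.Lib.Classical.TwoDimMcKay
import Cfsg.Agent.S2331
-- import your own Cfsg.Agent.* helpers here

set_option autoImplicit false
open Cfsg

namespace Cfsg.Agent.S2300

/-- Over a finite field F with q elements, q even, every irreducible complex character of SL₂ has degree 1, q − 1, q or q + 1; and when q ≥ 4 (so that these four numbers are distinct) there are exactly one irreducible character of degree 1, one of degree q, (q − 2)/2 of degree q + 1 and q/2 of degree q − 1. -/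
theorem result {F : Type*} [Field F] [Fintype F] [CharP F 2] :
    (∀ χ : Matrix.SpecialLinearGroup (Fin 2) F → ℂ, Cfsg.IsIrrCharacter (Matrix.SpecialLinearGroup (Fin 2) F) χ →
      χ 1 = 1 ∨ χ 1 = (Fintype.card F : ℂ) - 1 ∨ χ 1 = (Fintype.card F : ℂ) ∨ χ 1 = (Fintype.card F : ℂ) + 1) ∧
    (4 ≤ Fintype.card F →
      Nat.card {χ : Cfsg.IrrCharacter (Matrix.SpecialLinearGroup (Fin 2) F) // (χ : Matrix.SpecialLinearGroup (Fin 2) F → ℂ) 1 = 1} = 1 ∧
      Nat.card {χ : Cfsg.IrrCharacter (Matrix.SpecialLinearGroup (Fin 2) F) // (χ : Matrix.SpecialLinearGroup (Fin 2) F → ℂ) 1 = (Fintype.card F : ℂ)} = 1 ∧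
      Nat.card {χ : Cfsg.IrrCharacter (Matrix.SpecialLinearGroup (Fin 2) F) // (χ : Matrix.SpecialLinearGroup (Fin 2) F → ℂ) 1 = (Fintype.card F : ℂ) + 1} = (Fintype.card F - 2) / 2 ∧
      Nat.card {χ : Cfsg.IrrCharacter (Matrix.SpecialLinearGroup (Fin 2) F) // (χ : Matrix.SpecialLinearGroup (Fin 2) F → ℂ) 1 = (Fintype.card F : ℂ) - 1} = Fintype.card F / 2) := by
  classical
  open Cfsg.Lib.Classical.TwoDim Matrix in
  have hdeg : ∀ χ : Cfsg.IrrCharacter (SpecialLinearGroup (Fin 2) F), ∃ d : ℕ, (χ : SpecialLinearGroup (Fin 2) F → ℂ) 1 = d ∧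
      (d = 1 ∨ d + 1 = Fintype.card F ∨ d = Fintype.card F ∨ d = Fintype.card F + 1) := by
    intro χ
    obtain ⟨d, -, hd⟩ := χ.2.exists_degree_pos
    refine ⟨d, hd, ?_⟩
    by_cases h1 : (χ : SpecialLinearGroup (Fin 2) F → ℂ) 1 = 1
    · exact Or.inl (Nat.cast_injective (R := ℂ) (by rw [← hd, h1, Nat.cast_one]))
    obtain ⟨π, -, -, hdeg, ⟨he, -⟩ | ⟨-, x, χ', -, hne, hx, -⟩⟩ := sl_cases χ.2 h1
    · rw [he, hd] at hdeg
      rcases hdeg with h | h | h
      · exact Or.inr (Or.inl (Nat.cast_injective (R := ℂ) (by push_cast; linear_combination h)))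
      · exact Or.inr (Or.inr (Or.inl (Nat.cast_injective (R := ℂ) h)))
      · exact Or.inr (Or.inr (Or.inr (Nat.cast_injective (R := ℂ) (by push_cast; linear_combination h))))
    · -- in characteristic two every determinant is a square
      exfalso
      refine hne (funext fun A => ?_)
      obtain ⟨s, hs⟩ := FiniteField.isSquare_of_char_two (ringChar.eq F 2) ((GeneralLinearGroup.det x : Fˣ) : F)
      have hs0 : s ≠ 0 := fun h => (GeneralLinearGroup.det x).ne_zero (by rw [hs, h, mul_zero])
      refine half_eq χ.2.isClassFunction hx (y := GeneralLinearGroup.mkOfDetNeZero !![s, 0; 0, s] (by simp [det_fin_two, hs0]))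
        (Units.ext ?_) (Units.ext ?_)
      · ext i j
        fin_cases i <;> fin_cases j <;> simp [Matrix.mul_apply, Fin.sum_univ_two, mul_comm]
      · simp [det_fin_two, hs]
  open Cfsg.Lib.Classical.TwoDim Matrix in
  refine ⟨fun χ hχ => ?_, fun h4 => ?_⟩
  · obtain ⟨d, hd, h⟩ := hdeg ⟨χ, hχ⟩
    change χ 1 = d at hd
    rw [hd]
    rcases h with rfl | h | rfl | rfl
    · simp
    · exact Or.inr (Or.inl (by rw [← h]; push_cast; ring))
    · exact Or.inr (Or.inr (Or.inl rfl))
    · exact Or.inr (Or.inr (Or.inr (by push_cast; ring)))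
  · obtain ⟨m, hm⟩ : ∃ m, Fintype.card F = 2 * (m + 2) := by
      obtain ⟨k, -, hk⟩ := FiniteField.card F 2
      obtain ⟨j, hj⟩ : 2 ∣ Fintype.card F := by rw [hk]; exact dvd_pow_self 2 k.ne_zero
      exact ⟨j - 2, by omega⟩
    obtain ⟨hcl, hsq, -⟩ := degree_split (G := SpecialLinearGroup (Fin 2) F)
      {1, Fintype.card F, Fintype.card F + 1, Fintype.card F - 1} fun χ => by
        obtain ⟨d, hd, h⟩ := hdeg χ
        rw [charDegree_eq hd]
        simp only [Finset.mem_insert, Finset.mem_singleton]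
        omega
    have key : ∀ (c : ℂ) (d : ℕ), c = d →
        Nat.card {χ : Cfsg.IrrCharacter (SpecialLinearGroup (Fin 2) F) // (χ : SpecialLinearGroup (Fin 2) F → ℂ) 1 = c} =
          numDeg (SpecialLinearGroup (Fin 2) F) d := fun c d h =>
      Nat.card_congr (Equiv.subtypeEquivRight fun χ => by rw [charDegree_iff, h])
    have hsq1 : ∃ a : F, a ≠ 0 ∧ a ^ 2 ≠ 1 := by
      by_contra h
      push Not at h
      have hsub : (Finset.univ : Finset F) ⊆ {0, 1, -1} := fun a _ => by
        by_cases ha : a = 0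
        · simp [ha]
        · rcases sq_eq_one_iff.1 (h a ha) with e | e <;> simp [e]
      have := (Finset.card_le_card hsub).trans Finset.card_le_three
      rw [Finset.card_univ] at this
      omega
    have n1 : numDeg (SpecialLinearGroup (Fin 2) F) 1 = 1 := by
      rw [← key 1 1 (by simp), Cfsg.Lib.Characters.card_linear_irr,
        Cfsg.Lib.Classical.SLGroup.commutator_sl_eq_top (Or.inr hsq1), Subgroup.index_top]
    have nq : numDeg (SpecialLinearGroup (Fin 2) F) (Fintype.card F) = 1 := by
      have hst : ∀ χ : Cfsg.IrrCharacter (SpecialLinearGroup (Fin 2) F),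
          (χ : SpecialLinearGroup (Fin 2) F → ℂ) 1 = (Fintype.card F : ℂ) → ∀ A, (χ : SpecialLinearGroup (Fin 2) F → ℂ) A = st (SpecialLinearGroup.toGL A) := by
        intro χ hd A
        have h1 : (χ : SpecialLinearGroup (Fin 2) F → ℂ) 1 ≠ 1 := fun e => by
          have := card_inj (F := F) (n := 1) (by rw [Nat.cast_one]; exact hd.symm.trans e)
          omega
        obtain ⟨π, hπ, hπ1, hdg, ⟨he, hres⟩ | ⟨he, -⟩⟩ := sl_cases χ.2 h1
        · rw [hd] at he
          rcases gl_cases hπ hπ1 with ⟨h, -⟩ | ⟨α, rfl⟩ | ⟨α, β, -, rfl⟩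
          · exact absurd (show (1 : ℂ) = 0 by linear_combination h - he) one_ne_zero
          · rw [← hres A]; simp
          · rw [indFun_one'] at he; simp at he
        · exfalso
          rw [hd] at he
          rcases hdg with h | h | h
          · exact Nat.cast_ne_zero.2 (show Fintype.card F + 1 ≠ 0 by omega) (by push_cast; linear_combination h - he)
          · exact Nat.cast_ne_zero.2 (show Fintype.card F ≠ 0 by omega) (by linear_combination h - he)
          · exact absurd (card_inj (F := F) (n := 1) (by push_cast; linear_combination h - he)) (by omega)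
      rw [numDeg, Nat.card_eq_one_iff_unique]
      refine ⟨⟨fun a b => Subtype.ext (Subtype.ext (funext fun A => ?_))⟩, ?_⟩
      · rw [hst a.1 ((charDegree_iff a.1 _).1 a.2), hst b.1 ((charDegree_iff b.1 _).1 b.2)]
      · have hst1 := stTwist_irr (F := F) 1
        set π := fun g : GL (Fin 2) F => (1 : MulChar F ℂ) (g : Matrix (Fin 2) (Fin 2) F).det * st g
        have hπ : π 1 = (Fintype.card F : ℂ) := by simp [π, st_one]
        have hne : π 1 ≠ 1 := by
          rw [hπ]; intro e
          have := card_inj (F := F) (n := 1) (by simpa using e); omega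
        rcases res_cases hst1 hne with h | ⟨x, θ, θ', hθ, hθ', -, hx, hsum⟩
        · exact ⟨⟨⟨_, h⟩, (charDegree_iff _ _).2 (by simp [hπ])⟩⟩
        · exfalso
          obtain ⟨d, hd, hdd⟩ := hdeg ⟨θ, hθ⟩
          change θ 1 = d at hd
          have h := hsum 1
          rw [map_one, hπ, hx, map_one, hd] at h
          have : Fintype.card F = d + d := Nat.cast_injective (R := ℂ) (by push_cast; exact h)
          omega
    rw [Cfsg.Agent.S2331.result, Finset.sum_insert (by simp; omega), Finset.sum_insert (by simp; omega),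
      Finset.sum_pair (by omega), n1, nq] at hcl
    rw [card_SL, Finset.sum_insert (by simp; omega), Finset.sum_insert (by simp; omega),
      Finset.sum_pair (by omega), n1, nq] at hsq
    refine ⟨(key _ 1 (by simp)).trans n1, (key _ _ rfl).trans nq, ?_⟩
    rw [key _ (Fintype.card F + 1) (by push_cast; ring),
      key _ (Fintype.card F - 1) (by rw [Nat.cast_sub Fintype.card_pos]; simp)]
    generalize numDeg (SpecialLinearGroup (Fin 2) F) (Fintype.card F + 1) = a at hcl hsq ⊢
    generalize numDeg (SpecialLinearGroup (Fin 2) F) (Fintype.card F - 1) = b at hcl hsq ⊢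
    rw [hm] at hcl hsq ⊢
    rw [show 2 * (m + 2) - 1 = 2 * m + 3 by omega] at hsq
    rw [show (2 * (m + 2) - 2) / 2 = m + 1 by omega, show 2 * (m + 2) / 2 = m + 2 by omega]
    have hcl' := congrArg (Nat.cast (R := ℤ)) hcl
    have hsq' := congrArg (Nat.cast (R := ℤ)) hsq
    push_cast at hcl' hsq'
    have ha : ((a : ℤ) - ((m : ℤ) + 1)) * (8 * (m : ℤ) + 16) = 0 := by
      linear_combination -hsq' + (2 * (m : ℤ) + 3) ^ 2 * hcl'
    rcases mul_eq_zero.1 ha with h | h <;> omega

end Cfsg.Agent.S2300
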