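import Cfsg.Statements.S2336
import Cfsg.Agent.Lib.PermGroup.PermCharacter

set_option autoImplicit false
open Cfsg

namespace Cfsg.Agent.S2336

open Cfsg.Lib.Characters Cfsg.Agent.PermCharacter Matrix

/-- The trace form of an idempotent commuting with a representation is a character. -/
theorem isCharacter_idempotent {G W : Type*} [Group G] [AddCommGroup W] [Module ℂ W] [FiniteDimensional ℂ W]
    (ρ : Representation ℂ G W) (E : Module.End ℂ W) (hE : E * E = E) (hc : ∀ g, ρ g * E = E * ρ g) :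
    IsCharacter G fun g => LinearMap.trace ℂ W (ρ g * E) := by
  let S : Subrepresentation ρ := ⟨LinearMap.range E, by
    rintro g _ ⟨x, rfl⟩
    exact ⟨ρ g x, (LinearMap.congr_fun (hc g) x).symm⟩⟩
  have h := isCharacter_character (V := S.toSubmodule) S.toRepresentation
  convert h using 1
  funext g
  have hmem : ∀ x, (ρ g * E) x ∈ S.toSubmodule := fun x => S.apply_mem_toSubmodule g ⟨x, rfl⟩
  rw [← LinearMap.trace_restrict_eq_of_forall_mem S.toSubmodule (ρ g * E) hmem]
  show LinearMap.trace ℂ S.toSubmodule _ = LinearMap.trace ℂ S.toSubmodule _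
  congr 1
  refine LinearMap.ext fun x => Subtype.ext ?_
  obtain ⟨y, hy⟩ := x.2
  show ρ g (E x.1) = ρ g x.1
  rw [← hy, show E (E y) = (E * E) y from rfl, hE]

section
variable {F : Type*} [Field F] {n : ℕ}

/-- The action on non-zero vectors. -/
local instance slAct : MulAction (Matrix.SpecialLinearGroup (Fin n) F) {v : Fin n → F // v ≠ 0} where
  smul g v := ⟨(g : Matrix (Fin n) (Fin n) F) *ᵥ v.1, fun h => v.2 (by
    have := congrArg (fun w => ((g⁻¹ : Matrix.SpecialLinearGroup (Fin n) F) : Matrix (Fin n) (Fin n) F) *ᵥ w) h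
    simp only [Matrix.mulVec_mulVec, Matrix.mulVec_zero] at this
    rwa [← Matrix.SpecialLinearGroup.coe_mul, inv_mul_cancel, Matrix.SpecialLinearGroup.coe_one, Matrix.one_mulVec] at this)⟩
  one_smul v := Subtype.ext (by
    show ((1 : Matrix.SpecialLinearGroup (Fin n) F) : Matrix (Fin n) (Fin n) F) *ᵥ v.1 = v.1
    simp)
  mul_smul g h v := Subtype.ext (by
    show ((g * h : Matrix.SpecialLinearGroup (Fin n) F) : Matrix (Fin n) (Fin n) F) *ᵥ v.1 =
      (g : Matrix (Fin n) (Fin n) F) *ᵥ ((h : Matrix (Fin n) (Fin n) F) *ᵥ v.1)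
    rw [Matrix.SpecialLinearGroup.coe_mul, Matrix.mulVec_mulVec])

/-- Scalars act on non-zero vectors. -/
local instance scAct : MulAction Fˣ {v : Fin n → F // v ≠ 0} where
  smul c v := ⟨(c : F) • v.1, smul_ne_zero c.ne_zero v.2⟩
  one_smul v := Subtype.ext (one_smul F v.1)
  mul_smul c d v := Subtype.ext (mul_smul (c : F) d v.1)

theorem sl_smul_val (g : Matrix.SpecialLinearGroup (Fin n) F) (v : {v : Fin n → F // v ≠ 0}) :
    (g • v).1 = (g : Matrix (Fin n) (Fin n) F) *ᵥ v.1 := rfl

theorem sc_smul_val (c : Fˣ) (v : {v : Fin n → F // v ≠ 0}) : (c • v).1 = (c : F) • v.1 := rfl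

theorem pair_transitive (hn : 3 ≤ n) {u w u' w' : Fin n → F} (h : LinearIndependent F ![u, w])
    (h' : LinearIndependent F ![u', w']) :
    ∃ g : Matrix.SpecialLinearGroup (Fin n) F,
      (g : Matrix (Fin n) (Fin n) F) *ᵥ u = u' ∧ (g : Matrix (Fin n) (Fin n) F) *ᵥ w = w' := by
  classical
  set P := Submodule.span F (Set.range ![u, w])
  set P' := Submodule.span F (Set.range ![u', w'])
  obtain ⟨C, hC⟩ := P.exists_isCompl
  obtain ⟨C', hC'⟩ := P'.exists_isCompl
  let e1 : P ≃ₗ[F] P' := (Module.Basis.span h).equiv (Module.Basis.span h') (Equiv.refl _)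
  have hfin : Module.finrank F C = Module.finrank F C' := by
    have a := Submodule.finrank_add_eq_of_isCompl hC
    have b := Submodule.finrank_add_eq_of_isCompl hC'
    have c := e1.finrank_eq
    omega
  let e2 : C ≃ₗ[F] C' := LinearEquiv.ofFinrankEq _ _ hfin
  let f : (Fin n → F) ≃ₗ[F] (Fin n → F) :=
    ((Submodule.prodEquivOfIsCompl P C hC).symm.trans (e1.prodCongr e2)).trans (Submodule.prodEquivOfIsCompl P' C' hC')
  have hf : ∀ x : P, f (x : Fin n → F) = (e1 x : Fin n → F) := by
    intro x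
    simp [f]
  have he1 : ∀ i, (e1 ⟨![u, w] i, Submodule.subset_span ⟨i, rfl⟩⟩ : Fin n → F) = ![u', w'] i := by
    intro i
    have : (⟨![u, w] i, Submodule.subset_span ⟨i, rfl⟩⟩ : P) = Module.Basis.span h i :=
      (Module.Basis.span_apply h i).symm
    rw [this, Module.Basis.equiv_apply, Equiv.refl_apply]
    exact congrArg Subtype.val (Module.Basis.span_apply h' i)
  have hfu : f u = u' := (hf ⟨![u, w] 0, Submodule.subset_span ⟨0, rfl⟩⟩).trans (he1 0)
  have hfw : f w = w' := (hf ⟨![u, w] 1, Submodule.subset_span ⟨1, rfl⟩⟩).trans (he1 1)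
  let A : Matrix (Fin n) (Fin n) F := LinearMap.toMatrix' f.toLinearMap
  have hA : ∀ x, A *ᵥ x = f x := fun x => LinearMap.toMatrix'_mulVec f.toLinearMap x
  have hdet : A.det ≠ 0 := by
    rw [LinearMap.det_toMatrix']
    exact f.isUnit_det'.ne_zero
  let L : (Fin n → F) →ₗ[F] F × F :=
    { toFun := fun φ => (φ ⬝ᵥ u', φ ⬝ᵥ w')
      map_add' := fun a b => by simp [add_dotProduct]
      map_smul' := fun c a => by simp [smul_dotProduct] }
  obtain ⟨φ, hφ, hφ0⟩ : ∃ φ ∈ LinearMap.ker L, φ ≠ (0 : Fin n → F) := by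
    refine Submodule.exists_mem_ne_zero_of_ne_bot fun hb => ?_
    have := LinearMap.finrank_le_finrank_of_injective (LinearMap.ker_eq_bot.1 hb)
    simp at this
    omega
  have hφu : φ ⬝ᵥ u' = 0 := congrArg Prod.fst (LinearMap.mem_ker.1 hφ)
  have hφw : φ ⬝ᵥ w' = 0 := congrArg Prod.snd (LinearMap.mem_ker.1 hφ)
  obtain ⟨i, hi⟩ : ∃ i, φ i ≠ 0 := Function.ne_iff.1 hφ0
  let c : Fin n → F := Pi.single i ((A.det⁻¹ - 1) * (φ i)⁻¹)
  let D : Matrix (Fin n) (Fin n) F := 1 + Matrix.vecMulVec c φ
  have hD : D.det = A.det⁻¹ := by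
    show (1 + Matrix.vecMulVec c φ).det = _
    rw [Matrix.vecMulVec_eq Unit, Matrix.det_one_add_replicateCol_mul_replicateRow]
    simp [c, dotProduct_single]
    field_simp
    ring
  have hDfix : ∀ x, φ ⬝ᵥ x = 0 → D *ᵥ x = x := fun x hx => by
    simp [D, Matrix.add_mulVec, Matrix.vecMulVec_mulVec, hx]
  refine ⟨⟨D * A, by rw [Matrix.det_mul, hD, inv_mul_cancel₀ hdet]⟩, ?_, ?_⟩
  · show (D * A) *ᵥ u = u'
    rw [← Matrix.mulVec_mulVec, hA, hfu, hDfix _ hφu]
  · show (D * A) *ᵥ w = w'
    rw [← Matrix.mulVec_mulVec, hA, hfw, hDfix _ hφw]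


/-- Let F be a finite field with q elements and n ≥ 3. The permutation character of SL_n(F) on the non-zero vectors of F^n (the function sending a matrix to the number of non-zero vectors it fixes) is the sum of the principal character and q − 1 pairwise distinct irreducible complex characters. -/
theorem result {F : Type*} [Field F] [Fintype F] [DecidableEq F] (n : ℕ) (hn : 3 ≤ n) :
    ∃ χ : Fin (Fintype.card F - 1) → (Matrix.SpecialLinearGroup (Fin n) F → ℂ),
      (∀ i, Cfsg.IsIrrCharacter (Matrix.SpecialLinearGroup (Fin n) F) (χ i)) ∧ Function.Injective χ ∧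
      ∀ g : Matrix.SpecialLinearGroup (Fin n) F,
        (Nat.card {v : Fin n → F // v ≠ 0 ∧ (g : Matrix (Fin n) (Fin n) F).mulVec v = v} : ℂ) = 1 + ∑ i, χ i g := by
  classical
  set V := {v : Fin n → F // v ≠ 0}
  set G := Matrix.SpecialLinearGroup (Fin n) F
  haveI : Fintype G := Fintype.ofFinite _
  set m := Fintype.card F - 1 with hmdef
  have hq : 1 < Fintype.card F := Fintype.one_lt_card
  have hm : 0 < m := by omega
  have hmne : (m : ℂ) ≠ 0 := Nat.cast_ne_zero.2 hm.ne'
  have hpair : ∀ x : V, ∃ y, LinearIndependent F ![x.1, y] := fun x =>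
    exists_linearIndependent_pair_of_one_lt_finrank (by rw [Module.finrank_fin_fun]; omega) x.2
  haveI hpre : MulAction.IsPretransitive G V := ⟨fun x y => by
    obtain ⟨a, ha⟩ := hpair x
    obtain ⟨b, hb⟩ := hpair y
    obtain ⟨g, hg, -⟩ := pair_transitive hn ha hb
    exact ⟨g, Subtype.ext hg⟩⟩
  let a : V := ⟨Pi.single ⟨0, by omega⟩ 1, by simp⟩
  have hN : m < Nat.card V := by
    rw [Nat.card_eq_fintype_card, Fintype.card_subtype_compl, Fintype.card_subtype_eq, Fintype.card_fun, Fintype.card_fin]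
    have : Fintype.card F < Fintype.card F ^ n := lt_self_pow₀ hq (by omega)
    omega
  have hNne : (Nat.card V : ℂ) ≠ 0 := Nat.cast_ne_zero.2 (by omega)
  -- scalars
  obtain ⟨u, hu⟩ := IsCyclic.exists_generator (α := Fˣ)
  have hord : orderOf u = m := by
    rw [orderOf_eq_card_of_forall_mem_zpowers hu, Nat.card_units, Nat.card_eq_fintype_card]
  obtain ⟨ω, hω⟩ : ∃ ω : ℂ, IsPrimitiveRoot ω m := ⟨_, Complex.isPrimitiveRoot_exp m hm.ne'⟩
  set R := Cfsg.permRep ℂ G V
  set S := Cfsg.permRep ℂ Fˣ V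
  have hcomm : ∀ (g : G) (c : Fˣ), R g * S c = S c * R g := fun g c => by
    refine LinearMap.ext fun f => funext fun x => ?_
    show f (c⁻¹ • g⁻¹ • x) = f (g⁻¹ • c⁻¹ • x)
    congr 1
    refine Subtype.ext ?_
    show (↑(c⁻¹) : F) • ((g⁻¹ : G) : Matrix (Fin n) (Fin n) F) *ᵥ x.1 = ((g⁻¹ : G) : Matrix (Fin n) (Fin n) F) *ᵥ ((↑(c⁻¹) : F) • x.1)
    rw [Matrix.mulVec_smul]
  let e : ℕ → Module.End ℂ (V → ℂ) := fun j => (m : ℂ)⁻¹ • ∑ i ∈ Finset.range m, (ω ^ j) ^ i • S (u ^ i)
  let P₀ : Module.End ℂ (V → ℂ) :=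
    { toFun := fun f _ => (Nat.card V : ℂ)⁻¹ * ∑ x, f x
      map_add' := fun f g => by ext; simp [Finset.sum_add_distrib, mul_add]
      map_smul' := fun c f => by ext; simp [Finset.mul_sum, mul_left_comm] }
  have hshift : ∀ j, ω ^ j • (S u * e j) = e j := by
    intro j
    simp only [e, mul_smul_comm, Finset.mul_sum, smul_comm (ω ^ j) (m : ℂ)⁻¹, Finset.smul_sum, smul_smul, ← map_mul, ← pow_succ']
    set f : ℕ → Module.End ℂ (V → ℂ) := fun i => ((m : ℂ)⁻¹ * (ω ^ j) ^ i) • S (u ^ i)
    show ∑ i ∈ Finset.range m, _ = ∑ i ∈ Finset.range m, f i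
    have h1 := Finset.sum_range_succ f m
    have h2 := Finset.sum_range_succ' f m
    have h3 : f m = f 0 := by
      simp only [f]
      rw [show u ^ m = 1 by rw [← hord]; exact pow_orderOf_eq_one u, ← pow_mul, mul_comm j, pow_mul, hω.pow_eq_one]
      simp
    rw [h3] at h1
    refine Eq.trans (Finset.sum_congr rfl fun i _ => ?_) (add_right_cancel (h2.symm.trans h1))
    simp only [f, pow_succ']
    ring_nf
  have hpowe : ∀ j i, (ω ^ j) ^ i • (S (u ^ i) * e j) = e j := by
    intro j i
    induction i with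
    | zero => simp
    | succ i ih =>
      calc (ω ^ j) ^ (i + 1) • (S (u ^ (i + 1)) * e j) = (ω ^ j) ^ i • (S (u ^ i) * (ω ^ j • (S u * e j))) := by
            generalize e j = X
            rw [mul_smul_comm, smul_smul, ← mul_assoc, ← map_mul, ← pow_succ, ← pow_succ]
        _ = e j := by rw [hshift, ih]
  have hidem : ∀ j, e j * e j = e j := by
    intro j
    conv_lhs => arg 1; simp only [e]
    rw [smul_mul_assoc, Finset.sum_mul]
    rw [Finset.sum_congr rfl fun i _ => (smul_mul_assoc _ _ _).trans (hpowe j i)]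
    rw [Finset.sum_const, Finset.card_range, ← Nat.cast_smul_eq_nsmul ℂ, smul_smul, inv_mul_cancel₀ hmne, one_smul]
  have hesum : ∑ j : Fin m, e j = 1 := by
    simp only [e]
    rw [← Finset.smul_sum, Finset.sum_comm, Finset.sum_eq_single 0]
    · simp [← Nat.cast_smul_eq_nsmul ℂ, smul_smul, inv_mul_cancel₀ hmne]
    · intro i hi hi0
      rw [← Finset.sum_smul]
      have : ∑ j : Fin m, (ω ^ (j : ℕ)) ^ i = 0 := by
        rw [Finset.sum_congr rfl fun (j : Fin m) _ => pow_right_comm ω (j : ℕ) i]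
        rw [Fin.sum_univ_eq_sum_range (fun j => (ω ^ i) ^ j)]
        have h1 : ω ^ i ≠ 1 := hω.pow_ne_one_of_pos_of_lt hi0 (Finset.mem_range.1 hi)
        refine eq_zero_of_ne_zero_of_mul_right_eq_zero (sub_ne_zero.2 h1) ?_
        rw [geom_sum_mul, ← pow_mul, mul_comm, pow_mul, hω.pow_eq_one, one_pow, sub_self]
      rw [this, zero_smul]
    · intro h; exact absurd (Finset.mem_range.2 hm) h
  have hSP : ∀ c, S c * P₀ = P₀ := fun c => rfl
  have hPS : ∀ c, P₀ * S c = P₀ := fun c => by
    refine LinearMap.ext fun f => funext fun _ => ?_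
    show (Nat.card V : ℂ)⁻¹ * ∑ x, f (c⁻¹ • x) = _
    exact congrArg _ (Equiv.sum_comp (MulAction.toPerm c⁻¹) f)
  have hRP : ∀ g, R g * P₀ = P₀ := fun g => rfl
  have hPR : ∀ g, P₀ * R g = P₀ := fun g => by
    refine LinearMap.ext fun f => funext fun _ => ?_
    show (Nat.card V : ℂ)⁻¹ * ∑ x, f (g⁻¹ • x) = _
    exact congrArg _ (Equiv.sum_comp (MulAction.toPerm g⁻¹) f)
  have hPP : P₀ * P₀ = P₀ := by
    refine LinearMap.ext fun f => funext fun _ => ?_
    show (Nat.card V : ℂ)⁻¹ * ∑ _x : V, (Nat.card V : ℂ)⁻¹ * ∑ x, f x = (Nat.card V : ℂ)⁻¹ * ∑ x, f x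
    rw [Finset.sum_const, Finset.card_univ, ← Nat.card_eq_fintype_card, nsmul_eq_mul, mul_inv_cancel_left₀ hNne]
  have heP : e 0 * P₀ = P₀ ∧ P₀ * e 0 = P₀ := by
    constructor <;>
    · simp only [e, smul_mul_assoc, mul_smul_comm, Finset.sum_mul, Finset.mul_sum, pow_zero, one_pow, one_smul, hSP, hPS,
        Finset.sum_const, Finset.card_range, ← Nat.cast_smul_eq_nsmul ℂ, smul_smul, inv_mul_cancel₀ hmne]
  let E : Fin m → Module.End ℂ (V → ℂ) := fun j => if (j : ℕ) = 0 then e j - P₀ else e j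
  have hEidem : ∀ j, E j * E j = E j := by
    intro j
    by_cases hj : (j : ℕ) = 0
    · simp only [E, hj, if_true]
      rw [sub_mul, mul_sub, mul_sub, hidem, heP.1, heP.2, hPP, sub_self, sub_zero]
    · simp only [E, if_neg hj]; exact hidem _
  have hEcomm : ∀ g j, R g * E j = E j * R g := by
    intro g j
    have he : R g * e j = e j * R g := by
      simp only [e, mul_smul_comm, smul_mul_assoc, Finset.mul_sum, Finset.sum_mul, hcomm]
    by_cases hj : (j : ℕ) = 0
    · simp only [E, hj, if_true]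
      rw [hj] at he
      rw [mul_sub, sub_mul, he, hRP, hPR]
    · simp only [E, if_neg hj]; exact he
  let χ : Fin m → G → ℂ := fun j g => LinearMap.trace ℂ (V → ℂ) (R g * E j)
  have hχ : ∀ j, IsCharacter G (χ j) := fun j => isCharacter_idempotent R (E j) (hEidem j) (fun g => hEcomm g j)
  have hEsum : ∑ j : Fin m, E j = 1 - P₀ := by
    have : ∀ j : Fin m, E j = e j - if j = ⟨0, hm⟩ then P₀ else 0 := fun j => by
      by_cases hj : (j : ℕ) = 0
      · simp [E, hj, Fin.ext_iff]
      · simp [E, hj, Fin.ext_iff]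
    rw [Finset.sum_congr rfl fun j _ => this j, Finset.sum_sub_distrib, hesum, Finset.sum_ite_eq']
    simp
  have htrP : LinearMap.trace ℂ (V → ℂ) P₀ = 1 := by
    rw [LinearMap.trace_eq_matrix_trace ℂ (Pi.basisFun ℂ V), Matrix.trace]
    simp only [Matrix.diag, LinearMap.toMatrix_apply, Pi.basisFun_repr, Pi.basisFun_apply]
    show ∑ x : V, (Nat.card V : ℂ)⁻¹ * ∑ y, (Pi.single x (1 : ℂ) : V → ℂ) y = 1
    simp [← Nat.card_eq_fintype_card, mul_inv_cancel₀ hNne]
  have htre : ∀ j, LinearMap.trace ℂ (V → ℂ) (e j) = (m : ℂ)⁻¹ * Nat.card V := by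
    intro j
    simp only [e, map_smul, map_sum, smul_eq_mul]
    rw [Finset.sum_eq_single 0]
    · simp [S, LinearMap.trace_one, Nat.card_eq_fintype_card]
    · intro i hi hi0
      have : LinearMap.trace ℂ (V → ℂ) (S (u ^ i)) = 0 := by
        show (Cfsg.permRep ℂ Fˣ V).character (u ^ i) = 0
        rw [permRep_character, permChar, Nat.cast_eq_zero, Nat.card_eq_zero]
        refine Or.inl ⟨fun x => pow_ne_one_of_lt_orderOf hi0 (by rw [hord]; exact Finset.mem_range.1 hi) ?_⟩
        refine Units.ext (smul_left_injective F x.1.2 ?_)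
        show ((u ^ i : Fˣ) : F) • x.1.1 = ((1 : Fˣ) : F) • x.1.1
        rw [Units.val_one, one_smul]
        exact congrArg Subtype.val x.2
      rw [this, mul_zero]
    · intro h; exact absurd (Finset.mem_range.2 hm) h
  have hχne : ∀ j, χ j ≠ 0 := by
    intro j h
    have h1 := congrFun h 1
    simp only [χ, map_one, one_mul, Pi.zero_apply] at h1
    by_cases hj : (j : ℕ) = 0
    · simp only [E, hj, if_true, map_sub, htre, htrP, sub_eq_zero] at h1
      rw [inv_mul_eq_one₀ hmne, Nat.cast_inj] at h1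
      omega
    · simp only [E, if_neg hj, htre] at h1
      exact mul_ne_zero (inv_ne_zero hmne) hNne h1
  let ψ : Option (Fin m) → G → ℂ := fun o => o.elim (fun _ => 1) χ
  have hψ : ∀ o, IsCharacter G (ψ o) := fun o => by
    cases o with
    | none => exact isCharacter_one
    | some j => exact hχ j
  have hπ : permChar G V = ∑ o, ψ o := by
    funext g
    rw [Fintype.sum_option, Pi.add_apply, Finset.sum_apply, ← permRep_character]
    show LinearMap.trace ℂ _ (R g) = 1 + ∑ j, LinearMap.trace ℂ _ (R g * E j)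
    rw [← map_sum, ← Finset.mul_sum, hEsum, mul_sub, mul_one, hRP, map_sub, htrP]
    ring
  choose k hk using fun o o' => classInner_nat (hψ o) (hψ o')
  have hdiag : ∀ o, 1 ≤ k o o := by
    intro o
    refine Nat.one_le_iff_ne_zero.2 fun h0 => ?_
    have h := hk o o
    rw [h0, Nat.cast_zero] at h
    have := classInner_self_eq_zero h
    cases o with
    | none => exact one_ne_zero (congrFun this 1)
    | some j => exact hχne j this
  have hrank : ∑ o, ∑ o', k o o' ≤ Fintype.card (Option (Fin m)) := by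
    have h := classInner_permChar_self (G := G) (Ω := V) a
    rw [hπ, classInner_sum_left] at h
    simp only [classInner_sum_right, hk, ← Nat.cast_sum, Nat.cast_inj] at h
    rw [h, ← Nat.card_eq_fintype_card, Nat.card_congr (Equiv.optionCongr (Fintype.equivFinOfCardEq
      (by rw [← Nat.card_eq_fintype_card, Nat.card_units, Nat.card_eq_fintype_card] : Fintype.card Fˣ = m)).symm)]
    obtain ⟨b, hb⟩ := hpair a
    let b' : V := ⟨b, by simpa using hb.ne_zero 1⟩
    refine Nat.card_le_card_of_surjective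
      (fun o : Option Fˣ => Quotient.mk'' (o.elim b' fun c => c • a)) fun z => ?_
    induction z using Quotient.inductionOn' with
    | h v =>
      by_cases hv : LinearIndependent F ![a.1, v.1]
      · obtain ⟨g, hga, hgb⟩ := pair_transitive hn hv hb
        refine ⟨none, Quotient.sound' ?_⟩
        exact ⟨⟨g, Subtype.ext hga⟩, Subtype.ext hgb⟩
      · rw [LinearIndependent.pair_iff' a.2] at hv
        push Not at hv
        obtain ⟨c, hc⟩ := hv
        have hc0 : c ≠ 0 := fun h => v.2 (by rw [← hc, h, zero_smul])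
        exact ⟨some (Units.mk0 c hc0), congrArg Quotient.mk'' (Subtype.ext hc)⟩
  have hrow : ∀ o, ∑ o', k o o' = 1 := by
    have hge : ∀ o ∈ Finset.univ, 1 ≤ ∑ o', k o o' := fun o _ =>
      (hdiag o).trans (Finset.single_le_sum (fun x _ => Nat.zero_le (k o x)) (Finset.mem_univ o))
    have := (Finset.sum_eq_sum_iff_of_le hge).1 (le_antisymm (Finset.sum_le_sum hge)
      (by simpa using hrank))
    exact fun o => (this o (Finset.mem_univ o)).symm
  have hself : ∀ o, k o o = 1 := fun o => le_antisymm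
    ((Finset.single_le_sum (fun x _ => Nat.zero_le (k o x)) (Finset.mem_univ o)).trans (hrow o).le) (hdiag o)
  have hoff : ∀ o o', o ≠ o' → k o o' = 0 := by
    intro o o' hne
    have := Finset.sum_le_sum_of_subset (f := k o) (Finset.subset_univ {o, o'})
    rw [Finset.sum_pair hne, hrow o, hself o] at this
    omega
  refine ⟨χ, fun j => isIrrCharacter_iff.2 ⟨hχ j, ?_⟩, fun j j' hjj => ?_, fun g => ?_⟩
  · show classInner (ψ (some j)) (ψ (some j)) = 1
    rw [hk, hself, Nat.cast_one]
  · by_contra hne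
    have h1 := hk (some j) (some j')
    rw [hoff _ _ (by simpa using hne), show ψ (some j') = ψ (some j) from hjj.symm, hk, hself] at h1
    simp at h1
  · have h := congrFun hπ g
    rw [Fintype.sum_option, Pi.add_apply, Finset.sum_apply] at h
    refine Eq.trans ?_ h
    rw [permChar]
    congr 1
    exact Nat.card_congr
      { toFun := fun v => ⟨⟨v.1, v.2.1⟩, Subtype.ext v.2.2⟩
        invFun := fun v => ⟨v.1.1, v.1.2, congrArg Subtype.val v.2⟩
        left_inv := fun _ => rfl
        right_inv := fun _ => rfl }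

end

end Cfsg.Agent.S2336
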