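import Cfsg.Statements.S2337
import Cfsg.Agent.Lib.SzB.MinDegree

set_option autoImplicit false
open Cfsg

namespace Cfsg.Agent.S2337

/-- For the Suzuki group Sz(q), q = 2^(2m+1) with m ≥ 1 (realised inside Sp₄ over the field with q elements), every irreducible complex representation of degree at least 2 has degree at least 2^m·(q − 1). -/
theorem result {F : Type*} [Field F] [Fintype F] (m : ℕ) (hm : 1 ≤ m) (hF : Fintype.card F = 2 ^ (2 * m + 1)) :
    (∀ (k : ℕ) (ρ : Representation ℂ (Cfsg.Lie.Sz F (2 ^ (m + 1))) (Fin k → ℂ)), ρ.IsIrreducible → 2 ≤ k → 2 ^ m * (2 ^ (2 * m + 1) - 1) ≤ k) := by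
  intro k ρ hirr hk
  haveI : CharP F 2 := by
    obtain ⟨p, hp⟩ := CharP.exists F
    haveI := hp
    obtain ⟨⟨j, _⟩, hpp, hj⟩ := FiniteField.card F p
    have hj' : 2 ^ (2 * m + 1) = p ^ j := by rw [← hF]; simpa using hj
    have : p ∣ 2 ^ (2 * m + 1) := hj' ▸ dvd_pow_self p (by omega)
    rwa [(Nat.prime_dvd_prime_iff_eq hpp Nat.prime_two).1 (hpp.dvd_of_dvd_pow this)] at hp
  exact Cfsg.Agent.SzB.min_degree hm hF k ρ hirr hk

end Cfsg.Agent.S2337
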