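import Cfsg.Statements.S2352
import Cfsg.Agent.Lib.WordMap.SL2
-- import your own Cfsg.Agent.* helpers here

set_option autoImplicit false
open Cfsg

namespace Cfsg.Agent.S2352

/-- A non-trivial law holds in only finitely many alternating groups: for every non-trivial element w of the free group on countably many generators there is N such that for all n ≥ N some substitution of elements of the alternating group of degree n into w is not the identity. -/
theorem result (w : FreeGroup ℕ) (hw : w ≠ 1) :
    ∃ N : ℕ, ∀ n : ℕ, N ≤ n → ∃ f : ℕ → alternatingGroup (Fin n), FreeGroup.lift f w ≠ 1 := by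
  classical
  obtain ⟨N, hN⟩ := WordMap.word_noncentral w hw
  obtain ⟨p, hp, hpp⟩ := Nat.exists_infinite_primes N
  have := Fact.mk hpp
  obtain ⟨f, hf⟩ := hN (ZMod p) (by rw [ZMod.card]; exact hp)
  let G := WordMap.SL2 (ZMod p)
  refine ⟨Fintype.card (G ⊕ G), fun n hn => ?_⟩
  obtain ⟨emb⟩ : Nonempty (G ⊕ G ↪ Fin n) :=
    Function.Embedding.nonempty_of_card_le (by rwa [Fintype.card_fin])
  let d : Equiv.Perm G →* Equiv.Perm (G ⊕ G) :=
    (Equiv.Perm.sumCongrHom G G).comp ((MonoidHom.id _).prod (MonoidHom.id _))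
  let φ : G →* Equiv.Perm (Fin n) :=
    (Equiv.Perm.viaEmbeddingHom emb).comp (d.comp (MulAction.toPermHom G G))
  have hmem : ∀ g, φ g ∈ alternatingGroup (Fin n) := by
    intro g
    rw [Equiv.Perm.mem_alternatingGroup]
    show Equiv.Perm.sign (Equiv.Perm.viaEmbedding (Equiv.Perm.sumCongr (MulAction.toPerm g) (MulAction.toPerm g)) emb) = 1
    rw [Equiv.Perm.viaEmbedding, Equiv.Perm.sign_extendDomain, Equiv.Perm.sign_sumCongr, Int.units_mul_self]
  let ψ : G →* alternatingGroup (Fin n) := φ.codRestrict _ hmem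
  have hinj : ∀ g, ψ g = 1 → g = 1 := by
    intro g hg
    have h1 : φ g = 1 := congrArg Subtype.val hg
    have h2 : d (MulAction.toPermHom G G g) = 1 :=
      Equiv.Perm.viaEmbeddingHom_injective emb (by rw [map_one]; exact h1)
    have := Equiv.congr_fun h2 (Sum.inl 1)
    simpa [d] using this
  refine ⟨fun i => ψ (f i), fun h => hf ?_⟩
  have hc : FreeGroup.lift (fun i => ψ (f i)) = ψ.comp (FreeGroup.lift f) := by
    apply FreeGroup.ext_hom; intro i; simp
  rw [hinj (FreeGroup.lift f w) (by rw [← MonoidHom.comp_apply, ← hc]; exact h)]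
  exact Subgroup.one_mem _

end Cfsg.Agent.S2352
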