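import Cfsg.Statements.S2360
import Cfsg.Agent.Lib.LinAlg.HermitianGU
import Cfsg.Agent.Lib.Classical.TwoRank
import Cfsg.Agent.Lib.Classical.UnitaryOrders
import Cfsg.Agent.Lib.Classical.UnitaryCentre
import Cfsg.Agent.S2587

set_option autoImplicit false
open Cfsg

namespace Cfsg.Agent.S2360

open Matrix

variable {F : Type*} [Field F] [Fintype F] {q : ℕ}

abbrev toG (u : ↥(Cfsg.SU 3 F q)) : GL (Fin 3) F :=
  Matrix.SpecialLinearGroup.toGL (u : Matrix.SpecialLinearGroup (Fin 3) F)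

abbrev toM (u : ↥(Cfsg.SU 3 F q)) : Matrix (Fin 3) (Fin 3) F := (u : Matrix.SpecialLinearGroup (Fin 3) F)

theorem toM_inj {u v : ↥(Cfsg.SU 3 F q)} (h : toM u = toM v) : u = v := Subtype.ext (Subtype.ext h)

theorem two_ne (hq : Odd q) (hF : Fintype.card F = q ^ 2) : (2 : F) ≠ 0 := by
  intro h
  have h2 : ringChar F = 2 := by
    haveI := Fact.mk (CharP.char_is_prime F (ringChar F))
    exact (Nat.prime_dvd_prime_iff_eq (CharP.char_is_prime F (ringChar F)) Nat.prime_two).1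
      ((ringChar.spec F 2).1 (by exact_mod_cast h))
  have := FiniteField.even_card_of_char_two h2
  rw [hF, Nat.pow_mod, Nat.odd_iff.1 hq] at this
  simp at this

/-- The sign pattern with the plus sign at `i`. -/
def pat (F : Type*) [Field F] (i : Fin 3) : Fin 3 → F := fun j => if j = i then 1 else -1

theorem exists_pat {s : Fin 3 → F} (hs : ∀ i, s i = 1 ∨ s i = -1) (hp : ∏ i, s i = 1) (hne : s ≠ fun _ => 1)
    (h2 : (2 : F) ≠ 0) : ∃ i, s = pat F i := by
  rw [Fin.prod_univ_three] at hp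
  have h11 : (-1 : F) ≠ 1 := fun h => h2 (by linear_combination -h)
  rcases hs 0 with a | a <;> rcases hs 1 with b | b <;> rcases hs 2 with c | c <;>
    simp only [a, b, c, one_mul, mul_one, mul_neg, neg_neg] at hp <;>
    first
      | exact absurd hp h11
      | (refine absurd (funext fun j => ?_) hne; fin_cases j <;> simp [a, b, c] <;> done)
      | (refine ⟨0, funext fun j => ?_⟩; fin_cases j <;> simp [pat, a, b, c] <;> done)
      | (refine ⟨1, funext fun j => ?_⟩; fin_cases j <;> simp [pat, a, b, c] <;> done)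
      | (refine ⟨2, funext fun j => ?_⟩; fin_cases j <;> simp [pat, a, b, c] <;> done)

theorem eq_of_basis {b : Module.Basis (Fin 3) F (Fin 3 → F)} {M N : Matrix (Fin 3) (Fin 3) F} {s : Fin 3 → F}
    (hM : ∀ i, M *ᵥ b i = s i • b i) (hN : ∀ i, N *ᵥ b i = s i • b i) : M = N := by
  apply Matrix.toLin'.injective
  exact b.ext fun i => by rw [Matrix.toLin'_apply, Matrix.toLin'_apply, hM, hN]

theorem sign_data (hq : Odd q) (hF : Fintype.card F = q ^ 2) (S : Finset ↥(Cfsg.SU 3 F q))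
    (hne : ∀ u ∈ S, u ≠ 1) (hsq : ∀ u ∈ S, u * u = 1) (hc : ∀ u ∈ S, ∀ v ∈ S, Commute u v) :
    ∃ (b : Module.Basis (Fin 3) F (Fin 3 → F)) (p : ↥(Cfsg.SU 3 F q) → Fin 3),
      ∀ u ∈ S, ∀ i, toM u *ᵥ b i = pat F (p u) i • b i := by
  classical
  obtain ⟨b, s, hbs⟩ := Cfsg.Agent.TwoRank.exists_sign_basis (two_ne hq hF) (S.image toM)
    (fun M hM => by
      obtain ⟨u, hu, rfl⟩ := Finset.mem_image.1 hM
      exact congrArg toM (hsq u hu))
    (fun M hM N hN => by
      obtain ⟨u, hu, rfl⟩ := Finset.mem_image.1 hM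
      obtain ⟨v, hv, rfl⟩ := Finset.mem_image.1 hN
      exact congrArg toM (hc u hu v hv))
  have h : ∀ u, ∃ i, u ∈ S → s (toM u) = pat F i := fun u => by
    by_cases hu : u ∈ S
    · obtain ⟨h1, h2, h3⟩ := hbs _ (Finset.mem_image_of_mem _ hu)
      obtain ⟨i, hi⟩ := exists_pat h2 (by rw [← h3]; exact u.1.2) (fun e => hne u hu (toM_inj
        (eq_of_basis h1 (fun i => by rw [e]; simp [toM])))) (two_ne hq hF)
      exact ⟨i, fun _ => hi⟩
    · exact ⟨0, fun h => absurd h hu⟩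
  choose p hp using h
  exact ⟨b, p, fun u hu i => by rw [← hp u hu]; exact (hbs _ (Finset.mem_image_of_mem _ hu)).1 i⟩

theorem pat_third (a c e : Fin 3) (hac : a ≠ c) (hea : e ≠ a) (hec : e ≠ c) (i : Fin 3) :
    pat F e i = pat F a i * pat F c i := by
  fin_cases a <;> fin_cases c <;> fin_cases e <;> fin_cases i <;> simp_all [pat]

/-- The standard involution. -/
theorem exists_std (hq : Odd q) (hF : Fintype.card F = q ^ 2) :
    ∃ d : ↥(Cfsg.SU 3 F q), toM d = diagonal (pat F 0) ∧ d ≠ 1 ∧ d * d = 1 := by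
  obtain ⟨σ, -, hσ, -⟩ := Cfsg.Lib.Classical.exists_frobSq hF
  have hd : (diagonal (pat F 0)).det = 1 := by simp [Matrix.det_diagonal, Fin.prod_univ_three, pat]
  have hg : Matrix.SpecialLinearGroup.toGL ⟨diagonal (pat F 0), hd⟩ ∈ Cfsg.GU 3 F q := by
    rw [Cfsg.Lib.HermNorm.gu_iff hσ]
    show Cfsg.Lib.HermNorm.st σ.toRingHom (diagonal (pat F 0)) * diagonal (pat F 0) = 1
    rw [Cfsg.Lib.HermNorm.st, diagonal_map (map_zero _), diagonal_transpose, diagonal_mul_diagonal, ← diagonal_one]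
    congr 1
    funext i
    fin_cases i <;> simp [pat]
  refine ⟨⟨⟨_, hd⟩, hg⟩, rfl, fun h => two_ne hq hF ?_, Subtype.ext (Subtype.ext ?_)⟩
  · have := congrFun (congrFun (congrArg toM h) 1) 1
    simp [toM, pat] at this
    linear_combination -this
  · show diagonal (pat F 0) * diagonal (pat F 0) = 1
    rw [diagonal_mul_diagonal, ← diagonal_one]
    congr 1
    funext i
    fin_cases i <;> simp [pat]

theorem conj_std (hq : Odd q) (hF : Fintype.card F = q ^ 2) (d x : ↥(Cfsg.SU 3 F q))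
    (hd : toM d = diagonal (pat F 0)) (hx : x ≠ 1) (hx2 : x * x = 1) : IsConj x d := by
  classical
  obtain ⟨σ, hne, hσ, hinv⟩ := Cfsg.Lib.Classical.exists_frobSq hF
  obtain ⟨b, p, hp⟩ := sign_data hq hF {x} (by simpa using hx) (by simpa using hx2) (by simp)
  let b' := b.reindex (Equiv.swap (p x) 0)
  let P : Matrix (Fin 3) (Fin 3) F := Matrix.of fun i j => b' j i
  have hPb : P = (Pi.basisFun F (Fin 3)).toMatrix b' := by ext i j; simp [P, Module.Basis.toMatrix_apply]
  have hP : IsUnit P := by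
    rw [hPb]
    haveI := (Pi.basisFun F (Fin 3)).invertibleToMatrix b'
    exact isUnit_of_invertible _
  have hxP : toM x * P = P * toM d := by
    ext i j
    rw [hd, mul_diagonal, show (toM x * P) i j = (toM x *ᵥ b' j) i from rfl]
    show (toM x *ᵥ b.reindex (Equiv.swap (p x) 0) j) i = _
    rw [Module.Basis.reindex_apply, hp x (Finset.mem_singleton_self x), Pi.smul_apply, smul_eq_mul]
    show _ = b.reindex (Equiv.swap (p x) 0) j i * _
    rw [Module.Basis.reindex_apply, mul_comm]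
    congr 1
    simp only [pat, Equiv.symm_swap]
    refine if_congr ?_ rfl rfl
    rw [Equiv.apply_eq_iff_eq_symm_apply, Equiv.symm_swap, Equiv.swap_apply_left]
  have hgl : IsConj (toG d) (toG x) := isConj_iff.2 ⟨hP.unit, mul_inv_eq_iff_eq_mul.2 (Units.ext hxP.symm)⟩
  obtain ⟨U, hU⟩ := isConj_iff.1 ((Cfsg.Agent.S2587.result hF ⟨toG x, x.2⟩ ⟨toG d, d.2⟩).2 hgl.symm)
  have hU' : (U : GL (Fin 3) F) * toG x * (U : GL (Fin 3) F)⁻¹ = toG d := congrArg Subtype.val hU
  have hUn : σ ((U : GL (Fin 3) F) : Matrix (Fin 3) (Fin 3) F).det * ((U : GL (Fin 3) F) : Matrix (Fin 3) (Fin 3) F).det = 1 := by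
    have h := congrArg Matrix.det ((Cfsg.Lib.HermNorm.gu_iff hσ).1 U.2)
    rw [Matrix.det_mul, Matrix.det_one, Cfsg.Lib.HermNorm.st, Matrix.det_transpose, ← RingHom.mapMatrix_apply,
      ← RingHom.map_det] at h
    exact h
  set δ := ((U : GL (Fin 3) F) : Matrix (Fin 3) (Fin 3) F).det
  have hδ : δ ≠ 0 := right_ne_zero_of_mul_eq_one hUn
  have hZd : (diagonal ![δ⁻¹, 1, 1] : Matrix (Fin 3) (Fin 3) F).det = δ⁻¹ := by simp [Matrix.det_diagonal, Fin.prod_univ_three]
  let Z : GL (Fin 3) F := GeneralLinearGroup.mkOfDetNeZero _ (hZd.symm ▸ inv_ne_zero hδ)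
  have hZ : Z ∈ Cfsg.GU 3 F q := by
    rw [Cfsg.Lib.HermNorm.gu_iff hσ]
    show Cfsg.Lib.HermNorm.st σ.toRingHom (diagonal ![δ⁻¹, 1, 1]) * diagonal ![δ⁻¹, 1, 1] = 1
    rw [Cfsg.Lib.HermNorm.st, diagonal_map (map_zero _), diagonal_transpose, diagonal_mul_diagonal, ← diagonal_one]
    congr 1
    funext i
    fin_cases i <;> simp [← mul_inv, hUn]
  have hW : (((Z * U : GL (Fin 3) F)) : Matrix (Fin 3) (Fin 3) F).det = 1 := by
    rw [Units.val_mul, Matrix.det_mul]
    show (diagonal ![δ⁻¹, 1, 1] : Matrix (Fin 3) (Fin 3) F).det * δ = 1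
    rw [hZd, inv_mul_cancel₀ hδ]
  have hWe : Z * U * toG x * (Z * U)⁻¹ = toG d := by
    have hc : Z * toG d = toG d * Z := Units.ext (by
      show diagonal _ * toM d = toM d * diagonal _
      rw [hd, diagonal_mul_diagonal, diagonal_mul_diagonal]
      simp [mul_comm])
    calc Z * U * toG x * (Z * U)⁻¹ = Z * ((U : GL (Fin 3) F) * toG x * (U : GL (Fin 3) F)⁻¹) * Z⁻¹ := by group
      _ = toG d := by rw [hU', hc, mul_inv_cancel_right]
  refine isConj_iff.2 ⟨⟨⟨_, hW⟩, mul_mem hZ U.2⟩, mul_inv_eq_iff_eq_mul.2 (toM_inj ?_)⟩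
  exact congrArg Units.val (mul_inv_eq_iff_eq_mul.1 hWe)

theorem card_cent (hq : Odd q) (hF : Fintype.card F = q ^ 2) (d : ↥(Cfsg.SU 3 F q))
    (hd : toM d = diagonal (pat F 0)) :
    Nat.card ↥(Subgroup.centralizer ({d} : Set ↥(Cfsg.SU 3 F q))) = Nat.card ↥(Cfsg.GU 2 F q) := by
  obtain ⟨σ, hne, hσ, hinv⟩ := Cfsg.Lib.Classical.exists_frobSq hF
  have h2 := two_ne hq hF
  let blk : F → Matrix (Fin 2) (Fin 2) F → Matrix (Fin 3) (Fin 3) F := fun a g =>
    !![a, 0, 0; 0, g 0 0, g 0 1; 0, g 1 0, g 1 1]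
  have hblkd : ∀ a g, (blk a g).det = a * g.det := fun a g => by
    simp [blk, Matrix.det_fin_three, Matrix.det_fin_two]; ring
  have hblk : ∀ a g, Cfsg.Lib.HermNorm.st σ.toRingHom (blk a g) * blk a g =
      blk (σ a * a) (Cfsg.Lib.HermNorm.st σ.toRingHom g * g) := fun a g => by
    ext i j
    fin_cases i <;> fin_cases j <;>
      simp [blk, Matrix.mul_apply, Fin.sum_univ_three, Fin.sum_univ_two, Cfsg.Lib.HermNorm.st]
  have hblk1 : blk 1 1 = 1 := by
    ext i j
    fin_cases i <;> fin_cases j <;> simp [blk]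
  have hdet : ∀ g : ↥(Cfsg.GU 2 F q), σ ((g : GL (Fin 2) F) : Matrix (Fin 2) (Fin 2) F).det * ((g : GL (Fin 2) F) : Matrix (Fin 2) (Fin 2) F).det = 1 := fun g => by
    have h := congrArg Matrix.det ((Cfsg.Lib.HermNorm.gu_iff hσ).1 g.2)
    rw [Matrix.det_mul, Matrix.det_one, Cfsg.Lib.HermNorm.st, Matrix.det_transpose, ← RingHom.mapMatrix_apply,
      ← RingHom.map_det] at h
    exact h
  let f : ↥(Cfsg.GU 2 F q) → ↥(Subgroup.centralizer ({d} : Set ↥(Cfsg.SU 3 F q))) := fun g =>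
    let a := ((g : GL (Fin 2) F) : Matrix (Fin 2) (Fin 2) F).det⁻¹
    have h1 : (blk a (g : GL (Fin 2) F)).det = 1 := by
      rw [hblkd]; exact inv_mul_cancel₀ (right_ne_zero_of_mul_eq_one (hdet g))
    ⟨⟨⟨_, h1⟩, (Cfsg.Lib.HermNorm.gu_iff (g := Matrix.SpecialLinearGroup.toGL ⟨_, h1⟩) hσ).2 (by
      show Cfsg.Lib.HermNorm.st σ.toRingHom (blk a (g : GL (Fin 2) F)) * blk a (g : GL (Fin 2) F) = 1
      rw [hblk, (Cfsg.Lib.HermNorm.gu_iff hσ).1 g.2, map_inv₀, ← mul_inv, hdet, inv_one, hblk1])⟩,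
      Subgroup.mem_centralizer_singleton_iff.2 (toM_inj (by
        show blk a (g : GL (Fin 2) F) * toM d = toM d * blk a (g : GL (Fin 2) F)
        rw [hd]
        ext i j
        fin_cases i <;> fin_cases j <;> simp [blk, pat, mul_diagonal, diagonal_mul]))⟩
  refine (Nat.card_eq_of_bijective f ⟨fun g g' h => ?_, fun z => ?_⟩).symm
  · have hm : ∀ i j : Fin 3, _ := fun i j => congrFun (congrFun
      (congrArg (fun z : ↥(Subgroup.centralizer ({d} : Set ↥(Cfsg.SU 3 F q))) => toM z.1) h) i) j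
    apply Subtype.ext
    apply Units.ext
    ext i j
    fin_cases i <;> fin_cases j
    · exact hm 1 1
    · exact hm 1 2
    · exact hm 2 1
    · exact hm 2 2
  · set M := toM z.1 with hM
    have hc : M * toM d = toM d * M := congrArg toM (Subgroup.mem_centralizer_singleton_iff.1 z.2)
    rw [hd] at hc
    have he : ∀ i j, M i j * pat F 0 j = pat F 0 i * M i j := fun i j => by
      have h := congrFun (congrFun hc i) j
      rwa [mul_diagonal, diagonal_mul] at h
    have hz : ∀ x : F, x = -x → x = 0 := fun x h => (mul_eq_zero.1 (by linear_combination h : 2 * x = 0)).resolve_left h2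
    have h01 : M 0 1 = 0 := hz _ (by have := he 0 1; simpa [pat, eq_comm] using this)
    have h02 : M 0 2 = 0 := hz _ (by have := he 0 2; simpa [pat, eq_comm] using this)
    have h10 : M 1 0 = 0 := hz _ (by have := he 1 0; simpa [pat] using this)
    have h20 : M 2 0 = 0 := hz _ (by have := he 2 0; simpa [pat] using this)
    let g : Matrix (Fin 2) (Fin 2) F := !![M 1 1, M 1 2; M 2 1, M 2 2]
    have hMb : M = blk (M 0 0) g := by
      ext i j
      fin_cases i <;> fin_cases j <;> simp [blk, g, h01, h02, h10, h20]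
    have hu : blk (σ (M 0 0) * M 0 0) (Cfsg.Lib.HermNorm.st σ.toRingHom g * g) = 1 := by
      rw [← hblk, ← hMb]
      exact (Cfsg.Lib.HermNorm.gu_iff hσ).1 z.1.2
    have hgu : Cfsg.Lib.HermNorm.st σ.toRingHom g * g = 1 := by
      ext i j
      fin_cases i <;> fin_cases j
      · exact congrFun (congrFun hu 1) 1
      · exact congrFun (congrFun hu 1) 2
      · exact congrFun (congrFun hu 2) 1
      · exact congrFun (congrFun hu 2) 2
    have hdetM : M 0 0 * g.det = 1 := by rw [← hblkd, ← hMb]; exact z.1.1.2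
    refine ⟨⟨GeneralLinearGroup.mkOfDetNeZero g (right_ne_zero_of_mul_eq_one hdetM),
      (Cfsg.Lib.HermNorm.gu_iff hσ).2 hgu⟩, Subtype.ext (toM_inj ?_)⟩
    show blk g.det⁻¹ g = M
    rw [← eq_inv_of_mul_eq_one_left hdetM]
    exact hMb.symm


/-- Let q be odd, F the field with q² elements and S = SU_3(F) (determinant-one isometries of the standard Hermitian form). Then all involutions of S are conjugate; there are exactly q²(q²−q+1) of them; the centralizer of an involution has order q(q+1)(q²−1), the order of the full unitary group of degree 2; and for two distinct commuting involutions t and x there is exactly one further involution commuting with both. -/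
theorem result {F : Type*} [Field F] [Fintype F] {q : ℕ} (hq : Odd q)
    (hF : Fintype.card F = q ^ 2) (t : ↥(Cfsg.SU 3 F q)) (ht : t ≠ 1) (ht2 : t * t = 1) :
    (∀ x : ↥(Cfsg.SU 3 F q), x ≠ 1 → x * x = 1 → ∃ g : ↥(Cfsg.SU 3 F q), g * t * g⁻¹ = x) ∧
    Nat.card {x : ↥(Cfsg.SU 3 F q) // x ≠ 1 ∧ x * x = 1} = q ^ 2 * (q ^ 2 - q + 1) ∧
    Nat.card ↥(Subgroup.centralizer ({t} : Set ↥(Cfsg.SU 3 F q))) = q * (q + 1) * (q ^ 2 - 1) ∧
    ∀ x : ↥(Cfsg.SU 3 F q), x ≠ 1 → x * x = 1 → x ≠ t → Commute t x →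
      Nat.card {y : ↥(Cfsg.SU 3 F q) // y ≠ 1 ∧ y * y = 1 ∧ y ≠ t ∧ y ≠ x ∧ Commute t y ∧ Commute x y} = 1 := by
  classical
  obtain ⟨d, hd, hd1, hd2⟩ := exists_std hq hF
  have hconj : ∀ x : ↥(Cfsg.SU 3 F q), x ≠ 1 → x * x = 1 → IsConj t x := fun x hx hx2 =>
    (conj_std hq hF d t hd ht ht2).trans (conj_std hq hF d x hd hx hx2).symm
  have hcent : Nat.card ↥(Subgroup.centralizer ({t} : Set ↥(Cfsg.SU 3 F q))) = q * (q + 1) * (q ^ 2 - 1) := by
    obtain ⟨g, hg⟩ := isConj_iff.1 (conj_std hq hF d t hd ht ht2)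
    have e : ((Subgroup.centralizer ({t} : Set ↥(Cfsg.SU 3 F q))).map (MulAut.conj g).toMonoidHom) =
        Subgroup.centralizer ({d} : Set ↥(Cfsg.SU 3 F q)) := by
      ext x
      rw [Subgroup.mem_map_equiv, Subgroup.mem_centralizer_singleton_iff, Subgroup.mem_centralizer_singleton_iff,
        MulAut.conj_symm_apply, ← hg]
      constructor
      · intro h
        calc x * (g * t * g⁻¹) = g * ((g⁻¹ * x * g) * t) * g⁻¹ := by group
          _ = g * t * g⁻¹ * x := by rw [h]; group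
      · intro h
        calc g⁻¹ * x * g * t = g⁻¹ * (x * (g * t * g⁻¹)) * g := by group
          _ = t * (g⁻¹ * x * g) := by rw [h]; group
    rw [← Subgroup.card_map_of_injective (f := (MulAut.conj g).toMonoidHom) (MulAut.conj g).injective, e,
      card_cent hq hF d hd, Cfsg.Lib.Classical.UnitaryOrders.card_GU hF, Finset.prod_range_succ, Finset.prod_range_one,
      show q ^ 2 - 1 = (q + 1) * (q - 1) by simpa using Nat.sq_sub_sq q 1]
    simp [show ¬ Even 1 by decide]
    ring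
  refine ⟨fun x hx hx2 => isConj_iff.1 (hconj x hx hx2), ?_, hcent, ?_⟩
  · have e : {x : ↥(Cfsg.SU 3 F q) | x ≠ 1 ∧ x * x = 1} = MulAction.orbit (ConjAct ↥(Cfsg.SU 3 F q)) t := by
      ext x
      rw [ConjAct.mem_orbit_conjAct]
      constructor
      · rintro ⟨h1, h2⟩; exact (hconj x h1 h2).symm
      · intro h
        obtain ⟨g, hg⟩ := isConj_iff.1 h.symm
        refine ⟨fun e => ht ?_, ?_⟩
        · rw [e, mul_inv_eq_one, mul_eq_left] at hg; exact hg
        · rw [← hg]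
          calc g * t * g⁻¹ * (g * t * g⁻¹) = g * (t * t) * g⁻¹ := by group
            _ = 1 := by rw [ht2, mul_one, mul_inv_cancel]
    have hcard : Nat.card (MulAction.orbit (ConjAct ↥(Cfsg.SU 3 F q)) t) *
        Nat.card ↥(Subgroup.centralizer ({t} : Set ↥(Cfsg.SU 3 F q))) = Nat.card ↥(Cfsg.SU 3 F q) := by
      rw [Nat.card_congr (MulAction.orbitEquivQuotientStabilizer _ t), ConjAct.stabilizer_eq_centralizer]
      exact (Subgroup.card_eq_card_quotient_mul_card_subgroup _).symm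
    have hSU := Cfsg.Lib.Classical.UnitaryCentre.card_SU (n := 3) hF (by norm_num)
    rw [Cfsg.Lib.Classical.UnitaryOrders.card_GU hF, Finset.prod_range_succ, Finset.prod_range_succ,
      Finset.prod_range_one, ← hcard, hcent] at hSU
    show Nat.card ↥{x : ↥(Cfsg.SU 3 F q) | x ≠ 1 ∧ x * x = 1} = _
    rw [e]
    generalize Nat.card ↥(MulAction.orbit (ConjAct ↥(Cfsg.SU 3 F q)) t) = X at hSU ⊢
    simp [show ¬ Even 1 by decide, show Even 2 by decide] at hSU
    obtain ⟨k, hk⟩ : ∃ k, q = k + 1 := ⟨q - 1, by have := hq.pos; omega⟩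
    subst hk
    have e2 : (k + 1) ^ 2 - 1 = k * k + 2 * k := by rw [Nat.sub_eq_iff_eq_add (Nat.one_le_pow _ _ (by omega))]; ring
    have e3 : (k + 1) ^ 2 - (k + 1) + 1 = k * k + k + 1 := by
      rw [Nat.add_right_cancel_iff, Nat.sub_eq_iff_eq_add (Nat.le_self_pow two_ne_zero _)]; ring
    rw [e2] at hSU
    rw [e3]
    have hk0 : k ≠ 0 := by
      rintro rfl
      have := Fintype.one_lt_card (α := F)
      simp [hF] at this
    have hpos : 0 < ((k + 1 + 1) * (k + 1) * (k + 1 + 1)) * (k * k + 2 * k) := by positivity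
    apply Nat.eq_of_mul_eq_mul_left hpos
    linear_combination hSU
  · intro x hx hx2 hxt htx
    rw [Nat.card_eq_one_iff_unique]
    have hu : ∀ y : ↥(Cfsg.SU 3 F q), y ≠ 1 → y * y = 1 → y ≠ t → y ≠ x → Commute t y → Commute x y → y = t * x := by
      intro y h1 h2 h3 h4 h5 h6
      obtain ⟨b, p, hp⟩ := sign_data hq hF {t, x, y} (by simp [ht, hx, h1]) (by simp [ht2, hx2, h2])
        (by simp [htx, htx.symm, h5, h5.symm, h6, h6.symm])
      have hinj : ∀ u ∈ ({t, x, y} : Finset _), ∀ v ∈ ({t, x, y} : Finset _), p u = p v → u = v := fun u hu v hv h =>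
        toM_inj (eq_of_basis (hp u hu) (fun i => by rw [h]; exact hp v hv i))
      apply toM_inj
      refine eq_of_basis (hp y (by simp)) fun i => ?_
      show (toM t * toM x) *ᵥ b i = _
      rw [← Matrix.mulVec_mulVec, hp x (by simp), Matrix.mulVec_smul, hp t (by simp), smul_smul,
        pat_third (p t) (p x) (p y) (fun e => hxt (hinj t (by simp) x (by simp) e).symm)
          (fun e => h3 (hinj y (by simp) t (by simp) e)) (fun e => h4 (hinj y (by simp) x (by simp) e)),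
        mul_comm]
    refine ⟨⟨fun y z => Subtype.ext ?_⟩, ⟨⟨t * x, ?_, ?_, ?_, ?_, ?_, ?_⟩⟩⟩
    · rw [hu _ y.2.1 y.2.2.1 y.2.2.2.1 y.2.2.2.2.1 y.2.2.2.2.2.1 y.2.2.2.2.2.2,
        hu _ z.2.1 z.2.2.1 z.2.2.2.1 z.2.2.2.2.1 z.2.2.2.2.2.1 z.2.2.2.2.2.2]
    · intro e
      exact hxt ((eq_inv_of_mul_eq_one_right e).trans (inv_eq_of_mul_eq_one_right ht2))
    · rw [mul_assoc, ← mul_assoc x, ← htx.eq, mul_assoc t x, hx2, mul_one, ht2]
    · intro e; exact hx (mul_eq_left.1 e)
    · intro e; exact ht (mul_eq_right.1 e)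
    · exact (Commute.refl t).mul_right htx
    · exact htx.symm.mul_right (Commute.refl x)

end Cfsg.Agent.S2360
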