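import Cfsg.Statements.S2450
import Cfsg.Agent.Lib.Classical.Thompson.PSL2
-- import your own Cfsg.Agent.* helpers here

set_option autoImplicit false
open Cfsg

namespace Cfsg.Agent.S2450

/-- The Arad–Herzog conjecture for PSL(2,q): let F be a finite field with q ≥ 4 elements. For any two non-identity elements a, b of PSL(2,F), the set of products of a conjugate of a with a conjugate of b is not a single conjugacy class. -/
theorem result {F : Type*} [Field F] [Fintype F] (h4 : 4 ≤ Fintype.card F)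
    (a b : Matrix.ProjectiveSpecialLinearGroup (Fin 2) F) (ha : a ≠ 1) (hb : b ≠ 1) (c : Matrix.ProjectiveSpecialLinearGroup (Fin 2) F) :
    {g : Matrix.ProjectiveSpecialLinearGroup (Fin 2) F | ∃ u v : Matrix.ProjectiveSpecialLinearGroup (Fin 2) F, g = (u * a * u⁻¹) * (v * b * v⁻¹)} ≠ {g | IsConj c g} := by
  classical
  intro hset
  set π := QuotientGroup.mk' (Subgroup.center (Matrix.SpecialLinearGroup (Fin 2) F)) with hπ
  obtain ⟨A, rfl⟩ := QuotientGroup.mk'_surjective (Subgroup.center (Matrix.SpecialLinearGroup (Fin 2) F)) a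
  obtain ⟨B, rfl⟩ := QuotientGroup.mk'_surjective (Subgroup.center (Matrix.SpecialLinearGroup (Fin 2) F)) b
  obtain ⟨C', rfl⟩ := QuotientGroup.mk'_surjective (Subgroup.center (Matrix.SpecialLinearGroup (Fin 2) F)) c
  let tr2 := fun g : Matrix.SpecialLinearGroup (Fin 2) F => ((g : Matrix (Fin 2) (Fin 2) F)).trace ^ 2
  have htr : ∀ g k : Matrix.SpecialLinearGroup (Fin 2) F, IsConj (π k) (π g) → tr2 g = tr2 k := by
    intro g k hgk
    obtain ⟨w, hw⟩ := isConj_iff.1 hgk
    obtain ⟨w, rfl⟩ := QuotientGroup.mk'_surjective (Subgroup.center (Matrix.SpecialLinearGroup (Fin 2) F)) w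
    have hmem : (w * k * w⁻¹)⁻¹ * g ∈ Subgroup.center (Matrix.SpecialLinearGroup (Fin 2) F) := by
      rw [← QuotientGroup.ker_mk' (Subgroup.center (Matrix.SpecialLinearGroup (Fin 2) F)), MonoidHom.mem_ker]
      simp only [map_mul, map_inv] at hw ⊢
      rw [inv_mul_eq_one]; exact hw
    obtain ⟨r, hr, hrz⟩ := Matrix.SpecialLinearGroup.mem_center_iff.1 hmem
    rw [Fintype.card_fin] at hr
    have hg : g = (w * k * w⁻¹) * ((w * k * w⁻¹)⁻¹ * g) := by group
    show ((g : Matrix (Fin 2) (Fin 2) F)).trace ^ 2 = _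
    have hz : (((w * k * w⁻¹)⁻¹ * g : Matrix.SpecialLinearGroup (Fin 2) F) : Matrix (Fin 2) (Fin 2) F)
        = r • (1 : Matrix (Fin 2) (Fin 2) F) := by
      rw [← hrz, Matrix.scalar_apply, Matrix.smul_one_eq_diagonal]
    rw [hg, Matrix.SpecialLinearGroup.coe_mul, hz]
    simp only [Matrix.SpecialLinearGroup.coe_mul, Matrix.mul_smul, Matrix.mul_one, Matrix.trace_smul,
      smul_eq_mul, mul_pow, hr, one_mul, tr2]
    rw [Matrix.trace_mul_comm, ← Matrix.mul_assoc, ← Matrix.SpecialLinearGroup.coe_mul, inv_mul_cancel]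
    simp
  have norm : ∀ X : Matrix.SpecialLinearGroup (Fin 2) F, π X ≠ 1 →
      ∃ u : Matrix.SpecialLinearGroup (Fin 2) F,
        ((u * X * u⁻¹ : Matrix.SpecialLinearGroup (Fin 2) F) : Matrix (Fin 2) (Fin 2) F) 1 0 ≠ 0 := by
    intro X hX
    obtain ⟨P, hP, hXP⟩ := Thompson2.exists_companion _ X.2 (fun c hc => hX (by
      rw [← MonoidHom.mem_ker, QuotientGroup.ker_mk', Matrix.SpecialLinearGroup.mem_center_iff]
      refine ⟨c, ?_, by rw [hc]; rfl⟩
      have := X.2
      rw [hc, Matrix.det_diagonal] at this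
      simpa using this))
    set t := (X : Matrix (Fin 2) (Fin 2) F).trace
    set P' : Matrix (Fin 2) (Fin 2) F := P * Matrix.diagonal ![P.det⁻¹, 1] with hP'
    have hdet : P'.det = 1 := by
      rw [hP', Matrix.det_mul, Matrix.det_diagonal]; simp [Fin.prod_univ_two, hP]
    let v : Matrix.SpecialLinearGroup (Fin 2) F := ⟨P', hdet⟩
    refine ⟨v⁻¹, ?_⟩
    have hv : ((v⁻¹ * X * v⁻¹⁻¹ : Matrix.SpecialLinearGroup (Fin 2) F) : Matrix (Fin 2) (Fin 2) F) =
        !![0, -P.det; P.det⁻¹, t] := by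
      have hd : !![P.det⁻¹, 0; 0, 1] = Matrix.diagonal ![P.det⁻¹, (1 : F)] := by
        ext i j; fin_cases i <;> fin_cases j <;> simp
      have hXv : (X : Matrix (Fin 2) (Fin 2) F) * P' = P' * !![0, -P.det; P.det⁻¹, t] := by
        rw [hP', ← Matrix.mul_assoc, hXP, Matrix.mul_assoc, Matrix.mul_assoc]
        congr 1
        rw [← hd]
        ext i j; fin_cases i <;> fin_cases j <;>
          simp [Matrix.mul_apply, Fin.sum_univ_two] <;> field_simp
      rw [inv_inv, mul_assoc, Matrix.SpecialLinearGroup.coe_mul, Matrix.SpecialLinearGroup.coe_mul,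
        show (v : Matrix (Fin 2) (Fin 2) F) = P' from rfl, hXv, ← Matrix.mul_assoc,
        show P' = (v : Matrix (Fin 2) (Fin 2) F) from rfl, ← Matrix.SpecialLinearGroup.coe_mul,
        inv_mul_cancel, Matrix.SpecialLinearGroup.coe_one, Matrix.one_mul]
    rw [hv]; simpa using hP
  obtain ⟨u, hu⟩ := norm A ha
  obtain ⟨v, hv⟩ := norm B hb
  set a' := u * A * u⁻¹ with ha'
  set b' := v * B * v⁻¹ with hb'
  let T : F → Matrix.SpecialLinearGroup (Fin 2) F := fun x => ⟨!![1, x; 0, 1], by simp [Matrix.det_fin_two]⟩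
  have hprod : ∀ x : F, tr2 (a' * (T x * b' * (T x)⁻¹)) = tr2 C' := by
    intro x
    apply htr
    have : π (a' * (T x * b' * (T x)⁻¹)) ∈ {g | IsConj (π C') g} := by
      rw [← hset]
      exact ⟨π u, π (T x * v), by simp only [ha', hb', map_mul, map_inv, mul_inv_rev, ← hπ]; group⟩
    exact this
  set k := tr2 C'
  let e := fun i j => ((a' : Matrix (Fin 2) (Fin 2) F)) i j
  let g := fun i j => ((b' : Matrix (Fin 2) (Fin 2) F)) i j
  set f : Polynomial F := Polynomial.C (-(e 1 0 * g 1 0)) * Polynomial.X ^ 2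
    + Polynomial.C (e 0 0 * g 1 0 + e 1 0 * (g 1 1 - g 0 0) - e 1 1 * g 1 0) * Polynomial.X
    + Polynomial.C (e 0 0 * g 0 0 + e 0 1 * g 1 0 + e 1 0 * g 0 1 + e 1 1 * g 1 1) with hf
  have hfd : f.natDegree = 2 := by
    rw [hf]; exact Polynomial.natDegree_quadratic (neg_ne_zero.2 (mul_ne_zero hu hv))
  have hTi : ∀ x : F, ((T x)⁻¹ : Matrix.SpecialLinearGroup (Fin 2) F) = T (-x) := by
    intro x; apply inv_eq_of_mul_eq_one_right; apply Subtype.ext
    show !![1, x; 0, 1] * !![1, -x; 0, 1] = (1 : Matrix (Fin 2) (Fin 2) F)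
    ext i j; fin_cases i <;> fin_cases j <;> simp [Matrix.mul_apply, Fin.sum_univ_two]
  have hev : ∀ x : F, (f.eval x) ^ 2 = k := by
    intro x
    rw [← hprod x, hTi]
    show _ = (((a' * (T x * b' * T (-x)) : Matrix.SpecialLinearGroup (Fin 2) F) :
      Matrix (Fin 2) (Fin 2) F)).trace ^ 2
    congr 1
    simp only [Matrix.SpecialLinearGroup.coe_mul]
    show _ = ((a' : Matrix (Fin 2) (Fin 2) F) * (!![1, x; 0, 1] * (b' : Matrix (Fin 2) (Fin 2) F) * !![1, -x; 0, 1])).trace
    rw [hf]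
    simp [Matrix.trace_fin_two, Matrix.mul_apply, Matrix.vecMul, dotProduct, Fin.sum_univ_two, e, g]
    ring
  have count : ∀ h : Polynomial F, h ≠ 0 → (∀ x : F, h.eval x = 0) → Fintype.card F ≤ h.natDegree := by
    intro h h0 hz
    exact Polynomial.card_le_degree_of_subset_roots (Z := Finset.univ) (fun x _ =>
      (Polynomial.mem_roots h0).2 (hz x))
  obtain ⟨p, hp⟩ := CharP.exists F
  by_cases h2 : p = 2
  · subst h2
    obtain ⟨r, hr⟩ := FiniteField.isSquare_of_char_two (ringChar.eq F 2) k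
    have hz : ∀ x : F, (f - Polynomial.C r).eval x = 0 := by
      intro x
      rw [Polynomial.eval_sub, Polynomial.eval_C]
      apply eq_zero_of_pow_eq_zero (n := 2)
      rw [sub_eq_add_neg, CharTwo.neg_eq, CharTwo.add_sq, hev x, hr, ← pow_two, CharTwo.add_self_eq_zero]
    have hd : (f - Polynomial.C r).natDegree = 2 := by
      rw [Polynomial.natDegree_sub_C, hfd]
    have := count (f - Polynomial.C r) (Polynomial.ne_zero_of_natDegree_gt (n := 1) (by omega)) hz
    omega
  · have hd : (f ^ 2 - Polynomial.C k).natDegree = 4 := by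
      rw [Polynomial.natDegree_sub_C, Polynomial.natDegree_pow, hfd]
    have := count (f ^ 2 - Polynomial.C k) (Polynomial.ne_zero_of_natDegree_gt (n := 1) (by omega))
      (fun x => by simp [hev x])
    have hodd := FiniteField.odd_card_of_char_ne_two (F := F) (by rw [ringChar.eq F p]; exact h2)
    omega

end Cfsg.Agent.S2450
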