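import Cfsg.Statements.S2455
import Cfsg.Agent.Lib.Classical.Thompson.PSL2
-- import your own Cfsg.Agent.* helpers here

set_option autoImplicit false
open Cfsg

namespace Cfsg.Agent.S2455

/-- A strong covering result in the direction of Thompson's conjecture (non-identity elements) for PSL(2,q), q odd: let F be a finite field of odd characteristic p with at least 5 elements and let x ∈ PSL(2,F) have order greater than 2 and not divisible by p (so x is not unipotent). Then every non-identity element of PSL(2,F) is a product of two conjugates of x. -/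
theorem result {F : Type*} [Field F] [Fintype F] (p : ℕ) [Fact p.Prime] [CharP F p] (hp : p ≠ 2) (h5 : 5 ≤ Fintype.card F)
    (x : Matrix.ProjectiveSpecialLinearGroup (Fin 2) F) (hx2 : 2 < orderOf x) (hxp : ¬ p ∣ orderOf x) : ∀ g : Matrix.ProjectiveSpecialLinearGroup (Fin 2) F, g ≠ 1 → ∃ u v : Matrix.ProjectiveSpecialLinearGroup (Fin 2) F, g = (u * x * u⁻¹) * (v * x * v⁻¹) := by
  classical
  intro g hg
  obtain ⟨D, rfl⟩ := QuotientGroup.mk'_surjective (Subgroup.center (Matrix.SpecialLinearGroup (Fin 2) F)) x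
  obtain ⟨g, rfl⟩ := QuotientGroup.mk'_surjective (Subgroup.center (Matrix.SpecialLinearGroup (Fin 2) F)) g
  set π := QuotientGroup.mk' (Subgroup.center (Matrix.SpecialLinearGroup (Fin 2) F)) with hπ
  have hker : ∀ z : Matrix.SpecialLinearGroup (Fin 2) F, π z = 1 ↔ z = 1 ∨ z = -1 := by
    intro z
    rw [← MonoidHom.mem_ker, QuotientGroup.ker_mk', Matrix.SpecialLinearGroup.mem_center_iff]
    constructor
    · rintro ⟨r, hr, hz⟩
      rw [Fintype.card_fin] at hr
      rcases sq_eq_one_iff.1 hr with rfl | rfl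
      · left; apply Subtype.ext; rw [← hz, map_one]; rfl
      · right; apply Subtype.ext; rw [← hz, map_neg, map_one]; rfl
    · rintro (rfl | rfl)
      · exact ⟨1, by simp, by rw [map_one]; rfl⟩
      · exact ⟨-1, by simp, by rw [map_neg, map_one]; rfl⟩
  have hord : ∀ k : ℕ, D ^ k = 1 ∨ D ^ k = -1 → orderOf (π D) ∣ k := fun k h =>
    orderOf_dvd_of_pow_eq_one (by rw [← map_pow]; exact (hker _).2 h)
  have h2 : D ^ 2 ≠ 1 ∧ D ^ 2 ≠ -1 := by
    refine ⟨fun h => ?_, fun h => ?_⟩
    · have := Nat.le_of_dvd two_pos (hord 2 (Or.inl h)); omega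
    · have := Nat.le_of_dvd two_pos (hord 2 (Or.inr h)); omega
  have hp' : D ^ p ≠ 1 ∧ D ^ p ≠ -1 := by
    have hq := Fact.out (p := p.Prime)
    refine ⟨fun h => ?_, fun h => ?_⟩ <;>
      [have hd := hord p (Or.inl h); have hd := hord p (Or.inr h)] <;>
      · rcases (Nat.dvd_prime hq).1 hd with h' | h'
        · omega
        · exact hxp (by rw [h'])
  obtain ⟨ht0, ht⟩ := Thompson2.trace_facts p D h2 hp'
  have hns : ∀ c : F, (g : Matrix (Fin 2) (Fin 2) F) ≠ Matrix.diagonal fun _ => c := by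
    intro c hc
    apply hg
    rw [← MonoidHom.mem_ker, QuotientGroup.ker_mk', Matrix.SpecialLinearGroup.mem_center_iff]
    refine ⟨c, ?_, by rw [hc]; rfl⟩
    have := g.2
    rw [hc, Matrix.det_diagonal] at this
    simpa using this
  obtain ⟨P, hP, hgP⟩ := Thompson2.exists_companion _ g.2 hns
  set t := (D : Matrix (Fin 2) (Fin 2) F).trace
  set s := (g : Matrix (Fin 2) (Fin 2) F).trace
  suffices H : ∃ ε a b : F, (ε = 1 ∨ ε = -1) ∧
      a ^ 2 - s * a * b + b ^ 2 - t * a + ε * t * b + 1 = 0 by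
    obtain ⟨ε, a, b, hε, hab⟩ := H
    obtain ⟨u, v, w, hw, h⟩ := Thompson2.cover_of_point D g ht P hP s hgP ε a b hε hab
    refine ⟨π u, π v, ?_⟩
    rw [h, map_mul, (hker w).2 hw, one_mul]
    simp only [map_mul, map_inv]
  by_cases hs : s ^ 2 = 4
  swap
  · obtain ⟨a, b, hab⟩ := Thompson2.point t 1 s hs
    exact ⟨1, a, b, Or.inl rfl, hab⟩
  have h2F : (2 : F) ≠ 0 := Ring.two_ne_zero (by rw [ringChar.eq F p]; exact hp)
  have : (s - 2) * (s + 2) = 0 := by linear_combination hs
  rcases mul_eq_zero.1 this with h | h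
  · have hs2 : s = 2 := by linear_combination h
    refine ⟨-1, (2 * t)⁻¹, (2 * t)⁻¹, Or.inr rfl, ?_⟩
    rw [hs2]; field_simp; ring
  · have hs2 : s = -2 := by linear_combination h
    refine ⟨1, (2 * t)⁻¹, -(2 * t)⁻¹, Or.inl rfl, ?_⟩
    rw [hs2]; field_simp; ring

end Cfsg.Agent.S2455
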