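import Cfsg.Statements.S2459
import Cfsg.Agent.Lib.Classical.Thompson.PSL3F3
-- import your own Cfsg.Agent.* helpers here

set_option autoImplicit false
open Cfsg

namespace Cfsg.Agent.S2459

/-- A form of Thompson's conjecture for PSL(3,q), q > 2 (covering the non-identity elements), with a semisimple class: for F a finite field of characteristic p with more than 2 elements there is an element x of PSL(3,F) of order prime to p such that every non-identity element of PSL(3,F) is a product of two conjugates of x. -/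
theorem result {F : Type*} [Field F] [Fintype F] (p : ℕ) [Fact p.Prime] [CharP F p] (h3 : 3 ≤ Fintype.card F) :
    ∃ x : Matrix.ProjectiveSpecialLinearGroup (Fin 3) F, ¬ p ∣ orderOf x ∧ ∀ g : Matrix.ProjectiveSpecialLinearGroup (Fin 3) F, g ≠ 1 → ∃ u v : Matrix.ProjectiveSpecialLinearGroup (Fin 3) F, g = (u * x * u⁻¹) * (v * x * v⁻¹) := by
  classical
  have hF2 := CharP.cast_eq_zero F p
  suffices H : ∃ D : Matrix.SpecialLinearGroup (Fin 3) F, (∃ k : ℕ, D ^ k = 1 ∧ ¬ p ∣ k) ∧
      ∀ g : Matrix.SpecialLinearGroup (Fin 3) F,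
        (∀ c : F, (g : Matrix (Fin 3) (Fin 3) F) ≠ Matrix.diagonal fun _ => c) →
        ∃ u v, g = (u * D * u⁻¹) * (v * D * v⁻¹) by
    obtain ⟨D, ⟨k, hk, hpk⟩, hcov⟩ := H
    let π := QuotientGroup.mk' (Subgroup.center (Matrix.SpecialLinearGroup (Fin 3) F))
    refine ⟨π D, fun hd => hpk (hd.trans (orderOf_dvd_of_pow_eq_one ?_)), fun g hg => ?_⟩
    · rw [← map_pow, hk, map_one]
    · obtain ⟨g, rfl⟩ := QuotientGroup.mk'_surjective
        (Subgroup.center (Matrix.SpecialLinearGroup (Fin 3) F)) g
      obtain ⟨u, v, huv⟩ := hcov g (fun c hc => hg (by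
        rw [← MonoidHom.mem_ker, QuotientGroup.ker_mk']
        rw [Matrix.SpecialLinearGroup.mem_center_iff]
        refine ⟨c, ?_, by rw [hc]; rfl⟩
        have := g.2
        rw [hc, Matrix.det_diagonal] at this
        simpa using this))
      exact ⟨π u, π v, by simp only [← map_inv, ← map_mul]; exact congrArg π huv⟩
  have hp := Fact.out (p := p.Prime)
  rcases eq_or_lt_of_le h3 with h | h
  · have : Fact (Nat.Prime 3) := ⟨Nat.prime_three⟩
    have hp3 : p = 3 := by
      obtain ⟨n, -, hn⟩ := FiniteField.card F p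
      have : p ∣ 3 := by rw [h, hn]; exact dvd_pow_self p n.ne_zero
      exact (Nat.prime_dvd_prime_iff_eq hp Nat.prime_three).1 this
    subst hp3
    let e : ZMod 3 ≃+* F := ZMod.ringEquivOfPrime F Nat.prime_three h.symm
    let E := Matrix.SpecialLinearGroup.map (n := Fin 3) e.toRingHom
    let E' := Matrix.SpecialLinearGroup.map (n := Fin 3) e.symm.toRingHom
    have hEE : ∀ g, E (E' g) = g := fun g => by
      apply Matrix.SpecialLinearGroup.ext; intro i j
      exact e.apply_symm_apply _
    refine ⟨E Thompson.D13, ⟨13, by rw [← map_pow, Thompson.D13_pow, map_one], by decide⟩,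
      fun g hg => ?_⟩
    obtain ⟨u, v, huv⟩ := Thompson.cover_three (E' g) (fun c hc => hg (e c) (by
      rw [← hEE g]
      show ((E' g : Matrix (Fin 3) (Fin 3) (ZMod 3))).map e = _
      rw [hc, Matrix.diagonal_map (map_zero e)]))
    refine ⟨E u, E v, ?_⟩
    rw [← hEE g, huv]; simp only [map_mul, map_inv]
  · obtain ⟨ζ, hζ⟩ := IsCyclic.exists_ofOrder_eq_natCard (α := Fˣ)
    rw [Nat.card_eq_fintype_card, Fintype.card_units] at hζ
    have h2 : ∀ k : ℕ, 1 ≤ k → k ≤ 2 → ((ζ : F)) ^ k ≠ 1 := by
      intro k hk1 hk2 he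
      have : orderOf ζ ≤ k := orderOf_le_of_pow_eq_one (by omega) (Units.ext (by simpa using he))
      omega
    have hz := ζ.ne_zero
    let D : Matrix.SpecialLinearGroup (Fin 3) F :=
      ⟨Matrix.diagonal ![(ζ : F), (ζ : F)⁻¹, 1],
        by rw [Matrix.det_diagonal]; simp [Fin.prod_univ_three]⟩
    refine ⟨D, ⟨Fintype.card F - 1, ?_, ?_⟩, fun g hg => ?_⟩
    · apply Subtype.ext
      show ((D ^ (Fintype.card F - 1) : Matrix.SpecialLinearGroup (Fin 3) F) :
        Matrix (Fin 3) (Fin 3) F) = 1
      rw [Matrix.SpecialLinearGroup.coe_pow, ← Matrix.diagonal_one]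
      show (Matrix.diagonal ![(ζ : F), (ζ : F)⁻¹, 1]) ^ (Fintype.card F - 1) = _
      rw [Matrix.diagonal_pow]
      congr 1; funext i
      fin_cases i <;> simp [inv_pow, FiniteField.pow_card_sub_one_eq_one _ hz]
    · intro hd
      have : ((Fintype.card F - 1 : ℕ) : F) = 0 := (CharP.cast_eq_zero_iff F p _).2 hd
      rw [Nat.cast_sub (by omega), Nat.cast_one] at this
      simp at this
    · refine Thompson.cover_diag D (ζ : F) (ζ : F)⁻¹ 1 rfl ?_ ?_ ?_ g hg
      · intro he
        exact h2 2 (by omega) le_rfl (by rw [pow_two]; nth_rewrite 2 [he]; exact mul_inv_cancel₀ hz)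
      · intro he
        exact h2 1 le_rfl (by omega) (by rw [pow_one]; simpa using he)
      · intro he
        exact h2 1 le_rfl (by omega) (by rw [pow_one]; exact he)

end Cfsg.Agent.S2459
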