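import Cfsg.Statements.S2466
import Cfsg.Agent.Lib.Perm.AltOrders
-- import your own Cfsg.Agent.* helpers here

set_option autoImplicit false
open Cfsg

namespace Cfsg.Agent.S2466

/-- Adjacency of odd primes in the prime graph of the alternating groups: let r ≠ s be odd primes at most n. The alternating group of degree n has an element of order r·s if and only if r + s ≤ n. -/
theorem result (n r s : ℕ) (hr : r.Prime) (hs : s.Prime) (hr2 : r ≠ 2) (hs2 : s ≠ 2) (hrs : r ≠ s) (hrn : r ≤ n) (hsn : s ≤ n) :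
    (r * s ∈ Set.range (orderOf : alternatingGroup (Fin n) → ℕ)) ↔ r + s ≤ n := by
  have hr3 : 3 ≤ r := by have := hr.two_le; omega
  have hs3 : 3 ≤ s := by have := hs.two_le; omega
  constructor
  · intro h
    obtain ⟨m, hl, hsum, h2, -⟩ := Cfsg.Lib.Perm.AltOrders.type_of_mem h
    obtain ⟨a, ha, hra⟩ := Cfsg.Lib.Perm.AltOrders.exists_dvd_of_lcm hr (m := m) (hl ▸ dvd_mul_right r s)
    obtain ⟨b, hb, hsb⟩ := Cfsg.Lib.Perm.AltOrders.exists_dvd_of_lcm hs (m := m) (hl ▸ dvd_mul_left s r)
    have ha0 := h2 a ha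
    have hb0 := h2 b hb
    by_cases hab : a = b
    · subst hab
      have h1 := Nat.le_of_dvd (by omega) (((Nat.coprime_primes hr hs).2 hrs).mul_dvd_of_dvd_of_dvd hra hsb)
      have h3 := Multiset.single_le_sum (fun _ _ => Nat.zero_le _) a ha
      nlinarith
    · obtain ⟨m', rfl⟩ := Multiset.exists_cons_of_mem ha
      have hb' : b ∈ m' := (Multiset.mem_cons.1 hb).resolve_left (Ne.symm hab)
      have h3 := Multiset.single_le_sum (fun _ _ => Nat.zero_le _) b hb'
      have h4 := Nat.le_of_dvd (by omega) hra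
      have h5 := Nat.le_of_dvd (by omega) hsb
      rw [Multiset.sum_cons] at hsum
      omega
  · intro h
    have e := Cfsg.Lib.Perm.AltOrders.exists_of_type n {r, s} (by simpa using h) (by simp; omega)
      (Cfsg.Lib.Perm.AltOrders.even_add_card (by simp [hr.odd_of_ne_two hr2, hs.odd_of_ne_two hs2]))
    rwa [show ({r, s} : Multiset ℕ).lcm = r * s by
      simp [((Nat.coprime_primes hr hs).2 hrs).lcm_eq_mul, lcm_eq_nat_lcm]] at e

end Cfsg.Agent.S2466
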