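import Cfsg.Statements.S2467
import Cfsg.Agent.Lib.Perm.AltOrders
-- import your own Cfsg.Agent.* helpers here

set_option autoImplicit false
open Cfsg

namespace Cfsg.Agent.S2467

/-- Adjacency of 2 and an odd prime in the prime graph of the alternating groups: let r be an odd prime at most n, with n ≥ 4. The alternating group of degree n has an element of order 2r if and only if r + 4 ≤ n. -/
theorem result (n r : ℕ) (hn : 4 ≤ n) (hr : r.Prime) (hr2 : r ≠ 2) (hrn : r ≤ n) :
    (2 * r ∈ Set.range (orderOf : alternatingGroup (Fin n) → ℕ)) ↔ r + 4 ≤ n := by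
  have hr3 : 3 ≤ r := by have := hr.two_le; omega
  constructor
  · intro h
    obtain ⟨m, hl, hsum, h2, hev⟩ := Cfsg.Lib.Perm.AltOrders.type_of_mem h
    obtain ⟨a, ha, h2a⟩ := Cfsg.Lib.Perm.AltOrders.exists_dvd_of_lcm Nat.prime_two (m := m) (hl ▸ dvd_mul_right 2 r)
    obtain ⟨m', rfl⟩ := Multiset.exists_cons_of_mem ha
    obtain ⟨c, hc, h2c⟩ : ∃ c ∈ m', 2 ∣ c := by
      by_contra! hno
      have h1 := Cfsg.Lib.Perm.AltOrders.even_add_card (m := m') fun x hx => Nat.odd_iff.2 (by have := hno x hx; omega)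
      rw [Nat.even_iff] at h1 hev
      rw [Multiset.sum_cons, Multiset.card_cons] at hev
      omega
    obtain ⟨m'', rfl⟩ := Multiset.exists_cons_of_mem hc
    obtain ⟨b, hb, hrb⟩ := Cfsg.Lib.Perm.AltOrders.exists_dvd_of_lcm hr (m := a ::ₘ c ::ₘ m'') (hl ▸ dvd_mul_left r 2)
    have ha0 := h2 a (by simp)
    have hc0 := h2 c (by simp)
    have hb0 := h2 b hb
    have hcop : Nat.Coprime 2 r := (Nat.coprime_primes Nat.prime_two hr).2 (Ne.symm hr2)
    simp only [Multiset.sum_cons] at hsum
    simp only [Multiset.mem_cons] at hb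
    rcases hb with rfl | rfl | hb
    · have := Nat.le_of_dvd (by omega) (hcop.mul_dvd_of_dvd_of_dvd h2a hrb)
      omega
    · have := Nat.le_of_dvd (by omega) (hcop.mul_dvd_of_dvd_of_dvd h2c hrb)
      omega
    · have h3 := Multiset.single_le_sum (fun _ _ => Nat.zero_le _) b hb
      have h4 := Nat.le_of_dvd (by omega) hrb
      omega
  · intro h
    have e := Cfsg.Lib.Perm.AltOrders.exists_of_type n {2, 2, r} (by simp; omega) (by simp; omega)
      (by simp [parity_simps, hr.odd_of_ne_two hr2])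
    rwa [show ({2, 2, r} : Multiset ℕ).lcm = 2 * r by
      simp [lcm_eq_nat_lcm, ((Nat.coprime_primes Nat.prime_two hr).2 (Ne.symm hr2)).lcm_eq_mul]] at e

end Cfsg.Agent.S2467
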