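import Cfsg.Statements.S2471
import Cfsg.Agent.Lib.Classical.PSLTwoOdd
import Cfsg.Agent.Lib.Classical.TwoByTwo
-- import your own Cfsg.Agent.* helpers here

set_option autoImplicit false
open Cfsg Cfsg.Lib.Classical

namespace Cfsg.Agent.S2471

/-- In PSL(2,q) with q odd, the characteristic p is isolated from 2 in the prime graph: for F a finite field of odd characteristic p with at least 5 elements, PSL(2,F) has no element of order 2p. -/
theorem result {F : Type*} [Field F] [Fintype F] (p : ℕ) [Fact p.Prime] [CharP F p] (hp : p ≠ 2) (h5 : 5 ≤ Fintype.card F) (g : Matrix.ProjectiveSpecialLinearGroup (Fin 2) F) :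
    orderOf g ≠ 2 * p := by
  intro hg
  have h2 : (2 : F) ≠ 0 := by
    intro e
    have h : ((2 : ℕ) : F) = 0 := by exact_mod_cast e
    rw [CharP.cast_eq_zero_iff F p] at h
    exact hp ((Nat.prime_dvd_prime_iff_eq Fact.out Nat.prime_two).1 h)
  haveI : NeZero (2 : F) := ⟨h2⟩
  have hp0 : 0 < p := (Fact.out : p.Prime).pos
  have ha : orderOf (g ^ p) = 2 := by
    rw [orderOf_pow, hg, Nat.gcd_mul_left_left, Nat.mul_div_cancel _ hp0]
  have hb : orderOf (g ^ 2) = p := by
    rw [orderOf_pow, hg, Nat.gcd_mul_right_left, Nat.mul_div_cancel_left _ two_pos]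
  obtain ⟨A, hA⟩ := QuotientGroup.mk'_surjective (Subgroup.center (Matrix.SpecialLinearGroup (Fin 2) F)) (g ^ p)
  obtain ⟨B, hB⟩ := QuotientGroup.mk'_surjective (Subgroup.center (Matrix.SpecialLinearGroup (Fin 2) F)) (g ^ 2)
  rw [← hA, Cfsg.Lib.PSLTwoOdd.orderOf_mk_eq_two] at ha
  have hBp : B ^ p = 1 ∨ B ^ p = -1 := by
    rw [← Cfsg.Lib.PSLTwoOdd.mk_eq_mk_iff, map_pow, map_one, hB]
    exact hb ▸ pow_orderOf_eq_one _
  obtain ⟨C, hC, hCp⟩ : ∃ C, (C = B ∨ C = -B) ∧ C ^ p = 1 := by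
    rcases hBp with h | h
    · exact ⟨B, Or.inl rfl, h⟩
    · exact ⟨-B, Or.inr rfl, by rw [((Fact.out : p.Prime).odd_of_ne_two hp).neg_pow, h, neg_neg]⟩
  have hC1 : C ≠ 1 := by
    intro e
    have : g ^ 2 = 1 := by
      rw [← hB, ← map_one (QuotientGroup.mk' (Subgroup.center (Matrix.SpecialLinearGroup (Fin 2) F))), Cfsg.Lib.PSLTwoOdd.mk_eq_mk_iff]
      rcases hC with h | h
      · exact Or.inl (h ▸ e)
      · exact Or.inr (by rw [← e, h, neg_neg])
    rw [this, orderOf_one] at hb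
    exact (Fact.out : p.Prime).ne_one hb.symm
  have hAC : A * C = C * A ∨ A * C = -(C * A) := by
    rw [← Cfsg.Lib.PSLTwoOdd.mk_eq_mk_iff]
    have e : QuotientGroup.mk' _ C = QuotientGroup.mk' (Subgroup.center (Matrix.SpecialLinearGroup (Fin 2) F)) B :=
      (Cfsg.Lib.PSLTwoOdd.mk_eq_mk_iff C B).2 hC
    rw [map_mul, map_mul, hA, e, hB, ← pow_add, ← pow_add, add_comm]
  let M : Matrix (Fin 2) (Fin 2) F := C
  let N : Matrix (Fin 2) (Fin 2) F := A
  have hnil : IsNilpotent (M - 1) := ⟨p, by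
    rw [sub_pow_char_of_commute p (Commute.one_right M), one_pow, ← Matrix.SpecialLinearGroup.coe_pow, hCp,
      Matrix.SpecialLinearGroup.coe_one, sub_self]⟩
  have hN2 : (M - 1) * (M - 1) = 0 := by
    have h := (M - 1).aeval_self_charpoly
    rw [Matrix.isNilpotent_charpoly_sub_pow_of_isNilpotent hnil |> fun h => sub_eq_zero.1 h.eq_zero] at h
    simpa [pow_two] using h
  have hM1 : M ≠ 1 := fun e => hC1 (Subtype.ext e)
  obtain ⟨P, hP, hPM⟩ := TwoByTwo.exists_jordan hN2 hM1
  have hPM' := hPM 1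
  rw [one_smul] at hPM'
  have hPu : IsUnit P.det := isUnit_iff_ne_zero.2 hP
  set A' := P⁻¹ * N * P
  have hsq : A' * A' = -1 := by
    have hNN : N * N = -1 := by
      have := congrArg (fun X : Matrix.SpecialLinearGroup (Fin 2) F => (X : Matrix (Fin 2) (Fin 2) F)) ha
      simpa [pow_two] using this
    calc A' * A' = P⁻¹ * (N * (P * P⁻¹) * N) * P := by simp only [A', mul_assoc]
      _ = _ := by rw [Matrix.mul_nonsing_inv _ hPu, mul_one, hNN]; simp [Matrix.nonsing_inv_mul _ hPu]
  have hdet : A'.det = 1 := by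
    simp only [A', Matrix.det_mul, show N.det = 1 from A.2, mul_one, ← Matrix.det_mul P⁻¹, Matrix.nonsing_inv_mul _ hPu,
      Matrix.det_one]
  have hMP : P⁻¹ * M * P = !![1, 1; 0, 1] := by
    rw [mul_assoc, hPM', ← mul_assoc, Matrix.nonsing_inv_mul _ hPu, one_mul]
  have hcomm : A' * !![1, 1; 0, 1] = !![1, 1; 0, 1] * A' ∨ A' * !![1, 1; 0, 1] = -(!![1, 1; 0, 1] * A') := by
    rw [← hMP]
    have l : ∀ X Y : Matrix (Fin 2) (Fin 2) F, P⁻¹ * X * P * (P⁻¹ * Y * P) = P⁻¹ * (X * Y) * P := fun X Y => by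
      calc P⁻¹ * X * P * (P⁻¹ * Y * P) = P⁻¹ * X * (P * P⁻¹) * Y * P := by simp only [mul_assoc]
        _ = _ := by rw [Matrix.mul_nonsing_inv _ hPu, mul_one, mul_assoc P⁻¹]
    rw [l, l]
    rcases hAC with e | e
    · left; rw [show N * M = M * N from congrArg Subtype.val e]
    · right
      rw [show N * M = -(M * N) from (congrArg Subtype.val e).trans (by simp [N, M]), Matrix.mul_neg, Matrix.neg_mul]
  generalize A' = X at hsq hdet hcomm
  rw [Matrix.eta_fin_two X] at hsq hdet hcomm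
  rw [Matrix.det_fin_two_of] at hdet
  rw [Matrix.mul_fin_two] at hsq
  have s00 := congrFun (congrFun hsq 0) 0
  simp at s00
  simp only [Matrix.mul_fin_two] at hcomm
  rcases hcomm with e | e
  · have e00 := congrFun (congrFun e 0) 0
    have e01 := congrFun (congrFun e 0) 1
    simp at e00 e01
    have h10 : X 1 0 = 0 := by linear_combination (norm := ring_nf) e00
    have h11 : X 1 1 = X 0 0 := by linear_combination (norm := ring_nf) -e01
    rw [h10, h11] at hdet
    rw [h10] at s00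
    exact h2 (by linear_combination s00 - hdet)
  · have e00 := congrFun (congrFun e 0) 0
    have e10 := congrFun (congrFun e 1) 0
    simp at e00 e10
    have h10 : X 1 0 = 0 := (mul_eq_zero.1 (show (2 : F) * X 1 0 = 0 by linear_combination e10)).resolve_left h2
    have h00 : X 0 0 = 0 := (mul_eq_zero.1 (show (2 : F) * X 0 0 = 0 by linear_combination e00 - h10)).resolve_left h2
    rw [h10, h00] at hdet
    simp at hdet

end Cfsg.Agent.S2471
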