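import Cfsg.Statements.S2485
import Mathlib

set_option autoImplicit false
open Cfsg

namespace Cfsg.Agent.S2485

open Matrix
open scoped Pointwise

section
variable {F : Type*} [Field F]

theorem span_of_commute {M N : Matrix (Fin 2) (Fin 2) F} (hM : ∀ x : F, M ≠ x • 1) (h : N * M = M * N) :
    ∃ x y : F, N = x • (1 : Matrix (Fin 2) (Fin 2) F) + y • M := by
  have e00 := congrFun (congrFun h 0) 0
  have e01 := congrFun (congrFun h 0) 1
  have e10 := congrFun (congrFun h 1) 0
  simp only [Matrix.mul_apply, Fin.sum_univ_two] at e00 e01 e10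
  by_cases hb : M 0 1 = 0
  · by_cases hc : M 1 0 = 0
    · have had : M 0 0 - M 1 1 ≠ 0 := by
        intro h0
        apply hM (M 0 0)
        ext i j
        fin_cases i <;> fin_cases j <;> simp [hb, hc]
        linear_combination -h0
      have hN01 : N 0 1 = 0 := by
        have : N 0 1 * (M 0 0 - M 1 1) = 0 := by linear_combination (norm := (simp [hb]; ring)) -e01
        exact (mul_eq_zero.mp this).resolve_right had
      have hN10 : N 1 0 = 0 := by
        have : N 1 0 * (M 0 0 - M 1 1) = 0 := by linear_combination (norm := (simp [hc]; ring)) e10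
        exact (mul_eq_zero.mp this).resolve_right had
      refine ⟨N 0 0 - (N 0 0 - N 1 1) / (M 0 0 - M 1 1) * M 0 0, (N 0 0 - N 1 1) / (M 0 0 - M 1 1), ?_⟩
      ext i j
      fin_cases i <;> fin_cases j <;> simp [hb, hc, hN01, hN10]
      field_simp
      ring
    · refine ⟨N 0 0 - N 1 0 / M 1 0 * M 0 0, N 1 0 / M 1 0, ?_⟩
      ext i j
      fin_cases i <;> fin_cases j <;> simp [hb]
      · have : N 0 1 * M 1 0 = 0 := by linear_combination (norm := (simp [hb]; ring)) e00
        exact (mul_eq_zero.mp this).resolve_right hc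
      · field_simp

      · field_simp
        linear_combination e10
  · refine ⟨N 0 0 - N 0 1 / M 0 1 * M 0 0, N 0 1 / M 0 1, ?_⟩
    ext i j
    fin_cases i <;> fin_cases j <;> simp
    · field_simp

    · field_simp
      linear_combination -e00
    · field_simp
      linear_combination -e01

theorem sq_of_kernel {g N : Matrix (Fin 2) (Fin 2) F} {c : F} (hg : g * g = c • 1) (hN : N ≠ 0)
    (hd : N.det = 0) (ha : g * N = -(N * g)) : ∃ s : F, c = s * s := by
  obtain ⟨v, hv, hNv⟩ := Matrix.exists_mulVec_eq_zero_iff.mpr hd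
  have hw : N *ᵥ (g *ᵥ v) = 0 := by
    rw [mulVec_mulVec, show N * g = -(g * N) by rw [ha, neg_neg], neg_mulVec, ← mulVec_mulVec, hNv,
      mulVec_zero, neg_zero]
  set w := g *ᵥ v with hwdef
  let B : Matrix (Fin 2) (Fin 2) F := !![v 0, w 0; v 1, w 1]
  have hB : N * B = 0 := by
    have a0 := congrFun hNv 0; have a1 := congrFun hNv 1
    have b0 := congrFun hw 0; have b1 := congrFun hw 1
    simp only [mulVec, dotProduct, Fin.sum_univ_two, Pi.zero_apply] at a0 a1 b0 b1
    ext i j
    fin_cases i <;> fin_cases j <;> simp [B, Matrix.mul_apply, Fin.sum_univ_two, a0, a1, b0, b1]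
  have hBd : B.det = 0 := by
    by_contra h0
    apply hN
    calc N = N * B * B⁻¹ := by rw [mul_assoc, mul_nonsing_inv _ (Ne.isUnit h0), mul_one]
      _ = 0 := by rw [hB, zero_mul]
  simp only [B, det_fin_two_of] at hBd
  have hcv : g *ᵥ w = c • v := by rw [hwdef, mulVec_mulVec, hg, smul_mulVec, one_mulVec]
  obtain ⟨s, hs⟩ : ∃ s : F, w = s • v := by
    by_cases h0 : v 0 = 0
    · have h1 : v 1 ≠ 0 := fun h1 => hv (by ext i; fin_cases i <;> assumption)
      refine ⟨w 1 / v 1, ?_⟩
      ext i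
      fin_cases i <;> simp [h0]
      · have : w 0 * v 1 = 0 := by linear_combination (norm := (simp [h0])) -hBd
        exact (mul_eq_zero.mp this).resolve_right h1
      · field_simp
    · refine ⟨w 0 / v 0, ?_⟩
      ext i
      fin_cases i <;> simp
      · field_simp
      · field_simp
        linear_combination hBd
  refine ⟨s, ?_⟩
  rw [hs, mulVec_smul, ← hwdef, hs, smul_smul] at hcv
  obtain ⟨i, hi⟩ := Function.ne_iff.mp hv
  exact (mul_right_cancel₀ hi (congrFun hcv i)).symm

/-- The bound on the centralizer of an involution of `PGL₂`. -/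
theorem card_bound [Fintype F] (g : GL (Fin 2) F) {c : F}
    (hg : (g : Matrix (Fin 2) (Fin 2) F) * g = c • 1)
    (hns : ∀ x : F, (g : Matrix (Fin 2) (Fin 2) F) ≠ x • 1) :
    Nat.card (Subgroup.centralizer ({g} : Set (GL (Fin 2) F))) + 1 ≤ Fintype.card F ^ 2 ∧
      ((∃ s : F, c = s * s) → (2 : F) ≠ 0 →
        Nat.card (Subgroup.centralizer ({g} : Set (GL (Fin 2) F))) ≤ (Fintype.card F - 1) ^ 2) := by
  classical
  set M : Matrix (Fin 2) (Fin 2) F := ↑g with hM
  have hsp : ∀ h : Subgroup.centralizer ({g} : Set (GL (Fin 2) F)), ∃ x y : F,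
      ((h : GL (Fin 2) F) : Matrix (Fin 2) (Fin 2) F) = x • 1 + y • M := fun h =>
    span_of_commute hns (congrArg (fun u : GL (Fin 2) F => (u : Matrix (Fin 2) (Fin 2) F))
      (Subgroup.mem_centralizer_singleton_iff.mp h.2))
  choose X Y hXY using hsp
  have hinj : Function.Injective (fun h => (X h, Y h)) := fun a b hab => by
    apply Subtype.ext; apply Units.ext
    rw [hXY a, hXY b, show X a = X b from (Prod.ext_iff.mp hab).1, show Y a = Y b from (Prod.ext_iff.mp hab).2]
  have hne : ∀ h, ((h : GL (Fin 2) F) : Matrix (Fin 2) (Fin 2) F) ≠ 0 := fun h => (h : GL (Fin 2) F).ne_zero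
  constructor
  · have h0 : ((0 : F), (0 : F)) ∉ Set.range (fun h => (X h, Y h)) := by
      rintro ⟨h, hh⟩
      obtain ⟨hx, hy⟩ := Prod.ext_iff.mp hh
      refine hne h ?_
      rw [hXY h, show X h = 0 from hx, show Y h = 0 from hy, zero_smul, zero_smul, add_zero]
    have h1 : Nat.card (Subgroup.centralizer ({g} : Set (GL (Fin 2) F))) < Nat.card (F × F) := by
      rw [← Nat.card_range_of_injective hinj, Nat.card_coe_set_eq, ← Set.ncard_univ]
      exact Set.ncard_lt_ncard ⟨Set.subset_univ _, fun h => h0 (h (Set.mem_univ _))⟩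
    rw [Nat.card_prod, Nat.card_eq_fintype_card (α := F), ← sq] at h1
    exact h1
  · rintro ⟨s, rfl⟩ h2
    have hsing : ∀ r : F, r * r = s * s → ∀ y : F, ¬ IsUnit (y • (M - r • 1)) := by
      intro r hr y hu
      have h1 : (y • (M - r • 1)) * (M + r • 1) = 0 := by
        rw [smul_mul_assoc, sub_mul, mul_add, mul_add, hg]
        simp only [Matrix.mul_smul, smul_mul_assoc, mul_one, one_mul, smul_smul, hr]
        rw [add_comm (r • M), sub_self, smul_zero]
      have h2 : M + r • 1 = 0 := hu.mul_right_eq_zero.mp h1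
      exact hns (-r) (by rw [neg_smul]; exact eq_neg_of_add_eq_zero_left h2)
    have hnz : ∀ h, X h + Y h * s ≠ 0 ∧ X h - Y h * s ≠ 0 := by
      intro h
      constructor <;> intro h0
      · apply hsing s rfl (Y h)
        rw [show Y h • (M - s • 1) = X h • 1 + Y h • M by
          rw [eq_neg_of_add_eq_zero_left h0, smul_sub, smul_smul, neg_smul]; abel, ← hXY h]
        exact (h : GL (Fin 2) F).isUnit
      · apply hsing (-s) (by ring) (Y h)
        rw [show Y h • (M - (-s) • 1) = X h • 1 + Y h • M by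
          rw [sub_eq_zero.mp h0, smul_sub, smul_smul, mul_neg, neg_smul]; abel, ← hXY h]
        exact (h : GL (Fin 2) F).isUnit
    have hs0 : s ≠ 0 := by
      rintro rfl
      have : IsUnit ((g : Matrix (Fin 2) (Fin 2) F) * g) := g.isUnit.mul g.isUnit
      rw [hg, mul_zero, zero_smul] at this
      exact not_isUnit_zero this
    have h1 : Nat.card (Subgroup.centralizer ({g} : Set (GL (Fin 2) F))) ≤ Nat.card (Fˣ × Fˣ) :=
      Nat.card_le_card_of_injective (fun h => (Units.mk0 _ (hnz h).1, Units.mk0 _ (hnz h).2)) fun a b hab => by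
        obtain ⟨e1, e2⟩ := Prod.ext_iff.mp hab
        simp only [Units.ext_iff, Units.val_mk0] at e1 e2
        apply hinj
        have hx : (2 : F) * (X a - X b) = 0 := by linear_combination e1 + e2
        have hy : (2 * s) * (Y a - Y b) = 0 := by linear_combination e1 - e2
        exact Prod.ext (sub_eq_zero.mp ((mul_eq_zero.mp hx).resolve_left h2))
          (sub_eq_zero.mp ((mul_eq_zero.mp hy).resolve_left (mul_ne_zero h2 hs0)))
    rw [Nat.card_prod, Nat.card_units, ← sq, Nat.card_eq_fintype_card (α := F)] at h1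
    exact h1

end

variable {q k : ℕ} [Fact q.Prime]

local notation "GG" => GL (Fin 2) (ZMod q)
local notation "PP" => GL (Fin 2) (ZMod q) ⧸ Subgroup.center (GL (Fin 2) (ZMod q))

theorem central_iff (g : GG) :
    g ∈ Subgroup.center GG ↔ ∃ x : ZMod q, (g : Matrix (Fin 2) (Fin 2) (ZMod q)) = x • 1 := by
  constructor
  · intro h
    rw [Matrix.GeneralLinearGroup.center_eq_range_scalar] at h
    obtain ⟨x, rfl⟩ := h
    exact ⟨x, by rw [Matrix.smul_one_eq_diagonal]; rfl⟩
  · rintro ⟨x, hx⟩
    rw [Subgroup.mem_center_iff]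
    intro u
    apply Units.ext
    simp [hx]

/-- In `PGL₂(q)` a Sylow subgroup is the centralizer of a central involution. -/
theorem sylow_is_centralizer (hk : q + 1 = 2 ^ k) (hq : 7 ≤ q) (H : Sylow 2 PP) :
    ∃ (g : GG) (c : ZMod q), (g : Matrix (Fin 2) (Fin 2) (ZMod q)) * g = c • 1 ∧ (¬ ∃ s, c = s * s) ∧
      g ∉ Subgroup.center GG ∧ (QuotientGroup.mk g : PP) ∈ (H : Subgroup PP) ∧
      ∀ t : PP, t * QuotientGroup.mk g = QuotientGroup.mk g * t → t ∈ (H : Subgroup PP) := by
  classical
  have hp : q.Prime := Fact.out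
  have hk3 : 3 ≤ k := by
    by_contra h
    have : 2 ^ k ≤ 2 ^ 2 := Nat.pow_le_pow_right (by norm_num) (by omega)
    omega
  obtain ⟨j, rfl⟩ : ∃ j, k = j + 2 := ⟨k - 2, by omega⟩
  have hZ : Nat.card (Subgroup.center GG) = q - 1 := by
    rw [Matrix.GeneralLinearGroup.center_eq_range_scalar]
    rw [← Nat.card_congr (MonoidHom.ofInjective (f := Matrix.GeneralLinearGroup.scalar (Fin 2) (R := ZMod q)) (fun a b h => Units.ext (by simpa using congrArg (fun u : GL (Fin 2) (ZMod q) => (u : Matrix (Fin 2) (Fin 2) (ZMod q)) 0 0) h))).toEquiv]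
    rw [Nat.card_units, Nat.card_eq_fintype_card, ZMod.card]
  have hG : Nat.card PP * (q - 1) = (q - 1) * (q * ((q - 1) * (q + 1))) := by
    rw [← hZ, ← Subgroup.card_eq_card_quotient_mul_card_subgroup, Matrix.card_GL_field, hZ]
    simp only [Fin.prod_univ_two, ZMod.card, Fin.val_zero, Fin.val_one, pow_zero, pow_one]
    obtain ⟨m, rfl⟩ : ∃ m, q = m + 1 := ⟨q - 1, by omega⟩
    rw [show (m + 1) ^ 2 - 1 = m * (m + 2) by ring_nf; omega,
      show (m + 1) ^ 2 - (m + 1) = m * (m + 1) by ring_nf; omega, Nat.add_sub_cancel]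
    ring
  have hP : Nat.card PP = q * ((q - 1) * (q + 1)) :=
    Nat.eq_of_mul_eq_mul_right (show 0 < q - 1 by omega) (hG.trans (mul_comm _ _))
  obtain ⟨i, hi⟩ : ∃ i, q - 1 = 2 * (2 * i + 1) := by
    refine ⟨2 ^ j - 1, ?_⟩
    have : 2 ^ (j + 2) = 4 * 2 ^ j := by rw [pow_add]; ring
    have := Nat.one_le_two_pow (n := j)
    omega
  have hfac : (Nat.card PP).factorization 2 = j + 3 := by
    rw [hP, hi, hk, show q * (2 * (2 * i + 1) * 2 ^ (j + 2)) = 2 ^ (j + 3) * (q * (2 * i + 1)) by ring,
      Nat.factorization_mul (by positivity) (by positivity), Finsupp.add_apply,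
      Nat.Prime.factorization_pow Nat.prime_two, Finsupp.single_eq_same,
      Nat.factorization_eq_zero_of_not_dvd, add_zero]
    intro h
    rcases (Nat.prime_two.dvd_mul).mp h with h | h
    · have := (Nat.prime_dvd_prime_iff_eq Nat.prime_two hp).mp h
      omega
    · omega
  have hH : Nat.card (H : Subgroup PP) = 2 * (q + 1) := by
    rw [H.card_eq_multiplicity, hfac, hk]; ring
  haveI : Nontrivial (H : Subgroup PP) := (Subgroup.nontrivial_iff_ne_bot _).mpr fun h => by
    have hHbot : Nat.card (H : Subgroup PP) = 1 := by rw [h, Subgroup.card_bot]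
    omega
  haveI := H.isPGroup'.center_nontrivial
  have hd : 2 ∣ Nat.card (Subgroup.center (H : Subgroup PP)) := by
    obtain ⟨n, hn0, hn⟩ := (H.isPGroup'.to_subgroup (Subgroup.center (H : Subgroup PP))).nontrivial_iff_card.mp
      H.isPGroup'.center_nontrivial
    rw [hn]; exact dvd_pow_self 2 (by omega)
  obtain ⟨z, hz⟩ := exists_prime_orderOf_dvd_card' 2 hd
  obtain ⟨g, hg⟩ := QuotientGroup.mk_surjective ((z : (H : Subgroup PP)) : PP)
  have hz2 : z ^ 2 = 1 := orderOf_dvd_iff_pow_eq_one.mp (dvd_of_eq hz)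
  have hgZ : g ∉ Subgroup.center GG := by
    intro h
    have h1 : ((z : (H : Subgroup PP)) : PP) = 1 := by rw [← hg]; exact (QuotientGroup.eq_one_iff g).mpr h
    rw [show z = 1 from Subtype.ext (Subtype.ext h1), orderOf_one] at hz
    omega
  have hgg : g * g ∈ Subgroup.center GG := by
    rw [← QuotientGroup.eq_one_iff, QuotientGroup.mk_mul, hg, ← sq]
    simpa using congrArg (fun x : Subgroup.center (H : Subgroup PP) => ((x : (H : Subgroup PP)) : PP)) hz2
  obtain ⟨c, hc⟩ := (central_iff _).mp hgg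
  rw [Units.val_mul] at hc
  have hns : ∀ x : ZMod q, (g : Matrix (Fin 2) (Fin 2) (ZMod q)) ≠ x • 1 := fun x hx => hgZ ((central_iff g).mpr ⟨x, hx⟩)
  have hc0 : c ≠ 0 := by
    rintro rfl
    have : IsUnit ((g : Matrix (Fin 2) (Fin 2) (ZMod q)) * g) := g.isUnit.mul g.isUnit
    rw [hc, zero_smul] at this
    exact not_isUnit_zero this
  -- the centralizer
  set C : Subgroup PP := Subgroup.centralizer ({(QuotientGroup.mk g : PP)} : Set PP) with hC
  have hHC : (H : Subgroup PP) ≤ C := by
    intro t ht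
    rw [Subgroup.mem_centralizer_singleton_iff, hg]
    exact congrArg Subtype.val (Subgroup.mem_center_iff.mp z.2 ⟨t, ht⟩)
  set K : Subgroup GG := C.comap (QuotientGroup.mk' (Subgroup.center GG)) with hK
  set K₀ : Subgroup GG := Subgroup.centralizer ({g} : Set GG) with hK₀
  have hsign : ∀ h : K, (h : GG) * g = g * h ∨ ((h : GG) : Matrix (Fin 2) (Fin 2) (ZMod q)) * g = -((g : Matrix (Fin 2) (Fin 2) (ZMod q)) * (h : GG)) := by
    intro h
    have h1 : ((h : GG) * g) * ((g * (h : GG)))⁻¹ ∈ Subgroup.center GG := by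
      rw [← QuotientGroup.eq_one_iff]
      simp only [QuotientGroup.mk_mul, QuotientGroup.mk_inv]
      rw [mul_inv_eq_one]
      exact Subgroup.mem_centralizer_singleton_iff.mp h.2
    obtain ⟨l, hl⟩ := (central_iff _).mp h1
    set A : Matrix (Fin 2) (Fin 2) (ZMod q) := ((h : GG) : Matrix (Fin 2) (Fin 2) (ZMod q)) with hA
    set M : Matrix (Fin 2) (Fin 2) (ZMod q) := (g : Matrix (Fin 2) (Fin 2) (ZMod q)) with hM
    have e : A * M = l • (M * A) := by
      have e1 := congrArg (fun u : Matrix (Fin 2) (Fin 2) (ZMod q) => u * ((g * (h : GG) : GG) : Matrix (Fin 2) (Fin 2) (ZMod q))) hl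
      simp only [← Units.val_mul, inv_mul_cancel_right] at e1
      simpa [Units.val_mul] using e1
    have e2 : c • A = (l * l) • (c • A) := by
      calc c • A = A * (M * M) := by rw [hc, Matrix.mul_smul, mul_one]
        _ = (A * M) * M := (mul_assoc _ _ _).symm
        _ = l • (M * (A * M)) := by conv_lhs => rw [e, smul_mul_assoc, mul_assoc]
        _ = (l * l) • ((M * M) * A) := by rw [e, Matrix.mul_smul, smul_smul, mul_assoc]
        _ = _ := by rw [hc, smul_mul_assoc, one_mul]
    have hll : (l * l - 1) • (c • A) = 0 := by rw [sub_smul, one_smul, ← e2, sub_self]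
    rcases smul_eq_zero.mp hll with h0 | h0
    · rcases mul_self_eq_one_iff.mp (sub_eq_zero.mp h0) with rfl | rfl
      · left; apply Units.ext; rw [Units.val_mul, Units.val_mul]; simpa using e
      · right; simpa using e
    · exact absurd ((smul_eq_zero.mp h0).resolve_left hc0) (h : GG).ne_zero
  have hidx : Nat.card K ≤ 2 * Nat.card K₀ := by
    by_cases hex : ∃ h₁ : K, ¬ (h₁ : GG) * g = g * h₁
    · obtain ⟨h₁, hh₁⟩ := hex
      have hmem : ∀ h : K, ¬ (h : GG) * g = g * h → (h₁ : GG)⁻¹ * h ∈ K₀ := by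
        intro h hh
        rw [hK₀, Subgroup.mem_centralizer_singleton_iff]
        apply Units.ext
        have e := (hsign h).resolve_left hh
        have e1 := (hsign h₁).resolve_left hh₁
        have e3 : (((h₁ : GG)⁻¹ : GG) : Matrix (Fin 2) (Fin 2) (ZMod q)) * g
            = -((g : Matrix (Fin 2) (Fin 2) (ZMod q)) * ((h₁ : GG)⁻¹ : GG)) := by
          have := congrArg (fun u => (((h₁ : GG)⁻¹ : GG) : Matrix (Fin 2) (Fin 2) (ZMod q)) * u * (((h₁ : GG)⁻¹ : GG) : Matrix (Fin 2) (Fin 2) (ZMod q))) e1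
          simp only [mul_neg, neg_mul, ← mul_assoc, Units.inv_mul, one_mul] at this
          simp only [mul_assoc, Units.mul_inv, mul_one] at this
          rw [this, neg_neg]
        simp only [Units.val_mul]
        rw [mul_assoc, e, mul_neg, ← mul_assoc, e3, neg_mul, neg_neg, mul_assoc]
      let F' : K → Bool × K₀ := fun h =>
        if hh : (h : GG) * g = g * h then (true, ⟨h, Subgroup.mem_centralizer_singleton_iff.mpr hh⟩)
        else (false, ⟨(h₁ : GG)⁻¹ * h, hmem h hh⟩)
      have hinj : Function.Injective F' := by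
        intro a b hab
        simp only [F'] at hab
        split_ifs at hab with ha hb hb
        · exact Subtype.ext (congrArg (fun x : Bool × K₀ => (x.2 : GG)) hab)
        · exact absurd (congrArg Prod.fst hab) (by simp)
        · exact absurd (congrArg Prod.fst hab) (by simp)
        · exact Subtype.ext (mul_left_cancel (congrArg (fun x : Bool × K₀ => (x.2 : GG)) hab))
      have := Nat.card_le_card_of_injective F' hinj
      simpa [Nat.card_prod] using this
    · push Not at hex
      have h1 := Nat.card_le_card_of_injective (fun h : K => (⟨h, Subgroup.mem_centralizer_singleton_iff.mpr (hex h)⟩ : K₀))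
        (fun a b hab => Subtype.ext (congrArg (fun x : K₀ => (x : GG)) hab))
      omega
  have hKcard : Nat.card K = Nat.card C * (q - 1) := by
    have h1 : K.index = C.index := Subgroup.index_comap_of_surjective _ (QuotientGroup.mk'_surjective _)
    have h2 := Subgroup.card_mul_index K
    have h3 := Subgroup.card_mul_index C
    have h4 := Subgroup.card_eq_card_quotient_mul_card_subgroup (Subgroup.center GG)
    rw [hZ, ← h3, ← h2, h1] at h4
    exact Nat.eq_of_mul_eq_mul_right (Nat.pos_of_ne_zero Subgroup.index_ne_zero_of_finite)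
      (h4.trans (by ring))
  obtain ⟨hb1, hb2⟩ := card_bound g hc hns
  rw [← hK₀, ZMod.card] at hb1 hb2
  have hHle := Subgroup.card_le_of_le hHC
  obtain ⟨m, hm⟩ : ∃ m, q = m + 1 := ⟨q - 1, by omega⟩
  have hmC : m * Nat.card (H : Subgroup PP) ≤ Nat.card C * (q - 1) := by
    rw [show q - 1 = m by omega, mul_comm]; exact Nat.mul_le_mul_right _ hHle
  have hnsq : ¬ ∃ s, c = s * s := by
    intro hs
    have h2 : (2 : ZMod q) ≠ 0 := by
      intro h
      have : (q : ℕ) ∣ 2 := (ZMod.natCast_eq_zero_iff 2 q).mp (by exact_mod_cast h)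
      have := Nat.le_of_dvd two_pos this
      omega
    have h5 := hb2 hs h2
    rw [show q - 1 = m by omega] at h5
    rw [hH] at hmC
    subst hm
    simp only [Nat.add_sub_cancel] at hmC hKcard
    nlinarith [hidx, hKcard, h5, hmC]
  have hCH : C = (H : Subgroup PP) := by
    refine (Subgroup.eq_of_le_of_card_ge hHC ?_).symm
    rw [hH]
    subst hm
    simp only [Nat.add_sub_cancel] at hKcard
    have h6 : Nat.card C * m ≤ (2 * (m + 1 + 1)) * m := by
      have : (m + 1) ^ 2 = m * m + 2 * m + 1 := by ring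
      nlinarith [hidx, hKcard, hb1]
    exact Nat.le_of_mul_le_mul_right h6 (by omega)
  refine ⟨g, c, hc, hnsq, hgZ, hg ▸ (z : (H : Subgroup PP)).2, fun t ht => ?_⟩
  rw [← hCH]
  exact Subgroup.mem_centralizer_singleton_iff.mpr ht

/-- Let q = 2^k − 1 ≥ 7 be a prime and let G = PGL(2,q), the general linear group of degree 2 over the field with q elements modulo its centre. Then any two Sylow 2-subgroups of G have a non-trivial intersection: for a Sylow 2-subgroup H and every x ∈ G, H ∩ H^x ≠ 1. -/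
theorem result {q k : ℕ} [Fact q.Prime] (hk : q + 1 = 2 ^ k) (hq : 7 ≤ q)
    (H : Sylow 2 (GL (Fin 2) (ZMod q) ⧸ Subgroup.center (GL (Fin 2) (ZMod q))))
    (x : GL (Fin 2) (ZMod q) ⧸ Subgroup.center (GL (Fin 2) (ZMod q))) :
    (H : Subgroup (GL (Fin 2) (ZMod q) ⧸ Subgroup.center (GL (Fin 2) (ZMod q)))) ⊓ MulAut.conj x • (H : Subgroup _) ≠ ⊥ := by
  obtain ⟨g, c, hc, hcs, hgZ, hgH, hC⟩ := sylow_is_centralizer hk hq H
  obtain ⟨g', c', hc', -, -, hgH', hC'⟩ := sylow_is_centralizer hk hq (x • H)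
  intro hbot
  have key : ∀ t : GL (Fin 2) (ZMod q) ⧸ Subgroup.center (GL (Fin 2) (ZMod q)), t * QuotientGroup.mk g = QuotientGroup.mk g * t →
      t * QuotientGroup.mk g' = QuotientGroup.mk g' * t → t = 1 := by
    intro t h1 h2
    exact (Subgroup.mem_bot).mp (hbot.le ⟨hC t h1, hC' t h2⟩)
  set N : Matrix (Fin 2) (Fin 2) (ZMod q) :=
    (g : Matrix (Fin 2) (Fin 2) (ZMod q)) * g' - (g' : Matrix (Fin 2) (Fin 2) (ZMod q)) * g with hN
  have hanti : (g : Matrix (Fin 2) (Fin 2) (ZMod q)) * N = -(N * g) := by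
    rw [hN, mul_sub, sub_mul, ← mul_assoc, hc, mul_assoc (g' : Matrix (Fin 2) (Fin 2) (ZMod q)) g g, hc,
      smul_mul_assoc, one_mul, Matrix.mul_smul, mul_one, ← mul_assoc, neg_sub]
  have hanti' : (g' : Matrix (Fin 2) (Fin 2) (ZMod q)) * N = -(N * g') := by
    rw [hN, mul_sub, sub_mul, ← mul_assoc, ← mul_assoc, hc', mul_assoc (g : Matrix (Fin 2) (Fin 2) (ZMod q)) g' g', hc',
      smul_mul_assoc, one_mul, Matrix.mul_smul, mul_one, neg_sub]
  by_cases hN0 : N = 0
  · have h1 : g * g' = g' * g := Units.ext (sub_eq_zero.mp hN0)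
    refine hgZ ((QuotientGroup.eq_one_iff g).mp (key _ rfl ?_))
    rw [← QuotientGroup.mk_mul, h1, QuotientGroup.mk_mul]
  have hd : N.det ≠ 0 := fun hd => hcs (sq_of_kernel hc hN0 hd hanti)
  set u : GL (Fin 2) (ZMod q) := Matrix.GeneralLinearGroup.mkOfDetNeZero N hd with hu
  have huN : (u : Matrix (Fin 2) (Fin 2) (ZMod q)) = N := rfl
  have hcm : ∀ w : GL (Fin 2) (ZMod q),
      (w : Matrix (Fin 2) (Fin 2) (ZMod q)) * N = -(N * w) →
      (QuotientGroup.mk u : GL (Fin 2) (ZMod q) ⧸ Subgroup.center (GL (Fin 2) (ZMod q))) * QuotientGroup.mk w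
        = QuotientGroup.mk w * QuotientGroup.mk u := by
    intro w hw
    rw [← QuotientGroup.mk_mul, ← QuotientGroup.mk_mul, QuotientGroup.eq, central_iff]
    refine ⟨-1, ?_⟩
    have h1 : ((w * u : GL (Fin 2) (ZMod q)) : Matrix (Fin 2) (Fin 2) (ZMod q))
        = (-1 : ZMod q) • ((u * w : GL (Fin 2) (ZMod q)) : Matrix (Fin 2) (Fin 2) (ZMod q)) := by
      rw [Units.val_mul, Units.val_mul, huN, hw, neg_smul, one_smul]
    rw [Units.val_mul, h1, Matrix.mul_smul, Units.inv_mul]
  have hu1 := (QuotientGroup.eq_one_iff u).mp (key _ (hcm g hanti) (hcm g' hanti'))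
  obtain ⟨l, hl⟩ := (central_iff u).mp hu1
  rw [huN] at hl
  rw [hl, Matrix.mul_smul, smul_mul_assoc, mul_one, one_mul, eq_neg_iff_add_eq_zero, ← add_smul, smul_eq_zero] at hanti
  rcases hanti with h0 | h0
  · have hl0 : l = 0 := by
      have h2 : (2 : ZMod q) * l = 0 := by rw [two_mul]; exact h0
      refine (mul_eq_zero.mp h2).resolve_left fun h => ?_
      have : q ∣ 2 := (ZMod.natCast_eq_zero_iff 2 q).mp (by exact_mod_cast h)
      have := Nat.le_of_dvd two_pos this
      omega
    exact hN0 (by rw [hl, hl0, zero_smul])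
  · exact g.ne_zero h0

end Cfsg.Agent.S2485
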