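import Cfsg.Statements.S2486
import Mathlib
import Cfsg.Agent.Lib.UnipotentGL.GLFlags

set_option autoImplicit false
open scoped Pointwise
open Cfsg

namespace Cfsg.Agent.S2486

open Matrix

variable {n : ℕ}

abbrev K := ZMod 2
abbrev SLn (n : ℕ) := SpecialLinearGroup (Fin n) K

theorem det_one (g : GL (Fin n) K) : (g : Matrix (Fin n) (Fin n) K).det = 1 := by
  have h : IsUnit (g : Matrix (Fin n) (Fin n) K).det := (Matrix.isUnit_iff_isUnit_det _).mp g.isUnit
  have h' := h.ne_zero
  revert h'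
  generalize (g : Matrix (Fin n) (Fin n) K).det = d
  revert d
  decide

/-- Every matrix group over two elements is special linear. -/
noncomputable def toSL : GL (Fin n) K →* SLn n where
  toFun g := ⟨g, det_one g⟩
  map_one' := rfl
  map_mul' _ _ := rfl

theorem toSL_toGL (g : SLn n) : toSL (SpecialLinearGroup.toGL g) = g := rfl

def upper (n : ℕ) : Subgroup (SLn n) where
  carrier := {g | (g : Matrix (Fin n) (Fin n) K).BlockTriangular id}
  one_mem' := Matrix.blockTriangular_one
  mul_mem' := fun {a b} ha hb => by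
    show ((a * b : SLn n) : Matrix (Fin n) (Fin n) K).BlockTriangular id
    exact Matrix.BlockTriangular.mul ha hb
  inv_mem' := fun {a} ha => by
    have h : SpecialLinearGroup.toGL a ∈ upperTriangularGL n K := ha
    have h' := (upperTriangularGL n K).inv_mem h
    rw [← map_inv] at h'
    exact h'

noncomputable def perm (π : Equiv.Perm (Fin n)) : SLn n := toSL (Cfsg.Agent.UnipotentGL.permGL K π)

/-- An elementary transvection. -/
def tv (a b : Fin n) (h : a ≠ b) : SLn n := ⟨Matrix.transvection a b 1, Matrix.det_transvection_of_ne a b h 1⟩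

theorem tv_ne_one (a b : Fin n) (h : a ≠ b) : tv a b h ≠ 1 := fun e => by
  have := congrArg (fun g : SLn n => (g : Matrix (Fin n) (Fin n) K) a b) e
  simp [tv, Matrix.transvection, h] at this

theorem tv_mem (a b : Fin n) (h : a < b) : tv a b h.ne ∈ upper n :=
  Matrix.blockTriangular_transvection (R := K) (show id a ≤ id b from h.le) 1

theorem bruhat (g : SLn n) : ∃ (π : Equiv.Perm (Fin n)), ∃ b ∈ upper n, ∃ c ∈ upper n, g = b * perm π * c := by
  obtain ⟨π, b, c, hb, hc, e⟩ := Cfsg.Agent.UnipotentGL.bruhat (SpecialLinearGroup.toGL g)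
  refine ⟨π, toSL b, hb, toSL c, hc, ?_⟩
  rw [← toSL_toGL g, e, map_mul, map_mul]
  rfl

theorem perm_tv (π : Equiv.Perm (Fin n)) (a b : Fin n) (h : a ≠ b) :
    perm π * tv a b h * (perm π)⁻¹ = tv (π a) (π b) (fun e => h (π.injective e)) := by
  rw [mul_inv_eq_iff_eq_mul]
  apply Subtype.ext
  show (Cfsg.Agent.UnipotentGL.permGL K π : Matrix (Fin n) (Fin n) K) * Matrix.transvection a b 1 =
    Matrix.transvection (π a) (π b) 1 * (Cfsg.Agent.UnipotentGL.permGL K π : Matrix (Fin n) (Fin n) K)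
  simp only [Matrix.transvection, mul_add, add_mul, mul_one, one_mul]
  congr 1
  ext i j
  by_cases hj : j = b
  · subst hj
    by_cases hi : i = π a <;> simp [Matrix.mul_apply, Cfsg.Agent.UnipotentGL.permGL_apply, Matrix.single_apply, hi, eq_comm]
  · simp [Matrix.mul_apply, Cfsg.Agent.UnipotentGL.permGL_apply, Matrix.single_apply, hj, (Ne.symm hj : b ≠ j), eq_comm, π.injective.eq_iff]

theorem cube {R : Type*} [Ring R] [CharP R 2] (A B : R) (hAA : A * A = 0) (hBB : B * B = 0) (hA : A * B * A = A)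
    (hB : B * A * B = B) : ((1 + A) * (1 + B)) * ((1 + A) * (1 + B)) * ((1 + A) * (1 + B)) = 1 := by
  have a1 : ∀ x : R, A * (A * x) = 0 := fun x => by rw [← mul_assoc, hAA, zero_mul]
  have b1 : ∀ x : R, B * (B * x) = 0 := fun x => by rw [← mul_assoc, hBB, zero_mul]
  have a2 : ∀ x : R, A * (B * (A * x)) = A * x := fun x => by rw [← mul_assoc, ← mul_assoc, hA]
  have b2 : ∀ x : R, B * (A * (B * x)) = B * x := fun x => by rw [← mul_assoc, ← mul_assoc, hB]
  have a3 : A * (B * A) = A := by rw [← mul_assoc, hA]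
  have b3 : B * (A * B) = B := by rw [← mul_assoc, hB]
  simp only [add_mul, mul_add, one_mul, mul_one, mul_assoc, a1, b1, a2, b2, a3, b3, hAA, hBB, mul_zero, add_zero, zero_add]
  abel_nf
  simp only [zsmul_eq_mul, nsmul_eq_mul]
  push_cast
  simp [CharTwo.two_eq_zero, show (8 : R) = 0 by rw [show (8 : R) = 2 + 2 + 2 + 2 by norm_num]; simp [CharTwo.two_eq_zero],
    show (12 : R) = 0 by rw [show (12 : R) = 2 + 2 + 2 + 2 + 2 + 2 by norm_num]; simp [CharTwo.two_eq_zero], show (3 : R) = 1 by rw [show (3 : R) = 2 + 1 by norm_num, CharTwo.two_eq_zero, zero_add],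
    show (4 : R) = 0 by rw [show (4 : R) = 2 + 2 by norm_num, CharTwo.two_eq_zero, add_zero],
    show (6 : R) = 0 by rw [show (6 : R) = 2 + 2 + 2 by norm_num, CharTwo.two_eq_zero, add_zero, add_zero]]

theorem eq_one_of_two_group {T : Subgroup (SLn n)} (hT : IsPGroup 2 T) (hU : upper n ≤ T) (π : Equiv.Perm (Fin n))
    (hπ : perm π ∈ T) : π = 1 := by
  by_contra hne
  obtain ⟨a, b, hab, hπab⟩ : ∃ a b, a < b ∧ π b < π a := by
    by_contra h
    push Not at h
    have hm : StrictMono π := fun a b hab => lt_of_le_of_ne (h a b hab) (fun e => hab.ne (π.injective e))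
    exact hne (Equiv.ext fun a => le_antisymm hm.apply_le hm.le_apply)
  have hy : tv (π a) (π b) hπab.ne' ∈ T := by
    rw [← perm_tv π a b hab.ne]
    exact mul_mem (mul_mem hπ (hU (tv_mem a b hab))) (inv_mem hπ)
  have hx : tv (π b) (π a) hπab.ne ∈ T := hU (tv_mem _ _ hπab)
  set c := π b
  set d := π a
  set w := tv c d hπab.ne * tv d c hπab.ne'
  have hw3 : w ^ 3 = 1 := by
    apply Subtype.ext
    rw [pow_succ, pow_two]
    show (Matrix.transvection c d (1 : K) * Matrix.transvection d c (1 : K)) * (Matrix.transvection c d (1 : K) * Matrix.transvection d c (1 : K)) * (Matrix.transvection c d (1 : K) * Matrix.transvection d c (1 : K)) = 1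
    haveI : Nonempty (Fin n) := ⟨c⟩
    haveI : CharP (Matrix (Fin n) (Fin n) K) 2 := charP_of_injective_algebraMap (algebraMap K (Matrix (Fin n) (Fin n) K)).injective 2
    exact cube _ _ (by simp [hπab.ne']) (by simp [hπab.ne]) (by simp) (by simp)
  have hw1 : w ≠ 1 := fun e => by
    have h : (Matrix.transvection c d (1 : K) * Matrix.transvection d c (1 : K)) c c = (1 : Matrix (Fin n) (Fin n) K) c c :=
      congrArg (fun g : SLn n => (g : Matrix (Fin n) (Fin n) K) c c) e
    simp [w, tv, Matrix.transvection, Matrix.mul_apply, Matrix.one_apply, Matrix.single_apply, add_mul, mul_add, Finset.sum_add_distrib, hπab.ne, hπab.ne'] at h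
  obtain ⟨k, hk⟩ := hT ⟨w, mul_mem hx hy⟩
  haveI := Fact.mk Nat.prime_three
  have h3 : 3 ∣ 2 ^ k := orderOf_eq_prime hw3 hw1 ▸ orderOf_dvd_of_pow_eq_one (congrArg Subtype.val hk)
  exact absurd ((Nat.prime_dvd_prime_iff_eq Nat.prime_three Nat.prime_two).mp (Nat.prime_three.dvd_of_dvd_pow h3)) (by norm_num)

/-- The upper triangular matrices form a Sylow 2-subgroup. -/
theorem exists_sylow_upper (n : ℕ) : ∃ T : Sylow 2 (SLn n), (T : Subgroup (SLn n)) = upper n := by
  have hU : IsPGroup 2 (upper n) := by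
    refine fun g => ⟨n, Subtype.ext (Subtype.ext ?_)⟩
    have hg : ((g : SLn n) : Matrix (Fin n) (Fin n) K).BlockTriangular id := g.2
    set M := ((g : SLn n) : Matrix (Fin n) (Fin n) K) with hM
    have hd : ∀ i, M i i = 1 := by
      intro i
      have h1 := (g : SLn n).2
      rw [← hM, Matrix.det_of_upperTriangular hg] at h1
      have h' : M i i ≠ 0 := fun e => by rw [Finset.prod_eq_zero (f := fun j => M j j) (Finset.mem_univ i) e] at h1; exact zero_ne_one h1
      revert h'
      generalize M i i = d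
      revert d
      decide
    have hc : M.charpoly = (Polynomial.X - Polynomial.C 1) ^ n := by
      rw [Matrix.charpoly_of_upperTriangular M hg]
      simp [hd]
    have h0 := Matrix.aeval_self_charpoly M
    rw [hc, map_pow, map_sub, Polynomial.aeval_X, Polynomial.C_1, map_one] at h0
    show M ^ (2 ^ n) = 1
    rcases Nat.eq_zero_or_pos n with rfl | hn
    · ext i; exact i.elim0
    haveI : Nonempty (Fin n) := ⟨⟨0, hn⟩⟩
    haveI : CharP (Matrix (Fin n) (Fin n) K) 2 := charP_of_injective_algebraMap (algebraMap K (Matrix (Fin n) (Fin n) K)).injective 2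
    have h1 : (M - 1) ^ (2 ^ n) = 0 := pow_eq_zero_of_le (Nat.lt_two_pow_self).le h0
    rw [sub_pow_char_pow_of_commute 2 n (Commute.one_right M), one_pow, sub_eq_zero] at h1
    exact h1
  obtain ⟨T, hT⟩ := hU.exists_le_sylow
  refine ⟨T, le_antisymm (fun g hg => ?_) hT⟩
  obtain ⟨π, b, hb, c, hc, rfl⟩ := bruhat g
  have hπ : perm π ∈ (T : Subgroup (SLn n)) := by
    have := mul_mem (mul_mem (inv_mem (hT hb)) hg) (inv_mem (hT hc))
    rwa [show b⁻¹ * (b * perm π * c) * c⁻¹ = perm π by group] at this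
  rw [eq_one_of_two_group T.2 hT π hπ]
  refine mul_mem (mul_mem hb ?_) hc
  show (Cfsg.Agent.UnipotentGL.permGL K (1 : Equiv.Perm (Fin n)) : Matrix (Fin n) (Fin n) K).BlockTriangular id
  intro i j hij
  rw [Cfsg.Agent.UnipotentGL.permGL_apply, Equiv.Perm.one_apply]
  exact if_neg (ne_of_gt (show j < i from hij))

/-- Opposite upper triangular groups form a single double coset. -/
theorem eq_rev (m : SLn n) (h : ∀ u ∈ upper n, m⁻¹ * u * m ∈ upper n → u = 1) :
    ∃ b ∈ upper n, ∃ c ∈ upper n, m = b * perm Fin.revPerm * c := by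
  obtain ⟨π, b, hb, c, hc, rfl⟩ := bruhat m
  refine ⟨b, hb, c, hc, ?_⟩
  suffices π = Fin.revPerm by rw [this]
  have hanti : StrictAnti π := by
    intro i j hij
    by_contra hle
    have hlt : π i < π j := lt_of_le_of_ne (not_lt.mp hle) (fun e => hij.ne (π.injective e))
    have h1 : b * tv (π i) (π j) hlt.ne * b⁻¹ = 1 := by
      refine h _ (mul_mem (mul_mem hb (tv_mem _ _ hlt)) (inv_mem hb)) ?_
      rw [show (b * perm π * c)⁻¹ * (b * tv (π i) (π j) hlt.ne * b⁻¹) * (b * perm π * c) =
        c⁻¹ * ((perm π)⁻¹ * tv (π i) (π j) hlt.ne * perm π) * c by group, ← perm_tv π i j hij.ne]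
      rw [show (perm π)⁻¹ * (perm π * tv i j hij.ne * (perm π)⁻¹) * perm π = tv i j hij.ne by group]
      exact mul_mem (mul_mem (inv_mem hc) (tv_mem _ _ hij)) hc
    exact tv_ne_one _ _ hlt.ne (conj_eq_one_iff.mp h1)
  have hm : StrictMono fun i => Fin.rev (π i) := fun i j hij => Fin.rev_lt_rev.mpr (hanti hij)
  refine Equiv.ext fun i => ?_
  have hid : (π i).rev = i := le_antisymm hm.apply_le hm.le_apply
  have := congrArg Fin.rev hid
  simpa using this

/-- Let n ≥ 4 and let G be a finite group with a normal subgroup N of index 2 isomorphic to SL(n,2) and with trivial centralizer in G (so G is the extension of the simple group L_n(2) by its inverse-transpose automorphism, its full automorphism group). Then any two Sylow 2-subgroups of G have a non-trivial intersection: for a Sylow 2-subgroup H and every x ∈ G, H ∩ H^x ≠ 1. -/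
theorem result {G : Type*} [Group G] [Finite G] {n : ℕ} (hn : 4 ≤ n) (N : Subgroup G) [N.Normal]
    (e : N ≃* Matrix.SpecialLinearGroup (Fin n) (ZMod 2)) (hidx : N.index = 2)
    (hC : Subgroup.centralizer (N : Set G) = ⊥)
    (H : Sylow 2 G) (x : G) :
    (H : Subgroup G) ⊓ MulAut.conj x • (H : Subgroup G) ≠ ⊥ := by
  classical
  haveI := Fact.mk Nat.prime_two
  haveI : Finite N := inferInstance
  -- the trace of the Sylow subgroup on N
  obtain ⟨T0, hT0⟩ := exists_sylow_upper n
  let HN : Subgroup N := (H : Subgroup G).subgroupOf N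
  have hHN : ¬ 2 ∣ HN.index := by
    intro h
    have hrel : N.relIndex (H : Subgroup G) ∣ 2 := by
      have := Subgroup.relIndex_dvd_index_of_normal N (H : Subgroup G)
      rwa [hidx] at this
    have e1 : Nat.card HN * N.relIndex (H : Subgroup G) = Nat.card (H : Subgroup G) := by
      rw [← Subgroup.card_mul_index (N.subgroupOf (H : Subgroup G))]
      congr 1
      exact Nat.card_congr { toFun := fun z => ⟨⟨z.1.1, z.2⟩, z.1.2⟩, invFun := fun z => ⟨⟨z.1.1, z.2⟩, z.1.2⟩, left_inv := fun _ => rfl, right_inv := fun _ => rfl }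
    have e2 := HN.card_mul_index
    have e3 := (H : Subgroup G).card_mul_index
    have e4 := N.card_mul_index
    rw [hidx] at e4
    have h5 : N.relIndex (H : Subgroup G) * (H : Subgroup G).index = 2 * HN.index := by
      apply Nat.eq_of_mul_eq_mul_left (Nat.card_pos (α := HN))
      rw [← mul_assoc, e1, e3, ← e4, ← e2]; ring
    apply H.not_dvd_index
    rcases (Nat.dvd_prime Nat.prime_two).mp hrel with h6 | h6 <;> rw [h6] at h5 <;> omega
  have hHN2 : IsPGroup 2 HN := H.2.comap_of_injective N.subtype N.subtype_injective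
  let S1 : Sylow 2 (SLn n) := Sylow.ofCard (HN.map e.toMonoidHom) (by
    rw [← Sylow.card_eq_multiplicity T0, Subgroup.card_map_of_injective e.injective]
    let S0 : Sylow 2 N := hHN2.toSylow hHN
    rw [show Nat.card HN = Nat.card S0 from rfl, S0.card_eq_multiplicity, T0.card_eq_multiplicity, Nat.card_congr e.toEquiv])
  obtain ⟨g, hg⟩ := MulAction.exists_smul_eq (SLn n) S1 T0
  let f : N ≃* SLn n := e.trans (MulAut.conj g)
  have hf : ∀ z : N, (z : G) ∈ H ↔ f z ∈ upper n := by
    intro z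
    have hg' : ((g • S1 : Sylow 2 (SLn n)) : Subgroup (SLn n)) = upper n := by rw [hg, hT0]
    rw [← hg', show ((g • S1 : Sylow 2 (SLn n)) : Subgroup (SLn n)) = MulAut.conj g • (HN.map e.toMonoidHom) from rfl]
    show _ ↔ MulAut.conj g • e z ∈ _
    rw [Subgroup.smul_mem_pointwise_smul_iff]
    exact (Subgroup.mem_map_equiv (f := e) (K := HN) (x := e z)).trans (by simp only [MulEquiv.symm_apply_apply, HN, Subgroup.mem_subgroupOf]; exact Iff.rfl) |>.symm
  obtain ⟨t, htH, htN⟩ : ∃ t, t ∈ H ∧ t ∉ N := by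
    by_contra h
    push Not at h
    apply H.not_dvd_index
    have := Subgroup.index_dvd_of_le (show (H : Subgroup G) ≤ N from h)
    rwa [hidx] at this
  intro hbot
  -- replace x by an element of N
  obtain ⟨m, hm⟩ : ∃ m : N, MulAut.conj x • (H : Subgroup G) = MulAut.conj (m : G) • (H : Subgroup G) := by
    by_cases hx : x ∈ N
    · exact ⟨⟨x, hx⟩, rfl⟩
    · refine ⟨⟨x * t, (Subgroup.mul_mem_iff_of_index_two hidx).mpr (by simp [hx, htN])⟩, ?_⟩
      rw [map_mul, mul_smul, Subgroup.conj_smul_eq_self_of_mem htH]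
  rw [hm] at hbot
  have key : ∀ m : N, (H : Subgroup G) ⊓ MulAut.conj (m : G) • (H : Subgroup G) = ⊥ →
      ∃ b ∈ upper n, ∃ c ∈ upper n, f m = b * perm Fin.revPerm * c := by
    intro m hm
    refine eq_rev (f m) fun u hu hu' => ?_
    obtain ⟨z, rfl⟩ := f.surjective u
    rw [← map_inv, ← map_mul, ← map_mul, ← hf] at hu'
    have : (z : G) ∈ (H : Subgroup G) ⊓ MulAut.conj (m : G) • (H : Subgroup G) := by
      refine Subgroup.mem_inf.mpr ⟨(hf z).mpr hu, ?_⟩
      rw [Subgroup.mem_pointwise_smul_iff_inv_smul_mem, ← map_inv]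
      simp [MulAut.smul_def, mul_assoc] at hu' ⊢
      exact hu'
    rw [hm, Subgroup.mem_bot] at this
    have hz : z = 1 := Subtype.ext this
    rw [hz, map_one]
  let m' : N := ⟨t * m * t⁻¹, Subgroup.Normal.conj_mem inferInstance _ m.2 t⟩
  have hbot' : (H : Subgroup G) ⊓ MulAut.conj (m' : G) • (H : Subgroup G) = ⊥ := by
    have h1 := congrArg (fun K : Subgroup G => MulAut.conj t • K) hbot
    simp only [Subgroup.smul_inf, Subgroup.smul_bot, Subgroup.conj_smul_eq_self_of_mem htH, ← mul_smul, ← map_mul] at h1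
    rw [← h1]
    congr 1
    rw [show (m' : G) = t * (m : G) * t⁻¹ from rfl, map_mul, mul_smul, Subgroup.conj_smul_eq_self_of_mem (inv_mem htH)]
  obtain ⟨b, hb, c, hc, h1⟩ := key m hbot
  obtain ⟨b', hb', c', hc', h2⟩ := key m' hbot'
  have h3 : f m' = (b' * b⁻¹) * f m * (c⁻¹ * c') := by rw [h1, h2]; group
  obtain ⟨a, ha⟩ := f.surjective (b' * b⁻¹)
  obtain ⟨d, hd⟩ := f.surjective (c⁻¹ * c')
  have haH : (a : G) ∈ H := (hf a).mpr (ha ▸ mul_mem hb' (inv_mem hb))
  have hdH : (d : G) ∈ H := (hf d).mpr (hd ▸ mul_mem (inv_mem hc) hc')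
  rw [← ha, ← hd, ← map_mul, ← map_mul] at h3
  have h4 : t * (m : G) * t⁻¹ = (a : G) * (m : G) * (d : G) := congrArg Subtype.val (f.injective h3)
  have h5 : (a : G)⁻¹ * t ∈ (H : Subgroup G) ⊓ MulAut.conj (m : G) • (H : Subgroup G) := by
    refine Subgroup.mem_inf.mpr ⟨mul_mem (inv_mem haH) htH, ?_⟩
    rw [Subgroup.mem_pointwise_smul_iff_inv_smul_mem, ← map_inv, MulAut.smul_def, MulAut.conj_apply]
    rw [show (m : G)⁻¹ * ((a : G)⁻¹ * t) * (m : G)⁻¹⁻¹ = (d : G) * t by
      rw [inv_inv, show (m : G)⁻¹ * ((a : G)⁻¹ * t) * m = (m : G)⁻¹ * (a : G)⁻¹ * (t * m * t⁻¹) * t by group, h4]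
      group]
    exact mul_mem hdH htH
  rw [hbot, Subgroup.mem_bot, inv_mul_eq_one] at h5
  exact htN (h5 ▸ a.2)

end Cfsg.Agent.S2486
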