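import Cfsg.Statements.S2488
import Mathlib

set_option autoImplicit false
set_option maxHeartbeats 1000000
open scoped Pointwise
open Cfsg

namespace Cfsg.Agent.S2488

open Pointwise

abbrev A6 := alternatingGroup (Fin 6)

theorem card_A6 : Nat.card A6 = 360 := by
  rw [nat_card_alternatingGroup, Nat.card_fin]
  decide

theorem centralizer_small (x : A6) (hx : x ^ 3 = 1) (hx1 : x ≠ 1) :
    Nat.card (Subgroup.centralizer ({x} : Set A6)) ≤ 18 := by
  classical
  haveI := Fact.mk Nat.prime_three
  have ho : orderOf (x : Equiv.Perm (Fin 6)) = 3 := by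
    rw [Subgroup.orderOf_coe]; exact orderOf_eq_prime hx hx1
  obtain ⟨k, hk⟩ := Equiv.Perm.cycleType_prime_order (σ := (x : Equiv.Perm (Fin 6))) (by rw [ho]; exact Nat.prime_three)
  rw [ho] at hk
  have hsum := Equiv.Perm.sum_cycleType (x : Equiv.Perm (Fin 6))
  have hle := Finset.card_le_univ (x : Equiv.Perm (Fin 6)).support
  rw [hk, Multiset.sum_replicate, smul_eq_mul] at hsum
  rw [Fintype.card_fin] at hle
  have h2 : Nat.card (Subgroup.centralizer ({(x : Equiv.Perm (Fin 6))} : Set (Equiv.Perm (Fin 6)))) ≤ 18 := by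
    rw [Equiv.Perm.nat_card_centralizer, hk]
    obtain rfl | rfl : k = 0 ∨ k = 1 := by omega
    · decide
    · decide
  refine le_trans ?_ h2
  refine Nat.card_le_card_of_injective (fun y => ⟨(y : A6), ?_⟩) fun a b h => Subtype.ext (Subtype.ext (by simpa using congrArg Subtype.val h))
  rw [Subgroup.mem_centralizer_singleton_iff]
  exact congrArg Subtype.val (Subgroup.mem_centralizer_singleton_iff.mp y.2)

theorem card_sylow_A6 (P : Sylow 3 A6) : Nat.card P = 9 := by
  haveI := Fact.mk Nat.prime_three
  rw [P.card_eq_multiplicity, card_A6, show (360 : ℕ) = 3 ^ 2 * 40 by norm_num, Nat.factorization_mul (by norm_num) (by norm_num),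
    Finsupp.add_apply, Nat.Prime.factorization_pow Nat.prime_three, Finsupp.single_eq_same, Nat.factorization_eq_zero_of_not_dvd (by norm_num)]
  rfl

theorem num_sylow_A6 : Nat.card (Sylow 3 A6) = 10 := by
  classical
  haveI := Fact.mk Nat.prime_three
  haveI : IsSimpleGroup A6 := alternatingGroup.isSimpleGroup (by simp)
  obtain ⟨P⟩ : Nonempty (Sylow 3 A6) := inferInstance
  have h9 := card_sylow_A6 P
  have h1 := card_sylow_modEq_one 3 A6
  have h2 : Nat.card (Sylow 3 A6) ∣ 40 := by
    have := P.card_dvd_index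
    rwa [show (P : Subgroup A6).index = 40 by
      have := (P : Subgroup A6).card_mul_index; rw [h9, card_A6] at this; omega] at this
  have hidx : Nat.card (Sylow 3 A6) = (Subgroup.normalizer ((P : Subgroup A6) : Set A6)).index := Sylow.card_eq_index_normalizer P
  have hmem : Nat.card (Sylow 3 A6) ∈ ({1, 2, 4, 5, 8, 10, 20, 40} : Finset ℕ) := by
    have h3 : Nat.card (Sylow 3 A6) ∈ Nat.divisors 40 := Nat.mem_divisors.mpr ⟨h2, by norm_num⟩
    revert h3; generalize Nat.card (Sylow 3 A6) = n; intro h3
    have : Nat.divisors 40 = {1, 2, 4, 5, 8, 10, 20, 40} := by decide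
    rwa [this] at h3
  simp only [Finset.mem_insert, Finset.mem_singleton] at hmem
  have hne1 : Nat.card (Sylow 3 A6) ≠ 1 := by
    intro h
    rw [hidx, Subgroup.index_eq_one, Subgroup.normalizer_eq_top_iff] at h
    rcases h.eq_bot_or_eq_top with h | h
    · rw [h, Subgroup.card_bot] at h9; omega
    · rw [h, Subgroup.card_top, card_A6] at h9; omega
  have hne4 : Nat.card (Sylow 3 A6) ≠ 4 := by
    intro h
    have hker : (MulAction.toPermHom A6 (Sylow 3 A6)).ker = ⊥ := by
      refine ((MonoidHom.normal_ker _).eq_bot_or_eq_top).resolve_right fun ht => hne1 ?_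
      rw [hidx, Subgroup.index_eq_one, eq_top_iff]
      intro g _
      refine (Sylow.stabilizer_eq_normalizer P) ▸ ((MulAction.mem_stabilizer_iff).mpr ?_)
      have hg : g ∈ (MulAction.toPermHom A6 (Sylow 3 A6)).ker := by rw [ht]; trivial
      exact Equiv.Perm.congr_fun (MonoidHom.mem_ker.mp hg) P
    have := Nat.card_le_card_of_injective _ ((MonoidHom.ker_eq_bot_iff _).mp hker)
    rw [card_A6, Nat.card_perm, h] at this
    norm_num [Nat.factorial] at this
  have hne40 : Nat.card (Sylow 3 A6) ≠ 40 := by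
    intro h
    rw [hidx] at h
    have hcard := (Subgroup.normalizer ((P : Subgroup A6) : Set A6)).card_mul_index
    rw [h, card_A6] at hcard
    have heq : (P : Subgroup A6) = Subgroup.normalizer ((P : Subgroup A6) : Set A6) :=
      Subgroup.eq_of_le_of_card_ge Subgroup.le_normalizer (by omega)
    haveI : IsMulCommutative P := IsPGroup.isMulCommutative_of_card_eq_prime_sq (p := 3) (by rw [h9]; norm_num)
    have hle : Subgroup.normalizer ((P : Subgroup A6) : Set A6) ≤ Subgroup.centralizer ((P : Subgroup A6) : Set A6) := by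
      rw [← heq]
      exact fun a ha => Subgroup.mem_centralizer_iff.mpr fun b hb => congrArg Subtype.val (IsMulCommutative.is_comm.comm (⟨b, hb⟩ : P) ⟨a, ha⟩)
    have hc := MonoidHom.ker_transferSylow_isComplement' P hle
    rcases (MonoidHom.normal_ker (MonoidHom.transferSylow P hle)).eq_bot_or_eq_top with hk | hk
    · have := hc.card_mul
      rw [hk, Subgroup.card_bot, one_mul, h9, card_A6] at this
      omega
    · have := hc.card_mul
      rw [hk, Subgroup.card_top, h9, card_A6] at this
      omega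
  rw [Nat.ModEq] at h1
  omega

/-- Let G be a finite group with a normal subgroup N of index 4 isomorphic to the alternating group of degree 6 and with trivial centralizer in G (so G is the full automorphism group of A₆). Then any two Sylow 2-subgroups of G have a non-trivial intersection: for a Sylow 2-subgroup H and every x ∈ G, H ∩ H^x ≠ 1. -/
theorem result {G : Type*} [Group G] [Finite G] (N : Subgroup G) [N.Normal]
    (e : N ≃* alternatingGroup (Fin 6)) (hidx : N.index = 4)
    (hC : Subgroup.centralizer (N : Set G) = ⊥)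
    (H : Sylow 2 G) (x : G) :
    (H : Subgroup G) ⊓ MulAut.conj x • (H : Subgroup G) ≠ ⊥ := by
  classical
  haveI := Fact.mk Nat.prime_three
  haveI := Fact.mk Nat.prime_two
  have hNc : Nat.card N = 360 := (Nat.card_congr e.toEquiv).trans card_A6
  have hGc : Nat.card G = 1440 := by rw [← Subgroup.card_mul_index N, hNc, hidx]
  -- the elements of 3-power order lie in N
  have hinN : ∀ (K : Subgroup G), IsPGroup 3 K → K ≤ N := by
    intro K hK g hg
    obtain ⟨a, ha⟩ := hK ⟨g, hg⟩
    have h1 : g ^ 3 ^ a = 1 := congrArg Subtype.val ha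
    have h2 := orderOf_map_dvd (QuotientGroup.mk' N) g
    have h3 := orderOf_dvd_natCard (QuotientGroup.mk' N g)
    rw [← Subgroup.index_eq_card, hidx] at h3
    have h4 := Nat.dvd_gcd h3 (h2.trans (orderOf_dvd_of_pow_eq_one h1))
    rw [Nat.Coprime.gcd_eq_one (Nat.Coprime.pow_right a (by decide)), Nat.dvd_one, orderOf_eq_one_iff] at h4
    exact (QuotientGroup.eq_one_iff g).mp h4
  have hP9 : ∀ P : Sylow 3 G, Nat.card P = 9 := fun P => by
    rw [P.card_eq_multiplicity, hGc, show (1440 : ℕ) = 3 ^ 2 * 160 by norm_num, Nat.factorization_mul (by norm_num) (by norm_num),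
      Finsupp.add_apply, Nat.Prime.factorization_pow Nat.prime_three, Finsupp.single_eq_same, Nat.factorization_eq_zero_of_not_dvd (by norm_num)]
    rfl
  have hn : Nat.card (Sylow 3 G) = 10 := by
    rw [← num_sylow_A6]
    refine Nat.card_eq_of_bijective (fun P => Sylow.ofCard (((P : Subgroup G).subgroupOf N).map e.toMonoidHom) ?_) ⟨?_, ?_⟩
    · rw [← (card_sylow_A6 default).symm.trans (Sylow.card_eq_multiplicity default), Subgroup.card_map_of_injective e.injective,
        Nat.card_congr (Subgroup.subgroupOfEquivOfLe (hinN _ P.2)).toEquiv, hP9]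
    · intro P Q h
      have h' : ((P : Subgroup G).subgroupOf N).map e.toMonoidHom = ((Q : Subgroup G).subgroupOf N).map e.toMonoidHom := congrArg Sylow.toSubgroup h
      have h'' := Subgroup.map_injective e.injective h'
      rw [Subgroup.subgroupOf_inj, inf_eq_left.mpr (hinN _ P.2), inf_eq_left.mpr (hinN _ Q.2)] at h''
      exact Sylow.ext h''
    · intro Q
      have hK : Nat.card (((Q : Subgroup A6).comap e.toMonoidHom).map N.subtype) = 9 := by
        rw [Subgroup.card_map_of_injective N.subtype_injective, ← card_sylow_A6 Q]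
        exact Nat.card_congr (Equiv.subtypeEquiv e.toEquiv fun _ => Iff.rfl)
      obtain ⟨P0⟩ : Nonempty (Sylow 3 G) := inferInstance
      refine ⟨Sylow.ofCard (((Q : Subgroup A6).comap e.toMonoidHom).map N.subtype) (by rw [hK, ← P0.card_eq_multiplicity, hP9]), Sylow.ext ?_⟩
      show ((((Q : Subgroup A6).comap e.toMonoidHom).map N.subtype).subgroupOf N).map e.toMonoidHom = Q
      rw [Subgroup.subgroupOf, Subgroup.comap_map_eq_self_of_injective N.subtype_injective]
      exact Subgroup.map_comap_eq_self_of_surjective e.surjective _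
  let St : Sylow 3 G → Subgroup G := fun P => MulAction.stabilizer G P
  have hSt : ∀ P, Nat.card (St P) = 144 := by
    intro P
    have h1 := Sylow.card_eq_index_normalizer P
    rw [← Sylow.stabilizer_eq_normalizer, hn] at h1
    have h2 := (St P).card_mul_index
    rw [hGc, ← h1] at h2
    omega
  -- two different points are fixed only by 2-elements
  have hno3 : ∀ P Q : Sylow 3 G, P ≠ Q → ¬ 3 ∣ Nat.card ↥(St P ⊓ St Q) := by
    intro P Q hPQ h
    obtain ⟨g, hg⟩ := exists_prime_orderOf_dvd_card' 3 h
    have hg3 : IsPGroup 3 (Subgroup.zpowers (g : G)) := by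
      refine IsPGroup.of_card (n := 1) ?_
      rw [Nat.card_zpowers, Subgroup.orderOf_coe, hg, pow_one]
    have hin : ∀ R : Sylow 3 G, (g : G) ∈ St R → (g : G) ∈ (R : Subgroup G) := by
      intro R hR
      have hle : Subgroup.zpowers (g : G) ≤ Subgroup.normalizer ((R : Subgroup G) : Set G) := by
        rw [Subgroup.zpowers_le]; exact (Sylow.stabilizer_eq_normalizer R) ▸ hR
      exact (R.3 (hg3.to_sup_of_normal_right' R.2 hle) le_sup_right ▸ le_sup_left : Subgroup.zpowers (g : G) ≤ R) (Subgroup.mem_zpowers _)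
    set x0 : A6 := e ⟨g, hinN _ hg3 (Subgroup.mem_zpowers _)⟩ with hx0
    have hxo : orderOf x0 = 3 := by
      rw [hx0, MulEquiv.orderOf_eq, ← Subgroup.orderOf_coe]
      exact (Subgroup.orderOf_coe g).trans hg
    have hC := centralizer_small x0 (hxo ▸ pow_orderOf_eq_one x0) (fun h1 => by rw [h1, orderOf_one] at hxo; omega)
    -- the centraliser contains the two Sylow subgroups
    set C := Subgroup.centralizer ({x0} : Set A6)
    have hcomm : ∀ R : Sylow 3 G, (g : G) ∈ (R : Subgroup G) → ((R : Subgroup G).subgroupOf N).map e.toMonoidHom ≤ C := by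
      intro R hR y hy
      obtain ⟨z, hz, rfl⟩ := hy
      haveI : IsMulCommutative R := IsPGroup.isMulCommutative_of_card_eq_prime_sq (p := 3) (by rw [hP9]; norm_num)
      rw [Subgroup.mem_centralizer_singleton_iff, MulEquiv.coe_toMonoidHom, hx0, ← map_mul, ← map_mul]
      have h' := congrArg Subtype.val (IsMulCommutative.is_comm.comm (⟨z, hz⟩ : (R : Subgroup G)) ⟨g, hR⟩)
      exact congrArg e (Subtype.ext h')
    have hA : ∀ R : Sylow 3 G, Nat.card (((R : Subgroup G).subgroupOf N).map e.toMonoidHom) = 9 := fun R => by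
      rw [Subgroup.card_map_of_injective e.injective, Nat.card_congr (Subgroup.subgroupOfEquivOfLe (hinN _ R.2)).toEquiv, hP9]
    set A := ((P : Subgroup G).subgroupOf N).map e.toMonoidHom
    set B := ((Q : Subgroup G).subgroupOf N).map e.toMonoidHom
    have hAC := hcomm P (hin P g.2.1)
    have hBC := hcomm Q (hin Q g.2.2)
    have hAB : A ≠ B := by
      intro h'
      have h'' := Subgroup.map_injective e.injective h'
      rw [Subgroup.subgroupOf_inj, inf_eq_left.mpr (hinN _ P.2), inf_eq_left.mpr (hinN _ Q.2)] at h''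
      exact hPQ (Sylow.ext h'')
    -- C has order 9 or 18, so a unique Sylow 3-subgroup
    have h9C : 9 ∣ Nat.card C := hA P ▸ Subgroup.card_dvd_of_le hAC
    have hidx2 : (A.subgroupOf C).index ≤ 2 ∧ 1 ≤ (A.subgroupOf C).index := by
      have h1 := (A.subgroupOf C).card_mul_index
      rw [Nat.card_congr (Subgroup.subgroupOfEquivOfLe hAC).toEquiv, hA] at h1
      have := Subgroup.index_ne_zero_of_finite (H := A.subgroupOf C)
      have h18 : Nat.card C ≤ 18 := hC
      constructor
      · nlinarith
      · omega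
    haveI : (A.subgroupOf C).Normal := by
      rcases (show (A.subgroupOf C).index = 1 ∨ (A.subgroupOf C).index = 2 by omega) with h1 | h1
      · rw [Subgroup.index_eq_one] at h1; rw [h1]; infer_instance
      · exact Subgroup.normal_of_index_eq_two h1
    refine hAB (Subgroup.eq_of_le_of_card_ge (fun b hb => ?_) (by rw [hA, hA])).symm
    have h1 := orderOf_map_dvd (QuotientGroup.mk' (A.subgroupOf C)) ⟨b, hBC hb⟩
    have h2 := orderOf_dvd_natCard (QuotientGroup.mk' (A.subgroupOf C) ⟨b, hBC hb⟩)
    rw [← Subgroup.index_eq_card] at h2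
    have h3 : orderOf (⟨b, hBC hb⟩ : C) ∣ 9 := by
      rw [← Subgroup.orderOf_coe, ← hA Q]
      exact Subgroup.orderOf_dvd_natCard _ hb
    have h4 := Nat.dvd_gcd h2 (h1.trans h3)
    have hcop : Nat.gcd (A.subgroupOf C).index 9 = 1 := by
      rcases (show (A.subgroupOf C).index = 1 ∨ (A.subgroupOf C).index = 2 by omega) with h | h <;> rw [h] <;> rfl
    rw [hcop, Nat.dvd_one, orderOf_eq_one_iff] at h4
    exact (QuotientGroup.eq_one_iff (N := A.subgroupOf C) ⟨b, hBC hb⟩).mp h4
  haveI : Fintype (Sylow 3 G) := Fintype.ofFinite _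
  -- each Sylow 2-subgroup is the stabiliser of a pair
  have hpair : ∀ T : Sylow 2 G, ∃ P Q : Sylow 3 G, P ≠ Q ∧ (T : Subgroup G) = MulAction.stabilizer G ({P, Q} : Finset (Sylow 3 G)) ∧
      Nat.card ↥((T : Subgroup G) ⊓ St P) = 16 ∧ Nat.card ↥((T : Subgroup G) ⊓ St Q) = 16 := by
    intro T
    have hT : Nat.card T = 32 := by
      rw [T.card_eq_multiplicity, hGc, show (1440 : ℕ) = 2 ^ 5 * 45 by norm_num, Nat.factorization_mul (by norm_num) (by norm_num),
        Finsupp.add_apply, Nat.Prime.factorization_pow Nat.prime_two, Finsupp.single_eq_same, Nat.factorization_eq_zero_of_not_dvd (by norm_num)]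
      rfl
    have horb : ∀ P : Sylow 3 G, Nat.card (MulAction.orbit T P) * Nat.card (MulAction.stabilizer T P) = 32 := fun P => by
      rw [← hT]; exact (Nat.card_prod _ _).symm.trans (Nat.card_congr (MulAction.orbitProdStabilizerEquivGroup T P))
    have hstab : ∀ P : Sylow 3 G, Nat.card (MulAction.stabilizer T P) = Nat.card ↥((T : Subgroup G) ⊓ St P) := fun P =>
      Nat.card_congr { toFun := fun g => ⟨(g : T), (g : T).2, g.2⟩, invFun := fun g => ⟨⟨g, g.2.1⟩, g.2.2⟩, left_inv := fun g => rfl, right_inv := fun g => rfl }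
    obtain ⟨P, hP2⟩ : ∃ P : Sylow 3 G, Nat.card (MulAction.orbit T P) = 2 := by
      by_contra hno
      push Not at hno
      haveI : Fintype (Quotient (MulAction.orbitRel T (Sylow 3 G))) := Fintype.ofFinite _
      have hsum := Nat.card_congr (MulAction.selfEquivSigmaOrbits T (Sylow 3 G))
      rw [Nat.card_sigma, hn] at hsum
      have h4 : 4 ∣ 10 := by
        rw [hsum]
        refine Finset.dvd_sum fun w _ => ?_
        set P := Quotient.out w
        have h1 := horb P
        obtain ⟨a, ha5, ha⟩ := (Nat.dvd_prime_pow Nat.prime_two).mp (show Nat.card (MulAction.orbit T P) ∣ 2 ^ 5 from ⟨_, h1.symm⟩)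
        rw [ha]
        have hne : a ≠ 0 := by
          rintro rfl
          rw [ha, pow_zero, one_mul, hstab] at h1
          have := (Subgroup.card_dvd_of_le (inf_le_right : (T : Subgroup G) ⊓ St P ≤ St P))
          rw [h1, hSt] at this
          omega
        have hne1 : a ≠ 1 := by rintro rfl; exact hno P (by rw [ha, pow_one])
        exact (show (4 : ℕ) = 2 ^ 2 by rfl) ▸ pow_dvd_pow 2 (by omega)
      omega
    obtain ⟨a, b, hab, hset⟩ := (Set.ncard_eq_two.mp (by rwa [← Nat.card_coe_set_eq]) : ∃ a b, a ≠ b ∧ MulAction.orbit T P = {a, b})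
    have ha : a ∈ MulAction.orbit T P := by rw [hset]; simp
    have hb : b ∈ MulAction.orbit T P := by rw [hset]; simp
    have h16 : ∀ R ∈ MulAction.orbit T P, Nat.card ↥((T : Subgroup G) ⊓ St R) = 16 := fun R hR => by
      have h1 := horb R
      rw [show MulAction.orbit T R = MulAction.orbit T P from MulAction.orbit_eq_iff.mpr hR, hP2, hstab] at h1
      omega
    have hinv : (T : Subgroup G) ≤ MulAction.stabilizer G ({a, b} : Finset (Sylow 3 G)) := by
      intro g hg
      rw [MulAction.mem_stabilizer_iff, ← Finset.coe_inj, Finset.coe_smul_finset, Finset.coe_pair, ← hset]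
      exact MulAction.smul_orbit (⟨g, hg⟩ : T) P
    refine ⟨a, b, hab, (Subgroup.eq_of_le_of_card_ge hinv ?_), h16 a ha, h16 b hb⟩
    -- the pair stabiliser is a 2-group
    set W := MulAction.stabilizer G ({a, b} : Finset (Sylow 3 G))
    have hmove : ∀ g ∈ W, g • a = a ∧ g • b = b ∨ g • a = b ∧ g • b = a := by
      intro g hg
      have h1 : g • ({a, b} : Finset (Sylow 3 G)) = {a, b} := hg
      have h2 : g • a = a ∨ g • a = b := by
        have : g • a ∈ g • ({a, b} : Finset (Sylow 3 G)) := Finset.smul_mem_smul_finset (by simp)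
        rw [h1] at this; simpa using this
      have h3 : g • b = a ∨ g • b = b := by
        have : g • b ∈ g • ({a, b} : Finset (Sylow 3 G)) := Finset.smul_mem_smul_finset (by simp)
        rw [h1] at this; simpa using this
      rcases h2 with h2 | h2 <;> rcases h3 with h3 | h3
      · exact absurd (smul_left_cancel g (h2.trans h3.symm)) hab
      · exact Or.inl ⟨h2, h3⟩
      · exact Or.inr ⟨h2, h3⟩
      · exact absurd (smul_left_cancel g (h2.trans h3.symm)) hab
    have hle : Nat.card W ≤ 2 * Nat.card ↥(St a ⊓ St b) := by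
      by_cases hall : ∀ g ∈ W, g • a = a ∧ g • b = b
      · have := Nat.le_of_dvd Nat.card_pos (Subgroup.card_dvd_of_le (show W ≤ St a ⊓ St b from fun g hg => ⟨(hall g hg).1, (hall g hg).2⟩))
        omega
      push Not at hall
      obtain ⟨t, ht, htm⟩ := hall
      have htab : t • a = b ∧ t • b = a := (hmove t ht).resolve_left fun h => htm h.1 h.2
      refine le_trans (Nat.card_le_card_of_injective (α := W) (β := Bool × ↥(St a ⊓ St b)) (fun g => if hg : (g : G) • a = a then (true, ⟨g, hg, ?_⟩) else (false, ⟨t⁻¹ * g, ?_, ?_⟩)) ?_) (by simp [Nat.card_prod])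
      · exact ((hmove g g.2).resolve_right fun h => hab (hg.symm.trans h.1)).2
      · show (t⁻¹ * (g : G)) • a = a
        rw [mul_smul, ((hmove g g.2).resolve_left fun h => hg h.1).1, ← htab.1, inv_smul_smul]
      · show (t⁻¹ * (g : G)) • b = b
        rw [mul_smul, ((hmove g g.2).resolve_left fun h => hg h.1).2, ← htab.2, inv_smul_smul]
      · intro g g' h
        dsimp only at h
        split_ifs at h with h1 h2 h2
        · exact Subtype.ext (congrArg (fun z : Bool × ↥(St a ⊓ St b) => (z.2 : G)) h :)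
        · exact Bool.noConfusion (congrArg Prod.fst h)
        · exact Bool.noConfusion (congrArg Prod.fst h)
        · exact Subtype.ext (mul_left_cancel (congrArg (fun z : Bool × ↥(St a ⊓ St b) => (z.2 : G)) h :))
    have h16' : Nat.card ↥(St a ⊓ St b) ∣ 16 := by
      have h1 : Nat.card ↥(St a ⊓ St b) ∣ 3 ^ 2 * 16 := by
        rw [show 3 ^ 2 * 16 = 144 by norm_num, ← hSt a]; exact Subgroup.card_dvd_of_le inf_le_left
      exact (Nat.Coprime.pow_right 2 ((Nat.prime_three.coprime_iff_not_dvd.mpr (hno3 a b hab)).symm)).dvd_of_dvd_mul_left h1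
    have := Nat.le_of_dvd (by norm_num) h16'
    rw [hT]; omega
  intro hbot
  obtain ⟨P, Q, hPQ, hH, hHP, hHQ⟩ := hpair H
  obtain ⟨P', Q', hPQ', hH', hHP', hHQ'⟩ := hpair (x • H)
  rw [show ((x • H : Sylow 2 G) : Subgroup G) = MulAut.conj x • (H : Subgroup G) from rfl] at hH' hHP' hHQ'
  set H' := MulAut.conj x • (H : Subgroup G)
  have hshare : ∀ R, Nat.card ↥((H : Subgroup G) ⊓ St R) = 16 → Nat.card ↥(H' ⊓ St R) = 16 → False := by
    intro R h1 h2
    have hinj := Nat.card_le_card_of_injective (α := ↥((H : Subgroup G) ⊓ St R) × ↥(H' ⊓ St R)) (β := St R)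
      (fun p => ⟨(p.1 : G) * p.2, mul_mem p.1.2.2 p.2.2.2⟩) ?_
    · rw [Nat.card_prod, h1, h2, hSt] at hinj; omega
    intro p p' h
    have h' : (p.1 : G) * p.2 = p'.1 * p'.2 := congrArg Subtype.val h
    have h3 : (p'.1 : G)⁻¹ * p.1 = p'.2 * (p.2 : G)⁻¹ := by
      rw [inv_mul_eq_iff_eq_mul, ← mul_assoc, ← h', mul_inv_cancel_right]
    have a1 : (p'.1 : G) ∈ (H : Subgroup G) := (Subgroup.mem_inf.mp p'.1.2).1
    have a2 : (p.1 : G) ∈ (H : Subgroup G) := (Subgroup.mem_inf.mp p.1.2).1
    have b1 : (p'.2 : G) ∈ H' := (Subgroup.mem_inf.mp p'.2.2).1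
    have b2 : (p.2 : G) ∈ H' := (Subgroup.mem_inf.mp p.2.2).1
    have h4 : (p'.1 : G)⁻¹ * p.1 ∈ (H : Subgroup G) ⊓ H' := Subgroup.mem_inf.mpr ⟨mul_mem (inv_mem a1) a2, by rw [h3]; exact mul_mem b1 (inv_mem b2)⟩
    rw [hbot, Subgroup.mem_bot] at h4
    have e1 : (p.1 : G) = p'.1 := (inv_mul_eq_one.mp h4).symm
    have e2 : (p.2 : G) = p'.2 := by rw [e1] at h'; exact mul_left_cancel h'
    exact Prod.ext (Subtype.ext e1) (Subtype.ext e2)
  by_cases hdis : P' ∉ ({P, Q} : Finset _) ∧ Q' ∉ ({P, Q} : Finset _)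
  · -- the orbit of a disjoint pair is short
    let U := ((Finset.univ : Finset (Sylow 3 G)) \ {P, Q}).powersetCard 2
    have hU : U.card = 28 := by
      rw [Finset.card_powersetCard, Finset.card_sdiff_of_subset (Finset.subset_univ _), Finset.card_univ, ← Nat.card_eq_fintype_card, hn, Finset.card_pair hPQ]
      decide
    have hsub : ∀ w ∈ MulAction.orbit (H : Subgroup G) ({P', Q'} : Finset (Sylow 3 G)), w ∈ U := by
      rintro _ ⟨g, rfl⟩
      have hfix : (g : G) • ({P, Q} : Finset (Sylow 3 G)) = {P, Q} := by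
        exact (SetLike.ext_iff.mp hH (g : G)).mp g.2
      rw [Finset.mem_powersetCard]
      refine ⟨fun R hR => Finset.mem_sdiff.mpr ⟨Finset.mem_univ _, fun hR' => ?_⟩, ?_⟩
      · obtain ⟨S, hS, rfl⟩ := Finset.mem_smul_finset.mp hR
        rw [← hfix] at hR'
        have hS' : S ∈ ({P, Q} : Finset (Sylow 3 G)) := (Finset.smul_mem_smul_finset_iff (g : G)).mp hR'
        simp only [Finset.mem_insert, Finset.mem_singleton] at hS hS'
        rcases hS with rfl | rfl
        · exact hdis.1 (by simpa using hS')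
        · exact hdis.2 (by simpa using hS')
      · show ((g : G) • ({P', Q'} : Finset (Sylow 3 G))).card = 2
        rw [Finset.card_smul_finset, Finset.card_pair hPQ']
    have h1 : Nat.card (MulAction.orbit (H : Subgroup G) ({P', Q'} : Finset (Sylow 3 G))) ≤ 28 := by
      rw [← hU, ← Nat.card_eq_finsetCard]
      exact Nat.card_le_card_of_injective (fun w => (⟨w.1, hsub w.1 w.2⟩ : ↥U)) fun a b h => Subtype.ext (congrArg (fun u : ↥U => (u : Finset (Sylow 3 G))) h)
    have h2 : Nat.card (MulAction.stabilizer (H : Subgroup G) ({P', Q'} : Finset (Sylow 3 G))) = 1 := by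
      rw [Subgroup.card_eq_one]
      rw [eq_bot_iff]
      intro g hg
      have : (g : G) ∈ (H : Subgroup G) ⊓ H' := ⟨g.2, by rw [hH']; exact hg⟩
      rw [hbot, Subgroup.mem_bot] at this
      exact Subgroup.mem_bot.mpr (Subtype.ext this)
    have h3 := (Nat.card_prod _ _).symm.trans (Nat.card_congr (MulAction.orbitProdStabilizerEquivGroup (H : Subgroup G) ({P', Q'} : Finset (Sylow 3 G))))
    have hH32 : Nat.card (H : Subgroup G) = 32 := by
      rw [H.card_eq_multiplicity, hGc, show (1440 : ℕ) = 2 ^ 5 * 45 by norm_num, Nat.factorization_mul (by norm_num) (by norm_num),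
        Finsupp.add_apply, Nat.Prime.factorization_pow Nat.prime_two, Finsupp.single_eq_same, Nat.factorization_eq_zero_of_not_dvd (by norm_num)]
      rfl
    rw [h2, mul_one, hH32] at h3
    omega
  · simp only [Finset.mem_insert, Finset.mem_singleton] at hdis
    by_cases h : P' = P ∨ P' = Q
    · rcases h with rfl | rfl
      · exact hshare _ hHP hHP'
      · exact hshare _ hHQ hHP'
    · have h' : Q' = P ∨ Q' = Q := not_not.mp fun hh => hdis ⟨h, hh⟩
      rcases h' with rfl | rfl
      · exact hshare _ hHP hHQ'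
      · exact hshare _ hHQ hHQ' 

end Cfsg.Agent.S2488
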