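import Cfsg.Statements.S2638
import Cfsg.Agent.Lib.LinAlg.SemisimpleClasses

set_option autoImplicit false
open Cfsg

namespace Cfsg.Agent.S2638

/-- If an element x of GL_n(q), n ≥ 1, has prime order r and the multiplicative order of q modulo r is n (r is a primitive prime divisor of q^n − 1, so x acts irreducibly), then the centraliser of x in GL_n(q) is cyclic of order q^n − 1 (the multiplicative group of the field with q^n elements, a Singer cycle). -/
theorem result {F : Type*} [Field F] [Fintype F] {p q : ℕ} [Fact p.Prime] [CharP F p] (hF : Fintype.card F = q) {n r : ℕ} (hn : 1 ≤ n) (hr : r.Prime) (hrp : r ≠ p) (hi : orderOf (q : ZMod r) = n) (x : GL (Fin n) F) (hx : orderOf x = r) : IsCyclic ↥(Subgroup.centralizer ({x} : Set (GL (Fin n) F))) ∧ Nat.card ↥(Subgroup.centralizer ({x} : Set (GL (Fin n) F))) = q ^ n - 1 := by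
  classical
  set X : Module.End F (Fin n → F) := Matrix.toLinAlgEquiv' (x : Matrix (Fin n) (Fin n) F) with hX
  have hr0 : (r : F) ≠ 0 := by
    rw [Ne, CharP.cast_eq_zero_iff F p]
    exact fun hd => hrp ((Nat.prime_dvd_prime_iff_eq (Fact.out : p.Prime) hr).mp hd).symm
  have hXr : X ^ r = 1 := by
    rw [hX, ← map_pow, ← Units.val_pow_eq_pow_val, ← hx, pow_orderOf_eq_one, Units.val_one, map_one]
  have hXne : X ≠ 1 := fun e => by
    have h1 : x = 1 := Units.ext (Matrix.toLinAlgEquiv'.injective
      (e.trans (by rw [Units.val_one, map_one])))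
    rw [h1, orderOf_one] at hx
    exact hr.ne_one hx.symm
  have hdvd : minpoly F X ∣ Polynomial.X ^ r - 1 :=
    minpoly.dvd F X (by rw [map_sub, map_pow, Polynomial.aeval_X, map_one, hXr, sub_self])
  have hsq : Squarefree (minpoly F X) :=
    ((Polynomial.X_pow_sub_one_separable_iff.mpr hr0).squarefree).squarefree_of_dvd hdvd
  have : Nonempty (Fin n) := ⟨⟨0, hn⟩⟩
  obtain ⟨g, hgm, hgi, hgd, hg1⟩ : ∃ g : Polynomial F, g.Monic ∧ Irreducible g ∧ g ∣ minpoly F X ∧
      g ≠ Polynomial.X - 1 := by
    by_cases hc : Polynomial.X - 1 ∣ minpoly F X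
    · obtain ⟨h, hh⟩ := hc
      by_cases hu : IsUnit h
      · refine (hXne ?_).elim
        obtain ⟨c, hc, rfl⟩ := Polynomial.isUnit_iff.mp hu
        have h0 := minpoly.aeval F X
        rw [hh, map_mul, map_sub, Polynomial.aeval_X, map_one, Polynomial.aeval_C] at h0
        exact sub_eq_zero.mp ((hc.map (algebraMap F _)).mul_left_eq_zero.mp h0)
      · obtain ⟨g, hgm, hgi, hgd⟩ := Polynomial.exists_monic_irreducible_factor h hu
        refine ⟨g, hgm, hgi, hgd.trans ⟨_, by rw [hh, mul_comm]⟩, fun e => ?_⟩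
        exact hgi.not_isUnit (hsq g (hh ▸ mul_dvd_mul (e ▸ dvd_rfl) hgd))
    · obtain ⟨g, hgm, hgi, hgd⟩ := Polynomial.exists_monic_irreducible_factor _ (minpoly.not_isUnit F X)
      exact ⟨g, hgm, hgi, hgd, fun e => hc (e ▸ hgd)⟩
  have : Fact (Irreducible g) := ⟨hgi⟩
  obtain ⟨v, hv0, hv⟩ := LinAlg.SSClass.exists_vec_of_dvd_minpoly hgm hgi hgd
  obtain ⟨ι, hinj, hι⟩ := LinAlg.SSClass.exists_embedding hgm hgi hv0 hv
  let pb := AdjoinRoot.powerBasis hgm.ne_zero
  have : Module.Finite F (AdjoinRoot g) := pb.finite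
  have : Finite (AdjoinRoot g) := Module.finite_of_finite F
  have : Fintype (AdjoinRoot g) := Fintype.ofFinite _
  have hd : Module.finrank F (AdjoinRoot g) = g.natDegree := by rw [pb.finrank]; rfl
  have hroot : AdjoinRoot.root g ^ r = 1 := by
    obtain ⟨h, hh⟩ := hgd.trans hdvd
    have := congrArg (AdjoinRoot.mk g) hh
    rw [map_sub, map_pow, map_one, map_mul, AdjoinRoot.mk_X, AdjoinRoot.mk_self, zero_mul, sub_eq_zero] at this
    exact this
  have hroot1 : AdjoinRoot.root g ≠ 1 := fun e => by
    rw [← AdjoinRoot.mk_X, ← map_one (AdjoinRoot.mk g), AdjoinRoot.mk_eq_mk] at e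
    exact hg1 ((Polynomial.eq_of_monic_of_associated hgm (Polynomial.monic_X_sub_C 1)
      (hgi.associated_of_dvd (Polynomial.irreducible_X_sub_C 1) (by simpa using e))).trans (by simp))
  have hcard : Fintype.card (AdjoinRoot g) = q ^ g.natDegree := by
    rw [Module.card_eq_pow_finrank (K := F), hF, hd]
  have hrd : r ∣ q ^ g.natDegree - 1 := by
    have : orderOf (AdjoinRoot.root g) = r := haveI := Fact.mk hr; orderOf_eq_prime hroot hroot1
    rw [← hcard, ← this]
    exact orderOf_dvd_of_pow_eq_one (FiniteField.pow_card_sub_one_eq_one _ fun e => by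
      rw [e, zero_pow hr.ne_zero] at hroot; exact zero_ne_one hroot)
  have hnd : n ∣ g.natDegree := by
    have h1 : 1 ≤ q ^ g.natDegree := Nat.one_le_pow _ _ (hF ▸ Fintype.card_pos)
    rw [← ZMod.natCast_eq_zero_iff] at hrd
    rw [← hi]
    exact orderOf_dvd_of_pow_eq_one (by rw [← Nat.cast_pow, ← sub_eq_zero, ← Nat.cast_one, ← Nat.cast_sub h1]; exact hrd)
  have hgn : g.natDegree = n := by
    refine le_antisymm ?_ (Nat.le_of_dvd hgi.natDegree_pos hnd)
    rw [← hd]
    exact (LinearMap.finrank_le_finrank_of_injective hinj).trans_eq (Module.finrank_fin_fun F)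
  let e : AdjoinRoot g ≃ₗ[F] (Fin n → F) := LinearEquiv.ofInjectiveOfFinrankEq ι hinj
    (by rw [hd, hgn, Module.finrank_fin_fun])
  let Ψ : Module.End F (AdjoinRoot g) ≃ₐ[F] Matrix (Fin n) (Fin n) F :=
    (e.conjAlgEquiv F).trans Matrix.toLinAlgEquiv'.symm
  let φ : (AdjoinRoot g)ˣ →* GL (Fin n) F :=
    Units.map ((Ψ.toAlgHom.comp (Algebra.lmul F (AdjoinRoot g)) : AdjoinRoot g →ₐ[F] _) : AdjoinRoot g →* _)
  have hφinj : Function.Injective φ := fun a b hab => by
    have h1 : Algebra.lmul F (AdjoinRoot g) (a : AdjoinRoot g) = Algebra.lmul F (AdjoinRoot g) (b : AdjoinRoot g) :=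
      Ψ.injective (congrArg Units.val hab)
    refine Units.ext ?_
    simpa using LinearMap.congr_fun h1 1
  have hxΨ : (x : Matrix (Fin n) (Fin n) F) = Ψ (Algebra.lmul F (AdjoinRoot g) (AdjoinRoot.root g)) := by
    apply Matrix.toLinAlgEquiv'.injective
    show X = Matrix.toLinAlgEquiv' (Matrix.toLinAlgEquiv'.symm _)
    rw [AlgEquiv.apply_symm_apply]
    refine LinearMap.ext fun w => ?_
    obtain ⟨k, rfl⟩ := e.surjective w
    show X (ι k) = e (AdjoinRoot.root g * e.symm (e k))
    rw [hι, e.symm_apply_apply]; rfl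
  have hrange : φ.range = Subgroup.centralizer ({x} : Set (GL (Fin n) F)) := by
    ext z
    rw [Subgroup.mem_centralizer_singleton_iff]
    constructor
    · rintro ⟨u, rfl⟩
      refine Units.ext ?_
      show Ψ _ * (x : Matrix (Fin n) (Fin n) F) = (x : Matrix (Fin n) (Fin n) F) * Ψ _
      rw [hxΨ, ← map_mul, ← map_mul]
      congr 1
      show Algebra.lmul F (AdjoinRoot g) (u : AdjoinRoot g) * _ = _ * Algebra.lmul F (AdjoinRoot g) (u : AdjoinRoot g)
      rw [← map_mul, ← map_mul, mul_comm]
    · intro hz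
      set T := Ψ.symm (z : Matrix (Fin n) (Fin n) F) with hT
      have hc : T * Algebra.lmul F (AdjoinRoot g) (AdjoinRoot.root g) =
          Algebra.lmul F (AdjoinRoot g) (AdjoinRoot.root g) * T := by
        apply Ψ.injective
        rw [map_mul, map_mul, ← hxΨ, hT, AlgEquiv.apply_symm_apply]
        exact congrArg Units.val hz
      have hall : ∀ k, T k = T 1 * k := fun k => by
        induction k using AdjoinRoot.induction_on with
        | ih f =>
          induction f using Polynomial.induction_on with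
          | C a =>
            rw [show AdjoinRoot.mk g (Polynomial.C a) = algebraMap F (AdjoinRoot g) a from rfl,
              Algebra.algebraMap_eq_smul_one, map_smul, mul_smul_comm, mul_one]
          | add a b ha hb => rw [map_add, map_add, ha, hb, mul_add]
          | monomial k a ih =>
            have h1 := LinearMap.congr_fun hc (AdjoinRoot.mk g (Polynomial.C a * Polynomial.X ^ k))
            rw [pow_succ, ← mul_assoc, map_mul, AdjoinRoot.mk_X, mul_comm _ (AdjoinRoot.root g)]
            rw [Module.End.mul_apply, Module.End.mul_apply, Algebra.coe_lmul_eq_mul, LinearMap.mul_apply',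
              LinearMap.mul_apply'] at h1
            rw [h1, ih]; ring
      have hT1 : T 1 ≠ 0 := fun e0 => by
        have hTz : T = 0 := LinearMap.ext fun k => by rw [hall k, e0, zero_mul, LinearMap.zero_apply]
        have : (z : Matrix (Fin n) (Fin n) F) = 0 := by
          rw [← Ψ.apply_symm_apply (z : Matrix (Fin n) (Fin n) F), ← hT, hTz, map_zero]
        exact z.ne_zero this
      refine ⟨Units.mk0 _ hT1, Units.ext ?_⟩
      show Ψ (Algebra.lmul F (AdjoinRoot g) (T 1)) = _
      rw [show Algebra.lmul F (AdjoinRoot g) (T 1) = T from LinearMap.ext fun k => (hall k).symm, hT,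
        AlgEquiv.apply_symm_apply]
  rw [← hrange]
  refine ⟨isCyclic_of_surjective φ.rangeRestrict φ.rangeRestrict_surjective, ?_⟩
  rw [← Nat.card_congr (MonoidHom.ofInjective hφinj).toEquiv, Nat.card_eq_fintype_card, Fintype.card_units, hcard, hgn]

end Cfsg.Agent.S2638
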