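import Mathlib
import Cfsg.Statements.S2495
import Cfsg.Agent.Lib.Classical.PSLOrders
import Cfsg.Agent.Lib.NumTheory.Zsigmondy
import Cfsg.Agent.S2638

set_option autoImplicit false
set_option maxHeartbeats 800000
open Cfsg

namespace Cfsg.Agent.S2495

open Cfsg.Lib.PSLOrders Matrix

lemma gs_split {q : ℕ} (hq : 2 ≤ q) (m : ℕ) : gs q (m + m) = gs q m * (q ^ m + 1) := by
  have h := gs_mul_gs hq m 2
  rw [← mul_two, ← h]
  congr 1
  rw [gs, Finset.sum_range_succ, Finset.sum_range_one, pow_zero, pow_one, add_comm]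

lemma gcd_dvd_iff {q m : ℕ} (hq : 2 ≤ q) (hm : m ≠ 0) :
    Nat.gcd (m + m) (q - 1) ∣ m ↔ padicValNat 2 (q - 1) < padicValNat 2 (m + m) := by
  have h2 : padicValNat 2 (m + m) = padicValNat 2 m + 1 := by
    rw [← two_mul, padicValNat.mul (by norm_num) hm]
    simp [add_comm]
  rw [h2]
  set d := Nat.gcd (m + m) (q - 1)
  have hd0 : d ≠ 0 := (Nat.gcd_pos_of_pos_left _ (by omega)).ne'
  constructor
  · intro h
    by_contra hc
    push Not at hc
    have h1 : 2 ^ (padicValNat 2 m + 1) ∣ d := by
      refine Nat.dvd_gcd ?_ ?_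
      · rw [← h2]; exact pow_padicValNat_dvd
      · exact (pow_dvd_pow 2 hc).trans pow_padicValNat_dvd
    exact pow_succ_padicValNat_not_dvd hm (h1.trans h)
  · intro h
    have h2' : padicValNat 2 d ≤ padicValNat 2 (q - 1) :=
      (padicValNat_dvd_iff_le (by omega)).mp (pow_padicValNat_dvd.trans (Nat.gcd_dvd_right _ _))
    rw [← Nat.factorization_le_iff_dvd hd0 hm]
    intro p
    by_cases hp : p.Prime
    swap
    · simp [Nat.factorization_eq_zero_of_not_prime d hp]
    haveI := Fact.mk hp
    by_cases hp2 : p = 2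
    · subst hp2
      rw [Nat.factorization_def _ hp, Nat.factorization_def _ hp]
      omega
    · have hle : d.factorization p ≤ (m + m).factorization p :=
        (Nat.factorization_le_iff_dvd hd0 (by omega)).mpr (Nat.gcd_dvd_left _ _) p
      rw [← two_mul, Nat.factorization_mul (by norm_num) hm] at hle
      simpa [Nat.prime_two.factorization, Ne.symm hp2] using hle

variable {F : Type*} [Field F] [Fintype F] {n : ℕ}

/-- a determinant-one matrix commuting with a primitive element dies under the projective Singer order -/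
lemma pow_scalar {p r : ℕ} [Fact p.Prime] [CharP F p] (hn : 1 ≤ n) (hr : r.Prime) (hrp : r ≠ p)
    (hi : orderOf ((Fintype.card F : ℕ) : ZMod r) = n) (x : GL (Fin n) F) (hx : orderOf x = r)
    (A : Matrix.SpecialLinearGroup (Fin n) F) (hA : Commute (Matrix.SpecialLinearGroup.toGL A) x) :
    orderOf (bar A) * Nat.gcd n (Fintype.card F - 1) ∣ gs (Fintype.card F) n := by
  classical
  obtain ⟨hcyc, hcard⟩ := Cfsg.Agent.S2638.result rfl hn hr hrp hi x hx
  obtain ⟨z, hz⟩ := IsCyclic.exists_ofOrder_eq_natCard (α := Subgroup.centralizer ({x} : Set (GL (Fin n) F)))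
  set q := Fintype.card F with hq
  rw [hcard] at hz
  set zM : Matrix (Fin n) (Fin n) F := ((z : GL (Fin n) F) : Matrix (Fin n) (Fin n) F)
  set R := Algebra.adjoin F ({zM} : Set (Matrix (Fin n) (Fin n) F))
  have hq2 : 2 ≤ q := Fintype.one_lt_card
  have hqn : 2 ≤ q ^ n := hq2.trans (Nat.le_self_pow (by omega) q)
  haveI : Fintype R := Fintype.ofFinite R
  have hzR : zM ∈ R := Algebra.self_mem_adjoin_singleton F zM
  have hupper : Fintype.card R ≤ q ^ n := by
    let f : (Fin n → F) → R := fun c => ∑ i : Fin n, c i • (⟨zM, hzR⟩ : R) ^ (i : ℕ)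
    have hf : Function.Surjective f := by
      rintro ⟨y, hy⟩
      have hy : y ∈ (Polynomial.aeval (R := F) zM).range := by
        rw [← Algebra.adjoin_singleton_eq_range_aeval]; exact hy
      obtain ⟨P, rfl⟩ := hy
      set Q := P %ₘ zM.charpoly
      have hQ : Q.natDegree < n := by
        refine lt_of_lt_of_le (Polynomial.natDegree_modByMonic_lt P (Matrix.charpoly_monic zM) ?_) ?_
        · intro h1
          have := congrArg Polynomial.natDegree h1
          rw [Matrix.charpoly_natDegree_eq_dim] at this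
          simp at this; omega
        · rw [Matrix.charpoly_natDegree_eq_dim]; simp
      refine ⟨fun i => Q.coeff i, Subtype.ext ?_⟩
      have e : Polynomial.aeval zM P = Polynomial.aeval zM Q := by
        conv_lhs => rw [← Polynomial.modByMonic_add_div P zM.charpoly]
        simp [map_add, map_mul, Matrix.aeval_self_charpoly, Q]
      show _ = Polynomial.aeval zM P
      rw [e, Polynomial.aeval_eq_sum_range' hQ, ← Fin.sum_univ_eq_sum_range (fun i => Q.coeff i • zM ^ i)]
      simp [f]
    calc Fintype.card R ≤ Fintype.card (Fin n → F) := Fintype.card_le_of_surjective f hf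
      _ = q ^ n := by simp [hq]
  let g : Option (Fin (q ^ n - 1)) → R := fun o => o.elim 0 fun i => ⟨zM, hzR⟩ ^ (i : ℕ)
  have hzi : ∀ i : ℕ, ((⟨zM, hzR⟩ : R) ^ i : R).1 = (((z ^ i : Subgroup.centralizer ({x} : Set (GL (Fin n) F))) : GL (Fin n) F) : Matrix (Fin n) (Fin n) F) := by
    intro i; simp [zM]
  haveI : Nonempty (Fin n) := ⟨⟨0, by omega⟩⟩
  have hginj : Function.Injective g := by
    intro a b hab
    rcases a with _ | a <;> rcases b with _ | b
    · rfl
    · exfalso
      have h := congrArg Subtype.val hab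
      simp only [g, Option.elim] at h
      rw [hzi] at h
      exact Units.ne_zero _ h.symm
    · exfalso
      have h := congrArg Subtype.val hab
      simp only [g, Option.elim] at h
      rw [hzi] at h
      exact Units.ne_zero _ h
    · have h := congrArg Subtype.val hab
      simp only [g, Option.elim] at h
      rw [hzi, hzi] at h
      have h' := pow_injOn_Iio_orderOf (x := z) (by rw [Set.mem_Iio, hz]; exact a.2) (by rw [Set.mem_Iio, hz]; exact b.2)
        (Subtype.ext (Units.ext h))
      exact congrArg some (Fin.ext h')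
  have hgbij : Function.Bijective g := by
    refine (Fintype.bijective_iff_injective_and_card g).mpr ⟨hginj, ?_⟩
    refine le_antisymm (Fintype.card_le_of_injective g hginj) ?_
    simp; omega
  have hcardR : Fintype.card R = q ^ n := by
    rw [← Fintype.card_of_bijective hgbij]; simp; omega
  haveI : Nontrivial R := ⟨⟨0, 1, fun h => zero_ne_one (congrArg Subtype.val h)⟩⟩
  have hF : IsField R :=
    { exists_pair_ne := exists_pair_ne R
      mul_comm := fun a b => by
        have : ∀ a : R, Commute zM a.1 := fun a => by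
          obtain ⟨o, rfl⟩ := hgbij.2 a
          rcases o with _ | i
          · exact Commute.zero_right _
          · exact (Commute.refl zM).pow_right _
        obtain ⟨o, rfl⟩ := hgbij.2 a
        apply Subtype.ext
        rcases o with _ | i
        · simp [g]
        · exact ((this b).pow_left _).eq
      mul_inv_cancel := fun {a} ha => by
        obtain ⟨o, rfl⟩ := hgbij.2 a
        rcases o with _ | i
        · exact absurd rfl ha
        · refine ⟨⟨zM, hzR⟩ ^ (q ^ n - 1 - (i : ℕ)), ?_⟩
          show (⟨zM, hzR⟩ : R) ^ (i : ℕ) * _ = 1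
          rw [← pow_add, show (i : ℕ) + (q ^ n - 1 - i) = q ^ n - 1 by omega]
          apply Subtype.ext
          rw [hzi, ← hz, pow_orderOf_eq_one]
          simp }
  letI := hF.toField
  obtain ⟨m, hm, hdet⟩ := det_of_algHom R.val (⟨(A : Matrix (Fin n) (Fin n) F), by
    have hmem : Matrix.SpecialLinearGroup.toGL A ∈ Subgroup.centralizer ({x} : Set (GL (Fin n) F)) :=
      Subgroup.mem_centralizer_singleton_iff.mpr hA.eq
    have hgen : (⟨_, hmem⟩ : Subgroup.centralizer ({x} : Set (GL (Fin n) F))) ∈ Subgroup.zpowers z := by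
      have : Subgroup.zpowers z = ⊤ := Subgroup.eq_top_of_card_eq _ (by rw [Nat.card_zpowers, hz, hcard])
      rw [this]; trivial
    obtain ⟨i, hi'⟩ := mem_powers_iff_mem_zpowers.mpr hgen
    have h' := congrArg (fun y : Subgroup.centralizer ({x} : Set (GL (Fin n) F)) => ((y : GL (Fin n) F) : Matrix (Fin n) (Fin n) F)) hi'
    have : (A : Matrix (Fin n) (Fin n) F) = zM ^ i := by simpa [zM] using h'.symm
    rw [this]; exact R.pow_mem hzR i⟩ : R)
  set k : R := ⟨(A : Matrix (Fin n) (Fin n) F), _⟩
  have hfr : Module.finrank F R = n := by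
    have h := Module.card_eq_pow_finrank (K := F) (V := R)
    rw [hcardR] at h
    exact (Nat.pow_right_injective hq2 h).symm
  rw [hfr] at hm hdet
  have hm1 : m = 1 := Nat.eq_of_mul_eq_mul_left (by omega : 0 < n) (hm.trans (mul_one n).symm)
  rw [hm1, mul_one, show (R.val k).det = 1 from A.2, map_one] at hdet
  set d := Nat.gcd n (q - 1) with hd
  have hdgs : d ∣ gs q n := by
    have h1 : q ≡ 1 [MOD d] := ((Nat.modEq_iff_dvd' (by omega)).mpr (Nat.gcd_dvd_right _ _)).symm
    exact (Nat.ModEq.dvd_iff (gs_modEq h1) dvd_rfl).mpr (Nat.gcd_dvd_left _ _)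
  obtain ⟨e, he⟩ := hdgs
  obtain ⟨f, hf⟩ : d ∣ q - 1 := Nat.gcd_dvd_right _ _
  have hke : (k ^ e) ^ (q - 1) = 1 := by
    rw [← pow_mul, hf, ← mul_assoc, mul_comm e d, ← he, pow_mul, ← hdet, one_pow]
  obtain ⟨c, hc⟩ := algebraMap_of_pow_sub_one_eq_one hke
  have : orderOf (bar A) ∣ e := by
    rw [orderOf_dvd_iff_pow_eq_one, bar_pow, bar_eq_one]
    refine mem_center_of_scalar (c := c) ?_
    rw [Matrix.SpecialLinearGroup.coe_pow]
    have := congrArg Subtype.val hc
    simpa [k] using this.symm
  rw [he, mul_comm (orderOf (bar A))]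
  exact Nat.mul_dvd_mul_left d this

/-- Let q be an odd prime power, n ≥ 4 even, and L = PSL(n,q). Then L has an element of order q^(n/2) + 1 if and only if the 2-part of n exceeds the 2-part of q − 1. -/
theorem result {F : Type*} [Field F] [Fintype F] {q : ℕ} (hF : Fintype.card F = q) (hodd : Odd q)
    {n : ℕ} (hn : 4 ≤ n) (heven : Even n) :
    (∃ g : Matrix.ProjectiveSpecialLinearGroup (Fin n) F, orderOf g = q ^ (n / 2) + 1) ↔
      padicValNat 2 (q - 1) < padicValNat 2 n := by
  classical
  obtain ⟨m, rfl⟩ := heven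
  have hm0 : m ≠ 0 := by omega
  rw [show (m + m) / 2 = m by omega]
  subst hF
  set q := Fintype.card F with hq
  have hq2 : 2 ≤ q := Fintype.one_lt_card
  have hq3 : 3 ≤ q := by rcases hodd with ⟨j, hj⟩; omega
  obtain ⟨p, hcp⟩ := CharP.exists F
  haveI : Fact p.Prime := ⟨CharP.char_is_prime F p⟩
  rw [← gcd_dvd_iff hq2 hm0]
  set d := Nat.gcd (m + m) (q - 1) with hd
  have hmod : q ≡ 1 [MOD d] := ((Nat.modEq_iff_dvd' (by omega)).mpr (Nat.gcd_dvd_right _ _)).symm
  have hgsm : d ∣ gs q m ↔ d ∣ m := Nat.ModEq.dvd_iff (gs_modEq hmod) dvd_rfl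
  constructor
  · rintro ⟨g, hg⟩
    obtain ⟨r, hr, hrd, hprim⟩ := Cfsg.Agent.NumTheory.zsigmondy q (m + m) (by omega) (by omega)
      (fun h => by omega) (fun h => by omega)
    haveI := Fact.mk hr
    have hrN : r ∣ q ^ m + 1 := by
      have e : q ^ (m + m) - 1 = (q ^ m + 1) * (q ^ m - 1) := by
        rw [pow_add]; simpa [sq] using Nat.sq_sub_sq (q ^ m) 1
      rw [e] at hrd
      exact (hr.dvd_mul.mp hrd).resolve_right (hprim m (by omega) (by omega))
    have hrp : r ≠ p := by
      rintro rfl
      obtain ⟨k, -, hk⟩ := FiniteField.card F r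
      have h1 : r ∣ q ^ m := dvd_pow (by rw [hq, hk]; exact dvd_pow_self r k.pos.ne') hm0
      have h2 := (Nat.dvd_add_right h1).mp hrN
      exact hr.ne_one (Nat.dvd_one.mp h2)
    have hcast : ∀ k, (q : ZMod r) ^ k = 1 ↔ r ∣ q ^ k - 1 := fun k => by
      rw [← Nat.cast_pow, ← Nat.cast_one, ZMod.natCast_eq_natCast_iff, Nat.ModEq.comm,
        Nat.modEq_iff_dvd' (Nat.one_le_pow _ _ (by omega))]
    have hord : orderOf (q : ZMod r) = m + m := (orderOf_eq_iff (by omega)).mpr
      ⟨(hcast _).mpr hrd, fun k hk hk0 h => hprim k hk0 hk ((hcast k).mp h)⟩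
    induction g using QuotientGroup.induction_on with
    | _ A =>
      change orderOf (bar A) = _ at hg
      have ho : r ∣ orderOf A :=
        (hg ▸ hrN : r ∣ orderOf (bar A)).trans (orderOf_map_dvd (QuotientGroup.mk' _) A)
      obtain ⟨k, hk⟩ := exists_pow_order A ho
      have hx : orderOf (Matrix.SpecialLinearGroup.toGL (A ^ k)) = r := by
        rw [← hk]
        exact orderOf_injective (Matrix.SpecialLinearGroup.toGL (n := Fin (m + m)) (R := F))
          Matrix.SpecialLinearGroup.toGL_injective _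
      have h := pow_scalar (by omega) hr hrp hord _ hx A
        (by rw [map_pow]; exact (Commute.refl _).pow_right k)
      rw [hg, ← hq, ← hd, gs_split hq2, mul_comm] at h
      exact hgsm.mp (Nat.dvd_of_mul_dvd_mul_right (by positivity) h)
  · intro hdm
    obtain ⟨b, hb, -⟩ := exists_singer (F := F) (p := p) (n := m + m) (by omega)
    rw [← hq, ← hd, gs_split hq2] at hb
    obtain ⟨e, he⟩ := hgsm.mpr hdm
    have hd0 : 0 < d := Nat.gcd_pos_of_pos_left _ (by omega)
    have hN : q ^ m + 1 ∣ orderOf (bar b) := by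
      rw [he, mul_assoc, mul_comm (orderOf (bar b))] at hb
      exact (dvd_mul_left _ e).trans (Nat.dvd_of_mul_dvd_mul_left hd0 hb)
    obtain ⟨k, hk⟩ := exists_pow_order (bar b) hN
    exact ⟨bar b ^ k, hk⟩

end Cfsg.Agent.S2495
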