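import Mathlib
import Cfsg.Statements.S2496
import Cfsg.Agent.Lib.Classical.UnitaryCentre
import Cfsg.Agent.Lib.Classical.PSLOrders
import Cfsg.Agent.Lib.NumTheory.Zsigmondy
import Cfsg.Agent.S2495

set_option autoImplicit false
set_option maxHeartbeats 800000
open Cfsg Matrix

namespace Cfsg.Agent.S2496

open Cfsg.Lib.PSLOrders Cfsg.Lib.Classical.UnitaryCentre

variable {F : Type*} [Field F] [Fintype F] {q n : ℕ}

lemma sigma_exists (hF : Fintype.card F = q ^ 2) :
    ∃ σ : F →+* F, (∀ x, σ x = x ^ q) ∧ ∀ x, σ (σ x) = x := by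
  obtain ⟨p, hp⟩ := CharP.exists F
  haveI : Fact p.Prime := ⟨CharP.char_is_prime F p⟩
  obtain ⟨e, -, he⟩ := FiniteField.card F p
  have hq : ∃ a, q = p ^ a := by
    have : q ∣ p ^ (e : ℕ) := by rw [← he, hF, sq]; exact dvd_mul_right q q
    obtain ⟨a, -, ha⟩ := (Nat.dvd_prime_pow Fact.out).mp this
    exact ⟨a, ha⟩
  obtain ⟨a, ha⟩ := hq
  refine ⟨iterateFrobenius F p a, fun x => by rw [iterateFrobenius_def, ha], fun x => ?_⟩
  rw [iterateFrobenius_def, iterateFrobenius_def, ← ha, ← pow_mul, ← sq, ← hF, FiniteField.pow_card]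

lemma mem_iff (hq0 : q ≠ 0) (σ : F →+* F) (hσ : ∀ x, σ x = x ^ q) {A : Matrix.SpecialLinearGroup (Fin n) F} :
    A ∈ Cfsg.SU n F q ↔ (A : Matrix (Fin n) (Fin n) F)ᵀ * (A : Matrix (Fin n) (Fin n) F).map σ = 1 := by
  classical
  set M := (A : Matrix (Fin n) (Fin n) F)
  have key : ∀ x y : Fin n → F, Cfsg.hermForm n F q (M *ᵥ x) (M *ᵥ y) = x ⬝ᵥ ((Mᵀ * M.map σ) *ᵥ (σ ∘ y)) := by
    intro x y
    have h2 : σ ∘ (M *ᵥ y) = M.map σ *ᵥ (σ ∘ y) := funext fun i => RingHom.map_mulVec σ M y i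
    rw [← Matrix.mulVec_mulVec, Matrix.dotProduct_mulVec, Matrix.vecMul_transpose, ← h2]
    simp [Cfsg.hermForm, dotProduct, hσ]
  have key' : ∀ x y : Fin n → F, Cfsg.hermForm n F q x y = x ⬝ᵥ (σ ∘ y) := by
    intro x y; simp [Cfsg.hermForm, dotProduct, hσ]
  rw [mem_SU_iff]
  constructor
  · intro h
    ext i j
    have := h (Pi.single i 1) (Pi.single j 1)
    rw [key, key'] at this
    have hs : σ ∘ (Pi.single j 1 : Fin n → F) = Pi.single j 1 := by
      funext k; rcases eq_or_ne k j with rfl | hk <;> simp [*]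
    rw [hs] at this
    simpa [Matrix.one_apply, Pi.single_apply, eq_comm] using this
  · intro h x y
    rw [key, key', h, Matrix.one_mulVec]

lemma center_scalar (hF : Fintype.card F = q ^ 2) (hn : 2 ≤ n) {z : Cfsg.SU n F q} (hz : z ∈ Subgroup.center _) :
    ∃ r : F, (z.1 : Matrix (Fin n) (Fin n) F) = r • 1 := by
  obtain ⟨r, hr⟩ := scalar_of_commute hF hn fun A =>
    congrArg (fun g : Cfsg.SU n F q => (g.1 : Matrix (Fin n) (Fin n) F)) (Subgroup.mem_center_iff.1 hz A)
  exact ⟨r, by rw [hr, Matrix.scalar_apply, Matrix.smul_one_eq_diagonal]⟩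

lemma arith (q m : ℕ) (hq : 1 ≤ q) (hm : m ≠ 0) (N : ℕ) (hN : N = if Even m then q ^ m + 1 else q ^ m - 1) :
    ∃ Q T : ℕ, T = gs (q ^ 2) m * (q - 1) ∧ T * (q + 1) = q ^ (m + m) - 1 ∧ N * Q = T ∧
      (Nat.gcd (m + m) (q + 1) ∣ Q ↔ Nat.gcd (m + m) (q + 1) ∣ m) := by
  set S : ℤ := ∑ i ∈ Finset.range m, (-(q : ℤ)) ^ i with hS
  have hgeo : S * (-(q : ℤ) - 1) = (-(q : ℤ)) ^ m - 1 := geom_sum_mul _ _
  have hgs : gs (q ^ 2) m * (q ^ 2 - 1) + 1 = (q ^ 2) ^ m := gs_mul (Nat.one_le_pow _ _ hq) m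
  have hT : gs (q ^ 2) m * (q - 1) * (q + 1) = q ^ (m + m) - 1 := by
    have e : q ^ 2 - 1 = (q - 1) * (q + 1) := by rw [mul_comm, ← Nat.sq_sub_sq, one_pow]
    rw [e, ← pow_mul, two_mul] at hgs
    rw [mul_assoc]; omega
  set d := Nat.gcd (m + m) (q + 1)
  have hSm : ((d : ℤ) ∣ S) ↔ d ∣ m := by
    have hq1 : (d : ℤ) ∣ (-(q : ℤ)) - 1 := by
      have : (d : ℤ) ∣ ((q + 1 : ℕ) : ℤ) := Int.natCast_dvd_natCast.mpr (Nat.gcd_dvd_right _ _)
      have := this.neg_right
      push_cast at this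
      rwa [neg_add] at this
    have h : (d : ℤ) ∣ S - m := by
      have : S - m = ∑ i ∈ Finset.range m, ((-(q : ℤ)) ^ i - 1) := by
        rw [Finset.sum_sub_distrib]; simp [S]
      rw [this]
      exact Finset.dvd_sum fun i _ => hq1.trans (by simpa using sub_dvd_pow_sub_pow (-(q : ℤ)) 1 i)
    rw [← Int.natCast_dvd_natCast]
    exact ⟨fun h1 => by simpa using Int.dvd_sub h1 h, fun h1 => by simpa using Int.dvd_add h h1⟩
  refine ⟨S.natAbs, _, rfl, hT, ?_, by rw [← Int.natCast_dvd, hSm]⟩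
  have h1 : (q : ℤ) + 1 ≠ 0 := by positivity
  have hTz : ((gs (q ^ 2) m * (q - 1) : ℕ) : ℤ) * ((q : ℤ) + 1) = (q : ℤ) ^ (m + m) - 1 := by
    have := congrArg (fun x : ℕ => (x : ℤ)) hT
    simp only [Nat.cast_mul, Nat.cast_add, Nat.cast_one] at this
    rw [Nat.cast_sub (Nat.one_le_pow _ _ hq)] at this
    simpa using this
  rcases Nat.even_or_odd m with he | ho
  · rw [he.neg_pow] at hgeo
    have hS0 : S ≤ 0 := by
      by_contra hc
      push Not at hc
      have : (1 : ℤ) ≤ (q : ℤ) ^ m := one_le_pow₀ (by exact_mod_cast hq)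
      nlinarith
    rw [← Int.natCast_inj, hN, if_pos he]
    push_cast
    rw [abs_of_nonpos hS0]
    refine mul_right_cancel₀ h1 ?_
    push_cast at hTz
    rw [hTz, pow_add]
    linear_combination ((q : ℤ) ^ m + 1) * hgeo
  · rw [ho.neg_pow] at hgeo
    have hS0 : 0 ≤ S := by
      by_contra hc
      push Not at hc
      have : (1 : ℤ) ≤ (q : ℤ) ^ m := one_le_pow₀ (by exact_mod_cast hq)
      nlinarith
    rw [← Int.natCast_inj, hN, if_neg (Nat.not_even_iff_odd.mpr ho), Nat.cast_mul, Nat.cast_sub (Nat.one_le_pow _ _ hq)]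
    push_cast
    rw [abs_of_nonneg hS0]
    refine mul_right_cancel₀ h1 ?_
    push_cast at hTz
    rw [hTz, pow_add]
    linear_combination -((q : ℤ) ^ m - 1) * hgeo

lemma construct (hF : Fintype.card F = q ^ 2) (hodd : Odd q) (m : ℕ) (hm : m ≠ 0) :
    ∃ g : Cfsg.SU (m + m) F q, ∀ j : ℕ, g ^ j ∈ Subgroup.center _ →
      q ^ (m + m) - 1 ∣ (q + 1) * j * Nat.gcd (m + m) (q + 1) := by
  classical
  haveI : NeZero m := ⟨hm⟩
  obtain ⟨σ, hσ, hσσ⟩ := sigma_exists hF
  have hq0 : q ≠ 0 := by rintro rfl; simp at hodd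
  have hq3 : 2 ≤ q := by
    have := Fintype.one_lt_card (α := F)
    rw [hF] at this
    by_contra h; interval_cases q <;> simp at this
  obtain ⟨p, hp⟩ := CharP.exists F
  haveI : Fact p.Prime := ⟨CharP.char_is_prime F p⟩
  set K := FiniteField.Extension F p m
  haveI : Fintype K := Fintype.ofFinite K
  have hfr : Module.finrank F K = m := FiniteField.finrank_extension F p m
  let bs : Module.Basis (Fin m) F K := Module.finBasisOfFinrankEq F K hfr
  let φ : K →ₐ[F] Matrix (Fin m) (Fin m) F := Algebra.leftMulMatrix bs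
  have hcard : Nat.card Kˣ = q ^ (m + m) - 1 := by
    rw [Nat.card_units, Nat.card_eq_fintype_card, Module.card_eq_pow_finrank (K := F) (V := K), hfr, hF, ← pow_mul, two_mul]
  obtain ⟨γ, hγ⟩ := IsCyclic.exists_ofOrder_eq_natCard (α := Kˣ)
  set u : Kˣ := γ ^ (q + 1) with hu
  set A := φ (u : K) with hA
  set B := ((φ ((u⁻¹ : Kˣ) : K)).map σ)ᵀ with hB
  have hmap : ∀ X : Matrix (Fin m) (Fin m) F, (X.map σ).map σ = X := fun X => by ext i j; simp [hσσ]
  have hAB : (φ (u : K)) * φ ((u⁻¹ : Kˣ) : K) = 1 := by rw [← map_mul, Units.mul_inv, map_one]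
  have hBA : φ ((u⁻¹ : Kˣ) : K) * (φ (u : K)) = 1 := by rw [← map_mul, Units.inv_mul, map_one]
  have hdet : A.det * B.det = 1 := by
    obtain ⟨k1, hk1, hd1⟩ := det_of_algHom φ (u : K)
    rw [hfr] at hk1 hd1
    have hk : k1 = 1 := Nat.eq_of_mul_eq_mul_left (Nat.pos_of_ne_zero hm) (hk1.trans (mul_one m).symm)
    rw [hk, mul_one, hF] at hd1
    have hfix : σ A.det = A.det := by
      apply (algebraMap F K).injective
      rw [hσ, map_pow, hA, hd1]
      have h1 : ((u : K) ^ gs (q ^ 2) m) ^ (q - 1) = 1 := by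
        rw [← pow_mul, hu, Units.val_pow_eq_pow_val, ← pow_mul, ← Units.val_pow_eq_pow_val]
        obtain ⟨-, T, hT, hT2, -, -⟩ := arith q m (by omega) hm _ rfl
        rw [← hT, mul_comm, hT2, ← hcard, pow_card_eq_one', Units.val_one]
      conv_lhs => rw [show q = q - 1 + 1 by omega, pow_succ]
      rw [show q - 1 + 1 = q by omega, h1, one_mul]
    have h1 : A.det * (φ ((u⁻¹ : Kˣ) : K)).det = 1 := by rw [hA, ← Matrix.det_mul, hAB, Matrix.det_one]
    rw [hB, Matrix.det_transpose, ← RingHom.mapMatrix_apply, ← RingHom.map_det]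
    have := congrArg σ h1
    rwa [map_mul, hfix, map_one] at this
  -- change of basis
  have h2 : (2 : F) ≠ 0 := by
    intro h
    have h' : ((2 : ℕ) : F) = 0 := by exact_mod_cast h
    have hp2 : p = 2 := (Nat.prime_dvd_prime_iff_eq Fact.out Nat.prime_two).mp ((CharP.cast_eq_zero_iff F p 2).mp h')
    obtain ⟨e, -, he⟩ := FiniteField.card F p
    rw [hF, hp2] at he
    have : Odd (q ^ 2) := hodd.pow
    rw [he, Nat.odd_iff] at this
    simp [Nat.pow_mod, e.pos.ne'] at this
  set h : F := 1 / 2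
  obtain ⟨c, hc⟩ : ∃ c : F, c * σ c = -1 := by
    obtain ⟨v, hv⟩ := IsCyclic.exists_ofOrder_eq_natCard (α := Fˣ)
    rw [Nat.card_units, Nat.card_eq_fintype_card, hF] at hv
    obtain ⟨k, hk⟩ := hodd
    have hfac : q ^ 2 - 1 = (q + 1) * (q - 1) := by rw [← Nat.sq_sub_sq, one_pow]
    refine ⟨((v ^ k : Fˣ) : F), ?_⟩
    rw [hσ, ← pow_succ', Units.val_pow_eq_pow_val, ← pow_mul]
    have e : ((v : F) ^ (k * (q + 1))) ^ 2 = 1 := by
      rw [← pow_mul, show k * (q + 1) * 2 = q ^ 2 - 1 by rw [hfac, show q - 1 = 2 * k by omega]; ring,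
        ← Units.val_pow_eq_pow_val, ← hv, pow_orderOf_eq_one, Units.val_one]
    rcases sq_eq_one_iff.mp e with e1 | e1
    · exfalso
      have hd := orderOf_dvd_of_pow_eq_one (Units.ext (by rw [Units.val_pow_eq_pow_val, e1, Units.val_one]) : v ^ (k * (q + 1)) = 1)
      rw [hv, hfac] at hd
      have := Nat.le_of_dvd (Nat.mul_pos (by omega) (by omega)) hd
      rw [mul_comm k] at this
      have := Nat.le_of_mul_le_mul_left this (by omega)
      omega
    · exact e1
  have hh : σ h = h := by rw [map_div₀, map_one, map_ofNat]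
  let T : Matrix (Fin m ⊕ Fin m) (Fin m ⊕ Fin m) F := Matrix.fromBlocks 1 (h • 1) (c • 1) (-(c * h) • 1)
  let J' : Matrix (Fin m ⊕ Fin m) (Fin m ⊕ Fin m) F := Matrix.fromBlocks 0 1 1 0
  have hsm : ∀ a : F, (a • (1 : Matrix (Fin m) (Fin m) F)).map σ = σ a • 1 := fun a => by
    ext i j; by_cases hij : i = j <;> simp [hij]
  have hTT : Tᵀ * T.map σ = J' := by
    simp only [T, J', Matrix.fromBlocks_transpose, Matrix.fromBlocks_map, Matrix.fromBlocks_multiply, hsm,
      Matrix.transpose_one, Matrix.transpose_smul, Matrix.map_one σ (map_zero σ) (map_one σ), Matrix.smul_mul,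
      Matrix.mul_smul, one_mul, mul_one, smul_smul, map_neg, map_mul, hh]
    congr 1
    · rw [show (1 : Matrix (Fin m) (Fin m) F) + (σ c * c) • 1 = (1 + σ c * c) • 1 by rw [add_smul, one_smul],
        show 1 + σ c * c = 0 by linear_combination hc, zero_smul]
    · rw [← add_smul, show h + -(σ c * h) * c = 1 by simp [h]; field_simp; linear_combination -hc, one_smul]
    · rw [← add_smul, show h + σ c * -(c * h) = 1 by simp [h]; field_simp; linear_combination -hc, one_smul]
    · rw [← add_smul, show h * h + -(σ c * h) * -(c * h) = 0 by linear_combination (h * h) * hc, zero_smul]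
  let e : Fin m ⊕ Fin m ≃ Fin (m + m) := finSumFinEquiv
  let Ti : Matrix (Fin m ⊕ Fin m) (Fin m ⊕ Fin m) F := J' * (T.map σ)ᵀ
  have hJ2 : J' * J' = 1 := by simp [J', Matrix.fromBlocks_multiply, Matrix.fromBlocks_one]
  have hJt : J'ᵀ = J' := by simp [J', Matrix.fromBlocks_transpose]
  have hTiT : Ti * T = 1 := by
    have : ((T.map σ)ᵀ * T) = J' := by
      have := congrArg Matrix.transpose hTT
      rwa [Matrix.transpose_mul, Matrix.transpose_transpose, hJt] at this
    rw [show Ti * T = J' * ((T.map σ)ᵀ * T) from mul_assoc _ _ _, this, hJ2]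
  have hTTi : T * Ti = 1 := mul_eq_one_comm.mp hTiT
  let D : Matrix (Fin m ⊕ Fin m) (Fin m ⊕ Fin m) F := Matrix.fromBlocks A 0 0 B
  have hD : Dᵀ * J' * D.map σ = J' := by
    simp only [D, J', Matrix.fromBlocks_transpose, Matrix.fromBlocks_map, Matrix.fromBlocks_multiply,
      Matrix.map_zero σ (map_zero σ), Matrix.transpose_zero, mul_zero, zero_mul, add_zero, zero_add, mul_one]
    congr 1
    · rw [hB, Matrix.transpose_map, hmap, hA, ← Matrix.transpose_mul, hBA, Matrix.transpose_one]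
    · rw [hB, Matrix.transpose_transpose, hA, ← RingHom.mapMatrix_apply, ← RingHom.mapMatrix_apply, ← map_mul, hBA, map_one]
  let G := T * D * Ti
  have hG : Gᵀ * G.map σ = 1 := by
    have e1 : Ti.map σ = (J' * (T.map σ)ᵀ).map σ := rfl
    calc Gᵀ * G.map σ = Tiᵀ * (Dᵀ * (Tᵀ * T.map σ) * D.map σ) * Ti.map σ := by
          simp only [G, Matrix.transpose_mul, Matrix.map_mul, mul_assoc]
      _ = Tiᵀ * J' * Ti.map σ := by rw [hTT, hD]
      _ = Tiᵀ * (Tᵀ * T.map σ) * Ti.map σ := by rw [hTT]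
      _ = (T * Ti)ᵀ * (T * Ti).map σ := by simp only [Matrix.transpose_mul, Matrix.map_mul, mul_assoc]
      _ = 1 := by rw [hTTi]; simp
  have hGdet : G.det = 1 := by
    have h1 : T.det * Ti.det = 1 := by rw [← Matrix.det_mul, hTTi, Matrix.det_one]
    rw [Matrix.det_mul, Matrix.det_mul, Matrix.det_fromBlocks_zero₂₁]
    linear_combination (A.det * B.det) * h1 + hdet
  let R : Matrix (Fin m ⊕ Fin m) (Fin m ⊕ Fin m) F ≃ₐ[F] Matrix (Fin (m + m)) (Fin (m + m)) F := Matrix.reindexAlgEquiv F F e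
  have hRdet : (R G).det = 1 := by simp [R, Matrix.det_reindex_self, hGdet]
  let g0 : Matrix.SpecialLinearGroup (Fin (m + m)) F := ⟨R G, hRdet⟩
  have hg0 : g0 ∈ Cfsg.SU (m + m) F q := by
    rw [mem_iff hq0 σ hσ]
    show (R G)ᵀ * (R G).map σ = 1
    rw [show (R G)ᵀ = R Gᵀ from rfl, show (R G).map σ = R (G.map σ) from rfl, ← map_mul, hG, map_one]
  refine ⟨⟨g0, hg0⟩, fun j hj => ?_⟩
  obtain ⟨r, hr⟩ := center_scalar hF (by omega) hj
  have hGj : G ^ j = r • 1 := by
    apply R.injective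
    rw [map_pow, map_smul, map_one, ← hr]
    exact (Matrix.SpecialLinearGroup.coe_pow g0 j).symm
  have hDj : D ^ j = r • 1 := by
    have hconj : ∀ k : ℕ, G ^ k = T * D ^ k * Ti := by
      intro k
      induction k with
      | zero => simp [hTTi]
      | succ k ih =>
        rw [pow_succ, ih, pow_succ]
        calc T * D ^ k * Ti * (T * D * Ti) = T * D ^ k * (Ti * T) * D * Ti := by simp only [mul_assoc]
          _ = _ := by rw [hTiT, mul_one]; simp only [mul_assoc]
    have h1 : Ti * G ^ j * T = D ^ j := by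
      rw [hconj]
      calc Ti * (T * D ^ j * Ti) * T = (Ti * T) * D ^ j * (Ti * T) := by simp only [mul_assoc]
        _ = _ := by rw [hTiT, one_mul, mul_one]
    rw [← h1, hGj, Matrix.mul_smul, Matrix.smul_mul, mul_one, hTiT]
  rw [Matrix.fromBlocks_diagonal_pow, ← Matrix.fromBlocks_one, Matrix.fromBlocks_smul, Matrix.fromBlocks_inj] at hDj
  obtain ⟨hAj, -, -, hBj⟩ := hDj
  haveI : Nonempty (Fin m) := ⟨⟨0, Nat.pos_of_ne_zero hm⟩⟩
  have hr1 : r * σ r = 1 := by
    have hpc : φ ((u⁻¹ : Kˣ) : K) ^ j * A ^ j = 1 := by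
      rw [hA, ← map_pow, ← map_pow, ← map_mul, ← mul_pow, Units.inv_mul, one_pow, map_one]
    have h1 : (φ ((u⁻¹ : Kˣ) : K) ^ j).map σ = r • 1 := by
      have := congrArg Matrix.transpose hBj
      rw [hB, ← Matrix.transpose_pow, Matrix.transpose_transpose, Matrix.transpose_smul, Matrix.transpose_one,
        ← RingHom.mapMatrix_apply, ← map_pow] at this
      exact this
    have := congrArg (fun X => X.map σ) hpc
    simp only [Matrix.map_mul] at this
    rw [h1, hAj, hsm, Matrix.map_one σ (map_zero σ) (map_one σ), Matrix.smul_mul, one_mul, smul_smul] at this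
    have h00 := congrFun (congrFun this ⟨0, Nat.pos_of_ne_zero hm⟩) ⟨0, Nat.pos_of_ne_zero hm⟩
    simpa using h00
  have hrn : r ^ (m + m) = 1 := by
    have := congrArg Matrix.det hr
    rw [Matrix.det_smul, Matrix.det_one, mul_one, Fintype.card_fin] at this
    rw [← this]
    exact (((⟨g0, hg0⟩ : Cfsg.SU (m + m) F q) ^ j).1.2)
  have hrd : r ^ Nat.gcd (m + m) (q + 1) = 1 := pow_gcd_eq_one.2 ⟨hrn, by rw [pow_succ', ← hσ]; exact hr1⟩
  have hK : (u : K) ^ j = algebraMap F K r := by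
    apply φ.toRingHom.injective
    show φ ((u : K) ^ j) = φ (algebraMap F K r)
    rw [map_pow, φ.commutes, ← hA, hAj, Algebra.algebraMap_eq_smul_one]
  have hfin : γ ^ ((q + 1) * j * Nat.gcd (m + m) (q + 1)) = 1 := by
    apply Units.ext
    rw [pow_mul, pow_mul, ← hu, Units.val_pow_eq_pow_val, Units.val_pow_eq_pow_val, hK, ← map_pow, hrd, map_one, Units.val_one]
  rw [← hcard, ← hγ]
  exact orderOf_dvd_of_pow_eq_one hfin

lemma necessity (hF : Fintype.card F = q ^ 2) (hq2 : 2 ≤ q) (m r : ℕ) (hm : m ≠ 0) (hm2 : 2 ≤ m) (hr : r.Prime)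
    (hrp : ¬ r ∣ q) (hord : (Odd m ∧ orderOf (q : ZMod r) = m) ∨ (Even m ∧ orderOf (q : ZMod r) = m + m))
    (A : Cfsg.SU (m + m) F q) (hrA : r ∣ orderOf A) (j T : ℕ) (hT : T = gs (q ^ 2) m * (q - 1))
    (hj : T ∣ j * (q + 1)) : A ^ j ∈ Subgroup.center _ := by
  classical
  haveI := Fact.mk hr
  obtain ⟨σ, hσ, hσσ⟩ := sigma_exists hF
  obtain ⟨p, hp⟩ := CharP.exists F
  haveI : Fact p.Prime := ⟨CharP.char_is_prime F p⟩
  let ι := Fin (m + m)
  let L := AlgebraicClosure F
  haveI : CharP L p := charP_of_injective_algebraMap (algebraMap F L).injective p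
  obtain ⟨a, ha⟩ : ∃ a, q = p ^ a := by
    obtain ⟨e, -, he⟩ := FiniteField.card F p
    have : q ∣ p ^ (e : ℕ) := by rw [← he, hF, sq]; exact dvd_mul_right q q
    obtain ⟨a, -, h⟩ := (Nat.dvd_prime_pow Fact.out).mp this
    exact ⟨a, h⟩
  let s : L →+* L := iterateFrobenius L p a
  have hs : ∀ x, s x = x ^ q := fun x => by rw [iterateFrobenius_def, ha]
  let φ : Matrix ι ι F →+* Matrix ι ι L := (algebraMap F L).mapMatrix
  have hφ : Function.Injective φ := Matrix.map_injective (algebraMap F L).injective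
  set M := φ (A.1 : Matrix ι ι F) with hM
  have hMu : Mᵀ * M.map s = 1 := by
    have h := congrArg φ ((mem_iff (by omega) σ hσ).mp A.2)
    rw [map_mul, map_one] at h
    rw [← h]
    congr 1
    ext i j
    simp [hM, φ, hs, hσ]
  have hMss : (M.map s).map s = M := by
    ext i j
    simp [hM, φ, hs, ← map_pow, ← pow_mul, ← sq, ← hF, FiniteField.pow_card]
  obtain ⟨k, hk⟩ := exists_pow_order A hrA
  set N1 := M ^ k with hN1
  have hN1r : N1 ^ r = 1 := by
    rw [hN1, hM, ← map_pow, ← map_pow]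
    have : ((A ^ k) ^ r : Cfsg.SU (m + m) F q) = 1 := by rw [← hk, pow_orderOf_eq_one]
    have h2 := congrArg (fun z : Cfsg.SU (m + m) F q => φ (z.1 : Matrix ι ι F)) this
    simpa [Matrix.SpecialLinearGroup.coe_pow] using h2
  have hN1ne : N1 ≠ 1 := by
    intro h
    have h2 : A ^ k = 1 := by
      apply Subtype.ext; apply Subtype.ext
      apply hφ
      show φ ((A ^ k).1 : Matrix ι ι F) = φ 1
      rw [map_one, SubmonoidClass.coe_pow, Matrix.SpecialLinearGroup.coe_pow, map_pow]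
      exact h
    rw [h2, orderOf_one] at hk
    exact hr.one_lt.ne hk
  -- the involution on eigenvalues
  have hN1u : N1ᵀ * N1.map s = 1 := by
    rw [hN1, Matrix.transpose_pow, ← RingHom.mapMatrix_apply, map_pow, RingHom.mapMatrix_apply]
    have hc : Commute Mᵀ (M.map s) := by
      show _ = _
      rw [hMu, mul_eq_one_comm.mp hMu]
    rw [← hc.mul_pow, hMu, one_pow]
  obtain ⟨a0, w0, hw0, haw, ha1⟩ : ∃ (x : L) (v : ι → L), v ≠ 0 ∧ N1 *ᵥ v = x • v ∧ x ≠ 1 := by
    by_contra hcon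
    push Not at hcon
    set P := N1.charpoly
    have hroots : P.roots = Multiset.replicate P.natDegree 1 := by
      rw [Multiset.eq_replicate]
      refine ⟨(IsAlgClosed.splits P).natDegree_eq_card_roots.symm, fun b hb => ?_⟩
      have hb' := Polynomial.isRoot_of_mem_roots hb
      rw [Polynomial.IsRoot.def, Matrix.eval_charpoly, ← Matrix.exists_mulVec_eq_zero_iff] at hb'
      obtain ⟨v, hv0, hv⟩ := hb'
      rw [Matrix.sub_mulVec, sub_eq_zero] at hv
      exact hcon b v hv0 (by rw [← hv]; ext i; simp [Matrix.scalar_apply, Matrix.mulVec_diagonal])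
    have hfac := (IsAlgClosed.splits P).eq_prod_roots_of_monic (Matrix.charpoly_monic N1)
    rw [hroots, Multiset.map_replicate, Multiset.prod_replicate] at hfac
    have h0 : (N1 - 1) ^ P.natDegree = 0 := by
      have := Matrix.aeval_self_charpoly N1
      rw [show N1.charpoly = P from rfl, hfac] at this
      simpa using this
    haveI : Nonempty ι := ⟨⟨0, by omega⟩⟩
    have h2 : (N1 - 1) ^ p ^ P.natDegree = 0 := pow_eq_zero_of_le (Nat.lt_pow_self (Fact.out : p.Prime).one_lt).le h0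
    rw [sub_pow_char_pow_of_commute p _ (Commute.one_right N1), one_pow, sub_eq_zero] at h2
    have h3 : orderOf N1 ∣ Nat.gcd r (p ^ P.natDegree) :=
      Nat.dvd_gcd (orderOf_dvd_of_pow_eq_one hN1r) (orderOf_dvd_of_pow_eq_one h2)
    have hcop : Nat.Coprime r (p ^ P.natDegree) := by
      refine ((Nat.coprime_primes hr Fact.out).mpr ?_).pow_right _
      rintro rfl
      obtain ⟨e, -, he⟩ := FiniteField.card F r
      exact hrp (hr.dvd_of_dvd_pow (show r ∣ q ^ 2 by rw [← hF, he]; exact dvd_pow_self r e.pos.ne'))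
    rw [hcop.gcd_eq_one, Nat.dvd_one, orderOf_eq_one_iff] at h3
    exact hN1ne h3
  have har : a0 ^ r = 1 := by
    have hpow : ∀ i : ℕ, (N1 ^ i) *ᵥ w0 = a0 ^ i • w0 := by
      intro i
      induction i with
      | zero => simp
      | succ i ih => rw [pow_succ', ← Matrix.mulVec_mulVec, ih, Matrix.mulVec_smul, haw, smul_smul, pow_succ]
    have := hpow r
    rw [hN1r, Matrix.one_mulVec] at this
    exact smul_left_injective L hw0 (this.symm.trans (one_smul L w0).symm)
  have hao : orderOf a0 = r := (hr.eq_one_or_self_of_dvd _ (orderOf_dvd_of_pow_eq_one har)).resolve_left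
    (fun h => ha1 (orderOf_eq_one_iff.mp h))
  have hMcomm : Commute M N1 := (Commute.refl M).pow_right k
  have hstep : ∀ (x : L) (v : ι → L), N1 *ᵥ v = x • v → N1 *ᵥ (s ∘ (s ∘ v)) = s (s x) • (s ∘ (s ∘ v)) := by
    intro x v hv
    have hNss : (N1.map s).map s = N1 := by
      rw [hN1, ← RingHom.mapMatrix_apply, ← RingHom.mapMatrix_apply, map_pow, map_pow, RingHom.mapMatrix_apply, RingHom.mapMatrix_apply, hMss]
    funext i
    have := congrArg (fun z => s (s (z i))) hv
    simp only [RingHom.map_mulVec, Pi.smul_apply, smul_eq_mul, map_mul] at this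
    conv_lhs => rw [← hNss]
    exact this
  let xs : ℕ → L := fun i => a0 ^ (q ^ (2 * i))
  let ys : ℕ → L := fun i => (a0 ^ (q ^ (2 * i + 1)))⁻¹
  have hm0 : 0 < m := Nat.pos_of_ne_zero hm
  have hqord : ∀ i i', (q : ZMod r) ^ i = (q : ZMod r) ^ i' → i ≡ i' [MOD orderOf (q : ZMod r)] := fun i i' h => by
    have hq0 : (q : ZMod r) ≠ 0 := fun h0 => hrp ((CharP.cast_eq_zero_iff (ZMod r) r q).mp h0)
    exact (isOfFinOrder_iff_pow_eq_one.mpr ⟨r - 1, by have := hr.two_le; omega, ZMod.pow_card_sub_one_eq_one hq0⟩).pow_eq_pow_iff_modEq.mp h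
  have ha00 : a0 ≠ 0 := fun h => by rw [h, zero_pow hr.ne_zero] at har; exact zero_ne_one har
  have hconv : ∀ e e' : ℕ, a0 ^ e = a0 ^ e' → (e : ZMod r) = (e' : ZMod r) := fun e e' h => by
    rw [ZMod.natCast_eq_natCast_iff, ← hao]
    exact (orderOf_pos_iff.mp (by rw [hao]; exact hr.pos)).pow_eq_pow_iff_modEq.mp h
  let idx : Fin m ⊕ Fin m → L := Sum.elim (fun i => xs i) (fun i => ys i)
  have hidx : Function.Injective idx := by
    have hxy : ∀ i i' : ℕ, xs i ≠ ys i' := by
      intro i i' h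
      have h1 : a0 ^ (q ^ (2 * i) + q ^ (2 * i' + 1)) = 1 := by
        rw [pow_add]; exact (mul_eq_one_iff_eq_inv₀ (pow_ne_zero _ ha00)).mpr h
      have h2 := hconv _ 0 (h1.trans (pow_zero a0).symm)
      push_cast at h2
      have hneg : (q : ZMod r) ^ (2 * i) = -(q : ZMod r) ^ (2 * i' + 1) := by linear_combination h2
      have h3 := congrArg (fun z => z ^ 2) hneg
      simp only [neg_sq, ← pow_mul] at h3
      have h4 := hqord _ _ h3
      rcases hord with ⟨ho, e⟩ | ⟨he, e⟩
      · rw [e] at h4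
        have h5 : 2 * i ≡ 2 * i' + 1 [MOD m] :=
          Nat.ModEq.cancel_right_of_coprime (c := 2) (Nat.coprime_two_right.mpr ho) h4
        have h6 := pow_eq_pow_of_modEq h5 (e ▸ pow_orderOf_eq_one (q : ZMod r))
        rw [h6] at hneg
        have h7 : (2 : ZMod r) * (q : ZMod r) ^ (2 * i' + 1) = 0 := by linear_combination hneg
        rcases mul_eq_zero.mp h7 with h8 | h8
        · have : ((2 : ℕ) : ZMod r) = 0 := by exact_mod_cast h8
          have hr2 := (Nat.prime_dvd_prime_iff_eq hr Nat.prime_two).mp ((CharP.cast_eq_zero_iff (ZMod r) r 2).mp this)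
          subst hr2
          have hq1 : (q : ZMod 2) = 1 := by
            have hq0 : (q : ZMod 2) ≠ 0 := fun h0 => hrp ((CharP.cast_eq_zero_iff (ZMod 2) 2 q).mp h0)
            have h9 : q % 2 = 1 := by omega
            rw [← ZMod.natCast_mod, h9, Nat.cast_one]
          rw [hq1, orderOf_one] at e
          omega
        · exact hrp ((CharP.cast_eq_zero_iff (ZMod r) r q).mp (pow_eq_zero_iff (by omega) |>.mp h8))
      · rw [e] at h4
        have h5 : 2 * i ≡ 2 * i' + 1 [MOD m] := by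
          rw [show m + m = m * 2 by omega] at h4
          exact Nat.ModEq.mul_right_cancel' (c := 2) (by norm_num) h4
        have := (h5.of_dvd (even_iff_two_dvd.mp he))
        rw [Nat.ModEq] at this
        omega
    have hev : ∀ i i' : ℕ, i < m → i' < m → (q : ZMod r) ^ (2 * i) = (q : ZMod r) ^ (2 * i') → i = i' := by
      intro i i' hi hi' h
      have h4 := hqord _ _ h
      rcases hord with ⟨ho, e⟩ | ⟨he, e⟩
      · rw [e, mul_comm 2, mul_comm 2] at h4
        exact Nat.ModEq.eq_of_lt_of_lt (Nat.ModEq.cancel_right_of_coprime (Nat.coprime_two_right.mpr ho) h4) hi hi'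
      · rw [e, show m + m = 2 * m by omega] at h4
        exact Nat.ModEq.eq_of_lt_of_lt (Nat.ModEq.mul_left_cancel' (by norm_num) h4) hi hi'
    rintro (i | i) (i' | i') h <;> simp only [idx, Sum.elim_inl, Sum.elim_inr] at h
    · exact congrArg Sum.inl (Fin.ext (hev i i' i.2 i'.2 (by simpa using hconv _ _ h)))
    · exact absurd h (hxy _ _)
    · exact absurd h.symm (hxy _ _)
    · have h2 := hconv _ _ (inv_injective h)
      push_cast at h2
      rw [pow_succ, pow_succ] at h2
      exact congrArg Sum.inr (Fin.ext (hev i i' i.2 i'.2 (mul_right_cancel₀ (fun h0 => hrp ((CharP.cast_eq_zero_iff (ZMod r) r q).mp h0)) h2)))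
  -- right eigenvectors
  have hvx : ∀ i : ℕ, ∃ v : ι → L, v ≠ 0 ∧ N1 *ᵥ v = xs i • v := by
    intro i
    induction i with
    | zero => exact ⟨w0, hw0, by simpa [xs] using haw⟩
    | succ i ih =>
      obtain ⟨v, hv0, hv⟩ := ih
      refine ⟨s ∘ (s ∘ v), fun h => hv0 (funext fun l => ?_), ?_⟩
      · exact s.injective (s.injective (by simpa using congrFun h l))
      · rw [hstep _ _ hv, hs, hs]
        congr 1
        simp only [xs, ← pow_mul]
        congr 1
  have hright : ∀ t, ∃ v : ι → L, v ≠ 0 ∧ N1 *ᵥ v = idx t • v := by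
    rintro (i | i)
    · exact hvx i
    · obtain ⟨v, hv0, hv⟩ := hvx i
      have hroot : N1.charpoly.IsRoot (idx (Sum.inr i)) := by
        have hcp : N1.charpoly = N1ᵀ.charpoly := (Matrix.charpoly_transpose N1).symm
        rw [hcp, Polynomial.IsRoot.def, Matrix.eval_charpoly, ← Matrix.exists_mulVec_eq_zero_iff]
        refine ⟨s ∘ v, fun h => hv0 (funext fun l => s.injective (by simpa using congrFun h l)), ?_⟩
        have h1 : N1.map s *ᵥ (s ∘ v) = s (xs i) • (s ∘ v) := by
          funext l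
          have := congrArg (fun z => s (z l)) hv
          simp only [RingHom.map_mulVec, Pi.smul_apply, smul_eq_mul, map_mul] at this
          exact this
        have h2 : s (xs i) • (N1ᵀ *ᵥ (s ∘ v)) = s ∘ v := by
          rw [← Matrix.mulVec_smul, ← h1, Matrix.mulVec_mulVec, hN1u, Matrix.one_mulVec]
        rw [Matrix.sub_mulVec, sub_eq_zero]
        conv_lhs => rw [← h2]
        have h3 : idx (Sum.inr i) = (s (xs i))⁻¹ := by
          simp only [idx, Sum.elim_inr, ys, xs, hs, ← pow_mul, ← pow_succ]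
        have h4 : s (xs i) ≠ 0 := (map_ne_zero s).mpr (pow_ne_zero _ ha00)
        ext l
        simp [h3, Matrix.scalar_apply, Matrix.mulVec_diagonal, h4]
      rw [Polynomial.IsRoot.def, Matrix.eval_charpoly, ← Matrix.exists_mulVec_eq_zero_iff] at hroot
      obtain ⟨v', hv0', hv'⟩ := hroot
      rw [Matrix.sub_mulVec, sub_eq_zero] at hv'
      exact ⟨v', hv0', by rw [← hv']; ext l; simp [Matrix.scalar_apply, Matrix.mulVec_diagonal]⟩
  choose w hw0' hw using hright
  have hli : LinearIndependent L w :=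
    Module.End.eigenvectors_linearIndependent' N1.mulVecLin idx hidx w
      (fun t => ⟨Module.End.mem_eigenspace_iff.mpr (hw t), hw0' t⟩)
  haveI : Nonempty (Fin m ⊕ Fin m) := ⟨Sum.inl ⟨0, hm0⟩⟩
  have hTn : Fintype.card (Fin m ⊕ Fin m) = Module.finrank L (ι → L) := by simp [ι]
  let bb := basisOfLinearIndependentOfCardEqFinrank hli hTn
  have hbb : ⇑bb = w := coe_basisOfLinearIndependentOfCardEqFinrank hli hTn
  -- the matrix of M in this basis is diagonal
  have hMw : ∀ t, ∃ c : L, M *ᵥ w t = c • w t := by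
    intro t
    set z := M *ᵥ w t with hz
    have hMz : N1 *ᵥ z = idx t • z := by
      rw [hz, Matrix.mulVec_mulVec, ← hMcomm.eq, ← Matrix.mulVec_mulVec, hw, Matrix.mulVec_smul]
    have hsum := bb.sum_repr z
    rw [hbb] at hsum
    have h1 : ∑ i, (bb.repr z i * (idx i - idx t)) • w i = 0 := by
      have h2 := hMz
      rw [← hsum, Matrix.mulVec_sum, Finset.smul_sum] at h2
      rw [← sub_eq_zero.mpr h2, ← Finset.sum_sub_distrib]
      refine Finset.sum_congr rfl fun i _ => ?_
      rw [Matrix.mulVec_smul, hw, smul_smul, smul_smul, ← sub_smul]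
      congr 1; ring
    have hc := Fintype.linearIndependent_iff.mp hli _ h1
    refine ⟨bb.repr z t, ?_⟩
    conv_lhs => rw [← hsum]
    refine Finset.sum_eq_single t (fun i _ hi => ?_) (by simp)
    rcases mul_eq_zero.mp (hc i) with h | h
    · rw [h, zero_smul]
    · exact absurd (hidx (sub_eq_zero.mp h)) hi
  choose α hα using hMw
  set β := α (Sum.inl ⟨0, hm0⟩) with hβ
  -- uniqueness of eigenvalues
  have huniq : ∀ (t) (v : ι → L) (c : L), v ≠ 0 → N1 *ᵥ v = idx t • v → M *ᵥ v = c • v → c = α t := by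
    intro t v c hv0 hv hc
    have hsum := bb.sum_repr v
    rw [hbb] at hsum
    have h1 : ∑ i, (bb.repr v i * (idx i - idx t)) • w i = 0 := by
      have h2 := hv
      rw [← hsum, Matrix.mulVec_sum, Finset.smul_sum] at h2
      rw [← sub_eq_zero.mpr h2, ← Finset.sum_sub_distrib]
      refine Finset.sum_congr rfl fun i _ => ?_
      rw [Matrix.mulVec_smul, hw, smul_smul, smul_smul, ← sub_smul]
      congr 1; ring
    have hz := Fintype.linearIndependent_iff.mp hli _ h1
    have hv' : v = bb.repr v t • w t := by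
      conv_lhs => rw [← hsum]
      refine Finset.sum_eq_single t (fun i _ hi => ?_) (by simp)
      rcases mul_eq_zero.mp (hz i) with h | h
      · rw [h, zero_smul]
      · exact absurd (hidx (sub_eq_zero.mp h)) hi
    have h3 : M *ᵥ v = α t • v := by rw [hv', Matrix.mulVec_smul, hα, smul_comm]
    exact smul_left_injective L hv0 (hc.symm.trans h3)
  have hαx : ∀ i : Fin m, α (Sum.inl i) = β ^ (q ^ (2 * (i : ℕ))) := by
    rintro ⟨i, hi⟩
    induction i with
    | zero => simp [hβ]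
    | succ i ih =>
      have hi' : i < m := by omega
      have h0 := hw (Sum.inl ⟨i, hi'⟩)
      have h1 := hstep _ _ h0
      refine (huniq (Sum.inl ⟨i + 1, hi⟩) (s ∘ (s ∘ w (Sum.inl ⟨i, hi'⟩))) _ ?_ ?_ ?_).symm
      · exact fun h => hw0' _ (funext fun l => s.injective (s.injective (by simpa using congrFun h l)))
      · rw [h1, hs, hs]
        congr 1
        simp only [idx, Sum.elim_inl, xs, ← pow_mul]
        congr 1
      · funext l
        have := congrArg (fun z => s (s (z l))) (hα (Sum.inl ⟨i, hi'⟩))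
        simp only [RingHom.map_mulVec, Pi.smul_apply, smul_eq_mul, map_mul] at this
        rw [ih hi'] at this
        conv_lhs => rw [← hMss]
        refine this.trans ?_
        simp only [hs, Pi.smul_apply, smul_eq_mul, Function.comp_apply, ← pow_mul]
        congr 2
  have hαy : ∀ i : Fin m, α (Sum.inr i) * s (α (Sum.inl i)) = 1 := by
    intro i
    set v := s ∘ w (Sum.inl i)
    have hv0 : v ≠ 0 := fun h => hw0' _ (funext fun l => s.injective (by simpa [v] using congrFun h l))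
    have hMv : M.map s *ᵥ v = s (α (Sum.inl i)) • v := by
      funext l
      have := congrArg (fun z => s (z l)) (hα (Sum.inl i))
      simp only [RingHom.map_mulVec, Pi.smul_apply, smul_eq_mul, map_mul] at this
      exact this
    have hNv : N1.map s *ᵥ v = s (idx (Sum.inl i)) • v := by
      funext l
      have := congrArg (fun z => s (z l)) (hw (Sum.inl i))
      simp only [RingHom.map_mulVec, Pi.smul_apply, smul_eq_mul, map_mul] at this
      exact this
    have hMt : s (α (Sum.inl i)) • (Mᵀ *ᵥ v) = v := by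
      rw [← Matrix.mulVec_smul, ← hMv, Matrix.mulVec_mulVec, hMu, Matrix.one_mulVec]
    have hNt : s (idx (Sum.inl i)) • (N1ᵀ *ᵥ v) = v := by
      rw [← Matrix.mulVec_smul, ← hNv, Matrix.mulVec_mulVec, hN1u, Matrix.one_mulVec]
    have horth : ∀ t, t ≠ Sum.inr i → v ⬝ᵥ w t = 0 := by
      intro t ht
      have e1 : (N1ᵀ *ᵥ v) ⬝ᵥ w t = idx t * (v ⬝ᵥ w t) := by
        rw [Matrix.mulVec_transpose, ← Matrix.dotProduct_mulVec, hw, dotProduct_smul, smul_eq_mul]
      have e2 := congrArg (fun z => z ⬝ᵥ w t) hNt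
      simp only [smul_dotProduct, smul_eq_mul, e1] at e2
      have h3 : (s (idx (Sum.inl i)) * idx t - 1) * (v ⬝ᵥ w t) = 0 := by linear_combination e2
      refine (mul_eq_zero.mp h3).resolve_left fun h4 => ht (hidx ?_)
      have h5 : idx (Sum.inr i) = (s (idx (Sum.inl i)))⁻¹ := by
        simp only [idx, Sum.elim_inr, Sum.elim_inl, ys, xs, hs, ← pow_mul, ← pow_succ]
      rw [h5]
      exact eq_inv_of_mul_eq_one_right (sub_eq_zero.mp h4)
    have hne : v ⬝ᵥ w (Sum.inr i) ≠ 0 := by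
      intro h0
      apply hv0
      apply dotProduct_eq_zero
      intro z
      have hsum := bb.sum_repr z
      rw [hbb] at hsum
      rw [← hsum, dotProduct_sum]
      refine Finset.sum_eq_zero fun t _ => ?_
      rw [dotProduct_smul]
      rcases eq_or_ne t (Sum.inr i) with rfl | ht
      · rw [h0, smul_zero]
      · rw [horth t ht, smul_zero]
    have e1 : (Mᵀ *ᵥ v) ⬝ᵥ w (Sum.inr i) = α (Sum.inr i) * (v ⬝ᵥ w (Sum.inr i)) := by
      rw [Matrix.mulVec_transpose, ← Matrix.dotProduct_mulVec, hα, dotProduct_smul, smul_eq_mul]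
    have e2 := congrArg (fun z => z ⬝ᵥ w (Sum.inr i)) hMt
    simp only [smul_dotProduct, smul_eq_mul, e1] at e2
    exact mul_right_cancel₀ hne (by linear_combination e2)
  have hdet : β ^ T = 1 := by
    have hprod : ∏ t, α t = 1 := by
      have h1 : LinearMap.toMatrix bb bb (Matrix.toLin' M) = Matrix.diagonal α := by
        ext i t
        rw [LinearMap.toMatrix_apply, hbb, Matrix.toLin'_apply, hα, map_smul, ← hbb, bb.repr_self]
        rcases eq_or_ne i t with rfl | hit
        · simp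
        · simp [hit, Finsupp.single_eq_of_ne hit]
      have h2 : LinearMap.det (Matrix.toLin' M) = M.det := LinearMap.det_toLin' M
      rw [← LinearMap.det_toMatrix bb, h1, Matrix.det_diagonal] at h2
      rw [h2, hM, ← RingHom.map_det, A.1.2, map_one]
    rw [Fintype.prod_sum_type] at hprod
    have hS : ∏ i : Fin m, α (Sum.inl i) = β ^ gs (q ^ 2) m := by
      rw [Finset.prod_congr rfl fun i _ => hαx i, Finset.prod_pow_eq_pow_sum, Fin.sum_univ_eq_sum_range (fun i => q ^ (2 * i)), gs]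
      simp only [← pow_mul]
    have hR : (∏ i : Fin m, α (Sum.inr i)) * (β ^ gs (q ^ 2) m) ^ q = 1 := by
      rw [← hS, ← hs, map_prod, ← Finset.prod_mul_distrib]
      exact Finset.prod_eq_one fun i _ => hαy i
    have h3 : β ^ gs (q ^ 2) m = (β ^ gs (q ^ 2) m) ^ q := by
      rw [hS] at hprod
      calc β ^ gs (q ^ 2) m = β ^ gs (q ^ 2) m * ((∏ i : Fin m, α (Sum.inr i)) * (β ^ gs (q ^ 2) m) ^ q) := by rw [hR, mul_one]
        _ = _ := by rw [← mul_assoc, hprod, one_mul]
    have h0 : β ^ gs (q ^ 2) m ≠ 0 := fun h => by rw [hS, h, zero_mul] at hprod; exact zero_ne_one hprod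
    rw [hT, pow_mul]
    apply mul_right_cancel₀ h0
    rw [one_mul, ← pow_succ, show q - 1 + 1 = q by omega, ← h3]
  obtain ⟨e, he⟩ := hj
  have hβj : (β ^ j) ^ (q + 1) = 1 := by rw [← pow_mul, he, pow_mul, hdet, one_pow]
  have hfixq : ∀ i : ℕ, (β ^ j) ^ (q ^ (2 * i)) = β ^ j := by
    intro i
    induction i with
    | zero => simp
    | succ i ih =>
      rw [show 2 * (i + 1) = 2 * i + 2 by ring, pow_add, pow_mul, ih]
      have e : q ^ 2 = (q + 1) * (q - 1) + 1 := by
        have := Nat.sq_sub_sq q 1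
        have h1 : 1 ≤ q ^ 2 := Nat.one_le_pow _ _ (by omega)
        rw [one_pow] at this
        omega
      rw [e, pow_succ, pow_mul, hβj, one_pow, one_mul]
  have hall : ∀ t, α t ^ j = β ^ j := by
    rintro (i | i)
    · rw [hαx, ← pow_mul, mul_comm, pow_mul, hfixq]
    · have h := congrArg (fun z => z ^ j) (hαy i)
      simp only [mul_pow, one_pow, hαx i, hs, ← pow_mul] at h
      rw [show q ^ (2 * (i : ℕ)) * q * j = j * q ^ (2 * (i : ℕ)) * q by ring, pow_mul, pow_mul, hfixq] at h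
      have h0 : (β ^ j) ^ q ≠ 0 := fun h0 => by rw [h0, mul_zero] at h; exact zero_ne_one h
      apply mul_right_cancel₀ h0
      rw [h, ← pow_succ', hβj]
  have hMj : M ^ j = (β ^ j) • 1 := by
    apply Matrix.toLin'.injective
    refine bb.ext fun t => ?_
    rw [hbb, Matrix.toLin'_apply, Matrix.toLin'_apply, Matrix.smul_mulVec, Matrix.one_mulVec]
    have hpow : ∀ i : ℕ, (M ^ i) *ᵥ w t = α t ^ i • w t := by
      intro i
      induction i with
      | zero => simp
      | succ i ih => rw [pow_succ', ← Matrix.mulVec_mulVec, ih, Matrix.mulVec_smul, hα, smul_smul, pow_succ]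
    rw [hpow, hall]
  rw [Subgroup.mem_center_iff]
  intro g
  apply Subtype.ext; apply Subtype.ext
  apply hφ
  show φ ((g.1 : Matrix ι ι F) * ((A ^ j).1 : Matrix ι ι F)) = φ (((A ^ j).1 : Matrix ι ι F) * (g.1 : Matrix ι ι F))
  rw [map_mul, map_mul, SubmonoidClass.coe_pow, Matrix.SpecialLinearGroup.coe_pow, map_pow, ← hM, hMj,
    Matrix.mul_smul, Matrix.smul_mul, mul_one, one_mul]

/-- Let q be an odd prime power, n ≥ 4 even, and U = PSU(n,q) (realised over the field with q² elements). Then U has an element of order q^(n/2) + (−1)^(n/2) — that is, q^(n/2) + 1 when n/2 is even and q^(n/2) − 1 when n/2 is odd — if and only if the 2-part of n exceeds the 2-part of q + 1. -/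
theorem result {F : Type*} [Field F] [Fintype F] {q : ℕ} (hF : Fintype.card F = q ^ 2) (hodd : Odd q)
    {n : ℕ} (hn : 4 ≤ n) (heven : Even n) :
    (∃ g : Cfsg.PSU n F q, orderOf g = if Even (n / 2) then q ^ (n / 2) + 1 else q ^ (n / 2) - 1) ↔
      padicValNat 2 (q + 1) < padicValNat 2 n := by
  classical
  obtain ⟨m, rfl⟩ := heven
  have hm0 : m ≠ 0 := by omega
  rw [show (m + m) / 2 = m by omega]
  have hq2 : 2 ≤ q := by
    have := Fintype.one_lt_card (α := F)
    rw [hF] at this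
    by_contra h; interval_cases q <;> simp at this
  have hq3 : 3 ≤ q := by rcases hodd with ⟨j, hj⟩; omega
  have hg := S2495.gcd_dvd_iff (q := q + 2) (m := m) (by omega) hm0
  rw [show q + 2 - 1 = q + 1 by omega] at hg
  rw [← hg]
  set N := if Even m then q ^ m + 1 else q ^ m - 1 with hN
  obtain ⟨Q, T, hT, hT2, hNQ, hQ⟩ := arith q m (by omega) hm0 N hN
  set d := Nat.gcd (m + m) (q + 1) with hd
  have hd0 : 0 < d := Nat.gcd_pos_of_pos_left _ (by omega)
  have hdT : d ∣ T := by
    have h1 : (d : ℤ) ∣ (q : ℤ) + 1 := by exact_mod_cast Int.natCast_dvd_natCast.mpr (Nat.gcd_dvd_right (m + m) (q + 1))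
    have h2 : q ^ 2 ≡ 1 [MOD d] := by
      refine ((Nat.modEq_iff_dvd' (Nat.one_le_pow _ _ (by omega))).mpr ?_).symm
      have := Nat.sq_sub_sq q 1
      rw [one_pow] at this
      rw [this]; exact (Nat.gcd_dvd_right (m + m) (q + 1)).mul_right _
    have h3 := gs_modEq (m := m) h2
    rw [hT]
    have h4 : (d : ℤ) ∣ ((gs (q ^ 2) m * (q - 1) : ℕ) : ℤ) := by
      rw [Nat.cast_mul, Nat.cast_sub (by omega : 1 ≤ q), Nat.cast_one]
      have h5 : (d : ℤ) ∣ (m : ℤ) - gs (q ^ 2) m := (Nat.modEq_iff_dvd).mp h3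
      have h6 : (d : ℤ) ∣ ((m + m : ℕ) : ℤ) := Int.natCast_dvd_natCast.mpr (Nat.gcd_dvd_left _ _)
      push_cast at h6
      have e : (gs (q ^ 2) m : ℤ) * ((q : ℤ) - 1) =
          ((q : ℤ) + 1) * (m : ℤ) - ((m : ℤ) + m) - ((m : ℤ) - gs (q ^ 2) m) * ((q : ℤ) - 1) := by ring
      rw [e]
      exact Int.dvd_sub (Int.dvd_sub (h1.mul_right _) h6) (h5.mul_right _)
    exact_mod_cast h4
  constructor
  · rintro ⟨g, hg1⟩
    obtain ⟨r, hr, hrd, hprim⟩ : ∃ r : ℕ, r.Prime ∧ r ∣ N ∧
        ((Odd m ∧ orderOf (q : ZMod r) = m) ∨ (Even m ∧ orderOf (q : ZMod r) = m + m)) := by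
      have hcast : ∀ (r k : ℕ), (q : ZMod r) ^ k = 1 ↔ r ∣ q ^ k - 1 := fun r k => by
        rw [show ((q : ZMod r) ^ k = 1) ↔ (((q ^ k : ℕ) : ZMod r) = ((1 : ℕ) : ZMod r)) by simp,
          ZMod.natCast_eq_natCast_iff, Nat.ModEq.comm, Nat.modEq_iff_dvd' (Nat.one_le_pow _ _ (by omega))]
      rcases Nat.even_or_odd m with he | ho
      · obtain ⟨r, hr, hrd, hp⟩ := Cfsg.Agent.NumTheory.zsigmondy q (m + m) (by omega) (by omega) (fun h => by omega) (fun h => by omega)
        refine ⟨r, hr, ?_, Or.inr ⟨he, (orderOf_eq_iff (by omega)).mpr ⟨(hcast r _).mpr hrd, fun k hk hk0 h => hp k hk0 hk ((hcast r k).mp h)⟩⟩⟩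
        rw [hN, if_pos he]
        have e : q ^ (m + m) - 1 = (q ^ m + 1) * (q ^ m - 1) := by
          rw [pow_add]; simpa [sq] using Nat.sq_sub_sq (q ^ m) 1
        rw [e] at hrd
        exact (hr.dvd_mul.mp hrd).resolve_right (hp m (by omega) (by omega))
      · have hm3 : 3 ≤ m := by rcases ho with ⟨k, hk⟩; omega
        obtain ⟨r, hr, hrd, hp⟩ := Cfsg.Agent.NumTheory.zsigmondy q m (by omega) (by omega) (fun h => by omega) (fun h => by omega)
        refine ⟨r, hr, ?_, Or.inl ⟨ho, (orderOf_eq_iff (by omega)).mpr ⟨(hcast r _).mpr hrd, fun k hk hk0 h => hp k hk0 hk ((hcast r k).mp h)⟩⟩⟩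
        rw [hN, if_neg (Nat.not_even_iff_odd.mpr ho)]
        exact hrd
    haveI := Fact.mk hr
    have hrq : ¬ r ∣ q := by
      intro h
      have : (q : ZMod r) = 0 := (CharP.cast_eq_zero_iff (ZMod r) r q).mpr h
      rw [this, orderOf_zero] at hprim
      omega
    induction g using QuotientGroup.induction_on with
    | _ A =>
      have hrA : r ∣ orderOf A := (hg1 ▸ hrd).trans (orderOf_map_dvd (QuotientGroup.mk' _) A)
      obtain ⟨e, he⟩ := hdT
      have hc := necessity hF hq2 m r hm0 (by omega) hr hrq hprim A hrA e T hT (by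
        rw [he]
        obtain ⟨f, hf⟩ := Nat.gcd_dvd_right (m + m) (q + 1)
        exact ⟨f, by rw [hf, ← hd]; ring⟩)
      have h1 : N ∣ e := by
        rw [← hg1]
        exact orderOf_dvd_of_pow_eq_one (by rw [← QuotientGroup.mk_pow]; exact (QuotientGroup.eq_one_iff _).mpr hc)
      refine hQ.mp ?_
      obtain ⟨f, rfl⟩ := h1
      refine ⟨f, ?_⟩
      rw [he] at hNQ
      have hN0 : 0 < N := by
        rw [hN]; split_ifs
        · omega
        · have : 2 ≤ q ^ m := hq2.trans (Nat.le_self_pow hm0 q)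
          omega
      exact Nat.eq_of_mul_eq_mul_left hN0 (by rw [hNQ]; ring)
  · intro hdm
    obtain ⟨g, hgj⟩ := construct hF hodd m hm0
    obtain ⟨f, hf⟩ := hQ.mpr hdm
    set o := orderOf (QuotientGroup.mk g : Cfsg.PSU (m + m) F q)
    have ho := hgj o (by rw [← QuotientGroup.eq_one_iff, QuotientGroup.mk_pow]; exact pow_orderOf_eq_one _)
    rw [← hT2, ← hd, ← hNQ, hf, mul_assoc (q + 1), mul_comm (q + 1) (o * d)] at ho
    have h2 := Nat.dvd_of_mul_dvd_mul_right (by omega) ho
    rw [← mul_assoc, mul_comm N d, mul_assoc, mul_comm o d] at h2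
    have h3 : N ∣ o := (dvd_mul_right N f).trans (Nat.dvd_of_mul_dvd_mul_left hd0 h2)
    obtain ⟨k, hk⟩ := exists_pow_order (QuotientGroup.mk g : Cfsg.PSU (m + m) F q) h3
    exact ⟨_, hk⟩

end Cfsg.Agent.S2496
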