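import Cfsg.Statements.S2508
import Cfsg.Agent.Lib.Classical.TwoDimPSLClasses
-- import your own Cfsg.Agent.* helpers here

set_option autoImplicit false
open Cfsg

namespace Cfsg.Agent.S2508

/-- Let F be a finite field with q elements, q odd and q ≥ 7. If q ≡ 1 (mod 4) the conjugacy class sizes of PSL(2,F) are exactly 1, (q² − 1)/2, q(q + 1)/2, q(q − 1) and q(q + 1); if q ≡ 3 (mod 4) they are exactly 1, (q² − 1)/2, q(q − 1)/2, q(q + 1) and q(q − 1). -/
theorem result {F : Type*} [Field F] [Fintype F]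
    (hodd : ¬ 2 ∣ Fintype.card F) (h7 : 7 ≤ Fintype.card F) :
    (Fintype.card F % 4 = 1 →
      Set.range (fun g : (Matrix.ProjectiveSpecialLinearGroup (Fin 2) F) => (Subgroup.centralizer ({g} : Set (Matrix.ProjectiveSpecialLinearGroup (Fin 2) F))).index) =
        {1, (Fintype.card F ^ 2 - 1) / 2, Fintype.card F * (Fintype.card F + 1) / 2,
          Fintype.card F * (Fintype.card F - 1), Fintype.card F * (Fintype.card F + 1)}) ∧
    (Fintype.card F % 4 = 3 →
      Set.range (fun g : (Matrix.ProjectiveSpecialLinearGroup (Fin 2) F) => (Subgroup.centralizer ({g} : Set (Matrix.ProjectiveSpecialLinearGroup (Fin 2) F))).index) =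
        {1, (Fintype.card F ^ 2 - 1) / 2, Fintype.card F * (Fintype.card F - 1) / 2,
          Fintype.card F * (Fintype.card F + 1), Fintype.card F * (Fintype.card F - 1)}) := by
  classical
  open Cfsg.Lib.Classical.TwoDim Matrix in
  have ho : Odd (Fintype.card F) := Nat.odd_iff.2 (by omega)
  open Cfsg.Lib.Classical.TwoDim Matrix in
  have h2 := two_ne_zero_of_odd ho
  open Cfsg.Lib.Classical.TwoDim Matrix in
  obtain ⟨ε, hε⟩ := FiniteField.exists_nonsquare (F := F) (ringChar_ne_two ho)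
  open Cfsg.Lib.Classical.TwoDim Matrix in
  obtain ⟨r, hr⟩ := id ho
  open Cfsg.Lib.Classical.TwoDim Matrix in
  let G := Matrix.ProjectiveSpecialLinearGroup (Fin 2) F
  open Cfsg.Lib.Classical.TwoDim Matrix in
  let π := QuotientGroup.mk' (Subgroup.center (SpecialLinearGroup (Fin 2) F))
  open Cfsg.Lib.Classical.TwoDim Matrix in
  let idx : SpecialLinearGroup (Fin 2) F → ℕ := fun A => (Subgroup.centralizer ({π A} : Set G)).index
  open Cfsg.Lib.Classical.TwoDim Matrix in
  have val : ∀ A c v, Nat.card (projCent A) = c → v * c = Nat.card (SpecialLinearGroup (Fin 2) F) → idx A = v := by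
    intro A c v hc hv
    have h := index_projCent A
    rw [hc, ← hv] at h
    refine Nat.eq_of_mul_eq_mul_right ?_ h
    rw [← hc]; exact Nat.card_pos
  open Cfsg.Lib.Classical.TwoDim Matrix in
  have hSL : Nat.card (SpecialLinearGroup (Fin 2) F) = (2 * r + 1) * ((2 * r + 2) * (2 * r)) := by
    rw [card_SL, hr, Nat.add_sub_cancel]
  open Cfsg.Lib.Classical.TwoDim Matrix in
  have v1 : ((Fintype.card F ^ 2 - 1) / 2) * (2 * Fintype.card F) = Nat.card (SpecialLinearGroup (Fin 2) F) := by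
    rw [hSL, hr, show (2 * r + 1) ^ 2 - 1 = 2 * (2 * r * (r + 1)) from Nat.sub_eq_of_eq_add (by ring), Nat.mul_div_cancel_left _ two_pos]
    ring
  open Cfsg.Lib.Classical.TwoDim Matrix in
  have v2 : Fintype.card F * (Fintype.card F + 1) * (Fintype.card F - 1) = Nat.card (SpecialLinearGroup (Fin 2) F) := by
    rw [hSL, hr, Nat.add_sub_cancel]; ring
  open Cfsg.Lib.Classical.TwoDim Matrix in
  have v3 : Fintype.card F * (Fintype.card F - 1) * (Fintype.card F + 1) = Nat.card (SpecialLinearGroup (Fin 2) F) := by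
    rw [hSL, hr, Nat.add_sub_cancel]; ring
  open Cfsg.Lib.Classical.TwoDim Matrix in
  have v4 : Fintype.card F * (Fintype.card F + 1) / 2 * (2 * (Fintype.card F - 1)) = Nat.card (SpecialLinearGroup (Fin 2) F) := by
    rw [hSL, hr, show (2 * r + 1) * (2 * r + 1 + 1) = 2 * ((2 * r + 1) * (r + 1)) by ring, Nat.mul_div_cancel_left _ two_pos, Nat.add_sub_cancel]
    ring
  open Cfsg.Lib.Classical.TwoDim Matrix in
  have v5 : Fintype.card F * (Fintype.card F - 1) / 2 * (2 * (Fintype.card F + 1)) = Nat.card (SpecialLinearGroup (Fin 2) F) := by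
    rw [hSL, hr, Nat.add_sub_cancel, show (2 * r + 1) * (2 * r) = 2 * ((2 * r + 1) * r) by ring, Nat.mul_div_cancel_left _ two_pos]
    ring
  open Cfsg.Lib.Classical.TwoDim Matrix in
  have m0 : ∃ A, idx A = 1 := ⟨1, val _ _ _ (show Nat.card (projCent (1 : SpecialLinearGroup (Fin 2) F)) = Nat.card (SpecialLinearGroup (Fin 2) F) by
    rw [show projCent (1 : SpecialLinearGroup (Fin 2) F) = ⊤ from eq_top_iff.2 fun B _ => mem_projCent.2 (Or.inl (by simp)), Subgroup.card_top])
    (one_mul _)⟩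
  open Cfsg.Lib.Classical.TwoDim Matrix in
  have m1 : ∃ A, idx A = (Fintype.card F ^ 2 - 1) / 2 := ⟨uS 1, val _ _ _ (by
    rw [projCent_of_tr_ne (by simp [tr]; intro e; exact h2 (by linear_combination e)) h2]
    exact card_centralizer_uS ho one_ne_zero) v1⟩
  open Cfsg.Lib.Classical.TwoDim Matrix in
  obtain ⟨⟨Xd, hXd, a1, a2, a3⟩, b, -⟩ := torus_elem (diag_data (F := F) h2) h2 isCyclic_diagTorus (by rw [card_diagTorus]; omega)
  open Cfsg.Lib.Classical.TwoDim Matrix in
  obtain ⟨⟨Xn, hXn, c1, c2, c3⟩, d, -⟩ := torus_elem (ns_data (F := F) h2 hε) h2 (isCyclic_nsTorus hε) (by rw [card_nsTorus h2 hε]; omega)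
  open Cfsg.Lib.Classical.TwoDim Matrix in
  have m2 : ∃ A, idx A = Fintype.card F * (Fintype.card F + 1) := ⟨Xd, val _ _ _
    (((card_projCent_torus (diag_data h2) h2 hXd a1 a2).1 a3).trans card_diagTorus) v2⟩
  open Cfsg.Lib.Classical.TwoDim Matrix in
  have m3 : ∃ A, idx A = Fintype.card F * (Fintype.card F - 1) := ⟨Xn, val _ _ _
    (((card_projCent_torus (ns_data h2 hε) h2 hXn c1 c2).1 c3).trans (card_nsTorus h2 hε)) v3⟩
  open Cfsg.Lib.Classical.TwoDim Matrix in
  have cases_idx : ∀ g : G, (fun g : G => (Subgroup.centralizer ({g} : Set G)).index) g = 1 ∨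
      (Subgroup.centralizer ({g} : Set G)).index = (Fintype.card F ^ 2 - 1) / 2 ∨
      (Subgroup.centralizer ({g} : Set G)).index = Fintype.card F * (Fintype.card F + 1) ∨
      (Subgroup.centralizer ({g} : Set G)).index = Fintype.card F * (Fintype.card F - 1) ∨
      (Fintype.card F % 4 = 1 ∧ (Subgroup.centralizer ({g} : Set G)).index = Fintype.card F * (Fintype.card F + 1) / 2) ∨
      (Fintype.card F % 4 = 3 ∧ (Subgroup.centralizer ({g} : Set G)).index = Fintype.card F * (Fintype.card F - 1) / 2) := by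
    intro g
    obtain ⟨A, rfl⟩ := QuotientGroup.mk'_surjective _ g
    rcases projCent_cases ho h7 A with h | h | h | h | ⟨k, h⟩ | ⟨k, h⟩
    · exact Or.inl (val A _ _ h (one_mul _))
    · exact Or.inr (Or.inl (val A _ _ h v1))
    · exact Or.inr (Or.inr (Or.inl (val A _ _ h v2)))
    · exact Or.inr (Or.inr (Or.inr (Or.inl (val A _ _ h v3))))
    · exact Or.inr (Or.inr (Or.inr (Or.inr (Or.inl ⟨k, val A _ _ h v4⟩))))
    · exact Or.inr (Or.inr (Or.inr (Or.inr (Or.inr ⟨k, val A _ _ h v5⟩))))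
  open Cfsg.Lib.Classical.TwoDim Matrix in
  constructor <;> intro hmod <;> refine Set.ext fun v => ⟨?_, ?_⟩
  · rintro ⟨g, rfl⟩
    simp only [Set.mem_insert_iff, Set.mem_singleton_iff]
    rcases cases_idx g with h | h | h | h | ⟨k, h⟩ | ⟨k, h⟩ <;> first | omega | tauto
  · simp only [Set.mem_insert_iff, Set.mem_singleton_iff, Set.mem_range]
    have m4 : ∃ A, idx A = Fintype.card F * (Fintype.card F + 1) / 2 := by
      obtain ⟨X, hX, x1, x2, x3⟩ := b (by rw [card_diagTorus]; omega)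
      exact ⟨X, val _ _ _ (by rw [(card_projCent_torus (diag_data h2) h2 hX x1 x2).2 x3, card_diagTorus]) v4⟩
    rintro (rfl | rfl | rfl | rfl | rfl)
    exacts [m0.elim fun A h => ⟨π A, h⟩, m1.elim fun A h => ⟨π A, h⟩, m4.elim fun A h => ⟨π A, h⟩,
      m3.elim fun A h => ⟨π A, h⟩, m2.elim fun A h => ⟨π A, h⟩]
  · rintro ⟨g, rfl⟩
    simp only [Set.mem_insert_iff, Set.mem_singleton_iff]
    rcases cases_idx g with h | h | h | h | ⟨k, h⟩ | ⟨k, h⟩ <;> first | omega | tauto
  · simp only [Set.mem_insert_iff, Set.mem_singleton_iff, Set.mem_range]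
    have m5 : ∃ A, idx A = Fintype.card F * (Fintype.card F - 1) / 2 := by
      obtain ⟨X, hX, x1, x2, x3⟩ := d (by rw [card_nsTorus h2 hε]; omega)
      exact ⟨X, val _ _ _ (by rw [(card_projCent_torus (ns_data h2 hε) h2 hX x1 x2).2 x3, card_nsTorus h2 hε]) v5⟩
    rintro (rfl | rfl | rfl | rfl | rfl)
    exacts [m0.elim fun A h => ⟨π A, h⟩, m1.elim fun A h => ⟨π A, h⟩, m5.elim fun A h => ⟨π A, h⟩,
      m2.elim fun A h => ⟨π A, h⟩, m3.elim fun A h => ⟨π A, h⟩]

end Cfsg.Agent.S2508
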