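import Cfsg.Statements.S2513
import Mathlib

set_option autoImplicit false
open Cfsg

namespace Cfsg.Agent.S2513

open Polynomial

/-- distributivity of gcd over lcm -/
theorem gcd_lcm_distrib (a b c : ℕ) : Nat.gcd a (Nat.lcm b c) = Nat.lcm (Nat.gcd a b) (Nat.gcd a c) := by
  rcases eq_or_ne b 0 with rfl | hb
  · simp only [Nat.lcm_zero_left, Nat.gcd_zero_right]
    exact (Nat.dvd_antisymm (Nat.lcm_dvd dvd_rfl (Nat.gcd_dvd_left _ _)) (Nat.dvd_lcm_left _ _)).symm
  rcases eq_or_ne c 0 with rfl | hc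
  · simp only [Nat.lcm_zero_right, Nat.gcd_zero_right]
    exact (Nat.dvd_antisymm (Nat.lcm_dvd (Nat.gcd_dvd_left _ _) dvd_rfl) (Nat.dvd_lcm_right _ _)).symm
  rcases eq_or_ne a 0 with rfl | ha
  · simp
  have hab : Nat.gcd a b ≠ 0 := (Nat.gcd_pos_of_pos_left _ (Nat.pos_of_ne_zero ha)).ne'
  have hac : Nat.gcd a c ≠ 0 := (Nat.gcd_pos_of_pos_left _ (Nat.pos_of_ne_zero ha)).ne'
  refine Nat.eq_of_factorization_eq (Nat.gcd_pos_of_pos_left _ (Nat.pos_of_ne_zero ha)).ne'
    (Nat.lcm_ne_zero hab hac) fun p => ?_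
  rw [Nat.factorization_gcd ha (Nat.lcm_ne_zero hb hc), Nat.factorization_lcm hb hc,
    Nat.factorization_lcm hab hac, Nat.factorization_gcd ha hb, Nat.factorization_gcd ha hc]
  simp only [Finsupp.inf_apply, Finsupp.sup_apply]
  omega

theorem gcd_finset_lcm {ι : Type*} (s : Finset ι) (f : ι → ℕ) (a : ℕ) :
    Nat.gcd a (s.lcm f) = s.lcm (fun i => Nat.gcd a (f i)) := by
  classical
  induction s using Finset.induction_on with
  | empty => simp
  | insert x t _ ih =>
    rw [Finset.lcm_insert, Finset.lcm_insert, ← ih]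
    exact gcd_lcm_distrib a (f x) (t.lcm f)

/-- the factors -/
def fac (n : ℕ) (i : ℕ) : ℕ := if i = 0 then 2 ^ Nat.clog 2 n else 2 ^ (n + 1 - i) - 1

def bigE (n : ℕ) : ℕ := (Finset.range ((n + 3) / 2)).lcm (fac n)

theorem dvd_fac {n d : ℕ} (hd : 0 < d) (hdn : d ≤ n) :
    ∃ i, i ≠ 0 ∧ i < (n + 3) / 2 ∧ 2 ^ d - 1 ∣ fac n i := by
  obtain ⟨m, hm1, hm2, hm3⟩ : ∃ m, d ∣ m ∧ m ≤ n ∧ n < 2 * m := by
    refine ⟨d * (n / d), dvd_mul_right _ _, Nat.mul_div_le n d, ?_⟩
    have h1 := Nat.div_add_mod n d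
    have h2 := Nat.mod_lt n hd
    have h3 : d ≤ d * (n / d) := Nat.le_mul_of_pos_right d (Nat.div_pos hdn hd)
    omega
  refine ⟨n + 1 - m, by omega, by omega, ?_⟩
  rw [fac, if_neg (by omega), show n + 1 - (n + 1 - m) = m by omega]
  exact Nat.pow_sub_one_dvd_pow_sub_one 2 hm1

variable {F : Type*} [Field F] [Fintype F]

theorem charP_two (hF : Fintype.card F = 2) : CharP F 2 := by
  refine (CharP.charP_iff_prime_eq_zero Nat.prime_two).2 ?_
  have := Nat.cast_card_eq_zero F
  rwa [hF] at this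

theorem eq_one_of_ne_zero (hF : Fintype.card F = 2) {r : F} (hr : r ≠ 0) : r = 1 := by
  have h := FiniteField.pow_card_sub_one_eq_one r hr
  rw [hF] at h
  simpa using h

theorem irreducible_dvd (hF : Fintype.card F = 2) {P : F[X]} (hP : Irreducible P) (hX : ¬ P ∣ X) :
    P ∣ X ^ (2 ^ P.natDegree - 1) - 1 := by
  haveI := Fact.mk hP
  have hP0 : P ≠ 0 := hP.ne_zero
  haveI : Module.Finite F (AdjoinRoot P) := (AdjoinRoot.powerBasis hP0).finite
  haveI : Finite (AdjoinRoot P) := Module.finite_of_finite F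
  haveI := Fintype.ofFinite (AdjoinRoot P)
  have hcard : Fintype.card (AdjoinRoot P) = 2 ^ P.natDegree := by
    rw [← Nat.card_eq_fintype_card, Module.natCard_eq_pow_finrank (K := F), Nat.card_eq_fintype_card, hF,
      (AdjoinRoot.powerBasis hP0).finrank, AdjoinRoot.powerBasis_dim]
  have hr : AdjoinRoot.root P ≠ 0 := by
    intro h
    apply hX
    rw [← AdjoinRoot.mk_eq_zero, AdjoinRoot.mk_X, h]
  have := FiniteField.pow_card_sub_one_eq_one _ hr
  rw [hcard] at this
  rw [← AdjoinRoot.mk_eq_zero, map_sub, map_pow, AdjoinRoot.mk_X, map_one, this, sub_self]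

theorem charpoly_dvd (hF : Fintype.card F = 2) {n : ℕ} {μ : F[X]} (hμ : μ.Monic) (hdeg : μ.natDegree ≤ n)
    (hX : ¬ X ∣ μ) : μ ∣ X ^ bigE n - 1 := by
  classical
  set L := (Finset.Ico 1 ((n + 3) / 2)).lcm (fac n) with hL
  have hE : 2 ^ Nat.clog 2 n * L ∣ bigE n := by
    have h1 : 2 ^ Nat.clog 2 n ∣ bigE n := by
      have h : fac n 0 ∣ bigE n := Finset.dvd_lcm (Finset.mem_range.2 (by omega))
      simpa [fac] using h
    have h2 : L ∣ bigE n := Finset.lcm_dvd fun i hi => Finset.dvd_lcm (by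
      simp only [Finset.mem_Ico] at hi; simpa using hi.2)
    have h3 : Nat.Coprime (2 ^ Nat.clog 2 n) L := by
      refine Nat.Coprime.pow_left _ ?_
      rw [Nat.prime_two.coprime_iff_not_dvd]
      intro h
      obtain ⟨i, hi, h2i⟩ := (Nat.prime_two.prime.dvd_finsetProd_iff _).1
        (h.trans (Finset.lcm_dvd_prod _ (fac n)))
      simp only [Finset.mem_Ico] at hi
      rw [fac, if_neg (by omega)] at h2i
      have h5 : (2 : ℕ) ∣ 2 ^ (n + 1 - i) := dvd_pow_self 2 (by omega)
      have h6 : 0 < 2 ^ (n + 1 - i) := Nat.two_pow_pos _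
      omega
    exact h3.mul_dvd_of_dvd_of_dvd h1 h2
  haveI : CharP F 2 := charP_two hF
  set s := UniqueFactorizationMonoid.normalizedFactors μ with hs
  have hassoc : Associated s.prod μ := UniqueFactorizationMonoid.prod_normalizedFactors hμ.ne_zero
  have hirr : ∀ P ∈ s, Irreducible P := fun P hP =>
    UniqueFactorizationMonoid.irreducible_of_normalized_factor P hP
  have hdvd : ∀ P ∈ s, P ∣ (X ^ L - 1 : F[X]) := by
    intro P hP
    have hPμ : P ∣ μ := UniqueFactorizationMonoid.dvd_of_mem_normalizedFactors hP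
    have hPX : ¬ P ∣ X := fun h => hX ((((hirr P hP).associated_of_dvd irreducible_X h).symm.dvd).trans hPμ)
    have hPd : P.natDegree ≤ n := (natDegree_le_of_dvd hPμ hμ.ne_zero).trans hdeg
    obtain ⟨i, hi0, hi, hdi⟩ := dvd_fac (hirr P hP).natDegree_pos hPd
    refine (irreducible_dvd hF (hirr P hP) hPX).trans ?_
    have h4 : fac n i ∣ L := Finset.dvd_lcm (Finset.mem_Ico.2 ⟨Nat.one_le_iff_ne_zero.2 hi0, hi⟩)
    obtain ⟨c, hc⟩ := hdi.trans h4
    rw [hc, pow_mul]
    exact sub_one_dvd_pow_sub_one _ c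
  have h0 : (0 : F[X]) ∉ s := fun h => (hirr 0 h).ne_zero rfl
  have hcard : Multiset.card s ≤ n := by
    refine le_trans ?_ hdeg
    rw [← natDegree_eq_of_degree_eq (degree_eq_degree_of_associated hassoc), natDegree_multiset_prod _ h0]
    have := Multiset.card_nsmul_le_sum (s := s.map natDegree) (a := 1) (fun x hx => by
      obtain ⟨P, hP, rfl⟩ := Multiset.mem_map.1 hx; exact (hirr P hP).natDegree_pos)
    simpa using this
  have hprod : s.prod ∣ (X ^ L - 1 : F[X]) ^ Multiset.card s := by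
    have key : ∀ t : Multiset F[X], (∀ P ∈ t, P ∣ (X ^ L - 1 : F[X])) →
        t.prod ∣ (X ^ L - 1 : F[X]) ^ Multiset.card t := by
      intro t
      induction t using Multiset.induction_on with
      | empty => simp
      | cons a t ih =>
        intro h
        rw [Multiset.prod_cons, Multiset.card_cons, pow_succ']
        exact mul_dvd_mul (h a (by simp)) (ih fun P hP => h P (by simp [hP]))
    exact key s hdvd
  refine hassoc.symm.dvd.trans (hprod.trans ((pow_dvd_pow _
    (hcard.trans (Nat.le_pow_clog Nat.one_lt_two n))).trans ?_))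
  rw [sub_pow_char_pow, one_pow, ← pow_mul]
  obtain ⟨c, hc⟩ := hE
  rw [hc, mul_comm L, pow_mul _ (_ * L) c]
  exact sub_one_dvd_pow_sub_one _ c

theorem pow_bigE (hF : Fintype.card F = 2) {n : ℕ} (A : Matrix (Fin n) (Fin n) F) (hA : A.det ≠ 0) :
    A ^ bigE n = 1 := by
  have hX : ¬ (X : F[X]) ∣ A.charpoly := by
    rw [X_dvd_iff]
    intro h
    apply hA
    rw [Matrix.det_eq_sign_charpoly_coeff, h, mul_zero]
  obtain ⟨c, hc⟩ := charpoly_dvd hF A.charpoly_monic (n := n) (le_of_eq (by rw [A.charpoly_natDegree_eq_dim, Fintype.card_fin])) hX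
  have h : aeval A (X ^ bigE n - 1 : F[X]) = 0 := by
    rw [hc, map_mul, Matrix.aeval_self_charpoly, zero_mul]
  simpa [sub_eq_zero] using h

theorem exists_of_algebra (hF : Fintype.card F = 2) {n : ℕ} (A : Type*) [CommRing A] [Algebra F A]
    [Module.Finite F A] (hA : Module.finrank F A = n) (u : Aˣ) :
    ∃ g : Matrix.SpecialLinearGroup (Fin n) F, orderOf g = orderOf u := by
  classical
  let b : Module.Basis (Fin n) F A := Module.finBasisOfFinrankEq F A hA
  let M : Matrix (Fin n) (Fin n) F := Algebra.leftMulMatrix b (u : A)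
  have hu : IsUnit M := u.isUnit.map (Algebra.leftMulMatrix b)
  have hdet : M.det = 1 := eq_one_of_ne_zero hF ((Matrix.isUnit_iff_isUnit_det _).1 hu).ne_zero
  suffices key : ∀ g : Matrix.SpecialLinearGroup (Fin n) F, (g : Matrix (Fin n) (Fin n) F) = M →
      orderOf g = orderOf u from ⟨⟨M, hdet⟩, key ⟨M, hdet⟩ rfl⟩
  intro g hg
  rw [← orderOf_units (y := u)]
  refine orderOf_eq_orderOf_iff.2 fun j => ?_
  rw [← Matrix.SpecialLinearGroup.coeMonoidHom_injective.eq_iff (a := g ^ j) (b := 1),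
    Matrix.SpecialLinearGroup.coeMonoidHom_apply, Matrix.SpecialLinearGroup.coeMonoidHom_apply,
    Matrix.SpecialLinearGroup.coe_pow, Matrix.SpecialLinearGroup.coe_one, hg]
  rw [← map_pow, ← map_one (Algebra.leftMulMatrix b), (Algebra.leftMulMatrix_injective b).eq_iff]

theorem exists_fac (hF : Fintype.card F = 2) {n : ℕ} (hn : 1 ≤ n) {i : ℕ} (hi : i < (n + 3) / 2) :
    ∃ g : Matrix.SpecialLinearGroup (Fin n) F, orderOf g = fac n i := by
  classical
  haveI : Fact (Nat.Prime 2) := ⟨Nat.prime_two⟩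
  haveI : CharP F 2 := charP_two hF
  unfold fac
  split_ifs with h0
  · set Q : F[X] := (X - 1) ^ n with hQ
    have hdeg1 : (X - 1 : F[X]).natDegree = 1 := by rw [← C_1]; exact natDegree_X_sub_C 1
    have hmon : (X - 1 : F[X]).Monic := by rw [← C_1]; exact monic_X_sub_C 1
    have hf : Q.Monic := hmon.pow n
    haveI := hf.finite_adjoinRoot
    have key : ∀ j, AdjoinRoot.root Q ^ 2 ^ j = 1 ↔ n ≤ 2 ^ j := by
      intro j
      have e : AdjoinRoot.root Q ^ 2 ^ j - 1 = AdjoinRoot.mk Q ((X - 1) ^ 2 ^ j) := by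
        rw [sub_pow_char_pow, map_sub, map_pow, AdjoinRoot.mk_X, one_pow, map_one]
      rw [← sub_eq_zero, e, AdjoinRoot.mk_eq_zero, hQ,
        pow_dvd_pow_iff hmon.ne_zero (by
          intro h; have := natDegree_eq_zero_of_isUnit h; omega)]
    have hr := (key (Nat.clog 2 n)).2 (Nat.le_pow_clog (by norm_num) n)
    obtain ⟨g, hg⟩ := exists_of_algebra hF (n := n) (AdjoinRoot Q) (by
      rw [(AdjoinRoot.powerBasis' hf).finrank, AdjoinRoot.powerBasis'_dim, hQ, natDegree_pow, hdeg1,
        mul_one]) (Units.ofPowEqOne _ _ hr (by positivity))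
    refine ⟨g, hg.trans ?_⟩
    rw [← orderOf_units, Units.val_ofPowEqOne]
    rcases h : Nat.clog 2 n with _ | t
    · rw [h] at hr; simpa using hr
    · refine orderOf_eq_prime_pow ?_ (h ▸ hr)
      intro he
      have := Nat.clog_le_of_le_pow ((key t).1 he) (b := 2)
      omega
  · set d := n + 1 - i with hd
    haveI : NeZero d := ⟨by omega⟩
    let K := FiniteField.Extension F 2 d
    haveI := Fintype.ofFinite K
    obtain ⟨u, hu⟩ := IsCyclic.exists_generator (α := Kˣ)
    have hou : orderOf u = 2 ^ d - 1 := by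
      rw [orderOf_eq_card_of_forall_mem_zpowers hu, Nat.card_units, FiniteField.natCard_extension,
        Nat.card_eq_fintype_card, hF]
    obtain ⟨g, hg⟩ := exists_of_algebra hF (n := n) (K × (Fin (n - d) → F)) (by
      rw [Module.finrank_prod, Module.finrank_fin_fun, FiniteField.finrank_extension]
      omega) (MulEquiv.prodUnits.symm (u, 1))
    refine ⟨g, hg.trans ?_⟩
    rw [MulEquiv.orderOf_eq, Prod.orderOf, orderOf_one, hou]
    simp

theorem mk_injective (hF : Fintype.card F = 2) (n : ℕ) :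
    Function.Injective (QuotientGroup.mk' (Subgroup.center (Matrix.SpecialLinearGroup (Fin n) F))) := by
  rw [injective_iff_map_eq_one]
  intro g hg
  rw [← MonoidHom.mem_ker, QuotientGroup.ker_mk', Matrix.SpecialLinearGroup.mem_center_iff] at hg
  obtain ⟨r, hr, he⟩ := hg
  rcases eq_or_ne n 0 with rfl | hn
  · exact Subtype.ext (Subsingleton.elim _ _)
  have : r ≠ 0 := fun h => by simp [h, zero_pow hn] at hr
  refine Subtype.ext ?_
  rw [← he, eq_one_of_ne_zero hF this]
  simp

theorem range_eq_divisors (hF : Fintype.card F = 2) {n k : ℕ} (hn : 2 ≤ n) (hk : (n + 3) / 2 ≤ k) :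
    Set.range (orderOf : (Fin k → Matrix.ProjectiveSpecialLinearGroup (Fin n) F) → ℕ) =
      {M | M ∣ bigE n} := by
  classical
  ext M
  constructor
  · rintro ⟨g, rfl⟩
    refine orderOf_dvd_of_pow_eq_one (funext fun i => ?_)
    obtain ⟨A, hA⟩ := QuotientGroup.mk'_surjective _ (g i)
    rw [Pi.pow_apply, ← hA, ← map_pow]
    have hA' : A ^ bigE n = 1 := by
      apply Matrix.SpecialLinearGroup.coeMonoidHom_injective
      rw [map_pow, map_one]
      exact pow_bigE hF _ (by simp [A.det_coe])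
    rw [hA', map_one]
    rfl
  · intro hM
    have key : ∀ i : Fin k, ∃ x : Matrix.ProjectiveSpecialLinearGroup (Fin n) F,
        orderOf x = if (i : ℕ) < (n + 3) / 2 then Nat.gcd M (fac n i) else 1 := by
      intro i
      split_ifs with hi
      · obtain ⟨g, hg⟩ := exists_fac hF (show 1 ≤ n by omega) hi
        have hd : Nat.gcd M (fac n i) ∣ orderOf g := hg ▸ Nat.gcd_dvd_right _ _
        refine ⟨QuotientGroup.mk' _ (g ^ (orderOf g / Nat.gcd M (fac n i))), ?_⟩
        rw [orderOf_injective _ (mk_injective hF n),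
          orderOf_pow_orderOf_div (orderOf_pos g).ne' hd]
      · exact ⟨1, orderOf_one⟩
    choose g hg using key
    refine ⟨g, Nat.dvd_antisymm (orderOf_dvd_of_pow_eq_one (funext fun i => ?_)) ?_⟩
    · rw [Pi.pow_apply, Pi.one_apply, ← orderOf_dvd_iff_pow_eq_one, hg]
      split_ifs
      · exact Nat.gcd_dvd_left _ _
      · exact one_dvd _
    · have h1 : M = (Finset.range ((n + 3) / 2)).lcm (fun i => Nat.gcd M (fac n i)) := by
        rw [← gcd_finset_lcm]
        exact (Nat.gcd_eq_left hM).symm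
      conv_lhs => rw [h1]
      refine Finset.lcm_dvd fun i hi => ?_
      rw [Finset.mem_range] at hi
      have := hg ⟨i, hi.trans_le hk⟩
      rw [if_pos hi] at this
      rw [← this]
      exact orderOf_map_dvd (Pi.evalMonoidHom (fun _ : Fin k => Matrix.ProjectiveSpecialLinearGroup (Fin n) F) ⟨i, hi.trans_le hk⟩) g

/-- Let F be the field with two elements, n ≥ 2, L = PSL(n, F) and k₀ = ⌊(n + 3)/2⌋. Then for every k ≥ k₀ the direct product of k copies of L has the same set of element orders as the direct product of k₀ copies of L. -/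
theorem result {F : Type*} [Field F] [Fintype F] (hF : Fintype.card F = 2) (n k : ℕ) (hn : 2 ≤ n) (hk : (n + 3) / 2 ≤ k) :
    Set.range (orderOf : (Fin k → Matrix.ProjectiveSpecialLinearGroup (Fin n) F) → ℕ) = Set.range (orderOf : (Fin ((n + 3) / 2) → Matrix.ProjectiveSpecialLinearGroup (Fin n) F) → ℕ) := by
  rw [range_eq_divisors hF hn hk, range_eq_divisors hF hn le_rfl]

end Cfsg.Agent.S2513
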