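import Cfsg.Statements.S2514

-- import your own Cfsg.Agent.* helpers here

set_option autoImplicit false
open Cfsg

namespace Cfsg.Agent.S2514

/-- For a finite group X write μ(X) for the set of element orders of X that are maximal under divisibility. Let G and H be finite groups and k ≥ 1 such that μ(H) ⊆ μ(G) and μ(G) has fewer than k elements outside μ(H). Then the direct product of k copies of G has the same set of element orders as the direct product of k − 1 copies of G with H. -/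
theorem result {G H : Type*} [Group G] [Finite G] [Group H] [Finite H] (k : ℕ) (hk : 1 ≤ k)
    (hsub : {n : ℕ | n ∈ Set.range (orderOf : H → ℕ) ∧ ∀ m ∈ Set.range (orderOf : H → ℕ), n ∣ m → m = n} ⊆ {n : ℕ | n ∈ Set.range (orderOf : G → ℕ) ∧ ∀ m ∈ Set.range (orderOf : G → ℕ), n ∣ m → m = n})
    (hfew : ({n : ℕ | n ∈ Set.range (orderOf : G → ℕ) ∧ ∀ m ∈ Set.range (orderOf : G → ℕ), n ∣ m → m = n} \ {n : ℕ | n ∈ Set.range (orderOf : H → ℕ) ∧ ∀ m ∈ Set.range (orderOf : H → ℕ), n ∣ m → m = n}).ncard < k) :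
    Set.range (orderOf : (Fin k → G) → ℕ) = Set.range (orderOf : (Fin (k - 1) → G) × H → ℕ) := by
  classical
  have hmax : ∀ x : G, ∃ y : G, orderOf x ∣ orderOf y ∧ ∀ m ∈ Set.range (orderOf : G → ℕ), orderOf y ∣ m → m = orderOf y := by
    intro x
    obtain ⟨y, hy, hy'⟩ := Set.Finite.exists_maximalFor (fun z : G => orderOf z) {z : G | orderOf x ∣ orderOf z}
      (Set.toFinite _) ⟨x, dvd_rfl⟩
    refine ⟨y, hy, ?_⟩
    rintro _ ⟨z, rfl⟩ hz
    exact le_antisymm (hy' (hy.trans hz) (Nat.le_of_dvd (orderOf_pos z) hz)) (Nat.le_of_dvd (orderOf_pos z) hz)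
  have hmaxH : ∀ x : H, ∃ y : H, orderOf x ∣ orderOf y ∧ ∀ m ∈ Set.range (orderOf : H → ℕ), orderOf y ∣ m → m = orderOf y := by
    intro x
    obtain ⟨y, hy, hy'⟩ := Set.Finite.exists_maximalFor (fun z : H => orderOf z) {z : H | orderOf x ∣ orderOf z}
      (Set.toFinite _) ⟨x, dvd_rfl⟩
    refine ⟨y, hy, ?_⟩
    rintro _ ⟨z, rfl⟩ hz
    exact le_antisymm (hy' (hy.trans hz) (Nat.le_of_dvd (orderOf_pos z) hz)) (Nat.le_of_dvd (orderOf_pos z) hz)
  obtain ⟨k, rfl⟩ : ∃ j, k = j + 1 := ⟨k - 1, by omega⟩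
  have hpow : ∀ {M : Type _} [Group M] [Finite M] (z : M) (d : ℕ), d ∣ orderOf z → ∃ w : M, orderOf w = d := by
    intro M _ _ z d hd
    exact ⟨z ^ (orderOf z / d), orderOf_pow_orderOf_div (orderOf_pos z).ne' hd⟩
  have horda : ∀ (j : ℕ) (f : Fin j → G) (d : ℕ), orderOf f ∣ d ↔ ∀ i, orderOf (f i) ∣ d := fun j f d => by
    simp only [orderOf_dvd_iff_pow_eq_one, funext_iff, Pi.pow_apply, Pi.one_apply]
  ext d
  constructor
  · rintro ⟨f, rfl⟩
    choose y hy hy' using fun i => hmax (f i)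
    by_cases hH : ∃ i, orderOf (y i) ∈ {n : ℕ | n ∈ Set.range (orderOf : H → ℕ) ∧ ∀ m ∈ Set.range (orderOf : H → ℕ), n ∣ m → m = n}
    · obtain ⟨i, ⟨h, hh⟩, -⟩ := hH
      refine hpow ((fun j => y (i.succAbove j), h) : (Fin k → G) × H) _ ((horda _ f _).2 fun l => (hy l).trans ?_)
      rw [Prod.orderOf]
      rcases Fin.eq_self_or_eq_succAbove i l with rfl | ⟨j, rfl⟩
      · rw [← hh]; exact Nat.dvd_lcm_right _ _
      · exact ((horda _ _ _).1 dvd_rfl j).trans (Nat.dvd_lcm_left _ _)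
    · have hdiff : ∀ i, orderOf (y i) ∈ ({n : ℕ | n ∈ Set.range (orderOf : G → ℕ) ∧ ∀ m ∈ Set.range (orderOf : G → ℕ), n ∣ m → m = n} \
          {n : ℕ | n ∈ Set.range (orderOf : H → ℕ) ∧ ∀ m ∈ Set.range (orderOf : H → ℕ), n ∣ m → m = n}) :=
        fun i => ⟨⟨⟨y i, rfl⟩, hy' i⟩, fun h => hH ⟨i, h⟩⟩
      obtain ⟨i, l, hil, hne⟩ : ∃ i l, orderOf (y i) = orderOf (y l) ∧ i ≠ l := by
        by_contra! hinj
        have hfin : ({n : ℕ | n ∈ Set.range (orderOf : G → ℕ) ∧ ∀ m ∈ Set.range (orderOf : G → ℕ), n ∣ m → m = n} \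
            {n : ℕ | n ∈ Set.range (orderOf : H → ℕ) ∧ ∀ m ∈ Set.range (orderOf : H → ℕ), n ∣ m → m = n}).Finite :=
          (Set.finite_range (orderOf : G → ℕ)).subset fun n hn => hn.1.1
        have h1 := Set.ncard_le_ncard (Set.range_subset_iff.2 hdiff) hfin
        rw [Set.ncard_range_of_injective (fun a b e => hinj a b e), Nat.card_eq_fintype_card, Fintype.card_fin] at h1
        omega
      refine hpow ((fun j => y (i.succAbove j), 1) : (Fin k → G) × H) _ ((horda _ f _).2 fun t => (hy t).trans ?_)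
      rw [Prod.orderOf, orderOf_one, Nat.lcm_one_right]
      rcases Fin.eq_self_or_eq_succAbove i t with rfl | ⟨j, rfl⟩
      · obtain ⟨j, hj⟩ := Fin.exists_succAbove_eq (Ne.symm hne)
        rw [hil, ← hj]; exact (horda _ _ _).1 dvd_rfl j
      · exact (horda _ _ _).1 dvd_rfl j
  · rintro ⟨⟨f, h⟩, rfl⟩
    obtain ⟨u, hu, hu'⟩ := hmaxH h
    obtain ⟨⟨z, hz⟩, -⟩ := hsub ⟨⟨u, rfl⟩, hu'⟩
    refine ⟨(Fin.snoc f z : Fin (k + 1) → G) ^ _, orderOf_pow_orderOf_div (orderOf_pos _).ne' ?_⟩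
    rw [Prod.orderOf]
    refine Nat.lcm_dvd ((horda _ f _).2 fun i => ?_) (hu.trans ?_)
    · have := (horda _ (Fin.snoc f z : Fin (k + 1) → G) _).1 dvd_rfl i.castSucc
      rwa [Fin.snoc_castSucc] at this
    · have := (horda _ (Fin.snoc f z : Fin (k + 1) → G) _).1 dvd_rfl (Fin.last k)
      rwa [Fin.snoc_last, hz] at this

end Cfsg.Agent.S2514
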