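import Mathlib
import Cfsg.Statements.S2515

set_option autoImplicit false
set_option maxHeartbeats 1000000
open Cfsg Matrix

namespace Cfsg.Agent.S2515

variable {F : Type} [Field F] [CharP F 3] [Fintype F]

local notation "Mat" => Matrix (Fin 2) (Fin 2) F
local notation "SLF" => Matrix.SpecialLinearGroup (Fin 2) F

/-- transpose of the Frobenius twist -/
def twT (A : Matrix (Fin 2) (Fin 2) F) : Matrix (Fin 2) (Fin 2) F := (A.map (frobenius F 3))ᵀ

omit [Fintype F] in
lemma twT_mul (A B : Mat) : twT (A * B) = twT B * twT A := by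
  simp [twT, Matrix.map_mul, Matrix.transpose_mul]

omit [Fintype F] in
lemma twT_smul_one (c : F) : twT (c • (1 : Mat)) = c ^ 3 • (1 : Mat) := by
  ext i j
  fin_cases i <;> fin_cases j <;> simp [twT, frobenius_def, Matrix.one_apply]

def actFun (a : SLF × ℤˣ) (X : Mat) : Mat := ((a.2 : ℤ) : F) • ((a.1 : Mat) * X * twT (a.1 : Mat))

omit [Fintype F] in
lemma actFun_mul (a b : SLF × ℤˣ) (X : Mat) : actFun (a * b) X = actFun a (actFun b X) := by
  simp [actFun, twT_mul, mul_assoc, smul_smul, Matrix.mul_smul, Matrix.smul_mul]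

omit [Fintype F] in
lemma actFun_one (X : Mat) : actFun (1 : SLF × ℤˣ) X = X := by
  have : twT (1 : Mat) = 1 := by simpa using twT_smul_one (F := F) 1
  simp [actFun, this]

omit [Fintype F] in
lemma actFun_add (a : SLF × ℤˣ) (X Y : Mat) : actFun a (X + Y) = actFun a X + actFun a Y := by
  simp [actFun, mul_add, add_mul, smul_add]

def act : SLF × ℤˣ →* MulAut (Multiplicative Mat) where
  toFun a :=
    { toFun := fun X => Multiplicative.ofAdd (actFun a X.toAdd)
      invFun := fun X => Multiplicative.ofAdd (actFun a⁻¹ X.toAdd)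
      left_inv := fun X => by simp [← actFun_mul, actFun_one]
      right_inv := fun X => by simp [← actFun_mul, actFun_one]
      map_mul' := fun X Y => by simp [actFun_add] }
  map_one' := by
    ext X
    simp [actFun_one]
  map_mul' a b := by
    ext X
    simp [actFun_mul]

omit [Fintype F] in
lemma act_apply (a : SLF × ℤˣ) (X : Mat) :
    act a (Multiplicative.ofAdd X) = Multiplicative.ofAdd (actFun a X) := rfl

omit [CharP F 3] [Fintype F] in
lemma ch (A : Mat) (hA : A.det = 1) : A * A = A.trace • A - 1 := by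
  rw [Matrix.det_fin_two] at hA
  ext i j
  fin_cases i <;> fin_cases j <;> simp [Matrix.mul_apply, Fin.sum_univ_two, Matrix.trace_fin_two]
  all_goals first
    | ring1
    | linear_combination hA
    | linear_combination -hA

omit [Fintype F] in
lemma three_zero : (3 : F) = 0 := by exact_mod_cast CharP.cast_eq_zero F 3

omit [Fintype F] in
lemma two_ne : (2 : F) ≠ 0 := by
  intro h
  have h3 := three_zero (F := F)
  have h1 : (1 : F) = 0 := by linear_combination h3 - h
  exact one_ne_zero h1

omit [Fintype F] in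
lemma act_scalar {a : SLF × ℤˣ} {c : F} (h : (a.1 : Mat) = c • 1) (hc : c ^ 4 = 1) (X : Mat) :
    actFun a X = ((a.2 : ℤ) : F) • X := by
  simp only [actFun, h, twT_smul_one, Matrix.smul_mul, Matrix.mul_smul, one_mul, mul_one, smul_smul]
  congr 1
  linear_combination (((a.2 : ℤ) : F)) * hc

omit [Fintype F] in
lemma act_one_of {a : SLF × ℤˣ} {c : F} (h : (a.1 : Mat) = c • 1) (hc : c ^ 4 = 1) (hs : a.2 = 1) :
    act a = 1 := by
  ext X : 1
  show Multiplicative.ofAdd (actFun a X.toAdd) = X
  rw [act_scalar h hc, hs]; simp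

omit [Fintype F] in
lemma scalar_of_act_one {a : SLF × ℤˣ} (h : act a = 1) :
    ∃ c : F, c ^ 2 = 1 ∧ (a.1 : Mat) = c • 1 ∧ a.2 = 1 := by
  have hall : ∀ X : Mat, actFun a X = X := fun X => by
    have := congrArg (fun f : MulAut (Multiplicative Mat) => (f (Multiplicative.ofAdd X)).toAdd) h
    simpa [act_apply] using this
  set g : Mat := (a.1 : Mat) with hgdef
  set s : F := ((a.2 : ℤ) : F) with hsdef
  have hone : s • (g * twT g) = 1 := by simpa [actFun, ← hgdef, ← hsdef] using hall 1
  have hcomm : ∀ X : Mat, g * X = X * g := by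
    intro X
    have h1 : s • (g * X * twT g) = X := hall X
    have h2 : s • (g * X * twT g) = X * (s • (g * twT g)) := by rw [hone, mul_one]; exact h1
    have h3 : g * X * (s • twT g) = X * g * (s • twT g) := by
      simpa [Matrix.mul_smul, mul_assoc] using h2
    have h4 : (s • twT g) * g = 1 := by
      apply mul_eq_one_comm.mp
      simpa [Matrix.mul_smul] using hone
    have h5 : g * (s • twT g) = 1 := mul_eq_one_comm.mp h4
    have hu : IsUnit (s • twT g) := ⟨⟨_, g, h4, h5⟩, rfl⟩
    exact hu.mul_right_cancel h3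
  have e1 := hcomm !![0, 1; 0, 0]
  have e2 := hcomm !![0, 0; 1, 0]
  have a00 := congrFun (congrFun e1 0) 0
  have a01 := congrFun (congrFun e1 0) 1
  have b00 := congrFun (congrFun e2 0) 0
  simp [Matrix.mul_apply, Fin.sum_univ_two] at a00 a01 b00
  have hg : g = g 0 0 • 1 := by
    ext i j
    fin_cases i <;> fin_cases j <;> simp [← a00, ← a01, b00]
  have hdet : g.det = 1 := a.1.2
  rw [hg] at hdet
  simp [Matrix.det_fin_two] at hdet
  have hc : g 0 0 ^ 2 = 1 := by rcases hdet with h' | h' <;> rw [h'] <;> norm_num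
  refine ⟨g 0 0, hc, hg, ?_⟩
  rcases Int.units_eq_one_or a.2 with h' | h'
  · exact h'
  · exfalso
    have := hall 1
    rw [act_scalar (c := g 0 0) hg (by linear_combination (g 0 0 ^ 2 + 1) * hc), h'] at this
    have h00 := congrFun (congrFun this 0) 0
    simp at h00
    exact two_ne (F := F) (by linear_combination -h00)

omit [CharP F 3] [Fintype F] in
lemma coe_pow' (g : SLF) (n : ℕ) : ((g ^ n : SLF) : Mat) = (g : Mat) ^ n := by simp

/-- a nonzero fixed matrix forces trace zero, for semisimple elements -/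
lemma trace_zero_of_fix (hq : Fintype.card F % 4 = 3) {a : SLF × ℤˣ} {X : Mat} (hX : X ≠ 0)
    (hfix : actFun a X = X) (ht : (a.1 : Mat).trace ^ 2 ≠ 1) : (a.1 : Mat).trace = 0 := by
  set g : Mat := (a.1 : Mat) with hgdef
  set s : F := ((a.2 : ℤ) : F) with hsdef
  have hs : s = 1 ∨ s = -1 := by
    rcases Int.units_eq_one_or a.2 with h | h <;> simp [hsdef, h]
  have hs2 : s * s = 1 := by rcases hs with h | h <;> simp [h]
  set t := g.trace
  set B := twT g with hB
  have hBdet : B.det = 1 := by
    have h1 : (g.map (frobenius F 3)).det = frobenius F 3 g.det :=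
      ((frobenius F 3).map_det g).symm
    simp [hB, twT, h1, g, a.1.2]
  have hBtr : B.trace = t ^ 3 := by
    simp [hB, twT, t, Matrix.trace_fin_two, frobenius_def, add_pow_char]
  have hinv : B * (t ^ 3 • 1 - B) = 1 := by
    rw [mul_sub, ch B hBdet, hBtr]; simp [Matrix.mul_smul]
  set C := s • (t ^ 3 • (1 : Mat) - B) with hC
  have hgX : g * X = X * C := by
    have h1 : s • (g * X * B) = X := hfix
    calc g * X = g * X * B * (t ^ 3 • 1 - B) := by rw [mul_assoc (g * X), hinv, mul_one]
      _ = X * C := by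
        rw [hC, Matrix.mul_smul, ← Matrix.smul_mul]
        congr 1
        conv_rhs => rw [← h1, smul_smul, hs2, one_smul]
  have hCdet : C.det = 1 := by
    have h2 : (t ^ 3 • (1 : Mat) - B).det = 1 := by
      have := congrArg Matrix.det hinv
      rwa [Matrix.det_mul, hBdet, one_mul, Matrix.det_one] at this
    rw [hC, Matrix.det_smul, h2]; simp [sq, hs2]
  have hCtr : C.trace = s * t ^ 3 := by
    simp [hC, Matrix.trace_sub, hBtr]
    left; ring
  have h1 : g * (g * X) = X * C * C := by rw [hgX, ← mul_assoc, hgX]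
  rw [← mul_assoc g g X, ch g a.1.2, mul_assoc X C C, ch C hCdet, hCtr, sub_mul, mul_sub,
    Matrix.smul_mul, Matrix.mul_smul, ← hgX, one_mul, mul_one, sub_left_inj] at h1
  have hne : g * X ≠ 0 := by
    intro h
    apply hX
    have : (g.trace • 1 - g) * g = 1 := by
      rw [sub_mul, ch g a.1.2]; simp
    calc X = (g.trace • 1 - g) * (g * X) := by rw [← mul_assoc, this, one_mul]
      _ = 0 := by rw [h, mul_zero]
  have h2 : t = s * t ^ 3 := by
    have : (t - s * t ^ 3) • (g * X) = 0 := by rw [sub_smul, h1, sub_self]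
    rcases smul_eq_zero.mp this with h | h
    · exact sub_eq_zero.mp h
    · exact absurd h hne
  by_contra h0
  have h3 : s * t ^ 2 = 1 := by
    apply mul_left_cancel₀ h0
    linear_combination -h2
  rcases hs with h | h
  · exact ht (by linear_combination h3 - t ^ 2 * h)
  · have h4 : IsSquare (-1 : F) := ⟨t, by linear_combination h3 - t ^ 2 * h⟩
    exact (FiniteField.isSquare_neg_one_iff.mp h4) hq

lemma pow_card_cases {A : Mat} (hA : A.det = 1) (ht : A.trace ^ 2 ≠ 1) :
    A ^ (Fintype.card F - 1) = 1 ∨ A ^ (Fintype.card F + 1) = 1 := by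
  classical
  set t := A.trace with htdef
  set q := Fintype.card F
  have hq1 : 1 ≤ q := Fintype.card_pos
  have hch := ch A hA
  rw [← htdef] at hch
  by_cases hr : ∃ r : F, r * r = t * r - 1
  · left
    obtain ⟨r, hr⟩ := hr
    have hr0 : r ≠ 0 := by rintro rfl; simp at hr
    set r' := t - r with hr'
    have hr'0 : r' ≠ 0 := by
      intro h; have : r * r' = 1 := by rw [hr']; linear_combination -hr
      rw [h, mul_zero] at this; exact zero_ne_one this
    have key : ∀ x y : F, x + y = t → x * y = 1 → ∀ n : ℕ, A ^ n * (A - y • 1) = x ^ n • (A - y • 1) := by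
      intro x y hxy hxy1 n
      induction n with
      | zero => simp
      | succ n ih =>
        have h1 : A * (A - y • 1) = x • (A - y • 1) := by
          rw [mul_sub, hch, Matrix.mul_smul, mul_one, ← hxy, smul_sub, smul_smul, hxy1, add_smul, one_smul]
          abel
        rw [pow_succ, mul_assoc, h1, Matrix.mul_smul, ih, smul_smul, pow_succ']
    have hd : r - r' ≠ 0 := by
      intro h
      apply ht
      have h3 := three_zero (F := F)
      have : (r - r') ^ 2 = t ^ 2 - 4 := by rw [hr']; linear_combination 4 * hr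
      rw [h] at this
      linear_combination -this + h3
    have k1 := key r r' (by rw [hr']; ring) (by rw [hr']; linear_combination -hr) (q - 1)
    have k2 := key r' r (by rw [hr']; ring) (by rw [hr']; linear_combination -hr) (q - 1)
    rw [FiniteField.pow_card_sub_one_eq_one r hr0, one_smul] at k1
    rw [FiniteField.pow_card_sub_one_eq_one r' hr'0, one_smul] at k2
    have h3 : A ^ (q - 1) * ((r - r') • 1) = (r - r') • 1 := by
      have e : (r - r') • (1 : Mat) = (A - r' • 1) - (A - r • 1) := by rw [sub_smul]; abel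
      rw [e, mul_sub, k1, k2]
    rw [Matrix.mul_smul, mul_one] at h3
    exact smul_right_injective _ hd h3
  · push Not at hr
    have hspan : ∀ n : ℕ, ∃ c0 c1 : F, A ^ n = c0 • 1 + c1 • A := by
      intro n
      induction n with
      | zero => exact ⟨1, 0, by simp⟩
      | succ n ih =>
        obtain ⟨c0, c1, h⟩ := ih
        refine ⟨-c1, c0 + c1 * t, ?_⟩
        rw [pow_succ, h, add_mul, Matrix.smul_mul, Matrix.smul_mul, one_mul, hch]
        module
    obtain ⟨c0, c1, hX⟩ := hspan q
    have hXeq : A ^ q * A ^ q = t • A ^ q - 1 := by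
      let f : Polynomial F := Polynomial.X ^ 2 - Polynomial.C t * Polynomial.X + 1
      have h0 : Polynomial.aeval A f = 0 := by
        simp [f, sq, hch, Algebra.algebraMap_eq_smul_one]
      have h1 := Polynomial.expand_aeval (R := F) q f A
      rw [FiniteField.expand_card, map_pow, h0, zero_pow (by omega : q ≠ 0)] at h1
      simp [f, Algebra.algebraMap_eq_smul_one] at h1
      rw [sq] at h1
      rw [← sub_eq_zero]
      rw [h1]
      abel
    have hlin : ∀ x y : F, x • (1 : Mat) + y • A = 0 → x = 0 ∧ y = 0 := by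
      intro x y hxy
      by_cases hy : y = 0
      · subst hy
        have := congrFun (congrFun hxy 0) 0
        simp at this
        exact ⟨this, rfl⟩
      · exfalso
        have hAs : A = (-x / y) • (1 : Mat) := by
          have : y • A = (-x) • (1 : Mat) := by rw [neg_smul, eq_neg_iff_add_eq_zero, add_comm]; exact hxy
          rw [div_eq_inv_mul, ← smul_smul, ← this, smul_smul, inv_mul_cancel₀ hy, one_smul]
        apply hr (-x / y)
        have := congrFun (congrFun hch 0) 0
        rw [hAs] at this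
        simpa using this
    have hco : (c0 * c0 - c1 * c1 - t * c0 + 1) • (1 : Mat)
        + (2 * c0 * c1 + t * (c1 * c1) - t * c1) • A = 0 := by
      have h := hXeq
      rw [hX] at h
      simp only [add_mul, mul_add, Matrix.smul_mul, Matrix.mul_smul, one_mul, mul_one, hch,
        smul_sub, smul_smul] at h
      rw [← sub_eq_zero] at h
      rw [← h]
      module
    obtain ⟨e0, e1⟩ := hlin _ _ hco
    have hc1 : c1 ≠ 0 := by
      intro h; rw [h] at e0
      exact hr c0 (by linear_combination e0)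
    have h3 := three_zero (F := F)
    have hc0 : c0 = t * (c1 - 1) := by
      apply mul_right_cancel₀ hc1
      linear_combination -e1 + c0 * c1 * h3
    have hfac : (c1 - 1) * ((c1 + 1) * (t ^ 2 - 1)) = 0 := by
      rw [hc0] at e0
      linear_combination e0 + (t ^ 2 * (c1 - 1)) * h3
    rcases mul_eq_zero.mp hfac with h | h
    · left
      have hc : c1 = 1 := sub_eq_zero.mp h
      have hAq : A ^ q = A := by rw [hX, hc0, hc]; simp
      have hu : A * (t • 1 - A) = 1 := by rw [mul_sub, hch]; simp [Matrix.mul_smul]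
      calc A ^ (q - 1) = A ^ (q - 1) * (A * (t • 1 - A)) := by rw [hu, mul_one]
        _ = A ^ q * (t • 1 - A) := by
          rw [← mul_assoc, ← pow_succ]; congr 2; omega
        _ = 1 := by rw [hAq, hu]
    · right
      have hc : c1 = -1 := by
        rcases mul_eq_zero.mp h with h' | h'
        · linear_combination h'
        · exact absurd (sub_eq_zero.mp h') ht
      have hAq : A ^ q = t • 1 - A := by
        rw [hX, hc0, hc]
        have : t * (-1 - 1) = t := by linear_combination -t * h3
        rw [this, neg_one_smul, sub_eq_add_neg]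
      rw [pow_succ', hAq, mul_sub, hch]; simp [Matrix.mul_smul]

omit [Fintype F] in
lemma half_scalar {A : Mat} (hA : A.det = 1) {k : ℕ} (hk : A ^ (k + k) = 1) :
    ∃ c : F, c ^ 2 = 1 ∧ A ^ k = c • (1 : Mat) := by
  have hsq : A ^ k * A ^ k = 1 := by rw [← pow_add, hk]
  have hdet : (A ^ k).det = 1 := by rw [Matrix.det_pow, hA, one_pow]
  have hc := ch _ hdet
  rw [hsq] at hc
  set τ := (A ^ k).trace
  have hτ : τ • A ^ k = (2 : F) • (1 : Mat) := by
    rw [two_smul]; nth_rewrite 2 [hc]; abel
  have hτ0 : τ ≠ 0 := by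
    intro h0; rw [h0, zero_smul] at hτ
    rcases smul_eq_zero.mp hτ.symm with h' | h'
    · exact two_ne h'
    · exact one_ne_zero h'
  have hgk : A ^ k = (2 / τ) • (1 : Mat) := by
    rw [div_eq_inv_mul, ← smul_smul, ← hτ, smul_smul, inv_mul_cancel₀ hτ0, one_smul]
  refine ⟨2 / τ, ?_, hgk⟩
  have := congrFun (congrFun hsq 0) 0
  rw [hgk] at this
  simp at this
  rw [sq]; exact this

abbrev Big (F : Type) [Field F] [CharP F 3] :=
  SemidirectProduct (Multiplicative (Matrix (Fin 2) (Fin 2) F))
    (act (F := F)).range (act (F := F)).range.subtype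

omit [Fintype F] in
lemma cube_one (w : Multiplicative Mat) : w ^ 3 = 1 := by
  apply Multiplicative.toAdd.injective
  rw [toAdd_pow, toAdd_one]
  ext i j
  simp [three_zero (F := F)]

omit [Fintype F] in
lemma big_pow_three_mul (h : Big F) {k : ℕ} (hk : h.right ^ k = 1) : h ^ (3 * k) = 1 := by
  have h1 : (h ^ k).right = 1 := by
    show SemidirectProduct.rightHom (h ^ k) = 1
    rw [map_pow]; exact hk
  have h2 : h ^ k = SemidirectProduct.inl (h ^ k).left := by
    apply SemidirectProduct.ext <;> simp [h1]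
  rw [mul_comm, pow_mul, h2, ← map_pow, cube_one, map_one]

omit [Fintype F] in
lemma big_pow_of_free (h : Big F) {k : ℕ} (hk : h.right ^ k = 1)
    (hfree : ∀ w, (h.right : MulAut (Multiplicative Mat)) w = w → w = 1) : h ^ k = 1 := by
  have h1 : (h ^ k).right = 1 := by
    show SemidirectProduct.rightHom (h ^ k) = 1
    rw [map_pow]; exact hk
  have h2 := congrArg SemidirectProduct.left ((Commute.self_pow h k).eq)
  simp only [SemidirectProduct.mul_left, h1, map_one, Subgroup.subtype_apply,
    MulAut.one_apply] at h2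
  rw [mul_comm h.left] at h2
  apply SemidirectProduct.ext
  · exact hfree _ (mul_right_cancel h2)
  · exact h1

theorem orders (α : ℕ) (hq : Fintype.card F = 3 ^ α) (hodd : Odd α) (h : Big F) :
    h ^ 6 = 1 ∨ h ^ 9 = 1 ∨ h ^ (3 ^ α - 1) = 1 ∨ h ^ ((3 ^ α + 1) / 2) = 1 := by
  obtain ⟨a, ha⟩ := h.right.2
  have hq4 : Fintype.card F % 4 = 3 := by
    obtain ⟨j, rfl⟩ := hodd
    rw [hq, pow_succ, pow_mul, Nat.mul_mod, Nat.pow_mod]; norm_num
  have hr : ∀ k, act (a ^ k) = 1 → h.right ^ k = 1 := fun k hk => by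
    apply Subtype.ext
    simp [← ha, ← map_pow, hk]
  have hsev : ∀ k, Even k → (a ^ k).2 = 1 := by
    rintro k ⟨j, rfl⟩
    rw [Prod.pow_snd, ← two_mul, pow_mul, Int.units_sq, one_pow]
  set g : Mat := (a.1 : Mat) with hg
  set t := g.trace with htdef
  have hch := ch g a.1.2
  rw [← htdef] at hch
  have hfix : ∀ w, (h.right : MulAut (Multiplicative Mat)) w = w → w ≠ 1 →
      actFun a w.toAdd = w.toAdd ∧ w.toAdd ≠ 0 := by
    intro w hw hw1
    rw [← ha] at hw
    refine ⟨?_, fun hh => hw1 (Multiplicative.toAdd.injective (by simpa using hh))⟩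
    exact congrArg Multiplicative.toAdd hw
  by_cases ht : t ^ 2 = 1
  · have hg3 : g ^ 3 = (-t) • (1 : Mat) := by
      rw [pow_succ, sq, hch, sub_mul, Matrix.smul_mul, hch, one_mul, smul_sub, smul_smul, ← sq, ht, one_smul]
      simp
    have ht4 : (-t) ^ 4 = 1 := by linear_combination (t ^ 2 + 1) * ht
    rcases Int.units_eq_one_or a.2 with hs | hs
    · right; left
      have : h.right ^ 3 = 1 := hr 3 (act_one_of (c := -t) (by simpa [coe_pow'] using hg3) ht4 (by simp [hs]))
      simpa using big_pow_three_mul h this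
    · left
      refine big_pow_of_free h (hr 6 (act_one_of (c := 1) ?_ (by simp) (hsev 6 ⟨3, rfl⟩))) ?_
      · have : g ^ 6 = 1 := by
          rw [show (6 : ℕ) = 3 * 2 from rfl, pow_mul, hg3, smul_pow, one_pow, neg_sq, ht, one_smul]
        simpa [coe_pow'] using this
      · intro w hw
        by_contra hw1
        obtain ⟨hw2, hw3⟩ := hfix w hw hw1
        have h3 : actFun (a ^ 3) w.toAdd = w.toAdd := by
          rw [pow_three, actFun_mul, actFun_mul, hw2, hw2, hw2]
        rw [act_scalar (c := -t) (by simpa [coe_pow'] using hg3) ht4] at h3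
        have : ((a ^ 3).2 : ℤˣ) = -1 := by rw [Prod.pow_snd, hs]; rfl
        rw [this] at h3
        apply hw3
        have h4 : (2 : F) • w.toAdd = 0 := by
          simp only [Units.val_neg, Units.val_one, Int.cast_neg, Int.cast_one, neg_one_smul] at h3
          rw [two_smul]
          conv_lhs => arg 1; rw [← h3]
          simp
        exact (smul_eq_zero.mp h4).resolve_left two_ne
  · by_cases hf : ∀ w, (h.right : MulAut (Multiplicative Mat)) w = w → w = 1
    · have hA : g ^ (Fintype.card F - 1) = 1 ∨ g ^ (Fintype.card F + 1) = 1 :=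
        pow_card_cases a.1.2 ht
      rw [hq] at hA hq4
      have h1 : 1 ≤ 3 ^ α := Nat.one_le_pow _ _ (by norm_num)
      rcases hA with hA | hA
      · right; right; left
        refine big_pow_of_free h (hr _ (act_one_of (c := 1) ?_ (by simp) (hsev _ ?_))) hf
        · simpa [coe_pow'] using hA
        · exact Nat.even_iff.mpr (by omega)
      · right; right; right
        set k := (3 ^ α + 1) / 2 with hk
        have hk2 : 3 ^ α + 1 = k + k := by omega
        obtain ⟨c, hc2, hgk⟩ := half_scalar a.1.2 (k := k) (by rw [← hk2]; exact hA)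
        refine big_pow_of_free h (hr _ (act_one_of (c := c) (by simpa [coe_pow'] using hgk) ?_ (hsev _ ?_))) hf
        · linear_combination (c ^ 2 + 1) * hc2
        · exact Nat.even_iff.mpr (by omega)
    · left
      push Not at hf
      obtain ⟨w, hw, hw1⟩ := hf
      obtain ⟨hw2, hw3⟩ := hfix w hw hw1
      have ht0 : t = 0 := trace_zero_of_fix hq4 hw3 hw2 ht
      have hg2 : g ^ 2 = (-1 : F) • (1 : Mat) := by rw [sq, hch, ht0]; simp
      have : h.right ^ 2 = 1 :=
        hr 2 (act_one_of (c := -1) (by simpa [coe_pow'] using hg2) (by norm_num) (hsev 2 even_two))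
      simpa using big_pow_three_mul h this

lemma order_act {a : SLF × ℤˣ} {n : ℕ} (h1 : act (a ^ n) = 1)
    (h2 : ∀ (k : ℕ) (c : F), ((a.1 : Mat) ^ k = c • 1) → c ^ 2 = 1 → a.2 ^ k = 1 → n ∣ k) :
    orderOf (act a) = n := by
  apply Nat.dvd_antisymm (orderOf_dvd_of_pow_eq_one (by rw [← map_pow]; exact h1))
  have h := pow_orderOf_eq_one (act a)
  rw [← map_pow] at h
  obtain ⟨c, hc, hg, hs⟩ := scalar_of_act_one h
  exact h2 (orderOf (act a)) c (by simpa [coe_pow'] using hg) hc (by simpa using hs)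

lemma exists_order (a : SLF × ℤˣ) : ∃ h : Big F, orderOf h = orderOf (act a) :=
  ⟨SemidirectProduct.inr ⟨act a, a, rfl⟩, by
    rw [orderOf_injective _ SemidirectProduct.inr_injective]; exact Subgroup.orderOf_mk _ _⟩

def uT (F : Type) [Field F] : Matrix.SpecialLinearGroup (Fin 2) F :=
  ⟨!![1, 1; 0, 1], by simp [Matrix.det_fin_two]⟩

omit [CharP F 3] [Fintype F] in
lemma uT_pow (k : ℕ) : ((uT F : SLF) : Mat) ^ k = !![1, (k : F); 0, 1] := by
  induction k with
  | zero => simp [Matrix.one_fin_two]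
  | succ k ih => rw [pow_succ, ih]; simp [uT]; ring

lemma has_six : ∃ h : Big F, orderOf h = 6 := by
  obtain ⟨h, hh⟩ := exists_order (F := F) (uT F, -1)
  refine ⟨h, hh.trans (order_act ?_ ?_)⟩
  · refine act_one_of (c := 1) ?_ (by simp) (by rw [Prod.pow_snd]; rfl)
    have h6 : ((6 : ℕ) : F) = 0 := by
      push_cast; linear_combination 2 * three_zero (F := F)
    rw [Prod.pow_fst, coe_pow', uT_pow, h6, one_smul, Matrix.one_fin_two]
  · intro k c hk _ hs
    dsimp only at hk hs
    rw [uT_pow] at hk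
    have h01 := congrFun (congrFun hk 0) 1
    simp at h01
    have h3 : 3 ∣ k := (CharP.cast_eq_zero_iff F 3 k).mp h01
    have h2 : Even k := by
      rcases Nat.even_or_odd k with he | ho
      · exact he
      · rw [Odd.neg_one_pow ho] at hs; exact absurd hs (by decide)
    rw [even_iff_two_dvd] at h2
    omega

lemma has_nine : ∃ h : Big F, orderOf h = 9 := by
  set m : (act (F := F)).range := ⟨act (uT F, 1), (uT F, 1), rfl⟩
  have hm3 : m ^ 3 = 1 := by
    apply Subtype.ext
    show act (uT F, 1) ^ 3 = 1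
    rw [← map_pow]
    refine act_one_of (c := 1) ?_ (by simp) (by simp)
    rw [Prod.pow_fst, coe_pow', uT_pow]
    simp [three_zero (F := F), Matrix.one_fin_two]
  let h : Big F := ⟨Multiplicative.ofAdd !![0, 0; 0, 1], m⟩
  refine ⟨h, ?_⟩
  have h9 : h ^ 9 = 1 := by simpa using big_pow_three_mul h (k := 3) hm3
  have h3 : h ^ 3 ≠ 1 := by
    intro hh
    have := congrArg (fun x : Big F => x.left.toAdd 0 0) hh
    simp [pow_three, h, m, act_apply, actFun, uT, twT, frobenius_def, Matrix.mul_apply,
      Fin.sum_univ_two, Matrix.vecMul, dotProduct, Matrix.map_apply, Matrix.transpose_apply] at this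
    first
      | exact two_ne (F := F) (by linear_combination this - three_zero (F := F))
      | exact two_ne (F := F) (by linear_combination this)
      | exact two_ne (F := F) (by linear_combination this - (2 : F) * three_zero (F := F))
  have := orderOf_eq_prime_pow (p := 3) (n := 1) (by simpa using h3) (by simpa using h9)
  simpa using this

lemma has_split (α : ℕ) (hq : Fintype.card F = 3 ^ α) (hodd : Odd α) :
    ∃ h : Big F, orderOf h = 3 ^ α - 1 := by
  classical
  obtain ⟨r, hr⟩ := IsCyclic.exists_ofOrder_eq_natCard (α := Fˣ)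
  rw [Nat.card_eq_fintype_card, Fintype.card_units, hq] at hr
  let d : SLF := ⟨Matrix.diagonal ![(r : F), ((r⁻¹ : Fˣ) : F)], by
    simp [Matrix.det_diagonal, Fin.prod_univ_two]⟩
  obtain ⟨h, hh⟩ := exists_order (F := F) (d, -1)
  have hev : Even (3 ^ α - 1) := by
    have : 3 ^ α % 2 = 1 := by rw [Nat.pow_mod]; norm_num
    rw [Nat.even_iff]; omega
  refine ⟨h, hh.trans (order_act ?_ ?_)⟩
  · refine act_one_of (c := 1) ?_ (by simp) (by rw [Prod.pow_snd]; exact hev.neg_one_pow)
    have h1 : (r : F) ^ (3 ^ α - 1) = 1 := by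
      rw [← Units.val_pow_eq_pow_val, ← hr, pow_orderOf_eq_one, Units.val_one]
    rw [Prod.pow_fst, coe_pow']
    show Matrix.diagonal ![(r : F), ((r⁻¹ : Fˣ) : F)] ^ _ = _
    rw [Matrix.diagonal_pow, one_smul, ← Matrix.diagonal_one]
    congr 1
    ext i
    fin_cases i <;> simp [h1, inv_pow]
  · intro k c hk hc hs
    dsimp only at hk hs
    change Matrix.diagonal ![(r : F), ((r⁻¹ : Fˣ) : F)] ^ k = _ at hk
    rw [Matrix.diagonal_pow] at hk
    have h00 := congrFun (congrFun hk 0) 0
    simp at h00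
    have hr2 : r ^ (2 * k) = 1 := by
      apply Units.ext
      rw [Units.val_pow_eq_pow_val, mul_comm, pow_mul, h00, hc, Units.val_one]
    have hd : 3 ^ α - 1 ∣ 2 * k := hr ▸ orderOf_dvd_of_pow_eq_one hr2
    have h2 : Even k := by
      rcases Nat.even_or_odd k with he | ho
      · exact he
      · rw [Odd.neg_one_pow ho] at hs; exact absurd hs (by decide)
    obtain ⟨j, hj⟩ := hodd
    have hmod : 3 ^ α % 4 = 3 := by
      rw [hj, pow_succ, pow_mul, Nat.mul_mod, Nat.pow_mod]; norm_num
    obtain ⟨k1, hk1, hk1o⟩ : ∃ k1, 3 ^ α - 1 = 2 * k1 ∧ Odd k1 :=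
      ⟨(3 ^ α - 1) / 2, by omega, Nat.odd_iff.mpr (by omega)⟩
    rw [hk1] at hd ⊢
    have hd1 : k1 ∣ k := Nat.dvd_of_mul_dvd_mul_left (by norm_num) hd
    exact Nat.Coprime.mul_dvd_of_dvd_of_dvd (Nat.coprime_two_left.mpr hk1o) (even_iff_two_dvd.mp h2) hd1

lemma has_nonsplit [Fact (Nat.Prime 3)] (α : ℕ) (hα3 : 3 ≤ α) [Fintype (GaloisField 3 α)] :
    ∃ h : Big (GaloisField 3 α), orderOf h = (3 ^ α + 1) / 2 := by
  classical
  have hα : α ≠ 0 := by omega
  have hq27' : 27 ≤ 3 ^ α := le_trans (by norm_num) (Nat.pow_le_pow_right (by norm_num) hα3)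
  have hdvd : Module.finrank (ZMod 3) (GaloisField 3 α) ∣ Module.finrank (ZMod 3) (GaloisField 3 (2 * α)) := by
    rw [GaloisField.finrank 3 hα, GaloisField.finrank 3 (by omega : 2 * α ≠ 0)]
    exact dvd_mul_left _ _
  obtain ⟨ι⟩ := FiniteField.nonempty_algHom_iff_finrank_dvd.mpr hdvd
  set K := GaloisField 3 (2 * α)
  letI : Fintype K := Fintype.ofFinite _
  obtain ⟨r, hr⟩ := IsCyclic.exists_ofOrder_eq_natCard (α := Kˣ)
  have hcardK : Nat.card K = 3 ^ (2 * α) := GaloisField.card 3 _ (by omega)
  have hcard : Nat.card (GaloisField 3 α) = 3 ^ α := GaloisField.card 3 _ hα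
  set q := 3 ^ α with hq
  have hq1 : 1 ≤ q := Nat.one_le_pow _ _ (by norm_num)
  have hrord : orderOf r = (q - 1) * (q + 1) := by
    rw [hr, Nat.card_units, hcardK, hq, mul_comm 2 α, pow_mul]
    have h := Nat.sq_sub_sq q 1
    rw [one_pow] at h
    rw [h, mul_comm]
  set ζu : Kˣ := r ^ (q - 1)
  have hq3 : 3 ≤ q := by
    rw [hq]; exact Nat.le_self_pow hα 3
  have hζord : orderOf ζu = q + 1 := by
    rw [orderOf_pow' _ (by omega : q - 1 ≠ 0), hrord, Nat.gcd_mul_right_left,
      Nat.mul_div_cancel_left _ (by omega : 0 < q - 1)]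
  set ζ : K := (ζu : K)
  have hζq : ζ ^ q * ζ = 1 := by
    rw [← pow_succ, ← Units.val_pow_eq_pow_val, ← hζord, pow_orderOf_eq_one, Units.val_one]
  have hζ0 : ζ ≠ 0 := ζu.ne_zero
  set x : K := ζ + ζ ^ q with hx
  have hxq : x ^ q = x := by
    have h1 : x ^ q = ζ ^ q + (ζ ^ q) ^ q := by rw [hx, hq, add_pow_char_pow]
    have h2 : (ζ ^ q) ^ q = ζ := by
      apply mul_left_cancel₀ (pow_ne_zero q hζ0)
      rw [← mul_pow, mul_comm ζ, hζq, one_pow]
    rw [h1, h2, add_comm]
  obtain ⟨t, ht⟩ : ∃ t, ι t = x := by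
    let P : Polynomial K := Polynomial.X ^ q - Polynomial.X
    have hP0 : P ≠ 0 := FiniteField.X_pow_card_sub_X_ne_zero K (by omega)
    have hdeg : P.natDegree = q := FiniteField.X_pow_card_sub_X_natDegree_eq K (by omega)
    have hsub : (Finset.univ.image ι) ⊆ P.roots.toFinset := by
      intro y hy
      obtain ⟨z, _, rfl⟩ := Finset.mem_image.mp hy
      have : z ^ q = z := by rw [← hcard, Nat.card_eq_fintype_card]; exact FiniteField.pow_card z
      rw [Multiset.mem_toFinset, Polynomial.mem_roots hP0]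
      simp [P, ← map_pow, this]
    have hc : P.roots.toFinset.card ≤ (Finset.univ.image ι).card := by
      rw [Finset.card_image_of_injective (f := ι) _ ι.injective, Finset.card_univ, ← Nat.card_eq_fintype_card, hcard]
      exact (Multiset.toFinset_card_le _).trans ((Polynomial.card_roots' P).trans hdeg.le)
    have hmem : x ∈ Finset.univ.image ι := by
      rw [Finset.eq_of_subset_of_card_le hsub hc, Multiset.mem_toFinset, Polynomial.mem_roots hP0]
      simp [P, hxq]
    obtain ⟨t, _, ht⟩ := Finset.mem_image.mp hmem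
    exact ⟨t, ht⟩
  let g : Matrix.SpecialLinearGroup (Fin 2) (GaloisField 3 α) :=
    ⟨!![0, -1; 1, t], by simp [Matrix.det_fin_two]⟩
  obtain ⟨h, hh⟩ := exists_order (g, (1 : ℤˣ))
  refine ⟨h, hh.trans ?_⟩
  set gK : Matrix (Fin 2) (Fin 2) K := (!![0, -1; 1, t]).map (ι : GaloisField 3 α →+* K) with hgK
  have hv : ∀ k : ℕ, Matrix.vecMul ![1, ζ] (gK ^ k) = ζ ^ k • ![1, ζ] := by
    intro k
    induction k with
    | zero => simp
    | succ k ih =>
      rw [pow_succ, ← Matrix.vecMul_vecMul, ih, Matrix.smul_vecMul, pow_succ, ← smul_smul]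
      congr 1
      ext i
      fin_cases i
      · simp [hgK, Matrix.vecMul, dotProduct, Fin.sum_univ_two]
      · simp [hgK, Matrix.vecMul, dotProduct, Fin.sum_univ_two, ht, hx]
        linear_combination hζq
  have hscal : ∀ k c, ((g : Matrix (Fin 2) (Fin 2) (GaloisField 3 α)) ^ k = c • 1) → ζ ^ k = ι c := by
    intro k c hk
    have h1 := hv k
    rw [hgK, ← Matrix.map_pow] at h1
    change Matrix.vecMul _ (((g : Matrix (Fin 2) (Fin 2) (GaloisField 3 α)) ^ k).map _) = _ at h1
    rw [hk] at h1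
    have h0 := congrFun h1 0
    simp [Matrix.vecMul, dotProduct, Fin.sum_univ_two] at h0
    exact h0.symm
  refine order_act ?_ ?_
  · set k := (q + 1) / 2
    have hqodd : q % 2 = 1 := by rw [hq, Nat.pow_mod]; norm_num
    have hk2 : q + 1 = k + k := by omega
    set A : Matrix (Fin 2) (Fin 2) (GaloisField 3 α) := (g : Matrix (Fin 2) (Fin 2) (GaloisField 3 α))
    have hfc : Fintype.card (GaloisField 3 α) = q := by rw [← Nat.card_eq_fintype_card, hcard]
    have hbound : ∀ (n : ℕ) (c : GaloisField 3 α), 0 < n → A ^ n = c • 1 → c ^ 2 = 1 → q + 1 ≤ 2 * n := by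
      intro n c hn hA hc
      have h2 : ζu ^ (2 * n) = 1 := by
        apply Units.ext
        rw [Units.val_pow_eq_pow_val, mul_comm 2 n, pow_mul]
        show (ζ ^ n) ^ 2 = 1
        rw [hscal n c hA, ← map_pow, hc, map_one]
      exact hζord ▸ Nat.le_of_dvd (by omega) (orderOf_dvd_of_pow_eq_one h2)
    have hq27 : 27 ≤ q := hq27'
    have htt : A.trace ^ 2 ≠ 1 := by
      intro ht2
      have hg3 : A ^ 3 = (-A.trace) • (1 : Matrix _ _ _) := by
        rw [pow_succ, sq, ch A g.2, sub_mul, Matrix.smul_mul, ch A g.2, one_mul, smul_sub, smul_smul, ← sq, ht2, one_smul]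
        simp
      have := hbound 3 (-A.trace) (by norm_num) hg3 (by rw [neg_sq, ht2])
      omega
    rcases pow_card_cases (A := A) g.2 htt with hA | hA
    · exfalso
      rw [hfc] at hA
      have h2 : ζu ^ (q - 1) = 1 := by
        apply Units.ext
        rw [Units.val_pow_eq_pow_val]
        show ζ ^ (q - 1) = 1
        rw [hscal (q - 1) 1 (by simpa using hA), map_one]
      have := hζord ▸ Nat.le_of_dvd (by omega) (orderOf_dvd_of_pow_eq_one h2)
      omega
    · rw [hfc, hk2] at hA
      obtain ⟨c, hc, hgk⟩ := half_scalar g.2 hA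
      exact act_one_of (c := c) (by simpa [coe_pow'] using hgk) (by linear_combination (c ^ 2 + 1) * hc) (by simp)
  · intro k c hk hc _
    have h1 := hscal k c hk
    have h2 : ζu ^ (2 * k) = 1 := by
      apply Units.ext
      rw [Units.val_pow_eq_pow_val, mul_comm 2 k, pow_mul]
      show (ζ ^ k) ^ 2 = 1
      rw [h1, ← map_pow, hc, map_one]
    have hd := orderOf_dvd_of_pow_eq_one h2
    rw [hζord] at hd
    have hqodd : q % 2 = 1 := by rw [hq, Nat.pow_mod]; norm_num
    have : q + 1 = 2 * ((q + 1) / 2) := by omega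
    rw [this] at hd
    exact Nat.dvd_of_mul_dvd_mul_left (by norm_num) hd

/-- Let q = 3^α with α ≥ 3 odd. There is a finite group H having a non-trivial normal 3-subgroup and whose element orders maximal under divisibility are exactly 6, 9, q − 1 and (q + 1)/2. -/
theorem result (α : ℕ) (hα : 3 ≤ α) (hodd : Odd α) :
    ∃ (H : Type) (_ : Group H) (_ : Fintype H), (∃ P : Subgroup H, P.Normal ∧ P ≠ ⊥ ∧ IsPGroup 3 ↥P) ∧
      {n : ℕ | n ∈ Set.range (orderOf : H → ℕ) ∧ ∀ m ∈ Set.range (orderOf : H → ℕ), n ∣ m → m = n} = ({6, 9, 3 ^ α - 1, (3 ^ α + 1) / 2} : Set ℕ) := by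
  classical
  haveI : Fact (Nat.Prime 3) := ⟨Nat.prime_three⟩
  have hα0 : α ≠ 0 := by omega
  letI : Fintype (GaloisField 3 α) := Fintype.ofFinite _
  have hq : Fintype.card (GaloisField 3 α) = 3 ^ α := by
    rw [← Nat.card_eq_fintype_card, GaloisField.card 3 α hα0]
  letI : Finite (Big (GaloisField 3 α)) := Finite.of_equiv _ SemidirectProduct.equivProd.symm
  refine ⟨Big (GaloisField 3 α), inferInstance, Fintype.ofFinite _,
    ⟨(SemidirectProduct.inl).range, ?_, ?_, ?_⟩, ?_⟩
  · rw [SemidirectProduct.range_inl_eq_ker_rightHom]; infer_instance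
  · intro hbot
    rw [MonoidHom.range_eq_bot_iff] at hbot
    have h1 := DFunLike.congr_fun hbot (Multiplicative.ofAdd (1 : Matrix (Fin 2) (Fin 2) (GaloisField 3 α)))
    rw [MonoidHom.one_apply, ← map_one SemidirectProduct.inl] at h1
    have h2 := congrArg Multiplicative.toAdd (SemidirectProduct.inl_injective h1)
    simp at h2
  · rintro ⟨x, w, rfl⟩
    exact ⟨1, Subtype.ext (by simp [← map_pow, cube_one])⟩
  · set A := 3 ^ α - 1 with hA
    set B := (3 ^ α + 1) / 2 with hB
    have h27 : 27 ≤ 3 ^ α := le_trans (by norm_num) (Nat.pow_le_pow_right (by norm_num) hα)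
    have hmod : 3 ^ α % 4 = 3 := by
      obtain ⟨j, rfl⟩ := hodd
      rw [pow_succ, pow_mul, Nat.mul_mod, Nat.pow_mod]; norm_num
    have hmod3 : 3 ^ α % 3 = 0 := Nat.dvd_iff_mod_eq_zero.mp (dvd_pow_self 3 hα0)
    obtain ⟨x6, o6⟩ := has_six (F := GaloisField 3 α)
    obtain ⟨x9, o9⟩ := has_nine (F := GaloisField 3 α)
    obtain ⟨xA, oA⟩ := has_split (F := GaloisField 3 α) α hq hodd
    obtain ⟨xB, oB⟩ := has_nonsplit α hα
    have hdvd : ∀ h : Big (GaloisField 3 α),
        orderOf h ∣ 6 ∨ orderOf h ∣ 9 ∨ orderOf h ∣ A ∨ orderOf h ∣ B := fun h => by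
      rcases orders α hq hodd h with h1 | h1 | h1 | h1 <;>
        simp [orderOf_dvd_of_pow_eq_one h1, hA, hB]
    have n69 : ¬ 6 ∣ 9 ∧ ¬ 9 ∣ 6 := by decide
    have big : 26 ≤ A ∧ 14 ≤ B := by omega
    have n6A : ¬ 6 ∣ A ∧ ¬ 9 ∣ A ∧ ¬ 6 ∣ B ∧ ¬ 9 ∣ B := by omega
    have nA : ∀ n, n ≤ 9 → 0 < n → ¬ A ∣ n ∧ ¬ B ∣ n := fun n hn hn0 =>
      ⟨fun h => by have := Nat.le_of_dvd hn0 h; omega, fun h => by have := Nat.le_of_dvd hn0 h; omega⟩
    obtain ⟨a6, b6⟩ := nA 6 (by norm_num) (by norm_num)
    obtain ⟨a9, b9⟩ := nA 9 (by norm_num) (by norm_num)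
    have hAB : ¬ A ∣ B := fun h => by
      have := Nat.le_of_dvd (by omega) h
      omega
    have hBA : ¬ B ∣ A := fun h => by
      have h1 : B ∣ 2 * B := dvd_mul_left _ _
      have h2 := Nat.dvd_sub h1 h
      have h3 : 2 * B - A = 2 := by omega
      rw [h3] at h2
      have := Nat.le_of_dvd (by norm_num) h2
      omega
    ext n
    simp only [Set.mem_setOf_eq, Set.mem_insert_iff, Set.mem_singleton_iff, Set.mem_range,
      forall_exists_index, forall_apply_eq_imp_iff]
    constructor
    · rintro ⟨⟨h, rfl⟩, hmax⟩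
      rcases hdvd h with h1 | h1 | h1 | h1
      · exact Or.inl (by rw [← o6] at h1 ⊢; exact (hmax x6 h1).symm)
      · exact Or.inr (Or.inl (by rw [← o9] at h1 ⊢; exact (hmax x9 h1).symm))
      · exact Or.inr (Or.inr (Or.inl (by rw [hA, ← oA] at h1 ⊢; exact (hmax xA h1).symm)))
      · exact Or.inr (Or.inr (Or.inr (by rw [hB, ← oB] at h1 ⊢; exact (hmax xB h1).symm)))
    · intro hn
      refine ⟨?_, fun h hh => ?_⟩
      · rcases hn with rfl | rfl | rfl | rfl
        exacts [⟨x6, o6⟩, ⟨x9, o9⟩, ⟨xA, oA⟩, ⟨xB, oB⟩]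
      · have cases : n ∣ 6 ∨ n ∣ 9 ∨ n ∣ A ∨ n ∣ B := by
          rcases hdvd h with h1 | h1 | h1 | h1 <;> simp [hh.trans h1]
        rcases hn with rfl | rfl | rfl | rfl <;> rcases hdvd h with h1 | h1 | h1 | h1
        all_goals first
          | exact Nat.dvd_antisymm h1 hh
          | exact absurd (hh.trans h1) (by tauto)

end Cfsg.Agent.S2515
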