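import Cfsg.Statements.S2516

-- import your own Cfsg.Agent.* helpers here

set_option autoImplicit false
open Cfsg

namespace Cfsg.Agent.S2516

/-- Let F be a field of characteristic p > 0, V a non-zero finite-dimensional F-vector space, G a finite group and ρ a representation of G on V; form the semidirect product V ⋊ G. For g ∈ G of order k, the coset Vg contains an element of order pk if and only if the minimal polynomial of ρ(g) does not divide 1 + X + ⋯ + X^(k−1). -/
theorem result {F : Type*} [Field F] (p : ℕ) [Fact p.Prime] [CharP F p] {V : Type*} [AddCommGroup V] [Module F V] [FiniteDimensional F V] [Nontrivial V]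
    {G : Type*} [Group G] [Finite G] (ρ : Representation F G V) (g : G) :
    (∃ x : Multiplicative V ⋊[(MulAutMultiplicative V).symm.toMonoidHom.comp
        ((DistribMulAction.toAddAut ((V →ₗ[F] V)ˣ) V).comp ρ.asGroupHom)] G,
        x.right = g ∧ orderOf x = p * orderOf g) ↔
      ¬ (minpoly F (ρ g) ∣ ∑ i ∈ Finset.range (orderOf g), (Polynomial.X : Polynomial F) ^ i) := by
  classical
  set n := orderOf g with hn
  have hn0 : 0 < n := orderOf_pos g
  let S : V →ₗ[F] V := ∑ i ∈ Finset.range n, (ρ g) ^ i
  have haev : Polynomial.aeval (ρ g) (∑ i ∈ Finset.range n, (Polynomial.X : Polynomial F) ^ i) = S := by simp [S]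
  rw [minpoly.dvd_iff, haev]
  set φ := (MulAutMultiplicative V).symm.toMonoidHom.comp
    ((DistribMulAction.toAddAut ((V →ₗ[F] V)ˣ) V).comp ρ.asGroupHom)
  have hφ : ∀ (h : G) (v : V), φ h (Multiplicative.ofAdd v) = Multiplicative.ofAdd (ρ h v) := fun h v => rfl
  have hpow : ∀ (v : V) (k : ℕ), (⟨Multiplicative.ofAdd v, g⟩ : Multiplicative V ⋊[φ] G) ^ k =
      ⟨Multiplicative.ofAdd (∑ i ∈ Finset.range k, ((ρ g) ^ i) v), g ^ k⟩ := by
    intro v k
    induction k with
    | zero => simp
    | succ k ih =>
      rw [pow_succ, ih]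
      refine SemidirectProduct.ext ?_ (pow_succ g k).symm
      show Multiplicative.ofAdd _ * φ (g ^ k) (Multiplicative.ofAdd v) = _
      rw [hφ, ← ofAdd_add, Finset.sum_range_succ, map_pow]
  have key : ∀ v : V, (orderOf (⟨Multiplicative.ofAdd v, g⟩ : Multiplicative V ⋊[φ] G) = p * n ↔ S v ≠ 0) := by
    intro v
    set x : Multiplicative V ⋊[φ] G := ⟨Multiplicative.ofAdd v, g⟩
    have hSv : x ^ n = SemidirectProduct.inl (Multiplicative.ofAdd (S v)) := by
      rw [hpow v n, hn, pow_orderOf_eq_one]
      simp only [S, LinearMap.sum_apply]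
      rfl
    have hdvd : n ∣ orderOf x := by
      rw [hn, orderOf_dvd_iff_pow_eq_one]
      have := congrArg SemidirectProduct.right (pow_orderOf_eq_one x)
      rwa [hpow v] at this
    constructor
    · intro h h0
      rw [h0, ofAdd_zero, map_one] at hSv
      have := orderOf_le_of_pow_eq_one hn0 hSv
      rw [h] at this
      have := (Fact.out : p.Prime).two_le
      nlinarith
    · intro h0
      have hne : x ^ n ≠ 1 := by
        rw [hSv, Ne, ← map_one (SemidirectProduct.inl : Multiplicative V →* Multiplicative V ⋊[φ] G),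
          SemidirectProduct.inl_inj, ← ofAdd_zero]
        exact fun e => h0 (Multiplicative.ofAdd.injective e)
      have hp' : (x ^ n) ^ p = 1 := by
        rw [hSv, ← map_pow, ← ofAdd_nsmul, ← Nat.cast_smul_eq_nsmul F, CharP.cast_eq_zero, zero_smul, ofAdd_zero, map_one]
      have h2 := orderOf_eq_prime hp' hne
      obtain ⟨c, hc⟩ := hdvd
      have hc0 : 0 < c := by
        rcases Nat.eq_zero_or_pos c with rfl | hc0
        · rw [mul_zero, orderOf_eq_zero_iff] at hc
          exact absurd (isOfFinOrder_iff_pow_eq_one.2 ⟨n * p, mul_pos hn0 (Fact.out : p.Prime).pos, by rw [pow_mul, hp']⟩) hc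
        · exact hc0
      rw [orderOf_pow' _ hn0.ne', hc, Nat.gcd_mul_right_left, Nat.mul_div_cancel_left _ hn0] at h2
      rw [hc, h2, mul_comm]
  constructor
  · rintro ⟨⟨a, b⟩, rfl, hord⟩ h0
    exact ((key (Multiplicative.toAdd a)).1 hord) (by rw [h0]; rfl)
  · intro h0
    obtain ⟨v, hv⟩ : ∃ v, S v ≠ 0 := by
      by_contra! h
      exact h0 (LinearMap.ext h)
    exact ⟨⟨Multiplicative.ofAdd v, g⟩, rfl, (key v).2 hv⟩

end Cfsg.Agent.S2516
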