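import Cfsg.Statements.S2521

-- import your own Cfsg.Agent.* helpers here

set_option autoImplicit false
open Cfsg

namespace Cfsg.Agent.S2521

/-- Let B be a finite group that is the semidirect product of a nilpotent normal subgroup U by an abelian subgroup T (U ∩ T = 1, UT = B), and let t ∈ T have centralizer exactly T. Then every element of the coset tU is conjugate to t in B: for each u ∈ U there is b ∈ B with b t b⁻¹ = t u. -/
theorem result {B : Type*} [Group B] [Finite B] (U T : Subgroup B) [U.Normal] (hU : Group.IsNilpotent ↥U) (hT : IsMulCommutative ↥T)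
    (hcompl : Subgroup.IsComplement' U T) (t : B) (ht : t ∈ T) (hreg : Subgroup.centralizer ({t} : Set B) = T) (u : B) (hu : u ∈ U) :
    ∃ b : B, b * t * b⁻¹ = t * u := by
  classical
  haveI : Fintype ↥U := Fintype.ofFinite _
  let φ : ↥U → ↥U := fun b => ⟨(t⁻¹ * b.1 * t) * b.1⁻¹, mul_mem (by simpa using Subgroup.Normal.conj_mem inferInstance b.1 b.2 t⁻¹) (inv_mem b.2)⟩
  have hφ : Function.Injective φ := by
    intro a b e
    have e1 : t⁻¹ * a.1 * t * a.1⁻¹ = t⁻¹ * b.1 * t * b.1⁻¹ := congrArg Subtype.val e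
    have hc : t * (a.1⁻¹ * b.1) = (a.1⁻¹ * b.1) * t := by
      have e2 : a.1 * t * a.1⁻¹ = b.1 * t * b.1⁻¹ := by
        have := congrArg (t * ·) e1
        simpa [mul_assoc] using this
      calc t * (a.1⁻¹ * b.1) = a.1⁻¹ * (a.1 * t * a.1⁻¹) * b.1 := by group
        _ = a.1⁻¹ * (b.1 * t * b.1⁻¹) * b.1 := by rw [e2]
        _ = _ := by group
    have hmem : a.1⁻¹ * b.1 ∈ T := by
      rw [← hreg, Subgroup.mem_centralizer_singleton_iff]
      exact hc.symm
    have h1 : a.1⁻¹ * b.1 ∈ U ⊓ T := Subgroup.mem_inf.2 ⟨U.mul_mem (U.inv_mem a.2) b.2, hmem⟩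
    rw [hcompl.disjoint.eq_bot, Subgroup.mem_bot] at h1
    exact Subtype.ext (inv_mul_eq_one.1 h1)
  obtain ⟨b, hb⟩ := (Finite.injective_iff_surjective.1 hφ) ⟨u, hu⟩
  refine ⟨b.1, ?_⟩
  have := congrArg (fun z : ↥U => t * z.1) hb
  simpa [φ, mul_assoc] using this

end Cfsg.Agent.S2521
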