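import Cfsg.Statements.S2556
import Cfsg.Agent.Lib.SzC.AutSylow
import Cfsg.Agent.Lib.SzC.Facts

set_option autoImplicit false
open Cfsg

namespace Cfsg.Agent.S2556

/-- Let S be a Sylow 2-subgroup of the Suzuki group Sz(q), q = 2ⁿ with n = 2m + 1 ≥ 3 (realised as 4 × 4 matrices over the field with q elements). Then the largest normal 2-subgroup of the automorphism group of S is elementary abelian of order 2^(n²), and the automorphism group of S has order 2^(n²) · n · (q − 1). -/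
theorem result {S : Type*} [Group S] [Finite S] (m : ℕ) (hm : 1 ≤ m)
    {F : Type*} [Field F] [Fintype F] (hF : Fintype.card F = 2 ^ (2 * m + 1))
    (P : Sylow 2 ↥(Cfsg.Lie.Sz F (2 ^ (m + 1)))) (hS : Nonempty (S ≃* ↥(P : Subgroup ↥(Cfsg.Lie.Sz F (2 ^ (m + 1)))))) :
    Cfsg.IsElementaryAbelian 2 (Cfsg.pCore 2 (MulAut S)) ∧ Nat.card ↥(Cfsg.pCore 2 (MulAut S)) = 2 ^ ((2 * m + 1) ^ 2) ∧
      Nat.card (MulAut S) = 2 ^ ((2 * m + 1) ^ 2) * ((2 * m + 1) * (2 ^ (2 * m + 1) - 1)) := by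
  classical
  haveI := Cfsg.Agent.SzB.charTwo_of_card hF
  haveI : Fact (Nat.Prime 2) := ⟨Nat.prime_two⟩
  obtain ⟨e⟩ := hS
  obtain ⟨τ, hτ⟩ : ∃ τ : Cfsg.Agent.SzB.Twist F, τ = Cfsg.Agent.SzB.stdTwist hF := ⟨_, rfl⟩
  have hτe : τ.e = 2 ^ (m + 1) := by rw [hτ]; rfl
  obtain ⟨P', ⟨e'⟩⟩ : ∃ P' : Sylow 2 ↥(Cfsg.Lie.Sz F τ.e),
      Nonempty (S ≃* ↥(P' : Subgroup ↥(Cfsg.Lie.Sz F τ.e))) := by
    rw [hτe]; exact ⟨P, ⟨e⟩⟩
  let e₁ : S ≃* ↥(Cfsg.Agent.SzB.unip τ) :=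
    (MulEquiv.trans e' (Sylow.equiv P' (Cfsg.Agent.SzB.sylTwo hF τ))).trans
      (MulEquiv.subgroupCongr (Cfsg.Agent.SzB.sylTwo_coe hF τ))
  let E₀ : F × F → S := fun p => e₁.symm ⟨Cfsg.Agent.SzB.uS τ p.1 p.2, p.1, p.2, rfl⟩
  have hE₀ : Function.Bijective E₀ := by
    refine ⟨fun p q h => ?_, fun x => ?_⟩
    · obtain ⟨h1, h2⟩ := Cfsg.Agent.SzB.uS_inj τ (congrArg Subtype.val (e₁.symm.injective h))
      exact Prod.ext h1 h2
    · obtain ⟨a, b, hab⟩ := (e₁ x).2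
      exact ⟨(a, b), by
        show e₁.symm _ = x
        rw [e₁.symm_apply_eq]
        exact Subtype.ext hab.symm⟩
  let E := Equiv.ofBijective E₀ hE₀
  haveI : NeZero (2 * m + 1) := ⟨by omega⟩
  let s : ZMod (2 * m + 1) := ((m + 1 : ℕ) : ZMod (2 * m + 1))
  have hs : s + s = 1 := by
    rw [show s + s = (((m + 1) + (m + 1) : ℕ) : ZMod (2 * m + 1)) by simp [s],
      show (m + 1) + (m + 1) = (2 * m + 1) + 1 by ring, Nat.cast_add, ZMod.natCast_self, zero_add, Nat.cast_one]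
  have hfr : ∀ x : F, Cfsg.Agent.SzC.Semi.fr s x = τ.th x := fun x => by
    rw [Cfsg.Agent.SzC.Semi.fr_apply, τ.th_apply, hτe, ZMod.val_natCast_of_lt (by omega)]
  have hE : ∀ a b a' b', E (a, b) * E (a', b') = E (a + a', b + b' + Cfsg.Agent.SzC.Semi.fr s a * a') := by
    intro a b a' b'
    show e₁.symm _ * e₁.symm _ = e₁.symm _
    rw [← map_mul, hfr]
    exact congrArg e₁.symm (Subtype.ext (Cfsg.Agent.SzB.uS_mul τ a b a' b'))
  have hodd : Odd (2 * m + 1) := ⟨m, rfl⟩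
  obtain ⟨h1, h2⟩ := Cfsg.Agent.SzC.AutSyl.pCore_facts hF (by omega) hodd s hs E hE
  exact ⟨h1, h2, Cfsg.Agent.SzC.AutSyl.card_aut hF (by omega) hodd s hs E hE⟩

end Cfsg.Agent.S2556
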