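import Cfsg.Statements.S2756
import Cfsg.Agent.Lib.Inverted.Main
-- import your own Cfsg.Agent.* helpers here

set_option autoImplicit false
open Cfsg

namespace Cfsg.Agent.S2756

/-- For a finite group G the following are equivalent: (a) G has a normal Sylow 2-subgroup; (b) for every odd prime q dividing the order of G and every Sylow q-subgroup T, the normalizer of Z(J(T)) has a normal Sylow 2-subgroup; (c) for every odd prime q and every Sylow q-subgroup T, no nonidentity element of T is inverted by an element of the normalizer of Z(J(T)). Here J(T) is the Thompson subgroup generated by the abelian subgroups of T of largest order. Stated as the two equivalences (a) ⇔ (b) and (a) ⇔ (c). -/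
theorem result {G : Type*} [Group G] [Finite G] : ((∀ P : Sylow 2 G, (P : Subgroup G).Normal) ↔ ∀ (q : ℕ) [Fact q.Prime], q ≠ 2 → q ∣ Nat.card G → ∀ T : Sylow q G, ∀ P : Sylow 2 ↥(Subgroup.normalizer (Cfsg.centerThompsonAOf (T : Subgroup G) : Set G)), (P : Subgroup ↥(Subgroup.normalizer (Cfsg.centerThompsonAOf (T : Subgroup G) : Set G))).Normal) ∧ ((∀ P : Sylow 2 G, (P : Subgroup G).Normal) ↔ ∀ (q : ℕ) [Fact q.Prime], q ≠ 2 → ∀ T : Sylow q G, ∀ x ∈ (T : Subgroup G), x ≠ 1 → ∀ g ∈ Subgroup.normalizer (Cfsg.centerThompsonAOf (T : Subgroup G) : Set G), g * x * g⁻¹ ≠ x⁻¹) := by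
  haveI : Fact (Nat.Prime 2) := ⟨Nat.prime_two⟩
  -- a normal Sylow 2-subgroup passes to subgroups
  have hsub : (∀ P : Sylow 2 G, (P : Subgroup G).Normal) → ∀ (H : Subgroup G) (P : Sylow 2 H),
      (P : Subgroup H).Normal := by
    intro h H P
    obtain ⟨P0⟩ := (inferInstance : Nonempty (Sylow 2 G))
    haveI := h P0
    obtain ⟨Q, hQ⟩ := (P.isPGroup'.map H.subtype).exists_le_sylow
    haveI := h Q
    have e : (P : Subgroup H) = (Q : Subgroup G).subgroupOf H := by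
      refine (P.3 (Q.isPGroup'.comap_of_injective H.subtype H.subtype_injective) ?_).symm
      exact fun x hx => hQ ⟨x, hx, rfl⟩
    rw [e]
    infer_instance
  have hinv : ∀ (q : ℕ) [Fact q.Prime], q ≠ 2 → ∀ (H : Subgroup G) (P : Sylow 2 H),
      (P : Subgroup H).Normal → ∀ x ∈ H, (∃ k, x ^ q ^ k = 1) → ∀ g ∈ H, g * x * g⁻¹ = x⁻¹ → x = 1 := by
    intro q _ hq H P hP x hx hxq g hg hgx
    obtain ⟨k, hk⟩ := hxq
    have e : (⟨g, hg⟩ : H) * ⟨x, hx⟩ * (⟨g, hg⟩ : H)⁻¹ = (⟨x, hx⟩ : H)⁻¹ := Subtype.ext hgx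
    obtain ⟨s, ⟨j, hj⟩, hsx⟩ := Cfsg.Lib.Solv.exists_two_inverter e
    obtain ⟨P', hP'⟩ := (IsPGroup.of_card (G := ↥(Subgroup.zpowers s)) (by
      rw [Nat.card_zpowers, hj])).exists_le_sylow
    haveI := hP
    haveI := Sylow.unique_of_normal P hP
    have hsP : s ∈ (P : Subgroup H) := Subsingleton.elim P' P ▸ hP' (Subgroup.mem_zpowers s)
    have h1 : (⟨x, hx⟩ : H)⁻¹ * (⟨x, hx⟩ : H)⁻¹ ∈ (P : Subgroup H) := by
      have h2 := mul_mem hsP (hP.conj_mem _ (inv_mem hsP) (⟨x, hx⟩ : H))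
      rwa [← mul_assoc, ← mul_assoc, hsx] at h2
    obtain ⟨i, hi⟩ := P.isPGroup' ⟨_, h1⟩
    have hi' : x⁻¹ ^ (2 * 2 ^ i) = 1 := by
      rw [pow_mul, pow_two]
      exact congrArg (fun z : (P : Subgroup H) => ((z : H) : G)) hi
    rw [← inv_eq_one, ← orderOf_eq_one_iff]
    refine Nat.eq_one_of_dvd_coprimes (a := q ^ k) (b := 2 ^ (i + 1)) ?_ ?_ ?_
    · exact Nat.Coprime.pow k (i + 1) ((Nat.coprime_primes (Fact.out : q.Prime) Nat.prime_two).2 hq)
    · rw [orderOf_inv]; exact orderOf_dvd_of_pow_eq_one hk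
    · rw [pow_succ']; exact orderOf_dvd_of_pow_eq_one hi'
  have hTN : ∀ (q : ℕ) [Fact q.Prime] (T : Sylow q G), (T : Subgroup G) ≤
      Subgroup.normalizer (Cfsg.centerThompsonAOf (T : Subgroup G) : Set G) := by
    intro q _ T
    rw [Cfsg.Lib.PLocal.centerThompsonAOf_eq]
    exact Subgroup.le_normalizer.trans
      (Cfsg.Lib.PLocal.normalizer_le_zF Cfsg.Lib.PLocal.ab_conj Cfsg.Lib.PLocal.ab_bot _)
  have hac : (∀ P : Sylow 2 G, (P : Subgroup G).Normal) → ∀ (q : ℕ) [Fact q.Prime], q ≠ 2 →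
      ∀ T : Sylow q G, ∀ x ∈ (T : Subgroup G), x ≠ 1 →
      ∀ g ∈ Subgroup.normalizer (Cfsg.centerThompsonAOf (T : Subgroup G) : Set G), g * x * g⁻¹ ≠ x⁻¹ := by
    intro h q _ hq T x hx hx1 g hg hgx
    set N := Subgroup.normalizer (Cfsg.centerThompsonAOf (T : Subgroup G) : Set G)
    obtain ⟨P⟩ := (inferInstance : Nonempty (Sylow 2 N))
    obtain ⟨k, hk⟩ := T.isPGroup' ⟨x, hx⟩
    exact hx1 (hinv q hq N P (hsub h N P) x (hTN q T hx) ⟨k, congrArg Subtype.val hk⟩ g hg hgx)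
  have hca : (∀ (q : ℕ) [Fact q.Prime], q ≠ 2 → ∀ T : Sylow q G, ∀ x ∈ (T : Subgroup G), x ≠ 1 →
      ∀ g ∈ Subgroup.normalizer (Cfsg.centerThompsonAOf (T : Subgroup G) : Set G), g * x * g⁻¹ ≠ x⁻¹) →
      ∀ P : Sylow 2 G, (P : Subgroup G).Normal := by
    intro h P
    by_contra hP
    obtain ⟨t, x, q, hq, hq2, hxq, htx⟩ := Cfsg.Lib.Solv.exists_real_prime P hP
    haveI := Fact.mk hq
    have htop : Cfsg.Lib.Inverted.HasInverted q (⊤ : Subgroup G) :=
      ⟨x, trivial, fun e => hq.ne_one (by rw [← hxq, e, orderOf_one]),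
        ⟨1, by rw [pow_one, ← hxq, pow_orderOf_eq_one]⟩, t, trivial, htx⟩
    obtain ⟨T⟩ := (inferInstance : Nonempty (Sylow q G))
    have hI := Cfsg.Lib.Inverted.hasInverted_normalizer_zF hq2 _ G rfl htop T
    rw [← Cfsg.Lib.PLocal.centerThompsonAOf_eq] at hI
    obtain ⟨d, hdN, hd1, ⟨k, hk⟩, g, hgN, hgd⟩ := hI
    set N := Subgroup.normalizer (Cfsg.centerThompsonAOf (T : Subgroup G) : Set G)
    have hzp : IsPGroup q (Subgroup.zpowers (⟨d, hdN⟩ : N)) := by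
      rintro ⟨y, hy⟩
      obtain ⟨i, rfl⟩ := Subgroup.mem_zpowers_iff.1 hy
      refine ⟨k, Subtype.ext (Subtype.ext ?_)⟩
      show ((d : G) ^ i) ^ q ^ k = 1
      rw [← zpow_natCast, ← zpow_mul, mul_comm, zpow_mul, zpow_natCast, hk, one_zpow]
    obtain ⟨R, hR⟩ := hzp.exists_le_sylow
    obtain ⟨n, hn⟩ := MulAction.exists_smul_eq N R (T.subtype (hTN q T))
    have hT : n * ⟨d, hdN⟩ * n⁻¹ ∈ ((T.subtype (hTN q T) : Sylow q N) : Subgroup N) := by
      rw [← hn]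
      exact ⟨_, hR (Subgroup.mem_zpowers _), rfl⟩
    rw [Sylow.coe_subtype, Subgroup.mem_subgroupOf] at hT
    refine h q hq2 T _ hT ?_ ((n : G) * g * (n : G)⁻¹) (mul_mem (mul_mem n.2 hgN) (inv_mem n.2)) ?_
    · show (n : G) * d * (n : G)⁻¹ ≠ 1
      rwa [Ne, conj_eq_one_iff]
    · show (n : G) * g * (n : G)⁻¹ * ((n : G) * d * (n : G)⁻¹) * ((n : G) * g * (n : G)⁻¹)⁻¹ =
        ((n : G) * d * (n : G)⁻¹)⁻¹
      calc _ = (n : G) * (g * d * g⁻¹) * (n : G)⁻¹ := by group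
        _ = _ := by rw [hgd]; group
  refine ⟨⟨fun h q _ hq _ T P => hsub h _ P, fun h => hca ?_⟩, ⟨fun h => hac h, hca⟩⟩
  intro q _ hq T x hx hx1 g hg hgx
  obtain ⟨k, hk⟩ := T.isPGroup' ⟨x, hx⟩
  obtain ⟨P⟩ := (inferInstance :
    Nonempty (Sylow 2 ↥(Subgroup.normalizer (Cfsg.centerThompsonAOf (T : Subgroup G) : Set G))))
  have hdvd : q ∣ Nat.card G := by
    obtain ⟨i, hi, e⟩ := (Nat.dvd_prime_pow (Fact.out : q.Prime)).1
      (orderOf_dvd_of_pow_eq_one (show x ^ q ^ k = 1 from congrArg Subtype.val hk))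
    refine (dvd_trans ?_ (orderOf_dvd_natCard x))
    rw [e]
    refine dvd_pow_self q fun h0 => hx1 ?_
    rwa [h0, pow_zero, orderOf_eq_one_iff] at e
  exact hx1 (hinv q hq _ P (h q hq hdvd T P) x (hTN q T hx) ⟨k, congrArg Subtype.val hk⟩ g hg hgx)

end Cfsg.Agent.S2756
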