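import Cfsg.Statements.S2794
import Mathlib
import Cfsg.Agent.Lib.PStable.ZJControl
import Cfsg.Agent.Lib.PStable.QdAct

open Cfsg.Lib.PLocal Cfsg.Lib.PStable

set_option autoImplicit false
open Cfsg

namespace Cfsg.Agent.S2794

/-- For an odd prime p and a finite group G, the group Qd(p) is not involved in G if and only if in every section K/R of G, for every Sylow p-subgroup S* of K/R, the centre of J(S*) (J generated by the abelian subgroups of largest order) controls strong fusion in K/R. -/
theorem result {G : Type*} [Group G] [Finite G] {p : ℕ} [Fact p.Prime] (hp : p ≠ 2) : ¬ Cfsg.Involves ↥(Cfsg.qd p) G ↔ ∀ (K R : Subgroup G) [hR : (R.subgroupOf K).Normal], ∀ T : Sylow p (K ⧸ R.subgroupOf K), Cfsg.ControlsStrongFusion p (Cfsg.centerThompsonAOf (T : Subgroup (K ⧸ R.subgroupOf K))) := by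
  
  constructor
  · intro h K R _ T
    refine controlsStrongFusion_of_ctrl T ?_ ?_
    · rw [centerThompsonAOf_eq]
      exact zF_le ab_bot _
    · rw [← zOp_false p (T : Subgroup (K ⧸ R.subgroupOf K))]
      exact ctrl_of_free hp False (not_involves_section h K R) T _ (stronglyClosed_self _)
  · rintro h ⟨K, R, hn, ⟨e⟩⟩
    exact false_of_qd_iso e fun T => @h K R hn T

end Cfsg.Agent.S2794
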