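import Cfsg.Statements.S2909
import Mathlib
import Mathlib
import Cfsg.Agent.Lib.Solv.Coprime2
-- import your own Cfsg.Agent.* helpers here

set_option autoImplicit false
open Cfsg
open scoped Pointwise commutatorElement

namespace Cfsg.Agent.S2909

/-- Let p be a prime, E a normal p-subgroup of the finite group G, and U a non-cyclic elementary abelian p-subgroup of G such that either C_E(U) = C_E(u) for every nontrivial u ∈ U, or [E, U] = [E, ⟨u⟩] for every nontrivial u ∈ U. If R is a subgroup of order prime to p normalized by U, then [R, U] centralizes E. -/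
theorem result {G : Type*} [Group G] [Finite G] {p : ℕ} [Fact p.Prime] (E : Subgroup G) [E.Normal] (hE : IsPGroup p ↥E) (U : Subgroup G) (hU : Cfsg.IsElementaryAbelian p U) (hnc : ¬ IsCyclic ↥U) (hcond : (∀ u ∈ U, u ≠ 1 → E ⊓ Subgroup.centralizer (U : Set G) = E ⊓ Subgroup.centralizer ({u} : Set G)) ∨ (∀ u ∈ U, u ≠ 1 → ⁅E, U⁆ = ⁅E, Subgroup.zpowers u⁆)) (R : Subgroup G) (hR : ¬ p ∣ Nat.card ↥R) (hRU : U ≤ Subgroup.normalizer (R : Set G)) : ⁅R, U⁆ ≤ Subgroup.centralizer (E : Set G) := by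
  classical
  haveI : IsMulCommutative U := hU.1
  have hUp : IsPGroup p ↥U := fun ⟨x, hx⟩ => ⟨1, Subtype.ext (by simpa using hU.2 x hx)⟩
  have hUcomm : ∀ a ∈ U, ∀ b ∈ U, a * b = b * a := fun a ha b hb =>
    congrArg Subtype.val (IsMulCommutative.is_comm.comm (⟨a, ha⟩ : U) ⟨b, hb⟩)
  have hEN : ∀ g : G, g ∈ Subgroup.normalizer (E : Set G) := fun g => by
    rw [Subgroup.normalizer_eq_top E]; exact Subgroup.mem_top g
  set C := Subgroup.centralizer (E : Set G) with hC
  haveI hCn : C.Normal := ⟨fun n hn g => by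
    rw [hC, Subgroup.mem_centralizer_iff] at hn ⊢
    intro e he
    have he' : g⁻¹ * e * g ∈ E := by simpa using Subgroup.Normal.conj_mem (inferInstance : E.Normal) e he g⁻¹
    calc e * (g * n * g⁻¹) = g * ((g⁻¹ * e * g) * n) * g⁻¹ := by group
      _ = g * (n * (g⁻¹ * e * g)) * g⁻¹ := by rw [hn _ he']
      _ = _ := by group⟩
  -- elements commuting with U modulo C(E)
  let W : Subgroup G :=
    { carrier := {x | ∀ v ∈ U, x * v * x⁻¹ * v⁻¹ ∈ C}
      one_mem' := fun v _ => by simp
      mul_mem' := by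
        intro x y hx hy v hv
        have : x * y * v * (x * y)⁻¹ * v⁻¹ = (x * (y * v * y⁻¹ * v⁻¹) * x⁻¹) * (x * v * x⁻¹ * v⁻¹) := by group
        rw [this]
        exact mul_mem (hCn.conj_mem _ (hy v hv) x) (hx v hv)
      inv_mem' := by
        intro x hx v hv
        have : x⁻¹ * v * x⁻¹⁻¹ * v⁻¹ = x⁻¹ * (x * v * x⁻¹ * v⁻¹)⁻¹ * x⁻¹⁻¹ := by group
        rw [this]
        exact hCn.conj_mem _ (inv_mem (hx v hv)) x⁻¹ }
  suffices hRW : R ≤ W by
    rw [Subgroup.commutator_le]
    intro x hx v hv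
    exact hRW hx v hv
  have hcopUR : (Nat.card U).Coprime (Nat.card R) := by
    obtain ⟨k, hk⟩ := IsPGroup.iff_card.1 hUp
    rw [hk]
    exact ((Fact.out : p.Prime).coprime_iff_not_dvd.2 hR).pow_left k
  refine Cfsg.Lib.Solv.le_of_fixed_le U R W hnc hRU hcopUR fun u hu hu1 => ?_
  set Ru := R ⊓ Subgroup.centralizer {u} with hRu
  set A := Subgroup.zpowers u with hA
  have hAU : A ≤ U := by rw [hA, Subgroup.zpowers_le]; exact hu
  have hAc : ∀ a ∈ A, ∀ r ∈ Ru, a * r = r * a := by
    intro a ha r hr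
    obtain ⟨i, rfl⟩ := Subgroup.mem_zpowers_iff.1 ha
    have h : Commute u r := (Subgroup.mem_centralizer_singleton_iff.1 hr.2).symm
    exact (h.zpow_left i).eq
  have hURu : ∀ v ∈ U, ∀ r ∈ Ru, v * r * v⁻¹ ∈ Ru := by
    intro v hv r hr
    refine ⟨(Subgroup.mem_normalizer_iff.1 (hRU hv) r).1 hr.1, ?_⟩
    show v * r * v⁻¹ ∈ Subgroup.centralizer ({u} : Set G)
    rw [Subgroup.mem_centralizer_singleton_iff]
    have h1 : r * u = u * r := Subgroup.mem_centralizer_singleton_iff.1 hr.2
    have h2 : v * u = u * v := hUcomm v hv u hu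
    have h3 : v⁻¹ * u = u * v⁻¹ := hUcomm v⁻¹ (inv_mem hv) u hu
    calc v * r * v⁻¹ * u = v * r * (u * v⁻¹) := by rw [mul_assoc _ v⁻¹, h3]
      _ = v * (u * r) * v⁻¹ := by rw [← h1]; group
      _ = (v * u) * r * v⁻¹ := by group
      _ = u * v * r * v⁻¹ := by rw [h2]
      _ = u * (v * r * v⁻¹) := by group
  have hURn : U ≤ Subgroup.normalizer (Ru : Set G) := by
    intro v hv
    rw [← Cfsg.Lib.Solv.conj_smul_eq_self_iff]
    refine Subgroup.eq_of_le_of_card_ge ?_ (Cfsg.Lib.Solv.card_conj_smul _ _).ge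
    rintro _ ⟨r, hr, rfl⟩
    exact hURu v hv r hr
  set X := ⁅Ru, U⁆ with hX
  suffices hXC : X ≤ C by
    intro r hr v hv
    exact hXC (Subgroup.commutator_mem_commutator hr hv)
  have hXRu : X ≤ Ru := Cfsg.Lib.Solv.commutator_le_of_normalizes hURn
  have hcop : (Nat.card X).Coprime p :=
    ((Fact.out : p.Prime).coprime_iff_not_dvd.2 fun h =>
      hR (h.trans (Subgroup.card_dvd_of_le (hXRu.trans inf_le_left)))).symm
  have hAX : A ≤ Subgroup.centralizer (X : Set G) := by
    intro a ha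
    rw [Subgroup.mem_centralizer_iff]
    exact fun x hx => (hAc a ha x (hXRu hx)).symm
  rcases hcond with hfix | hcom
  · have hfu := hfix u hu hu1
    set CE := E ⊓ Subgroup.centralizer ({u} : Set G) with hCE
    have hCU : ⁅U, CE⁆ = ⊥ := by
      rw [Subgroup.commutator_eq_bot_iff_le_centralizer, Subgroup.le_centralizer_iff, ← hfu]
      exact inf_le_right
    have hCR : ⁅CE, Ru⁆ ≤ CE := by
      refine Cfsg.Lib.Solv.commutator_le_of_normalizes fun r hr => ?_
      rw [← Cfsg.Lib.Solv.conj_smul_eq_self_iff]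
      refine Subgroup.eq_of_le_of_card_ge ?_ (Cfsg.Lib.Solv.card_conj_smul _ _).ge
      rintro _ ⟨e, he, rfl⟩
      refine ⟨(Subgroup.mem_normalizer_iff.1 (hEN r) e).1 he.1, ?_⟩
      show r * e * r⁻¹ ∈ Subgroup.centralizer ({u} : Set G)
      exact mul_mem (mul_mem hr.2 he.2) (inv_mem hr.2)
    have h2 : ⁅⁅CE, Ru⁆, U⁆ = ⊥ := by
      refine le_bot_iff.1 ((Subgroup.commutator_mono hCR le_rfl).trans ?_)
      rw [Subgroup.commutator_comm, hCU]
    have h3 : ⁅X, CE⁆ = ⊥ := by
      refine Subgroup.commutator_commutator_eq_bot_of_rotate ?_ h2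
      rw [hCU, Subgroup.commutator_bot_left]
    refine Cfsg.Lib.Solv.thompson_PxQ A X E (hUp.to_le hAU) hcop hE hAX (fun a _ => hEN a)
      (fun a _ => hEN a) ?_
    have h4 : CE ≤ Subgroup.centralizer (X : Set G) := by
      rw [Subgroup.le_centralizer_iff]
      exact Subgroup.commutator_eq_bot_iff_le_centralizer.1 h3
    refine le_trans (inf_le_inf_left E ?_) h4
    exact Subgroup.centralizer_le (by rw [Set.singleton_subset_iff]; exact Subgroup.mem_zpowers u)
  · have hFu := hcom u hu hu1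
    set F := ⁅E, A⁆ with hF
    have hFE : F ≤ E := Cfsg.Lib.Solv.commutator_le_of_normalizes fun a _ => hEN a
    have hRF : Ru ≤ Subgroup.normalizer (F : Set G) := by
      intro r hr
      rw [← Cfsg.Lib.Solv.conj_smul_eq_self_iff, hF, Cfsg.Lib.Solv.conj_smul_commutator,
        Cfsg.Lib.Solv.conj_smul_eq_self_iff.2 (hEN r), Cfsg.Lib.Solv.conj_smul_eq_self_iff.2
          (Cfsg.Lib.Solv.normalizer_eq_of_centralizes (Subgroup.mem_centralizer_iff.2 fun a ha => hAc a ha r hr))]
    have hUF : U ≤ Subgroup.normalizer (F : Set G) := by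
      rw [← hFu]; exact Cfsg.Lib.Solv.le_normalizer_commutator_right E U
    have hUE : ∀ v ∈ U, ∀ e ∈ E, v * e * v⁻¹ * e⁻¹ ∈ F := by
      intro v hv e he
      rw [← hFu, Subgroup.commutator_comm]
      exact Subgroup.commutator_mem_commutator hv he
    let S : Subgroup G :=
      { carrier := {x | x ∈ Subgroup.normalizer (F : Set G) ∧ ∀ e ∈ E, x * e * x⁻¹ * e⁻¹ ∈ F}
        one_mem' := ⟨one_mem _, fun e _ => by simp⟩
        mul_mem' := by
          rintro x y ⟨hxN, hx⟩ ⟨hyN, hy⟩
          refine ⟨mul_mem hxN hyN, fun e he => ?_⟩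
          have : x * y * e * (x * y)⁻¹ * e⁻¹ = (x * (y * e * y⁻¹ * e⁻¹) * x⁻¹) * (x * e * x⁻¹ * e⁻¹) := by group
          rw [this]
          exact mul_mem ((Subgroup.mem_normalizer_iff.1 hxN _).1 (hy e he)) (hx e he)
        inv_mem' := by
          rintro x ⟨hxN, hx⟩
          refine ⟨inv_mem hxN, fun e he => ?_⟩
          have he' : x⁻¹ * e * x ∈ E := (Subgroup.mem_normalizer_iff''.1 (hEN x) e).1 he
          have : x⁻¹ * e * x⁻¹⁻¹ * e⁻¹ = (x * (x⁻¹ * e * x) * x⁻¹ * (x⁻¹ * e * x)⁻¹)⁻¹ := by group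
          rw [this]
          exact inv_mem (hx _ he') }
    have hXS : X ≤ S := by
      rw [hX, Subgroup.commutator_le]
      intro r hr v hv
      have h1 : v⁻¹ ∈ S := ⟨inv_mem (hUF hv), fun e he => hUE v⁻¹ (inv_mem hv) e he⟩
      have h2 : r * v * r⁻¹ ∈ S := by
        refine ⟨mul_mem (mul_mem (hRF hr) (hUF hv)) (inv_mem (hRF hr)), fun e he => ?_⟩
        have he' : r⁻¹ * e * r ∈ E := (Subgroup.mem_normalizer_iff''.1 (hEN r) e).1 he
        have : r * v * r⁻¹ * e * (r * v * r⁻¹)⁻¹ * e⁻¹ = r * (v * (r⁻¹ * e * r) * v⁻¹ * (r⁻¹ * e * r)⁻¹) * r⁻¹ := by group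
        rw [this]
        exact (Subgroup.mem_normalizer_iff.1 (hRF hr) _).1 (hUE v hv _ he')
      rw [commutatorElement_def]
      exact mul_mem h2 h1
    set D := E ⊓ Subgroup.centralizer (X : Set G) with hD
    set P := E ⊔ A with hP
    have hPp : IsPGroup p ↥P := hE.to_sup_of_normal_left' (hUp.to_le hAU) (fun a _ => hEN a)
    obtain ⟨n, hn⟩ := (Subgroup.isNilpotent_iff_lowerCentralSeries P).1 hPp.isNilpotent
    have hEs : Group.IsSolvable E := by have := hE.isNilpotent; infer_instance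
    have hcopXE : (Nat.card X).Coprime (Nat.card E) := by
      obtain ⟨k, hk⟩ := IsPGroup.iff_card.1 hE
      rw [hk]
      exact hcop.pow_right k
    have hDF : E ≤ D ⊔ F := by
      intro e he
      obtain ⟨c, hc, hec⟩ := Cfsg.Lib.Solv.fixed_coset X E (fun x _ => hEN x) hcopXE (Or.inr hEs) F
        hFE (Cfsg.Lib.Solv.le_normalizer_commutator_left E A) (fun x hx => (hXS hx).1) e he
        (fun x hx => (hXS hx).2 e he)
      have : e = c * (e⁻¹ * c)⁻¹ := by group
      rw [this]
      exact mul_mem (Subgroup.mem_sup_left hc) (Subgroup.mem_sup_right (inv_mem hec))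
    have hPL : ∀ k : ℕ, P ≤ Subgroup.normalizer ((P.lowerCentralSeries k : Subgroup G) : Set G) := by
      intro k
      cases k with
      | zero => rw [Subgroup.lowerCentralSeries_zero]; exact Subgroup.le_normalizer
      | succ k => rw [Subgroup.lowerCentralSeries_succ]; exact Cfsg.Lib.Solv.le_normalizer_commutator_right _ P
    have key : ∀ k : ℕ, E ≤ D ⊔ P.lowerCentralSeries k := by
      intro k
      induction k with
      | zero => rw [Subgroup.lowerCentralSeries_zero]; exact le_sup_of_le_right le_sup_left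
      | succ k ihk =>
        refine hDF.trans (sup_le le_sup_left ?_)
        rw [hF, Subgroup.commutator_le]
        intro e he a ha
        have hDn : D ≤ Subgroup.normalizer ((P.lowerCentralSeries k : Subgroup G) : Set G) :=
          (inf_le_left.trans le_sup_left).trans (hPL k)
        obtain ⟨m, hm, l, hl, rfl⟩ : ∃ m ∈ D, ∃ l ∈ P.lowerCentralSeries k, m * l = e := by
          have h : e ∈ ((D ⊔ P.lowerCentralSeries k : Subgroup G) : Set G) := ihk he
          rw [Subgroup.coe_mul_of_left_le_normalizer_right _ _ hDn, Set.mem_mul] at h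
          exact h
        have e1 : ⁅m * l, a⁆ = (m * ⁅l, a⁆ * m⁻¹) * (m * (a * m⁻¹ * a⁻¹)) := by
          simp only [commutatorElement_def]; group
        rw [e1]
        refine mul_mem (Subgroup.mem_sup_right ?_) (Subgroup.mem_sup_left ?_)
        · refine (Subgroup.mem_normalizer_iff.1 (hPL (k + 1) (Subgroup.mem_sup_left hm.1 : m ∈ P)) _).1 ?_
          rw [Subgroup.lowerCentralSeries_succ]
          exact Subgroup.commutator_mem_commutator hl (Subgroup.mem_sup_right ha : a ∈ P)
        · refine mul_mem hm ⟨(Subgroup.mem_normalizer_iff.1 (hEN a) _).1 (inv_mem hm.1), ?_⟩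
          show a * m⁻¹ * a⁻¹ ∈ Subgroup.centralizer (X : Set G)
          exact mul_mem (mul_mem (hAX ha) (inv_mem hm.2)) (inv_mem (hAX ha))
    have hED : E ≤ D := by
      have := key n
      rwa [hn, sup_bot_eq] at this
    exact Subgroup.le_centralizer_iff.1 (hED.trans inf_le_right)

end Cfsg.Agent.S2909
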