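import Cfsg.Statements.S2910
import Cfsg.Agent.Lib.PLocal.LocalEasy
-- import your own Cfsg.Agent.* helpers here

set_option autoImplicit false
open Cfsg

namespace Cfsg.Agent.S2910

/-- Let p be an odd prime dividing the order of the finite group G and P a Sylow p-subgroup of G. If Ω₁(P) (generated by the elements of order dividing p) is contained in the centre of G, then G has a normal p-complement. In particular, if G is quasisimple then Ω₁(P) is not central in G. -/
theorem result {G : Type*} [Group G] [Finite G] {p : ℕ} [Fact p.Prime] (hp : p ≠ 2) (hdiv : p ∣ Nat.card G) (P : Sylow p G) (hZ : Cfsg.omegaOne p (P : Subgroup G) ≤ Subgroup.center G) : Cfsg.HasNormalPComplement p G ∧ ¬ Cfsg.IsQuasisimple G := by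
  have h := Cfsg.Lib.PLocal.LocalEasy.hasNormalPComplement_of_omega_central hp P hZ
  exact ⟨h, Cfsg.Lib.PLocal.LocalEasy.not_quasisimple_of_normal_complement hdiv h⟩

end Cfsg.Agent.S2910
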