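import Cfsg.Statements.S2924
import Cfsg.Agent.Lib.Comp.FStar
import Cfsg.Agent.Lib.Solv.Coprime2
import Cfsg.Agent.Lib.Solv.Cores

set_option autoImplicit false
open Cfsg

namespace Cfsg.Agent.S2924

open Subgroup
open scoped Pointwise

variable {X : Type*} [Group X]

/-- The core of the centralizer of an element, inside the group. -/
noncomputable def core (y : X) : Subgroup X :=
  (Cfsg.oddCore ↥(centralizer ({y} : Set X))).map (centralizer ({y} : Set X)).subtype

theorem core_le (y : X) : core y ≤ centralizer ({y} : Set X) := map_subtype_le _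

theorem core_odd [Finite X] (y : X) : (Nat.card ↥(core y)).Coprime 2 := by
  rw [core, card_map_of_injective (subtype_injective _)]
  exact Cfsg.Lib.Solv.coprime_pPrimeCore 2

theorem le_normalizer_core [Finite X] (y : X) :
    centralizer ({y} : Set X) ≤ normalizer (core y : Set X) := by
  intro g hg
  have hN : (Cfsg.oddCore ↥(centralizer ({y} : Set X))).Normal := inferInstance
  rw [mem_normalizer_iff]
  intro x
  constructor
  · intro hx
    obtain ⟨a, ha, rfl⟩ := mem_map.1 hx
    exact ⟨_, hN.conj_mem a ha ⟨g, hg⟩, rfl⟩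
  · intro hx
    obtain ⟨a, ha, e⟩ := mem_map.1 hx
    refine ⟨_, hN.conj_mem a ha (⟨g, hg⟩ : centralizer ({y} : Set X))⁻¹, ?_⟩
    simp only [map_mul, map_inv, subtype_apply, inv_inv] at e ⊢
    rw [e]
    group

theorem eq_one_of_coprime [Finite X] {H : Subgroup X} (h : (Nat.card ↥H).Coprime 2) {g : X} (hg : g ∈ H)
    (h2 : ∃ k : ℕ, g ^ 2 ^ k = 1) : g = 1 := by
  obtain ⟨k, hk⟩ := h2
  refine orderOf_eq_one_iff.1 (Nat.eq_one_of_dvd_coprimes (h.pow_right k) ?_ (orderOf_dvd_of_pow_eq_one hk))
  rw [← orderOf_mk g hg]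
  exact orderOf_dvd_natCard _

theorem odd_sq_mem {H : Subgroup X} [Finite X] (h : (Nat.card ↥H).Coprime 2) {g : X} (hg : g ∈ H)
    {K : Subgroup X} (h2 : g * g ∈ K) : g ∈ K := by
  have hd : Odd (orderOf g) := by
    rw [Nat.odd_iff, ← Nat.two_dvd_ne_zero]
    intro hd
    have := Nat.eq_one_of_dvd_coprimes h
      (hd.trans (by rw [← orderOf_mk g hg]; exact orderOf_dvd_natCard _)) dvd_rfl
    omega
  obtain ⟨m, hm⟩ := hd
  have e : g = (g * g) ^ (m + 1) := by
    rw [← sq, ← pow_mul, show 2 * (m + 1) = orderOf g + 1 by omega, pow_succ, pow_orderOf_eq_one,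
      one_mul]
  rw [e]
  exact K.pow_mem h2 _

/-- Odd elements of the centralizer of `a` in `C(b)` centralize `O₂(C(b))`. -/
theorem centralizes_two_core [Finite X] {a b : X} (hab : Commute a b) (h2a : a * a = 1) :
    core a ⊓ centralizer ({b} : Set X) ≤ centralizer
      (((Cfsg.pCore 2 ↥(centralizer ({b} : Set X))).map (centralizer ({b} : Set X)).subtype :
        Subgroup X) : Set X) := by
  have : Fact (Nat.Prime 2) := ⟨Nat.prime_two⟩
  set U : Subgroup X := (Cfsg.pCore 2 ↥(centralizer ({b} : Set X))).map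
    (centralizer ({b} : Set X)).subtype with hU
  have hUn : centralizer ({b} : Set X) ≤ normalizer (U : Set X) := by
    have h : (Cfsg.pCore 2 ↥(centralizer ({b} : Set X))).Normal := inferInstance
    intro g hg
    rw [mem_normalizer_iff]
    intro x
    constructor
    · intro hx
      obtain ⟨c, hc, rfl⟩ := mem_map.1 hx
      exact ⟨_, h.conj_mem c hc ⟨g, hg⟩, rfl⟩
    · intro hx
      obtain ⟨c, hc, e⟩ := mem_map.1 hx
      refine ⟨_, h.conj_mem c hc (⟨g, hg⟩ : centralizer ({b} : Set X))⁻¹, ?_⟩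
      simp only [map_mul, map_inv, subtype_apply, inv_inv] at e ⊢
      rw [e]
      group
  have hU2 : IsPGroup 2 U := (Cfsg.Lib.Solv.isPGroup_pCore 2).map _
  refine Cfsg.Lib.Solv.thompson_PxQ (zpowers a) _ U (p := 2) ?_ ?_ hU2 ?_ ?_ ?_ ?_
  · rintro ⟨g, hg⟩
    obtain ⟨m, rfl⟩ := mem_zpowers_iff.1 hg
    refine ⟨1, Subtype.ext ?_⟩
    simp only [pow_one, SubgroupClass.coe_pow, OneMemClass.coe_one]
    rw [← zpow_natCast, ← zpow_mul, mul_comm, zpow_mul]
    simp [sq, h2a]
  · exact (core_odd a).coprime_dvd_left (card_dvd_of_le inf_le_left)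
  · rw [zpowers_le, mem_centralizer_iff]
    intro q hq
    exact mem_centralizer_singleton_iff.1 (core_le a hq.1)
  · rw [zpowers_le]
    exact hUn (mem_centralizer_singleton_iff.2 hab.eq)
  · exact inf_le_right.trans hUn
  · intro u hu
    rw [mem_centralizer_iff]
    intro q hq
    have hua : u ∈ centralizer ({a} : Set X) := mem_centralizer_singleton_iff.2
      (mem_centralizer_iff.1 hu.2 a (mem_zpowers a)).symm
    have h1 : q * u * q⁻¹ * u⁻¹ ∈ U :=
      mul_mem ((mem_normalizer_iff.1 (hUn hq.2) u).1 hu.1) (inv_mem hu.1)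
    have h2 : q * u * q⁻¹ * u⁻¹ ∈ core a := by
      rw [mul_assoc, mul_assoc]
      refine mul_mem hq.1 ?_
      rw [← mul_assoc]
      exact (mem_normalizer_iff.1 (le_normalizer_core a hua) _).1 (inv_mem hq.1)
    obtain ⟨k, hk⟩ := hU2 ⟨_, h1⟩
    have h3 := eq_one_of_coprime (core_odd a) h2 ⟨k, congrArg Subtype.val hk⟩
    rwa [mul_inv_eq_one, mul_inv_eq_iff_eq_mul] at h3

theorem core_inf_eq_bot [Finite X] {a z : X} (haz : Commute a z) (h2a : a * a = 1)
    (hz : Cfsg.generalizedFittingSubgroup ↥(centralizer ({z} : Set X)) =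
      Cfsg.pCore 2 ↥(centralizer ({z} : Set X))) :
    core a ⊓ centralizer ({z} : Set X) = ⊥ := by
  have : Fact (Nat.Prime 2) := ⟨Nat.prime_two⟩
  rw [eq_bot_iff]
  intro q hq
  have hq' : (⟨q, hq.2⟩ : centralizer ({z} : Set X)) ∈
      centralizer (Cfsg.generalizedFittingSubgroup ↥(centralizer ({z} : Set X)) : Set _) := by
    rw [hz, mem_centralizer_iff]
    intro u hu
    exact Subtype.ext (mem_centralizer_iff.1 (centralizes_two_core haz h2a hq) _ ⟨u, hu, rfl⟩)
  have h1 := Cfsg.Lib.Comp.centralizer_fstar_le hq'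
  rw [hz] at h1
  obtain ⟨k, hk⟩ := Cfsg.Lib.Solv.isPGroup_pCore 2 ⟨_, h1⟩
  exact mem_bot.2 (eq_one_of_coprime (core_odd a) hq.1
    ⟨k, congrArg (fun w : Cfsg.pCore 2 ↥(centralizer ({z} : Set X)) => ((w : centralizer ({z} : Set X)) : X)) hk⟩)

theorem core_inverted [Finite X] {a z : X} (haz : Commute a z) (h2a : a * a = 1) (h2z : z * z = 1)
    (hz : Cfsg.generalizedFittingSubgroup ↥(centralizer ({z} : Set X)) =
      Cfsg.pCore 2 ↥(centralizer ({z} : Set X))) {x : X} (hx : x ∈ core a) : z * x * z = x⁻¹ := by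
  have hzinv : z⁻¹ = z := inv_eq_of_mul_eq_one_right h2z
  have hmem : ∀ w ∈ core a, z * w * z ∈ core a := fun w hw => by
    have := (mem_normalizer_iff.1 (le_normalizer_core a (mem_centralizer_singleton_iff.2 haz.symm.eq)) w).1 hw
    rwa [hzinv] at this
  let φ : core a →* core a := MonoidHom.mk' (fun w => ⟨z * w.1 * z, hmem _ w.2⟩) fun u v =>
    Subtype.ext (by
      simp only [Subgroup.coe_mul]
      calc z * (u.1 * v.1) * z = z * u.1 * 1 * v.1 * z := by group
        _ = z * u.1 * z * (z * v.1 * z) := by rw [← h2z]; group)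
  have hinv : Function.Involutive φ := fun w => Subtype.ext (by
    show z * (z * w.1 * z) * z = w.1
    calc z * (z * w.1 * z) * z = z * z * w.1 * (z * z) := by group
      _ = w.1 := by rw [h2z, one_mul, mul_one])
  have hfree : MonoidHom.FixedPointFree φ := fun w hw => by
    have hc : z * w.1 * z = w.1 := congrArg Subtype.val hw
    have : (w : X) ∈ core a ⊓ centralizer ({z} : Set X) := by
      refine ⟨w.2, mem_centralizer_singleton_iff.2 ?_⟩
      calc (w : X) * z = z * w.1 * z * z := by rw [hc]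
        _ = z * w.1 := by rw [mul_assoc, h2z, mul_one]
    rw [core_inf_eq_bot haz h2a hz, mem_bot] at this
    exact Subtype.ext this
  have := congrFun (hfree.coe_eq_inv_of_involutive hinv) ⟨x, hx⟩
  exact congrArg Subtype.val this

/-- Balance. -/
theorem balance [Finite X] {a b z : X} (hab : Commute a b) (haz : Commute a z) (hbz : Commute b z)
    (h2a : a * a = 1) (h2b : b * b = 1) (h2z : z * z = 1)
    (hz : Cfsg.generalizedFittingSubgroup ↥(centralizer ({z} : Set X)) =
      Cfsg.pCore 2 ↥(centralizer ({z} : Set X)))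
    (hE : Cfsg.layer ↥(centralizer ({b} : Set X)) = ⊥) :
    core a ⊓ centralizer ({b} : Set X) ≤ core b := by
  have : Fact (Nat.Prime 2) := ⟨Nat.prime_two⟩
  intro q hq
  set H := centralizer ({b} : Set X)
  have hqC : (⟨q, hq.2⟩ : H) ∈ centralizer (Cfsg.fittingSubgroup H : Set H) := by
    suffices h : Cfsg.fittingSubgroup H ≤ centralizer ({(⟨q, hq.2⟩ : H)} : Set H) from
      mem_centralizer_iff.2 fun u hu => mem_centralizer_singleton_iff.1 (h hu)
    rw [Cfsg.Lib.Solv.fitting_eq_iSup_pCore]
    refine iSup_le fun r u hu => mem_centralizer_singleton_iff.2 ?_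
    apply Subtype.ext
    show (u : X) * q = q * u
    by_cases hr : (r : ℕ) = 2
    · rw [hr] at hu
      exact mem_centralizer_iff.1 (centralizes_two_core hab h2a hq) _ ⟨u, hu, rfl⟩
    · have := Fact.mk r.2
      have hzH : z ∈ H := mem_centralizer_singleton_iff.2 hbz.symm.eq
      have hub : (u : X) ∈ core b := by
        refine ⟨u, ?_, rfl⟩
        refine Cfsg.Lib.Solv.le_pPrimeCore inferInstance ?_ hu
        obtain ⟨k, hk⟩ := IsPGroup.iff_card.1 (Cfsg.Lib.Solv.isPGroup_pCore (G := H) (r : ℕ))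
        rw [hk]
        exact ((Nat.coprime_primes r.2 Nat.prime_two).2 hr).pow_left k
      have hiu := core_inverted hbz h2b h2z hz hub
      have hiq := core_inverted haz h2a h2z hz hq.1
      have hwb : q * u * q⁻¹ ∈ core b :=
        (mem_normalizer_iff.1 (le_normalizer_core b hq.2) _).1 hub
      have hiw := core_inverted hbz h2b h2z hz hwb
      have e : z * (q * u * q⁻¹) * z = q⁻¹ * (u : X)⁻¹ * q := by
        have hiq' : z * q⁻¹ * z = q := by
          have := congrArg (·⁻¹) hiq
          simpa [mul_assoc, inv_eq_of_mul_eq_one_right h2z] using this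
        calc z * (q * u * q⁻¹) * z = z * q * (z * z) * u * (z * z) * q⁻¹ * z := by
              rw [h2z]; group
          _ = (z * q * z) * (z * u * z) * (z * q⁻¹ * z) := by group
          _ = q⁻¹ * (u : X)⁻¹ * q := by rw [hiq, hiu, hiq']
      rw [e] at hiw
      have h2q : q * q ∈ centralizer ({(u : X)} : Set X) := mem_centralizer_singleton_iff.2 (by
        have h' : q⁻¹ * (u : X) * q = q * u * q⁻¹ := by
          have := congrArg (·⁻¹) hiw
          simpa [mul_assoc] using this
        calc q * q * u = q * (q * u * q⁻¹) * q := by group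
          _ = q * (q⁻¹ * u * q) * q := by rw [h']
          _ = u * (q * q) := by group)
      exact (mem_centralizer_singleton_iff.1 (odd_sq_mem (core_odd a) hq.1 h2q)).symm
  have hqF := Cfsg.Lib.Comp.centralizer_fitting_le_of_layer_eq_bot hE hqC
  have hle : Cfsg.fittingSubgroup H ≤ Cfsg.oddCore H ⊔ Cfsg.pCore 2 H := by
    rw [Cfsg.Lib.Solv.fitting_eq_iSup_pCore]
    refine iSup_le fun r => ?_
    by_cases hr : (r : ℕ) = 2
    · rw [hr]; exact le_sup_right
    · have := Fact.mk r.2
      refine le_trans (Cfsg.Lib.Solv.le_pPrimeCore inferInstance ?_) le_sup_left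
      obtain ⟨k, hk⟩ := IsPGroup.iff_card.1 (Cfsg.Lib.Solv.isPGroup_pCore (G := H) (r : ℕ))
      rw [hk]
      exact ((Nat.coprime_primes r.2 Nat.prime_two).2 hr).pow_left k
  obtain ⟨o, ho, t, ht, hot⟩ := Subgroup.mem_sup_of_normal_left.1 (hle hqF)
  obtain ⟨k, hk⟩ := Cfsg.Lib.Solv.isPGroup_pCore 2 ⟨t, ht⟩
  have hk' : t ^ 2 ^ k = 1 := congrArg Subtype.val hk
  have hm : (⟨q, hq.2⟩ : H) ^ 2 ^ k ∈ Cfsg.oddCore H := by
    rw [← QuotientGroup.eq_one_iff, QuotientGroup.mk_pow, ← hot, QuotientGroup.mk_mul,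
      (QuotientGroup.eq_one_iff o).2 ho, one_mul, ← QuotientGroup.mk_pow, hk', QuotientGroup.mk_one]
  have hm' : q ^ 2 ^ k ∈ core b := ⟨_, hm, by simp⟩
  have hcop : (orderOf q).Coprime (2 ^ k) := ((core_odd a).coprime_dvd_left
    (by rw [← orderOf_mk q hq.1]; exact orderOf_dvd_natCard _)).pow_right k
  obtain ⟨m, hm2⟩ := exists_pow_eq_self_of_coprime hcop.symm
  exact hm2 ▸ pow_mem hm' m

/-- The signs of an element. -/
def Signed (s : Set X) (x : X) : Prop := ∀ y ∈ s, y * x * y = x ∨ y * x * y = x⁻¹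

theorem core_le_closure [Finite X] {a : X} (Y : Subgroup X) (hYc : ∀ u ∈ Y, ∀ v ∈ Y, Commute u v)
    (hY2 : ∀ u ∈ Y, u * u = 1) (haY : a ∈ Y)
    (habel : ∀ u ∈ core a, ∀ v ∈ core a, Commute u v) :
    core a ≤ closure {x | x ∈ core a ∧ Signed (Y : Set X) x} := by
  classical
  have key : ∀ s : Finset X, (∀ y ∈ s, y ∈ Y) →
      core a ≤ closure {x | x ∈ core a ∧ Signed (s : Set X) x} := by
    intro s
    induction s using Finset.induction with
    | empty => exact fun _ x hx => subset_closure ⟨hx, fun y hy => by simp at hy⟩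
    | insert y s hys ih =>
      intro hs
      refine (ih fun w hw => hs w (Finset.mem_insert_of_mem hw)).trans ((closure_le _).2 ?_)
      rintro x ⟨hx, hxs⟩
      have hy : y ∈ Y := hs y (Finset.mem_insert_self y s)
      have hyinv : y⁻¹ = y := inv_eq_of_mul_eq_one_right (hY2 y hy)
      set x' := y * x * y with hx'
      have hx'm : x' ∈ core a := by
        have := (mem_normalizer_iff.1 (le_normalizer_core a
          (mem_centralizer_singleton_iff.2 (hYc y hy a haY).eq)) x).1 hx
        rwa [hyinv] at this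
      have hcj : ∀ u v w : X, w * w = 1 → w * (u * v) * w = (w * u * w) * (w * v * w) := fun u v w h => by
        calc w * (u * v) * w = w * u * 1 * v * w := by group
          _ = _ := by rw [← h]; group
      have hinvj : ∀ u w : X, w * w = 1 → w * u⁻¹ * w = (w * u * w)⁻¹ := fun u w h => by
        rw [mul_inv_rev, mul_inv_rev, inv_eq_of_mul_eq_one_right h, mul_assoc]
      have hyx' : y * x' * y = x := by
        calc y * (y * x * y) * y = (y * y) * x * (y * y) := by group
          _ = x := by rw [hY2 y hy, one_mul, mul_one]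
      have hsig : ∀ t ∈ s, (t * x * t = x → t * x' * t = x') ∧ (t * x * t = x⁻¹ → t * x' * t = x'⁻¹) := by
        intro t ht
        have htY : t ∈ Y := hs t (Finset.mem_insert_of_mem ht)
        have e : t * x' * t = y * (t * x * t) * y := by
          calc t * (y * x * y) * t = (t * y) * x * (y * t) := by group
            _ = (y * t) * x * (t * y) := by rw [(hYc t htY y hy).eq]
            _ = _ := by group
        exact ⟨fun h => by rw [e, h], fun h => by rw [e, h, hinvj x y (hY2 y hy)]⟩
      have hu : x * x' ∈ {g | g ∈ core a ∧ Signed (↑(insert y s) : Set X) g} := by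
        refine ⟨mul_mem hx hx'm, fun t ht => ?_⟩
        rcases Finset.mem_insert.1 ht with rfl | ht'
        · left; rw [hcj _ _ _ (hY2 t hy), hyx', ← hx', (habel _ hx'm _ hx).eq]
        · have htY : t ∈ Y := hs t (Finset.mem_insert_of_mem ht')
          rcases hxs t ht' with h | h
          · left; rw [hcj _ _ _ (hY2 t htY), h, (hsig t ht').1 h]
          · right; rw [hcj _ _ _ (hY2 t htY), h, (hsig t ht').2 h, ← mul_inv_rev,
              (habel _ hx'm _ hx).eq]
      have hv : x * x'⁻¹ ∈ {g | g ∈ core a ∧ Signed (↑(insert y s) : Set X) g} := by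
        refine ⟨mul_mem hx (inv_mem hx'm), fun t ht => ?_⟩
        rcases Finset.mem_insert.1 ht with rfl | ht'
        · right; rw [hcj _ _ _ (hY2 t hy), hinvj _ _ (hY2 t hy), hyx', ← hx', mul_inv_rev, inv_inv]
        · have htY : t ∈ Y := hs t (Finset.mem_insert_of_mem ht')
          rcases hxs t ht' with h | h
          · left; rw [hcj _ _ _ (hY2 t htY), hinvj _ _ (hY2 t htY), h, (hsig t ht').1 h]
          · right; rw [hcj _ _ _ (hY2 t htY), hinvj _ _ (hY2 t htY), h, (hsig t ht').2 h, inv_inv,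
              mul_inv_rev, inv_inv, ((habel _ hx _ hx'm).inv_left).eq]
      refine odd_sq_mem (core_odd a) hx ?_
      have e : x * x = (x * x') * (x * x'⁻¹) := by
        rw [(habel _ hx _ (inv_mem hx'm)).eq]; group
      rw [e]
      exact mul_mem (subset_closure hu) (subset_closure hv)
  have h := key (Set.toFinite (Y : Set X)).toFinset fun y hy => by simpa using hy
  rwa [Set.Finite.coe_toFinset] at h

/-- Let X be a finite group and Y an elementary abelian 2-subgroup of X of order at least 8 such that C_X(x) has no components (E(C_X(x)) = 1) for every nontrivial x ∈ Y, and F*(C_X(z)) = O₂(C_X(z)) for some nontrivial z ∈ Y. Then the subgroup generated by the cores O(C_X(y)), y ∈ Y nontrivial, has odd order and is normalized by N_X(Y). -/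
theorem result {X : Type*} [Group X] [Finite X] (Y : Subgroup X) (hY : Cfsg.IsElementaryAbelian 2 Y) (h8 : 8 ≤ Nat.card ↥Y) (hE : ∀ x ∈ Y, x ≠ 1 → Cfsg.layer ↥(Subgroup.centralizer ({x} : Set X)) = ⊥) (hz : ∃ z ∈ Y, z ≠ 1 ∧ Cfsg.generalizedFittingSubgroup ↥(Subgroup.centralizer ({z} : Set X)) = Cfsg.pCore 2 ↥(Subgroup.centralizer ({z} : Set X))) : Odd (Nat.card ↥(⨆ y : {y : X // y ∈ Y ∧ y ≠ 1}, (Cfsg.oddCore ↥(Subgroup.centralizer ({(y : X)} : Set X))).map (Subgroup.centralizer ({(y : X)} : Set X)).subtype)) ∧ Subgroup.normalizer (Y : Set X) ≤ Subgroup.normalizer ((⨆ y : {y : X // y ∈ Y ∧ y ≠ 1}, (Cfsg.oddCore ↥(Subgroup.centralizer ({(y : X)} : Set X))).map (Subgroup.centralizer ({(y : X)} : Set X)).subtype : Subgroup X) : Set X) := by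
  classical
  show Odd (Nat.card ↥(⨆ y : {y : X // y ∈ Y ∧ y ≠ 1}, core (y : X))) ∧
    Subgroup.normalizer (Y : Set X) ≤ Subgroup.normalizer
      ((⨆ y : {y : X // y ∈ Y ∧ y ≠ 1}, core (y : X) : Subgroup X) : Set X)
  obtain ⟨z, hzY, hz1, hzF⟩ := hz
  have hYc : ∀ u ∈ Y, ∀ v ∈ Y, Commute u v := fun u hu v hv =>
    congrArg Subtype.val (hY.1.is_comm.comm (⟨u, hu⟩ : Y) ⟨v, hv⟩)
  have hY2 : ∀ u ∈ Y, u * u = 1 := fun u hu => by rw [← sq, hY.2 u hu]
  have hI : ∀ a ∈ Y, ∀ x ∈ core a, z * x * z = x⁻¹ := fun a ha x hx =>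
    core_inverted (hYc a ha z hzY) (hY2 a ha) (hY2 z hzY) hzF hx
  have hab : ∀ a ∈ Y, ∀ u ∈ core a, ∀ v ∈ core a, Commute u v := fun a ha u hu v hv => by
    have h := hI a ha _ (mul_mem hu hv)
    have e : z * (u * v) * z = (z * u * z) * (z * v * z) := by
      calc z * (u * v) * z = z * u * 1 * v * z := by group
        _ = _ := by rw [← hY2 z hzY]; group
    rw [e, hI a ha u hu, hI a ha v hv] at h
    have := congrArg (·⁻¹) h
    simp only [mul_inv_rev, inv_inv] at this
    exact this.symm
  -- all the cores commute with each other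
  have hcc : ∀ a ∈ Y, a ≠ 1 → ∀ a' ∈ Y, a' ≠ 1 → ∀ x ∈ core a, ∀ x' ∈ core a', Commute x x' := by
    intro a ha ha1 a' ha' ha1' x hx x' hx'
    have h' : core a' ≤ centralizer ({x} : Set X) := by
      refine (core_le_closure Y hYc hY2 ha' (hab a' ha')).trans ((closure_le _).2 ?_)
      rintro w ⟨hw, hws⟩
      refine mem_centralizer_singleton_iff.2 (Commute.symm ?_).eq
      suffices h : core a ≤ centralizer ({w} : Set X) from mem_centralizer_singleton_iff.1 (h hx)
      refine (core_le_closure Y hYc hY2 ha (hab a ha)).trans ((closure_le _).2 ?_)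
      rintro v ⟨hv, hvs⟩
      -- a common fixing element of Y
      obtain ⟨p, q, hpq, hv', hw'⟩ : ∃ p q : Y, p ≠ q ∧
          ((p : X) * v * p = v ↔ (q : X) * v * q = v) ∧ ((p : X) * w * p = w ↔ (q : X) * w * q = w) := by
        have := Fintype.ofFinite Y
        obtain ⟨p, q, hne, he⟩ := Fintype.exists_ne_map_eq_of_card_lt
          (fun p : Y => (decide ((p : X) * v * p = v), decide ((p : X) * w * p = w))) (by
            rw [Fintype.card_prod, Fintype.card_bool, ← Nat.card_eq_fintype_card]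
            omega)
        simp only [Prod.mk.injEq, decide_eq_decide] at he
        exact ⟨p, q, hne, he.1, he.2⟩
      have hfix : ∀ g : X, Signed (Y : Set X) g → ((p : X) * g * p = g ↔ (q : X) * g * q = g) →
          g * ((p : X) * q) = ((p : X) * q) * g := by
        intro g hg hiff
        have e : (p : X) * g * p = (q : X) * g * q := by
          by_cases h : (p : X) * g * p = g
          · rw [h, hiff.1 h]
          · rw [(hg p p.2).resolve_left h, (hg q q.2).resolve_left (mt hiff.2 h)]
        calc g * ((p : X) * q) = (q : X) * q * g * q * p := by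
              rw [(hYc p p.2 q q.2).eq, hY2 q q.2]; group
          _ = q * (p * g * p) * p := by rw [e]; group
          _ = q * p * g := by rw [mul_assoc, mul_assoc, mul_assoc, mul_assoc, hY2 p p.2]; group
          _ = p * q * g := by rw [(hYc q q.2 p p.2).eq]
      have hc1 : (p : X) * q ≠ 1 := fun h => hpq (Subtype.ext (by
        rw [mul_eq_one_iff_eq_inv, inv_eq_of_mul_eq_one_right (hY2 q q.2)] at h; exact h))
      have hcY : (p : X) * q ∈ Y := mul_mem p.2 q.2
      have bal : ∀ d ∈ Y, core d ⊓ centralizer ({(p : X) * q} : Set X) ≤ core ((p : X) * q) :=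
        fun d hd => balance (hYc d hd _ hcY) (hYc d hd z hzY) (hYc _ hcY z hzY) (hY2 d hd) (hY2 _ hcY)
          (hY2 z hzY) hzF (hE _ hcY hc1)
      refine mem_centralizer_singleton_iff.2 (hab _ hcY _ ?_ _ ?_).eq
      · exact bal a ha ⟨hv, mem_centralizer_singleton_iff.2 (hfix v hvs hv')⟩
      · exact bal a' ha' ⟨hw, mem_centralizer_singleton_iff.2 (hfix w hws hw')⟩
    exact (mem_centralizer_singleton_iff.1 (h' hx')).symm
  constructor
  · set W := ⨆ y : {y : X // y ∈ Y ∧ y ≠ 1}, core (y : X) with hW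
    have hWcl : W = closure (⋃ y : {y : X // y ∈ Y ∧ y ≠ 1}, (core (y : X) : Set X)) := by
      rw [hW, Subgroup.closure_iUnion]; simp
    have hcomm : ∀ u ∈ W, ∀ v ∈ W, Commute u v := by
      intro u hu v hv
      have : W ≤ centralizer (W : Set X) := by
        rw [hW]
        refine iSup_le fun y => ?_
        rw [le_centralizer_iff]
        refine iSup_le fun y' => ?_
        intro w hw
        rw [mem_centralizer_iff]
        intro t ht
        exact hcc y y.2.1 y.2.2 y' y'.2.1 y'.2.2 t ht w hw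
      exact (mem_centralizer_iff.1 (this hu) v hv).symm
    have hord : ∀ g ∈ W, Odd (orderOf g) := by
      intro g hg
      have hg' := hg
      rw [hWcl] at hg'
      induction hg' using closure_induction with
      | mem x hx =>
        obtain ⟨y, hy⟩ := Set.mem_iUnion.1 hx
        have hd : orderOf x ∣ Nat.card ↥(core (y : X)) := by
          rw [← orderOf_mk x hy]; exact orderOf_dvd_natCard _
        exact Nat.coprime_two_right.1 ((core_odd (y : X)).coprime_dvd_left hd)
      | one => simp
      | mul u v hu hv h1 h2 =>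
        rw [← hWcl] at hu hv
        exact ((h1 hu).mul (h2 hv)).of_dvd_nat (hcomm u hu v hv).orderOf_mul_dvd_mul_orderOf
      | inv u hu h1 => rw [← hWcl] at hu; rw [orderOf_inv]; exact h1 hu
    rw [← Nat.not_even_iff_odd, even_iff_two_dvd]
    intro h2
    have : Fact (Nat.Prime 2) := ⟨Nat.prime_two⟩
    obtain ⟨g, hg⟩ := exists_prime_orderOf_dvd_card' 2 h2
    have := hord g g.2
    rw [Subgroup.orderOf_coe, hg] at this
    exact absurd this (by decide)
  · intro g hg
    have hconj : ∀ a b : X, g * a * g⁻¹ = b →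
        (core a).map (MulAut.conj g).toMonoidHom ≤ core b := by
      rintro a b rfl w ⟨x, ⟨x', hx', rfl⟩, rfl⟩
      let e : ↥(centralizer ({a} : Set X)) →* ↥(centralizer ({g * a * g⁻¹} : Set X)) :=
        MonoidHom.mk' (fun u => ⟨g * u.1 * g⁻¹, mem_centralizer_singleton_iff.2 (by
            have := mem_centralizer_singleton_iff.1 u.2
            calc g * u.1 * g⁻¹ * (g * a * g⁻¹) = g * (u.1 * a) * g⁻¹ := by group
              _ = g * (a * u.1) * g⁻¹ := by rw [this]
              _ = g * a * g⁻¹ * (g * u.1 * g⁻¹) := by group)⟩)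
          fun u v => Subtype.ext (by simp [mul_assoc])
      have hsurj : Function.Surjective e := fun w => ⟨⟨g⁻¹ * w.1 * g, mem_centralizer_singleton_iff.2 (by
          have := mem_centralizer_singleton_iff.1 w.2
          calc g⁻¹ * w.1 * g * a = g⁻¹ * (w.1 * (g * a * g⁻¹)) * g := by group
            _ = g⁻¹ * ((g * a * g⁻¹) * w.1) * g := by rw [this]
            _ = a * (g⁻¹ * w.1 * g) := by group)⟩, Subtype.ext (by simp [e, mul_assoc])⟩
      exact ⟨e x', Cfsg.Lib.Solv.map_pPrimeCore_le 2 hsurj (mem_map_of_mem e hx'), rfl⟩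
    rw [← Cfsg.Lib.Solv.conj_smul_eq_self_iff]
    refine Subgroup.eq_of_le_of_card_ge ?_ (le_of_eq (Nat.card_congr (Subgroup.equivSMul _ _).toEquiv))
    rw [Subgroup.pointwise_smul_def]
    show Subgroup.map (MulAut.conj g).toMonoidHom _ ≤ _
    rw [Subgroup.map_iSup]
    refine iSup_le fun y => (hconj y _ rfl).trans ?_
    refine le_iSup (fun y : {y : X // y ∈ Y ∧ y ≠ 1} => core (y : X)) ⟨g * y * g⁻¹, ?_, ?_⟩
    · exact (mem_normalizer_iff.1 hg _).1 y.2.1
    · simp [y.2.2]

end Cfsg.Agent.S2924
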