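import Cfsg.Statements.S2925
import Cfsg.Agent.Lib.Comp.Component
import Cfsg.Agent.Lib.Solv.Subnormal

set_option autoImplicit false
open Cfsg

namespace Cfsg.Agent.S2925

open scoped commutatorElement

/-- Let K be a component of the finite group X and T a Sylow 2-subgroup of X. If some abelian normal subgroup Y of T does not normalize K, then K ⧸ Z(K) has abelian Sylow 2-subgroups. -/
theorem result {X : Type*} [Group X] [Finite X] (K : Subgroup X) (hK : Cfsg.IsComponent K) (T : Sylow 2 X) (Y : Subgroup X) (hYT : Y ≤ (T : Subgroup X)) (hYn : (Y.subgroupOf (T : Subgroup X)).Normal) (hYab : IsMulCommutative ↥Y) (hnot : ¬ Y ≤ Subgroup.normalizer (K : Set X)) (P : Sylow 2 (↥K ⧸ Subgroup.center ↥K)) : IsMulCommutative ↥(P : Subgroup (↥K ⧸ Subgroup.center ↥K)) := by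
  haveI : Fact (Nat.Prime 2) := ⟨Nat.prime_two⟩
  obtain ⟨y, hyY, hy⟩ := SetLike.not_le_iff_exists.1 hnot
  set Ky := K.map (MulAut.conj y).toMonoidHom with hKydef
  have hKyc : Cfsg.IsComponent Ky := Cfsg.Lib.Comp.component_conj y hK
  have hne : K ≠ Ky := fun e => hy (Subgroup.mem_normalizer_iff_map_conj_eq.2 e.symm)
  have hcomm : ∀ a ∈ K, ∀ b ∈ Ky, a * b = b * a := by
    intro a ha b hb
    have := Cfsg.Lib.Comp.component_commute hK hKyc hne
    rw [← commutatorElement_eq_one_iff_mul_comm, ← Subgroup.mem_bot, ← this]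
    exact Subgroup.commutator_mem_commutator ha hb
  obtain ⟨Q, hQ⟩ := Cfsg.Lib.Solv.sylow_inf_subnormal hK.1 T
  have hmemQ : ∀ a : ↥K, a ∈ (Q : Subgroup ↥K) → (a : X) ∈ (T : Subgroup X) := fun a ha => by
    rw [hQ, Subgroup.mem_subgroupOf] at ha; exact ha
  have key : ∀ a ∈ (Q : Subgroup ↥K), ∀ b ∈ (Q : Subgroup ↥K), ⁅a, b⁆ ∈ Subgroup.center ↥K := by
    intro a ha b hb
    set a' := y * (a : X) * y⁻¹ with ha'
    set b' := y * (b : X) * y⁻¹ with hb'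
    have ha'K : a' ∈ Ky := ⟨a, a.2, rfl⟩
    have hb'K : b' ∈ Ky := ⟨b, b.2, rfl⟩
    have hY : ∀ c : ↥K, c ∈ (Q : Subgroup ↥K) → (c : X) * (y * (c : X)⁻¹ * y⁻¹) ∈ Y := by
      intro c hc
      have h := hYn.conj_mem ⟨y, hYT hyY⟩ (by rw [Subgroup.mem_subgroupOf]; exact hyY) ⟨c, hmemQ c hc⟩
      rw [Subgroup.mem_subgroupOf] at h
      have h2 := Y.mul_mem h (Y.inv_mem hyY)
      simpa [mul_assoc] using h2
    have hab : ((a : X) * a'⁻¹) * ((b : X) * b'⁻¹) = ((b : X) * b'⁻¹) * ((a : X) * a'⁻¹) := by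
      have h := congrArg Subtype.val (mul_comm' (⟨_, hY a ha⟩ : Y) ⟨_, hY b hb⟩)
      rw [ha', hb']
      simpa [mul_inv_rev, mul_assoc] using h
    have e1 := hcomm b b.2 a'⁻¹ (Ky.inv_mem ha'K)
    have e2 := hcomm a a.2 b'⁻¹ (Ky.inv_mem hb'K)
    have hab' : (a : X) * b * (a'⁻¹ * b'⁻¹) = b * a * (b'⁻¹ * a'⁻¹) := by
      calc (a : X) * b * (a'⁻¹ * b'⁻¹) = a * (b * a'⁻¹) * b'⁻¹ := by group
        _ = a * (a'⁻¹ * b) * b'⁻¹ := by rw [e1]
        _ = (a * a'⁻¹) * (b * b'⁻¹) := by group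
        _ = (b * b'⁻¹) * (a * a'⁻¹) := hab
        _ = b * (b'⁻¹ * a) * a'⁻¹ := by group
        _ = b * (a * b'⁻¹) * a'⁻¹ := by rw [e2]
        _ = _ := by group
    have hmem : ((b : X) * a)⁻¹ * ((a : X) * b) ∈ Ky := by
      have : ((b : X) * a)⁻¹ * ((a : X) * b) = (b'⁻¹ * a'⁻¹) * (a'⁻¹ * b'⁻¹)⁻¹ := by
        calc ((b : X) * a)⁻¹ * ((a : X) * b)
            = ((b : X) * a)⁻¹ * ((a : X) * b * (a'⁻¹ * b'⁻¹)) * (a'⁻¹ * b'⁻¹)⁻¹ := by group
          _ = _ := by rw [hab']; group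
      rw [this]
      exact Ky.mul_mem (Ky.mul_mem (Ky.inv_mem hb'K) (Ky.inv_mem ha'K))
        (Ky.inv_mem (Ky.mul_mem (Ky.inv_mem ha'K) (Ky.inv_mem hb'K)))
    have hc : (b * a)⁻¹ * (a * b) ∈ Subgroup.center ↥K := by
      rw [Subgroup.mem_center_iff]
      intro k
      exact Subtype.ext (hcomm k k.2 _ (by simpa using hmem))
    have := (inferInstance : (Subgroup.center ↥K).Normal).conj_mem _ hc (b * a)
    rw [commutatorElement_def]
    convert this using 1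
    group
  obtain ⟨g, hg⟩ := MulAction.exists_smul_eq (↥K ⧸ Subgroup.center ↥K)
    (Q.mapSurjective (QuotientGroup.mk'_surjective (Subgroup.center ↥K))) P
  refine ⟨⟨fun u v => Subtype.ext ?_⟩⟩
  obtain ⟨u, hu⟩ := u
  obtain ⟨v, hv⟩ := v
  rw [← hg] at hu hv
  obtain ⟨u, ⟨a, ha, rfl⟩, rfl⟩ := hu
  obtain ⟨v, ⟨b, hb, rfl⟩, rfl⟩ := hv
  show MulAut.conj g (a : ↥K ⧸ Subgroup.center ↥K) * MulAut.conj g (b : ↥K ⧸ Subgroup.center ↥K) =
    MulAut.conj g (b : ↥K ⧸ Subgroup.center ↥K) * MulAut.conj g (a : ↥K ⧸ Subgroup.center ↥K)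
  rw [← map_mul, ← map_mul]
  congr 1
  rw [← QuotientGroup.mk_mul, ← QuotientGroup.mk_mul, QuotientGroup.eq]
  have h := key _ (inv_mem hb) _ (inv_mem ha)
  rw [commutatorElement_def] at h
  simpa [mul_assoc] using h

end Cfsg.Agent.S2925
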