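import Cfsg.Statements.S3031
import Cfsg.Agent.Lib.Transfer.StronglyClosedOrder
-- import your own Cfsg.Agent.* helpers here

set_option autoImplicit false
open Cfsg

namespace Cfsg.Agent.S3031

/-- Let G be a finite group, p the smallest prime dividing |G| and P a Sylow p-subgroup. Suppose that P is cyclic, or that P has a subgroup D with 1 < |D| < |P| such that every subgroup E of P of order |D|, and also every subgroup E of P of order 4 when |D| = 2, satisfies g E g⁻¹ ∩ N_G(E) ≤ E for all g ∈ G (E is strongly closed in its normalizer with respect to G). Then G has a normal p-complement. -/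
theorem result {G : Type*} [Group G] [Finite G] {p : ℕ} [Fact p.Prime] (hdiv : p ∣ Nat.card G)
    (hmin : ∀ q : ℕ, q.Prime → q ∣ Nat.card G → p ≤ q) (P : Sylow p G)
    (h : IsCyclic ↥(P : Subgroup G) ∨ ∃ D : Subgroup G, D ≤ (P : Subgroup G) ∧ 1 < Nat.card D ∧ Nat.card D < Nat.card (P : Subgroup G) ∧
      ∀ E : Subgroup G, E ≤ (P : Subgroup G) → (Nat.card E = Nat.card D ∨ (Nat.card D = 2 ∧ Nat.card E = 4)) →
        ∀ g : G, E.map (MulAut.conj g).toMonoidHom ⊓ Subgroup.normalizer (E : Set G) ≤ E) :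
    Cfsg.HasNormalPComplement p G := by
  rcases h with hc | ⟨D, hDP, hD1, hD2, hE⟩
  · exact Cfsg.Lib.Transfer.hasNormalPComplement_of_normalizer_le_centralizer P
      (IsCyclic.normalizer_le_centralizer (le_antisymm (Nat.minFac_le_of_dvd (Fact.out : p.Prime).two_le hdiv)
        (hmin _ (Nat.minFac_prime (fun h1 => (Fact.out : p.Prime).ne_one (Nat.eq_one_of_dvd_one (h1 ▸ hdiv)))) (Nat.minFac_dvd _))) hc)
  · obtain ⟨k, hk⟩ := IsPGroup.iff_card.1 (P.isPGroup'.to_le hDP)
    exact Cfsg.Lib.Transfer.hasNormalPComplement_of_strong hmin (k := k) (fun e => by rw [hk, e, pow_zero] at hD1; exact lt_irrefl 1 hD1)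
      (hk ▸ hD2) fun E hEP hEc g => hE E hEP (hk ▸ hEc) g

end Cfsg.Agent.S3031
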