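import Cfsg.Statements.S3060
import Cfsg.Agent.Lib.PLocal.LocalMisc5
import Cfsg.Agent.Lib.Solv.Cores

set_option autoImplicit false
set_option linter.style.haveILetI false
open Cfsg
open scoped commutatorElement

namespace Cfsg.Agent.S3060

open Subgroup

/-- The D*-Theorem. For a finite p-group S let D*(S) be the subgroup generated by the abelian subgroups A of S such that every x ∈ S with ⟨A, x⟩ of nilpotency class at most two centralizes A. Let p be an odd prime and H a finite p-stable group with Sylow p-subgroup S. Here H is p-stable in the following sense: the largest normal p-subgroup O_p(H) contains its centralizer in H, and for every normal p-subgroup P of H, every element acting quadratically on P has image in O_p(H/C_H(P)). Then D*(S) is a normal subgroup of H. -/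
theorem result {G : Type*} [Group G] [Finite G] {p : ℕ} [Fact p.Prime] (hp : p ≠ 2)
    (hc : Subgroup.centralizer (Cfsg.pCore p G : Set G) ≤ Cfsg.pCore p G)
    (hst : ∀ (P : Subgroup G) [P.Normal], IsPGroup p P → Cfsg.IsPStableOn p P) (S : Sylow p G) :
    (Cfsg.dStarOf (S : Subgroup G)).Normal := by
  classical
  set D0 := Cfsg.dStar ↥(S : Subgroup G)
  set W := Cfsg.dStarOf (S : Subgroup G)
  have hmem := Cfsg.Lib.PLocal.LocalMisc5.dStar_mem (p := p) S.isPGroup'
  have hWS : W ≤ (S : Subgroup G) := map_subtype_le _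
  have hWc : ∀ a ∈ W, ∀ b ∈ W, a * b = b * a := by
    rintro _ ⟨a, ha, rfl⟩ _ ⟨b, hb, rfl⟩
    exact congrArg Subtype.val (Cfsg.Lib.PLocal.LocalMisc5.comm_of_abelian hmem.1 ha hb)
  haveI hQn : (Cfsg.pCore p G).Normal := Cfsg.Lib.Transfer.pCore_normal p
  set Q := Cfsg.pCore p G
  have hQp : IsPGroup p Q := Cfsg.Lib.Solv.isPGroup_pCore p
  have hQS : Q ≤ (S : Subgroup G) := Cfsg.Lib.Solv.pCore_le_sylow p S
  have hSW : (S : Subgroup G) ≤ normalizer (W : Set G) := by
    intro g hg
    refine mem_normalizer_fintype fun y hy => ?_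
    obtain ⟨y', hy', rfl⟩ := hy
    exact ⟨⟨g, hg⟩ * y' * ⟨g, hg⟩⁻¹,
      Cfsg.Lib.PLocal.LocalMisc5.dStar_normal.conj_mem y' hy' _, rfl⟩
  have hWQ : W ≤ Q := by
    intro w hw
    have h1 : ⁅Q, zpowers w⁆ ≤ W := by
      refine commutator_le.2 fun q hq y hy => ?_
      have hyW : y ∈ W := (zpowers_le.2 hw) hy
      rw [commutatorElement_def]
      exact mul_mem ((mem_normalizer_iff.1 (hSW (hQS hq)) y).1 hyW) (inv_mem hyW)
    have hq : ⁅⁅Q, zpowers w⁆, zpowers w⁆ = ⊥ :=
      commutator_eq_bot_iff_le_centralizer.2 fun a ha => mem_centralizer_iff.2 fun b hb =>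
        hWc b ((zpowers_le.2 hw) hb) a (h1 ha)
    have h2 := hst Q hQp w hq
    haveI := Cfsg.Lib.Transfer.pCore_normal (G := G ⧸ centralizer (Q : Set G)) p
    set N := (Cfsg.pCore p (G ⧸ centralizer (Q : Set G))).comap (QuotientGroup.mk' (centralizer (Q : Set G)))
    have hN : IsPGroup p N := by
      refine (Cfsg.Lib.Solv.isPGroup_pCore (G := G ⧸ centralizer (Q : Set G)) p).comap_of_ker_isPGroup _ ?_
      rw [QuotientGroup.ker_mk']
      exact hQp.to_le hc
    exact Cfsg.Lib.Solv.le_pCore inferInstance hN h2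
  set V : Subgroup G := normalClosure (W : Set G)
  have hWV : W ≤ V := le_normalClosure
  have hVQ : V ≤ Q := normalClosure_le_normal hWQ
  have hVab : ∀ a ∈ V, ∀ b ∈ V, a * b = b * a := by
    haveI hch : (Cfsg.dStar ↥Q).Characteristic := by
      refine characteristic_iff_map_le.2 fun φ => ?_
      rw [Cfsg.dStar, map_le_iff_le_comap]
      exact sSup_le fun A hA => map_le_iff_le_comap.1
        (le_sSup (Cfsg.Lib.PLocal.LocalMisc5.dStarFamily_map φ hA))
    haveI : ((Cfsg.dStar ↥Q).map Q.subtype).Normal := ConjAct.normal_of_characteristic_of_normal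
    have hfam : W.subgroupOf Q ∈ Cfsg.dStarFamily ↥Q := by
      refine ⟨⟨⟨fun a b => Subtype.ext (Subtype.ext (hWc _ (mem_subgroupOf.1 a.2) _ (mem_subgroupOf.1 b.2)))⟩⟩,
        fun x hx a ha => ?_⟩
      have hmap : (W.subgroupOf Q).map (inclusion hQS) = D0 := by
        ext y
        constructor
        · rintro ⟨z, hz, rfl⟩
          obtain ⟨y', hy', e⟩ := mem_subgroupOf.1 hz
          exact (Subtype.ext e : y' = inclusion hQS z) ▸ hy'
        · intro hy
          exact ⟨⟨y, hWQ ⟨y, hy, rfl⟩⟩, mem_subgroupOf.2 ⟨y, hy, rfl⟩, rfl⟩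
      have hx' := congrArg (Subgroup.map (inclusion hQS)) hx
      rw [map_commutator, map_commutator, Subgroup.map_sup, MonoidHom.map_zpowers, hmap, Subgroup.map_bot] at hx'
      have hain : inclusion hQS a ∈ D0 := by rw [← hmap]; exact mem_map_of_mem _ ha
      have := hmem.2 (inclusion hQS x) hx' (inclusion hQS a) hain
      exact inclusion_injective hQS (by rw [map_mul, map_mul]; exact this)
    have hle : V ≤ (Cfsg.dStar ↥Q).map Q.subtype := normalClosure_le_normal fun w hw =>
      ⟨⟨w, hWQ hw⟩, le_sSup hfam (mem_subgroupOf.2 hw), rfl⟩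
    intro a ha b hb
    obtain ⟨a', ha', rfl⟩ := hle ha
    obtain ⟨b', hb', rfl⟩ := hle hb
    exact congrArg Subtype.val (Cfsg.Lib.PLocal.LocalMisc5.comm_of_abelian
      (Cfsg.Lib.PLocal.LocalMisc5.dStar_abelian hQp) ha' hb')
  have hVn : V.Normal := normalClosure_normal
  have hcomV : ∀ v ∈ V, ∀ g : G, ⁅v, g⁆ ∈ V := fun v hv g => by
    rw [show ⁅v, g⁆ = v * (g * v⁻¹ * g⁻¹) by simp only [commutatorElement_def]; group]
    exact mul_mem hv (hVn.conj_mem _ (inv_mem hv) g)
  have key : ∀ x ∈ (S : Subgroup G), (∀ v ∈ V, ⁅⁅v, x⁆, x⁆ = 1) → ∀ v ∈ V, v * x = x * v := by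
    intro x hx h2
    set K : Subgroup G := V ⊓ centralizer ({x} : Set G)
    have hK : ∀ (a : G), a ∈ zpowers x → ∀ k ∈ K, a * k * a⁻¹ = k := by
      rintro _ ⟨i, rfl⟩ k hk
      have h3 : Commute x k := mem_centralizer_iff.1 hk.2 x rfl
      rw [(h3.zpow_left i).eq, mul_inv_cancel_right]
    have hgen : ∀ y ∈ zpowers x, ∀ v ∈ V, ⁅v, y⁆ ∈ K := by
      intro y hy
      rw [zpowers_eq_closure] at hy
      induction hy using Subgroup.closure_induction with
      | mem y hy =>
        rw [Set.mem_singleton_iff.1 hy]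
        exact fun v hv => ⟨hcomV v hv x, mem_centralizer_singleton_iff.2
          (commutatorElement_eq_one_iff_mul_comm.1 (h2 v hv))⟩
      | one => exact fun v _ => by rw [commutatorElement_one_right]; exact one_mem _
      | mul a b ha hb iha ihb =>
        intro v hv
        rw [show ⁅v, a * b⁆ = ⁅v, a⁆ * (a * ⁅v, b⁆ * a⁻¹) by simp only [commutatorElement_def]; group,
          hK a (by rwa [zpowers_eq_closure]) _ (ihb v hv)]
        exact mul_mem (iha v hv) (ihb v hv)
      | inv a ha iha =>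
        intro v hv
        rw [show ⁅v, a⁻¹⁆ = a⁻¹ * ⁅v, a⁆⁻¹ * a⁻¹⁻¹ by simp only [commutatorElement_def]; group,
          hK a⁻¹ (inv_mem (by rwa [zpowers_eq_closure])) _ (inv_mem (iha v hv))]
        exact inv_mem (iha v hv)
    have hq : ⁅⁅V, zpowers x⁆, zpowers x⁆ = ⊥ := by
      refine le_bot_iff.1 (le_trans (commutator_mono
        (commutator_le.2 fun v hv y hy => hgen y hy v hv) le_rfl) ?_)
      refine (commutator_eq_bot_iff_le_centralizer.2 fun k hk => mem_centralizer_iff.2 fun a ha => ?_).le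
      have := hK a ha k hk
      exact mul_inv_eq_iff_eq_mul.1 this
    haveI := hVn
    have hmk := hst V (hQp.to_le hVQ) x hq
    haveI := Cfsg.Lib.Transfer.pCore_normal (G := G ⧸ centralizer (V : Set G)) p
    intro v hv
    have hVC : V ≤ centralizer ({x} : Set G) := by
      refine (closure_le _).2 fun u hu => ?_
      obtain ⟨w, hw, hwu⟩ := Group.mem_conjugatesOfSet_iff.1 hu
      obtain ⟨g, rfl⟩ := isConj_iff.1 hwu
      set y := g⁻¹ * x * g
      have hy : QuotientGroup.mk' (centralizer (V : Set G)) y ∈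
          Cfsg.pCore p (G ⧸ centralizer (V : Set G)) := by
        have h3 := Subgroup.Normal.conj_mem inferInstance _ hmk (QuotientGroup.mk' (centralizer (V : Set G)) g⁻¹)
        simpa [y] using h3
      obtain ⟨s, hs, hsy⟩ := Cfsg.Lib.Solv.pCore_le_sylow p
        (S.mapSurjective (QuotientGroup.mk'_surjective (centralizer (V : Set G)))) hy
      have hc' : s⁻¹ * y ∈ centralizer (V : Set G) := QuotientGroup.eq.1 hsy
      have hsame : ∀ v ∈ V, ⁅v, s⁆ = ⁅v, y⁆ := by
        intro v hv
        have h4 := mem_centralizer_iff.1 hc' v⁻¹ (inv_mem hv)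
        calc ⁅v, s⁆ = v * s * (v⁻¹ * (s⁻¹ * y)) * y⁻¹ := by simp only [commutatorElement_def]; group
          _ = v * s * ((s⁻¹ * y) * v⁻¹) * y⁻¹ := by rw [h4]
          _ = ⁅v, y⁆ := by simp only [commutatorElement_def]; group
      have hy2 : ∀ v ∈ V, ⁅⁅v, s⁆, s⁆ = 1 := by
        intro v hv
        rw [hsame v hv, hsame _ (hcomV v hv y)]
        have h5 := h2 _ (hVn.conj_mem v hv g)
        calc ⁅⁅v, y⁆, y⁆ = g⁻¹ * ⁅⁅g * v * g⁻¹, x⁆, x⁆ * g := by
              simp only [y, commutatorElement_def]; group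
          _ = 1 := by rw [h5]; group
      obtain ⟨w', hw', rfl⟩ := hw
      have hws := hmem.2 ⟨s, hs⟩ (Cfsg.Lib.PLocal.LocalMisc5.class_two hmem.1
        (Z := (V ⊓ centralizer ({s} : Set G)).subgroupOf (S : Subgroup G)) ?_ ?_) w' hw'
      · have hws' : (w' : G) * s = s * w' := congrArg Subtype.val hws
        have h6 : (w' : G) * y = y * w' := by
          have h7 := mem_centralizer_iff.1 hc' (w' : G) (hWV ⟨w', hw', rfl⟩)
          calc (w' : G) * y = (w' * s) * (s⁻¹ * y) := by group
            _ = s * (w' * (s⁻¹ * y)) := by rw [hws', mul_assoc]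
            _ = s * ((s⁻¹ * y) * w') := by rw [h7]
            _ = y * w' := by group
        refine mem_centralizer_singleton_iff.2 ?_
        calc g * (w' : G) * g⁻¹ * x = g * (w' * y) * g⁻¹ := by simp only [y]; group
          _ = g * (y * w') * g⁻¹ := by rw [h6]
          _ = x * (g * (w' : G) * g⁻¹) := by simp only [y]; group
      · intro z hz
        obtain ⟨hzV, hzs⟩ := mem_subgroupOf.1 hz
        exact ⟨Subtype.ext (mem_centralizer_singleton_iff.1 hzs),
          fun a ha => Subtype.ext (hVab _ hzV _ (hWV ⟨a, ha, rfl⟩))⟩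
      · intro a ha
        refine mem_subgroupOf.2 ?_
        show ⁅(a : G), s⁆ ∈ _
        exact ⟨hcomV _ (hWV ⟨a, ha, rfl⟩) s, mem_centralizer_singleton_iff.2
          (commutatorElement_eq_one_iff_mul_comm.1 (hy2 _ (hWV ⟨a, ha, rfl⟩)))⟩
    exact mem_centralizer_singleton_iff.1 (hVC hv)
  have hVS : V ≤ (S : Subgroup G) := hVQ.trans hQS
  have hfam : V.subgroupOf (S : Subgroup G) ∈ Cfsg.dStarFamily ↥(S : Subgroup G) := by
    refine ⟨⟨⟨fun a b => Subtype.ext (Subtype.ext (hVab _ (mem_subgroupOf.1 a.2) _ (mem_subgroupOf.1 b.2)))⟩⟩,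
      fun x hx a ha => Subtype.ext (key x x.2 (fun v hv => ?_) a (mem_subgroupOf.1 ha))⟩
    have h8 : ⁅⁅(⟨v, hVS hv⟩ : ↥(S : Subgroup G)), x⁆, x⁆ = 1 := mem_bot.1 (hx ▸
      commutator_mem_commutator (commutator_mem_commutator (mem_sup_left (mem_subgroupOf.2 hv))
        (mem_sup_right (mem_zpowers x))) (mem_sup_right (mem_zpowers x)))
    exact congrArg Subtype.val h8
  have hVW : V ≤ W := fun v hv => ⟨⟨v, hVS hv⟩, le_sSup hfam (mem_subgroupOf.2 hv), rfl⟩
  rw [le_antisymm hWV hVW]
  exact hVn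

end Cfsg.Agent.S3060
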