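import Cfsg.Statements.S3069
import Cfsg.Agent.Lib.Fusion.FocalProper
import Cfsg.Agent.Lib.Transfer.GroupHyperfocal
import Cfsg.Agent.Lib.Transfer.Abelian
-- import your own Cfsg.Agent.* helpers here

set_option autoImplicit false
open Cfsg

namespace Cfsg.Agent.S3069

/-- Let p ≥ 7 be a prime and S a nontrivial Sylow p-subgroup of the finite group G. If N_G(S)/C_G(S) is a p-group (every element of N_G(S) of order prime to p centralizes S), then O^p(G) < G, i.e. G has a nontrivial p-factor group. -/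
theorem result {G : Type*} [Group G] [Finite G] {p : ℕ} [Fact p.Prime]
    (hp : 7 ≤ p) (S : Sylow p G) (hS : (S : Subgroup G) ≠ ⊥)
    (hN : ∀ g ∈ Subgroup.normalizer ((S : Subgroup G) : Set G), (orderOf g).Coprime p →
      g ∈ Subgroup.centralizer ((S : Subgroup G) : Set G)) :
    Cfsg.pResidual p G ≠ ⊤ := by
  intro hres
  set F := groupFusionSystem (S : Subgroup G)
  have hp' : Nat.Prime p := Fact.out
  have haut : IsPGroup p ↥(F.autGroup S) := by
    rintro ⟨α, hα⟩
    rw [Lib.Fusion.autGroup_group S le_rfl, Lib.Fusion.mem_autInducedBy_iff] at hα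
    obtain ⟨c, -, hc⟩ := hα
    obtain ⟨a, m, hm, ham⟩ := Nat.exists_eq_pow_mul_and_not_dvd (orderOf_pos c).ne' p hp'.ne_one
    refine ⟨a, Subtype.ext (Lib.Fusion.aut_ext fun x hx => ?_)⟩
    show Lib.Fusion.autFun (α ^ p ^ a) x = Lib.Fusion.autFun (1 : MulAut _) x
    have hcN : c ∈ Subgroup.normalizer ((S : Subgroup G) : Set G) :=
      Subgroup.mem_normalizer_fintype fun y hy => hc y hy ▸ Lib.Fusion.autFun_mem α hy
    have hit : ∀ n : ℕ, Lib.Fusion.autFun (α ^ n) x = c ^ n * x * (c ^ n)⁻¹ := by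
      intro n
      induction n with
      | zero => simp [Lib.Fusion.autFun_apply _ hx]
      | succ n ih =>
        rw [pow_succ', Lib.Fusion.autFun_mul _ _ hx, ih, hc _ (by rw [← ih]; exact Lib.Fusion.autFun_mem _ hx), pow_succ']
        group
    have hcen := hN _ (pow_mem hcN (p ^ a)) (by
      rw [orderOf_pow_of_dvd (pow_ne_zero _ hp'.ne_zero) ⟨m, ham⟩, ham,
        Nat.mul_div_cancel_left _ (pow_pos hp'.pos _)]
      exact Nat.Coprime.symm ((hp'.coprime_iff_not_dvd).2 hm))
    rw [hit, Lib.Fusion.autFun_apply _ hx, ← Subgroup.mem_centralizer_iff.1 hcen x hx, mul_inv_cancel_right]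
    rfl
  have hlt := Lib.Fusion.focal_lt_of_autP S.isPGroup' (Lib.Fusion.saturated_group S) (by omega) hS haut
  have h1 : (S : Subgroup G).focalSubgroup ≤ F.focalSubgroup := by
    rw [Subgroup.focalSubgroup_def, Subgroup.closure_le]
    rintro g ⟨hg, x, hx, v, rfl⟩
    have hconj : v * x⁻¹ * v⁻¹ ∈ (S : Subgroup G) := by
      have h1 := mul_mem (inv_mem hx) hg
      rwa [commutatorElement_def, mul_assoc, mul_assoc, inv_mul_cancel_left, ← mul_assoc] at h1
    have h2 := Lib.Fusion.mem_focal (F := F) (Lib.Fusion.mor_group_conj (P := Subgroup.zpowers x⁻¹) (c := v)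
      (Subgroup.zpowers_le.2 (inv_mem hx)) (fun y hy => by
        obtain ⟨n, rfl⟩ := Subgroup.mem_zpowers_iff.1 hy
        rw [← conj_zpow]
        exact zpow_mem hconj n)) (Subgroup.mem_zpowers x⁻¹)
    simpa [commutatorElement_def, mul_assoc] using h2
  have h2 := Lib.Transfer.inf_pResidual_le_focal S
  rw [hres, inf_top_eq] at h2
  exact hlt.not_ge (h2.trans h1)

end Cfsg.Agent.S3069
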