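import Cfsg.Statements.S3082
import Cfsg.Agent.Lib.PLocal.GlaubermanThompson
import Cfsg.Agent.Lib.PLocal.ZJElementary

set_option autoImplicit false
open Cfsg

namespace Cfsg.Agent.S3082

/-- The Glauberman–Thompson normal p-complement criterion for strongly closed subgroups, p odd. Let G be a finite group, P a Sylow p-subgroup and D a subgroup of P strongly closed in P with respect to G. If N_G(Z(J(D))) has a normal p-complement (J(D) generated by the abelian subgroups of D of largest order), or N_G(Ω₁(Z(J_e(D)))) has one (J_e(D) generated by the elementary abelian subgroups of largest order), then G has a normal p-complement. -/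
theorem result {G : Type*} [Group G] [Finite G] {p : ℕ} [Fact p.Prime] (hp : p ≠ 2) (P : Sylow p G) (D : Subgroup G) (hD : Cfsg.IsStronglyClosed D (P : Subgroup G)) (h : Cfsg.HasNormalPComplement p ↥(Subgroup.normalizer ((Cfsg.centerThompsonAOf D) : Set G)) ∨ Cfsg.HasNormalPComplement p ↥(Subgroup.normalizer ((Cfsg.omegaOne p (Cfsg.centerThompsonOf p D)) : Set G))) : Cfsg.HasNormalPComplement p G := by
  open Cfsg.Lib.PLocal in
  rcases h with h | h
  · refine glauberman_thompson hp False G P D hD ?_
    rw [fam_false, ← centerThompsonAOf_eq]
    exact h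
  · refine glauberman_thompson hp True G P D hD ?_
    have e : omegaOne p (centerThompsonOf p D) = zF (El p) D := by
      rw [centerThompsonOf_eq_jZ]
      apply le_antisymm
      · refine (Subgroup.closure_le _).2 fun x hx => Subgroup.mem_sInf.2 fun A hA => ?_
        exact mem_of_centralizes hA (jZ_le D hx.1) hx.2 fun a ha =>
          Subgroup.mem_centralizer_iff.1 hx.1.2 a (le_sSup (α := Subgroup G) hA ha)
      · intro x hx
        obtain ⟨A, hA⟩ := maxF_nonempty (el_bot p) D
        refine Subgroup.subset_closure ⟨⟨le_sSup (α := Subgroup G) hA (sInf_le hA hx), ?_⟩,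
          hA.2.1.2 x (sInf_le hA hx)⟩
        have hle : jF p D ≤ Subgroup.centralizer {x} := sSup_le fun B hB b hb =>
          Subgroup.mem_centralizer_singleton_iff.2 (hB.2.1.1 b hb x (sInf_le hB hx))
        exact Subgroup.mem_centralizer_iff.2 fun y hy =>
          Subgroup.mem_centralizer_singleton_iff.1 (hle hy)
    rw [fam_true, ← e]
    exact h

end Cfsg.Agent.S3082
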