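import Cfsg.Statements.S3116
import Mathlib
import Cfsg.Agent.Lib.TwoFus.Semidihedral
-- import your own Cfsg.Agent.* helpers here

set_option autoImplicit false
open Cfsg

namespace Cfsg.Agent.S3116

/-- The automorphism group of a dihedral 2-group of order at least 8, or of a quasi-dihedral (semidihedral) 2-group of order at least 16, is a 2-group. -/
theorem result {X : Type*} [Group X] [Finite X] (h2 : IsPGroup 2 X)
    (h : (∃ n : ℕ, 4 ≤ n ∧ Nonempty (X ≃* DihedralGroup n)) ∨ Cfsg.IsQuasiDihedral X) : IsPGroup 2 (MulAut X) := by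
  have : Fact (Nat.Prime 2) := ⟨Nat.prime_two⟩
  rcases h with ⟨n, hn, ⟨e⟩⟩ | hS
  · have hcard : Nat.card X = 2 * n := by rw [Nat.card_congr e.toEquiv, DihedralGroup.nat_card]
    haveI : NeZero n := ⟨by omega⟩
    obtain ⟨M, hM⟩ := IsPGroup.iff_card.1 h2
    obtain ⟨m, -, hm⟩ := (Nat.dvd_prime_pow Nat.prime_two).1
      (show n ∣ 2 ^ M from (dvd_mul_left n 2).trans (dvd_of_eq (hcard.symm.trans hM)))
    have hx : orderOf (e.symm (DihedralGroup.r 1)) = 2 ^ m := by
      rw [MulEquiv.orderOf_eq, DihedralGroup.orderOf_r_one, hm]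
    have hxp : ∀ i : ZMod n, e.symm (DihedralGroup.r i) = e.symm (DihedralGroup.r 1) ^ i.val := fun i => by
      rw [← map_pow, DihedralGroup.r_one_pow, ZMod.natCast_zmod_val]
    refine Cfsg.Lib.TwoFus.isPGroup_mulAut_of (y := e.symm (DihedralGroup.sr 0)) hx ?_ ?_ ?_
    · intro s
      obtain ⟨d, rfl⟩ := e.symm.surjective s
      rcases d with i | i
      · exact ⟨i.val, Or.inl (hxp i)⟩
      · refine ⟨(-i).val, Or.inr ?_⟩
        rw [← hxp, ← map_mul, DihedralGroup.r_mul_sr]
        congr 1; simp
    · intro α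
      have ho : orderOf (e (α (e.symm (DihedralGroup.r 1)))) = n := by
        rw [MulEquiv.orderOf_eq, MulEquiv.orderOf_eq, hx, hm]
      cases hd : e (α (e.symm (DihedralGroup.r 1))) with
      | r i =>
        refine ⟨i.val, ?_, ?_⟩
        · rw [hd, DihedralGroup.orderOf_r] at ho
          by_contra hev
          rw [Nat.not_odd_iff_even, even_iff_two_dvd] at hev
          have h2n : 2 ∣ n := by
            rw [hm]; refine dvd_pow_self 2 ?_
            rintro rfl; omega
          have := Nat.le_of_dvd (Nat.gcd_pos_of_pos_left _ (by omega)) (Nat.dvd_gcd h2n hev)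
          have := Nat.div_lt_self (show 0 < n by omega) (show 1 < Nat.gcd n i.val by omega)
          omega
        · rw [← hxp, ← hd, e.symm_apply_apply]
      | sr i =>
        rw [hd, DihedralGroup.orderOf_sr] at ho
        omega
    · intro α
      cases hd : e (α (e.symm (DihedralGroup.sr 0))) with
      | r i =>
        exfalso
        have hα : ∀ g : DihedralGroup n, ∃ j : ZMod n, e (α (e.symm (DihedralGroup.r 1))) = DihedralGroup.r j := fun _ => by
          have ho : orderOf (e (α (e.symm (DihedralGroup.r 1)))) = n := by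
            rw [MulEquiv.orderOf_eq, MulEquiv.orderOf_eq, hx, hm]
          cases hd' : e (α (e.symm (DihedralGroup.r 1))) with
          | r j => exact ⟨j, rfl⟩
          | sr j => rw [hd', DihedralGroup.orderOf_sr] at ho; omega
        obtain ⟨j, hj⟩ := hα 1
        have hc : Commute (DihedralGroup.r i) (DihedralGroup.r j) := by
          show DihedralGroup.r i * DihedralGroup.r j = DihedralGroup.r j * DihedralGroup.r i
          rw [DihedralGroup.r_mul_r, DihedralGroup.r_mul_r, add_comm]
        rw [← hd, ← hj] at hc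
        have hc2 : DihedralGroup.sr (0 : ZMod n) * DihedralGroup.r 1 = DihedralGroup.r 1 * DihedralGroup.sr 0 :=
          e.symm.injective (α.injective (e.injective (by simpa only [map_mul] using hc.eq)))
        rw [DihedralGroup.sr_mul_r, DihedralGroup.r_mul_sr, DihedralGroup.sr.injEq, zero_add, zero_sub] at hc2
        have h2' : ((2 : ℕ) : ZMod n) = 0 := by
          push_cast; rw [← one_add_one_eq_two]; nth_rewrite 1 [hc2]; exact neg_add_cancel 1
        rw [ZMod.natCast_eq_zero_iff] at h2'
        have := Nat.le_of_dvd two_pos h2'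
        omega
      | sr i =>
        refine ⟨(-i).val, ?_⟩
        rw [← hxp, ← map_mul, DihedralGroup.r_mul_sr, show (0 : ZMod n) - -i = i by simp, ← hd, e.symm_apply_apply]
  · obtain ⟨k, ⟨D⟩⟩ := Cfsg.Lib.TwoFus.exists_qdData hS
    have hx : orderOf D.x = 2 ^ (k + 3) := by rw [D.hx, pow_add]; ring
    have hnat : ∀ i : ℤ, ∃ j : ℕ, D.e i = D.x ^ j := fun i => by
      refine ⟨(i % (orderOf D.x : ℕ)).toNat, ?_⟩
      show D.x ^ i = _
      rw [← zpow_natCast, Int.toNat_of_nonneg (Int.emod_nonneg _ (by exact_mod_cast (orderOf_pos _).ne')), zpow_mod_orderOf]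
    refine Cfsg.Lib.TwoFus.isPGroup_mulAut_of (y := D.y) hx ?_ ?_ ?_
    · intro s
      obtain ⟨i, rfl | rfl⟩ := D.cases s
      · obtain ⟨j, hj⟩ := hnat i; exact ⟨j, Or.inl hj⟩
      · obtain ⟨j, hj⟩ := hnat i; exact ⟨j, Or.inr (by rw [hj])⟩
    · intro α
      obtain ⟨i, h | h⟩ := D.cases (α D.x)
      · obtain ⟨j, hj⟩ := hnat i
        refine ⟨j, ?_, h.trans hj⟩
        by_contra hev
        rw [Nat.not_odd_iff_even, even_iff_two_dvd] at hev
        obtain ⟨c, rfl⟩ := hev
        have h1 : (α D.x) ^ 2 ^ (k + 2) = 1 := by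
          rw [h, hj, ← pow_mul, show 2 * c * 2 ^ (k + 2) = 2 ^ (k + 3) * c by ring, pow_mul, ← hx, pow_orderOf_eq_one, one_pow]
        have h2 := orderOf_dvd_iff_pow_eq_one.2 h1
        rw [MulEquiv.orderOf_eq, hx] at h2
        have := Nat.le_of_dvd (by positivity) h2
        have := Nat.pow_lt_pow_right (show 1 < 2 by norm_num) (show k + 2 < k + 3 by omega)
        omega
      · exfalso
        have h1 : (α D.x) ^ 4 = 1 := by
          rw [h, show (4 : ℕ) = 2 * 2 from rfl, pow_mul, pow_two (D.e i * D.y), D.ey_sq, pow_two, ← D.e_add, D.e_eq_one_iff]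
          exact ⟨i, by ring⟩
        have h2 := orderOf_dvd_iff_pow_eq_one.2 h1
        rw [MulEquiv.orderOf_eq, hx] at h2
        have := Nat.le_of_dvd (by norm_num) h2
        have : 2 ^ 3 ≤ 2 ^ (k + 3) := Nat.pow_le_pow_right (by norm_num) (by omega)
        omega
    · intro α
      have hy2 : α D.y * α D.y = 1 := by rw [← map_mul, D.hy, map_one]
      rcases D.involution_cases hy2 (fun h => D.hy1 (α.injective (h.trans (map_one α).symm))) with h | ⟨l, h⟩
      · exfalso
        have : D.y ∈ Subgroup.center X := Subgroup.mem_center_iff.2 fun g => α.injective (by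
          rw [map_mul, map_mul, h]; exact (D.z_central _).eq.symm)
        rcases (D.mem_center_iff _).1 this with h' | h'
        · exact D.hy1 h'
        · exact D.y_notMem (h' ▸ D.e_mem _)
      · obtain ⟨j, hj⟩ := hnat (2 * l)
        exact ⟨j, by rw [h, hj]⟩

end Cfsg.Agent.S3116
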