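import Cfsg.Statements.S3153
import Mathlib
import Cfsg.Agent.Lib.Comp.PLayer
import Cfsg.Agent.Lib.Comp.Component
import Cfsg.Agent.Lib.Comp.Quasisimple
import Cfsg.Agent.Lib.PLocal.LocalMisc4
-- import your own Cfsg.Agent.* helpers here

set_option autoImplicit false
open Cfsg

namespace Cfsg.Agent.S3153

universe u

open Subgroup

variable {X : Type u} [Group X] [Finite X]

theorem two_invol {C : Subgroup X} (hr : Cfsg.PRankLE 2 1 ↥C) {t a : X} (htC : t ∈ C) (ht : t * t = 1)
    (ht1 : t ≠ 1) (haC : a ∈ C) (ha : a * a = 1) (hc : a * t = t * a) : a = 1 ∨ a = t := by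
  by_contra! h
  obtain ⟨ha1, hat⟩ := h
  let f : Multiplicative (ZMod 2) × Multiplicative (ZMod 2) → ↥C := fun v =>
    (⟨a, haC⟩ : ↥C) ^ v.1.toAdd.val * (⟨t, htC⟩ : ↥C) ^ v.2.toAdd.val
  set a' : ↥C := ⟨a, haC⟩
  set t' : ↥C := ⟨t, htC⟩
  have ha' : a' * a' = 1 := Subtype.ext ha
  have ht' : t' * t' = 1 := Subtype.ext ht
  have hc' : Commute a' t' := Subtype.ext hc
  let A : Subgroup ↥C :=
    { carrier := {x | x = 1 ∨ x = a' ∨ x = t' ∨ x = a' * t'}
      one_mem' := Or.inl rfl
      mul_mem' := by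
        have e1 : a' * (a' * t') = t' := by rw [← mul_assoc, ha', one_mul]
        have e2 : t' * a' = a' * t' := hc'.eq.symm
        have e3 : t' * (a' * t') = a' := by rw [← mul_assoc, e2, mul_assoc, ht', mul_one]
        have e4 : a' * t' * a' = t' := by rw [mul_assoc, e2, e1]
        have e5 : a' * t' * t' = a' := by rw [mul_assoc, ht', mul_one]
        have e6 : a' * t' * (a' * t') = 1 := by rw [← mul_assoc, e4, ht']
        rintro x y (rfl | rfl | rfl | rfl) (rfl | rfl | rfl | rfl) <;>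
          simp only [Set.mem_ofPred_eq, one_mul, mul_one, ha', ht', e1, e2, e3, e4, e5, e6] <;> tauto
      inv_mem' := by
        rintro x (rfl | rfl | rfl | rfl)
        · exact Or.inl inv_one
        · exact Or.inr (Or.inl (inv_eq_of_mul_eq_one_right ha'))
        · exact Or.inr (Or.inr (Or.inl (inv_eq_of_mul_eq_one_right ht')))
        · refine Or.inr (Or.inr (Or.inr ?_))
          rw [mul_inv_rev, inv_eq_of_mul_eq_one_right ha', inv_eq_of_mul_eq_one_right ht', hc'.eq] }
  have hA : ∀ x ∈ A, x = 1 ∨ x = a' ∨ x = t' ∨ x = a' * t' := fun x hx => hx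
  have hcomm : IsMulCommutative A := ⟨⟨fun ⟨x, hx⟩ ⟨y, hy⟩ => Subtype.ext (by
    have hx' : Commute x a' ∧ Commute x t' := by
      rcases hA x hx with rfl | rfl | rfl | rfl
      · exact ⟨Commute.one_left _, Commute.one_left _⟩
      · exact ⟨Commute.refl _, hc'⟩
      · exact ⟨hc'.symm, Commute.refl _⟩
      · exact ⟨(Commute.refl a').mul_left hc'.symm, hc'.mul_left (Commute.refl t')⟩
    show x * y = y * x
    rcases hA y hy with rfl | rfl | rfl | rfl
    · simp
    · exact hx'.1
    · exact hx'.2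
    · exact (hx'.1.mul_right hx'.2).eq)⟩⟩
  have hsq : ∀ x ∈ A, x ^ 2 = 1 := by
    intro x hx
    rw [pow_two]
    rcases hA x hx with rfl | rfl | rfl | rfl
    · exact one_mul 1
    · exact ha'
    · exact ht'
    · rw [mul_assoc, ← mul_assoc t', hc'.eq.symm, mul_assoc a' t', ht', mul_one, ha']
  have hle := hr A hcomm hsq
  let g : Fin 3 → ↥A := ![⟨1, Or.inl rfl⟩, ⟨a', Or.inr (Or.inl rfl)⟩, ⟨t', Or.inr (Or.inr (Or.inl rfl))⟩]
  have hg : Function.Injective g := by
    intro i j hij
    have h' : ((g i : ↥C) : X) = ((g j : ↥C) : X) := by rw [hij]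
    fin_cases i <;> fin_cases j <;> simp [g, a', t'] at h' ⊢
    all_goals first | exact ha1 h' | exact hat h' | exact ht1 h' | exact ha1 h'.symm | exact hat h'.symm | exact ht1 h'.symm
  have := Nat.card_le_card_of_injective g hg
  rw [Nat.card_fin] at this
  omega


/-- Let X be a finite group and P a standard subgroup of X whose centralizer has 2-rank at most 1 and whose centre has odd order. Let S be a Sylow 2-subgroup of N_X(P) and t an involution of S centralizing P. Suppose some element g of X normalizes S, does not lie in S, has its square in S, and conjugates t into P·C_X(P). Then P commutes elementwise with the largest normal odd-order subgroup O(X) of X; consequently every t-invariant 2-component of X containing P is quasisimple. -/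
theorem result {X : Type*} [Group X] [Finite X] (P : Subgroup X) (hP : Cfsg.IsStandardSubgroup P)
    (hr : Cfsg.PRankLE 2 1 ↥(Subgroup.centralizer (P : Set X))) (hZ : Odd (Nat.card ↥(Subgroup.center ↥P)))
    (S : Sylow 2 ↥(Subgroup.normalizer (P : Set X))) (t : X) (ht : orderOf t = 2) (htS : t ∈ (S : Subgroup ↥(Subgroup.normalizer (P : Set X))).map (Subgroup.normalizer (P : Set X)).subtype)
    (htP : t ∈ Subgroup.centralizer (P : Set X))
    (g : X) (hgN : ∀ s ∈ (S : Subgroup ↥(Subgroup.normalizer (P : Set X))).map (Subgroup.normalizer (P : Set X)).subtype, g * s * g⁻¹ ∈ (S : Subgroup ↥(Subgroup.normalizer (P : Set X))).map (Subgroup.normalizer (P : Set X)).subtype)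
    (hgS : g ∉ (S : Subgroup ↥(Subgroup.normalizer (P : Set X))).map (Subgroup.normalizer (P : Set X)).subtype) (hg2 : g ^ 2 ∈ (S : Subgroup ↥(Subgroup.normalizer (P : Set X))).map (Subgroup.normalizer (P : Set X)).subtype)
    (hgt : g * t * g⁻¹ ∈ P ⊔ Subgroup.centralizer (P : Set X)) :
    ⁅P, Cfsg.oddCore X⁆ = ⊥ ∧
      ∀ L : Subgroup X, Cfsg.IsPComponent 2 L → P ≤ L → (∀ l ∈ L, t * l * t⁻¹ ∈ L) → Cfsg.IsQuasisimple ↥L := by
  have : Fact (Nat.Prime 2) := ⟨Nat.prime_two⟩
  obtain ⟨hQ, ⟨-, hTI⟩, -, hNN⟩ := hP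
  set C := centralizer (P : Set X) with hC
  set S' := (S : Subgroup ↥(normalizer (P : Set X))).map (normalizer (P : Set X)).subtype with hS'
  set O := Cfsg.oddCore X with hOdef
  have hS'N : S' ≤ (normalizer (P : Set X)) := map_subtype_le _
  have hS'p : IsPGroup 2 ↥S' := S.isPGroup'.map _
  have hPN : P ≤ (normalizer (P : Set X)) := le_normalizer
  have htt : t * t = 1 := by rw [← pow_two, ← ht]; exact pow_orderOf_eq_one t
  have ht1 : t ≠ 1 := fun h => by rw [h, orderOf_one] at ht; omega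
  have htp : ∀ a ∈ P, a * t = t * a := fun a ha => mem_centralizer_iff.1 htP a ha
  have hCt : ∀ x : X, x * t = t * x → x ∈ (normalizer (P : Set X)) := by
    intro x hx
    rw [hNN]
    by_contra hn
    have hodd := hTI x hn
    have h2 : t ∈ C ⊓ C.map (MulAut.conj x).toMonoidHom :=
      ⟨htP, t, htP, by simp [hx]⟩
    have h3 := Subgroup.orderOf_dvd_natCard _ h2
    rw [ht] at h3
    exact Nat.not_even_iff_odd.2 hodd (even_iff_two_dvd.2 h3)
  have hg' : g ∉ (normalizer (P : Set X)) := by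
    intro hgN'
    obtain ⟨k, hk⟩ := hS'p ⟨g ^ 2, hg2⟩
    have hk' : g ^ (2 ^ (k + 1)) = 1 := by
      rw [pow_succ', pow_mul]
      simpa using congrArg Subtype.val hk
    obtain ⟨j, hj⟩ : ∃ j, orderOf g = 2 ^ j := by
      obtain ⟨j, -, hj⟩ := (Nat.dvd_prime_pow Nat.prime_two).1 (orderOf_dvd_of_pow_eq_one hk')
      exact ⟨j, hj⟩
    set g₀ : ↥(normalizer (P : Set X)) := ⟨g, hgN'⟩
    have hp : IsPGroup 2 ↥(zpowers g₀) := IsPGroup.of_card (n := j) (by
      rw [Nat.card_zpowers, ← Subgroup.orderOf_coe]; exact hj)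
    have hn : zpowers g₀ ≤ normalizer ((S : Subgroup ↥(normalizer (P : Set X))) : Set ↥(normalizer (P : Set X))) := by
      rw [zpowers_le]
      refine mem_normalizer_fintype fun s hs => ?_
      obtain ⟨s', hs', e⟩ := hgN (s : X) ⟨s, hs, rfl⟩
      have : g₀ * s * g₀⁻¹ = s' := Subtype.ext e.symm
      show g₀ * s * g₀⁻¹ ∈ _
      rw [this]; exact hs'
    have h : zpowers g₀ ⊓ normalizer ((S : Subgroup ↥(normalizer (P : Set X))) : Set ↥(normalizer (P : Set X))) = zpowers g₀ ⊓ S := hp.inf_normalizer_sylow S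
    have hmem : g₀ ∈ (S : Subgroup ↥(normalizer (P : Set X))) := by
      have : g₀ ∈ zpowers g₀ ⊓ normalizer ((S : Subgroup ↥(normalizer (P : Set X))) : Set ↥(normalizer (P : Set X))) := ⟨mem_zpowers _, hn (mem_zpowers _)⟩
      rw [h] at this
      exact this.2
    exact hgS ⟨g₀, hmem, rfl⟩
  -- `t` is central in `S'`
  have huniq : ∀ a, a ∈ S' → a ∈ C → orderOf a = 2 → ∀ b, b ∈ S' → b ∈ C → orderOf b = 2 → a = b := by
    have hT : IsPGroup 2 ↥(S' ⊓ C : Subgroup X) := hS'p.to_le inf_le_left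
    haveI : Nontrivial ↥(S' ⊓ C : Subgroup X) := ⟨⟨t, htS, htP⟩, 1, fun h => ht1 (congrArg Subtype.val h)⟩
    haveI := hT.center_nontrivial
    obtain ⟨z, hz⟩ := exists_prime_orderOf_dvd_card' (G := center ↥(S' ⊓ C : Subgroup X)) 2 (by
      obtain ⟨k, hk⟩ := IsPGroup.iff_card.1 (hT.to_subgroup (center _))
      have := Finite.one_lt_card (α := center ↥(S' ⊓ C : Subgroup X))
      rw [hk] at this ⊢
      rcases k with _ | k
      · simp at this
      · exact dvd_pow_self 2 (Nat.succ_ne_zero k))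
    have hall : ∀ a, a ∈ S' → a ∈ C → orderOf a = 2 → a = ((z : ↥(S' ⊓ C : Subgroup X)) : X) := by
      intro a haS haC ha
      have h2 : ∀ w : X, orderOf w = 2 → w * w = 1 ∧ w ≠ 1 := fun w hw =>
        ⟨by rw [← pow_two, ← hw]; exact pow_orderOf_eq_one w, fun h => by rw [h, orderOf_one] at hw; omega⟩
      have hz' : orderOf ((z : ↥(S' ⊓ C : Subgroup X)) : X) = 2 := by
        rw [Subgroup.orderOf_coe, Subgroup.orderOf_coe, hz]
      have hcz : a * ((z : ↥(S' ⊓ C : Subgroup X)) : X) = ((z : ↥(S' ⊓ C : Subgroup X)) : X) * a :=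
        congrArg Subtype.val (mem_center_iff.1 z.2 ⟨a, haS, haC⟩)
      exact (two_invol hr (z : ↥(S' ⊓ C : Subgroup X)).2.2 (h2 _ hz').1 (h2 _ hz').2 haC (h2 _ ha).1 hcz).resolve_left
        (h2 _ ha).2
    exact fun a h1 h2 h3 b h4 h5 h6 => (hall a h1 h2 h3).trans (hall b h4 h5 h6).symm
  have htc : ∀ s ∈ S', s * t = t * s := by
    intro s hs
    have hsN : s ∈ normalizer (C : Set X) := hNN ▸ hS'N hs
    have h1 := huniq (s * t * s⁻¹) (mul_mem (mul_mem hs htS) (inv_mem hs))
      ((mem_normalizer_iff.1 hsN t).1 htP)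
      (by rw [← MulAut.conj_apply, (MulAut.conj s).orderOf_eq, ht]) t htS htP ht
    exact mul_inv_eq_iff_eq_mul.1 h1
  set t' := g * t * g⁻¹ with ht'def
  have ht'S : t' ∈ S' := hgN t htS
  have ht'ne : t' ≠ t := fun h => hg' (hCt g (mul_inv_eq_iff_eq_mul.1 h))
  have hct : t' * t = t * t' := htc t' ht'S
  have ht'2 : t' * t' = 1 := by rw [ht'def, conj_mul, htt, mul_one, mul_inv_cancel]
  have hgt' : g * t' * g⁻¹ = t := by
    have := htc (g ^ 2) hg2
    rw [ht'def]
    calc g * (g * t * g⁻¹) * g⁻¹ = g ^ 2 * t * (g ^ 2)⁻¹ := by simp [pow_two, mul_assoc]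
      _ = t := by rw [this, mul_inv_cancel_right]
  -- `t' = p * c`
  have hpc : ∀ a ∈ P, ∀ b ∈ C, a * b = b * a := fun a ha b hb => mem_centralizer_iff.1 hb a ha
  obtain ⟨p0, hp0, c0, hc0, hpc0⟩ : ∃ p0 ∈ P, ∃ c0 ∈ C, p0 * c0 = t' := by
    have h1 := hgt
    rw [← SetLike.mem_coe, coe_mul_of_right_le_normalizer_left P C] at h1
    · exact Set.mem_mul.1 h1
    · rw [hNN]; exact le_normalizer
  obtain ⟨k, hk⟩ : ∃ k, Nat.card ↥(center ↥P) = 2 * k + 1 := id hZ
  have hz0 : p0 * p0 * (c0 * c0) = 1 := by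
    rw [← ht'2, ← hpc0]
    simp only [mul_assoc]
    congr 1
    rw [← mul_assoc c0 p0 c0, ← hpc p0 hp0 c0 hc0, mul_assoc]
  have hzC : p0 * p0 ∈ C := by
    rw [eq_inv_of_mul_eq_one_left hz0]; exact inv_mem (mul_mem hc0 hc0)
  have hzpow : (p0 * p0) ^ (2 * k + 1) = 1 := by
    have hmem : (⟨p0 * p0, mul_mem hp0 hp0⟩ : ↥P) ∈ center ↥P := mem_center_iff.2 fun a => Subtype.ext
      (hpc a a.2 _ hzC)
    rw [← hk, ← orderOf_dvd_iff_pow_eq_one]
    have h := Subgroup.orderOf_dvd_natCard _ hmem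
    rwa [← Subgroup.orderOf_coe] at h
  have hcommpc : Commute p0 c0 := hpc p0 hp0 c0 hc0
  set p := p0 ^ (2 * k + 1) with hpdef
  set c := c0 ^ (2 * k + 1) with hcdef
  have hpP : p ∈ P := pow_mem hp0 _
  have hcC : c ∈ C := pow_mem hc0 _
  have hpce : p * c = t' := by
    rw [hpdef, hcdef, ← hcommpc.mul_pow, hpc0, pow_succ, pow_mul, pow_two, ht'2, one_pow, one_mul]
  have hp2 : p * p = 1 := by rw [hpdef, ← (Commute.refl p0).mul_pow, hzpow]
  have hc2 : c * c = 1 := by
    rw [hcdef, ← (Commute.refl c0).mul_pow, eq_inv_of_mul_eq_one_right hz0, inv_pow, hzpow, inv_one]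
  have hct2 : c * t = t * c := by
    have e : c = p⁻¹ * t' := by rw [← hpce, inv_mul_cancel_left]
    rw [e]
    exact ((Commute.inv_left (htp p hpP)).mul_left hct).eq
  have hc1 : c = 1 ∨ c = t := two_invol hr htP htt ht1 hcC hc2 hct2
  have hp1 : p ≠ 1 := by
    intro h
    rw [h, one_mul] at hpce
    rcases hc1 with e | e <;> rw [e] at hpce
    · exact ht'ne.symm (by
        have : t' = 1 := hpce.symm
        exfalso
        apply ht1
        have := this ▸ ht'def
        exact conj_eq_one_iff.1 this.symm)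
    · exact ht'ne hpce.symm
  haveI hOn : O.Normal := inferInstance
  have hOodd : Odd (Nat.card ↥O) := Nat.coprime_two_right.1 (Cfsg.Lib.Solv.coprime_pPrimeCore 2)
  have hPperf : ⁅P, P⁆ = P := by
    rw [← map_subtype_commutator, hQ.1.commutator_eq_top, ← MonoidHom.range_eq_map, range_subtype]
  have hpZ : ¬ (∀ a ∈ P, a * p = p * a) := by
    intro h
    have hmem : (⟨p, hpP⟩ : ↥P) ∈ center ↥P := mem_center_iff.2 fun a => Subtype.ext (h a a.2)
    have h2 := Subgroup.orderOf_dvd_natCard _ hmem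
    rw [← Subgroup.orderOf_coe, orderOf_eq_prime (p := 2) (by rw [pow_two]; exact hp2) hp1] at h2
    exact Nat.not_even_iff_odd.2 hZ (even_iff_two_dvd.2 h2)
  -- normal subgroups of `P` not containing `p` are central
  have hnorm : ∀ K : Subgroup X, K ≤ P → (∀ a ∈ P, ∀ x ∈ K, a * x * a⁻¹ ∈ K) → p ∉ K →
      ∀ x ∈ K, ∀ a ∈ P, a * x = x * a := by
    intro K hKP hKn hpK x hx a ha
    haveI : (K.subgroupOf P).Normal := ⟨fun y hy b => hKn b b.2 y hy⟩
    rcases Cfsg.Lib.Comp.isQuasisimple_normal hQ (K.subgroupOf P) with h | h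
    · exact absurd (h ▸ mem_top (⟨p, hpP⟩ : ↥P) : (⟨p, hpP⟩ : ↥P) ∈ K.subgroupOf P) hpK
    · exact congrArg Subtype.val (mem_center_iff.1 (h (show (⟨x, hKP hx⟩ : ↥P) ∈ K.subgroupOf P from hx)) ⟨a, ha⟩)
  -- fixed points of `t`
  have hD : ∀ x ∈ O, x * t = t * x → ∀ a ∈ P, a * x = x * a := by
    set D0 := O ⊓ centralizer ({t} : Set X)
    have hle : ⁅D0, P⁆ ≤ P ⊓ O := by
      refine commutator_le.2 fun x hx a ha => ⟨?_, ?_⟩
      · have hxN : x ∈ (normalizer (P : Set X)) := hCt x (mem_centralizer_singleton_iff.1 hx.2)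
        exact P.mul_mem ((mem_normalizer_iff.1 hxN a).1 ha) (P.inv_mem ha)
      · rw [commutatorElement_def, mul_assoc, mul_assoc, ← mul_assoc a]
        exact mul_mem hx.1 (hOn.conj_mem _ (inv_mem hx.1) a)
    have hpO : p ∉ P ⊓ O := fun h => by
      have h2 := Subgroup.orderOf_dvd_natCard _ h.2
      rw [orderOf_eq_prime (p := 2) (by rw [pow_two]; exact hp2) hp1] at h2
      exact Nat.not_even_iff_odd.2 hOodd (even_iff_two_dvd.2 h2)
    have h1 : ⁅⁅D0, P⁆, P⁆ = ⊥ := by
      rw [commutator_eq_bot_iff_le_centralizer]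
      intro x hx
      exact mem_centralizer_iff.2 fun a ha => hnorm (P ⊓ O) inf_le_left
        (fun a ha x hx => ⟨P.mul_mem (P.mul_mem ha hx.1) (P.inv_mem ha), hOn.conj_mem _ hx.2 a⟩) hpO x (hle hx) a ha
    have h2 := Cfsg.Lib.Comp.commutator_eq_bot_of_perfect hPperf h1
    rw [commutator_eq_bot_iff_le_centralizer] at h2
    intro x hx hxt a ha
    exact (mem_centralizer_iff.1 (h2 ha) x ⟨hx, mem_centralizer_singleton_iff.2 hxt⟩).symm
  -- fixed points of `t'`
  have hD' : ∀ y ∈ O, y * t' = t' * y → ∀ a ∈ P, (g * a * g⁻¹) * y = y * (g * a * g⁻¹) := by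
    intro y hy hyt a ha
    have h1 : g⁻¹ * y * g ∈ O := by simpa using hOn.conj_mem _ hy g⁻¹
    have h2 : (g⁻¹ * y * g) * t = t * (g⁻¹ * y * g) := by
      calc (g⁻¹ * y * g) * t = g⁻¹ * (y * t') * g := by simp [ht'def, mul_assoc]
        _ = g⁻¹ * (t' * y) * g := by rw [hyt]
        _ = t * (g⁻¹ * y * g) := by simp [ht'def, mul_assoc]
    have h3 := hD _ h1 h2 a ha
    calc (g * a * g⁻¹) * y = g * (a * (g⁻¹ * y * g)) * g⁻¹ := by simp [mul_assoc]
      _ = g * ((g⁻¹ * y * g) * a) * g⁻¹ := by rw [h3]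
      _ = y * (g * a * g⁻¹) := by simp [mul_assoc]
  -- generation
  let U : Subgroup X := closure ({t, t'} : Set X)
  have hUc : ∀ a ∈ U, ∀ b ∈ U, a * b = b * a := by
    have : IsMulCommutative U := isMulCommutative_closure fun x hx y hy => by
      rcases hx with rfl | rfl <;> rcases hy with rfl | rfl <;> first | rfl | exact hct | exact hct.symm
    exact fun a ha b hb => congrArg Subtype.val (this.is_comm.comm (⟨a, ha⟩ : U) ⟨b, hb⟩)
  have hU2 : ∀ a ∈ U, a * a = 1 := by
    intro a ha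
    induction ha using closure_induction with
    | mem x hx => rcases hx with rfl | rfl
                  · exact htt
                  · exact ht'2
    | one => exact one_mul 1
    | mul x y hx hy ihx ihy =>
      rw [mul_assoc, ← mul_assoc y, hUc y hy x hx, mul_assoc x y y, ihy, mul_one, ihx]
    | inv x hx ih => rw [← mul_inv_rev, ih, inv_one]
  have hgen : ∀ T : Subgroup X, (∀ u ∈ U, u ≠ 1 → ∀ x ∈ O, x * u = u * x → x ∈ T) → O ≤ T := by
    intro T h
    refine Cfsg.Lib.PLocal.LocalMisc4.coprime_generation (p := 2) (U := U)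
      ⟨⟨⟨fun a b => Subtype.ext (hUc a a.2 b b.2)⟩⟩, fun a ha => by rw [pow_two]; exact hU2 a ha⟩
      (fun hd => Nat.not_even_iff_odd.2 hOodd (even_iff_two_dvd.2 hd))
      (fun u _ => by rw [normalizer_eq_top]; exact mem_top u) T fun B hB hi x hx => ?_
    obtain ⟨hxO, hxB⟩ := hx
    have hB1 : B ≠ ⊥ := by
      intro e
      rw [e, relIndex_bot_left] at hi
      have hmt : t ∈ U := subset_closure (Or.inl rfl)
      have hmt' : t' ∈ U := subset_closure (Or.inr rfl)
      let f : Fin 3 → ↥U := ![⟨1, one_mem _⟩, ⟨t, hmt⟩, ⟨t', hmt'⟩]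
      have hf : Function.Injective f := by
        intro i j hij
        have ht'1 : t' ≠ 1 := fun h => ht1 (by rw [ht'def] at h; exact conj_eq_one_iff.1 h)
        have h' : (f i : X) = (f j : X) := by rw [hij]
        fin_cases i <;> fin_cases j <;> simp [f] at h' ⊢
        all_goals first | exact ht1 h' | exact ht'1 h' | exact ht'ne h' | exact ht1 h'.symm | exact ht'1 h'.symm | exact ht'ne h'.symm
      have := Nat.card_le_card_of_injective f hf
      rw [Nat.card_fin] at this
      omega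
    obtain ⟨⟨u, hu⟩, hu1⟩ := (ne_bot_iff_exists_ne_one (H := B)).1 hB1
    exact h u (hB hu) (fun e => hu1 (Subtype.ext e)) x hxO (mem_centralizer_iff.1 hxB u hu).symm
  have hUcases : ∀ u ∈ U, u = 1 ∨ u = t ∨ u = t' ∨ u = t * t' := by
    intro u hu
    induction hu using closure_induction with
    | mem x hx => rcases hx with rfl | rfl <;> simp
    | one => simp
    | mul x y hx hy ihx ihy =>
      have e1 : t * (t * t') = t' := by rw [← mul_assoc, htt, one_mul]
      have e3 : t' * (t * t') = t := by rw [← mul_assoc, hct, mul_assoc, ht'2, mul_one]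
      have e4 : t * t' * t = t' := by rw [mul_assoc, hct, e1]
      have e5 : t * t' * t' = t := by rw [mul_assoc, ht'2, mul_one]
      have e6 : t * t' * (t * t') = 1 := by rw [← mul_assoc, e4, ht'2]
      rcases ihx with rfl | rfl | rfl | rfl <;> rcases ihy with rfl | rfl | rfl | rfl <;>
        simp only [one_mul, mul_one, htt, ht'2, hct, e1, e3, e4, e5, e6] <;> tauto
    | inv x hx ih => rwa [inv_eq_of_mul_eq_one_right (hU2 x hx)]
  -- `P` centralizes `O`
  let K : Subgroup X := P ⊓ centralizer (O : Set X)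
  have hKn : ∀ a ∈ P, ∀ x ∈ K, a * x * a⁻¹ ∈ K := fun a ha x hx =>
    ⟨P.mul_mem (P.mul_mem ha hx.1) (P.inv_mem ha), mem_centralizer_iff.2 fun o ho => by
      have h := mem_centralizer_iff.1 hx.2 (a⁻¹ * o * a) (by simpa using hOn.conj_mem _ ho a⁻¹)
      calc o * (a * x * a⁻¹) = a * ((a⁻¹ * o * a) * x) * a⁻¹ := by simp [mul_assoc]
        _ = a * (x * (a⁻¹ * o * a)) * a⁻¹ := by rw [h]
        _ = a * x * a⁻¹ * o := by simp [mul_assoc]⟩
  have hfinal : ⁅P, O⁆ = ⊥ := by
    by_contra hne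
    have hpK : p ∉ K := by
      intro hpK
      apply hne
      rw [commutator_eq_bot_iff_le_centralizer]
      haveI : (K.subgroupOf P).Normal := ⟨fun y hy b => hKn b b.2 y hy⟩
      intro a ha
      rcases Cfsg.Lib.Comp.isQuasisimple_normal hQ (K.subgroupOf P) with h | h
      · exact ((h ▸ mem_top (⟨a, ha⟩ : ↥P) : (⟨a, ha⟩ : ↥P) ∈ K.subgroupOf P) : a ∈ K).2
      · exact absurd (fun a ha => congrArg Subtype.val
          (mem_center_iff.1 (h (show (⟨p, hpP⟩ : ↥P) ∈ K.subgroupOf P from hpK)) ⟨a, ha⟩)) hpZ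
    rcases hc1 with e | e
    · rw [e, mul_one] at hpce
      have htP' : t = g * p * g⁻¹ := by rw [hpce, hgt']
      have hle : O ≤ centralizer ({t * t'} : Set X) := hgen _ fun u hu hu1 x hx hxu => by
        rw [mem_centralizer_singleton_iff]
        rcases hUcases u hu with rfl | rfl | rfl | rfl
        · exact absurd rfl hu1
        · have h2 : t' * x = x * t' := hpce ▸ hD x hx hxu p hpP
          exact (Commute.mul_right (a := x) hxu h2.symm).eq
        · have h2 : t * x = x * t := by rw [htP']; exact hD' x hx hxu p hpP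
          exact (Commute.mul_right (a := x) h2.symm hxu).eq
        · exact hxu
      refine hpZ fun a ha => ?_
      have hcom : ∀ a ∈ P, a * p * a⁻¹ * p⁻¹ ∈ K := fun a ha => by
        refine ⟨P.mul_mem (P.mul_mem (P.mul_mem ha hpP) (P.inv_mem ha)) (P.inv_mem hpP), mem_centralizer_iff.2 fun o ho => ?_⟩
        have hc : ∀ o ∈ O, o * (t * p) = (t * p) * o := fun o ho => by
          have := mem_centralizer_singleton_iff.1 (hle ho); rwa [← hpce] at this
        have hcomA : a * p * a⁻¹ * p⁻¹ = (a * (t * p) * a⁻¹) * (t * p)⁻¹ := by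
          have h1 : Commute t a⁻¹ := Commute.inv_right (htp a ha).symm
          rw [show t * p = p * t from (htp p hpP).symm]
          calc a * p * a⁻¹ * p⁻¹ = a * p * ((a⁻¹ * t) * t⁻¹) * p⁻¹ := by rw [mul_inv_cancel_right]
            _ = a * p * ((t * a⁻¹) * t⁻¹) * p⁻¹ := by rw [h1.eq]
            _ = _ := by simp [mul_assoc]
        rw [hcomA]
        have h1 : Commute o (a * (t * p) * a⁻¹) := by
          have h := hc (a⁻¹ * o * a) (by simpa using hOn.conj_mem _ ho a⁻¹)
          show o * (a * (t * p) * a⁻¹) = a * (t * p) * a⁻¹ * o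
          calc o * (a * (t * p) * a⁻¹) = a * ((a⁻¹ * o * a) * (t * p)) * a⁻¹ := by simp [mul_assoc]
            _ = a * ((t * p) * (a⁻¹ * o * a)) * a⁻¹ := by rw [h]
            _ = _ := by simp [mul_assoc]
        exact (h1.mul_right (Commute.inv_right (hc o ho))).eq
      -- `a ↦ [a, p]` is a homomorphism into an abelian group
      have hcen : ∀ b ∈ P, ∀ d ∈ K, b * d = d * b := fun b hb d hd => hnorm K inf_le_left hKn hpK d hd b hb
      have h1 : ⁅⁅zpowers p, P⁆, P⁆ = ⊥ := by
        rw [commutator_eq_bot_iff_le_centralizer, commutator_le]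
        intro q hq b hb
        refine mem_centralizer_iff.2 fun w hw => hcen w hw _ ?_
        obtain ⟨i, rfl⟩ := mem_zpowers_iff.1 hq
        have hp' : ∀ i : ℤ, p ^ i = 1 ∨ p ^ i = p := fun i => by
          rcases Int.even_or_odd' i with ⟨j, rfl | rfl⟩
          · exact Or.inl (by rw [zpow_mul, zpow_two, hp2, one_zpow])
          · exact Or.inr (by rw [zpow_add, zpow_mul, zpow_two, hp2, one_zpow, one_mul, zpow_one])
        rcases hp' i with e | e <;> rw [e, commutatorElement_def]
        · simp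
        · have : p * b * p⁻¹ * b⁻¹ = (b * p * b⁻¹ * p⁻¹)⁻¹ := by group
          rw [this]
          refine inv_mem ?_
          exact hcom b hb
      have h2 := Cfsg.Lib.Comp.commutator_eq_bot_of_perfect hPperf h1
      rw [commutator_eq_bot_iff_le_centralizer] at h2
      exact (mem_centralizer_iff.1 (h2 ha) p (mem_zpowers p)).symm
    · rw [e] at hpce
      have hptt : p = t' * t := by rw [← hpce, mul_assoc, htt, mul_one]
      have hpfix : g * p * g⁻¹ = p := by
        calc g * p * g⁻¹ = (g * t' * g⁻¹) * (g * t * g⁻¹) := by rw [hptt, conj_mul]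
          _ = t * t' := by rw [hgt']
          _ = p := by rw [hptt, hct]
      refine hpK ⟨hpP, mem_centralizer_iff.2 fun o ho => ?_⟩
      have hle : O ≤ centralizer ({p} : Set X) := hgen _ fun u hu hu1 x hx hxu => by
        rw [mem_centralizer_singleton_iff]
        rcases hUcases u hu with rfl | rfl | rfl | rfl
        · exact absurd rfl hu1
        · exact (hD x hx hxu p hpP).symm
        · have := hD' x hx hxu p hpP
          rw [hpfix] at this
          exact this.symm
        · rwa [hptt, hct]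
      exact mem_centralizer_singleton_iff.1 (hle ho)
  refine ⟨hfinal, fun L hL hPL _ => ?_⟩
  set OL := Cfsg.pPrimeCore 2 ↥L with hOL
  let π := QuotientGroup.mk' OL
  have hQL : Cfsg.IsQuasisimple (↥L ⧸ OL) := Cfsg.Lib.Comp.pComponent_quotient_quasisimple hL
  have hmapO : OL.map L.subtype = O ⊓ L := Cfsg.Lib.Comp.map_pPrimeCore_of_subnormal hL.1
  have hLperf : ⁅L, L⁆ = L := Cfsg.Lib.Comp.pComponent_perfect hL
  let PL := P.subgroupOf L
  set KL := centralizer (OL : Set ↥L) with hKL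
  haveI hKLn : KL.Normal := normal_centralizer
  have hPK : PL ≤ KL := fun a ha => mem_centralizer_iff.2 fun o ho => Subtype.ext (by
    have h1 : (o : X) ∈ O := (hmapO.le (mem_map_of_mem _ ho)).1
    have h2 : P ≤ centralizer (O : Set X) := (commutator_eq_bot_iff_le_centralizer).1 hfinal
    exact mem_centralizer_iff.1 (h2 ha) _ h1)
  have hPLperf : ⁅PL, PL⁆ = PL := by
    apply map_injective L.subtype_injective
    rw [map_commutator, subgroupOf_map_subtype, inf_eq_left.2 hPL, hPperf]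
  have htopK : KL.map π = ⊤ := by
    haveI := hKLn.map π (QuotientGroup.mk'_surjective _)
    rcases Cfsg.Lib.Comp.isQuasisimple_normal hQL (KL.map π) with h | h
    · exact h
    exfalso
    have h1 : PL.map π = ⊥ := by
      rw [← hPLperf, map_commutator, commutator_eq_bot_iff_le_centralizer]
      exact ((map_mono hPK).trans h).trans (center_le_centralizer _)
    rw [Subgroup.map_eq_bot_iff, QuotientGroup.ker_mk'] at h1
    have hmem : (⟨p, hPL hpP⟩ : ↥L) ∈ OL := h1 hpP
    have h2 : p ∈ O := (hmapO.le ⟨_, hmem, rfl⟩).1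
    have h3 := Subgroup.orderOf_dvd_natCard _ h2
    rw [orderOf_eq_prime (p := 2) (by rw [pow_two]; exact hp2) hp1] at h3
    exact Nat.not_even_iff_odd.2 hOodd (even_iff_two_dvd.2 h3)
  have hKtop : KL.map L.subtype = L := by
    refine hL.2.2 _ ((hKLn.isSubnormal).trans' hL.1) (map_subtype_le _) ?_
    refine le_antisymm (map_mono (map_subtype_le _)) ?_
    rintro _ ⟨l, hl, rfl⟩
    have : π ⟨l, hl⟩ ∈ KL.map π := htopK ▸ mem_top _
    obtain ⟨k, hk, e⟩ := this
    refine ⟨k, ⟨k, hk, rfl⟩, ?_⟩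
    have h1 : k⁻¹ * ⟨l, hl⟩ ∈ OL := QuotientGroup.eq.1 e
    exact QuotientGroup.eq.2 ((hmapO.le ⟨_, h1, rfl⟩).1)
  have hOc : OL ≤ center ↥L := fun o ho => mem_center_iff.2 fun l => by
    have h : (l : X) ∈ KL.map L.subtype := by rw [hKtop]; exact l.2
    obtain ⟨k, hk, e⟩ := h
    rw [← (Subtype.ext e : k = l)]
    exact (mem_centralizer_iff.1 hk o ho).symm
  haveI : Group.IsPerfect ↥L := ⟨map_injective L.subtype_injective (by rw [map_subtype_commutator, hLperf, ← MonoidHom.range_eq_map, range_subtype])⟩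
  haveI : Nontrivial ↥L := (nontrivial_iff_ne_bot L).2 (Cfsg.Lib.Comp.pComponent_ne_bot hL)
  refine Cfsg.Lib.Comp.isQuasisimple_of_normal fun M hM => ?_
  haveI := hM
  haveI := hM.map π (QuotientGroup.mk'_surjective _)
  rcases Cfsg.Lib.Comp.isQuasisimple_normal hQL (M.map π) with h | h
  · left
    refine Cfsg.Lib.Comp.eq_top_of_sup_center M (top_le_iff.1 ?_)
    have h2 : M ⊔ OL = ⊤ := by rw [← QuotientGroup.ker_mk' OL, ← comap_map_eq, h, comap_top]
    exact h2 ▸ sup_le_sup_left hOc M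
  · right
    have hT : ⁅(⊤ : Subgroup ↥L), ⊤⁆ = ⊤ := Group.IsPerfect.commutator_eq_top
    have h1 : ⁅M, (⊤ : Subgroup ↥L)⁆ ≤ OL := by
      rw [← QuotientGroup.ker_mk' OL, ← Subgroup.map_eq_bot_iff, map_commutator,
        commutator_eq_bot_iff_le_centralizer]
      exact h.trans (center_le_centralizer _)
    have h2 : ⁅⁅M, (⊤ : Subgroup ↥L)⁆, (⊤ : Subgroup ↥L)⁆ = ⊥ := by
      rw [commutator_eq_bot_iff_le_centralizer, coe_top, centralizer_univ]
      exact h1.trans hOc
    have h3 := Cfsg.Lib.Comp.commutator_eq_bot_of_perfect hT h2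
    rw [commutator_comm, commutator_eq_bot_iff_le_centralizer, coe_top, centralizer_univ] at h3
    exact h3

end Cfsg.Agent.S3153
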