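import Cfsg.Statements.S3155
import Mathlib
-- import your own Cfsg.Agent.* helpers here

set_option autoImplicit false
open Cfsg

namespace Cfsg.Agent.S3155

/-- Let B be the direct product of three cyclic groups of order 4. Then the automorphism of B inverting every element is not the square of any automorphism of B. -/
theorem result {B : Type*} [CommGroup B] [Finite B] (hB : Nonempty (B ≃* Multiplicative (ZMod 4 × ZMod 4 × ZMod 4)))
    (τ : B ≃* B) : τ.trans τ ≠ MulEquiv.inv B := by
  obtain ⟨e⟩ := hB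
  intro htau
  have ht : ∀ x : B, τ (τ x) = x⁻¹ := fun x => DFunLike.congr_fun htau x
  have hsq : ∀ w : B, w * w = 1 → ∃ a : B, w = a * a := by
    intro w hw
    have key : ∀ u : ZMod 4 × ZMod 4 × ZMod 4, u + u = 0 → ∃ a, u = a + a := by decide
    obtain ⟨a, ha⟩ := key (e w).toAdd (by rw [← toAdd_mul, ← map_mul, hw, map_one, toAdd_one])
    exact ⟨e.symm (Multiplicative.ofAdd a), e.injective (by
      rw [map_mul, e.apply_symm_apply, ← ofAdd_add, ← ha, ofAdd_toAdd])⟩
  have hcard : Nat.card {w : B // w * w = 1} = 8 := by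
    rw [Nat.card_congr (Equiv.subtypeEquiv (e.toEquiv.trans Multiplicative.toAdd)
      (q := fun u : ZMod 4 × ZMod 4 × ZMod 4 => u + u = 0) fun w => by
        show w * w = 1 ↔ (e w).toAdd + (e w).toAdd = 0
        rw [← toAdd_mul, ← map_mul, toAdd_eq_zero, MulEquiv.map_eq_one_iff]),
      Nat.card_eq_fintype_card]
    decide
  let O : Subgroup B := (powMonoidHom 2 : B →* B).ker
  have hO : ∀ w : B, w ∈ O ↔ w * w = 1 := fun w => by simp [O, MonoidHom.mem_ker, sq]
  have hc8 : Nat.card O = 8 := (Nat.card_congr (Equiv.subtypeEquivRight hO)).trans hcard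
  let φ : O →* O :=
    { toFun := fun w => ⟨τ w * w, (hO _).2 (by
        rw [mul_mul_mul_comm, ← map_mul, (hO _).1 w.2, map_one, one_mul])⟩
      map_one' := Subtype.ext (by simp)
      map_mul' := fun u v => Subtype.ext (by simp [mul_mul_mul_comm]) }
  have hinv : ∀ w : O, ((w : B))⁻¹ = w := fun w => inv_eq_of_mul_eq_one_right ((hO _).1 w.2)
  have h1 : φ.range ≤ φ.ker := by
    rintro _ ⟨w, rfl⟩
    rw [MonoidHom.mem_ker]
    refine Subtype.ext ?_
    show τ (τ w * w) * (τ w * w) = 1
    rw [map_mul, ht, hinv, mul_mul_mul_comm, mul_comm (τ (w : B)) (w : B), mul_mul_mul_comm,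
      ← map_mul, (hO _).1 w.2, map_one, one_mul]
  have h2 : φ.ker ≤ φ.range := by
    intro w hw
    have hfix : τ (w : B) = w := by
      have h0 : τ (w : B) * w = 1 := congrArg Subtype.val (MonoidHom.mem_ker.1 hw)
      rw [eq_inv_of_mul_eq_one_left h0, hinv]
    obtain ⟨a, ha⟩ := hsq w ((hO _).1 w.2)
    have hd : (τ a / a) * (τ a / a) = 1 := by
      rw [div_mul_div_comm, ← map_mul, ← ha, hfix, div_self']
    refine ⟨⟨τ a / a, (hO _).2 hd⟩, Subtype.ext ?_⟩
    show τ (τ a / a) * (τ a / a) = w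
    rw [map_div, ht, div_mul_div_cancel, ← inv_inj, inv_div, div_inv_eq_mul, ← ha, hinv]
  have h3 := Subgroup.card_eq_card_quotient_mul_card_subgroup φ.ker
  rw [Nat.card_congr (QuotientGroup.quotientKerEquivRange φ).toEquiv, le_antisymm h1 h2, hc8] at h3
  have h4 : Nat.card φ.ker ≤ 8 := Nat.le_of_dvd (by norm_num) ⟨_, h3⟩
  interval_cases (Nat.card φ.ker) <;> omega

end Cfsg.Agent.S3155
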