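import Cfsg.Statements.S3156
import Mathlib
import Cfsg.Agent.Lib.Classical.UnitarySylowTwoProps
-- import your own Cfsg.Agent.* helpers here

set_option autoImplicit false
open Cfsg

namespace Cfsg.Agent.S3156

open Cfsg.Lib.Classical.UnitarySylowTwo

theorem perm_facts : (Equiv.swap 0 1 * finRotate 3 : Equiv.Perm (Fin 3)) = finRotate 3 * finRotate 3 * Equiv.swap 0 1 ∧
    finRotate 3 * finRotate 3 * finRotate 3 = (1 : Equiv.Perm (Fin 3)) ∧ finRotate 3 ≠ (1 : Equiv.Perm (Fin 3)) ∧
    (Equiv.swap 0 1 * Equiv.swap 0 1 : Equiv.Perm (Fin 3)) = 1 := by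
  decide +kernel

/-- There are no two automorphisms generating a symmetric group of degree three. -/
theorem no_dihedral {F : Type*} [Field F] [Fintype F] (hF : Fintype.card F = 4 ^ 2)
    (ρ x : MulAut (unipGroup hF one_le_two)) (hρ : ρ * ρ * ρ = 1) (hρ1 : ρ ≠ 1) (hx : x * x = 1)
    (hrel : x * ρ = ρ * ρ * x) : False := by
  classical
  have h2 := two_eq_zero hF one_le_two
  have hsig : ∀ a b : F, (a + b) ^ (2 ^ 2) = a ^ (2 ^ 2) + b ^ (2 ^ 2) := pow_add_q hF one_le_two
  let N : F → F := fun a => a ^ (2 ^ 2) * a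
  have hN0 : ∀ a, N a = 0 → a = 0 := fun a h => by
    rcases mul_eq_zero.1 h with h | h
    · exact pow_eq_zero_iff (by norm_num) |>.1 h
    · exact h
  obtain ⟨ω, hω4, hω⟩ : ∃ ω : F, ω ^ (2 ^ 2) = ω ∧ ω * ω + ω + 1 = 0 := by
    have hc : Nat.card (tr hF one_le_two).ker = 2 ^ 2 := (fixed_card hF one_le_two).1
    obtain ⟨t, ht, ht0, ht1⟩ : ∃ t ∈ (tr hF one_le_two).ker, t ≠ 0 ∧ t ≠ 1 := by
      by_contra! hall
      have hle : Nat.card (tr hF one_le_two).ker ≤ Nat.card ↥({0, 1} : Finset F) :=
        Nat.card_le_card_of_injective (fun t => ⟨t.1, by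
          rcases eq_or_ne (t : F) 0 with h | h
          · simp [h]
          · simp [hall t.1 t.2 h]⟩) fun a b h => Subtype.ext (congrArg (fun z : ↥({0, 1} : Finset F) => (z : F)) h)
      rw [hc, Nat.card_eq_fintype_card, Fintype.card_coe] at hle
      exact absurd (hle.trans Finset.card_le_two) (by norm_num)
    have htf := (mem_ker_tr hF one_le_two t).1 ht
    refine ⟨t, htf, ?_⟩
    have h : t * (t - 1) * (t * t + t + 1) = 0 := by linear_combination htf
    rcases mul_eq_zero.1 h with h' | h'
    · rcases mul_eq_zero.1 h' with h'' | h''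
      · exact absurd h'' ht0
      · exact absurd (sub_eq_zero.1 h'') ht1
    · exact h'
  -- the key computation
  have hkey : ∀ u v : F, N u = N v → N (u + v) = N u → u = 0 := by
    intro u v h1 h3
    have e : N (u + ω * v) = N u * (ω * ω + ω + 1) := by
      simp only [N, hsig] at h1 h3 ⊢
      rw [mul_pow, hω4]
      linear_combination ω * h3 - (ω * ω + ω) * h1 - (ω * (v ^ (2 ^ 2) * v)) * h2
    rw [hω, mul_zero] at e
    have hu : u = ω * v := by linear_combination hN0 _ e - ω * v * h2
    have e2 : N u = ω * ω * N v := by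
      simp only [N]
      rw [hu, mul_pow, hω4]
      ring
    rw [← h1] at e2
    refine hN0 u (by linear_combination (ω + 1) * e2 + ω * N u * hω - ω * N u * h2)
  choose lift hlift using exists_parA (hF := hF) (hn := one_le_two)
  have hcen : ∀ (φ : MulAut (unipGroup hF one_le_two)) y, parA y = 0 → parA (φ y) = 0 := fun φ y hy => by
    rw [← Cfsg.Lib.Classical.UnitarySylowTwo.sq_eq_one_iff] at hy ⊢
    rw [← map_pow, hy, map_one]
  let A : MulAut (unipGroup hF one_le_two) → F → F := fun φ a => parA (φ (lift a))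
  have hA : ∀ φ y, parA (φ y) = A φ (parA y) := by
    intro φ y
    show _ = parA (φ (lift (parA y)))
    set w := lift (parA y) with hw
    have hinv : parA w⁻¹ = parA w := by
      have h := (par_mul w⁻¹ w).1
      rw [inv_mul_cancel, par_one.1] at h
      linear_combination -h - parA w * h2
    have hz : parA (y * w⁻¹) = 0 := by
      rw [(par_mul _ _).1, hinv, hw, hlift]
      linear_combination parA y * h2
    have h := (par_mul (φ (y * w⁻¹)) (φ w)).1
    rw [← map_mul, inv_mul_cancel_right, hcen φ _ hz, zero_add] at h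
    exact h
  have hAadd : ∀ φ a b, A φ (a + b) = A φ a + A φ b := fun φ a b => by
    rw [show a + b = parA (lift a * lift b) by rw [(par_mul _ _).1, hlift, hlift], ← hA, map_mul, (par_mul _ _).1]
  have hAmul : ∀ φ ψ a, A (φ * ψ) a = A φ (A ψ a) := fun φ ψ a => by
    show parA ((φ * ψ) (lift a)) = _
    rw [MulAut.mul_apply, hA]
  have hAone : ∀ a, A 1 a = a := fun a => by
    show parA ((1 : MulAut (unipGroup hF one_le_two)) (lift a)) = a
    rw [MulAut.one_apply, hlift]
  have hsq : ∀ y : unipGroup hF one_le_two, parB (y ^ 2) = N (parA y) := fun y => by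
    rw [pow_two, (par_mul y y).2]
    linear_combination parB y * h2
  have hNA : ∀ φ a, N (A φ a) = parB (φ (lift a ^ 2)) := fun φ a => by
    rw [map_pow, hsq]
  -- `ρ` moves the centre
  obtain ⟨z, hz, hzρ⟩ : ∃ z, parA z = 0 ∧ ρ z ≠ z := by
    by_contra! hfix
    refine hρ1 (MulEquiv.ext fun y => ?_)
    have hNρ : ∀ a, N (A ρ a) = N a := fun a => by
      rw [hNA, hfix _ (sq_parA _), hsq, hlift]
    have hA1 : ∀ a, A ρ a = a := by
      intro a
      set u := a + A ρ a with hu
      have h3 : A ρ (A ρ u) = u + A ρ u := by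
        have e3 : A ρ (A ρ (A ρ a)) = a := by rw [← hAmul, ← hAmul, hρ, hAone]
        rw [hu, hAadd, hAadd, e3]
        linear_combination -(A ρ a) * h2
      have hu0 := hkey u (A ρ u) (hNρ u).symm (by rw [← h3, hNρ, hNρ])
      linear_combination hu0 - a * h2
    set c := y⁻¹ * ρ y with hc
    have hρy : ρ y = y * c := (mul_inv_cancel_left y (ρ y)).symm
    have hc0 : parA c = 0 := by
      have h := (par_mul y c).1
      rw [← hρy, hA, hA1] at h
      linear_combination -h
    have h3 : (ρ * ρ * ρ) y = y * (c * c * c) := by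
      rw [MulAut.mul_apply, MulAut.mul_apply, hρy, map_mul, hfix c hc0, hρy, map_mul, map_mul, hfix c hc0, hρy]
      simp only [mul_assoc]
    rw [hρ, MulAut.one_apply, left_eq_mul] at h3
    have hcc : c * c = 1 := by rw [← pow_two]; exact (Cfsg.Lib.Classical.UnitarySylowTwo.sq_eq_one_iff c).2 hc0
    rw [hcc, one_mul] at h3
    rw [hρy, h3, mul_one, MulAut.one_apply]
  -- `x` fixes at most one involution
  have huniq : ∀ c d, parA c = 0 → parA d = 0 → c ≠ 1 → d ≠ 1 → x c = c → x d = d → c = d := by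
    intro c d hc hd hc1 hd1 hxc hxd
    by_contra hcd
    let K : Subgroup (Subgroup.center (unipGroup hF one_le_two)) :=
      { carrier := {y | x y.1 = y.1}
        one_mem' := map_one x
        mul_mem' := fun {a b} (ha : x a.1 = a.1) (hb : x b.1 = b.1) => by
          show x (a.1 * b.1) = a.1 * b.1
          rw [map_mul, ha, hb]
        inv_mem' := fun {a} (ha : x a.1 = a.1) => by
          show x a.1⁻¹ = a.1⁻¹
          rw [map_inv, ha] }
    have hK : K = ⊤ := by
      have hdvd := K.card_subgroup_dvd_card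
      rw [center_card] at hdvd
      have hle : 3 ≤ Nat.card K := by
        let c' : K := ⟨⟨c, (mem_center_iff c).2 hc⟩, hxc⟩
        let d' : K := ⟨⟨d, (mem_center_iff d).2 hd⟩, hxd⟩
        haveI : Fintype K := Fintype.ofFinite _
        rw [Nat.card_eq_fintype_card]
        refine le_of_eq_of_le ?_ (Finset.card_le_univ ({1, c', d'} : Finset K))
        symm
        refine Finset.card_eq_three.2 ⟨1, c', d', fun h => hc1 ?_, fun h => hd1 ?_, fun h => hcd ?_, rfl⟩
        · exact (congrArg (fun w : K => w.1.1) h).symm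
        · exact (congrArg (fun w : K => w.1.1) h).symm
        · exact congrArg (fun w : K => w.1.1) h
      refine Subgroup.eq_top_of_card_eq K ?_
      rw [center_card]
      have h4 : Nat.card K ≤ 4 := Nat.le_of_dvd (by norm_num) hdvd
      rcases (show Nat.card K = 3 ∨ Nat.card K = 4 by omega) with h | h
      · rw [h] at hdvd; norm_num at hdvd
      · rw [h]; norm_num
    have hfixall : ∀ w, parA w = 0 → x w = w := fun w hw =>
      (hK.ge (Subgroup.mem_top (⟨w, (mem_center_iff w).2 hw⟩ : Subgroup.center (unipGroup hF one_le_two))) : _)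
    refine hzρ ?_
    have h := congrArg (fun φ : MulAut (unipGroup hF one_le_two) => φ z) hrel
    simp only [MulAut.mul_apply] at h
    rw [hfixall _ (hcen ρ z hz), hfixall z hz] at h
    exact ρ.injective h.symm
  -- two fixed points of the induced map
  let D : F →+ F := AddMonoidHom.mk' (fun a => A x a + a) fun a b => by rw [hAadd]; ring
  have hW : 4 ≤ Nat.card D.ker := by
    have hle : D.range ≤ D.ker := by
      rintro _ ⟨a, rfl⟩
      rw [AddMonoidHom.mem_ker]
      show A x (A x a + a) + (A x a + a) = 0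
      rw [hAadd, ← hAmul, hx, hAone]
      linear_combination (A x a + a) * h2
    have hprod : Nat.card D.ker * Nat.card D.range = 16 := by
      rw [← AddSubgroup.index_ker, AddSubgroup.card_mul_index, Nat.card_eq_fintype_card, hF]
      norm_num
    have := AddSubgroup.card_le_of_le hle
    nlinarith
  obtain ⟨w₁, hw₁, w₂, hw₂, h1, h20, h12⟩ : ∃ w₁ ∈ D.ker, ∃ w₂ ∈ D.ker, w₁ ≠ 0 ∧ w₂ ≠ 0 ∧ w₁ ≠ w₂ := by
    haveI : Fintype D.ker := Fintype.ofFinite _
    rw [Nat.card_eq_fintype_card] at hW
    obtain ⟨a, ha⟩ := Fintype.exists_ne_of_one_lt_card (by omega : 1 < Fintype.card D.ker) 0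
    have hlt : ({0, a} : Finset D.ker).card < (Finset.univ : Finset D.ker).card := by
      rw [Finset.card_univ]
      exact lt_of_le_of_lt Finset.card_le_two (by omega)
    obtain ⟨b, -, hb⟩ := Finset.exists_mem_notMem_of_card_lt_card hlt
    simp only [Finset.mem_insert, Finset.mem_singleton, not_or] at hb
    exact ⟨a, a.2, b, b.2, fun h => ha (Subtype.ext h), fun h => hb.1 (Subtype.ext h),
      fun h => hb.2 (Subtype.ext h.symm)⟩
  have hval : ∀ w w', w ∈ D.ker → w' ∈ D.ker → w ≠ 0 → w' ≠ 0 → N w = N w' := by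
    intro w w' hw hw' hw0 hw0'
    have hfixN : ∀ w, w ∈ D.ker → x (lift w ^ 2) = lift w ^ 2 := by
      intro w hw
      refine par_ext ?_ ?_
      · rw [hcen x _ (sq_parA _), sq_parA]
      · have h : A x w + w = 0 := hw
        rw [← hNA, hsq, hlift, show A x w = w by linear_combination h - w * h2]
    have hne : ∀ w, w ≠ 0 → lift w ^ 2 ≠ 1 := fun w hw h => hw (by
      rw [← hlift w]; exact (Cfsg.Lib.Classical.UnitarySylowTwo.sq_eq_one_iff _).1 h)
    have := congrArg parB (huniq _ _ (sq_parA (lift w)) (sq_parA (lift w')) (hne w hw0) (hne w' hw0') (hfixN w hw) (hfixN w' hw'))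
    rwa [hsq, hsq, hlift, hlift] at this
  refine h1 (hkey w₁ w₂ (hval _ _ hw₁ hw₂ h1 h20) (hval _ _ (add_mem hw₁ hw₂) hw₁ ?_ h1))
  intro h
  exact h12 (by linear_combination h - w₂ * h2)

/-- If a finite group T is isomorphic to a Sylow 2-subgroup of the projective special unitary group of dimension 3 with parameter 4 (realised over the field with 16 elements), then no subgroup of the automorphism group of T is isomorphic to the symmetric group of degree 3. -/
theorem result {T : Type*} [Group T] [Finite T] (hT : (∃ (F : Type) (_ : Field F) (_ : Fintype F), Fintype.card F = 16 ∧ ∃ S : Sylow 2 (Cfsg.PSU 3 F 4), Nonempty (T ≃* ↥(S : Subgroup (Cfsg.PSU 3 F 4))))) (H : Subgroup (MulAut T)) : ¬ Nonempty (↥H ≃* Equiv.Perm (Fin 3)) := by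
  classical
  obtain ⟨F, _, _, hF, S, ⟨e₁⟩⟩ := hT
  rintro ⟨e⟩
  have hF' : Fintype.card F = 4 ^ 2 := by rw [hF]; norm_num
  have key : ∀ q : ℕ, q = 2 ^ 2 → ∀ P : Sylow 2 (Cfsg.PSU 3 F q),
      Nonempty (↥(P : Subgroup (Cfsg.PSU 3 F q)) ≃* Cfsg.Lib.Classical.UnitarySylowTwo.unipGroup hF' one_le_two) := by
    rintro q rfl P
    exact Cfsg.Lib.Classical.UnitarySylowTwo.exists_equiv_PSU hF' one_le_two P
  obtain ⟨e₂⟩ := key 4 (by norm_num) S
  let E := MulAut.congr (e₁.trans e₂)
  let f : Equiv.Perm (Fin 3) →* MulAut (Cfsg.Lib.Classical.UnitarySylowTwo.unipGroup hF' one_le_two) :=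
    E.toMonoidHom.comp (H.subtype.comp e.symm.toMonoidHom)
  have hf : Function.Injective f := E.injective.comp (H.subtype_injective.comp e.symm.injective)
  obtain ⟨h1, h2, h3, h4⟩ := perm_facts
  refine no_dihedral hF' (f (finRotate 3)) (f (Equiv.swap 0 1)) ?_ ?_ ?_ ?_
  · rw [← map_mul, ← map_mul, h2, map_one]
  · exact fun h => h3 (hf (h.trans (map_one f).symm))
  · rw [← map_mul, h4, map_one]
  · rw [← map_mul, ← map_mul, ← map_mul, h1]

end Cfsg.Agent.S3156
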