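import Cfsg.Statements.S3171
import Cfsg.Agent.Lib.FusionCert.Groups
import Cfsg.Agent.Lib.FusionCert.SylowM24Model
-- import your own Cfsg.Agent.* helpers here

set_option autoImplicit false
open Cfsg

namespace Cfsg.Agent.S3171
open Cfsg.Lib.FusionCert Cfsg.Lib.FusionCert.SylowM24

instance : Fact (Nat.Prime 2) := ⟨Nat.prime_two⟩

noncomputable abbrev SG : Subgroup (Equiv.Perm Cfsg.GolayPt) := DataM24.sylGrp.grp

theorem key_of (σ : SG) : ∃ x ∈ DataM24.sylGrp.tree.keys, perm x = σ.1 := (Grp.mem_grp_iff syl_wf).1 σ.2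

noncomputable def phi (σ : SG) : Q9 := code (Classical.choose (key_of σ))

theorem phi_eq {σ : SG} {x : ℕ} (hx : x ∈ DataM24.sylGrp.tree.keys) (h : perm x = σ.1) : phi σ = code x := by
  obtain ⟨h1, h2⟩ := Classical.choose_spec (key_of σ)
  rw [phi, perm_inj (Grp.key_facts syl_wf h1).1 (Grp.key_facts syl_wf hx).1 (h2.trans h.symm)]

theorem phi_one : phi 1 = 1 := by
  have h1 : Cfsg.Lib.FusionCert.one ∈ DataM24.sylGrp.tree.keys := by
    have h := syl_wf
    simp only [Grp.wf, Bool.and_eq_true] at h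
    exact Tr.mem_sound h.1.2
  rw [phi_eq h1 perm_one, code_one]

theorem phi_gen {p : ℕ × Q9} (hp : p ∈ DataM24.sylGrp.gens.zip imgs) (hmem : perm p.1 ∈ SG) (τ : SG) :
    phi (⟨perm p.1, hmem⟩ * τ) = p.2 * phi τ := by
  obtain ⟨x, hx, hxe⟩ := key_of τ
  have hg := (List.of_mem_zip hp).1
  have h1 := List.all_eq_true.1 code_step x hx
  have h2 := List.all_eq_true.1 h1 p hp
  rw [beq_iff_eq] at h2
  have hm := Tr.mem_sound ((Grp.key_facts syl_wf hx).2.2.2.2 _ hg)
  have he : perm (mulN p.1 x) = ((⟨perm p.1, hmem⟩ : SG) * τ).1 := by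
    rw [perm_mul (Grp.gens_ok syl_wf hg) (Grp.key_facts syl_wf hx).1, hxe]; rfl
  rw [phi_eq hm he, h2, phi_eq hx hxe]

theorem phi_word : ∀ (gs : List ℕ) (us : List Q9), gs.length = us.length →
    (∀ p ∈ gs.zip us, p ∈ DataM24.sylGrp.gens.zip imgs) →
    ∀ w, ∀ h : perm (prodW gs w) ∈ SG, ∀ τ : SG, phi (⟨perm (prodW gs w), h⟩ * τ) = prodU us w * phi τ
  | [], [], _, _ => fun w h τ => by
    have e : (⟨perm (prodW [] w), h⟩ : SG) = 1 := Subtype.ext (by show perm (prodW [] w) = (1 : Equiv.Perm Cfsg.GolayPt); rw [prodW]; exact perm_one)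
    rw [e, one_mul]; exact (one_mul _).symm
  | g :: gs, u :: us, hlen, hp => fun w h τ => by
    have hp0 := hp (g, u) List.mem_cons_self
    have hg := (List.of_mem_zip hp0).1
    have hgS : perm g ∈ SG := Subgroup.subset_closure ⟨g, hg, rfl⟩
    have hsub : ∀ p ∈ gs.zip us, p ∈ DataM24.sylGrp.gens.zip imgs := fun p hp' => hp p (List.mem_cons_of_mem _ hp')
    have hall : ∀ x ∈ gs, x ∈ DataM24.sylGrp.gens := by
      intro x hx
      obtain ⟨i, hi, rfl⟩ := List.getElem_of_mem hx
      have hi' : i < us.length := by simpa using (Nat.succ_injective hlen ▸ hi)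
      exact (List.of_mem_zip (hsub (gs[i], us[i]) (by
        rw [List.mem_iff_getElem]
        exact ⟨i, by simp [List.length_zip, hi, hi'], by simp⟩))).1
    obtain ⟨h5, h6⟩ := prodW_spec (gs := gs) (fun x hx => Grp.gens_ok syl_wf (hall x hx)) (w / 2)
    have hS : perm (prodW gs (w / 2)) ∈ SG :=
      Subgroup.closure_mono (show {σ | ∃ x ∈ gs, perm x = σ} ⊆ {σ | ∃ x ∈ DataM24.sylGrp.gens, perm x = σ} from fun σ ⟨x, hx, e⟩ => ⟨x, hall x hx, e⟩) h6
    have ih := phi_word gs us (Nat.succ_injective hlen) hsub (w / 2) hS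
    by_cases hw : w % 2 = 1
    · have e : (⟨perm (prodW (g :: gs) w), h⟩ : SG) = ⟨perm g, hgS⟩ * ⟨perm (prodW gs (w / 2)), hS⟩ :=
        Subtype.ext (by
          show perm (prodW (g :: gs) w) = perm g * perm (prodW gs (w / 2))
          rw [prodW, if_pos hw, perm_mul (Grp.gens_ok syl_wf hg) h5])
      rw [e, mul_assoc, phi_gen hp0 hgS, ih τ, prodU, if_pos hw, mul_assoc]
    · have e : (⟨perm (prodW (g :: gs) w), h⟩ : SG) = ⟨perm (prodW gs (w / 2)), hS⟩ :=
        Subtype.ext (by
          show perm (prodW (g :: gs) w) = perm (prodW gs (w / 2))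
          rw [prodW, if_neg hw])
      rw [e, ih τ, prodU, if_neg hw]

theorem word_eq (σ : SG) : ∃ w, perm (prodW DataM24.sylGrp.gens w) = σ.1 := by
  obtain ⟨x, hx, he⟩ := key_of σ
  have hA := syl_wf
  simp only [Grp.wf, Bool.and_eq_true, List.all_eq_true, beq_iff_eq] at hA
  obtain ⟨⟨k, w⟩, hm, rfl⟩ := List.mem_map.1 hx
  obtain ⟨⟨⟨h1, -⟩, -⟩, -⟩ := hA.2 _ hm
  exact ⟨w, by rw [h1]; exact he⟩

theorem phi_mul (σ τ : SG) : phi (σ * τ) = phi σ * phi τ := by
  obtain ⟨w, hw⟩ := word_eq σ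
  have hS : perm (prodW DataM24.sylGrp.gens w) ∈ SG := hw ▸ σ.2
  have e : σ = ⟨perm (prodW DataM24.sylGrp.gens w), hS⟩ := Subtype.ext hw.symm
  have h := phi_word DataM24.sylGrp.gens imgs imgs_length.symm (fun p hp => hp) w hS
  have h1 := h 1
  rw [mul_one, phi_one, mul_one] at h1
  rw [e, h τ, h1]

noncomputable def phiHom : SG →* Q9 := MonoidHom.mk' phi phi_mul

theorem phi_ker (σ : SG) : phi σ = 1 ↔ σ ∈ Subgroup.center SG := by
  obtain ⟨x, hx, he⟩ := key_of σ
  rw [phi_eq hx he]
  have hb := List.all_eq_true.1 code_centre x hx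
  rw [beq_iff_eq] at hb
  have hxok := (Grp.key_facts syl_wf hx).1
  constructor
  · intro h
    rw [h] at hb
    have hc : ∀ g ∈ DataM24.sylGrp.gens, perm g * σ.1 = σ.1 * perm g := by
      intro g hg
      have := List.all_eq_true.1 (hb.symm.trans (beq_self_eq_true (1 : Q9))) g hg
      rw [beq_iff_eq] at this
      rw [← he, ← perm_mul (Grp.gens_ok syl_wf hg) hxok, ← perm_mul hxok (Grp.gens_ok syl_wf hg), this]
    refine Subgroup.mem_center_iff.2 fun τ => Subtype.ext ?_
    have hle : SG ≤ Subgroup.centralizer ({σ.1} : Set (Equiv.Perm Cfsg.GolayPt)) :=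
      (Subgroup.closure_le _).2 (by
        rintro _ ⟨g, hg, rfl⟩
        exact Subgroup.mem_centralizer_singleton_iff.2 (hc g hg))
    exact Subgroup.mem_centralizer_singleton_iff.1 (hle τ.2)
  · intro h
    rw [← beq_iff_eq (a := code x), hb, List.all_eq_true]
    intro g hg
    rw [beq_iff_eq]
    have hgS : perm g ∈ SG := Subgroup.subset_closure ⟨g, hg, rfl⟩
    have hc := congrArg Subtype.val (Subgroup.mem_center_iff.1 h ⟨perm g, hgS⟩)
    refine perm_inj (ok_mul (Grp.gens_ok syl_wf hg) hxok) (ok_mul hxok (Grp.gens_ok syl_wf hg)) ?_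
    rw [perm_mul (Grp.gens_ok syl_wf hg) hxok, perm_mul hxok (Grp.gens_ok syl_wf hg), he]
    exact hc

theorem card_SG : Nat.card SG = 1024 := by
  rw [Grp.card_grp syl_wf (nodup_of_strictB syl_nodup), syl_len]

theorem card_Q9 : Nat.card Q9 = 512 := by
  rw [Nat.card_eq_fintype_card]; decide +kernel

theorem phi_surjective : Function.Surjective phiHom := by
  classical
  rw [← MonoidHom.range_eq_top]
  refine Subgroup.eq_top_of_le_card _ ?_
  have hker : Nat.card phiHom.ker ≤ 2 := by
    let L := DataM24.sylGrp.tree.keys.filter fun x => code x == 1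
    have hmem : ∀ σ : phiHom.ker, Classical.choose (key_of σ.1) ∈ L := fun σ =>
      List.mem_filter.2 ⟨(Classical.choose_spec (key_of σ.1)).1, beq_iff_eq.2 σ.2⟩
    have := Nat.card_le_card_of_injective
      (fun σ : phiHom.ker => (⟨Classical.choose (key_of σ.1), List.mem_toFinset.2 (hmem σ)⟩ : L.toFinset))
      (fun a b e => Subtype.ext (Subtype.ext (by
        rw [← (Classical.choose_spec (key_of a.1)).2, ← (Classical.choose_spec (key_of b.1)).2]
        exact congrArg perm (congrArg (fun q : L.toFinset => (q : ℕ)) e))))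
    rw [Nat.card_eq_finsetCard] at this
    exact this.trans ((List.toFinset_card_le L).trans code_ker.le)
  have h := Subgroup.card_eq_card_quotient_mul_card_subgroup phiHom.ker
  rw [Nat.card_congr (QuotientGroup.quotientKerEquivRange phiHom).toEquiv, card_SG] at h
  rw [card_Q9]
  nlinarith

theorem proj_div {x y : Q9} (h : proj x = proj y) : proj (x⁻¹ * y) = 0 := by
  rw [proj_mul, ← h, ← proj_mul, inv_mul_cancel]; rfl

def flatGrp : Subgroup Q9 where
  carrier := {x | proj x = 0}
  one_mem' := rfl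
  mul_mem' := by
    intro x y hx hy
    show proj (x * y) = 0
    rw [proj_mul, show proj x = 0 from hx, show proj y = 0 from hy]
    rfl
  inv_mem' := by
    intro x hx
    show proj x⁻¹ = 0
    have h := proj_div (x := x) (y := 1) hx
    rwa [mul_one] at h

theorem flatGrp_elem : Cfsg.IsElementaryAbelian 2 flatGrp := by
  have h2 : ∀ x ∈ flatGrp, x * x = 1 := fun x hx => beq_iff_eq.1 (List.all_eq_true.1 flat_sq x (flat_mem x hx))
  refine ⟨⟨⟨fun x y => Subtype.ext ?_⟩⟩, fun x hx => by rw [pow_two]; exact h2 x hx⟩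
  have hxy := h2 _ (flatGrp.mul_mem x.2 y.2)
  show x.1 * y.1 = y.1 * x.1
  calc x.1 * y.1 = (x.1 * y.1)⁻¹ := (inv_eq_of_mul_eq_one_right hxy).symm
    _ = y.1⁻¹ * x.1⁻¹ := mul_inv_rev _ _
    _ = y.1 * x.1 := by rw [inv_eq_of_mul_eq_one_right (h2 _ x.2), inv_eq_of_mul_eq_one_right (h2 _ y.2)]

theorem card_flatGrp : Nat.card flatGrp = 64 := by
  rw [← flat_len, ← List.toFinset_card_of_nodup flat_nodup, ← Nat.card_eq_finsetCard]
  refine Nat.card_congr (Equiv.subtypeEquivRight fun x => ?_)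
  rw [List.mem_toFinset]
  refine ⟨flat_mem x, fun hx => ?_⟩
  exact beq_iff_eq.1 (List.mem_filter.1 hx).2

theorem card_le_filter {K : Subgroup Q9} (p : Q9 → Bool) (hK : K ≤ flatGrp) (hp : ∀ x ∈ K, p x = true) :
    Nat.card K ≤ (flat.filter p).length := by
  classical
  have := Nat.card_le_card_of_injective
    (fun x : K => (⟨x.1, List.mem_toFinset.2 (List.mem_filter.2 ⟨flat_mem x.1 (hK x.2), hp x.1 x.2⟩)⟩ : (flat.filter p).toFinset))
    (fun a b e => Subtype.ext (congrArg (fun q : (flat.filter p).toFinset => (q : Q9)) e))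
  rw [Nat.card_eq_finsetCard] at this
  exact this.trans (List.toFinset_card_le _)

theorem commute_rep {x a : Q9} (ha : proj a = 0) (h : x * a = a * x) :
    a * repOf (proj x) = repOf (proj x) * a := by
  have hm : (repOf (proj x))⁻¹ * x ∈ flatGrp := proj_div (proj_repOf x)
  have hc := congrArg Subtype.val (flatGrp_elem.1.is_comm.comm ⟨a, ha⟩ ⟨_, hm⟩)
  replace hc : a * ((repOf (proj x))⁻¹ * x) = (repOf (proj x))⁻¹ * x * a := hc
  calc a * repOf (proj x) = a * x * ((repOf (proj x))⁻¹ * x)⁻¹ := by group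
    _ = x * (a * ((repOf (proj x))⁻¹ * x)⁻¹) := by rw [← h, mul_assoc]
    _ = x * (((repOf (proj x))⁻¹ * x)⁻¹ * a) := by
      congr 1
      exact (Commute.inv_right hc).eq
    _ = repOf (proj x) * a := by group

theorem abelian_sixty_four {A : Subgroup Q9} (hA : IsMulCommutative A) (h64 : Nat.card A = 64) : A = flatGrp := by
  classical
  have hc : ∀ x ∈ A, ∀ y ∈ A, x * y = y * x := fun x hx y hy =>
    congrArg Subtype.val (hA.is_comm.comm ⟨x, hx⟩ ⟨y, hy⟩)
  by_cases hle : A ≤ flatGrp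
  · exact Subgroup.eq_of_le_of_card_ge hle (by rw [h64, card_flatGrp])
  exfalso
  obtain ⟨x, hx, hxf⟩ := SetLike.not_le_iff_exists.1 hle
  have hv : proj x ≠ 0 := hxf
  set K := A ⊓ flatGrp with hK
  by_cases h2 : ∀ y ∈ A, proj y = 0 ∨ proj y = proj x
  · have h16 : Nat.card K ≤ 16 := (card_le_filter _ inf_le_right fun a ha =>
      beq_iff_eq.2 (commute_rep ha.2 (hc x hx a ha.1))).trans (flat_single _ (proj_mem x) hv)
    have := Nat.card_le_card_of_injective
      (fun y : A => if h : proj y.1 = 0 then Sum.inl (⟨y.1, y.2, h⟩ : K)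
        else Sum.inr (⟨x⁻¹ * y.1, A.mul_mem (A.inv_mem hx) y.2, proj_div ((h2 y.1 y.2).resolve_left h).symm⟩ : K))
      (by
        intro a b e
        dsimp only at e
        split_ifs at e with ha hb hb
        · exact Subtype.ext (congrArg (fun q : K => (q : Q9)) (Sum.inl.inj e))
        · exact Subtype.ext (mul_left_cancel (congrArg (fun q : K => (q : Q9)) (Sum.inr.inj e))))
    rw [Nat.card_sum, h64] at this
    omega
  push Not at h2
  obtain ⟨y, hy, hy0, hyx⟩ := h2
  have h8 : Nat.card K ≤ 8 := (card_le_filter _ inf_le_right fun a ha => by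
    rw [Bool.and_eq_true, beq_iff_eq, beq_iff_eq]
    exact ⟨commute_rep ha.2 (hc x hx a ha.1), commute_rep ha.2 (hc y hy a ha.1)⟩).trans
      (flat_pair _ (proj_mem x) _ (proj_mem y) hv hy0 hyx.symm)
  obtain ⟨v, hvS, hv'⟩ : ∃ v ∈ projVals, ∀ z ∈ A, proj z ≠ v := by
    by_contra hcon
    push Not at hcon
    obtain ⟨p, hp, hpv⟩ := hcon 2 (by decide)
    obtain ⟨q, hq, hqv⟩ := hcon 4 (by decide)
    have e := congrArg proj (hc p hp q hq)
    rw [proj_mul, proj_mul, hpv, hqv] at e
    revert e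
    decide +kernel
  let rep : ℕ → A := fun w => if h : ∃ z : A, proj z.1 = w then Classical.choose h else 1
  have hrep : ∀ z : A, proj (rep (proj z.1)).1 = proj z.1 := fun z => by
    have h : ∃ z' : A, proj z'.1 = proj z.1 := ⟨z, rfl⟩
    simp only [rep, dif_pos h]
    exact Classical.choose_spec h
  have := Nat.card_le_card_of_injective
    (fun z : A => ((⟨proj z.1, Finset.mem_erase.2 ⟨hv' z.1 z.2, proj_mem z.1⟩⟩ : projVals.erase v),
      (⟨(rep (proj z.1)).1⁻¹ * z.1, A.mul_mem (A.inv_mem (rep (proj z.1)).2) z.2, proj_div (hrep z)⟩ : K)))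
    (by
      intro a b e
      have e1 : proj a.1 = proj b.1 := congrArg (fun q : (projVals.erase v) × K => q.1.1) e
      have e2 := congrArg (fun q : (projVals.erase v) × K => q.2.1) e
      simp only at e2
      rw [e1] at e2
      exact Subtype.ext (mul_left_cancel e2))
  rw [Nat.card_prod, h64, Nat.card_eq_finsetCard, Finset.card_erase_of_mem hvS] at this
  have h8' : projVals.card = 8 := by decide
  rw [h8'] at this
  omega

theorem card_center_coatom {M : Subgroup Q9} (hM : IsCoatom M) : Nat.card (Subgroup.center M) ≤ 8 := by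
  classical
  have hP : IsPGroup 2 Q9 := IsPGroup.of_card (n := 9) (by rw [card_Q9]; norm_num)
  obtain ⟨m, hm⟩ := IsPGroup.iff_card.1 (hP.to_subgroup M)
  have hmul := M.card_mul_index
  rw [hm, card_Q9] at hmul
  have hm9 : m < 9 := by
    by_contra hcon
    refine hM.1 (Subgroup.eq_top_of_le_card _ ?_)
    rw [card_Q9, hm]
    exact le_trans (by norm_num) (Nat.pow_le_pow_right (by norm_num) (not_lt.1 hcon))
  obtain ⟨K, hK, hMK⟩ := Sylow.exists_subgroup_card_pow_succ (p := 2) (n := m) (by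
    rw [card_Q9, show (512 : ℕ) = 2 ^ 9 by norm_num]; exact pow_dvd_pow 2 hm9) hm
  have hKt : K = ⊤ := by
    refine (hM.le_iff.1 hMK).resolve_right fun e => ?_
    rw [e, hm] at hK
    have := Nat.pow_right_injective (le_refl 2) hK
    omega
  rw [hKt, Subgroup.card_top, card_Q9, show (512 : ℕ) = 2 ^ 9 by norm_num] at hK
  have hm8 : m = 8 := by have := Nat.pow_right_injective (le_refl 2) hK; omega
  subst hm8
  have hidx : M.index = 2 := by norm_num at hmul; omega
  let f : Q9 → ZMod 2 := fun x => if x ∈ M then 0 else 1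
  have hf : ∀ x y, f (x * y) = f x + f y := by
    intro x y
    by_cases hx : x ∈ M <;> by_cases hy : y ∈ M
    · simp [f, hx, hy, M.mul_mem hx hy]
    · have : x * y ∉ M := fun h => hy ((M.mul_mem_cancel_left hx).1 h)
      simp [f, hx, hy, this]
    · have : x * y ∉ M := fun h => hx ((M.mul_mem_cancel_right hy).1 h)
      simp [f, hx, hy, this]
    · have : x * y ∈ M := (Subgroup.mul_mem_iff_of_index_two hidx).2 (iff_of_false hx hy)
      simp [f, hx, hy, this]
      decide
  set c : Fin 4 → ZMod 2 := fun i => f (basisQ i) with hc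
  have hf1 : f 1 = 0 := if_pos M.one_mem
  have hfx : ∀ x : Q9, f x = c 0 * lead x 0 + c 1 * lead x 1 + c 2 * lead x 2 + c 3 * lead x 3 := by
    intro x
    rw [← words_spec x]
    generalize words.getD (toNat9 x) [] = l
    induction l with
    | nil => simp [hf1, lead, show ((1 : Q9).val.val) = 0 from rfl]
    | cons i l ih =>
      rw [List.map_cons, List.prod_cons, hf, ih]
      simp only [lead_mul, lead_basis]
      fin_cases i <;> simp [hc] <;> ring
  have hmem : ∀ x : Q9, x ∈ M ↔ inHyp c x = true := by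
    intro x
    rw [inHyp, beq_iff_eq, ← hfx]
    by_cases hx : x ∈ M <;> simp [f, hx]
  have hc0 : c ≠ 0 := by
    intro h
    refine hM.1 ((Subgroup.eq_top_iff' _).2 fun x => ?_)
    rw [hmem, inHyp, h]
    simp
  let L := (List.range 512).filter fun n => inHyp c (ofNat9 n) &&
    (maxGens.getD (vecIdx c) []).all fun y => ofNat9 y * ofNat9 n == ofNat9 n * ofNat9 y
  have hin : ∀ z : Subgroup.center M, toNat9 (z.1.1) ∈ L := by
    intro z
    obtain ⟨hlt, he⟩ := toNat9_spec z.1.1
    rw [List.mem_filter]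
    refine ⟨List.mem_range.2 hlt, ?_⟩
    rw [he, Bool.and_eq_true, List.all_eq_true]
    refine ⟨(hmem _).1 z.1.2, fun y hy => beq_iff_eq.2 ?_⟩
    have hyM : ofNat9 y ∈ M := (hmem _).2 (List.all_eq_true.1 (maxGens_mem c hc0) y hy)
    exact congrArg Subtype.val (Subgroup.mem_center_iff.1 z.2 ⟨_, hyM⟩)
  have := Nat.card_le_card_of_injective (fun z : Subgroup.center M => (⟨toNat9 z.1.1, List.mem_toFinset.2 (hin z)⟩ : L.toFinset))
    (fun a b e => by
      refine Subtype.ext (Subtype.ext ?_)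
      rw [← (toNat9_spec a.1.1).2, ← (toNat9_spec b.1.1).2]
      exact congrArg ofNat9 (congrArg (fun q : L.toFinset => (q : ℕ)) e))
  rw [Nat.card_eq_finsetCard] at this
  exact this.trans ((List.toFinset_card_le L).trans (maxGens_centre c hc0))

theorem SG_le : SG ≤ Cfsg.M24 := by
  refine (Subgroup.closure_le _).2 ?_
  rintro _ ⟨g, hg, rfl⟩
  exact inM24_sound g (List.all_eq_true.1 syl_m24 g hg)

theorem model (P : Sylow 2 ↥Cfsg.M24) :
    Nonempty (↥(P : Subgroup ↥Cfsg.M24) ⧸ Subgroup.center ↥(P : Subgroup ↥Cfsg.M24) ≃* Q9) := by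
  have hcard : Nat.card (SG.subgroupOf Cfsg.M24) = 1024 := by
    rw [Nat.card_congr (Subgroup.subgroupOfEquivOfLe SG_le).toEquiv, card_SG]
  obtain ⟨P', hP'⟩ := (IsPGroup.of_card (p := 2) (n := 10) (by rw [hcard]; norm_num) :
    IsPGroup 2 (SG.subgroupOf Cfsg.M24)).exists_le_sylow
  have heq : SG.subgroupOf Cfsg.M24 = (P' : Subgroup ↥Cfsg.M24) := by
    refine Subgroup.eq_of_le_of_card_ge hP' ?_
    obtain ⟨k, hk⟩ := IsPGroup.iff_card.1 P'.isPGroup'
    have hd : 2 ^ k ∣ 244823040 := by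
      rw [← hk, ← Cfsg.Lib.Golay.card_M24]; exact Subgroup.card_subgroup_dvd_card _
    have hk10 : k ≤ 10 := by
      by_contra hk11
      have := (pow_dvd_pow 2 (show 11 ≤ k by omega)).trans hd
      norm_num at this
    rw [hk, hcard]
    exact (Nat.pow_le_pow_right (by norm_num) hk10).trans (by norm_num)
  let e : ↥(P : Subgroup ↥Cfsg.M24) ≃* SG :=
    (Sylow.equiv P P').trans ((MulEquiv.subgroupCongr heq.symm).trans (Subgroup.subgroupOfEquivOfLe SG_le))
  let F : ↥(P : Subgroup ↥Cfsg.M24) →* Q9 := phiHom.comp e.toMonoidHom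
  have hFs : Function.Surjective F := phi_surjective.comp e.surjective
  have hFk : F.ker = Subgroup.center ↥(P : Subgroup ↥Cfsg.M24) := by
    ext x
    rw [MonoidHom.mem_ker]
    show phi (e x) = 1 ↔ _
    rw [phi_ker, Subgroup.mem_center_iff, Subgroup.mem_center_iff]
    exact ⟨fun h y => e.injective (by simpa using h (e y)), fun h y => by
      have := congrArg e (h (e.symm y)); simpa using this⟩
  exact ⟨(QuotientGroup.quotientMulEquivOfEq hFk.symm).trans (QuotientGroup.quotientKerEquivOfSurjective F hFs)⟩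


/-- Let P be a Sylow 2-subgroup of the Mathieu group of degree 24 and S the quotient of P by its centre. Then the centre of every maximal subgroup of S has order at most 8; S has an elementary abelian subgroup of order 64; and S has only one abelian subgroup of order 64. -/
theorem result (P : Sylow 2 ↥Cfsg.M24) :
    (∀ M : Subgroup (↥(P : Subgroup ↥Cfsg.M24) ⧸ Subgroup.center ↥(P : Subgroup ↥Cfsg.M24)), IsCoatom M →
        Nat.card ↥(Subgroup.center ↥M) ≤ 8) ∧
      (∃ A : Subgroup (↥(P : Subgroup ↥Cfsg.M24) ⧸ Subgroup.center ↥(P : Subgroup ↥Cfsg.M24)),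
        Cfsg.IsElementaryAbelian 2 A ∧ Nat.card ↥A = 64) ∧
      ∀ A B : Subgroup (↥(P : Subgroup ↥Cfsg.M24) ⧸ Subgroup.center ↥(P : Subgroup ↥Cfsg.M24)),
        IsMulCommutative ↥A → Nat.card ↥A = 64 → IsMulCommutative ↥B → Nat.card ↥B = 64 → A = B := by
  classical
  obtain ⟨E⟩ := model P
  refine ⟨fun M hM => ?_, ⟨flatGrp.map E.symm.toMonoidHom, ?_, ?_⟩, ?_⟩
  · have hM' : IsCoatom (M.map E.toMonoidHom) := by
      refine ⟨fun h => hM.1 ?_, fun K hK => ?_⟩
      · rw [← Subgroup.comap_map_eq_self_of_injective (f := E.toMonoidHom) E.injective M, h, Subgroup.comap_top]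
      · have hlt : M < K.comap E.toMonoidHom := by
          refine lt_of_le_of_ne (Subgroup.map_le_iff_le_comap.1 hK.le) fun e => hK.ne ?_
          rw [e, Subgroup.map_comap_eq_self_of_surjective E.surjective]
        rw [← Subgroup.map_comap_eq_self_of_surjective (f := E.toMonoidHom) E.surjective K, hM.2 _ hlt,
          Subgroup.map_top_of_surjective _ E.surjective]
    refine le_trans (le_of_eq ?_) (card_center_coatom hM')
    exact Nat.card_congr (Subgroup.centerCongr (M.equivMapOfInjective E.toMonoidHom E.injective)).toEquiv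
  · refine ⟨⟨⟨?_⟩⟩, ?_⟩
    · rintro ⟨_, x, hx, rfl⟩ ⟨_, y, hy, rfl⟩
      refine Subtype.ext ?_
      show E.symm x * E.symm y = E.symm y * E.symm x
      rw [← map_mul, ← map_mul]
      exact congrArg E.symm (congrArg Subtype.val (flatGrp_elem.1.is_comm.comm ⟨x, hx⟩ ⟨y, hy⟩))
    · rintro _ ⟨x, hx, rfl⟩
      rw [← map_pow, flatGrp_elem.2 x hx, map_one]
  · rw [Subgroup.card_map_of_injective E.symm.injective, card_flatGrp]
  · intro A B hA hAc hB hBc
    have key : ∀ C : Subgroup _, IsMulCommutative ↥C → Nat.card ↥C = 64 → C.map E.toMonoidHom = flatGrp := by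
      intro C hC hCc
      refine abelian_sixty_four ⟨⟨?_⟩⟩ (by rw [Subgroup.card_map_of_injective E.injective, hCc])
      rintro ⟨_, x, hx, rfl⟩ ⟨_, y, hy, rfl⟩
      refine Subtype.ext ?_
      show E x * E y = E y * E x
      rw [← map_mul, ← map_mul]
      exact congrArg E (congrArg Subtype.val (hC.is_comm.comm ⟨x, hx⟩ ⟨y, hy⟩))
    exact Subgroup.map_injective E.injective ((key A hA hAc).trans (key B hB hBc).symm)


end Cfsg.Agent.S3171
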