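import Cfsg.Statements.S3174
import Mathlib
import Cfsg.Agent.Lib.TwoGroup.BigCentreCentre
-- import your own Cfsg.Agent.* helpers here

set_option autoImplicit false
open Cfsg

namespace Cfsg.Agent.S3174

/-- Let T be a finite 2-group of order at least 2^14 in which the fourth term of the upper central series has order 16. Let W be the centralizer in T of the third term Z₃(T), and suppose the Frattini subgroup of W has order at most 8 and lies in every subgroup of W of index at most 16. Then T has order exactly 2^14; the derived subgroup of W and the Frattini subgroup of W both equal Z₃(T), which is elementary abelian of order 8; the centre of W has order 8; W is normal in T with quotient dihedral of order 8; and W modulo its derived subgroup is elementary abelian of order 2^8. -/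
theorem result {T : Type*} [Group T] [Finite T]
    (hT : IsPGroup 2 T) (ha : 2 ^ 14 ≤ Nat.card T) (hb : Nat.card ↥(Subgroup.upperCentralSeries T 4) = 16)
    (W : Subgroup T) (hW : W = Subgroup.centralizer ((Subgroup.upperCentralSeries T 3 : Subgroup T) : Set T))
    (hc : Nat.card ↥(frattini ↥W) ≤ 8) (hd : ∀ U : Subgroup ↥W, U.index ≤ 16 → frattini ↥W ≤ U) :
    Nat.card T = 2 ^ 14 ∧
      (commutator ↥W).map W.subtype = Subgroup.upperCentralSeries T 3 ∧
      (frattini ↥W).map W.subtype = Subgroup.upperCentralSeries T 3 ∧
      Nat.card ↥(Subgroup.center ↥W) = 8 ∧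
      Nat.card ↥(Subgroup.upperCentralSeries T 3) = 8 ∧ (∀ z ∈ Subgroup.upperCentralSeries T 3, z ^ 2 = 1) ∧
      (∃ (_ : W.Normal), Nonempty (T ⧸ W ≃* DihedralGroup 4)) ∧
      Nat.card (↥W ⧸ commutator ↥W) = 2 ^ 8 ∧ (∀ x : ↥W ⧸ commutator ↥W, x ^ 2 = 1) := by
  classical
  subst hW
  open Cfsg.Lib.TwoGroup.BigCentre in
  exact by
    have h : Hyp T := ⟨hT, ha, hb, hc, hd⟩
    obtain ⟨hidx, hWc, hTc, hΦ, hZ4, -⟩ := exists_model h
    obtain ⟨hel, hD⟩ := elementary h
    have hcen := center_W h
    obtain ⟨M⟩ := nonempty_model h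
    have h3 : Nat.card (Z T 3) = 8 := by rw [card_Z h (by norm_num)]; norm_num
    have hz : Nat.card (Subgroup.center (W T)) = 8 := by
      rw [← Subgroup.card_map_of_injective (W T).subtype_injective, hcen, h3]
    have hDc : Nat.card (commutator (W T)) = 8 := by
      rw [← Subgroup.card_map_of_injective (W T).subtype_injective, hD, h3]
    refine ⟨hTc, hD, hΦ, hz, h3, fun z hzm => by rw [pow_two]; exact hel z hzm, ⟨inferInstance, quotient_equiv h⟩, ?_, ?_⟩
    · have h1 := Subgroup.card_eq_card_quotient_mul_card_subgroup (commutator (W T))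
      rw [hWc, hDc] at h1
      exact Nat.eq_of_mul_eq_mul_right (by norm_num : 0 < 8) (by rw [← h1]; norm_num)
    · intro x
      obtain ⟨y, rfl⟩ := QuotientGroup.mk_surjective x
      rw [← QuotientGroup.mk_pow, QuotientGroup.eq_one_iff, pow_two]
      obtain ⟨v, hv, hve⟩ := hD.ge (M.sq_mem y.2)
      rwa [show y * y = v from Subtype.ext hve.symm]

end Cfsg.Agent.S3174
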