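import Cfsg.Statements.S3175
import Mathlib
import Cfsg.Agent.Lib.TwoGroup.BigCentreAut
import Cfsg.Agent.Lib.TwoGroup.BigCentreUnique
-- import your own Cfsg.Agent.* helpers here

set_option autoImplicit false
open Cfsg

namespace Cfsg.Agent.S3175

/-- Let G be a finite group whose Sylow 2-subgroup T has order at least 2^14 and whose upper central series has fourth term of order 16; let W be the centralizer in T of the third term, and suppose the Frattini subgroup of W has order at most 8 and lies in every subgroup of W of index at most 16. Then the normalizer of T in G has a normal 2-complement, and W is weakly closed in T with respect to G. -/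
theorem result {G : Type*} [Group G] [Finite G]
    (T : Sylow 2 G) (ha : 2 ^ 14 ≤ Nat.card ↥(T : Subgroup G))
    (hb : Nat.card ↥(Subgroup.upperCentralSeries ↥(T : Subgroup G) 4) = 16)
    (W : Subgroup ↥(T : Subgroup G))
    (hW : W = Subgroup.centralizer ((Subgroup.upperCentralSeries ↥(T : Subgroup G) 3 : Subgroup ↥(T : Subgroup G)) : Set ↥(T : Subgroup G)))
    (hc : Nat.card ↥(frattini ↥W) ≤ 8)
    (hd : ∀ U : Subgroup ↥W, U.index ≤ 16 → frattini ↥W ≤ U) :
    Cfsg.HasNormalPComplement 2 ↥(Subgroup.normalizer ((T : Subgroup G) : Set G)) ∧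
      Cfsg.IsWeaklyClosed (W.map (T : Subgroup G).subtype) (T : Subgroup G) := by
  classical
  subst hW
  haveI : Fact (Nat.Prime 2) := ⟨Nat.prime_two⟩
  have h : Cfsg.Lib.TwoGroup.BigCentre.Hyp ↥(T : Subgroup G) := ⟨T.isPGroup', ha, hb, hc, hd⟩
  set N := Subgroup.normalizer ((T : Subgroup G) : Set G) with hN
  have hTN : (T : Subgroup G) ≤ N := Subgroup.le_normalizer
  refine ⟨?_, Subgroup.map_subtype_le _, fun g hg => ?_⟩
  · let P : Sylow 2 ↥N := T.subtype hTN
    haveI hPn : (P : Subgroup ↥N).Normal := by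
      rw [Sylow.coe_subtype]
      exact Subgroup.normal_in_normalizer
    obtain ⟨H, hH⟩ := Subgroup.exists_right_complement'_of_coprime (N := (P : Subgroup ↥N)) P.card_coprime_index
    have hHcop : (Nat.card H).Coprime 2 := by
      rw [← hH.symm.index_eq_card]
      exact (Nat.prime_two.coprime_iff_not_dvd.2 P.not_dvd_index).symm
    have hcent : ∀ a ∈ H, ∀ y ∈ (P : Subgroup ↥N), a * y = y * a := by
      intro a ha y hy
      let φ : ↥N →* MulAut ↥(P : Subgroup ↥N) := MulAut.conjNormal
      let eP : ↥(P : Subgroup ↥N) ≃* ↥(T : Subgroup G) :=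
        (MulEquiv.subgroupCongr (Sylow.coe_subtype T hTN)).trans (Subgroup.subgroupOfEquivOfLe hTN)
      have h1 : MulAut.congr eP (φ a) = 1 := by
        refine Cfsg.Lib.TwoGroup.BigCentre.aut_trivial h _ (orderOf a) ?_ ?_
        · refine Nat.coprime_two_right.1 (Nat.Coprime.coprime_dvd_left ?_ hHcop)
          exact Subgroup.orderOf_dvd_natCard H ha
        · rw [← map_pow, ← map_pow, pow_orderOf_eq_one, map_one, map_one]
      have h2 : φ a = 1 := (MulAut.congr eP).injective (h1.trans (map_one _).symm)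
      have h3 := congrArg (fun f : MulAut ↥(P : Subgroup ↥N) => ((f ⟨y, hy⟩ : ↥(P : Subgroup ↥N)) : ↥N)) h2
      simp only [φ, MulAut.conjNormal_apply, MulAut.one_apply] at h3
      exact mul_inv_eq_iff_eq_mul.1 h3
    refine ⟨P, H, ⟨fun a ha n => ?_⟩, hH.symm⟩
    obtain ⟨⟨y, v⟩, hyv, -⟩ := hH.existsUnique n
    rw [← (hyv : (y : ↥N) * v = n), show (y : ↥N) * v * a * ((y : ↥N) * v)⁻¹ = (y : ↥N) * (v * a * (v : ↥N)⁻¹) * (y : ↥N)⁻¹ by group]
    have hva : (v : ↥N) * a * (v : ↥N)⁻¹ ∈ H := H.mul_mem (H.mul_mem v.2 ha) (H.inv_mem v.2)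
    rw [← hcent _ hva y y.2, mul_inv_cancel_right]
    exact hva
  · set W₀ := Cfsg.Lib.TwoGroup.BigCentre.W ↥(T : Subgroup G)
    change (W₀.map (T : Subgroup G).subtype).map (MulAut.conj g).toMonoidHom ≤ (T : Subgroup G) at hg
    show (W₀.map (T : Subgroup G).subtype).map (MulAut.conj g).toMonoidHom = W₀.map (T : Subgroup G).subtype
    set K := (W₀.map (T : Subgroup G).subtype).map (MulAut.conj g).toMonoidHom with hK
    let e : W₀ ≃* ↥(K.subgroupOf (T : Subgroup G)) :=
      (W₀.equivMapOfInjective _ (T : Subgroup G).subtype_injective).trans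
        (((W₀.map (T : Subgroup G).subtype).equivMapOfInjective _ (MulAut.conj g).injective).trans
          (Subgroup.subgroupOfEquivOfLe hg).symm)
    have heq := Cfsg.Lib.TwoGroup.BigCentre.eq_W h _ e
    rw [show K = (K.subgroupOf (T : Subgroup G)).map (T : Subgroup G).subtype by
      rw [Subgroup.subgroupOf_map_subtype, inf_eq_left.2 hg], heq]

end Cfsg.Agent.S3175
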