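import Cfsg.Statements.S3178
import Mathlib
import Cfsg.Agent.S0111
import Cfsg.Agent.Lib.Transfer.Action
import Cfsg.Agent.Lib.Transfer.NormalPComplement
import Cfsg.Agent.Lib.Invol.Isolated
-- import your own Cfsg.Agent.* helpers here

set_option autoImplicit false
open Cfsg

namespace Cfsg.Agent.S3178

/-- Groups with a modular Sylow 2-subgroup have a normal 2-complement. Let S, of order 2^(n+1) with n ≥ 3, be a Sylow 2-subgroup of a finite group G, and suppose S contains an element a of order 2^n and an involution b with b a b⁻¹ = a^(2^(n-1) + 1); so S is the non-abelian 2-group with a cyclic subgroup of index 2 that is neither dihedral, semidihedral nor generalized quaternion. Then G has a normal 2-complement. -/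
theorem result {G : Type*} [Group G] [Finite G]
    (S : Sylow 2 G) (n : ℕ) (hn : 3 ≤ n) (hS : Nat.card ↥(S : Subgroup G) = 2 ^ (n + 1))
    (a b : G) (ha : a ∈ (S : Subgroup G)) (hb : b ∈ (S : Subgroup G))
    (hao : orderOf a = 2 ^ n) (hbo : orderOf b = 2) (hrel : b * a * b⁻¹ = a ^ (2 ^ (n - 1) + 1)) :
    Cfsg.HasNormalPComplement 2 G := by
  have : Fact (Nat.Prime 2) := ⟨Nat.prime_two⟩
  obtain ⟨d, hd⟩ : ∃ d, n = d + 3 := ⟨n - 3, by omega⟩
  subst hd
  rw [show d + 3 - 1 = d + 2 from rfl] at hrel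
  set m : ℕ := 2 ^ (d + 2) with hm
  have hm4 : m = 4 * 2 ^ d := by rw [hm, pow_add]; ring
  have hN : 2 ^ (d + 3) = 2 * m := by rw [hm, ← pow_succ']
  set z := a ^ m with hz
  have hb2 : b * b = 1 := by rw [← sq]; exact hbo ▸ pow_orderOf_eq_one b
  have haN : a ^ (2 * m) = 1 := by rw [← hN, ← hao, pow_orderOf_eq_one]
  have hzne : z ≠ 1 := fun h => by
    have hm0 : 0 < m := Nat.two_pow_pos _
    have := Nat.le_of_dvd hm0 ((hao.trans hN) ▸ orderOf_dvd_of_pow_eq_one h)
    have := Nat.two_pow_pos d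
    omega
  have hconj : ∀ i : ℕ, b * a ^ i * b⁻¹ = a ^ (i * (m + 1)) := fun i => by
    rw [← conj_pow, hrel, ← pow_mul, mul_comm (m + 1) i]
  set A := Subgroup.zpowers a with hA
  have hAc : Nat.card ↥A = 2 * m := by rw [Nat.card_zpowers, hao, hN]
  have hAS : A ≤ (S : Subgroup G) := Subgroup.zpowers_le.2 ha
  have hbA : b ∉ A := by
    intro h
    obtain ⟨i, rfl⟩ := Subgroup.mem_zpowers_iff.1 h
    have h1 : a ^ i * a * (a ^ i)⁻¹ = a := by
      rw [((Commute.refl a).zpow_left i).eq, mul_inv_cancel_right]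
    rw [h1, pow_succ] at hrel
    exact hzne (mul_eq_right.1 hrel.symm)
  have hAi : A.relIndex (S : Subgroup G) = 2 := by
    have h1 := Subgroup.relIndex_mul_relIndex ⊥ A (S : Subgroup G) bot_le hAS
    rw [Subgroup.relIndex_bot_left, Subgroup.relIndex_bot_left, hAc, hS, pow_succ, hN,
      mul_comm] at h1
    have : 0 < m := Nat.two_pow_pos _
    exact Nat.eq_of_mul_eq_mul_right (by omega : 0 < 2 * m) (h1.trans (mul_comm _ _))
  -- the elements of `S`
  have hmem : ∀ s ∈ (S : Subgroup G), s ∈ A ∨ ∃ i : ℕ, s = a ^ i * b := by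
    intro s hs
    by_cases hsA : s ∈ A
    · exact Or.inl hsA
    right
    have hidx : (A.subgroupOf (S : Subgroup G)).index = 2 := hAi
    have h2 : s * b ∈ A := Subgroup.mem_subgroupOf.1
      ((Subgroup.mul_mem_iff_of_index_two hidx (a := ⟨s, hs⟩) (b := ⟨b, hb⟩)).2 (iff_of_false
        (fun h => hsA (Subgroup.mem_subgroupOf.1 h)) (fun h => hbA (Subgroup.mem_subgroupOf.1 h))))
    obtain ⟨i, hi⟩ := (isOfFinOrder_of_finite a).mem_powers_iff_mem_zpowers.2 h2
    exact ⟨i, by rw [show a ^ i = s * b from hi, mul_assoc, hb2, mul_one]⟩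
  -- the only involution of `A`
  have hAinv : ∀ x ∈ A, orderOf x = 2 → x = z := by
    intro x hx hx2
    obtain ⟨i, rfl⟩ := (isOfFinOrder_of_finite a).mem_powers_iff_mem_zpowers.2 hx
    have h1 : a ^ (i * 2) = 1 := by rw [pow_mul]; exact hx2 ▸ pow_orderOf_eq_one _
    have h2 : m ∣ i := by
      have := orderOf_dvd_of_pow_eq_one h1
      rw [hao, hN, mul_comm] at this
      exact Nat.dvd_of_mul_dvd_mul_right two_pos this
    obtain ⟨j, rfl⟩ := h2
    rcases Nat.even_or_odd j with ⟨l, rfl⟩ | ⟨l, rfl⟩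
    · have hx1 : a ^ (m * (l + l)) = 1 := by
        rw [show m * (l + l) = 2 * m * l by ring, pow_mul, haN, one_pow]
      simp only [hx1, orderOf_one] at hx2
      omega
    · show a ^ (m * (2 * l + 1)) = z
      rw [show m * (2 * l + 1) = 2 * m * l + m by ring, pow_add, pow_mul, haN, one_pow, one_mul]
  have hsq : ∀ s ∈ (S : Subgroup G), s * s ∈ A := by
    intro s hs
    rcases hmem s hs with h | ⟨i, rfl⟩
    · exact A.mul_mem h h
    · rw [show a ^ i * b * (a ^ i * b) = a ^ i * (b * a ^ i * b⁻¹) * (b * b) by group, hconj, hb2,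
        mul_one, ← pow_add]
      exact A.pow_mem (Subgroup.mem_zpowers a) _
  rcases Cfsg.Agent.S0111.result S A hAS hAi b hbo hb hbA with ⟨M, hMn, hMi, hbM⟩ | ⟨g, hg⟩
  · -- a normal subgroup of index 2 with cyclic Sylow subgroup
    haveI := hMn
    obtain ⟨c, hcS, hcM, hco⟩ : ∃ c, c ∈ (S : Subgroup G) ∧ c ∈ M ∧ orderOf c = 2 * m := by
      by_cases haM : a ∈ M
      · exact ⟨a, ha, haM, by rw [hao, hN]⟩
      refine ⟨a * b, mul_mem ha hb,
        (Subgroup.mul_mem_iff_of_index_two hMi).2 (iff_of_false haM hbM), ?_⟩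
      have h1 : (a * b) ^ 2 = a ^ (m + 2) := by
        rw [sq, show a * b * (a * b) = a * (b * a * b⁻¹) * (b * b) by group, hrel, hb2, mul_one,
          ← pow_succ']
      have h2 : orderOf ((a * b) ^ 2) = m := by
        rw [h1, orderOf_pow, hao, hN]
        have hg2 : Nat.gcd (2 * m) (m + 2) = 2 := by
          rw [show m + 2 = 2 * (2 * 2 ^ d + 1) by rw [hm4]; ring, Nat.gcd_mul_left]
          have : Nat.Coprime m (2 * 2 ^ d + 1) := by
            rw [hm]
            refine Nat.Coprime.pow_left _ ((Nat.prime_two.coprime_iff_not_dvd).2 ?_)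
            omega
          rw [this.gcd_eq_one, mul_one]
        rw [hg2]
        omega
      rw [orderOf_pow' _ two_ne_zero] at h2
      have h3 : orderOf (a * b) ∣ 2 * (2 * m) := by
        have := Subgroup.orderOf_dvd_natCard (S : Subgroup G) (mul_mem ha hb)
        rwa [hS, pow_succ', hN] at this
      have hpos : 0 < m := Nat.two_pow_pos _
      rcases Nat.even_or_odd (orderOf (a * b)) with ⟨e, he⟩ | ho
      · rw [he] at h2 ⊢
        rw [show Nat.gcd (e + e) 2 = 2 from Nat.gcd_eq_right (by omega)] at h2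
        omega
      · rw [Nat.coprime_two_right.2 ho |>.gcd_eq_one, Nat.div_one] at h2
        rw [h2] at ho
        rw [hm4, Nat.odd_iff] at ho
        omega
    obtain ⟨R⟩ : Nonempty (Sylow 2 ↥M) := inferInstance
    have hcR : IsPGroup 2 ↥(Subgroup.zpowers (⟨c, hcM⟩ : ↥M)) :=
      IsPGroup.of_card (n := d + 3) (by rw [Nat.card_zpowers, Subgroup.orderOf_mk, hco, hN])
    obtain ⟨R, hR⟩ := hcR.exists_le_sylow
    have hRle : Nat.card ↥(R : Subgroup ↥M) ≤ 2 * m := by
      obtain ⟨j, hj⟩ := R.2.exists_card_eq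
      rw [hj, ← hN]
      refine Nat.pow_le_pow_right two_pos ?_
      have h1 : 2 ^ (j + 1) ∣ Nat.card G := by
        rw [← Subgroup.card_mul_index M, hMi, pow_succ]
        exact mul_dvd_mul_right (hj ▸ Subgroup.card_subgroup_dvd_card _) 2
      obtain ⟨T, hT⟩ := (Sylow.exists_subgroup_card_pow_prime 2 h1)
      obtain ⟨T', hT'⟩ := (IsPGroup.of_card (p := 2) hT).exists_le_sylow (G := G)
      have h2 := Subgroup.card_dvd_of_le hT'
      rw [hT, T'.card_eq_multiplicity, ← S.card_eq_multiplicity, hS] at h2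
      have := (Nat.pow_dvd_pow_iff_le_right one_lt_two).1 h2
      omega
    have hReq : Subgroup.zpowers (⟨c, hcM⟩ : ↥M) = (R : Subgroup ↥M) :=
      Subgroup.eq_of_le_of_card_ge hR (by rw [Nat.card_zpowers, Subgroup.orderOf_mk, hco]; exact hRle)
    have hcyc : IsCyclic ↥(R : Subgroup ↥M) := hReq ▸ Subgroup.isCyclic_zpowers _
    have hMev : 2 ∣ Nat.card ↥M := by
      have := orderOf_dvd_natCard (⟨c, hcM⟩ : ↥M)
      rw [Subgroup.orderOf_mk, hco] at this
      exact (dvd_mul_right 2 m).trans this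
    refine Cfsg.Lib.Transfer.hasNormalPComplement_of_pResidual M
      (Cfsg.Lib.Transfer.pResidual_le_of_index_eq_pow M (k := 1) (by rw [hMi, pow_one])) ?_
    exact Cfsg.Lib.Transfer.hasNormalPComplement_of_normalizer_le_centralizer R
      (IsCyclic.normalizer_le_centralizer ((Nat.minFac_eq_two_iff _).2 hMev) hcyc)
  · -- `b` is conjugate to `z`
    exfalso
    have hgb : g * b * g⁻¹ = z := hAinv _ hg (by rw [← MulAut.conj_apply, MulEquiv.orderOf_eq, hbo])
    set C := Subgroup.centralizer ({z} : Set G) with hC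
    have hSC : (S : Subgroup G) ≤ C := by
      intro s hs
      rw [hC, Subgroup.mem_centralizer_singleton_iff]
      rcases hmem s hs with h | ⟨i, rfl⟩
      · obtain ⟨j, rfl⟩ := Subgroup.mem_zpowers_iff.1 h
        exact ((Commute.refl a).pow_right m).zpow_left j |>.eq
      · have : b * z = z * b := by
          have h1 : b * z * b⁻¹ = z := by
            rw [hz, hconj, hm4, show 4 * 2 ^ d * (4 * 2 ^ d + 1) =
              2 * (4 * 2 ^ d) * (2 * 2 ^ d) + 4 * 2 ^ d by ring, pow_add, pow_mul, ← hm4, haN,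
              one_pow, one_mul]
          exact mul_inv_eq_iff_eq_mul.1 h1
        calc a ^ i * b * z = a ^ i * (b * z) := mul_assoc _ _ _
          _ = (a ^ i * z) * b := by rw [this, mul_assoc]
          _ = z * (a ^ i * b) := by rw [hz, ← pow_add, add_comm, pow_add, mul_assoc]
    -- an element of order 4 commuting with `b`, with square `z`
    set c := a ^ (2 * 2 ^ d) with hc
    have hcc : c * c = z := by rw [hc, ← pow_add, hz, hm4]; ring_nf
    have hcb : Commute c b := by
      have h1 : b * c * b⁻¹ = c := by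
        rw [hc, hconj, show 2 * 2 ^ d * (m + 1) = 2 * m * 2 ^ d + 2 * 2 ^ d by ring, pow_add,
          pow_mul, haN, one_pow, one_mul]
      exact (mul_inv_eq_iff_eq_mul.1 h1).symm
    set c' := g * c * g⁻¹ with hc'
    have hc'C : c' ∈ C := by
      rw [hC, Subgroup.mem_centralizer_singleton_iff, ← hgb, hc']
      calc g * c * g⁻¹ * (g * b * g⁻¹) = g * (c * b) * g⁻¹ := by group
        _ = g * (b * c) * g⁻¹ := by rw [hcb.eq]
        _ = _ := by group
    have hcp : IsPGroup 2 ↥(Subgroup.zpowers (⟨c', hc'C⟩ : ↥C)) := by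
      have h1 : orderOf c' ∣ 2 ^ (d + 3) := by
        rw [hc', ← MulAut.conj_apply, MulEquiv.orderOf_eq, hc, ← hao]
        exact orderOf_pow_dvd _
      obtain ⟨j, -, hj⟩ := (Nat.dvd_prime_pow Nat.prime_two).1 h1
      exact IsPGroup.of_card (n := j) (by rw [Nat.card_zpowers, Subgroup.orderOf_mk, hj])
    obtain ⟨h, hh⟩ := Cfsg.Lib.Invol.exists_conj_mem_sylow hcp (S.subtype hSC)
    have hw : (h : G) * c' * (h : G)⁻¹ ∈ (S : Subgroup G) := hh _ (Subgroup.mem_zpowers _)
    set k := (h : G) * g with hk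
    have hkc : k * c * k⁻¹ = (h : G) * c' * (h : G)⁻¹ := by rw [hk, hc']; group
    have hkz : k * z * k⁻¹ = z := by
      have h1 : k * z * k⁻¹ ∈ A := by
        rw [← hcc, show k * (c * c) * k⁻¹ = (k * c * k⁻¹) * (k * c * k⁻¹) by group, hkc]
        exact hsq _ hw
      refine hAinv _ h1 ?_
      rw [← MulAut.conj_apply, MulEquiv.orderOf_eq, ← hgb, ← MulAut.conj_apply,
        MulEquiv.orderOf_eq, hbo]
    have hkb : k * b * k⁻¹ = z := by
      rw [hk, show (h : G) * g * b * ((h : G) * g)⁻¹ = (h : G) * (g * b * g⁻¹) * (h : G)⁻¹ by group,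
        hgb, show (h : G) * z = z * (h : G) from Subgroup.mem_centralizer_singleton_iff.1 h.2,
        mul_inv_cancel_right]
    have : b = z := (MulAut.conj k).injective (hkb.trans hkz.symm)
    exact hbA (this ▸ A.pow_mem (Subgroup.mem_zpowers a) m)

end Cfsg.Agent.S3178
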