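import Cfsg.Statements.S3180
import Mathlib
import Cfsg.Agent.Lib.TwoFus.Weak
-- import your own Cfsg.Agent.* helpers here

set_option autoImplicit false
open Cfsg

namespace Cfsg.Agent.S3180

/-- Let P be a Sylow p-subgroup of a finite group J and P₁ a subgroup of P that is weakly closed in P with respect to J. If J acts on a set and two points, each fixed by every element of P₁, lie in one J-orbit, then they lie in one orbit of the normalizer of P₁ in J. -/
theorem result {J : Type*} [Group J] [Finite J]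
    {p : ℕ} [Fact p.Prime] (P : Sylow p J) (P₁ : Subgroup J) (hW : Cfsg.IsWeaklyClosed P₁ (P : Subgroup J))
    {Ω : Type*} [MulAction J Ω] (x y : Ω) (hx : ∀ g ∈ P₁, g • x = x) (hy : ∀ g ∈ P₁, g • y = y)
    (hc : ∃ g : J, g • x = y) :
    ∃ g ∈ Subgroup.normalizer (P₁ : Set J), g • x = y := by
  obtain ⟨g, hg⟩ := hc
  have hWH : P₁ ≤ MulAction.stabilizer J x := fun w hw => hx w hw
  have hgH : P₁.map (MulAut.conj g⁻¹).toMonoidHom ≤ MulAction.stabilizer J x := by
    rintro _ ⟨w, hw, rfl⟩
    simp only [MulEquiv.coe_toMonoidHom, MulAut.conj_apply, inv_inv, MulAction.mem_stabilizer_iff,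
      mul_smul]
    rw [hg, hy w hw, inv_smul_eq_iff, hg]
  obtain ⟨c, hcH, hn⟩ := Cfsg.Lib.TwoFus.exists_mul_normalizes hW hWH hgH
  exact ⟨g * c, hn, by rw [mul_smul, MulAction.mem_stabilizer_iff.1 hcH, hg]⟩

end Cfsg.Agent.S3180
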