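import Cfsg.Statements.S3183
import Mathlib
import Cfsg.Agent.Lib.TwoFus.CentralIntersection
-- import your own Cfsg.Agent.* helpers here

set_option autoImplicit false
open Cfsg

namespace Cfsg.Agent.S3183

/-- Let G be a finite group in which the intersection of any two distinct Sylow 2-subgroups is contained in the centre of some Sylow 2-subgroup, and let S be a Sylow 2-subgroup. Then for every x in S the centralizer of x in S is a Sylow 2-subgroup of the centralizer of x in G (no 2-subgroup centralizing x is larger), and for every other Sylow 2-subgroup T the intersection S ∩ T lies in both the centre of S and the centre of T. -/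
theorem result {G : Type*} [Group G] [Finite G]
    (hCI : ∀ S T : Sylow 2 G, S ≠ T → ∃ U : Sylow 2 G,
      (S : Subgroup G) ⊓ (T : Subgroup G) ≤ (Subgroup.center ↥(U : Subgroup G)).map (U : Subgroup G).subtype)
    (S : Sylow 2 G) :
    (∀ x ∈ (S : Subgroup G), ∀ P : Subgroup G, IsPGroup 2 ↥P → P ≤ Subgroup.centralizer ({x} : Set G) →
        Nat.card ↥P ≤ Nat.card ↥((S : Subgroup G) ⊓ Subgroup.centralizer ({x} : Set G))) ∧
    (∀ T : Sylow 2 G, T ≠ S →
        (S : Subgroup G) ⊓ (T : Subgroup G) ≤
          (Subgroup.center ↥(S : Subgroup G)).map (S : Subgroup G).subtype ⊓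
            (Subgroup.center ↥(T : Subgroup G)).map (T : Subgroup G).subtype) := by
  have : Fact (Nat.Prime 2) := ⟨Nat.prime_two⟩
  have h2 : ∀ T : Sylow 2 G, T ≠ S → (S : Subgroup G) ⊓ (T : Subgroup G) ≤
      (Subgroup.center ↥(S : Subgroup G)).map (S : Subgroup G).subtype ⊓
        (Subgroup.center ↥(T : Subgroup G)).map (T : Subgroup G).subtype := fun T hT =>
    le_inf (Cfsg.Lib.TwoFus.inter_le_center hCI hT.symm)
      (by rw [inf_comm]; exact Cfsg.Lib.TwoFus.inter_le_center hCI hT)
  refine ⟨fun x hx P hP hPC => ?_, h2⟩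
  by_cases hcen : (S : Subgroup G) ≤ Subgroup.centralizer ({x} : Set G)
  · obtain ⟨Q, hQ⟩ := hP.exists_le_sylow
    rw [inf_eq_left.2 hcen]
    exact (Subgroup.card_le_of_le hQ).trans (by rw [Q.card_eq_multiplicity, S.card_eq_multiplicity])
  · have hR : IsPGroup 2 ↥(Subgroup.zpowers x ⊔ P) := by
      refine IsPGroup.to_sup_of_normal_left' (S.isPGroup'.to_le (Subgroup.zpowers_le.2 hx)) hP
        (le_trans ?_ (Subgroup.centralizer_le_normalizer _))
      intro a ha
      refine Subgroup.mem_centralizer_iff.2 fun b hb => ?_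
      obtain ⟨i, rfl⟩ := Subgroup.mem_zpowers_iff.1 hb
      exact ((show Commute a x from Subgroup.mem_centralizer_singleton_iff.1 (hPC ha)).zpow_right i).eq.symm
    obtain ⟨Q, hQ⟩ := hR.exists_le_sylow
    have hxQ : x ∈ (Q : Subgroup G) := hQ (Subgroup.mem_sup_left (Subgroup.mem_zpowers x))
    by_cases hQS : Q = S
    · refine Subgroup.card_le_of_le (le_inf ?_ hPC)
      exact hQS ▸ le_sup_right.trans hQ
    · exact absurd (Cfsg.Lib.TwoFus.sylow_le_centralizer_of_mem hCI (Ne.symm hQS) ⟨hx, hxQ⟩) hcen

end Cfsg.Agent.S3183
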