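import Cfsg.Statements.S3184
import Mathlib
import Cfsg.Agent.Lib.TwoFus.CentralIntersection
import Cfsg.Agent.Lib.ZStar.RankOne
import Cfsg.Agent.Lib.TwoFus.CyclicSylow
import Cfsg.Agent.Lib.Transfer.Basic
-- import your own Cfsg.Agent.* helpers here

set_option autoImplicit false
open Cfsg

namespace Cfsg.Agent.S3184

/-- Let G be a finite group in which the intersection of any two distinct Sylow 2-subgroups is contained in the centre of some Sylow 2-subgroup, and let S be a Sylow 2-subgroup. If C is a nontrivial cyclic characteristic subgroup of S, then the involution of C is central modulo the largest normal subgroup of odd order of G: each of its conjugates has the same image in G/O(G). -/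
theorem result {G : Type*} [Group G] [Finite G]
    (hCI : ∀ S T : Sylow 2 G, S ≠ T → ∃ U : Sylow 2 G,
      (S : Subgroup G) ⊓ (T : Subgroup G) ≤ (Subgroup.center ↥(U : Subgroup G)).map (U : Subgroup G).subtype)
    (S : Sylow 2 G) (C : Subgroup ↥(S : Subgroup G)) (hC : C ≠ ⊥) (hCc : IsCyclic ↥C) (hCh : C.Characteristic)
    (c : ↥(S : Subgroup G)) (hc : c ∈ C) (hc2 : orderOf c = 2) :
    ∀ g : G, (QuotientGroup.mk (s := Cfsg.oddCore G) (g * (c : G) * g⁻¹)) =
      QuotientGroup.mk (s := Cfsg.oddCore G) (c : G) := by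
  have : Fact (Nat.Prime 2) := ⟨Nat.prime_two⟩
  have hfix : ∀ e : MulAut ↥(S : Subgroup G), e c = c := by
    intro e
    have hmem : e c ∈ C := by
      have := hCh.fixed e
      rw [← this] at hc
      exact hc
    haveI := hCc
    have hcard : Nat.card ↥(Subgroup.zpowers (⟨e c, hmem⟩ : C)) = Nat.card ↥(Subgroup.zpowers (⟨c, hc⟩ : C)) := by
      simp only [Nat.card_zpowers, Subgroup.orderOf_mk, e.orderOf_eq]
    have h1 := Cfsg.Lib.TwoFus.eq_of_card_eq_cyclic hcard
    obtain ⟨i, hi⟩ := Subgroup.mem_zpowers_iff.1 (h1 ▸ Subgroup.mem_zpowers (⟨e c, hmem⟩ : C))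
    have hi' : c ^ i = e c := congrArg Subtype.val hi
    have hpow : c ^ (2 : ℕ) = 1 := orderOf_dvd_iff_pow_eq_one.1 (dvd_of_eq hc2)
    rcases Int.even_or_odd i with ⟨r, hr⟩ | ⟨r, hr⟩
    · exfalso
      rw [hr, ← two_mul, zpow_mul, zpow_ofNat, hpow, one_zpow] at hi'
      have := congrArg orderOf hi'
      rw [orderOf_one, e.orderOf_eq, hc2] at this
      omega
    · rw [← hi', hr, zpow_add, zpow_mul, zpow_ofNat, hpow, one_zpow, one_mul, zpow_one]
  have hccen : c ∈ Subgroup.center ↥(S : Subgroup G) := Subgroup.mem_center_iff.2 fun g => by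
    have := hfix (MulAut.conj g)
    rw [MulAut.conj_apply, mul_inv_eq_iff_eq_mul] at this
    exact this
  have hc2' : orderOf (c : G) = 2 := by rw [Subgroup.orderOf_coe]; exact hc2
  have hcS : (c : G) ∈ Subgroup.centralizer ((S : Subgroup G) : Set G) :=
    Subgroup.mem_centralizer_iff.2 fun s hs => congrArg Subtype.val (Subgroup.mem_center_iff.1 hccen ⟨s, hs⟩)
  have hiso : ∀ g : G, g * (c : G) * g⁻¹ ∈ S → g * (c : G) * g⁻¹ = c := by
    intro g hg
    have hN : ∀ n : G, n ∈ Subgroup.normalizer ((S : Subgroup G) : Set G) → n * (c : G) * n⁻¹ = c := by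
      intro n hn
      exact congrArg Subtype.val (hfix ((S : Subgroup G).normalizerMonoidHom ⟨n, hn⟩))
    by_cases hgS : g • S = S
    · exact hN g (Sylow.smul_eq_iff_mem_normalizer.1 hgS)
    obtain ⟨d, hd, hdeq⟩ := Cfsg.Lib.TwoFus.inter_le_center hCI (Ne.symm hgS)
      (Subgroup.mem_inf.2 ⟨hg, by
        rw [Sylow.coe_subgroup_smul]
        exact Subgroup.smul_mem_pointwise_smul (c : G) (MulAut.conj g) _ c.2⟩)
    have hy : g⁻¹⁻¹ * (c : G) * g⁻¹ ∈ Subgroup.centralizer ((S : Subgroup G) : Set G) := by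
      rw [inv_inv, ← hdeq]
      exact Subgroup.mem_centralizer_iff.2 fun s hs => congrArg Subtype.val (Subgroup.mem_center_iff.1 hd ⟨s, hs⟩)
    obtain ⟨n, hn, he⟩ := S.conj_eq_normalizer_conj_of_mem_centralizer (c : G) g⁻¹ hcS hy
    rw [inv_inv] at he
    rw [he]
    simpa using hN n⁻¹ (inv_mem hn)
  intro g
  have hz := Cfsg.Lib.ZStar.zstar_sylow S (c : G) hc2' c.2 hiso g
  haveI : (Cfsg.oddCore G).Normal := Cfsg.Lib.Transfer.pPrimeCore_normal 2
  refine (QuotientGroup.eq_iff_div_mem).2 ?_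
  rw [div_eq_mul_inv]
  convert inv_mem hz using 1
  group

end Cfsg.Agent.S3184
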