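import Cfsg.Statements.S3190
import Mathlib
import Cfsg.Agent.Lib.Transfer.PGroupNormal
-- import your own Cfsg.Agent.* helpers here

set_option autoImplicit false
open Cfsg

namespace Cfsg.Agent.S3190

/-- Let p be an odd prime and, inside a finite group, let P be a p-subgroup normalized by a Klein four-group T. Let R be a subgroup of P, normal in P and normalized by T, such that P is the product of R with the centralizer of T in P. If T centralizes the centre of P, then T centralizes the centre of R. -/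
theorem result {X : Type*} [Group X] [Finite X]
    {p : ℕ} (hp : p.Prime) (hodd : Odd p) (P T R : Subgroup X) (hP : IsPGroup p ↥P) (hT : IsKleinFour ↥T)
    (hTP : T ≤ Subgroup.normalizer (P : Set X)) (hRP : R ≤ P) (hRn : (R.subgroupOf P).Normal)
    (hTR : T ≤ Subgroup.normalizer (R : Set X)) (hfac : R ⊔ (P ⊓ Subgroup.centralizer (T : Set X)) = P)
    (hZ : T ≤ Subgroup.centralizer (((Subgroup.center ↥P).map P.subtype : Subgroup X) : Set X)) :
    T ≤ Subgroup.centralizer (((Subgroup.center ↥R).map R.subtype : Subgroup X) : Set X) := by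
  have : Fact p.Prime := ⟨hp⟩
  intro t ht
  rw [Subgroup.mem_centralizer_iff]
  have ht2 : t * t = 1 := by
    have := congrArg Subtype.val (IsKleinFour.mul_self (⟨t, ht⟩ : T))
    simpa using this
  have hti : t⁻¹ = t := inv_eq_of_mul_eq_one_right ht2
  set ZR := (Subgroup.center ↥R).map R.subtype with hZR
  have hZc : ∀ w ∈ ZR, ∀ r ∈ R, r * w = w * r := by
    rintro _ ⟨w, hw, rfl⟩ r hr
    exact congrArg Subtype.val (Subgroup.mem_center_iff.1 hw ⟨r, hr⟩)
  have hmemZR : ∀ w ∈ R, (∀ r ∈ R, r * w = w * r) → w ∈ ZR := fun w hw h =>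
    ⟨⟨w, hw⟩, Subgroup.mem_center_iff.2 fun r => Subtype.ext (h r r.2), rfl⟩
  have hZR_R : ZR ≤ R := Subgroup.map_subtype_le _
  have hnorm : ∀ x ∈ Subgroup.normalizer (R : Set X), ∀ w ∈ ZR, x * w * x⁻¹ ∈ ZR := fun x hx w hw => by
    refine hmemZR _ ((Subgroup.mem_normalizer_iff.1 hx w).1 (hZR_R hw)) fun r hr => ?_
    have h1 := hZc w hw (x⁻¹ * r * x) ((Subgroup.mem_normalizer_iff''.1 hx r).1 hr)
    calc r * (x * w * x⁻¹) = x * (x⁻¹ * r * x * w) * x⁻¹ := by group
      _ = x * (w * (x⁻¹ * r * x)) * x⁻¹ := by rw [h1]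
      _ = x * w * x⁻¹ * r := by group
  let M : Subgroup X :=
    { carrier := {w | w ∈ ZR ∧ t * w * t⁻¹ = w⁻¹}
      one_mem' := ⟨one_mem _, by simp⟩
      mul_mem' := fun {a b} ha hb => ⟨mul_mem ha.1 hb.1, by
        rw [show t * (a * b) * t⁻¹ = (t * a * t⁻¹) * (t * b * t⁻¹) by group, ha.2, hb.2, mul_inv_rev]
        exact hZc _ (inv_mem hb.1) _ (inv_mem (hZR_R ha.1))⟩
      inv_mem' := fun {a} ha => ⟨inv_mem ha.1, by
        rw [show t * a⁻¹ * t⁻¹ = (t * a * t⁻¹)⁻¹ by group, ha.2]⟩ }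
  have hMP : M ≤ P := fun w hw => hRP (hZR_R hw.1)
  have hconjR : P ≤ Subgroup.normalizer (R : Set X) := (Subgroup.normal_subgroupOf_iff_le_normalizer hRP).1 hRn
  have key : ∀ c ∈ P ⊓ Subgroup.centralizer (T : Set X), ∀ w ∈ M, c * w * c⁻¹ ∈ M := fun c hc w hw => by
    refine ⟨hnorm c (hconjR hc.1) w hw.1, ?_⟩
    have hct : t * c = c * t := Subgroup.mem_centralizer_iff.1 hc.2 t ht
    calc t * (c * w * c⁻¹) * t⁻¹ = (t * c) * w * (t * c)⁻¹ := by group
      _ = c * (t * w * t⁻¹) * c⁻¹ := by rw [hct]; group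
      _ = (c * w * c⁻¹)⁻¹ := by rw [hw.2]; group
  have hMn : (M.subgroupOf P).Normal := by
    rw [Subgroup.normal_subgroupOf_iff_le_normalizer hMP]
    refine hfac.ge.trans (sup_le (fun r hr => ?_) (fun c hc => ?_))
    · rw [Subgroup.mem_normalizer_iff]
      intro w
      constructor
      · intro hw
        rwa [hZc w hw.1 r hr, mul_inv_cancel_right]
      · intro hw
        have h := hZc _ hw.1 r hr
        have : r * w * r⁻¹ = w := by
          refine mul_left_cancel (a := r) ?_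
          rw [h, inv_mul_cancel_right]
        rwa [this] at hw
    · rw [Subgroup.mem_normalizer_iff]
      exact fun w => ⟨key c hc w, fun hw => by simpa [mul_assoc] using key c⁻¹ (inv_mem hc) _ hw⟩
  have hM : M = ⊥ := by
    by_contra hne
    have h0 : M.subgroupOf P ≠ ⊥ := fun h => hne
      (by rwa [Subgroup.subgroupOf_eq_bot, disjoint_iff, inf_eq_left.2 hMP] at h)
    refine Cfsg.Lib.Transfer.inf_center_ne_bot hP (M.subgroupOf P) h0 ((Subgroup.eq_bot_iff_forall _).2 ?_)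
    rintro w ⟨hw, hwc⟩
    have hw' : t * (w : X) * t⁻¹ = (w : X)⁻¹ := hw.2
    have hfix : (w : X) * t = t * w := Subgroup.mem_centralizer_iff.1 (hZ ht) w ⟨w, hwc, rfl⟩
    rw [← hfix, mul_inv_cancel_right] at hw'
    have h2 : orderOf w ∣ 2 := orderOf_dvd_of_pow_eq_one (Subtype.ext (by
      rw [pow_two, Subgroup.coe_mul, Subgroup.coe_one]
      nth_rewrite 2 [hw']
      exact mul_inv_cancel _))
    obtain ⟨k, hk⟩ := hP.exists_orderOf_eq_pow w
    have hodd' : Nat.Coprime 2 (p ^ k) := (hodd.coprime_two_left).pow_right k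
    exact orderOf_eq_one_iff.1 (Nat.eq_one_of_dvd_coprimes hodd' h2 (hk ▸ dvd_rfl))
  intro w hw
  have hu : w⁻¹ * (t * w * t⁻¹) ∈ M := by
    have hx := hnorm t (hTR ht) w hw
    refine ⟨mul_mem (inv_mem hw) hx, ?_⟩
    calc t * (w⁻¹ * (t * w * t⁻¹)) * t⁻¹ = (t * w * t⁻¹)⁻¹ * ((t * t) * w * (t * t)⁻¹) := by group
      _ = (t * w * t⁻¹)⁻¹ * w := by rw [ht2, inv_one, one_mul, mul_one]
      _ = (w⁻¹ * (t * w * t⁻¹))⁻¹ := by group
  rw [hM, Subgroup.mem_bot, inv_mul_eq_one] at hu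
  exact (mul_inv_eq_iff_eq_mul.1 hu.symm).symm

end Cfsg.Agent.S3190
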