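import Cfsg.Statements.S3196
import Mathlib
import Cfsg.Agent.Lib.Transfer.Basic
-- import your own Cfsg.Agent.* helpers here

set_option autoImplicit false
open Cfsg

namespace Cfsg.Agent.S3196

open Subgroup

variable {G : Type*} [Group G] [Finite G]

/-- elementwise commutation -/
def Com (X Y : Subgroup G) : Prop := ∀ x ∈ X, ∀ y ∈ Y, x * y = y * x

theorem Com.symm {X Y : Subgroup G} (h : Com X Y) : Com Y X := fun y hy x hx => (h x hx y hy).symm

theorem com_iff {X Y : Subgroup G} : Com X Y ↔ X ≤ centralizer (Y : Set G) :=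
  ⟨fun h x hx => mem_centralizer_iff.2 fun y hy => (h x hx y hy).symm,
    fun h x hx y hy => (mem_centralizer_iff.1 (h hx) y hy).symm⟩

theorem com_of_sup {X Y Z Q : Subgroup G} (h1 : Com X Q) (h2 : Com Y Q) (hZ : Z ≤ X ⊔ Y) :
    Com Z Q :=
  com_iff.2 (hZ.trans (sup_le (com_iff.1 h1) (com_iff.1 h2)))

theorem eq_zpowers {p : ℕ} (hp : p.Prime) {W : Subgroup G} (hW : Nat.card W = p) {w : G}
    (hw : w ∈ W) (hw1 : w ≠ 1) : zpowers w = W := by
  refine eq_of_le_of_card_ge (zpowers_le.2 hw) ?_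
  rw [hW]
  rcases (Nat.dvd_prime hp).1 (hW ▸ orderOf_dvd_natCard W hw) with h | h
  · exact absurd (orderOf_eq_one_iff.1 h) hw1
  · rw [Nat.card_zpowers, h]

theorem com_self {p : ℕ} (hp : p.Prime) {X : Subgroup G} (hX : Nat.card X = p) : Com X X := by
  intro x hx y hy
  haveI := Fact.mk hp
  haveI := isCyclic_of_prime_card hX
  exact congrArg Subtype.val (mul_comm' (⟨x, hx⟩ : X) ⟨y, hy⟩)

theorem line_facts {p : ℕ} (hp : p.Prime) {X Y : Subgroup G} (hX : Nat.card X = p)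
    (hY : Nat.card Y = p) (hne : X ≠ Y) (h : Com X Y) :
    (∀ g ∈ X ⊔ Y, g ^ p = 1) ∧ Nat.card ↥(X ⊔ Y) = p ^ 2 := by
  haveI := Fact.mk hp
  have hn : X ≤ normalizer (Y : Set G) :=
    (com_iff.1 h).trans (centralizer_le_normalizer _)
  have hexp : ∀ {Z : Subgroup G}, Nat.card Z = p → ∀ z ∈ Z, z ^ p = 1 := fun {Z} hZ z hz =>
    orderOf_dvd_iff_pow_eq_one.1 (hZ ▸ orderOf_dvd_natCard Z hz)
  have hpow : ∀ g ∈ X ⊔ Y, g ^ p = 1 := by
    intro g hg
    rw [← SetLike.mem_coe, coe_mul_of_left_le_normalizer_right X Y hn] at hg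
    obtain ⟨x, hx, y, hy, rfl⟩ := hg
    rw [(show Commute x y from h x hx y hy).mul_pow, hexp hX x hx, hexp hY y hy, one_mul]
  refine ⟨hpow, ?_⟩
  have hle : Nat.card ↥(X ⊔ Y) ≤ p * p := by
    calc Nat.card ↥(X ⊔ Y) ≤ Nat.card (X × Y) :=
          Nat.card_le_card_of_surjective
            (fun q : X × Y => (⟨(q.1 : G) * q.2, mul_mem (mem_sup_left q.1.2) (mem_sup_right q.2.2)⟩ : ↥(X ⊔ Y)))
            (fun g => by
              have hg : (g : G) ∈ ((X ⊔ Y : Subgroup G) : Set G) := g.2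
              rw [coe_mul_of_left_le_normalizer_right X Y hn] at hg
              obtain ⟨x, hx, y, hy, hxy⟩ := hg
              exact ⟨(⟨x, hx⟩, ⟨y, hy⟩), Subtype.ext hxy⟩)
      _ = p * p := by rw [Nat.card_prod, hX, hY]
  have hlt : p < Nat.card ↥(X ⊔ Y) := by
    rw [← hX]
    refine Set.Finite.card_lt_card (Set.toFinite _) (SetLike.coe_ssubset_coe.2 ?_)
    refine lt_of_le_of_ne le_sup_left fun e => hne ?_
    exact (eq_of_le_of_card_ge (e.symm ▸ le_sup_right : Y ≤ X) (by rw [hX, hY])).symm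
  have hP : IsPGroup p ↥(X ⊔ Y) := fun g => ⟨1, Subtype.ext (by simpa using hpow g g.2)⟩
  obtain ⟨k, hk⟩ := IsPGroup.iff_card.1 hP
  rw [hk] at hle hlt ⊢
  rw [← pow_two] at hle
  have h1 : 1 < k := (Nat.pow_lt_pow_iff_right hp.one_lt).1 (by simpa using hlt)
  have h2 : k ≤ 2 := (Nat.pow_le_pow_iff_right hp.one_lt).1 hle
  rw [show k = 2 by omega]

section Main

variable {p : ℕ} (hp : p.Prime) {K : Set (Subgroup G)} (hK : ∀ X ∈ K, Nat.card ↥X = p)
  (ha : ∀ X ∈ K, ∀ Y ∈ K, X ≠ Y → Com X Y → ∀ Z : Subgroup G, Z ≤ X ⊔ Y → Nat.card ↥Z = p → Z ∈ K)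
  (hb : ∀ X ∈ K, ∀ Y ∈ K, X ≠ Y → Com X Y → ∀ W ∈ K, (X ⊔ Y) ⊓ centralizer (W : Set G) ≠ ⊥)

include hp hK ha hb in
theorem point {X Y W : Subgroup G} (hX : X ∈ K) (hY : Y ∈ K) (hne : X ≠ Y) (h : Com X Y)
    (hW : W ∈ K) : ∃ Z ∈ K, Z ≤ X ⊔ Y ∧ Com Z W := by
  haveI := Fact.mk hp
  obtain ⟨g, hg, hg1⟩ := (Subgroup.bot_or_exists_ne_one _).resolve_left (hb X hX Y hY hne h W hW)
  obtain ⟨hg, hgW⟩ := mem_inf.1 hg
  refine ⟨zpowers g, ha X hX Y hY hne h _ (zpowers_le.2 hg) ?_, zpowers_le.2 hg,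
    com_iff.2 (zpowers_le.2 hgW)⟩
  rw [Nat.card_zpowers]
  exact orderOf_eq_prime ((line_facts hp (hK X hX) (hK Y hY) hne h).1 g hg) hg1

include hp hK ha hb in
theorem line_eq {X Y Z Z' : Subgroup G} (hX : X ∈ K) (hY : Y ∈ K) (hne : X ≠ Y) (h : Com X Y)
    (hZ : Z ∈ K) (hZ' : Z' ∈ K) (hne' : Z ≠ Z') (h1 : Z ≤ X ⊔ Y) (h2 : Z' ≤ X ⊔ Y) :
    Com Z Z' ∧ Z ⊔ Z' = X ⊔ Y := by
  have hc : Com Z Z' := by
    have e1 : Com (X ⊔ Y) (X ⊔ Y) := by
      have e2 : Com (X ⊔ Y) X := com_of_sup (com_self hp (hK X hX)) h.symm le_rfl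
      have e3 : Com (X ⊔ Y) Y := com_of_sup h (com_self hp (hK Y hY)) le_rfl
      exact com_of_sup e2.symm e3.symm le_rfl
    exact fun x hx y hy => e1 x (h1 hx) y (h2 hy)
  refine ⟨hc, eq_of_le_of_card_ge (sup_le h1 h2) ?_⟩
  rw [(line_facts hp (hK X hX) (hK Y hY) hne h).2, (line_facts hp (hK Z hZ) (hK Z' hZ') hne' hc).2]

include hp hK ha hb in
theorem exists_central_of_le {U W : Subgroup G} (hU : U ∈ K) (hW : W ∈ K) (hne : U ≠ W)
    (h : ∀ Q ∈ K, Com Q W → Com Q U) : ∃ V ∈ K, ∀ Q ∈ K, Com V Q := by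
  have hUW : Com U W := (h W hW (com_self hp (hK W hW))).symm
  by_cases hT : ∀ Q ∈ K, Com W Q
  · exact ⟨W, hW, hT⟩
  push Not at hT
  obtain ⟨T, hT, hWT⟩ := hT
  obtain ⟨V, hV, hVle, hVT⟩ := point hp hK ha hb hU hW hne hUW hT
  have hperp : ∀ Q ∈ K, Com Q W → Com Q V := fun Q hQ hQW =>
    (com_of_sup (h Q hQ hQW).symm hQW.symm hVle).symm
  -- commuting pairs outside the perp of `W`
  have hstep : ∀ S S' : Subgroup G, S ∈ K → S' ∈ K → ¬ Com S W → Com S V → Com S S' → Com S' V := by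
    intro S S' hS hS' hSW hSV hSS'
    by_cases he : S = S'
    · exact he ▸ hSV
    obtain ⟨R, hR, hRle, hRW⟩ := point hp hK ha hb hS hS' he hSS' hW
    have hRS : S ≠ R := fun e => hSW (e ▸ hRW)
    obtain ⟨hc, heq⟩ := line_eq hp hK ha hb hS hS' he hSS' hS hR hRS le_sup_left hRle
    exact com_of_sup hSV (hperp R hR hRW) (heq.symm ▸ le_sup_right)
  refine ⟨V, hV, fun T' hT' => (?_ : Com T' V).symm⟩
  by_cases hT'W : Com T' W
  · exact hperp T' hT' hT'W
  by_cases hTV : T = V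
  · exact absurd (hTV ▸ hperp W hW (com_self hp (hK W hW))) hWT
  obtain ⟨M, hM, hMle, hMT'⟩ := point hp hK ha hb hT hV hTV hVT.symm hT'
  by_cases hMV : M = V
  · exact (hMV ▸ hMT').symm
  obtain ⟨hc, heq⟩ := line_eq hp hK ha hb hT hV hTV hVT.symm hM hV hMV hMle le_sup_right
  have hMV' : Com M V := hc
  have hMW : ¬ Com M W := fun hMW => hWT (com_of_sup hMW (hperp W hW (com_self hp (hK W hW))).symm
    (heq.symm ▸ le_sup_left)).symm
  exact hstep M T' hM hT' hMW hMV' hMT'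

include hp hK ha hb in
theorem exists_central (hKc : ∀ X ∈ K, ∀ g : G, X.map (MulAut.conj g).toMonoidHom ∈ K)
    (hex : ∃ X ∈ K, ∃ Y ∈ K, X ≠ Y ∧ Com X Y) : ∃ V ∈ K, ∀ Q ∈ K, Com V Q := by
  obtain ⟨X, hX, Y0, hY0, hne, hXY0⟩ := hex
  by_cases hT : ∀ Q ∈ K, Com X Q
  · exact ⟨X, hX, hT⟩
  push Not at hT
  obtain ⟨W, hW, hXW⟩ := hT
  obtain ⟨Z, hZ, hZle, hZW⟩ := point hp hK ha hb hX hY0 hne hXY0 hW
  have hXZ : X ≠ Z := fun e => hXW (e ▸ hZW)
  obtain ⟨hXZc, heq⟩ := line_eq hp hK ha hb hX hY0 hne hXY0 hX hZ hXZ le_sup_left hZle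
  -- generators and a third point of the line
  obtain ⟨x, hx, hx1⟩ := (Subgroup.bot_or_exists_ne_one X).resolve_left (fun e => by
    have := hK X hX; rw [e, card_bot] at this; exact hp.one_lt.ne this)
  obtain ⟨z, hz, hz1⟩ := (Subgroup.bot_or_exists_ne_one Z).resolve_left (fun e => by
    have := hK Z hZ; rw [e, card_bot] at this; exact hp.one_lt.ne this)
  set y := x⁻¹ * z with hy
  have hymem : y ∈ X ⊔ Z := mul_mem (mem_sup_left (inv_mem hx)) (mem_sup_right hz)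
  have hxX := eq_zpowers hp (hK X hX) hx hx1
  have hzZ := eq_zpowers hp (hK Z hZ) hz hz1
  have hy1 : y ≠ 1 := fun e => by
    have : x = z := inv_mul_eq_one.1 e
    exact hXZ (by rw [← hxX, ← hzZ, this])
  haveI := Fact.mk hp
  have hycard : Nat.card (zpowers y) = p := by
    rw [Nat.card_zpowers]
    exact orderOf_eq_prime ((line_facts hp (hK X hX) (hK Z hZ) hXZ hXZc).1 y hymem) hy1
  have hY : zpowers y ∈ K := ha X hX Z hZ hXZ hXZc _ (zpowers_le.2 hymem) hycard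
  have hXY : Com X (zpowers y) :=
    (com_of_sup (com_self hp (hK X hX)) hXZc.symm (zpowers_le.2 hymem)).symm
  have hyX : zpowers y ≠ X := by
    intro e
    have hzx : z ∈ X := by
      have : z = x * y := by rw [hy, mul_inv_cancel_left]
      exact this ▸ mul_mem hx (e ▸ mem_zpowers y)
    exact hXZ (by rw [← eq_zpowers hp (hK X hX) hzx hz1, hzZ])
  have hYW : ¬ Com (zpowers y) W := by
    intro hc
    refine hXW (com_of_sup hc hZW ?_)
    rw [← hxX, zpowers_le]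
    have hxe : x = z * y⁻¹ := by rw [hy, mul_inv_rev, inv_inv, mul_inv_cancel_left]
    rw [hxe]
    exact mul_mem (mem_sup_right hz) (mem_sup_left (inv_mem (mem_zpowers y)))
  by_cases hsub : ∀ Q ∈ K, Com Q W → Com Q Z
  · exact exists_central_of_le hp hK ha hb hZ hW (fun e => hXW (e ▸ hXZc)) hsub
  push Not at hsub
  obtain ⟨Q0, hQ0, hQ0W, hQ0Z⟩ := hsub
  set W' := W.map (MulAut.conj y).toMonoidHom with hW'
  have hW'K : W' ∈ K := hKc W hW y
  -- both descriptions of the conjugate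
  have hdesc : ∀ w ∈ W, y * w * y⁻¹ = x⁻¹ * w * x := by
    intro w hw
    have hc : z * w = w * z := hZW z hz w hw
    calc y * w * y⁻¹ = x⁻¹ * (z * w) * z⁻¹ * x := by rw [hy]; group
      _ = x⁻¹ * w * x := by rw [hc]; group
  have hAX : ∀ R ∈ K, Com R W → (Com R X ∨ Com R (zpowers y)) → Com R W' := by
    rintro R hR hRW hRc r hr _ ⟨w, hw, rfl⟩
    show r * (y * w * y⁻¹) = y * w * y⁻¹ * r
    rcases hRc with hRc | hRc
    · rw [hdesc w hw]
      have e1 : r * x⁻¹ = x⁻¹ * r := hRc r hr _ (inv_mem hx)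
      have e2 := hRW r hr w hw
      have e3 := hRc r hr x hx
      calc r * (x⁻¹ * w * x) = r * x⁻¹ * w * x := by group
        _ = x⁻¹ * (r * w) * x := by rw [e1]; group
        _ = x⁻¹ * w * (r * x) := by rw [e2]; group
        _ = _ := by rw [e3]; group
    · have e1 := hRc r hr y (mem_zpowers y)
      have e2 := hRW r hr w hw
      have e3 : r * y⁻¹ = y⁻¹ * r := hRc r hr _ (inv_mem (mem_zpowers y))
      calc r * (y * w * y⁻¹) = r * y * w * y⁻¹ := by group
        _ = y * (r * w) * y⁻¹ := by rw [e1]; group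
        _ = y * w * (r * y⁻¹) := by rw [e2]; group
        _ = _ := by rw [e3]; group
  have hline : ∀ Q ∈ K, Com Q W → ¬ Com Q Z → Com Q W' ∧ Com W W' := by
    intro Q hQ hQW hQZ
    have hne : Q ≠ W := fun e => hQZ (e ▸ hZW.symm)
    obtain ⟨R, hR, hRle, hRX⟩ := point hp hK ha hb hQ hW hne hQW hX
    obtain ⟨R', hR', hR'le, hR'Y⟩ := point hp hK ha hb hQ hW hne hQW hY
    have hcW : ∀ {S : Subgroup G}, S ≤ Q ⊔ W → Com S W := fun hS =>
      com_of_sup hQW (com_self hp (hK W hW)) hS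
    have hRR : R ≠ R' := by
      intro e
      subst e
      have hRZ : Com R Z := by
        rw [← hzZ]
        refine com_iff.2 fun r hr => mem_centralizer_iff.2 ?_
        rintro _ ⟨n, rfl⟩
        have hc : Commute r z := by
          have : z = x * y := by rw [hy, mul_inv_cancel_left]
          rw [this]
          exact (show Commute r x from hRX r hr x hx).mul_right
            (hR'Y r hr y (mem_zpowers y))
        exact (hc.zpow_right n).eq.symm
      have hRW' : R ≠ W := fun e2 => hXW (e2 ▸ hRX).symm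
      obtain ⟨-, heq'⟩ := line_eq hp hK ha hb hQ hW hne hQW hR hW hRW' hRle le_sup_right
      exact hQZ (com_of_sup hRZ hZW.symm (heq'.symm ▸ le_sup_left))
    have h1 := hAX R hR (hcW hRle) (Or.inl hRX)
    have h2 := hAX R' hR' (hcW hR'le) (Or.inr hR'Y)
    obtain ⟨-, heq'⟩ := line_eq hp hK ha hb hQ hW hne hQW hR hR' hRR hRle hR'le
    exact ⟨com_of_sup h1 h2 (heq'.symm ▸ le_sup_left), com_of_sup h1 h2 (heq'.symm ▸ le_sup_right)⟩
  have hWW' : Com W W' := (hline Q0 hQ0 hQ0W hQ0Z).2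
  have hall : ∀ Q ∈ K, Com Q W → Com Q W' := by
    intro Q hQ hQW
    by_cases hQZ : Com Q Z
    · by_cases hne : Q = W
      · exact hne ▸ hWW'
      obtain ⟨R, hR, hRle, hRX⟩ := point hp hK ha hb hQ hW hne hQW hX
      have hRW' : R ≠ W := fun e2 => hXW (e2 ▸ hRX).symm
      obtain ⟨-, heq'⟩ := line_eq hp hK ha hb hQ hW hne hQW hR hW hRW' hRle le_sup_right
      exact com_of_sup (hAX R hR (com_of_sup hQW (com_self hp (hK W hW)) hRle) (Or.inl hRX)) hWW'
        (heq'.symm ▸ le_sup_left)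
    · exact (hline Q hQ hQW hQZ).1
  by_cases hfix : W' = W
  · -- an element of order `p` normalizing a group of order `p` centralizes it
    exfalso
    refine hYW ?_
    obtain ⟨w, hw, hw1⟩ := (Subgroup.bot_or_exists_ne_one W).resolve_left (fun e => by
      have := hK W hW; rw [e, card_bot] at this; exact hp.one_lt.ne this)
    have hwW := eq_zpowers hp (hK W hW) hw hw1
    have hmem : y * w * y⁻¹ ∈ zpowers w := by
      rw [hwW]
      exact hfix ▸ ⟨w, hw, rfl⟩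
    obtain ⟨k, hk⟩ := hmem
    have hk' : y * w * y⁻¹ = w ^ k := hk.symm
    have hiter : ∀ n : ℕ, y ^ n * w * (y ^ n)⁻¹ = w ^ (k ^ n) := by
      intro n
      induction n with
      | zero => simp
      | succ n ih =>
        calc y ^ (n + 1) * w * (y ^ (n + 1))⁻¹ = y * (y ^ n * w * (y ^ n)⁻¹) * y⁻¹ := by
              rw [pow_succ']; group
          _ = (y * w * y⁻¹) ^ (k ^ n) := by rw [ih, conj_zpow]
          _ = w ^ (k ^ (n + 1)) := by rw [hk', ← zpow_mul, pow_succ']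
    have hyp : y ^ p = 1 := by
      rw [← orderOf_dvd_iff_pow_eq_one, ← Nat.card_zpowers, hycard]
    have h1 := hiter p
    rw [hyp, one_mul, inv_one, mul_one] at h1
    have hwo : orderOf w = p := by rw [← Nat.card_zpowers, hwW, hK W hW]
    have hkp : (w : G) ^ (k ^ p) = w ^ k := by
      rw [zpow_eq_zpow_iff_modEq, hwo, ← ZMod.intCast_eq_intCast_iff]
      push_cast
      exact ZMod.pow_card _
    have hcw : y * w = w * y := by
      calc y * w = y * w * y⁻¹ * y := by group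
        _ = w * y := by rw [hk', ← hkp, ← h1]
    rw [← hwW]
    rintro _ ⟨i, rfl⟩ _ ⟨j, rfl⟩
    exact ((show Commute y w from hcw).zpow_zpow i j).eq
  · exact exists_central_of_le hp hK ha hb hW'K hW hfix hall

end Main


/-- Let p be a prime and K a set of subgroups of order p of a finite group G, closed under conjugation, such that at least two distinct members of K commute elementwise, and whenever two distinct members X, Y of K commute: every subgroup of order p of the group XY they generate belongs to K, and every member W of K has centralizer meeting XY nontrivially. Then some member V of K commutes elementwise with every member of K and lies in O_p(G); in particular G is not simple. -/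
theorem result {G : Type*} [Group G] [Finite G]
    {p : ℕ} (hp : p.Prime) (K : Set (Subgroup G)) (hK : ∀ X ∈ K, Nat.card ↥X = p)
    (hKc : ∀ X ∈ K, ∀ g : G, X.map (MulAut.conj g).toMonoidHom ∈ K)
    (hex : ∃ X ∈ K, ∃ Y ∈ K, X ≠ Y ∧ ∀ x ∈ X, ∀ y ∈ Y, x * y = y * x)
    (ha : ∀ X ∈ K, ∀ Y ∈ K, X ≠ Y → (∀ x ∈ X, ∀ y ∈ Y, x * y = y * x) →
      ∀ Z : Subgroup G, Z ≤ X ⊔ Y → Nat.card ↥Z = p → Z ∈ K)
    (hb : ∀ X ∈ K, ∀ Y ∈ K, X ≠ Y → (∀ x ∈ X, ∀ y ∈ Y, x * y = y * x) →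
      ∀ W ∈ K, (X ⊔ Y) ⊓ Subgroup.centralizer (W : Set G) ≠ ⊥) :
    (∃ V ∈ K, (∀ W ∈ K, ∀ v ∈ V, ∀ w ∈ W, v * w = w * v) ∧ V ≤ Cfsg.pCore p G) ∧ ¬ IsSimpleGroup G := by
  haveI := Fact.mk hp
  obtain ⟨V, hV, hVall⟩ := exists_central hp hK ha hb hKc hex
  set N := Subgroup.normalClosure ((V : Subgroup G) : Set G) with hN
  have hcc : ∀ u ∈ Group.conjugatesOfSet ((V : Subgroup G) : Set G),
      ∀ v ∈ Group.conjugatesOfSet ((V : Subgroup G) : Set G), u * v = v * u := by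
    intro u hu v hv
    rw [Group.mem_conjugatesOfSet_iff] at hu hv
    obtain ⟨a, ha', hau⟩ := hu
    obtain ⟨b, hb', hbv⟩ := hv
    obtain ⟨g, rfl⟩ := isConj_iff.1 hau
    obtain ⟨h', rfl⟩ := isConj_iff.1 hbv
    have h1 : (g⁻¹ * (h' * b * h'⁻¹) * g) ∈ V.map (MulAut.conj (g⁻¹ * h')).toMonoidHom :=
      ⟨b, hb', by simp [mul_assoc]⟩
    have h2 := hVall _ (hKc V hV (g⁻¹ * h')) a ha' _ h1
    calc g * a * g⁻¹ * (h' * b * h'⁻¹) = g * (a * (g⁻¹ * (h' * b * h'⁻¹) * g)) * g⁻¹ := by group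
      _ = g * ((g⁻¹ * (h' * b * h'⁻¹) * g) * a) * g⁻¹ := by rw [h2]
      _ = h' * b * h'⁻¹ * (g * a * g⁻¹) := by group
  haveI hNc : IsMulCommutative ↥N := Subgroup.isMulCommutative_closure hcc
  have hexp : ∀ u ∈ N, u ^ p = 1 := by
    intro u hu
    induction hu using Subgroup.closure_induction with
    | mem u hu =>
      rw [Group.mem_conjugatesOfSet_iff] at hu
      obtain ⟨a, ha', hau⟩ := hu
      obtain ⟨g, rfl⟩ := isConj_iff.1 hau
      rw [conj_pow, orderOf_dvd_iff_pow_eq_one.1 (hK V hV ▸ Subgroup.orderOf_dvd_natCard V ha'),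
        mul_one, mul_inv_cancel]
    | one => exact one_pow p
    | mul u v hu' hv' h1 h2 =>
      have huv : Commute u v := congrArg Subtype.val (mul_comm' (⟨u, hu'⟩ : N) ⟨v, hv'⟩)
      rw [huv.mul_pow, h1, h2, one_mul]
    | inv u _ h1 => rw [inv_pow, h1, inv_one]
  have hVN : V ≤ N := Subgroup.subset_normalClosure
  have hNp : IsPGroup p ↥N := fun u => ⟨1, Subtype.ext (by simpa using hexp u u.2)⟩
  refine ⟨⟨V, hV, hVall, hVN.trans (Cfsg.Lib.Transfer.le_pCore Subgroup.normalClosure_normal hNp)⟩,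
    fun hs => ?_⟩
  haveI := hs
  rcases (Subgroup.normalClosure_normal (s := ((V : Subgroup G) : Set G))).eq_bot_or_eq_top with h | h
  · have h' : V = ⊥ := le_bot_iff.1 (h ▸ hVN)
    have := hK V hV
    rw [h', Subgroup.card_bot] at this
    exact hp.one_lt.ne this
  · obtain ⟨X, hX, Y, hY, hne, -⟩ := hex
    have hcomm : ∀ a b : G, a * b = b * a := fun a b =>
      congrArg Subtype.val (mul_comm' (⟨a, hN.symm ▸ h.symm ▸ Subgroup.mem_top a⟩ : N) ⟨b, hN.symm ▸ h.symm ▸ Subgroup.mem_top b⟩)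
    have hnorm : ∀ H : Subgroup G, H.Normal := fun H =>
      ⟨fun n hn g => by rw [hcomm g n, mul_inv_cancel_right]; exact hn⟩
    have htop : ∀ H ∈ K, H = ⊤ := fun H hH => (hnorm H).eq_bot_or_eq_top.resolve_left fun e => by
      have := hK H hH
      rw [e, Subgroup.card_bot] at this
      exact hp.one_lt.ne this
    exact hne ((htop X hX).trans (htop Y hY).symm)

end Cfsg.Agent.S3196
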