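import Cfsg.Statements.S3200
import Mathlib
import Cfsg.Agent.Lib.Characters.Burnside
import Cfsg.Agent.Lib.Solv.Hall
-- import your own Cfsg.Agent.* helpers here

set_option autoImplicit false
open Cfsg

namespace Cfsg.Agent.S3200

open Subgroup
open scoped Pointwise
universe u

private def Good (G : Type u) [Group G] : Prop :=
  ∃ D : Subgroup G, IsMulCommutative ↥D ∧ Odd (Nat.card ↥D) ∧ ∃ k, D.index = 2 ^ k

private theorem index_two_pow {n : ℕ} (h : ∃ k, n = 2 ^ k) {m : ℕ} (hm : m ∣ n) : ∃ k, m = 2 ^ k := by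
  obtain ⟨k, rfl⟩ := h
  obtain ⟨j, -, hj⟩ := (Nat.dvd_prime_pow Nat.prime_two).1 hm
  exact ⟨j, hj⟩

private theorem good_quotient {G : Type u} [Group G] [Finite G] (h : Good G) (N : Subgroup G) [N.Normal] :
    Good (G ⧸ N) := by
  obtain ⟨D, hD, hodd, hk⟩ := h
  haveI := hD
  exact ⟨D.map (QuotientGroup.mk' N), inferInstance, hodd.of_dvd_nat (card_map_dvd D _),
    index_two_pow hk (index_map_dvd _ (QuotientGroup.mk'_surjective N))⟩

private theorem comm_subgroupOf {G : Type u} [Group G] {D L : Subgroup G}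
    (hD : ∀ x ∈ D, ∀ y ∈ D, x * y = y * x) : IsMulCommutative ↥(D.subgroupOf L) :=
  ⟨⟨fun a b => Subtype.ext (Subtype.ext (hD _ a.2 _ b.2))⟩⟩

private theorem good_normal {G : Type u} [Group G] [Finite G] (h : Good G) (N : Subgroup G) [N.Normal] :
    Good ↥N := by
  obtain ⟨D, hD, hodd, hk⟩ := h
  refine ⟨D.subgroupOf N, comm_subgroupOf fun x hx y hy => congrArg Subtype.val (hD.is_comm.comm (⟨x, hx⟩ : D) ⟨y, hy⟩), hodd.of_dvd_nat (Subgroup.card_comap_dvd_of_injective D N.subtype N.subtype_injective),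
    index_two_pow hk ?_⟩
  change D.relIndex N ∣ D.index
  have h2 : D.relIndex (D ⊔ N) = D.relIndex N := by
    have e1 := relIndex_mul_relIndex (D ⊓ N) D (D ⊔ N) inf_le_left le_sup_left
    have e2 := relIndex_mul_relIndex (D ⊓ N) N (D ⊔ N) inf_le_right le_sup_right
    rw [inf_relIndex_left, ← e2, inf_relIndex_right, relIndex_sup_right D N,
      mul_comm (D.relIndex N)] at e1
    exact Nat.eq_of_mul_eq_mul_left (Nat.pos_of_ne_zero (by rw [relIndex]; exact index_ne_zero_of_finite)) e1
  rw [← h2]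
  exact Dvd.intro _ (relIndex_mul_index le_sup_left)

private theorem solvable_of_good : ∀ (n : ℕ) (G : Type u) [Group G] [Finite G], Nat.card G = n →
    Good G → Group.IsSolvable G := by
  intro n
  induction n using Nat.strong_induction_on with
  | _ n ih =>
    intro G _ _ hn h
    by_cases hN : ∃ N : Subgroup G, N.Normal ∧ N ≠ ⊥ ∧ N ≠ ⊤
    · obtain ⟨N, hN, hb, ht⟩ := hN
      have hNlt : Nat.card N < n := hn ▸ lt_of_le_of_ne (Subgroup.card_le_card_group N)
        fun h => ht ((Subgroup.card_eq_iff_eq_top N).mp h)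
      have hQlt : Nat.card (G ⧸ N) < n := by
        rw [← hn, Subgroup.card_eq_card_quotient_mul_card_subgroup N]
        exact lt_mul_of_one_lt_right Nat.card_pos ((Subgroup.one_lt_card_iff_ne_bot N).mpr hb)
      haveI := ih _ hNlt N rfl (good_normal h N)
      haveI := ih _ hQlt (G ⧸ N) rfl (good_quotient h N)
      exact Group.isSolvable_of_ker_le_range N.subtype (QuotientGroup.mk' N) (by simp)
    · push Not at hN
      rcases subsingleton_or_nontrivial G with hG | hG
      · infer_instance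
      haveI : IsSimpleGroup G := ⟨fun N hN' => or_iff_not_imp_left.mpr (hN N hN')⟩
      obtain ⟨D, hD, hodd, k, hk⟩ := h
      by_cases hD1 : D = ⊥
      · have h2 : IsPGroup 2 G := IsPGroup.of_card (n := k) (by rw [← hk, hD1, index_bot])
        haveI := h2.isNilpotent
        infer_instance
      obtain ⟨⟨d, hd⟩, hd1⟩ := ne_bot_iff_exists_ne_one.1 hD1
      have hdvd : Nat.card {x : G // IsConj d x} ∣ 2 ^ k := by
        rw [Cfsg.Lib.Characters.card_conj_eq_index, ← hk]
        refine index_dvd_of_le fun y hy => ?_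
        rw [mem_centralizer_singleton_iff]
        exact congrArg Subtype.val (hD.is_comm.comm (⟨y, hy⟩ : D) ⟨d, hd⟩)
      obtain ⟨j, -, hj⟩ := (Nat.dvd_prime_pow Nat.prime_two).1 hdvd
      have hprime := Cfsg.Lib.Characters.prime_card_of_prime_pow_class Nat.prime_two
        (fun h => hd1 (Subtype.ext h)) hj
      haveI : Fact (Nat.card G).Prime := ⟨hprime⟩
      haveI : IsCyclic G := isCyclic_of_prime_card rfl
      exact Group.isSolvable_of_comm fun a b => mul_comm' a b

private theorem pair_of_good {G : Type u} [Group G] [Finite G] (h : Good G) :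
    ∃ (P : Sylow 2 G) (D : Subgroup G), IsMulCommutative ↥D ∧ IsComplement' (P : Subgroup G) D := by
  obtain ⟨D, hD, hodd, k, hk⟩ := h
  obtain ⟨P⟩ : Nonempty (Sylow 2 G) := inferInstance
  haveI := Fact.mk Nat.prime_two
  refine ⟨P, D, hD, ?_⟩
  have h2D : ¬ 2 ∣ Nat.card D := fun h => Nat.not_even_iff_odd.2 hodd (even_iff_two_dvd.2 h)
  have hG : Nat.card G = Nat.card D * 2 ^ k := by rw [← hk, card_mul_index]
  have hP : Nat.card (P : Subgroup G) = 2 ^ k := by
    rw [P.card_eq_multiplicity, hG, Nat.factorization_mul (Nat.card_pos (α := D)).ne' (by positivity),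
      Finsupp.add_apply, Nat.factorization_eq_zero_of_not_dvd h2D, zero_add,
      Nat.Prime.factorization_pow Nat.prime_two, Finsupp.single_eq_same]
  exact isComplement'_of_coprime (by rw [hP, hG, mul_comm])
    (by rw [hP]; exact Nat.Coprime.pow_left k ((Nat.Prime.coprime_iff_not_dvd Nat.prime_two).2 h2D))

private theorem good_subgroup {G : Type u} [Group G] [Finite G] (h : Good G) (L : Subgroup G) :
    Good ↥L := by
  haveI := solvable_of_good _ G rfl h
  obtain ⟨D, hD, hodd, k, hk⟩ := h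
  have hDh : Cfsg.IsPiHall {p : ℕ | p ≠ 2} D := by
    refine ⟨fun p _ hd h2 => ?_, fun p hp hp2 hd => ?_⟩
    · subst h2
      exact Nat.not_even_iff_odd.2 hodd (even_iff_two_dvd.2 hd)
    · rw [hk] at hd
      exact hp2 ((Nat.prime_dvd_prime_iff_eq hp Nat.prime_two).1 (hp.dvd_of_dvd_pow hd))
  haveI : Group.IsSolvable ↥L := inferInstance
  obtain ⟨a, m, hm, hL⟩ := Nat.exists_eq_pow_mul_and_not_dvd (Nat.card_pos (α := L)).ne' 2 (by norm_num)
  obtain ⟨K, hK⟩ := Cfsg.Lib.Solv.hall_card_exists (G := ↥L) (m := m) (n := 2 ^ a) (by rw [hL, mul_comm])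
    (Nat.Coprime.pow_right a ((Nat.Prime.coprime_iff_not_dvd Nat.prime_two).2 hm).symm)
  obtain ⟨g, hg⟩ := Cfsg.Lib.Solv.hall_le_conj hDh (U := K.map L.subtype) (fun p _ hd h2 => by
    rw [card_map_of_injective L.subtype_injective, hK] at hd
    subst h2
    exact hm hd)
  refine ⟨K, ⟨⟨fun x y => ?_⟩⟩, by rw [hK, Nat.odd_iff]; omega, a, ?_⟩
  · obtain ⟨u, hu, hux⟩ := hg ⟨(x : ↥L), x.2, rfl⟩
    obtain ⟨v, hv, hvy⟩ := hg ⟨(y : ↥L), y.2, rfl⟩
    have huv : u * v = v * u := congrArg Subtype.val (hD.is_comm.comm (⟨u, hu⟩ : D) ⟨v, hv⟩)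
    apply Subtype.ext
    apply Subtype.ext
    have h1 : g * u * g⁻¹ = ((x : ↥L) : G) := hux
    have h2 : g * v * g⁻¹ = ((y : ↥L) : G) := hvy
    change ((x : ↥L) : G) * (y : ↥L) = (y : ↥L) * (x : ↥L)
    rw [← h1, ← h2]
    calc g * u * g⁻¹ * (g * v * g⁻¹) = g * (u * v) * g⁻¹ := by group
      _ = g * (v * u) * g⁻¹ := by rw [huv]
      _ = _ := by group
  · have h := K.card_mul_index
    rw [hK, hL, mul_comm (2 ^ a)] at h
    exact Nat.eq_of_mul_eq_mul_left (Nat.pos_of_ne_zero (by rintro rfl; exact hm (dvd_zero 2))) h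


/-- Let H be a finite group in which a Sylow 2-subgroup has an abelian complement (an abelian subgroup meeting it trivially whose product with it is all of H). Then H is solvable, and every subgroup and every quotient group of H again has a Sylow 2-subgroup with an abelian complement. -/
theorem result {H : Type*} [Group H] [Finite H]
    (S : Sylow 2 H) (C : Subgroup H) (hC : IsMulCommutative ↥C) (hSC : Subgroup.IsComplement' (S : Subgroup H) C) :
    Group.IsSolvable H ∧
    (∀ L : Subgroup H, ∃ (P : Sylow 2 ↥L) (D : Subgroup ↥L), IsMulCommutative ↥D ∧ Subgroup.IsComplement' (P : Subgroup ↥L) D) ∧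
    (∀ (N : Subgroup H) [N.Normal], ∃ (P : Sylow 2 (H ⧸ N)) (D : Subgroup (H ⧸ N)),
      IsMulCommutative ↥D ∧ Subgroup.IsComplement' (P : Subgroup (H ⧸ N)) D) := by
  haveI := Fact.mk Nat.prime_two
  have hg : Good H := ⟨C, hC, by
    have hcard := hSC.card_mul
    obtain ⟨k, hk⟩ := IsPGroup.iff_card.1 S.isPGroup'
    have hSi : (S : Subgroup H).index = Nat.card C := hSC.symm.index_eq_card
    have h2 := S.not_dvd_index
    rw [hSi] at h2
    exact Nat.not_even_iff_odd.1 fun h => h2 (even_iff_two_dvd.1 h), by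
    obtain ⟨k, hk⟩ := IsPGroup.iff_card.1 S.isPGroup'
    exact ⟨k, by rw [hSC.index_eq_card, hk]⟩⟩
  exact ⟨solvable_of_good _ H rfl hg, fun L => pair_of_good (good_subgroup hg L),
    fun N _ => pair_of_good (good_quotient hg N)⟩

end Cfsg.Agent.S3200
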