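import Cfsg.Statements.S3201
import Mathlib
import Cfsg.Agent.Lib.ZStar.UniqueInvolution
import Cfsg.Agent.Lib.Solv.PGroupBasic
-- import your own Cfsg.Agent.* helpers here

set_option autoImplicit false
open Cfsg

namespace Cfsg.Agent.S3201

/-- Let S be a finite 2-group whose centre Z(S) has n ≥ 2 distinct maximal subgroups C₁, …, Cₙ with trivial intersection such that each quotient S/Cᵢ is a non-abelian group with exactly one involution (a generalized quaternion group). Then S is the internal direct product of an elementary abelian subgroup and a non-abelian subgroup with exactly one involution. -/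
theorem result {S : Type*} [Group S] [Finite S]
    (hS : IsPGroup 2 S) (n : ℕ) (hn : 2 ≤ n) (C : Fin n → Subgroup ↥(Subgroup.center S))
    (hCmax : ∀ i, IsCoatom (C i)) (hCinj : Function.Injective C) (hCint : ⨅ i, C i = ⊥)
    (hCq : ∀ i, ∃ (_ : ((C i).map (Subgroup.center S).subtype).Normal),
      ¬ IsMulCommutative (S ⧸ (C i).map (Subgroup.center S).subtype) ∧
      ∃! x : S ⧸ (C i).map (Subgroup.center S).subtype, orderOf x = 2) :
    ∃ E Q : Subgroup S, Cfsg.IsInternalDirectProduct E Q ⊤ ∧ Cfsg.IsElementaryAbelian 2 E ∧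
      ¬ IsMulCommutative ↥Q ∧ ∃! x : ↥Q, orderOf x = 2 := by
  classical
  haveI := Fact.mk Nat.prime_two
  let C' : Fin n → Subgroup S := fun i => (C i).map (Subgroup.center S).subtype
  have hC'Z : ∀ i, C' i ≤ (Subgroup.center S) := fun i => Subgroup.map_subtype_le _
  have hidx : ∀ i, (C i).index = 2 := fun i =>
    Cfsg.Lib.Solv.coatom_index_eq_prime (hS.to_subgroup (Subgroup.center S)) (hCmax i)
  have hmul : ∀ i, ∀ x y : (Subgroup.center S), (x : S) ∉ C' i → (y : S) ∉ C' i → (x : S) * y ∈ C' i := by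
    intro i x y hx hy
    refine ⟨x * y, ?_, rfl⟩
    exact (Subgroup.mul_mem_iff_of_index_two (hidx i)).2
      (iff_of_false (fun h => hx ⟨x, h, rfl⟩) (fun h => hy ⟨y, h, rfl⟩))
  have hmem : ∀ i (x : (Subgroup.center S)), (x : S) ∈ C' i ↔ x ∈ C i := fun i x =>
    ⟨fun ⟨y, hy, he⟩ => (Subtype.ext he : y = x) ▸ hy, fun h => ⟨x, h, rfl⟩⟩
  have hall : ∀ z : (Subgroup.center S), (∀ i, (z : S) ∈ C' i) → z = 1 := fun z h =>
    Subgroup.mem_bot.1 (hCint ▸ Subgroup.mem_iInf.2 fun i => (hmem i z).1 (h i))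
  have hZsq : ∀ z : (Subgroup.center S), z * z = 1 := fun z => hall _ fun i =>
    (hmem i _).2 ((Subgroup.mul_mem_iff_of_index_two (hidx i)).2 Iff.rfl)
  have key : ∀ i, ∀ g : S, g ∉ (Subgroup.center S) → g * g ∈ (Subgroup.center S) → g * g ∉ C' i := by
    intro i g hg _ hgC
    obtain ⟨hn', -, hu⟩ := hCq i
    haveI := hn'
    obtain ⟨z0, hz0⟩ : ∃ z0 : (Subgroup.center S), z0 ∉ C i := by
      by_contra h
      push Not at h
      exact (hCmax i).1 ((Subgroup.eq_top_iff' _).2 h)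
    have h1 : orderOf (QuotientGroup.mk (z0 : S) : S ⧸ C' i) = 2 := by
      refine orderOf_eq_prime ?_ fun h => hz0 ((hmem i z0).1 ((QuotientGroup.eq_one_iff _).1 h))
      rw [← QuotientGroup.mk_pow, pow_two]
      have := congrArg Subtype.val (hZsq z0)
      rw [show (z0 : S) * z0 = 1 from this, QuotientGroup.mk_one]
    have h2 : orderOf (QuotientGroup.mk g : S ⧸ C' i) = 2 := by
      refine orderOf_eq_prime ?_ fun h => hg (hC'Z i ((QuotientGroup.eq_one_iff _).1 h))
      rw [← QuotientGroup.mk_pow, pow_two]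
      exact (QuotientGroup.eq_one_iff _).2 hgC
    have h3 := QuotientGroup.eq.1 (hu.unique h2 h1)
    refine hg (inv_mem_iff.1 ?_)
    have := mul_mem (hC'Z i h3) (inv_mem z0.2)
    rwa [mul_inv_cancel_right] at this
  have h0 : 0 < n := by omega
  set i0 : Fin n := ⟨0, h0⟩
  obtain ⟨hn0, hna, hu0⟩ := hCq i0
  haveI := hn0
  rcases Cfsg.Lib.ZStar.isCyclic_or_inverted (hS.to_quotient (C' i0))
    (fun x y hx hy => by rw [hu0.unique hy hx]; exact Subgroup.mem_zpowers x) with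
    hcyc | ⟨-, abar, gbar, ha4, hidx0, hgbar, hinv, hg2⟩
  · haveI : IsCyclic (S ⧸ C' i0) := hcyc
    exact absurd (IsCyclic.isMulCommutative) hna
  obtain ⟨a, rfl⟩ := QuotientGroup.mk_surjective abar
  obtain ⟨v, rfl⟩ := QuotientGroup.mk_surjective gbar
  set q := QuotientGroup.mk' (C' i0) with hq
  have hcen : ∀ z ∈ (Subgroup.center S), ∀ x : S ⧸ C' i0, Commute (q z) x := by
    intro z hz x
    obtain ⟨x, rfl⟩ := QuotientGroup.mk_surjective x
    exact ((show Commute z x from (Subgroup.mem_center_iff.1 hz x).symm).map q)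
  have hnc : ¬ Commute (q v) (q a) := by
    intro h
    have h2 : (q a) ^ 2 = 1 := by
      rw [pow_two, mul_eq_one_iff_eq_inv]
      calc q a = q v * q a * (q v)⁻¹ := by rw [h.eq, mul_inv_cancel_right]
        _ = (q a)⁻¹ := hinv
    have := Nat.le_of_dvd two_pos (orderOf_dvd_of_pow_eq_one h2)
    simp only [hq, QuotientGroup.mk'_apply] at this
    omega
  have hvZ : v ∉ (Subgroup.center S) := fun h => hnc (hcen v h _)
  have hvaZ : ∀ w : S, Commute (q w) (q a) → w * v ∉ (Subgroup.center S) := by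
    intro w hw h
    refine hnc ?_
    have h1 := hcen _ h (q a)
    rw [map_mul] at h1
    have := hw.inv_left.mul_left h1
    rwa [inv_mul_cancel_left] at this
  have hZmem : ∀ g : S, (q g) ^ 2 = 1 → g ∈ (Subgroup.center S) := by
    intro g hg
    by_contra hgZ
    have hgC : g * g ∈ C' i0 := by
      rw [← pow_two, ← map_pow] at *
      exact (QuotientGroup.eq_one_iff _).1 hg
    exact key i0 g hgZ (hC'Z i0 hgC) hgC
  -- `h`: the order of `a` modulo the centre
  obtain ⟨m, hm⟩ := IsPGroup.iff_orderOf.1 (hS.to_quotient (C' i0)) (q a)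
  have hm2 : 2 ≤ m := by
    simp only [hq, QuotientGroup.mk'_apply] at hm
    rcases m with _ | _ | m <;> simp_all
  obtain ⟨k, rfl⟩ : ∃ k, m = k + 2 := ⟨m - 2, by omega⟩
  have hh : orderOf (q a) / 2 = 2 ^ (k + 1) := by rw [hm, pow_succ, Nat.mul_div_cancel _ two_pos]
  set a1 := a ^ 2 ^ k with ha1
  set z1 := a ^ 2 ^ (k + 1) with hz1
  have ha11 : a1 * a1 = z1 := by rw [ha1, hz1, ← pow_add, pow_succ, mul_two]
  have ha1Z : a1 ∉ (Subgroup.center S) := fun h => by
    have h1 : (q a1) ^ 2 = 1 := by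
      rw [← map_pow, pow_two]
      have := congrArg Subtype.val (hZsq ⟨a1, h⟩)
      rw [show a1 * a1 = 1 from this, map_one]
    rw [ha1, map_pow, ← pow_mul] at h1
    have := Nat.le_of_dvd (by positivity) (orderOf_dvd_of_pow_eq_one h1)
    rw [hm, pow_succ, pow_succ] at this
    nlinarith [Nat.two_pow_pos k]
  have hz1Z : z1 ∈ (Subgroup.center S) := hZmem z1 (by
    rw [hz1, map_pow, ← pow_mul, ← pow_succ, ← hm, pow_orderOf_eq_one])
  have hvvZ : v * v ∈ (Subgroup.center S) := hZmem _ (by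
    rw [map_mul, ← pow_two, ← pow_mul]
    have : (q v) ^ 2 = (q a) ^ (orderOf (q a) / 2) := hg2
    rw [pow_mul, this, ← pow_mul, hh, ← pow_succ, ← hm, pow_orderOf_eq_one])
  set u := v * a * v⁻¹ * a with hu
  have huC : u ∈ C' i0 := by
    rw [← QuotientGroup.eq_one_iff]
    show q u = 1
    rw [hu, map_mul, map_mul, map_mul, map_inv]
    rw [show q v * q a * (q v)⁻¹ = (q a)⁻¹ from hinv, inv_mul_cancel]
  have huZ := hC'Z i0 huC
  have hvaa : (v * a) * (v * a) = u * (v * v) := by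
    have hc : Commute (v * v) a := (Subgroup.mem_center_iff.1 hvvZ a).symm
    calc (v * a) * (v * a) = v * a * v⁻¹ * ((v * v) * a) := by group
      _ = u * (v * v) := by rw [hc.eq, hu]; group
  have hvaZ' : v * a ∉ (Subgroup.center S) := by
    intro h
    refine hnc ?_
    have h1 := hcen _ h (q a)
    rw [map_mul] at h1
    have := h1.mul_left (Commute.refl (q a)).inv_left
    rwa [mul_inv_cancel_right] at this
  have hz1C : ∀ i, z1 ∉ C' i := fun i => ha11 ▸ key i a1 ha1Z (ha11.symm ▸ hz1Z)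
  have hvv : v * v = z1 := by
    have : (⟨v * v, hvvZ⟩ * ⟨z1, hz1Z⟩ : (Subgroup.center S)) = 1 := hall _ fun i =>
      hmul i ⟨v * v, hvvZ⟩ ⟨z1, hz1Z⟩ (key i v hvZ hvvZ) (hz1C i)
    have h2 := congrArg Subtype.val (mul_eq_one_iff_eq_inv.1 this)
    have h3 := congrArg Subtype.val (hZsq ⟨z1, hz1Z⟩)
    rw [show v * v = z1⁻¹ from h2]
    exact inv_eq_of_mul_eq_one_right h3
  have hu1 : u = 1 := by
    have hone : (⟨u, huZ⟩ : (Subgroup.center S)) = 1 := hall _ fun i => by
      by_contra hui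
      have h1 := hmul i ⟨u, huZ⟩ ⟨v * v, hvvZ⟩ hui (key i v hvZ hvvZ)
      exact key i (v * a) hvaZ' (hvaa.symm ▸ mul_mem huZ hvvZ) (hvaa.symm ▸ h1)
    exact congrArg Subtype.val hone
  have hva : v * a * v⁻¹ = a⁻¹ := eq_inv_of_mul_eq_one_left hu1
  have hvaz : ∀ j : ℤ, v * a ^ j = a ^ (-j) * v := fun j => by
    have : v * a ^ j * v⁻¹ = a ^ (-j) := by rw [← conj_zpow, hva, inv_zpow, zpow_neg]
    rw [← this, inv_mul_cancel_right]
  have hv' : v = z1 * v⁻¹ := by rw [← hvv, mul_inv_cancel_right]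
  have hz1' : z1 = a ^ ((2 ^ (k + 1) : ℕ) : ℤ) := (zpow_natCast a _).symm
  -- the quaternion subgroup
  let Q : Subgroup S :=
    { carrier := {g | ∃ j : ℤ, g = a ^ j ∨ g = a ^ j * v}
      one_mem' := ⟨0, Or.inl (by simp)⟩
      mul_mem' := by
        rintro x y ⟨i, rfl | rfl⟩ ⟨j, rfl | rfl⟩
        · exact ⟨i + j, Or.inl (zpow_add a i j).symm⟩
        · exact ⟨i + j, Or.inr (by rw [zpow_add, mul_assoc])⟩
        · exact ⟨i + -j, Or.inr (by rw [mul_assoc, hvaz, ← mul_assoc, zpow_add])⟩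
        · refine ⟨i + -j + ((2 ^ (k + 1) : ℕ) : ℤ), Or.inl ?_⟩
          rw [show a ^ i * v * (a ^ j * v) = a ^ i * (v * a ^ j) * v by group, hvaz,
            show a ^ i * (a ^ (-j) * v) * v = a ^ i * a ^ (-j) * (v * v) by group, hvv, hz1',
            ← zpow_add, ← zpow_add]
      inv_mem' := by
        rintro x ⟨i, rfl | rfl⟩
        · exact ⟨-i, Or.inl (zpow_neg a i).symm⟩
        · refine ⟨i - ((2 ^ (k + 1) : ℕ) : ℤ), Or.inr ?_⟩
          have hvi : v⁻¹ = a ^ (-((2 ^ (k + 1) : ℕ) : ℤ)) * v := by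
            rw [zpow_neg, ← hz1', eq_inv_mul_iff_mul_eq, ← hv']
          rw [mul_inv_rev, hvi, mul_assoc, ← zpow_neg, hvaz, neg_neg, ← mul_assoc, ← zpow_add,
            neg_add_eq_sub] }
  have haQ : a ∈ Q := ⟨1, Or.inl (zpow_one a).symm⟩
  have hvQ : v ∈ Q := ⟨0, Or.inr (by simp)⟩
  have hQZ : ∀ g ∈ Q, g ∈ (Subgroup.center S) → g ∈ Subgroup.zpowers z1 := by
    rintro g ⟨j, rfl | rfl⟩ hgZ
    · have h1 : (q a) ^ (2 * j) = 1 := by
        rw [mul_comm, zpow_mul, ← map_zpow, zpow_ofNat, pow_two, ← map_mul]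
        have := congrArg Subtype.val (hZsq ⟨_, hgZ⟩)
        rw [show a ^ j * a ^ j = 1 from this, map_one]
      rw [← orderOf_dvd_iff_zpow_eq_one, hm, pow_succ] at h1
      push_cast at h1
      rw [mul_comm ((2 : ℤ) ^ (k + 1)) 2] at h1
      obtain ⟨l, hl⟩ := Int.dvd_of_mul_dvd_mul_left (by norm_num) h1
      refine ⟨l, ?_⟩
      show z1 ^ l = a ^ j
      rw [hz1', ← zpow_mul, hl]
      push_cast
      ring_nf
    · exact absurd hgZ (hvaZ (a ^ j) (by rw [map_zpow]; exact (Commute.refl (q a)).zpow_left j))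
  set E := C' i0 with hE
  have hEQ : E ⊔ Q = ⊤ := by
    rw [eq_top_iff]
    intro g _
    by_cases hg : q g ∈ Subgroup.zpowers (q a)
    · obtain ⟨j, hj⟩ := hg
      change (q a) ^ j = q g at hj
      rw [← map_zpow] at hj
      have h1 : (a ^ j)⁻¹ * g ∈ E := QuotientGroup.eq.1 hj
      have := mul_mem (Subgroup.mem_sup_right (S := E) (zpow_mem haQ j)) (Subgroup.mem_sup_left (T := Q) h1)
      rwa [mul_inv_cancel_left] at this
    · have h2 : q g * (q v)⁻¹ ∈ Subgroup.zpowers (q a) :=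
        (Subgroup.mul_mem_iff_of_index_two hidx0).2
          (iff_of_false hg fun h => hgbar (inv_mem_iff.1 h))
      obtain ⟨j, hj⟩ := h2
      change (q a) ^ j = q g * (q v)⁻¹ at hj
      rw [← map_zpow, eq_mul_inv_iff_mul_eq, ← map_mul] at hj
      have h1 : (a ^ j * v)⁻¹ * g ∈ E := QuotientGroup.eq.1 hj
      have := mul_mem (Subgroup.mem_sup_right (S := E) (mul_mem (zpow_mem haQ j) hvQ))
        (Subgroup.mem_sup_left (T := Q) h1)
      rwa [mul_inv_cancel_left] at this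
  refine ⟨E, Q, ⟨le_top, le_top, ?_, ?_, hEQ⟩, ⟨⟨⟨?_⟩⟩, ?_⟩, ?_, ?_⟩
  · intro x hx y _
    exact (Subgroup.mem_center_iff.1 (hC'Z i0 hx) y).symm
  · rw [eq_bot_iff]
    intro x hx
    obtain ⟨hxE, hxQ⟩ := Subgroup.mem_inf.1 hx
    obtain ⟨l, hl⟩ := hQZ x hxQ (hC'Z i0 hxE)
    change z1 ^ l = x at hl
    have hsq : z1 * z1 = 1 := congrArg Subtype.val (hZsq ⟨z1, hz1Z⟩)
    rcases Int.even_or_odd' l with ⟨r, rfl | rfl⟩
    · rw [zpow_mul, zpow_ofNat, pow_two, hsq, one_zpow] at hl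
      rw [← hl]; exact one_mem _
    · rw [zpow_add, zpow_mul, zpow_ofNat, pow_two, hsq, one_zpow, one_mul, zpow_one] at hl
      exact absurd (hl ▸ hxE) (hz1C i0)
  · intro x y
    exact Subtype.ext (Subgroup.mem_center_iff.1 (hC'Z i0 y.2) x)
  · intro x hx
    rw [pow_two]
    exact congrArg Subtype.val (hZsq ⟨x, hC'Z i0 hx⟩)
  · intro hcomm
    haveI := hcomm
    refine hnc ?_
    exact (show Commute v a from congrArg Subtype.val (mul_comm' (⟨v, hvQ⟩ : Q) ⟨a, haQ⟩)).map q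
  · have hz1Q : z1 ∈ Q := hz1' ▸ zpow_mem haQ _
    have hne : z1 ≠ 1 := fun h => hz1C i0 (h ▸ one_mem _)
    refine ⟨⟨z1, hz1Q⟩, ?_, ?_⟩
    · show orderOf (⟨z1, hz1Q⟩ : Q) = 2
      rw [Subgroup.orderOf_mk]
      exact orderOf_eq_prime (by rw [pow_two]; exact congrArg Subtype.val (hZsq ⟨z1, hz1Z⟩)) hne
    · rintro ⟨t, ht⟩ ht2
      change orderOf (⟨t, ht⟩ : Q) = 2 at ht2
      rw [Subgroup.orderOf_mk] at ht2
      have htt : t * t = 1 := by rw [← pow_two, ← ht2, pow_orderOf_eq_one]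
      have htZ : t ∈ (Subgroup.center S) := by
        by_contra h
        exact key i0 t h (htt ▸ one_mem _) (htt ▸ one_mem _)
      obtain ⟨l, hl⟩ := hQZ t ht htZ
      change z1 ^ l = t at hl
      have hsq : z1 * z1 = 1 := congrArg Subtype.val (hZsq ⟨z1, hz1Z⟩)
      apply Subtype.ext
      show t = z1
      rcases Int.even_or_odd' l with ⟨r, rfl | rfl⟩
      · rw [zpow_mul, zpow_ofNat, pow_two, hsq, one_zpow] at hl
        rw [← hl, orderOf_one] at ht2
        omega
      · rw [zpow_add, zpow_mul, zpow_ofNat, pow_two, hsq, one_zpow, one_mul, zpow_one] at hl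
        exact hl.symm

end Cfsg.Agent.S3201
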