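import Cfsg.Statements.S3202
import Mathlib
import Cfsg.Agent.Lib.ZStar.UniqueInvolution
-- import your own Cfsg.Agent.* helpers here

set_option autoImplicit false
open Cfsg

namespace Cfsg.Agent.S3202

/-- Let S be a finite 2-group of 2-rank exactly 2 and D a maximal subgroup of the centre of S such that S/D is a non-abelian group with exactly one involution (a generalized quaternion group). Then S has a nontrivial cyclic characteristic subgroup. -/
theorem result {S : Type*} [Group S]
    [Finite S] (hS : IsPGroup 2 S) (hr2 : Cfsg.PRankLE 2 2 S) (hr1 : ¬ Cfsg.PRankLE 2 1 S)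
    (D : Subgroup ↥(Subgroup.center S)) (hD : IsCoatom D)
    (hq : ∃ (_ : (D.map (Subgroup.center S).subtype).Normal),
      ¬ IsMulCommutative (S ⧸ D.map (Subgroup.center S).subtype) ∧
      ∃! x : S ⧸ D.map (Subgroup.center S).subtype, orderOf x = 2) :
    ∃ C : Subgroup S, C ≠ ⊥ ∧ IsCyclic ↥C ∧ C.Characteristic := by
  obtain ⟨hDn, hna, hu⟩ := hq
  haveI := hDn
  haveI := Fact.mk Nat.prime_two
  have hDZ : D.map (Subgroup.center S).subtype ≤ Subgroup.center S := Subgroup.map_subtype_le D
  -- a cyclic subgroup of index two in the quaternion quotient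
  rcases Cfsg.Lib.ZStar.isCyclic_or_inverted (hS.to_quotient (D.map (Subgroup.center S).subtype))
    (fun x y hx hy => by rw [hu.unique hy hx]; exact Subgroup.mem_zpowers x) with
    hcyc | ⟨-, abar, gbar, -, hidx, hgbar, -, -⟩
  · haveI : IsCyclic (S ⧸ D.map (Subgroup.center S).subtype) := hcyc
    exact absurd (IsCyclic.isMulCommutative) hna
  obtain ⟨a, rfl⟩ := QuotientGroup.mk_surjective abar
  set A := Subgroup.zpowers a ⊔ Subgroup.center S with hA
  have haA : a ∈ A := Subgroup.mem_sup_left (Subgroup.mem_zpowers a)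
  have hgen : ∀ x ∈ A, ∀ y ∈ A, Commute x y := by
    have hle : A ≤ Subgroup.centralizer ({a} : Set S) := by
      refine sup_le (Subgroup.zpowers_le.2 (Subgroup.mem_centralizer_singleton_iff.2 rfl)) fun z hz => ?_
      rw [Subgroup.mem_centralizer_singleton_iff]
      exact (Subgroup.mem_center_iff.1 hz a).symm
    have hle2 : A ≤ Subgroup.centralizer (A : Set S) := by
      refine sup_le (Subgroup.zpowers_le.2 (Subgroup.mem_centralizer_iff.2 fun x hx =>
        (Subgroup.mem_centralizer_singleton_iff.1 (hle hx)))) fun z hz => ?_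
      exact Subgroup.mem_centralizer_iff.2 fun x _ => Subgroup.mem_center_iff.1 hz x
    exact fun x hx y hy => Subgroup.mem_centralizer_iff.1 (hle2 hy) x hx
  have hcomap : (Subgroup.zpowers (QuotientGroup.mk a : S ⧸ D.map (Subgroup.center S).subtype)).comap
      (QuotientGroup.mk' (D.map (Subgroup.center S).subtype)) ≤ A := by
    intro x hx
    obtain ⟨i, hi⟩ := Subgroup.mem_comap.1 hx
    change (QuotientGroup.mk a : S ⧸ D.map (Subgroup.center S).subtype) ^ i = QuotientGroup.mk x at hi
    rw [← QuotientGroup.mk_zpow, QuotientGroup.eq] at hi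
    have := mul_mem (Subgroup.mem_sup_left (T := Subgroup.center S)
      (zpow_mem (Subgroup.mem_zpowers a) i)) (Subgroup.mem_sup_right (S := Subgroup.zpowers a) (hDZ hi))
    rwa [mul_inv_cancel_left] at this
  have hAidx : A.index = 2 := by
    have h1 := Subgroup.index_dvd_of_le hcomap
    rw [Subgroup.index_comap_of_surjective _ (QuotientGroup.mk'_surjective _), hidx] at h1
    rcases (Nat.dvd_prime Nat.prime_two).1 h1 with h | h
    · exfalso
      rw [Subgroup.index_eq_one] at h
      refine hna ⟨⟨fun x y => ?_⟩⟩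
      obtain ⟨x, rfl⟩ := QuotientGroup.mk_surjective x
      obtain ⟨y, rfl⟩ := QuotientGroup.mk_surjective y
      rw [← QuotientGroup.mk_mul, ← QuotientGroup.mk_mul,
        (hgen x (h ▸ Subgroup.mem_top x) y (h ▸ Subgroup.mem_top y)).eq]
    · exact h
  haveI hAn : A.Normal := Subgroup.normal_of_index_eq_two hAidx
  obtain ⟨v, hv⟩ : ∃ v, v ∉ A := by
    by_contra hall
    push Not at hall
    rw [(Subgroup.eq_top_iff' A).2 hall, Subgroup.index_top] at hAidx
    omega
  have hv2 : v * v ∈ A := (Subgroup.mul_mem_iff_of_index_two hAidx).2 Iff.rfl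
  set b := v * a * v⁻¹ with hb
  have hbA : b ∈ A := hAn.conj_mem a haA v
  set c := a * b⁻¹ with hc
  have hcA : c ∈ A := mul_mem haA (inv_mem hbA)
  have hvb : v * b * v⁻¹ = a := by
    calc v * b * v⁻¹ = v * v * a * (v * v)⁻¹ := by rw [hb]; group
      _ = a := by rw [(hgen _ hv2 a haA).eq, mul_inv_cancel_right]
  have hvc : v * c * v⁻¹ = c⁻¹ := by
    calc v * c * v⁻¹ = (v * a * v⁻¹) * (v * b * v⁻¹)⁻¹ := by rw [hc]; group
      _ = b * a⁻¹ := by rw [hvb]
      _ = c⁻¹ := by rw [hc, mul_inv_rev, inv_inv]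
  set N := Subgroup.zpowers c with hN
  haveI hNn : N.Normal := by
    refine ⟨?_⟩
    rintro _ ⟨i, rfl⟩ g
    by_cases hg : g ∈ A
    · show g * c ^ i * g⁻¹ ∈ N
      rw [(hgen g hg _ (zpow_mem hcA i)).eq, mul_inv_cancel_right]
      exact zpow_mem (Subgroup.mem_zpowers c) i
    · have hgv : g * v⁻¹ ∈ A :=
        (Subgroup.mul_mem_iff_of_index_two hAidx).2 (iff_of_false hg fun h => hv (inv_mem_iff.1 h))
      show g * c ^ i * g⁻¹ ∈ N
      have e : g * c ^ i * g⁻¹ = g * v⁻¹ * (v * c ^ i * v⁻¹) * (g * v⁻¹)⁻¹ := by group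
      rw [e, ← conj_zpow, hvc, (hgen _ hgv _ (zpow_mem (inv_mem hcA) i)).eq, mul_inv_cancel_right]
      exact zpow_mem (inv_mem (Subgroup.mem_zpowers c)) i
  have hq : Commute (QuotientGroup.mk a : S ⧸ N) (QuotientGroup.mk v) := by
    have h1 : (QuotientGroup.mk (a * b⁻¹) : S ⧸ N) = 1 :=
      (QuotientGroup.eq_one_iff _).2 (Subgroup.mem_zpowers c)
    rw [QuotientGroup.mk_mul, QuotientGroup.mk_inv, mul_inv_eq_one, hb, QuotientGroup.mk_mul,
      QuotientGroup.mk_mul, QuotientGroup.mk_inv, eq_mul_inv_iff_mul_eq] at h1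
    exact h1
  have hcentN : ∀ z ∈ Subgroup.center S, ∀ x : S ⧸ N, Commute (QuotientGroup.mk z : S ⧸ N) x := by
    intro z hz x
    obtain ⟨x, rfl⟩ := QuotientGroup.mk_surjective x
    exact ((show Commute z x from (Subgroup.mem_center_iff.1 hz x).symm).map (QuotientGroup.mk' N))
  have hall : ∀ x y : S ⧸ N, Commute x y := by
    set C := Subgroup.centralizer ({(QuotientGroup.mk a : S ⧸ N), QuotientGroup.mk v} : Set (S ⧸ N))
    have hAC : ∀ g : S, QuotientGroup.mk g ∈ Subgroup.closure
        ({(QuotientGroup.mk a : S ⧸ N), QuotientGroup.mk v} ∪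
          (fun z : S => (QuotientGroup.mk z : S ⧸ N)) '' (Subgroup.center S : Set S)) := by
      intro g
      have hAle : ∀ w ∈ A, (QuotientGroup.mk w : S ⧸ N) ∈ Subgroup.closure
          ({(QuotientGroup.mk a : S ⧸ N), QuotientGroup.mk v} ∪
            (fun z : S => (QuotientGroup.mk z : S ⧸ N)) '' (Subgroup.center S : Set S)) := by
        intro w hw
        have hle : A ≤ (Subgroup.closure ({(QuotientGroup.mk a : S ⧸ N), QuotientGroup.mk v} ∪
            (fun z : S => (QuotientGroup.mk z : S ⧸ N)) '' (Subgroup.center S : Set S))).comap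
            (QuotientGroup.mk' N) :=
          sup_le (Subgroup.zpowers_le.2 (Subgroup.subset_closure (by simp))) fun z hz =>
            Subgroup.subset_closure (Or.inr ⟨z, hz, rfl⟩)
        exact hle hw
      by_cases hg : g ∈ A
      · exact hAle g hg
      · have hgv : g * v⁻¹ ∈ A :=
          (Subgroup.mul_mem_iff_of_index_two hAidx).2 (iff_of_false hg fun h => hv (inv_mem_iff.1 h))
        rw [← inv_mul_cancel_right g v, QuotientGroup.mk_mul]
        exact mul_mem (hAle _ hgv) (Subgroup.subset_closure (by simp))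
    haveI := Subgroup.isMulCommutative_closure (k := ({(QuotientGroup.mk a : S ⧸ N), QuotientGroup.mk v} ∪
          (fun z : S => (QuotientGroup.mk z : S ⧸ N)) '' (Subgroup.center S : Set S))) (by
      rintro x ((rfl | rfl) | ⟨z, hz, rfl⟩) y ((rfl | rfl) | ⟨z', hz', rfl⟩) <;>
        first
        | rfl
        | exact hq.eq
        | exact hq.eq.symm
        | exact (hcentN z hz _).eq
        | exact (hcentN z' hz' _).eq.symm)
    intro x y
    obtain ⟨x, rfl⟩ := QuotientGroup.mk_surjective x
    obtain ⟨y, rfl⟩ := QuotientGroup.mk_surjective y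
    exact congrArg Subtype.val (mul_comm' (⟨_, hAC x⟩ : Subgroup.closure
      ({(QuotientGroup.mk a : S ⧸ N), QuotientGroup.mk v} ∪
          (fun z : S => (QuotientGroup.mk z : S ⧸ N)) '' (Subgroup.center S : Set S))) ⟨_, hAC y⟩)
  have hle : commutator S ≤ N :=
    (Subgroup.Normal.quotient_commutative_iff_commutator_le).1 ⟨⟨fun x y => (hall x y).eq⟩⟩
  refine ⟨commutator S, ?_, ?_, inferInstance⟩
  · intro h
    refine hna ⟨⟨fun x y => ?_⟩⟩
    obtain ⟨x, rfl⟩ := QuotientGroup.mk_surjective x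
    obtain ⟨y, rfl⟩ := QuotientGroup.mk_surjective y
    have h1 : x * y * x⁻¹ * y⁻¹ ∈ (⊥ : Subgroup S) :=
      h ▸ Subgroup.commutator_mem_commutator (Subgroup.mem_top x) (Subgroup.mem_top y)
    have h2 : x * y = y * x := mul_inv_eq_iff_eq_mul.1 (mul_inv_eq_one.1 (Subgroup.mem_bot.1 h1))
    rw [← QuotientGroup.mk_mul, ← QuotientGroup.mk_mul, h2]
  · exact isCyclic_of_injective (Subgroup.inclusion hle) (Subgroup.inclusion_injective hle)

end Cfsg.Agent.S3202
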