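import Cfsg.Statements.S3208
import Mathlib
import Cfsg.Agent.Lib.Solv.SchurZassenhaus
-- import your own Cfsg.Agent.* helpers here

set_option autoImplicit false
open Cfsg

namespace Cfsg.Agent.S3208

/-- Let j be an involution of a finite group G, H a subgroup of G, and T a Sylow 2-subgroup of H ∩ C_G(j) containing j such that ⟨j⟩ is a characteristic subgroup of T. Then T is a Sylow 2-subgroup of H. -/
theorem result {G : Type*} [Group G] [Finite G]
    (j : G) (hj : orderOf j = 2) (H T : Subgroup G) (hT : T ≤ H ⊓ Subgroup.centralizer ({j} : Set G)) (h2 : IsPGroup 2 ↥T)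
    (hSyl : ¬ 2 ∣ T.relIndex (H ⊓ Subgroup.centralizer ({j} : Set G))) (hjT : j ∈ T)
    (hchar : ((Subgroup.zpowers j).subgroupOf T).Characteristic) :
    ¬ 2 ∣ T.relIndex H := by
  have : Fact (Nat.Prime 2) := ⟨Nat.prime_two⟩
  set C := H ⊓ Subgroup.centralizer ({j} : Set G) with hCdef
  have hTH : T ≤ H := hT.trans inf_le_left
  obtain ⟨R, hR⟩ := (h2.comap_subtype : IsPGroup 2 ↥(T.subgroupOf H)).exists_le_sylow
  by_cases hle : (R : Subgroup H) ≤ T.subgroupOf H
  · rw [Subgroup.relIndex, ← le_antisymm hle hR]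
    exact R.not_dvd_index
  exfalso
  have hne : (T.subgroupOf H).subgroupOf (R : Subgroup H) ≠ ⊤ := fun h => hle (Subgroup.subgroupOf_eq_top.1 h)
  obtain ⟨x, hxN, hxT⟩ := SetLike.exists_of_lt
    (@Group.normalizerCondition_of_isNilpotent _ _ R.isPGroup'.isNilpotent _ (lt_top_iff_ne_top.2 hne))
  set y : G := ((x : H) : G) with hy
  have hyH : y ∈ H := (x : H).2
  have hyN : y ∈ Subgroup.normalizer (T : Set G) := by
    refine Subgroup.mem_normalizer_fintype ?_
    intro t ht
    exact ((Subgroup.mem_normalizer_iff.1 hxN) ⟨⟨t, hTH ht⟩, hR ht⟩).1 ht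
  have hfix := hchar.fixed (Subgroup.normalizerMonoidHom T ⟨y, hyN⟩)
  have hmem : y * j * y⁻¹ ∈ Subgroup.zpowers j := by
    have hj' : (⟨j, hjT⟩ : T) ∈ (Subgroup.zpowers j).subgroupOf T := Subgroup.mem_zpowers j
    rw [← hfix] at hj'
    exact hj'
  have hyj : y * j * y⁻¹ = j := by
    obtain ⟨i, hi⟩ := Subgroup.mem_zpowers_iff.1 hmem
    rcases Int.even_or_odd i with ⟨r, hr⟩ | ⟨r, hr⟩
    · exfalso
      rw [hr, ← two_mul, zpow_mul, zpow_ofNat, ← hj, pow_orderOf_eq_one, one_zpow] at hi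
      have : j = 1 := conj_eq_one_iff.1 hi.symm
      rw [this, orderOf_one] at hj
      omega
    · rw [← hi, hr, zpow_add, zpow_mul, zpow_ofNat, ← hj, pow_orderOf_eq_one, one_zpow, one_mul, zpow_one]
  have hyC : y ∈ C := ⟨hyH, Subgroup.mem_centralizer_singleton_iff.2 (by
    calc y * j = y * j * y⁻¹ * y := by group
      _ = j * y := by rw [hyj])⟩
  have hyp : IsPGroup 2 ↥(Subgroup.zpowers y) := by
    have hz : IsPGroup 2 ↥(Subgroup.zpowers (x : H)) := R.isPGroup'.to_le (Subgroup.zpowers_le.2 x.2)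
    have e : Subgroup.zpowers y = (Subgroup.zpowers (x : H)).map H.subtype := by
      rw [MonoidHom.map_zpowers]
      rfl
    rw [e]
    exact hz.map _
  have hU : IsPGroup 2 ↥((T ⊔ Subgroup.zpowers y).subgroupOf C) :=
    (IsPGroup.to_sup_of_normal_left' h2 hyp (Subgroup.zpowers_le.2 hyN)).comap_subtype
  have hTC : IsPGroup 2 ↥(T.subgroupOf C) := h2.comap_subtype
  have heq : T.subgroupOf C = (T ⊔ Subgroup.zpowers y).subgroupOf C :=
    (((IsPGroup.toSylow hTC hSyl).is_maximal' hU (Subgroup.comap_mono le_sup_left))).symm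
  apply hxT
  have h' : (⟨y, hyC⟩ : C) ∈ T.subgroupOf C := by
    rw [heq]
    exact Subgroup.mem_sup_right (Subgroup.mem_zpowers y)
  exact h'

end Cfsg.Agent.S3208
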