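import Cfsg.Statements.S3209
import Mathlib
-- import your own Cfsg.Agent.* helpers here

set_option autoImplicit false
open Cfsg

namespace Cfsg.Agent.S3209

open Matrix

variable {F : Type*} [Field F] [Fintype F]

theorem two_ne_zero_of_odd (hF : Odd (Fintype.card F)) : (2 : F) ≠ 0 :=
  Ring.two_ne_zero fun h => Nat.not_even_iff_odd.2 hF
    (FiniteField.even_card_iff_char_two.1 h |> Nat.even_iff.2)

theorem entries {x : SpecialLinearGroup (Fin 2) F} :
    (x.1 * x.1) 0 0 = x.1 0 0 * x.1 0 0 + x.1 0 1 * x.1 1 0 ∧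
    (x.1 * x.1) 0 1 = x.1 0 0 * x.1 0 1 + x.1 0 1 * x.1 1 1 ∧
    (x.1 * x.1) 1 0 = x.1 1 0 * x.1 0 0 + x.1 1 1 * x.1 1 0 ∧
    (x.1 * x.1) 1 1 = x.1 1 0 * x.1 0 1 + x.1 1 1 * x.1 1 1 := by
  simp [Matrix.mul_apply, Fin.sum_univ_two]

theorem sq_eq_one_iff' (hF : Odd (Fintype.card F)) {x : SpecialLinearGroup (Fin 2) F} (h : x * x = 1) :
    x = 1 ∨ x = -1 := by
  have h2 := two_ne_zero_of_odd hF
  have hd : x.1 0 0 * x.1 1 1 - x.1 0 1 * x.1 1 0 = 1 := by
    rw [← Matrix.det_fin_two]; exact x.2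
  obtain ⟨e00, e01, e10, e11⟩ := entries (x := x)
  have hm : x.1 * x.1 = 1 := congrArg Subtype.val h
  rw [hm] at e00 e01 e10 e11
  simp at e00 e01 e10 e11
  have hb : x.1 0 1 = 0 := by
    have : x.1 0 1 * (x.1 0 0 + x.1 1 1) = 0 := by linear_combination -e01
    rcases mul_eq_zero.1 this with h | h
    · exact h
    · exfalso; exact h2 (by linear_combination -hd + e00 + (x.1 0 0) * h)
  have hc : x.1 1 0 = 0 := by
    have : x.1 1 0 * (x.1 0 0 + x.1 1 1) = 0 := by linear_combination -e10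
    rcases mul_eq_zero.1 this with h | h
    · exact h
    · exfalso; exact h2 (by linear_combination -hd + e00 + (x.1 0 0) * h)
  have ha : (x.1 0 0 - 1) * (x.1 0 0 + 1) = 0 := by
    rw [hb] at e00; linear_combination -e00
  have hda : x.1 1 1 = x.1 0 0 := by
    rw [hb, hc] at hd; rw [hb] at e00
    linear_combination (x.1 0 0) * hd + (x.1 1 1) * e00
  rcases mul_eq_zero.1 ha with h | h
  · left
    ext i j
    fin_cases i <;> fin_cases j <;> simp [hb, hc, hda, sub_eq_zero.1 h]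
  · right
    ext i j
    fin_cases i <;> fin_cases j <;> simp [hb, hc, hda, eq_neg_of_add_eq_zero_left h]

theorem one_ne_neg_one' (hF : Odd (Fintype.card F)) : (1 : SpecialLinearGroup (Fin 2) F) ≠ -1 := by
  intro h
  have h' := congrArg (fun x : SpecialLinearGroup (Fin 2) F => x.1 0 0) h
  simp at h'
  exact two_ne_zero_of_odd hF (by linear_combination h')

/-- The standard element of order four. -/
def J4 : SpecialLinearGroup (Fin 2) F := ⟨!![0, -1; 1, 0], by simp [Matrix.det_fin_two]⟩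

theorem J4_sq : (J4 : SpecialLinearGroup (Fin 2) F) * J4 = -1 := by
  refine Subtype.ext ?_
  show (!![0, -1; 1, 0] : Matrix (Fin 2) (Fin 2) F) * !![0, -1; 1, 0] = -1
  ext i j
  fin_cases i <;> fin_cases j <;> simp

theorem conj_J4 (hF : Odd (Fintype.card F)) {x : SpecialLinearGroup (Fin 2) F} (h : x * x = -1) :
    ∃ P : SpecialLinearGroup (Fin 2) F, P * J4 * P⁻¹ = x := by
  have h2 := two_ne_zero_of_odd hF
  have hd : x.1 0 0 * x.1 1 1 - x.1 0 1 * x.1 1 0 = 1 := by
    rw [← Matrix.det_fin_two]; exact x.2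
  obtain ⟨e00, e01, e10, e11⟩ := entries (x := x)
  have hm : x.1 * x.1 = -1 := congrArg Subtype.val h
  rw [hm] at e00 e01 e10 e11
  simp at e00 e01 e10 e11
  have htr : x.1 1 1 = -x.1 0 0 := by
    have h0 : x.1 0 0 * (x.1 0 0 + x.1 1 1) = 0 := by linear_combination hd - e00
    rcases mul_eq_zero.1 h0 with h | h
    · rw [h] at e01 e10 e00 hd ⊢
      have hbc : x.1 0 1 * x.1 1 0 ≠ 0 := fun h' => one_ne_zero (α := F)
        (by linear_combination -e00 - h')
      have : x.1 0 1 * x.1 1 1 = 0 := by linear_combination -e01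
      rw [(mul_eq_zero.1 this).resolve_left (left_ne_zero_of_mul hbc), neg_zero]
    · linear_combination h
  obtain ⟨s, t, hst⟩ : ∃ s t : F,
      s * (x.1 1 0 * s + x.1 1 1 * t) - t * (x.1 0 0 * s + x.1 0 1 * t) = 1 := by
    by_cases hc : x.1 1 0 = 0
    · have ha : x.1 0 0 ≠ 0 := fun h' => one_ne_zero (α := F) (by rw [h', hc] at e00; linear_combination -e00)
      refine ⟨(-1 - x.1 0 1) / (2 * x.1 0 0), 1, ?_⟩
      rw [htr, hc]
      field_simp
      ring
    · obtain ⟨u, t, hut⟩ := FiniteField.exists_root_sum_quadratic (R := F)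
        (f := Polynomial.X ^ 2) (g := Polynomial.X ^ 2 - Polynomial.C (x.1 1 0))
        (Polynomial.degree_X_pow 2) (Polynomial.degree_X_pow_sub_C (by norm_num) _)
        (Nat.odd_iff.1 hF)
      simp at hut
      refine ⟨(u + x.1 0 0 * t) / x.1 1 0, t, ?_⟩
      rw [htr]
      field_simp
      linear_combination hut + t ^ 2 * e00
  refine ⟨⟨!![s, x.1 0 0 * s + x.1 0 1 * t; t, x.1 1 0 * s + x.1 1 1 * t], ?_⟩, ?_⟩
  · rw [Matrix.det_fin_two]; simp; linear_combination hst
  · refine mul_inv_eq_iff_eq_mul.2 ?_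
    refine Subtype.ext ?_
    show (!![s, x.1 0 0 * s + x.1 0 1 * t; t, x.1 1 0 * s + x.1 1 1 * t] : Matrix (Fin 2) (Fin 2) F) *
      !![0, -1; 1, 0] = x.1 * !![s, x.1 0 0 * s + x.1 0 1 * t; t, x.1 1 0 * s + x.1 1 1 * t]
    ext i j
    fin_cases i <;> fin_cases j <;> simp [Matrix.mul_apply, Fin.sum_univ_two]
    · linear_combination s * e00 + t * e01
    · linear_combination s * e10 + t * e11

theorem main {G : Type*} [Group G] [Finite G] {F₁ : Type*} [Field F₁] [Fintype F₁] {F₂ : Type*}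
    [Field F₂] [Fintype F₂] (hF₁ : Odd (Fintype.card F₁)) (hF₂ : Odd (Fintype.card F₂))
    (L₁ L₂ : Subgroup G) (e₁ : L₁ ≃* SpecialLinearGroup (Fin 2) F₁)
    (e₂ : L₂ ≃* SpecialLinearGroup (Fin 2) F₂)
    (hc : ∀ x ∈ L₁, ∀ y ∈ L₂, x * y = y * x) (j : G) (hj : orderOf j = 2)
    (hm : L₁ ⊓ L₂ = Subgroup.zpowers j) :
    ∃ x ∈ L₁ ⊔ L₂, orderOf x = 2 ∧ x ≠ j ∧
      ∀ y ∈ L₁ ⊔ L₂, orderOf y = 2 → y = j ∨ ∃ g ∈ L₁ ⊔ L₂, g * x * g⁻¹ = y := by
  obtain ⟨hj1, hj2⟩ := Subgroup.mem_inf.1 (hm.ge (Subgroup.mem_zpowers j))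
  have hjne : j ≠ 1 := fun h => by rw [h, orderOf_one] at hj; omega
  have hjj : j * j = 1 := by rw [← pow_two, ← hj, pow_orderOf_eq_one]
  have hn1 : ∀ z : L₁, z * z = 1 → z = 1 ∨ z = ⟨j, hj1⟩ := by
    have key : e₁ ⟨j, hj1⟩ = -1 := by
      refine (sq_eq_one_iff' hF₁ ?_).resolve_left fun h => hjne ?_
      · rw [← map_mul, ← map_one e₁]; exact congrArg e₁ (Subtype.ext hjj)
      · have := e₁.injective (h.trans (map_one e₁).symm); exact congrArg Subtype.val this
    intro z hz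
    rcases sq_eq_one_iff' hF₁ (x := e₁ z) (by rw [← map_mul, hz, map_one]) with h | h
    · left; exact e₁.injective (h.trans (map_one e₁).symm)
    · right; exact e₁.injective (h.trans key.symm)
  have hn2 : ∀ z : L₂, z * z = 1 → z = 1 ∨ z = ⟨j, hj2⟩ := by
    have key : e₂ ⟨j, hj2⟩ = -1 := by
      refine (sq_eq_one_iff' hF₂ ?_).resolve_left fun h => hjne ?_
      · rw [← map_mul, ← map_one e₂]; exact congrArg e₂ (Subtype.ext hjj)
      · have := e₂.injective (h.trans (map_one e₂).symm); exact congrArg Subtype.val this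
    intro z hz
    rcases sq_eq_one_iff' hF₂ (x := e₂ z) (by rw [← map_mul, hz, map_one]) with h | h
    · left; exact e₂.injective (h.trans (map_one e₂).symm)
    · right; exact e₂.injective (h.trans key.symm)
  -- elements squaring to `j` correspond to elements squaring to `-1`
  have hs1 : ∀ z : L₁, (z : G) * z = j → e₁ z * e₁ z = -1 := by
    intro z hz
    refine (sq_eq_one_iff' hF₁ ?_).resolve_left fun h => hjne ?_
    · rw [← map_mul, ← map_mul, ← map_one e₁]
      exact congrArg e₁ (Subtype.ext (show (z : G) * z * ((z : G) * z) = 1 by rw [hz, hjj]))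
    · rw [← map_mul] at h
      have := congrArg Subtype.val (e₁.injective (h.trans (map_one e₁).symm))
      exact hz.symm.trans this
  have hs2 : ∀ z : L₂, (z : G) * z = j → e₂ z * e₂ z = -1 := by
    intro z hz
    refine (sq_eq_one_iff' hF₂ ?_).resolve_left fun h => hjne ?_
    · rw [← map_mul, ← map_mul, ← map_one e₂]
      exact congrArg e₂ (Subtype.ext (show (z : G) * z * ((z : G) * z) = 1 by rw [hz, hjj]))
    · rw [← map_mul] at h
      have := congrArg Subtype.val (e₂.injective (h.trans (map_one e₂).symm))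
      exact hz.symm.trans this
  have hi1 : ∀ z : L₁, e₁ z * e₁ z = -1 → (z : G) * z = j := by
    intro z hz
    rcases hn1 (z * z) (e₁.injective (by
      rw [map_mul, map_mul, hz, map_one, neg_mul_neg, one_mul])) with h | h
    · rw [← map_mul, h, map_one] at hz; exact absurd hz (one_ne_neg_one' hF₁)
    · exact congrArg Subtype.val h
  have hi2 : ∀ z : L₂, e₂ z * e₂ z = -1 → (z : G) * z = j := by
    intro z hz
    rcases hn2 (z * z) (e₂.injective (by
      rw [map_mul, map_mul, hz, map_one, neg_mul_neg, one_mul])) with h | h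
    · rw [← map_mul, h, map_one] at hz; exact absurd hz (one_ne_neg_one' hF₂)
    · exact congrArg Subtype.val h
  set a := e₁.symm J4 with ha
  set b := e₂.symm J4 with hb
  have haa : (a : G) * a = j := hi1 a (by rw [ha, e₁.apply_symm_apply]; exact J4_sq)
  have hbb : (b : G) * b = j := hi2 b (by rw [hb, e₂.apply_symm_apply]; exact J4_sq)
  have hsq : (a : G) * b * (a * b) = 1 := by
    rw [mul_assoc, ← mul_assoc (b : G), ← hc a a.2 b b.2, mul_assoc, hbb, ← mul_assoc, haa, hjj]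
  have hne1 : (a : G) * b ∉ L₁ ⊓ L₂ := fun h => by
    have hb1 : (b : G) ∈ L₁ := by
      have := mul_mem (inv_mem a.2) (Subgroup.mem_inf.1 h).1
      rwa [inv_mul_cancel_left] at this
    have hbi : (b : G) ∈ Subgroup.zpowers j := hm ▸ Subgroup.mem_inf.2 ⟨hb1, b.2⟩
    obtain ⟨n, hn⟩ := hbi
    refine hjne ?_
    rw [← hbb, ← hn]
    show j ^ n * j ^ n = 1
    rw [← (Commute.refl j).mul_zpow, hjj, _root_.one_zpow]
  refine ⟨a * b, mul_mem (Subgroup.mem_sup_left a.2) (Subgroup.mem_sup_right b.2),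
    orderOf_eq_prime (by rw [pow_two, hsq]) (fun h => hne1 (h ▸ one_mem _)),
    fun h => hne1 (h ▸ Subgroup.mem_inf.2 ⟨hj1, hj2⟩), ?_⟩
  intro y hy hy2
  have hle : L₁ ≤ Subgroup.normalizer (L₂ : Set G) := fun u hu =>
    Subgroup.centralizer_le_normalizer _
      (Subgroup.mem_centralizer_iff.2 fun v hv => (hc u hu v hv).symm)
  rw [← SetLike.mem_coe, Subgroup.coe_mul_of_left_le_normalizer_right L₁ L₂ hle] at hy
  obtain ⟨u, hu, v, hv, rfl⟩ := hy
  have huv : u * v * (u * v) = 1 := by rw [← pow_two, ← hy2, pow_orderOf_eq_one]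
  have h1 : u * u * (v * v) = 1 := by
    rwa [mul_assoc, ← mul_assoc v, ← hc u hu v hv, mul_assoc, ← mul_assoc] at huv
  have hu2 : u * u ∈ Subgroup.zpowers j := hm ▸ Subgroup.mem_inf.2
    ⟨mul_mem hu hu, by rw [eq_inv_of_mul_eq_one_left h1]; exact inv_mem (mul_mem hv hv)⟩
  have hju : u * u = 1 ∨ u * u = j := by
    obtain ⟨n, hn⟩ := hu2
    change j ^ n = u * u at hn
    rw [← zpow_mod_orderOf, hj] at hn
    rcases Int.emod_two_eq n with h | h <;> simp [h] at hn
    · exact Or.inl hn.symm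
    · exact Or.inr hn.symm
  rcases hju with h | h
  · left
    rw [h, one_mul] at h1
    rcases hn1 ⟨u, hu⟩ (Subtype.ext h) with h' | h' <;> rcases hn2 ⟨v, hv⟩ (Subtype.ext h1) with h'' | h''
    all_goals
      have ea := congrArg Subtype.val h'
      have eb := congrArg Subtype.val h''
      change orderOf (u * v) = 2 at hy2
      show u * v = j
      simp only [OneMemClass.coe_one] at ea eb
      rw [ea, eb] at hy2 ⊢
    · simp at hy2
    · simp
    · simp
    · rw [hjj, orderOf_one] at hy2; omega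
  · right
    have hv2 : v * v = j := by
      rw [h] at h1
      rw [eq_inv_of_mul_eq_one_right h1, inv_eq_of_mul_eq_one_right hjj]
    obtain ⟨P, hP⟩ := conj_J4 hF₁ (hs1 ⟨u, hu⟩ h)
    obtain ⟨Q, hQ⟩ := conj_J4 hF₂ (hs2 ⟨v, hv⟩ hv2)
    set g := e₁.symm P with hg
    set k := e₂.symm Q with hk
    have hga : (g : G) * a * (g : G)⁻¹ = u := by
      have : g * a * g⁻¹ = ⟨u, hu⟩ := by
        apply e₁.injective
        rw [map_mul, map_mul, map_inv, hg, ha, e₁.apply_symm_apply, e₁.apply_symm_apply, hP]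
      exact congrArg Subtype.val this
    have hkb : (k : G) * b * (k : G)⁻¹ = v := by
      have : k * b * k⁻¹ = ⟨v, hv⟩ := by
        apply e₂.injective
        rw [map_mul, map_mul, map_inv, hk, hb, e₂.apply_symm_apply, e₂.apply_symm_apply, hQ]
      exact congrArg Subtype.val this
    refine ⟨g * k, mul_mem (Subgroup.mem_sup_left g.2) (Subgroup.mem_sup_right k.2), ?_⟩
    have c1 : (k : G) * a * (k : G)⁻¹ = a := by rw [← hc a a.2 k k.2, mul_inv_cancel_right]
    have c2 : (g : G) * v * (g : G)⁻¹ = v := by rw [hc g g.2 v hv, mul_inv_cancel_right]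
    calc (g : G) * k * (a * b) * ((g : G) * k)⁻¹
        = g * ((k * a * (k : G)⁻¹) * (k * b * (k : G)⁻¹)) * (g : G)⁻¹ := by group
      _ = (g * a * (g : G)⁻¹) * (g * v * (g : G)⁻¹) := by rw [c1, hkb]; group
      _ = u * v := by rw [hga, c2]


/-- Let L₁ ≅ SL₂(q₁) and L₂ ≅ SL₂(q₂), q₁ and q₂ odd, be elementwise-commuting subgroups of a finite group meeting in ⟨j⟩ for an involution j. Then L₁L₂ has exactly two conjugacy classes of involutions: the central involution j, and one further class (there is an involution x ≠ j in L₁L₂, and every involution of L₁L₂ other than j is conjugate to x by an element of L₁L₂). -/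
theorem result {G : Type*} [Group G] [Finite G]
    {F₁ : Type*} [Field F₁] [Fintype F₁] {F₂ : Type*} [Field F₂] [Fintype F₂]
    (hF₁ : Odd (Fintype.card F₁)) (hF₂ : Odd (Fintype.card F₂)) (L₁ L₂ : Subgroup G)
    (e₁ : ↥L₁ ≃* Matrix.SpecialLinearGroup (Fin 2) F₁) (e₂ : ↥L₂ ≃* Matrix.SpecialLinearGroup (Fin 2) F₂)
    (hc : ∀ x ∈ L₁, ∀ y ∈ L₂, x * y = y * x) (j : G) (hj : orderOf j = 2) (hm : L₁ ⊓ L₂ = Subgroup.zpowers j) :
    ∃ x ∈ L₁ ⊔ L₂, orderOf x = 2 ∧ x ≠ j ∧
      ∀ y ∈ L₁ ⊔ L₂, orderOf y = 2 → y = j ∨ ∃ g ∈ L₁ ⊔ L₂, g * x * g⁻¹ = y := by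
  exact main hF₁ hF₂ L₁ L₂ e₁ e₂ hc j hj hm

end Cfsg.Agent.S3209
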