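import Cfsg.Statements.S3210
import Mathlib
import Cfsg.Agent.Lib.Classical.SLGroup
import Cfsg.Agent.Lib.Classical.LinearOrders
-- import your own Cfsg.Agent.* helpers here

set_option autoImplicit false
open Cfsg

namespace Cfsg.Agent.S3210

open Matrix
open scoped MatrixGroups commutatorElement

variable {F : Type*} [Field F] [Fintype F]

theorem two_ne_zero' (hF : Odd (Fintype.card F)) : (2 : F) ≠ 0 := by
  refine Ring.two_ne_zero fun h => ?_
  haveI : CharP F 2 := h ▸ ringChar.charP F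
  obtain ⟨n, -, hn⟩ := FiniteField.card F 2
  rw [hn] at hF
  exact Nat.not_even_iff_odd.2 hF (Nat.even_pow.2 ⟨even_two, n.ne_zero⟩)

theorem card_eq (F : Type*) [Field F] [Fintype F] :
    Nat.card SL(2, F) = Fintype.card F * (Fintype.card F ^ 2 - 1) := by
  have h := Cfsg.Lib.Classical.LinearOrders.card_sl_mul (F := F) (n := 2) one_le_two
  rw [Fin.prod_univ_two] at h
  have hq := Fintype.one_lt_card (α := F)
  refine Nat.eq_of_mul_eq_mul_left (Nat.sub_pos_of_lt hq) (h.trans ?_)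
  simp only [Fin.val_zero, Fin.val_one, pow_zero, pow_one]
  obtain ⟨k, hk⟩ : ∃ k, Fintype.card F = k + 1 := ⟨_, (Nat.sub_add_cancel hq.le).symm⟩
  rw [hk, show (k + 1) ^ 2 - (k + 1) = k * (k + 1) by rw [Nat.sub_eq_iff_eq_add (Nat.le_self_pow two_ne_zero _)]; ring,
    Nat.add_sub_cancel]
  ring

theorem card_mono {F₁ F₂ : Type*} [Field F₁] [Fintype F₁] [Field F₂] [Fintype F₂]
    (h : Nat.card SL(2, F₁) = Nat.card SL(2, F₂)) : Fintype.card F₁ = Fintype.card F₂ := by
  rw [card_eq, card_eq] at h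
  rcases lt_trichotomy (Fintype.card F₁) (Fintype.card F₂) with hlt | heq | hlt
  · exact absurd h (Nat.mul_lt_mul_of_lt_of_le hlt (Nat.sub_le_sub_right (Nat.pow_le_pow_left hlt.le 2) 1)
      (Nat.sub_pos_of_lt (Nat.one_lt_pow two_ne_zero Fintype.one_lt_card))).ne
  · exact heq
  · exact absurd h.symm (Nat.mul_lt_mul_of_lt_of_le hlt (Nat.sub_le_sub_right (Nat.pow_le_pow_left hlt.le 2) 1)
      (Nat.sub_pos_of_lt (Nat.one_lt_pow two_ne_zero Fintype.one_lt_card))).ne

theorem neg_mem_center : (-1 : SL(2, F)) ∈ Subgroup.center SL(2, F) :=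
  Subgroup.mem_center_iff.2 fun g => Subtype.ext (by simp)

theorem eq_one_or_neg (hF : Odd (Fintype.card F)) {x : SL(2, F)} (h : x * x = 1) : x = 1 ∨ x = -1 := by
  have h2 := two_ne_zero' hF
  have hdet : x.1 0 0 * x.1 1 1 - x.1 0 1 * x.1 1 0 = 1 := by rw [← Matrix.det_fin_two]; exact x.2
  have hm : x.1 * x.1 = 1 := congrArg Subtype.val h
  have e00 := congrFun (congrFun hm 0) 0
  have e01 := congrFun (congrFun hm 0) 1
  have e10 := congrFun (congrFun hm 1) 0
  have e11 := congrFun (congrFun hm 1) 1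
  simp [Matrix.mul_apply, Fin.sum_univ_two] at e00 e01 e10 e11
  set a := x.1 0 0 with ha
  set b := x.1 0 1 with hb
  set c := x.1 1 0 with hc
  set d := x.1 1 1 with hd
  have ht : a + d ≠ 0 := fun h0 => h2 (by linear_combination -e00 - hdet + a * h0)
  have hb0 : b = 0 := (mul_eq_zero.1 (by linear_combination e01 : (a + d) * b = 0)).resolve_left ht
  have hc0 : c = 0 := (mul_eq_zero.1 (by linear_combination e10 : (a + d) * c = 0)).resolve_left ht
  have had : a = d := by
    have ha0 : a ≠ 0 := fun h0 => one_ne_zero (α := F) (by linear_combination -hdet + d * h0 - c * hb0)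
    refine mul_left_cancel₀ ha0 ?_
    linear_combination e00 - hdet - c * hb0 - c * hb0
  rcases mul_self_eq_one_iff.1 (by linear_combination e00 - c * hb0 : a * a = 1) with h1 | h1
  · left; ext i j; fin_cases i <;> fin_cases j <;> simp [← ha, ← hb, ← hc, ← hd, h1, hb0, hc0, ← had]
  · right; ext i j; fin_cases i <;> fin_cases j <;> simp [← ha, ← hb, ← hc, ← hd, h1, hb0, hc0, ← had]

theorem mem_center (hF : Odd (Fintype.card F)) {b : SL(2, F)}
    (hb : ∀ y, b * y * b⁻¹ * y⁻¹ ∈ Subgroup.center SL(2, F)) : b = 1 ∨ b = -1 := by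
  have h2 := two_ne_zero' hF
  have key : ∀ t : SL(2, F), t.1.trace = 2 → b * t = t * b := by
    intro t ht
    have hz := hb t
    obtain ⟨r, hr, hrz⟩ := Matrix.SpecialLinearGroup.mem_center_iff.1 hz
    simp only [Fintype.card_fin] at hr
    have h1 : b.1 * t.1 * (b⁻¹).1 = r • t.1 := by
      have h3 : b * t * b⁻¹ = b * t * b⁻¹ * t⁻¹ * t := by group
      have h4 := congrArg Subtype.val h3
      rw [Matrix.SpecialLinearGroup.coe_mul (b * t * b⁻¹ * t⁻¹) t] at h4
      have hrz' : (b * t * b⁻¹ * t⁻¹).1 = r • (1 : Matrix (Fin 2) (Fin 2) F) := by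
        rw [← hrz]
        ext i j; simp [Matrix.scalar_apply, Matrix.diagonal_apply, Matrix.one_apply]
      rw [hrz', Matrix.smul_mul, one_mul] at h4
      exact h4
    have h5 := congrArg Matrix.trace h1
    rw [Matrix.trace_mul_comm, ← mul_assoc, show (b⁻¹).1 * b.1 = 1 from congrArg Subtype.val (inv_mul_cancel b), one_mul,
      Matrix.trace_smul, ht, smul_eq_mul] at h5
    have hr1 : r = 1 := mul_right_cancel₀ h2 (h5.symm.trans (one_mul _).symm)
    rw [hr1, one_smul] at h1
    have h6 : b * t * b⁻¹ = t := Subtype.ext h1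
    exact mul_inv_eq_iff_eq_mul.1 h6
  have hu : b.1 * !![(1 : F), 1; 0, 1] = !![(1 : F), 1; 0, 1] * b.1 := congrArg Subtype.val (key ⟨!![1, 1; 0, 1], by simp [det_fin_two_of]⟩ (by simp [Matrix.trace_fin_two]; norm_num))
  have hl : b.1 * !![(1 : F), 0; 1, 1] = !![(1 : F), 0; 1, 1] * b.1 := congrArg Subtype.val (key ⟨!![1, 0; 1, 1], by simp [det_fin_two_of]⟩ (by simp [Matrix.trace_fin_two]; norm_num))
  have hdet : b.1 0 0 * b.1 1 1 - b.1 0 1 * b.1 1 0 = 1 := by rw [← Matrix.det_fin_two]; exact b.2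
  have u00 := congrFun (congrFun hu 0) 0
  have u01 := congrFun (congrFun hu 0) 1
  have l00 := congrFun (congrFun hl 0) 0
  simp [Matrix.mul_apply, Fin.sum_univ_two] at u00 u01 l00
  refine eq_one_or_neg hF (Subtype.ext ?_)
  show b.1 * b.1 = 1
  ext i j
  fin_cases i <;> fin_cases j <;> simp [Matrix.mul_apply, Fin.sum_univ_two] <;> grind

theorem eq_of_mem_center (hF : Odd (Fintype.card F)) {x : SL(2, F)} (h : x ∈ Subgroup.center SL(2, F)) :
    x = 1 ∨ x = -1 :=
  mem_center hF fun y => by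
    rw [← Subgroup.mem_center_iff.1 h y, mul_inv_cancel_right, mul_inv_cancel]
    exact one_mem _

/-- A normal subgroup is central or has at least eight elements, and is everything for `q ≥ 5`. -/
theorem normal_card (hF : Odd (Fintype.card F)) (N : Subgroup SL(2, F)) [hN : N.Normal]
    (hc : ¬ N ≤ Subgroup.center SL(2, F)) :
    8 ≤ Nat.card N ∧ (5 ≤ Fintype.card F → N = ⊤) := by
  classical
  have hq3 : 3 ≤ Fintype.card F := by
    have := Fintype.one_lt_card (α := F)
    obtain ⟨k, hk⟩ := hF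
    omega
  have htop : 5 ≤ Fintype.card F → N = ⊤ := by
    intro h5
    have hne : ∃ a : F, a ≠ 0 ∧ a ^ 2 ≠ 1 := by
      by_contra hall
      push_neg at hall
      have hsub : (Finset.univ : Finset F) ⊆ {0, 1, -1} := by
        intro a _
        rcases eq_or_ne a 0 with rfl | ha
        · simp
        · rcases sq_eq_one_iff.1 (hall a ha) with h | h <;> simp [h]
      have := (Finset.card_le_card hsub).trans Finset.card_le_three
      rw [Finset.card_univ] at this
      omega
    haveI := Cfsg.Lib.Classical.SLGroup.isSimpleGroup_psl (ι := Fin 2) (F := F) (Or.inr hne)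
    let q := QuotientGroup.mk' (Subgroup.center SL(2, F))
    haveI : (N.map q).Normal := hN.map q (QuotientGroup.mk'_surjective _)
    have hM : N.map q = ⊤ := by
      refine ((inferInstance : (N.map q).Normal).eq_bot_or_eq_top).resolve_left fun h => hc ?_
      rwa [Subgroup.map_eq_bot_iff, QuotientGroup.ker_mk'] at h
    refine top_le_iff.1 ?_
    rw [← Cfsg.Lib.Classical.SLGroup.commutator_sl_eq_top (ι := Fin 2) (F := F) (Or.inr hne), commutator_eq_closure,
      Subgroup.closure_le]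
    rintro _ ⟨x, y, rfl⟩
    obtain ⟨x', hx', hxq⟩ : q x ∈ N.map q := hM ▸ Subgroup.mem_top _
    have hz : x'⁻¹ * x ∈ Subgroup.center SL(2, F) := QuotientGroup.eq.1 hxq
    have heq : ⁅x, y⁆ = x' * (y * x'⁻¹ * y⁻¹) := by
      have hx : x = x' * (x'⁻¹ * x) := by group
      generalize x'⁻¹ * x = w at hz hx
      subst hx
      rw [commutatorElement_def]
      have hw : w * y = y * w := (Subgroup.mem_center_iff.1 hz y).symm
      calc x' * w * y * (x' * w)⁻¹ * y⁻¹ = x' * (w * y) * w⁻¹ * x'⁻¹ * y⁻¹ := by group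
        _ = x' * (y * x'⁻¹ * y⁻¹) := by rw [hw]; group
    rw [SetLike.mem_coe, heq]
    exact N.mul_mem hx' (hN.conj_mem _ (N.inv_mem hx') y)
  refine ⟨?_, htop⟩
  by_cases h5 : 5 ≤ Fintype.card F
  · rw [htop h5, Subgroup.card_top, card_eq]
    have : 24 ≤ Fintype.card F ^ 2 - 1 := by
      have := Nat.pow_le_pow_left h5 2
      omega
    nlinarith
  have hq : Fintype.card F = 3 := by
    obtain ⟨k, hk⟩ := hF
    omega
  have h24 : Nat.card SL(2, F) = 24 := by rw [card_eq, hq]; rfl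
  obtain ⟨p, hp⟩ := CharP.exists F
  obtain ⟨k, hpp, hk⟩ := FiniteField.card F p
  have hp3 : p = 3 := by
    have h : p ∣ 3 := by rw [← hq, hk]; exact dvd_pow_self p k.ne_zero
    exact (Nat.prime_dvd_prime_iff_eq hpp (by norm_num)).1 h
  subst hp3
  have h3 : (3 : F) = 0 := by exact_mod_cast CharP.cast_eq_zero F 3
  haveI : Fact (Nat.Prime 3) := ⟨Nat.prime_three⟩
  have h2 := two_ne_zero' hF
  -- an element of order three commutes with no element squaring to `-1`
  have hcom : ∀ g y : SL(2, F), g * g * g = 1 → y * y = -1 → g * y = y * g → g = 1 := by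
    intro g y hg hy hgy
    have hg' : g.1 * g.1 * g.1 = 1 := congrArg Subtype.val hg
    have hy' : y.1 * y.1 = -1 := congrArg Subtype.val hy
    have hgy' : g.1 * y.1 = y.1 * g.1 := congrArg Subtype.val hgy
    have h30 : ∀ Q : Matrix (Fin 2) (Fin 2) F, (3 : ℕ) • Q = 0 := fun Q => by
      rw [← Nat.cast_smul_eq_nsmul F, CharP.cast_eq_zero, zero_smul]
    set M := g.1 - 1 with hM
    have hM3 : M * M * M = 0 := by
      have he : M * M * M + (3 : ℕ) • (g.1 * g.1 - g.1) = g.1 * g.1 * g.1 - 1 := by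
        rw [hM]; simp only [mul_sub, sub_mul, mul_one, one_mul, smul_sub]; abel
      rwa [h30, add_zero, hg', sub_self] at he
    have hcom' : y.1 * M = M * y.1 := by rw [hM, mul_sub, sub_mul, mul_one, one_mul, hgy']
    have hd0 : M.det = 0 := by
      have := congrArg Matrix.det hM3
      rw [det_mul, det_mul, Matrix.det_zero] at this
      simpa using this
    have m00 : M 0 0 * M 1 1 - M 0 1 * M 1 0 = 0 := by rw [← Matrix.det_fin_two]; exact hd0
    have hMt : M 0 0 + M 1 1 = 0 := by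
      have e := congrArg Matrix.trace hM3
      simp [Matrix.trace_fin_two, Matrix.mul_apply, Fin.sum_univ_two] at e
      refine eq_zero_of_pow_eq_zero (n := 3) ?_
      linear_combination e + 3 * (M 0 0 + M 1 1) * m00
    have hM2 : M * M = 0 := by
      ext i j
      fin_cases i <;> fin_cases j <;> simp [Matrix.mul_apply, Fin.sum_univ_two]
      · linear_combination M 0 0 * hMt - m00
      · linear_combination M 0 1 * hMt
      · linear_combination M 1 0 * hMt
      · linear_combination M 1 1 * hMt - m00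
    have hyt : y.1 0 0 + y.1 1 1 = 0 := by
      have hdet : y.1 0 0 * y.1 1 1 - y.1 0 1 * y.1 1 0 = 1 := by rw [← Matrix.det_fin_two]; exact y.2
      have e00 := congrFun (congrFun hy' 0) 0
      have e01 := congrFun (congrFun hy' 0) 1
      have e10 := congrFun (congrFun hy' 1) 0
      have e11 := congrFun (congrFun hy' 1) 1
      simp [Matrix.mul_apply, Fin.sum_univ_two] at e00 e01 e10 e11
      refine eq_zero_of_pow_eq_zero (n := 2) ?_
      linear_combination e00 + e11 + 2 * hdet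
    have hyM : y.1 * M = 0 := by
      obtain ⟨P, hP⟩ : ∃ P, P = y.1 * M := ⟨_, rfl⟩
      rw [← hP]
      have hP2 : P * P = 0 := by
        rw [hP, mul_assoc, ← mul_assoc M, ← hcom', mul_assoc y.1 M M, hM2, mul_zero, mul_zero]
      have p01 : P 0 1 = 0 ∧ P 1 0 = 0 ∧ P 0 0 = P 1 1 := by
        have c00 := congrFun (congrFun hcom' 0) 0
        have c01 := congrFun (congrFun hcom' 0) 1
        have c10 := congrFun (congrFun hcom' 1) 0
        simp [Matrix.mul_apply, Fin.sum_univ_two] at c00 c01 c10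
        simp [hP, Matrix.mul_apply, Fin.sum_univ_two]
        refine ⟨mul_left_cancel₀ h2 ?_, mul_left_cancel₀ h2 ?_, ?_⟩
        · linear_combination c01 + y.1 0 1 * hMt + M 0 1 * hyt
        · linear_combination c10 + y.1 1 0 * hMt + M 1 0 * hyt
        · linear_combination c00 + M 0 0 * hyt - y.1 1 1 * hMt
      obtain ⟨p1, p2, p3⟩ := p01
      have q00 := congrFun (congrFun hP2 0) 0
      simp [Matrix.mul_apply, Fin.sum_univ_two, p1] at q00
      ext i j
      fin_cases i <;> fin_cases j <;> simp [p1, p2, q00]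
      rw [← p3, q00]
    have hM0 : M = 0 := by
      have : y.1 * y.1 * M = 0 := by rw [mul_assoc, hyM, mul_zero]
      rwa [hy', neg_mul, one_mul, neg_eq_zero] at this
    exact Subtype.ext (sub_eq_zero.1 hM0)
  by_contra hlt
  have hdvd : Nat.card N ∣ 24 := h24 ▸ N.card_subgroup_dvd_card
  have hN2 : 2 < Nat.card N := by
    by_contra h
    refine hc fun x hx => ?_
    have h' : (⟨x, hx⟩ : N) ^ 2 = 1 := by
      rcases (by omega : Nat.card N = 0 ∨ Nat.card N = 1 ∨ Nat.card N = 2) with h | h | h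
      · exact absurd h Nat.card_pos.ne'
      · rw [Nat.card_eq_one_iff_unique] at h
        haveI := h.1
        exact Subsingleton.elim _ _
      · have := pow_card_eq_one' (x := (⟨x, hx⟩ : N))
        rwa [h] at this
    rcases eq_one_or_neg hF (by simpa [pow_two] using congrArg Subtype.val h' : x * x = 1) with rfl | rfl
    · exact one_mem _
    · exact neg_mem_center
  -- quaternion elements
  let i0 : SL(2, F) := ⟨!![0, -1; 1, 0], by simp [det_fin_two_of]⟩
  let j0 : SL(2, F) := ⟨!![1, 1; 1, -1], by simp [det_fin_two_of]; linear_combination (-1 : F) * h3⟩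
  have hi0 : i0 * i0 = -1 := by
    apply Subtype.ext
    show !![(0 : F), -1; 1, 0] * !![(0 : F), -1; 1, 0] = -1
    ext i j; fin_cases i <;> fin_cases j <;> simp [i0]
  have hj0 : j0 * j0 = -1 := by
    apply Subtype.ext
    show !![(1 : F), 1; 1, -1] * !![(1 : F), 1; 1, -1] = -1
    ext i j; fin_cases i <;> fin_cases j <;> simp [j0] <;> linear_combination h3
  have hk0 : i0 * j0 * (i0 * j0) = -1 := by
    apply Subtype.ext
    show !![(0 : F), -1; 1, 0] * !![(1 : F), 1; 1, -1] * (!![(0 : F), -1; 1, 0] * !![(1 : F), 1; 1, -1]) = -1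
    ext i j; fin_cases i <;> fin_cases j <;> simp [i0, j0] <;> linear_combination h3
  by_cases h3N : 3 ∣ Nat.card N
  · -- the normal subgroup of order three
    obtain ⟨P⟩ : Nonempty (Sylow 3 N) := inferInstance
    have hP3 : Nat.card P = 3 := by
      rw [P.card_eq_multiplicity]
      rcases (by omega : Nat.card N = 3 ∨ Nat.card N = 6) with h | h <;> rw [h]
      · rw [Nat.Prime.factorization_self Nat.prime_three, pow_one]
      · rw [show 6 = 3 ^ 1 * 2 by rfl, Nat.factorization_mul (by norm_num) (by norm_num), Finsupp.add_apply,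
          Nat.Prime.factorization_pow Nat.prime_three, Finsupp.single_eq_same,
          Nat.factorization_eq_zero_of_not_dvd (by norm_num), add_zero, pow_one]
    have huniq : Nat.card (Sylow 3 N) = 1 := by
      have h1 := card_sylow_modEq_one 3 N
      have h2 : Nat.card (Sylow 3 N) ∣ (P : Subgroup N).index := Sylow.card_dvd_index P
      have h4 := (P : Subgroup N).card_mul_index
      rw [hP3] at h4
      have h6 := Nat.le_of_dvd (Nat.pos_of_ne_zero Subgroup.index_ne_zero_of_finite) h2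
      unfold Nat.ModEq at h1
      rcases (by omega : Nat.card (Sylow 3 N) = 1 ∨ 4 ≤ Nat.card (Sylow 3 N)) with h | h
      · exact h
      · omega
    haveI : Subsingleton (Sylow 3 N) := (Nat.card_eq_one_iff_unique.1 huniq).1
    haveI : (P : Subgroup N).Characteristic := P.characteristic_of_subsingleton
    set Q := (P : Subgroup N).map N.subtype
    have hQ3 : Nat.card Q = 3 := by rw [Subgroup.card_map_of_injective N.subtype_injective, hP3]
    obtain ⟨g, hg⟩ := exists_prime_orderOf_dvd_card' (G := Q) 3 (hQ3 ▸ dvd_rfl)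
    have hgQ : Q = Subgroup.zpowers (g : SL(2, F)) := (Subgroup.eq_of_le_of_card_ge (Subgroup.zpowers_le.2 g.2)
      (by rw [Nat.card_zpowers, Subgroup.orderOf_coe, hg, hQ3])).symm
    have hg3 : (g : SL(2, F)) * g * g = 1 := by
      rw [← pow_three', ← SubmonoidClass.coe_pow, ← hg, pow_orderOf_eq_one, Subgroup.coe_one]
    have hg1 : (g : SL(2, F)) ≠ 1 := fun h => by
      rw [← Subgroup.orderOf_coe, h, orderOf_one] at hg
      omega
    have hconj : ∀ y : SL(2, F), y * g * y⁻¹ = g ∨ y * g * y⁻¹ = (g : SL(2, F)) * g := by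
      intro y
      have hmem : y * g * y⁻¹ ∈ Q := by
        haveI : Q.Normal := inferInstance
        exact (inferInstance : Q.Normal).conj_mem _ g.2 y
      have hmem' := hgQ.le hmem
      rw [← mem_powers_iff_mem_zpowers] at hmem'
      obtain ⟨k, hk⟩ := hmem'
      have hk : (g : SL(2, F)) ^ k = y * g * y⁻¹ := hk
      rw [← pow_mod_orderOf, Subgroup.orderOf_coe, hg] at hk
      rcases (by omega : k % 3 = 0 ∨ k % 3 = 1 ∨ k % 3 = 2) with h | h | h <;> rw [h] at hk
      · exfalso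
        rw [pow_zero, eq_comm, mul_inv_eq_one, mul_eq_left] at hk
        exact hg1 hk
      · left; rw [← hk, pow_one]
      · right; rw [← hk, pow_two]
    rcases hconj i0 with hi | hi
    · exact hg1 (hcom g i0 hg3 hi0 (mul_inv_eq_iff_eq_mul.1 hi).symm)
    rcases hconj j0 with hj | hj
    · exact hg1 (hcom g j0 hg3 hj0 (mul_inv_eq_iff_eq_mul.1 hj).symm)
    refine hg1 (hcom g (i0 * j0) hg3 hk0 (mul_inv_eq_iff_eq_mul.1 ?_).symm)
    calc i0 * j0 * g * (i0 * j0)⁻¹ = i0 * (j0 * g * j0⁻¹) * i0⁻¹ := by group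
      _ = (i0 * g * i0⁻¹) * (i0 * g * i0⁻¹) := by rw [hj]; group
      _ = (g : SL(2, F)) * g * g * g := by rw [hi]; group
      _ = g := by rw [hg3, one_mul]
  · -- the normal subgroup of order four
    have h4 : Nat.card N = 4 := by
      have := Nat.le_of_dvd (by norm_num) hdvd
      interval_cases h : Nat.card N <;> omega
    obtain ⟨y, hyN, hy1⟩ : ∃ y ∈ N, y * y ≠ 1 := by
      by_contra hall
      push_neg at hall
      have hsub : (N : Set SL(2, F)) ⊆ {1, -1} := fun y hy => by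
        rcases eq_one_or_neg hF (hall y hy) with h | h <;> simp [h]
      have := Set.ncard_le_ncard hsub (Set.toFinite _)
      have h' : (N : Set SL(2, F)).ncard = 4 := by rw [← Nat.card_coe_set_eq]; exact h4
      have h'' := Set.ncard_insert_le (1 : SL(2, F)) {-1}
      rw [Set.ncard_singleton] at h''
      omega
    have hy4 : (⟨y, hyN⟩ : N) ^ 4 = 1 := by rw [← h4]; exact pow_card_eq_one'
    have hyy : y * y = -1 := by
      have h : y * y * (y * y) = 1 := by
        have := congrArg Subtype.val hy4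
        simpa [pow_succ, mul_assoc] using this
      exact (eq_one_or_neg hF h).resolve_left hy1
    have hyo : orderOf y = 4 := by
      refine orderOf_eq_prime_pow (p := 2) (n := 1) ?_ ?_
      · rw [pow_one, pow_two]; exact hy1
      · simpa using congrArg Subtype.val hy4
    have hNy : N = Subgroup.zpowers y := (Subgroup.eq_of_le_of_card_ge (Subgroup.zpowers_le.2 hyN)
      (by rw [Nat.card_zpowers, hyo, h4])).symm
    obtain ⟨g, hg⟩ := exists_prime_orderOf_dvd_card' (G := SL(2, F)) 3 (by rw [h24]; norm_num)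
    have hg3 : g ^ 3 = 1 := hg ▸ pow_orderOf_eq_one g
    have hmem : g * y * g⁻¹ ∈ N := hN.conj_mem y hyN g
    rw [hNy, ← mem_powers_iff_mem_zpowers] at hmem
    obtain ⟨k, hk⟩ := hmem
    have hk : y ^ k = g * y * g⁻¹ := hk
    rw [← pow_mod_orderOf, hyo] at hk
    have key : g * y * g⁻¹ = y := by
      have hiter : g * (g * (g * y * g⁻¹) * g⁻¹) * g⁻¹ = y := by
        calc _ = g ^ 3 * y * (g ^ 3)⁻¹ := by simp only [pow_three', _root_.mul_inv_rev, mul_assoc]
          _ = y := by rw [hg3]; group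
      rcases (by omega : k % 4 = 0 ∨ k % 4 = 1 ∨ k % 4 = 2 ∨ k % 4 = 3) with h | h | h | h <;> rw [h] at hk
      · exfalso
        rw [pow_zero, eq_comm, mul_inv_eq_one, mul_eq_left] at hk
        rw [hk, mul_one] at hy1
        exact hy1 rfl
      · rw [← hk, pow_one]
      · exfalso
        have h1 : y = g⁻¹ * (y * y) * g := by rw [← pow_two, hk]; group
        rw [hyy, ← (Subgroup.mem_center_iff.1 neg_mem_center g⁻¹).symm, mul_assoc, inv_mul_cancel, mul_one] at h1
        rw [h1] at hy1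
        exact hy1 (Subtype.ext (by simp))
      · exfalso
        have hinv : y ^ 3 = y⁻¹ := by
          refine eq_inv_of_mul_eq_one_left ?_
          rw [← pow_succ]
          show y ^ 4 = 1
          rw [← hyo, pow_orderOf_eq_one]
        rw [hinv] at hk
        have h' : g * y⁻¹ * g⁻¹ = y := by
          have := congrArg (·⁻¹) hk
          simp only [inv_inv] at this
          conv_rhs => rw [this]
          group
        rw [← hk, h', ← hk] at hiter
        exact hy1 (mul_eq_one_iff_eq_inv.2 hiter.symm)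
    have hg1 : g = 1 := hcom g y (by rw [← pow_three']; exact hg3) hyy (mul_inv_eq_iff_eq_mul.1 key)
    rw [hg1, orderOf_one] at hg
    omega

theorem map_neg {G : Type*} [Group G] (hF : Odd (Fintype.card F)) {L : Subgroup G} (e : ↥L ≃* SL(2, F)) {j : G}
    (hj : orderOf j = 2) (hjL : j ∈ L) : e ⟨j, hjL⟩ = -1 := by
  have h : e ⟨j, hjL⟩ * e ⟨j, hjL⟩ = 1 := by
    rw [← map_mul, ← map_one e]
    exact congrArg e (Subtype.ext (by simp [← pow_two, ← hj, pow_orderOf_eq_one]))
  refine (eq_one_or_neg hF h).resolve_left fun h1 => ?_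
  rw [← map_one e] at h1
  have h1 := congrArg Subtype.val (e.injective h1)
  rw [show j = 1 from h1, orderOf_one] at hj
  omega

/-- Elements commuting with `L` modulo its centre. -/
theorem mem_zpowers_of_comm {G : Type*} [Group G] (hF : Odd (Fintype.card F)) {L : Subgroup G} (e : ↥L ≃* SL(2, F)) {j : G}
    (hj : orderOf j = 2) (hjL : j ∈ L) {b : G} (hb : b ∈ L)
    (h : ∀ y ∈ L, b * y * b⁻¹ * y⁻¹ ∈ Subgroup.zpowers j) : b ∈ Subgroup.zpowers j := by
  have hz : ∀ x : ↥L, (x : G) ∈ Subgroup.zpowers j → e x ∈ Subgroup.center SL(2, F) := by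
    intro x hx
    obtain ⟨k, hk⟩ := Subgroup.mem_zpowers_iff.1 hx
    have : x = ⟨j, hjL⟩ ^ k := Subtype.ext (by simp [hk])
    rw [this, map_zpow, map_neg hF e hj hjL]
    exact Subgroup.zpow_mem _ neg_mem_center k
  have := mem_center hF (b := e ⟨b, hb⟩) (fun y => by
    obtain ⟨y, rfl⟩ := e.surjective y
    rw [← map_inv, ← map_inv, ← map_mul, ← map_mul, ← map_mul]
    exact hz _ (h y y.2))
  rcases this with h1 | h1
  · rw [← map_one e] at h1
    rw [show b = 1 from congrArg Subtype.val (e.injective h1)]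
    exact one_mem _
  · rw [← map_neg hF e hj hjL] at h1
    rw [show b = j from congrArg Subtype.val (e.injective h1)]
    exact Subgroup.mem_zpowers j

theorem center_case {G : Type*} [Group G] [Finite G] (hF : Odd (Fintype.card F)) {L : Subgroup G} (e : ↥L ≃* SL(2, F)) {j : G}
    (hj : orderOf j = 2) (hjL : j ∈ L) (N : Subgroup G) (hNL : N ≤ L)
    (hN : ∀ x ∈ N, ∀ y ∈ L, y * x * y⁻¹ ∈ N) :
    N ≤ Subgroup.zpowers j ∨ (8 ≤ Nat.card N ∧ (5 ≤ Fintype.card F → N = L)) := by
  by_cases hc : ((N.subgroupOf L).map e.toMonoidHom) ≤ Subgroup.center SL(2, F)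
  · left
    intro x hx
    have h := eq_of_mem_center hF (hc ⟨⟨x, hNL hx⟩, hx, rfl⟩)
    rcases h with h1 | h1
    · have h1 : e ⟨x, hNL hx⟩ = 1 := h1
      rw [← map_one e] at h1
      rw [show x = 1 from congrArg Subtype.val (e.injective h1)]
      exact one_mem _
    · have h1 : e ⟨x, hNL hx⟩ = -1 := h1
      rw [← map_neg hF e hj hjL] at h1
      rw [show x = j from congrArg Subtype.val (e.injective h1)]
      exact Subgroup.mem_zpowers j
  · right
    have hn : (N.subgroupOf L).Normal := ⟨fun n hn g => hN n hn g g.2⟩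
    haveI := hn.map e.toMonoidHom e.surjective
    obtain ⟨h1, h2⟩ := normal_card hF _ hc
    rw [Subgroup.card_map_of_injective e.injective, Nat.card_congr (Subgroup.subgroupOfEquivOfLe hNL).toEquiv] at h1
    refine ⟨h1, fun h5 => le_antisymm hNL fun x hx => ?_⟩
    obtain ⟨y, hy, hyx⟩ := (h2 h5).ge (Subgroup.mem_top (e ⟨x, hx⟩))
    rw [show x = (y : G) from (congrArg Subtype.val (e.injective hyx)).symm]
    exact hy

/-- Let G be a finite group with subgroups L₁ ≅ SL₂(q₁) and L₂ ≅ SL₂(q₂), q₁ and q₂ odd prime powers, which commute elementwise and meet in ⟨j⟩ for an involution j, and suppose L₁L₂ has index 2 in C_G(j). Then every element n of C_G(j) outside L₁L₂ either normalizes both L₁ and L₂, or conjugates L₁ onto L₂; in the second case q₁ = q₂ and there is an element n′ of C_G(j) outside L₁L₂ conjugating L₁ onto L₂ with n′² ∈ ⟨j⟩. -/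
theorem result {G : Type*} [Group G] [Finite G]
    {F₁ : Type*} [Field F₁] [Fintype F₁] {F₂ : Type*} [Field F₂] [Fintype F₂]
    (hF₁ : Odd (Fintype.card F₁)) (hF₂ : Odd (Fintype.card F₂)) (L₁ L₂ : Subgroup G)
    (e₁ : ↥L₁ ≃* Matrix.SpecialLinearGroup (Fin 2) F₁) (e₂ : ↥L₂ ≃* Matrix.SpecialLinearGroup (Fin 2) F₂)
    (hc : ∀ x ∈ L₁, ∀ y ∈ L₂, x * y = y * x) (j : G) (hj : orderOf j = 2) (hm : L₁ ⊓ L₂ = Subgroup.zpowers j)
    (hle : L₁ ⊔ L₂ ≤ Subgroup.centralizer ({j} : Set G)) (hi : (L₁ ⊔ L₂).relIndex (Subgroup.centralizer ({j} : Set G)) = 2) (n : G) (hn : n ∈ Subgroup.centralizer ({j} : Set G)) (hn' : n ∉ L₁ ⊔ L₂) :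
    (L₁.map (MulAut.conj n).toMonoidHom = L₁ ∧ L₂.map (MulAut.conj n).toMonoidHom = L₂) ∨
      (L₁.map (MulAut.conj n).toMonoidHom = L₂ ∧ Fintype.card F₁ = Fintype.card F₂ ∧
        ∃ n' ∈ Subgroup.centralizer ({j} : Set G), n' ∉ L₁ ⊔ L₂ ∧ L₁.map (MulAut.conj n').toMonoidHom = L₂ ∧ n' ^ 2 ∈ Subgroup.zpowers j) := by
  classical
  have hjL₁ : j ∈ L₁ := (hm.ge (Subgroup.mem_zpowers j)).1
  have hjL₂ : j ∈ L₂ := (hm.ge (Subgroup.mem_zpowers j)).2
  set C := Subgroup.centralizer ({j} : Set G) with hC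
  set M := L₁ ⊔ L₂ with hM
  have hjc : ∀ x ∈ C, x * j = j * x := fun x hx => Subgroup.mem_centralizer_singleton_iff.1 hx
  have hnorm : ∀ g ∈ C, ∀ m ∈ M, g * m * g⁻¹ ∈ M := by
    intro g hg m hmM
    haveI : (M.subgroupOf C).Normal := Subgroup.normal_of_index_eq_two hi
    exact Subgroup.Normal.conj_mem this ⟨m, hle hmM⟩ hmM ⟨g, hg⟩
  have hMC : M ≤ C := hle
  have hprod : ∀ m ∈ M, ∃ a ∈ L₁, ∃ b ∈ L₂, m = a * b := by
    intro m hmM
    have hN : L₁ ≤ Subgroup.normalizer (L₂ : Set G) := fun a ha => by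
      refine Subgroup.centralizer_le_normalizer _ (Subgroup.mem_centralizer_iff.2 fun b hb => (hc a ha b hb).symm)
    have h' : m ∈ (↑(L₁ ⊔ L₂) : Set G) := hmM
    rw [Subgroup.coe_mul_of_left_le_normalizer_right L₁ L₂ hN] at h'
    obtain ⟨a, ha, b, hb, rfl⟩ := h'
    exact ⟨a, ha, b, hb, rfl⟩
  have hn1 : ∀ m ∈ M, ∀ x ∈ L₁, m * x * m⁻¹ ∈ L₁ := by
    intro m hmM x hx
    obtain ⟨a, ha, b, hb, rfl⟩ := hprod m hmM
    have : a * b * x * (a * b)⁻¹ = a * x * a⁻¹ := by
      rw [mul_assoc a b x, ← hc x hx b hb]; group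
    rw [this]; exact L₁.mul_mem (L₁.mul_mem ha hx) (L₁.inv_mem ha)
  have hn2 : ∀ m ∈ M, ∀ x ∈ L₂, m * x * m⁻¹ ∈ L₂ := by
    intro m hmM x hx
    obtain ⟨a, ha, b, hb, rfl⟩ := hprod m hmM
    have : a * b * x * (a * b)⁻¹ = b * x * b⁻¹ := by
      calc a * b * x * (a * b)⁻¹ = a * (b * x * b⁻¹) * a⁻¹ := by group
        _ = b * x * b⁻¹ * a * a⁻¹ := by rw [hc a ha _ (L₂.mul_mem (L₂.mul_mem hb hx) (L₂.inv_mem hb))]
        _ = b * x * b⁻¹ := by group
    rw [this]; exact L₂.mul_mem (L₂.mul_mem hb hx) (L₂.inv_mem hb)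
  set K := L₁.map (MulAut.conj n).toMonoidHom with hK
  have hKM : K ≤ M := by
    rintro _ ⟨x, hx, rfl⟩; exact hnorm n hn x (Subgroup.mem_sup_left hx)
  have hnM : ∀ m ∈ M, n⁻¹ * m * n ∈ M := fun m hmM => by
    simpa using hnorm n⁻¹ (C.inv_mem hn) m hmM
  have hKn : ∀ m ∈ M, ∀ x ∈ K, m * x * m⁻¹ ∈ K := by
    rintro m hmM _ ⟨x, hx, rfl⟩
    refine ⟨(n⁻¹ * m * n) * x * (n⁻¹ * m * n)⁻¹, hn1 _ (hnM m hmM) x hx, ?_⟩
    simp only [MulEquiv.coe_toMonoidHom, MulAut.conj_apply]; group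
  have hKcard : Nat.card K = Nat.card L₁ := Subgroup.card_map_of_injective (MulAut.conj n).injective
  have hc1 : Nat.card L₁ = Nat.card SL(2, F₁) := Nat.card_congr e₁.toEquiv
  have hc2 : Nat.card L₂ = Nat.card SL(2, F₂) := Nat.card_congr e₂.toEquiv
  -- the key dichotomy
  have hsub1 : K ⊓ L₂ ≤ Subgroup.zpowers j → K ≤ L₁ := by
    intro h x hx
    obtain ⟨a, ha, b, hb, rfl⟩ := hprod x (hKM hx)
    refine L₁.mul_mem ha ((hm.ge (mem_zpowers_of_comm hF₂ e₂ hj hjL₂ hb fun y hy => ?_)).1)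
    have heq : b * y * b⁻¹ * y⁻¹ = a * b * y * (a * b)⁻¹ * y⁻¹ := by
      calc b * y * b⁻¹ * y⁻¹ = (b * y * b⁻¹) * a * a⁻¹ * y⁻¹ := by group
        _ = a * (b * y * b⁻¹) * a⁻¹ * y⁻¹ := by rw [hc a ha _ (L₂.mul_mem (L₂.mul_mem hb hy) (L₂.inv_mem hb))]
        _ = _ := by group
    refine h ⟨?_, L₂.mul_mem (L₂.mul_mem (L₂.mul_mem hb hy) (L₂.inv_mem hb)) (L₂.inv_mem hy)⟩
    rw [heq, mul_assoc (a * b) y, mul_assoc (a * b)]
    exact K.mul_mem hx (hKn y (Subgroup.mem_sup_right hy) _ (K.inv_mem hx))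
  have hsub2 : K ⊓ L₁ ≤ Subgroup.zpowers j → K ≤ L₂ := by
    intro h x hx
    obtain ⟨a, ha, b, hb, rfl⟩ := hprod x (hKM hx)
    refine L₂.mul_mem ((hm.ge (mem_zpowers_of_comm hF₁ e₁ hj hjL₁ ha fun y hy => ?_)).2) hb
    have heq : a * y * a⁻¹ * y⁻¹ = a * b * y * (a * b)⁻¹ * y⁻¹ := by
      calc a * y * a⁻¹ * y⁻¹ = a * y * b * b⁻¹ * a⁻¹ * y⁻¹ := by group
        _ = a * (b * y) * b⁻¹ * a⁻¹ * y⁻¹ := by rw [mul_assoc a y b, hc y hy b hb]
        _ = _ := by group
    refine h ⟨?_, L₁.mul_mem (L₁.mul_mem (L₁.mul_mem ha hy) (L₁.inv_mem ha)) (L₁.inv_mem hy)⟩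
    rw [heq, mul_assoc (a * b) y, mul_assoc (a * b)]
    exact K.mul_mem hx (hKn y (Subgroup.mem_sup_left hy) _ (K.inv_mem hx))
  rcases center_case hF₁ e₁ hj hjL₁ (K ⊓ L₁) inf_le_right (fun x hx y hy =>
      ⟨hKn y (Subgroup.mem_sup_left hy) x hx.1, L₁.mul_mem (L₁.mul_mem hy hx.2) (L₁.inv_mem hy)⟩) with h1 | ⟨h1, h1'⟩
  · -- `n` interchanges the factors
    have hKL := hsub2 h1
    have hK2 : K = L₂ := by
      rcases center_case hF₂ e₂ hj hjL₂ K hKL (fun x hx y hy => hKn y (Subgroup.mem_sup_right hy) x hx) with h | ⟨-, h'⟩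
      · exfalso
        have h' := Subgroup.card_le_of_le h
        rw [Nat.card_zpowers, hj, hKcard, hc1, card_eq] at h'
        have : 2 ≤ Fintype.card F₁ := Fintype.one_lt_card
        have : 3 ≤ Fintype.card F₁ ^ 2 - 1 := by
          have := Nat.pow_le_pow_left this 2
          omega
        nlinarith
      · by_cases h5 : 5 ≤ Fintype.card F₂
        · exact h' h5
        · refine Subgroup.eq_of_le_of_card_ge hKL ?_
          have h23 : Fintype.card F₂ ≤ Fintype.card F₁ := by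
            have := Fintype.one_lt_card (α := F₁)
            obtain ⟨k, hk⟩ := hF₁
            obtain ⟨k', hk'⟩ := hF₂
            omega
          rw [hKcard, hc1, hc2, card_eq, card_eq]
          exact Nat.mul_le_mul h23 (Nat.sub_le_sub_right (Nat.pow_le_pow_left h23 2) 1)
    have hq : Fintype.card F₁ = Fintype.card F₂ := card_mono (by rw [← hc1, ← hc2, ← hKcard, hK2])
    refine Or.inr ⟨hK2, hq, ?_⟩
    have hn2M : n * n ∈ M := by
      have := (Subgroup.mul_mem_iff_of_index_two hi (a := ⟨n, hn⟩) (b := ⟨n, hn⟩)).2 Iff.rfl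
      exact this
    obtain ⟨a, ha, b, hb, hab⟩ := hprod _ hn2M
    have hw : n * a * n⁻¹ ∈ L₂ := by rw [← hK2]; exact ⟨a, ha, rfl⟩
    have hbmem : n * b * n⁻¹ ∈ L₁ := by
      have : b ∈ K := hK2.symm ▸ hb
      obtain ⟨b', hb', hbb⟩ := this
      have hbb : n * b' * n⁻¹ = b := hbb
      rw [← hbb, show n * (n * b' * n⁻¹) * n⁻¹ = n * n * b' * (n * n)⁻¹ by group, hab]
      exact hn1 _ (hab ▸ hn2M) b' hb'
    -- `n a n⁻¹ = b` up to the involution
    have hz : (n * a * n⁻¹) * b⁻¹ ∈ Subgroup.zpowers j := by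
      have h : a⁻¹ * (n * b * n⁻¹) * ((n * a * n⁻¹) * b⁻¹) = 1 := by
        rw [← mul_assoc (a⁻¹ * (n * b * n⁻¹)), mul_assoc a⁻¹, hc _ hbmem _ hw,
          show n * a * n⁻¹ * (n * b * n⁻¹) = n * (a * b) * n⁻¹ by group, ← hab,
          show n * (n * n) * n⁻¹ = n * n by group, hab]
        group
      refine hm.le ⟨?_, L₂.mul_mem hw (L₂.inv_mem hb)⟩
      rw [eq_inv_of_mul_eq_one_right h]
      exact L₁.inv_mem (L₁.mul_mem (L₁.inv_mem ha) hbmem)
    refine ⟨n * a⁻¹, C.mul_mem hn (C.inv_mem (hle (Subgroup.mem_sup_left ha))), fun h => hn' ?_, ?_, ?_⟩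
    · have := M.mul_mem h (Subgroup.mem_sup_left ha)
      rwa [inv_mul_cancel_right] at this
    · rw [← hK2, hK]
      ext x
      constructor
      · rintro ⟨y, hy, rfl⟩
        exact ⟨a⁻¹ * y * a, L₁.mul_mem (L₁.mul_mem (L₁.inv_mem ha) hy) ha, by simp [mul_assoc]⟩
      · rintro ⟨y, hy, rfl⟩
        exact ⟨a * y * a⁻¹, L₁.mul_mem (L₁.mul_mem ha hy) (L₁.inv_mem ha), by simp [mul_assoc]⟩
    · -- `(n a⁻¹)² = b (n a n⁻¹)⁻¹`-conjugated
      obtain ⟨k, hk⟩ := Subgroup.mem_zpowers_iff.1 hz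
      refine Subgroup.mem_zpowers_iff.2 ⟨-k, ?_⟩
      have hk1 : n * a⁻¹ * n⁻¹ = b⁻¹ * j ^ (-k) := by
        rw [show n * a⁻¹ * n⁻¹ = (n * a * n⁻¹)⁻¹ by group, _root_.zpow_neg, ← _root_.mul_inv_rev, hk, inv_mul_cancel_right]
      have hjk : ∀ x ∈ M, x * j ^ (-k) = j ^ (-k) * x := fun x hx =>
        ((Commute.zpow_right (hjc x (hle hx)) (-k))).eq
      calc j ^ (-k) = b⁻¹ * (b * j ^ (-k)) := by group
        _ = b⁻¹ * j ^ (-k) * (b * a) * a⁻¹ := by rw [hjk b (Subgroup.mem_sup_right hb)]; group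
        _ = n * a⁻¹ * n⁻¹ * (n * n) * a⁻¹ := by rw [hk1, hab, hc a ha b hb]
        _ = (n * a⁻¹) ^ 2 := by rw [pow_two]; group
  · rcases center_case hF₂ e₂ hj hjL₂ (K ⊓ L₂) inf_le_right (fun x hx y hy =>
        ⟨hKn y (Subgroup.mem_sup_right hy) x hx.1, L₂.mul_mem (L₂.mul_mem hy hx.2) (L₂.inv_mem hy)⟩) with h2 | ⟨h2, -⟩
    · -- `n` normalizes both factors
      have hK1 : K = L₁ := Subgroup.eq_of_le_of_card_ge (hsub1 h2) hKcard.ge
      refine Or.inl ⟨hK1, Subgroup.eq_of_le_of_card_ge ?_ (Subgroup.card_map_of_injective (MulAut.conj n).injective).ge⟩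
      rintro _ ⟨x, hx, rfl⟩
      obtain ⟨a, ha, b, hb, hab⟩ := hprod _ (hnorm n hn x (Subgroup.mem_sup_right hx))
      show n * x * n⁻¹ ∈ L₂
      rw [hab]
      refine L₂.mul_mem (hm.ge (mem_zpowers_of_comm hF₁ e₁ hj hjL₁ ha fun y hy => ?_)).2 hb
      have : a * y * a⁻¹ * y⁻¹ = 1 := by
        obtain ⟨y', hy', hyy⟩ := hK1.ge hy
        have hyy : n * y' * n⁻¹ = y := hyy
        have h' : a * b * y = y * (a * b) := by
          rw [← hab, ← hyy]
          calc n * x * n⁻¹ * (n * y' * n⁻¹) = n * (x * y') * n⁻¹ := by group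
            _ = n * (y' * x) * n⁻¹ := by rw [hc y' hy' x hx]
            _ = _ := by group
        rw [mul_assoc a b y, ← hc y hy b hb, ← mul_assoc, ← mul_assoc] at h'
        rw [mul_right_cancel h']; group
      rw [this]; exact one_mem _
    · -- impossible
      exfalso
      have hcomm : ∀ (u : ↥(K ⊓ L₁)) (v : ↥(K ⊓ L₂)), Commute ((u : G)) (v : G) := fun u v => hc u u.2.2 v v.2.2
      let f := MonoidHom.noncommCoprod (K ⊓ L₁).subtype (K ⊓ L₂).subtype hcomm
      have hker : Nat.card f.ker ≤ 2 := by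
        rw [← hj, ← Nat.card_zpowers j]
        have hmem : ∀ p : f.ker, (p.1.1 : G) ∈ Subgroup.zpowers j := fun p => by
          have hp : (p.1.1 : G) * p.1.2 = 1 := p.2
          exact hm.le ⟨p.1.1.2.2, by rw [eq_inv_of_mul_eq_one_left hp]; exact L₂.inv_mem p.1.2.2.2⟩
        refine Nat.card_le_card_of_injective (fun p => (⟨p.1.1, hmem p⟩ : Subgroup.zpowers j)) ?_
        rintro ⟨⟨u, v⟩, hp⟩ ⟨⟨u', v'⟩, hp'⟩ h
        have huu : (u : G) = u' := congrArg (fun t : Subgroup.zpowers j => (t : G)) h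
        have hp : (u : G) * v = 1 := hp
        have hp' : (u' : G) * v' = 1 := hp'
        rw [huu] at hp
        exact Subtype.ext (Prod.ext (Subtype.ext huu) (Subtype.ext (mul_left_cancel (hp.trans hp'.symm))))
      have hran : Nat.card f.range ≤ Nat.card K := by
        refine Subgroup.card_le_of_le ?_
        rintro _ ⟨⟨u, v⟩, rfl⟩
        exact K.mul_mem u.2.1 v.2.1
      have hcard := f.ker.card_mul_index
      rw [Subgroup.index_ker, Nat.card_prod] at hcard
      have h64 : 64 ≤ Nat.card ↥(K ⊓ L₁) * Nat.card ↥(K ⊓ L₂) := by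
        calc 64 = 8 * 8 := rfl
          _ ≤ _ := Nat.mul_le_mul h1 h2
      have hle2 : Nat.card f.ker * Nat.card f.range ≤ 2 * Nat.card K := Nat.mul_le_mul hker hran
      by_cases h5 : 5 ≤ Fintype.card F₁
      · have hK1 : K = L₁ := (Subgroup.eq_of_le_of_card_ge ((h1' h5).ge.trans inf_le_left) hKcard.le).symm
        have hle8 : Nat.card ↥(K ⊓ L₂) ≤ 2 := by
          rw [hK1, hm, Nat.card_zpowers, hj]
        omega
      · have hq : Fintype.card F₁ = 3 := by
          have := Fintype.one_lt_card (α := F₁)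
          obtain ⟨k, hk⟩ := hF₁
          omega
        rw [hKcard, hc1, card_eq, hq] at hle2
        omega

end Cfsg.Agent.S3210
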