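import Cfsg.Statements.S3213
import Mathlib
-- import your own Cfsg.Agent.* helpers here

set_option autoImplicit false
open Cfsg

namespace Cfsg.Agent.S3213

open Matrix

/-- An element of order three of `SL(2,5)` and a conjugate have product of order five or ten. -/
theorem exists_conj {K : Type*} [Field K] [Fintype K] (hK : Fintype.card K = 5)
    (x : Matrix.SpecialLinearGroup (Fin 2) K) (hx : orderOf x = 3) :
    ∃ g : Matrix.SpecialLinearGroup (Fin 2) K, ∃ z, z = (x * (g * x * g⁻¹)) ^ 2 ∧ z ^ 5 = 1 ∧ z ≠ 1 := by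
  obtain ⟨p, hp⟩ := CharP.exists K
  obtain ⟨k, hpp, hk⟩ := FiniteField.card K p
  have hp5 : p = 5 := by
    have h : p ∣ 5 := by rw [← hK, hk]; exact dvd_pow_self p k.ne_zero
    exact (Nat.prime_dvd_prime_iff_eq hpp (by norm_num)).1 h
  subst hp5
  have h5 : (5 : K) = 0 := by exact_mod_cast CharP.cast_eq_zero K 5
  have h2 : (2 : K) ≠ 0 := fun h => one_ne_zero (α := K) (by linear_combination h5 - 2 * h)
  have h3 : (3 : K) ≠ 0 := fun h => one_ne_zero (α := K) (by linear_combination 2 * h - h5)
  have hpow : ∀ y : K, y ^ 5 = y := fun y => by rw [← hK, FiniteField.pow_card]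
  set A : Matrix (Fin 2) (Fin 2) K := (x : Matrix (Fin 2) (Fin 2) K) with hA
  have hdet : A 0 0 * A 1 1 - A 0 1 * A 1 0 = 1 := by rw [← Matrix.det_fin_two]; exact x.2
  have hA3 : A * A * A = 1 := by
    have h := congrArg Subtype.val (hx ▸ pow_orderOf_eq_one x)
    simpa [pow_three, mul_assoc] using h
  have hA1 : A ≠ 1 := fun h => by
    have hx1 : x = 1 := Subtype.ext h
    rw [hx1, orderOf_one] at hx
    omega
  have e00 := congrFun (congrFun hA3 0) 0
  have e01 := congrFun (congrFun hA3 0) 1
  have e10 := congrFun (congrFun hA3 1) 0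
  have e11 := congrFun (congrFun hA3 1) 1
  simp [Matrix.mul_apply, Fin.sum_univ_two] at e00 e01 e10 e11
  set a := A 0 0 with ha
  set b := A 0 1 with hb
  set c := A 1 0 with hc
  set d := A 1 1 with hd
  have ht : a + d = -1 := by
    rcases eq_or_ne ((a + d) ^ 2) 1 with h | h
    · rcases sq_eq_one_iff.1 h with h1 | h1
      · exfalso
        exact h2 (by linear_combination (-1 : K) * e00 - (2 * a + d) * hdet + (a * d + a + a ^ 2 - 1) * h1)
      · exact h1
    · exfalso
      have h' : (a + d) ^ 2 - 1 ≠ 0 := sub_ne_zero.2 h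
      have hb0 : b = 0 := (mul_eq_zero.1 (by linear_combination e01 + b * hdet : ((a + d) ^ 2 - 1) * b = 0)).resolve_left h'
      have hc0 : c = 0 := (mul_eq_zero.1 (by linear_combination e10 + c * hdet : ((a + d) ^ 2 - 1) * c = 0)).resolve_left h'
      have ha3 : a ^ 3 = 1 := by linear_combination e00 - (2 * a * c + c * d) * hb0
      have hd3 : d ^ 3 = 1 := by linear_combination e11 - (a * c + 2 * c * d) * hb0
      have key : ∀ y : K, y ^ 3 = 1 → y = 1 := by
        intro y hy
        have hy0 : y ≠ 0 := by rintro rfl; simp at hy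
        have h4 : y ^ 4 = 1 := mul_right_cancel₀ hy0 (by rw [one_mul, ← pow_succ, hpow])
        linear_combination h4 - y * hy
      refine hA1 ?_
      ext i j
      fin_cases i <;> fin_cases j
      · exact key a ha3
      · exact hb0
      · exact hc0
      · exact key d hd3
  have hc0 : c ≠ 0 := by
    intro h0
    have hroot : a ^ 2 + a + 1 = 0 := by linear_combination a * ht - hdet - b * h0
    have ha0 : a ≠ 0 := by rintro h; rw [h] at hroot; simp at hroot
    have h4 : a ^ 4 = 1 := mul_right_cancel₀ ha0 (by rw [one_mul, ← pow_succ, hpow])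
    have ha1 : a = 1 := by linear_combination h4 - (a ^ 2 - a) * hroot
    rw [ha1] at hroot
    exact h3 (by linear_combination hroot)
  -- conjugating matrices
  let C : Matrix (Fin 2) (Fin 2) K := !![1, a; 0, c]
  let D : Matrix (Fin 2) (Fin 2) K := !![1, -a / c; 0, 1 / c]
  have hCD : C * D = 1 := by
    ext i j; fin_cases i <;> fin_cases j <;> simp [C, D, Matrix.mul_apply, Fin.sum_univ_two, hc0] <;> field_simp <;> ring
  have hDC : D * C = 1 := mul_eq_one_comm.1 hCD
  let X0 : Matrix (Fin 2) (Fin 2) K := !![0, -1; 1, -1]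
  have hAC : A = C * X0 * D := by
    have h : A * C = C * X0 := by
      ext i j; fin_cases i <;> fin_cases j <;> simp [C, X0, Matrix.mul_apply, Fin.sum_univ_two, ← ha, ← hb, ← hc, ← hd]
      · linear_combination a * ht - hdet
      · linear_combination c * ht
    rw [← h, mul_assoc, hCD, mul_one]
  let G0 : Matrix (Fin 2) (Fin 2) K := !![1, 1; 0, 1]
  let G1 : Matrix (Fin 2) (Fin 2) K := !![1, -1; 0, 1]
  have hGdet : (C * G0 * D).det = 1 := by
    rw [det_mul, det_mul, mul_right_comm, ← det_mul, hCD, det_one, one_mul]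
    simp [G0, det_fin_two_of]
  let g : Matrix.SpecialLinearGroup (Fin 2) K := ⟨C * G0 * D, hGdet⟩
  have hginv : ((g⁻¹ : Matrix.SpecialLinearGroup (Fin 2) K) : Matrix (Fin 2) (Fin 2) K) = C * G1 * D := by
    have h1 : (g : Matrix (Fin 2) (Fin 2) K) * (C * G1 * D) = 1 := by
      show C * G0 * D * (C * G1 * D) = 1
      calc C * G0 * D * (C * G1 * D) = C * G0 * (D * C) * (G1 * D) := by simp only [mul_assoc]
        _ = C * (G0 * G1) * D := by rw [hDC, mul_one]; simp only [mul_assoc]
        _ = 1 := by
          rw [show G0 * G1 = 1 by ext i j; fin_cases i <;> fin_cases j <;> simp [G0, G1], mul_one, hCD]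
    have h2 : ((g⁻¹ : Matrix.SpecialLinearGroup (Fin 2) K) : Matrix (Fin 2) (Fin 2) K) * g.1 = 1 :=
      congrArg Subtype.val (inv_mul_cancel g)
    exact left_inv_eq_right_inv h2 h1
  let Y : Matrix (Fin 2) (Fin 2) K := !![-1, 2; 0, -1]
  have hY : X0 * (G0 * X0 * G1) = Y := by
    ext i j; fin_cases i <;> fin_cases j <;> simp [X0, G0, G1, Y] <;> ring
  have hxy : ((x * (g * x * g⁻¹) : Matrix.SpecialLinearGroup (Fin 2) K) : Matrix (Fin 2) (Fin 2) K) = C * Y * D := by
    show A * (C * G0 * D * A * (g⁻¹ : Matrix.SpecialLinearGroup (Fin 2) K).1) = C * Y * D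
    rw [hginv, hAC]
    rw [← hY]
    simp only [mul_assoc]
    simp only [← mul_assoc D C, hDC, one_mul]
  have hpow' : ∀ k : ℕ, ((x * (g * x * g⁻¹)) ^ k : Matrix.SpecialLinearGroup (Fin 2) K).1 = C * Y ^ k * D := by
    intro k
    induction k with
    | zero => rw [pow_zero, pow_zero, mul_one, hCD]; rfl
    | succ k ih =>
      rw [pow_succ]
      show ((x * (g * x * g⁻¹)) ^ k).1 * (x * (g * x * g⁻¹)).1 = _
      rw [ih, hxy, pow_succ Y]
      simp only [mul_assoc]
      simp only [← mul_assoc D C, hDC, one_mul]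
  have hY2 : Y ^ 2 = !![1, -4; 0, 1] := by
    rw [pow_two]; ext i j; fin_cases i <;> fin_cases j <;> simp [Y] <;> ring
  refine ⟨g, _, rfl, ?_, fun h => ?_⟩
  · refine Subtype.ext ?_
    rw [← pow_mul, hpow', show Y ^ (2 * 5) = 1 by
      rw [pow_mul, hY2]
      ext i j; fin_cases i <;> fin_cases j <;> simp [pow_succ]
      linear_combination (-4 : K) * h5, mul_one, hCD]
    rfl
  · have h1 : C * Y ^ 2 * D = 1 := by rw [← hpow', h]; rfl
    have h4 : Y ^ 2 = 1 := by
      calc Y ^ 2 = D * C * Y ^ 2 * (D * C) := by rw [hDC, one_mul, mul_one]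
        _ = D * (C * Y ^ 2 * D) * C := by simp only [mul_assoc]
        _ = 1 := by rw [h1, mul_one, hDC]
    have h6 := congrFun (congrFun h4 0) 1
    rw [hY2] at h6
    simp at h6
    exact h2 (mul_self_eq_zero.1 (by linear_combination h6))

/-- Let F be the field with 3 elements and K the field with 5 elements. For every injective homomorphism φ from SL₂(K) into the symplectic group Sp₄(F) (4 × 4 matrices g with g J gᵀ = J for the standard alternating matrix J) and every element x of order 3 of SL₂(K), the vectors of F⁴ fixed by φ(x) form a 2-dimensional subspace that is totally isotropic for the alternating form defined by J. -/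
theorem result {F : Type*} [Field F] [Fintype F] (hF : Fintype.card F = 3)
    {K : Type*} [Field K] [Fintype K] (hK : Fintype.card K = 5)
    (φ : Matrix.SpecialLinearGroup (Fin 2) K →* ↥(Matrix.symplecticGroup (Fin 2) F)) (hφ : Function.Injective φ)
    (x : Matrix.SpecialLinearGroup (Fin 2) K) (hx : orderOf x = 3) :
    Module.finrank F ↥(LinearMap.ker (Matrix.toLin' ((φ x : Matrix (Fin 2 ⊕ Fin 2) (Fin 2 ⊕ Fin 2) F)) - LinearMap.id)) = 2 ∧
      ∀ v w : Fin 2 ⊕ Fin 2 → F, (φ x : Matrix (Fin 2 ⊕ Fin 2) (Fin 2 ⊕ Fin 2) F).mulVec v = v →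
        (φ x : Matrix (Fin 2 ⊕ Fin 2) (Fin 2 ⊕ Fin 2) F).mulVec w = w →
          dotProduct v ((Matrix.J (Fin 2) F).mulVec w) = 0 := by
  classical
  haveI : Fact (Nat.Prime 3) := ⟨Nat.prime_three⟩
  obtain ⟨g, z, hz, hz5, hz1⟩ := exists_conj hK x hx
  obtain ⟨p, hp⟩ := CharP.exists F
  obtain ⟨k, hpp, hk⟩ := FiniteField.card F p
  have hp3 : p = 3 := by
    have h : p ∣ 3 := by rw [← hF, hk]; exact dvd_pow_self p k.ne_zero
    exact (Nat.prime_dvd_prime_iff_eq hpp (by norm_num)).1 h
  subst hp3
  set V := Fin 2 ⊕ Fin 2 → F with hV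
  let ψ : Matrix.SpecialLinearGroup (Fin 2) K →* Module.End F V :=
    ((Matrix.toLinAlgEquiv' (R := F) (n := Fin 2 ⊕ Fin 2)).toMonoidHom).comp ((Submonoid.subtype _).comp φ)
  have hψinj : Function.Injective ψ := by
    intro a b h
    exact hφ (Subtype.ext ((Matrix.toLinAlgEquiv' (R := F) (n := Fin 2 ⊕ Fin 2)).injective h))
  let B : V → V → F := fun v w => v ⬝ᵥ (Matrix.J (Fin 2) F *ᵥ w)
  have hBadd : ∀ u v w, B (u + v) w = B u w + B v w := fun u v w => add_dotProduct _ _ _
  have hBadd' : ∀ u v w, B u (v + w) = B u v + B u w := fun u v w => by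
    show u ⬝ᵥ (Matrix.J (Fin 2) F *ᵥ (v + w)) = _
    rw [Matrix.mulVec_add]
    exact dotProduct_add _ _ _
  have hBalt : ∀ v, B v v = 0 := by
    intro v
    simp [B, Matrix.J, dotProduct, mulVec, Fin.sum_univ_two, Fintype.sum_sum_type, Matrix.one_apply]
    ring
  have hBskew : ∀ v w, B v w = - B w v := by
    intro v w
    have h := hBalt (v + w)
    rw [hBadd, hBadd', hBadd', hBalt, hBalt] at h
    linear_combination h
  have hBinv : ∀ y, ∀ v w, B (ψ y v) (ψ y w) = B v w := by
    intro y v w
    show ((φ y : Matrix _ _ F) *ᵥ v) ⬝ᵥ (Matrix.J (Fin 2) F *ᵥ ((φ y : Matrix _ _ F) *ᵥ w)) = _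
    rw [mulVec_mulVec, dotProduct_mulVec, vecMul_mulVec, ← dotProduct_mulVec, ← Matrix.mul_assoc,
      SymplecticGroup.mem_iff'.1 (φ y).2]
  have hBnd : ∀ a, (∀ v, B a v = 0) → a = 0 := by
    intro a h
    refine funext fun i => ?_
    have h1 := h (Matrix.J (Fin 2) F *ᵥ Pi.single i 1)
    simp only [B, mulVec_mulVec, Matrix.J_squared, neg_mulVec, one_mulVec, dotProduct_neg, dotProduct_single, mul_one, neg_eq_zero] at h1
    exact h1
  set M := ψ x with hM
  set N : Module.End F V := M - 1 with hN
  have hN3 : N ^ 3 = 0 := by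
    have hM3 : M ^ 3 = 1 := by rw [hM, ← map_pow, ← hx, pow_orderOf_eq_one, map_one]
    have h3' : ∀ Q : Module.End F V, (3 : ℕ) • Q = 0 := fun Q => by
      rw [← Nat.cast_smul_eq_nsmul F, CharP.cast_eq_zero, zero_smul]
    have he : N ^ 3 + (3 : ℕ) • (M ^ 2 - M) = M ^ 3 - 1 := by
      rw [hN]; simp only [pow_succ, pow_zero, one_mul, mul_sub, sub_mul, mul_one, smul_sub]; abel
    rwa [h3', add_zero, hM3, sub_self] at he
  have hN3' : ∀ u, N (N (N u)) = 0 := fun u => by
    have h := LinearMap.congr_fun hN3 u
    rw [pow_three] at h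
    exact h
  have hrel : ∀ u v, B (N u) v + B u (N v) + B (N u) (N v) = 0 := by
    intro u v
    have hMN : ∀ u, M u = u + N u := fun u => by
      rw [hN, LinearMap.sub_apply, Module.End.one_apply, add_sub_cancel]
    have h := hBinv x u v
    rw [← hM, hMN, hMN, hBadd, hBadd', hBadd'] at h
    linear_combination h
  have hB0 : ∀ v, B v 0 = 0 := fun v => by
    show v ⬝ᵥ (Matrix.J (Fin 2) F *ᵥ 0) = 0
    rw [Matrix.mulVec_zero]
    exact dotProduct_zero v
  have hker0 : ∀ u w, N w = 0 → B (N u) w = 0 := fun u w hw => by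
    have h := hrel u w
    rwa [hw, hB0, hB0, add_zero, add_zero] at h
  have hfin : Module.finrank F V = 4 := by rw [Module.finrank_fintype_fun_eq_card]; rfl
  have hsum := LinearMap.finrank_range_add_finrank_ker N
  rw [hfin] at hsum
  -- `N` squares to zero
  have hN2 : ∀ u, N (N u) = 0 := by
    by_contra hne
    push_neg at hne
    obtain ⟨u, hu⟩ := hne
    set W := LinearMap.range (N ^ 2) with hW
    have hWspan : W = Submodule.span F {N (N u)} := by
      refine (Submodule.eq_of_le_of_finrank_le ?_ ?_).symm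
      · rw [Submodule.span_singleton_le_iff_mem]
        exact ⟨u, by rw [pow_two]; rfl⟩
      · rw [finrank_span_singleton hu]
        have hrk := LinearMap.finrank_range_add_finrank_ker (N.domRestrict (LinearMap.range N))
        have e1 : LinearMap.range (N.domRestrict (LinearMap.range N)) = W := by
          ext v
          constructor
          · rintro ⟨⟨_, y, rfl⟩, rfl⟩; exact ⟨y, by rw [pow_two]; rfl⟩
          · rintro ⟨y, rfl⟩; exact ⟨⟨N y, y, rfl⟩, by rw [pow_two]; rfl⟩
        rw [e1] at hrk
        have e2 : Module.finrank F W ≤ Module.finrank F (LinearMap.ker (N.domRestrict (LinearMap.range N))) := by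
          let f : W →ₗ[F] LinearMap.ker (N.domRestrict (LinearMap.range N)) :=
            { toFun := fun w => ⟨⟨w.1, by obtain ⟨y, hy⟩ := w.2; exact ⟨N y, by rw [← hy, pow_two]; rfl⟩⟩, by
                obtain ⟨y, hy⟩ := w.2
                show N w.1 = 0
                rw [← hy, pow_two]
                exact hN3' y⟩
              map_add' := fun a b => rfl
              map_smul' := fun a b => rfl }
          exact LinearMap.finrank_le_finrank_of_injective (f := f) fun a b h =>
            Subtype.ext (congrArg (fun t : LinearMap.ker (N.domRestrict (LinearMap.range N)) => (t.1.1)) h)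
        have e3 : Module.finrank F (LinearMap.ker N) ≠ 0 := fun h0 => by
          rw [Submodule.finrank_eq_zero] at h0
          exact hu (by
            have : N (N u) ∈ LinearMap.ker N := hN3' u
            rwa [h0, Submodule.mem_bot] at this)
        omega
    refine hu (hBnd _ fun v => ?_)
    -- the form `B(N²·, ·)` is alternating of rank one
    have halt : ∀ y, B (N (N y)) y = 0 := by
      intro y
      have h := hrel (N y) y
      have h' : B (N (N y)) (N y) = 0 := by
        have h1 := hrel y (N (N y))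
        rw [hN3', hB0, hB0, add_zero, add_zero] at h1
        rw [hBskew, h1, neg_zero]
      rw [hBalt, h', add_zero, add_zero] at h
      exact h
    obtain ⟨r, hr⟩ : ∃ r : F, r • N (N u) = N (N v) := by
      rw [← Submodule.mem_span_singleton, ← hWspan]
      exact ⟨v, by rw [pow_two]; rfl⟩
    have hsm : ∀ (c : F) a w, B (c • a) w = c * B a w := fun c a w => smul_dotProduct _ _ _
    have h1 := halt (u + v)
    rw [map_add, map_add, hBadd, hBadd', hBadd', halt, halt, ← hr, hsm, halt u, mul_zero, zero_add, add_zero, add_zero] at h1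
    exact h1
  have hle : LinearMap.range N ≤ LinearMap.ker N := by
    rintro _ ⟨y, rfl⟩; exact hN2 y
  have hk2 : 2 ≤ Module.finrank F (LinearMap.ker N) := by
    have := Submodule.finrank_mono hle
    omega
  -- `x` is not a transvection
  have hk3 : Module.finrank F (LinearMap.ker N) ≤ 2 := by
    by_contra hcon
    set M' := ψ (g * x * g⁻¹) with hM'
    have hk' : Module.finrank F (LinearMap.ker (M' - 1)) = Module.finrank F (LinearMap.ker N) := by
      let e : V ≃ₗ[F] V :=
        LinearEquiv.ofLinear (ψ g) (ψ g⁻¹)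
          (by rw [← Module.End.mul_eq_comp, ← map_mul, mul_inv_cancel, map_one]; rfl)
          (by rw [← Module.End.mul_eq_comp, ← map_mul, inv_mul_cancel, map_one]; rfl)
      have he : (LinearMap.ker N).map (e : V →ₗ[F] V) = LinearMap.ker (M' - 1) := by
        ext w
        rw [Submodule.mem_map_equiv, LinearMap.mem_ker, LinearMap.mem_ker]
        show (M - 1) (ψ g⁻¹ w) = 0 ↔ (M' - 1) w = 0
        rw [LinearMap.sub_apply, LinearMap.sub_apply, Module.End.one_apply, Module.End.one_apply, sub_eq_zero, sub_eq_zero,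
          hM', map_mul, map_mul, Module.End.mul_apply, Module.End.mul_apply]
        constructor
        · intro h
          rw [h]
          exact LinearEquiv.apply_symm_apply e w
        · intro h
          have h2 := congrArg (ψ g⁻¹) h
          exact (LinearEquiv.symm_apply_apply e _).symm.trans h2
      rw [← he]
      exact LinearEquiv.finrank_map_eq e _
    have hW2 : 2 ≤ Module.finrank F (LinearMap.ker N ⊓ LinearMap.ker (M' - 1) : Submodule F V) := by
      have := Submodule.finrank_sup_add_finrank_inf_eq (LinearMap.ker N) (LinearMap.ker (M' - 1))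
      have := Submodule.finrank_le (LinearMap.ker N ⊔ LinearMap.ker (M' - 1))
      omega
    set Z := ψ z with hZ
    set P : Module.End F V := Z - 1 with hP
    have hfix : LinearMap.ker N ⊓ LinearMap.ker (M' - 1) ≤ LinearMap.ker P := by
      rintro w ⟨h1, h2⟩
      have h1' : M w = w := sub_eq_zero.1 h1
      have h2' : M' w = w := sub_eq_zero.1 h2
      show Z w - w = 0
      rw [hZ, hz, map_pow, map_mul, ← hM, ← hM', pow_two]
      simp only [Module.End.mul_apply, h2', h1', sub_self]
    have hR : Module.finrank F (LinearMap.range P) ≤ 2 := by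
      have := LinearMap.finrank_range_add_finrank_ker P
      rw [hfin] at this
      have := Submodule.finrank_mono hfix
      omega
    -- `Z` fixes the range of `P` pointwise
    have hP2 : LinearMap.range P ≤ LinearMap.ker P := by
      haveI : Fact (Nat.Prime 5) := ⟨by norm_num⟩
      set R := LinearMap.range P
      have hinv : ∀ v ∈ R, ∀ i : ℕ, (Z ^ i) v ∈ R := by
        rintro _ ⟨y, rfl⟩ i
        refine ⟨(Z ^ i) y, ?_⟩
        rw [← Module.End.mul_apply, ← Module.End.mul_apply,
          ((Commute.pow_self Z i).sub_right (Commute.one_right _)).eq]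
      let σ : Equiv.Perm R :=
        { toFun := fun v => ⟨(Z ^ 1) v, hinv v v.2 1⟩
          invFun := fun v => ⟨(Z ^ 4) v, hinv v v.2 4⟩
          left_inv := fun v => Subtype.ext (by
            show (Z ^ 4) ((Z ^ 1) (v : V)) = v
            rw [← Module.End.mul_apply, ← pow_add, hZ, ← map_pow, hz5, map_one]; rfl)
          right_inv := fun v => Subtype.ext (by
            show (Z ^ 1) ((Z ^ 4) (v : V)) = v
            rw [← Module.End.mul_apply, ← pow_add, hZ, ← map_pow, hz5, map_one]; rfl) }
      have hσn : ∀ (n : ℕ) (v : R), (((σ ^ n) v : R) : V) = (Z ^ n) v := by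
        intro n
        induction n with
        | zero => intro v; rfl
        | succ n ih =>
          intro v
          rw [pow_succ', Equiv.Perm.mul_apply]
          show (Z ^ 1) (((σ ^ n) v : R) : V) = _
          rw [ih, pow_one, pow_succ']; rfl
      have hσ5 : σ ^ 5 = 1 := Equiv.ext fun v => Subtype.ext (by
        rw [hσn, hZ, ← map_pow, hz5, map_one]; rfl)
      have hσp : IsPGroup 5 (Subgroup.zpowers σ) := by
        refine IsPGroup.of_card_dvd_pow (n := 1) ?_
        rw [Nat.card_zpowers, pow_one]
        exact orderOf_dvd_of_pow_eq_one hσ5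
      have hmod := hσp.card_modEq_card_fixedPoints R
      set S : Submodule F V := R ⊓ LinearMap.ker P
      have hSR : Nat.card (MulAction.fixedPoints (Subgroup.zpowers σ) R) = Nat.card S := by
        refine Nat.card_congr
          { toFun := fun v => ⟨v.1.1, v.1.2, ?_⟩
            invFun := fun v => ⟨⟨v.1, v.2.1⟩, ?_⟩
            left_inv := fun v => rfl
            right_inv := fun v => rfl }
        · have h := congrArg Subtype.val (v.2 ⟨σ, Subgroup.mem_zpowers σ⟩)
          have h' : (Z ^ 1) (v.1.1 : V) = v.1.1 := h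
          rw [pow_one] at h'
          show Z v.1.1 - v.1.1 = 0
          rw [h', sub_self]
        · rintro ⟨τ, hτ⟩
          have hmemS : σ ∈ MulAction.stabilizer (Equiv.Perm R) (⟨v.1, v.2.1⟩ : R) := by
            refine Subtype.ext ?_
            show (Z ^ 1) (v.1 : V) = v.1
            rw [pow_one]
            exact sub_eq_zero.1 v.2.2
          exact (Subgroup.zpowers_le.2 hmemS) hτ
      rw [hSR] at hmod
      have hc : ∀ U : Submodule F V, Nat.card U = 3 ^ Module.finrank F U := fun U => by
        rw [Module.natCard_eq_pow_finrank (K := F), Nat.card_eq_fintype_card, hF]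
      rw [hc, hc] at hmod
      have hSle : Module.finrank F S ≤ Module.finrank F R := Submodule.finrank_mono inf_le_left
      have heq : Module.finrank F S = Module.finrank F R := by
        unfold Nat.ModEq at hmod
        generalize Module.finrank F S = i at *
        generalize Module.finrank F R = j at *
        interval_cases j <;> interval_cases i <;> first | rfl | (norm_num at hmod)
      exact (Submodule.eq_of_le_of_finrank_eq inf_le_left heq).ge.trans inf_le_right
    have hPP : P * P = 0 := LinearMap.ext fun v => hP2 ⟨v, rfl⟩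
    have hZn : ∀ n : ℕ, Z ^ n = 1 + n • P := by
      intro n
      induction n with
      | zero => simp
      | succ n ih =>
        rw [pow_succ, ih, show Z = 1 + P by rw [hP, add_sub_cancel]]
        rw [mul_add, mul_one, add_mul, one_mul, smul_mul_assoc, hPP, smul_zero, add_zero, succ_nsmul]
        abel
    have h5P : (5 : ℕ) • P = 0 := by
      have h := hZn 5
      rw [hZ, ← map_pow, hz5, map_one] at h
      exact (left_eq_add).1 h
    have h3P : (3 : ℕ) • P = 0 := by
      rw [← Nat.cast_smul_eq_nsmul F, CharP.cast_eq_zero, zero_smul]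
    have hP0 : P = 0 := by
      have h6 : (6 : ℕ) • P = 0 := by rw [show (6 : ℕ) = 2 * 3 by rfl, mul_smul, h3P, smul_zero]
      have h := h6
      rwa [show (6 : ℕ) = 5 + 1 by rfl, add_smul, h5P, zero_add, one_smul] at h
    refine hz1 (hψinj ?_)
    rw [map_one, ← hZ]
    exact sub_eq_zero.1 hP0
  have hNeq : Matrix.toLin' ((φ x : Matrix (Fin 2 ⊕ Fin 2) (Fin 2 ⊕ Fin 2) F)) - LinearMap.id = N := rfl
  refine ⟨by rw [hNeq]; exact le_antisymm hk3 hk2, fun v w hv hw => ?_⟩
  have hv' : v ∈ LinearMap.range N := by
    rw [Submodule.eq_of_le_of_finrank_le hle (by omega)]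
    show N v = 0
    exact sub_eq_zero.2 hv
  obtain ⟨y, rfl⟩ := hv'
  exact hker0 y w (sub_eq_zero.2 hw)

end Cfsg.Agent.S3213
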