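import Cfsg.Statements.S3215
import Mathlib
import Cfsg.Agent.Lib.Solv.MinNormal
import Cfsg.Agent.Lib.Solv.Coprime
import Cfsg.Agent.Lib.Solv.Coprime2
import Cfsg.Agent.Lib.Transfer.Basic
import Cfsg.Agent.Lib.Transfer.NormalPComplement
import Cfsg.Agent.Lib.Transfer.Frobenius
import Cfsg.Agent.Lib.Sig.Basic
import Cfsg.Agent.Lib.ZStar.UniqueInvolution
-- import your own Cfsg.Agent.* helpers here

set_option autoImplicit false
open Cfsg

namespace Cfsg.Agent.S3215

open Subgroup
open scoped commutatorElement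

variable {H : Type*} [Group H] [Finite H]

theorem core_self_centralizing [Group.IsSolvable H] (hO : Cfsg.oddCore H = ⊥) :
    centralizer (Cfsg.pCore 2 H : Set H) ≤ Cfsg.pCore 2 H := by
  haveI := Fact.mk Nat.prime_two
  have h := Cfsg.Lib.Solv.centralizer_fitting_le (G := H)
  rwa [Cfsg.Lib.Solv.fitting_eq_pCore 2 hO] at h

/-- No nontrivial element of odd order commutes with a nontrivial `2`-element. -/
theorem no_commute [Group.IsSolvable H] (hO : Cfsg.oddCore H = ⊥)
    (hI : ∀ t : H, orderOf t = 2 → Cfsg.HasNormalPComplement 2 ↥(centralizer ({t} : Set H)))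
    {x u : H} (hx : (orderOf x).Coprime 2) (hx1 : x ≠ 1) (hu : ∃ n, orderOf u = 2 ^ n)
    (hu1 : u ≠ 1) (hxu : Commute x u) : False := by
  haveI := Fact.mk Nat.prime_two
  haveI hQn := Cfsg.Lib.Transfer.pCore_normal (G := H) 2
  set Q := Cfsg.pCore 2 H with hQ
  obtain ⟨n, hn⟩ := hu
  cases n with
  | zero => exact hu1 (orderOf_eq_one_iff.1 (by simpa using hn))
  | succ n =>
  set t := u ^ 2 ^ n with ht
  have ht2 : orderOf t = 2 := by
    rw [ht, orderOf_pow_of_dvd (by positivity) (by rw [hn]; exact pow_dvd_pow 2 (Nat.le_succ n)), hn,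
      pow_succ, Nat.mul_div_cancel_left _ (by positivity)]
  have hxt : Commute x t := hxu.pow_right _
  have hxC : x ∈ centralizer ({t} : Set H) := mem_centralizer_singleton_iff.2 hxt.eq
  obtain ⟨P, N, hN, hNP⟩ := hI t ht2
  obtain ⟨hNodd, k, hk⟩ := Cfsg.Lib.Transfer.coprime_card_of_isComplement' hNP
  have hxN : (⟨x, hxC⟩ : centralizer ({t} : Set H)) ∈ N :=
    (Cfsg.Lib.Transfer.mem_iff_coprime_of_complement hNodd hk _).2 (by rwa [Subgroup.orderOf_mk])
  have hzx : (Nat.card (zpowers x)).Coprime 2 := by rwa [Nat.card_zpowers]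
  have hzt : IsPGroup 2 (zpowers t) :=
    IsPGroup.of_card (n := 1) (by rw [Nat.card_zpowers, ht2, pow_one])
  have hnQ : ∀ Y : Subgroup H, Y ≤ normalizer (Q : Set H) := fun Y => by
    rw [Subgroup.normalizer_eq_top]; exact le_top
  have hcent : zpowers x ≤ centralizer (Q : Set H) := by
    refine Cfsg.Lib.Solv.thompson_PxQ (zpowers t) (zpowers x) Q hzt hzx
      (Cfsg.Lib.Transfer.pCore_isPGroup 2) ?_ (hnQ _) (hnQ _) ?_
    · rw [zpowers_le, mem_centralizer_iff]
      rintro _ ⟨i, rfl⟩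
      exact (hxt.zpow_left i).eq
    · rintro c ⟨hcQ, hct⟩
      have hcC : c ∈ centralizer ({t} : Set H) :=
        centralizer_le (Set.singleton_subset_iff.2 (mem_zpowers t)) hct
      suffices hc : Commute c x by
        refine mem_centralizer_iff.2 ?_
        rintro _ ⟨i, rfl⟩
        exact (hc.zpow_right i).eq.symm
      have h1 : (⟨c, hcC⟩ : centralizer ({t} : Set H)) * ⟨x, hxC⟩ * ⟨c, hcC⟩⁻¹ * ⟨x, hxC⟩⁻¹ ∈ N :=
        mul_mem (hN.conj_mem _ hxN _) (inv_mem hxN)
      have h2 : c * x * c⁻¹ * x⁻¹ ∈ Q := by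
        rw [show c * x * c⁻¹ * x⁻¹ = c * (x * c⁻¹ * x⁻¹) by group]
        exact mul_mem hcQ (hQn.conj_mem _ (inv_mem hcQ) x)
      have h3 : orderOf (c * x * c⁻¹ * x⁻¹) = 1 := by
        obtain ⟨j, hj⟩ := IsPGroup.iff_orderOf.1 (Cfsg.Lib.Transfer.pCore_isPGroup (G := H) 2) ⟨_, h2⟩
        rw [Subgroup.orderOf_mk] at hj
        have h4 : (orderOf (c * x * c⁻¹ * x⁻¹)).Coprime 2 := by
          have := Nat.Coprime.coprime_dvd_left (orderOf_dvd_natCard N h1) hNodd
          rwa [← Subgroup.orderOf_coe] at this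
        exact Nat.eq_one_of_dvd_coprimes (h4.pow_right j) dvd_rfl (hj ▸ dvd_rfl)
      exact mul_inv_eq_iff_eq_mul.1 (mul_inv_eq_one.1 (orderOf_eq_one_iff.1 h3))
  have hxQ : x ∈ Q := core_self_centralizing hO (hcent (mem_zpowers x))
  obtain ⟨j, hj⟩ := IsPGroup.iff_orderOf.1 (Cfsg.Lib.Transfer.pCore_isPGroup (G := H) 2) ⟨x, hxQ⟩
  rw [Subgroup.orderOf_mk] at hj
  exact hx1 (orderOf_eq_one_iff.1
    (Nat.eq_one_of_dvd_coprimes (hx.pow_right j) dvd_rfl (hj ▸ dvd_rfl)))

theorem odd_pGroup_cyclic [Group.IsSolvable H] (hO : Cfsg.oddCore H = ⊥)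
    (hI : ∀ t : H, orderOf t = 2 → Cfsg.HasNormalPComplement 2 ↥(centralizer ({t} : Set H)))
    {p : ℕ} [hp : Fact p.Prime] (hp2 : p ≠ 2) (P : Subgroup H) (hP : IsPGroup p P) :
    IsCyclic P := by
  haveI := Fact.mk Nat.prime_two
  haveI hQn := Cfsg.Lib.Transfer.pCore_normal (G := H) 2
  set Q := Cfsg.pCore 2 H with hQ
  have hnoE : ∀ E : Subgroup H, Cfsg.IsElementaryAbelian p E → ¬ p ^ 2 ≤ Nat.card E := by
    intro E hE hcard
    obtain ⟨j, hj⟩ := IsPGroup.iff_card.1 (Cfsg.Lib.Transfer.pCore_isPGroup (G := H) 2)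
    have hpQ : ¬ p ∣ Nat.card Q := fun h => hp2
      ((Nat.prime_dvd_prime_iff_eq hp.out Nat.prime_two).1 (hp.out.dvd_of_dvd_pow (hj ▸ h)))
    have hnQ : E ≤ normalizer (Q : Set H) := by rw [Subgroup.normalizer_eq_top]; exact le_top
    have hgen := Cfsg.Lib.Sig.le_iSup_centralizer_index E Q hE hpQ hnQ ⊥ bot_le
    have hQbot : Q = ⊥ := by
      refine le_bot_iff.1 fun y hy => ?_
      have hy' := hgen ⟨hy, mem_centralizer_iff.2 fun c hc => by simp [mem_bot.1 hc]⟩
      refine (iSup_le fun B => ?_ : (⨆ B : {B : Subgroup H // B ≤ E ∧ B.relIndex E ≤ p},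
        Q ⊓ centralizer ((B : Subgroup H) : Set H)) ≤ ⊥) hy'
      rintro z ⟨hzQ, hzB⟩
      by_contra hz
      have hz1 : z ≠ 1 := fun h => hz (mem_bot.2 h)
      obtain ⟨e, he, he1⟩ : ∃ e ∈ (B : Subgroup H), e ≠ 1 := by
        refine (Subgroup.bot_or_exists_ne_one _).resolve_left fun h => ?_
        have h2 := B.2.2
        rw [h, relIndex_bot_left] at h2
        nlinarith [hp.out.two_le, h2.trans' hcard]
      have hoe : orderOf e = p := orderOf_eq_prime (hE.2 e (B.2.1 he)) he1
      refine no_commute hO hI (x := e) (u := z) ?_ he1 ?_ hz1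
        (mem_centralizer_iff.1 hzB e he)
      · rw [hoe]; exact (Nat.coprime_primes hp.out Nat.prime_two).2 hp2
      · obtain ⟨n, hn⟩ := IsPGroup.iff_orderOf.1 (Cfsg.Lib.Transfer.pCore_isPGroup (G := H) 2) ⟨z, hzQ⟩
        exact ⟨n, by rwa [Subgroup.orderOf_mk] at hn⟩
    have hall := core_self_centralizing hO
    rw [show Cfsg.pCore 2 H = ⊥ from hQbot] at hall
    have htop : (⊤ : Subgroup H) = ⊥ := le_bot_iff.1 (le_trans (fun g _ => mem_centralizer_iff.2 fun c hc => by simp [mem_bot.1 hc]) hall)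
    have h1 : Nat.card E ≤ 1 := by
      rw [le_bot_iff.1 (htop ▸ le_top : E ≤ ⊥), card_bot]
    nlinarith [hp.out.two_le]
  by_cases hbot : P = ⊥
  · subst hbot; infer_instance
  haveI : Nontrivial P := (Subgroup.nontrivial_iff_ne_bot _).2 hbot
  haveI := hP.center_nontrivial
  obtain ⟨z, hz⟩ := exists_prime_orderOf_dvd_card' (G := center P) p (by
    obtain ⟨k, hk⟩ := IsPGroup.iff_card.1 (hP.to_subgroup (center P))
    cases k with
    | zero => exact absurd hk (by rw [pow_zero]; exact (Finite.one_lt_card (α := center P)).ne')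
    | succ k => exact hk ▸ dvd_pow_self p (by omega))
  have huniq : ∀ x : P, orderOf x = p → zpowers x = zpowers (z : P) := by
    intro x hx
    have hzp : orderOf (z : P) = p := by rw [Subgroup.orderOf_coe]; exact hz
    set E := closure ({(x : H), ((z : P) : H)} : Set H) with hE
    have hcxz : (x : H) * ((z : P) : H) = ((z : P) : H) * x :=
      congrArg Subtype.val (mem_center_iff.1 z.2 x)
    haveI hEc : IsMulCommutative E := isMulCommutative_closure (by
      rintro a (rfl | rfl) b (rfl | rfl) <;> first | rfl | exact hcxz | exact hcxz.symm)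
    have hEe : Cfsg.IsElementaryAbelian p E := by
      refine ⟨hEc, fun a ha => ?_⟩
      induction ha using closure_induction with
      | mem a ha =>
        rcases ha with rfl | rfl
        · rw [← hx, ← Subgroup.orderOf_coe, pow_orderOf_eq_one]
        · rw [← hzp, ← Subgroup.orderOf_coe, pow_orderOf_eq_one]
      | one => exact one_pow p
      | mul a b ha hb h1 h2 =>
        have hab : Commute a b := congrArg Subtype.val (mul_comm' (⟨a, ha⟩ : E) ⟨b, hb⟩)
        rw [hab.mul_pow, h1, h2, one_mul]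
      | inv a _ h1 => rw [inv_pow, h1, inv_one]
    have hcard : Nat.card E = p := by
      obtain ⟨k, hk⟩ := IsPGroup.iff_card.1
        (fun a => ⟨1, Subtype.ext (by simpa using hEe.2 a a.2)⟩ : IsPGroup p E)
      have h1 : zpowers ((z : P) : H) ≤ E := zpowers_le.2 (subset_closure (by simp))
      have h2 := card_le_of_le h1
      rw [Nat.card_zpowers, Subgroup.orderOf_coe, hzp, hk] at h2
      have h3 := hnoE E hEe
      rw [hk] at h3
      have h4 : k < 2 := by
        by_contra h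
        exact h3 (Nat.pow_le_pow_right hp.out.pos (by omega))
      have h5 : k ≠ 0 := by rintro rfl; simp at h2; linarith [hp.out.two_le]
      rw [hk, show k = 1 by omega, pow_one]
    have e1 : zpowers (x : H) = E := eq_of_le_of_card_ge (zpowers_le.2 (subset_closure (by simp)))
      (by rw [hcard, Nat.card_zpowers, Subgroup.orderOf_coe, hx])
    have e2 : zpowers ((z : P) : H) = E := eq_of_le_of_card_ge (zpowers_le.2 (subset_closure (by simp)))
      (by rw [hcard, Nat.card_zpowers, Subgroup.orderOf_coe, hzp])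
    apply map_injective P.subtype_injective
    rw [MonoidHom.map_zpowers, MonoidHom.map_zpowers]
    exact e1.trans e2.symm
  rcases Cfsg.Lib.ZStar.isCyclic_or_inverted hP (fun x y hx hy => by
    rw [huniq x hx, ← huniq y hy]; exact mem_zpowers y) with h | ⟨h, -⟩
  · exact h
  · exact absurd h hp2

theorem main [Group.IsSolvable H] (hO : Cfsg.oddCore H = ⊥)
    (hI : ∀ t : H, orderOf t = 2 → Cfsg.HasNormalPComplement 2 ↥(centralizer ({t} : Set H)))
    (X : Subgroup H) (hXodd : Odd (Nat.card X)) (hXidx : ∃ k : ℕ, X.index = 2 ^ k) :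
    (X ⊔ Cfsg.pCore 2 H).Normal ∧
      ∀ hN : (X ⊔ Cfsg.pCore 2 H).Normal,
        IsCyclic (H ⧸ (X ⊔ Cfsg.pCore 2 H)) ∧ IsPGroup 2 (H ⧸ (X ⊔ Cfsg.pCore 2 H)) := by
  haveI := Fact.mk Nat.prime_two
  haveI hQn := Cfsg.Lib.Transfer.pCore_normal (G := H) 2
  have hqs := QuotientGroup.mk'_surjective (Cfsg.pCore 2 H)
  set q := QuotientGroup.mk' (Cfsg.pCore 2 H) with hq
  haveI : Group.IsSolvable (H ⧸ Cfsg.pCore 2 H) := Group.isSolvable_of_surjective hqs
  set F := Cfsg.fittingSubgroup (H ⧸ Cfsg.pCore 2 H) with hF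
  haveI hFn : F.Normal := Cfsg.Lib.Solv.fitting_normal
  have hFodd : (Nat.card F).Coprime 2 := by
    have h1 := Cfsg.Lib.Transfer.fittingSubgroup_le_pCore_sup (G := H ⧸ Cfsg.pCore 2 H) 2
    rw [Cfsg.Lib.Solv.pCore_quotient_eq_bot, bot_sup_eq] at h1
    exact (Cfsg.Lib.Transfer.coprime_card_pPrimeCore 2).coprime_dvd_left (card_dvd_of_le h1)
  -- the Fitting subgroup of the quotient is cyclic
  haveI hFnil : Group.IsNilpotent F := Cfsg.Lib.Solv.fitting_isNilpotent
  haveI hFz : IsZGroup F := by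
    refine ⟨fun p hp S => ?_⟩
    haveI := Fact.mk hp
    by_cases hp2 : p = 2
    · subst hp2
      obtain ⟨j, hj⟩ := IsPGroup.iff_card.1 S.isPGroup'
      have h1 : Nat.card (S : Subgroup F) = 1 := Nat.eq_one_of_dvd_coprimes (hFodd.pow_right j)
        (card_subgroup_dvd_card _) (hj ▸ dvd_rfl)
      haveI := (Nat.card_eq_one_iff_unique.1 h1).1
      infer_instance
    obtain ⟨R, hR⟩ := (S.isPGroup'.map F.subtype).exists_le_sylow
    obtain ⟨P⟩ : Nonempty (Sylow p H) := inferInstance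
    haveI := odd_pGroup_cyclic hO hI hp2 (P : Subgroup H) P.isPGroup'
    haveI hPc : IsCyclic ((Sylow.mapSurjective hqs P : Sylow p (H ⧸ Cfsg.pCore 2 H)) : Subgroup (H ⧸ Cfsg.pCore 2 H)) := by
      rw [Sylow.coe_mapSurjective]
      exact isCyclic_of_surjective (q.subgroupMap _) (q.subgroupMap_surjective _)
    haveI hRc : IsCyclic (R : Subgroup (H ⧸ Cfsg.pCore 2 H)) := by
      exact isCyclic_of_surjective (Sylow.equiv (Sylow.mapSurjective hqs P) R).toMonoidHom
        (Sylow.equiv (Sylow.mapSurjective hqs P) R).surjective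
    haveI : IsCyclic ((S : Subgroup F).map F.subtype) :=
      isCyclic_of_injective (inclusion hR) (inclusion_injective hR)
    exact isCyclic_of_surjective (equivMapOfInjective _ F.subtype F.subtype_injective).symm.toMonoidHom
      (equivMapOfInjective _ F.subtype F.subtype_injective).symm.surjective
  haveI hFc : IsCyclic F := inferInstance
  have hcomm : commutator (H ⧸ Cfsg.pCore 2 H) ≤ F := by
    refine le_trans ?_ Cfsg.Lib.Solv.centralizer_fitting_le
    rw [_root_.commutator_def, commutator_le]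
    intro a _ b _
    refine mem_centralizer_iff.2 fun f hf => ?_
    obtain ⟨m, hm⟩ := MonoidHom.map_cyclic (MulAut.conjNormal a : MulAut F).toMonoidHom
    obtain ⟨n, hn⟩ := MonoidHom.map_cyclic (MulAut.conjNormal b : MulAut F).toMonoidHom
    have hf0 : (b * a)⁻¹ * f * (b * a) ∈ F := by
      have := hFn.conj_mem f hf (b * a)⁻¹
      rwa [inv_inv] at this
    have h : (MulAut.conjNormal (a * b) : MulAut F) ⟨_, hf0⟩ = MulAut.conjNormal (b * a) ⟨_, hf0⟩ := by
      rw [map_mul, map_mul, MulAut.mul_apply, MulAut.mul_apply]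
      change (MulAut.conjNormal a : MulAut F).toMonoidHom ((MulAut.conjNormal b : MulAut F).toMonoidHom _)
        = (MulAut.conjNormal b : MulAut F).toMonoidHom ((MulAut.conjNormal a : MulAut F).toMonoidHom _)
      rw [hm, hn, hm, hn, ← zpow_mul, ← zpow_mul, mul_comm]
    have h' := congrArg Subtype.val h
    simp only [MulAut.conjNormal_apply] at h'
    change a * b * ((b * a)⁻¹ * f * (b * a)) * (a * b)⁻¹ =
      b * a * ((b * a)⁻¹ * f * (b * a)) * (b * a)⁻¹ at h'
    have h2 : b * a * ((b * a)⁻¹ * f * (b * a)) * (b * a)⁻¹ = f := by group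
    rw [h2] at h'
    calc f * ⁅a, b⁆ = (a * b * ((b * a)⁻¹ * f * (b * a)) * (a * b)⁻¹) * ⁅a, b⁆ := by rw [h']
      _ = ⁅a, b⁆ * f := by simp only [commutatorElement_def]; group
  set Xq := X.map q with hXq
  have hXqodd : (Nat.card Xq).Coprime 2 :=
    (Nat.coprime_two_right.2 hXodd).coprime_dvd_left (card_map_dvd X q)
  obtain ⟨k, hk⟩ := hXidx
  have hFX : F ≤ Xq := by
    rw [← relIndex_eq_one]
    refine Nat.eq_one_of_dvd_coprimes (hFodd.pow_right k) (relIndex_dvd_card _ _) ?_
    exact (Cfsg.Lib.Transfer.relIndex_dvd_index_of_normal_right _ F).trans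
      ((index_map_dvd _ hqs).trans hk.dvd)
  haveI hXqn : Xq.Normal := ⟨fun y hy g => by
    have h1 : g * y * g⁻¹ * y⁻¹ ∈ Xq := hFX (hcomm (by
      rw [_root_.commutator_def]
      exact commutator_mem_commutator (mem_top g) (mem_top y)))
    have := mul_mem h1 hy
    rwa [inv_mul_cancel_right] at this⟩
  have hsup : Xq.comap q = X ⊔ Cfsg.pCore 2 H := by
    rw [hXq, comap_map_eq, hq, QuotientGroup.ker_mk']
  refine ⟨hsup ▸ inferInstance, fun hN => ?_⟩
  set L := X ⊔ Cfsg.pCore 2 H with hL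
  have hL2 : IsPGroup 2 (H ⧸ L) := by
    obtain ⟨j, -, hj⟩ := (Nat.dvd_prime_pow Nat.prime_two).1
      (hk ▸ index_dvd_of_le (le_sup_left : X ≤ L))
    exact IsPGroup.of_card (n := j) (by rw [← index_eq_card]; exact hj)
  haveI hLc : IsMulCommutative (H ⧸ L) := ⟨⟨fun a b => by
    obtain ⟨a, rfl⟩ := QuotientGroup.mk_surjective a
    obtain ⟨b, rfl⟩ := QuotientGroup.mk_surjective b
    rw [← QuotientGroup.mk_mul, ← QuotientGroup.mk_mul, QuotientGroup.eq, ← hsup, mem_comap]
    have h := hFX (hcomm (show ⁅(q b)⁻¹, (q a)⁻¹⁆ ∈ _ by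
      rw [_root_.commutator_def]
      exact commutator_mem_commutator (mem_top _) (mem_top _)))
    simpa [commutatorElement_def, mul_assoc, map_mul, map_inv] using h⟩⟩
  refine ⟨?_, hL2⟩
  -- an involution of the quotient lifts to an element inverting the Fitting subgroup
  have hlift : ∀ a : H ⧸ L, orderOf a = 2 → ∃ u : H, (QuotientGroup.mk u : H ⧸ L) = a ∧
      ∀ f ∈ F, q u * f * (q u)⁻¹ = f⁻¹ := by
    intro a ha
    obtain ⟨u0, rfl⟩ := QuotientGroup.mk_surjective a
    set m := ordCompl[2] (orderOf u0) with hm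
    have hmodd : Odd m :=
      Nat.coprime_two_right.1 (Nat.coprime_ordCompl Nat.prime_two (orderOf_pos u0).ne').symm
    set u := u0 ^ m with hu
    have hu2 : ∃ n, orderOf u = 2 ^ n := ⟨_, by
      rw [hu, orderOf_pow_of_dvd (Nat.ordCompl_pos 2 (orderOf_pos u0).ne').ne' (Nat.ordCompl_dvd _ _),
        Nat.div_div_self (Nat.ordProj_dvd _ _) (orderOf_pos u0).ne']⟩
    have humk : (QuotientGroup.mk u : H ⧸ L) = QuotientGroup.mk u0 := by
      obtain ⟨r, hr⟩ := hmodd
      rw [hu, QuotientGroup.mk_pow, hr, pow_succ, pow_mul, ← ha, pow_orderOf_eq_one, one_pow, one_mul]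
    have huL : u ∉ L := fun h => by
      rw [← QuotientGroup.eq_one_iff, humk] at h
      rw [h, orderOf_one] at ha
      omega
    have huQ : u ^ 2 ∈ Cfsg.pCore 2 H := by
      have h1 : u ^ 2 ∈ L := by
        rw [← QuotientGroup.eq_one_iff, QuotientGroup.mk_pow, humk, ← ha, pow_orderOf_eq_one]
      rw [← hsup, mem_comap] at h1
      obtain ⟨n, hn⟩ := hu2
      have h2 : orderOf (q (u ^ 2)) = 1 := Nat.eq_one_of_dvd_coprimes (hXqodd.pow_right n)
        (orderOf_dvd_natCard Xq h1)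
        (((orderOf_map_dvd q _).trans (orderOf_pow_dvd 2)).trans hn.dvd)
      exact (QuotientGroup.eq_one_iff _).1 (orderOf_eq_one_iff.1 h2)
    refine ⟨u, humk, ?_⟩
    have hfix : ∀ f ∈ F, Commute (q u) f → f = 1 := by
      intro f hf hcf
      obtain ⟨x0, rfl⟩ := hqs f
      by_contra hne
      have hfo : (orderOf (q x0)).Coprime 2 := hFodd.coprime_dvd_left (orderOf_dvd_natCard F hf)
      set x := x0 ^ ordProj[2] (orderOf x0) with hx
      have hxodd : (orderOf x).Coprime 2 := by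
        rw [hx, orderOf_pow_of_dvd (Nat.ordProj_pos _ _).ne' (Nat.ordProj_dvd _ _)]
        exact (Nat.coprime_ordCompl Nat.prime_two (orderOf_pos x0).ne').symm
      obtain ⟨j, hj⟩ := exists_pow_eq_self_of_coprime (x := q x0) (n := ordProj[2] (orderOf x0))
        (hfo.pow_right _).symm
      have hx1 : x ≠ 1 := by
        intro h
        refine hne ?_
        rw [← hj, ← map_pow, ← hx, h, map_one, one_pow]
      have hxu : Commute (q u) (q x) := by rw [hx, map_pow]; exact hcf.pow_right _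
      set K := Cfsg.pCore 2 H ⊔ zpowers u with hK
      have hKp : IsPGroup 2 K := by
        obtain ⟨n, hn⟩ := hu2
        exact (Cfsg.Lib.Transfer.pCore_isPGroup 2).to_sup_of_normal_left
          (IsPGroup.of_card (n := n) (by rw [Nat.card_zpowers, hn]))
      have hxK : ∀ i : ℤ, x ^ i * u * (x ^ i)⁻¹ * u⁻¹ ∈ Cfsg.pCore 2 H := fun i => by
        rw [← QuotientGroup.eq_one_iff]
        show q _ = 1
        rw [map_mul, map_mul, map_mul, map_inv, map_inv, map_zpow, ← (hxu.zpow_right i).eq,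
          mul_inv_cancel_right, mul_inv_cancel]
      have hAK : zpowers x ≤ normalizer (K : Set H) := by
        have key : ∀ i : ℤ, K.map (MulAut.conj (x ^ i)).toMonoidHom ≤ K := by
          intro i
          rw [hK, Subgroup.map_sup, MonoidHom.map_zpowers]
          refine sup_le ?_ (zpowers_le.2 ?_)
          · rintro _ ⟨c, hc, rfl⟩
            exact mem_sup_left (hQn.conj_mem c hc _)
          · show x ^ i * u * (x ^ i)⁻¹ ∈ _
            have := mul_mem (mem_sup_left (T := zpowers u) (hxK i))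
              (mem_sup_right (S := Cfsg.pCore 2 H) (mem_zpowers u))
            rwa [inv_mul_cancel_right] at this
        rintro _ ⟨i, rfl⟩
        rw [mem_normalizer_iff]
        refine fun c => ⟨fun hc => key i ⟨c, hc, rfl⟩, fun hc => ?_⟩
        have : x ^ (-i) * (x ^ i * c * (x ^ i)⁻¹) * (x ^ (-i))⁻¹ ∈ K := key (-i) ⟨_, hc, rfl⟩
        rwa [zpow_neg, inv_inv, ← mul_assoc, ← mul_assoc, inv_mul_cancel, one_mul,
          inv_mul_cancel_right] at this
      have hnQ : ∀ Y : Subgroup H, Y ≤ normalizer (Cfsg.pCore 2 H : Set H) := fun Y => by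
        rw [Subgroup.normalizer_eq_top]; exact le_top
      obtain ⟨n, hn⟩ := IsPGroup.iff_card.1 hKp
      obtain ⟨c, hc, huc⟩ := Cfsg.Lib.Solv.fixed_coset (zpowers x) K hAK
        (by rw [Nat.card_zpowers, hn]; exact hxodd.pow_right n)
        (Or.inl (Group.isSolvable_of_comm fun a b => mul_comm' a b))
        (Cfsg.pCore 2 H) le_sup_left (hnQ _) (hnQ _) u (mem_sup_right (mem_zpowers u))
        (by rintro _ ⟨i, rfl⟩; exact hxK i)
      obtain ⟨hcK, hcx⟩ := mem_inf.1 hc
      refine no_commute hO hI hxodd hx1 ?_ ?_ (mem_centralizer_iff.1 hcx x (mem_zpowers x))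
      · obtain ⟨j, hj⟩ := IsPGroup.iff_orderOf.1 hKp ⟨c, hcK⟩
        exact ⟨j, by rwa [Subgroup.orderOf_mk] at hj⟩
      · intro h
        rw [h, mul_one] at huc
        exact huL (le_sup_right (a := X) (inv_mem_iff.1 huc))
    intro f hf
    have hfu : q u * f * (q u)⁻¹ ∈ F := hFn.conj_mem f hf _
    have hcc : Commute (q u * f * (q u)⁻¹) f :=
      congrArg Subtype.val (mul_comm' (⟨_, hfu⟩ : F) ⟨f, hf⟩)
    have huu : q u * (q u * f * (q u)⁻¹) * (q u)⁻¹ = f := by
      have h2 : q u * q u = 1 := by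
        rw [← map_mul, ← pow_two]
        exact (QuotientGroup.eq_one_iff _).2 huQ
      rw [show q u * (q u * f * (q u)⁻¹) * (q u)⁻¹ = q u * q u * f * (q u * q u)⁻¹ by group, h2,
        one_mul, inv_one, mul_one]
    have hcu : Commute (q u) (f * (q u * f * (q u)⁻¹)) := by
      show q u * _ = _ * q u
      calc q u * (f * (q u * f * (q u)⁻¹))
          = (q u * f * (q u)⁻¹) * (q u * (q u * f * (q u)⁻¹) * (q u)⁻¹) * q u := by group
        _ = f * (q u * f * (q u)⁻¹) * q u := by rw [huu, hcc.eq]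
    exact eq_inv_of_mul_eq_one_right (hfix _ (mul_mem hf hfu) hcu)
  refine (Cfsg.Lib.ZStar.isCyclic_or_inverted hL2 fun a b ha hb => ?_).resolve_right ?_
  · obtain ⟨u, rfl, hu⟩ := hlift a ha
    obtain ⟨v, rfl, hv⟩ := hlift b hb
    have hmem : (q v)⁻¹ * q u ∈ centralizer (F : Set (H ⧸ Cfsg.pCore 2 H)) := by
      refine mem_centralizer_iff.2 fun f hf => ?_
      have h1 : q u * f * (q u)⁻¹ = q v * f * (q v)⁻¹ := (hu f hf).trans (hv f hf).symm
      calc f * ((q v)⁻¹ * q u) = (q v)⁻¹ * (q v * f * (q v)⁻¹) * q u := by group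
        _ = (q v)⁻¹ * (q u * f * (q u)⁻¹) * q u := by rw [h1]
        _ = _ := by group
    have hin := hFX (Cfsg.Lib.Solv.centralizer_fitting_le hmem)
    rw [← map_inv, ← map_mul, ← mem_comap, hsup] at hin
    rw [(QuotientGroup.eq.2 hin : (QuotientGroup.mk v : H ⧸ L) = QuotientGroup.mk u)]
    exact mem_zpowers _
  · rintro ⟨-, a, g, ha4, -, -, hinv, -⟩
    rw [mul_comm' g a, mul_inv_cancel_right, eq_inv_iff_mul_eq_one, ← pow_two] at hinv
    have := Nat.le_of_dvd (by norm_num) (orderOf_dvd_of_pow_eq_one hinv)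
    omega


/-- Let H be a finite solvable group with no nontrivial normal subgroup of odd order in which the centralizer of every involution has a normal 2-complement. Let X be a Hall 2'-subgroup of H (odd order, index a power of 2) and Y = O₂(H). Then no non-identity element of X commutes with a non-identity element of Y (so for X ≠ 1 the group XY is a Frobenius group with kernel Y), every Sylow subgroup of X is cyclic, XY is normal in H, and H/XY is a cyclic 2-group. -/
theorem result {H : Type*} [Group H] [Finite H] (hsol : Group.IsSolvable H)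
    (hO : Cfsg.oddCore H = ⊥)
    (hI : ∀ t : H, orderOf t = 2 → Cfsg.HasNormalPComplement 2 ↥(Subgroup.centralizer ({t} : Set H)))
    (X : Subgroup H) (hXodd : Odd (Nat.card X)) (hXidx : ∃ k : ℕ, X.index = 2 ^ k) :
    (∀ x ∈ X, x ≠ 1 → ∀ y ∈ Cfsg.pCore 2 H, y ≠ 1 → x * y ≠ y * x) ∧
      (∀ (p : ℕ) [Fact p.Prime] (P : Sylow p ↥X), IsCyclic ↥(P : Subgroup ↥X)) ∧
      (X ⊔ Cfsg.pCore 2 H).Normal ∧
      ∀ hN : (X ⊔ Cfsg.pCore 2 H).Normal, IsCyclic (H ⧸ (X ⊔ Cfsg.pCore 2 H)) ∧ IsPGroup 2 (H ⧸ (X ⊔ Cfsg.pCore 2 H)) := by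
  haveI := hsol
  haveI := Fact.mk Nat.prime_two
  obtain ⟨h3, h4⟩ := main hO hI X hXodd hXidx
  refine ⟨fun x hx hx1 y hy hy1 hxy => ?_, fun p hp P => ?_, h3, h4⟩
  · refine no_commute hO hI ?_ hx1 ?_ hy1 hxy
    · exact (Nat.coprime_two_right.2 hXodd).coprime_dvd_left (Subgroup.orderOf_dvd_natCard X hx)
    · obtain ⟨n, hn⟩ := IsPGroup.iff_orderOf.1 (Cfsg.Lib.Transfer.pCore_isPGroup (G := H) 2) ⟨y, hy⟩
      exact ⟨n, by rwa [Subgroup.orderOf_mk] at hn⟩
  · by_cases hp2 : p = 2
    · subst hp2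
      obtain ⟨k, hk⟩ := IsPGroup.iff_card.1 P.isPGroup'
      have h1 : Nat.card (P : Subgroup X) = 1 := Nat.eq_one_of_dvd_coprimes
        ((Nat.coprime_two_right.2 hXodd).pow_right k) (Subgroup.card_subgroup_dvd_card _) (hk ▸ dvd_rfl)
      haveI := (Nat.card_eq_one_iff_unique.1 h1).1
      infer_instance
    haveI := odd_pGroup_cyclic hO hI hp2 ((P : Subgroup X).map X.subtype) (P.isPGroup'.map _)
    exact isCyclic_of_surjective
      ((P : Subgroup X).equivMapOfInjective X.subtype X.subtype_injective).symm.toMonoidHom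
      ((P : Subgroup X).equivMapOfInjective X.subtype X.subtype_injective).symm.surjective

end Cfsg.Agent.S3215
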