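import Cfsg.Statements.S3225
import Mathlib
import Cfsg.Agent.Lib.Transfer.IndexTwo
-- import your own Cfsg.Agent.* helpers here

set_option autoImplicit false
open Cfsg

namespace Cfsg.Agent.S3225

/-- Let G be a finite group of even order with no subgroup of index 2, S a Sylow 2-subgroup of G and M a subgroup of index 2 in S such that, for some n ≥ 1, every element of S outside M has order greater than 2^(n−1). Then every element of S of order 2ⁿ is conjugate in G to an element of M. -/
theorem result {G : Type*} [Group G] [Finite G] (hev : Even (Nat.card G))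
    (hG : ∀ H : Subgroup G, H.index ≠ 2) (S : Sylow 2 G) (M : Subgroup G) (hMS : M ≤ (S : Subgroup G)) (hM : M.relIndex (S : Subgroup G) = 2)
    (n : ℕ) (hn : 1 ≤ n) (hord : ∀ y ∈ (S : Subgroup G), y ∉ M → 2 ^ (n - 1) < orderOf y)
    (x : G) (hx : x ∈ (S : Subgroup G)) (hxn : orderOf x = 2 ^ n) :
    ∃ g : G, g * x * g⁻¹ ∈ M := by
  by_contra hno
  push Not at hno
  have hidx : (M.subgroupOf (S : Subgroup G)).index = 2 := hM
  obtain ⟨K, -, hK, -⟩ := Cfsg.Lib.Transfer.exists_index_two S (M.subgroupOf (S : Subgroup G)) hidx ⟨x, hx⟩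
    (fun a hm h => hno a⁻¹ (by
      have h' : a⁻¹ * x * a ∈ M := Subgroup.mem_subgroupOf.1 h
      rwa [inv_inv]))
    (fun m a hm => by
      rw [Subgroup.mem_subgroupOf]
      by_contra hnot
      have h1 := hord _ hm hnot
      have hle : (x ^ (2 * m)) ^ (2 ^ (n - 1)) = 1 := by
        rw [← pow_mul, show 2 * m * 2 ^ (n - 1) = 2 ^ n * m by
          rw [show 2 ^ n = 2 * 2 ^ (n - 1) by rw [← pow_succ', Nat.sub_add_cancel hn]]; ring, pow_mul, ← hxn,
          pow_orderOf_eq_one, one_pow]
      have e : orderOf (a⁻¹ * x ^ (2 * m) * a) = orderOf (x ^ (2 * m)) := by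
        have := MulEquiv.orderOf_eq (MulAut.conj a⁻¹) (x ^ (2 * m))
        rwa [MulAut.conj_apply, inv_inv] at this
      have h2 : orderOf (a⁻¹ * x ^ (2 * m) * a) ≤ 2 ^ (n - 1) := by
        rw [e]; exact Nat.le_of_dvd (by positivity) (orderOf_dvd_of_pow_eq_one hle)
      change 2 ^ (n - 1) < orderOf (a⁻¹ * x ^ (2 * m) * a) at h1
      omega)
  exact hG K hK

end Cfsg.Agent.S3225
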