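import Cfsg.Statements.S3247
import Mathlib
import Cfsg.Agent.Lib.PLocal.Constraint
-- import your own Cfsg.Agent.* helpers here

set_option autoImplicit false
open Cfsg

namespace Cfsg.Agent.S3247

open Subgroup Cfsg.Lib

variable {G : Type*} [Group G] [Finite G] {p : ℕ} [hp : Fact p.Prime]

private theorem constrained_congr {H : Type*} [Group H] [Finite H] (e : G ≃* H)
    (h : IsPConstrained p G) : IsPConstrained p H := by
  haveI := Transfer.pPrimeCore_normal (G := G) p
  haveI := Transfer.pPrimeCore_normal (G := H) p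
  rw [PLocal.isPConstrained_iff_quotient] at h ⊢
  exact PLocal.selfCentralizingCore_congr
    (QuotientGroup.congr (pPrimeCore p G) (pPrimeCore p H) e (PLocal.map_pPrimeCore_equiv e)) h

/-- A group is `p`-constrained if the centralizer of some normal `p`-subgroup is. -/
private theorem constrained_of_centralizer (T : Subgroup G) [T.Normal] (hT : IsPGroup p T)
    (h : IsPConstrained p ↥(centralizer (T : Set G))) : IsPConstrained p G := by
  haveI := Transfer.pPrimeCore_normal (G := G) p
  set C := centralizer (T : Set G) with hC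
  haveI hCn : C.Normal := ⟨fun c hc g => mem_centralizer_iff.2 fun t ht => by
    have h1 : g⁻¹ * t * g ∈ T := by
      simpa using (inferInstance : T.Normal).conj_mem t ht g⁻¹
    have h2 := mem_centralizer_iff.1 hc _ h1
    calc t * (g * c * g⁻¹) = g * ((g⁻¹ * t * g) * c) * g⁻¹ := by group
      _ = g * (c * (g⁻¹ * t * g)) * g⁻¹ := by rw [h2]
      _ = _ := by group⟩
  haveI := Transfer.pPrimeCore_normal (G := ↥C) p
  set O := pPrimeCore p G with hO
  have hOC : O ≤ C := fun o ho => mem_centralizer_iff.2 fun t ht => by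
    obtain ⟨n, hn⟩ := IsPGroup.iff_card.1 hT
    have hd : Disjoint T O := disjoint_iff.2 (inf_eq_bot_of_coprime (by
      rw [hn]; exact (Transfer.coprime_card_pPrimeCore p).symm.pow_left n))
    exact (commute_of_normal_of_disjoint _ _ inferInstance inferInstance hd t o ht ho).eq
  have hcore : pPrimeCore p ↥C = O.subgroupOf C := by
    refine le_antisymm ?_ (Transfer.le_pPrimeCore inferInstance
      ((Transfer.coprime_card_pPrimeCore p).coprime_dvd_left
        (Subgroup.card_comap_dvd_of_injective O C.subtype C.subtype_injective)))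
    haveI : ((pPrimeCore p ↥C).map C.subtype).Normal := by
      haveI := Solv.pPrimeCore_characteristic (G := ↥C) p
      infer_instance
    refine fun x hx => Transfer.le_pPrimeCore this ?_ ⟨x, hx, rfl⟩
    rw [card_map_of_injective C.subtype_injective]
    exact Transfer.coprime_card_pPrimeCore p
  set q := QuotientGroup.mk' O
  let f : ↥C →* ↥(C.map q) := (q.comp C.subtype).codRestrict _ fun x => ⟨x, x.2, rfl⟩
  have hf : Function.Surjective f := by rintro ⟨_, x, hx, rfl⟩; exact ⟨⟨x, hx⟩, rfl⟩
  have hker : f.ker = pPrimeCore p ↥C := by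
    ext x
    rw [MonoidHom.mem_ker, Subtype.ext_iff, hcore, mem_subgroupOf]
    exact QuotientGroup.eq_one_iff (x : G)
  have hself : PLocal.SelfCentralizingCore p ↥(C.map q) :=
    PLocal.selfCentralizingCore_congr
      ((QuotientGroup.quotientMulEquivOfEq hker.symm).trans (QuotientGroup.quotientKerEquivOfSurjective f hf))
      (PLocal.isPConstrained_iff_quotient.1 h)
  rw [PLocal.isPConstrained_iff_quotient]
  have hCq : C.map q = centralizer ((T.map q : Subgroup (G ⧸ O)) : Set (G ⧸ O)) := PLocal.map_centralizer_mk hT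
  haveI hTqn : (T.map q).Normal := Normal.map inferInstance q (QuotientGroup.mk'_surjective O)
  haveI : (C.map q).Normal := Normal.map hCn q (QuotientGroup.mk'_surjective O)
  haveI := Transfer.pCore_normal (G := ↥(C.map q)) p
  have hTle : T.map q ≤ pCore p (G ⧸ O) := Transfer.le_pCore hTqn (hT.map q)
  have hPle : (pCore p ↥(C.map q)).map (C.map q).subtype ≤ pCore p (G ⧸ O) := by
    haveI := Solv.pCore_characteristic (G := ↥(C.map q)) p
    exact Transfer.le_pCore inferInstance ((Transfer.pCore_isPGroup p).map _)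
  intro z hz
  have hzC : z ∈ C.map q := by
    rw [hCq]; exact centralizer_le (fun _ ht => hTle ht) hz
  have h1 : (⟨z, hzC⟩ : ↥(C.map q)) ∈ centralizer (pCore p ↥(C.map q) : Set ↥(C.map q)) :=
    mem_centralizer_iff.2 fun y hy => Subtype.ext (mem_centralizer_iff.1 hz _ (hPle ⟨y, hy, rfl⟩))
  exact hPle ⟨_, hself h1, rfl⟩

/-- Constraint passes from an overgroup to a normalizer or centralizer inside it. -/
private theorem inside (M T : Subgroup G) (hTM : T ≤ M) (hT : IsPGroup p T) (hM : IsPConstrained p ↥M) :
    (normalizer (T : Set G) ≤ M → IsPConstrained p ↥(normalizer (T : Set G))) ∧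
      (centralizer (T : Set G) ≤ M → IsPConstrained p ↥(centralizer (T : Set G))) := by
  have h := PLocal.local_constrained hM (P := T.subgroupOf M) (hT.of_equiv (subgroupOfEquivOfLe hTM).symm)
  constructor
  · intro hle
    have he : normalizer ((T.subgroupOf M : Subgroup ↥M) : Set ↥M) = (normalizer (T : Set G)).subgroupOf M := by
      ext x
      simp only [mem_subgroupOf, mem_normalizer_iff]
      constructor
      · intro hx g
        constructor
        · intro hg
          exact (hx ⟨g, hTM hg⟩).1 hg
        · intro hg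
          have hgM : g ∈ M := by
            have h2 := mul_mem (mul_mem (inv_mem x.2) (hTM hg)) x.2
            simpa [mul_assoc] using h2
          exact (hx ⟨g, hgM⟩).2 hg
      · intro hx g
        exact hx (g : G)
    exact constrained_congr ((MulEquiv.subgroupCongr he).trans (subgroupOfEquivOfLe hle)) h.1.2
  · intro hle
    have he : centralizer ((T.subgroupOf M : Subgroup ↥M) : Set ↥M) = (centralizer (T : Set G)).subgroupOf M := by
      ext x
      simp only [mem_subgroupOf, mem_centralizer_iff]
      constructor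
      · intro hx g hg
        exact congrArg Subtype.val (hx ⟨g, hTM hg⟩ hg)
      · intro hx g hg
        exact Subtype.ext (hx (g : G) hg)
    exact constrained_congr ((MulEquiv.subgroupCongr he).trans (subgroupOfEquivOfLe hle)) h.2.2

private theorem main (p : ℕ) [hp : Fact p.Prime]
    (h : (∀ M : Subgroup G, (∃ T : Subgroup G, IsPGroup p ↥T ∧ T ≠ ⊥ ∧ M = normalizer (T : Set G)) → M ≠ ⊤ →
        (∀ M' : Subgroup G, (∃ T' : Subgroup G, IsPGroup p ↥T' ∧ T' ≠ ⊥ ∧ M' = normalizer (T' : Set G)) → M' ≠ ⊤ → M ≤ M' → M = M') →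
        Cfsg.IsPConstrained p ↥M) ∨
      (∀ x : G, orderOf x = p → Cfsg.IsPConstrained p ↥(centralizer ({x} : Set G))))
    (T : Subgroup G) (hT : IsPGroup p ↥T) (hT1 : T ≠ ⊥) (hTG : normalizer (T : Set G) ≠ ⊤) :
    Cfsg.IsPConstrained p ↥(normalizer (T : Set G)) := by
  rcases h with h | h
  · obtain ⟨M, hle, ⟨hM1, hM2⟩, hmax⟩ := (Set.toFinite {M : Subgroup G | (∃ T' : Subgroup G,
        IsPGroup p ↥T' ∧ T' ≠ ⊥ ∧ M = normalizer (T' : Set G)) ∧ M ≠ ⊤}).exists_le_maximal
      (a := normalizer (T : Set G)) ⟨⟨T, hT, hT1, rfl⟩, hTG⟩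
    have hMc := h M hM1 hM2 fun M' h1 h2 h3 => le_antisymm h3 (hmax ⟨h1, h2⟩ h3)
    exact (inside M T (le_normalizer.trans hle) hT hMc).1 hle
  · haveI : Nontrivial ↥T := (Subgroup.nontrivial_iff_ne_bot T).2 hT1
    haveI := hT.center_nontrivial
    obtain ⟨n, hn0, hn⟩ := (IsPGroup.nontrivial_iff_card (hT.to_subgroup (center ↥T))).1 inferInstance
    obtain ⟨x, hx⟩ := exists_prime_orderOf_dvd_card' (G := ↥(center ↥T)) p (by
      rw [hn]; exact dvd_pow_self p hn0.ne')
    rw [← Subgroup.orderOf_coe, ← Subgroup.orderOf_coe] at hx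
    set x' : G := ((x : ↥T) : G) with hx'
    have hTx : T ≤ centralizer ({x'} : Set G) := fun t ht => mem_centralizer_iff.2 fun y hy => by
      rw [Set.mem_singleton_iff.1 hy]
      exact (congrArg Subtype.val (mem_center_iff.1 x.2 ⟨t, ht⟩)).symm
    have hCx : centralizer (T : Set G) ≤ centralizer ({x'} : Set G) :=
      centralizer_le fun y hy => by rw [Set.mem_singleton_iff.1 hy]; exact (x : ↥T).2
    have hC := (inside _ T hTx hT (h x' hx)).2 hCx
    have hle : centralizer (T : Set G) ≤ normalizer (T : Set G) := fun c hc => mem_normalizer_iff.2 fun a =>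
      ⟨fun ha => by rw [← mem_centralizer_iff.1 hc a ha, mul_inv_cancel_right]; exact ha, fun ha => by
        have e : c * a * c⁻¹ * c = c * (c * a * c⁻¹) := mem_centralizer_iff.1 hc _ ha
        rw [inv_mul_cancel_right] at e
        rwa [← mul_left_cancel e] at ha⟩
    set N := normalizer (T : Set G) with hN
    haveI : (T.subgroupOf N).Normal := ⟨fun y hy g => (mem_normalizer_iff.1 g.2 (y : G)).1 hy⟩
    refine constrained_of_centralizer (T.subgroupOf N) (hT.of_equiv (subgroupOfEquivOfLe le_normalizer).symm) ?_
    have he : centralizer ((T.subgroupOf N : Subgroup ↥N) : Set ↥N) = (centralizer (T : Set G)).subgroupOf N := by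
      ext z
      simp only [mem_subgroupOf, mem_centralizer_iff]
      constructor
      · intro hz g hg
        exact congrArg Subtype.val (hz ⟨g, le_normalizer hg⟩ hg)
      · intro hz g hg
        exact Subtype.ext (hz (g : G) hg)
    exact constrained_congr ((MulEquiv.subgroupCongr he).trans (subgroupOfEquivOfLe hle)).symm hC


/-- Let G be a finite group and p a prime; here a p-local subgroup means the normalizer of a nontrivial p-subgroup, other than G itself. If every p-local subgroup of G that is maximal among p-local subgroups is p-constrained, or if the centralizer of every element of order p of G is p-constrained, then every p-local subgroup of G is p-constrained. -/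
theorem result {G : Type*} [Group G] [Finite G] (p : ℕ) [hp : Fact p.Prime]
    (h : (∀ M : Subgroup G, (∃ T : Subgroup G, IsPGroup p ↥T ∧ T ≠ ⊥ ∧ M = Subgroup.normalizer (T : Set G)) → M ≠ ⊤ →
        (∀ M' : Subgroup G, (∃ T' : Subgroup G, IsPGroup p ↥T' ∧ T' ≠ ⊥ ∧ M' = Subgroup.normalizer (T' : Set G)) → M' ≠ ⊤ → M ≤ M' → M = M') →
        Cfsg.IsPConstrained p ↥M) ∨
      (∀ x : G, orderOf x = p → Cfsg.IsPConstrained p ↥(Subgroup.centralizer ({x} : Set G))))
    (T : Subgroup G) (hT : IsPGroup p ↥T) (hT1 : T ≠ ⊥) (hTG : Subgroup.normalizer (T : Set G) ≠ ⊤) :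
    Cfsg.IsPConstrained p ↥(Subgroup.normalizer (T : Set G)) := by
  exact main p h T hT hT1 hTG

end Cfsg.Agent.S3247
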