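import Cfsg.Statements.S3276
import Mathlib
-- import your own Cfsg.Agent.* helpers here

set_option autoImplicit false
open Cfsg

namespace Cfsg.Agent.S3276

/-- Let x and y be commuting, non-conjugate involutions of a finite group G, and suppose that for every involution u commuting with x, each conjugate of y that commutes with u also commutes with y. Then the normal closure of y is a proper, normal, elementary abelian 2-subgroup of G; and if y is the only involution of that normal closure commuting with x, it has order at most 4. -/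
theorem result {G : Type*} [Group G] [Finite G] (x y : G) (hx : orderOf x = 2) (hy : orderOf y = 2)
    (hxy : Commute x y) (hnc : ¬ IsConj x y)
    (hstar : ∀ u : G, orderOf u = 2 → Commute u x → ∀ g : G, Commute (g * y * g⁻¹) u → Commute (g * y * g⁻¹) y) :
    Subgroup.normalClosure ({y} : Set G) ≠ ⊤ ∧ Cfsg.IsElementaryAbelian 2 (Subgroup.normalClosure ({y} : Set G)) ∧
      ((∀ u ∈ Subgroup.normalClosure ({y} : Set G), orderOf u = 2 → Commute u x → u = y) →
        Nat.card ↥(Subgroup.normalClosure ({y} : Set G)) ≤ 4) := by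
  have : Fact (Nat.Prime 2) := ⟨Nat.prime_two⟩
  have hx2 : x * x = 1 := by rw [← pow_two, ← hx]; exact pow_orderOf_eq_one x
  have hy2 : y * y = 1 := by rw [← pow_two, ← hy]; exact pow_orderOf_eq_one y
  have hall : ∀ g : G, Commute (g * y * g⁻¹) y := by
    intro g
    set b := g * y * g⁻¹ with hb
    have hb2 : b * b = 1 := by
      rw [hb, show g * y * g⁻¹ * (g * y * g⁻¹) = g * (y * y) * g⁻¹ by group, hy2]; group
    set w := x * b with hw
    have hxw : x * w * x⁻¹ = w⁻¹ := by
      rw [inv_eq_of_mul_eq_one_right hx2, hw, mul_inv_rev, inv_eq_of_mul_eq_one_right hx2,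
        inv_eq_of_mul_eq_one_right hb2, ← mul_assoc x x b, hx2, one_mul]
    have hconj : ∀ k : ℕ, x * w ^ k * x⁻¹ = (w ^ k)⁻¹ := fun k => by
      rw [← conj_pow, hxw, inv_pow]
    have hwn : w ^ orderOf w = 1 := pow_orderOf_eq_one w
    rcases Nat.even_or_odd' (orderOf w) with ⟨m, hm | hm⟩
    · have hm0 : 0 < m := by have := orderOf_pos w; omega
      have hu2 : w ^ m * w ^ m = 1 := by rw [← pow_add, ← two_mul, ← hm, hwn]
      have hu : orderOf (w ^ m) = 2 := orderOf_eq_prime (by rw [pow_two, hu2]) (fun h => by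
        have := Nat.le_of_dvd hm0 (orderOf_dvd_iff_pow_eq_one.2 h); omega)
      have hux : Commute (w ^ m) x := by
        have h1 := hconj m
        rw [inv_eq_of_mul_eq_one_right hu2, mul_inv_eq_iff_eq_mul] at h1
        exact h1.symm
      have hub : Commute (g * y * g⁻¹) (w ^ m) := by
        have hbw : b = x * w := by rw [hw, ← mul_assoc, hx2, one_mul]
        show Commute b (w ^ m)
        rw [hbw]
        exact hux.symm.mul_left ((Commute.refl w).pow_right m)
      exact hstar _ hu hux g hub
    · exfalso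
      refine hnc (IsConj.trans (isConj_iff.2 ⟨x * (w ^ m)⁻¹, ?_⟩ : IsConj x b) (isConj_iff.2 ⟨g, rfl⟩ : IsConj y b).symm)
      have h1 : (w ^ m)⁻¹ * x * w ^ m = x * w ^ (2 * m) := by
        rw [← hconj m, inv_eq_of_mul_eq_one_right hx2]
        calc x * w ^ m * x * x * w ^ m = x * w ^ m * (x * x) * w ^ m := by group
          _ = x * w ^ (2 * m) := by rw [hx2, mul_one, mul_assoc, ← pow_add, two_mul]
      have h2 : w ^ (2 * m) = w⁻¹ := by
        refine eq_inv_of_mul_eq_one_left ?_
        rw [← pow_succ, ← hm, hwn]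
      calc x * (w ^ m)⁻¹ * x * (x * (w ^ m)⁻¹)⁻¹ = x * ((w ^ m)⁻¹ * x * w ^ m) * x⁻¹ := by group
        _ = x * (x * w⁻¹) * x⁻¹ := by rw [h1, h2]
        _ = b := by
          rw [hw, mul_inv_rev, inv_eq_of_mul_eq_one_right hx2, inv_eq_of_mul_eq_one_right hb2]
          calc x * (x * (b * x)) * x = (x * x) * b * (x * x) := by group
            _ = b := by rw [hx2, one_mul, mul_one]
  have hcomm : ∀ g k : G, Commute (g * y * g⁻¹) (k * y * k⁻¹) := fun g k => by
    have h : Commute (k⁻¹ * g * y * (k⁻¹ * g)⁻¹) y := hall _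
    have h1 := h.map (MulAut.conj k).toMonoidHom
    simpa [mul_assoc] using h1
  set V := Subgroup.normalClosure ({y} : Set G) with hV
  have hVc : ∀ a ∈ V, ∀ b ∈ V, Commute a b := by
    have hset : ∀ a ∈ Group.conjugatesOfSet ({y} : Set G), ∀ b ∈ Group.conjugatesOfSet ({y} : Set G), a * b = b * a := by
      intro a ha b hb
      obtain ⟨y', hy', ha'⟩ := Group.mem_conjugatesOfSet_iff.1 ha
      rw [Set.mem_singleton_iff.1 hy'] at ha'
      obtain ⟨y'', hy'', hb'⟩ := Group.mem_conjugatesOfSet_iff.1 hb
      rw [Set.mem_singleton_iff.1 hy''] at hb'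
      obtain ⟨g, rfl⟩ := isConj_iff.1 ha'
      obtain ⟨k, rfl⟩ := isConj_iff.1 hb'
      exact hcomm g k
    have hmc := Subgroup.isMulCommutative_closure hset
    exact fun a ha b hb => congrArg Subtype.val (hmc.is_comm.comm ⟨a, ha⟩ ⟨b, hb⟩)
  have hV2 : ∀ a ∈ V, a * a = 1 := by
    intro a ha
    induction ha using Subgroup.closure_induction with
    | mem c hc =>
      obtain ⟨y', hy', hc'⟩ := Group.mem_conjugatesOfSet_iff.1 hc
      rw [Set.mem_singleton_iff.1 hy'] at hc'
      obtain ⟨g, rfl⟩ := isConj_iff.1 hc'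
      rw [show g * y * g⁻¹ * (g * y * g⁻¹) = g * (y * y) * g⁻¹ by group, hy2]; group
    | one => exact mul_one _
    | mul c d hc hd ic id =>
      calc c * d * (c * d) = c * (d * c) * d := by group
        _ = c * (c * d) * d := by rw [(hVc c hc d hd).eq]
        _ = (c * c) * (d * d) := by group
        _ = 1 := by rw [ic, id, one_mul]
    | inv c _ ic => rw [← mul_inv_rev, ic, inv_one]
  have hyV : y ∈ V := Subgroup.subset_normalClosure rfl
  have hel : Cfsg.IsElementaryAbelian 2 V :=
    ⟨⟨⟨fun a b => Subtype.ext (hVc a a.2 b b.2)⟩⟩, fun a ha => by rw [pow_two]; exact hV2 a ha⟩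
  refine ⟨fun htop => ?_, hel, fun huniq => ?_⟩
  · have hle : Subgroup.normalClosure ({y} : Set G) ≤ Subgroup.zpowers y := by
      haveI : (Subgroup.zpowers y).Normal := ⟨fun z hz g => by
        rw [(hVc g (by rw [htop]; exact Subgroup.mem_top g) z (by rw [htop]; exact Subgroup.mem_top z)).eq, mul_inv_cancel_right]
        exact hz⟩
      exact Subgroup.normalClosure_le_normal (Set.singleton_subset_iff.2 (Subgroup.mem_zpowers y))
    obtain ⟨i, hi⟩ := hle (htop ▸ Subgroup.mem_top x)
    rcases Int.even_or_odd' i with ⟨k, rfl | rfl⟩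
    · refine absurd ?_ (show x ≠ 1 from fun h => by rw [h, orderOf_one] at hx; omega)
      rw [← hi]
      show y ^ (2 * k) = 1
      rw [zpow_mul, zpow_ofNat, pow_two, hy2, one_zpow]
    · refine hnc ?_
      rw [← hi]
      show IsConj (y ^ (2 * k + 1)) y
      rw [zpow_add, zpow_one, zpow_mul, zpow_ofNat, pow_two, hy2, one_zpow, one_mul]
  · let φ : V →* V :=
      { toFun := fun v => v * ⟨x * v * x⁻¹, Subgroup.normalClosure_normal.conj_mem _ v.2 x⟩
        map_one' := Subtype.ext (by simp)
        map_mul' := fun v w => Subtype.ext (by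
          show (v : G) * w * (x * (v * w) * x⁻¹) = v * (x * v * x⁻¹) * (w * (x * w * x⁻¹))
          have h := hVc _ (Subgroup.normalClosure_normal.conj_mem _ v.2 x) _ w.2
          calc (v : G) * w * (x * (v * w) * x⁻¹) = v * ((w : G) * (x * v * x⁻¹)) * (x * w * x⁻¹) := by group
            _ = v * ((x * v * x⁻¹) * w) * (x * w * x⁻¹) := by rw [← h.eq]
            _ = _ := by group) }
    have hfixset : ∀ v : V, Commute (v : G) x → v ∈ Subgroup.zpowers (⟨y, hyV⟩ : V) := fun v hv => by
      by_cases h1 : v = 1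
      · exact h1 ▸ one_mem _
      · have ho : orderOf (v : G) = 2 := orderOf_eq_prime (by rw [pow_two]; exact hV2 v v.2)
          (fun h => h1 (Subtype.ext h))
        have : v = ⟨y, hyV⟩ := Subtype.ext (huniq v v.2 ho hv)
        exact this ▸ Subgroup.mem_zpowers _
    have hker : φ.ker ≤ Subgroup.zpowers (⟨y, hyV⟩ : V) := fun v hv => hfixset v (by
      have h : (v : G) * (x * v * x⁻¹) = 1 := congrArg Subtype.val hv
      have h' : x * v * x⁻¹ = v := (mul_left_cancel (h.trans (hV2 v v.2).symm))
      exact (mul_inv_eq_iff_eq_mul.1 h').symm)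
    have hran : φ.range ≤ Subgroup.zpowers (⟨y, hyV⟩ : V) := by
      rintro _ ⟨v, rfl⟩
      refine hfixset _ ?_
      show (v : G) * (x * v * x⁻¹) * x = x * ((v : G) * (x * v * x⁻¹))
      rw [inv_eq_of_mul_eq_one_right hx2]
      have h : (v : G) * (x * v * x) = x * v * x * v := by
        have := (hVc _ v.2 _ (Subgroup.normalClosure_normal.conj_mem _ v.2 x)).eq
        rwa [inv_eq_of_mul_eq_one_right hx2] at this
      rw [h]
      calc x * v * x * v * x = x * (v * (x * v * x)) := by group
        _ = x * (x * v * x * v) := by rw [h]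
    have hc2 : Nat.card (Subgroup.zpowers (⟨y, hyV⟩ : V)) = 2 := by
      rw [Nat.card_zpowers, ← Subgroup.orderOf_coe, hy]
    have h1 := φ.ker.card_mul_index
    rw [Subgroup.index_ker] at h1
    rw [← h1]
    calc Nat.card φ.ker * Nat.card φ.range ≤ 2 * 2 := Nat.mul_le_mul
          (hc2 ▸ Subgroup.card_le_of_le hker) (hc2 ▸ Subgroup.card_le_of_le hran)
      _ = 4 := rfl

end Cfsg.Agent.S3276
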