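import Cfsg.Statements.S3278
import Cfsg.Agent.S4479
import Cfsg.Agent.S0111
import Cfsg.Agent.Lib.ZStar.Klein
import Cfsg.Agent.Lib.ZStar.KleinFusion
import Cfsg.Agent.Lib.Blocks.Exists

set_option autoImplicit false
open Cfsg

namespace Cfsg.Agent.S3278

open Cfsg.Lib.ZStar
open scoped Classical

variable {G : Type*} [Group G] [Finite G]

/-- Coatoms of a 2-group contain the commutator subgroup. -/
theorem commutator_le_of_isCoatom {P : Type*} [Group P] [Finite P] (hP : IsPGroup 2 P) {M : Subgroup P}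
    (hM : IsCoatom M) : commutator P ≤ M := by
  haveI : Fact (Nat.Prime 2) := ⟨Nat.prime_two⟩
  haveI := hP.isNilpotent
  haveI : M.Normal := Subgroup.NormalizerCondition.normal_of_coatom M Group.normalizerCondition_of_isNilpotent hM
  haveI : Nontrivial (P ⧸ M) := by
    refine Finite.one_lt_card_iff_nontrivial.mp ?_
    rw [← M.index_eq_card]
    have := M.index_ne_zero_of_finite
    have : M.index ≠ 1 := fun e => hM.1 (Subgroup.index_eq_one.mp e)
    omega
  obtain ⟨w, hw⟩ := exists_prime_orderOf_dvd_card' (G := P ⧸ M) 2 (by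
    obtain ⟨j, hj0, hj⟩ := (hP.to_quotient M).nontrivial_iff_card.mp inferInstance
    rw [hj]; exact dvd_pow_self 2 hj0.ne')
  have hcp : (Subgroup.zpowers w).comap (QuotientGroup.mk' M) = ⊤ := by
    refine hM.2 _ ⟨fun m hm => ?_, fun hcon => ?_⟩
    · simp [(QuotientGroup.eq_one_iff m).mpr hm]
    · obtain ⟨y, hy⟩ := QuotientGroup.mk'_surjective M w
      have hyM : y ∈ M := hcon (by simp [hy, Subgroup.mem_zpowers])
      rw [← hy, show (QuotientGroup.mk' M) y = 1 from (QuotientGroup.eq_one_iff y).mpr hyM,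
        orderOf_one] at hw
      omega
  have htop : Subgroup.zpowers w = ⊤ := by
    rw [← Subgroup.comap_top (QuotientGroup.mk' M)] at hcp
    exact Subgroup.comap_injective (QuotientGroup.mk'_surjective M) hcp
  rw [commutator_def, Subgroup.commutator_le]
  intro a _ b _
  rw [← QuotientGroup.eq_one_iff, ← QuotientGroup.mk'_apply, map_commutatorElement, commutatorElement_eq_one_iff_mul_comm]
  obtain ⟨i, hi⟩ := Subgroup.mem_zpowers_iff.mp (htop ▸ Subgroup.mem_top (QuotientGroup.mk' M a))
  obtain ⟨j, hj⟩ := Subgroup.mem_zpowers_iff.mp (htop ▸ Subgroup.mem_top (QuotientGroup.mk' M b))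
  rw [← hi, ← hj, ← zpow_add, ← zpow_add, add_comm]

/-- A 2-group with cyclic abelianization is cyclic. -/
theorem zpowers_eq_top {P : Type*} [Group P] [Finite P] (hP : IsPGroup 2 P) {g : P}
    (h : ∀ a : P, QuotientGroup.mk' (commutator P) a ∈ Subgroup.zpowers (QuotientGroup.mk' (commutator P) g)) :
    Subgroup.zpowers g = ⊤ := by
  by_contra hne
  obtain ⟨M, hM, hle⟩ := (eq_top_or_exists_le_coatom (Subgroup.zpowers g)).resolve_left hne
  refine hM.1 (eq_top_iff.mpr fun a _ => ?_)
  obtain ⟨i, hi⟩ := Subgroup.mem_zpowers_iff.mp (h a)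
  rw [← map_zpow, QuotientGroup.mk'_apply, QuotientGroup.mk'_apply, QuotientGroup.eq] at hi
  have h1 := commutator_le_of_isCoatom hP hM hi
  have h2 : g ^ i ∈ M := hle (Subgroup.zpow_mem _ (Subgroup.mem_zpowers g) i)
  simpa [mul_assoc] using M.mul_mem h2 h1

/-- In a simple group an involution whose centralizer has a normal Klein four Sylow subgroup has that as Sylow. -/
theorem sylow_eq [IsSimpleGroup G] (x : G) (hx : orderOf x = 2) (S₀ : Subgroup G)
    (h4 : Nat.card S₀ = 4) (S : Sylow 2 G) (hS0 : S₀ ≤ (S : Subgroup G)) (hxS0 : x ∈ S₀)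
    (hC : ∀ s ∈ (S : Subgroup G), s * x = x * s → s ∈ S₀)
    (h8 : ¬ 8 ∣ Nat.card (Subgroup.centralizer ({x} : Set G))) (hsq : ∀ s ∈ S₀, s * s = 1) :
    Nat.card (S : Subgroup G) = 4 := by
  haveI : Fact (Nat.Prime 2) := ⟨Nat.prime_two⟩
  by_contra hS4
  set P := ↥(S : Subgroup G)
  have hP : IsPGroup 2 P := S.isPGroup'
  have hP8 : 8 ∣ Nat.card P := by
    obtain ⟨n, hn⟩ := hP.exists_card_eq
    have h1 : 4 ≤ Nat.card P := h4 ▸ Subgroup.card_le_of_le hS0
    rw [hn] at h1 hS4 ⊢
    have : 3 ≤ n := by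
      rcases n with _ | _ | _ | n <;> simp_all
    exact pow_dvd_pow 2 this
  set X : P := ⟨x, hS0 hxS0⟩ with hX
  -- centralizers of conjugates
  have hcent : ∀ y : P, IsConj x (y : G) → ¬ 8 ∣ Nat.card (Subgroup.centralizer ({y} : Set P)) := by
    intro y hy h
    obtain ⟨c, hc⟩ := isConj_iff.mp hy
    let f : Subgroup.centralizer ({y} : Set P) →* Subgroup.centralizer ({x} : Set G) :=
      { toFun := fun a => ⟨c⁻¹ * ((a : P) : G) * c, Subgroup.mem_centralizer_singleton_iff.mpr (by
          have e : ((a : P) : G) * y = y * ((a : P) : G) :=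
            congrArg Subtype.val (Subgroup.mem_centralizer_singleton_iff.mp a.2)
          rw [← hc] at e
          calc c⁻¹ * ((a : P) : G) * c * x = c⁻¹ * (((a : P) : G) * (c * x * c⁻¹)) * c := by group
            _ = c⁻¹ * (c * x * c⁻¹ * ((a : P) : G)) * c := by rw [e]
            _ = x * (c⁻¹ * ((a : P) : G) * c) := by group)⟩
        map_one' := Subtype.ext (by simp)
        map_mul' := fun a b => Subtype.ext (by
          show c⁻¹ * (((a : P) : G) * ((b : P) : G)) * c = c⁻¹ * ((a : P) : G) * c * (c⁻¹ * ((b : P) : G) * c)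
          group) }
    have hinj : Function.Injective f := fun a b hab => by
      have e := congrArg Subtype.val hab
      exact Subtype.ext (Subtype.ext (by simpa [f] using e))
    exact h8 (h.trans (Subgroup.card_dvd_of_injective f hinj))
  obtain ⟨⟨z, hzc⟩, hz1⟩ : ∃ z : Subgroup.center P, z ≠ 1 := by
    haveI : Nontrivial P := Finite.one_lt_card_iff_nontrivial.mp (by
      have := Nat.le_of_dvd Nat.card_pos hP8; omega)
    haveI := hP.center_nontrivial
    exact exists_ne 1
  have hzc' : ∀ a : P, a * z = z * a := Subgroup.mem_center_iff.mp hzc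
  have hzS0 : (z : G) ∈ S₀ := hC _ z.2 (congrArg Subtype.val (hzc' X).symm)
  have hznc : ¬ IsConj x (z : G) := fun h => hcent z h (by
    rw [show Subgroup.centralizer ({z} : Set P) = ⊤ from eq_top_iff.mpr fun a _ =>
      Subgroup.mem_centralizer_singleton_iff.mpr (hzc' a), Subgroup.card_top]
    exact hP8)
  have hzx : z ≠ X := fun e => hznc (by rw [e])
  -- the abelianization
  set D := commutator P
  set π := QuotientGroup.mk' D with hπ
  have hcomm : ∀ a b : P, a * b * a⁻¹ * b⁻¹ ∈ D := fun a b =>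
    Subgroup.commutator_mem_commutator (Subgroup.mem_top a) (Subgroup.mem_top b)
  have hclass : ∀ y : P, IsConj x (y : G) →
      Nat.card P ≤ 4 * Nat.card (MulAction.orbit (ConjAct P) y) := by
    intro y hy
    haveI := Fintype.ofFinite P
    haveI := Fintype.ofFinite (ConjAct P)
    have h1 := MulAction.card_orbit_mul_card_stabilizer_eq_card_group (ConjAct P) y
    rw [← Nat.card_eq_fintype_card, ← Nat.card_eq_fintype_card, ← Nat.card_eq_fintype_card,
      ConjAct.stabilizer_eq_centralizer, show Nat.card (ConjAct P) = Nat.card P from rfl] at h1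
    change Nat.card (MulAction.orbit (ConjAct P) y) * Nat.card (Subgroup.centralizer ({y} : Set P)) = _ at h1
    obtain ⟨n, hn⟩ := (hP.to_subgroup (Subgroup.centralizer ({y} : Set P))).exists_card_eq
    have h2 : n ≤ 2 := by
      by_contra hn2
      exact hcent y hy (by rw [hn]; exact pow_dvd_pow 2 (show 3 ≤ n by omega))
    rw [← h1, hn, mul_comm 4]
    exact Nat.mul_le_mul_left _ (by
      calc 2 ^ n ≤ 2 ^ 2 := Nat.pow_le_pow_right (by norm_num) h2
        _ = 4 := by norm_num)
  have horb : ∀ y : P, MulAction.orbit (ConjAct P) y ⊆ {a | π a = π y} := by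
    rintro y _ ⟨a, rfl⟩
    show π (a • y) = π y
    rw [ConjAct.smul_def, hπ, QuotientGroup.mk'_apply, QuotientGroup.mk'_apply, eq_comm, QuotientGroup.eq]
    have := hcomm y⁻¹ (ConjAct.ofConjAct a)
    have e : (y⁻¹)⁻¹ = y := inv_inv y
    rw [e] at this
    simpa [mul_assoc] using this
  have hfib : ∀ y : P, Nat.card {a : P | π a = π y} = Nat.card D := fun y => by
    refine Nat.card_congr
      { toFun := fun a => ⟨y⁻¹ * (a : P), by
          have := a.2
          simp only [hπ, Set.mem_ofPred_eq, QuotientGroup.mk'_apply] at this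
          exact QuotientGroup.eq.mp this.symm⟩
        invFun := fun d => ⟨y * (d : P), by
          simp [hπ, (QuotientGroup.eq_one_iff (d : P)).mpr d.2]⟩
        left_inv := fun a => Subtype.ext (mul_inv_cancel_left _ _)
        right_inv := fun d => Subtype.ext (inv_mul_cancel_left _ _) }
  have hidx : D.index ≤ 4 := by
    have h1 := hclass X (IsConj.refl x)
    have h2 := Nat.card_mono (Set.toFinite _) (horb X)
    rw [hfib] at h2
    have h3 := D.card_mul_index
    have h4 : 0 < Nat.card D := Nat.card_pos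
    nlinarith
  have hncyc : ∀ g : P, Subgroup.zpowers g ≠ ⊤ := by
    intro g hg
    have hc : ∀ a b : P, a * b = b * a := fun a b => by
      obtain ⟨i, rfl⟩ := Subgroup.mem_zpowers_iff.mp (hg ▸ Subgroup.mem_top a)
      obtain ⟨j, rfl⟩ := Subgroup.mem_zpowers_iff.mp (hg ▸ Subgroup.mem_top b)
      rw [← zpow_add, ← zpow_add, add_comm]
    refine hcent X (IsConj.refl x) ?_
    rw [show Subgroup.centralizer ({X} : Set P) = ⊤ from eq_top_iff.mpr fun a _ =>
      Subgroup.mem_centralizer_singleton_iff.mpr (hc a X), Subgroup.card_top]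
    exact hP8
  have hord : ∀ g : P, π g ≠ 1 → orderOf (π g) = 2 ∧ D.index = 4 := by
    intro g hg
    have h1 : orderOf (π g) ∣ D.index := by rw [D.index_eq_card]; exact orderOf_dvd_natCard _
    have h2 : orderOf (π g) ≠ D.index := fun e => hncyc g (zpowers_eq_top hP fun a => by
      have : Subgroup.zpowers (π g) = ⊤ := Subgroup.eq_top_of_card_eq _ (by rw [Nat.card_zpowers, e, D.index_eq_card])
      rw [this]; exact Subgroup.mem_top _)
    have h3 : orderOf (π g) ≠ 1 := fun e => hg (orderOf_eq_one_iff.mp e)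
    have h4 := D.index_ne_zero_of_finite
    interval_cases hD : D.index
    · omega
    · exact absurd (Nat.dvd_one.mp h1) h3
    · rcases (Nat.dvd_prime Nat.prime_two).mp h1 with e | e <;> omega
    · rcases (Nat.dvd_prime Nat.prime_three).mp h1 with e | e <;> omega
    · obtain ⟨k, hk, e⟩ := (Nat.dvd_prime_pow Nat.prime_two).mp (show orderOf (π g) ∣ 2 ^ 2 from h1)
      interval_cases k <;> simp_all
  have hfull : ∀ y : P, IsConj x (y : G) → ∀ a : P, π a = π y → IsConj x (a : G) := by
    intro y hy a ha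
    have h2 := hfib y
    have hD4 : D.index = 4 := by
      by_cases hy1 : ∃ g : P, π g ≠ 1
      · exact (hord _ hy1.choose_spec).2
      · push Not at hy1
        exfalso
        refine hncyc 1 (zpowers_eq_top hP fun b => ?_)
        rw [← hπ, hy1 b]; exact one_mem _
    have h3 : Nat.card D ≤ Nat.card (MulAction.orbit (ConjAct P) y) := by
      have := hclass y hy
      have := D.card_mul_index
      rw [hD4] at this
      omega
    have heq := (Set.toFinite {a : P | π a = π y}).eq_of_subset_of_card_le (horb y) (by rw [h2]; exact h3)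
    have ha' : a ∈ MulAction.orbit (ConjAct P) y := heq ▸ ha
    obtain ⟨c, rfl⟩ := ha'
    exact hy.trans (isConj_iff.mpr ⟨((ConjAct.ofConjAct c : P) : G), rfl⟩)
  have hall : ∀ g : P, π g ≠ 1 → IsConj x (g : G) := by
    intro g hg
    obtain ⟨ho, hD4⟩ := hord g hg
    set Q := ((Subgroup.zpowers (π g)).comap π).map (S : Subgroup G).subtype
    have hQi : Q.relIndex (S : Subgroup G) = 2 := by
      rw [Subgroup.relIndex, Subgroup.subgroupOf, Subgroup.comap_map_eq_self_of_injective (Subgroup.subtype_injective _),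
        Subgroup.index_comap_of_surjective _ (QuotientGroup.mk'_surjective D)]
      have h1 := (Subgroup.zpowers (π g)).card_mul_index
      rw [Nat.card_zpowers, ho, ← D.index_eq_card, hD4] at h1
      omega
    obtain ⟨y, hyQ, hy⟩ : ∃ y : P, π y ∈ Subgroup.zpowers (π g) ∧ IsConj x (y : G) := by
      by_cases hxQ : π X ∈ Subgroup.zpowers (π g)
      · exact ⟨X, hxQ, IsConj.refl x⟩
      · rcases Cfsg.Agent.S0111.result S Q (Subgroup.map_subtype_le _) hQi x hx X.2
          (fun h => by
            obtain ⟨a, ha, e⟩ := h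
            exact hxQ (by rw [show X = a from Subtype.ext e.symm]; exact ha)) with ⟨M, hMn, hMi, -⟩ | ⟨c, hc⟩
        · exfalso
          rcases hMn.eq_bot_or_eq_top with rfl | rfl
          · rw [Subgroup.index_bot] at hMi
            have := hP8.trans (Subgroup.card_subgroup_dvd_card (S : Subgroup G))
            rw [hMi] at this
            norm_num at this
          · simp at hMi
        · obtain ⟨a, ha, e⟩ := hc
          exact ⟨a, ha, isConj_iff.mpr ⟨c, e.symm⟩⟩
    have hy1 : π y ≠ 1 := fun e => by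
      have h := hfull y hy 1 (by rw [e, map_one])
      rw [OneMemClass.coe_one, isConj_one_left] at h
      simp [h] at hx
    obtain ⟨i, hi⟩ := Subgroup.mem_zpowers_iff.mp hyQ
    refine hfull y hy g ?_
    rw [← hi]
    have hsq2 : π g ^ (2 : ℤ) = 1 := by
      have := pow_orderOf_eq_one (π g)
      rw [ho] at this
      exact_mod_cast this
    rcases Int.even_or_odd i with ⟨j, rfl⟩ | ⟨j, rfl⟩
    · exfalso
      apply hy1
      rw [← hi, ← two_mul, zpow_mul, hsq2, one_zpow]
    · rw [zpow_add_one, zpow_mul, hsq2, one_zpow, one_mul]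
  have hzD : π z = 1 := by_contra fun h => hznc (hall z h)
  have hXD : π X ≠ 1 := fun e => by
    have h := hfull X (IsConj.refl x) 1 (by rw [e, map_one])
    rw [OneMemClass.coe_one, isConj_one_left] at h
    simp [h] at hx
  obtain ⟨hoX, hD4⟩ := hord X hXD
  obtain ⟨q, hq⟩ : ∃ q : P ⧸ D, q ∉ Subgroup.zpowers (π X) := by
    by_contra h
    push Not at h
    have h1 := Subgroup.card_top (G := P ⧸ D)
    rw [← eq_top_iff.mpr (fun q _ => h q), Nat.card_zpowers, hoX, ← D.index_eq_card, hD4] at h1
    omega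
  obtain ⟨b, rfl⟩ := QuotientGroup.mk'_surjective D q
  have hinv : ∀ a : P, π a ≠ 1 → (a : G) * a = 1 := fun a ha => by
    obtain ⟨c, hc⟩ := isConj_iff.mp (hall a ha)
    have h2 : x * x = 1 := hsq x hxS0
    rw [← hc]
    calc c * x * c⁻¹ * (c * x * c⁻¹) = c * (x * x) * c⁻¹ := by group
      _ = 1 := by rw [h2]; group
  have hb : π b ≠ 1 := fun e => hq (by rw [← hπ, e]; exact one_mem _)
  have hbx : π (X * b) ≠ 1 := fun e => hq (by
    rw [map_mul, mul_eq_one_iff_inv_eq] at e
    rw [← hπ, ← e]; exact Subgroup.inv_mem _ (Subgroup.mem_zpowers _))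
  have hbS0 : (b : G) ∈ S₀ := hC _ b.2 (by
    have h1 : x * x = 1 := hsq x hxS0
    have h2 := hinv b hb
    have h3 : x * b * (x * b) = 1 := hinv (X * b) hbx
    calc (b : G) * x = x * x * (b * x) * (b * b) := by rw [h1, h2, one_mul, mul_one]
      _ = x * (x * b * (x * b)) * b := by group
      _ = x * b := by rw [h3, mul_one])
  -- the four group is `1, x, z, xz`
  have hx1 : x ≠ 1 := fun e => by simp [e] at hx
  have hK : IsKleinFour ↥S₀ := ⟨h4, by
    haveI : Nontrivial S₀ := ⟨⟨x, hxS0⟩, 1, fun e => hx1 (congrArg Subtype.val e)⟩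
    exact ((Nat.dvd_prime Nat.prime_two).mp (Monoid.exponent_dvd_of_forall_pow_eq_one
      fun a : S₀ => by rw [sq]; exact Subtype.ext (hsq a a.2))).resolve_left
      fun e => not_subsingleton S₀ (Monoid.exp_eq_one_iff.mp e)⟩
  have hz1' : (z : G) ≠ 1 := fun e => hz1 (Subtype.ext (Subtype.ext e))
  rcases klein_cases hK hxS0 hzS0 hx1 hz1' (fun e => hzx (Subtype.ext e.symm)) (b : G) hbS0 with e | e | e | e
  · exact hb (by rw [show b = 1 from Subtype.ext e, map_one])
  · exact hq (by rw [show b = X from Subtype.ext e]; exact Subgroup.mem_zpowers _)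
  · exact hb (by rw [show b = z from Subtype.ext e]; exact hzD)
  · refine hq ?_
    rw [show b = X * z from Subtype.ext e, ← hπ, map_mul, hzD, mul_one]
    exact Subgroup.mem_zpowers _

/-- Let G be a finite simple group with an involution x such that a Sylow 2-subgroup of C_G(x) is a Klein four-group which is normal in C_G(x). Then G is isomorphic to the alternating group of degree 5 (that is, to PSL(2, 5)). -/
theorem result {G : Type*} [Group G] [Finite G] [IsSimpleGroup G] (x : G) (hx : orderOf x = 2)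
    (S₀ : Subgroup G) (hle : S₀ ≤ Subgroup.centralizer ({x} : Set G)) (hK : IsKleinFour ↥S₀)
    (hodd : ¬ 2 ∣ S₀.relIndex (Subgroup.centralizer ({x} : Set G))) (hn : (S₀.subgroupOf (Subgroup.centralizer ({x} : Set G))).Normal) :
    Nonempty (G ≃* ↥(alternatingGroup (Fin 5))) := by
  haveI : Fact (Nat.Prime 2) := ⟨Nat.prime_two⟩
  haveI := Fintype.ofFinite G
  set C := Subgroup.centralizer ({x} : Set G) with hCdef
  have hsq : ∀ s ∈ S₀, s * s = 1 := fun s hs => klein_sq hK hs
  have h2C : ∀ a ∈ C, (∃ n : ℕ, a ^ 2 ^ n = 1) → a ∈ S₀ := by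
    intro a ha ⟨n, hn2⟩
    haveI := hn
    have h1 : orderOf (QuotientGroup.mk' (S₀.subgroupOf C) ⟨a, ha⟩) ∣ 2 ^ n := by
      refine (orderOf_map_dvd _ _).trans ?_
      rw [Subgroup.orderOf_mk]
      exact orderOf_dvd_of_pow_eq_one hn2
    have h2 : orderOf (QuotientGroup.mk' (S₀.subgroupOf C) ⟨a, ha⟩) ∣ S₀.relIndex C := by
      rw [Subgroup.relIndex, Subgroup.index_eq_card]; exact orderOf_dvd_natCard _
    have h3 : (2 ^ n).Coprime (S₀.relIndex C) :=
      (Nat.prime_two.coprime_iff_not_dvd.mpr hodd).pow_left n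
    have h4 := Nat.eq_one_of_dvd_coprimes h3 h1 h2
    rw [orderOf_eq_one_iff, QuotientGroup.mk'_apply, QuotientGroup.eq_one_iff] at h4
    exact h4
  have hxS0 : x ∈ S₀ := h2C x (Subgroup.mem_centralizer_singleton_iff.mpr rfl)
    ⟨1, by rw [pow_one, ← hx, pow_orderOf_eq_one]⟩
  have hx1 : x ≠ 1 := fun e => by simp [e] at hx
  have hcC : Nat.card C = 4 * S₀.relIndex C := by
    rw [← Subgroup.card_mul_index (S₀.subgroupOf C), Nat.card_congr (Subgroup.subgroupOfEquivOfLe hle).toEquiv,
      hK.card_four]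
    rfl
  have h8 : ¬ 8 ∣ Nat.card C := by
    rw [hcC]; omega
  obtain ⟨S, hS0⟩ := (IsPGroup.of_card (p := 2) (n := 2) (by rw [hK.card_four]; norm_num)).exists_le_sylow
  have hS4 : Nat.card (S : Subgroup G) = 4 := sylow_eq x hx S₀ hK.card_four S hS0 hxS0 (fun s hs hc => by
    obtain ⟨n, hn'⟩ := S.isPGroup' ⟨s, hs⟩
    exact h2C s (Subgroup.mem_centralizer_singleton_iff.mpr hc) ⟨n, by simpa using congrArg Subtype.val hn'⟩)
    h8 hsq
  have hSeq : S₀ = (S : Subgroup G) := Subgroup.eq_of_le_of_card_ge hS0 (by rw [hS4, hK.card_four])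
  subst hSeq
  -- non-abelian
  have hna : ∀ N : Subgroup G, N.Normal → N = ⊥ ∨ N = ⊤ := fun N hN => hN.eq_bot_or_eq_top
  obtain ⟨j, hj⟩ := Nat.even_or_odd' (S : Subgroup G).index
  have hodd' : Odd (S : Subgroup G).index :=
    Nat.odd_iff.2 (Nat.two_dvd_ne_zero.1 S.not_dvd_index)
  have hGcard : Nat.card G = 4 * (S : Subgroup G).index := by
    rw [← Subgroup.card_mul_index (S : Subgroup G), hS4]
  have hg1 : (S : Subgroup G).index ≠ 1 := by
    intro h1
    rcases hna (Subgroup.zpowers x) (by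
      refine ⟨fun a ha g => ?_⟩
      have hgS : g ∈ (S : Subgroup G) := by
        rw [Subgroup.index_eq_one.mp h1]; exact Subgroup.mem_top g
      have haS : a ∈ (S : Subgroup G) := Subgroup.zpowers_le.mpr hxS0 ha
      rw [klein_commute hK hgS haS, mul_inv_cancel_right]
      exact ha) with e | e
    · exact hx1 (Subgroup.zpowers_eq_bot.mp e)
    · have := congrArg (fun H : Subgroup G => Nat.card H) e
      simp only [Nat.card_zpowers, hx, Subgroup.card_top, hGcard, h1] at this
      omega
  have hnc : ¬ ∃ N : Subgroup G, N.Normal ∧ Nat.card N = (S : Subgroup G).index := by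
    rintro ⟨N, hN, hc⟩
    rcases hna N hN with rfl | rfl
    · rw [Subgroup.card_bot] at hc; exact hg1 hc.symm
    · rw [Subgroup.card_top, hGcard] at hc
      have := Subgroup.index_ne_zero_of_finite (H := (S : Subgroup G))
      omega
  have hone : ∀ s t : G, orderOf s = 2 → orderOf t = 2 → IsConj s t := klein_one_class S hK (by
    rintro ⟨N, hN, hi⟩
    refine hnc ⟨N, hN, ?_⟩
    have h1 := Subgroup.card_mul_index N
    rw [hi, hGcard] at h1
    omega)
  -- the centralizer of the four group
  have hCS : C = Subgroup.centralizer ((S : Subgroup G) : Set G) := by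
    refine le_antisymm (fun n hn' => Subgroup.mem_centralizer_iff.mpr fun a ha => ?_)
      (Subgroup.centralizer_le (Set.singleton_subset_iff.mpr hxS0))
    have hnN : n ∈ Subgroup.normalizer ((S : Subgroup G) : Set G) := by
      refine Subgroup.mem_normalizer_iff.mpr fun b => ⟨fun hb => ?_, fun hb => ?_⟩
      · exact Subgroup.mem_subgroupOf.mp (hn.conj_mem ⟨b, hle hb⟩ (Subgroup.mem_subgroupOf.mpr hb) ⟨n, hn'⟩)
      · have hbC : b ∈ C := by
          have := C.mul_mem (C.mul_mem (C.inv_mem hn') (hle hb)) hn'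
          simpa [mul_assoc] using this
        have h1 := hn.conj_mem ⟨n * b * n⁻¹, hle hb⟩ (Subgroup.mem_subgroupOf.mpr hb) ⟨n, hn'⟩⁻¹
        simpa [Subgroup.mem_subgroupOf, mul_assoc] using h1
    exact (mul_inv_eq_iff_eq_mul.mp (klein_fix S hK hnN hx hxS0
      (mul_inv_eq_iff_eq_mul.mpr (Subgroup.mem_centralizer_singleton_iff.mp hn')) ha)).symm
  -- the order formula
  obtain ⟨M, hM⟩ := Cfsg.Lib.Blocks.exists_isPModular 2
  haveI := hM.2.1.isPrime
  obtain ⟨ζ₂, ζ₃, ζ₄, ε, hε, hn2, hn3, h23, h24, h34, hB, hval, hd2, hd3, hd4, -⟩ :=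
    klein_principal hM (blockFacts G hM) S hK hone
  have hn4 : (ζ₄ : G → ℂ) ≠ fun _ => 1 := fun e => by
    have := (hval x hx).2.2
    rw [e] at this
    norm_num at this
  have hform := Cfsg.Agent.S4479.result M hM _ hodd' hGcard hnc S x hxS0 hx ζ₂ ζ₃ ζ₄ 1 ε (-1) hB
    ⟨hn2, hn3, hn4, h23, h24, h34⟩ ⟨Or.inl rfl, hε, Or.inr rfl⟩
    ⟨by simpa using (hval x hx).1, (hval x hx).2.1, by simpa using (hval x hx).2.2⟩
  rw [← hCS, ← hCdef] at hform
  have hpos : ∀ χ : Cfsg.IrrCharacter G, 0 < Cfsg.charDegree (χ : G → ℂ) := fun χ => by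
    obtain ⟨n, hn0, hn'⟩ := χ.2.exists_degree_pos
    simp [Cfsg.charDegree, hn', hn0]
  set a := Cfsg.charDegree (ζ₂ : G → ℂ)
  set b := Cfsg.charDegree (ζ₃ : G → ℂ)
  set c := Cfsg.charDegree (ζ₄ : G → ℂ)
  have ha : 1 ≤ a := hpos ζ₂
  have hb : 1 ≤ b ∧ (ε = -1 → 3 ≤ b) := ⟨hpos ζ₃, fun e => by
    have := hpos ζ₃; subst e; omega⟩
  have hc : 3 ≤ c := by have := hpos ζ₄; omega
  have hidx : C.index < 18 := by
    have hCpos : (0 : ℚ) < Nat.card C := by exact_mod_cast Nat.card_pos
    rw [← Subgroup.card_mul_index C] at hform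
    push_cast at hform
    have haq : (1 : ℚ) ≤ a := by exact_mod_cast ha
    have hbq : (1 : ℚ) ≤ b := by exact_mod_cast hb.1
    have hcq : (3 : ℚ) ≤ c := by exact_mod_cast hc
    have h1 : (a : ℚ) / (a + 1) < 1 := by rw [div_lt_one (by linarith)]; linarith
    have h2 : (b : ℚ) / (b + ε) ≤ 3 / 2 ∧ 0 ≤ (b : ℚ) / (b + ε) := by
      rcases hε with rfl | rfl
      · push_cast
        refine ⟨?_, by positivity⟩
        rw [div_le_iff₀ (by linarith)]; linarith
      · have hb3 : (3 : ℚ) ≤ b := by exact_mod_cast hb.2 rfl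
        push_cast
        refine ⟨?_, div_nonneg (by linarith) (by linarith)⟩
        rw [div_le_iff₀ (by linarith)]; linarith
    have h3 : (c : ℚ) / (c - 1) ≤ 3 / 2 ∧ 0 ≤ (c : ℚ) / (c - 1) := by
      refine ⟨?_, div_nonneg (by linarith) (by linarith)⟩
      rw [div_le_iff₀ (by linarith)]; linarith
    have h23' : (b : ℚ) / (b + ε) * ((c : ℚ) / (c - 1)) ≤ 9 / 4 := by
      calc _ ≤ (3 / 2 : ℚ) * (3 / 2) := mul_le_mul h2.1 h3.1 h3.2 (by norm_num)
        _ = _ := by norm_num
    have e : (C.index : ℚ) = 8 * ((a : ℚ) / (a + 1) * ((b : ℚ) / (b + ε) * ((c : ℚ) / (c - 1)))) := by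
      rw [div_mul_div_comm, div_mul_div_comm]
      field_simp at hform ⊢
      linear_combination hform
    have : (C.index : ℚ) < 18 := by
      rw [e]
      have hprod : 0 ≤ (b : ℚ) / (b + ε) * ((c : ℚ) / (c - 1)) := mul_nonneg h2.2 h3.2
      have ha0 : 0 < (a : ℚ) / (a + 1) := div_pos (by linarith) (by linarith)
      calc 8 * ((a : ℚ) / (a + 1) * ((b : ℚ) / (b + ε) * ((c : ℚ) / (c - 1))))
          ≤ 8 * ((a : ℚ) / (a + 1) * (9 / 4)) :=
            mul_le_mul_of_nonneg_left (mul_le_mul_of_nonneg_left h23' ha0.le) (by norm_num)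
        _ < 18 := by linarith
    exact_mod_cast this
  -- the normalizer of the four group
  haveI : IsMulCommutative (S : Subgroup G) := ⟨⟨fun u v => Subtype.ext (klein_commute hK u.2 v.2)⟩⟩
  set N := Subgroup.normalizer ((S : Subgroup G) : Set G) with hN
  have hCN : C ≤ N := by
    rw [hCS]
    exact Subgroup.centralizer_le_normalizer _
  obtain ⟨⟨y, hyS⟩, hy1, hyx⟩ : ∃ y : (S : Subgroup G), y ≠ 1 ∧ y ≠ ⟨x, hxS0⟩ := by
    by_contra h
    push Not at h
    have h1 : Nat.card (S : Subgroup G) ≤ ({1, ⟨x, hxS0⟩} : Set (S : Subgroup G)).ncard := by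
      rw [← Set.ncard_univ]
      exact Set.ncard_le_ncard (fun u _ => by
        by_cases hu : u = 1
        · exact Or.inl hu
        · exact Or.inr (h u hu))
    rw [hS4] at h1
    have := Set.ncard_insert_le (1 : (S : Subgroup G)) {⟨x, hxS0⟩}
    rw [Set.ncard_singleton] at this
    omega
  have hy1' : y ≠ 1 := fun e => hy1 (Subtype.ext e)
  have hyx' : x ≠ y := fun e => hyx (Subtype.ext e.symm)
  have hconjN : ∀ u ∈ (S : Subgroup G), u ≠ 1 → ∃ n ∈ N, n * x * n⁻¹ = u := by
    intro u hu hu1
    obtain ⟨g, hg⟩ := isConj_iff.mp (hone x u hx (klein_orderOf hK hu hu1))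
    obtain ⟨n, hn', e⟩ := S.conj_eq_normalizer_conj_of_mem x g⁻¹ hxS0 (by rw [inv_inv, hg]; exact hu)
    exact ⟨n⁻¹, N.inv_mem hn', by rw [inv_inv, ← e, inv_inv, hg]⟩
  have hrel : C.relIndex N = 3 := by
    have horbit : MulAction.orbit (N.map (ConjAct.toConjAct (G := G)).toMonoidHom) x =
        ({x, y, x * y} : Set G) := by
      ext u
      constructor
      · rintro ⟨⟨k, n, hn', rfl⟩, rfl⟩
        have hu : n * x * n⁻¹ ∈ (S : Subgroup G) := (Subgroup.mem_normalizer_iff.mp hn' x).mp hxS0
        show ConjAct.toConjAct n • x ∈ _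
        rw [ConjAct.toConjAct_smul]
        rcases klein_cases hK hxS0 hyS hx1 hy1' hyx' _ hu with e | e | e | e
        · exact absurd (conj_eq_one_iff.mp e) hx1
        · simp [e]
        · simp [e]
        · simp [e]
      · intro hu
        have hu' : u ∈ (S : Subgroup G) ∧ u ≠ 1 := by
          simp only [Set.mem_insert_iff, Set.mem_singleton_iff] at hu
          rcases hu with rfl | rfl | rfl
          · exact ⟨hxS0, hx1⟩
          · exact ⟨hyS, hy1'⟩
          · exact ⟨mul_mem hxS0 hyS, fun e => hyx' (by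
              rw [← mul_one x, ← klein_sq hK hyS, ← mul_assoc, e, one_mul])⟩
        obtain ⟨n, hn', rfl⟩ := hconjN u hu'.1 hu'.2
        exact ⟨⟨ConjAct.toConjAct n, n, hn', rfl⟩, ConjAct.toConjAct_smul n x⟩
    have h1 := MulAction.index_stabilizer (N.map (ConjAct.toConjAct (G := G)).toMonoidHom) x
    rw [horbit] at h1
    have h3 : ({x, y, x * y} : Set G).ncard = 3 := by
      rw [Set.ncard_insert_of_notMem, Set.ncard_pair]
      · intro e
        exact hx1 (by simpa using e)
      · simp only [Set.mem_insert_iff, Set.mem_singleton_iff]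
        rintro (e | e)
        · exact hyx' e
        · exact hy1' (by simpa using e)
    rw [h3] at h1
    rw [← h1, Subgroup.relIndex]
    let e := (Subgroup.equivMapOfInjective N (ConjAct.toConjAct (G := G)).toMonoidHom
      (ConjAct.toConjAct (G := G)).injective)
    rw [← Subgroup.index_comap_of_surjective
      (MulAction.stabilizer (N.map (ConjAct.toConjAct (G := G)).toMonoidHom) x) (f := e.toMonoidHom) e.surjective]
    congr 1
    ext n
    rw [Subgroup.mem_subgroupOf, Subgroup.mem_centralizer_singleton_iff, Subgroup.mem_comap,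
      MulAction.mem_stabilizer_iff]
    show _ ↔ ConjAct.toConjAct (n : G) • x = x
    rw [ConjAct.toConjAct_smul, mul_inv_eq_iff_eq_mul]
  have hNi : 3 * N.index < 18 := by
    rw [← hrel, Subgroup.relIndex_mul_index hCN]; exact hidx
  have hNtop : N ≠ ⊤ := fun e => by
    rcases hna _ (Subgroup.normalizer_eq_top_iff.mp e) with e' | e'
    · rw [e'] at hS4; simp at hS4
    · exact hg1 (by rw [e', Subgroup.index_top])
  -- the action on the cosets
  set φ := MulAction.toPermHom G (G ⧸ N)
  have hinj : Function.Injective φ := by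
    rw [← MonoidHom.ker_eq_bot_iff]
    rcases hna φ.ker inferInstance with e | e
    · exact e
    · exfalso
      refine hNtop (eq_top_iff.mpr fun g _ => ?_)
      have h1 : φ g = 1 := MonoidHom.mem_ker.mp (e ▸ Subgroup.mem_top g)
      have h2 : g • ((1 : G) : G ⧸ N) = ((1 : G) : G ⧸ N) := by
        have := congr_fun (congrArg DFunLike.coe h1) ((1 : G) : G ⧸ N)
        simpa [φ] using this
      rwa [MulAction.Quotient.smul_mk, smul_eq_mul, mul_one, eq_comm, QuotientGroup.eq, inv_one, one_mul] at h2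
  have hdvd : Nat.card G ∣ (N.index).factorial := by
    have := Subgroup.card_dvd_of_injective φ hinj
    rwa [Nat.card_perm, ← N.index_eq_card] at this
  set r := (S : Subgroup G).relIndex C
  set k := N.index with hk
  have hGeq : Nat.card G = 4 * r * (3 * k) := by
    rw [← Subgroup.card_mul_index C, ← hrel, hk, Subgroup.relIndex_mul_index hCN, hcC]
  have hr : r % 2 = 1 := Nat.two_dvd_ne_zero.mp hodd
  have hk0 : 0 < k := Nat.pos_of_ne_zero Subgroup.index_ne_zero_of_finite
  have hle5 := Nat.le_of_dvd (Nat.factorial_pos _) hdvd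
  have hk5 : k = 5 := by
    have : k ≤ 5 := by omega
    rw [hGeq] at hle5
    interval_cases k <;> simp [Nat.factorial] at hle5 ⊢ <;> omega
  rw [hk5] at hGeq hdvd
  have hr1 : r = 1 := by
    have h2 : 60 * r ∣ 60 * 2 := by
      rw [show 60 * r = Nat.card G by rw [hGeq]; ring]
      simpa [Nat.factorial] using hdvd
    rcases (Nat.dvd_prime Nat.prime_two).mp (Nat.dvd_of_mul_dvd_mul_left (by norm_num) h2) with e | e <;> omega
  have hG60 : Nat.card G = 60 := by rw [hGeq, hr1]
  let e := Finite.equivFinOfCardEq (show Nat.card (G ⧸ N) = 5 by rw [← N.index_eq_card]; exact hk5)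
  let ψ : G →* Equiv.Perm (Fin 5) := (Equiv.permCongrHom e).toMonoidHom.comp φ
  have hψ : Function.Injective ψ := (Equiv.permCongrHom e).injective.comp hinj
  have hrange : ψ.range = alternatingGroup (Fin 5) := by
    refine Equiv.Perm.eq_alternatingGroup_of_index_eq_two ?_
    have h1 := ψ.range.card_mul_index
    rw [← Nat.card_congr (MonoidHom.ofInjective hψ).toEquiv, hG60, Nat.card_perm, Nat.card_fin] at h1
    norm_num [Nat.factorial] at h1
    omega
  exact ⟨(MonoidHom.ofInjective hψ).trans (MulEquiv.subgroupCongr hrange)⟩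

end Cfsg.Agent.S3278
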