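import Cfsg.Statements.S3279
import Cfsg.Agent.Lib.ZStar.RankOne
import Cfsg.Agent.Lib.Transfer.Basic
import Cfsg.Agent.Lib.TwoFus.ThreeInvolutions
import Cfsg.Agent.S0111

set_option autoImplicit false
open Cfsg

namespace Cfsg.Agent.S3279

theorem no_isolated {G : Type*} [Group G] [Finite G] [IsSimpleGroup G] (hna : ¬ ∀ a b : G, a * b = b * a)
    {z : G} : ¬ Cfsg.IsIsolatedInvolution z := by
  intro hz
  have hO : Cfsg.oddCore G = ⊥ := by
    haveI : (Cfsg.oddCore G).Normal := Cfsg.Lib.Transfer.pPrimeCore_normal (G := G) 2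
    rcases Subgroup.Normal.eq_bot_or_eq_top (H := Cfsg.oddCore G) inferInstance with h | h
    · exact h
    · exfalso
      haveI := Fact.mk Nat.prime_two
      have hodd : (Nat.card ↥(Cfsg.oddCore G)).Coprime 2 := Cfsg.Lib.Transfer.coprime_card_pPrimeCore (G := G) 2
      rw [h, Subgroup.card_top, Nat.coprime_two_right] at hodd
      exact (Nat.not_even_iff_odd.2 hodd) (even_iff_two_dvd.2 (hz.1 ▸ orderOf_dvd_natCard z))
  have hzc : z ∈ Subgroup.center G := Subgroup.mem_center_iff.2 fun g => by
    have := Cfsg.Lib.ZStar.zstar hz g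
    rw [hO, Subgroup.mem_bot, mul_inv_eq_one, mul_inv_eq_iff_eq_mul] at this
    exact this.symm
  rcases Subgroup.Normal.eq_bot_or_eq_top (H := Subgroup.center G) inferInstance with h | h
  · rw [h, Subgroup.mem_bot] at hzc
    have := hz.1
    rw [hzc, orderOf_one] at this
    exact absurd this (by norm_num)
  · exact hna fun a b => (Subgroup.mem_center_iff.1 (h ▸ Subgroup.mem_top a : a ∈ Subgroup.center G) b).symm

theorem sq_of_orderOf {G : Type*} [Group G] {u : G} (hu : orderOf u = 2) : u * u = 1 ∧ u ≠ 1 :=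
  ⟨by rw [← sq, ← hu, pow_orderOf_eq_one], fun e => by rw [e, orderOf_one] at hu; norm_num at hu⟩

theorem orderOf_of_sq {G : Type*} [Group G] {u : G} (h : u * u = 1) (h1 : u ≠ 1) : orderOf u = 2 :=
  orderOf_eq_prime (by rw [sq]; exact h) h1

theorem orderOf_conj {G : Type*} [Group G] (g u : G) : orderOf (g * u * g⁻¹) = orderOf u :=
  orderOf_injective (MulAut.conj g).toMonoidHom (MulAut.conj g).injective u

theorem main {G : Type*} [Group G] [Finite G] [IsSimpleGroup G] (hna : ¬ ∀ a b : G, a * b = b * a)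
    (x : G) (hx : orderOf x = 2)
    (h3 : Nat.card {u : ↥(Subgroup.centralizer ({x} : Set G)) // orderOf u = 2} ≤ 3) :
    (∃ S : Sylow 2 G, (S : Subgroup G) ≤ Subgroup.centralizer ({x} : Set G)) ∧
      ∀ u v : G, orderOf u = 2 → orderOf v = 2 → IsConj u v := by
  classical
  haveI := Fact.mk Nat.prime_two
  set C := Subgroup.centralizer ({x} : Set G) with hC
  have hxinv : x⁻¹ = x := inv_eq_of_mul_eq_one_right (sq_of_orderOf hx).1
  have hCmem : ∀ u, u ∈ C ↔ u * x = x * u := fun u => Subgroup.mem_centralizer_singleton_iff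
  -- a commuting conjugate of `x`
  obtain ⟨g₀, hg₀, hg₀'⟩ : ∃ g, Commute x (g * x * g⁻¹) ∧ g * x * g⁻¹ ≠ x := by
    by_contra hc
    push Not at hc
    exact no_isolated hna (z := x) ⟨hx, hc⟩
  set a := g₀ * x * g₀⁻¹ with ha
  have hao : orderOf a = 2 := (orderOf_conj g₀ x).trans hx
  have hxa : x * a ≠ 1 := fun e => hg₀' (by rw [← hxinv]; exact (inv_eq_of_mul_eq_one_right e).symm)
  have hxao : orderOf (x * a) = 2 := orderOf_of_sq (by
    calc x * a * (x * a) = x * (a * x) * a := by group
      _ = (x * x) * (a * a) := by rw [← hg₀.eq]; group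
      _ = 1 := by rw [(sq_of_orderOf hx).1, (sq_of_orderOf hao).1, one_mul]) hxa
  have hne1 : x * a ≠ x := fun e => (sq_of_orderOf hao).2 (mul_left_cancel (e.trans (mul_one x).symm))
  have hne2 : x * a ≠ a := fun e => (sq_of_orderOf hx).2 (mul_right_cancel (e.trans (one_mul a).symm))
  have hV : ∀ u, orderOf u = 2 → u * x = x * u → u = x ∨ u = a ∨ u = x * a := by
    intro u hu hux
    by_contra hc
    push Not at hc
    have hx' : x ∈ C := (hCmem x).2 rfl
    have ha' : a ∈ C := (hCmem a).2 hg₀.eq.symm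
    let f : Fin 4 → {u : ↥C // orderOf u = 2} :=
      ![⟨⟨x, hx'⟩, by rw [Subgroup.orderOf_mk]; exact hx⟩, ⟨⟨a, ha'⟩, by rw [Subgroup.orderOf_mk]; exact hao⟩,
        ⟨⟨x * a, C.mul_mem hx' ha'⟩, by rw [Subgroup.orderOf_mk]; exact hxao⟩,
        ⟨⟨u, (hCmem u).2 hux⟩, by rw [Subgroup.orderOf_mk]; exact hu⟩]
    have hf : Function.Injective f := by
      have hf' : Function.Injective (fun i => ((f i).1 : G)) := by
        intro i j hij
        fin_cases i <;> fin_cases j <;> simp [f] at hij ⊢ <;>
          first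
            | exact hg₀' hij
            | exact hg₀' hij.symm
            | exact hne1 hij
            | exact hne1 hij.symm
            | exact hne2 hij
            | exact hne2 hij.symm
            | exact hc.1 hij
            | exact hc.1 hij.symm
            | exact hc.2.1 hij
            | exact hc.2.1 hij.symm
            | exact hc.2.2 hij
            | exact hc.2.2 hij.symm
            | exact (sq_of_orderOf hx).2 hij
            | exact (sq_of_orderOf hao).2 hij
      exact fun i j e => hf' (congrArg (fun z => (z.1 : G)) e)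
    have := Nat.card_le_card_of_injective f hf
    rw [Nat.card_eq_fintype_card, Fintype.card_fin] at this
    omega
  -- a Sylow subgroup through a Sylow subgroup of the centralizer
  obtain ⟨T0⟩ : Nonempty (Sylow 2 C) := inferInstance
  obtain ⟨S, hS⟩ := (T0.isPGroup'.map C.subtype).exists_le_sylow
  have hmaxC : ∀ K : Subgroup G, IsPGroup 2 K → K ≤ C →
      Nat.card K ≤ Nat.card ((S : Subgroup G) ⊓ C : Subgroup G) := by
    intro K hK hKC
    obtain ⟨R, hR⟩ := (hK.comap_of_injective C.subtype C.subtype_injective).exists_le_sylow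
    have h1 : Nat.card (R : Subgroup C) = Nat.card (T0 : Subgroup C) := Nat.card_congr (Sylow.equiv R T0).toEquiv
    calc Nat.card K = Nat.card (K.comap C.subtype) := (Nat.card_congr (Subgroup.subgroupOfEquivOfLe hKC).toEquiv).symm
      _ ≤ Nat.card (R : Subgroup C) := Subgroup.card_le_of_le hR
      _ = Nat.card ((T0 : Subgroup C).map C.subtype) := by
          rw [h1, Subgroup.card_map_of_injective C.subtype_injective]
      _ ≤ _ := Subgroup.card_le_of_le (le_inf hS (Subgroup.map_subtype_le _))
  -- conjugating centralizers into that of `x`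
  have hmove : ∀ (g : G) (K : Subgroup G), IsPGroup 2 K → (∀ k ∈ K, k * (g * x * g⁻¹) = g * x * g⁻¹ * k) →
      Nat.card K ≤ Nat.card ((S : Subgroup G) ⊓ C : Subgroup G) := by
    intro g K hK hKc
    have hinj : Function.Injective ((MulAut.conj g⁻¹).toMonoidHom) := (MulAut.conj g⁻¹).injective
    rw [← Subgroup.card_map_of_injective (K := K) hinj]
    refine hmaxC _ (hK.map _) ?_
    rintro _ ⟨k, hk, rfl⟩
    rw [hCmem]
    show g⁻¹ * k * g⁻¹⁻¹ * x = x * (g⁻¹ * k * g⁻¹⁻¹)
    calc g⁻¹ * k * g⁻¹⁻¹ * x = g⁻¹ * (k * (g * x * g⁻¹)) * g := by group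
      _ = g⁻¹ * (g * x * g⁻¹ * k) * g := by rw [hKc k hk]
      _ = _ := by group
  have hxS : x ∈ (S : Subgroup G) := by
    apply hS
    haveI : (Subgroup.zpowers (⟨x, (hCmem x).2 rfl⟩ : C)).Normal := ⟨fun n hn g => by
      obtain ⟨k, rfl⟩ := hn
      have hc1 : Commute g (⟨x, (hCmem x).2 rfl⟩ : C) := Subtype.ext ((hCmem g).1 g.2)
      rw [(hc1.zpow_right k).eq, mul_inv_cancel_right]
      exact Subgroup.zpow_mem _ (Subgroup.mem_zpowers _) k⟩
    refine ⟨⟨x, (hCmem x).2 rfl⟩, ?_, rfl⟩
    have hp : IsPGroup 2 (Subgroup.zpowers (⟨x, (hCmem x).2 rfl⟩ : C)) :=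
      IsPGroup.of_card (n := 1) (by rw [Nat.card_zpowers, Subgroup.orderOf_mk, hx, pow_one])
    exact Cfsg.Lib.Transfer.pCore_le_sylow (p := 2) T0
      (Cfsg.Lib.Transfer.le_pCore (p := 2) inferInstance hp (Subgroup.mem_zpowers _))
  by_cases hcen : ∀ s ∈ (S : Subgroup G), s * x = x * s
  · -- `x` is central in `S`
    refine ⟨⟨S, fun s hs => (hCmem s).2 (hcen s hs)⟩, ?_⟩
    have hxac : IsConj x a := isConj_iff.2 ⟨g₀, rfl⟩
    have hinS : ∀ u, orderOf u = 2 → ∃ g, g * u * g⁻¹ = x ∨ g * u * g⁻¹ = a ∨ g * u * g⁻¹ = x * a := by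
      intro u hu
      obtain ⟨R, hR⟩ := (IsPGroup.of_card (n := 1) (G := Subgroup.zpowers u)
        (by rw [Nat.card_zpowers, hu, pow_one])).exists_le_sylow
      obtain ⟨g, hg⟩ := MulAction.exists_smul_eq G R S
      have hmem : g * u * g⁻¹ ∈ (S : Subgroup G) := by
        rw [← hg, Sylow.coe_subgroup_smul]
        exact ⟨u, hR (Subgroup.mem_zpowers u), rfl⟩
      exact ⟨g, hV _ ((orderOf_conj g u).trans hu) (hcen _ hmem)⟩
    have hb : IsConj x (x * a) := by
      by_contra hb
      obtain ⟨g, hg⟩ : ∃ g : G, Commute (x * a) (g * (x * a) * g⁻¹) ∧ g * (x * a) * g⁻¹ ≠ x * a := by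
        by_contra hc
        push Not at hc
        exact no_isolated hna (z := x * a) ⟨hxao, hc⟩
      obtain ⟨k, hk⟩ := hinS _ ((orderOf_conj g (x * a)).trans hxao)
      -- the conjugates of `x * a` in the four group
      obtain ⟨R, hR⟩ := hinS (x * a) hxao
      have hiso : ∀ g : G, g * (x * a) * g⁻¹ ∈ (S : Subgroup G) → g * (x * a) * g⁻¹ = x * a := by
        intro g hg
        rcases hV _ ((orderOf_conj g (x * a)).trans hxao) (hcen _ hg) with e | e | e
        · exact absurd (isConj_iff.2 ⟨g, e⟩).symm hb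
        · exact absurd (hxac.trans (isConj_iff.2 ⟨g, e⟩).symm) hb
        · exact e
      by_cases hmem : x * a ∈ (S : Subgroup G)
      · exact no_isolated hna (Cfsg.Lib.ZStar.isolated_of_sylow S (x * a) hxao hmem hiso)
      · rcases hR with e | e | e
        · exact hb (isConj_iff.2 ⟨R, e⟩).symm
        · exact hb (hxac.trans (isConj_iff.2 ⟨R, e⟩).symm)
        · exact hmem (by
            obtain ⟨Q, hQ⟩ := (IsPGroup.of_card (n := 1) (G := Subgroup.zpowers (x * a))
              (by rw [Nat.card_zpowers, hxao, pow_one])).exists_le_sylow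
            obtain ⟨l, hl⟩ := MulAction.exists_smul_eq G Q S
            have hm : l * (x * a) * l⁻¹ ∈ (S : Subgroup G) := by
              rw [← hl, Sylow.coe_subgroup_smul]
              exact ⟨x * a, hQ (Subgroup.mem_zpowers _), rfl⟩
            rw [← hiso l hm]; exact hm)
    have hall : ∀ u, orderOf u = 2 → IsConj x u := by
      intro u hu
      obtain ⟨g, e | e | e⟩ := hinS u hu
      · exact (isConj_iff.2 ⟨g, e⟩).symm
      · exact hxac.trans (isConj_iff.2 ⟨g, e⟩).symm
      · exact hb.trans (isConj_iff.2 ⟨g, e⟩).symm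
    exact fun u v hu hv => (hall u hu).symm.trans (hall v hv)
  · exfalso
    -- the central involution
    haveI : Nontrivial (S : Subgroup G) :=
      (Subgroup.nontrivial_iff_exists_ne_one _).2 ⟨x, hxS, (sq_of_orderOf hx).2⟩
    have hnt : Nontrivial (Subgroup.center (S : Subgroup G)) := S.isPGroup'.center_nontrivial
    obtain ⟨n, hn, hn'⟩ := (S.isPGroup'.to_subgroup (Subgroup.center (S : Subgroup G))).nontrivial_iff_card.1 hnt
    obtain ⟨w', hw'⟩ := exists_prime_orderOf_dvd_card' 2
      (show 2 ∣ Nat.card (Subgroup.center (S : Subgroup G)) by rw [hn']; exact dvd_pow_self 2 hn.ne')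
    set w : G := ((w' : (S : Subgroup G)) : G) with hwdef
    have hwo : orderOf w = 2 := by rw [hwdef, Subgroup.orderOf_coe, Subgroup.orderOf_coe, hw']
    have hwS : w ∈ (S : Subgroup G) := (w' : (S : Subgroup G)).2
    have hwc : ∀ s ∈ (S : Subgroup G), s * w = w * s := fun s hs =>
      congrArg Subtype.val (Subgroup.mem_center_iff.1 w'.2 ⟨s, hs⟩)
    have hxw : x ≠ w := fun e => hcen fun s hs => by rw [e]; exact hwc s hs
    -- `w` is not conjugate to `x`
    have hwnc : ∀ g : G, g * x * g⁻¹ ≠ w := fun g e => by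
      have h1 := hmove g S S.isPGroup' fun k hk => by rw [e]; exact hwc k hk
      refine hcen fun s hs => (hCmem s).1 ?_
      rw [← Subgroup.eq_of_le_of_card_ge inf_le_left h1] at hs
      exact hs.2
    have hw2 := sq_of_orderOf hwo
    have hinv : ∀ u, u * u = 1 → u ≠ 1 → u * x = x * u → u = x ∨ u = w ∨ u = x * w := by
      intro u hu hu1 hux
      rcases hV u (orderOf_of_sq hu hu1) hux with e | e | e
      · exact Or.inl e
      all_goals rcases hV w hwo (hwc x hxS).symm with f | f | f
      · exact absurd f hxw.symm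
      · exact Or.inr (Or.inl (e.trans f.symm))
      · exact Or.inr (Or.inr (by rw [f, ← mul_assoc, (sq_of_orderOf hx).1, one_mul]; exact e))
      · exact absurd f hxw.symm
      · exact Or.inr (Or.inr (by rw [f]; exact e))
      · exact Or.inr (Or.inl (e.trans f.symm))
    have hThree : Cfsg.Lib.TwoFus.ThreeInvolutions.Three (⟨x, hxS⟩ : (S : Subgroup G)) ⟨w, hwS⟩ :=
      { hx := Subtype.ext (sq_of_orderOf hx).1
        hx1 := fun e => (sq_of_orderOf hx).2 (congrArg Subtype.val e)
        hw := Subtype.ext hw2.1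
        hw1 := fun e => hw2.2 (congrArg Subtype.val e)
        hxw := fun e => hxw (congrArg Subtype.val e)
        hcen := fun s => Subtype.ext (hwc s s.2)
        hinv := fun u hu hu1 hux => by
          rcases hinv u (congrArg Subtype.val hu) (fun e => hu1 (Subtype.ext e))
            (congrArg Subtype.val hux).symm with e | e | e
          · exact Or.inl (Subtype.ext e)
          · exact Or.inr (Or.inl (Subtype.ext e))
          · exact Or.inr (Or.inr (Subtype.ext e)) }
    have hncS : ¬ ∀ s : (S : Subgroup G), s * ⟨x, hxS⟩ = ⟨x, hxS⟩ * s := fun hh =>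
      hcen fun s hs => congrArg Subtype.val (hh ⟨s, hs⟩)
    have htransfer : ∀ M : Subgroup (S : Subgroup G), M.index = 2 → ⟨x, hxS⟩ ∉ M →
        ∃ g : G, ∃ u ∈ M, (u : G) = g * x * g⁻¹ := by
      intro M hM hxM
      have hrel : (M.map (S : Subgroup G).subtype).relIndex (S : Subgroup G) = 2 := by
        rw [Subgroup.relIndex, Subgroup.subgroupOf,
          Subgroup.comap_map_eq_self_of_injective (S : Subgroup G).subtype_injective, hM]
      rcases Cfsg.Agent.S0111.result S (M.map (S : Subgroup G).subtype) (Subgroup.map_subtype_le M) hrel x hx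
        hxS (fun h => by
          obtain ⟨u, hu, hue⟩ := h
          exact hxM (by rwa [show (⟨x, hxS⟩ : (S : Subgroup G)) = u from Subtype.ext hue.symm])) with
        ⟨N, hNn, hNi, -⟩ | ⟨g, hg⟩
      · exfalso
        rcases hNn.eq_bot_or_eq_top with rfl | rfl
        · rw [Subgroup.index_bot] at hNi
          haveI : IsCyclic G := isCyclic_of_prime_card (p := 2) hNi
          exact hna fun a b => (IsCyclic.commGroup (α := G)).mul_comm a b
        · rw [Subgroup.index_top] at hNi; omega
      · obtain ⟨u, hu, hue⟩ := hg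
        exact ⟨g, u, hu, hue⟩
    set T := (S : Subgroup G) ⊓ C with hT
    have hcardT : Nat.card T = Nat.card (Subgroup.centralizer ({⟨x, hxS⟩} : Set (S : Subgroup G))) := by
      refine Nat.card_congr ⟨fun t => ⟨⟨t.1, t.2.1⟩, Subgroup.mem_centralizer_singleton_iff.2
          (Subtype.ext ((hCmem t.1).1 t.2.2))⟩,
        fun t => ⟨t.1.1, t.1.2, (hCmem _).2 (congrArg Subtype.val (Subgroup.mem_centralizer_singleton_iff.1 t.2))⟩,
        fun t => rfl, fun t => rfl⟩
    by_cases h4 : Nat.card (Subgroup.centralizer ({⟨x, hxS⟩} : Set (S : Subgroup G))) ≤ 4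
    · obtain ⟨M, hM, hMu⟩ := Cfsg.Lib.TwoFus.ThreeInvolutions.exists_cyclic_of_card_four hThree S.isPGroup' hncS h4
      obtain ⟨g, u, huM, hug⟩ := htransfer M hM fun hxM =>
        hxw (congrArg Subtype.val (hMu _ hxM hThree.hx hThree.hx1))
      have hu2 := sq_of_orderOf ((orderOf_conj g x).trans hx)
      exact hwnc g (hug.symm.trans (congrArg Subtype.val (hMu u huM (Subtype.ext (by rw [Subgroup.coe_mul, hug]; exact hu2.1))
        (fun e => hu2.2 (hug.symm.trans (congrArg Subtype.val e))))))
    push Not at h4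
    by_cases horb : ∀ s ∈ (S : Subgroup G), s * x * s⁻¹ = x ∨ s * x * s⁻¹ = x * w
    · -- `w` is isolated
      have hprod : ∀ s ∈ (S : Subgroup G), ∀ s' ∈ (S : Subgroup G), s * x * s⁻¹ = x * w → s' * x * s'⁻¹ = x * w →
          s * s' ∈ C := by
        intro s hs s' hs' e e'
        rw [hCmem, ← mul_inv_eq_iff_eq_mul, mul_inv_rev]
        calc s * s' * x * (s'⁻¹ * s⁻¹) = s * (s' * x * s'⁻¹) * s⁻¹ := by group
          _ = (s * x * s⁻¹) * (s * w * s⁻¹) := by rw [e']; group
          _ = x := by rw [e, hwc s hs, mul_inv_cancel_right, mul_assoc, hw2.1, mul_one]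
      have hsqT : ∀ s ∈ (S : Subgroup G), s * s ∈ C := fun s hs => by
        rcases horb s hs with e | e
        · exact C.mul_mem ((hCmem s).2 (mul_inv_eq_iff_eq_mul.1 e)) ((hCmem s).2 (mul_inv_eq_iff_eq_mul.1 e))
        · exact hprod s hs s hs e e
      refine no_isolated hna (Cfsg.Lib.ZStar.isolated_of_sylow S w hwo hwS fun g₁ hg₁ => ?_)
      set u := g₁ * w * g₁⁻¹ with hu
      have huo : orderOf u = 2 := (orderOf_conj g₁ w).trans hwo
      by_contra huw
      have hu2 := sq_of_orderOf huo
      have hwnx : ∀ g : G, g * w * g⁻¹ ≠ x := fun g e => hwnc g⁻¹ (by rw [← e]; group)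
      have hwnxw : ∀ g : G, g * w * g⁻¹ ≠ x * w := by
        obtain ⟨s, hs, hsx⟩ : ∃ s ∈ (S : Subgroup G), s * x * s⁻¹ = x * w := by
          by_contra hc
          exact hcen fun s hs => mul_inv_eq_iff_eq_mul.1 ((horb s hs).resolve_right fun e => hc ⟨s, hs, e⟩)
        intro g e
        refine hwnx (s⁻¹ * g) ?_
        calc s⁻¹ * g * w * (s⁻¹ * g)⁻¹ = s⁻¹ * (g * w * g⁻¹) * s := by group
          _ = s⁻¹ * (s * x * s⁻¹) * s := by rw [e, hsx]
          _ = x := by group
      -- a conjugate of `w` in `C ∩ S` is `w`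
      have hwin : ∀ g : G, g * w * g⁻¹ ∈ C → g * w * g⁻¹ = w := fun g hg => by
        have h2 := sq_of_orderOf ((orderOf_conj g w).trans hwo)
        rcases hinv _ h2.1 h2.2 ((hCmem _).1 hg) with e | e | e
        · exact absurd e (hwnx g)
        · exact e
        · exact absurd e (hwnxw g)
      have huC : u ∉ C := fun h => huw (hwin g₁ h)
      have hux : u * x * u⁻¹ = x * w :=
        (horb u hg₁).resolve_left fun e => huC ((hCmem u).2 (mul_inv_eq_iff_eq_mul.1 e))
      have huinv : u⁻¹ = u := inv_eq_of_mul_eq_one_right hu2.1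
      have huw' : u * w * u⁻¹ = w := by rw [hwc u hg₁, mul_inv_cancel_right]
      -- an element of `C(u) ∩ S ∩ C` not in `⟨w⟩` gives a contradiction
      have hsq : ∀ t ∈ T, u * t = t * u → t ≠ 1 → t = w := by
        intro t ht hut ht1
        by_contra htw
        have hsmall : ∀ y ∈ T, u * y = y * u → y * y = 1 → y ≠ 1 → y = w := by
          intro y hy huy hy2 hy1
          rcases hinv y hy2 hy1 ((hCmem y).1 hy.2) with e | e | e
          · exact absurd ((hCmem u).2 (e ▸ huy)) huC
          · exact e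
          · exfalso
            apply huC
            rw [hCmem]
            rw [e, ← mul_assoc] at huy
            have : u * x * w = x * u * w := by rw [huy, mul_assoc, ← hwc u hg₁]; group
            exact mul_right_cancel this
        obtain ⟨k, hk⟩ := S.isPGroup' ⟨t, ht.1⟩
        have hk' : t ^ 2 ^ k = 1 := by simpa using congrArg Subtype.val hk
        clear hk
        have key : ∀ k : ℕ, ∀ t ∈ T, u * t = t * u → t ^ 2 ^ k = 1 → t ≠ 1 → t ≠ w →
            ∃ c ∈ T, u * c = c * u ∧ c * c = w := by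
          intro k
          induction k with
          | zero => intro t _ _ h1 h2 _; exact absurd (by simpa using h1) h2
          | succ k ih =>
            intro t ht hut htk ht1 htw
            by_cases h1 : t * t = 1
            · exact absurd (hsmall t ht hut h1 ht1) htw
            by_cases h2 : t * t = w
            · exact ⟨t, ht, hut, h2⟩
            · exact ih (t * t) (T.mul_mem ht ht) ((show Commute u t from hut).mul_right hut).eq
                (by rwa [← sq, ← pow_mul, ← pow_succ']) h1 h2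
        obtain ⟨c, hc, huc, hc2⟩ := key k t ht hut hk' ht1 htw
        -- move `u` to `w` with `c` into `S`
        set K := ((S : Subgroup G) ⊓ Subgroup.centralizer ({u} : Set G)).map (MulAut.conj g₁⁻¹).toMonoidHom
          with hK
        set Cw := Subgroup.centralizer ({w} : Set G) with hCw
        have hKC : K ≤ Cw := by
          rintro _ ⟨s, hs, rfl⟩
          rw [hCw, Subgroup.mem_centralizer_singleton_iff]
          show g₁⁻¹ * s * g₁⁻¹⁻¹ * w = w * (g₁⁻¹ * s * g₁⁻¹⁻¹)
          calc g₁⁻¹ * s * g₁⁻¹⁻¹ * w = g₁⁻¹ * (s * u) * g₁ := by rw [hu]; group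
            _ = g₁⁻¹ * (u * s) * g₁ := by rw [Subgroup.mem_centralizer_singleton_iff.1 hs.2]
            _ = _ := by rw [hu]; group
        have hSC : (S : Subgroup G) ≤ Cw := fun s hs =>
          Subgroup.mem_centralizer_singleton_iff.2 (hwc s hs)
        obtain ⟨R, hR⟩ := ((((S.isPGroup'.to_le inf_le_left).map _) : IsPGroup 2 K).comap_of_injective
          Cw.subtype Cw.subtype_injective).exists_le_sylow
        obtain ⟨h, hh⟩ := MulAction.exists_smul_eq Cw R (S.subtype hSC)
        have hin : ∀ s ∈ (S : Subgroup G), u * s = s * u →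
            ((h : G) * g₁⁻¹) * s * ((h : G) * g₁⁻¹)⁻¹ ∈ (S : Subgroup G) := by
          intro s hs hus
          have hk : g₁⁻¹ * s * g₁⁻¹⁻¹ ∈ K :=
            ⟨s, ⟨hs, Subgroup.mem_centralizer_singleton_iff.2 hus.symm⟩, rfl⟩
          have : h * ⟨g₁⁻¹ * s * g₁⁻¹⁻¹, hKC hk⟩ * h⁻¹ ∈ ((S.subtype hSC : Sylow 2 Cw) : Subgroup Cw) := by
            rw [← hh, Sylow.coe_subgroup_smul]
            exact ⟨⟨_, hKC hk⟩, hR hk, rfl⟩
          rw [Sylow.coe_subtype] at this
          have h2 : (h : G) * (g₁⁻¹ * s * g₁⁻¹⁻¹) * (h : G)⁻¹ ∈ (S : Subgroup G) := this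
          simpa [mul_assoc] using h2
        set g := (h : G) * g₁⁻¹ with hg
        have hgu : g * u * g⁻¹ = w := by
          have hhw : (h : G) * w = w * h := Subgroup.mem_centralizer_singleton_iff.1 h.2
          calc g * u * g⁻¹ = (h : G) * w * (h : G)⁻¹ := by rw [hg, hu]; group
            _ = w := by rw [hhw, mul_inv_cancel_right]
        have hgw : g * w * g⁻¹ = w := hwin g (by
          rw [← hc2, show g * (c * c) * g⁻¹ = (g * c * g⁻¹) * (g * c * g⁻¹) by group]
          exact hsqT _ (hin c hc.1 huc))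
        exact huw (mul_left_cancel (mul_right_cancel (hgu.trans hgw.symm)))
      -- hence `C ∩ S` is the four group
      have hTV : ∀ t ∈ T, t = 1 ∨ t = x ∨ t = w ∨ t = x * w := by
        by_contra hc
        push Not at hc
        obtain ⟨t₀, ht₀, hne⟩ := hc
        -- some `t` outside with coset fixed by `u`
        have hVsq : ∀ t : (S : Subgroup G), ¬ Cfsg.Lib.TwoFus.ThreeInvolutions.InV ⟨x, hxS⟩ ⟨w, hwS⟩ t →
            (t : G) ≠ 1 ∧ (t : G) ≠ x ∧ (t : G) ≠ w ∧ (t : G) ≠ x * w := fun t h =>
          ⟨fun e => h (Or.inl (Subtype.ext e)), fun e => h (Or.inr (Or.inl (Subtype.ext e))),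
            fun e => h (Or.inr (Or.inr (Or.inl (Subtype.ext e)))),
            fun e => h (Or.inr (Or.inr (Or.inr (Subtype.ext e))))⟩
        have hnV : ¬ Cfsg.Lib.TwoFus.ThreeInvolutions.InV ⟨x, hxS⟩ ⟨w, hwS⟩ (⟨t₀, ht₀.1⟩ : (S : Subgroup G)) := by
          rintro (e | e | e | e)
          exacts [hne.1 (congrArg Subtype.val e), hne.2.1 (congrArg Subtype.val e),
            hne.2.2.1 (congrArg Subtype.val e), hne.2.2.2 (congrArg Subtype.val e)]
        have huT : ∀ t ∈ T, u * t * u⁻¹ ∈ T := by
          intro t ht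
          refine ⟨(S : Subgroup G).mul_mem ((S : Subgroup G).mul_mem hg₁ ht.1) ((S : Subgroup G).inv_mem hg₁), ?_⟩
          show _ ∈ C
          rw [hCmem, ← mul_inv_eq_iff_eq_mul]
          have e1 : u * x * u = x * w := by rw [← hux, huinv]
          calc u * t * u⁻¹ * x * (u * t * u⁻¹)⁻¹ = u * (t * (u⁻¹ * x * u) * t⁻¹) * u⁻¹ := by group
            _ = u * (x * w) * u⁻¹ := by
              rw [show u⁻¹ * x * u = x * w by rw [huinv, e1]]
              congr 2
              calc t * (x * w) * t⁻¹ = (t * x) * w * t⁻¹ := by group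
                _ = x * (t * w) * t⁻¹ := by rw [(hCmem t).1 ht.2]; group
                _ = x * w := by rw [hwc t ht.1]; group
            _ = (u * x * u⁻¹) * (u * w * u⁻¹) := by group
            _ = x := by rw [hux, huw', mul_assoc, hw2.1, mul_one]
        obtain ⟨t, ⟨ht, hfix⟩, htV⟩ : ∃ t : (S : Subgroup G), ((t : G) ∈ T ∧
            Cfsg.Lib.TwoFus.ThreeInvolutions.InV ⟨x, hxS⟩ ⟨w, hwS⟩ (t⁻¹ * ⟨u, hg₁⟩ * t * ⟨u, hg₁⟩⁻¹)) ∧
            ¬ Cfsg.Lib.TwoFus.ThreeInvolutions.InV ⟨x, hxS⟩ ⟨w, hwS⟩ t := by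
          by_cases h0 : Cfsg.Lib.TwoFus.ThreeInvolutions.InV ⟨x, hxS⟩ ⟨w, hwS⟩
              ((⟨t₀, ht₀.1⟩ : (S : Subgroup G))⁻¹ * ⟨u, hg₁⟩ * ⟨t₀, ht₀.1⟩ * ⟨u, hg₁⟩⁻¹)
          · exact ⟨_, ⟨ht₀, h0⟩, hnV⟩
          · set t₁ : (S : Subgroup G) := (⟨t₀, ht₀.1⟩ : (S : Subgroup G))⁻¹ * ⟨u, hg₁⟩ * ⟨t₀, ht₀.1⟩ * ⟨u, hg₁⟩⁻¹
              with ht₁
            have ht₁T : (t₁ : G) ∈ T := by
              show t₀⁻¹ * u * t₀ * u⁻¹ ∈ T
              rw [show t₀⁻¹ * u * t₀ * u⁻¹ = t₀⁻¹ * (u * t₀ * u⁻¹) by group]
              exact T.mul_mem (T.inv_mem ht₀) (huT _ ht₀)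
            have ht₁i : u * (t₁ : G) * u⁻¹ = (t₁ : G)⁻¹ := by
              show u * (t₀⁻¹ * u * t₀ * u⁻¹) * u⁻¹ = (t₀⁻¹ * u * t₀ * u⁻¹)⁻¹
              simp only [mul_inv_rev, inv_inv, huinv, mul_assoc, hu2.1, mul_one]
            obtain ⟨t', ⟨ht', hti⟩, htV', ht2⟩ := Cfsg.Lib.TwoFus.ThreeInvolutions.exists_step hThree S.isPGroup'
              (fun t : (S : Subgroup G) => (t : G) ∈ T ∧ u * (t : G) * u⁻¹ = (t : G)⁻¹)
              (fun t h => ⟨T.mul_mem h.1 h.1, by
                rw [Subgroup.coe_mul, show u * ((t : G) * t) * u⁻¹ = (u * t * u⁻¹) * (u * t * u⁻¹) by group,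
                  h.2, mul_inv_rev]⟩) h0 ⟨ht₁T, ht₁i⟩
            refine ⟨t', ⟨ht', ?_⟩, htV'⟩
            have e : t'⁻¹ * ⟨u, hg₁⟩ * t' * ⟨u, hg₁⟩⁻¹ = (t' * t')⁻¹ := by
              apply Subtype.ext
              show (t' : G)⁻¹ * u * t' * u⁻¹ = ((t' : G) * t')⁻¹
              rw [show (t' : G)⁻¹ * u * t' * u⁻¹ = (t' : G)⁻¹ * (u * t' * u⁻¹) by group, hti, mul_inv_rev]
            rw [e]
            have hinvV : ∀ v : (S : Subgroup G), Cfsg.Lib.TwoFus.ThreeInvolutions.InV ⟨x, hxS⟩ ⟨w, hwS⟩ v → v⁻¹ = v := by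
              rintro v (rfl | rfl | rfl | rfl)
              · exact inv_one
              · exact inv_eq_of_mul_eq_one_right hThree.hx
              · exact inv_eq_of_mul_eq_one_right hThree.hw
              · rw [mul_inv_rev, inv_eq_of_mul_eq_one_right hThree.hx, inv_eq_of_mul_eq_one_right hThree.hw,
                  ← hThree.hcen]
            rw [hinvV _ ht2]; exact ht2
        obtain ⟨n1, n2, n3, n4⟩ := hVsq t htV
        set t' : G := (t : G) with ht'
        rcases hfix with e | e | e | e <;> (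
          have e' := congrArg Subtype.val e
          simp only [Subgroup.coe_mul, InvMemClass.coe_inv, OneMemClass.coe_one] at e'
          have hu_t : ∀ v, t'⁻¹ * u * t' * u⁻¹ = v → u * t' * u⁻¹ = t' * v := fun v hv => by rw [← hv]; group
          have hut := hu_t _ e')
        · exact n3 (hsq t' ht (mul_inv_eq_iff_eq_mul.1 (hut.trans (mul_one _))) n1)
        · -- the commutator is inverted by `u`
          exfalso
          have h2 : u * (u * t' * u⁻¹) * u⁻¹ = t' := by
            simp only [huinv, mul_assoc, hu2.1, mul_one]; rw [← mul_assoc, hu2.1, one_mul]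
          rw [hut, show u * (t' * x) * u⁻¹ = (u * t' * u⁻¹) * (u * x * u⁻¹) by group, hut, hux,
            mul_assoc, ← mul_assoc x, (sq_of_orderOf hx).1, one_mul] at h2
          exact hw2.2 (mul_left_cancel (h2.trans (mul_one t').symm))
        · have h2 : u * (t' * x) * u⁻¹ = t' * x := by
            rw [show u * (t' * x) * u⁻¹ = (u * t' * u⁻¹) * (u * x * u⁻¹) by group, hut, hux, mul_assoc,
              ← mul_assoc w, ← hwc x hxS, mul_assoc x, hw2.1, mul_one]
          have hne : t' * x ≠ 1 := fun e => n2 ((eq_inv_of_mul_eq_one_left e).trans hxinv)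
          refine n4 ?_
          have h3 := hsq _ (T.mul_mem ht ⟨hxS, (hCmem x).2 rfl⟩) (mul_inv_eq_iff_eq_mul.1 h2) hne
          calc t' = t' * x * x := by rw [mul_assoc, (sq_of_orderOf hx).1, mul_one]
            _ = w * x := by rw [h3]
            _ = x * w := (hwc x hxS).symm
        · exfalso
          have h2 : u * (u * t' * u⁻¹) * u⁻¹ = t' := by
            simp only [huinv, mul_assoc, hu2.1, mul_one]; rw [← mul_assoc, hu2.1, one_mul]
          rw [hut, show u * (t' * (x * w)) * u⁻¹ = (u * t' * u⁻¹) * ((u * x * u⁻¹) * (u * w * u⁻¹)) by group,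
            hut, hux, huw', mul_assoc x w w, hw2.1, mul_one, mul_assoc, mul_assoc x] at h2
          have : x * (w * x) = 1 := mul_left_cancel (h2.trans (mul_one t').symm)
          rw [← hwc x hxS, ← mul_assoc, (sq_of_orderOf hx).1, one_mul] at this
          exact hw2.2 this
      exact absurd (Cfsg.Lib.TwoFus.ThreeInvolutions.card_le_four (⟨x, hxS⟩ : (S : Subgroup G)) ⟨w, hwS⟩
        _ fun t ht => by
          rcases hTV t ⟨t.2, (hCmem _).2 (congrArg Subtype.val (Subgroup.mem_centralizer_singleton_iff.1 ht))⟩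
            with e | e | e | e
          · exact Or.inl (Subtype.ext e)
          · exact Or.inr (Or.inl (Subtype.ext e))
          · exact Or.inr (Or.inr (Or.inl (Subtype.ext e)))
          · exact Or.inr (Or.inr (Or.inr (Subtype.ext e)))) h4.not_ge
    · -- an almost central involution
      push Not at horb
      obtain ⟨s₀, hs₀, hs₀x, hs₀xw⟩ := horb
      obtain ⟨e, he, he1, hew, hes⟩ := Cfsg.Lib.TwoFus.ThreeInvolutions.exists_almost_central hThree S.isPGroup' hncS h4
      set E := Subgroup.centralizer ({e} : Set (S : Subgroup G)) with hE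
      have hxE : (⟨x, hxS⟩ : (S : Subgroup G)) ∉ E := by
        intro hxE
        rcases hThree.hinv e he he1 (Subgroup.mem_centralizer_singleton_iff.1 hxE) with e' | e' | e'
        · rcases hes ⟨s₀, hs₀⟩ with h | h <;> rw [e'] at h <;> have h' := congrArg Subtype.val h
          · exact hs₀x h'
          · exact hs₀xw h'
        · exact hew e'
        · have hs : ∀ s : G, s ∈ (S : Subgroup G) → s * w * s⁻¹ = w := fun s hs => by
            rw [hwc s hs, mul_inv_cancel_right]
          have hrw : s₀ * x * s₀⁻¹ = s₀ * (x * w) * s₀⁻¹ * w := by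
            calc s₀ * x * s₀⁻¹ = s₀ * (x * (w * w)) * s₀⁻¹ := by rw [hw2.1, mul_one]
              _ = s₀ * (x * w) * s₀⁻¹ * (s₀ * w * s₀⁻¹) := by group
              _ = _ := by rw [hs s₀ hs₀]
          rcases hes ⟨s₀, hs₀⟩ with h | h <;> rw [e'] at h <;> have h' : s₀ * (x * w) * s₀⁻¹ = _ := congrArg Subtype.val h
          · rw [h'] at hrw
            exact hs₀x (hrw.trans (by
              show x * w * w = x
              rw [mul_assoc, hw2.1, mul_one]))
          · rw [h'] at hrw
            exact hs₀xw (hrw.trans (by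
              show x * w * w * w = x * w
              rw [mul_assoc, hw2.1, mul_one]))
      have hEi : E.index = 2 := by
        obtain ⟨q, hq⟩ : ∃ q, q ∉ E := ⟨_, hxE⟩
        refine Subgroup.index_eq_two_iff.2 ⟨q, fun b => ?_⟩
        have hdich : ∀ s, s ∈ E ∨ s * e * s⁻¹ = e * ⟨w, hwS⟩ := fun s =>
          (hes s).imp (fun h => Subgroup.mem_centralizer_singleton_iff.2 (mul_inv_eq_iff_eq_mul.1 h)) id
        rcases hdich b with hb | hb
        · exact Or.inr ⟨hb, fun h => hq ((E.mul_mem_cancel_left hb).1 h)⟩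
        · have hqe := (hdich q).resolve_left hq
          refine Or.inl ⟨Subgroup.mem_centralizer_singleton_iff.2 (mul_inv_eq_iff_eq_mul.1 ?_), fun hbE => ?_⟩
          · calc b * q * e * (b * q)⁻¹ = b * (q * e * q⁻¹) * b⁻¹ := by group
              _ = (b * e * b⁻¹) * (b * ⟨w, hwS⟩ * b⁻¹) := by rw [hqe]; group
              _ = e := by rw [hb, hThree.hcen b, mul_inv_cancel_right, mul_assoc, hThree.hw, mul_one]
          · rw [Subgroup.mem_centralizer_singleton_iff, ← mul_inv_eq_iff_eq_mul, hb] at hbE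
            exact hThree.hw1 (mul_left_cancel (hbE.trans (mul_one e).symm))
      obtain ⟨g, u, huE, hug⟩ := htransfer E hEi hxE
      -- the three involutions commuting with `u`
      have hue : (u : G) * e = e * u :=
        congrArg Subtype.val (Subgroup.mem_centralizer_singleton_iff.1 huE)
      have huw0 : (u : G) * w = w * u := hwc u u.2
      have hpull : ∀ y : G, y * y = 1 → y ≠ 1 → (u : G) * y = y * u →
          g⁻¹ * y * g = x ∨ g⁻¹ * y * g = w ∨ g⁻¹ * y * g = x * w := by
        intro y hy hy1 huy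
        refine hinv _ ?_ ?_ ?_
        · rw [show g⁻¹ * y * g * (g⁻¹ * y * g) = g⁻¹ * (y * y) * g by group, hy]; group
        · intro h
          apply hy1
          calc y = g * (g⁻¹ * y * g) * g⁻¹ := by group
            _ = 1 := by rw [h]; group
        · calc g⁻¹ * y * g * x = g⁻¹ * (y * (g * x * g⁻¹)) * g := by group
            _ = g⁻¹ * ((g * x * g⁻¹) * y) * g := by rw [← hug, huy]
            _ = x * (g⁻¹ * y * g) := by group
      have he' : (e : G) * e = 1 := congrArg Subtype.val he
      have he1' : (e : G) ≠ 1 := fun h => he1 (Subtype.ext h)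
      have hew' : (e : G) ≠ w := fun h => hew (Subtype.ext h)
      have hwe : (e : G) * w = w * e := hwc e e.2
      have hewo : (e : G) * w * (e * w) = 1 := by
        rw [mul_assoc, ← mul_assoc w, ← hwe, mul_assoc (e : G) w, hw2.1, mul_one, he']
      have hew1 : (e : G) * w ≠ 1 := fun h => hew' ((eq_inv_of_mul_eq_one_left h).trans
        (inv_eq_of_mul_eq_one_right hw2.1))
      have hp1 := hpull _ he' he1' hue
      have hp2 := hpull _ hw2.1 hw2.2 huw0
      have hp3 := hpull _ hewo hew1 (by rw [← mul_assoc, hue, mul_assoc, huw0, ← mul_assoc])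
      have hinjc : ∀ y z : G, g⁻¹ * y * g = g⁻¹ * z * g → y = z := fun y z h => mul_left_cancel (mul_right_cancel h)
      have d1 : (e : G) ≠ e * w := fun h => hw2.2 (mul_left_cancel (((mul_one _).trans h)).symm)
      have d2 : w ≠ (e : G) * w := fun h => he1' (mul_right_cancel ((one_mul w).trans h)).symm
      have hux : (u : G) = e ∨ (u : G) = e * w := by
        have key : ∀ y, g⁻¹ * y * g = x → (u : G) = y := fun y h => by rw [hug, ← h]; group
        rcases hp1 with a1 | a1 | a1
        · exact Or.inl (key _ a1)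
        all_goals rcases hp3 with a3 | a3 | a3
        · exact Or.inr (key _ a3)
        · exact absurd (hinjc _ _ (a1.trans a3.symm)) d1
        · rcases hp2 with a2 | a2 | a2
          · exact absurd (key _ a2).symm (fun h => hwnc g (hug.symm.trans h.symm))
          · exact absurd (hinjc _ _ (a1.trans a2.symm)) hew'
          · exact absurd (hinjc _ _ (a2.trans a3.symm)) d2
        · exact Or.inr (key _ a3)
        · rcases hp2 with a2 | a2 | a2
          · exact absurd (key _ a2).symm (fun h => hwnc g (hug.symm.trans h.symm))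
          · exact absurd (hinjc _ _ (a2.trans a3.symm)) d2
          · exact absurd (hinjc _ _ (a1.trans a2.symm)) hew'
        · exact absurd (hinjc _ _ (a1.trans a3.symm)) d1
      have hle : Nat.card (E.map (S : Subgroup G).subtype) ≤ Nat.card T := by
        refine hmove g _ (S.isPGroup'.to_le (Subgroup.map_subtype_le E)) ?_
        rintro _ ⟨k, hk, rfl⟩
        have hke : (k : G) * e = e * k := congrArg Subtype.val (Subgroup.mem_centralizer_singleton_iff.1 hk)
        show (k : G) * _ = _ * (k : G)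
        rw [← hug]
        rcases hux with h | h <;> rw [h]
        · exact hke
        · rw [← mul_assoc, hke, mul_assoc, hwc k k.2, ← mul_assoc]
      rw [Subgroup.card_map_of_injective (S : Subgroup G).subtype_injective, hcardT] at hle
      set T' := Subgroup.centralizer ({⟨x, hxS⟩} : Set (S : Subgroup G)) with hT'
      have hTi : T'.index ≤ 2 := by
        have h1 := E.card_mul_index
        rw [hEi, ← T'.card_mul_index] at h1
        by_contra hlt
        have h2 : Nat.card T' * 3 ≤ Nat.card T' * T'.index := Nat.mul_le_mul_left _ (by omega)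
        omega
      have hT2 : T'.index = 2 := by
        have h0 : T'.index ≠ 0 := Subgroup.index_ne_zero_of_finite
        have h1' : T'.index ≠ 1 := fun h => hncS fun s => by
          rw [Subgroup.index_eq_one] at h
          exact Subgroup.mem_centralizer_singleton_iff.1 (show s ∈ T' by rw [h]; exact Subgroup.mem_top s)
        omega
      haveI := Subgroup.normal_of_index_eq_two hT2
      set s1 : (S : Subgroup G) := ⟨s₀, hs₀⟩ * ⟨x, hxS⟩ * ⟨s₀, hs₀⟩⁻¹ with hs1
      have hmem : s1 ∈ T' := Subgroup.Normal.conj_mem inferInstance _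
        (Subgroup.mem_centralizer_singleton_iff.2 rfl) _
      have h2 := sq_of_orderOf ((orderOf_conj s₀ x).trans hx)
      rcases hinv _ h2.1 h2.2 (congrArg Subtype.val (Subgroup.mem_centralizer_singleton_iff.1 hmem)) with h | h | h
      · exact hs₀x h
      · exact hwnc s₀ h
      · exact hs₀xw h

/-- Let G be a finite simple group and x an involution of G whose centralizer contains at most three involutions. Then C_G(x) contains a Sylow 2-subgroup of G, and all involutions of G are conjugate. -/
theorem result {G : Type*} [Group G] [Finite G] [IsSimpleGroup G] (x : G) (hx : orderOf x = 2)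
    (h3 : Nat.card {u : ↥(Subgroup.centralizer ({x} : Set G)) // orderOf u = 2} ≤ 3) :
    (∃ S : Sylow 2 G, (S : Subgroup G) ≤ Subgroup.centralizer ({x} : Set G)) ∧
      ∀ u v : G, orderOf u = 2 → orderOf v = 2 → IsConj u v := by
  by_cases hab : ∀ a b : G, a * b = b * a
  · obtain ⟨S⟩ : Nonempty (Sylow 2 G) := inferInstance
    refine ⟨⟨S, fun s _ => Subgroup.mem_centralizer_singleton_iff.2 (hab s x)⟩, fun u v hu hv => ?_⟩
    haveI : (Subgroup.zpowers x).Normal := ⟨fun n hn g => by rwa [hab g n, mul_inv_cancel_right]⟩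
    rcases Subgroup.Normal.eq_bot_or_eq_top (H := Subgroup.zpowers x) inferInstance with h | h
    · rw [Subgroup.zpowers_eq_bot] at h
      rw [h, orderOf_one] at hx
      exact absurd hx (by norm_num)
    · have key : ∀ y : G, orderOf y = 2 → y = x := fun y hy => by
        obtain ⟨k, hk⟩ : y ∈ Subgroup.zpowers x := h ▸ Subgroup.mem_top y
        have hk' : x ^ k = y := hk
        rcases Int.even_or_odd k with ⟨i, rfl⟩ | ⟨i, rfl⟩
        · rw [← two_mul, zpow_mul, zpow_two, (sq_of_orderOf hx).1, one_zpow] at hk'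
          exact absurd hk'.symm (sq_of_orderOf hy).2
        · rw [zpow_add_one, zpow_mul, zpow_two, (sq_of_orderOf hx).1, one_zpow, one_mul] at hk'
          exact hk'.symm
      rw [key u hu, key v hv]
  · exact main hab x hx h3

end Cfsg.Agent.S3279
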