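import Cfsg.Statements.S3303
import Mathlib
import Cfsg.Agent.Lib.Solv.MinNormal
import Cfsg.Agent.Lib.Solv.Cores
import Cfsg.Agent.Lib.Transfer.NormalPComplement
import Cfsg.Agent.Lib.TwoFus.CyclicSylow
-- import your own Cfsg.Agent.* helpers here

set_option autoImplicit false
open Cfsg

namespace Cfsg.Agent.S3303

/-- Let G be a finite solvable group in which the intersection of any two distinct Sylow 2-subgroups is cyclic. Then G/O(G) has a normal Sylow 2-subgroup, where O(G) is the largest normal subgroup of odd order. -/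
theorem result {G : Type*} [Group G] [Finite G] (hs : Group.IsSolvable G)
    (hC : ∀ S T : Sylow 2 G, S ≠ T → IsCyclic ↥((S : Subgroup G) ⊓ (T : Subgroup G))) :
    ∃ P : Sylow 2 (G ⧸ Cfsg.oddCore G), (P : Subgroup (G ⧸ Cfsg.oddCore G)).Normal := by
  classical
  haveI : Fact (Nat.Prime 2) := ⟨Nat.prime_two⟩
  haveI := hs
  set N := Cfsg.oddCore G with hNdef
  haveI hNn : N.Normal := Cfsg.Lib.Transfer.pPrimeCore_normal (G := G) 2
  haveI : Group.IsSolvable (G ⧸ N) := Group.isSolvable_of_surjective (QuotientGroup.mk'_surjective N)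
  have hbar : Cfsg.pPrimeCore 2 (G ⧸ N) = ⊥ := Cfsg.Lib.Solv.pPrimeCore_quotient_eq_bot 2
  have hself := Cfsg.Lib.Solv.centralizer_pCore_le (G := G ⧸ N) 2 hbar
  haveI := Cfsg.Lib.Transfer.pCore_normal (G := G ⧸ N) 2
  set F := Cfsg.pCore 2 (G ⧸ N) with hF
  have hF2 : IsPGroup 2 ↥F := Cfsg.Lib.Solv.isPGroup_pCore 2
  have hcyc : ∀ (g c : G ⧸ N), Odd (orderOf g) → (∃ e : ℕ, c ^ 2 ^ e = 1) →
      g * c * g⁻¹ ∈ Subgroup.zpowers c → g * c * g⁻¹ = c := by
    intro g c hg ⟨e, he⟩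
    induction e generalizing c with
    | zero => intro _; rw [pow_zero, pow_one] at he; simp [he]
    | succ e ih =>
      intro hm
      obtain ⟨k, hk⟩ := Subgroup.mem_zpowers_iff.1 hm
      have h2 : g * c ^ 2 * g⁻¹ = c ^ 2 := ih (c ^ 2) (by rw [← pow_mul, ← pow_succ']; exact he) (by
        refine Subgroup.mem_zpowers_iff.2 ⟨k, ?_⟩
        rw [← conj_pow, ← hk]; group)
      set d := c⁻¹ * (g * c * g⁻¹) with hd
      have hdm : d ∈ Subgroup.zpowers c := mul_mem (inv_mem (Subgroup.mem_zpowers c)) hm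
      have hcd : c * d = g * c * g⁻¹ := by rw [hd]; group
      have hd2 : d * d = 1 := by
        have hcomm : Commute (g * c * g⁻¹) c⁻¹ := by
          obtain ⟨k, hk⟩ := Subgroup.mem_zpowers_iff.1 hm
          rw [← hk]; exact ((Commute.refl c).zpow_left k).inv_right
        calc d * d = c⁻¹ * ((g * c * g⁻¹) * c⁻¹) * (g * c * g⁻¹) := by rw [hd]; group
          _ = c⁻¹ * (c⁻¹ * (g * c * g⁻¹)) * (g * c * g⁻¹) := by rw [hcomm.eq]
          _ = (c ^ 2)⁻¹ * (g * c ^ 2 * g⁻¹) := by rw [pow_two c]; group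
          _ = 1 := by rw [h2, inv_mul_cancel]
      have hfix : g * d * g⁻¹ = d := by
        by_cases h1 : d = 1
        · simp [h1]
        have hd' : g * d * g⁻¹ ∈ Subgroup.zpowers c := by
          obtain ⟨j, hj⟩ := Subgroup.mem_zpowers_iff.1 hdm
          rw [← hj, ← conj_zpow]
          exact Subgroup.zpow_mem _ hm j
        have ho : orderOf d = 2 := orderOf_eq_prime (by rw [pow_two, hd2]) h1
        have ho' : orderOf (g * d * g⁻¹) = 2 := by
          rw [← MulAut.conj_apply, MulEquiv.orderOf_eq, ho]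
        have heq : Subgroup.zpowers (⟨d, hdm⟩ : ↥(Subgroup.zpowers c)) = Subgroup.zpowers ⟨_, hd'⟩ :=
          Cfsg.Lib.TwoFus.eq_of_card_eq_cyclic (by
            rw [Nat.card_zpowers, Nat.card_zpowers, Subgroup.orderOf_mk, Subgroup.orderOf_mk, ho, ho'])
        have hm2 : (⟨_, hd'⟩ : ↥(Subgroup.zpowers c)) ∈ Subgroup.zpowers (⟨d, hdm⟩ : ↥(Subgroup.zpowers c)) :=
          heq ▸ Subgroup.mem_zpowers _
        obtain ⟨j, hj⟩ := Subgroup.mem_zpowers_iff.1 hm2
        have hj' : d ^ j = g * d * g⁻¹ := congrArg Subtype.val hj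
        rcases Int.even_or_odd j with ⟨r, rfl⟩ | ⟨r, rfl⟩
        · exfalso
          rw [← two_mul, zpow_mul, zpow_ofNat, pow_two, hd2, one_zpow] at hj'
          rw [← hj'] at ho'; simp at ho'
        · rw [zpow_add, zpow_mul, zpow_ofNat, pow_two, hd2, one_zpow, one_mul, zpow_one] at hj'
          exact hj'.symm
      have hj : ∀ j : ℕ, g ^ j * c * (g ^ j)⁻¹ = c * d ^ j := by
        intro j
        induction j with
        | zero => simp
        | succ j ihj =>
          calc g ^ (j + 1) * c * (g ^ (j + 1))⁻¹ = g * (g ^ j * c * (g ^ j)⁻¹) * g⁻¹ := by group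
            _ = (g * c * g⁻¹) * (g * d ^ j * g⁻¹) := by rw [ihj]; group
            _ = c * d ^ (j + 1) := by rw [← conj_pow, hfix, ← hcd, mul_assoc, ← pow_succ']
      have h1 := hj (orderOf g)
      rw [pow_orderOf_eq_one, one_mul, inv_one, mul_one, left_eq_mul] at h1
      obtain ⟨r, hr⟩ := hg
      rw [hr, pow_succ, pow_mul, pow_two, hd2, one_pow, one_mul] at h1
      rw [← hcd, h1, mul_one]
  by_contra hno
  push Not at hno
  obtain ⟨S⟩ := (inferInstance : Nonempty (Sylow 2 G))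
  let Sb : Sylow 2 (G ⧸ N) := S.mapSurjective (QuotientGroup.mk'_surjective N)
  obtain ⟨Tb, hne⟩ : ∃ Tb : Sylow 2 (G ⧸ N), Tb ≠ Sb := by
    by_contra hall
    push Not at hall
    haveI : Subsingleton (Sylow 2 (G ⧸ N)) := ⟨fun a b => (hall a).trans (hall b).symm⟩
    exact hno Sb (Sylow.normal_of_subsingleton Sb)
  obtain ⟨gb, hgb⟩ := MulAction.exists_smul_eq (G ⧸ N) Sb Tb
  obtain ⟨g, hg⟩ := QuotientGroup.mk'_surjective N gb
  set π := QuotientGroup.mk' N
  -- lift `F`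
  set D := (S : Subgroup G) ⊓ F.comap π with hD
  have hDmap : ∀ x ∈ F, ∃ d ∈ D, π d = x := fun x hx => by
    obtain ⟨s, hs', rfl⟩ := (hF2.le_sylow_of_normal Sb) hx
    exact ⟨s, Subgroup.mem_inf.2 ⟨hs', hx⟩, rfl⟩
  have hDp : IsPGroup 2 ↥D := S.isPGroup'.to_le inf_le_left
  -- `D ≤ g S g⁻¹ N`
  set M := ((g • S : Sylow 2 G) : Subgroup G) ⊔ N with hM
  have hDM : D ≤ M := by
    intro d hd
    have h1 : π d ∈ (Tb : Subgroup (G ⧸ N)) := hF2.le_sylow_of_normal Tb (Subgroup.mem_inf.1 hd).2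
    rw [← hgb, ← hg, Sylow.smul_def, Sylow.pointwise_smul_def] at h1
    obtain ⟨w, ⟨s, hs', rfl⟩, he⟩ := h1
    have hgs : g * s * g⁻¹ ∈ ((g • S : Sylow 2 G) : Subgroup G) := by
      rw [Sylow.smul_def, Sylow.pointwise_smul_def]; exact ⟨s, hs', rfl⟩
    have hn : (g * s * g⁻¹)⁻¹ * d ∈ N := by
      rw [← QuotientGroup.ker_mk' N, MonoidHom.mem_ker]
      rw [map_mul π, map_inv π, ← he]
      show (π (g * s * g⁻¹))⁻¹ * (π g * π s * (π g)⁻¹) = 1
      rw [map_mul π, map_mul π, map_inv π, inv_mul_cancel]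
    have := mul_mem (Subgroup.mem_sup_left hgs (T := N)) (Subgroup.mem_sup_right hn)
    rwa [mul_inv_cancel_left] at this
  have hDMp : IsPGroup 2 ↥(D.subgroupOf M) := hDp.of_equiv (Subgroup.subgroupOfEquivOfLe hDM).symm
  obtain ⟨R, hR⟩ := hDMp.exists_le_sylow
  obtain ⟨m, hm⟩ := MulAction.exists_smul_eq ↥M ((g • S : Sylow 2 G).subtype le_sup_left) R
  set U : Sylow 2 G := (m : G) • (g • S) with hU
  have hDU : D ≤ (U : Subgroup G) := by
    intro d hd
    have h1 : (⟨d, hDM hd⟩ : ↥M) ∈ (R : Subgroup ↥M) := hR (Subgroup.mem_subgroupOf.2 hd)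
    rw [← hm, Sylow.smul_def, Sylow.pointwise_smul_def] at h1
    obtain ⟨w, hw, he⟩ := h1
    rw [hU, Sylow.smul_def, Sylow.pointwise_smul_def]
    rw [Sylow.coe_subtype, SetLike.mem_coe, Subgroup.mem_subgroupOf] at hw
    exact ⟨(w : G), hw, congrArg Subtype.val he⟩
  have hUS : S ≠ U := by
    intro hSU
    apply hne
    rw [← hgb, ← hg]
    have hmM : π (m : G) ∈ ((π g) • Sb : Sylow 2 (G ⧸ N)) := by
      have hle : M ≤ ((π g • Sb : Sylow 2 (G ⧸ N)) : Subgroup (G ⧸ N)).comap π := by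
        refine sup_le ?_ ?_
        · intro x hx
          rw [Sylow.smul_def, Sylow.pointwise_smul_def] at hx
          obtain ⟨s, hs', rfl⟩ := hx
          rw [Subgroup.mem_comap, Sylow.smul_def, Sylow.pointwise_smul_def]
          exact ⟨π s, ⟨s, hs', rfl⟩, by simp [π]⟩
        · intro x hx
          rw [Subgroup.mem_comap, show π x = 1 from (QuotientGroup.eq_one_iff _).2 hx]
          exact one_mem _
      exact hle m.2
    have hfix : π (m : G) • (π g • Sb) = π g • Sb :=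
      Sylow.smul_eq_iff_mem_normalizer.2 (Subgroup.le_normalizer hmM)
    rw [← hfix]
    apply Sylow.ext
    have h2 : ((π ((m : G) * g)) • Sb : Sylow 2 (G ⧸ N)).toSubgroup = (U : Subgroup G).map π := by
      rw [hU, ← mul_smul]
      ext x
      simp only [Sylow.smul_def, Sylow.pointwise_smul_def]
      constructor
      · rintro ⟨_, ⟨s, hs', rfl⟩, rfl⟩
        refine ⟨(m : G) * g * s * ((m : G) * g)⁻¹, ⟨s, hs', rfl⟩, ?_⟩
        show π ((m : G) * g * s * ((m : G) * g)⁻¹) = π ((m : G) * g) * π s * (π ((m : G) * g))⁻¹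
        simp only [map_mul, map_inv]
      · rintro ⟨_, ⟨s, hs', rfl⟩, rfl⟩
        refine ⟨π s, ⟨s, hs', rfl⟩, ?_⟩
        show π ((m : G) * g) * π s * (π ((m : G) * g))⁻¹ = π ((m : G) * g * s * ((m : G) * g)⁻¹)
        simp only [map_mul, map_inv]
    rw [← mul_smul, ← map_mul, h2, ← hSU]
    rfl
  haveI := hC S U hUS
  have hDc : IsCyclic ↥D := isCyclic_of_injective (Subgroup.inclusion (le_inf inf_le_left hDU :
    D ≤ (S : Subgroup G) ⊓ (U : Subgroup G))) (Subgroup.inclusion_injective _)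
  obtain ⟨c, hc⟩ := hDc
  set cb := π (c : G) with hcb
  have hcF : cb ∈ F := (Subgroup.mem_inf.1 c.2).2
  have hgen : ∀ x ∈ F, x ∈ Subgroup.zpowers cb := by
    intro x hx
    obtain ⟨d, hd, rfl⟩ := hDmap x hx
    obtain ⟨r, hr⟩ := hc ⟨d, hd⟩
    refine ⟨r, ?_⟩
    show cb ^ r = _
    rw [hcb, ← map_zpow, show (c : G) ^ r = d from congrArg Subtype.val hr]
  obtain ⟨r, hr⟩ := hF2 ⟨cb, hcF⟩
  have hr' : cb ^ 2 ^ r = 1 := congrArg Subtype.val hr
  have hFcent : ∀ x : G ⧸ N, Odd (orderOf x) → x ∈ F := by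
    intro x hx
    refine hself (Subgroup.mem_centralizer_iff.2 fun y hy => ?_)
    obtain ⟨i, rfl⟩ := hgen y hy
    have h := hcyc x cb hx ⟨r, hr'⟩ (hgen _ ((inferInstance : F.Normal).conj_mem _ hcF x))
    show cb ^ i * x = x * cb ^ i
    exact ((show Commute x cb from mul_inv_eq_iff_eq_mul.1 h).zpow_right i).symm.eq
  have htwo : IsPGroup 2 (G ⧸ N) := by
    rw [IsPGroup.iff_orderOf]
    intro x
    obtain ⟨a, b, hb, hab⟩ := Nat.exists_eq_two_pow_mul_odd (orderOf_pos x).ne'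
    refine ⟨a, ?_⟩
    have hom : orderOf (x ^ 2 ^ a) = b := by
      rw [orderOf_pow' _ (by positivity), hab, Nat.gcd_eq_right (dvd_mul_right _ _), Nat.mul_div_cancel_left _ (by positivity)]
    obtain ⟨s, hs'⟩ := IsPGroup.iff_orderOf.1 hF2 ⟨_, hFcent _ (hom.symm ▸ hb)⟩
    rw [Subgroup.orderOf_mk, hom] at hs'
    have : b = 1 := by
      rcases Nat.eq_zero_or_pos s with rfl | hs0
      · simpa using hs'
      · exfalso; rw [hs'] at hb
        exact (Nat.not_even_iff_odd.2 hb) ((Nat.even_pow).2 ⟨even_two, hs0.ne'⟩)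
    rw [hab, this, mul_one]
  haveI : Subsingleton (Sylow 2 (G ⧸ N)) := by
    refine ⟨fun A B => Sylow.ext ?_⟩
    have hp : IsPGroup 2 ↥(⊤ : Subgroup (G ⧸ N)) := htwo.to_subgroup ⊤
    exact (A.3 hp le_top).symm.trans (B.3 hp le_top)
  exact hno Sb (Sylow.normal_of_subsingleton Sb)

end Cfsg.Agent.S3303
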