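import Cfsg.Statements.S3305
import Mathlib
-- import your own Cfsg.Agent.* helpers here

set_option autoImplicit false
open Cfsg

namespace Cfsg.Agent.S3305

/-- If any two distinct Sylow 2-subgroups of the finite group G intersect in a cyclic group, then the same holds in every quotient group G/H, H a normal subgroup of G. -/
theorem result {G : Type*} [Group G] [Finite G]
    (hC : ∀ S T : Sylow 2 G, S ≠ T → IsCyclic ↥((S : Subgroup G) ⊓ (T : Subgroup G))) (H : Subgroup G) [H.Normal] :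
    ∀ S T : Sylow 2 (G ⧸ H), S ≠ T → IsCyclic ↥((S : Subgroup (G ⧸ H)) ⊓ (T : Subgroup (G ⧸ H))) := by
  intro S T hne
  classical
  haveI : Fact (Nat.Prime 2) := ⟨Nat.prime_two⟩
  set π := QuotientGroup.mk' H with hπ
  have hπs : Function.Surjective π := QuotientGroup.mk'_surjective H
  set U := (S : Subgroup (G ⧸ H)) ⊓ (T : Subgroup (G ⧸ H)) with hU
  obtain ⟨R⟩ : Nonempty (Sylow 2 ↥(U.comap π)) := inferInstance
  set U₀ : Subgroup G := (R : Subgroup ↥(U.comap π)).map (U.comap π).subtype with hU₀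
  have hUp : IsPGroup 2 ↥U := S.2.to_le inf_le_left
  have hU₀le : U₀ ≤ U.comap π := Subgroup.map_subtype_le _
  have hmap : U₀.map π = U := by
    have hle : U₀.map π ≤ U := Subgroup.map_le_iff_le_comap.2 hU₀le
    refine Subgroup.eq_of_le_of_card_ge hle (Nat.le_of_dvd Nat.card_pos ?_)
    let f : ↥(U.comap π) →* ↥U := π.subgroupComap U
    have hfs : Function.Surjective f := π.subgroupComap_surjective_of_surjective U hπs
    have hdvd : ((R : Subgroup ↥(U.comap π)).map f).index ∣ (R : Subgroup ↥(U.comap π)).index :=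
      Subgroup.index_map_dvd _ hfs
    obtain ⟨j, hj⟩ := hUp.index ((R : Subgroup ↥(U.comap π)).map f)
    have hj0 : j = 0 := by
      by_contra h0
      exact R.not_dvd_index (((dvd_pow_self 2 h0).trans (hj ▸ dvd_rfl)).trans hdvd)
    rw [hj0, pow_zero, Subgroup.index_eq_one] at hj
    have hcard : Nat.card ↥U = Nat.card ↥((R : Subgroup ↥(U.comap π)).map f) := by
      rw [hj, Subgroup.card_top]
    rw [hcard, ← Subgroup.card_map_of_injective U.subtype_injective, Subgroup.map_map]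
    refine Subgroup.card_dvd_of_le ?_
    rintro _ ⟨x, hx, rfl⟩
    exact ⟨x, ⟨x, hx, rfl⟩, rfl⟩
  have hU₀p : IsPGroup 2 ↥U₀ := R.2.map _
  -- Sylow subgroups over `S` and `T`
  have key : ∀ Q : Sylow 2 (G ⧸ H), U ≤ (Q : Subgroup (G ⧸ H)) →
      ∃ P : Sylow 2 G, U₀ ≤ (P : Subgroup G) ∧ (P : Subgroup G).map π = (Q : Subgroup (G ⧸ H)) := by
    intro Q hQ
    obtain ⟨P₀⟩ : Nonempty (Sylow 2 G) := inferInstance
    obtain ⟨g, hg⟩ := MulAction.exists_smul_eq (G ⧸ H) (P₀.mapSurjective hπs) Q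
    obtain ⟨g₀, rfl⟩ := hπs g
    set P₁ := g₀ • P₀ with hP₁
    have hP₁Q : (P₁ : Subgroup G).map π = (Q : Subgroup (G ⧸ H)) := by
      rw [← hg, hP₁, Sylow.coe_subgroup_smul, Sylow.coe_subgroup_smul, Sylow.coe_mapSurjective]
      ext y
      constructor
      · rintro ⟨_, ⟨x, hx, rfl⟩, rfl⟩
        exact ⟨π x, ⟨x, hx, rfl⟩, by simp [MulAut.conj_apply]⟩
      · rintro ⟨_, ⟨x, hx, rfl⟩, rfl⟩
        exact ⟨_, ⟨x, hx, rfl⟩, by simp [MulAut.conj_apply]⟩
    set L := (Q : Subgroup (G ⧸ H)).comap π with hL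
    have hP₁L : (P₁ : Subgroup G) ≤ L := Subgroup.map_le_iff_le_comap.1 hP₁Q.le
    have hU₀L : U₀ ≤ L := hU₀le.trans (Subgroup.comap_mono hQ)
    obtain ⟨P₂, hP₂⟩ := (hU₀p.comap_of_injective L.subtype L.subtype_injective).exists_le_sylow
    obtain ⟨l, hl⟩ := MulAction.exists_smul_eq ↥L (P₁.subtype hP₁L) P₂
    refine ⟨(l : G) • P₁, fun x hx => ?_, ?_⟩
    · have hxP : (⟨x, hU₀L hx⟩ : ↥L) ∈ (P₂ : Subgroup ↥L) := hP₂ hx
      rw [← hl, Sylow.coe_subgroup_smul] at hxP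
      obtain ⟨v, hv, hve⟩ := hxP
      exact ⟨v, hv, congrArg Subtype.val hve⟩
    · rw [Sylow.coe_subgroup_smul]
      refine le_antisymm ?_ ?_
      · rintro _ ⟨_, ⟨x, hx, rfl⟩, rfl⟩
        show π ((l : G) * x * (l : G)⁻¹) ∈ _
        rw [map_mul, map_mul, map_inv]
        exact mul_mem (mul_mem l.2 (hP₁Q ▸ ⟨x, hx, rfl⟩)) (inv_mem l.2)
      · intro y hy
        have hy' : (π l)⁻¹ * y * π l ∈ (P₁ : Subgroup G).map π := by
          rw [hP₁Q]
          exact mul_mem (mul_mem (inv_mem l.2) hy) l.2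
        obtain ⟨x, hx, hxe⟩ := hy'
        refine ⟨_, ⟨x, hx, rfl⟩, ?_⟩
        show π ((l : G) * x * (l : G)⁻¹) = y
        rw [map_mul, map_mul, map_inv, hxe]
        group
  obtain ⟨P, hPU, hPS⟩ := key S inf_le_left
  obtain ⟨Q, hQU, hQT⟩ := key T inf_le_right
  have hPQ : P ≠ Q := fun e => hne (Sylow.ext (by rw [← hPS, ← hQT, e]))
  haveI := hC P Q hPQ
  haveI : IsCyclic ↥U₀ := Subgroup.isCyclic_of_le (le_inf hPU hQU)
  rw [← hmap]
  exact isCyclic_of_surjective (π.subgroupMap U₀) (π.subgroupMap_surjective U₀)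

end Cfsg.Agent.S3305
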