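import Cfsg.Statements.S3309
import Mathlib
import Cfsg.Agent.Lib.Transfer.CentralTwo
-- import your own Cfsg.Agent.* helpers here

set_option autoImplicit false
open Cfsg

namespace Cfsg.Agent.S3309

open Subgroup in
theorem center_dihedral_four : ∀ d : DihedralGroup 4, (∀ e, e * d = d * e) → d = 1 ∨ d = DihedralGroup.r 2 := by
  decide +kernel

theorem eps_ne : Multiplicative.ofAdd (1 : ZMod 2) ≠ 1 := by decide +kernel

theorem eps_sq : Multiplicative.ofAdd (1 : ZMod 2) ^ 2 = 1 := by decide +kernel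

theorem commutator_dihedral_four :
    (DihedralGroup.r 1 * DihedralGroup.sr 0 * (DihedralGroup.r 1)⁻¹ * (DihedralGroup.sr 0)⁻¹ : DihedralGroup 4) =
      DihedralGroup.r 2 := by
  decide +kernel

/-- A finite group whose Sylow 2-subgroups are isomorphic to the direct product of a group of order 2 and the dihedral group of order 8 is not a non-abelian simple group. -/
theorem result {G : Type*} [Group G] [Finite G] (S : Sylow 2 G) (hS : Nonempty (↥(S : Subgroup G) ≃* Multiplicative (ZMod 2) × DihedralGroup 4))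
    [IsSimpleGroup G] (hG : ¬ IsMulCommutative G) : False := by
  classical
  obtain ⟨e⟩ := hS
  haveI : Fact (Nat.Prime 2) := ⟨Nat.prime_two⟩
  let f : ↥(S : Subgroup G) →* Multiplicative (ZMod 2) :=
    (MonoidHom.fst (Multiplicative (ZMod 2)) (DihedralGroup 4)).comp e.toMonoidHom
  have hfs : Function.Surjective f := fun a => ⟨e.symm (a, 1), by
    show (e (e.symm (a, 1))).1 = a
    rw [e.apply_symm_apply]⟩
  set M : Subgroup G := f.ker.map (S : Subgroup G).subtype with hMdef
  have hmemM : ∀ x ∈ M, ∃ hx : x ∈ (S : Subgroup G), f ⟨x, hx⟩ = 1 := by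
    rintro x ⟨y, hy, rfl⟩
    exact ⟨y.2, hy⟩
  have hMS : M ≤ (S : Subgroup G) := Subgroup.map_subtype_le _
  have hM : 2 * Nat.card M = Nat.card (S : Subgroup G) := by
    rw [hMdef, Subgroup.card_map_of_injective (S : Subgroup G).subtype_injective, ← f.ker.card_mul_index,
      Subgroup.index_ker, MonoidHom.range_eq_top.2 hfs, Subgroup.card_top,
      Nat.card_congr Multiplicative.toAdd, Nat.card_zmod, mul_comm]
  have hMn : ∀ s ∈ (S : Subgroup G), ∀ m ∈ M, s * m * s⁻¹ ∈ M := by
    rintro s hs m ⟨y, hy, rfl⟩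
    exact ⟨⟨s, hs⟩ * y * (⟨s, hs⟩ : ↥(S : Subgroup G))⁻¹, (MonoidHom.normal_ker f).conj_mem y hy _, rfl⟩
  let ε : Multiplicative (ZMod 2) := Multiplicative.ofAdd 1
  let u₀ : ↥(S : Subgroup G) := e.symm (ε, 1)
  have hε : ε ≠ 1 := by exact eps_ne
  have hfu : f u₀ = ε := by
    show (e (e.symm (ε, 1))).1 = ε
    rw [e.apply_symm_apply]
  have hu₀ : u₀ ≠ 1 := fun h => hε (by rw [← hfu, h, map_one])
  have hu2 : orderOf (u₀ : G) = 2 := by
    rw [Subgroup.orderOf_coe]
    refine orderOf_eq_prime ?_ hu₀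
    refine e.injective ?_
    rw [map_pow, map_one, e.apply_symm_apply, Prod.pow_mk, one_pow]
    exact Prod.ext eps_sq rfl
  have huc : ∀ s ∈ (S : Subgroup G), s * (u₀ : G) = (u₀ : G) * s := by
    intro s hs
    have h : (⟨s, hs⟩ : ↥(S : Subgroup G)) * u₀ = u₀ * ⟨s, hs⟩ := by
      refine e.injective ?_
      rw [map_mul, map_mul, e.apply_symm_apply]
      exact Prod.ext (mul_comm _ _) (show _ * (1 : DihedralGroup 4) = 1 * _ by rw [mul_one, one_mul])
    exact congrArg Subtype.val h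
  obtain ⟨σ, hσ⟩ := Cfsg.Lib.Transfer.exists_nontrivial_sign S M hMS hM hMn (u₀ : G) u₀.2 hu2 huc (by
    intro x hxM hxc hconj
    obtain ⟨hxS, hfx⟩ := hmemM x hxM
    obtain ⟨c, hc⟩ := isConj_iff.1 hconj
    have hxcent : x ∈ Subgroup.centralizer ((S : Subgroup G) : Set G) :=
      Subgroup.mem_centralizer_iff.2 fun s hs => hxc s hs
    have hy : c⁻¹ * x * c ∈ Subgroup.centralizer ((S : Subgroup G) : Set G) := by
      rw [show c⁻¹ * x * c = (u₀ : G) by rw [← hc]; group]
      exact Subgroup.mem_centralizer_iff.2 fun s hs => huc s hs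
    obtain ⟨n, hn, hnx⟩ := Sylow.conj_eq_normalizer_conj_of_mem_centralizer S x c hxcent hy
    rw [show c⁻¹ * x * c = (u₀ : G) by rw [← hc]; group] at hnx
    -- conjugation by `n` on the Sylow subgroup
    have hnS : ∀ s : ↥(S : Subgroup G), n⁻¹ * (s : G) * n ∈ (S : Subgroup G) := fun s =>
      (Subgroup.mem_normalizer_iff''.1 hn (s : G)).1 s.2
    let κ : ↥(S : Subgroup G) →* ↥(S : Subgroup G) :=
      { toFun := fun s => ⟨n⁻¹ * (s : G) * n, hnS s⟩
        map_one' := Subtype.ext (by show n⁻¹ * (1 : G) * n = 1; group)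
        map_mul' := fun a b => Subtype.ext (by
          show n⁻¹ * ((a : G) * b) * n = n⁻¹ * (a : G) * n * (n⁻¹ * (b : G) * n); group) }
    have hκ : κ ⟨x, hxS⟩ = u₀ := Subtype.ext hnx.symm
    have hc2 : (e ⟨x, hxS⟩).2 = 1 ∨ (e ⟨x, hxS⟩).2 = DihedralGroup.r 2 := by
      refine center_dihedral_four _ fun d => ?_
      have h : e.symm (1, d) * ⟨x, hxS⟩ = ⟨x, hxS⟩ * e.symm (1, d) :=
        Subtype.ext (hxc _ (e.symm (1, d)).2)
      have h' := congrArg (fun z => (e z).2) h
      simpa using h'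
    rcases hc2 with h | h
    · have : (⟨x, hxS⟩ : ↥(S : Subgroup G)) = 1 := e.injective (by rw [map_one]; exact Prod.ext hfx h)
      rw [this, map_one] at hκ
      exact hu₀ hκ.symm
    · let a : ↥(S : Subgroup G) := e.symm (1, DihedralGroup.r 1)
      let b : ↥(S : Subgroup G) := e.symm (1, DihedralGroup.sr 0)
      have hab : (⟨x, hxS⟩ : ↥(S : Subgroup G)) = a * b * a⁻¹ * b⁻¹ := by
        refine e.injective ?_
        simp only [map_mul, map_inv, a, b, e.apply_symm_apply, Prod.mk_mul_mk, Prod.inv_mk]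
        exact Prod.ext (hfx.trans (by simp)) (h.trans commutator_dihedral_four.symm)
      have h1 : f (κ ⟨x, hxS⟩) = 1 := by
        rw [hab, map_mul, map_mul, map_mul, map_inv, map_inv, map_mul, map_mul, map_mul, map_inv, map_inv]
        rw [mul_comm (f (κ a)), mul_inv_cancel_right, mul_inv_cancel]
      rw [hκ, hfu] at h1
      exact hε h1)
  rcases (MonoidHom.normal_ker σ).eq_bot_or_eq_top with h | h
  · exact hG ⟨⟨fun a b => (σ.ker_eq_bot_iff.1 h) (by rw [map_mul, map_mul, mul_comm])⟩⟩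
  · exact hσ (MonoidHom.mem_ker.1 (h.ge (Subgroup.mem_top _)))

end Cfsg.Agent.S3309
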