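import Cfsg.Statements.S3315
import Mathlib
import Cfsg.Agent.Lib.Classical.UnitarySylowTwoProps
-- import your own Cfsg.Agent.* helpers here

set_option autoImplicit false
open Cfsg

namespace Cfsg.Agent.S3315

open Cfsg.Lib.Classical.UnitarySylowTwo

/-- The sign character. -/
def chi (x : ZMod 2) : ℤ := if x = 0 then 1 else -1

theorem chi_add : ∀ x y : ZMod 2, chi (x + y) = chi x * chi y := by decide +kernel

theorem chi_ne : ∀ x : ZMod 2, x ≠ 0 → chi x = -1 := by decide +kernel

theorem sum_chi {A : Type*} [AddCommGroup A] [Fintype A] (f : A → ZMod 2) (hf : ∀ a b, f (a + b) = f a + f b)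
    {a₀ : A} (h : f a₀ ≠ 0) : ∑ a, chi (f a) = 0 := by
  have e : ∑ a, chi (f a) = -∑ a, chi (f a) := by
    conv_lhs => rw [← Equiv.sum_comp (Equiv.addLeft a₀)]
    rw [← Finset.sum_neg_distrib]
    refine Finset.sum_congr rfl fun a _ => ?_
    rw [Equiv.coe_addLeft, hf, chi_add, chi_ne _ h, neg_one_mul]
  omega

/-- No half-dimensional subgroup is singular for a non-zero functional of the norm. -/
theorem no_singular {F : Type*} [Field F] [Fintype F] {n : ℕ} (hF : Fintype.card F = 4 ^ n) (hn : 1 ≤ n)
    (lam : F →+ ZMod 2) (t₀ : F) (ht₀ : t₀ ^ (2 ^ n) = t₀) (hlt : lam t₀ ≠ 0) (W : AddSubgroup F)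
    (hW : 4 ^ n ≤ Nat.card W * Nat.card W) (hQ : ∀ w ∈ W, lam (w ^ (2 ^ n) * w) = 0) : False := by
  classical
  have h2 := two_eq_zero hF hn
  set q := 2 ^ n with hq
  have hq0 : q ≠ 0 := pow_ne_zero n two_ne_zero
  let Q : F → ZMod 2 := fun v => lam (v ^ q * v)
  let b : F → F → ZMod 2 := fun v w => lam (v ^ q * w + w ^ q * v)
  have hsig : ∀ x y : F, (x + y) ^ q = x ^ q + y ^ q := pow_add_q hF hn
  have hQadd : ∀ v w, Q (v + w) = Q v + Q w + b v w := fun v w => by
    simp only [Q, b, ← map_add]
    congr 1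
    rw [hsig]
    ring
  have hb1 : ∀ u v w, b (u + v) w = b u w + b v w := fun u v w => by
    simp only [b, ← map_add]
    congr 1
    rw [hsig]
    ring
  have hb2 : ∀ u v w, b w (u + v) = b w u + b w v := fun u v w => by
    simp only [b, ← map_add]
    congr 1
    rw [hsig]
    ring
  have hQW : ∀ w : W, Q w = 0 := fun w => hQ w w.2
  have hbW : ∀ v w : W, b v w = 0 := fun v w => by
    have h := hQadd v w
    rw [hQ _ (add_mem v.2 w.2) |> fun h' => (show Q ((v : F) + w) = 0 from h'), hQW, hQW, add_zero, zero_add] at h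
    exact h.symm
  have hnd : ∀ w : F, w ≠ 0 → ∃ v, b v w ≠ 0 := by
    intro w hw
    obtain ⟨x, hx⟩ := (fixed_card hF hn).2 t₀ ht₀
    refine ⟨(x / w) ^ q, ?_⟩
    have hxw : x / w * w = x := div_mul_cancel₀ x hw
    have e : ((x / w) ^ q) ^ q * w + w ^ q * (x / w) ^ q = t₀ := by
      rw [hq, pow_q_q hF, ← mul_pow, hxw, mul_comm w, hxw, hx]
    show lam _ ≠ 0
    rwa [e]
  let P : Finset F := Finset.univ.filter fun v => ∀ w : W, b v w = 0
  have hinner : ∀ v, ∑ w : W, chi (b v w) = if v ∈ P then (Fintype.card W : ℤ) else 0 := by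
    intro v
    split_ifs with hv
    · have hv' : ∀ w : W, b v w = 0 := by simpa [P] using hv
      simp [hv', chi]
    · obtain ⟨w₀, hw₀⟩ : ∃ w : W, b v w ≠ 0 := by simpa [P] using hv
      exact sum_chi (fun w : W => b v w) (fun a c => hb2 a c v) hw₀
  have hPcard : (P.card : ℤ) * Fintype.card W = Fintype.card F := by
    have e1 : ∑ v : F, ∑ w : W, chi (b v w) = (P.card : ℤ) * Fintype.card W := by
      simp only [hinner, Finset.sum_ite_mem, Finset.univ_inter, Finset.sum_const, nsmul_eq_mul]
    rw [← e1, Finset.sum_comm, Finset.sum_eq_single (0 : W)]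
    · have : ∀ v, b v ((0 : W) : F) = 0 := fun v => by simp [b, zero_pow hq0]
      simp [chi, b, zero_pow hq0]
    · intro w _ hw
      obtain ⟨v₀, hv₀⟩ := hnd w (fun h => hw (Subtype.ext h))
      exact sum_chi (fun v => b v w) (fun a c => hb1 a c w) hv₀
    · simp
  have hWP : (Finset.univ.map (Function.Embedding.subtype (fun x => x ∈ W))) = P := by
    refine Finset.eq_of_subset_of_card_le (fun v hv => ?_) ?_
    · obtain ⟨w, -, rfl⟩ := Finset.mem_map.1 hv
      simp only [P, Finset.mem_filter, Finset.mem_univ, true_and]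
      exact fun u => hbW w u
    · rw [Finset.card_map, Finset.card_univ]
      have hW' : 4 ^ n ≤ Fintype.card W * Fintype.card W := by
        rw [← Nat.card_eq_fintype_card]; exact hW
      have h : P.card * Fintype.card W = Fintype.card F := by exact_mod_cast hPcard
      rw [hF] at h
      by_contra hlt'
      have : Fintype.card W * Fintype.card W < P.card * Fintype.card W :=
        Nat.mul_lt_mul_of_pos_right (not_le.1 hlt') Fintype.card_pos
      omega
  set S := ∑ v : F, chi (Q v) with hS
  have hS1 : S = (Fintype.card W : ℤ) := by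
    have e : (Fintype.card W : ℤ) * S = (Fintype.card W : ℤ) * Fintype.card W := by
      calc (Fintype.card W : ℤ) * S = ∑ _w : W, S := by simp
        _ = ∑ w : W, ∑ v : F, chi (Q (v + w)) := Finset.sum_congr rfl fun w _ => by
            rw [hS, ← Equiv.sum_comp (Equiv.addRight (w : F))]; rfl
        _ = ∑ v : F, chi (Q v) * ∑ w : W, chi (b v w) := by
            rw [Finset.sum_comm]
            refine Finset.sum_congr rfl fun v _ => ?_
            rw [Finset.mul_sum]
            refine Finset.sum_congr rfl fun w _ => ?_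
            rw [hQadd, hQW, add_zero, chi_add]
        _ = ∑ v ∈ P, chi (Q v) * (Fintype.card W : ℤ) := by
            simp only [hinner, mul_ite, mul_zero, Finset.sum_ite_mem, Finset.univ_inter]
        _ = _ := by
            rw [← hWP, Finset.sum_map]
            simp [hQW, chi]
    exact mul_left_cancel₀ (by exact_mod_cast Fintype.card_ne_zero) e
  -- grouping by the norm
  let N : F → F := fun v => v ^ q * v
  let G : AddSubgroup F := (tr hF hn).ker
  have hN : ∀ v, N v ∈ G := fun v => by
    refine (mem_ker_tr hF hn _).2 ?_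
    show (v ^ q * v) ^ q = v ^ q * v
    rw [mul_pow, hq, pow_q_q hF, mul_comm]
  let N' : F → G := fun v => ⟨N v, hN v⟩
  have hfib : ∀ t : G, t ≠ 0 → (Finset.univ.filter fun v => N' v = t).card = (Finset.univ.filter fun v => N v = 1).card := by
    intro t ht
    obtain ⟨s, hs⟩ := FiniteField.isSquare_of_char_two (show ringChar F = 2 by
      haveI : CharP F 2 := CharTwo.of_one_ne_zero_of_two_eq_zero one_ne_zero h2
      exact ringChar.eq F 2) (t : F)
    have ht0 : (t : F) ≠ 0 := fun h => ht (Subtype.ext h)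
    have hs0 : s ≠ 0 := fun h => ht0 (by rw [hs, h, mul_zero])
    have hsf : s ^ q = s := by
      have h : (s ^ q + s) * (s ^ q + s) = 0 := by
        have htf := (mem_ker_tr hF hn (t : F)).1 t.2
        rw [← hq, hs, mul_pow] at htf
        linear_combination htf + (s * s ^ q + s * s) * h2
      linear_combination (mul_self_eq_zero.1 h) - s * h2
    refine (Finset.card_bij (fun v _ => s * v) (fun v hv => ?_) (fun a _ c _ h => mul_left_cancel₀ hs0 h) fun v hv => ?_).symm
    · simp only [Finset.mem_filter, Finset.mem_univ, true_and, N', Subtype.ext_iff] at hv ⊢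
      show (s * v) ^ q * (s * v) = t
      have hv' : v ^ q * v = 1 := hv
      rw [mul_pow, hsf]
      linear_combination (s * s) * hv' - hs
    · simp only [Finset.mem_filter, Finset.mem_univ, true_and, N', Subtype.ext_iff] at hv ⊢
      refine ⟨v / s, ?_, by field_simp⟩
      show (v / s) ^ q * (v / s) = 1
      have hv' : v ^ q * v = t := hv
      rw [div_pow, hsf, div_mul_div_comm, hv', ← hs, div_self ht0]
  set k := (Finset.univ.filter fun v => N v = 1).card with hk
  have hk1 : 1 ≤ k := Finset.card_pos.2 ⟨1, by simp [N]⟩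
  have h0 : (Finset.univ.filter fun v => N' v = 0) = {0} := by
    ext v
    simp [N', Subtype.ext_iff, N, hq0, mul_eq_zero, pow_eq_zero_iff]
  have hS2 : S = 1 - (k : ℤ) := by
    have e : S = ∑ t : G, ((Finset.univ.filter fun v => N' v = t).card : ℤ) * chi (lam (t : F)) := by
      rw [hS, ← Finset.sum_fiberwise Finset.univ N' fun v => chi (Q v)]
      refine Finset.sum_congr rfl fun t _ => ?_
      rw [← smul_eq_mul, natCast_zsmul, ← Finset.sum_const]
      refine Finset.sum_congr rfl fun v hv => ?_
      rw [← (Finset.mem_filter.1 hv).2]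
    have hz : ∑ t : G, chi (lam (t : F)) = 0 :=
      sum_chi (fun t : G => lam (t : F)) (fun a c => map_add lam (a : F) (c : F)) (a₀ := ⟨t₀, (mem_ker_tr hF hn t₀).2 ht₀⟩) hlt
    rw [e, ← Finset.add_sum_erase _ _ (Finset.mem_univ (0 : G))]
    rw [← Finset.add_sum_erase _ _ (Finset.mem_univ (0 : G))] at hz
    rw [Finset.sum_congr rfl (fun t ht => by rw [hfib t (Finset.ne_of_mem_erase ht)]), ← Finset.mul_sum, h0,
      Finset.card_singleton]
    have hc0 : chi (lam ((0 : G) : F)) = 1 := by simp [chi]
    rw [hc0] at hz ⊢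
    rw [show ∑ x ∈ Finset.univ.erase (0 : G), chi (lam (x : F)) = -1 by linear_combination hz]
    push_cast
    ring
  have hWpos : 0 < Fintype.card W := Fintype.card_pos
  omega

/-- Let S be a Sylow 2-subgroup of SU₃(2ⁿ), n ≥ 2 (realised over the field with 4ⁿ elements). If a finite 2-group R contains a subgroup S' of index 2 isomorphic to S, then the centre of S' is contained in the centre of R. -/
theorem result {R : Type*} [Group R] [Finite R]
    (hR : IsPGroup 2 R) (n : ℕ) (hn : 2 ≤ n) {F : Type*} [Field F] [Fintype F] (hF : Fintype.card F = 4 ^ n)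
    (P : Sylow 2 ↥(Cfsg.SU 3 F (2 ^ n))) (S' : Subgroup R) (hS : Nonempty (↥S' ≃* ↥(P : Subgroup ↥(Cfsg.SU 3 F (2 ^ n)))))
    (hidx : S'.index = 2) :
    (Subgroup.center ↥S').map S'.subtype ≤ Subgroup.center R := by
  classical
  haveI : Fact (Nat.Prime 2) := ⟨Nat.prime_two⟩
  have hn1 : 1 ≤ n := le_trans one_le_two hn
  have h2 := two_eq_zero hF hn1
  haveI : CharP F 2 := CharTwo.of_one_ne_zero_of_two_eq_zero one_ne_zero h2
  let _ : Algebra (ZMod 2) F := ZMod.algebra F 2
  obtain ⟨e₁⟩ := hS
  obtain ⟨e₂⟩ := exists_equiv_SU hF hn1 P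
  let e := e₁.trans e₂
  haveI hSn : S'.Normal := Subgroup.normal_of_index_eq_two hidx
  rintro _ ⟨z₀, hz₀, rfl⟩
  refine Subgroup.mem_center_iff.2 fun g => ?_
  -- the induced automorphism
  let κ : ↥S' →* ↥S' :=
    { toFun := fun s => ⟨g * (s : R) * g⁻¹, hSn.conj_mem _ s.2 g⟩
      map_one' := Subtype.ext (by show g * 1 * g⁻¹ = (1 : R); group)
      map_mul' := fun a b => Subtype.ext (by
        show g * ((a : R) * b) * g⁻¹ = g * (a : R) * g⁻¹ * (g * (b : R) * g⁻¹); group) }
  let ψ : unipGroup hF hn1 →* unipGroup hF hn1 := e.toMonoidHom.comp (κ.comp e.symm.toMonoidHom)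
  have hκinj : Function.Injective κ := fun a b h => Subtype.ext (by
    have := congrArg Subtype.val h
    exact mul_left_cancel (mul_right_cancel this))
  have hψinj : Function.Injective ψ := e.injective.comp (hκinj.comp e.symm.injective)
  have hψcen : ∀ x, parA x = 0 → parA (ψ x) = 0 := fun x hx => by
    rw [← Cfsg.Lib.Classical.UnitarySylowTwo.sq_eq_one_iff] at hx ⊢
    rw [← map_pow, hx, map_one]
  choose lift hlift using exists_parA (hF := hF) (hn := hn1)
  have hwell : ∀ x, parA (ψ x) = parA (ψ (lift (parA x))) := by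
    intro x
    set y := lift (parA x) with hy
    have hinv : parA y⁻¹ = parA y := by
      have h := (par_mul y⁻¹ y).1
      rw [inv_mul_cancel, par_one.1] at h
      linear_combination -h - parA y * h2
    have hz : parA (x * y⁻¹) = 0 := by
      rw [(par_mul _ _).1, hinv, hy, hlift]
      linear_combination parA x * h2
    have h := (par_mul (ψ (x * y⁻¹)) (ψ y)).1
    rw [← map_mul, inv_mul_cancel_right, hψcen _ hz, zero_add] at h
    exact h
  let A : F →+ F := AddMonoidHom.mk' (fun a => parA (ψ (lift a))) fun a b => by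
    rw [show a + b = parA (lift a * lift b) by rw [(par_mul _ _).1, hlift, hlift], ← hwell, map_mul, (par_mul _ _).1]
  have hA : ∀ x, parA (ψ x) = A (parA x) := hwell
  have hg2 : g * g ∈ S' := Subgroup.mul_self_mem_of_index_two hidx g
  have hA2 : ∀ a, A (A a) = a := by
    intro a
    rw [← hlift a, ← hA, ← hA]
    have e1 : ψ (ψ (lift a)) = e ⟨g * g, hg2⟩ * lift a * (e ⟨g * g, hg2⟩)⁻¹ := by
      show e (κ (e.symm (e (κ (e.symm (lift a)))))) = _
      rw [e.symm_apply_apply, ← map_inv]
      conv_rhs => rw [← e.apply_symm_apply (lift a)]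
      rw [← map_mul, ← map_mul]
      congr 1
      refine Subtype.ext ?_
      show g * (g * (e.symm (lift a) : R) * g⁻¹) * g⁻¹ = g * g * (e.symm (lift a) : R) * (g * g)⁻¹
      group
    rw [e1, (par_mul _ _).1, (par_mul _ _).1]
    have hi := (par_mul (e ⟨g * g, hg2⟩)⁻¹ (e ⟨g * g, hg2⟩)).1
    rw [inv_mul_cancel, par_one.1] at hi
    linear_combination -hi
  let D : F →+ F := A + AddMonoidHom.id F
  have hW : 4 ^ n ≤ Nat.card D.ker * Nat.card D.ker := by
    have hle : D.range ≤ D.ker := by
      rintro _ ⟨a, rfl⟩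
      rw [AddMonoidHom.mem_ker]
      show A (A a + a) + (A a + a) = 0
      rw [map_add, hA2]
      linear_combination (A a + a) * h2
    calc 4 ^ n = Nat.card D.ker * Nat.card D.range := by
          rw [← AddSubgroup.index_ker, AddSubgroup.card_mul_index, Nat.card_eq_fintype_card, hF]
      _ ≤ _ := Nat.mul_le_mul_left _ (AddSubgroup.card_le_of_le hle)
  let U₀ : AddSubgroup F :=
    { carrier := {t | ∃ z : unipGroup hF hn1, parA z = 0 ∧ parB z = t ∧ ψ z = z}
      zero_mem' := ⟨1, par_one.1, par_one.2, map_one ψ⟩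
      add_mem' := by
        rintro _ _ ⟨x, hx, rfl, hxψ⟩ ⟨y, hy, rfl, hyψ⟩
        refine ⟨x * y, by rw [(par_mul x y).1, hx, hy, add_zero], ?_, by rw [map_mul, hxψ, hyψ]⟩
        rw [(par_mul x y).2, hy, mul_zero, add_zero]
      neg_mem' := by
        rintro _ ⟨x, hx, rfl, hxψ⟩
        exact ⟨x, hx, by linear_combination parB x * h2, hxψ⟩ }
  by_contra hne
  set z := e z₀ with hz
  have hzc : parA z = 0 := by
    rw [← mem_center_iff]
    exact Subgroup.mem_center_iff.2 fun u => e.symm.injective (by
      rw [map_mul, map_mul, hz, e.symm_apply_apply]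
      exact Subgroup.mem_center_iff.1 hz₀ _)
  have hψz : ψ z ≠ z := fun h => hne (by
    have h' : κ z₀ = z₀ := e.injective (by
      show e (κ z₀) = e z₀
      calc e (κ z₀) = ψ z := by show _ = e (κ (e.symm (e z₀))); rw [e.symm_apply_apply]
        _ = z := h)
    exact mul_inv_eq_iff_eq_mul.1 (congrArg Subtype.val h'))
  have hzf : parB z ^ (2 ^ n) = parB z := by
    have h := (par_spec z).2
    rw [hzc, mul_zero] at h
    linear_combination h - parB z * h2
  have hzU : parB z ∉ U₀ := by
    rintro ⟨y, hy, hyz, hyψ⟩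
    obtain rfl : y = z := par_ext (hy.trans hzc.symm) hyz
    exact hψz hyψ
  obtain ⟨f, hf, hfU⟩ := Submodule.exists_dual_map_eq_bot_of_notMem
    (p := AddSubgroup.toZModSubmodule 2 U₀) (R := ZMod 2) (x := parB z) hzU inferInstance
  refine no_singular hF hn1 f.toAddMonoidHom (parB z) hzf hf D.ker hW fun w hw => ?_
  have hAw : A w = w := by
    have h : A w + w = 0 := hw
    linear_combination h - w * h2
  have hmem : w ^ (2 ^ n) * w ∈ U₀ := by
    refine ⟨lift w ^ 2, sq_parA _, ?_, ?_⟩
    · rw [pow_two, (par_mul _ _).2, hlift]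
      linear_combination parB (lift w) * h2
    · set x := lift w with hx
      set c := x⁻¹ * ψ x with hc
      have hψx : ψ x = x * c := (mul_inv_cancel_left x (ψ x)).symm
      have hc0 : parA c = 0 := by
        have h := (par_mul x c).1
        rw [← hψx, hA, hlift, hAw] at h
        linear_combination -h
      have hcomm : Commute x c := Subgroup.mem_center_iff.1 ((mem_center_iff c).2 hc0) x
      rw [map_pow, hψx, hcomm.mul_pow, (Cfsg.Lib.Classical.UnitarySylowTwo.sq_eq_one_iff c).2 hc0, mul_one]
  show f (w ^ 2 ^ n * w) = 0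
  have : f (w ^ 2 ^ n * w) ∈ (AddSubgroup.toZModSubmodule 2 U₀).map f := ⟨_, hmem, rfl⟩
  rwa [hfU, Submodule.mem_bot] at this

end Cfsg.Agent.S3315
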