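import Cfsg.Statements.S3335
-- import your own Cfsg.Agent.* helpers here

set_option autoImplicit false
open Cfsg

namespace Cfsg.Agent.S3335

set_option maxHeartbeats 1000000
open Subgroup Equiv

variable {G : Type*} [Group G]

/-- Moore's relations on the first `m` terms. -/
structure Rel (x : ℕ → G) (m : ℕ) : Prop where
  cube : 0 < m → x 0 * x 0 * x 0 = 1
  sq : ∀ i, 1 ≤ i → i < m → x i * x i = 1
  braid : ∀ i, i + 1 < m → (x i * x (i + 1)) * (x i * x (i + 1)) * (x i * x (i + 1)) = 1
  far : ∀ i j, i + 1 < j → j < m → (x i * x j) * (x i * x j) = 1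

theorem Rel.mono {x : ℕ → G} {m : ℕ} (h : Rel x (m + 1)) : Rel x m :=
  ⟨fun hm => h.cube (by omega), fun i a b => h.sq i a (by omega), fun i a => h.braid i (by omega),
    fun i j a b => h.far i j a (by omega)⟩

/-- The chain of cosets. -/
def chain {X : Type*} [MulAction G X] (x : ℕ → G) (m : ℕ) (c : X) : ℕ → X
  | 0 => c
  | d + 1 => x (m - 1 - d) • chain x m c d

theorem card_bound : ∀ (m : ℕ) (x : ℕ → G), Rel x m →
    Finite (closure (x '' Set.Iio m)) ∧ 2 * Nat.card (closure (x '' Set.Iio m)) ≤ (m + 2).factorial := by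
  classical
  intro m
  induction m with
  | zero =>
    intro x _
    have e : closure (x '' Set.Iio 0) = ⊥ := by simp
    rw [e]
    exact ⟨inferInstance, by simp⟩
  | succ m ih =>
    intro x hR
    obtain ⟨hfin, hle⟩ := ih x hR.mono
    set K := closure (x '' Set.Iio m) with hK
    set L := closure (x '' Set.Iio (m + 1)) with hL
    let c : ℕ → G ⧸ K := fun k => chain x (m + 1) ((1 : G) : G ⧸ K) (m + 1 - k)
    have ctop : c (m + 1) = ((1 : G) : G ⧸ K) := by simp [c, chain]
    have cstep : ∀ k, k ≤ m → x k • c (k + 1) = c k := by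
      intro k hk
      simp only [c]
      rw [show m + 1 - k = (m + 1 - (k + 1)) + 1 by omega, chain,
        show m + 1 - 1 - (m + 1 - (k + 1)) = k by omega]
    have hinv : ∀ i, 1 ≤ i → i ≤ m → ∀ y : G ⧸ K, x i • x i • y = y := fun i h1 h2 y => by
      rw [← mul_smul, hR.sq i h1 (by omega), one_smul]
    have hfix : ∀ i, i < m → x i • ((1 : G) : G ⧸ K) = ((1 : G) : G ⧸ K) := by
      intro i hi
      show ((x i * 1 : G) : G ⧸ K) = ((1 : G) : G ⧸ K)
      rw [QuotientGroup.eq, mul_one, mul_one]
      exact K.inv_mem (subset_closure ⟨i, hi, rfl⟩)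
    have hcube : ∀ y : G ⧸ K, x 0 • x 0 • x 0 • y = y := fun y => by
      rw [← mul_smul, ← mul_smul, hR.cube (by omega), one_smul]
    have hx0inv : x 0 * x 0 = (x 0)⁻¹ := eq_inv_of_mul_eq_one_left (hR.cube (by omega))
    -- moving past generators far away
    have hcomm : ∀ i j, 1 ≤ i → i + 1 < j → j ≤ m → x i * x j = x j * x i := by
      intro i j hi hij hj
      have h1 : (x i)⁻¹ = x i := inv_eq_of_mul_eq_one_right (hR.sq i hi (by omega))
      have h2 : (x j)⁻¹ = x j := inv_eq_of_mul_eq_one_right (hR.sq j (by omega) (by omega))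
      have h3 := inv_eq_of_mul_eq_one_right (hR.far i j hij (by omega))
      rw [mul_inv_rev, h1, h2] at h3
      exact h3.symm
    have hzero : ∀ j, 2 ≤ j → j ≤ m → x j * x 0 = (x 0)⁻¹ * x j := by
      intro j hj hjm
      have h2 : (x j)⁻¹ = x j := inv_eq_of_mul_eq_one_right (hR.sq j (by omega) (by omega))
      have h3 := inv_eq_of_mul_eq_one_right (hR.far 0 j (by omega) (by omega))
      rw [mul_inv_rev, h2] at h3
      have h4 : x j * x 0 = (x 0)⁻¹ * (x 0 * x j) * x 0 := by group
      rw [h4, ← h3]; group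
    -- fixed cosets above
    have low : ∀ k, k ≤ m + 1 → ∀ i, 1 ≤ i → i + 1 < k → x i • c k = c k := by
      intro k hk
      induction hk' : m + 1 - k generalizing k with
      | zero =>
        intro i h1 h2
        obtain rfl : k = m + 1 := by omega
        rw [ctop]; exact hfix i (by omega)
      | succ d ihd =>
        intro i h1 h2
        rw [← cstep k (by omega), ← mul_smul, hcomm i k h1 h2 (by omega), mul_smul,
          ihd (k + 1) (by omega) (by omega) i h1 (by omega)]
    have low0 : ∀ k, 2 ≤ k → k ≤ m + 1 → x 0 • c k = c k := by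
      intro k hk2 hk
      induction hk' : m + 1 - k generalizing k with
      | zero =>
        obtain rfl : k = m + 1 := by omega
        rw [ctop]; exact hfix 0 (by omega)
      | succ d ihd =>
        have h := ihd (k + 1) (by omega) (by omega) (by omega)
        have h' : (x 0)⁻¹ • c (k + 1) = c (k + 1) := inv_smul_eq_iff.2 h.symm
        have e : x 0 * x k = x k * (x 0)⁻¹ := by
          have h6 : x 0 * x k = x 0 * (x k * x 0) * (x 0)⁻¹ := by group
          rw [h6, hzero k hk2 (by omega), mul_inv_cancel_left]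
        rw [← cstep k (by omega), ← mul_smul, e, mul_smul, h']
    have braid : ∀ i, 1 ≤ i → i + 1 ≤ m → x (i + 1) * x i * x (i + 1) = x i * x (i + 1) * x i := by
      intro i hi him
      have h1 : (x i)⁻¹ = x i := inv_eq_of_mul_eq_one_right (hR.sq i hi (by omega))
      have h2 : (x (i + 1))⁻¹ = x (i + 1) := inv_eq_of_mul_eq_one_right (hR.sq (i + 1) (by omega) (by omega))
      have h3 := hR.braid i (by omega)
      have h4 : x (i + 1) * x i * x (i + 1) = (x i)⁻¹ * ((x i * x (i + 1)) * (x i * x (i + 1)) * (x i * x (i + 1))) * (x (i + 1))⁻¹ * (x i)⁻¹ := by group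
      rw [h4, h3, h1, h2]; group
    have high : ∀ j k, 1 ≤ k → k < j → j ≤ m → x j • c k = c k := by
      intro j k hk
      induction hd : j - k generalizing k with
      | zero => intro h; omega
      | succ d ihd =>
        intro hkj hjm
        rcases Nat.eq_zero_or_pos d with hd0 | hd0
        · obtain rfl : j = k + 1 := by omega
          have hfix2 : x k • c (k + 2) = c (k + 2) := low (k + 2) (by omega) k hk (by omega)
          calc x (k + 1) • c k = (x (k + 1) * x k * x (k + 1)) • c (k + 2) := by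
                rw [← cstep k (by omega), ← cstep (k + 1) (by omega), mul_smul, mul_smul]
            _ = (x k * x (k + 1) * x k) • c (k + 2) := by rw [braid k hk (by omega)]
            _ = c k := by rw [mul_smul, mul_smul, hfix2, cstep (k + 1) (by omega), cstep k (by omega)]
        · rw [← cstep k (by omega), ← mul_smul, ← hcomm k j hk (by omega) hjm, mul_smul,
            ihd (k + 1) (by omega) (by omega) (by omega) hjm]
    let e0 : G ⧸ K := x 0 • c 0
    let S : Finset (G ⧸ K) := insert e0 ((Finset.range (m + 2)).image c)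
    have hcS : ∀ k, k ≤ m + 1 → c k ∈ S := fun k hk =>
      Finset.mem_insert_of_mem (Finset.mem_image.2 ⟨k, Finset.mem_range.2 (by omega), rfl⟩)
    have heS : e0 ∈ S := Finset.mem_insert_self _ _
    have hclosed : ∀ i, i ≤ m → ∀ y ∈ S, x i • y ∈ S := by
      intro i him y hy
      have hc01 : x 0 • c 1 = c 0 := cstep 0 (by omega)
      rcases Finset.mem_insert.1 hy with rfl | hy
      · rcases Nat.eq_zero_or_pos i with rfl | hi
        · show x 0 • x 0 • c 0 ∈ S
          rw [← hc01, hcube]
          exact hcS 1 (by omega)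
        · show x i • x 0 • c 0 ∈ S
          rw [← hc01, ← mul_smul (x 0), hx0inv]
          rcases Nat.lt_or_ge i 2 with h | h
          · obtain rfl : i = 1 := by omega
            rw [← cstep 1 (by omega), ← mul_smul, ← mul_smul]
            have h1 : (x 1)⁻¹ = x 1 := inv_eq_of_mul_eq_one_right (hR.sq 1 le_rfl (by omega))
            have h3 := hR.braid 0 (by omega)
            have h4 : x 1 * (x 0)⁻¹ * x 1 = x 0 * x 1 * x 0 := by
              have h5 : x 0 * x 1 * x 0 = ((x 0 * x 1) * (x 0 * x 1) * (x 0 * x 1)) * (x 1)⁻¹ * (x 0)⁻¹ * (x 1)⁻¹ := by group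
              rw [h5, h3, h1, one_mul]
            rw [h4, mul_smul, mul_smul, low0 2 le_rfl (by omega), cstep 1 (by omega), hc01]
            exact hcS 0 (by omega)
          · rw [← mul_smul, show x i * (x 0)⁻¹ = x 0 * x i by
              have h6 : x i * (x 0)⁻¹ = x 0 * ((x 0)⁻¹ * x i) * (x 0)⁻¹ := by group
              rw [h6, ← hzero i h him]; group,
              mul_smul, high i 1 le_rfl h him, hc01]
            exact hcS 0 (by omega)
      obtain ⟨k, hk, rfl⟩ := Finset.mem_image.1 hy
      rw [Finset.mem_range] at hk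
      rcases Nat.eq_zero_or_pos i with rfl | hi
      · rcases Nat.lt_or_ge k 2 with h | h
        · rcases Nat.eq_zero_or_pos k with rfl | hk1
          · exact heS
          · obtain rfl : k = 1 := by omega
            rw [hc01]; exact hcS 0 (by omega)
        · rw [low0 k h (by omega)]; exact hcS k (by omega)
      rcases Nat.eq_zero_or_pos k with rfl | hk1
      · rw [← hc01]
        rcases Nat.lt_or_ge i 2 with h | h
        · obtain rfl : i = 1 := by omega
          rw [← cstep 1 (by omega), ← mul_smul, ← mul_smul]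
          have h1 : (x 1)⁻¹ = x 1 := inv_eq_of_mul_eq_one_right (hR.sq 1 le_rfl (by omega))
          have h3 := hR.braid 0 (by omega)
          have h4 : x 1 * x 0 * x 1 = (x 0)⁻¹ * x 1 * (x 0)⁻¹ := by
            have h5 : x 1 * x 0 * x 1 = (x 0)⁻¹ * ((x 0 * x 1) * (x 0 * x 1) * (x 0 * x 1)) * (x 1)⁻¹ * (x 0)⁻¹ := by group
            rw [h5, h3, h1]; group
          have hfix3 : (x 0)⁻¹ • c 2 = c 2 := inv_smul_eq_iff.2 (low0 2 le_rfl (by omega)).symm
          rw [h4, mul_smul, mul_smul, hfix3, cstep 1 (by omega), ← hx0inv, mul_smul, hc01]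
          exact heS
        · rw [← mul_smul, hzero i h him, mul_smul, high i 1 le_rfl h him, ← hx0inv, mul_smul, hc01]
          exact heS
      rcases Nat.lt_trichotomy (i + 1) k with h | h | h
      · rw [low k (by omega) i hi h]; exact hcS k (by omega)
      · rw [← h, cstep i him]; exact hcS i (by omega)
      · rcases Nat.lt_or_ge k i with h' | h'
        · rw [high i k hk1 h' him]; exact hcS k (by omega)
        · obtain rfl : i = k := by omega
          rw [← cstep i him, hinv i hi him]; exact hcS (i + 1) (by omega)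
    have hall : ∀ g ∈ L, ∀ y ∈ S, g • y ∈ S := by
      intro g hg
      induction hg using closure_induction with
      | mem g hg =>
        obtain ⟨i, hi, rfl⟩ := hg
        exact hclosed i (by simpa [Nat.lt_succ_iff] using hi)
      | one => intro y hy; rwa [one_smul]
      | mul g h _ _ hg hh => intro y hy; rw [mul_smul]; exact hg _ (hh _ hy)
      | inv g _ hg =>
        intro y hy
        have hinj : Function.Injective (fun z : S => (⟨g • z.1, hg _ z.2⟩ : S)) := fun u v h =>
          Subtype.ext (smul_left_cancel g (congrArg Subtype.val h))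
        obtain ⟨z, hz⟩ := (Finite.injective_iff_surjective.1 hinj) ⟨y, hy⟩
        rw [show g⁻¹ • y = z.1 from inv_smul_eq_iff.2 (congrArg Subtype.val hz).symm]
        exact z.2
    let F : L → S × K := fun g => (⟨((g : G) : G ⧸ K), by
        have h := hall g g.2 _ (ctop ▸ hcS (m + 1) le_rfl)
        have e : (g : G) • ((1 : G) : G ⧸ K) = ((g : G) : G ⧸ K) := by
          show (((g : G) * 1 : G) : G ⧸ K) = _
          rw [mul_one]
        rwa [e] at h⟩,
      ⟨(((g : G) : G ⧸ K).out)⁻¹ * g, QuotientGroup.eq.1 (QuotientGroup.out_eq' _)⟩)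
    have hF : Function.Injective F := fun u v h => by
      have h1 : ((u : G) : G ⧸ K) = ((v : G) : G ⧸ K) := congrArg Subtype.val (congrArg Prod.fst h)
      have h2 := congrArg Subtype.val (congrArg Prod.snd h)
      simp only [F, h1] at h2
      exact Subtype.ext (mul_left_cancel h2)
    haveI := hfin
    refine ⟨Finite.of_injective F hF, ?_⟩
    have hc := Nat.card_le_card_of_injective F hF
    rw [Nat.card_prod, Nat.card_eq_fintype_card (α := S), Fintype.card_coe] at hc
    have hS : S.card ≤ m + 3 := (Finset.card_insert_le _ _).trans (by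
      have := Finset.card_image_le (s := Finset.range (m + 2)) (f := c)
      rw [Finset.card_range] at this; omega)
    calc 2 * Nat.card L ≤ 2 * (S.card * Nat.card K) := Nat.mul_le_mul_left 2 hc
      _ = S.card * (2 * Nat.card K) := by ring
      _ ≤ (m + 3) * (m + 2).factorial := Nat.mul_le_mul hS hle
      _ = _ := (Nat.factorial_succ (m + 2)).symm

/-- The images of the generators. -/
def gen (n : ℕ) (hn : 3 ≤ n) (i : Fin (n - 2)) : Perm (Fin n) :=
  if i.val = 0 then swap ⟨0, by omega⟩ ⟨1, by omega⟩ * swap ⟨1, by omega⟩ ⟨2, by omega⟩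
  else swap ⟨0, by omega⟩ ⟨1, by omega⟩ * swap ⟨i.val + 1, by omega⟩ ⟨i.val + 2, by omega⟩

theorem swap_comm_disjoint {α : Type*} [DecidableEq α] {a b c d : α} (h1 : a ≠ c) (h2 : a ≠ d) (h3 : b ≠ c)
    (h4 : b ≠ d) : Commute (swap a b) (swap c d) := by
  refine (Perm.Disjoint.commute fun x => ?_)
  by_cases hx : x = a ∨ x = b
  · right
    rcases hx with rfl | rfl
    · exact swap_apply_of_ne_of_ne h1 h2
    · exact swap_apply_of_ne_of_ne h3 h4
  · push Not at hx
    exact Or.inl (swap_apply_of_ne_of_ne hx.1 hx.2)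

theorem three_cube {α : Type*} [DecidableEq α] [Fintype α] {a b c : α} (ab : a ≠ b) (ac : a ≠ c) (bc : b ≠ c) :
    (swap a b * swap a c) ^ 3 = 1 := by
  rw [← (Perm.isThreeCycle_swap_mul_swap_same ab ac bc).orderOf]
  exact pow_orderOf_eq_one _

theorem prod_sq {M : Type*} [Group M] {p q : M} (h : Commute p q) (hp : p * p = 1) (hq : q * q = 1) :
    (p * q) ^ 2 = 1 := by
  rw [h.mul_pow, sq, sq, hp, hq, one_mul]

theorem gen_rel (n : ℕ) (hn : 3 ≤ n) (r : FreeGroup (Fin (n - 2)))
    (hr : r ∈ ({g : FreeGroup (Fin (n - 2)) | ∃ i : Fin (n - 2), i.val = 0 ∧ g = FreeGroup.of i ^ 3} ∪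
       {g | ∃ i : Fin (n - 2), 1 ≤ i.val ∧ g = FreeGroup.of i ^ 2} ∪
       {g | ∃ i j : Fin (n - 2), j.val = i.val + 1 ∧ g = (FreeGroup.of i * FreeGroup.of j) ^ 3} ∪
       {g | ∃ i j : Fin (n - 2), i.val + 1 < j.val ∧ g = (FreeGroup.of i * FreeGroup.of j) ^ 2})) :
    FreeGroup.lift (gen n hn) r = 1 := by
  classical
  rcases hr with ((⟨i, hi, rfl⟩ | ⟨i, hi, rfl⟩) | ⟨i, j, hij, rfl⟩) | ⟨i, j, hij, rfl⟩ <;>
    simp only [map_pow, map_mul, FreeGroup.lift_apply_of]
  · rw [gen, if_pos hi, swap_comm (⟨0, _⟩ : Fin n) ⟨1, _⟩]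
    exact three_cube (by simp [Fin.ext_iff]) (by simp [Fin.ext_iff]) (by simp [Fin.ext_iff])
  · rw [gen, if_neg (by omega)]
    exact prod_sq (swap_comm_disjoint (by simp [Fin.ext_iff]) (by simp [Fin.ext_iff])
      (by simp [Fin.ext_iff]; omega) (by simp [Fin.ext_iff])) (swap_mul_self _ _) (swap_mul_self _ _)
  · rcases Nat.eq_zero_or_pos i.val with h0 | h0
    · rw [gen, gen, if_pos h0, if_neg (by omega)]
      have e : swap (⟨0, by omega⟩ : Fin n) ⟨1, by omega⟩ * swap ⟨1, by omega⟩ ⟨2, by omega⟩ *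
          (swap ⟨0, by omega⟩ ⟨1, by omega⟩ * swap ⟨j.val + 1, by omega⟩ ⟨j.val + 2, by omega⟩) =
          swap ⟨2, by omega⟩ ⟨0, by omega⟩ * swap ⟨2, by omega⟩ ⟨3, by omega⟩ := by
        rw [← mul_assoc, show swap (⟨0, by omega⟩ : Fin n) ⟨1, by omega⟩ * swap ⟨1, by omega⟩ ⟨2, by omega⟩ *
          swap ⟨0, by omega⟩ ⟨1, by omega⟩ = swap ⟨2, by omega⟩ ⟨0, by omega⟩ from ?_]
        · simp only [show j.val = 1 by omega]
        · rw [swap_comm (⟨0, _⟩ : Fin n) ⟨1, _⟩, swap_comm (⟨1, _⟩ : Fin n) ⟨0, _⟩]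
          have h := swap_apply_apply (swap (⟨0, by omega⟩ : Fin n) ⟨1, by omega⟩) ⟨1, by omega⟩ ⟨2, by omega⟩
          rw [swap_apply_right, swap_apply_of_ne_of_ne (by simp [Fin.ext_iff]) (by simp [Fin.ext_iff]), swap_inv] at h
          rw [← h, swap_comm]
      rw [e]
      exact three_cube (by simp [Fin.ext_iff]) (by simp [Fin.ext_iff]) (by simp [Fin.ext_iff])
    · rw [gen, gen, if_neg (by omega), if_neg (by omega)]
      have hc := swap_comm_disjoint (a := (⟨0, by omega⟩ : Fin n)) (b := ⟨1, by omega⟩) (c := ⟨i.val + 1, by omega⟩)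
        (d := ⟨i.val + 2, by omega⟩) (by simp [Fin.ext_iff]) (by simp [Fin.ext_iff]) (by simp [Fin.ext_iff]; omega) (by simp [Fin.ext_iff])
      rw [hc.eq, mul_assoc, ← mul_assoc (swap (⟨0, by omega⟩ : Fin n) ⟨1, by omega⟩), swap_mul_self, one_mul,
        swap_comm (⟨i.val + 1, _⟩ : Fin n) ⟨i.val + 2, _⟩]
      simp only [hij, Nat.add_assoc, Nat.reduceAdd]
      exact three_cube (by simp [Fin.ext_iff]) (by simp [Fin.ext_iff]) (by simp [Fin.ext_iff])
  · rcases Nat.eq_zero_or_pos i.val with h0 | h0
    · rw [gen, gen, if_pos h0, if_neg (show ¬ j.val = 0 by omega), ← mul_assoc]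
      have e : swap (⟨0, by omega⟩ : Fin n) ⟨1, by omega⟩ * swap ⟨1, by omega⟩ ⟨2, by omega⟩ *
          swap ⟨0, by omega⟩ ⟨1, by omega⟩ = swap ⟨0, by omega⟩ ⟨2, by omega⟩ := by
        have h := swap_apply_apply (swap (⟨0, by omega⟩ : Fin n) ⟨1, by omega⟩) ⟨1, by omega⟩ ⟨2, by omega⟩
        rw [swap_apply_right, swap_apply_of_ne_of_ne (by simp [Fin.ext_iff]) (by simp [Fin.ext_iff]), swap_inv] at h
        exact h.symm
      rw [e]
      exact prod_sq (swap_comm_disjoint (by simp [Fin.ext_iff]) (by simp [Fin.ext_iff])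
        (by simp [Fin.ext_iff]; omega) (by simp [Fin.ext_iff]; omega)) (swap_mul_self _ _) (swap_mul_self _ _)
    · rw [gen, gen, if_neg (by omega), if_neg (by omega)]
      have hc := swap_comm_disjoint (a := (⟨0, by omega⟩ : Fin n)) (b := ⟨1, by omega⟩) (c := ⟨i.val + 1, by omega⟩)
        (d := ⟨i.val + 2, by omega⟩) (by simp [Fin.ext_iff]) (by simp [Fin.ext_iff]) (by simp [Fin.ext_iff]; omega) (by simp [Fin.ext_iff])
      rw [hc.eq, mul_assoc, ← mul_assoc (swap (⟨0, by omega⟩ : Fin n) ⟨1, by omega⟩), swap_mul_self, one_mul]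
      exact prod_sq (swap_comm_disjoint (by simp [Fin.ext_iff]; omega) (by simp [Fin.ext_iff]; omega)
        (by simp [Fin.ext_iff]; omega) (by simp [Fin.ext_iff]; omega)) (swap_mul_self _ _) (swap_mul_self _ _)


/-- A presentation of the alternating group of degree n ≥ 3 on generators x_1, …, x_{n−2} (indexed here by 0, …, n−3): the first generator cubes to 1, every other generator squares to 1, the product of two consecutive generators has order dividing 3, and the product of two generators at distance at least 2 has order dividing 2. The group so presented is isomorphic to the alternating group of degree n. -/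
theorem result (n : ℕ) (hn : 3 ≤ n) :
    Nonempty (PresentedGroup
      ({g : FreeGroup (Fin (n - 2)) | ∃ i : Fin (n - 2), i.val = 0 ∧ g = FreeGroup.of i ^ 3} ∪
       {g | ∃ i : Fin (n - 2), 1 ≤ i.val ∧ g = FreeGroup.of i ^ 2} ∪
       {g | ∃ i j : Fin (n - 2), j.val = i.val + 1 ∧ g = (FreeGroup.of i * FreeGroup.of j) ^ 3} ∪
       {g | ∃ i j : Fin (n - 2), i.val + 1 < j.val ∧ g = (FreeGroup.of i * FreeGroup.of j) ^ 2})
      ≃* alternatingGroup (Fin n)) := by
  classical
  let φ := PresentedGroup.toGroup (G := Equiv.Perm (Fin n)) (f := gen n hn) (gen_rel n hn)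
  let R := ({g : FreeGroup (Fin (n - 2)) | ∃ i : Fin (n - 2), i.val = 0 ∧ g = FreeGroup.of i ^ 3} ∪
       {g | ∃ i : Fin (n - 2), 1 ≤ i.val ∧ g = FreeGroup.of i ^ 2} ∪
       {g | ∃ i j : Fin (n - 2), j.val = i.val + 1 ∧ g = (FreeGroup.of i * FreeGroup.of j) ^ 3} ∪
       {g | ∃ i j : Fin (n - 2), i.val + 1 < j.val ∧ g = (FreeGroup.of i * FreeGroup.of j) ^ 2})
  let x : ℕ → PresentedGroup R := fun i => if h : i < n - 2 then PresentedGroup.of ⟨i, h⟩ else 1
  have hone : ∀ r ∈ R, PresentedGroup.mk R r = 1 := fun r hr => PresentedGroup.one_of_mem hr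
  have hx : ∀ i (h : i < n - 2), x i = PresentedGroup.of ⟨i, h⟩ := fun i h => dif_pos h
  have hrel : Rel x (n - 2) := by
    refine ⟨fun hm => ?_, fun i h1 h2 => ?_, fun i h => ?_, fun i j hij hj => ?_⟩
    · rw [hx 0 hm, ← pow_three']
      exact (map_pow _ _ _).symm.trans (hone _ (Or.inl (Or.inl (Or.inl ⟨⟨0, hm⟩, rfl, rfl⟩))))
    · rw [hx i h2, ← sq]
      exact (map_pow _ _ _).symm.trans (hone _ (Or.inl (Or.inl (Or.inr ⟨⟨i, h2⟩, h1, rfl⟩))))
    · rw [hx i (by omega), hx (i + 1) h, ← pow_three']
      exact ((map_pow _ _ _).trans (congrArg (· ^ 3) (map_mul _ _ _))).symm.trans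
        (hone _ (Or.inl (Or.inr ⟨⟨i, by omega⟩, ⟨i + 1, h⟩, rfl, rfl⟩)))
    · rw [hx i (by omega), hx j hj, ← sq]
      exact ((map_pow _ _ _).trans (congrArg (· ^ 2) (map_mul _ _ _))).symm.trans
        (hone _ (Or.inr ⟨⟨i, by omega⟩, ⟨j, hj⟩, hij, rfl⟩))
  obtain ⟨hfin, hle⟩ := card_bound (n - 2) x hrel
  have htop : Subgroup.closure (x '' Set.Iio (n - 2)) = ⊤ := by
    rw [eq_top_iff, ← PresentedGroup.closure_range_of R, Subgroup.closure_le]
    rintro _ ⟨i, rfl⟩
    exact Subgroup.subset_closure ⟨i.val, i.2, hx i.val i.2⟩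
  rw [htop] at hfin hle
  haveI : Finite (PresentedGroup R) := Finite.of_equiv _ Subgroup.topEquiv.toEquiv
  rw [Nat.card_congr Subgroup.topEquiv.toEquiv, show n - 2 + 2 = n by omega] at hle
  have hmem : ∀ y, φ y ∈ alternatingGroup (Fin n) := by
    intro y
    have hy : y ∈ Subgroup.closure (Set.range (PresentedGroup.of (rels := R))) := by
      rw [PresentedGroup.closure_range_of]; trivial
    revert hy
    refine fun hy => (Subgroup.closure_le ((alternatingGroup (Fin n)).comap φ)).2 ?_ hy
    rintro _ ⟨i, rfl⟩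
    show φ (PresentedGroup.of i) ∈ alternatingGroup (Fin n)
    rw [show φ (PresentedGroup.of i) = gen n hn i from PresentedGroup.toGroup.of (gen_rel n hn),
      Equiv.Perm.mem_alternatingGroup, gen]
    split_ifs with h <;> rw [map_mul, Equiv.Perm.sign_swap (by simp [Fin.ext_iff]), Equiv.Perm.sign_swap (by simp [Fin.ext_iff])] <;> rfl
  let ψ : PresentedGroup R →* alternatingGroup (Fin n) := φ.codRestrict _ hmem
  set s : Equiv.Perm (Fin n) := Equiv.swap ⟨0, by omega⟩ ⟨1, by omega⟩ with hs
  have hgenmem : ∀ i, gen n hn i ∈ φ.range := fun i => ⟨PresentedGroup.of i, PresentedGroup.toGroup.of (gen_rel n hn)⟩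
  have hss : s * s = 1 := Equiv.swap_mul_self _ _
  have hsnorm : ∀ r ∈ φ.range, s * r * s ∈ φ.range := by
    rintro _ ⟨y, rfl⟩
    have hy : y ∈ Subgroup.closure (Set.range (PresentedGroup.of (rels := R))) := by
      rw [PresentedGroup.closure_range_of]; trivial
    induction hy using Subgroup.closure_induction with
    | mem g hg =>
      obtain ⟨i, rfl⟩ := hg
      rw [show φ (PresentedGroup.of i) = gen n hn i from PresentedGroup.toGroup.of (gen_rel n hn)]
      rcases Nat.eq_zero_or_pos i.val with h | h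
      · have e : s * gen n hn i * s = (gen n hn i)⁻¹ := by
          rw [gen, if_pos h, ← hs, mul_inv_rev, Equiv.swap_inv, hs, Equiv.swap_inv, ← hs, ← mul_assoc, hss, one_mul]
        rw [e]; exact φ.range.inv_mem (hgenmem i)
      · have e : s * gen n hn i * s = gen n hn i := by
          rw [gen, if_neg (by omega), ← hs, ← mul_assoc, hss, one_mul]
          exact ((swap_comm_disjoint (by simp [Fin.ext_iff]) (by simp [Fin.ext_iff]) (by simp [Fin.ext_iff]; omega)
            (by simp [Fin.ext_iff])).eq : s * _ = _).symm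
        rw [e]; exact hgenmem i
    | one => rw [map_one, mul_one, hss]; exact φ.range.one_mem
    | mul g h _ _ hg hh =>
      rw [map_mul, show s * (φ g * φ h) * s = (s * φ g * s) * (s * φ h * s) by
        rw [show (s * φ g * s) * (s * φ h * s) = s * φ g * (s * s) * (φ h * s) by group, hss]; group]
      exact φ.range.mul_mem hg hh
    | inv g _ hg =>
      rw [map_inv, show s * (φ g)⁻¹ * s = (s * φ g * s)⁻¹ by rw [mul_inv_rev, mul_inv_rev, hs, Equiv.swap_inv]; group]
      exact φ.range.inv_mem hg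
  have hall : ∀ p : Equiv.Perm (Fin n), p ∈ φ.range ∨ s * p ∈ φ.range := by
    intro p
    obtain ⟨k, rfl⟩ : ∃ k, n = k + 1 := ⟨n - 1, by omega⟩
    have hp : p ∈ Submonoid.closure (Set.range fun i : Fin k => Equiv.swap i.castSucc i.succ) := by
      rw [Equiv.Perm.mclosure_swap_castSucc_succ]; trivial
    induction hp using Submonoid.closure_induction_left with
    | one => exact Or.inl φ.range.one_mem
    | mul_left q hq p' _ ih =>
      obtain ⟨i, rfl⟩ := hq
      -- `s * swap` lies in the image
      have hsw : s * Equiv.swap i.castSucc i.succ ∈ φ.range := by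
        rcases Nat.eq_zero_or_pos i.val with h | h
        · have e : Equiv.swap i.castSucc i.succ = s := by
            rw [hs]; congr 1 <;> simp [Fin.ext_iff, h]
          rw [e, hss]; exact φ.range.one_mem
        · rcases Nat.lt_or_ge i.val 2 with h' | h'
          · have e : s * Equiv.swap i.castSucc i.succ = gen (k + 1) hn ⟨0, by omega⟩ := by
              rw [gen, if_pos rfl, ← hs]; congr 2 <;> simp [Fin.ext_iff] <;> omega
            rw [e]; exact hgenmem _
          · have e : s * Equiv.swap i.castSucc i.succ = gen (k + 1) hn ⟨i.val - 1, by omega⟩ := by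
              rw [gen, if_neg (show ¬ i.val - 1 = 0 by omega), ← hs]; congr 2 <;> simp [Fin.ext_iff] <;> omega
            rw [e]; exact hgenmem _
      rcases ih with h | h
      · refine Or.inr ?_
        rw [← mul_assoc]; exact φ.range.mul_mem hsw h
      · refine Or.inl ?_
        have h1 := φ.range.mul_mem (hsnorm _ hsw) h
        rwa [show s * (s * Equiv.swap i.castSucc i.succ) * s * (s * p') = (s * s) * Equiv.swap i.castSucc i.succ * (s * s) * p' by group,
          hss, one_mul, mul_one] at h1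
  have hsur : Function.Surjective ψ := by
    rintro ⟨p, hp⟩
    rcases hall p with ⟨y, hy⟩ | ⟨y, hy⟩
    · exact ⟨y, Subtype.ext hy⟩
    · exfalso
      have h1 := Equiv.Perm.mem_alternatingGroup.1 (hmem y)
      rw [hy, map_mul, Equiv.Perm.mem_alternatingGroup.1 hp, hs, Equiv.Perm.sign_swap (by simp [Fin.ext_iff])] at h1
      exact absurd h1 (by decide)
  refine ⟨MulEquiv.ofBijective ψ ((Nat.bijective_iff_surjective_and_card ψ).2 ⟨hsur, le_antisymm ?_ (Nat.card_le_card_of_surjective ψ hsur)⟩)⟩
  haveI : Nontrivial (Fin n) := Fin.nontrivial_iff_two_le.2 (by omega)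
  have h := two_mul_nat_card_alternatingGroup (α := Fin n)
  rw [Nat.card_perm, Nat.card_eq_fintype_card (α := Fin n), Fintype.card_fin] at h
  omega

end Cfsg.Agent.S3335
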