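import Cfsg.Statements.S3349
import Mathlib

set_option autoImplicit false
open Cfsg
open scoped commutatorElement

namespace Cfsg.Agent.S3349

/-- Let Q be a finite extraspecial p-group and α an automorphism of Q fixing every element of some maximal abelian subgroup of Q. Then the order of α is a power of p. -/
theorem result {Q : Type*} [Group Q] [Finite Q]
    (p : ℕ) [Fact p.Prime] (hQ : Cfsg.IsExtraspecial p Q) (α : MulAut Q)
    (A : Subgroup Q) (hA : IsMulCommutative A) (hmax : ∀ B : Subgroup Q, A ≤ B → IsMulCommutative B → B = A)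
    (hfix : ∀ a ∈ A, α a = a) :
    ∃ k : ℕ, orderOf α = p ^ k := by
  classical
  have hder : commutator Q = Subgroup.center Q := by
    have h := hQ.1
    unfold Cfsg.IsSpecial at h
    tauto
  have hZA : Subgroup.center Q ≤ A := by
    refine sup_eq_left.mp (hmax (A ⊔ Subgroup.center Q) le_sup_left ?_)
    rw [Subgroup.sup_eq_closure]
    exact Subgroup.isMulCommutative_closure (fun x hx y hy => by
      rcases hx with hx | hx <;> rcases hy with hy | hy
      · exact congrArg Subtype.val (hA.is_comm.comm (⟨x, hx⟩ : A) ⟨y, hy⟩)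
      · exact Subgroup.mem_center_iff.mp hy x
      · exact (Subgroup.mem_center_iff.mp hx y).symm
      · exact (Subgroup.mem_center_iff.mp hx y).symm)
  have hAn : ∀ x : Q, ∀ a ∈ A, x * a * x⁻¹ ∈ A := fun x a ha => by
    have h1 : ⁅x, a⁆ ∈ A := hZA (hder ▸ Subgroup.commutator_mem_commutator (Subgroup.mem_top x) (Subgroup.mem_top a))
    have h2 : x * a * x⁻¹ = ⁅x, a⁆ * a := by rw [commutatorElement_def]; group
    rw [h2]
    exact mul_mem h1 ha
  have hself : ∀ d : Q, (∀ a ∈ A, d * a = a * d) → d ∈ A := by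
    intro d hd
    have h := hmax (Subgroup.closure ((A : Set Q) ∪ {d})) (fun a ha => Subgroup.subset_closure (Or.inl ha))
      (Subgroup.isMulCommutative_closure (fun x hx y hy => by
        rcases hx with hx | rfl <;> rcases hy with hy | rfl
        · exact congrArg Subtype.val (hA.is_comm.comm (⟨x, hx⟩ : A) ⟨y, hy⟩)
        · exact (hd x hx).symm
        · exact hd y hy
        · rfl))
    exact h ▸ Subgroup.subset_closure (Or.inr rfl)
  have hd : ∀ x : Q, x⁻¹ * α x ∈ A := by
    intro x
    refine hself _ fun a ha => ?_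
    have h1 := hfix _ (hAn x a ha)
    rw [map_mul, map_mul, map_inv, hfix a ha] at h1
    calc x⁻¹ * α x * a = x⁻¹ * (α x * a * (α x)⁻¹) * α x := by group
      _ = x⁻¹ * (x * a * x⁻¹) * α x := by rw [h1]
      _ = a * (x⁻¹ * α x) := by group
  have hpow : ∀ (k : ℕ) (x : Q), (α ^ k) x = x * (x⁻¹ * α x) ^ k := by
    intro k
    induction k with
    | zero => intro x; simp
    | succ k ih =>
      intro x
      rw [pow_succ', MulAut.mul_apply, ih, map_mul, map_pow, hfix _ (hd x), pow_succ' (x⁻¹ * α x) k, ← mul_assoc,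
        mul_inv_cancel_left]
  have hQp : IsPGroup p Q := by
    have h := hQ.1
    unfold Cfsg.IsSpecial at h
    tauto
  obtain ⟨j, hj⟩ := IsPGroup.iff_card.mp (hQp.to_subgroup A)
  have h1 : α ^ p ^ j = 1 := by
    ext x
    rw [hpow, ← hj, show (x⁻¹ * α x) ^ Nat.card A = 1 from congrArg Subtype.val (pow_card_eq_one' (x := (⟨_, hd x⟩ : A))), mul_one]
    rfl
  obtain ⟨k, -, hk⟩ := (Nat.dvd_prime_pow Fact.out).mp (orderOf_dvd_of_pow_eq_one h1)
  exact ⟨k, hk⟩

end Cfsg.Agent.S3349
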