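import Cfsg.Statements.S3376
-- import your own Cfsg.Agent.* helpers here

set_option autoImplicit false
open Cfsg

namespace Cfsg.Agent.S3376

theorem mult_three : (Multiplicative.ofAdd (1 : ZMod 3) * Multiplicative.ofAdd 1) ^ 2 = Multiplicative.ofAdd 1 := by
  decide

theorem mult_one_ne : ¬ Multiplicative.ofAdd (1 : ZMod 3) = 1 := by decide

theorem exists_central_mem {P : Type*} [Group P] [Finite P] {p : ℕ} [Fact p.Prime] (hp : IsPGroup p P)
    (N : Subgroup P) [N.Normal] [Nontrivial N] : ∃ w : P, w ∈ N ∧ w ∈ Subgroup.center P ∧ w ≠ 1 := by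
  classical
  letI : MulAction P N := MulAction.compHom N (MulAut.conjNormal : P →* MulAut N)
  obtain ⟨k, hk⟩ := (hp.to_subgroup N).exists_card_eq
  have hk0 : k ≠ 0 := by
    rintro rfl
    exact absurd (Finite.one_lt_card (α := N)) (by rw [hk, pow_zero]; exact lt_irrefl 1)
  obtain ⟨b, hb, hbne⟩ := hp.exists_fixed_point_of_prime_dvd_card_of_fixed_point N
    (hk ▸ dvd_pow_self p hk0) (a := (1 : N)) (fun g => map_one (MulAut.conjNormal g))
  refine ⟨b, b.2, Subgroup.mem_center_iff.2 fun g => ?_, fun h => hbne (Subtype.ext h).symm⟩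
  have h : g * (b : P) * g⁻¹ = b := congrArg Subtype.val (hb g)
  exact mul_inv_eq_iff_eq_mul.1 h

theorem target_cycleType :
    (Equiv.swap (0 : Fin 9) 1 * Equiv.swap 1 2 * Equiv.swap 3 4 * Equiv.swap 4 5 * Equiv.swap 6 7 * Equiv.swap 7 8 :
      Equiv.Perm (Fin 9)).cycleType = Multiset.replicate (2 + 1) 3 := by
  decide +kernel


/-- Let G be a group of order 162 = 3⁴·2 with Sylow 3-subgroup S and Sylow 2-subgroup T, having an elementary abelian normal subgroup J of order 27, such that Z = Z(S) has order 3, Z centralizes T, and C_S(T) ≠ S. Then G is isomorphic to the centralizer in Sym(9) of a product of three disjoint 3-cycles. -/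
theorem result {G : Type*} [Group G] [Finite G] (hG : Nat.card G = 162)
    (S : Sylow 3 G) (T : Sylow 2 G) (J : Subgroup G) [hJn : J.Normal] (hJcomm : IsMulCommutative J)
    (hJexp : ∀ a ∈ J, a ^ 3 = 1) (hJcard : Nat.card J = 27)
    (Z : Subgroup G) (hZ : Z = (S : Subgroup G) ⊓ Subgroup.centralizer ((S : Subgroup G) : Set G)) (hZcard : Nat.card Z = 3)
    (hZT : Z ≤ Subgroup.centralizer ((T : Subgroup G) : Set G))
    (hST : (S : Subgroup G) ⊓ Subgroup.centralizer ((T : Subgroup G) : Set G) ≠ S) :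
    Nonempty (G ≃* Subgroup.centralizer ({Equiv.swap (0 : Fin 9) 1 * Equiv.swap 1 2 * Equiv.swap 3 4 * Equiv.swap 4 5 * Equiv.swap 6 7 * Equiv.swap 7 8} : Set (Equiv.Perm (Fin 9)))) := by
  classical
  have : Fintype G := Fintype.ofFinite G
  haveI f3 : Fact (Nat.Prime 3) := ⟨Nat.prime_three⟩
  haveI f2 : Fact (Nat.Prime 2) := ⟨Nat.prime_two⟩
  have hSc : Nat.card (S : Subgroup G) = 3 ^ 4 := by
    have h := S.card_eq_multiplicity
    rw [hG] at h
    have e : (162 : ℕ).factorization 3 = 4 := by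
      rw [Nat.factorization_def _ Nat.prime_three, show 162 = 3 ^ 4 * 2 by norm_num,
        padicValNat.mul (by norm_num) (by norm_num), padicValNat.prime_pow, padicValNat_primes (by norm_num)]
    rw [e] at h; exact h
  have hTc : Nat.card (T : Subgroup G) = 2 := by
    have h := T.card_eq_multiplicity
    rw [hG] at h
    have e : (162 : ℕ).factorization 2 = 1 := by
      rw [Nat.factorization_def _ Nat.prime_two, show 162 = 3 ^ 4 * 2 by norm_num,
        padicValNat.mul (by norm_num) (by norm_num), padicValNat.eq_zero_of_not_dvd (n := 3 ^ 4) (by norm_num),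
        padicValNat.self (by norm_num)]
    rw [e, pow_one] at h; exact h
  obtain ⟨⟨t, htT⟩, ht1, htgen⟩ : ∃ t : (T : Subgroup G), t ≠ 1 ∧ ∀ x : (T : Subgroup G), x = 1 ∨ x = t := by
    obtain ⟨t, ht, hu⟩ := (Nat.card_eq_two_iff' (1 : (T : Subgroup G))).1 hTc
    exact ⟨t, ht, fun x => or_iff_not_imp_left.2 (hu x)⟩
  have ht1' : t ≠ 1 := fun h => ht1 (Subtype.ext h)
  have ht2 : t * t = 1 := by
    rcases htgen ⟨t * t, (T : Subgroup G).mul_mem htT htT⟩ with h | h
    · exact congrArg Subtype.val h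
    · exact absurd (mul_eq_left.1 (congrArg Subtype.val h : t * t = t)) ht1'
  -- `J` lies in `S`
  have hJp : IsPGroup 3 J := IsPGroup.of_card (n := 3) (by rw [hJcard]; norm_num)
  have hSn : (S : Subgroup G).Normal := by
    refine Subgroup.normal_of_index_eq_two ?_
    have h := (S : Subgroup G).card_mul_index
    rw [hSc, hG] at h
    omega
  haveI := hSn
  haveI : Subsingleton (Sylow 3 G) := (S.unique_of_normal hSn).instSubsingleton
  have hJS : J ≤ (S : Subgroup G) := by
    obtain ⟨Q, hQ⟩ := hJp.exists_le_sylow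
    rwa [Subsingleton.elim Q S] at hQ
  have hcommJ : ∀ a ∈ J, ∀ b ∈ J, a * b = b * a := fun a ha b hb =>
    congrArg Subtype.val (hJcomm.is_comm.comm ⟨a, ha⟩ ⟨b, hb⟩)
  -- `Z` lies in `J`
  have hZS : ∀ z ∈ Z, z ∈ (S : Subgroup G) ∧ ∀ s ∈ (S : Subgroup G), s * z = z * s := fun z hz => by
    rw [hZ] at hz
    exact ⟨hz.1, Subgroup.mem_centralizer_iff.1 hz.2⟩
  have hJZ : Z ≤ J := by
    by_contra hcon
    have hlt : J < J ⊔ Z := lt_of_le_of_ne le_sup_left (fun h => hcon (h ▸ le_sup_right))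
    have hle : J ⊔ Z ≤ (S : Subgroup G) := sup_le hJS fun z hz => (hZS z hz).1
    have hJZS : J ⊔ Z = (S : Subgroup G) := by
      refine Subgroup.eq_of_le_of_card_ge hle ?_
      have h1 := Subgroup.card_dvd_of_le hlt.le
      have h2 := Subgroup.card_dvd_of_le hle
      have h3 : Nat.card J < Nat.card (J ⊔ Z : Subgroup G) := by
        by_contra hh
        exact hlt.ne (Subgroup.eq_of_le_of_card_ge hlt.le (not_lt.1 hh))
      rw [hSc] at h2 ⊢
      obtain ⟨k, hk, hk'⟩ := (Nat.dvd_prime_pow Nat.prime_three).1 h2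
      rw [hk', hJcard] at h3
      rw [hk']
      interval_cases k <;> norm_num at h3 <;> rfl
    have hab : ∀ a ∈ (S : Subgroup G), ∀ b ∈ (S : Subgroup G), a * b = b * a := by
      have hc : J ⊔ Z ≤ Subgroup.centralizer (J : Set G) := sup_le
        (fun a ha => Subgroup.mem_centralizer_iff.2 fun b hb => hcommJ b hb a ha)
        (fun z hz => Subgroup.mem_centralizer_iff.2 fun b hb => (hZS z hz).2 b (hJS hb))
      have hc2 : J ⊔ Z ≤ Subgroup.centralizer ((S : Subgroup G) : Set G) := sup_le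
        (fun a ha => Subgroup.mem_centralizer_iff.2 fun b hb =>
          (Subgroup.mem_centralizer_iff.1 (hc (hJZS.symm ▸ hb)) a ha).symm)
        (fun z hz => Subgroup.mem_centralizer_iff.2 (hZS z hz).2)
      intro a ha b hb
      exact (Subgroup.mem_centralizer_iff.1 (hc2 (hJZS.symm ▸ ha)) b hb).symm
    have hZeq : Z = (S : Subgroup G) := by
      rw [hZ]
      exact inf_eq_left.2 fun a ha => Subgroup.mem_centralizer_iff.2 fun b hb => hab b hb a ha
    rw [← hZeq, hZcard] at hSc
    omega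
  obtain ⟨⟨z, hzZ⟩, hz1⟩ : ∃ z : Z, z ≠ 1 := by
    haveI : Nontrivial Z := Finite.one_lt_card_iff_nontrivial.mp (by omega)
    exact exists_ne 1
  have hz1' : z ≠ 1 := fun h => hz1 (Subtype.ext h)
  have hzc : ∀ g : G, g * z = z * g := by
    intro g
    have hle : (S : Subgroup G) ⊔ (T : Subgroup G) ≤ Subgroup.centralizer ({z} : Set G) := sup_le
      (fun s hs => Subgroup.mem_centralizer_singleton_iff.2 ((hZS z hzZ).2 s hs))
      (fun x hx => Subgroup.mem_centralizer_singleton_iff.2 (Subgroup.mem_centralizer_iff.1 (hZT hzZ) x hx))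
    have hc := Subgroup.IsComplement'.sup_eq_top (Subgroup.isComplement'_of_coprime
      (H := (S : Subgroup G)) (K := (T : Subgroup G)) (by rw [hSc, hTc, hG]; norm_num) (by rw [hSc, hTc]; norm_num))
    rw [hc] at hle
    exact Subgroup.mem_centralizer_singleton_iff.1 (hle (Subgroup.mem_top g))
  -- a complement of `Z` in `J`
  obtain ⟨K₀, hK₀⟩ := (Set.toFinite {K : Subgroup J | (⟨z, hJZ hzZ⟩ : J) ∉ K}).exists_maximal
    ⟨⊥, fun h => hz1' (congrArg Subtype.val (Subgroup.mem_bot.1 h))⟩
  have hmax : ∀ K : Subgroup J, (⟨z, hJZ hzZ⟩ : J) ∉ K → K₀ ≤ K → K = K₀ := fun K hK hle =>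
    le_antisymm (hK₀.2 hK hle) hle
  set zJ : J := ⟨z, hJZ hzZ⟩ with hzJ
  have hJexp' : ∀ a : J, a ^ 3 = 1 := fun a => Subtype.ext (by simpa using hJexp a a.2)
  have hcJ : ∀ a b : J, a * b = b * a := fun a b => hJcomm.is_comm.comm a b
  have hpn : ∀ (H : Subgroup J), H.Normal := fun H => ⟨fun n hn g => by rw [hcJ g n, mul_inv_cancel_right]; exact hn⟩
  have hcov : ∀ x : J, ∃ k ∈ K₀, ∃ i : ℕ, x = k * zJ ^ i := by
    intro x
    by_contra hx
    push Not at hx
    have hxK : x ∉ K₀ := fun h => hx x h 0 (by simp)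
    have h1 : zJ ∈ K₀ ⊔ Subgroup.zpowers x := by
      by_contra h
      exact hxK (hmax _ h le_sup_left ▸ (le_sup_right (a := K₀) (Subgroup.mem_zpowers x)))
    haveI := hpn (Subgroup.zpowers x)
    obtain ⟨k, hk, y, hy, he⟩ := Subgroup.mem_sup_of_normal_right.1 h1
    obtain ⟨i, rfl⟩ := Subgroup.mem_zpowers_iff.1 hy
    have hxo : orderOf x = 3 := orderOf_eq_prime (hJexp' x) fun h => hxK (h ▸ K₀.one_mem)
    have hi3 : x ^ i = x ^ ((i % 3 : ℤ)) := by rw [← zpow_mod_orderOf, hxo]; rfl
    rw [hi3] at he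
    have : i % 3 = 0 ∨ i % 3 = 1 ∨ i % 3 = 2 := by omega
    rcases this with h | h | h <;> rw [h] at he
    · rw [zpow_zero, mul_one] at he
      exact hK₀.1 (he ▸ hk)
    · refine hx k⁻¹ (K₀.inv_mem hk) 1 ?_
      rw [← he]; group
    · refine hx k (hk) 2 ?_
      have e : x = (x ^ (2 : ℤ)) ^ 2 := by
        have := hJexp' x
        rw [show ((2 : ℤ)) = ((2 : ℕ) : ℤ) from rfl, zpow_natCast, ← pow_mul, show 2 * 2 = 3 + 1 from rfl, pow_succ, this, one_mul]
      have e2 : x ^ (2 : ℤ) = k⁻¹ * zJ := by rw [← he]; group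
      rw [e2] at e
      have hk2 : k⁻¹ ^ 2 = k := by
        have := hJexp' k
        rw [inv_pow, inv_eq_iff_mul_eq_one, ← pow_succ]
        exact this
      rw [e, (show Commute k⁻¹ zJ from hcJ _ _).mul_pow, hk2]
  choose kf hkf nf hxf using hcov
  have huniq : ∀ k ∈ K₀, ∀ i : ℕ, k * zJ ^ i = 1 → 3 ∣ i := by
    intro k hk i hi
    have h1 : zJ ^ i ∈ K₀ := by
      rw [← inv_inv (zJ ^ i), ← eq_inv_of_mul_eq_one_left hi |>.trans rfl]
      exact K₀.inv_mem hk
    by_contra hni
    have hz3 : zJ ^ (i % 3) = zJ ^ i := by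
      conv_rhs => rw [← Nat.mod_add_div i 3, pow_add, pow_mul, hJexp', one_pow, mul_one]
    rw [← hz3] at h1
    have : i % 3 = 1 ∨ i % 3 = 2 := by omega
    rcases this with h | h <;> rw [h] at h1
    · exact hK₀.1 (by simpa using h1)
    · refine hK₀.1 ?_
      have := K₀.pow_mem h1 2
      rwa [← pow_mul, show 2 * 2 = 3 + 1 from rfl, pow_succ, hJexp', one_mul] at this
  let π : J →* Multiplicative (ZMod 3) := MonoidHom.mk' (fun x => Multiplicative.ofAdd (nf x : ZMod 3)) fun a b => by
    rw [← ofAdd_add, ← Nat.cast_add]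
    refine congrArg _ ((ZMod.natCast_eq_natCast_iff _ _ _).2 ?_)
    have h := hxf (a * b)
    have h' : a * b = kf a * kf b * zJ ^ (nf a + nf b) := by
      conv_lhs => rw [hxf a, hxf b]
      rw [pow_add, Commute.mul_mul_mul_comm (hcJ _ _)]
    have hd := huniq ((kf (a * b))⁻¹ * (kf a * kf b)) (K₀.mul_mem (K₀.inv_mem (hkf _)) (K₀.mul_mem (hkf _) (hkf _)))
      (nf a + nf b + 2 * nf (a * b)) (by
        have e : zJ ^ nf (a * b) * zJ ^ (2 * nf (a * b)) = 1 := by
          rw [← pow_add, show nf (a * b) + 2 * nf (a * b) = 3 * nf (a * b) by ring, pow_mul, hJexp', one_pow]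
        calc _ = (kf (a * b))⁻¹ * (kf a * kf b * zJ ^ (nf a + nf b)) * zJ ^ (2 * nf (a * b)) := by
              rw [pow_add _ (nf a + nf b)]; group
          _ = (kf (a * b))⁻¹ * (kf (a * b) * zJ ^ nf (a * b)) * zJ ^ (2 * nf (a * b)) := by rw [← h', ← h]
          _ = _ := by rw [inv_mul_cancel_left]; exact e)
    show nf (a * b) % 3 = (nf a + nf b) % 3
    omega
  have hπz : π zJ = Multiplicative.ofAdd 1 := by
    refine congrArg Multiplicative.ofAdd ?_
    have hd := huniq ((kf zJ)) (hkf _) (nf zJ + 2) (by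
      rw [pow_add, ← mul_assoc, ← hxf, ← pow_succ', hJexp'])
    have : (nf zJ : ZMod 3) = ((1 : ℕ) : ZMod 3) := (ZMod.natCast_eq_natCast_iff _ _ _).2 (show nf zJ % 3 = 1 % 3 by omega)
    simpa using this
  let c : J →* J := MonoidHom.mk' (fun x => ⟨t * x * t⁻¹, hJn.conj_mem x x.2 t⟩) fun a b => Subtype.ext (by simp)
  let φ : J →* Multiplicative (ZMod 3) := MonoidHom.mk' (fun x => (π x * π (c x)) ^ 2) fun a b => by
    rw [map_mul, map_mul, map_mul, mul_mul_mul_comm, mul_pow]
  have hcz : c zJ = zJ := Subtype.ext (by show t * z * t⁻¹ = z; rw [hzc, mul_inv_cancel_right])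
  have hφz : φ zJ = Multiplicative.ofAdd 1 := by
    show (π zJ * π (c zJ)) ^ 2 = _
    rw [hcz, hπz]
    exact mult_three
  have hcc : ∀ x, c (c x) = x := fun x => Subtype.ext (by
    show t * (t * x * t⁻¹) * t⁻¹ = x
    rw [show t * (t * (x : G) * t⁻¹) * t⁻¹ = (t * t) * x * (t * t)⁻¹ by group, ht2]; simp)
  have hφc : ∀ x, φ (c x) = φ x := fun x => by
    show (π (c x) * π (c (c x))) ^ 2 = _
    rw [hcc, mul_comm]; rfl
  -- the point stabiliser
  let K : Subgroup G := φ.ker.map J.subtype
  have hKc : Nat.card K = 9 := by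
    rw [Subgroup.card_map_of_injective J.subtype_injective]
    have hs : Function.Surjective φ := fun y => ⟨zJ ^ (Multiplicative.toAdd y).val, by
      rw [map_pow, hφz, ← ofAdd_nsmul, nsmul_one, ZMod.natCast_zmod_val, ofAdd_toAdd]⟩
    have h := φ.ker.card_mul_index
    rw [Subgroup.index_ker, MonoidHom.range_eq_top.2 hs, Nat.card_congr Subgroup.topEquiv.toEquiv,
      Nat.card_congr Multiplicative.toAdd, Nat.card_zmod, hJcard] at h
    omega
  have hKJ : K ≤ J := Subgroup.map_subtype_le _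
  have hzK : z ∉ K := by
    rintro ⟨x, hx, hxz⟩
    have : x = zJ := Subtype.ext hxz
    rw [this] at hx
    exact mult_one_ne (hφz.symm.trans (MonoidHom.mem_ker.1 hx))
  have hKt : ∀ k ∈ K, t * k * t⁻¹ ∈ K := by
    rintro _ ⟨x, hx, rfl⟩
    exact ⟨c x, MonoidHom.mem_ker.2 ((hφc x).trans hx), rfl⟩
  have hti : t⁻¹ = t := inv_eq_of_mul_eq_one_right ht2
  let H : Subgroup G :=
    { carrier := {g | g ∈ K ∨ g * t ∈ K}
      one_mem' := Or.inl K.one_mem
      mul_mem' := by
        rintro a b (ha | ha) (hb | hb)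
        · exact Or.inl (K.mul_mem ha hb)
        · exact Or.inr (by rw [mul_assoc]; exact K.mul_mem ha hb)
        · refine Or.inr ?_
          have := K.mul_mem ha (hKt b hb)
          rwa [hti, show a * t * (t * b * t) = a * (t * t) * b * t by group, ht2, mul_one] at this
        · refine Or.inl ?_
          have := K.mul_mem ha (hKt _ hb)
          rwa [hti, show a * t * (t * (b * t) * t) = a * (t * t) * b * (t * t) by group, ht2, mul_one, mul_one] at this
      inv_mem' := by
        rintro a (ha | ha)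
        · exact Or.inl (K.inv_mem ha)
        · refine Or.inr ?_
          have := hKt _ (K.inv_mem ha)
          rwa [hti, show t * (a * t)⁻¹ * t = t * t⁻¹ * a⁻¹ * t by group, mul_inv_cancel, one_mul] at this }
  have hHS : ∀ g ∈ H, g ∈ (S : Subgroup G) → g ∈ K := by
    rintro g (h | h) hgS
    · exact h
    · have htS : t ∈ (S : Subgroup G) := by
        have := (S : Subgroup G).mul_mem ((S : Subgroup G).inv_mem hgS) (hJS (hKJ h))
        rwa [inv_mul_cancel_left] at this
      have h2 : orderOf t = 2 := orderOf_eq_prime (by rw [sq, ht2]) ht1'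
      have := orderOf_dvd_natCard (⟨t, htS⟩ : (S : Subgroup G))
      rw [← Subgroup.orderOf_coe, h2, hSc] at this
      norm_num at this
  have hHidx : H.index = 9 := by
    have h1 : K ≤ H := fun k hk => Or.inl hk
    have htH : t ∈ H := Or.inr (by rw [ht2]; exact K.one_mem)
    have htK : t ∉ K := fun h => by
      have := orderOf_dvd_natCard (⟨t, h⟩ : K)
      rw [← Subgroup.orderOf_coe, orderOf_eq_prime (by rw [sq, ht2]) ht1', hKc] at this
      norm_num at this
    have h2 : (K.subgroupOf H).index = 2 := by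
      refine Subgroup.index_eq_two_iff_exists_notMem_and.2 ⟨⟨t, htH⟩, htK, fun b => ?_⟩
      rcases b.2 with h | h
      · exact Or.inr h
      · exact Or.inl h
    have h3 := (K.subgroupOf H).card_mul_index
    rw [h2, Nat.card_congr (Subgroup.subgroupOfEquivOfLe h1).toEquiv, hKc] at h3
    have h4 := H.card_mul_index
    rw [← h3, hG] at h4
    omega
  -- the core is trivial
  have hcore : H.normalCore = ⊥ := by
    set N := H.normalCore with hN
    haveI : N.Normal := Subgroup.normalCore_normal H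
    have hNS : N ⊓ (S : Subgroup G) = ⊥ := by
      by_contra h
      have : ((N ⊓ (S : Subgroup G)).subgroupOf (S : Subgroup G)).Normal :=
        Subgroup.normal_subgroupOf_iff inf_le_right |>.2 fun a g ha hg =>
          ⟨‹N.Normal›.conj_mem a ha.1 g, hSn.conj_mem a ha.2 g⟩
      haveI : Nontrivial ((N ⊓ (S : Subgroup G)).subgroupOf (S : Subgroup G)) := by
        rw [Subgroup.nontrivial_iff_ne_bot, Ne, Subgroup.subgroupOf_eq_bot, disjoint_iff, inf_assoc, inf_idem]
        exact h
      obtain ⟨w, hwN, hwc, hwne⟩ := exists_central_mem S.isPGroup'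
        ((N ⊓ (S : Subgroup G)).subgroupOf (S : Subgroup G))
      have hwZ : (w : G) ∈ Z := by
        rw [hZ]
        exact ⟨w.2, Subgroup.mem_centralizer_iff.2 fun s hs => congrArg Subtype.val (Subgroup.mem_center_iff.1 hwc ⟨s, hs⟩)⟩
      have hwK : (w : G) ∈ K := hHS _ (H.normalCore_le hwN.1) w.2
      have hw1 : (w : G) ≠ 1 := fun e => hwne (Subtype.ext e)
      have hgen : Subgroup.zpowers (w : G) = Z := by
        refine Subgroup.eq_of_le_of_card_ge (Subgroup.zpowers_le.2 hwZ) ?_
        rw [hZcard, Nat.card_zpowers]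
        have h1 := orderOf_dvd_natCard (⟨(w : G), hwZ⟩ : Z)
        rw [← Subgroup.orderOf_coe, hZcard] at h1
        rcases (Nat.dvd_prime Nat.prime_three).1 h1 with h2 | h2
        · exact absurd (orderOf_eq_one_iff.1 h2) hw1
        · exact h2.ge
      exact hzK ((Subgroup.zpowers_le.2 hwK) (hgen.symm ▸ hzZ))
    by_contra hne
    obtain ⟨⟨x, hx⟩, hx1⟩ : ∃ x : N, x ≠ 1 := by
      haveI : Nontrivial N := (Subgroup.nontrivial_iff_ne_bot _).2 hne
      exact exists_ne 1
    have hxc : ∀ s ∈ (S : Subgroup G), s * x = x * s := fun s hs =>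
      (Subgroup.commute_of_normal_of_disjoint N (S : Subgroup G) inferInstance hSn (disjoint_iff.2 hNS) x s hx hs).eq.symm
    -- conjugate `x` into `T`
    have hxS : x ∉ (S : Subgroup G) := fun h => hx1 (Subtype.ext (Subgroup.mem_bot.1 (hNS ▸ ⟨hx, h⟩)))
    rcases H.normalCore_le hx with h | h
    · exact hxS (hJS (hKJ h))
    · -- `x = k t`
      refine hST (inf_eq_left.2 fun s hs => Subgroup.mem_centralizer_iff.2 fun y hy => ?_)
      rcases htgen ⟨y, hy⟩ with e | e
      · rw [show y = 1 from congrArg Subtype.val e]; simp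
      rw [show y = t from congrArg Subtype.val e]
      have hk : x * t ∈ J := hKJ h
      have hkx : x * (x * t) = (x * t) * x := (hxc _ (hJS hk)).symm
      have hxt : x * t = t * x := by
        have h1 : x * t = t * x := by
          have := congrArg (fun u => x⁻¹ * u) hkx
          simp only [inv_mul_cancel_left] at this
          rw [this]; group
        exact h1
      -- hence `x * t` is fixed and `x = t`
      have hx2 : x * x = 1 := by
        have hmem : x * x ∈ N ⊓ (S : Subgroup G) := ⟨N.mul_mem hx hx, Subgroup.mul_self_mem_of_index_two (by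
          have h := (S : Subgroup G).card_mul_index
          rw [hSc, hG] at h
          omega) x⟩
        rwa [hNS, Subgroup.mem_bot] at hmem
      have hk1 : x * t = 1 := by
        have h3 := hJexp _ hk
        have h2 : (x * t) ^ 2 = 1 := by
          rw [(show Commute x t from hxt).mul_pow, sq, sq, hx2, ht2, one_mul]
        rwa [pow_succ, h2, one_mul] at h3
      have hxeq : x = t := by rw [eq_inv_of_mul_eq_one_left hk1, hti]
      rw [← hxeq]
      exact (hxc s hs).symm
  -- the embedding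
  let ρ : G →* Equiv.Perm (Fin 9) :=
    ((Finite.equivFinOfCardEq (α := G ⧸ H) (n := 9) hHidx).permCongrHom.toMonoidHom).comp (MulAction.toPermHom G (G ⧸ H))
  have hρ : Function.Injective ρ := by
    refine (Finite.equivFinOfCardEq (α := G ⧸ H) (n := 9) hHidx).permCongrHom.injective.comp ?_
    show Function.Injective (MulAction.toPermHom G (G ⧸ H))
    rw [← MonoidHom.ker_eq_bot_iff, ← Subgroup.normalCore_eq_ker, hcore]
  have hzH : z ∉ H := fun h => hzK (hHS z h (hJS (hJZ hzZ)))
  have hfix : ∀ i, ρ z i ≠ i := by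
    intro i hi
    obtain ⟨g, hg⟩ := QuotientGroup.mk_surjective ((Finite.equivFinOfCardEq (α := G ⧸ H) (n := 9) hHidx).symm i)
    have h1 : z • ((g : G) : G ⧸ H) = (g : G ⧸ H) := by
      rw [hg]
      refine (Finite.equivFinOfCardEq (α := G ⧸ H) (n := 9) hHidx).injective ?_
      rw [Equiv.apply_symm_apply]
      exact hi
    have h2 : ((z * g : G) : G ⧸ H) = (g : G ⧸ H) := h1
    rw [QuotientGroup.eq] at h2
    have h3 : (z * g)⁻¹ * g = z⁻¹ := by
      rw [← hzc g]; group
    rw [h3] at h2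
    exact hzH (by simpa using H.inv_mem h2)
  have hzo : orderOf (ρ z) = 3 := by
    rw [orderOf_injective ρ hρ]
    exact orderOf_eq_prime (hJexp z (hJZ hzZ)) hz1'
  obtain ⟨k, hk⟩ := Equiv.Perm.cycleType_prime_order (σ := ρ z) (by rw [hzo]; norm_num)
  rw [hzo] at hk
  have hsup : (ρ z).support.card = 9 := by
    rw [Finset.eq_univ_iff_forall.2 fun i => Equiv.Perm.mem_support.2 (hfix i)]; rfl
  have hk2 : k = 2 := by
    have h := Equiv.Perm.sum_cycleType (ρ z)
    rw [hk, hsup, Multiset.sum_replicate, smul_eq_mul] at h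
    omega
  subst hk2
  obtain ⟨w, hw⟩ := isConj_iff.1 (Equiv.Perm.isConj_of_cycleType_eq (hk.trans target_cycleType.symm))
  let ψ : G →* Subgroup.centralizer ({Equiv.swap (0 : Fin 9) 1 * Equiv.swap 1 2 * Equiv.swap 3 4 * Equiv.swap 4 5 * Equiv.swap 6 7 * Equiv.swap 7 8} : Set (Equiv.Perm (Fin 9))) :=
    ((MulAut.conj w).toMonoidHom.comp ρ).codRestrict _ fun g => by
      rw [Subgroup.mem_centralizer_singleton_iff]
      show w * ρ g * w⁻¹ * _ = _ * (w * ρ g * w⁻¹)
      rw [← hw]
      calc w * ρ g * w⁻¹ * (w * ρ z * w⁻¹) = w * (ρ g * ρ z) * w⁻¹ := by group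
        _ = w * (ρ z * ρ g) * w⁻¹ := by rw [← map_mul, hzc, map_mul]
        _ = _ := by group
  have hψ : Function.Injective ψ := fun a b h => hρ ((MulAut.conj w).injective (congrArg Subtype.val h))
  refine ⟨MulEquiv.ofBijective ψ ⟨hψ, ?_⟩⟩
  refine (hψ.bijective_of_nat_card_le ?_).2
  rw [hG, Equiv.Perm.nat_card_centralizer, target_cycleType]
  decide

end Cfsg.Agent.S3376
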