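import Cfsg.Statements.S3377
-- import your own Cfsg.Agent.* helpers here

set_option autoImplicit false
open Cfsg

namespace Cfsg.Agent.S3377

set_option maxHeartbeats 2000000

abbrev rels : Set (FreeGroup (Fin 2)) :=
  {FreeGroup.of (0 : Fin 2) ^ 3, FreeGroup.of (1 : Fin 2) ^ 5, (FreeGroup.of (0 : Fin 2) * FreeGroup.of 1) ^ 2}

abbrev G := PresentedGroup rels

abbrev a : G := PresentedGroup.of 0
abbrev b : G := PresentedGroup.of 1

theorem a_pow : a ^ 3 = 1 := by
  have h := PresentedGroup.one_of_mem (rels := rels) (x := FreeGroup.of (0 : Fin 2) ^ 3) (Or.inl rfl)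
  exact (map_pow _ _ _).symm.trans h

theorem b_pow : b ^ 5 = 1 := by
  have h := PresentedGroup.one_of_mem (rels := rels) (x := FreeGroup.of (1 : Fin 2) ^ 5) (Or.inr (Or.inl rfl))
  exact (map_pow _ _ _).symm.trans h

theorem ab_pow : (a * b) ^ 2 = 1 := by
  have h := PresentedGroup.one_of_mem (rels := rels) (x := (FreeGroup.of (0 : Fin 2) * FreeGroup.of 1) ^ 2) (Or.inr (Or.inr rfl))
  exact ((map_pow _ _ _).trans (congrArg (· ^ 2) (map_mul _ _ _))).symm.trans h

theorem exists_small : ∃ s : Finset (G ⧸ Subgroup.zpowers b), s.card ≤ 12 ∧ ∀ x, x ∈ s := by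
  classical
  let Q := G ⧸ Subgroup.zpowers b
  have rel0 : ∀ c : Q, a • a • a • c = c := fun c => by
    rw [← mul_smul, ← mul_smul]
    rw [show a * a * a = a ^ 3 by rw [pow_succ, sq], a_pow, one_smul]
  have rel1 : ∀ c : Q, b • b • b • b • b • c = c := fun c => by
    simp only [← mul_smul]
    rw [show b * (b * (b * (b * b))) = b ^ 5 by simp only [pow_succ, pow_zero, one_mul, mul_assoc], b_pow, one_smul]
  have rel2 : ∀ c : Q, a • b • a • b • c = c := fun c => by
    simp only [← mul_smul]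
    rw [show a * (b * (a * b)) = (a * b) ^ 2 by rw [sq, mul_assoc], ab_pow, one_smul]
  let c0 : Q := ((1 : G) : Q)
  have hfix : b • c0 = c0 := by
    show ((b * 1 : G) : Q) = ((1 : G) : Q)
    rw [QuotientGroup.eq]
    simp
  have f_1_0 : b • c0 = c0 := hfix
  obtain ⟨c1, f_0_0⟩ : ∃ c : Q, a • c0 = c := ⟨_, rfl⟩
  obtain ⟨c2, f_0_1⟩ : ∃ c : Q, a • c1 = c := ⟨_, rfl⟩
  have f_0_2 : a • c2 = c0 := by
    have h := rel0 c0
    rw [f_0_0, f_0_1] at h
    exact h
  have f_1_1 : b • c1 = c2 := by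
    have h := rel2 c0
    rw [f_1_0, f_0_0] at h
    have h2 : a • (c2) = c0 := by rw [f_0_2]
    exact smul_left_cancel _ (h.trans h2.symm)
  obtain ⟨c3, f_1_2⟩ : ∃ c : Q, b • c2 = c := ⟨_, rfl⟩
  obtain ⟨c4, f_0_3⟩ : ∃ c : Q, a • c3 = c := ⟨_, rfl⟩
  have f_1_4 : b • c4 = c1 := by
    have h := rel2 c2
    rw [f_1_2, f_0_3] at h
    have h2 : a • (c1) = c2 := by rw [f_0_1]
    exact smul_left_cancel _ (h.trans h2.symm)
  obtain ⟨c5, f_1_3⟩ : ∃ c : Q, b • c3 = c := ⟨_, rfl⟩
  have f_1_5 : b • c5 = c4 := by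
    have h := rel1 c1
    rw [f_1_1, f_1_2, f_1_3] at h
    have h2 : b • (c4) = c1 := by rw [f_1_4]
    exact smul_left_cancel _ (h.trans h2.symm)
  obtain ⟨c6, f_0_4⟩ : ∃ c : Q, a • c4 = c := ⟨_, rfl⟩
  have f_0_6 : a • c6 = c3 := by
    have h := rel0 c3
    rw [f_0_3, f_0_4] at h
    exact h
  obtain ⟨c7, f_0_5⟩ : ∃ c : Q, a • c5 = c := ⟨_, rfl⟩
  have f_1_7 : b • c7 = c6 := by
    have h := rel2 c3
    rw [f_1_3, f_0_5] at h
    have h2 : a • (c6) = c3 := by rw [f_0_6]
    exact smul_left_cancel _ (h.trans h2.symm)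
  obtain ⟨c8, f_1_6⟩ : ∃ c : Q, b • c6 = c := ⟨_, rfl⟩
  have f_0_8 : a • c8 = c5 := by
    have h := rel2 c5
    rw [f_1_5, f_0_4, f_1_6] at h
    exact h
  have f_0_7 : a • c7 = c8 := by
    have h := rel0 c5
    rw [f_0_5] at h
    have h2 : a • (c8) = c5 := by rw [f_0_8]
    exact smul_left_cancel _ (h.trans h2.symm)
  obtain ⟨c9, f_1_8⟩ : ∃ c : Q, b • c8 = c := ⟨_, rfl⟩
  obtain ⟨c10, f_0_9⟩ : ∃ c : Q, a • c9 = c := ⟨_, rfl⟩
  have f_1_10 : b • c10 = c7 := by
    have h := rel2 c8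
    rw [f_1_8, f_0_9] at h
    have h2 : a • (c7) = c8 := by rw [f_0_7]
    exact smul_left_cancel _ (h.trans h2.symm)
  have f_1_9 : b • c9 = c10 := by
    have h := rel1 c6
    rw [f_1_6, f_1_8] at h
    have h2 : b • (b • (c10)) = c6 := by rw [f_1_10, f_1_7]
    exact smul_left_cancel _ (smul_left_cancel _ (h.trans h2.symm))
  obtain ⟨c11, f_0_10⟩ : ∃ c : Q, a • c10 = c := ⟨_, rfl⟩
  have f_0_11 : a • c11 = c9 := by
    have h := rel0 c9
    rw [f_0_9, f_0_10] at h
    exact h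
  have f_1_11 : b • c11 = c11 := by
    have h := rel2 c9
    rw [f_1_9, f_0_10] at h
    have h2 : a • (c11) = c9 := by rw [f_0_11]
    exact smul_left_cancel _ (h.trans h2.symm)
  let S : Finset Q := {c0, c1, c2, c3, c4, c5, c6, c7, c8, c9, c10, c11}
  have hcard : S.card ≤ 12 := by
    refine le_trans (Finset.card_insert_le _ _) ?_
    repeat (first | exact le_rfl | (refine Nat.succ_le_succ ((Finset.card_insert_le _ _).trans ?_)))
  refine ⟨S, hcard, fun x => ?_⟩
  have hAS : ∀ y ∈ S, a • y ∈ S := by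
    simp only [S, Finset.forall_mem_insert, Finset.mem_singleton, forall_eq, f_0_0, f_0_1, f_0_2, f_0_3, f_0_4, f_0_5, f_0_6, f_0_7, f_0_8, f_0_9, f_0_10, f_0_11]
    simp only [Finset.mem_insert, Finset.mem_singleton, true_or, or_true, and_self]
  have hBS : ∀ y ∈ S, b • y ∈ S := by
    simp only [S, Finset.forall_mem_insert, Finset.mem_singleton, forall_eq, f_1_0, f_1_1, f_1_2, f_1_3, f_1_4, f_1_5, f_1_6, f_1_7, f_1_8, f_1_9, f_1_10, f_1_11]
    simp only [Finset.mem_insert, Finset.mem_singleton, true_or, or_true, and_self]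
  have key : ∀ g : G, ∀ y ∈ S, g • y ∈ S := by
    intro g
    have hg : g ∈ Subgroup.closure (Set.range (PresentedGroup.of (rels := rels))) := by
      rw [PresentedGroup.closure_range_of]; trivial
    induction hg using Subgroup.closure_induction with
    | mem g hg =>
      obtain ⟨i, rfl⟩ := hg
      fin_cases i
      · exact hAS
      · exact hBS
    | one => intro y hy; rwa [one_smul]
    | mul g h _ _ hg hh => intro y hy; rw [mul_smul]; exact hg _ (hh _ hy)
    | inv g _ hg =>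
      intro y hy
      have hinj : Function.Injective (fun z : S => (⟨g • z.1, hg _ z.2⟩ : S)) := fun u v h =>
        Subtype.ext (smul_left_cancel g (congrArg Subtype.val h))
      obtain ⟨z, hz⟩ := (Finite.injective_iff_surjective.1 hinj) ⟨y, hy⟩
      rw [show g⁻¹ • y = z.1 from inv_smul_eq_iff.2 (congrArg Subtype.val hz).symm]
      exact z.2
  obtain ⟨g, rfl⟩ := QuotientGroup.mk_surjective x
  have := key g c0 (by simp [S])
  have e : g • c0 = ((g : G) : Q) := by
    show ((g * 1 : G) : Q) = _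
    rw [mul_one]
  rwa [e] at this

def pa : Equiv.Perm (Fin 5) := Equiv.swap 0 1 * Equiv.swap 1 2
def pb : Equiv.Perm (Fin 5) := Equiv.addRight 2

theorem perm_facts : Equiv.Perm.sign pa = 1 ∧ Equiv.Perm.sign pb = 1 ∧ pa ^ 3 = 1 ∧ pb ^ 5 = 1 ∧
    (pa * pb) ^ 2 = 1 ∧ pa ≠ 1 ∧ pb ≠ 1 ∧ pa * pb ≠ 1 := by decide +kernel


/-- The alternating group of degree 5 has the presentation ⟨x, y | x³ = 1, y⁵ = 1, (xy)² = 1⟩: the group so presented is isomorphic to Alt(5). -/
theorem result :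
    Nonempty (PresentedGroup ({FreeGroup.of (0 : Fin 2) ^ 3, FreeGroup.of (1 : Fin 2) ^ 5,
        (FreeGroup.of (0 : Fin 2) * FreeGroup.of 1) ^ 2} : Set (FreeGroup (Fin 2))) ≃* alternatingGroup (Fin 5)) := by
  classical
  obtain ⟨s, hs, hcov⟩ := exists_small
  have hfin : Finite (G ⧸ Subgroup.zpowers b) := @Finite.of_fintype _ ⟨s, hcov⟩
  have hb : IsOfFinOrder b := isOfFinOrder_iff_pow_eq_one.2 ⟨5, by norm_num, b_pow⟩
  have hHf : Finite (Subgroup.zpowers b) := hb.finite_zpowers.to_subtype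
  have hGf : Finite G := (Subgroup.finite_iff_finite_and_finiteIndex (Subgroup.zpowers b)).2 ⟨hHf, Subgroup.finiteIndex_of_finite_quotient⟩
  have hcard : Nat.card G ≤ 60 := by
    rw [← (Subgroup.zpowers b).card_mul_index]
    refine le_trans (Nat.mul_le_mul (?_ : Nat.card (Subgroup.zpowers b) ≤ 5) (?_ : (Subgroup.zpowers b).index ≤ 12)) le_rfl
    · rw [Nat.card_zpowers]; exact Nat.le_of_dvd (by norm_num) (orderOf_dvd_of_pow_eq_one b_pow)
    · rw [Subgroup.index_eq_card]
      letI : Fintype (G ⧸ Subgroup.zpowers b) := ⟨s, hcov⟩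
      rw [Nat.card_eq_fintype_card]
      exact hs
  obtain ⟨h1, h2, h3, h4, h5, h6, h7, h8⟩ := perm_facts
  let A : alternatingGroup (Fin 5) := ⟨pa, Equiv.Perm.mem_alternatingGroup.2 h1⟩
  let B : alternatingGroup (Fin 5) := ⟨pb, Equiv.Perm.mem_alternatingGroup.2 h2⟩
  have hrel : ∀ r ∈ rels, FreeGroup.lift ![A, B] r = 1 := by
    intro r hr
    rcases hr with rfl | rfl | rfl <;> simp only [map_pow, map_mul, FreeGroup.lift_apply_of] <;>
      exact Subtype.ext (by first | exact h3 | exact h4 | exact h5)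
  let φ : G →* alternatingGroup (Fin 5) := PresentedGroup.toGroup hrel
  have hA : φ a = A := PresentedGroup.toGroup.of hrel
  have hB : φ b = B := PresentedGroup.toGroup.of hrel
  have f3 : Fact (Nat.Prime 3) := ⟨Nat.prime_three⟩
  have f5 : Fact (Nat.Prime 5) := ⟨Nat.prime_five⟩
  have f2 : Fact (Nat.Prime 2) := ⟨Nat.prime_two⟩
  have ord : ∀ (p : ℕ) [Fact p.Prime] (x : G), ((φ x : alternatingGroup (Fin 5)) : Equiv.Perm (Fin 5)) ^ p = 1 →
      ((φ x : alternatingGroup (Fin 5)) : Equiv.Perm (Fin 5)) ≠ 1 → p ∣ Nat.card φ.range := by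
    intro p _ x hx hne
    have h := orderOf_dvd_natCard (⟨φ x, x, rfl⟩ : φ.range)
    rwa [← Subgroup.orderOf_coe, ← Subgroup.orderOf_coe, orderOf_eq_prime hx hne] at h
  have d3 := ord 3 a (by rw [hA]; exact h3) (by rw [hA]; exact h6)
  have d5 := ord 5 b (by rw [hB]; exact h4) (by rw [hB]; exact h7)
  have d2 := ord 2 (a * b) (by rw [map_mul, hA, hB]; exact h5) (by rw [map_mul, hA, hB]; exact h8)
  have d30 : 30 ∣ Nat.card φ.range :=
    Nat.Coprime.mul_dvd_of_dvd_of_dvd (m := 6) (n := 5) (by norm_num)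
      (Nat.Coprime.mul_dvd_of_dvd_of_dvd (m := 2) (n := 3) (by norm_num) d2 d3) d5
  have hA5 : Nat.card (alternatingGroup (Fin 5)) = 60 := by
    rw [nat_card_alternatingGroup, Nat.card_eq_fintype_card, Fintype.card_fin]; rfl
  have hsur : Function.Surjective φ := by
    rw [← MonoidHom.range_eq_top]
    by_contra hne
    have hlt : Nat.card φ.range ≠ 60 := fun h => hne (Subgroup.eq_top_of_card_eq _ (h.trans hA5.symm))
    have hdvd : Nat.card φ.range ∣ 60 := hA5 ▸ Subgroup.card_subgroup_dvd_card _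
    have h30 : Nat.card φ.range = 30 := by
      obtain ⟨k, hk⟩ := d30
      have := Nat.le_of_dvd (by norm_num) hdvd
      have h0 : Nat.card φ.range ≠ 0 := Nat.card_pos.ne'
      omega
    have hidx : φ.range.index = 2 := by
      have h := φ.range.card_mul_index
      rw [h30, hA5] at h
      omega
    haveI := alternatingGroup.isSimpleGroup_five
    rcases (Subgroup.normal_of_index_eq_two hidx).eq_bot_or_eq_top with h | h
    · rw [h, Subgroup.card_bot] at h30; norm_num at h30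
    · exact hne h
  have hbij : Function.Bijective φ := by
    rw [Nat.bijective_iff_surjective_and_card]
    refine ⟨hsur, le_antisymm (hA5.symm ▸ hcard) (Nat.card_le_card_of_surjective φ hsur)⟩
  exact ⟨MulEquiv.ofBijective φ hbij⟩

end Cfsg.Agent.S3377
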