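import Cfsg.Statements.S3389
import Mathlib

set_option autoImplicit false
open Cfsg

namespace Cfsg.Agent.S3389

/-- Let G be a finite group acting faithfully and transitively on a finite set Ω with fixity k ≥ 1: every non-identity element fixes at most k points and some non-identity element fixes exactly k points. Then |Z(G)| divides k; if k = 2 then |G| is even; and for every prime p > k dividing |G| and every point α, either p does not divide |G_α| or G_α contains a Sylow p-subgroup of G. -/
theorem result {G : Type*} [Group G] [Finite G] {Ω : Type*} [Fintype Ω] [MulAction G Ω] [FaithfulSMul G Ω]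
    (htr : MulAction.IsPretransitive G Ω) (k : ℕ) (hk : 1 ≤ k)
    (hfix : ∀ g : G, g ≠ 1 → Nat.card (MulAction.fixedBy Ω g) ≤ k) (hex : ∃ g : G, g ≠ 1 ∧ Nat.card (MulAction.fixedBy Ω g) = k) :
    Nat.card (Subgroup.center G) ∣ k ∧ (k = 2 → 2 ∣ Nat.card G) ∧
      ∀ (p : ℕ), p.Prime → k < p → p ∣ Nat.card G → ∀ α : Ω,
        ¬ p ∣ Nat.card (MulAction.stabilizer G α) ∨ ¬ p ∣ (MulAction.stabilizer G α).index := by
  classical
  have hstab : ∀ (z : G), z ∈ Subgroup.center G → ∀ ω : Ω, z • ω = ω → z = 1 := fun z hz ω hω => by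
    refine FaithfulSMul.eq_of_smul_eq_smul fun x : Ω => ?_
    obtain ⟨g, rfl⟩ := htr.exists_smul_eq ω x
    rw [one_smul, ← mul_smul, ← Subgroup.mem_center_iff.mp hz g, mul_smul, hω]
  obtain ⟨g₀, hg₀, hg₀k⟩ := hex
  have hΩ : ∀ (x : G), ∀ (z : G), z * x = x * z → ∀ ω ∈ MulAction.fixedBy Ω x, z • ω ∈ MulAction.fixedBy Ω x :=
    fun x z hc ω hω => by
      rw [MulAction.mem_fixedBy] at hω ⊢
      rw [← mul_smul, ← hc, mul_smul, hω]
  refine ⟨?_, ?_, ?_⟩
  · rw [← hg₀k]
    let act : MulAction (Subgroup.center G) (MulAction.fixedBy Ω g₀) :=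
      { smul := fun z ω => ⟨(z : G) • (ω : Ω), hΩ _ _ (Subgroup.mem_center_iff.mp z.2 g₀).symm _ ω.2⟩
        one_smul := fun ω => Subtype.ext (one_smul G (ω : Ω))
        mul_smul := fun z z' ω => Subtype.ext (mul_smul (z : G) (z' : G) (ω : Ω)) }
    have : Fintype (MulAction.fixedBy Ω g₀) := Fintype.ofFinite _
    have : Fintype (Subgroup.center G) := Fintype.ofFinite _
    rw [Nat.card_congr (MulAction.selfEquivSigmaOrbits (Subgroup.center G) (MulAction.fixedBy Ω g₀)),
      Nat.card_sigma]
    refine Finset.dvd_sum fun q _ => ?_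
    rw [Nat.card_coe_set_eq, ← MulAction.index_stabilizer,
      show MulAction.stabilizer (Subgroup.center G) q.out = ⊥ from ?_, Subgroup.index_bot]
    rw [Subgroup.eq_bot_iff_forall]
    exact fun z hz => Subtype.ext (hstab z z.2 _ (congrArg Subtype.val hz))
  · intro hk2
    subst hk2
    by_contra hodd
    have : Nontrivial (MulAction.fixedBy Ω g₀) := by
      rw [← Finite.one_lt_card_iff_nontrivial, hg₀k]; norm_num
    obtain ⟨⟨a, ha⟩, ⟨b, hb⟩, hab⟩ := exists_pair_ne (MulAction.fixedBy Ω g₀)
    have hab' : a ≠ b := fun h => hab (Subtype.ext h)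
    set K := MulAction.stabilizer G a ⊓ MulAction.stabilizer G b
    have hg₀K : g₀ ∈ K := ⟨ha, hb⟩
    obtain ⟨q, hq, hqd⟩ := Nat.exists_prime_and_dvd (n := Nat.card K) (fun e => hg₀ (by
      have := Subgroup.card_eq_one.mp e
      rw [this, Subgroup.mem_bot] at hg₀K
      exact hg₀K))
    have := Fact.mk hq
    obtain ⟨P⟩ : Nonempty (Sylow q K) := inferInstance
    set P' : Subgroup G := (P : Subgroup K).map K.subtype with hP'
    have hP'K : P' ≤ K := Subgroup.map_subtype_le _
    obtain ⟨y, hy, hy1⟩ := (Subgroup.bot_or_exists_ne_one P').resolve_left (fun h => by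
      have := (Subgroup.map_eq_bot_iff_of_injective _ K.subtype_injective).mp h
      exact P.ne_bot_of_dvd_card hqd this)
    have hfixP : ∀ ω : Ω, (∀ u ∈ P', u • ω = ω) → ω = a ∨ ω = b := by
      intro ω hω
      by_contra hc
      push Not at hc
      have h3 : ({ω, a, b} : Finset Ω) ⊆ (MulAction.fixedBy Ω y).toFinset := by
        intro x hx
        simp only [Finset.mem_insert, Finset.mem_singleton] at hx
        rw [Set.mem_toFinset, MulAction.mem_fixedBy]
        rcases hx with rfl | rfl | rfl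
        · exact hω y hy
        · exact (hP'K hy).1
        · exact (hP'K hy).2
      have := Finset.card_le_card h3
      rw [Finset.card_insert_of_notMem (by simp [hc.1, hc.2]), Finset.card_pair hab',
        ← Set.ncard_eq_toFinset_card', ← Nat.card_coe_set_eq] at this
      have := hfix y hy1
      omega
    have hNfix : ∀ x ∈ Subgroup.normalizer (P' : Set G), ∀ ω : Ω, (∀ u ∈ P', u • ω = ω) →
        ∀ u ∈ P', u • x • ω = x • ω := fun x hx ω hω u hu => by
      have hx' : x⁻¹ ∈ Subgroup.normalizer (P' : Set G) := inv_mem hx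
      have := hω _ ((Subgroup.mem_normalizer_iff.mp hx' u).mp hu)
      rw [inv_inv, mul_smul, mul_smul, inv_smul_eq_iff] at this
      exact this
    have hfa : ∀ u ∈ P', u • a = a := fun u hu => (hP'K hu).1
    have hfb : ∀ u ∈ P', u • b = b := fun u hu => (hP'K hu).2
    have hN : Subgroup.normalizer (P' : Set G) ≤ K := by
      intro x hx
      have hsq : (x * x) • a = a := by
        rw [mul_smul]
        rcases hfixP _ (hNfix x hx a hfa) with h | h
        · rw [h, h]
        · rw [h]
          rcases hfixP _ (hNfix x hx b hfb) with h' | h'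
          · exact h'
          · exact absurd (MulAction.injective x (h.trans h'.symm)) hab'
      have hodd' : Odd (Nat.card G) := Nat.not_even_iff_odd.mp fun h => hodd (even_iff_two_dvd.mp h)
      have hxa : x • a = a := by
        obtain ⟨j, hj⟩ := hodd'
        have h1 : (x * x) ^ (j + 1) = x := by
          rw [← pow_two, ← pow_mul, show 2 * (j + 1) = Nat.card G + 1 by omega, pow_succ, pow_card_eq_one',
            one_mul]
        have h2 := MulAction.mem_stabilizer_iff.mp
          ((MulAction.stabilizer G a).pow_mem (MulAction.mem_stabilizer_iff.mpr hsq) (j + 1))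
        rwa [h1] at h2
      refine ⟨hxa, ?_⟩
      show x • b = b
      rcases hfixP _ (hNfix x hx b hfb) with h | h
      · exact absurd (MulAction.injective x (h.trans hxa.symm)).symm hab'
      · exact h
    -- the subgroup is a Sylow subgroup of the whole group
    have hP'p : IsPGroup q P' := P.2.map _
    obtain ⟨Q, hQ⟩ := hP'p.exists_le_sylow
    have hQeq : (Q : Subgroup G) = P' := by
      by_contra hne
      have hlt : P'.subgroupOf (Q : Subgroup G) < ⊤ := lt_top_iff_ne_top.mpr fun h =>
        hne (le_antisymm (Subgroup.subgroupOf_eq_top.mp h) hQ)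
      have : Group.IsNilpotent (Q : Subgroup G) := Q.2.isNilpotent
      obtain ⟨x, hx, hxP⟩ := SetLike.exists_of_lt (Group.normalizerCondition_of_isNilpotent _ hlt)
      have hxn : (x : G) ∈ Subgroup.normalizer (P' : Set G) := by
        refine Subgroup.mem_normalizer_iff_map_conj_eq.mpr (Subgroup.eq_of_le_of_card_ge ?_ ?_)
        · rintro _ ⟨u, hu, rfl⟩
          exact (Subgroup.mem_normalizer_iff.mp hx ⟨u, hQ hu⟩).mp hu
        · exact ge_of_eq (Nat.card_congr (P'.equivMapOfInjective _ (MulAut.conj (x : G)).injective).toEquiv).symm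
      have hxK : (x : G) ∈ K := hN hxn
      have hle : (P : Subgroup K) ≤ ((Q : Subgroup G) ⊓ K).subgroupOf K := fun u hu =>
        ⟨hQ ⟨u, hu, rfl⟩, u.2⟩
      have heq : ((Q : Subgroup G) ⊓ K).subgroupOf K = (P : Subgroup K) :=
        P.3 (IsPGroup.comap_of_injective (Q.2.to_le inf_le_left) K.subtype K.subtype_injective) hle
      have : (⟨(x : G), hxK⟩ : K) ∈ ((Q : Subgroup G) ⊓ K).subgroupOf K := ⟨x.2, hxK⟩
      rw [heq] at this
      exact hxP (⟨_, this, rfl⟩ : (x : G) ∈ P')
    obtain ⟨x, hx⟩ := htr.exists_smul_eq a b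
    set St := MulAction.stabilizer G a
    let P1 : Sylow q St := Q.subtype (by rw [hQeq]; exact hP'K.trans inf_le_left)
    let Q' : Sylow q G := (x⁻¹ : G) • Q
    have hQ'le : (Q' : Subgroup G) ≤ St := by
      intro u hu
      rw [Sylow.coe_subgroup_smul, hQeq] at hu
      obtain ⟨w, hw, rfl⟩ := hu
      show (x⁻¹ * w * x⁻¹⁻¹) • a = a
      rw [inv_inv, mul_smul, mul_smul, hx, hfb w hw, ← hx, inv_smul_smul]
    obtain ⟨m, hm⟩ := MulAction.exists_smul_eq St P1 (Q'.subtype hQ'le)
    have hm' : (m : G) • Q = Q' := by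
      refine Sylow.subtype_injective (N := St) (P := (m : G) • Q) (Q := Q')
        (hP := ?_) (hQ := hQ'le) ?_
      · intro u hu
        rw [Sylow.coe_subgroup_smul, hQeq] at hu
        obtain ⟨w, hw, rfl⟩ := hu
        exact mul_mem (mul_mem m.2 (hP'K hw).1) (inv_mem m.2)
      · rw [← hm]
        exact (Sylow.smul_subtype _ m).symm
    have hxm : x * (m : G) ∈ Subgroup.normalizer ((Q : Subgroup G) : Set G) :=
      Sylow.smul_eq_iff_mem_normalizer.mp (by rw [mul_smul, hm', smul_inv_smul])
    rw [hQeq] at hxm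
    have hfin : (x * (m : G)) • a = a := (hN hxm).1
    rw [mul_smul, show (m : G) • a = a from m.2, hx] at hfin
    exact hab' hfin.symm
  · intro p hp hkp hpG α
    by_contra hc
    push Not at hc
    obtain ⟨hp1, hp2⟩ := hc
    have := Fact.mk hp
    obtain ⟨x, hx⟩ := exists_prime_orderOf_dvd_card' p hp1
    have hx1 : (x : G) ≠ 1 := fun h => hp.one_lt.ne (by
      rw [← hx, show x = 1 from Subtype.ext h, orderOf_one])
    have hpx : IsPGroup p (Subgroup.zpowers (x : G)) := IsPGroup.of_card (n := 1) (by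
      rw [Nat.card_zpowers, Subgroup.orderOf_coe, hx, pow_one])
    obtain ⟨P, hP⟩ := hpx.exists_le_sylow
    have hxP : (x : G) ∈ (P : Subgroup G) := hP (Subgroup.mem_zpowers _)
    have hsmall : ∀ y : G, y ∈ (P : Subgroup G) → ∀ u : G, u ≠ 1 → y * u = u * y →
        ∀ ω ∈ MulAction.fixedBy Ω u, y • ω = ω := by
      intro y hy u hu hc ω hω
      by_contra hne
      obtain ⟨j, hj⟩ := P.2 ⟨y, hy⟩
      have hj' : y ^ p ^ j = 1 := congrArg Subtype.val hj
      have hsub : MulAction.orbit (Subgroup.zpowers y) ω ⊆ MulAction.fixedBy Ω u := by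
        rintro _ ⟨⟨_, i, rfl⟩, rfl⟩
        exact hΩ u (y ^ i) ((show Commute y u from hc).zpow_left i) ω hω
      have h1 : Nat.card (MulAction.orbit (Subgroup.zpowers y) ω) ≤ k :=
        (Set.ncard_le_ncard hsub).trans (hfix u hu) |> fun h => by rw [Nat.card_coe_set_eq]; exact h
      have h2 : Nat.card (MulAction.orbit (Subgroup.zpowers y) ω) ∣ p ^ j := by
        rw [Nat.card_coe_set_eq, ← MulAction.index_stabilizer]
        refine (Subgroup.index_dvd_card _).trans ?_
        rw [Nat.card_zpowers]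
        exact orderOf_dvd_of_pow_eq_one hj'
      obtain ⟨i, -, hi⟩ := (Nat.dvd_prime_pow hp).mp h2
      rcases Nat.eq_zero_or_pos i with rfl | hi0
      · rw [pow_zero, Nat.card_eq_one_iff_unique] at hi
        exact hne (congrArg Subtype.val (hi.1.elim (⟨y • ω, ⟨y, Subgroup.mem_zpowers y⟩, rfl⟩ :
          MulAction.orbit (Subgroup.zpowers y) ω) ⟨ω, MulAction.mem_orbit_self ω⟩))
      · have := Nat.le_self_pow hi0.ne' p
        omega
    have hnt : Nontrivial P := ⟨⟨⟨x, hxP⟩, 1, fun h => hx1 (congrArg Subtype.val h)⟩⟩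
    have := P.2.center_nontrivial
    obtain ⟨z, hz⟩ := exists_ne (1 : Subgroup.center P)
    have hz1 : ((z : P) : G) ≠ 1 := fun h => hz (Subtype.ext (Subtype.ext h))
    have hzc : ∀ y ∈ (P : Subgroup G), y * (z : P) = ((z : P) : G) * y := fun y hy =>
      congrArg Subtype.val (Subgroup.mem_center_iff.mp z.2 ⟨y, hy⟩)
    have hzα : ((z : P) : G) • α = α := hsmall _ (z : P).2 (x : G) hx1 (hzc _ hxP).symm α x.2
    have hPα : (P : Subgroup G) ≤ MulAction.stabilizer G α := fun y hy =>
      hsmall y hy _ hz1 (hzc y hy) α hzα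
    exact P.not_dvd_index (hp2.trans (Subgroup.index_dvd_of_le hPα))

end Cfsg.Agent.S3389
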