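import Cfsg.Statements.S3391
import Cfsg.Agent.Lib.SzC.Fixity

set_option autoImplicit false
open Cfsg

namespace Cfsg.Agent.S3391

/-- Let q = 2^{2m+1} ≥ 8 and let G be isomorphic to the Suzuki group Sz(q). If G acts faithfully and transitively on a finite set Ω with fixity 2 (every non-identity element fixes at most two points, and some fixes exactly two), then either |Ω| = q² + 1 and the action is 2-transitive, or |Ω| = q²(q² + 1) and the point stabilizers have order q − 1. -/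
theorem result {G : Type*} [Group G] [Finite G] (F : Type) [Field F] [Fintype F] (m : ℕ) (hm : 1 ≤ m) (hF : Fintype.card F = 2 ^ (2 * m + 1))
    (e : G ≃* ↥(Cfsg.Lie.Sz F (2 ^ (m + 1)))) {Ω : Type*} [Fintype Ω] [MulAction G Ω] [FaithfulSMul G Ω] (htr : MulAction.IsPretransitive G Ω)
    (hfix : ∀ g : G, g ≠ 1 → Nat.card (MulAction.fixedBy Ω g) ≤ 2) (hex : ∃ g : G, g ≠ 1 ∧ Nat.card (MulAction.fixedBy Ω g) = 2) :
    (Fintype.card Ω = Fintype.card F ^ 2 + 1 ∧ MulAction.IsMultiplyPretransitive G Ω 2) ∨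
    (Fintype.card Ω = Fintype.card F ^ 2 * (Fintype.card F ^ 2 + 1) ∧ ∀ α : Ω, Nat.card (MulAction.stabilizer G α) = Fintype.card F - 1) := by
  classical
  haveI : CharP F 2 := Cfsg.Agent.SzB.charTwo_of_card hF
  let φ : Cfsg.Agent.SzC.SG hF ≃* G := e.symm
  letI : MulAction (Cfsg.Agent.SzC.SG hF) Ω := MulAction.compHom Ω φ.toMonoidHom
  have hsmul : ∀ (x : Cfsg.Agent.SzC.SG hF) (ω : Ω), x • ω = φ x • ω := fun _ _ => rfl
  have hfix' : ∀ x : Cfsg.Agent.SzC.SG hF, x ≠ 1 → Nat.card (MulAction.fixedBy Ω x) ≤ 2 := fun x hx =>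
    hfix (φ x) (fun h => hx ((MulEquiv.map_eq_one_iff φ).mp h))
  have hfaith : FaithfulSMul (Cfsg.Agent.SzC.SG hF) Ω :=
    ⟨fun {a b} h => φ.injective (eq_of_smul_eq_smul (α := Ω) h)⟩
  have htr' : MulAction.IsPretransitive (Cfsg.Agent.SzC.SG hF) Ω := ⟨fun a b => by
    obtain ⟨g, hg⟩ := htr.exists_smul_eq a b
    exact ⟨φ.symm g, by rw [hsmul, φ.apply_symm_apply, hg]⟩⟩
  have hex' : ∃ x : Cfsg.Agent.SzC.SG hF, x ≠ 1 ∧ ∃ α : Ω, x • α = α := by
    obtain ⟨g, hg1, hg2⟩ := hex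
    haveI : Nonempty (MulAction.fixedBy Ω g) := by
      by_contra h
      rw [not_nonempty_iff] at h
      rw [Nat.card_of_isEmpty] at hg2
      norm_num at hg2
    obtain ⟨⟨α, hα⟩⟩ := ‹Nonempty (MulAction.fixedBy Ω g)›
    refine ⟨φ.symm g, fun h => hg1 ?_, α, by rw [hsmul, φ.apply_symm_apply]; exact hα⟩
    rw [← φ.apply_symm_apply g, h, map_one]
  have horb : ∀ α : Ω, Fintype.card Ω * Nat.card (MulAction.stabilizer (Cfsg.Agent.SzC.SG hF) α) =
      Nat.card (Cfsg.Agent.SzC.SG hF) := by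
    intro α
    have h1 := (MulAction.stabilizer (Cfsg.Agent.SzC.SG hF) α).card_mul_index
    rw [MulAction.index_stabilizer_of_transitive _ α, Nat.card_eq_fintype_card (α := Ω), mul_comm] at h1
    exact h1
  rw [Cfsg.Agent.SzC.card_SG] at horb
  rw [hF]
  rcases Cfsg.Agent.SzC.fixity_two hF hm hfix' hfaith htr' hex' with ⟨β, hβ⟩ | hall
  · left
    set τ := Cfsg.Agent.SzB.stdTwist hF
    refine ⟨?_, ?_⟩
    · have h := horb β
      rw [hβ, Cfsg.Agent.SzB.card_bor, hF] at h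
      have hpos : 0 < (2 ^ (2 * m + 1) - 1) * (2 ^ (2 * m + 1)) ^ 2 :=
        Nat.mul_pos (Nat.sub_pos_of_lt (Nat.one_lt_two_pow (by omega))) (by positivity)
      apply Nat.eq_of_mul_eq_mul_right hpos
      rw [h]; ring
    · rw [MulAction.is_two_pretransitive_iff]
      have key : ∀ a b : Ω, a ≠ b → ∃ x : Cfsg.Agent.SzC.SG hF, x • β = a ∧ x • (Cfsg.Agent.SzB.wS τ • β) = b := by
        intro a b hab
        obtain ⟨p, rfl⟩ := htr'.exists_smul_eq β a
        obtain ⟨r, rfl⟩ := htr'.exists_smul_eq β b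
        have hne : p⁻¹ * r ∉ Cfsg.Agent.SzB.bor τ := by
          rw [← hβ, MulAction.mem_stabilizer_iff, mul_smul, inv_smul_eq_iff]
          exact fun h => hab h.symm
        obtain ⟨s, t, hst⟩ := Cfsg.Agent.SzB.exists_cell τ hne
        refine ⟨p * Cfsg.Agent.SzB.uS τ s t, ?_, ?_⟩
        · have hu : Cfsg.Agent.SzB.uS τ s t • β = β :=
            MulAction.mem_stabilizer_iff.mp (hβ ▸ Cfsg.Agent.SzB.uS_mem_bor τ s t)
          rw [mul_smul, hu]
        · rw [← hβ, MulAction.mem_stabilizer_iff, mul_smul, inv_smul_eq_iff, mul_smul, mul_smul] at hst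
          rw [mul_smul, ← hst, smul_inv_smul]
      intro a b c d hab hcd
      obtain ⟨x, hx1, hx2⟩ := key a b hab
      obtain ⟨y, hy1, hy2⟩ := key c d hcd
      refine ⟨φ (y * x⁻¹), ?_, ?_⟩
      · rw [← hsmul, ← hx1, mul_smul, inv_smul_smul, hy1]
      · rw [← hsmul, ← hx2, mul_smul, inv_smul_smul, hy2]
  · right
    have hstab : ∀ α : Ω, Nat.card (MulAction.stabilizer G α) =
        Nat.card (MulAction.stabilizer (Cfsg.Agent.SzC.SG hF) α) := fun α =>
      (Nat.card_congr (Equiv.subtypeEquiv φ.toEquiv (fun x => Iff.rfl))).symm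
    refine ⟨?_, fun α => by rw [hstab, hall]⟩
    obtain ⟨g, hg1, β, hgβ⟩ := hex'
    have h := horb β
    rw [hall β] at h
    apply Nat.eq_of_mul_eq_mul_right (Nat.sub_pos_of_lt (Nat.one_lt_two_pow (show 2 * m + 1 ≠ 0 by omega)))
    rw [h]; ring

end Cfsg.Agent.S3391
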