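import Cfsg.Statements.S3495
import Cfsg.Agent.Lib.Recog.ExtremelyPrimitive

set_option autoImplicit false
open Cfsg

namespace Cfsg.Agent.S3495

/-- Let a finite group G act faithfully and primitively on a finite set Ω with non-trivial point stabilizers, each acting primitively on every one of its orbits (an extremely primitive group), and suppose G has an elementary abelian normal p-subgroup N acting regularly on Ω (affine type). Then every non-trivial subgroup M of a point stabilizer G_α that is normal in G_α has the same orbits on Ω as G_α, and normalizes no subgroup of N other than 1 and N. -/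
theorem result {G : Type*} [Group G] [Finite G] {Ω : Type*} [Fintype Ω] [MulAction G Ω] [FaithfulSMul G Ω] (hprim : MulAction.IsPreprimitive G Ω) (hH : ∀ α : Ω, MulAction.stabilizer G α ≠ ⊥) (hep : ∀ (α : Ω) (ω : Ω), MulAction.IsPreprimitive (MulAction.stabilizer G α) (MulAction.orbit (MulAction.stabilizer G α) ω))
    (N : Subgroup G) [N.Normal] (hNc : IsMulCommutative N) (p : ℕ) (hp : p.Prime) (hNp : ∀ n ∈ N, n ^ p = 1)
    (hNtr : MulAction.IsPretransitive N Ω) (hNreg : ∀ ω : Ω, MulAction.stabilizer N ω = ⊥) (α : Ω) (M : Subgroup G) (hM : M ≠ ⊥) (hMle : M ≤ MulAction.stabilizer G α)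
    (hMn : MulAction.stabilizer G α ≤ Subgroup.normalizer (M : Set G)) :
    (∀ ω : Ω, MulAction.orbit M ω = MulAction.orbit (MulAction.stabilizer G α) ω) ∧
    (∀ L : Subgroup G, L ≤ N → M ≤ Subgroup.normalizer (L : Set G) → L = ⊥ ∨ L = N) := by
  classical
  have := hprim
  have hinj : ∀ x ∈ N, ∀ y ∈ N, x • α = y • α → x = y := fun x hx y hy h => by
    have h1 : (⟨y⁻¹ * x, N.mul_mem (N.inv_mem hy) hx⟩ : N) ∈ MulAction.stabilizer N α := by
      show (y⁻¹ * x) • α = α
      rw [mul_smul, h, inv_smul_smul]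
    rw [hNreg α, Subgroup.mem_bot] at h1
    exact (inv_mul_eq_one.mp (congrArg Subtype.val h1)).symm
  have hdec : ∀ g : G, ∃ n ∈ N, ∃ h ∈ MulAction.stabilizer G α, g = n * h := fun g => by
    obtain ⟨⟨n, hn⟩, h⟩ := hNtr.exists_smul_eq α (g • α)
    exact ⟨n, hn, n⁻¹ * g, by rw [MulAction.mem_stabilizer_iff, mul_smul, ← h]; exact inv_smul_smul n α,
      (mul_inv_cancel_left n g).symm⟩
  -- a subgroup of N normalised by the stabiliser is trivial or everything
  have key : ∀ L : Subgroup G, L ≤ N → (∀ h ∈ MulAction.stabilizer G α, ∀ l ∈ L, h * l * h⁻¹ ∈ L) →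
      L = ⊥ ∨ L = N := by
    intro L hL hnorm
    have hLn : L.Normal := ⟨fun l hl g => by
      obtain ⟨n, hn, h, hh, rfl⟩ := hdec g
      have h1 : n * (h * l * h⁻¹) = (h * l * h⁻¹) * n :=
        congrArg Subtype.val (hNc.is_comm.comm (⟨n, hn⟩ : N) ⟨_, hL (hnorm h hh l hl)⟩)
      have h2 : n * h * l * (n * h)⁻¹ = n * (h * l * h⁻¹) * n⁻¹ := by group
      rw [h2, h1, mul_inv_cancel_right]
      exact hnorm h hh l hl⟩
    by_cases hb : L = ⊥
    · exact Or.inl hb
    refine Or.inr (le_antisymm hL fun n hn => ?_)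
    have ht : MulAction.IsPretransitive L Ω := by
      refine MulAction.IsQuasiPreprimitive.isPretransitive_of_normal (fun hf => hb ?_)
      rw [Subgroup.eq_bot_iff_forall]
      intro l hl
      refine FaithfulSMul.eq_of_smul_eq_smul fun x : Ω => ?_
      have : x ∈ MulAction.fixedPoints L Ω := hf ▸ Set.mem_univ x
      rw [one_smul]
      exact this ⟨l, hl⟩
    obtain ⟨⟨l, hl⟩, hlα⟩ := ht.exists_smul_eq α (n • α)
    have := hinj l (hL hl) n hn hlα
    rwa [← this]
  have horb : ∀ ω : Ω, MulAction.orbit M ω = MulAction.orbit (MulAction.stabilizer G α) ω := by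
    intro ω
    rcases Cfsg.Lib.Recog.ExtremelyPrimitive.fixed_or_orbit_eq hep α M hMle hMn ω with hfix | h
    · by_cases hω : ω = α
      · subst hω
        ext x
        constructor
        · rintro ⟨k, rfl⟩; exact ⟨⟨k, hMle k.2⟩, rfl⟩
        · rintro ⟨h, rfl⟩; exact ⟨1, (one_smul _ ω).trans (h.2).symm⟩
      exfalso
      let C : Subgroup G :=
        { carrier := {n | n ∈ N ∧ ∀ k ∈ M, k * n = n * k}
          mul_mem' := fun {x y} hx hy => ⟨N.mul_mem hx.1 hy.1, fun k hk => by
            rw [← mul_assoc, hx.2 k hk, mul_assoc, hy.2 k hk, mul_assoc]⟩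
          one_mem' := ⟨N.one_mem, fun k _ => by simp⟩
          inv_mem' := fun {x} hx => ⟨N.inv_mem hx.1, fun k hk => by
            have := hx.2 k hk
            exact (Commute.inv_right this : Commute k x⁻¹)⟩ }
      rcases key C (fun n hn => hn.1) (fun h hh n hn => ⟨by simpa using (inferInstance : N.Normal).conj_mem n hn.1 h,
        fun k hk => by
          have hk' := (Subgroup.mem_normalizer_iff.mp (inv_mem (hMn hh)) k).mp hk
          have e := hn.2 _ hk'
          rw [inv_inv] at e
          calc k * (h * n * h⁻¹) = h * ((h⁻¹ * k * h) * n) * h⁻¹ := by group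
            _ = h * (n * (h⁻¹ * k * h)) * h⁻¹ := by rw [e]
            _ = h * n * h⁻¹ * k := by group⟩) with hC | hC
      · obtain ⟨⟨n, hn⟩, hnω⟩ := hNtr.exists_smul_eq α ω
        have hnC : n ∈ C := by
          refine ⟨hn, fun k hk => ?_⟩
          have hnω' : n • α = ω := hnω
          have hconj := (inferInstance : N.Normal).conj_mem n hn k
          have h1 := hinj _ hconj n hn (by
            have hk' : k⁻¹ • α = α := inv_smul_eq_iff.mpr (MulAction.mem_stabilizer_iff.mp (hMle hk)).symm
            rw [mul_smul, mul_smul, hk', hnω', hfix k hk])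
          exact mul_inv_eq_iff_eq_mul.mp h1
        rw [hC, Subgroup.mem_bot] at hnC
        exact hω (by rw [← hnω]; show n • α = α; rw [hnC, one_smul])
      · refine hM ((Subgroup.eq_bot_iff_forall _).mpr fun k hk => ?_)
        refine FaithfulSMul.eq_of_smul_eq_smul fun x : Ω => ?_
        obtain ⟨⟨n, hn⟩, rfl⟩ := hNtr.exists_smul_eq α x
        show k • n • α = (1 : G) • n • α
        rw [one_smul, ← mul_smul, (hC.symm ▸ hn : n ∈ C).2 k hk, mul_smul, MulAction.mem_stabilizer_iff.mp (hMle hk)]
    · exact h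
  refine ⟨horb, fun L hL hML => key L hL fun h hh l hl => ?_⟩
  have h1 : h • l • α ∈ MulAction.orbit (MulAction.stabilizer G α) (l • α) := ⟨⟨h, hh⟩, rfl⟩
  rw [← horb] at h1
  obtain ⟨⟨k, hk⟩, hkl⟩ := h1
  have hh' : h⁻¹ • α = α := inv_smul_eq_iff.mpr (MulAction.mem_stabilizer_iff.mp hh).symm
  have hk' : k⁻¹ • α = α := inv_smul_eq_iff.mpr (MulAction.mem_stabilizer_iff.mp (hMle hk)).symm
  have hmem : k * l * k⁻¹ ∈ L := (Subgroup.mem_normalizer_iff.mp (hML hk) l).mp hl
  have := hinj _ (hL hmem) (h * l * h⁻¹) ((inferInstance : N.Normal).conj_mem l (hL hl) h) (by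
    rw [mul_smul, mul_smul, mul_smul, mul_smul, hk', hh']
    exact hkl)
  rwa [← this]

end Cfsg.Agent.S3495
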