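import Cfsg.Statements.S3496
import Cfsg.Agent.Lib.Recog.ExtremelyPrimitive
import Cfsg.Agent.Lib.Solv.MinNormal
import Cfsg.Agent.Lib.Solv.Primitive
-- import your own Cfsg.Agent.* helpers here

set_option autoImplicit false
open Cfsg

namespace Cfsg.Agent.S3496

open MulAction Subgroup

open Cfsg.Lib.Recog.ExtremelyPrimitive in
theorem suborbit_regular {G Ω : Type*} [Group G] [Finite G] [Finite Ω] [MulAction G Ω] [FaithfulSMul G Ω]
    [IsPreprimitive G Ω] (hH : ∀ a : Ω, stabilizer G a ≠ ⊥)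
    (hep : ∀ (α ω : Ω), IsPreprimitive (stabilizer G α) (orbit (stabilizer G α) ω))
    (a : Ω) (T : Subgroup G) (hTle : T ≤ stabilizer G a) (hTn : stabilizer G a ≤ normalizer (T : Set G))
    (hTc : ∀ x ∈ T, ∀ y ∈ T, x * y = y * x) (hT : T ≠ ⊥) {w : Ω} (hw : w ≠ a) :
    orbit T w = orbit (stabilizer G a) w ∧ (∀ t ∈ T, t • w = w → t = 1) ∧
      ∀ g ∈ stabilizer G a, g • w = w → (∀ t ∈ T, g * t = t * g) → g = 1 := by
  have horb : orbit T w = orbit (stabilizer G a) w := by
    refine (fixed_or_orbit_eq hep a T hTle hTn w).resolve_left fun hfix => hT ?_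
    rw [Subgroup.eq_bot_iff_forall]
    intro t ht
    refine faithful_suborbit hH hep hw (hTle ht) ?_
    rintro x ⟨⟨h, hh⟩, rfl⟩
    have h1 : h⁻¹ * t * h ∈ T := by
      have := (mem_normalizer_iff.1 (hTn (inv_mem hh)) t).1 ht
      rwa [inv_inv] at this
    show t • h • w = h • w
    calc t • h • w = (h * (h⁻¹ * t * h)) • w := by rw [← mul_smul]; group
      _ = h • w := by rw [mul_smul, hfix _ h1]
  have hcent : ∀ g ∈ stabilizer G a, g • w = w → (∀ t ∈ T, g * t = t * g) → g = 1 := by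
    intro g hga hgw hgc
    refine faithful_suborbit hH hep hw hga fun x hx => ?_
    rw [← horb] at hx
    obtain ⟨⟨t, ht⟩, rfl⟩ := hx
    show g • t • w = t • w
    rw [← mul_smul, hgc t ht, mul_smul, hgw]
  exact ⟨horb, fun t ht htw => hcent t (hTle ht) htw fun s hs => hTc t ht s hs, hcent⟩

theorem field_core {A : Type*} [AddCommGroup A] [Finite A] [Nontrivial A] {H : Type*} [Group H] [Finite H]
    (ψ : H →* AddMonoid.End A) (hψ : Function.Injective ψ) (T K : Subgroup H) [T.Normal]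
    (hTc : ∀ x ∈ T, ∀ y ∈ T, x * y = y * x) (hT : T ≠ ⊥) (q : ℕ) [Fact q.Prime] (hTq : ∀ t ∈ T, t ^ q = 1)
    (hKc : ∀ k ∈ K, (∀ t ∈ T, k * t = t * k) → k = 1)
    (p d : ℕ) [Fact p.Prime] (hA : Nat.card A = p ^ d) (hpA : ∀ a : A, p • a = 0)
    (hirr : ∀ W : AddSubgroup A, (∀ t ∈ T, ∀ w ∈ W, ψ t w ∈ W) → W = ⊥ ∨ W = ⊤) :
    Nat.card T = q ∧ q ∣ p ^ d - 1 ∧ (∀ i : ℕ, 0 < i → i < d → ¬ q ∣ p ^ i - 1) ∧
      IsCyclic K ∧ Nat.card K ∣ d := by
  classical
  haveI : Finite (AddMonoid.End A) := Finite.of_injective (fun f => (f : A → A)) DFunLike.coe_injective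
  have hcm : ∀ x ∈ ψ '' (T : Set H), ∀ y ∈ ψ '' (T : Set H), x * y = y * x := by
    rintro _ ⟨x, hx, rfl⟩ _ ⟨y, hy, rfl⟩
    rw [← map_mul, ← map_mul, hTc x hx y hy]
  let S := Subring.closure (ψ '' (T : Set H))
  letI : CommRing S := Subring.closureCommRingOfComm hcm
  have hcommT : ∀ a : S, ∀ t ∈ T, (a : AddMonoid.End A) * ψ t = ψ t * a := by
    rintro ⟨a, ha⟩ t ht
    have h1 : ψ t ∈ S := Subring.subset_closure ⟨t, ht, rfl⟩
    exact congrArg Subtype.val (mul_comm (⟨a, ha⟩ : S) ⟨ψ t, h1⟩)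
  have hinj0 : ∀ a : S, a ≠ 0 → ∀ v : A, (a : AddMonoid.End A) v = 0 → v = 0 := by
    intro a ha v hv
    rcases hirr (a : AddMonoid.End A).ker (fun t ht w hw => by
      change (a : AddMonoid.End A) w = 0 at hw
      show ((a : AddMonoid.End A) * ψ t) w = 0
      rw [hcommT a t ht]
      show ψ t ((a : AddMonoid.End A) w) = 0
      rw [hw, map_zero]) with h | h
    · exact (AddSubgroup.eq_bot_iff_forall _).1 h v hv
    · refine absurd (Subtype.ext ?_) ha
      ext x
      have : x ∈ (a : AddMonoid.End A).ker := h ▸ AddSubgroup.mem_top x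
      exact this
  haveI : Nontrivial S := ⟨⟨0, 1, fun h => by
    obtain ⟨v, hv⟩ := exists_ne (0 : A)
    exact hv (congrArg (fun a : S => (a : AddMonoid.End A) v) h).symm⟩⟩
  haveI : NoZeroDivisors S := ⟨fun {a b} h => by
    by_cases ha : a = 0
    · exact Or.inl ha
    · refine Or.inr (Subtype.ext ?_)
      ext x
      exact hinj0 a ha _ (congrArg (fun e : S => (e : AddMonoid.End A) x) h)⟩
  haveI : IsDomain S := NoZeroDivisors.to_isDomain S
  haveI : Finite S := Subtype.finite
  haveI := Fintype.ofFinite S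
  letI : Field S := Fintype.fieldOfDomain S
  obtain ⟨v, hv⟩ := exists_ne (0 : A)
  have hcardS : Nat.card S = p ^ d := by
    let ev : S →+ A :=
      { toFun := fun a => (a : AddMonoid.End A) v, map_zero' := rfl, map_add' := fun a b => rfl }
    have hev : Function.Injective ev := by
      rw [injective_iff_map_eq_zero]
      intro a ha
      by_contra h
      exact hv (hinj0 a h v ha)
    have hsurj : ev.range = ⊤ := by
      refine (hirr _ ?_).resolve_left fun h => hv ?_
      · rintro t ht _ ⟨a, rfl⟩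
        exact ⟨⟨ψ t, Subring.subset_closure ⟨t, ht, rfl⟩⟩ * a, rfl⟩
      · exact (AddSubgroup.eq_bot_iff_forall _).1 h v ⟨1, rfl⟩
    rw [← hA]
    exact Nat.card_eq_of_bijective ev ⟨hev, AddMonoidHom.range_eq_top.1 hsurj⟩
  let f : T →* S :=
    { toFun := fun t => ⟨ψ t, Subring.subset_closure ⟨t, t.2, rfl⟩⟩
      map_one' := Subtype.ext (map_one ψ)
      map_mul' := fun x y => Subtype.ext (map_mul ψ _ _) }
  have hf : Function.Injective f := fun x y h => Subtype.ext (hψ (congrArg Subtype.val h))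
  have hTcard : Nat.card T = q := by
    haveI : IsCyclic T := isCyclic_of_injective_ringHom (R := S) f hf
    obtain ⟨g, hg⟩ := IsCyclic.exists_ofOrder_eq_natCard (α := T)
    rw [← hg]
    refine orderOf_eq_prime (Subtype.ext (hTq g g.2)) fun h => hT ?_
    rw [h, orderOf_one] at hg
    exact card_eq_one.1 hg.symm
  obtain ⟨t₀, ht₀, ht₀1⟩ := (bot_or_exists_ne_one T).resolve_left hT
  have hfs : f ⟨t₀, ht₀⟩ ≠ 1 := fun h => ht₀1 (congrArg Subtype.val (hf (h.trans (map_one f).symm)))
  refine ⟨hTcard, ?_, ?_, ?_⟩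
  · rw [← hcardS, Nat.card_eq_fintype_card]
    have h1 : orderOf (f ⟨t₀, ht₀⟩) = q := by
      refine orderOf_eq_prime ?_ hfs
      rw [← map_pow, show (⟨t₀, ht₀⟩ : T) ^ q = 1 from Subtype.ext (hTq t₀ ht₀), map_one]
    rw [← h1]
    exact orderOf_dvd_of_pow_eq_one (FiniteField.pow_card_sub_one_eq_one _ fun h => by
      have h2 := pow_orderOf_eq_one (f ⟨t₀, ht₀⟩)
      rw [h1, h, zero_pow (Fact.out : q.Prime).ne_zero] at h2
      exact zero_ne_one h2)
  · intro i hi hid hdvd
    haveI hchar : CharP S p := by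
      refine (CharP.charP_iff_prime_eq_zero Fact.out).2 (Subtype.ext ?_)
      ext x
      show ((p : S) : AddMonoid.End A) x = 0
      rw [Subring.coe_natCast, ← nsmul_one]
      exact hpA x
    have hfix : ∀ a : S, a ^ p ^ i = a := by
      rintro ⟨a, ha⟩
      induction ha using Subring.closure_induction with
      | mem x hx =>
        obtain ⟨t, ht, rfl⟩ := hx
        show f ⟨t, ht⟩ ^ p ^ i = f ⟨t, ht⟩
        rw [← map_pow]
        congr 1
        obtain ⟨c, hc⟩ := hdvd
        refine Subtype.ext ?_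
        show t ^ p ^ i = t
        rw [show p ^ i = q * c + 1 by have := Nat.one_le_pow i p (Fact.out : p.Prime).pos; omega, pow_add, pow_mul, hTq t ht, one_pow, one_mul, pow_one]
      | zero => exact zero_pow (pow_ne_zero _ (Fact.out : p.Prime).ne_zero)
      | one => exact one_pow _
      | add x y hx hy h1 h2 =>
        show ((⟨x, hx⟩ : S) + ⟨y, hy⟩) ^ p ^ i = ⟨x, hx⟩ + ⟨y, hy⟩
        rw [add_pow_char_pow, h1, h2]
      | neg x hx h1 =>
        show (-(⟨x, hx⟩ : S)) ^ p ^ i = -⟨x, hx⟩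
        rw [← zero_sub, sub_pow_char_pow, zero_pow (pow_ne_zero _ (Fact.out : p.Prime).ne_zero), h1]
      | mul x y hx hy h1 h2 =>
        show ((⟨x, hx⟩ : S) * ⟨y, hy⟩) ^ p ^ i = ⟨x, hx⟩ * ⟨y, hy⟩
        rw [mul_pow, h1, h2]
    have hne : (Polynomial.X ^ p ^ i - Polynomial.X : Polynomial S) ≠ 0 :=
      FiniteField.X_pow_card_pow_sub_X_ne_zero S hi.ne' (Fact.out : p.Prime).one_lt
    have hsub : (Finset.univ : Finset S).val ≤ (Polynomial.X ^ p ^ i - Polynomial.X : Polynomial S).roots := by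
      refine (Multiset.le_iff_subset Finset.univ.nodup).2 fun a _ => ?_
      rw [Polynomial.mem_roots hne]
      simp [hfix a]
    have h1 := (Multiset.card_le_card hsub).trans (Polynomial.card_roots' _)
    rw [FiniteField.X_pow_card_pow_sub_X_natDegree_eq S hi.ne' (Fact.out : p.Prime).one_lt] at h1
    have h2 : Multiset.card (Finset.univ : Finset S).val = p ^ d := by
      rw [← hcardS, Nat.card_eq_fintype_card]; rfl
    rw [h2] at h1
    exact absurd h1 (not_le.2 (Nat.pow_lt_pow_right (Fact.out : p.Prime).one_lt hid))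
  · haveI hchar : CharP S p := by
      refine (CharP.charP_iff_prime_eq_zero Fact.out).2 (Subtype.ext ?_)
      ext x
      show ((p : S) : AddMonoid.End A) x = 0
      rw [Subring.coe_natCast, ← nsmul_one]
      exact hpA x
    letI : Algebra (ZMod p) S := ZMod.algebra S p
    have hconj : ∀ (h : H) (a : AddMonoid.End A), a ∈ S → ψ h * a * ψ h⁻¹ ∈ S := by
      intro h a ha
      induction ha using Subring.closure_induction with
      | mem x hx =>
        obtain ⟨t, ht, rfl⟩ := hx
        exact Subring.subset_closure ⟨h * t * h⁻¹, ‹T.Normal›.conj_mem t ht h, by rw [map_mul, map_mul]⟩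
      | zero => rw [mul_zero, zero_mul]; exact zero_mem _
      | one => rw [mul_one, ← map_mul, mul_inv_cancel, map_one]; exact one_mem _
      | add x y _ _ h1 h2 => rw [mul_add, add_mul]; exact add_mem h1 h2
      | neg x _ h1 => rw [mul_neg, neg_mul]; exact neg_mem h1
      | mul x y _ _ h1 h2 =>
        have e : ψ h * (x * y) * ψ h⁻¹ = (ψ h * x * ψ h⁻¹) * (ψ h * y * ψ h⁻¹) := by
          have e1 : ψ h⁻¹ * ψ h = 1 := by rw [← map_mul, inv_mul_cancel, map_one]
          simp only [mul_assoc]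
          rw [← mul_assoc (ψ h⁻¹) (ψ h), e1, one_mul]
        rw [e]; exact mul_mem h1 h2
    let σ : K → (S →+* S) := fun k =>
      { toFun := fun a => ⟨ψ k * a * ψ (k : H)⁻¹, hconj k a a.2⟩
        map_one' := Subtype.ext (show ψ k * 1 * ψ (k : H)⁻¹ = 1 by rw [mul_one, ← map_mul, mul_inv_cancel, map_one])
        map_zero' := Subtype.ext (show ψ k * 0 * ψ (k : H)⁻¹ = 0 by rw [mul_zero, zero_mul])
        map_add' := fun a b => Subtype.ext (show ψ k * (a + b : AddMonoid.End A) * ψ (k : H)⁻¹ = _ by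
          rw [mul_add, add_mul]; rfl)
        map_mul' := fun a b => Subtype.ext (by
          have e1 : ψ (k : H)⁻¹ * ψ k = 1 := by rw [← map_mul, inv_mul_cancel, map_one]
          show ψ k * (a * b : AddMonoid.End A) * ψ (k : H)⁻¹ = (ψ k * a * ψ (k : H)⁻¹) * (ψ k * b * ψ (k : H)⁻¹)
          simp only [mul_assoc]
          rw [← mul_assoc (ψ (k : H)⁻¹) (ψ k), e1, one_mul]) }
    let Φ : K →* Gal(S/ZMod p) := MonoidHom.mk' (fun k => AlgEquiv.ofRingEquiv
      (f := RingEquiv.ofBijective (σ k) (Finite.injective_iff_bijective.1 (σ k).injective))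
      (fun x => by
        show σ k (algebraMap (ZMod p) S x) = _
        exact RingHom.congr_fun (Subsingleton.elim ((σ k).comp (algebraMap (ZMod p) S)) _) x))
      fun a b => by
        refine AlgEquiv.ext fun x => Subtype.ext ?_
        show ψ ((a : H) * b) * x * ψ ((a : H) * b)⁻¹ = ψ a * (ψ b * x * ψ (b : H)⁻¹) * ψ (a : H)⁻¹
        rw [mul_inv_rev, map_mul, map_mul]
        simp only [mul_assoc]
    have hΦ : Function.Injective Φ := by
      rw [injective_iff_map_eq_one]
      intro k hk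
      refine Subtype.ext (hKc k k.2 fun t ht => hψ ?_)
      have h1 : ψ k * ψ t * ψ (k : H)⁻¹ = ψ t :=
        congrArg Subtype.val (AlgEquiv.ext_iff.1 hk (f ⟨t, ht⟩))
      rw [map_mul, map_mul]
      nth_rewrite 2 [← h1]
      rw [mul_assoc (ψ k * ψ t), ← map_mul ψ (k : H)⁻¹, inv_mul_cancel, map_one, mul_one]
    refine ⟨isCyclic_of_injective Φ hΦ, (card_dvd_of_injective Φ hΦ).trans (dvd_of_eq ?_)⟩
    rw [IsGalois.card_aut_eq_finrank]
    have h := Module.natCard_eq_pow_finrank (K := ZMod p) (V := S)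
    rw [hcardS, Nat.card_zmod] at h
    exact (Nat.pow_right_injective (Fact.out : p.Prime).two_le h).symm

/-- The soluble extremely primitive groups. Let a finite solvable group G act faithfully and primitively on a finite set Ω with p ^ d points (p prime), with non-trivial point stabilizers each acting primitively on every one of its orbits. Then there is a prime q such that every orbit of a point stabilizer G_α other than {α} has exactly q points, q divides p ^ d − 1 but no p ^ i − 1 with 0 < i < d, and G_α has a normal subgroup T of order q with G_α generated by T and one further element and the order of G_α dividing q·d (so G_α is cyclic of order q, or an extension of T by a cyclic group of order dividing d). -/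
theorem result {G : Type*} [Group G] [Finite G] {Ω : Type*} [Fintype Ω] [MulAction G Ω] [FaithfulSMul G Ω] [Group.IsSolvable G] (p d : ℕ) (hp : p.Prime) (hcard : Fintype.card Ω = p ^ d)
    (hprim : MulAction.IsPreprimitive G Ω) (hH : ∀ α : Ω, MulAction.stabilizer G α ≠ ⊥) (hep : ∀ (α : Ω) (ω : Ω), MulAction.IsPreprimitive (MulAction.stabilizer G α) (MulAction.orbit (MulAction.stabilizer G α) ω)) (α : Ω) :
    ∃ q : ℕ, q.Prime ∧ (∀ ω : Ω, ω ≠ α → Nat.card (MulAction.orbit (MulAction.stabilizer G α) ω) = q) ∧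
      q ∣ p ^ d - 1 ∧ (∀ i : ℕ, 0 < i → i < d → ¬ q ∣ p ^ i - 1) ∧
      ∃ T : Subgroup G, T ≤ MulAction.stabilizer G α ∧ MulAction.stabilizer G α ≤ Subgroup.normalizer (T : Set G) ∧ Nat.card T = q ∧
        (∃ h : G, MulAction.stabilizer G α = T ⊔ Subgroup.zpowers h) ∧ Nat.card (MulAction.stabilizer G α) ∣ q * d := by
  classical
  haveI := hprim
  haveI hsol : Group.IsSolvable G := inferInstance
  set H := stabilizer G α with hHdef
  have hΩ : Nontrivial Ω := by
    by_contra h
    haveI := not_nontrivial_iff_subsingleton.1 h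
    refine hH α ((Subgroup.eq_bot_iff_forall _).2 fun g _ => FaithfulSMul.eq_of_smul_eq_smul (α := Ω) fun w => Subsingleton.elim _ _)
  haveI : Nontrivial G := by
    by_contra h
    haveI := not_nontrivial_iff_subsingleton.1 h
    exact hH α (Subsingleton.elim _ _)
  obtain ⟨M, hMn, -, hM, hMmin⟩ := Cfsg.Lib.Solv.exists_minimal_normal_le (G := G) (N := ⊤) top_ne_bot
  haveI := hMn
  obtain ⟨hMc, p', hp', hMp, hMexp⟩ := Cfsg.Lib.Solv.minimal_normal_elementary hM inferInstance hMmin
  haveI hMtr := Cfsg.Lib.Solv.primitive_normal_pretransitive hprim M hM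
  have hreg := Cfsg.Lib.Solv.stabilizer_eq_bot_of_abelian M hMc α
  have hbij : Function.Bijective fun m : M => (m : G) • α := by
    refine ⟨fun m n h => ?_, fun w => hMtr.exists_smul_eq α w⟩
    have h1 : n⁻¹ * m ∈ stabilizer M α := by
      show ((n⁻¹ * m : M) : G) • α = α
      rw [Subgroup.coe_mul, mul_smul, show (m : G) • α = (n : G) • α from h, Subgroup.coe_inv, inv_smul_smul]
    rw [hreg, Subgroup.mem_bot, inv_mul_eq_one] at h1
    exact h1.symm
  have hMcard : Nat.card M = p ^ d := by rw [Nat.card_eq_of_bijective _ hbij, Nat.card_eq_fintype_card, hcard]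
  have hpp : p' = p := by
    haveI := Fact.mk hp'
    obtain ⟨k, hk⟩ := hMp.exists_card_eq
    have hk0 : k ≠ 0 := fun h => hM (Subgroup.card_eq_one.1 (by rw [hk, h, pow_zero]))
    exact (Nat.prime_dvd_prime_iff_eq hp' hp).1 (hp'.dvd_of_dvd_pow (hMcard ▸ hk ▸ dvd_pow_self p' hk0))
  subst hpp
  haveI := Fact.mk hp
  haveI : Nontrivial H := (Subgroup.nontrivial_iff_ne_bot H).2 (hH α)
  obtain ⟨T, hTn, -, hT, hTmin⟩ := Cfsg.Lib.Solv.exists_minimal_normal_le (G := H) (N := ⊤) top_ne_bot
  haveI := hTn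
  obtain ⟨hTc, q, hq, -, hTq⟩ := Cfsg.Lib.Solv.minimal_normal_elementary hT inferInstance hTmin
  haveI := Fact.mk hq
  set T' : Subgroup G := T.map H.subtype with hT'
  have hT'le : T' ≤ H := Subgroup.map_subtype_le T
  have hT'n : H ≤ normalizer (T' : Set G) := by
    intro g hg
    rw [mem_normalizer_iff]
    intro x
    constructor
    · rintro ⟨t, ht, rfl⟩
      exact ⟨⟨g, hg⟩ * t * ⟨g, hg⟩⁻¹, hTn.conj_mem t ht _, rfl⟩
    · rintro ⟨t, ht, hx⟩
      refine ⟨⟨g, hg⟩⁻¹ * t * ⟨g, hg⟩, by simpa using hTn.conj_mem t ht ⟨g, hg⟩⁻¹, ?_⟩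
      show g⁻¹ * (t : G) * g = x
      rw [show (t : G) = g * x * g⁻¹ from hx]
      group
  have hT'c : ∀ x ∈ T', ∀ y ∈ T', x * y = y * x := by
    rintro _ ⟨x, hx, rfl⟩ _ ⟨y, hy, rfl⟩
    exact congrArg Subtype.val (Cfsg.Lib.Solv.commute_of_abelian hTc hx hy)
  have hT'ne : T' ≠ ⊥ := fun h => hT ((Subgroup.map_eq_bot_iff_of_injective T H.subtype_injective).1 h)
  have hsub := fun w (hw : w ≠ α) => suborbit_regular hH hep α T' hT'le hT'n hT'c hT'ne (w := w) hw
  have horbT : ∀ w, w ≠ α → Nat.card (orbit H w) = Nat.card T := by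
    intro w hw
    obtain ⟨h1, h2, -⟩ := hsub w hw
    rw [← h1, show Nat.card T = Nat.card T' from (Subgroup.card_map_of_injective H.subtype_injective).symm]
    symm
    refine Nat.card_eq_of_bijective (fun t : T' => (⟨(t : G) • w, ⟨t, rfl⟩⟩ : orbit T' w)) ⟨fun s t h => ?_, ?_⟩
    · have h' : (s : G) • w = (t : G) • w := congrArg Subtype.val h
      have h3 := h2 ((t : G)⁻¹ * s) (mul_mem (inv_mem t.2) s.2) (by rw [mul_smul, h', inv_smul_smul])
      exact Subtype.ext (inv_mul_eq_one.1 h3).symm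
    · rintro ⟨_, t, rfl⟩
      exact ⟨t, rfl⟩
  let A := Additive M
  letI : CommGroup M := { (inferInstance : Group M) with mul_comm := mul_comm' }
  let ψ : H →* AddMonoid.End A :=
    { toFun := fun h => MonoidHom.toAdditive ((MulAut.conjNormal (h : G) : MulAut M).toMonoidHom)
      map_one' := by
        refine DFunLike.ext _ _ fun x => ?_
        show Additive.ofMul ((MulAut.conjNormal ((1 : H) : G) : MulAut M) x.toMul) = x
        rw [Subgroup.coe_one, map_one]; rfl
      map_mul' := fun g h => by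
        refine DFunLike.ext _ _ fun x => ?_
        show Additive.ofMul ((MulAut.conjNormal ((g * h : H) : G) : MulAut M) x.toMul) = _
        rw [Subgroup.coe_mul, map_mul]; rfl }
  have hψa : ∀ (h : H) (m : M), (((ψ h) (Additive.ofMul m)).toMul : G) • α = (h : G) • (m : G) • α := by
    intro h m
    show ((h : G) * m * (h : G)⁻¹) • α = _
    rw [mul_smul, mul_smul, inv_smul_eq_iff.2 (mem_stabilizer_iff.1 h.2).symm]
  have hψ : Function.Injective ψ := by
    rw [injective_iff_map_eq_one]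
    intro h hh
    refine Subtype.ext (FaithfulSMul.eq_of_smul_eq_smul (α := Ω) fun w => ?_)
    obtain ⟨m, rfl⟩ := hbij.2 w
    have := hψa h m
    rw [hh] at this
    show (h : G) • (m : G) • α = (1 : G) • (m : G) • α
    rw [one_smul]
    exact this.symm
  haveI : Nontrivial A := (Subgroup.nontrivial_iff_ne_bot M).2 hM
  have hirr : ∀ W : AddSubgroup A, (∀ t ∈ T, ∀ w ∈ W, ψ t w ∈ W) → W = ⊥ ∨ W = ⊤ := by
    intro W hW
    have hWH : ∀ (h : H) (m : M), Additive.ofMul m ∈ W → ψ h (Additive.ofMul m) ∈ W := by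
      intro h m hm
      by_cases hw : (m : G) • α = α
      · obtain rfl : m = 1 := hbij.1 (hw.trans (one_smul G α).symm)
        rw [ofMul_one, map_zero]; exact zero_mem W
      obtain ⟨h1, -, -⟩ := hsub _ hw
      have : (h : G) • (m : G) • α ∈ orbit T' ((m : G) • α) := h1.symm ▸ ⟨h, rfl⟩
      obtain ⟨⟨_, t, ht, rfl⟩, htw⟩ := this
      have e : ψ h (Additive.ofMul m) = ψ t (Additive.ofMul m) := by
        refine Additive.toMul.injective (hbij.1 ?_)
        show (((ψ h) (Additive.ofMul m)).toMul : G) • α = (((ψ t) (Additive.ofMul m)).toMul : G) • α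
        rw [hψa, hψa]
        exact htw.symm
      rw [e]; exact hW t ht _ hm
    let W' : Subgroup G := (AddSubgroup.toSubgroup' W).map M.subtype
    have hW'le : W' ≤ M := Subgroup.map_subtype_le _
    have hW'n : W'.Normal := by
      refine ⟨?_⟩
      rintro _ ⟨w, hw, rfl⟩ g
      obtain ⟨m, hm⟩ := hbij.2 (g • α)
      have hgm : (m : G)⁻¹ * g ∈ H := by
        show ((m : G)⁻¹ * g) • α = α
        rw [mul_smul, ← show (m : G) • α = g • α from hm, inv_smul_smul]
      refine ⟨(ψ ⟨_, hgm⟩ (Additive.ofMul w)).toMul, hWH _ w hw, ?_⟩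
      show ((m : G)⁻¹ * g) * (w : G) * ((m : G)⁻¹ * g)⁻¹ = g * (w : G) * g⁻¹
      have hc := Cfsg.Lib.Solv.commute_of_abelian hMc (hMn.conj_mem w w.2 g) m.2
      calc ((m : G)⁻¹ * g) * (w : G) * ((m : G)⁻¹ * g)⁻¹ = (m : G)⁻¹ * ((g * w * g⁻¹) * m) := by group
        _ = g * w * g⁻¹ := by rw [hc]; group
    rcases hMmin W' hW'n hW'le with h | h
    · refine Or.inl ((AddSubgroup.eq_bot_iff_forall _).2 fun w hw => ?_)
      have : ((w.toMul : M) : G) ∈ W' := ⟨w.toMul, hw, rfl⟩
      rw [h, Subgroup.mem_bot] at this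
      exact Additive.toMul.injective (Subtype.ext this)
    · refine Or.inr ((AddSubgroup.eq_top_iff' _).2 fun w => ?_)
      have : ((w.toMul : M) : G) ∈ W' := by rw [h]; exact (w.toMul).2
      obtain ⟨u, hu, he⟩ := this
      obtain rfl : u = w.toMul := Subtype.ext he
      exact hu
  obtain ⟨w₀, hw₀⟩ := exists_ne α
  set K : Subgroup H := stabilizer H w₀ with hKdef
  have hKc : ∀ k ∈ K, (∀ t ∈ T, k * t = t * k) → k = 1 := by
    intro k hk hkt
    refine Subtype.ext ((hsub w₀ hw₀).2.2 k k.2 hk ?_)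
    rintro _ ⟨t, ht, rfl⟩
    exact congrArg Subtype.val (hkt t ht)
  obtain ⟨hTcard, hdvd, hprimdiv, hKcyc, hKd⟩ := field_core (A := A) ψ hψ T K
    (fun x hx y hy => Cfsg.Lib.Solv.commute_of_abelian hTc hx hy) hT q hTq hKc p' d
    (by rw [Nat.card_congr Additive.toMul, hMcard])
    (fun a => Additive.toMul.injective (Subtype.ext (by
      show (((a.toMul) ^ p' : M) : G) = 1
      rw [Subgroup.coe_pow]; exact hMexp _ a.toMul.2)))
    hirr
  refine ⟨q, hq, fun w hw => (horbT w hw).trans hTcard, hdvd, hprimdiv, T', hT'le, hT'n, ?_, ?_, ?_⟩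
  · rw [hT', Subgroup.card_map_of_injective H.subtype_injective, hTcard]
  · obtain ⟨k, hk⟩ := hKcyc.exists_generator
    refine ⟨((k : H) : G), le_antisymm (fun g hg => ?_) (sup_le hT'le (zpowers_le.2 (k : H).2))⟩
    obtain ⟨h1, -, -⟩ := hsub w₀ hw₀
    have : g • w₀ ∈ orbit T' w₀ := h1.symm ▸ ⟨⟨g, hg⟩, rfl⟩
    obtain ⟨t, ht⟩ := this
    have hmem : (t : G)⁻¹ * g ∈ H := mul_mem (inv_mem (hT'le t.2)) hg
    have hK' : (⟨_, hmem⟩ : H) ∈ K := by
      show ((t : G)⁻¹ * g) • w₀ = w₀
      rw [mul_smul, ← show (t : G) • w₀ = g • w₀ from ht, inv_smul_smul]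
    obtain ⟨i, hi⟩ := hk ⟨_, hK'⟩
    have : g = (t : G) * ((k : H) : G) ^ i := by
      have e := congrArg (fun x : K => ((x : H) : G)) hi
      simp only [Subgroup.coe_zpow] at e
      rw [e]; group
    rw [this]
    exact mul_mem (mem_sup_left t.2) (mem_sup_right (zpow_mem (mem_zpowers _) i))
  · have h1 := K.card_mul_index
    rw [hKdef, index_stabilizer, ← Nat.card_coe_set_eq, horbT w₀ hw₀, hTcard, ← hKdef] at h1
    rw [← h1, mul_comm]
    exact Nat.mul_dvd_mul_left q hKd

end Cfsg.Agent.S3496
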