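import Cfsg.Statements.S3497
import Cfsg.Agent.Lib.Recog.ExtremelyPrimitive
import Cfsg.Agent.Lib.Solv.Cores
-- import your own Cfsg.Agent.* helpers here

set_option autoImplicit false
open Cfsg

namespace Cfsg.Agent.S3497

variable {H Ω : Type*} [Group H] [MulAction H Ω]

/-- Structure of a group acting faithfully and quasiprimitively on every orbit outside a point. -/
theorem normal_abelian_regular {α : Ω}
    (hq : ∀ M : Subgroup H, M.Normal → ∀ ω : Ω, (∀ k ∈ M, k • ω = ω) ∨ MulAction.orbit M ω = MulAction.orbit H ω)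
    (hf : ∀ ω : Ω, ω ≠ α → ∀ h : H, (∀ x ∈ MulAction.orbit H ω, h • x = x) → h = 1)
    (M : Subgroup H) (hM : M.Normal) (hMne : M ≠ ⊥) {ω : Ω} (hω : ω ≠ α) :
    (∀ x ∈ MulAction.orbit H ω, ∃ m ∈ M, m • ω = x) ∧
      ∀ h : H, (∀ m ∈ M, h * m = m * h) → h • ω = ω → h = 1 := by
  have htr : ∀ x ∈ MulAction.orbit H ω, ∃ m ∈ M, m • ω = x := by
    rcases hq M hM ω with h | h
    · refine absurd ?_ hMne
      rw [Subgroup.eq_bot_iff_forall]
      intro m hm
      refine hf ω hω m ?_
      rintro _ ⟨k, rfl⟩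
      have := h _ (hM.conj_mem m hm k⁻¹)
      rw [inv_inv, mul_smul, mul_smul, inv_smul_eq_iff] at this
      exact this
    · intro x hx
      rw [← h] at hx
      obtain ⟨m, rfl⟩ := hx
      exact ⟨m, m.2, rfl⟩
  refine ⟨htr, fun h hc hfix => hf ω hω h fun x hx => ?_⟩
  obtain ⟨m, hm, rfl⟩ := htr x hx
  rw [← mul_smul, hc m hm, mul_smul, hfix]

theorem eq_of_centralizes {α : Ω}
    (hq : ∀ M : Subgroup H, M.Normal → ∀ ω : Ω, (∀ k ∈ M, k • ω = ω) ∨ MulAction.orbit M ω = MulAction.orbit H ω)
    (hf : ∀ ω : Ω, ω ≠ α → ∀ h : H, (∀ x ∈ MulAction.orbit H ω, h • x = x) → h = 1)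
    (M : Subgroup H) (hM : M.Normal) (hMne : M ≠ ⊥) (hMab : ∀ x ∈ M, ∀ y ∈ M, x * y = y * x)
    {ω : Ω} (hω : ω ≠ α) (h : H) (hc : ∀ m ∈ M, h * m = m * h) : h ∈ M := by
  obtain ⟨htr, hfree⟩ := normal_abelian_regular hq hf M hM hMne hω
  obtain ⟨m, hm, hmω⟩ := htr (h • ω) ⟨h, rfl⟩
  have : m⁻¹ * h = 1 := by
    refine hfree _ (fun k hk => ?_) (by rw [mul_smul, ← hmω, inv_smul_smul])
    rw [mul_assoc, hc k hk, ← mul_assoc, hMab _ (M.inv_mem hm) k hk, mul_assoc]
  rw [← inv_mul_eq_one.mp this]
  exact hm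

/-- A faithful linear picture of automorphisms of an elementary abelian group. -/
theorem exists_matrix_hom {H F : Type*} [Group H] [CommGroup F] [Finite F] (f : H →* MulAut F) (p : ℕ)
    [Fact p.Prime] (hexp : ∀ x : F, x ^ p = 1) (e : ℕ) (he : Nat.card F = p ^ e) :
    ∃ φ : H →* GL (Fin e) (ZMod p), φ.ker = f.ker := by
  letI : Module (ZMod p) (Additive F) := AddCommGroup.zmodModule (n := p) (G := Additive F) (fun x => Additive.toMul.injective (hexp (Additive.toMul x)))
  have : Module.Finite (ZMod p) (Additive F) := Module.Finite.of_finite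
  have hfr : Module.finrank (ZMod p) (Additive F) = e := by
    have h := Module.natCard_eq_pow_finrank (K := ZMod p) (V := Additive F)
    rw [show Nat.card (Additive F) = Nat.card F from rfl, he, Nat.card_zmod] at h
    exact (Nat.pow_right_injective (Fact.out : p.Prime).two_le h).symm
  let b := Module.finBasisOfFinrankEq (ZMod p) (Additive F) hfr
  let c : H →* Module.End (ZMod p) (Additive F) :=
    { toFun := fun h => AddMonoidHom.toZModLinearMap p (MonoidHom.toAdditive (f h).toMonoidHom)
      map_one' := by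
        refine LinearMap.ext fun x => ?_
        show Additive.ofMul (f 1 (Additive.toMul x)) = x
        rw [map_one]
        rfl
      map_mul' := fun h k => by
        refine LinearMap.ext fun x => ?_
        show Additive.ofMul (f (h * k) (Additive.toMul x)) = Additive.ofMul (f h (f k (Additive.toMul x)))
        rw [map_mul]
        rfl }
  refine ⟨(((LinearMap.toMatrixAlgEquiv b).toAlgHom.toRingHom.toMonoidHom).comp c).toHomUnits, ?_⟩
  ext h
  rw [MonoidHom.mem_ker, MonoidHom.mem_ker, Units.ext_iff]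
  constructor
  · intro hh
    have hc1 : c h = 1 := (LinearMap.toMatrixAlgEquiv b).injective (hh.trans (map_one _).symm)
    ext x
    exact congrArg Additive.toMul (LinearMap.congr_fun hc1 (Additive.ofMul x))
  · intro hh
    have hc1 : c h = 1 := LinearMap.ext fun x => by
      show Additive.ofMul (f h (Additive.toMul x)) = x
      rw [hh]
      rfl
    show LinearMap.toMatrixAlgEquiv b (c h) = 1
    rw [hc1, map_one]

/-- Restrictions on the point stabilizer of an extremely primitive group. Let a finite group G act faithfully and primitively on a finite set Ω with point stabilizers H = G_α whose order is neither 1 nor a prime, each acting primitively on every one of its orbits. Then H has trivial center, the Fitting subgroup F(H) is an elementary abelian p-group for some prime p, and if F(H) ≠ 1 has order p ^ e then p ^ e divides the number of points minus one and H / F(H) embeds in GL_e(p) (there is a homomorphism from H to GL_e(p) with kernel exactly F(H)). -/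
theorem result {G : Type*} [Group G] [Finite G] {Ω : Type*} [Fintype Ω] [MulAction G Ω] [FaithfulSMul G Ω] (hprim : MulAction.IsPreprimitive G Ω) (hep : ∀ (α : Ω) (ω : Ω), MulAction.IsPreprimitive (MulAction.stabilizer G α) (MulAction.orbit (MulAction.stabilizer G α) ω)) (α : Ω)
    (hH1 : MulAction.stabilizer G α ≠ ⊥) (hHp : ¬ (Nat.card (MulAction.stabilizer G α)).Prime) :
    Subgroup.center (MulAction.stabilizer G α) = ⊥ ∧
    IsMulCommutative (Cfsg.fittingSubgroup (MulAction.stabilizer G α)) ∧
    ∃ p e : ℕ, p.Prime ∧ Nat.card (Cfsg.fittingSubgroup (MulAction.stabilizer G α)) = p ^ e ∧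
      (∀ x ∈ Cfsg.fittingSubgroup (MulAction.stabilizer G α), x ^ p = 1) ∧
      (Cfsg.fittingSubgroup (MulAction.stabilizer G α) ≠ ⊥ →
        p ^ e ∣ Fintype.card Ω - 1 ∧
        ∃ φ : MulAction.stabilizer G α →* GL (Fin e) (ZMod p), φ.ker = Cfsg.fittingSubgroup (MulAction.stabilizer G α)) := by
  classical
  have := hprim
  have htr : MulAction.IsPretransitive G Ω := hprim.toIsPretransitive
  have hH : ∀ β : Ω, MulAction.stabilizer G β ≠ ⊥ := by
    intro β hβ
    obtain ⟨g, rfl⟩ := MulAction.exists_smul_eq G α β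
    apply hH1
    rw [MulAction.stabilizer_smul_eq_stabilizer_map_conj] at hβ
    exact (Subgroup.map_eq_bot_iff_of_injective _ (MulAut.conj g).injective).mp hβ
  obtain ⟨ω₀, hω₀⟩ : ∃ ω : Ω, ω ≠ α := by
    by_contra h
    push Not at h
    apply hH1
    rw [Subgroup.eq_bot_iff_forall]
    exact fun g _ => FaithfulSMul.eq_of_smul_eq_smul fun x : Ω => (h _).trans ((h _).symm)
  have hf : ∀ ω, ω ≠ α → ∀ h : MulAction.stabilizer G α,
      (∀ x ∈ MulAction.orbit (MulAction.stabilizer G α) ω, h • x = x) → h = 1 := fun ω hω h hh =>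
    Subtype.ext (Cfsg.Lib.Recog.ExtremelyPrimitive.faithful_suborbit hH hep hω h.2 hh)
  have hq : ∀ M : Subgroup (MulAction.stabilizer G α), M.Normal → ∀ ω : Ω,
      (∀ k ∈ M, k • ω = ω) ∨ MulAction.orbit M ω = MulAction.orbit (MulAction.stabilizer G α) ω := by
    intro M hM ω
    have hle : M.map (MulAction.stabilizer G α).subtype ≤ MulAction.stabilizer G α := Subgroup.map_subtype_le M
    have hn : (MulAction.stabilizer G α) ≤ Subgroup.normalizer (M.map (MulAction.stabilizer G α).subtype : Set G) := by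
      rw [← Subgroup.normal_subgroupOf_iff_le_normalizer hle, Subgroup.subgroupOf,
        Subgroup.comap_map_eq_self_of_injective (Subgroup.subtype_injective _)]
      exact hM
    rcases Cfsg.Lib.Recog.ExtremelyPrimitive.fixed_or_orbit_eq hep α _ hle hn ω with h | h
    · exact Or.inl fun k hk => h k (Subgroup.mem_map_of_mem _ hk)
    · refine Or.inr (Eq.trans ?_ h)
      ext x
      constructor
      · rintro ⟨m, rfl⟩
        exact ⟨⟨_, Subgroup.mem_map_of_mem _ m.2⟩, rfl⟩
      · rintro ⟨⟨y, m, hm, rfl⟩, rfl⟩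
        exact ⟨⟨m, hm⟩, rfl⟩
  set H := MulAction.stabilizer G α with hHdef
  set F := Cfsg.fittingSubgroup H with hF
  have hnil : Group.IsNilpotent F := Cfsg.Lib.Solv.fitting_isNilpotent
  have hFn : F.Normal := by rw [hF]; exact Cfsg.Lib.Solv.fitting_normal
  -- the centre
  have hZ : Subgroup.center H = ⊥ := by
    by_contra hne
    have hcomm : ∀ h : H, h ∈ Subgroup.center H := fun h => eq_of_centralizes hq hf _ inferInstance hne
      (fun x hx y _ => (Subgroup.mem_center_iff.mp hx y).symm) hω₀ h (fun m hm => Subgroup.mem_center_iff.mp hm h)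
    have hab : ∀ x y : H, x * y = y * x := fun x y => Subgroup.mem_center_iff.mp (hcomm y) x
    obtain ⟨q, hqp, hqd⟩ := Nat.exists_prime_and_dvd (show Nat.card H ≠ 1 from
      fun h => hH1 (Subgroup.card_eq_one.mp h))
    have : Fact q.Prime := ⟨hqp⟩
    obtain ⟨x, hx⟩ := exists_prime_orderOf_dvd_card' q hqd
    have hxn : (Subgroup.zpowers x).Normal := ⟨fun n hn g => by rw [hab g n, mul_inv_cancel_right]; exact hn⟩
    have hxne : Subgroup.zpowers x ≠ ⊥ := fun h => by
      rw [Subgroup.zpowers_eq_bot] at h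
      rw [h, orderOf_one] at hx
      exact hqp.one_lt.ne hx
    have htop : Subgroup.zpowers x = ⊤ := by
      rw [Subgroup.eq_top_iff']
      exact fun h => eq_of_centralizes hq hf _ hxn hxne (fun a _ b _ => hab a b) hω₀ h (fun m _ => hab h m)
    apply hHp
    rw [← Subgroup.card_top (G := H), ← htop, Nat.card_zpowers, hx]
    exact hqp
  refine ⟨hZ, ?_⟩
  rcases eq_or_ne F ⊥ with hb | hb
  · refine ⟨⟨⟨fun a b => ?_⟩⟩, 2, 0, Nat.prime_two, ?_, fun x hx => ?_, fun h => absurd hb h⟩
    · have ha := a.2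
      have hb' := b.2
      simp only [hb, Subgroup.mem_bot] at ha hb'
      exact Subtype.ext (by simp [ha, hb'])
    · rw [hb, Subgroup.card_bot, pow_zero]
    · rw [hb, Subgroup.mem_bot] at hx
      rw [hx, one_pow]
  -- the centre of the Fitting subgroup
  set Z := (Subgroup.center F).map F.subtype with hZdef
  have hZn : Z.Normal := by have := hFn; rw [hZdef]; infer_instance
  have hZne : Z ≠ ⊥ := by
    have : Nontrivial F := (Subgroup.nontrivial_iff_ne_bot F).mpr hb
    rw [hZdef]
    intro h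
    rw [Subgroup.map_eq_bot_iff_of_injective _ (Subgroup.subtype_injective _)] at h
    exact (Group.IsNilpotent.center_ne_bot (G := F)) h
  have hZc : ∀ x ∈ F, ∀ m ∈ Z, x * m = m * x := by
    rintro x hx m ⟨y, hy, rfl⟩
    exact congrArg Subtype.val (Subgroup.mem_center_iff.mp hy ⟨x, hx⟩)
  have hZF : Z ≤ F := Subgroup.map_subtype_le _
  have hFZ : F ≤ Z := fun x hx => eq_of_centralizes hq hf Z hZn hZne
    (fun a ha b hb' => hZc a (hZF ha) b hb') hω₀ x (fun m hm => hZc x hx m hm)
  have hab : ∀ x ∈ F, ∀ y ∈ F, x * y = y * x := fun x hx y hy => hZc x hx y (hFZ hy)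
  obtain ⟨p, hp, hpd⟩ := Nat.exists_prime_and_dvd (show Nat.card F ≠ 1 from
    fun h => hb (Subgroup.card_eq_one.mp h))
  have : Fact p.Prime := ⟨hp⟩
  let K : Subgroup H :=
    { carrier := {x | x ∈ F ∧ x ^ p = 1}
      one_mem' := ⟨F.one_mem, one_pow p⟩
      mul_mem' := fun {x y} hx hy => ⟨F.mul_mem hx.1 hy.1, by
        rw [(show Commute x y from hab x hx.1 y hy.1).mul_pow, hx.2, hy.2, one_mul]⟩
      inv_mem' := fun {x} hx => ⟨F.inv_mem hx.1, by rw [inv_pow, hx.2, inv_one]⟩ }
  have hKn : K.Normal := ⟨fun n hn g => ⟨hFn.conj_mem n hn.1 g, by rw [conj_pow, hn.2, mul_one, mul_inv_cancel]⟩⟩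
  have hKne : K ≠ ⊥ := by
    obtain ⟨x, hx⟩ := exists_prime_orderOf_dvd_card' p hpd
    intro h
    have h1 : (x : H) ∈ K := ⟨x.2, by rw [← Subgroup.coe_pow, ← hx, pow_orderOf_eq_one, Subgroup.coe_one]⟩
    rw [h, Subgroup.mem_bot, OneMemClass.coe_eq_one] at h1
    rw [h1, orderOf_one] at hx
    exact hp.one_lt.ne hx
  have hexp : ∀ x ∈ F, x ^ p = 1 := fun x hx =>
    (eq_of_centralizes hq hf K hKn hKne (fun a ha b hb' => hab a ha.1 b hb'.1) hω₀ x
      (fun m hm => hab x hx m hm.1)).2
  have hpg : IsPGroup p F := fun x => ⟨1, Subtype.ext (by simpa using hexp x x.2)⟩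
  obtain ⟨e, he⟩ := IsPGroup.iff_card.mp hpg
  have : Fintype F := Fintype.ofFinite F
  refine ⟨⟨⟨fun a b => Subtype.ext (hab a a.2 b b.2)⟩⟩, p, e, hp, he, hexp, fun _ => ⟨?_, ?_⟩⟩
  · -- all orbits of F outside the point are regular
    rw [← he]
    have hcount : (Finset.univ.filter fun ω : Ω => ω ≠ α).card = Fintype.card Ω - 1 := by
      rw [Finset.filter_ne' Finset.univ α, Finset.card_erase_of_mem (Finset.mem_univ _), Finset.card_univ]
    rw [← hcount, Finset.card_eq_sum_card_fiberwise (t := (Finset.univ.filter fun ω : Ω => ω ≠ α).image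
      fun ω => MulAction.orbit F ω) (fun ω hω => Finset.mem_image_of_mem _ hω)]
    refine Finset.dvd_sum fun O hO => ?_
    obtain ⟨ω, hω, rfl⟩ := Finset.mem_image.mp hO
    have hωα : ω ≠ α := (Finset.mem_filter.mp hω).2
    refine dvd_of_eq ?_
    have hinj : Function.Injective (fun f : F => f • ω) := by
      intro f f' hff
      have h0 : ((f : H)⁻¹ * f') • ω = ω := by
        rw [mul_smul, inv_smul_eq_iff]
        exact hff.symm
      have h1 := (normal_abelian_regular hq hf F hFn hb hωα).2 _
        (fun m hm => hab _ (F.mul_mem (F.inv_mem f.2) f'.2) m hm) h0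
      exact Subtype.ext (inv_mul_eq_one.mp h1)
    rw [Nat.card_eq_fintype_card, ← Finset.card_univ, ← Finset.card_image_of_injective _ hinj]
    congr 1
    ext x
    simp only [Finset.mem_image, Finset.mem_univ, true_and, Finset.mem_filter]
    constructor
    · rintro ⟨f, rfl⟩
      refine ⟨fun h => hωα ?_, ?_⟩
      · have h2 : ((f : H) : G) • α = α := (f : H).2
        exact MulAction.injective ((f : H) : G) (h.trans h2.symm)
      · exact MulAction.orbit_eq_iff.mpr ⟨f, rfl⟩
    · rintro ⟨-, hx⟩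
      exact MulAction.orbit_eq_iff.mp hx
  · letI : CommGroup F := { (inferInstance : Group F) with mul_comm := fun a b => Subtype.ext (hab a a.2 b b.2) }
    have := hFn
    obtain ⟨φ, hφ⟩ := exists_matrix_hom (MulAut.conjNormal : H →* MulAut F) p
      (fun x => Subtype.ext (by rw [Subgroup.coe_pow, Subgroup.coe_one]; exact hexp _ x.2)) e he
    refine ⟨φ, hφ.trans ?_⟩
    ext h
    rw [MonoidHom.mem_ker]
    constructor
    · intro hh
      refine eq_of_centralizes hq hf F hFn hb hab hω₀ h fun m hm => ?_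
      have := MulAut.conjNormal_apply h (⟨m, hm⟩ : F)
      rw [hh] at this
      exact mul_inv_eq_iff_eq_mul.mp this.symm
    · intro hh
      apply MulEquiv.ext
      intro x
      apply Subtype.ext
      rw [MulAut.conjNormal_apply, hab h hh _ x.2, mul_inv_cancel_right]
      rfl

end Cfsg.Agent.S3497
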