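import Cfsg.Statements.S3498
import Cfsg.Agent.Lib.Solv.ThompsonKernel

set_option autoImplicit false
open Cfsg

namespace Cfsg.Agent.S3498

/-- A maximal subgroup of a finite almost simple group does not have prime order. Here G is almost simple in the sense that it has a non-abelian simple normal subgroup T with trivial centralizer. -/
theorem result {G : Type*} [Group G] [Finite G] (T : Subgroup G) [T.Normal] (hT : IsSimpleGroup T) (hTc : ¬ IsMulCommutative T)
    (hC : Subgroup.centralizer (T : Set G) = ⊥) (H : Subgroup G) (hmax : IsCoatom H) : ¬ (Nat.card H).Prime := by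
  classical
  intro hp
  set p := Nat.card H with hpdef
  have := Fact.mk hp
  have : IsCyclic H := isCyclic_of_prime_card rfl
  have hH1 : H ≠ ⊥ := fun h => hp.one_lt.ne' (by rw [hpdef, h, Subgroup.card_bot])
  have hnorm : Subgroup.normalizer (H : Set G) = H := by
    rcases (Subgroup.le_normalizer (H := H)).eq_or_lt with h | h
    · exact h.symm
    exfalso
    have hHn : H.Normal := Subgroup.normalizer_eq_top_iff.mp (hmax.2 _ h)
    rcases hT.eq_bot_or_eq_top_of_normal ((H ⊓ T).subgroupOf T)
      (Subgroup.Normal.subgroupOf inferInstance T) with h1 | h1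
    · refine hH1 (le_bot_iff.mp (hC ▸ fun x hx => Subgroup.mem_centralizer_iff.mpr fun t ht => ?_))
      have hdis : Disjoint H T := disjoint_iff.mpr (by
        have := congrArg (Subgroup.map T.subtype) h1
        rwa [Subgroup.map_subgroupOf_eq_of_le inf_le_right, Subgroup.map_bot] at this)
      exact (Subgroup.commute_of_normal_of_disjoint H T hHn inferInstance hdis x t hx ht).symm
    · have hle : T ≤ H := (Subgroup.subgroupOf_eq_top.mp h1).trans inf_le_left
      exact hTc ⟨⟨fun a b => Subtype.ext (congrArg (fun x : H => (x : G))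
        ((IsCyclic.isMulCommutative (α := H)).is_comm.comm ⟨a, hle a.2⟩ ⟨b, hle b.2⟩))⟩⟩
  have hHp : IsPGroup p H := IsPGroup.of_card (n := 1) (pow_one p).symm
  obtain ⟨P, hP⟩ := hHp.exists_le_sylow
  have hPH : (P : Subgroup G) = H := by
    by_contra hne
    have hlt : H.subgroupOf (P : Subgroup G) < ⊤ := lt_top_iff_ne_top.mpr fun h =>
      hne (le_antisymm (Subgroup.subgroupOf_eq_top.mp h) hP)
    have : Group.IsNilpotent (P : Subgroup G) := P.2.isNilpotent
    obtain ⟨x, hx, hxP⟩ := SetLike.exists_of_lt (Group.normalizerCondition_of_isNilpotent _ hlt)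
    refine hxP (hnorm.le (Subgroup.mem_normalizer_iff_map_conj_eq.mpr (Subgroup.eq_of_le_of_card_ge ?_ ?_)))
    · rintro _ ⟨u, hu, rfl⟩
      exact (Subgroup.mem_normalizer_iff.mp hx ⟨u, hP hu⟩).mp hu
    · rw [Subgroup.card_map_of_injective (MulAut.conj (x : G)).injective]
  have hburn : Subgroup.normalizer ((P : Subgroup G) : Set G) ≤ Subgroup.centralizer ((P : Subgroup G) : Set G) := by
    rw [hPH, hnorm]
    exact fun x hx => Subgroup.mem_centralizer_iff.mpr fun y hy =>
      congrArg (fun x : H => (x : G)) ((IsCyclic.isMulCommutative (α := H)).is_comm.comm ⟨y, hy⟩ ⟨x, hx⟩)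
  have hcomp := MonoidHom.ker_transferSylow_isComplement' P hburn
  set K := (MonoidHom.transferSylow P hburn).ker with hK
  rw [hPH] at hcomp
  have hKi : K.index = p := Subgroup.IsComplement'.index_eq_card (hcomp.symm)
  -- the simple normal subgroup lies in the complement
  have hTK : T ≤ K := by
    rcases hT.eq_bot_or_eq_top_of_normal (K.subgroupOf T) (Subgroup.Normal.subgroupOf inferInstance T) with h | h
    · exfalso
      have h2 : Nat.card T ∣ p := by
        have h3 : K.relIndex T = Nat.card T := by rw [Subgroup.relIndex, h, Subgroup.index_bot]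
        rw [← h3, ← hKi]
        exact Subgroup.relIndex_dvd_index_of_normal K T
      have := hT.toNontrivial
      rcases (Nat.dvd_prime hp).mp h2 with h3 | h3
      · exact (Finite.one_lt_card (α := T)).ne' h3
      · have : IsCyclic T := isCyclic_of_prime_card h3
        exact hTc inferInstance
    · exact Subgroup.subgroupOf_eq_top.mp h
  obtain ⟨h, hh, hh1⟩ := (Subgroup.bot_or_exists_ne_one H).resolve_left hH1
  have hzp : Subgroup.zpowers h = H := Subgroup.eq_of_le_of_card_ge (Subgroup.zpowers_le.mpr hh) (by
    have := orderOf_eq_prime (p := p) (congrArg Subtype.val (pow_card_eq_one' (x := (⟨h, hh⟩ : H)))) hh1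
    rw [Nat.card_zpowers, this])
  have hfpf : Cfsg.Lib.Solv.ThompsonKernel.Fpf (MulAut.conjNormal h : K ≃* K) p := by
    refine ⟨hp, fun g hg => ?_, fun g => ?_⟩
    · by_contra hg1
      have hcm : h * (g : G) = (g : G) * h := by
        have := congrArg Subtype.val hg
        rw [MulAut.conjNormal_apply] at this
        exact mul_inv_eq_iff_eq_mul.mp this
      have hgn : (g : G) ∈ Subgroup.normalizer (H : Set G) := by
        rw [← hzp]
        refine Subgroup.mem_normalizer_iff_map_conj_eq.mpr ?_
        rw [MonoidHom.map_zpowers, show (MulAut.conj (g : G) : G →* G) h = h by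
          simp only [MonoidHom.coe_coe, MulAut.conj_apply]
          rw [← hcm, mul_inv_cancel_right]]
      rw [hnorm] at hgn
      exact hg1 (Subtype.ext (Subgroup.disjoint_def.mp hcomp.disjoint g.2 hgn))
    · have hpow : ∀ n : ℕ, ∀ x : K, (MulAut.conjNormal (h ^ n)) x = (MulAut.conjNormal h)^[n] x := by
        intro n
        induction n with
        | zero => intro x; rw [pow_zero, map_one]; rfl
        | succ n ih => intro x; rw [pow_succ, map_mul, MulAut.mul_apply, ih, Function.iterate_succ_apply]
      rw [← hpow, show h ^ p = 1 from congrArg Subtype.val (pow_card_eq_one' (x := (⟨h, hh⟩ : H))), map_one]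
      rfl
  have hKnil := Cfsg.Lib.Solv.ThompsonKernel.fpf_isNilpotent hfpf
  have : Group.IsNilpotent T :=
    Group.nilpotent_of_mulEquiv (Subgroup.subgroupOfEquivOfLe hTK)
  have := hT.toNontrivial
  have hz := Group.IsNilpotent.center_ne_bot T
  rcases hT.eq_bot_or_eq_top_of_normal (Subgroup.center T) inferInstance with h | h
  · exact hz h
  · exact hTc ⟨⟨fun a b => (Subgroup.mem_center_iff.mp (h ▸ Subgroup.mem_top b) a)⟩⟩

end Cfsg.Agent.S3498
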