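import Cfsg.Statements.S3504
-- import your own Cfsg.Agent.* helpers here

set_option autoImplicit false
open Cfsg

namespace Cfsg.Agent.S3504

/-- For n ≥ 5, the fixed-point-free permutations of prime order in the symmetric group of degree n form a single conjugacy class if and only if n is a prime power. -/
theorem result (n : ℕ) (hn : 5 ≤ n) :
    Nat.card {c : ConjClasses (Equiv.Perm (Fin n)) // ∃ g : Equiv.Perm (Fin n), ConjClasses.mk g = c ∧ (orderOf g).Prime ∧ ∀ i : Fin n, g i ≠ i} = 1 ↔ IsPrimePow n := by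
  classical
  have exist : ∀ p : ℕ, p.Prime → p ∣ n → ∃ g : Equiv.Perm (Fin n),
      g.cycleType = Multiset.replicate (n / p) p ∧ orderOf g = p ∧ ∀ i : Fin n, g i ≠ i := by
    intro p hp hd
    obtain ⟨g, hg⟩ := (Equiv.Perm.exists_with_cycleType_iff (Fin n) (m := Multiset.replicate (n / p) p)).2
      ⟨by rw [Multiset.sum_replicate, Fintype.card_fin, smul_eq_mul, Nat.div_mul_cancel hd],
        fun a ha => (Multiset.eq_of_mem_replicate ha) ▸ hp.two_le⟩
    refine ⟨g, hg, ?_, ?_⟩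
    · rw [← Equiv.Perm.lcm_cycleType, hg]
      have h1 : 0 < n / p := Nat.div_pos (Nat.le_of_dvd (by omega) hd) hp.pos
      refine Nat.dvd_antisymm (Multiset.lcm_dvd.2 fun b hb => (Multiset.eq_of_mem_replicate hb) ▸ dvd_rfl) ?_
      exact Multiset.dvd_lcm (Multiset.mem_replicate.2 ⟨h1.ne', rfl⟩)
    · intro i hi
      have hs := Equiv.Perm.sum_cycleType g
      rw [hg, Multiset.sum_replicate, smul_eq_mul, Nat.div_mul_cancel hd] at hs
      have hu : g.support = Finset.univ := Finset.card_eq_iff_eq_univ _ |>.1 (by rw [Fintype.card_fin]; exact hs.symm)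
      exact Equiv.Perm.mem_support.1 (hu ▸ Finset.mem_univ i) hi
  have forced : ∀ g : Equiv.Perm (Fin n), (orderOf g).Prime → (∀ i : Fin n, g i ≠ i) →
      orderOf g ∣ n ∧ g.cycleType = Multiset.replicate (n / orderOf g) (orderOf g) := by
    intro g hp hf
    obtain ⟨k, hk⟩ := Equiv.Perm.cycleType_prime_order hp
    have hu : g.support = Finset.univ := Finset.eq_univ_iff_forall.2 fun i => Equiv.Perm.mem_support.2 (hf i)
    have hs := Equiv.Perm.sum_cycleType g
    rw [hk, Multiset.sum_replicate, smul_eq_mul, hu, Finset.card_univ, Fintype.card_fin] at hs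
    refine ⟨⟨k + 1, by rw [mul_comm]; exact hs.symm⟩, ?_⟩
    rw [hk, Nat.div_eq_of_eq_mul_left hp.pos hs.symm]
  choose f hf1 hf2 hf3 using exist
  let T := {c : ConjClasses (Equiv.Perm (Fin n)) // ∃ g : Equiv.Perm (Fin n), ConjClasses.mk g = c ∧
    (orderOf g).Prime ∧ ∀ i : Fin n, g i ≠ i}
  let e : {p : ℕ // p.Prime ∧ p ∣ n} → T := fun p =>
    ⟨ConjClasses.mk (f p.1 p.2.1 p.2.2), f p.1 p.2.1 p.2.2, rfl, (hf2 p.1 p.2.1 p.2.2).symm ▸ p.2.1,
      hf3 p.1 p.2.1 p.2.2⟩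
  have he : Function.Bijective e := by
    constructor
    · intro p q h
      have h1 := ConjClasses.mk_eq_mk_iff_isConj.1 (congrArg Subtype.val h)
      obtain ⟨c, hc⟩ := isConj_iff.1 h1
      refine Subtype.ext ?_
      rw [← hf2 p.1 p.2.1 p.2.2, ← hf2 q.1 q.2.1 q.2.2, ← hc, ← Equiv.Perm.lcm_cycleType, ← Equiv.Perm.lcm_cycleType,
        Equiv.Perm.cycleType_conj]
    · rintro ⟨c, g, rfl, hp, hg⟩
      obtain ⟨hd, hct⟩ := forced g hp hg
      exact ⟨⟨orderOf g, hp, hd⟩, Subtype.ext (ConjClasses.mk_eq_mk_iff_isConj.2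
        (Equiv.Perm.isConj_of_cycleType_eq ((hf1 _ hp hd).trans hct.symm)))⟩
  show Nat.card T = 1 ↔ _
  rw [← Nat.card_eq_of_bijective e he, Nat.card_eq_one_iff_unique, isPrimePow_iff_unique_prime_dvd]
  constructor
  · rintro ⟨hs, ⟨⟨p, hp⟩⟩⟩
    exact ⟨p, hp, fun q hq => congrArg Subtype.val (hs.elim ⟨q, hq⟩ ⟨p, hp⟩)⟩
  · rintro ⟨p, hp, hu⟩
    exact ⟨⟨fun a b => Subtype.ext ((hu a.1 a.2).trans (hu b.1 b.2).symm)⟩, ⟨⟨p, hp⟩⟩⟩

end Cfsg.Agent.S3504
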