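import Cfsg.Statements.S3508
import Mathlib

set_option autoImplicit false
open Cfsg

namespace Cfsg.Agent.S3508

theorem nilpotent_bound (p : ℕ) [Fact p.Prime] {V : Type*} [AddCommGroup V] [Module (ZMod p) V] [Finite V]
    (m r : ℕ) (hcard : Nat.card V = p ^ m) (φ : V →+ V) (hper : ∀ v, φ^[p ^ r] v = v) (s : ℕ) (hs : m < p ^ s) :
    (∀ v, φ^[p ^ s] v = v) ∧ ∀ v, ∑ i ∈ Finset.range (p ^ s), φ^[i] v = 0 := by
  have hp : p.Prime := Fact.out
  have : Module.Finite (ZMod p) V := Module.Finite.of_finite
  have hfr : Module.finrank (ZMod p) V = m := by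
    have h1 := Module.natCard_eq_pow_finrank (K := ZMod p) (V := V)
    rw [hcard, Nat.card_zmod] at h1
    exact (Nat.pow_right_injective hp.two_le h1).symm
  set f : Module.End (ZMod p) V := AddMonoidHom.toZModLinearMap p φ
  have hf : ∀ (k : ℕ) (v : V), (f ^ k) v = φ^[k] v := fun k v => by
    rw [Module.End.pow_apply]
    rfl
  have hP : ∀ t : ℕ, (f - 1) ^ p ^ t = f ^ p ^ t - 1 := fun t => by
    have h1 := congrArg (Polynomial.aeval f) (sub_pow_char_pow (Polynomial.X : Polynomial (ZMod p)) 1 (p := p) (n := t))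
    simpa using h1
  have hnil : (f - 1) ^ p ^ r = 0 := by
    rw [hP, sub_eq_zero]
    exact LinearMap.ext fun v => (hf _ v).trans (hper v)
  have hnilm : (f - 1) ^ m = 0 := by
    rcases le_or_gt (p ^ r) m with hle | hgt
    · rw [← Nat.sub_add_cancel hle, pow_add, hnil, mul_zero]
    · have h1 := Module.End.ker_pow_eq_ker_pow_finrank_of_le (f := f - 1) (m := p ^ r) (by rw [hfr]; omega)
      rw [hfr, hnil, LinearMap.ker_zero] at h1
      exact LinearMap.ker_eq_top.mp h1.symm
  have hz : ∀ k, m ≤ k → (f - 1) ^ k = 0 := fun k hk => by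
    rw [← Nat.sub_add_cancel hk, pow_add, hnilm, mul_zero]
  have h1 : f ^ p ^ s = 1 := by
    rw [← sub_eq_zero, ← hP]
    exact hz _ hs.le
  have h2 : (∑ i ∈ Finset.range (p ^ s), f ^ i : Module.End (ZMod p) V) = 0 := by
    have hpoly : (∑ i ∈ Finset.range (p ^ s), (Polynomial.X : Polynomial (ZMod p)) ^ i) =
        (Polynomial.X - 1) ^ (p ^ s - 1) := by
      refine mul_right_cancel₀ (Polynomial.X_sub_C_ne_zero (1 : ZMod p)) ?_
      rw [map_one, geom_sum_mul, ← pow_succ, Nat.sub_add_cancel (Nat.one_le_pow _ _ hp.pos), sub_pow_char_pow, one_pow]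
    have h3 := congrArg (Polynomial.aeval f) hpoly
    simp only [map_sum, map_pow, Polynomial.aeval_X, map_sub, map_one] at h3
    rw [h3]
    exact hz _ (by omega)
  refine ⟨fun v => by rw [← hf, h1]; rfl, fun v => ?_⟩
  have h4 := LinearMap.congr_fun h2 v
  rw [LinearMap.sum_apply, LinearMap.zero_apply] at h4
  simpa [hf] using h4

/-- Let a finite group G act faithfully on a set Ω with p ^ m points (p prime) and have an elementary abelian normal p-subgroup N acting regularly on Ω (so G is a group of affine transformations of an m-dimensional space over the field with p elements). If G contains an element of order p ^ r with r ≥ 1, then p ^ (r − 1) ≤ m. In particular an element of order p ^ m forces m ≤ 2, and m ≤ 1 when p is odd. -/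
theorem result {G : Type*} [Group G] [Finite G] {Ω : Type*} [Fintype Ω] [MulAction G Ω] [FaithfulSMul G Ω] (p m : ℕ) (hp : p.Prime) (hcard : Fintype.card Ω = p ^ m)
    (N : Subgroup G) [N.Normal] (hNc : IsMulCommutative N) (hNp : ∀ n ∈ N, n ^ p = 1)
    (hNtr : MulAction.IsPretransitive N Ω) (hNreg : ∀ ω : Ω, MulAction.stabilizer N ω = ⊥)
    (g : G) (r : ℕ) (hr : 1 ≤ r) (hg : orderOf g = p ^ r) :
    p ^ (r - 1) ≤ m ∧ (r = m → m ≤ 2 ∧ (2 < p → m ≤ 1)) := by
  classical
  obtain ⟨a⟩ : Nonempty Ω := by
    rw [← Fintype.card_pos_iff, hcard]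
    exact pow_pos hp.pos m
  obtain ⟨⟨n, hn⟩, hna⟩ := hNtr.exists_smul_eq a (g • a)
  have hna' : n • a = g • a := hna
  set h := n⁻¹ * g with hh
  have hha : h • a = a := by rw [hh, mul_smul, ← hna', inv_smul_smul]
  have hgnh : g = n * h := by rw [hh, mul_inv_cancel_left]
  clear_value h
  let _ : CommGroup N := { (inferInstance : Group N) with mul_comm := fun x y => hNc.is_comm.comm x y }
  have hNcard : Nat.card N = p ^ m := by
    rw [← hcard, ← Nat.card_eq_fintype_card]
    refine Nat.card_congr (Equiv.ofBijective (fun x : N => x • a) ⟨fun x y e => ?_, fun w => hNtr.exists_smul_eq a w⟩)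
    have h1 : y⁻¹ * x ∈ MulAction.stabilizer N a := by
      rw [MulAction.mem_stabilizer_iff, mul_smul]
      exact inv_smul_eq_iff.mpr e
    rw [hNreg a, Subgroup.mem_bot] at h1
    exact (inv_mul_eq_one.mp h1).symm
  -- conjugation by h
  let φ : Additive N →+ Additive N := MonoidHom.toAdditive ((MulAut.conjNormal h : N ≃* N).toMonoidHom)
  have hφk : ∀ (k : ℕ) (x : N), φ^[k] (Additive.ofMul x) = Additive.ofMul (MulAut.conjNormal (h ^ k) x) := by
    intro k
    induction k with
    | zero => intro x; simp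
    | succ k ih =>
      intro x
      rw [Function.iterate_succ_apply, show φ (Additive.ofMul x) = Additive.ofMul (MulAut.conjNormal h x) from rfl,
        ih, pow_succ h k, map_mul, MulAut.mul_apply]
  have hgk : ∀ k : ℕ, g ^ k =
      ((∑ i ∈ Finset.range k, φ^[i] (Additive.ofMul (⟨n, hn⟩ : N))).toMul : G) * h ^ k := by
    intro k
    induction k with
    | zero => simp
    | succ k ih =>
      rw [pow_succ, ih, Finset.sum_range_succ, toMul_add, Subgroup.coe_mul, hφk,
        toMul_ofMul, MulAut.conjNormal_apply, pow_succ h k, hgnh]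
      simp only [mul_assoc, inv_mul_cancel_left]
  have hgp : g ^ p ^ r = 1 := by rw [← hg]; exact pow_orderOf_eq_one g
  have hhp : h ^ p ^ r = 1 := by
    have e := hgk (p ^ r)
    rw [hgp] at e
    have hmem : h ^ p ^ r ∈ N := by
      rw [eq_inv_of_mul_eq_one_right e.symm]
      exact N.inv_mem (SetLike.coe_mem _)
    have h1 : (⟨_, hmem⟩ : N) ∈ MulAction.stabilizer N a :=
      (MulAction.stabilizer G a).pow_mem (MulAction.mem_stabilizer_iff.mpr hha) _
    rw [hNreg a, Subgroup.mem_bot] at h1
    exact congrArg Subtype.val h1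
  have main : p ^ (r - 1) ≤ m := by
    by_contra hlt
    push Not at hlt
    have := Fact.mk hp
    have : Finite (Additive N) := inferInstanceAs (Finite N)
    obtain ⟨hφ1, hsum⟩ := @nilpotent_bound p _ (Additive N) _
      (AddCommGroup.zmodModule (fun x => by
        show x.toMul ^ p = 1
        exact Subtype.ext (hNp _ x.toMul.2))) _ m r (by rw [Nat.card_congr Additive.toMul, hNcard]) φ
      (fun v => by
        rw [show v = Additive.ofMul v.toMul from rfl, hφk, hhp, map_one]
        rfl) (r - 1) hlt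
    have hfaith : h ^ p ^ (r - 1) = 1 := by
      refine FaithfulSMul.eq_of_smul_eq_smul fun x : Ω => ?_
      obtain ⟨y, rfl⟩ := hNtr.exists_smul_eq a x
      rw [one_smul]
      have h1 := hφ1 (Additive.ofMul y)
      rw [hφk] at h1
      have h2 := congrArg Subtype.val (Additive.ofMul.injective h1)
      rw [MulAut.conjNormal_apply, mul_inv_eq_iff_eq_mul] at h2
      show h ^ p ^ (r - 1) • (y : G) • a = (y : G) • a
      rw [← mul_smul, h2, mul_smul, MulAction.mem_stabilizer_iff.mp
        ((MulAction.stabilizer G a).pow_mem (MulAction.mem_stabilizer_iff.mpr hha) _)]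
    have h1 : g ^ p ^ (r - 1) = 1 := by
      rw [hgk, hsum, hfaith]
      simp
    have h2 := orderOf_dvd_of_pow_eq_one h1
    rw [hg, Nat.pow_dvd_pow_iff_le_right hp.one_lt] at h2
    omega
  refine ⟨main, fun hrm => ?_⟩
  subst hrm
  have h2 : r ≤ 2 := by
    by_contra h
    have h3 : 2 ^ (r - 1) ≤ p ^ (r - 1) := Nat.pow_le_pow_left hp.two_le _
    have h4 : r < 2 ^ (r - 1) := by
      obtain ⟨j, rfl⟩ := Nat.exists_eq_add_of_le (show 3 ≤ r by omega)
      clear * -
      induction j with
      | zero => norm_num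
      | succ j ih =>
        rw [show 3 + (j + 1) - 1 = (3 + j - 1) + 1 by omega, pow_succ]
        omega
    omega
  refine ⟨h2, fun hp2 => ?_⟩
  by_contra h
  rw [show r = 2 by omega] at main
  norm_num at main
  omega

end Cfsg.Agent.S3508
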