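import Cfsg.Statements.S3511
import Mathlib

set_option autoImplicit false
open Cfsg

namespace Cfsg.Agent.S3511

/-- Let a finite group G act faithfully on a set Ω. If every element of G of square-free order has a regular cycle (an orbit of the cyclic group it generates with trivial stabilizer), then every element of G has a regular cycle. -/
theorem result {G : Type*} [Group G] [Finite G] {Ω : Type*} [MulAction G Ω] [FaithfulSMul G Ω]
    (h : ∀ g : G, Squarefree (orderOf g) → ∃ ω : Ω, MulAction.stabilizer (Subgroup.zpowers g) ω = ⊥) (g : G) :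
    ∃ ω : Ω, MulAction.stabilizer (Subgroup.zpowers g) ω = ⊥ := by
  classical
  set n := orderOf g with hn
  have hn0 : n ≠ 0 := (orderOf_pos g).ne'
  set s := UniqueFactorizationMonoid.radical n with hs
  have hsn : s ∣ n := UniqueFactorizationMonoid.radical_dvd_self
  have hord : orderOf (g ^ (n / s)) = s := by
    rw [orderOf_pow' g (Nat.ne_of_gt (Nat.div_pos (Nat.le_of_dvd (Nat.pos_of_ne_zero hn0) hsn)
      (Nat.pos_of_ne_zero (ne_zero_of_dvd_ne_zero hn0 hsn)))), ← hn, Nat.gcd_eq_right (Nat.div_dvd_of_dvd hsn),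
      Nat.div_div_self hsn hn0]
  obtain ⟨ω, hω⟩ := h (g ^ (n / s)) (by rw [hord, hs]; exact UniqueFactorizationMonoid.squarefree_radical)
  refine ⟨ω, ?_⟩
  by_contra hne
  set S := MulAction.stabilizer (Subgroup.zpowers g) ω
  obtain ⟨q, hq, hqd⟩ := Nat.exists_prime_and_dvd (n := Nat.card S)
    (fun e => hne (Subgroup.card_eq_one.mp e))
  have := Fact.mk hq
  obtain ⟨x, hx⟩ := exists_prime_orderOf_dvd_card' q hqd
  have hxG : orderOf (((x : Subgroup.zpowers g) : G)) = q := by
    rw [Subgroup.orderOf_coe, Subgroup.orderOf_coe, hx]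
  obtain ⟨j, hj⟩ := (x : Subgroup.zpowers g).2
  simp only at hj
  have hqn : q ∣ n := hxG ▸ orderOf_dvd_of_mem_zpowers (x : Subgroup.zpowers g).2
  have hqs : q ∣ s := (UniqueFactorizationMonoid.dvd_radical_iff_of_irreducible
    (Nat.irreducible_iff_prime.mpr hq.prime) hn0).mpr hqn
  have hjd : ((n / s : ℕ) : ℤ) ∣ j := by
    have h1 : g ^ (j * (q : ℤ)) = 1 := by
      rw [zpow_mul, hj, zpow_natCast, ← hxG, pow_orderOf_eq_one]
    rw [← orderOf_dvd_iff_zpow_eq_one, ← hn] at h1
    obtain ⟨c, hc⟩ := hqs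
    obtain ⟨w, hw⟩ := h1
    refine ⟨(c : ℤ) * w, mul_right_cancel₀ (Int.natCast_ne_zero.mpr hq.ne_zero) ?_⟩
    rw [hw]
    have e : (n : ℤ) = ((n / s : ℕ) : ℤ) * ((q : ℤ) * (c : ℤ)) := by
      rw [← Nat.cast_mul q c, ← hc, ← Nat.cast_mul, Nat.div_mul_cancel hsn]
    rw [e]
    ring
  obtain ⟨w, hw⟩ := hjd
  have hxm : ((x : Subgroup.zpowers g) : G) ∈ Subgroup.zpowers (g ^ (n / s)) :=
    ⟨w, by simp only; rw [← zpow_natCast, ← zpow_mul, ← hw, hj]⟩
  have hbot : (⟨_, hxm⟩ : Subgroup.zpowers (g ^ (n / s))) ∈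
      MulAction.stabilizer (Subgroup.zpowers (g ^ (n / s))) ω := x.2
  rw [hω, Subgroup.mem_bot] at hbot
  rw [show ((x : Subgroup.zpowers g) : G) = 1 from congrArg Subtype.val hbot, orderOf_one] at hxG
  exact hq.one_lt.ne hxG

end Cfsg.Agent.S3511
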