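import Cfsg.Statements.S3514
import Cfsg.Agent.Lib.Recog.Orbit

set_option autoImplicit false
open Cfsg

namespace Cfsg.Agent.S3514

/-- Let p be a prime, V a finite vector space over the field with p elements, and H a group of linear transformations of V all of whose orbits on V have size coprime to p. (i) Every normal subgroup K of H has all its orbits on V of size coprime to p. (ii) If N is a group of linear transformations of V of order coprime to p that is normalized by H, then the group generated by N and H has all its orbits on V of size coprime to p. -/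
theorem result (p : ℕ) [Fact p.Prime] {V : Type*} [AddCommGroup V] [Module (ZMod p) V] [Finite V]
    (H : Subgroup (V ≃ₗ[ZMod p] V)) (hH : ∀ v : V, ¬ p ∣ Nat.card {u : V | ∃ h ∈ H, h v = u}) :
    (∀ K : Subgroup (V ≃ₗ[ZMod p] V), K ≤ H → H ≤ Subgroup.normalizer (K : Set (V ≃ₗ[ZMod p] V)) →
        ∀ v : V, ¬ p ∣ Nat.card {u : V | ∃ k ∈ K, k v = u}) ∧
    (∀ N : Subgroup (V ≃ₗ[ZMod p] V), ¬ p ∣ Nat.card N → H ≤ Subgroup.normalizer (N : Set (V ≃ₗ[ZMod p] V)) →
        ∀ v : V, ¬ p ∣ Nat.card {u : V | ∃ x ∈ N ⊔ H, x v = u}) := by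
  classical
  have hp : p.Prime := Fact.out
  have : Finite (V ≃ₗ[ZMod p] V) := DFunLike.finite _
  have horb : ∀ (K : Subgroup (V ≃ₗ[ZMod p] V)) (v : V),
      Nat.card {u : V | ∃ k ∈ K, k v = u} = (MulAction.stabilizer K v).index := fun K v => by
    rw [MulAction.index_stabilizer, Nat.card_coe_set_eq]
    congr 1
    ext u
    exact ⟨fun ⟨k, hk, h⟩ => ⟨⟨k, hk⟩, h⟩, fun ⟨⟨k, hk⟩, h⟩ => ⟨k, hk, h⟩⟩
  have hst : ∀ (K : Subgroup (V ≃ₗ[ZMod p] V)) (v : V),
      MulAction.stabilizer K v = (MulAction.stabilizer (V ≃ₗ[ZMod p] V) v).subgroupOf K := fun K v => rfl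
  refine ⟨fun K hKH hn v hpd => hH v ?_, fun N hN hn v hpd => ?_⟩
  · rw [horb, hst] at hpd
    rw [horb, hst]
    refine dvd_trans hpd ?_
    set A := MulAction.stabilizer (V ≃ₗ[ZMod p] V) v
    have hAH : A.relIndex H = (A ⊓ H).relIndex H := (Subgroup.inf_relIndex_right A H).symm
    show A.relIndex K ∣ A.relIndex H
    have hnorm : A ⊓ H ≤ Subgroup.normalizer (K : Set (V ≃ₗ[ZMod p] V)) := inf_le_right.trans hn
    calc A.relIndex K = (A ⊓ H).relIndex K := by
          rw [← Subgroup.inf_relIndex_right A K, ← Subgroup.inf_relIndex_right (A ⊓ H) K, inf_assoc,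
            inf_eq_right.mpr hKH]
      _ = (A ⊓ H).relIndex ((A ⊓ H) ⊔ K) := (Cfsg.Lib.Recog.Orbit.relIndex_sup_left _ _ hnorm).symm
      _ ∣ (A ⊓ H).relIndex H := ⟨((A ⊓ H) ⊔ K).relIndex H,
          (Subgroup.relIndex_mul_relIndex _ _ _ le_sup_left (sup_le inf_le_right hKH)).symm⟩
      _ = A.relIndex H := hAH.symm
  · rw [horb, hst] at hpd
    set A := MulAction.stabilizer (V ≃ₗ[ZMod p] V) v
    have hpd' : p ∣ (A ⊓ H).relIndex (N ⊔ H) := by
      refine dvd_trans (show p ∣ A.relIndex (N ⊔ H) from hpd) ?_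
      rw [← Subgroup.inf_relIndex_right A (N ⊔ H)]
      exact ⟨(A ⊓ H).relIndex (A ⊓ (N ⊔ H)), (mul_comm _ _).trans (Subgroup.relIndex_mul_relIndex _ _ _
        (inf_le_inf_left _ le_sup_right) inf_le_right) |>.symm⟩
    rw [← Subgroup.relIndex_mul_relIndex (A ⊓ H) H (N ⊔ H) inf_le_right le_sup_right] at hpd'
    rcases hp.dvd_mul.mp hpd' with h | h
    · rw [Subgroup.inf_relIndex_right] at h
      refine hH v ?_
      rw [horb, hst]
      exact h
    · refine hN (h.trans ?_)
      rw [sup_comm, Cfsg.Lib.Recog.Orbit.relIndex_sup_left _ _ hn]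
      exact Subgroup.relIndex_dvd_card H N

end Cfsg.Agent.S3514
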