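import Cfsg.Statements.S3515
import Mathlib

set_option autoImplicit false
open Cfsg

namespace Cfsg.Agent.S3515

theorem four_points : ∀ x : Fin 2 → ZMod 2, x = 0 ∨ x = Pi.single 0 1 ∨ x = Pi.single 1 1 ∨ x = 1 := by decide

theorem four_ne : (1 : Fin 2 → ZMod 2) ≠ 0 ∧ (1 : Fin 2 → ZMod 2) ≠ Pi.single 0 1 ∧ (1 : Fin 2 → ZMod 2) ≠ Pi.single 1 1 := by decide

/-- Every primitive affine permutation group of degree p² is 3-closed. Let p be a prime and G a group of permutations of the plane V = F_p² consisting of affine maps x ↦ Ax + b, containing all translations, and acting primitively on V. Then any permutation σ of V that agrees on every triple of points with some element of G (σ preserves every G-orbit on ordered triples) already lies in G. -/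
theorem result (p : ℕ) [Fact p.Prime] (G : Subgroup (Equiv.Perm (Fin 2 → ZMod p)))
    (haff : (G : Set (Equiv.Perm (Fin 2 → ZMod p))) ⊆ {τ : Equiv.Perm (Fin 2 → ZMod p) | ∃ (A : (Fin 2 → ZMod p) ≃ₗ[ZMod p] (Fin 2 → ZMod p)) (b : Fin 2 → ZMod p), ∀ x, τ x = A x + b})
    (htrans : ∀ b : Fin 2 → ZMod p, ∃ g ∈ G, ∀ x, g x = x + b) (hprim : MulAction.IsPreprimitive G (Fin 2 → ZMod p))
    (σ : Equiv.Perm (Fin 2 → ZMod p)) (hσ : (∀ t : Fin 3 → (Fin 2 → ZMod p), ∃ g ∈ G, ∀ i, σ (t i) = g (t i))) : σ ∈ G := by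
  classical
  have hp' : p.Prime := Fact.out
  by_cases hp : p = 2
  · subst hp
    obtain ⟨g, hg, hgt⟩ := hσ ![0, Pi.single 0 1, Pi.single 1 1]
    have e0 : σ 0 = g 0 := hgt 0
    have e1 : σ (Pi.single 0 1) = g (Pi.single 0 1) := hgt 1
    have e2 : σ (Pi.single 1 1) = g (Pi.single 1 1) := hgt 2
    have hcases := four_points
    have ne0 := four_ne.1
    have ne1 := four_ne.2.1
    have ne2 := four_ne.2.2
    have : σ = g := by
      have hfix : g⁻¹ * σ = 1 := by
        ext1 x
        set τ := g⁻¹ * σ with hτ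
        have f0 : τ 0 = 0 := by simp [hτ, e0]
        have f1 : τ (Pi.single 0 1) = Pi.single 0 1 := by simp [hτ, e1]
        have f2 : τ (Pi.single 1 1) = Pi.single 1 1 := by simp [hτ, e2]
        rcases hcases x with rfl | rfl | rfl | rfl
        · exact f0
        · exact f1
        · exact f2
        · rcases hcases (τ 1) with h | h | h | h
          · exact absurd (τ.injective (h.trans f0.symm)) ne0
          · exact absurd (τ.injective (h.trans f1.symm)) ne1
          · exact absurd (τ.injective (h.trans f2.symm)) ne2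
          · exact h
      exact (inv_mul_eq_one.mp hfix).symm
    rw [this]
    exact hg
  have h2 : (2 : ZMod p) ≠ 0 := by
    intro h
    have : (p : ℕ) ∣ 2 := (ZMod.natCast_eq_zero_iff 2 p).mp (by exact_mod_cast h)
    exact hp ((Nat.prime_dvd_prime_iff_eq hp' Nat.prime_two).mp this)
  set f : (Fin 2 → ZMod p) → (Fin 2 → ZMod p) := fun x => σ x - σ 0 with hf
  have haffg : ∀ x y : Fin 2 → ZMod p, ∃ A : (Fin 2 → ZMod p) ≃ₗ[ZMod p] (Fin 2 → ZMod p), f x = A x ∧ f y = A y := by
    intro x y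
    obtain ⟨g, hg, hgt⟩ := hσ ![0, x, y]
    obtain ⟨A, b, hAb⟩ := haff hg
    have e0 : σ 0 = g 0 := hgt 0
    have e1 : σ x = g x := hgt 1
    have e2 : σ y = g y := hgt 2
    refine ⟨A, ?_, ?_⟩ <;> simp only [hf, e0, e1, e2, hAb, map_zero] <;> abel
  have hscal : ∀ (c : ZMod p) x, f (c • x) = c • f x := by
    intro c x
    obtain ⟨A, h1, h2⟩ := haffg x (c • x)
    rw [h2, map_smul, ← h1]
  have hadd : ∀ x y, f (x + y) = f x + f y := fun x y => by
    obtain ⟨g, hg, hgt⟩ := hσ ![x, y, (2 : ZMod p)⁻¹ • (x + y)]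
    obtain ⟨A, b, hAb⟩ := haff hg
    have e0 : σ x = g x := hgt 0
    have e1 : σ y = g y := hgt 1
    have e2 : σ ((2 : ZMod p)⁻¹ • (x + y)) = g ((2 : ZMod p)⁻¹ • (x + y)) := hgt 2
    have : f ((2 : ZMod p)⁻¹ • (x + y)) = (2 : ZMod p)⁻¹ • (f x + f y) := by
      simp only [hf, e0, e1, e2, hAb, map_smul, map_add]
      funext i
      simp only [Pi.smul_apply, Pi.add_apply, Pi.sub_apply, smul_eq_mul]
      field_simp
      ring
    rw [hscal] at this
    exact smul_right_injective _ (inv_ne_zero h2) this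
  obtain ⟨g, hg, hgt⟩ := hσ ![0, Pi.single 0 1, Pi.single 1 1]
  obtain ⟨A, b, hAb⟩ := haff hg
  have e0 : σ 0 = g 0 := hgt 0
  have e1 : σ (Pi.single 0 1) = g (Pi.single 0 1) := hgt 1
  have e2 : σ (Pi.single 1 1) = g (Pi.single 1 1) := hgt 2
  have : σ = g := Equiv.ext fun x => by
    have hx : x = x 0 • Pi.single 0 1 + x 1 • Pi.single 1 1 := by
      funext i; fin_cases i <;> simp
    have hb : g 0 = b := by rw [hAb, map_zero, zero_add]
    have h : f x = A x := by
      conv_lhs => rw [hx, hadd, hscal, hscal]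
      conv_rhs => rw [hx, map_add, map_smul, map_smul]
      simp only [hf, e0, e1, e2, hAb, map_zero]
      abel_nf
    have hfx : σ x - σ 0 = A x := h
    rw [hAb, ← hfx, e0, hb, sub_add_cancel]
  rw [this]
  exact hg

end Cfsg.Agent.S3515
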