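import Cfsg.Statements.S3516
import Mathlib

set_option autoImplicit false
open Cfsg

namespace Cfsg.Agent.S3516

/-- Let p be an odd prime, d ≥ 3, and G a group of affine permutations x ↦ Ax + b of V = F_p^d containing all translations and all maps x ↦ Ax with A of determinant 1. Then the 3-closure of G is the full affine group: a permutation σ of V agrees on every triple of points with some element of G if and only if σ is an affine map. -/
theorem result (p : ℕ) [Fact p.Prime] (hp : p ≠ 2) (d : ℕ) (hd : 3 ≤ d) (G : Subgroup (Equiv.Perm (Fin d → ZMod p)))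
    (haff : (G : Set (Equiv.Perm (Fin d → ZMod p))) ⊆ {τ : Equiv.Perm (Fin d → ZMod p) | ∃ (A : (Fin d → ZMod p) ≃ₗ[ZMod p] (Fin d → ZMod p)) (b : Fin d → ZMod p), ∀ x, τ x = A x + b})
    (htrans : ∀ b : Fin d → ZMod p, ∃ g ∈ G, ∀ x, g x = x + b)
    (hsl : ∀ A : (Fin d → ZMod p) ≃ₗ[ZMod p] (Fin d → ZMod p), LinearMap.det (A : (Fin d → ZMod p) →ₗ[ZMod p] (Fin d → ZMod p)) = 1 → ∃ g ∈ G, ∀ x, g x = A x)
    (σ : Equiv.Perm (Fin d → ZMod p)) :
    (∀ t : Fin 3 → (Fin d → ZMod p), ∃ g ∈ G, ∀ i, σ (t i) = g (t i)) ↔ σ ∈ {τ : Equiv.Perm (Fin d → ZMod p) | ∃ (A : (Fin d → ZMod p) ≃ₗ[ZMod p] (Fin d → ZMod p)) (b : Fin d → ZMod p), ∀ x, τ x = A x + b} := by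
  classical
  have hp' : p.Prime := Fact.out
  have h2 : (2 : ZMod p) ≠ 0 := by
    intro h
    have : (p : ℕ) ∣ 2 := (ZMod.natCast_eq_zero_iff 2 p).mp (by exact_mod_cast h)
    exact hp ((Nat.prime_dvd_prime_iff_eq hp' Nat.prime_two).mp this)
  constructor
  · intro h
    -- the linear part
    set f : (Fin d → ZMod p) → (Fin d → ZMod p) := fun x => σ x - σ 0 with hf
    have haffg : ∀ x y : Fin d → ZMod p, ∃ A : (Fin d → ZMod p) ≃ₗ[ZMod p] (Fin d → ZMod p), f x = A x ∧ f y = A y := by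
      intro x y
      obtain ⟨g, hg, hgt⟩ := h ![0, x, y]
      obtain ⟨A, b, hAb⟩ := haff hg
      have e0 : σ 0 = g 0 := hgt 0
      have e1 : σ x = g x := hgt 1
      have e2 : σ y = g y := hgt 2
      refine ⟨A, ?_, ?_⟩ <;> simp only [hf, e0, e1, e2, hAb, map_zero] <;> abel
    have hscal : ∀ (c : ZMod p) x, f (c • x) = c • f x := by
      intro c x
      obtain ⟨A, h1, h2⟩ := haffg x (c • x)
      rw [h2, map_smul, ← h1]
    have hmid : ∀ x y : Fin d → ZMod p, f ((2 : ZMod p)⁻¹ • (x + y)) = (2 : ZMod p)⁻¹ • (f x + f y) := by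
      intro x y
      obtain ⟨g, hg, hgt⟩ := h ![x, y, (2 : ZMod p)⁻¹ • (x + y)]
      obtain ⟨A, b, hAb⟩ := haff hg
      have e0 : σ x = g x := hgt 0
      have e1 : σ y = g y := hgt 1
      have e2 : σ ((2 : ZMod p)⁻¹ • (x + y)) = g ((2 : ZMod p)⁻¹ • (x + y)) := hgt 2
      simp only [hf, e0, e1, e2, hAb, map_smul, map_add]
      funext i
      simp only [Pi.smul_apply, Pi.add_apply, Pi.sub_apply, smul_eq_mul]
      field_simp
      ring
    have hadd : ∀ x y, f (x + y) = f x + f y := fun x y => by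
      have := hmid x y
      rw [hscal] at this
      exact smul_right_injective _ (inv_ne_zero h2) this
    let L : (Fin d → ZMod p) →ₗ[ZMod p] (Fin d → ZMod p) := { toFun := f, map_add' := hadd, map_smul' := hscal }
    have hL : Function.Bijective L := ⟨fun a b e => σ.injective (sub_left_injective e), fun y =>
      ⟨σ.symm (y + σ 0), show σ (σ.symm (y + σ 0)) - σ 0 = y by rw [Equiv.apply_symm_apply, add_sub_cancel_right]⟩⟩
    exact ⟨LinearEquiv.ofBijective L hL, σ 0, fun x => show σ x = (σ x - σ 0) + σ 0 by rw [sub_add_cancel]⟩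
  · rintro ⟨A, b, hAb⟩ t
    -- adjust the determinant away from the three points
    set W := Submodule.span (ZMod p) (Set.range ![t 1 - t 0, t 2 - t 0]) with hW
    have hWne : W ≠ ⊤ := by
      intro e
      have h1 := finrank_range_le_card (R := ZMod p) ![t 1 - t 0, t 2 - t 0]
      have h2 : Module.finrank (ZMod p) W = d := by rw [e, finrank_top, Module.finrank_fin_fun]
      rw [Set.finrank, ← hW, h2, Fintype.card_fin] at h1
      omega
    obtain ⟨φ, hφ0, hWφ⟩ := Submodule.exists_le_ker_of_lt_top W (lt_top_iff_ne_top.mpr hWne)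
    obtain ⟨v, hv⟩ : ∃ v, φ v = 1 := by
      obtain ⟨u, hu⟩ : ∃ u, φ u ≠ 0 := by
        by_contra hall
        push Not at hall
        exact hφ0 (LinearMap.ext hall)
      exact ⟨(φ u)⁻¹ • u, by simp [hu]⟩
    set δ : ZMod p := (LinearEquiv.det A : (ZMod p)ˣ)⁻¹.val with hδ
    let D : (Fin d → ZMod p) →ₗ[ZMod p] (Fin d → ZMod p) := LinearMap.id + ((δ - 1) • φ).smulRight v
    have hD : LinearMap.det D = δ := by
      rw [show D = LinearMap.transvection ((δ - 1) • φ) v from LinearMap.ext fun _ => rfl, LinearMap.transvection.det]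
      simp [hv]
    have hD0 : LinearMap.det D ≠ 0 := by rw [hD, hδ]; exact Units.ne_zero _
    let De := LinearMap.equivOfDetNeZero D hD0
    have hDw : ∀ w ∈ W, De w = w := fun w hw => by
      show D w = w
      simp [D, LinearMap.mem_ker.mp (hWφ hw)]
    obtain ⟨g₀, hg₀, hg₀x⟩ := hsl (De.trans A) (by
      show LinearMap.det ((A : (Fin d → ZMod p) →ₗ[ZMod p] (Fin d → ZMod p)) ∘ₗ D) = 1
      rw [LinearMap.det_comp, hD, hδ, ← LinearEquiv.coe_det, Units.mul_inv])
    obtain ⟨τ, hτ, hτx⟩ := htrans (σ (t 0) - g₀ (t 0))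
    refine ⟨τ * g₀, G.mul_mem hτ hg₀, fun i => ?_⟩
    rw [Equiv.Perm.mul_apply, hτx, hg₀x, hg₀x, hAb, hAb, LinearEquiv.trans_apply, LinearEquiv.trans_apply]
    have hi : De (t i - t 0) = t i - t 0 := by
      refine hDw _ ?_
      fin_cases i
      · simp
      · exact Submodule.subset_span ⟨0, rfl⟩
      · exact Submodule.subset_span ⟨1, rfl⟩
    have e := congrArg A hi
    rw [map_sub, map_sub, map_sub] at e
    linear_combination (norm := abel) -e

end Cfsg.Agent.S3516
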