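import Cfsg.Statements.S3517
import Cfsg.Agent.Lib.Recog.AffineSpace

set_option autoImplicit false
open Cfsg

namespace Cfsg.Agent.S3517

/-- For d ≥ 3, the 3-closure of the affine group AGL_d(2) acting on F_2^d is the full symmetric group: every permutation of F_2^d agrees on every ordered triple of points with some affine map (AGL_d(2) is 3-transitive). -/
theorem result (d : ℕ) (hd : 3 ≤ d) (σ : Equiv.Perm (Fin d → ZMod 2)) (t : Fin 3 → (Fin d → ZMod 2)) :
    ∃ (A : (Fin d → ZMod 2) ≃ₗ[ZMod 2] (Fin d → ZMod 2)) (b : Fin d → ZMod 2), ∀ i, σ (t i) = A (t i) + b := by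
  classical
  have hz : ∀ c : ZMod 2, c = 0 ∨ c = 1 := by decide
  have hch : ∀ v : Fin d → ZMod 2, v + v = 0 := fun v => by
    funext i
    show v i + v i = 0
    rcases hz (v i) with h | h <;> rw [h] <;> decide
  -- independence of two distinct non-zero vectors
  have hind : ∀ a b : Fin d → ZMod 2, a ≠ 0 → b ≠ 0 → a ≠ b → LinearIndependent (ZMod 2) ![a, b] := by
    intro a b ha hb hab
    rw [linearIndependent_fin2]
    refine ⟨hb, fun c => ?_⟩
    rcases hz c with rfl | rfl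
    · simpa using ha.symm
    · simpa using hab.symm
  have hone : ∀ a b : Fin d → ZMod 2, a ≠ 0 → b ≠ 0 → ∃ A : (Fin d → ZMod 2) ≃ₗ[ZMod 2] (Fin d → ZMod 2), A a = b :=
    fun a b ha hb => by
      obtain ⟨A, hA⟩ := Cfsg.Lib.Recog.AffineSpace.exists_equiv (v := ![a]) (w := ![b])
        ((linearIndependent_unique_iff (R := ZMod 2) (v := ![a])).mpr (by simpa using ha)) ((linearIndependent_unique_iff (R := ZMod 2) (v := ![b])).mpr (by simpa using hb))
      exact ⟨A, hA 0⟩
  obtain ⟨A, hA1, hA2⟩ : ∃ A : (Fin d → ZMod 2) ≃ₗ[ZMod 2] (Fin d → ZMod 2),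
      A (t 1 - t 0) = σ (t 1) - σ (t 0) ∧ A (t 2 - t 0) = σ (t 2) - σ (t 0) := by
    have hσ : ∀ a b, σ a - σ b = 0 ↔ a - b = 0 := fun a b => by
      rw [sub_eq_zero, sub_eq_zero]; exact σ.injective.eq_iff
    by_cases h1 : t 1 - t 0 = 0
    · by_cases h2 : t 2 - t 0 = 0
      · refine ⟨LinearEquiv.refl _ _, ?_, ?_⟩
        · simp [h1, (hσ _ _).mpr h1]
        · simp [h2, (hσ _ _).mpr h2]
      · obtain ⟨A, hA⟩ := hone _ _ h2 (fun e => h2 ((hσ _ _).mp e))
        exact ⟨A, by rw [h1, map_zero, (hσ _ _).mpr h1], hA⟩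
    · by_cases h2 : t 2 - t 0 = 0
      · obtain ⟨A, hA⟩ := hone _ _ h1 (fun e => h1 ((hσ _ _).mp e))
        exact ⟨A, hA, by rw [h2, map_zero, (hσ _ _).mpr h2]⟩
      · by_cases h3 : t 1 = t 2
        · obtain ⟨A, hA⟩ := hone _ _ h1 (fun e => h1 ((hσ _ _).mp e))
          exact ⟨A, hA, by rw [← h3]; exact hA⟩
        · obtain ⟨A, hA⟩ := Cfsg.Lib.Recog.AffineSpace.exists_equiv (K := ZMod 2) (V := Fin d → ZMod 2)
            (hind _ _ h1 h2 (fun e => h3 (by simpa using e)))
            (hind _ _ (fun e => h1 ((hσ _ _).mp e)) (fun e => h2 ((hσ _ _).mp e))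
              (fun e => h3 (σ.injective (by simpa using e))))
          exact ⟨A, hA 0, hA 1⟩
  refine ⟨A, σ (t 0) - A (t 0), fun i => ?_⟩
  fin_cases i
  · simp
  · show σ (t 1) = A (t 1) + _
    rw [map_sub] at hA1
    linear_combination (norm := abel) -hA1
  · show σ (t 2) = A (t 2) + _
    rw [map_sub] at hA2
    linear_combination (norm := abel) -hA2

end Cfsg.Agent.S3517
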