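import Cfsg.Statements.S3518
import Cfsg.Agent.Lib.Recog.AffineLine

set_option autoImplicit false
open Cfsg

namespace Cfsg.Agent.S3518

/-- Closures of subgroups of the one-dimensional affine group. Let p be a prime and G a group of permutations of F_p lying in the affine group AGL₁(p) = {x ↦ ax + b, a ≠ 0} and containing all translations. (1) If G is a proper subgroup of AGL₁(p), then G is 2-closed: a permutation of F_p agreeing on every ordered pair of points with some element of G lies in G. (2) Every permutation of F_p agrees on every ordered pair with some element of AGL₁(p) (the 2-closure of AGL₁(p) is the symmetric group). (3) AGL₁(p) is 3-closed: a permutation agreeing on every ordered triple with some affine map is affine. -/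
theorem result (p : ℕ) [Fact p.Prime] (G : Subgroup (Equiv.Perm (ZMod p))) (hG : G ≤ Cfsg.affineGroup (ZMod p))
    (htrans : ∀ b : ZMod p, ∃ g ∈ G, ∀ x, g x = x + b) :
    (G ≠ Cfsg.affineGroup (ZMod p) → ∀ σ : Equiv.Perm (ZMod p), (∀ t : Fin 2 → ZMod p, ∃ g ∈ G, ∀ i, σ (t i) = g (t i)) → σ ∈ G) ∧
    (∀ σ : Equiv.Perm (ZMod p), (∀ t : Fin 2 → ZMod p, ∃ g ∈ Cfsg.affineGroup (ZMod p), ∀ i, σ (t i) = g (t i))) ∧
    (∀ σ : Equiv.Perm (ZMod p), (∀ t : Fin 3 → ZMod p, ∃ g ∈ Cfsg.affineGroup (ZMod p), ∀ i, σ (t i) = g (t i)) → σ ∈ Cfsg.affineGroup (ZMod p)) := by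
  classical
  have hp : p.Prime := Fact.out
  -- multipliers
  have haffτ : ∀ σ : Equiv.Perm (ZMod p), σ ∈ Cfsg.affineGroup (ZMod p) → ∀ a b : ZMod p, ∀ x, σ x - σ a = (σ b - σ a) / (b - a) * (x - a) ∨ a = b := by
    rintro σ ⟨u, v, h⟩ a b x
    by_cases hab : a = b
    · exact Or.inr hab
    refine Or.inl ?_
    have hne : b - a ≠ 0 := sub_ne_zero.mpr (Ne.symm hab)
    rw [h, h, h]
    field_simp
    ring
  have h2t : ∀ a b c d : ZMod p, a ≠ b → c ≠ d → ∃ g ∈ Cfsg.affineGroup (ZMod p), g a = c ∧ g b = d := by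
    intro a b c d hab hcd
    have hne : b - a ≠ 0 := sub_ne_zero.mpr (Ne.symm hab)
    set u : (ZMod p)ˣ := Units.mk0 ((d - c) / (b - a)) (div_ne_zero (sub_ne_zero.mpr (Ne.symm hcd)) hne) with hu
    refine ⟨(Equiv.mulLeft₀ (u : ZMod p) u.ne_zero).trans (Equiv.addRight (c - (u : ZMod p) * a)),
      ⟨u, c - (u : ZMod p) * a, fun x => rfl⟩, ?_, ?_⟩
    · show (u : ZMod p) * a + (c - (u : ZMod p) * a) = c
      ring
    · show (u : ZMod p) * b + (c - (u : ZMod p) * a) = d
      rw [show (u : ZMod p) * b + (c - (u : ZMod p) * a) = (u : ZMod p) * (b - a) + c by ring, hu, Units.val_mk0,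
        div_mul_cancel₀ _ hne]
      ring
  refine ⟨fun hne σ hσ => ?_, fun σ t => ?_, fun σ hσ => ?_⟩
  · exact Cfsg.Lib.Recog.AffineLine.mem_of_two_closed G hG htrans hne σ hσ
  · by_cases h : t 0 = t 1
    · obtain ⟨g, hg, hga, -⟩ := h2t (t 0) (t 0 + 1) (σ (t 0)) (σ (t 0) + 1) (by simp) (by simp)
      exact ⟨g, hg, fun i => by fin_cases i <;> simp [← h, hga]⟩
    · obtain ⟨g, hg, hga, hgb⟩ := h2t (t 0) (t 1) (σ (t 0)) (σ (t 1)) h (fun e => h (σ.injective e))
      exact ⟨g, hg, fun i => by fin_cases i <;> simp [hga, hgb]⟩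
  · obtain ⟨g₀, hg₀, hg0, hg1⟩ := h2t 0 1 (σ 0) (σ 1) zero_ne_one (fun e => zero_ne_one (σ.injective e))
    have : σ = g₀ := Equiv.ext fun x => by
      obtain ⟨g, hg, hgt⟩ := hσ ![0, 1, x]
      have e0 : σ 0 = g 0 := hgt 0
      have e1 : σ 1 = g 1 := hgt 1
      have e2 : σ x = g x := hgt 2
      have A := (haffτ g hg 0 1 x).resolve_right zero_ne_one
      have B := (haffτ g₀ hg₀ 0 1 x).resolve_right zero_ne_one
      rw [← e0, ← e1, ← e2] at A
      rw [hg0, hg1] at B
      linear_combination A - B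
    rw [this]
    exact hg₀

end Cfsg.Agent.S3518
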