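import Cfsg.Statements.S3524
import Mathlib

set_option autoImplicit false
open Cfsg

namespace Cfsg.Agent.S3524

/-- A permutation group with a base is closed at one level above the base size. Let G be a group of permutations of a set Ω and suppose some k points α₁, …, α_k are fixed simultaneously only by the identity of G (a base of size k). Then G is (k+1)-closed: a permutation of Ω that agrees on every (k+1)-tuple of points with some element of G belongs to G. -/
theorem result {Ω : Type*} (G : Subgroup (Equiv.Perm Ω)) (k : ℕ) (α : Fin k → Ω)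
    (hbase : ∀ g ∈ G, (∀ i, g (α i) = α i) → g = 1) (σ : Equiv.Perm Ω)
    (hσ : ∀ t : Fin (k + 1) → Ω, ∃ g ∈ G, ∀ i, σ (t i) = g (t i)) : σ ∈ G := by
  classical
  rcases isEmpty_or_nonempty Ω with h | h
  · have : σ = 1 := Equiv.ext fun x => (IsEmpty.false x).elim
    rw [this]; exact G.one_mem
  choose g hg hgt using fun x : Ω => hσ (Fin.snoc α x)
  have hα : ∀ x i, σ (α i) = g x (α i) := fun x i => by
    have := hgt x i.castSucc
    rwa [Fin.snoc_castSucc] at this
  have heq : ∀ x y, g x = g y := by
    intro x y
    have h1 := hbase ((g x)⁻¹ * g y) (G.mul_mem (G.inv_mem (hg x)) (hg y)) fun i => by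
      rw [Equiv.Perm.mul_apply, ← hα y i, hα x i]
      exact (g x).symm_apply_apply _
    exact inv_mul_eq_one.mp h1
  obtain ⟨x₀⟩ := h
  have : σ = g x₀ := Equiv.ext fun x => by
    have := hgt x (Fin.last k)
    rw [Fin.snoc_last, heq x x₀] at this
    exact this
  rw [this]
  exact hg x₀

end Cfsg.Agent.S3524
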