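import Cfsg.Statements.S3532
import Cfsg.Agent.Lib.Recog.PSLTwoSpectrum
-- import your own Cfsg.Agent.* helpers here

set_option autoImplicit false
open Cfsg

namespace Cfsg.Agent.S3532

open Cfsg.Lib.Recog.PSLTwoSpectrum

section
variable {K : Type} [Field K] [Finite K]

/-- Multiplication by units. -/
def act (U : Subgroup Kˣ) : U →* MulAut (Multiplicative K) where
  toFun u :=
    { toFun := fun v => Multiplicative.ofAdd (((u : Kˣ) : K) * v.toAdd)
      invFun := fun v => Multiplicative.ofAdd ((((u : Kˣ)⁻¹ : Kˣ) : K) * v.toAdd)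
      left_inv := fun v => by simp [← mul_assoc]
      right_inv := fun v => by simp [← mul_assoc]
      map_mul' := fun v w => by simp [mul_add] }
  map_one' := by ext v; simp
  map_mul' u w := by ext v; simp [mul_assoc]

abbrev Aff (U : Subgroup Kˣ) : Type := SemidirectProduct (Multiplicative K) U (act U)

theorem pow_left (U : Subgroup Kˣ) (a : Aff U) (n : ℕ) :
    (a ^ n).left.toAdd * (((a.right : Kˣ) : K) - 1) = a.left.toAdd * (((a.right : Kˣ) : K) ^ n - 1) ∧
      (a ^ n).right = a.right ^ n := by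
  induction n with
  | zero => simp
  | succ n ih =>
    rw [pow_succ']
    refine ⟨?_, by rw [SemidirectProduct.mul_right, ih.2, pow_succ']⟩
    rw [SemidirectProduct.mul_left, show ((act U) a.right) (a ^ n).left =
      Multiplicative.ofAdd (((a.right : Kˣ) : K) * (a ^ n).left.toAdd) from rfl, toAdd_mul, toAdd_ofAdd, pow_succ']
    linear_combination (((a.right : Kˣ) : K)) * ih.1

theorem range_aff (p : ℕ) [Fact p.Prime] [CharP K p] (U : Subgroup Kˣ) :
    Finite (Aff U) ∧ Group.IsSolvable (Aff U) ∧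
      Set.range (orderOf : Aff U → ℕ) = {n | n = p ∨ n ∣ Nat.card U} := by
  classical
  refine ⟨Finite.of_equiv _ SemidirectProduct.equivProd.symm, ?_, ?_⟩
  · exact solvable_of_ker_le_range (SemidirectProduct.inl (φ := act U)) (SemidirectProduct.rightHom (φ := act U))
      (by rw [SemidirectProduct.range_inl_eq_ker_rightHom])
  have hcyc : IsCyclic U := inferInstance
  ext n
  constructor
  · rintro ⟨a, rfl⟩
    by_cases hu : a.right = 1
    · have hpk : ∀ k : ℕ, (a ^ k).left.toAdd = (k : K) * a.left.toAdd := by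
        intro k
        induction k with
        | zero => simp
        | succ k ih =>
          rw [pow_succ', SemidirectProduct.mul_left, hu, map_one, MulAut.one_apply, toAdd_mul, ih]
          push_cast; ring
      have h : a ^ p = 1 := by
        refine SemidirectProduct.ext ?_ ?_
        · refine Multiplicative.toAdd.injective ?_
          rw [hpk, CharP.cast_eq_zero, zero_mul]; rfl
        · rw [(pow_left U a p).2, hu, one_pow]; rfl
      rcases (Nat.dvd_prime Fact.out).1 (orderOf_dvd_of_pow_eq_one h) with h | h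
      · exact Or.inr (by rw [h]; exact one_dvd _)
      · exact Or.inl h
    · refine Or.inr (orderOf_dvd_of_pow_eq_one ?_)
      have hc : a.right ^ Nat.card U = 1 := pow_card_eq_one'
      obtain ⟨h1, h2⟩ := pow_left U a (Nat.card U)
      refine SemidirectProduct.ext (Multiplicative.toAdd.injective ?_) (h2.trans hc)
      have hcK : ((a.right : Kˣ) : K) ^ Nat.card U = 1 := by
        rw [← Units.val_pow_eq_pow_val, ← Subgroup.coe_pow, hc]; rfl
      rw [hcK, sub_self, mul_zero] at h1
      refine (mul_eq_zero.1 h1).resolve_right (sub_ne_zero.2 fun h => hu ?_)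
      exact Subtype.ext (Units.ext h)
  · rintro (rfl | h)
    · refine ⟨SemidirectProduct.inl (Multiplicative.ofAdd 1), ?_⟩
      rw [orderOf_injective _ SemidirectProduct.inl_injective, orderOf_ofAdd_eq_addOrderOf]
      exact CharP.eq K (CharP.addOrderOf_one K) inferInstance ▸ rfl
    · obtain ⟨g, hg⟩ := IsCyclic.exists_ofOrder_eq_natCard (α := U)
      refine ⟨SemidirectProduct.inr (g ^ (orderOf g / n)), ?_⟩
      rw [orderOf_injective _ SemidirectProduct.inr_injective]
      exact orderOf_pow_orderOf_div (orderOf_pos g).ne' (hg ▸ h)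

theorem exists_units_card (d : ℕ) (hd : d ∣ Nat.card Kˣ) : ∃ U : Subgroup Kˣ, Nat.card U = d := by
  obtain ⟨g, hg⟩ := IsCyclic.exists_ofOrder_eq_natCard (α := Kˣ)
  exact ⟨Subgroup.zpowers (g ^ (orderOf g / d)), by
    rw [Nat.card_zpowers, orderOf_pow_orderOf_div (orderOf_pos g).ne' (hg ▸ hd)]⟩

end

/-- Let q ≥ 4 be a prime power and L = PSL(2,q). There is a finite solvable group with the same set of element orders as L × L (so L × L is not determined by its spectrum). -/
theorem result {F : Type*} [Field F] [Fintype F] (hF : 4 ≤ Fintype.card F) :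
    ∃ (H : Type) (_ : Group H) (_ : Finite H), Group.IsSolvable H ∧
      Set.range (orderOf : H → ℕ) = Set.range (orderOf : Matrix.ProjectiveSpecialLinearGroup (Fin 2) F × Matrix.ProjectiveSpecialLinearGroup (Fin 2) F → ℕ) := by
  classical
  obtain ⟨p, hchar⟩ := CharP.exists F
  obtain ⟨n, hp, hn⟩ := FiniteField.card F p
  haveI := Fact.mk hp
  set m : ℕ := (n : ℕ)
  have hm : m ≠ 0 := n.ne_zero
  have hc1 : Nat.card (GaloisField p m) = p ^ m := GaloisField.card p m hm
  have hc2 : Nat.card (GaloisField p (2 * m)) = p ^ (2 * m) := GaloisField.card p (2 * m) (by omega)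
  set A := (Fintype.card F - 1) / kk (Fintype.card F) with hA
  set B := (Fintype.card F + 1) / kk (Fintype.card F) with hB
  obtain ⟨U, hU⟩ := exists_units_card (K := GaloisField p m) A (by
    rw [Nat.card_units, hc1, ← hn]
    exact Nat.div_dvd_of_dvd kk_dvd.1)
  obtain ⟨W, hW⟩ := exists_units_card (K := GaloisField p (2 * m)) B (by
    rw [Nat.card_units, hc2, mul_comm 2 m, pow_mul, ← hn]
    refine (Nat.div_dvd_of_dvd kk_dvd.2).trans ⟨Fintype.card F - 1, ?_⟩
    rw [← Nat.sq_sub_sq, one_pow])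
  obtain ⟨hf1, hs1, hr1⟩ := range_aff p U
  obtain ⟨hf2, hs2, hr2⟩ := range_aff p W
  rw [hU] at hr1
  rw [hW] at hr2
  refine ⟨Aff U × Aff W, inferInstance, inferInstance, inferInstance, ?_⟩
  have hR := range_orderOf (F := F) p
  rw [← hA, ← hB] at hR
  ext r
  constructor
  · rintro ⟨⟨x, y⟩, rfl⟩
    have hx : orderOf x ∈ Set.range (orderOf : Aff U → ℕ) := ⟨x, rfl⟩
    have hy : orderOf y ∈ Set.range (orderOf : Aff W → ℕ) := ⟨y, rfl⟩
    rw [hr1] at hx
    rw [hr2] at hy
    obtain ⟨u, hu⟩ : orderOf x ∈ Set.range (orderOf : Matrix.ProjectiveSpecialLinearGroup (Fin 2) F → ℕ) := by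
      rw [hR]; rcases hx with h | h; exacts [Or.inl h, Or.inr (Or.inl h)]
    obtain ⟨v, hv⟩ : orderOf y ∈ Set.range (orderOf : Matrix.ProjectiveSpecialLinearGroup (Fin 2) F → ℕ) := by
      rw [hR]; rcases hy with h | h; exacts [Or.inl h, Or.inr (Or.inr h)]
    exact ⟨(u, v), by rw [Prod.orderOf, Prod.orderOf, hu, hv]⟩
  · rintro ⟨⟨u, v⟩, rfl⟩
    have mk : ∀ a b : ℕ, (a = p ∨ a ∣ A) → (b = p ∨ b ∣ B) → Nat.lcm a b = orderOf (u, v) →
        orderOf (u, v) ∈ Set.range (orderOf : Aff U × Aff W → ℕ) := by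
      intro a b ha hb h
      obtain ⟨x, hx⟩ : a ∈ Set.range (orderOf : Aff U → ℕ) := by rw [hr1]; exact ha
      obtain ⟨y, hy⟩ : b ∈ Set.range (orderOf : Aff W → ℕ) := by rw [hr2]; exact hb
      exact ⟨(x, y), by rw [← h, Prod.orderOf, hx, hy]⟩
    have hu : orderOf u ∈ Set.range (orderOf : Matrix.ProjectiveSpecialLinearGroup (Fin 2) F → ℕ) := ⟨u, rfl⟩
    have hv : orderOf v ∈ Set.range (orderOf : Matrix.ProjectiveSpecialLinearGroup (Fin 2) F → ℕ) := ⟨v, rfl⟩
    rw [hR] at hu hv
    have e : orderOf (u, v) = Nat.lcm (orderOf u) (orderOf v) := Prod.orderOf _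
    have e' : orderOf (u, v) = Nat.lcm (orderOf v) (orderOf u) := e.trans (Nat.lcm_comm _ _)
    rcases hu with hu | hu | hu <;> rcases hv with hv | hv | hv
    · exact mk _ _ (Or.inl hu) (Or.inl hv) e.symm
    · exact mk _ _ (Or.inr hv) (Or.inl hu) e'.symm
    · exact mk _ _ (Or.inl hu) (Or.inr hv) e.symm
    · exact mk _ _ (Or.inr hu) (Or.inl hv) e.symm
    · exact mk _ 1 (Or.inr (Nat.lcm_dvd hu hv)) (Or.inr (one_dvd _)) (by rw [Nat.lcm_one_right, e])
    · exact mk _ _ (Or.inr hu) (Or.inr hv) e.symm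
    · exact mk _ _ (Or.inl hv) (Or.inr hu) e'.symm
    · exact mk _ _ (Or.inr hv) (Or.inr hu) e'.symm
    · exact mk 1 _ (Or.inr (one_dvd _)) (Or.inr (Nat.lcm_dvd hu hv)) (by rw [Nat.lcm_one_left, e])

end Cfsg.Agent.S3532
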