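import Cfsg.Statements.S3559
import Mathlib
-- import your own Cfsg.Agent.* helpers here

set_option autoImplicit false
open Cfsg

namespace Cfsg.Agent.S3559

variable {G Ω : Type*} [Group G] [MulAction G Ω]

/-- An invariant binary relation, with a point related only to a proper set, gives a block. -/
theorem block_trivial (hprim : MulAction.IsPreprimitive G Ω) (R : Ω → Ω → Prop) (hR : Equivalence R)
    (hinv : ∀ (g : G) x y, R x y → R (g • x) (g • y)) (a b c : Ω) (hab : R a b) (hba : b ≠ a) :
    R a c := by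
  let B : Set Ω := {x | R a x}
  have hB : MulAction.IsBlock G B := by
    rw [MulAction.isBlock_iff_smul_eq_of_mem]
    intro g x hx hgx
    have hga : R a (g • a) := hR.trans hgx (hR.symm (hinv g a x hx))
    ext y
    rw [Set.mem_smul_set_iff_inv_smul_mem]
    show R a (g⁻¹ • y) ↔ R a y
    constructor
    · intro h
      have h1 := hinv g a _ h
      rw [smul_inv_smul] at h1
      exact hR.trans hga h1
    · intro h
      have h1 := hinv g⁻¹ (g • a) y (hR.trans (hR.symm hga) h)
      rwa [inv_smul_smul] at h1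
  rcases hprim.isTrivialBlock_of_isBlock hB with h | h
  · exact absurd (h (x := b) hab (y := a) (hR.refl a)) hba
  · exact show c ∈ B from h ▸ Set.mem_univ c

theorem two_pretransitive [Fintype Ω] [DecidableEq Ω] (hprim : MulAction.IsPreprimitive G Ω) (C : Subgroup G)
    [Fintype C] (hcyc : IsCyclic C) (htr : MulAction.IsPretransitive C Ω)
    (hfree : ∀ a : Ω, MulAction.stabilizer C a = ⊥) (hn : 2 ≤ Fintype.card Ω)
    (hnp : ¬ IsPrimePow (Fintype.card Ω)) (a : Ω) :
    ∀ x y : Ω, x ≠ a → y ≠ a → ∃ g : G, g • a = a ∧ g • x = y := by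
  classical
  have hbij : Function.Bijective (fun c : C => c • a) := by
    refine ⟨fun c d h => ?_, fun ω => htr.exists_smul_eq a ω⟩
    have : d⁻¹ * c ∈ MulAction.stabilizer C a := by
      rw [MulAction.mem_stabilizer_iff, mul_smul, show c • a = d • a from h, inv_smul_smul]
    rw [hfree a, Subgroup.mem_bot] at this
    exact (inv_mul_eq_one.mp this).symm
  let e : C ≃ Ω := Equiv.ofBijective _ hbij
  let ψ : Ω → C := e.symm
  have he : ∀ c : C, ψ ((c : G) • a) = c := fun c => e.symm_apply_apply c
  have hψ : ∀ x : Ω, (ψ x : G) • a = x := fun x => e.apply_symm_apply x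
  have ha1 : ψ a = 1 := by simpa using he 1
  -- invariant sets and their relations
  let Inv : Set C → Prop := fun S => ∀ g : G, g • a = a → ∀ c ∈ S, ψ (g • ((c : G) • a)) ∈ S
  have hrel : ∀ S, Inv S → ∀ (g : G) x y, (ψ x)⁻¹ * ψ y ∈ S → (ψ (g • x))⁻¹ * ψ (g • y) ∈ S := by
    intro S hS g x y h
    have h1 := hS ((ψ (g • x) : G)⁻¹ * g * (ψ x : G))
      (by rw [mul_smul, mul_smul, hψ x, inv_smul_eq_iff, hψ (g • x)]) _ h
    have h2 : ((ψ (g • x) : G)⁻¹ * g * (ψ x : G)) • ((((ψ x)⁻¹ * ψ y : C) : G) • a)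
        = (((ψ (g • x))⁻¹ * ψ (g • y) : C) : G) • a := by
      push_cast
      simp only [mul_smul, smul_inv_smul, hψ y, hψ (g • y)]
    rw [h2, he] at h1
    exact h1
  have hback : ∀ S, Inv S → ∀ (g : G) x y, (ψ (g • x))⁻¹ * ψ (g • y) ∈ S → (ψ x)⁻¹ * ψ y ∈ S := by
    intro S hS g x y h
    simpa using hrel S hS g⁻¹ _ _ h
  -- an invariant set in a proper subgroup is trivial
  have hsub : ∀ (S : Set C) (H : Subgroup C), Inv S → S ⊆ H → H ≠ ⊤ → ∀ s ∈ S, s = 1 := by
    intro S H hS hSH hH s hs
    by_contra hs1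
    obtain ⟨c, hc⟩ : ∃ c : C, c ∉ H := by
      by_contra h; push Not at h; exact hH (eq_top_iff.mpr fun c _ => h c)
    let R : Ω → Ω → Prop := Relation.EqvGen fun x y => (ψ x)⁻¹ * ψ y ∈ S
    have hRinv : ∀ (g : G) x y, R x y → R (g • x) (g • y) := by
      intro g x y h
      induction h with
      | rel x y h => exact Relation.EqvGen.rel _ _ (hrel S hS g x y h)
      | refl x => exact Relation.EqvGen.refl _
      | symm x y _ ih => exact Relation.EqvGen.symm _ _ ih
      | trans x y z _ _ ih ih' => exact Relation.EqvGen.trans _ _ _ ih ih'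
    have hRH : ∀ x y, R x y → (ψ x)⁻¹ * ψ y ∈ H := by
      intro x y h
      induction h with
      | rel x y h => exact hSH h
      | refl x => rw [inv_mul_cancel]; exact H.one_mem
      | symm x y _ ih => simpa using H.inv_mem ih
      | trans x y z _ _ ih ih' => simpa [mul_assoc] using H.mul_mem ih ih'
    have h1 := block_trivial hprim R (Relation.EqvGen.is_equivalence _) hRinv a ((s : G) • a) ((c : G) • a)
      (Relation.EqvGen.rel _ _ (by rw [ha1, he]; simpa using hs))
      (fun h => hs1 (by rw [← he s, h, ha1]))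
    have h2 := hRH _ _ h1
    rw [ha1, he, inv_one, one_mul] at h2
    exact hc h2
  have hcomm : ∀ s t : C, s * t = t * s := fun s t => by
    obtain ⟨g, hg⟩ := hcyc.exists_generator
    obtain ⟨i, rfl⟩ := Subgroup.mem_zpowers_iff.mp (hg s)
    obtain ⟨j, rfl⟩ := Subgroup.mem_zpowers_iff.mp (hg t)
    exact ((Commute.refl g).zpow_zpow i j).eq
  -- coset property
  have hcosets : ∀ (p : ℕ), p.Prime → p ∣ Fintype.card C → ∀ T : Finset C, Inv (T : Set C) →
      ∀ x ∈ T, x ^ p ≠ 1 → ∀ z : C, z ^ p = 1 → x * z ∈ T := by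
    intro p hp hpn T hT x hx hxp z hz
    have : Fact p.Prime := ⟨hp⟩
    have : Nonempty Ω := ⟨a⟩
    let π : C → Matrix Ω Ω (ZMod p) := fun t => Matrix.of fun u v => if ψ v = ψ u * t then 1 else 0
    have hπmul : ∀ s t, π s * π t = π (s * t) := by
      intro s t
      ext u v
      simp only [π, Matrix.mul_apply, Matrix.of_apply]
      rw [Finset.sum_eq_single (e (ψ u * s))]
      · rw [if_pos (e.symm_apply_apply _), one_mul, show ψ (e (ψ u * s)) = ψ u * s from e.symm_apply_apply _,
          mul_assoc]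
      · intro b _ hb
        rw [if_neg (fun h => hb (by rw [← h]; exact (e.apply_symm_apply b).symm)), zero_mul]
      · intro h; exact absurd (Finset.mem_univ _) h
    have hπ1 : π 1 = 1 := by
      ext u v
      simp only [π, Matrix.of_apply, mul_one, Matrix.one_apply]
      by_cases h : u = v
      · simp [h]
      · rw [if_neg h, if_neg (fun h' => h (e.symm.injective h'.symm))]
    let πh : C →* Matrix Ω Ω (ZMod p) := { toFun := π, map_one' := hπ1, map_mul' := fun s t => (hπmul s t).symm }
    have hfrob : ∀ U : Finset C, (∑ t ∈ U, πh t) ^ p = ∑ t ∈ U, πh (t ^ p) := by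
      intro U
      induction U using Finset.induction_on with
      | empty => simp [hp.ne_zero]
      | insert t U ht ih =>
        rw [Finset.sum_insert ht, Finset.sum_insert ht, add_pow_char_of_commute (p := p), ih, map_pow]
        refine Commute.sum_right _ _ _ fun s _ => ?_
        show πh t * πh s = πh s * πh t
        rw [← map_mul, ← map_mul, hcomm]
    let M : Matrix Ω Ω (ZMod p) := ∑ t ∈ T, πh t
    have hM : ∀ u v, M u v = if (ψ u)⁻¹ * ψ v ∈ T then 1 else 0 := by
      intro u v
      simp only [M, Matrix.sum_apply]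
      show ∑ t ∈ T, π t u v = _
      simp only [π, Matrix.of_apply]
      rw [← Finset.sum_ite_eq' T ((ψ u)⁻¹ * ψ v) (fun _ => (1 : ZMod p))]
      refine Finset.sum_congr rfl fun t _ => if_congr ?_ rfl rfl
      constructor
      · intro h; rw [h, inv_mul_cancel_left]
      · intro h; rw [h, mul_inv_cancel_left]
    have hMpow : ∀ (k : ℕ) (g : G) u v, (M ^ k) (g • u) (g • v) = (M ^ k) u v := by
      intro k
      induction k with
      | zero =>
        intro g u v
        simp only [pow_zero, Matrix.one_apply, smul_left_cancel_iff]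
      | succ k ih =>
        intro g u v
        simp only [pow_succ, Matrix.mul_apply]
        refine (Equiv.sum_comp (MulAction.toPerm g) (fun w => (M ^ k) (g • u) w * M w (g • v))).symm.trans ?_
        refine Finset.sum_congr rfl fun w _ => ?_
        show (M ^ k) (g • u) (g • w) * M (g • w) (g • v) = _
        rw [ih, hM, hM]
        congr 1
        exact if_congr ⟨hback _ hT g w v, hrel _ hT g w v⟩ rfl rfl
    have hentry : ∀ c : C, (M ^ p) a ((c : G) • a) = ((T.filter fun t => t ^ p = c).card : ZMod p) := by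
      intro c
      rw [show M ^ p = ∑ t ∈ T, πh (t ^ p) from hfrob T]
      simp only [Matrix.sum_apply]
      show ∑ t ∈ T, π (t ^ p) a _ = _
      simp only [π, Matrix.of_apply, ha1, he, one_mul]
      rw [Finset.sum_boole]
      simp only [eq_comm]
    let E : Set C := {c | (M ^ p) a ((c : G) • a) ≠ 0}
    have hE : Inv E := by
      intro g hga c hc
      show (M ^ p) a ((ψ (g • ((c : G) • a)) : G) • a) ≠ 0
      rw [hψ]
      have h := hMpow p g a ((c : G) • a)
      rw [hga] at h
      rw [h]
      exact hc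
    let φ : C →* C := { toFun := fun c => c ^ p, map_one' := one_pow p,
                        map_mul' := fun u v => (show Commute u v from hcomm u v).mul_pow p }
    let P : Subgroup C := φ.range
    have hEH : E ⊆ P := by
      intro c hc
      have hc' : ((T.filter fun t => t ^ p = c).card : ZMod p) ≠ 0 := by rw [← hentry]; exact hc
      obtain ⟨t, ht⟩ := Finset.card_pos.mp (Nat.pos_of_ne_zero fun h => hc' (by rw [h, Nat.cast_zero]))
      exact ⟨t, (Finset.mem_filter.mp ht).2⟩
    have hHtop : P ≠ ⊤ := by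
      intro h
      obtain ⟨w, hw⟩ := exists_prime_orderOf_dvd_card p hpn
      have hinj := Finite.injective_iff_surjective.mpr (MonoidHom.range_eq_top.mp h)
      have hw1 : w = 1 := hinj (show w ^ p = 1 ^ p by rw [one_pow, ← hw, pow_orderOf_eq_one])
      rw [hw1, orderOf_one] at hw
      exact hp.one_lt.ne hw
    have hzero : ((T.filter fun t => t ^ p = x ^ p).card : ZMod p) = 0 := by
      rw [← hentry]
      by_contra h
      exact hxp (hsub E _ hE hEH hHtop _ h)
    rw [ZMod.natCast_eq_zero_iff] at hzero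
    set F : Finset C := Finset.univ.filter fun t => t ^ p = x ^ p with hF
    have hFT : T.filter (fun t => t ^ p = x ^ p) ⊆ F := fun t ht => by simp [hF, (Finset.mem_filter.mp ht).2]
    have hFcard : F.card ≤ p := by
      refine le_trans ?_ (IsCyclic.card_pow_eq_one_le (α := C) hp.pos)
      refine Finset.card_le_card_of_injOn (fun t => x⁻¹ * t) (fun t ht => ?_) (mul_right_injective _).injOn
      have ht' : t ^ p = x ^ p := by simpa [hF] using ht
      have : Commute x⁻¹ t := hcomm _ _
      simp [this.mul_pow, ht']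
    have hpos : 0 < (T.filter fun t => t ^ p = x ^ p).card :=
      Finset.card_pos.mpr ⟨x, Finset.mem_filter.mpr ⟨hx, rfl⟩⟩
    have hge := Nat.le_of_dvd hpos hzero
    have heq := Finset.eq_of_subset_of_card_le hFT (hFcard.trans hge)
    have hmem : x * z ∈ F := by
      have : Commute x z := hcomm _ _
      simp [hF, this.mul_pow, hz]
    rw [← heq] at hmem
    exact (Finset.mem_filter.mp hmem).1
  -- orbits
  have hCcard : Fintype.card C = Fintype.card Ω := Fintype.card_congr e
  obtain ⟨p, hp, hpn⟩ := Nat.exists_prime_and_dvd (show Fintype.card C ≠ 1 by omega)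
  obtain ⟨r, hr, hrn, hrp⟩ : ∃ r : ℕ, r.Prime ∧ r ∣ Fintype.card C ∧ r ≠ p := by
    by_contra h
    push Not at h
    apply hnp
    rw [← hCcard, isPrimePow_iff_unique_prime_dvd]
    exact ⟨p, ⟨hp, hpn⟩, fun q hq => h q hq.1 hq.2⟩
  have : Fact p.Prime := ⟨hp⟩
  have : Fact r.Prime := ⟨hr⟩
  obtain ⟨z, hz⟩ := exists_prime_orderOf_dvd_card p hpn
  obtain ⟨w, hw⟩ := exists_prime_orderOf_dvd_card r hrn
  have hcross : ∀ (q q' : ℕ), q.Prime → q'.Prime → q ≠ q' → ∀ u : C, u ^ q = 1 → u ^ q' = 1 → u = 1 := by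
    intro q q' hq hq' hne u h1 h2
    have h3 := Nat.dvd_gcd (orderOf_dvd_of_pow_eq_one h1) (orderOf_dvd_of_pow_eq_one h2)
    rw [(Nat.coprime_primes hq hq').mpr hne] at h3
    exact orderOf_eq_one_iff.mp (Nat.dvd_one.mp h3)
  have hzp : z ^ p = 1 := hz ▸ pow_orderOf_eq_one z
  have hwr : w ^ r = 1 := hw ▸ pow_orderOf_eq_one w
  have hw1 : w ≠ 1 := fun h => by rw [h, orderOf_one] at hw; exact hr.one_lt.ne hw
  have hz1 : z ≠ 1 := fun h => by rw [h, orderOf_one] at hz; exact hp.one_lt.ne hz
  have hmem : ∀ T : Finset C, Inv (T : Set C) → (1 : C) ∉ T → T.Nonempty → w * z ∈ T := by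
    intro T hT h1 hne
    obtain ⟨t, ht, htp⟩ : ∃ t ∈ T, t ^ p = 1 := by
      by_contra hno
      push Not at hno
      have hstep : ∀ u : C, u ^ p = 1 → ∀ c ∈ T, u * c ∈ T := by
        intro u hu c hc
        rw [hcomm u c]
        exact hcosets p hp hpn T hT c hc (hno c hc) u hu
      let R : Ω → Ω → Prop := fun x y => ∀ v, (ψ x)⁻¹ * ψ v ∈ T ↔ (ψ y)⁻¹ * ψ v ∈ T
      have hR : Equivalence R := ⟨fun _ _ => Iff.rfl, fun h v => (h v).symm, fun h h' v => (h v).trans (h' v)⟩
      have hRinv : ∀ (g : G) x y, R x y → R (g • x) (g • y) := by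
        intro g x y h v
        rw [show v = g • (g⁻¹ • v) from (smul_inv_smul g v).symm]
        exact ⟨fun h' => hrel _ hT g _ _ ((h _).mp (hback _ hT g _ _ h')),
          fun h' => hrel _ hT g _ _ ((h _).mpr (hback _ hT g _ _ h'))⟩
      obtain ⟨s, hs⟩ := hne
      have hab : R a ((z : G) • a) := by
        intro v
        rw [ha1, he, inv_one, one_mul]
        refine ⟨fun h => hstep z⁻¹ (by rw [inv_pow, hzp, inv_one]) _ h, fun h => ?_⟩
        simpa using hstep z hzp _ h
      have hall := block_trivial hprim R hR hRinv a ((z : G) • a) ((s : G) • a) hab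
        (fun h => hz1 (by rw [← he z, h, ha1]))
      have := (hall ((s : G) • a)).mp (by rw [ha1, he, inv_one, one_mul]; exact hs)
      rw [inv_mul_cancel] at this
      exact h1 this
    have ht1 : t ≠ 1 := fun h => h1 (h ▸ ht)
    have h2 : t * w ∈ T := hcosets r hr hrn T hT t ht (fun h => ht1 (hcross p r hp hr hrp.symm t htp h)) w hwr
    have hcm : Commute t w := hcomm t w
    have h3 : (t * w) * (t⁻¹ * z) ∈ T := by
      refine hcosets p hp hpn T hT _ h2 (fun h => ?_) _ ?_
      · rw [hcm.mul_pow, htp, one_mul] at h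
        exact hw1 (hcross p r hp hr hrp.symm w h hwr)
      · have : Commute t⁻¹ z := hcomm _ _
        rw [this.mul_pow, inv_pow, htp, hzp, inv_one, one_mul]
    rw [hcm.eq] at h3
    rwa [mul_assoc, mul_inv_cancel_left] at h3
  have hgood : ∀ x : Ω, x ≠ a → ∃ g : G, g • a = a ∧ g • x = ((w * z : C) : G) • a := by
    intro x hx
    let T : Finset C := Finset.univ.filter fun c => ∃ g : G, g • a = a ∧ g • x = (c : G) • a
    have hT : Inv (T : Set C) := by
      intro g hg c hc
      obtain ⟨-, g', hg', hgx⟩ := Finset.mem_filter.mp (Finset.mem_coe.mp hc)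
      refine Finset.mem_coe.mpr (Finset.mem_filter.mpr ⟨Finset.mem_univ _, g * g', ?_, ?_⟩)
      · rw [mul_smul, hg', hg]
      · rw [mul_smul, hgx, hψ]
    have h1 : (1 : C) ∉ T := by
      intro h
      obtain ⟨-, g', hg', hgx⟩ := Finset.mem_filter.mp h
      rw [Subgroup.coe_one, one_smul] at hgx
      exact hx (smul_left_cancel g' (hgx.trans hg'.symm))
    have h2 : T.Nonempty := ⟨ψ x, Finset.mem_filter.mpr ⟨Finset.mem_univ _, 1, one_smul _ _, by rw [one_smul, hψ]⟩⟩
    exact (Finset.mem_filter.mp (hmem T hT h1 h2)).2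
  intro x y hx hy
  obtain ⟨g, hga, hgx⟩ := hgood x hx
  obtain ⟨g', hga', hgy⟩ := hgood y hy
  exact ⟨g'⁻¹ * g, by rw [mul_smul, hga, inv_smul_eq_iff, hga'], by rw [mul_smul, hgx, ← hgy, inv_smul_smul]⟩

/-- Let G act faithfully and transitively on a finite set whose number of points n ≥ 2 is not a prime power, and suppose G has a cyclic subgroup acting regularly (transitively with trivial point stabilizers). Then G is imprimitive or doubly transitive. -/
theorem result {G Ω : Type*} [Group G] [Finite G] [MulAction G Ω] [FaithfulSMul G Ω] [Finite Ω]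
    (htrans : MulAction.IsPretransitive G Ω) (hn : 2 ≤ Nat.card Ω) (hnp : ¬ IsPrimePow (Nat.card Ω))
    (C : Subgroup G) (hcyc : IsCyclic ↥C) (hC : MulAction.IsPretransitive ↥C Ω ∧ ∀ a : Ω, MulAction.stabilizer ↥C a = ⊥) :
    ¬ MulAction.IsPreprimitive G Ω ∨ MulAction.IsMultiplyPretransitive G Ω 2 := by
  classical
  by_cases hprim : MulAction.IsPreprimitive G Ω
  · right
    have : Fintype Ω := Fintype.ofFinite Ω
    have : Fintype C := Fintype.ofFinite C
    rw [Nat.card_eq_fintype_card] at hn hnp
    rw [MulAction.is_two_pretransitive_iff]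
    intro a b c d hab hcd
    obtain ⟨g, hg⟩ := htrans.exists_smul_eq a c
    obtain ⟨h, hhc, hhd⟩ := two_pretransitive hprim C hcyc hC.1 hC.2 hn hnp c (g • b) d
      (fun e => hab (smul_left_cancel g (hg.trans e.symm))) hcd.symm
    exact ⟨h * g, by rw [mul_smul, hg, hhc], by rw [mul_smul, hhd]⟩
  · exact Or.inl hprim

end Cfsg.Agent.S3559
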