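import Cfsg.Statements.S3560
import Mathlib

set_option autoImplicit false
open Cfsg
open scoped Pointwise

namespace Cfsg.Agent.S3560

/-- Let K be a finite group isomorphic to a direct product of r ≥ 2 groups all of the same order m ≥ 3. Then K is not a B-group: there is a primitive but not doubly transitive permutation group (on some finite set) containing a regular subgroup isomorphic to K. -/
theorem result {K : Type*} [Group K] [Finite K] {ι : Type*} [Fintype ι] (F : ι → Type*) [∀ i, Group (F i)]
    (hr : 2 ≤ Fintype.card ι) (m : ℕ) (hm : 3 ≤ m) (hcard : ∀ i, Nat.card (F i) = m) (e : K ≃* (∀ i, F i)) :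
    ∃ (n : ℕ) (G R : Subgroup (Equiv.Perm (Fin n))), R ≤ G ∧ Nonempty (↥R ≃* K) ∧
      MulAction.IsPretransitive ↥R (Fin n) ∧ (∀ a : Fin n, MulAction.stabilizer ↥R a = ⊥) ∧
      MulAction.IsPreprimitive ↥G (Fin n) ∧ ¬ MulAction.IsMultiplyPretransitive ↥G (Fin n) 2 := by
  classical
  let X := ∀ i, F i
  have : ∀ i, Finite (F i) := fun i => Nat.finite_of_card_ne_zero (by rw [hcard i]; omega)
  have : Fintype X := Fintype.ofFinite X
  let en : X ≃ Fin (Fintype.card X) := Fintype.equivFin X
  -- the Hamming relation
  let δ : X → X → Finset ι := fun x y => Finset.univ.filter fun i => x i ≠ y i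
  let G₀ : Subgroup (Equiv.Perm X) :=
    { carrier := {σ | ∀ x y, (δ (σ x) (σ y)).card = (δ x y).card}
      mul_mem' := fun {σ τ} hσ hτ x y => (hσ (τ x) (τ y)).trans (hτ x y)
      one_mem' := fun x y => rfl
      inv_mem' := fun {σ} hσ x y => by
        have := hσ (σ⁻¹ x) (σ⁻¹ y)
        simpa using this.symm }
  let Φ : Equiv.Perm X ≃* Equiv.Perm (Fin (Fintype.card X)) := en.permCongrHom
  let R₀ : Subgroup (Equiv.Perm X) := (MulAction.toPermHom X X).range
  have hcw : ∀ π : ∀ i, Equiv.Perm (F i), Equiv.piCongrRight π ∈ G₀ := fun π x y => by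
    congr 1
    ext i
    simp only [δ, Finset.mem_filter, Finset.mem_univ, true_and]
    exact not_congr (π i).injective.eq_iff
  have hW : ∀ (π : ∀ i, Equiv.Perm (F i)) (x : X) (k : ι), Equiv.piCongrRight π x k = π k (x k) :=
    fun _ _ _ => rfl
  have hRG : R₀ ≤ G₀ := by
    rintro _ ⟨g, rfl⟩ x y
    congr 1
    ext i
    simp only [δ, Finset.mem_filter, Finset.mem_univ, true_and]
    exact not_congr (mul_right_inj (g i))
  refine ⟨Fintype.card X, G₀.map Φ.toMonoidHom, R₀.map Φ.toMonoidHom, Subgroup.map_mono hRG, ⟨?_⟩, ?_, ?_, ?_, ?_⟩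
  · refine (R₀.equivMapOfInjective Φ.toMonoidHom Φ.injective).symm.trans ?_
    refine (MonoidHom.ofInjective (f := MulAction.toPermHom X X) fun a b h => ?_).symm.trans e.symm
    simpa using congrArg (fun σ : Equiv.Perm X => σ 1) h
  · refine ⟨fun a b => ⟨⟨Φ (MulAction.toPermHom X X (en.symm b * (en.symm a)⁻¹)),
      Subgroup.mem_map_of_mem _ ⟨_, rfl⟩⟩, ?_⟩⟩
    show en ((en.symm b * (en.symm a)⁻¹) * en.symm a) = b
    rw [inv_mul_cancel_right, Equiv.apply_symm_apply]
  · intro a
    rw [Subgroup.eq_bot_iff_forall]
    rintro ⟨_, _, ⟨g, rfl⟩, rfl⟩ hfix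
    have h1 : en (g * en.symm a) = a := hfix
    rw [← Equiv.eq_symm_apply, mul_eq_right] at h1
    subst h1
    exact Subtype.ext (show Φ (MulAction.toPermHom X X 1) = 1 by rw [map_one (MulAction.toPermHom X X), map_one Φ])
  · -- primitivity
    have hpre : MulAction.IsPretransitive (G₀.map Φ.toMonoidHom) (Fin (Fintype.card X)) := by
      refine ⟨fun a b => ⟨⟨Φ (MulAction.toPermHom X X (en.symm b * (en.symm a)⁻¹)),
        Subgroup.mem_map_of_mem _ (hRG ⟨_, rfl⟩)⟩, ?_⟩⟩
      show en ((en.symm b * (en.symm a)⁻¹) * en.symm a) = b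
      rw [inv_mul_cancel_right, Equiv.apply_symm_apply]
    refine ⟨fun {B} hB => ?_⟩
    by_contra hcon
    rw [MulAction.IsTrivialBlock, not_or] at hcon
    obtain ⟨hns, hnu⟩ := hcon
    obtain ⟨a, ha, b, hb, hab⟩ := Set.not_subsingleton_iff.mp hns
    let rel : X → X → Prop := fun x y => ∃ σ ∈ G₀, en (σ x) ∈ B ∧ en (σ y) ∈ B
    have hrefl : ∀ x, rel x x := fun x => by
      refine ⟨MulAction.toPermHom X X (en.symm a * x⁻¹), hRG ⟨_, rfl⟩, ?_, ?_⟩ <;>
      · show en ((en.symm a * x⁻¹) * x) ∈ B
        rwa [inv_mul_cancel_right, Equiv.apply_symm_apply]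
    have hsymm : ∀ x y, rel x y → rel y x := fun x y ⟨σ, hσ, h1, h2⟩ => ⟨σ, hσ, h2, h1⟩
    have hblock : ∀ σ ∈ G₀, ∀ x y : X, en x ∈ B → en y ∈ B → en (σ x) ∈ B → en (σ y) ∈ B := by
      intro σ hσ x y hx hy hsx
      let g : G₀.map Φ.toMonoidHom := ⟨Φ σ, Subgroup.mem_map_of_mem _ hσ⟩
      have hgx : g • en x = en (σ x) := show en (σ (en.symm (en x))) = _ by rw [Equiv.symm_apply_apply]
      have hgy : g • en y = en (σ y) := show en (σ (en.symm (en y))) = _ by rw [Equiv.symm_apply_apply]
      have he : g • B = B := hB.smul_eq_of_mem hx (by rw [hgx]; exact hsx)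
      rw [← hgy, ← he]
      exact Set.smul_mem_smul_set hy
    have htrans : ∀ x y z, rel x y → rel y z → rel x z := by
      rintro x y z ⟨σ, hσ, h1, h2⟩ ⟨τ, hτ, h3, h4⟩
      refine ⟨τ, hτ, ?_, h4⟩
      have := hblock (τ * σ⁻¹) (G₀.mul_mem hτ (G₀.inv_mem hσ)) (σ y) (σ x) h2 h1 (by simpa using h3)
      simpa using this
    have hinv : ∀ σ ∈ G₀, ∀ x y, rel x y → rel (σ x) (σ y) := by
      rintro σ hσ x y ⟨τ, hτ, h1, h2⟩
      exact ⟨τ * σ⁻¹, G₀.mul_mem hτ (G₀.inv_mem hσ), by simpa using h1, by simpa using h2⟩
    -- one coordinate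
    set x₀ := en.symm a
    set y₀ := en.symm b
    have hxy : rel x₀ y₀ := ⟨1, G₀.one_mem, by simpa [x₀] using ha, by simpa [y₀] using hb⟩
    obtain ⟨i, hi⟩ : ∃ i, x₀ i ≠ y₀ i := by
      by_contra hall
      push Not at hall
      exact hab (en.symm.injective (funext hall))
    obtain ⟨c, hc1, hc2⟩ : ∃ c : F i, c ≠ x₀ i ∧ c ≠ y₀ i := by
      by_contra hall
      push Not at hall
      have : Fintype (F i) := Fintype.ofFinite _
      have h1 : (Finset.univ : Finset (F i)) ⊆ {x₀ i, y₀ i} := fun z _ => by
        by_cases hz : z = x₀ i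
        · simp [hz]
        · simp [hall z hz]
      have := Finset.card_le_card h1
      rw [Finset.card_univ, ← Nat.card_eq_fintype_card, hcard i, Finset.card_pair hi] at this
      omega
    have hone : rel y₀ (Function.update y₀ i c) := by
      have hσ := hcw (fun j => if h : j = i then h ▸ Equiv.swap (y₀ i) c else 1)
      set σ : Equiv.Perm X := Equiv.piCongrRight (fun j => if h : j = i then h ▸ Equiv.swap (y₀ i) c else 1) with hσd
      have hσx : σ x₀ = x₀ := by
        funext j
        by_cases hj : j = i
        · subst hj; simp [hσd, hW, Equiv.swap_apply_of_ne_of_ne hi hc1.symm]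
        · simp [hσd, hW, hj]
      have hσy : σ y₀ = Function.update y₀ i c := by
        funext j
        by_cases hj : j = i
        · subst hj; simp [hσd, hW]
        · simp [hσd, hW, hj]
      have h1 := hinv σ hσ x₀ y₀ hxy
      rw [hσx, hσy] at h1
      exact htrans _ _ _ (hsymm _ _ hxy) h1
    have hall1 : ∀ (x : X) (j : ι) (v : F j), rel x (Function.update x j v) := by
      intro x j v
      by_cases hv : v = x j
      · rw [hv, Function.update_eq_self]; exact hrefl x
      -- a coordinate permutation through bijections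
      let ε : ∀ k, F k ≃ Fin m := fun k => (Finite.equivFinOfCardEq (hcard k))
      let sw : X → X := fun z k => (ε k).symm (ε (Equiv.swap i j k) (z (Equiv.swap i j k)))
      let π : Equiv.Perm X :=
        { toFun := sw
          invFun := sw
          left_inv := fun z => by
            funext k
            show (ε k).symm (ε (Equiv.swap i j k) ((ε (Equiv.swap i j k)).symm
              (ε (Equiv.swap i j (Equiv.swap i j k)) (z (Equiv.swap i j (Equiv.swap i j k)))))) = z k
            rw [Equiv.apply_symm_apply, Equiv.swap_apply_self, Equiv.symm_apply_apply]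
          right_inv := fun z => by
            funext k
            show (ε k).symm (ε (Equiv.swap i j k) ((ε (Equiv.swap i j k)).symm
              (ε (Equiv.swap i j (Equiv.swap i j k)) (z (Equiv.swap i j (Equiv.swap i j k)))))) = z k
            rw [Equiv.apply_symm_apply, Equiv.swap_apply_self, Equiv.symm_apply_apply] }
      have hπ : π ∈ G₀ := fun z w => by
        refine Finset.card_equiv (Equiv.swap i j) fun k => ?_
        simp [δ, π, sw]
      have h1 := hinv π hπ _ _ hone
      obtain ⟨σj, hσj1, hσj2⟩ : ∃ s : Equiv.Perm (F j), s (π y₀ j) = x j ∧ s (π (Function.update y₀ i c) j) = v := by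
        have hne : π y₀ j ≠ π (Function.update y₀ i c) j := fun e => by
          have e' := (ε j).symm.injective e
          rw [Equiv.swap_apply_right] at e'
          have := (ε i).injective e'
          rw [Function.update_self] at this
          exact hc2 this.symm
        exact MulAction.is_two_pretransitive_iff.mp (Equiv.Perm.isMultiplyPretransitive (F j) 2) hne (Ne.symm hv)
      have hother : ∀ k, k ≠ j → π (Function.update y₀ i c) k = π y₀ k := fun k hk => by
        show (ε k).symm (ε _ (Function.update y₀ i c (Equiv.swap i j k))) = _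
        rw [Function.update_of_ne (fun e => hk (by
          have := congrArg (Equiv.swap i j) e
          rwa [Equiv.swap_apply_self, Equiv.swap_apply_left] at this))]
        rfl
      have hσ2 := hcw (fun k => if h : k = j then h ▸ σj else Equiv.swap (π y₀ k) (x k))
      have h2 := hinv _ hσ2 _ _ h1
      convert h2 using 1
      · funext k
        by_cases hk : k = j
        · subst hk; simp [hW, hσj1]
        · simp [hW, hk]
      · funext k
        by_cases hk : k = j
        · subst hk; simp [hW, hσj2]
        · simp [hW, hk, hother k hk]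
    have hall : ∀ (s : Finset ι) (x y : X), (∀ k, k ∉ s → x k = y k) → rel x y := by
      intro s
      induction s using Finset.induction with
      | empty => intro x y h; rw [show x = y from funext fun k => h k (by simp)]; exact hrefl y
      | insert j t _ ih =>
        intro x y h
        refine htrans _ _ _ (hall1 x j (y j)) (ih _ _ fun k hk => ?_)
        by_cases hkj : k = j
        · subst hkj; rw [Function.update_self]
        · rw [Function.update_of_ne hkj]; exact h k (by simp [hkj, hk])
    refine hnu (Set.eq_univ_of_forall fun z => ?_)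
    obtain ⟨σ, hσ, h1, h2⟩ := hall Finset.univ x₀ (en.symm z) (by simp)
    have := hblock σ⁻¹ (G₀.inv_mem hσ) (σ x₀) (σ (en.symm z)) h1 h2 (by simpa [x₀] using ha)
    simpa using this
  · intro h2
    obtain ⟨i, j, hij⟩ := Fintype.one_lt_card_iff.mp (show 1 < Fintype.card ι by omega)
    have hnt : ∀ k, ∃ v : F k, v ≠ 1 := fun k => by
      by_contra hall
      push Not at hall
      have : Subsingleton (F k) := ⟨fun u v => (hall u).trans (hall v).symm⟩
      have := Nat.card_unique (α := F k)
      rw [hcard k] at this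
      omega
    choose v hv using hnt
    set p1 : X := Function.update 1 i (v i)
    set p2 : X := Function.update (Function.update 1 i (v i)) j (v j)
    have hd1 : δ 1 p1 = {i} := by
      ext k; by_cases hk : k = i
      · subst hk; simp [δ, p1]; exact (hv k).symm
      · simp [δ, p1, hk]; rfl
    have hd2 : δ 1 p2 = {i, j} := by
      ext k
      by_cases hk : k = j
      · subst hk; simp [δ, p2]; exact (hv k).symm
      · by_cases hk' : k = i
        · subst hk'; simp [δ, p2, hk]; exact (hv k).symm
        · simp [δ, p2, hk, hk']; rfl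
    have n1 : en 1 ≠ en p1 := fun e => by
      have e1 : δ 1 p1 = ∅ := by rw [← en.injective e]; simp [δ]
      rw [hd1] at e1; simp at e1
    have n2 : en 1 ≠ en p2 := fun e => by
      have e1 : δ 1 p2 = ∅ := by rw [← en.injective e]; simp [δ]
      rw [hd2] at e1; simp at e1
    obtain ⟨⟨_, σ, hσ, rfl⟩, hg1, hg2⟩ := MulAction.is_two_pretransitive_iff.mp h2 n1 n2
    have e1 : σ 1 = 1 := by
      have : en (σ (en.symm (en 1))) = en 1 := hg1
      rwa [Equiv.symm_apply_apply, en.injective.eq_iff] at this
    have e2 : σ p1 = p2 := by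
      have : en (σ (en.symm (en p1))) = en p2 := hg2
      rwa [Equiv.symm_apply_apply, en.injective.eq_iff] at this
    have h := hσ 1 p1
    rw [e1, e2, hd1, hd2, Finset.card_pair hij, Finset.card_singleton] at h
    omega

end Cfsg.Agent.S3560
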