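import Cfsg.Statements.S3573
-- import your own Cfsg.Agent.* helpers here

set_option autoImplicit false
open Cfsg

namespace Cfsg.Agent.S3573

theorem le_of_mod_le (n k r : ℕ) (hr : r.Prime) (hrd : r ∣ Nat.choose n k) (h : k % r ≤ n % r) : r ≤ k := by
  by_contra hlt
  push Not at hlt
  haveI := Fact.mk hr
  have hl := Choose.choose_modEq_choose_mod_mul_choose_div (n := n) (k := k) (p := r)
  rw [Nat.div_eq_of_lt hlt, Nat.choose_zero_right, Nat.cast_one, mul_one] at hl
  have h0 : ((Nat.choose (n % r) (k % r) : ℕ) : ℤ) ≡ 0 [ZMOD (r : ℤ)] :=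
    hl.symm.trans (Int.modEq_zero_iff_dvd.2 (Int.natCast_dvd_natCast.2 hrd))
  have h1 : r ∣ Nat.choose (n % r) (k % r) := Int.natCast_dvd_natCast.1 (Int.modEq_zero_iff_dvd.1 h0)
  have h2 := Nat.choose_mul_factorial_mul_factorial h
  have h3 : r ∣ (n % r).factorial := by rw [← h2, mul_assoc]; exact dvd_mul_of_dvd_left h1 _
  exact absurd ((Nat.Prime.dvd_factorial hr).1 h3) (not_le.2 (Nat.mod_lt _ hr.pos))

theorem le_of_dvd_choose (n k r : ℕ) (hk : k ≤ n) (hr : r.Prime) (hrd : r ∣ Nat.choose n k) : r ≤ n := by
  have h3 : r ∣ n.factorial := by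
    rw [← Nat.choose_mul_factorial_mul_factorial hk, mul_assoc]; exact dvd_mul_of_dvd_left hrd _
  exact (Nat.Prime.dvd_factorial hr).1 h3

theorem card_mod (n r : ℕ) (hr : r.Prime) (σ : Equiv.Perm (Fin n)) (hσ : σ ^ r = 1) (s : Finset (Fin n))
    (hs : s.image σ = s) : s.card % r = (s.filter fun x => σ x = x).card % r := by
  classical
  haveI := Fact.mk hr
  have hmem : ∀ x, σ x ∈ s ↔ x ∈ s := by
    intro x
    constructor
    · intro h
      rw [← hs] at h
      obtain ⟨y, hy, he⟩ := Finset.mem_image.1 h
      exact σ.injective he ▸ hy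
    · intro h
      rw [← hs]
      exact Finset.mem_image_of_mem σ h
  let τ : Equiv.Perm {x // x ∈ s} := σ.subtypePerm hmem
  have hτ : τ ^ r ^ 1 = 1 := by
    rw [pow_one]
    ext x
    simp [τ, Equiv.Perm.subtypePerm_pow, hσ]
  have h := Equiv.Perm.card_compl_support_modEq hτ
  rw [Fintype.card_coe] at h
  rw [← h]
  have he : (τ.supportᶜ).card = (s.filter fun x => σ x = x).card :=
    Finset.card_bij (fun x _ => x.1) (fun x hx => by
      simp only [Finset.mem_compl, Equiv.Perm.mem_support, not_not] at hx
      exact Finset.mem_filter.2 ⟨x.2, congrArg Subtype.val hx⟩) (fun a _ b _ h => Subtype.ext h)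
      (fun x hx => by
        rw [Finset.mem_filter] at hx
        exact ⟨⟨x, hx.1⟩, by simp [τ, hx.2], rfl⟩)
  rw [he]

theorem invariant_iff (n k r : ℕ) (hr : r.Prime) (hrn : r ≤ n) (hkn : k ≤ n) :
    (∀ σ : Equiv.Perm (Fin n), orderOf σ = r → ∃ s : Finset (Fin n), s.card = k ∧ s.image σ = s) ↔
      k % r ≤ n % r := by
  classical
  constructor
  · intro h
    obtain ⟨σ, hσ⟩ := (Equiv.Perm.exists_with_cycleType_iff (Fin n) (m := Multiset.replicate (n / r) r)).2
      ⟨by rw [Multiset.sum_replicate, Fintype.card_fin, smul_eq_mul]; exact Nat.div_mul_le_self n r,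
        fun a ha => (Multiset.eq_of_mem_replicate ha) ▸ hr.two_le⟩
    have ho : orderOf σ = r := by
      rw [← Equiv.Perm.lcm_cycleType, hσ]
      exact Nat.dvd_antisymm (Multiset.lcm_dvd.2 fun b hb => (Multiset.eq_of_mem_replicate hb) ▸ dvd_rfl)
        (Multiset.dvd_lcm (Multiset.mem_replicate.2 ⟨(Nat.div_pos hrn hr.pos).ne', rfl⟩))
    obtain ⟨s, hsk, hs⟩ := h σ ho
    have h1 := card_mod n r hr σ (ho ▸ pow_orderOf_eq_one σ) s hs
    have h2 : (s.filter fun x => σ x = x).card ≤ n % r := by
      have hsub : (s.filter fun x => σ x = x) ⊆ σ.supportᶜ := fun x hx => by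
        simp only [Finset.mem_filter] at hx
        simp [hx.2]
      refine (Finset.card_le_card hsub).trans ?_
      rw [Finset.card_compl, ← Equiv.Perm.sum_cycleType, hσ, Multiset.sum_replicate, smul_eq_mul, Fintype.card_fin]
      have := Nat.div_add_mod' n r
      omega
    rw [hsk] at h1
    rw [h1]
    exact (Nat.mod_le _ _).trans h2
  · intro hmod σ ho
    obtain ⟨m, hm⟩ := Equiv.Perm.cycleType_prime_order (σ := σ) (by rw [ho]; exact hr)
    rw [ho] at hm
    set C := σ.cycleFactorsFinset
    have hC : C.card = m + 1 := by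
      have h := congrArg Multiset.card hm
      rw [Multiset.card_replicate, Equiv.Perm.cycleType_def] at h
      simpa using h
    have hsup : σ.support.card = (m + 1) * r := by
      rw [← Equiv.Perm.sum_cycleType, hm, Multiset.sum_replicate, smul_eq_mul]
    set a := min (m + 1) (k / r) with ha
    obtain ⟨D, hD, hDa⟩ := Finset.exists_subset_card_eq (s := C) (n := a) (by omega)
    have hfix : σ.supportᶜ.card = n - (m + 1) * r := by rw [Finset.card_compl, Fintype.card_fin, hsup]
    have hle : (m + 1) * r ≤ n := hsup ▸ (Finset.card_le_univ _).trans (by rw [Fintype.card_fin])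
    have hb : k - a * r ≤ n - (m + 1) * r := by
      rcases le_or_gt (m + 1) (k / r) with h | h
      · have : a = m + 1 := by omega
        rw [this]
        omega
      · have : a = k / r := by omega
        rw [this]
        have h1 := Nat.div_add_mod' k r
        have h2 := Nat.div_add_mod' n r
        have h3 : m + 1 ≤ n / r := (Nat.le_div_iff_mul_le hr.pos).2 hle
        have h4 : (m + 1) * r ≤ (n / r) * r := Nat.mul_le_mul_right r h3
        omega
    obtain ⟨E, hE, hEb⟩ := Finset.exists_subset_card_eq (s := σ.supportᶜ) (n := k - a * r) (by omega)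
    have hDs : ∀ c ∈ D, c.support ⊆ σ.support := fun c hc =>
      Equiv.Perm.mem_cycleFactorsFinset_support_le (hD hc)
    have hcard : ∀ c ∈ D, c.support.card = r := by
      intro c hc
      have h : c.support.card ∈ σ.cycleType := by
        rw [Equiv.Perm.cycleType_def]
        exact Multiset.mem_map.2 ⟨c, hD hc, rfl⟩
      rw [hm] at h
      exact Multiset.eq_of_mem_replicate h
    set P := D.biUnion fun c => c.support
    have hP : P.card = a * r := by
      rw [Finset.card_biUnion, Finset.sum_congr rfl hcard, Finset.sum_const, hDa, smul_eq_mul]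
      intro c hc d hd hcd
      exact (σ.cycleFactorsFinset_pairwise_disjoint (hD hc) (hD hd) hcd).disjoint_support
    have hdis : Disjoint P E := by
      rw [Finset.disjoint_left]
      intro x hx hxE
      obtain ⟨c, hc, hxc⟩ := Finset.mem_biUnion.1 hx
      exact Finset.mem_compl.1 (hE hxE) (hDs c hc hxc)
    refine ⟨P ∪ E, ?_, ?_⟩
    · rw [Finset.card_union_of_disjoint hdis, hP, hEb]
      have := Nat.div_mul_le_self k r
      have : a * r ≤ (k / r) * r := Nat.mul_le_mul_right r (by omega)
      omega
    · refine Finset.eq_of_subset_of_card_le ?_ (by rw [Finset.card_image_of_injective _ σ.injective])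
      intro x hx
      obtain ⟨y, hy, rfl⟩ := Finset.mem_image.1 hx
      rcases Finset.mem_union.1 hy with hy | hy
      · obtain ⟨c, hc, hyc⟩ := Finset.mem_biUnion.1 hy
        refine Finset.mem_union_left _ (Finset.mem_biUnion.2 ⟨c, hc, ?_⟩)
        rw [← (Equiv.Perm.mem_cycleFactorsFinset_iff.1 (hD hc)).2 y hyc]
        exact Equiv.Perm.apply_mem_support.2 hyc
      · have hy' : σ y = y := Equiv.Perm.notMem_support.1 (Finset.mem_compl.1 (hE hy))
        rw [hy']
        exact Finset.mem_union_right _ hy


/-- Let 1 ≤ k with 2k < n and consider the symmetric group of degree n acting on the k-subsets of an n-set. Let r be a prime dividing the number C(n,k) of k-subsets. If r is odd, then every permutation of order r fixes some k-subset if and only if r ≤ k and the remainder of k modulo r is at most the remainder of n modulo r. If r = 2, then every involution fixes some k-subset if and only if k is even or n is odd. -/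
theorem result (n k : ℕ) (hk : 1 ≤ k) (hkn : 2 * k < n) (r : ℕ) (hr : r.Prime) (hrd : r ∣ Nat.choose n k) :
    (r ≠ 2 → ((∀ σ : Equiv.Perm (Fin n), orderOf σ = r → ∃ s : Finset (Fin n), s.card = k ∧ s.image σ = s) ↔
      (r ≤ k ∧ k % r ≤ n % r))) ∧
    (r = 2 → ((∀ σ : Equiv.Perm (Fin n), orderOf σ = 2 → ∃ s : Finset (Fin n), s.card = k ∧ s.image σ = s) ↔
      (Even k ∨ Odd n))) := by
  classical
  have key : (∀ σ : Equiv.Perm (Fin n), orderOf σ = r → ∃ s : Finset (Fin n), s.card = k ∧ s.image σ = s) ↔
      k % r ≤ n % r := invariant_iff n k r hr (le_of_dvd_choose n k r (by omega) hr hrd) (by omega)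
  constructor
  · intro _
    rw [key]
    exact ⟨fun h => ⟨le_of_mod_le n k r hr hrd h, h⟩, fun h => h.2⟩
  · rintro rfl
    rw [key, Nat.even_iff, Nat.odd_iff]
    have := Nat.mod_lt k (show 2 > 0 by norm_num)
    have := Nat.mod_lt n (show 2 > 0 by norm_num)
    omega

end Cfsg.Agent.S3573
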