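import Cfsg.Statements.S3575
-- import your own Cfsg.Agent.* helpers here

set_option autoImplicit false
open Cfsg

namespace Cfsg.Agent.S3575

open Equiv Finset

/-- `k` cycles can be arranged along a partition into `b` parts of size `a`. -/
def Cover (a b r k : ℕ) : Prop := ∃ t j, t * r ≤ b ∧ j ≤ (b - t * r) * (a / r) ∧ k = t * a + j

theorem reach {a b r t : ℕ} (ht : t * r ≤ b) : t * a + (b - t * r) * (a / r) = b * (a / r) + t * (a % r) := by
  obtain ⟨c, rfl⟩ := Nat.exists_eq_add_of_le ht
  rw [Nat.add_sub_cancel_left]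
  have h := Nat.div_add_mod a r
  generalize a / r = q, a % r = s at h ⊢
  subst h
  ring

theorem cover_iff {a b r : ℕ} (hr : 2 ≤ r) (ha : 2 ≤ a) (hb : 2 ≤ b) (hrab : r ≤ a * b) :
    (∀ k, 1 ≤ k → k * r ≤ a * b → Cover a b r k) ↔
    (r ≤ a ∧ (a % r = 0 ∨ (b % r = 0 ∧ a % r = 1) ∨
        (a % r ≠ 0 ∧ b % r ≠ 0 ∧ (b % r) * (a % r) < r ∧ (b < r ∨ (b % r + r) * (a % r) ≤ (b % r) * a + r)))) := by
  have hs := Nat.mod_lt a (show r > 0 by omega)
  have hu := Nat.mod_lt b (show r > 0 by omega)
  have hda := Nat.div_add_mod a r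
  have hdb := Nat.div_add_mod b r
  unfold Cover
  set q := a / r with hq
  set s := a % r with hs'
  set T := b / r with hT
  set u := b % r with hu'
  have hre : ∀ {t}, t * r ≤ b → t * a + (b - t * r) * q = b * q + t * s := fun ht => reach ht
  constructor
  · intro H
    have hra : r ≤ a := by
      by_contra hlt
      obtain ⟨t, j, ht, hj, h1⟩ := H 1 le_rfl (by omega)
      have hq0 : q = 0 := by rw [hq]; exact Nat.div_eq_of_lt (by omega)
      rw [hq0, mul_zero] at hj
      rcases Nat.eq_zero_or_pos t with rfl | htp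
      · rw [zero_mul] at h1; omega
      · have := Nat.le_mul_of_pos_left a htp; omega
    refine ⟨hra, ?_⟩
    have hTle : ∀ {t}, t * r ≤ b → t ≤ T := fun ht => (Nat.le_div_iff_mul_le (by omega)).2 ht
    have hus : u * s < r := by
      by_contra hh
      obtain ⟨t, j, ht, hj, h1⟩ := H (b * q + T * s + 1) (by omega) (by
        calc (b * q + T * s + 1) * r = b * (r * q) + (T * r) * s + r := by ring
          _ ≤ b * (r * q) + (T * r) * s + u * s := by omega
          _ = b * (r * q) + (r * T + u) * s := by ring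
          _ = a * b := by rw [hdb, ← hda]; ring)
      have := Nat.mul_le_mul_right s (hTle ht)
      have := hre ht
      omega
    have hgap : 0 < T → s ≤ u * q + 1 := by
      intro hT0
      by_contra hh
      have hTa : r * (T * a) ≤ a * b := by
        rw [← hdb, show a * (r * T + u) = r * (T * a) + a * u by ring]; omega
      have h2 : 2 ≤ T * a := le_trans ha (Nat.le_mul_of_pos_left a hT0)
      obtain ⟨t, j, ht, hj, h1⟩ := H (T * a - 1) (by omega) (by
        calc (T * a - 1) * r ≤ T * a * r := Nat.mul_le_mul_right r (Nat.sub_le _ _)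
          _ ≤ a * b := by rwa [mul_comm])
      have h3 := hre ht
      have h4 := hTle ht
      rcases eq_or_lt_of_le h4 with rfl | hlt
      · omega
      · obtain ⟨T', hT'⟩ : ∃ T', T = T' + 1 := ⟨T - 1, by omega⟩
        have h5 := Nat.mul_le_mul_right s (show t ≤ T' by omega)
        have h6 : T * a + u * q = b * q + T * s := by
          conv_lhs => rw [← hda]
          rw [← hdb]; ring
        have h7 : T * s = T' * s + s := by rw [hT']; ring
        omega
    rcases Nat.eq_zero_or_pos s with hs0 | hs0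
    · exact Or.inl hs0
    · rcases Nat.eq_zero_or_pos u with hu0 | hu0
      · refine Or.inr (Or.inl ⟨hu0, ?_⟩)
        have hT0 : 0 < T := by
          rcases Nat.eq_zero_or_pos T with h | h
          · rw [h, mul_zero] at hdb; omega
          · exact h
        have := hgap hT0
        rw [hu0, zero_mul] at this
        omega
      · refine Or.inr (Or.inr ⟨by omega, by omega, hus, ?_⟩)
        rcases Nat.eq_zero_or_pos T with h | h
        · left; rw [h, mul_zero] at hdb; omega
        · right
          calc (u + r) * s = u * s + r * s := by ring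
            _ ≤ u * s + r * (u * q + 1) := by have := Nat.mul_le_mul_left r (hgap h); omega
            _ = u * a + r := by rw [← hda]; ring
  · rintro ⟨hra, h⟩ k hk hkr
    have hus : u * s < r := by
      rcases h with h | ⟨h, -⟩ | ⟨-, -, h, -⟩
      · rw [h, mul_zero]; omega
      · rw [h, zero_mul]; omega
      · exact h
    have hgap : 0 < T → s ≤ u * q + 1 := by
      intro hT0
      rcases h with h | ⟨-, h⟩ | ⟨-, -, -, h⟩
      · omega
      · omega
      · rcases h with h | h
        · have := Nat.le_mul_of_pos_right r hT0; omega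
        · by_contra hh
          have h1 := Nat.mul_le_mul_left r (show u * q + 2 ≤ s by omega)
          have h2 : (u + r) * s = u * s + r * s := by ring
          have h3 : r * (u * q + 2) = r * (u * q) + 2 * r := by ring
          have h4 : u * a = r * (u * q) + u * s := by rw [← hda]; ring
          omega
    have hTr : T * r ≤ b := Nat.div_mul_le_self b r
    have hmax : k ≤ b * q + T * s := by
      by_contra hh
      have h1 := Nat.mul_le_mul_right r (show b * q + T * s + 1 ≤ k by omega)
      have h2 : (b * q + T * s + 1) * r + u * s = a * b + r := by rw [← hdb, ← hda]; ring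
      omega
    rcases Nat.lt_or_ge (k / a) T with hlt | hge
    · set t := k / a with ht
      have htr : t * r ≤ b := le_trans (Nat.mul_le_mul_right r hlt.le) hTr
      refine ⟨t, k - t * a, htr, ?_, by have := Nat.div_mul_le_self k a; rw [← ht] at this; omega⟩
      have h1 : k < (t + 1) * a := by rw [ht, mul_comm]; exact Nat.lt_mul_div_succ k (by omega)
      have h2 := hre htr
      have h3 : (t + 1) * a = (t + 1) * (r * q) + t * s + s := by rw [← hda]; ring
      have h4 : (t + 1) * (r * q) ≤ T * (r * q) := Nat.mul_le_mul_right _ hlt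
      have h5 : b * q = T * (r * q) + u * q := by rw [← hdb]; ring
      have h6 := hgap ((Nat.zero_le t).trans_lt hlt)
      omega
    · refine ⟨T, k - T * a, hTr, ?_, ?_⟩
      · have := hre hTr; omega
      · have := (Nat.le_div_iff_mul_le (show 0 < a by omega)).1 hge; omega

variable {X : Type*} [Fintype X] [DecidableEq X]

theorem cycleType_rep {r : ℕ} (hr : r.Prime) {σ : Perm X} (h : σ ^ r = 1) :
    ∃ n, σ.cycleType = Multiset.replicate n r ∧ σ.support.card = n * r := by
  refine ⟨σ.cycleType.card, ?_⟩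
  have h1 : σ.cycleType = Multiset.replicate σ.cycleType.card r := Multiset.eq_replicate_card.2 fun x hx => by
    rcases hr.eq_one_or_self_of_dvd x (dvd_trans (Perm.dvd_of_mem_cycleType hx) (orderOf_dvd_of_pow_eq_one h)) with h1 | h1
    · exact absurd h1 (Perm.one_lt_of_mem_cycleType hx).ne'
    · exact h1
  refine ⟨h1, ?_⟩
  rw [← Perm.sum_cycleType]
  conv_lhs => rw [h1]
  rw [Multiset.sum_replicate, smul_eq_mul]

theorem dvd_support {r : ℕ} (hr : r.Prime) {σ : Perm X} (h : σ ^ r = 1) : r ∣ σ.support.card := by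
  obtain ⟨n, -, h2⟩ := cycleType_rep hr h
  exact ⟨n, by rw [h2, mul_comm]⟩

theorem conj_of {r : ℕ} (hr : r.Prime) {σ τ : Perm X} (h : σ ^ r = 1) (h' : τ ^ r = 1)
    (hc : σ.support.card = τ.support.card) : IsConj σ τ := by
  obtain ⟨n, h1, h2⟩ := cycleType_rep hr h
  obtain ⟨n', h1', h2'⟩ := cycleType_rep hr h'
  refine Perm.isConj_iff_cycleType_eq.2 ?_
  rw [h1, h1', Nat.eq_of_mul_eq_mul_right hr.pos (h2.symm.trans (hc.trans h2'))]

theorem card_moved (σ : Perm X) : σ.support.card = Nat.card {x // σ x ≠ x} := by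
  rw [Nat.card_eq_fintype_card, Fintype.card_subtype]
  congr 1

omit [Fintype X] [DecidableEq X] in
theorem permCongr_pow {Y : Type*} (e : X ≃ Y) (σ : Perm X) (n : ℕ) : (e.permCongr σ) ^ n = e.permCongr (σ ^ n) := by
  induction n with
  | zero => ext; simp
  | succ n ih => rw [pow_succ, ih, pow_succ]; ext; simp

omit [Fintype X] [DecidableEq X] in
theorem sumCongr_pow {A B : Type*} (σ : Perm A) (τ : Perm B) (n : ℕ) :
    (Equiv.sumCongr σ τ) ^ n = Equiv.sumCongr (σ ^ n) (τ ^ n) := by
  induction n with
  | zero => ext (x | x) <;> simp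
  | succ n ih => rw [pow_succ, ih, pow_succ, pow_succ]; ext (x | x) <;> simp

/-- The free shift of the second coordinate. -/
def shift (A : Type*) (r : ℕ) : Perm (A × ZMod r) := Equiv.prodCongr (Equiv.refl A) (Equiv.addRight (1 : ZMod r))

omit [Fintype X] [DecidableEq X] in
theorem shift_pow (A : Type*) (r : ℕ) : shift A r ^ r = 1 := by
  have key : ∀ n : ℕ, ∀ x : A × ZMod r, (shift A r ^ n) x = (x.1, x.2 + (n : ZMod r)) := by
    intro n
    induction n with
    | zero => simp
    | succ n ih => intro x; rw [pow_succ', Perm.mul_apply, ih]; simp [shift, add_assoc]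
  ext x <;> simp [key]

omit [Fintype X] [DecidableEq X] in
theorem shift_ne {A : Type*} {r : ℕ} [Fact r.Prime] (x : A × ZMod r) : shift A r x ≠ x := fun h => by
  have := congrArg Prod.snd h
  simp [shift] at this

omit [Fintype X] [DecidableEq X] in
theorem card_moved_sum {A B : Type*} [Finite A] [Finite B] (σ : Perm A) (τ : Perm B) :
    Nat.card {x // Equiv.sumCongr σ τ x ≠ x} = Nat.card {x // σ x ≠ x} + Nat.card {x // τ x ≠ x} := by
  rw [Nat.card_congr (Equiv.subtypeSum (p := fun x => Equiv.sumCongr σ τ x ≠ x)), Nat.card_sum]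
  congr 1 <;> exact Nat.card_congr (Equiv.subtypeEquivRight fun x => by simp)

omit [Fintype X] [DecidableEq X] in
theorem card_moved_shift (A : Type*) [Finite A] (r : ℕ) [Fact r.Prime] :
    Nat.card {x // shift A r x ≠ x} = Nat.card A * r := by
  rw [Nat.card_congr (Equiv.subtypeUnivEquiv fun x => shift_ne x), Nat.card_prod, Nat.card_zmod]

theorem exists_rperm {r k : ℕ} (hr : r.Prime) (hk : k * r ≤ Fintype.card X) :
    ∃ τ : Perm X, τ ^ r = 1 ∧ τ.support.card = k * r := by
  haveI := Fact.mk hr
  haveI := NeZero.of_pos hr.pos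
  let e : ((Fin k × ZMod r) ⊕ Fin (Fintype.card X - k * r)) ≃ X := Fintype.equivOfCardEq (by simp; omega)
  let τ := Equiv.sumCongr (shift (Fin k) r) (1 : Perm (Fin (Fintype.card X - k * r)))
  have h1 : τ ^ r = 1 := by rw [sumCongr_pow, shift_pow, one_pow]; ext (x | x) <;> simp
  refine ⟨e.permCongr τ, ?_, ?_⟩
  · rw [permCongr_pow, h1]; ext; simp
  · rw [card_moved, Nat.card_congr (e.symm.subtypeEquiv (fun x => by rw [ne_eq, ne_eq, not_iff_not, Equiv.permCongr_apply, ← e.eq_symm_apply]) :
      {x // e.permCongr τ x ≠ x} ≃ {z // τ z ≠ z}), card_moved_sum, card_moved_shift]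
    simp

omit [Fintype X] [DecidableEq X] in
theorem exists_fill (q : ℕ) : ∀ n j : ℕ, j ≤ n * q → ∃ i : Fin n → ℕ, (∀ l, i l ≤ q) ∧ ∑ l, i l = j := by
  intro n
  induction n with
  | zero => intro j hj; exact ⟨fun l => l.elim0, fun l => l.elim0, by simp at hj ⊢; omega⟩
  | succ n ih =>
    intro j hj
    rw [Nat.succ_mul] at hj
    obtain ⟨i, hi, hs⟩ := ih (j - min j q) (by omega)
    refine ⟨Fin.cons (min j q) i, fun l => Fin.cases (min_le_right _ _) hi l, ?_⟩
    rw [Fin.sum_cons, hs]
    omega

theorem cover_of {X B : Type*} [Fintype X] [DecidableEq X] [Finite B] {a b r k : ℕ} (hr : r.Prime) (σ : Perm X) (hσ : σ ^ r = 1)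
    (hk : σ.support.card = k * r) (hB : Nat.card B = b) (f : X → B) (hf : ∀ j, Nat.card {x // f x = j} = a)
    (π : Perm B) (hπ : ∀ x, f (σ x) = π (f x)) : Cover a b r k := by
  classical
  haveI := Fintype.ofFinite B
  have hsur : Function.Surjective f ∨ a = 0 := by
    rcases Nat.eq_zero_or_pos a with h | h
    · exact Or.inr h
    · refine Or.inl fun j => ?_
      have hfj := hf j
      by_contra hh
      haveI : IsEmpty {x // f x = j} := ⟨fun x => hh ⟨x.1, x.2⟩⟩
      rw [Nat.card_of_isEmpty] at hfj; omega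
  have hcard : ∀ j, (univ.filter fun x => f x = j).card = a := fun j => by
    rw [← hf j, Nat.card_eq_fintype_card, Fintype.card_subtype]
  have hπn : ∀ (n : ℕ) x, f ((σ ^ n) x) = (π ^ n) (f x) := by
    intro n
    induction n with
    | zero => simp
    | succ n ih => intro x; rw [pow_succ', Perm.mul_apply, hπ, ih, pow_succ', Perm.mul_apply]
  rcases hsur with hsur | rfl
  swap
  · refine ⟨0, 0, by simp, by simp, ?_⟩
    have : IsEmpty X := ⟨fun x => by
      have := hcard (f x)
      rw [Finset.card_eq_zero] at this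
      exact Finset.notMem_empty x (this ▸ Finset.mem_filter.2 ⟨Finset.mem_univ x, rfl⟩)⟩
    rw [Finset.eq_empty_of_isEmpty σ.support, Finset.card_empty] at hk
    rcases Nat.mul_eq_zero.1 hk.symm with h | h
    · simp [h]
    · exact absurd h hr.ne_zero
  have hπr : π ^ r = 1 := Equiv.ext fun j => by
    obtain ⟨x, rfl⟩ := hsur j
    rw [← hπn, hσ]; simp
  obtain ⟨t, ht⟩ := dvd_support hr hπr
  have hfix : ∀ j, j ∉ π.support → r ∣ (σ.support.filter fun x => f x = j).card ∧ (σ.support.filter fun x => f x = j).card ≤ a := by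
    intro j hj
    refine ⟨?_, (Finset.card_le_card (Finset.filter_subset_filter _ (Finset.subset_univ _))).trans (hcard j).le⟩
    have hinv : ∀ x, (fun x => f x = j) x ↔ (fun x => f x = j) (σ x) := fun x => by
      simp only [hπ]
      rw [Perm.notMem_support] at hj
      constructor
      · intro h; rw [h, hj]
      · intro h; rw [← hj] at h; exact π.injective h
    have h1 : (σ.subtypePerm (p := fun x => f x = j) fun x => (hinv x).symm) ^ r = 1 := by rw [Perm.subtypePerm_pow]; ext x; simp [hσ]
    have h2 := dvd_support hr h1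
    rwa [card_moved, Nat.card_congr (β := {x : X // σ x ≠ x ∧ f x = j})
      { toFun := fun x => ⟨x.1.1, fun h => x.2 (Subtype.ext h), x.1.2⟩
        invFun := fun x => ⟨⟨x.1, x.2.2⟩, fun h => x.2.1 (congrArg Subtype.val h)⟩
        left_inv := fun x => rfl
        right_inv := fun x => rfl }, Nat.card_eq_fintype_card, Fintype.card_subtype,
      show (univ.filter fun x => σ x ≠ x ∧ f x = j) = σ.support.filter fun x => f x = j by ext x; simp] at h2
  have hmov : ∀ j, j ∈ π.support → (σ.support.filter fun x => f x = j).card = a := by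
    intro j hj
    rw [← hcard j]
    congr 1
    ext x
    simp only [mem_filter, Perm.mem_support, mem_univ, true_and, and_iff_right_iff_imp]
    rintro rfl e
    rw [Perm.mem_support] at hj
    exact hj (by rw [← hπ, e])
  have hsum : σ.support.card = π.support.card * a + ∑ j ∈ π.supportᶜ, (σ.support.filter fun x => f x = j).card := by
    rw [Finset.card_eq_sum_card_fiberwise (f := f) (t := univ) (fun x _ => Finset.mem_univ _), ← Finset.sum_add_sum_compl π.support]
    congr 1
    rw [Finset.sum_congr rfl hmov, Finset.sum_const, smul_eq_mul]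
  refine ⟨t, ∑ j ∈ π.supportᶜ, (σ.support.filter fun x => f x = j).card / r, ?_, ?_, ?_⟩
  · rw [mul_comm, ← ht, ← hB, Nat.card_eq_fintype_card]; exact Finset.card_le_univ _
  · calc ∑ j ∈ π.supportᶜ, (σ.support.filter fun x => f x = j).card / r ≤ ∑ j ∈ π.supportᶜ, a / r :=
          Finset.sum_le_sum fun j hj => Nat.div_le_div_right (hfix j (Finset.mem_compl.1 hj)).2
      _ = (b - t * r) * (a / r) := by
        rw [Finset.sum_const, smul_eq_mul, Finset.card_compl, ht, ← hB, Nat.card_eq_fintype_card, mul_comm r t]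
  · apply Nat.eq_of_mul_eq_mul_right hr.pos
    rw [← hk, hsum, ht, add_mul, Finset.sum_mul,
      Finset.sum_congr rfl fun j hj => Nat.div_mul_cancel (hfix j (Finset.mem_compl.1 hj)).1]
    ring

theorem of_cover {a b r k : ℕ} (hr : r.Prime) (h : Cover a b r k) (σ : Perm (Fin (a * b))) (hσ : σ ^ r = 1)
    (hk : σ.support.card = k * r) :
    ∃ f : Fin (a * b) → Fin b, (∀ j : Fin b, Nat.card {x : Fin (a * b) // f x = j} = a) ∧
          ∃ π : Perm (Fin b), ∀ x : Fin (a * b), f (σ x) = π (f x) := by
  classical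
  haveI := Fact.mk hr
  haveI := NeZero.of_pos hr.pos
  obtain ⟨t, j, ht, hj, rfl⟩ := h
  obtain ⟨i, hi, hij⟩ := exists_fill (a / r) (b - t * r) j hj
  have hτ : ∀ l : Fin (b - t * r), ∃ τ : Perm (Fin a), τ ^ r = 1 ∧ τ.support.card = i l * r := fun l =>
    exists_rperm hr (by rw [Fintype.card_fin]; exact (Nat.le_div_iff_mul_le hr.pos).1 (hi l))
  choose τ hτ1 hτ2 using hτ
  let eB : ((Fin t × ZMod r) ⊕ Fin (b - t * r)) ≃ Fin b := Fintype.equivOfCardEq (by simp; omega)
  let P : Perm (((Fin a × Fin t) × ZMod r) ⊕ (Fin (b - t * r) × Fin a)) :=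
    Equiv.sumCongr (shift (Fin a × Fin t) r) (Equiv.prodCongrRight τ)
  have hτpow : ∀ n : ℕ, ∀ x : Fin (b - t * r) × Fin a, (Equiv.prodCongrRight τ ^ n) x = (x.1, (τ x.1 ^ n) x.2) := by
    intro n
    induction n with
    | zero => simp
    | succ n ih => intro x; rw [pow_succ', Perm.mul_apply, ih, pow_succ', Perm.mul_apply]; rfl
  have hP : P ^ r = 1 := by
    rw [sumCongr_pow, shift_pow]
    ext (x | x)
    · simp
    · show Sum.inr _ = Sum.inr _
      rw [hτpow, hτ1]; simp
  have hPc : Nat.card {x // P x ≠ x} = (t * a + j) * r := by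
    rw [card_moved_sum, card_moved_shift, Nat.card_congr (α := {x // Equiv.prodCongrRight τ x ≠ x}) (β := Σ l, {x // τ l x ≠ x})
      { toFun := fun x => ⟨x.1.1, x.1.2, fun h => x.2 (Prod.ext rfl h)⟩
        invFun := fun x => ⟨(x.1, x.2.1), fun h => x.2.2 (congrArg Prod.snd h)⟩
        left_inv := fun x => rfl
        right_inv := fun x => rfl }, Nat.card_sigma, Finset.sum_congr rfl (fun l _ => by rw [← card_moved, hτ2]),
      ← Finset.sum_mul, hij, Nat.card_prod, Nat.card_fin, Nat.card_fin]
    ring
  let e : (((Fin a × Fin t) × ZMod r) ⊕ (Fin (b - t * r) × Fin a)) ≃ Fin (a * b) := Fintype.equivOfCardEq (by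
    simp
    obtain ⟨c, rfl⟩ := Nat.exists_eq_add_of_le ht
    rw [Nat.add_sub_cancel_left]; ring)
  have hQ : e.permCongr P ^ r = 1 := by rw [permCongr_pow, hP]; ext; simp
  have hQc : (e.permCongr P).support.card = σ.support.card := by
    rw [hk, card_moved, ← hPc]
    exact Nat.card_congr (e.symm.subtypeEquiv fun x => by rw [ne_eq, ne_eq, not_iff_not, Equiv.permCongr_apply, ← e.eq_symm_apply])
  obtain ⟨g, hg⟩ := isConj_iff.1 (conj_of hr hQ hσ hQc)
  let F : (((Fin a × Fin t) × ZMod r) ⊕ (Fin (b - t * r) × Fin a)) → Fin b := fun x =>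
    eB (Sum.map (fun z => (z.1.2, z.2)) (fun z => z.1) x)
  have hF : ∀ l, Nat.card {x // F x = l} = a := by
    intro l
    refine Eq.trans ?_ (Nat.card_fin a)
    rcases hl : eB.symm l with z | z <;> refine Nat.card_congr ?_
    · refine { toFun := fun x => Sum.elim (fun w => w.1.1) (fun w => w.2) x.1
               invFun := fun w => ⟨Sum.inl ((w, z.1), z.2), by simp only [F, Sum.map_inl]; rw [← eB.eq_symm_apply, hl]⟩
               left_inv := fun x => ?_
               right_inv := fun w => rfl }
      obtain ⟨x | x, hx⟩ := x <;> simp only [F, Sum.map_inl, Sum.map_inr, ← eB.eq_symm_apply, hl] at hx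
      · cases Sum.inl.inj hx; rfl
      · cases hx
    · refine { toFun := fun x => Sum.elim (fun w => w.1.1) (fun w => w.2) x.1
               invFun := fun w => ⟨Sum.inr (z, w), by simp only [F, Sum.map_inr]; rw [← eB.eq_symm_apply, hl]⟩
               left_inv := fun x => ?_
               right_inv := fun w => rfl }
      obtain ⟨x | x, hx⟩ := x <;> simp only [F, Sum.map_inl, Sum.map_inr, ← eB.eq_symm_apply, hl] at hx
      · cases hx
      · cases Sum.inr.inj hx; rfl
  refine ⟨fun x => F (e.symm (g⁻¹ x)), fun l => ?_, eB.permCongr (Equiv.sumCongr (shift (Fin t) r) 1), fun x => ?_⟩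
  · refine Eq.trans ?_ (hF l)
    exact Nat.card_congr ((g⁻¹.trans e.symm).subtypeEquiv fun x => Iff.rfl)
  · rw [← hg]
    simp only [Perm.mul_apply, Equiv.permCongr_apply, Perm.inv_def, Equiv.symm_apply_apply]
    rcases e.symm (g⁻¹ x) with z | z <;> simp [F, P, shift]

theorem bfac {a : ℕ} (ha : a ≠ 0) : ∀ b : ℕ, a.factorial ^ b * b.factorial ∣ (a * b).factorial
  | b => ⟨Nat.uniformBell b a, by rw [mul_comm a b, ← Nat.uniformBell_mul_eq b ha]; ring⟩

/-- Let a, b ≥ 2 and consider the symmetric group of degree a·b acting on the partitions of an (a·b)-set into b parts of size a (encoded as maps onto a b-element set all of whose fibres have a elements; a permutation fixes such a partition when it permutes the fibres). Let r be a prime dividing the number (ab)!/((a!)^b·b!) of such partitions, and let ℓ and k be the remainders of a and b modulo r. Then every permutation of order r fixes some such partition if and only if r ≤ a and one of the following holds: ℓ = 0; or k = 0 and ℓ = 1; or ℓ and k are non-zero, k·ℓ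 < r, and either b < r or (k + r)·ℓ ≤ k·a + r. -/
theorem result (a b : ℕ) (ha : 2 ≤ a) (hb : 2 ≤ b) (r : ℕ) (hr : r.Prime)
    (hrd : r ∣ (a * b).factorial / (a.factorial ^ b * b.factorial)) :
    (∀ σ : Equiv.Perm (Fin (a * b)), orderOf σ = r →
        ∃ f : Fin (a * b) → Fin b, (∀ j : Fin b, Nat.card {x : Fin (a * b) // f x = j} = a) ∧
          ∃ π : Equiv.Perm (Fin b), ∀ x : Fin (a * b), f (σ x) = π (f x)) ↔
      (r ≤ a ∧ (a % r = 0 ∨ (b % r = 0 ∧ a % r = 1) ∨
        (a % r ≠ 0 ∧ b % r ≠ 0 ∧ (b % r) * (a % r) < r ∧ (b < r ∨ (b % r + r) * (a % r) ≤ (b % r) * a + r)))) := by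
  classical
  haveI := Fact.mk hr
  haveI := NeZero.of_pos hr.pos
  have hrab : r ≤ a * b := by
    have h1 : r ∣ (a * b).factorial := hrd.trans (Nat.div_dvd_of_dvd (bfac (by omega) b))
    exact (Nat.Prime.dvd_factorial hr).1 h1
  rw [← cover_iff hr.two_le ha hb hrab]
  constructor
  · intro H k hk hkr
    obtain ⟨σ, hσ, hσc⟩ := exists_rperm (X := Fin (a * b)) hr (k := k) (by simpa using hkr)
    have hne : σ ≠ 1 := fun e => by
      rw [e, Perm.support_one, Finset.card_empty] at hσc
      rcases Nat.mul_eq_zero.1 hσc.symm with h | h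
      · omega
      · exact hr.ne_zero h
    obtain ⟨f, hf, π, hπ⟩ := H σ (orderOf_eq_prime hσ hne)
    exact cover_of hr σ hσ hσc (Nat.card_fin b) f hf π hπ
  · intro H σ hσ
    have hσr : σ ^ r = 1 := hσ ▸ pow_orderOf_eq_one σ
    obtain ⟨k, -, hk⟩ := cycleType_rep hr hσr
    refine of_cover hr (H k ?_ ?_) σ hσr hk
    · rcases Nat.eq_zero_or_pos k with rfl | h
      · rw [zero_mul, Finset.card_eq_zero, Perm.support_eq_empty_iff] at hk
        rw [hk, orderOf_one] at hσ
        exact absurd hσ hr.one_lt.ne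
      · exact h
    · rw [← hk]; simpa using Finset.card_le_univ σ.support

end Cfsg.Agent.S3575
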