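import Cfsg.Statements.S3580
import Cfsg.Agent.Lib.Praeger.SylowFix

set_option autoImplicit false
open Cfsg

namespace Cfsg.Agent.S3580

/-- Let G act faithfully and transitively on a finite set Ω, let p be an odd prime dividing the order of G and P a Sylow p-subgroup of G. Then the number of orbits of P on Ω is at most (p/(2p − 1))·(number of points). -/
theorem result {G Ω : Type*} [Group G] [Finite G] [MulAction G Ω] [FaithfulSMul G Ω] [Finite Ω]
    (htrans : MulAction.IsPretransitive G Ω) (p : ℕ) [Fact p.Prime] (hp2 : p ≠ 2) (hpG : p ∣ Nat.card G)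
    (P : Sylow p G) :
    (2 * p - 1) * Nat.card (MulAction.orbitRel.Quotient ↥(P : Subgroup G) Ω) ≤ p * Nat.card Ω := by
  classical
  letI := Fintype.ofFinite G
  letI := Fintype.ofFinite Ω
  letI := Fintype.ofFinite (Sylow p G)
  set K := Cfsg.Agent.Praeger.pg p (⊤ : Subgroup G) with hK
  have hKp : Cfsg.Agent.Praeger.pg p K = K := Cfsg.Agent.Praeger.pg_pg p _
  have hKn : K.Normal := ⟨fun x hx g => by
    have h : Cfsg.Agent.Praeger.cj g K = K := by
      rw [hK, Cfsg.Agent.Praeger.cj_pg]
      congr 1
      exact Cfsg.Agent.Praeger.cj_eq_self_of_mem (Subgroup.mem_top g)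
    rw [← h, Cfsg.Agent.Praeger.mem_cj]
    simpa [mul_assoc] using hx⟩
  have hsylK : ∀ Q : Sylow p G, (Q : Subgroup G) ≤ K := fun Q =>
    Cfsg.Agent.Praeger.le_pg_of_le p Q le_top
  have hproper : ∀ a : Ω, MulAction.stabilizer G a ⊓ K ≠ K := by
    intro a h
    have hKtriv : ∀ x ∈ K, x = 1 := by
      intro x hx
      refine FaithfulSMul.eq_of_smul_eq_smul (α := Ω) fun b => ?_
      obtain ⟨g, rfl⟩ := htrans.exists_smul_eq a b
      have h1 : g⁻¹ * x * g ∈ MulAction.stabilizer G a := by
        have h2 : g⁻¹ * x * g ∈ K := by simpa using hKn.conj_mem x hx g⁻¹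
        exact (h.symm.le h2).1
      rw [MulAction.mem_stabilizer_iff, mul_smul, mul_smul, inv_smul_eq_iff] at h1
      rw [h1, one_smul]
    have hbot : (P : Subgroup G) = ⊥ := (Subgroup.eq_bot_iff_forall _).2 fun x hx =>
      hKtriv x (hsylK P hx)
    have := P.ne_bot_of_dvd_card hpG
    exact this hbot
  -- double counting
  have hdc := Finset.sum_card_bipartiteAbove_eq_sum_card_bipartiteBelow
    (r := fun (a : Ω) (Q : Sylow p G) => (Q : Subgroup G) ≤ MulAction.stabilizer G a)
    (s := (Finset.univ : Finset Ω)) (t := (Finset.univ : Finset (Sylow p G)))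
  set f := ((Finset.univ : Finset Ω).filter fun a => (P : Subgroup G) ≤ MulAction.stabilizer G a).card
    with hf
  have hr : ∀ Q ∈ (Finset.univ : Finset (Sylow p G)), ((Finset.univ : Finset Ω).bipartiteBelow
      (fun (a : Ω) (Q : Sylow p G) => (Q : Subgroup G) ≤ MulAction.stabilizer G a) Q).card = f := by
    intro Q _
    obtain ⟨g, rfl⟩ := MulAction.exists_smul_eq G P Q
    have key : ∀ a : Ω, ((g • P : Sylow p G) : Subgroup G) ≤ MulAction.stabilizer G (g • a) ↔
        (P : Subgroup G) ≤ MulAction.stabilizer G a := by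
      intro a
      rw [MulAction.stabilizer_smul_eq_stabilizer_map_conj]
      exact Cfsg.Agent.Praeger.cj_le_cj
    refine Finset.card_bij' (fun a _ => g⁻¹ • a) (fun a _ => g • a) ?_ ?_ ?_ ?_
    · intro a ha
      simp only [Finset.mem_bipartiteBelow, Finset.mem_univ, true_and, Finset.mem_filter] at ha ⊢
      rw [← key, smul_inv_smul]; exact ha
    · intro a ha
      simp only [Finset.mem_bipartiteBelow, Finset.mem_univ, true_and, Finset.mem_filter] at ha ⊢
      exact (key a).2 ha
    · intro a _; exact smul_inv_smul g a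
    · intro a _; exact inv_smul_smul g a
  rw [Finset.sum_congr rfl hr, Finset.sum_const, smul_eq_mul] at hdc
  have hl : ∀ a ∈ (Finset.univ : Finset Ω), (2 * p - 1) *
      ((Finset.univ : Finset (Sylow p G)).bipartiteAbove
        (fun (a : Ω) (Q : Sylow p G) => (Q : Subgroup G) ≤ MulAction.stabilizer G a) a).card ≤
      (p - 1) * (Finset.univ : Finset (Sylow p G)).card := by
    intro a _
    have h := Cfsg.Agent.Praeger.sCount_le p hKp inf_le_right (hproper a)
    unfold Cfsg.Agent.Praeger.sCount at h
    convert h using 3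
    · ext Q
      simp only [Finset.mem_bipartiteAbove, Finset.mem_filter, Finset.mem_univ, true_and,
        le_inf_iff]
      exact ⟨fun h => ⟨h, hsylK Q⟩, fun h => h.1⟩
    · ext Q; simp [hsylK Q]
  have hsum := Finset.sum_le_sum hl
  rw [← Finset.mul_sum, hdc, Finset.sum_const, smul_eq_mul] at hsum
  have hN : 0 < (Finset.univ : Finset (Sylow p G)).card := Finset.card_pos.2 ⟨P, Finset.mem_univ _⟩
  have hbound : (2 * p - 1) * f ≤ (p - 1) * Nat.card Ω := by
    rw [Nat.card_eq_fintype_card, ← Finset.card_univ]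
    refine Nat.le_of_mul_le_mul_left ?_ hN
    calc (Finset.univ : Finset (Sylow p G)).card * ((2 * p - 1) * f)
        = (2 * p - 1) * ((Finset.univ : Finset (Sylow p G)).card * f) := by ring
      _ ≤ _ := hsum
      _ = _ := by ring
  -- orbit counting
  letI := Fintype.ofFinite (MulAction.orbitRel.Quotient ↥(P : Subgroup G) Ω)
  have horb : p * Nat.card (MulAction.orbitRel.Quotient ↥(P : Subgroup G) Ω) ≤
      Nat.card Ω + (p - 1) * f := by
    have hs : Nat.card Ω = ∑ q : MulAction.orbitRel.Quotient ↥(P : Subgroup G) Ω,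
        Nat.card q.orbit := by
      rw [← Nat.card_sigma]
      exact Nat.card_congr (MulAction.selfEquivSigmaOrbits' ↥(P : Subgroup G) Ω)
    let Q1 := (Finset.univ : Finset (MulAction.orbitRel.Quotient ↥(P : Subgroup G) Ω)).filter
      fun q => Nat.card q.orbit = 1
    have hQ1 : Q1.card ≤ f := by
      refine Finset.card_le_card_of_injOn (fun q => q.out) ?_ fun q _ q' _ h => Quotient.out_injective h
      intro q hq
      simp only [Q1, Finset.coe_filter, Finset.mem_univ, true_and] at hq
      simp only [Finset.coe_filter, Finset.mem_univ, true_and]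
      intro x hx
      rw [MulAction.mem_stabilizer_iff]
      have h2 : q.out ∈ q.orbit := by
        rw [MulAction.orbitRel.Quotient.orbit_eq_orbit_out q Quotient.out_eq']
        exact MulAction.mem_orbit_self _
      have h3 : (⟨x, hx⟩ : ↥(P : Subgroup G)) • q.out ∈ q.orbit := by
        rw [MulAction.orbitRel.Quotient.orbit_eq_orbit_out q Quotient.out_eq']
        exact MulAction.mem_orbit _ _
      obtain ⟨hsub, -⟩ := Nat.card_eq_one_iff_unique.1 hq
      exact congrArg Subtype.val (hsub.elim ⟨_, h3⟩ ⟨_, h2⟩)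
    have hge : ∀ q : MulAction.orbitRel.Quotient ↥(P : Subgroup G) Ω,
        p ≤ Nat.card q.orbit + (if Nat.card q.orbit = 1 then p - 1 else 0) := by
      intro q
      have hp1 := (Fact.out : p.Prime).one_lt
      split_ifs with h
      · omega
      · have h' : ∃ n, Nat.card q.orbit = p ^ n := by
          rw [MulAction.orbitRel.Quotient.orbit_eq_orbit_out q Quotient.out_eq']
          exact P.isPGroup'.card_orbit q.out
        obtain ⟨n, hn⟩ := h'
        rcases n with _ | n
        · exact absurd (hn.trans (pow_zero p)) h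
        · rw [hn, Nat.add_zero]; exact Nat.le_self_pow (by omega) p
    have hsum2 := Finset.sum_le_sum (s := Finset.univ) fun q _ => hge q
    rw [Finset.sum_const, Finset.card_univ, smul_eq_mul, Finset.sum_add_distrib, ← hs,
      ← Finset.sum_filter, Finset.sum_const, smul_eq_mul] at hsum2
    rw [Nat.card_eq_fintype_card (α := MulAction.orbitRel.Quotient ↥(P : Subgroup G) Ω)]
    calc p * Fintype.card (MulAction.orbitRel.Quotient ↥(P : Subgroup G) Ω)
        = Fintype.card (MulAction.orbitRel.Quotient ↥(P : Subgroup G) Ω) * p := mul_comm _ _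
      _ ≤ _ := hsum2
      _ ≤ Nat.card Ω + (p - 1) * f := by
          rw [mul_comm (p - 1) f]; exact Nat.add_le_add_left (Nat.mul_le_mul_right _ hQ1) _
  obtain ⟨m, rfl⟩ : ∃ m, p = m + 1 := ⟨p - 1, by have := (Fact.out : p.Prime).pos; omega⟩
  have e1 : 2 * (m + 1) - 1 = 2 * m + 1 := by omega
  simp only [e1, Nat.add_sub_cancel] at *
  nlinarith

end Cfsg.Agent.S3580
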