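import Cfsg.Statements.S3599
import Cfsg.Agent.Lib.Recog.FieldFrobenius
-- import your own Cfsg.Agent.* helpers here

set_option autoImplicit false
open Cfsg

namespace Cfsg.Agent.S3599

open Cfsg.Lib.Recog.FieldFrobenius

theorem exists_factor (a b : ℕ) (ha : a.Prime) (hb : b.Prime) (hab : a ≠ b) :
    ∃ (X : Type) (_ : Group X) (_ : Fintype X) (d : ℕ), Nat.card X = a ^ d * b ∧ d ≠ 0 ∧ (d = 1 → b < a) ∧
      Set.range (orderOf : X → ℕ) = {n | n = 1 ∨ n = a ∨ n = b} ∧
      (∀ H : Subgroup X, (∃ x ∈ H, orderOf x = a) → (∃ y ∈ H, orderOf y = b) → H = ⊤) ∧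
      (∀ N : Subgroup X, N.Normal → N ≠ ⊥ → a ^ d ∣ Nat.card N) := by
  haveI := Fact.mk ha
  haveI := Fact.mk hb
  obtain ⟨d, hd0, hdvd, hmin, hd1⟩ := exists_zeta a b hb hab
  have hK : Nat.card (GaloisField a d) = a ^ d := GaloisField.card a d hd0
  obtain ⟨g, hg⟩ := IsCyclic.exists_ofOrder_eq_natCard (α := (GaloisField a d)ˣ)
  set U := Subgroup.zpowers (g ^ (orderOf g / b)) with hUdef
  have hU : Nat.card U = b := by
    rw [hUdef, Nat.card_zpowers, orderOf_pow_orderOf_div (orderOf_pos g).ne' (hg ▸ (by rwa [Nat.card_units, hK]))]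
  obtain ⟨hfin, -, hr⟩ := range_aff a U
  obtain ⟨hsub, hnorm⟩ := minimal a b d hK hmin U hU
  refine ⟨Aff U, inferInstance, Fintype.ofFinite _, d, ?_, hd0, hd1, ?_, fun H h1 h2 => hsub H h1 h2 hab, fun N hN hne => ?_⟩
  · rw [Nat.card_congr SemidirectProduct.equivProd, Nat.card_prod, hU,
      show Nat.card (Multiplicative (GaloisField a d)) = Nat.card (GaloisField a d) from rfl, hK]
  · rw [hr, hU]
    ext n
    show n = a ∨ n ∣ b ↔ n = 1 ∨ n = a ∨ n = b
    rw [Nat.dvd_prime hb]; tauto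
  · have hinj : Function.Injective fun v : Multiplicative (GaloisField a d) => (⟨_, hnorm N hN hne v⟩ : N) :=
      fun v w h => SemidirectProduct.inl_injective (congrArg Subtype.val h)
    let f : Multiplicative (GaloisField a d) →* N :=
      MonoidHom.mk' (fun v => ⟨_, hnorm N hN hne v⟩) fun v w => Subtype.ext (map_mul _ v w)
    have h := Subgroup.card_dvd_of_injective f hinj
    rwa [show Nat.card (Multiplicative (GaloisField a d)) = Nat.card (GaloisField a d) from rfl, hK] at h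

theorem orderOf_pi {ι : Type*} [Fintype ι] {X : ι → Type*} [∀ j, Group (X j)] (x : ∀ j, X j)
    (h : Pairwise (Function.onFun Nat.Coprime fun j => orderOf (x j))) : orderOf x = ∏ j, orderOf (x j) := by
  refine Nat.dvd_antisymm (orderOf_dvd_of_pow_eq_one (funext fun j => ?_)) ?_
  · exact orderOf_dvd_iff_pow_eq_one.1 (Finset.dvd_prod_of_mem _ (Finset.mem_univ j))
  · have key : ∀ t : Finset ι, ∏ j ∈ t, orderOf (x j) ∣ orderOf x := by
      intro t
      classical
      induction t using Finset.induction_on with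
      | empty => simp
      | insert a t ha ih =>
        rw [Finset.prod_insert ha]
        refine Nat.Coprime.mul_dvd_of_dvd_of_dvd (Nat.Coprime.prod_right fun j hj => h fun e => ha (e ▸ hj)) ?_ ih
        exact orderOf_map_dvd (Pi.evalMonoidHom X a) x
    exact key Finset.univ

/-- A finite group is critical with respect to a set Ω of natural numbers when its set of element orders is Ω while no proper section H/N (H a subgroup, N normal in H, (H, N) ≠ (whole group, 1)) has Ω as its set of element orders. Let s ≥ 1 and let p(j,0), p(j,1) (j < s) be 2s pairwise distinct primes, and let Ω be the set of all products c(0)·…·c(s−1) with each c(j) ∈ {1, p(j,0), p(j,1)}. Then there are 2^s pairwise non-isomorphic finite groups critical with respect to Ω. -/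
theorem result (s : ℕ) (hs : 1 ≤ s) (p : Fin s → Fin 2 → ℕ)
    (hp : ∀ j i, (p j i).Prime) (hinj : ∀ j i j' i', p j i = p j' i' → j = j' ∧ i = i') :
    ∃ (G : Fin (2 ^ s) → Type) (_ : ∀ a, Group (G a)) (_ : ∀ a, Fintype (G a)),
      (∀ a b, a ≠ b → ¬ Nonempty (G a ≃* G b)) ∧
      ∀ a, Set.range (orderOf : (G a) → ℕ) = {m : ℕ | ∃ c : Fin s → ℕ, (∀ j, c j = 1 ∨ c j = p j 0 ∨ c j = p j 1) ∧ m = ∏ j, c j} ∧
      ∀ (H : Subgroup (G a)) (N : Subgroup ↥H) [N.Normal], (H ≠ ⊤ ∨ N ≠ ⊥) → Set.range (orderOf : (↥H ⧸ N) → ℕ) ≠ {m : ℕ | ∃ c : Fin s → ℕ, (∀ j, c j = 1 ∨ c j = p j 0 ∨ c j = p j 1) ∧ m = ∏ j, c j} := by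
  classical
  have h12 : ∀ i : Fin 2, i ≠ i + 1 ∧ i + 1 + 1 = i ∧ ∀ i', i ≠ i' → i' = i + 1 := by decide
  let e : Fin (2 ^ s) ≃ (Fin s → Fin 2) := finFunctionFinEquiv.symm
  have hne : ∀ j (i : Fin 2), p j i ≠ p j (i + 1) := fun j i h => by
    exact (h12 i).1 (hinj j i j (i + 1) h).2
  have hX := fun (j : Fin s) (i : Fin 2) => exists_factor (p j i) (p j (i + 1)) (hp j i) (hp j (i + 1)) (hne j i)
  choose X grX fX d hcard hd0 hd1 hrange hgen hnorm using hX
  letI := grX
  letI := fX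
  have hrange' : ∀ j i n, (n ∈ Set.range (orderOf : X j i → ℕ)) ↔ (n = 1 ∨ n = p j 0 ∨ n = p j 1) := by
    intro j i n
    rw [hrange]
    show n = 1 ∨ n = p j i ∨ n = p j (i + 1) ↔ _
    fin_cases i
    · exact Iff.rfl
    · exact ⟨fun h => h.imp_right Or.symm, fun h => h.imp_right Or.symm⟩
  have hdis : ∀ j k, j ≠ k → ∀ i i', p j i ≠ p k i' := fun j k hjk i i' h => hjk (hinj j i k i' h).1
  have hcases : ∀ j (c : ℕ), (c = 1 ∨ c = p j 0 ∨ c = p j 1) → ∀ k i, j ≠ k → ¬ p k i ∣ c := by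
    intro j c hc k i hjk hd
    rcases hc with rfl | rfl | rfl
    · exact (hp k i).ne_one (Nat.dvd_one.1 hd)
    · exact hdis k j (Ne.symm hjk) i 0 ((Nat.prime_dvd_prime_iff_eq (hp k i) (hp j 0)).1 hd)
    · exact hdis k j (Ne.symm hjk) i 1 ((Nat.prime_dvd_prime_iff_eq (hp k i) (hp j 1)).1 hd)
  have hcop : ∀ c : Fin s → ℕ, (∀ j, c j = 1 ∨ c j = p j 0 ∨ c j = p j 1) → Pairwise (Function.onFun Nat.Coprime c) := by
    intro c hc j k hjk
    show Nat.Coprime (c j) (c k)
    rcases hc k with h | h | h <;> rw [h]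
    · exact Nat.coprime_one_right _
    · exact Nat.Coprime.symm ((hp k 0).coprime_iff_not_dvd.2 (hcases j _ (hc j) k 0 hjk))
    · exact Nat.Coprime.symm ((hp k 1).coprime_iff_not_dvd.2 (hcases j _ (hc j) k 1 hjk))
  have hsplit : ∀ (σ : Fin s → Fin 2) (k : Fin s) (i : Fin 2), ∃ m, Nat.card (∀ j, X j (σ j)) = Nat.card (X k (σ k)) * m ∧ ¬ p k i ∣ m := by
    intro σ k i
    refine ⟨∏ j ∈ Finset.univ.erase k, Nat.card (X j (σ j)), by rw [Nat.card_pi]; exact (Finset.mul_prod_erase _ (fun j => Nat.card (X j (σ j))) (Finset.mem_univ k)).symm, fun hd => ?_⟩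
    obtain ⟨j, hj, hjd⟩ := (hp k i).prime.exists_mem_finset_dvd hd
    rw [hcard] at hjd
    rcases (hp k i).dvd_mul.1 hjd with h | h
    · exact hdis k j (Finset.ne_of_mem_erase hj).symm i _ ((Nat.prime_dvd_prime_iff_eq (hp k i) (hp _ _)).1 ((hp k i).dvd_of_dvd_pow h))
    · exact hdis k j (Finset.ne_of_mem_erase hj).symm i _ ((Nat.prime_dvd_prime_iff_eq (hp k i) (hp _ _)).1 h)
  have hexp : ∀ {P E E' m m' : ℕ}, P.Prime → ¬ P ∣ m → ¬ P ∣ m' → P ^ E * m = P ^ E' * m' → E = E' := by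
    intro P E E' m m' hP h h' he
    haveI := Fact.mk hP
    have h1 := congrArg (padicValNat P) he
    rw [padicValNat.mul (pow_ne_zero _ hP.ne_zero) (fun e => h (by rw [e]; exact dvd_zero P)),
      padicValNat.mul (pow_ne_zero _ hP.ne_zero) (fun e => h' (by rw [e]; exact dvd_zero P)), padicValNat.prime_pow, padicValNat.prime_pow,
      padicValNat.eq_zero_of_not_dvd h, padicValNat.eq_zero_of_not_dvd h'] at h1
    omega
  refine ⟨fun a => ∀ j, X j (e a j), inferInstance, inferInstance, fun a b hab => ?_, fun a => ⟨?_, ?_⟩⟩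
  · rintro ⟨φ⟩
    obtain ⟨k, hk⟩ := Function.ne_iff.1 (fun h => hab (e.injective h))
    have hbk := (h12 _).2.2 _ hk
    have hcc := Nat.card_congr φ.toEquiv
    set i := e a k with hi
    obtain ⟨m, hm, hm'⟩ := hsplit (e a) k i
    obtain ⟨n, hn, hn'⟩ := hsplit (e b) k i
    rw [← hi, hcard] at hm
    rw [hbk, hcard] at hn
    have hd : d k i = 1 := by
      have hii : i + 1 + 1 = i := (h12 i).2.1
      refine hexp (hp k i) (m := p k (i + 1) * m) (m' := p k (i + 1) ^ d k (i + 1) * n) ?_ ?_ ?_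
      · exact fun h => ((hp k i).dvd_mul.1 h).elim (fun h => hne k i ((Nat.prime_dvd_prime_iff_eq (hp _ _) (hp _ _)).1 h)) hm'
      · exact fun h => ((hp k i).dvd_mul.1 h).elim (fun h => hne k i ((Nat.prime_dvd_prime_iff_eq (hp _ _) (hp _ _)).1 ((hp k i).dvd_of_dvd_pow h))) hn'
      · rw [hii] at hn
        rw [← mul_assoc, ← hm, hcc, hn, pow_one]; ring
    set i' := i + 1 with hi'
    have hii : i' + 1 = i := (h12 i).2.1
    obtain ⟨m, hm, hm'⟩ := hsplit (e a) k i'
    obtain ⟨n, hn, hn'⟩ := hsplit (e b) k i'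
    rw [← hi, hcard, hd, pow_one] at hm
    rw [hbk, hcard, hii] at hn
    have hd' : d k i' = 1 := by
      refine hexp (hp k i') (m := p k i * n) (m' := p k i * m) ?_ ?_ ?_
      · exact fun h => ((hp k i').dvd_mul.1 h).elim (fun h => hne k i ((Nat.prime_dvd_prime_iff_eq (hp _ _) (hp _ _)).1 h).symm) hn'
      · exact fun h => ((hp k i').dvd_mul.1 h).elim (fun h => hne k i ((Nat.prime_dvd_prime_iff_eq (hp _ _) (hp _ _)).1 h).symm) hm'
      · rw [← mul_assoc, ← hn, ← hcc, hm, pow_one]; ring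
    have l1 := hd1 k i hd
    have l2 := hd1 k i' hd'
    rw [hii] at l2
    exact lt_irrefl _ (lt_trans l1 l2)
  · ext m
    constructor
    · rintro ⟨x, rfl⟩
      have hc : ∀ j, orderOf (x j) = 1 ∨ orderOf (x j) = p j 0 ∨ orderOf (x j) = p j 1 := fun j => (hrange' _ _ _).1 ⟨x j, rfl⟩
      exact ⟨fun j => orderOf (x j), hc, orderOf_pi x (hcop _ hc)⟩
    · rintro ⟨c, hc, rfl⟩
      choose x hx using fun j => (hrange' j (e a j) (c j)).2 (hc j)
      exact ⟨x, by rw [orderOf_pi x (by simpa only [hx] using hcop c hc)]; simp only [hx]⟩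
  · intro H N hN hHN heq
    have hmemM : ∀ k i, ∃ q : ↥H ⧸ N, orderOf q = p k i := by
      intro k i
      have : p k i ∈ Set.range (orderOf : (↥H ⧸ N) → ℕ) := by
        rw [heq]
        refine ⟨Function.update (fun _ => 1) k (p k i), fun j => ?_, ?_⟩
        · by_cases hj : j = k
          · subst hj; rw [Function.update_self]; fin_cases i <;> simp
          · rw [Function.update_of_ne hj]; exact Or.inl rfl
        · rw [Finset.prod_eq_single k (fun j _ hj => Function.update_of_ne hj _ _) (fun h => absurd (Finset.mem_univ k) h), Function.update_self]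
      exact this
    have hsupp : ∀ (x : ∀ j, X j (e a j)) k i, orderOf x = p k i → x = Pi.mulSingle k (x k) ∧ orderOf (x k) = p k i := by
      intro x k i hx
      have hone : ∀ j, j ≠ k → x j = 1 := fun j hj => by
        refine orderOf_eq_one_iff.1 ?_
        have h1 : orderOf (x j) ∣ p k i := hx ▸ orderOf_map_dvd (Pi.evalMonoidHom (fun j => X j (e a j)) j) x
        rcases (Nat.dvd_prime (hp k i)).1 h1 with h | h
        · exact h
        · exact absurd (dvd_of_eq h.symm) (hcases j _ ((hrange' _ _ _).1 ⟨x j, rfl⟩) k i hj)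
      have he : x = Pi.mulSingle k (x k) := funext fun j => by
        by_cases hj : j = k
        · subst hj; rw [Pi.mulSingle_eq_same]
        · rw [Pi.mulSingle_eq_of_ne hj, hone j hj]
      refine ⟨he, ?_⟩
      rw [← orderOf_injective (MonoidHom.mulSingle (fun j => X j (e a j)) k) (fun u v h => by simpa using congrFun h k)]
      exact (congrArg orderOf he).symm.trans hx
    have hHtop : H = ⊤ := by
      have hel : ∀ k i, ∃ x, Pi.mulSingle k x ∈ H ∧ orderOf x = p k i := by
        intro k i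
        obtain ⟨q, hq⟩ := hmemM k i
        haveI := Fact.mk (hp k i)
        have hd : p k i ∣ Nat.card H := by
          rw [← hq]; exact (orderOf_dvd_natCard q).trans (Subgroup.card_quotient_dvd_card N)
        obtain ⟨h, hh⟩ := exists_prime_orderOf_dvd_card' (p k i) hd
        rw [← Subgroup.orderOf_coe] at hh
        obtain ⟨he, ho⟩ := hsupp h.1 k i hh
        exact ⟨h.1 k, he ▸ h.2, ho⟩
      refine eq_top_iff.2 fun x _ => Subgroup.pi_mem_of_mulSingle_mem x fun k => ?_
      have htop : H.comap (MonoidHom.mulSingle (fun j => X j (e a j)) k) = ⊤ := by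
        obtain ⟨x1, h1, o1⟩ := hel k (e a k)
        obtain ⟨x2, h2, o2⟩ := hel k (e a k + 1)
        exact hgen _ _ _ ⟨x1, h1, o1⟩ ⟨x2, h2, o2⟩
      have : x k ∈ H.comap (MonoidHom.mulSingle (fun j => X j (e a j)) k) := htop ▸ Subgroup.mem_top _
      exact this
    subst hHtop
    have hN' : N ≠ ⊥ := hHN.resolve_left fun h => h rfl
    obtain ⟨n, hn, hn1⟩ := (Subgroup.bot_or_exists_ne_one N).resolve_left hN'
    obtain ⟨P, hP, hPd⟩ := Nat.exists_prime_and_dvd (show orderOf n ≠ 1 from fun h => hn1 (orderOf_eq_one_iff.1 h))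
    set N' := N.map (⊤ : Subgroup (∀ j, X j (e a j))).subtype
    haveI hN'n : N'.Normal := hN.map _ fun g => ⟨⟨g, Subgroup.mem_top g⟩, rfl⟩
    obtain ⟨k, i, hki⟩ : ∃ k i, P = p k i := by
      have h1 : P ∣ Nat.card (∀ j, X j (e a j)) := by
        rw [← Subgroup.card_top]; exact hPd.trans (orderOf_dvd_natCard n)
      rw [Nat.card_pi] at h1
      obtain ⟨k, -, hk⟩ := hP.prime.exists_mem_finset_dvd h1
      rw [hcard] at hk
      rcases hP.dvd_mul.1 hk with h | h
      · exact ⟨k, _, (Nat.prime_dvd_prime_iff_eq hP (hp _ _)).1 (hP.dvd_of_dvd_pow h)⟩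
      · exact ⟨k, _, (Nat.prime_dvd_prime_iff_eq hP (hp _ _)).1 h⟩
    haveI := Fact.mk hP
    set y := ((n ^ (orderOf n / P) : (⊤ : Subgroup (∀ j, X j (e a j)))) : ∀ j, X j (e a j)) with hy
    have hyo : orderOf y = p k i := by
      rw [hy, Subgroup.orderOf_coe, orderOf_pow_orderOf_div (orderOf_pos n).ne' hPd, hki]
    obtain ⟨hye, hyk⟩ := hsupp y k i hyo
    have hcom : (N'.comap (MonoidHom.mulSingle (fun j => X j (e a j)) k)) ≠ ⊥ := fun h => by
      have h1 : y k ∈ N'.comap (MonoidHom.mulSingle (fun j => X j (e a j)) k) := by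
        show Pi.mulSingle k (y k) ∈ N'
        rw [← hye]; exact ⟨_, pow_mem hn _, rfl⟩
      rw [h, Subgroup.mem_bot] at h1
      rw [h1, orderOf_one] at hyk
      exact (hp k i).ne_one hyk.symm
    have hdvd := hnorm k (e a k) _ (hN'n.comap _) hcom
    have hcN : p k (e a k) ^ d k (e a k) ∣ Nat.card N := by
      have h1 : Nat.card N' = Nat.card N := Subgroup.card_map_of_injective Subtype.val_injective
      rw [← h1]
      refine hdvd.trans (Subgroup.card_dvd_of_injective ((MonoidHom.mulSingle (fun j => X j (e a j)) k).subgroupComap N') ?_)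
      intro u v h
      refine Subtype.ext ?_
      have h' := congrFun (congrArg Subtype.val h) k
      change Pi.mulSingle (M := fun j => X j (e a j)) k u.1 k = Pi.mulSingle (M := fun j => X j (e a j)) k v.1 k at h'
      rwa [Pi.mulSingle_eq_same, Pi.mulSingle_eq_same] at h'
    obtain ⟨q, hq⟩ := hmemM k (e a k)
    obtain ⟨m, hm, hm'⟩ := hsplit (e a) k (e a k)
    have h1 := N.card_mul_index
    rw [Subgroup.card_top, hm, hcard, Subgroup.index_eq_card] at h1
    obtain ⟨t, ht⟩ := hcN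
    obtain ⟨u, hu⟩ : p k (e a k) ∣ Nat.card (↥(⊤ : Subgroup (∀ j, X j (e a j))) ⧸ N) := hq ▸ orderOf_dvd_natCard q
    rw [ht, hu] at h1
    have h2 : p k (e a k) ^ (d k (e a k) + 1) ∣ p k (e a k) ^ d k (e a k) * (p k (e a k + 1) * m) :=
      ⟨t * u, by rw [← mul_assoc, ← h1, pow_succ]; ring⟩
    rw [pow_succ, Nat.mul_dvd_mul_iff_left (pow_pos (hp _ _).pos _)] at h2
    exact ((hp _ _).dvd_mul.1 h2).elim (fun h => hne k _ ((Nat.prime_dvd_prime_iff_eq (hp _ _) (hp _ _)).1 h)) hm'

end Cfsg.Agent.S3599
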