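import Cfsg.Statements.S3619
import Mathlib

set_option autoImplicit false
open Cfsg
open scoped Pointwise

namespace Cfsg.Agent.S3619

/-- Let G act faithfully on a finite set in such a way that every non-trivial normal subgroup of G is transitive (G is quasiprimitive). Let Γ be a subset with more than one point and not the whole set, such that the pointwise stabilizer of the complement of Γ acts transitively on Γ (a Jordan set). If that pointwise stabilizer acts primitively on Γ, then G is k-fold transitive where k is one more than the number of points outside Γ (the Jordan set is a trivial one). -/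
theorem result {G Ω : Type*} [Group G] [Finite G] [MulAction G Ω] [FaithfulSMul G Ω] [Finite Ω]
    (hqp : ∀ N : Subgroup G, N.Normal → N ≠ ⊥ → MulAction.IsPretransitive ↥N Ω)
    (Γ : Set Ω) (hΓ1 : 1 < Γ.ncard) (hΓ2 : Γ.ncard < Nat.card Ω)
    (hJ : MulAction.IsPretransitive ↥(fixingSubgroup G Γᶜ) ↥(SubMulAction.ofFixingSubgroup G Γᶜ))
    (hJp : MulAction.IsPreprimitive ↥(fixingSubgroup G Γᶜ) ↥(SubMulAction.ofFixingSubgroup G Γᶜ)) :
    MulAction.IsMultiplyPretransitive G Ω (Nat.card Ω - Γ.ncard + 1) := by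
  classical
  obtain ⟨γ₀, hγ₀, γ₁, hγ₁, hγne⟩ := (Set.one_lt_ncard (Set.toFinite Γ)).mp hΓ1
  have hmoved : ∀ x ∈ Γ, ∀ y ∈ Γ, ∃ j : G, (∀ z ∉ Γ, j • z = z) ∧ j • x = y := by
    intro x hx y hy
    obtain ⟨j, hj⟩ := hJ.exists_smul_eq ⟨x, fun h => h hx⟩ ⟨y, fun h => h hy⟩
    exact ⟨(j : G), fun z hz => (mem_fixingSubgroup_iff G).mp j.2 z hz, congrArg Subtype.val hj⟩
  have htop : (⊤ : Subgroup G) ≠ ⊥ := by
    intro h
    obtain ⟨j, -, hj⟩ := hmoved γ₀ hγ₀ γ₁ hγ₁
    have hj1 : j ∈ (⊥ : Subgroup G) := h ▸ Subgroup.mem_top j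
    rw [Subgroup.mem_bot] at hj1
    rw [hj1, one_smul] at hj
    exact hγne hj
  have htr : MulAction.IsPretransitive G Ω := by
    have := hqp ⊤ inferInstance htop
    exact ⟨fun x y => by
      obtain ⟨g, hg⟩ := this.exists_smul_eq x y
      exact ⟨g, hg⟩⟩
  have hprim : MulAction.IsPreprimitive G Ω := by
    refine { toIsPretransitive := htr, isTrivialBlock_of_isBlock := fun {B₀} hB₀ => ?_ }
    by_contra hcon
    rw [MulAction.IsTrivialBlock, not_or] at hcon
    obtain ⟨hns, hnu⟩ := hcon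
    -- translate the block to meet the set
    obtain ⟨b₀, hb₀, b₁, hb₁, hbne⟩ := Set.not_subsingleton_iff.mp hns
    obtain ⟨x, hx⟩ := htr.exists_smul_eq b₀ γ₀
    set B := x • B₀ with hBd
    have hB : MulAction.IsBlock G B := hB₀.translate x
    have hγB : γ₀ ∈ B := hx ▸ Set.smul_mem_smul_set hb₀
    -- the trace on the set
    let B' : Set ↥(SubMulAction.ofFixingSubgroup G Γᶜ) := {z | (z : Ω) ∈ B}
    have hB' : MulAction.IsBlock ↥(fixingSubgroup G Γᶜ) B' := by
      rw [MulAction.isBlock_iff_smul_eq_of_mem]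
      intro j z hz hjz
      have he : (j : G) • B = B := hB.smul_eq_of_mem hz hjz
      ext w
      rw [Set.mem_smul_set_iff_inv_smul_mem]
      show ((j⁻¹ • w : ↥(SubMulAction.ofFixingSubgroup G Γᶜ)) : Ω) ∈ B ↔ (w : Ω) ∈ B
      conv_rhs => rw [← he, Set.mem_smul_set_iff_inv_smul_mem]
      rfl
    rcases hJp.isTrivialBlock_of_isBlock hB' with hsub | huniv
    · -- a point of the block outside the set
      have hone : ∀ z ∈ Γ, z ∈ B → z = γ₀ := fun z hz hzB =>
        congrArg Subtype.val (hsub (x := ⟨z, fun h => h hz⟩) hzB (y := ⟨γ₀, fun h => h hγ₀⟩) hγB)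
      obtain ⟨w, hw, hwne⟩ : ∃ w ∈ B, w ≠ γ₀ :=
        ⟨x • b₁, Set.smul_mem_smul_set hb₁, fun h => hbne (smul_left_cancel x (h.trans hx.symm)).symm⟩
      have hwΓ : w ∉ Γ := fun h => hwne (hone w h hw)
      obtain ⟨j, hjf, hj⟩ := hmoved γ₀ hγ₀ γ₁ hγ₁
      have he : j • B = B := hB.smul_eq_of_mem hw (by rw [hjf w hwΓ]; exact hw)
      exact hγne (hone γ₁ hγ₁ (he ▸ hj ▸ Set.smul_mem_smul_set hγB)).symm
    · have hΓB : Γ ⊆ B := fun z hz => by
        have : (⟨z, fun h => h hz⟩ : ↥(SubMulAction.ofFixingSubgroup G Γᶜ)) ∈ B' := huniv ▸ Set.mem_univ _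
        exact this
      let N : Subgroup G := ⨅ g : G, MulAction.stabilizer G (g • B)
      have hNn : N.Normal := ⟨fun n hn y => by
        rw [Subgroup.mem_iInf] at hn ⊢
        intro g
        have h1 := hn (y⁻¹ * g)
        rw [MulAction.mem_stabilizer_iff] at h1 ⊢
        rw [← mul_smul] at h1 ⊢
        rw [show y * n * y⁻¹ * g = y * (n * (y⁻¹ * g)) by group, mul_smul, h1, ← mul_smul, mul_inv_cancel_left]⟩
      obtain ⟨j, hjf, hj⟩ := hmoved γ₀ hγ₀ γ₁ hγ₁
      have hjN : j ∈ N := by
        rw [Subgroup.mem_iInf]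
        intro g
        rw [MulAction.mem_stabilizer_iff]
        by_cases hgB : g • B = B
        · rw [hgB]
          exact hB.smul_eq_of_mem hγB (by rw [hj]; exact hΓB hγ₁)
        · have hdis : Disjoint (g • B) B := by
            simpa using hB (g₁ := g) (g₂ := 1) (by simpa using hgB)
          ext z
          constructor
          · rintro ⟨u, hu, rfl⟩
            show j • u ∈ g • B
            rwa [hjf u fun h => Set.disjoint_left.mp hdis hu (hΓB h)]
          · intro hz
            exact ⟨z, hz, hjf z fun h => Set.disjoint_left.mp hdis hz (hΓB h)⟩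
      have hNne : N ≠ ⊥ := fun h => by
        rw [h, Subgroup.mem_bot] at hjN
        rw [hjN, one_smul] at hj
        exact hγne hj
      have hNt := hqp N hNn hNne
      refine hnu (Set.eq_univ_of_forall fun z => ?_)
      obtain ⟨m, hm⟩ := hNt.exists_smul_eq γ₀ (x • z)
      have hmB : (m : G) • B = B := by
        have := (Subgroup.mem_iInf.mp m.2) 1
        rwa [MulAction.mem_stabilizer_iff, one_smul] at this
      have hxz : x • z ∈ B := by rw [← hm, ← hmB]; exact Set.smul_mem_smul_set hγB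
      exact Set.smul_mem_smul_set_iff.mp hxz
  have hcompl : Γᶜ.ncard = Nat.card Ω - Γ.ncard := Set.ncard_compl Γ
  have h := hprim.isMultiplyPreprimitive (s := Γᶜ) (n := Nat.card Ω - Γ.ncard - 1)
    (by rw [hcompl]; omega) (by omega) hJp
  have h' := h.isMultiplyPretransitive
  rwa [show Nat.card Ω - Γ.ncard - 1 + 2 = Nat.card Ω - Γ.ncard + 1 by omega] at h'

end Cfsg.Agent.S3619
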