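import Cfsg.Statements.S3622
import Mathlib

set_option autoImplicit false
open Cfsg

namespace Cfsg.Agent.S3622

/-- Let G be a group of permutations of a finite set, m ≥ 2, and α a point. Say a permutation σ is k-approximated by a set S of permutations if for every k points there is a member of S agreeing with σ at those points. Suppose every permutation that is (m-1)-approximated by the stabilizer of α in G lies in that stabilizer (the stabilizer is (m-1)-closed). Then every permutation that is m-approximated by G lies in G (G is m-closed). -/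
theorem result {Ω : Type*} [Finite Ω] (G : Subgroup (Equiv.Perm Ω)) (m : ℕ) (hm : 2 ≤ m) (α : Ω)
    (hclosed : ∀ σ : Equiv.Perm Ω,
      (∀ t : Fin (m - 1) → Ω, ∃ g ∈ MulAction.stabilizer ↥G α, ∀ i, (g : Equiv.Perm Ω) (t i) = σ (t i)) →
      σ ∈ G ∧ σ α = α) :
    ∀ σ : Equiv.Perm Ω, (∀ t : Fin m → Ω, ∃ g ∈ G, ∀ i, g (t i) = σ (t i)) → σ ∈ G := by
  classical
  obtain ⟨m, rfl⟩ := Nat.exists_eq_add_of_le (show 1 ≤ m by omega)
  intro σ hσ
  obtain ⟨g₀, hg₀, hg₀t⟩ := hσ fun _ => α
  have hg₀α : g₀ α = σ α := hg₀t ⟨0, by omega⟩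
  have key := hclosed (g₀⁻¹ * σ) fun t => by
    obtain ⟨g, hg, hgt⟩ := hσ fun i => if h : (i : ℕ) = 0 then α else t ⟨(i : ℕ) - 1, by have := i.2; omega⟩
    have hgα : g α = σ α := by simpa using hgt ⟨0, by omega⟩
    refine ⟨⟨g₀⁻¹ * g, G.mul_mem (G.inv_mem hg₀) hg⟩, ?_, fun i => ?_⟩
    · rw [MulAction.mem_stabilizer_iff]
      show g₀⁻¹ (g α) = α
      rw [hgα, ← hg₀α]
      exact g₀.symm_apply_apply α
    · have := hgt ⟨(i : ℕ) + 1, by have := i.2; omega⟩
      simp only [Nat.add_eq_zero_iff, one_ne_zero, and_false, dif_neg, not_false_eq_true,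
        Nat.add_sub_cancel] at this
      show g₀⁻¹ (g (t i)) = g₀⁻¹ (σ (t i))
      exact congrArg _ this
  have := G.mul_mem hg₀ key.1
  rwa [mul_inv_cancel_left] at this

end Cfsg.Agent.S3622
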