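import Cfsg.Statements.S3633
import Cfsg.Agent.Lib.Recog.Coclique

set_option autoImplicit false
open Cfsg

namespace Cfsg.Agent.S3633

/-- Let G be a finite group and ρ a set of at least three prime divisors of the order of G that are pairwise non-adjacent in the prime graph (no element of order rs for distinct r, s ∈ ρ). Then at most one prime of ρ divides the order of any given solvable normal subgroup of G; in particular G is not solvable. -/
theorem result {G : Type*} [Group G] [Finite G] (ρ : Finset ℕ) (hρ : 3 ≤ ρ.card) (hc : ((∀ r ∈ ρ, r.Prime ∧ r ∣ Nat.card G) ∧ (∀ r ∈ ρ, ∀ s ∈ ρ, r ≠ s → ¬ ∃ x : G, orderOf x = r * s)))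
    (K : Subgroup G) [K.Normal] (hK : Group.IsSolvable ↥K) :
    (∀ r ∈ ρ, ∀ s ∈ ρ, r ∣ Nat.card ↥K → s ∣ Nat.card ↥K → r = s) ∧ ¬ Group.IsSolvable G := by
  classical
  obtain ⟨hmem, hne⟩ := hc
  have key : ∀ (L : Subgroup G), Group.IsSolvable ↥L → ∀ s ⊆ ρ, s.card = 3 →
      ¬ ∀ p ∈ s, p ∣ Nat.card L := by
    intro L hL s hs hs3 hd
    haveI := hL
    obtain ⟨p, hp, q, hq, hpq, x, hx⟩ := Cfsg.Lib.Recog.exists_orderOf_mul_of_solvable (G := L) hs3
      fun p hp => ⟨(hmem p (hs hp)).1, hd p hp⟩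
    exact hne p (hs hp) q (hs hq) hpq ⟨x, by rw [Subgroup.orderOf_coe]; exact hx⟩
  refine ⟨fun r hr s hs hrK hsK => by_contra fun hrs => ?_, fun hG => ?_⟩
  · obtain ⟨t, ht⟩ := Finset.card_pos.1 (show 0 < ((ρ.erase r).erase s).card by
      rw [Finset.card_erase_of_mem (Finset.mem_erase.2 ⟨Ne.symm hrs, hs⟩),
        Finset.card_erase_of_mem hr]
      omega)
    have htρ := Finset.mem_of_mem_erase (Finset.mem_of_mem_erase ht)
    haveI := Fact.mk (hmem t htρ).1
    obtain ⟨x, hx⟩ := exists_prime_orderOf_dvd_card' t (hmem t htρ).2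
    refine key (Subgroup.zpowers x ⊔ K) (Cfsg.Lib.Solv.solvable_sup _ K inferInstance hK) {r, s, t}
      (by simp [Finset.insert_subset_iff, hr, hs, htρ])
      (Finset.card_eq_three.2 ⟨r, s, t, hrs,
        (Finset.ne_of_mem_erase (Finset.mem_of_mem_erase ht)).symm,
        (Finset.ne_of_mem_erase ht).symm, rfl⟩) ?_
    intro p hp
    simp only [Finset.mem_insert, Finset.mem_singleton] at hp
    rcases hp with rfl | rfl | rfl
    · exact hrK.trans (Subgroup.card_dvd_of_le le_sup_right)
    · exact hsK.trans (Subgroup.card_dvd_of_le le_sup_right)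
    · exact (dvd_of_eq (by rw [Nat.card_zpowers, hx])).trans (Subgroup.card_dvd_of_le le_sup_left)
  · obtain ⟨s, hs, hs3⟩ := Finset.exists_subset_card_eq hρ
    haveI := hG
    exact key ⊤ inferInstance s hs hs3 fun p hp => by rw [Subgroup.card_top]; exact (hmem p (hs hp)).2

end Cfsg.Agent.S3633
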