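import Cfsg.Statements.S3639
import Cfsg.Agent.Lib.Tw.SuzukiFix

set_option autoImplicit false
open Cfsg

namespace Cfsg.Agent.S3639

/-- `G` acting on tuples of vectors, multiplicatively. -/
noncomputable def tupleAct {F : Type*} [Field F] (G : Subgroup (GL (Fin 4) F)) (n : ℕ) :
    G →* MulAut (Multiplicative (Fin n → Fin 4 → F)) where
  toFun g := AddEquiv.toMultiplicative
    { toFun := fun w i => ((g : GL (Fin 4) F) : Matrix (Fin 4) (Fin 4) F).mulVec (w i)
      invFun := fun w i => (((g : GL (Fin 4) F)⁻¹ : GL (Fin 4) F) :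
        Matrix (Fin 4) (Fin 4) F).mulVec (w i)
      left_inv := fun w => funext fun i =>
        (Matrix.mulVec_mulVec _ _ _).trans (by rw [Units.inv_mul, Matrix.one_mulVec])
      right_inv := fun w => funext fun i =>
        (Matrix.mulVec_mulVec _ _ _).trans (by rw [Units.mul_inv, Matrix.one_mulVec])
      map_add' := fun v w => funext fun i => Matrix.mulVec_add _ _ _ }
  map_one' := by
    refine MulEquiv.ext fun w => ?_
    apply Multiplicative.toAdd.injective
    funext i
    exact Matrix.one_mulVec (Multiplicative.toAdd w i)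
  map_mul' g h := by
    refine MulEquiv.ext fun w => ?_
    apply Multiplicative.toAdd.injective
    funext i
    exact (Matrix.mulVec_mulVec (Multiplicative.toAdd w i)
      ((g : GL (Fin 4) F) : Matrix (Fin 4) (Fin 4) F)
      ((h : GL (Fin 4) F) : Matrix (Fin 4) (Fin 4) F)).symm

/-- An element of order a product of two primes has its image of the same order. -/
lemma order_image {F : Type*} [Field F] [Finite F] [CharP F 2] (G : Subgroup (GL (Fin 4) F)) (n : ℕ)
    (hfree : ∀ g ∈ G, ∀ v : Fin 4 → F, v ≠ 0 → (g : Matrix (Fin 4) (Fin 4) F).mulVec v = v →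
      g ^ 4 = 1)
    (x : Multiplicative (Fin n → Fin 4 → F) ⋊[tupleAct G n] G) (r s : ℕ) (hr : r.Prime)
    (hs : s.Prime) (hrs : r ≠ s) (hx : orderOf x = r * s) : orderOf x.right = r * s := by
  have hker : ∀ y : Multiplicative (Fin n → Fin 4 → F) ⋊[tupleAct G n] G, y.right = 1 →
      y ^ 2 = 1 := by
    intro y hy
    refine SemidirectProduct.ext ?_ ?_
    · rw [pow_two, SemidirectProduct.mul_left, hy, map_one, MulAut.one_apply,
        SemidirectProduct.one_left]
      apply Multiplicative.toAdd.injective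
      funext i j
      exact CharTwo.add_self_eq_zero (R := F) _
    · rw [pow_two, SemidirectProduct.mul_right, hy, one_mul, SemidirectProduct.one_right]
  have hdvd : orderOf x.right ∣ r * s :=
    hx ▸ orderOf_map_dvd SemidirectProduct.rightHom x
  -- if the image has order dividing a prime `a` of the pair then `2 = b` and `a ∣ 4`
  have key : ∀ a b : ℕ, a.Prime → b.Prime → a ≠ b → a * b = r * s → x.right ^ a = 1 → False := by
    intro a b ha hb hab he hxa
    haveI : Finite (Multiplicative (Fin n → Fin 4 → F) ⋊[tupleAct G n] G) :=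
      Finite.of_equiv _ SemidirectProduct.equivProd.symm
    set y := x ^ a with hy
    have hyr : y.right = 1 := by
      rw [hy, ← hxa]; exact map_pow SemidirectProduct.rightHom x a
    have hyo : orderOf y = b := by
      rw [hy, orderOf_pow, hx, ← he, Nat.gcd_mul_right_left, Nat.mul_div_cancel_left _ ha.pos]
    have hb2 : b = 2 := by
      have := orderOf_dvd_of_pow_eq_one (hker y hyr)
      rw [hyo] at this
      exact (Nat.prime_dvd_prime_iff_eq hb Nat.prime_two).1 this
    have hne : y.left ≠ 1 := by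
      intro h
      have : y = 1 := SemidirectProduct.ext h hyr
      rw [this, orderOf_one] at hyo
      exact hb.one_lt.ne hyo
    obtain ⟨i, hi⟩ : ∃ i, Multiplicative.toAdd y.left i ≠ 0 := by
      by_contra hcon
      push Not at hcon
      exact hne (Multiplicative.toAdd.injective (funext hcon))
    have hcomm : (tupleAct G n x.right) y.left = y.left := by
      have h := congrArg SemidirectProduct.left ((Commute.self_pow x a).eq)
      rw [SemidirectProduct.mul_left, SemidirectProduct.mul_left, ← hy, hyr, map_one,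
        MulAut.one_apply, mul_comm y.left] at h
      exact mul_left_cancel h
    have h4 := hfree _ x.right.2 _ hi
      (congrFun (congrArg Multiplicative.toAdd hcomm) i)
    have h4' : x.right ^ 4 = 1 := Subtype.ext (by simpa using h4)
    have hx1 : x.right = 1 := by
      have h := Nat.dvd_gcd (orderOf_dvd_of_pow_eq_one hxa) (orderOf_dvd_of_pow_eq_one h4')
      have hg : Nat.gcd a 4 = 1 := by
        refine (Nat.Prime.coprime_iff_not_dvd ha).2 fun hd => hab ?_
        have : a ∣ 2 ^ 2 := hd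
        rw [hb2]
        exact (Nat.prime_dvd_prime_iff_eq ha Nat.prime_two).1 (ha.dvd_of_dvd_pow this)
      rw [hg, Nat.dvd_one, orderOf_eq_one_iff] at h
      exact h
    have := orderOf_dvd_of_pow_eq_one (hker x hx1)
    rw [hx, ← he] at this
    have h2 := Nat.le_of_dvd two_pos this
    have := Nat.mul_le_mul ha.two_le hb.two_le
    omega
  rcases (Nat.dvd_mul).1 hdvd with ⟨u, v, hu, hv, huv⟩
  rcases (Nat.dvd_prime hr).1 hu with h1 | h1 <;> rcases (Nat.dvd_prime hs).1 hv with h2 | h2 <;>
    rw [h1, h2] at huv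
  · exact (key r s hr hs hrs rfl (orderOf_dvd_iff_pow_eq_one.1 (by rw [← huv]; simp))).elim
  · exact (key s r hs hr (Ne.symm hrs) (mul_comm s r)
      (orderOf_dvd_iff_pow_eq_one.1 (by rw [← huv, one_mul]))).elim
  · exact (key r s hr hs hrs rfl (orderOf_dvd_iff_pow_eq_one.1 (by rw [← huv, mul_one]))).elim
  · exact huv.symm

/-- Let S be the Suzuki group over the field with q = 2^(2m+1) ≥ 8 elements. Then there are finite groups of arbitrarily large order with the same prime graph as S. -/
theorem result {F : Type*} [Field F] [Fintype F] {m : ℕ} (hm : 1 ≤ m) (hF : Fintype.card F = 2 ^ (2 * m + 1)) (N : ℕ) :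
    ∃ (H : Type) (_ : Group H) (_ : Fintype H), N < Fintype.card H ∧ ((∀ r : ℕ, r.Prime → (r ∣ Nat.card ↥(Cfsg.Lie.Sz F (2 ^ (m + 1))) ↔ r ∣ Nat.card H)) ∧
      (∀ r s : ℕ, r.Prime → s.Prime → r ≠ s → ((∃ x : ↥(Cfsg.Lie.Sz F (2 ^ (m + 1))), orderOf x = r * s) ↔ (∃ y : H, orderOf y = r * s)))) := by
  classical
  haveI : CharP F 2 := by
    obtain ⟨p, hp⟩ := CharP.exists F
    haveI := hp
    obtain ⟨⟨k, _⟩, hpp, hk⟩ := FiniteField.card F p
    have hk' : 2 ^ (2 * m + 1) = p ^ k := by rw [← hF]; simpa using hk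
    have : p ∣ 2 ^ (2 * m + 1) := hk' ▸ dvd_pow_self p (by omega)
    rwa [(Nat.prime_dvd_prime_iff_eq hpp Nat.prime_two).1 (hpp.dvd_of_dvd_pow this)] at hp
  set G := Cfsg.Lie.Sz F (2 ^ (m + 1)) with hG
  let K := Multiplicative (Fin (N + 1) → Fin 4 → F) ⋊[tupleAct G (N + 1)] G
  haveI : Finite K := Finite.of_equiv _ SemidirectProduct.equivProd.symm
  haveI : Small.{0} K := Countable.toSmall K
  haveI : Finite (Shrink.{0} K) := Finite.of_equiv K (equivShrink K)
  letI : Fintype (Shrink.{0} K) := Fintype.ofFinite _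
  let E : Shrink.{0} K ≃* K := Shrink.mulEquiv
  have hfree : ∀ g ∈ G, ∀ v : Fin 4 → F, v ≠ 0 →
      (g : Matrix (Fin 4) (Fin 4) F).mulVec v = v → g ^ 4 = 1 := fun g hg v hv h =>
    Cfsg.Agent.SuzukiFix.pow_four_of_fix (m + 1) rfl hg hv h
  let J : GL (Fin 4) F := ⟨Cfsg.Agent.SuzukiFix.antiJ, Cfsg.Agent.SuzukiFix.antiJ,
    Cfsg.Agent.SuzukiFix.antiJ_mul_self, Cfsg.Agent.SuzukiFix.antiJ_mul_self⟩
  have hJ : J ∈ G := Cfsg.Agent.SuzukiFix.antiJ_mem _ (pow_ne_zero _ two_ne_zero)
  have h2G : 2 ∣ Nat.card G := by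
    have h : orderOf (⟨J, hJ⟩ : G) = 2 := by
      rw [Subgroup.orderOf_mk, orderOf_eq_prime_iff]
      refine ⟨?_, fun h => ?_⟩
      · rw [pow_two]
        apply Units.ext
        rw [Units.val_mul, Units.val_one]
        exact Cfsg.Agent.SuzukiFix.antiJ_mul_self
      · have : (J : Matrix (Fin 4) (Fin 4) F) 0 0 = (1 : Matrix (Fin 4) (Fin 4) F) 0 0 := by
          rw [h, Units.val_one]
        simp [J, Cfsg.Agent.SuzukiFix.antiJ] at this
    exact h ▸ orderOf_dvd_natCard _
  have hcK : Nat.card ((Shrink.{0} K)) = 2 ^ ((2 * m + 1) * (4 * (N + 1))) * Nat.card G := by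
    rw [Nat.card_congr E.toEquiv, SemidirectProduct.card, pow_mul, ← hF]
    simp [Nat.card_eq_fintype_card, Fintype.card_fun, pow_mul, ← pow_mul]
  refine ⟨(Shrink.{0} K), inferInstance, inferInstance, ?_, fun r hr => ⟨fun h => ?_, fun h => ?_⟩,
    fun r s hr hs hrs => ⟨?_, ?_⟩⟩
  · rw [← Nat.card_eq_fintype_card, hcK]
    refine lt_of_lt_of_le (lt_of_lt_of_le (Nat.lt_two_pow_self (n := N))
      (Nat.pow_le_pow_right (by norm_num) ?_)) (Nat.le_mul_of_pos_right _ Nat.card_pos)
    calc N ≤ 1 * (4 * (N + 1)) := by omega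
      _ ≤ _ := Nat.mul_le_mul_right _ (by omega)
  · rw [hcK]; exact Dvd.dvd.mul_left h _
  · rw [hcK] at h
    rcases (Nat.Prime.dvd_mul hr).1 h with h' | h'
    · rw [(Nat.prime_dvd_prime_iff_eq hr Nat.prime_two).1 (hr.dvd_of_dvd_pow h')]
      exact h2G
    · exact h'
  · rintro ⟨x, hx⟩
    refine ⟨E.symm (SemidirectProduct.inr x), ?_⟩
    rw [MulEquiv.orderOf_eq, orderOf_injective _ SemidirectProduct.inr_injective, hx]
  · rintro ⟨y, hy⟩
    exact ⟨(E y).right, order_image G (N + 1) hfree (E y) r s hr hs hrs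
      (by rw [MulEquiv.orderOf_eq, hy])⟩

end Cfsg.Agent.S3639
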