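import Cfsg.Statements.S3660
import Cfsg.Agent.Lib.Recog.AffineFour
-- import your own Cfsg.Agent.* helpers here

set_option autoImplicit false
open Cfsg

namespace Cfsg.Agent.S3660

/-- The prime graph of a finite group has the prime divisors of its order as vertices, two distinct primes p, q being joined when the group has an element of order pq; two groups have the same prime graph when they have the same prime divisors and the same joined pairs. Let F be a finite field of characteristic 2 with at least 4 elements. Then there are finite groups of arbitrarily large order with the same prime graph as PSL(2,F); in particular PSL(2,F) is not determined by its prime graph. -/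
theorem result {F : Type*} [Field F] [Fintype F] [CharP F 2] (hF : 4 ≤ Fintype.card F) (N : ℕ) :
    ∃ (H : Type) (_ : Group H) (_ : Finite H), N < Nat.card H ∧
      ((∀ p : ℕ, p.Prime → (p ∣ Nat.card (Matrix.ProjectiveSpecialLinearGroup (Fin 2) F) ↔ p ∣ Nat.card H)) ∧
      (∀ p q : ℕ, p.Prime → q.Prime → p ≠ q → ((∃ g : (Matrix.ProjectiveSpecialLinearGroup (Fin 2) F), orderOf g = p * q) ↔ (∃ g : H, orderOf g = p * q)))) := by
  classical
  obtain ⟨H, i1, i2, h1, h2⟩ := Cfsg.Lib.Recog.AffineSL2.exists_large_aff (F := F) N
  refine ⟨H, i1, inferInstance, by rwa [Nat.card_eq_fintype_card], ?_⟩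
  refine Cfsg.Lib.Recog.AffineSL2.graph_of_range ?_ ?_
  · intro p hp
    rw [h2, Cfsg.Lib.Recog.AffineSL2.range_psl, Set.mem_insert_iff,
      or_iff_right (Cfsg.Lib.Recog.AffineSL2.prime_ne_four hp)]
  · intro p q hp hq hpq
    rw [h2, Cfsg.Lib.Recog.AffineSL2.range_psl, Set.mem_insert_iff,
      or_iff_right (Cfsg.Lib.Recog.AffineSL2.prime_mul_ne_four hp hq hpq)]

end Cfsg.Agent.S3660
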