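import Cfsg.Statements.S3678
import Cfsg.Agent.Lib.Recog.AffineEight
-- import your own Cfsg.Agent.* helpers here

set_option autoImplicit false
open Cfsg

namespace Cfsg.Agent.S3678

open Cfsg.Lib.Recog.AffineEight


/-- The prime graph of a finite group has the prime divisors of its order as vertices, two distinct primes p, q being joined when the group has an element of order pq; two groups have the same prime graph when they have the same prime divisors and the same joined pairs. Let F be the field with 7 elements. There are finite groups of arbitrarily large order with the same prime graph as PSL(2,F) (the graph on {2, 3, 7} with no edges, which is also the prime graph of PSL(2,8)). -/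
theorem result {F : Type*} [Field F] [Fintype F] (hF : Fintype.card F = 7) (N : ℕ) :
    ∃ (H : Type) (_ : Group H) (_ : Finite H), N < Nat.card H ∧
      ((∀ p : ℕ, p.Prime → (p ∣ Nat.card (Matrix.ProjectiveSpecialLinearGroup (Fin 2) F) ↔ p ∣ Nat.card H)) ∧
      (∀ p q : ℕ, p.Prime → q.Prime → p ≠ q → ((∃ g : (Matrix.ProjectiveSpecialLinearGroup (Fin 2) F), orderOf g = p * q) ↔ (∃ g : H, orderOf g = p * q)))) := by
  classical
  have : Fact (Nat.Prime 2) := ⟨Nat.prime_two⟩
  letI : Fintype (GaloisField 2 3) := Fintype.ofFinite _
  have h8 : Fintype.card (GaloisField 2 3) = 8 := by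
    rw [← Nat.card_eq_fintype_card, GaloisField.card 2 3 (by norm_num)]
    norm_num
  obtain ⟨H, i1, i2, h1, h2⟩ := Cfsg.Lib.Recog.AffineSL2.exists_large_aff (F := GaloisField 2 3) N
  refine ⟨H, i1, inferInstance, by rwa [Nat.card_eq_fintype_card], ?_⟩
  refine Cfsg.Lib.Recog.AffineSL2.graph_of_range ?_ ?_
  · intro p hp
    rw [h2, Set.mem_insert_iff, or_iff_right (Cfsg.Lib.Recog.AffineSL2.prime_ne_four hp)]
    constructor
    · rintro ⟨x, rfl⟩
      exact eight_exists h8 _ ((small (seven_orders hF x)).1 hp)
    · rintro ⟨A, rfl⟩
      refine seven_exists hF _ ((small ?_).1 hp)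
      rcases eight_orders h8 A with h | h | h
      · exact Or.inl h
      · exact Or.inr (Or.inl h)
      · exact Or.inr (Or.inr (Or.inl h))
  · intro p q hp hq hpq
    rw [h2, Set.mem_insert_iff, or_iff_right (Cfsg.Lib.Recog.AffineSL2.prime_mul_ne_four hp hq hpq)]
    constructor
    · rintro ⟨x, hx⟩
      exact absurd hx ((small (seven_orders hF x)).2 p q hp hq hpq)
    · rintro ⟨A, hA⟩
      refine absurd hA ((small ?_).2 p q hp hq hpq)
      rcases eight_orders h8 A with h | h | h
      · exact Or.inl h
      · exact Or.inr (Or.inl h)
      · exact Or.inr (Or.inr (Or.inl h))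

end Cfsg.Agent.S3678
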