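import Cfsg.Statements.S3680
import Cfsg.Agent.Lib.Solv.Primitive
import Cfsg.Agent.Lib.Solv.MinNormal
import Cfsg.Agent.Lib.PermGroup.MinNormalPower
-- import your own Cfsg.Agent.* helpers here

set_option autoImplicit false
open Cfsg

namespace Cfsg.Agent.S3680

/-- The socle of a finite primitive permutation group. Let a finite group G act faithfully and primitively on a set Ω, and let N be the subgroup generated by the minimal normal subgroups of G. Then either N is an elementary abelian p-group for some prime p and acts regularly on Ω (transitively with trivial point stabilizers), or N is isomorphic to a direct product of m ≥ 1 copies of a non-abelian simple group. -/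
theorem result {G Ω : Type*} [Group G] [Finite G] [MulAction G Ω] [FaithfulSMul G Ω] [Finite Ω]
    (hprim : MulAction.IsPreprimitive G Ω) (N : Subgroup G)
    (hN : N = sSup {V : Subgroup G | V.Normal ∧ V ≠ ⊥ ∧ ∀ M : Subgroup G, M.Normal → M ≤ V → M = ⊥ ∨ M = V}) :
    (∃ p : ℕ, p.Prime ∧ IsMulCommutative N ∧ (∀ x : N, x ^ p = 1) ∧
      MulAction.IsPretransitive N Ω ∧ ∀ ω : Ω, MulAction.stabilizer N ω = ⊥) ∨
    (∃ (T : Type) (_ : Group T) (m : ℕ), 1 ≤ m ∧ IsSimpleGroup T ∧ ¬ IsMulCommutative T ∧ Nonempty (N ≃* (Fin m → T))) := by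
  classical
  by_cases hG : Subsingleton G
  · have hΩ : Subsingleton Ω := ⟨fun a b => by
      obtain ⟨g, hg⟩ := hprim.toIsPretransitive.exists_smul_eq a b
      rw [Subsingleton.elim g 1, one_smul] at hg; exact hg⟩
    refine Or.inl ⟨2, Nat.prime_two, ⟨⟨fun a b => Subsingleton.elim _ _⟩⟩, fun x => Subsingleton.elim _ _,
      ⟨fun a b => ⟨1, Subsingleton.elim _ _⟩⟩, fun ω => Subsingleton.elim _ _⟩
  rw [not_subsingleton_iff_nontrivial] at hG
  obtain ⟨M, hMn, -, hM, hMmin⟩ := Cfsg.Lib.Solv.exists_minimal_normal_le (G := G) (N := ⊤) top_ne_bot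
  haveI := hMn
  have hMmem : M ∈ {V : Subgroup G | V.Normal ∧ V ≠ ⊥ ∧ ∀ M : Subgroup G, M.Normal → M ≤ V → M = ⊥ ∨ M = V} :=
    ⟨hMn, hM, hMmin⟩
  haveI := Cfsg.Lib.Solv.primitive_normal_pretransitive hprim M hM
  set C := Subgroup.centralizer (M : Set G) with hC
  have other : ∀ V : Subgroup G, V.Normal → (∀ K : Subgroup G, K.Normal → K ≤ V → K = ⊥ ∨ K = V) →
      V ≠ M → V ≤ C := by
    intro V hV hVmin hne
    have hint : V ⊓ M = ⊥ := by
      rcases hVmin (V ⊓ M) inferInstance inf_le_left with h | h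
      · exact h
      · rcases hMmin V hV (inf_eq_left.1 h) with h' | h'
        · rw [h', bot_inf_eq]
        · exact absurd h' hne
    intro v hv
    exact Subgroup.mem_centralizer_iff.2 fun m hm =>
      (Subgroup.commute_of_normal_of_disjoint V M hV hMn (disjoint_iff.2 hint) v m hv hm).eq.symm
  by_cases hab : IsMulCommutative M
  · obtain ⟨-, p, hp, -, hexp⟩ := Cfsg.Lib.Solv.minimal_normal_elementary hM
      (Group.isSolvable_of_comm fun a b => mul_comm' a b) hMmin
    have hCM : C ≤ M := by
      intro c hc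
      obtain ⟨ω⟩ : Nonempty Ω := by
        by_contra h
        rw [not_nonempty_iff] at h
        exact (not_subsingleton G) ⟨fun a b => FaithfulSMul.eq_of_smul_eq_smul (α := Ω) fun w => h.elim w⟩
      obtain ⟨m, hm⟩ := MulAction.exists_smul_eq M (c • ω) ω
      have h1 : (m : G) * c = 1 := Cfsg.Lib.Solv.eq_one_of_fix_of_commute M
        (C.mul_mem (Cfsg.Lib.Solv.le_centralizer_of_abelian hab m.2) hc) (ω := ω) (by rw [mul_smul]; exact hm)
      rw [eq_inv_of_mul_eq_one_right h1]
      exact M.inv_mem m.2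
    have hNM : N = M := by
      rw [hN]
      refine le_antisymm (sSup_le ?_) (le_sSup hMmem)
      rintro V ⟨hV, hV0, hVmin⟩
      by_cases h : V = M
      · exact h.le
      · exact (other V hV hVmin h).trans hCM
    subst hNM
    exact Or.inl ⟨p, hp, hab, fun x => Subtype.ext (by simpa using hexp x x.2), inferInstance,
      Cfsg.Lib.Solv.stabilizer_eq_bot_of_abelian _ hab⟩
  · obtain ⟨T, iT, m, hTs, hm, ⟨eM⟩⟩ := Cfsg.Agent.MinNormalPower.exists_power M hM hMmin
    have hTna : ¬ IsMulCommutative T := fun h => hab ⟨⟨fun a b => eM.injective (funext fun i => by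
      rw [map_mul, map_mul]; exact h.is_comm.comm _ _)⟩⟩
    right
    by_cases hone : ∀ V ∈ {V : Subgroup G | V.Normal ∧ V ≠ ⊥ ∧ ∀ M : Subgroup G, M.Normal → M ≤ V → M = ⊥ ∨ M = V}, V = M
    · have hNM : N = M := by
        rw [hN]
        exact le_antisymm (sSup_le fun V hV => (hone V hV).le) (le_sSup hMmem)
      subst hNM
      exact ⟨T, iT, m, hm, hTs, hTna, ⟨eM⟩⟩
    push Not at hone
    obtain ⟨V, hVmem, hVM⟩ := hone
    obtain ⟨hV, hV0, hVmin⟩ := hVmem
    haveI := hV
    haveI := Cfsg.Lib.Solv.primitive_normal_pretransitive hprim V hV0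
    have hVC : V ≤ C := other V hV hVmin hVM
    have hMC : M ≤ Subgroup.centralizer (V : Set G) := Subgroup.le_centralizer_iff.1 hVC
    obtain ⟨ω⟩ : Nonempty Ω := by
      by_contra h
      rw [not_nonempty_iff] at h
      exact (not_subsingleton G) ⟨fun a b => FaithfulSMul.eq_of_smul_eq_smul (α := Ω) fun w => h.elim w⟩
    have hCV : C ≤ V := by
      intro c hc
      obtain ⟨v, hv⟩ := MulAction.exists_smul_eq V (c • ω) ω
      have h1 : (v : G) * c = 1 := Cfsg.Lib.Solv.eq_one_of_fix_of_commute M (C.mul_mem (hVC v.2) hc)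
        (ω := ω) (by rw [mul_smul]; exact hv)
      rw [eq_inv_of_mul_eq_one_right h1]
      exact V.inv_mem v.2
    have hdis : Disjoint M V := by
      rw [disjoint_iff]
      rcases hMmin (M ⊓ V) inferInstance inf_le_left with h | h
      · exact h
      · rcases hVmin M hMn (inf_eq_left.1 h) with h' | h'
        · exact absurd h' hM
        · exact absurd h'.symm hVM
    have hNMV : N = M ⊔ V := by
      rw [hN]
      refine le_antisymm (sSup_le ?_) (sup_le (le_sSup hMmem) (le_sSup ⟨hV, hV0, hVmin⟩))
      rintro W ⟨hW, hW0, hWmin⟩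
      by_cases h : W = M
      · exact h.le.trans le_sup_left
      · exact ((other W hW hWmin h).trans hCV).trans le_sup_right
    -- the two regular subgroups are anti-isomorphic
    have hex : ∀ v : V, ∃ a : M, (a : G) • ω = (v : G) • ω := fun v => MulAction.exists_smul_eq M ω ((v : G) • ω)
    choose f hf using hex
    have hM1 : ∀ a b : M, (a : G) • ω = (b : G) • ω → a = b := by
      intro a b h
      refine Subtype.ext (inv_mul_eq_one.1 (Cfsg.Lib.Solv.eq_one_of_fix_of_commute V
        (hMC (M.mul_mem (M.inv_mem a.2) b.2)) (ω := ω) (by rw [mul_smul, ← h, inv_smul_smul])))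
    have hV1 : ∀ a b : V, (a : G) • ω = (b : G) • ω → a = b := by
      intro a b h
      refine Subtype.ext (inv_mul_eq_one.1 (Cfsg.Lib.Solv.eq_one_of_fix_of_commute M
        (hVC (V.mul_mem (V.inv_mem a.2) b.2)) (ω := ω) (by rw [mul_smul, ← h, inv_smul_smul])))
    have hfmul : ∀ v w : V, f (v * w) = f w * f v := by
      intro v w
      refine hM1 _ _ ?_
      rw [hf, Subgroup.coe_mul, Subgroup.coe_mul, mul_smul, ← hf w, ← mul_smul,
        ← Subgroup.mem_centralizer_iff.1 (hVC v.2) _ (f w).2, mul_smul, ← hf v, ← mul_smul]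
    let φ : V →* M := MonoidHom.mk' (fun v => (f v)⁻¹) fun v w => by rw [hfmul, mul_inv_rev]
    have hφ : Function.Bijective φ := by
      constructor
      · intro v w h
        have h' : f v = f w := inv_injective h
        exact hV1 v w (by rw [← hf v, ← hf w, h'])
      · intro a
        obtain ⟨v, hv⟩ := MulAction.exists_smul_eq V ω ((a⁻¹ : M) • ω)
        refine ⟨v, ?_⟩
        show (f v)⁻¹ = a
        have : f v = a⁻¹ := hM1 _ _ ((hf v).trans hv)
        rw [this, inv_inv]
    let eV : V ≃* M := MulEquiv.ofBijective φ hφ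
    let μ : M × V →* G := MonoidHom.noncommCoprod M.subtype V.subtype fun a v =>
      Subgroup.commute_of_normal_of_disjoint M V hMn hV hdis a v a.2 v.2
    have hμ : Function.Injective μ := by
      refine (MonoidHom.noncommCoprod_injective _ _ _).2 ?_
      exact ⟨M.subtype_injective, V.subtype_injective, by simpa using hdis⟩
    have hr : μ.range = N := by
      refine (MonoidHom.noncommCoprod_range _ _ _).trans ?_
      rw [hNMV]; simp
    let eN : N ≃* (Fin m → T) × (Fin m → T) :=
      ((MulEquiv.subgroupCongr hr.symm).trans (MonoidHom.ofInjective hμ).symm).trans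
        (MulEquiv.prodCongr eM (eV.trans eM))
    let e3 : (Fin (m + m) → T) ≃* (Fin m → T) × (Fin m → T) :=
      { toEquiv := (Equiv.arrowCongr finSumFinEquiv.symm (Equiv.refl T)).trans (Equiv.sumArrowEquivProdArrow (Fin m) (Fin m) T)
        map_mul' := fun a b => rfl }
    exact ⟨T, iT, m + m, by omega, hTs, hTna, ⟨eN.trans e3.symm⟩⟩

end Cfsg.Agent.S3680
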