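import Cfsg.Statements.S3681
import Mathlib

set_option autoImplicit false
open Cfsg

namespace Cfsg.Agent.S3681

/-- Bochert's bound for primitive groups. Let a finite group G act faithfully and primitively on a finite set Ω with n elements, and suppose the image of G in the symmetric group of Ω does not contain the alternating group of Ω. Then |G| · ⌊(n + 1)/2⌋! ≤ n!, that is, the index of G in the symmetric group is at least ⌊(n + 1)/2⌋!. -/
theorem result {G Ω : Type*} [Group G] [Finite G] [MulAction G Ω] [FaithfulSMul G Ω] [Fintype Ω] [DecidableEq Ω]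
    (hprim : MulAction.IsPreprimitive G Ω) (hA : ¬ alternatingGroup Ω ≤ (MulAction.toPermHom G Ω).range) :
    Nat.card G * Nat.factorial ((Fintype.card Ω + 1) / 2) ≤ Nat.factorial (Fintype.card Ω) := by
  classical
  set R := (MulAction.toPermHom G Ω).range with hR
  have hRp : MulAction.IsPreprimitive R Ω := by
    have := hprim
    let f : Ω →ₑ[(MulAction.toPermHom G Ω).rangeRestrict] Ω :=
      { toFun := id
        map_smul' := fun g x => rfl }
    exact MulAction.IsPreprimitive.of_surjective (f := f) Function.surjective_id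
  -- bases
  let P : Finset Ω → Prop := fun D => ∀ x : G, (∀ d ∈ D, x • d = d) → x = 1
  have hPuniv : P Finset.univ := fun x hx => FaithfulSMul.eq_of_smul_eq_smul fun ω : Ω => by
    rw [one_smul]; exact hx ω (Finset.mem_univ _)
  obtain ⟨D, hDP, hDmin⟩ := Finset.exists_min_image (Finset.univ.filter P) Finset.card
    ⟨Finset.univ, Finset.mem_filter.mpr ⟨Finset.mem_univ _, hPuniv⟩⟩
  replace hDP := (Finset.mem_filter.mp hDP).2
  have hDmin' : ∀ E : Finset Ω, P E → D.card ≤ E.card := fun E hE =>
    hDmin E (Finset.mem_filter.mpr ⟨Finset.mem_univ _, hE⟩)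
  set n := Fintype.card Ω with hn
  have hbound : 2 * D.card ≤ n := by
    by_contra hgt
    push Not at hgt
    obtain ⟨x, hx, hx1⟩ : ∃ x : G, (∀ d ∈ Dᶜ, x • d = d) ∧ x ≠ 1 := by
      by_contra hall
      push Not at hall
      have := hDmin' Dᶜ hall
      rw [Finset.card_compl] at this
      omega
    obtain ⟨δ, hδ, hxδ⟩ : ∃ δ ∈ D, x • δ ≠ δ := by
      by_contra hall
      push Not at hall
      exact hx1 (hDP x hall)
    obtain ⟨y, hy, hy1⟩ : ∃ y : G, (∀ d ∈ D.erase δ, y • d = d) ∧ y ≠ 1 := by
      by_contra hall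
      push Not at hall
      have := hDmin' (D.erase δ) hall
      rw [Finset.card_erase_of_mem hδ] at this
      have := Finset.card_pos.mpr ⟨δ, hδ⟩
      omega
    have hyδ : y • δ ≠ δ := fun h => hy1 (hDP y fun d hd => by
      by_cases hdd : d = δ
      · rw [hdd, h]
      · exact hy d (Finset.mem_erase.mpr ⟨hdd, hd⟩))
    -- the supports meet in a single point
    have key : ∀ w, w ≠ δ → x • w = w ∨ y • w = w := fun w hw => by
      by_cases hwD : w ∈ D
      · exact Or.inr (hy w (Finset.mem_erase.mpr ⟨hw, hwD⟩))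
      · exact Or.inl (hx w (Finset.mem_compl.mpr hwD))
    set c := x * y * x⁻¹ * y⁻¹ with hc
    have hxx : x • x • δ ≠ x • δ := fun h => hxδ (smul_left_cancel x h)
    have hyy : y • y • δ ≠ y • δ := fun h => hyδ (smul_left_cancel y h)
    have hxi : x⁻¹ • δ ≠ δ := fun h => hxδ (inv_smul_eq_iff.mp h).symm
    have hyi : y⁻¹ • δ ≠ δ := fun h => hyδ (inv_smul_eq_iff.mp h).symm
    have hya : y • x • δ = x • δ := (key _ hxδ).resolve_left hxx
    have hxb : x • y • δ = y • δ := (key _ hyδ).resolve_right hyy
    have hyxi : y • x⁻¹ • δ = x⁻¹ • δ := (key _ hxi).resolve_left (by rw [smul_inv_smul]; exact hxi.symm)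
    have hxyi : x • y⁻¹ • δ = y⁻¹ • δ := (key _ hyi).resolve_right (by rw [smul_inv_smul]; exact hyi.symm)
    have hab : x • δ ≠ y • δ := fun h => by
      rw [h] at hya
      exact hyy hya
    have c1 : c • (x • δ) = y • δ := by
      rw [hc, mul_smul, mul_smul, mul_smul, inv_smul_eq_iff.mpr hya.symm, inv_smul_smul, hxb]
    have c2 : c • (y • δ) = δ := by
      rw [hc, mul_smul, mul_smul, mul_smul, inv_smul_smul, hyxi, smul_inv_smul]
    have c3 : c • δ = x • δ := by
      rw [hc, mul_smul, mul_smul, mul_smul, inv_smul_eq_iff.mpr hxyi.symm, smul_inv_smul]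
    have c4 : ∀ z, z ≠ δ → z ≠ x • δ → z ≠ y • δ → c • z = z := by
      intro z z1 z2 z3
      have hw1 : x⁻¹ • z ≠ δ := fun h => z2 (inv_smul_eq_iff.mp h)
      have hw2 : y⁻¹ • z ≠ δ := fun h => z3 (inv_smul_eq_iff.mp h)
      rw [hc, mul_smul, mul_smul, mul_smul]
      rcases key z z1 with h | h
      · -- x fixes z
        rcases key _ hw2 with h' | h'
        · rw [inv_smul_eq_iff.mpr h'.symm, smul_inv_smul, h]
        · rw [smul_inv_smul] at h'
          have hyz : y • z = z := by
            conv_lhs => rw [h']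
            rw [smul_inv_smul]
          rw [← h', inv_smul_eq_iff.mpr h.symm, hyz, h]
      · -- y fixes z
        rw [inv_smul_eq_iff.mpr h.symm]
        rcases key _ hw1 with h' | h'
        · rw [smul_inv_smul] at h'
          rw [← h', h, h']
          conv_lhs => rw [h']
          rw [smul_inv_smul]
        · rw [h', smul_inv_smul]
    have hthree : (MulAction.toPermHom G Ω c).IsThreeCycle := by
      rw [← card_support_eq_three_iff]
      have hs : (MulAction.toPermHom G Ω c).support = {δ, x • δ, y • δ} := by
        ext z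
        simp only [Equiv.Perm.mem_support, Finset.mem_insert, Finset.mem_singleton]
        refine ⟨fun h => ?_, fun h => ?_⟩
        · by_contra hz
          push Not at hz
          exact h (c4 z hz.1 hz.2.1 hz.2.2)
        · show c • z ≠ z
          rcases h with rfl | rfl | rfl
          · rw [c3]; exact hxδ
          · rw [c1]; exact hab.symm
          · rw [c2]; exact hyδ.symm
      rw [hs, Finset.card_insert_of_notMem (by simp [hxδ.symm, hyδ.symm]), Finset.card_pair hab]
    exact hA (Equiv.Perm.alternatingGroup_le_of_isPreprimitive_of_isThreeCycle_mem hRp hthree ⟨c, rfl⟩)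
  have : Fintype G := Fintype.ofFinite G
  have hinj : Function.Injective fun g : G => (⟨fun d => g • (d : Ω), fun d d' h => Subtype.ext (smul_left_cancel g h)⟩ : D ↪ Ω) := by
    intro g g' h
    refine (inv_mul_eq_one.mp (hDP (g'⁻¹ * g) fun d hd => ?_)).symm
    rw [mul_smul, inv_smul_eq_iff]
    exact congrFun (congrArg (fun f : D ↪ Ω => (f : D → Ω)) h) ⟨d, hd⟩
  have hG := Fintype.card_le_of_injective _ hinj
  rw [Fintype.card_embedding_eq, Fintype.card_coe] at hG
  rw [Nat.card_eq_fintype_card]
  calc Fintype.card G * Nat.factorial ((n + 1) / 2)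
      ≤ n.descFactorial D.card * Nat.factorial (n - D.card) :=
        Nat.mul_le_mul hG (Nat.factorial_le (by omega))
    _ = Nat.factorial n := by rw [mul_comm]; exact Nat.factorial_mul_descFactorial (by omega)

end Cfsg.Agent.S3681
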