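import Cfsg.Statements.S3683
import Mathlib

set_option autoImplicit false
open Cfsg

namespace Cfsg.Agent.S3683

/-- Let a finite group G act faithfully and primitively on a set Ω, and suppose the stabilizer of a point a fixes a second point b ≠ a (a suborbit of length 1 other than {a}). Then the stabilizer of a is trivial and G is cyclic of prime order. -/
theorem result {G Ω : Type*} [Group G] [Finite G] [MulAction G Ω] [FaithfulSMul G Ω] [Finite Ω]
    (hprim : MulAction.IsPreprimitive G Ω) (a b : Ω) (hab : a ≠ b) (hfix : ∀ g : G, g • a = a → g • b = b) :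
    MulAction.stabilizer G a = ⊥ ∧ IsCyclic G ∧ (Nat.card G).Prime := by
  classical
  have : Nontrivial Ω := ⟨a, b, hab⟩
  have := hprim.toIsPretransitive
  have hma := MulAction.IsPreprimitive.isCoatom_stabilizer_of_isPreprimitive (G := G) a
  have hmb := MulAction.IsPreprimitive.isCoatom_stabilizer_of_isPreprimitive (G := G) b
  have hle : MulAction.stabilizer G a ≤ MulAction.stabilizer G b := fun g hg => hfix g hg
  have heq : MulAction.stabilizer G a = MulAction.stabilizer G b := by
    rcases hle.eq_or_lt with h | h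
    · exact h
    · exact absurd (hma.2 _ h) hmb.1
  obtain ⟨x, hx⟩ := MulAction.exists_smul_eq G a b
  have hxn : x ∈ Subgroup.normalizer (MulAction.stabilizer G a : Set G) := by
    rw [Subgroup.mem_normalizer_iff]
    intro g
    conv_rhs => rw [heq]
    simp only [MulAction.mem_stabilizer_iff, ← hx, mul_smul, inv_smul_smul, smul_left_cancel_iff]
  have hxs : x ∉ MulAction.stabilizer G a := fun h => hab (by
    rw [← hx]; exact (MulAction.mem_stabilizer_iff.mp h).symm)
  have htop : Subgroup.normalizer (MulAction.stabilizer G a : Set G) = ⊤ :=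
    hma.2 _ (SetLike.lt_iff_le_and_exists.mpr ⟨Subgroup.le_normalizer, x, hxn, hxs⟩)
  have hbot : MulAction.stabilizer G a = ⊥ := by
    rw [Subgroup.eq_bot_iff_forall]
    intro g hg
    refine FaithfulSMul.eq_of_smul_eq_smul fun ω : Ω => ?_
    obtain ⟨y, rfl⟩ := MulAction.exists_smul_eq G a ω
    have hy : y⁻¹ ∈ Subgroup.normalizer (MulAction.stabilizer G a : Set G) := htop ▸ Subgroup.mem_top _
    have := MulAction.mem_stabilizer_iff.mp ((Subgroup.mem_normalizer_iff.mp hy g).mp hg)
    rw [inv_inv, mul_smul, mul_smul, inv_smul_eq_iff] at this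
    rw [this, one_smul]
  rw [hbot] at hma
  have hgen : ∀ g : G, g ≠ 1 → Subgroup.zpowers g = ⊤ := fun g hg =>
    hma.2 _ (bot_lt_iff_ne_bot.mpr (Subgroup.zpowers_ne_bot.mpr hg))
  have hx1 : x ≠ 1 := fun h => hxs (h ▸ one_mem _)
  refine ⟨hbot, ⟨⟨x, fun y => Subgroup.mem_zpowers_iff.mp (show y ∈ Subgroup.zpowers x by rw [hgen x hx1]; exact Subgroup.mem_top y)⟩⟩, ?_⟩
  have : Nontrivial G := ⟨x, 1, hx1⟩
  obtain ⟨q, hq, hqd⟩ := Nat.exists_prime_and_dvd (n := Nat.card G) (Finite.one_lt_card (α := G)).ne'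
  have := Fact.mk hq
  obtain ⟨y, hy⟩ := exists_prime_orderOf_dvd_card' q hqd
  have hy1 : y ≠ 1 := fun h => hq.one_lt.ne (by rw [← hy, h, orderOf_one])
  rw [← Subgroup.card_top, ← hgen y hy1, Nat.card_zpowers, hy]
  exact hq

end Cfsg.Agent.S3683
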