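import Cfsg.Statements.S3684
import Cfsg.Agent.Lib.Invol.Dihedral
import Cfsg.Agent.Lib.Transfer.Basic

set_option autoImplicit false
open Cfsg

namespace Cfsg.Agent.S3684

/-- Let a finite group G act faithfully and primitively on a set Ω, and suppose the stabilizer of a point a has an orbit of length 2. Then the stabilizer of a has order 2 and G is isomorphic to the dihedral group of order 2p for some prime p. -/
theorem result {G Ω : Type*} [Group G] [Finite G] [MulAction G Ω] [FaithfulSMul G Ω] [Finite Ω]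
    (hprim : MulAction.IsPreprimitive G Ω) (a b : Ω) (h2 : Nat.card (MulAction.orbit (MulAction.stabilizer G a) b) = 2) :
    Nat.card (MulAction.stabilizer G a) = 2 ∧ ∃ p : ℕ, p.Prime ∧ Nonempty (G ≃* DihedralGroup p) := by
  classical
  have := hprim.toIsPretransitive
  have hab : a ≠ b := by
    intro h
    subst h
    have hs : MulAction.orbit (MulAction.stabilizer G a) a = {a} := by
      ext x
      exact ⟨fun ⟨g, hg⟩ => by rw [← hg]; exact g.2, fun h => by rw [Set.mem_singleton_iff] at h; rw [h]; exact MulAction.mem_orbit_self a⟩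
    rw [hs] at h2
    simp at h2
  have : Nontrivial Ω := ⟨a, b, hab⟩
  set A := MulAction.stabilizer G a with hA
  set B := MulAction.stabilizer G b with hB
  have hma : IsCoatom A := MulAction.IsPreprimitive.isCoatom_stabilizer_of_isPreprimitive (G := G) a
  have hmb : IsCoatom B := MulAction.IsPreprimitive.isCoatom_stabilizer_of_isPreprimitive (G := G) b
  have hidxA : B.relIndex A = 2 := by
    rw [Nat.card_coe_set_eq, ← MulAction.index_stabilizer] at h2
    exact h2
  have hcards : Nat.card A = Nat.card B := by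
    obtain ⟨x, hx⟩ := MulAction.exists_smul_eq G a b
    rw [hA, hB, ← hx, MulAction.stabilizer_smul_eq_stabilizer_map_conj,
      Subgroup.card_map_of_injective (MulAut.conj x).injective]
  have hidxB : A.relIndex B = 2 := by
    have e1 := Subgroup.card_mul_index (A.subgroupOf B)
    have e2 := Subgroup.card_mul_index (B.subgroupOf A)
    have c1 : Nat.card (A.subgroupOf B) = Nat.card ↥(A ⊓ B) := by
      rw [← Subgroup.inf_subgroupOf_right, Nat.card_congr (Subgroup.subgroupOfEquivOfLe inf_le_right).toEquiv]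
    have c2 : Nat.card (B.subgroupOf A) = Nat.card ↥(A ⊓ B) := by
      rw [← Subgroup.inf_subgroupOf_left, Nat.card_congr (Subgroup.subgroupOfEquivOfLe inf_le_left).toEquiv]
    rw [c1, ← hcards, ← e2, c2] at e1
    exact (Nat.eq_of_mul_eq_mul_left Nat.card_pos e1).trans hidxA
  have hne : A ≠ B := fun h => by rw [h, Subgroup.relIndex_self] at hidxA; omega
  have hsup : A ⊔ B = ⊤ := hma.2 _ (lt_of_le_of_ne le_sup_left fun h => by
    have hBA : B ≤ A := h ▸ le_sup_right
    rcases hBA.eq_or_lt with h' | h'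
    · exact hne h'.symm
    · exact hma.1 (hmb.2 _ h'))
  have hnorm : ∀ (X Y : Subgroup G), Y.relIndex X = 2 → X ≤ Subgroup.normalizer ((X ⊓ Y : Subgroup G) : Set G) := by
    intro X Y h
    have h' : ((X ⊓ Y).subgroupOf X).Normal := by
      rw [Subgroup.inf_subgroupOf_left]
      exact Subgroup.normal_of_index_eq_two h
    exact (Subgroup.normal_subgroupOf_iff_le_normalizer inf_le_left).mp h'
  have hKn : (A ⊓ B).Normal := Subgroup.normalizer_eq_top_iff.mp (top_le_iff.mp (hsup ▸ sup_le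
    (hnorm A B hidxA) (by rw [inf_comm]; exact hnorm B A hidxB)))
  have hkill : ∀ N : Subgroup G, N.Normal → N ≤ A → N = ⊥ := by
    intro N hN hNA
    rw [Subgroup.eq_bot_iff_forall]
    intro g hg
    refine FaithfulSMul.eq_of_smul_eq_smul fun ω : Ω => ?_
    obtain ⟨y, rfl⟩ := MulAction.exists_smul_eq G a ω
    have := MulAction.mem_stabilizer_iff.mp (hNA (hN.conj_mem g hg y⁻¹))
    rw [inv_inv, mul_smul, mul_smul, inv_smul_eq_iff] at this
    rw [this, one_smul]
  have hK : A ⊓ B = ⊥ := hkill _ hKn inf_le_left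
  have hA2 : Nat.card A = 2 := by
    rw [← hidxA, Subgroup.relIndex, ← Subgroup.inf_subgroupOf_left, hK, Subgroup.bot_subgroupOf,
      Subgroup.index_bot]
  refine ⟨hA2, ?_⟩
  have hinv : ∀ (X : Subgroup G), Nat.card X = 2 → ∃ s : G, orderOf s = 2 ∧ Subgroup.zpowers s = X := by
    intro X hX
    obtain ⟨x, hx, hx1⟩ := (Subgroup.bot_or_exists_ne_one X).resolve_left (fun h => by
      rw [h, Subgroup.card_bot] at hX; omega)
    have ho : orderOf x = 2 := orderOf_eq_prime (by
      rw [← hX]; exact congrArg Subtype.val (pow_card_eq_one' (x := (⟨x, hx⟩ : X)))) hx1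
    exact ⟨x, ho, Subgroup.eq_of_le_of_card_ge (Subgroup.zpowers_le.mpr hx) (by rw [Nat.card_zpowers, ho, hX])⟩
  obtain ⟨s, hs, hsA⟩ := hinv A hA2
  obtain ⟨t, ht, htB⟩ := hinv B (hcards ▸ hA2)
  have hst : s ≠ t := fun h => hne (by rw [← hsA, ← htB, h])
  have hgen : Subgroup.closure ({s, t} : Set G) = ⊤ := by
    rw [← top_le_iff, ← hsup, ← hsA, ← htB]
    exact sup_le (Subgroup.zpowers_le.mpr (Subgroup.subset_closure (by simp)))
      (Subgroup.zpowers_le.mpr (Subgroup.subset_closure (by simp)))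
  set C := Subgroup.zpowers (s * t) with hC
  have : NeZero (orderOf (s * t)) := ⟨(orderOf_pos _).ne'⟩
  set F := Cfsg.Lib.Invol.dihedralHom hs ht with hF
  have hFs : Function.Surjective F := by
    intro g
    obtain ⟨k, rfl | rfl⟩ := (Cfsg.Lib.Invol.mem_closure_pair_iff hs ht).mp (hgen ▸ Subgroup.mem_top g)
    · refine ⟨DihedralGroup.r (k : ZMod (orderOf (s * t))), ?_⟩
      show (s * t) ^ (k : ZMod (orderOf (s * t))).val = (s * t) ^ k
      rw [← zpow_natCast, ZMod.val_intCast, zpow_mod_orderOf]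
    · refine ⟨DihedralGroup.sr ((-k : ℤ) : ZMod (orderOf (s * t))), ?_⟩
      show s * (s * t) ^ ((-k : ℤ) : ZMod (orderOf (s * t))).val = (s * t) ^ k * s
      rw [← zpow_natCast, ZMod.val_intCast, zpow_mod_orderOf, Cfsg.Lib.Invol.zpow_mul_left hs ht]
  have hFi : Function.Injective F := by
    rw [injective_iff_map_eq_one]
    rintro (i | i) h
    · have h' : (s * t) ^ i.val = 1 := h
      have := orderOf_dvd_of_pow_eq_one h'
      have hlt := i.val_lt
      have h0 : i.val = 0 := Nat.eq_zero_of_dvd_of_lt this hlt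
      rw [(ZMod.val_eq_zero i).mp h0]
      rfl
    · have h' : s * (s * t) ^ i.val = 1 := h
      refine absurd ?_ (Cfsg.Lib.Invol.not_mem_zpowers hs ht hst)
      have hmem : ((s * t) ^ i.val)⁻¹ ∈ Subgroup.zpowers (s * t) :=
        inv_mem (pow_mem (Subgroup.mem_zpowers _) _)
      rwa [← eq_inv_of_mul_eq_one_left h'] at hmem
  have e : DihedralGroup (orderOf (s * t)) ≃* G := MulEquiv.ofBijective F ⟨hFi, hFs⟩
  refine ⟨orderOf (s * t), ?_, ⟨e.symm⟩⟩
  -- the rotation has prime order
  have hcardG : Nat.card G = 2 * orderOf (s * t) := by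
    rw [← Nat.card_congr e.toEquiv, DihedralGroup.nat_card]
  have hst1 : s * t ≠ 1 := fun h => hst (by rw [eq_inv_of_mul_eq_one_left h, Cfsg.Lib.Invol.inv_of_orderTwo ht])
  obtain ⟨q, hq, hqd⟩ := Nat.exists_prime_and_dvd (n := orderOf (s * t))
    (fun h => hst1 (orderOf_eq_one_iff.mp h))
  set D := Subgroup.zpowers ((s * t) ^ (orderOf (s * t) / q)) with hD
  have hDq : Nat.card D = q := by
    rw [hD, Nat.card_zpowers, orderOf_pow_of_dvd (Nat.div_ne_zero_iff_of_dvd hqd |>.mpr
      ⟨(orderOf_pos _).ne', hq.ne_zero⟩) (Nat.div_dvd_of_dvd hqd), Nat.div_div_self hqd (orderOf_pos _).ne']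
  have hDn : D.Normal := by
    constructor
    intro d hd g
    obtain ⟨j, rfl⟩ := hd
    simp only
    rw [← zpow_natCast (s * t), ← zpow_mul]
    have key : ∀ (l : ℤ) (i : ℤ), (s * t) ^ ((orderOf (s * t) / q : ℕ) * i) ∈ D := fun l i =>
      ⟨i, by simp only; rw [← zpow_natCast (s * t), ← zpow_mul]⟩
    obtain ⟨k, rfl | rfl⟩ := (Cfsg.Lib.Invol.mem_closure_pair_iff hs ht).mp (hgen ▸ Subgroup.mem_top g)
    · rw [← zpow_neg, ← zpow_add, ← zpow_add, show k + ((orderOf (s * t) / q : ℕ) : ℤ) * j + -k =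
        ((orderOf (s * t) / q : ℕ) : ℤ) * j by ring]
      exact key 0 j
    · rw [mul_inv_rev, Cfsg.Lib.Invol.inv_of_orderTwo hs, mul_assoc ((s * t) ^ k) s,
        Cfsg.Lib.Invol.left_mul_zpow hs ht,
        show (s * t) ^ k * ((s * t) ^ (-(((orderOf (s * t) / q : ℕ) : ℤ) * j)) * s) * (s * ((s * t) ^ k)⁻¹) =
          (s * t) ^ k * (s * t) ^ (-(((orderOf (s * t) / q : ℕ) : ℤ) * j)) * (s * s) * ((s * t) ^ k)⁻¹ by group,
        Cfsg.Lib.Invol.mul_self_of_orderTwo hs, mul_one, ← zpow_neg, ← zpow_add, ← zpow_add,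
        show k + -(((orderOf (s * t) / q : ℕ) : ℤ) * j) + -k = ((orderOf (s * t) / q : ℕ) : ℤ) * (-j) by ring]
      exact key 0 (-j)
  have htop : A ⊔ D = ⊤ := hma.2 _ (lt_of_le_of_ne le_sup_left fun h => by
    have hbot := hkill D hDn (h ▸ le_sup_right)
    rw [hbot, Subgroup.card_bot] at hDq
    exact hq.one_lt.ne hDq)
  have := Cfsg.Lib.Transfer.card_sup_dvd_of_normal A D
  rw [htop, Subgroup.card_top, hA2, hDq, hcardG] at this
  have h3 := Nat.dvd_of_mul_dvd_mul_left two_pos this
  exact (Nat.dvd_antisymm h3 hqd) ▸ hq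

end Cfsg.Agent.S3684
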