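import Cfsg.Statements.S3696
import Cfsg.Agent.Lib.Recog.AbelianPerm

set_option autoImplicit false
open Cfsg

namespace Cfsg.Agent.S3696

/-- Let p be a prime, Ω a finite set with n ≥ p elements, and A an abelian p-subgroup of the symmetric group on Ω whose elements of order dividing p number p^k (so k is the rank of A). Then |A| · k^k ≤ n^k, that is, |A| ≤ (n/k)^k. -/
theorem result {Ω : Type*} [Fintype Ω] [DecidableEq Ω]
    (p : ℕ) (hp : p.Prime) (hn : p ≤ Fintype.card Ω) (A : Subgroup (Equiv.Perm Ω)) (hA : IsPGroup p A) (hab : IsMulCommutative A)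
    (k : ℕ) (hk : Nat.card {x : A // x ^ p = 1} = p ^ k) :
    Nat.card A * k ^ k ≤ Fintype.card Ω ^ k := by
  classical
  obtain ⟨l, hl, hprod, hsum⟩ := Cfsg.Lib.Recog.AbelianPerm.exists_list hp (Nat.card A) A le_rfl hA
    (fun x hx y hy => congrArg Subtype.val (hab.is_comm.comm (⟨x, hx⟩ : A) ⟨y, hy⟩)) k hk
  calc Nat.card A * k ^ k ≤ l.prod * l.length ^ l.length := hl ▸ Nat.mul_le_mul_right _ hprod
    _ ≤ l.sum ^ l.length := Cfsg.Lib.Recog.AbelianPerm.prod_mul_pow_le l
    _ ≤ Fintype.card Ω ^ k := hl ▸ Nat.pow_le_pow_left (hsum.trans (Finset.card_le_univ _)) _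

end Cfsg.Agent.S3696
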