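import Cfsg.Statements.S3703
import Cfsg.Agent.Lib.Recog.FrobeniusModule
-- import your own Cfsg.Agent.* helpers here

set_option autoImplicit false
open Cfsg

namespace Cfsg.Agent.S3703

open scoped Pointwise


/-- Let N be a normal subgroup of the finite group G such that G/N is a Frobenius group with kernel F and cyclic complement H, where the order of F is coprime to that of N and F is not contained in the image of C_G(N) in G/N. Then G has an element of order p·#H for some prime p dividing the order of N. (A standard tool in recognising groups by their element orders.) -/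
theorem result {G : Type*} [Group G] [Finite G] (N : Subgroup G) [N.Normal]
    (Fb Hb : Subgroup (G ⧸ N)) [Fb.Normal] (hHb : Cfsg.IsFrobeniusComplement Hb) (hker : Cfsg.frobeniusKernel Hb = (Fb : Set (G ⧸ N)))
    (hcyc : IsCyclic Hb) (hcop : (Nat.card Fb).Coprime (Nat.card N))
    (hnot : ¬ Fb ≤ (Subgroup.centralizer (N : Set G)).map (QuotientGroup.mk' N)) :
    ∃ p : ℕ, p.Prime ∧ p ∣ Nat.card N ∧ ∃ g : G, orderOf g = p * Nat.card Hb := by
  refine Cfsg.Lib.Recog.FrobeniusModule.main N Fb Hb hHb ?_ hcyc hcop hnot
  rw [eq_bot_iff]
  intro x hx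
  have h : x ∈ Cfsg.frobeniusKernel Hb := hker ▸ hx.1
  rw [Subgroup.mem_bot]
  rcases h with h | h
  · exact h
  · exact absurd (show x ∈ MulAut.conj (1 : G ⧸ N) • Hb by rw [map_one, one_smul]; exact hx.2) (h 1)

end Cfsg.Agent.S3703
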