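import Cfsg.Statements.S3736
import Mathlib
import Cfsg.Agent.Lib.Solv.Coprime
import Cfsg.Agent.Lib.Solv.Coprime2
import Cfsg.Agent.Lib.Solv.PGroupBasic
-- import your own Cfsg.Agent.* helpers here

set_option autoImplicit false
open Cfsg
open scoped Pointwise commutatorElement

namespace Cfsg.Agent.S3736

open Subgroup

theorem normalizes_char {X : Type*} [Group X] {B P : Subgroup X} (hBP : B ≤ normalizer (P : Set X))
    (K : Subgroup ↥P) [K.Characteristic] : B ≤ normalizer ((K.map P.subtype : Subgroup X) : Set X) := by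
  intro b hb
  have key : ∀ n ∈ normalizer (P : Set X), ∀ x ∈ K.map P.subtype, n * x * n⁻¹ ∈ K.map P.subtype := by
    rintro n hn _ ⟨k, hk, rfl⟩
    exact ⟨P.normalizerMonoidHom ⟨n, hn⟩ k,
      (Subgroup.characteristic_iff_map_eq.1 ‹_› _).le ⟨k, hk, rfl⟩, rfl⟩
  rw [mem_normalizer_iff]
  refine fun x => ⟨key b (hBP hb) x, fun h => ?_⟩
  have := key b⁻¹ (inv_mem (hBP hb)) _ h
  simpa [mul_assoc] using this


/-- The Hall–Higman reduction for a minimal non-trivial action. Let B, A and P be subgroups of a finite group with P a p-group, B normalizing P, and A a normal subgroup of B of order prime to p. Suppose A does not centralize P but centralizes every proper B-invariant subgroup of P. Then [P, A] = P; P is elementary abelian or special; B acts irreducibly on P/Φ(P), that is, the only B-invariant subgroups of P containing Φ(P) are Φ(P) and P; and if p is odd then every element of P has order dividing p. -/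
theorem result {X : Type*} [Group X] [Finite X] {p : ℕ} [Fact p.Prime] (B A P : Subgroup X) (hP : IsPGroup p P) (hBP : B ≤ Subgroup.normalizer (P : Set X)) (hAB : A ≤ B) (hAn : B ≤ Subgroup.normalizer (A : Set X)) (hAp : (Nat.card A).Coprime p) (hnt : ⁅P, A⁆ ≠ ⊥) (hmin : ∀ U : Subgroup X, U < P → B ≤ Subgroup.normalizer (U : Set X) → ⁅U, A⁆ = ⊥) : ⁅P, A⁆ = P ∧ (Cfsg.IsElementaryAbelian p P ∨ Cfsg.IsSpecial p ↥P) ∧ (∀ U : Subgroup X, (frattini ↥P).map P.subtype ≤ U → U ≤ P → B ≤ Subgroup.normalizer (U : Set X) → U = (frattini ↥P).map P.subtype ∨ U = P) ∧ (p ≠ 2 → ∀ x ∈ P, x ^ p = 1) := by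
  classical
  have hp := (Fact.out : p.Prime)
  haveI := Fintype.ofFinite ↥A
  have hAP : A ≤ Subgroup.normalizer (P : Set X) := hAB.trans hBP
  have hsolv : Group.IsSolvable A ∨ Group.IsSolvable P := by
    haveI := hP.isNilpotent
    exact Or.inr inferInstance
  obtain ⟨e, he⟩ := IsPGroup.iff_card.1 hP
  have hcop : (Nat.card A).Coprime (Nat.card P) := he ▸ hAp.pow_right e
  have hle : ⁅P, A⁆ ≤ P := Cfsg.Lib.Solv.commutator_le_of_normalizes hAP
  have hBnorm : B ≤ Subgroup.normalizer ((⁅P, A⁆ : Subgroup X) : Set X) := by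
    intro b hb
    rw [← Cfsg.Lib.Solv.conj_smul_eq_self_iff, Cfsg.Lib.Solv.conj_smul_commutator,
      Cfsg.Lib.Solv.conj_smul_eq_self_iff.2 (hBP hb), Cfsg.Lib.Solv.conj_smul_eq_self_iff.2 (hAn hb)]
  have hPA : ⁅P, A⁆ = P := by
    refine hle.eq_or_lt.resolve_right fun hlt => hnt ?_
    exact Cfsg.Lib.Solv.centralizes_of_commutator_commutator_eq_bot A P hAP hcop hsolv (hmin _ hlt hBnorm)
  set C := P ⊓ Subgroup.centralizer (A : Set X) with hC
  have hmin' : ∀ U : Subgroup X, U < P → B ≤ Subgroup.normalizer (U : Set X) → U ≤ C := fun U hU hBU =>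
    le_inf hU.le ((Subgroup.commutator_eq_bot_iff_le_centralizer).1 (hmin U hU hBU))
  -- the averaging homomorphism shows that fixed points lie in the derived subgroup
  have hCD : ∀ x : ↥P, (x : X) ∈ Subgroup.centralizer (A : Set X) → x ∈ commutator ↥P := by
    intro x hx
    let σ : ↥A → ↥P →* ↥P := fun a => (P.normalizerMonoidHom ⟨a, hAP a.2⟩).toMonoidHom
    let ψ : ↥P →* Abelianization ↥P := ∏ a : ↥A, Abelianization.of.comp (σ a)
    have hψ : ∀ k, ψ k = ∏ a : ↥A, Abelianization.of (σ a k) := fun k => by simp [ψ, MonoidHom.finsetProd_apply]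
    have hinv : ∀ (c : ↥A) k, ψ (σ c k) = ψ k := fun c k => by
      rw [hψ, hψ]
      refine Fintype.prod_equiv (Equiv.mulRight c) _ _ fun a => congrArg _ (Subtype.ext ?_)
      show (a : X) * ((c : X) * k * (c : X)⁻¹) * (a : X)⁻¹ = (a * c : X) * k * (a * c : X)⁻¹
      group
    have hker : P ≤ ψ.ker.map P.subtype := by
      calc P = ⁅P, A⁆ := hPA.symm
        _ ≤ _ := Subgroup.commutator_le.2 fun k hk a ha => by
          refine ⟨⟨k, hk⟩ * (σ ⟨a, ha⟩ ⟨k, hk⟩)⁻¹, ?_, ?_⟩
          · show ψ _ = 1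
            rw [map_mul, map_inv, hinv, mul_inv_cancel]
          · show k * (a * k * a⁻¹)⁻¹ = ⁅k, a⁆
            rw [commutatorElement_def]; group
    obtain ⟨y, hy, hyx⟩ := hker x.2
    have h1 : ψ x = 1 := Subtype.ext hyx ▸ hy
    have h2 : ∀ a : ↥A, σ a x = x := fun a => Subtype.ext (by
      show (a : X) * x * (a : X)⁻¹ = x
      rw [Subgroup.mem_centralizer_iff.1 hx a a.2, mul_inv_cancel_right])
    rw [hψ, Finset.prod_congr rfl (fun a _ => congrArg _ (h2 a)), Finset.prod_const, Finset.card_univ,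
      ← Nat.card_eq_fintype_card] at h1
    have h3 : Abelianization.of x = 1 := by
      rw [← orderOf_eq_one_iff]
      refine Nat.eq_one_of_dvd_coprimes hcop (orderOf_dvd_of_pow_eq_one h1) ?_
      exact (orderOf_map_dvd _ x).trans (orderOf_dvd_natCard x)
    rw [← Abelianization.ker_of ↥P]
    exact h3
  set Φ := (frattini ↥P).map P.subtype with hΦ
  have hnontriv : P ≠ ⊥ := fun h => hnt (by rw [h, Subgroup.commutator_bot_left])
  have hΦlt : Φ < P := by
    refine lt_of_le_of_ne (Subgroup.map_subtype_le _) fun h => hnontriv ?_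
    have htop : frattini ↥P = ⊤ := by
      apply Subgroup.map_injective P.subtype_injective
      rw [← hΦ, h, ← MonoidHom.range_eq_map, Subgroup.range_subtype]
    have := frattini_nongenerating (G := ↥P) (K := ⊥) (by rw [htop, sup_top_eq])
    exact (Subgroup.eq_bot_iff_forall P).2 fun x hx =>
      congrArg Subtype.val (Subgroup.mem_bot.1 (this.ge (Subgroup.mem_top (⟨x, hx⟩ : ↥P))))
  have hΦB : B ≤ Subgroup.normalizer (Φ : Set X) := normalizes_char hBP _
  have hΦC : Φ ≤ C := hmin' Φ hΦlt hΦB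
  have hDF : commutator ↥P ≤ frattini ↥P := Cfsg.Lib.Solv.commutator_le_frattini hP
  have hFD : frattini ↥P ≤ commutator ↥P := fun x hx => hCD x (hΦC ⟨x, hx, rfl⟩).2
  have hFDeq : frattini ↥P = commutator ↥P := le_antisymm hFD hDF
  have hCΦ : C ≤ Φ := fun x hx => ⟨⟨x, hx.1⟩, hFDeq ▸ hCD ⟨x, hx.1⟩ hx.2, rfl⟩
  have hPcent : ⁅P, Φ⁆ = ⊥ := by
    rw [← hPA]
    have hAΦ : ⁅Φ, A⁆ = ⊥ := hmin Φ hΦlt hΦB
    refine Subgroup.commutator_commutator_eq_bot_of_rotate ?_ ?_
    · rw [Subgroup.commutator_comm A Φ, hAΦ, Subgroup.commutator_bot_left]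
    · rw [eq_bot_iff, ← hAΦ]
      refine Subgroup.commutator_mono (Subgroup.commutator_le.2 fun f hf g hg => ?_) le_rfl
      obtain ⟨f', hf', rfl⟩ := hf
      exact ⟨⁅f', ⟨g, hg⟩⁆, hDF (Subgroup.commutator_mem_commutator (Subgroup.mem_top _) (Subgroup.mem_top _)),
        map_commutatorElement _ _ _⟩
  have hFZ : frattini ↥P ≤ Subgroup.center ↥P := fun f hf => Subgroup.mem_center_iff.2 fun g => Subtype.ext
    (Subgroup.mem_centralizer_iff.1 ((Subgroup.commutator_eq_bot_iff_le_centralizer).1 hPcent g.2) f ⟨f, hf, rfl⟩).symm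
  refine ⟨hPA, ?_, ?_, ?_⟩
  · by_cases hab : Subgroup.center ↥P = ⊤
    · left
      have hcomm : commutator ↥P = ⊥ := by
        rw [_root_.commutator_def, Subgroup.commutator_eq_bot_iff_le_centralizer]
        intro x _
        exact Subgroup.mem_centralizer_iff.2 fun y _ => Subgroup.mem_center_iff.1 (hab ▸ Subgroup.mem_top x) y
      refine ⟨⟨⟨fun a b => (Subgroup.mem_center_iff.1 (hab ▸ Subgroup.mem_top a) b).symm⟩⟩, fun a ha => ?_⟩
      have h1 := Cfsg.Lib.Solv.pow_mem_frattini hP (⟨a, ha⟩ : ↥P)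
      rw [hFDeq, hcomm, Subgroup.mem_bot] at h1
      exact congrArg Subtype.val h1
    · right
      have hZC : (Subgroup.center ↥P).map P.subtype ≤ C := by
        refine hmin' _ (lt_of_le_of_ne (Subgroup.map_subtype_le _) fun h => hab ?_) (normalizes_char hBP _)
        apply Subgroup.map_injective P.subtype_injective
        rw [h, ← MonoidHom.range_eq_map, Subgroup.range_subtype]
      have hZF : Subgroup.center ↥P ≤ frattini ↥P := fun z hz => by
        obtain ⟨z', hz', hzz⟩ := hCΦ (hZC ⟨z, hz, rfl⟩)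
        exact Subtype.ext hzz ▸ hz'
      have hZ := le_antisymm hFZ hZF
      exact ⟨hP, hZ, hFDeq.symm.trans hZ⟩
  · intro U hΦU hUP hBU
    by_cases hU : U = P
    · exact Or.inr hU
    · exact Or.inl (le_antisymm ((hmin' U (lt_of_le_of_ne hUP hU) hBU).trans hCΦ) hΦU)
  · intro hp2 x hx
    have hcl : ∀ u v : ↥P, ⁅u, v⁆ ∈ Subgroup.center ↥P := fun u v =>
      hFZ (hDF (Subgroup.commutator_mem_commutator (Subgroup.mem_top u) (Subgroup.mem_top v)))
    have hmulpow : ∀ u v : ↥P, ∀ m : ℕ, (u * v) ^ m = u ^ m * v ^ m * ⁅v, u⁆ ^ (m.choose 2) := by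
      intro u v m
      have hz : ∀ w : ↥P, Commute (⁅v, u⁆) w := fun w => (Subgroup.mem_center_iff.1 (hcl v u) w).symm
      have hvu : ∀ i : ℕ, v ^ i * u = u * v ^ i * ⁅v, u⁆ ^ i := by
        intro i
        induction i with
        | zero => simp
        | succ i ih =>
          have h0 : v * u = u * v * ⁅v, u⁆ := by
            rw [← (hz (u * v)).eq, commutatorElement_def]; group
          calc v ^ (i + 1) * u = v ^ i * (v * u) := by rw [pow_succ, mul_assoc]
            _ = (v ^ i * u) * (v * ⁅v, u⁆) := by rw [h0]; group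
            _ = u * v ^ i * (⁅v, u⁆ ^ i * v) * ⁅v, u⁆ := by rw [ih]; group
            _ = u * v ^ (i + 1) * ⁅v, u⁆ ^ (i + 1) := by rw [((hz v).pow_left i).eq]; simp only [pow_succ, mul_assoc]
      induction m with
      | zero => simp
      | succ m ih =>
        calc (u * v) ^ (m + 1) = u ^ m * v ^ m * (⁅v, u⁆ ^ m.choose 2 * (u * v)) := by rw [pow_succ, ih]; group
          _ = u ^ m * (v ^ m * u) * v * ⁅v, u⁆ ^ m.choose 2 := by rw [((hz (u * v)).pow_left _).eq]; group
          _ = u ^ (m + 1) * v ^ m * (⁅v, u⁆ ^ m * v) * ⁅v, u⁆ ^ m.choose 2 := by rw [hvu m]; group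
          _ = u ^ (m + 1) * v ^ (m + 1) * ⁅v, u⁆ ^ ((m + 1).choose 2) := by
            rw [((hz v).pow_left m).eq, Nat.choose_succ_succ, Nat.choose_one_right, pow_add]; group
    have hcomp : ∀ u v : ↥P, ⁅v, u⁆ ^ p = 1 := by
      intro u v
      have hk : ∀ i : ℕ, ⁅v ^ i, u⁆ = ⁅v, u⁆ ^ i := by
        intro i
        induction i with
        | zero => simp
        | succ i ih =>
          rw [pow_succ' v, show ⁅v * v ^ i, u⁆ = v * ⁅v ^ i, u⁆ * v⁻¹ * ⁅v, u⁆ by
            simp only [commutatorElement_def]; group, Subgroup.mem_center_iff.1 (hcl _ u) v, mul_inv_cancel_right,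
            ih, pow_succ]
      rw [← hk, commutatorElement_eq_one_iff_commute]
      exact ((Subgroup.mem_center_iff.1 (hFZ (Cfsg.Lib.Solv.pow_mem_frattini hP v))) u).symm
    let π : ↥P →* ↥P := MonoidHom.mk' (fun u => u ^ p) (fun u v => by
      obtain ⟨c, hc⟩ : p ∣ p.choose 2 := hp.dvd_choose_self two_ne_zero (lt_of_le_of_ne hp.two_le (Ne.symm hp2))
      rw [hmulpow, hc, pow_mul, hcomp, one_pow, mul_one])
    have hker : P ≤ π.ker.map P.subtype := by
      calc P = ⁅P, A⁆ := hPA.symm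
        _ ≤ _ := Subgroup.commutator_le.2 fun k hk a ha => by
          refine ⟨⟨k, hk⟩ * (P.normalizerMonoidHom ⟨a, hAP ha⟩ ⟨k, hk⟩)⁻¹, ?_, ?_⟩
          · show π _ = 1
            rw [map_mul, map_inv, mul_inv_eq_one]
            show (⟨k, hk⟩ : ↥P) ^ p = (P.normalizerMonoidHom ⟨a, hAP ha⟩ ⟨k, hk⟩) ^ p
            rw [← map_pow]
            apply Subtype.ext
            have h := (hΦC ⟨_, Cfsg.Lib.Solv.pow_mem_frattini hP ⟨k, hk⟩, rfl⟩).2
            show _ = a * _ * a⁻¹
            have h' : a * (((⟨k, hk⟩ : ↥P) ^ p : ↥P) : X) = (((⟨k, hk⟩ : ↥P) ^ p : ↥P) : X) * a :=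
              Subgroup.mem_centralizer_iff.1 h a ha
            rw [h']
            exact (mul_inv_cancel_right _ _).symm
          · show k * (a * k * a⁻¹)⁻¹ = ⁅k, a⁆
            rw [commutatorElement_def]; group
    obtain ⟨y, hy, hyx⟩ := hker hx
    rw [← hyx]
    exact congrArg Subtype.val (show y ^ p = 1 from hy)

end Cfsg.Agent.S3736
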