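import Cfsg.Statements.S3740
import Cfsg.Agent.Lib.Classical.SLTwoSub
import Cfsg.Agent.Lib.PLocal.FFCore
import Cfsg.Agent.Lib.Solv.ThompsonKernel

set_option autoImplicit false
open Cfsg
open scoped Pointwise commutatorElement

namespace Cfsg.Agent.S3740

open Cfsg.Lib.PStable in
lemma det_sub_one {F : Type} [Field F] (a : Matrix.SpecialLinearGroup (Fin 2) F) :
    ((a : Matrix (Fin 2) (Fin 2) F) - 1).det = 2 - trc a := by
  have hd := det_eq (g := a)
  rw [Matrix.det_fin_two]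
  simp [trc, Matrix.one_apply]
  linear_combination hd

open Cfsg.Lib.PStable in
lemma trc_p_element {F : Type} [Field F] {p : ℕ} [Fact p.Prime] [CharP F p]
    (a : Matrix.SpecialLinearGroup (Fin 2) F) {k : ℕ} (h : a ^ p ^ k = 1) : trc a = 2 := by
  haveI : CharP (Matrix (Fin 2) (Fin 2) F) p :=
    charP_of_injective_algebraMap (algebraMap F (Matrix (Fin 2) (Fin 2) F)).injective p
  have hX : (a : Matrix (Fin 2) (Fin 2) F) ^ p ^ k = 1 := by
    rw [← Matrix.SpecialLinearGroup.coe_pow, h, Matrix.SpecialLinearGroup.coe_one]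
  have hn : ((a : Matrix (Fin 2) (Fin 2) F) - 1) ^ p ^ k = 0 := by
    rw [sub_pow_char_pow_of_commute p k (Commute.one_right _), hX, one_pow, sub_self]
  have hd := congrArg Matrix.det hn
  rw [Matrix.det_pow, Matrix.det_zero] at hd
  have := eq_zero_of_pow_eq_zero hd
  rw [det_sub_one] at this
  exact (sub_eq_zero.1 this).symm



/-- Let F be a finite field of odd characteristic p and let a be a p-element of SL₂(F) normalizing a subgroup R of order prime to p with [R, a] ≠ 1. Then p = 3, R is a quaternion group of order 8, and R⟨a⟩ is isomorphic to SL₂(3). -/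
theorem result (F : Type) [Field F] [Fintype F] {p : ℕ} [Fact p.Prime] [CharP F p] (hp : p ≠ 2) (a : Matrix.SpecialLinearGroup (Fin 2) F) (ha : IsPGroup p ↥(Subgroup.zpowers a)) (R : Subgroup (Matrix.SpecialLinearGroup (Fin 2) F)) (hR : (Nat.card R).Coprime p) (haR : a ∈ Subgroup.normalizer (R : Set (Matrix.SpecialLinearGroup (Fin 2) F))) (hnt : ⁅R, Subgroup.zpowers a⁆ ≠ ⊥) : p = 3 ∧ Nonempty (↥R ≃* QuaternionGroup 2) ∧ Nonempty (↥(R ⊔ Subgroup.zpowers a) ≃* Matrix.SpecialLinearGroup (Fin 2) (ZMod 3)) := by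
  classical
  open Cfsg.Lib.PStable in
  have hpp : p.Prime := Fact.out
  have h2F : (2 : F) ≠ 0 := fun h => hp ((Nat.prime_dvd_prime_iff_eq hpp Nat.prime_two).1
    ((CharP.cast_eq_zero_iff F p 2).1 (by exact_mod_cast h)))
  set A := Subgroup.zpowers a with hA
  -- conjugation by the elements of A keeps R
  have hAN : A ≤ Subgroup.normalizer (R : Set (Matrix.SpecialLinearGroup (Fin 2) F)) :=
    Subgroup.zpowers_le.2 haR
  have hconjR : ∀ x ∈ R, a * x * a⁻¹ ∈ R := fun x hx => (Subgroup.mem_normalizer_iff.1 haR x).1 hx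
  have hLN : R ⊔ A ≤ Subgroup.normalizer (R : Set (Matrix.SpecialLinearGroup (Fin 2) F)) :=
    sup_le Subgroup.le_normalizer hAN
  have hdecomp : ∀ x ∈ R ⊔ A, ∃ r ∈ R, ∃ b ∈ A, x = r * b := by
    intro x hx
    have hx' : x ∈ (((R ⊔ A : Subgroup _)) : Set (Matrix.SpecialLinearGroup (Fin 2) F)) := hx
    rw [Subgroup.coe_mul_of_right_le_normalizer_left R A hAN] at hx'
    obtain ⟨r, hr, b, hb, rfl⟩ := hx'
    exact ⟨r, hr, b, hb, rfl⟩
  have hRp : ∀ x ∈ R, ∀ k : ℕ, x ^ p ^ k = 1 → x = 1 := by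
    intro x hx k hk
    rw [← orderOf_eq_one_iff]
    exact Nat.eq_one_of_dvd_coprimes (hR.pow_right k) (R.orderOf_dvd_natCard hx)
      (orderOf_dvd_of_pow_eq_one hk)
  have hRA : ∀ x ∈ R, x ∈ A → x = 1 := by
    intro x hxR hxA
    obtain ⟨k, hk⟩ := ha ⟨x, hxA⟩
    exact hRp x hxR k (by simpa using congrArg Subtype.val hk)
  -- more than one Sylow subgroup
  have hsyl : 1 < Nat.card (Sylow p ↥(R ⊔ A)) := by
    by_contra hlt
    haveI : Subsingleton (Sylow p ↥(R ⊔ A)) := Finite.card_le_one_iff_subsingleton.1 (not_lt.1 hlt)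
    obtain ⟨P, hP⟩ := (IsPGroup.exists_le_sylow (P := A.subgroupOf (R ⊔ A))
      (ha.of_equiv (Subgroup.subgroupOfEquivOfLe (le_sup_right : A ≤ R ⊔ A)).symm))
    have hPA : ∀ x : ↥(R ⊔ A), x ∈ (P : Subgroup ↥(R ⊔ A)) → (x : Matrix.SpecialLinearGroup (Fin 2) F) ∈ A := by
      intro x hx
      obtain ⟨r, hr, b, hb, e⟩ := hdecomp _ x.2
      obtain ⟨k, hk⟩ := P.isPGroup'
        ⟨x * ⟨b, le_sup_right (a := R) hb⟩⁻¹, mul_mem hx (inv_mem (hP (Subgroup.mem_subgroupOf.2 hb)))⟩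
      have hk' := congrArg (fun z : (P : Subgroup ↥(R ⊔ A)) => ((z : ↥(R ⊔ A)) : Matrix.SpecialLinearGroup (Fin 2) F)) hk
      simp only [SubmonoidClass.coe_pow, Subgroup.coe_mul, Subgroup.coe_inv, OneMemClass.coe_one, e,
        mul_inv_cancel_right] at hk'
      rw [e, hRp r hr k hk', one_mul]
      exact hb
    apply hnt
    rw [eq_bot_iff, Subgroup.commutator_le]
    intro r hr b hb
    rw [Subgroup.mem_bot, commutatorElement_def]
    haveI : (P : Subgroup ↥(R ⊔ A)).Normal := P.normal_of_subsingleton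
    have h1 : r * b * r⁻¹ ∈ A := hPA _ (Subgroup.Normal.conj_mem inferInstance
      (⟨b, le_sup_right (a := R) hb⟩ : ↥(R ⊔ A)) (hP (Subgroup.mem_subgroupOf.2 hb))
      ⟨r, le_sup_left (b := A) hr⟩)
    refine hRA _ ?_ (mul_mem h1 (inv_mem hb))
    have h2 : b * r⁻¹ * b⁻¹ ∈ R := (Subgroup.mem_normalizer_iff.1 (hAN hb) r⁻¹).1 (inv_mem hr)
    simpa [mul_assoc] using mul_mem hr h2
  obtain ⟨ψ, hψ, hψL⟩ := Cfsg.Lib.SLTwoSub.exists_sl_two hp (R ⊔ A) hsyl
  -- commutators of R ⊔ A lie in R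
  have hcomm : ∀ x ∈ R ⊔ A, ∀ y ∈ R ⊔ A, ⁅x, y⁆ ∈ R := by
    intro x hx y hy
    obtain ⟨r, hr, b, hb, rfl⟩ := hdecomp x hx
    obtain ⟨s, hs, c, hc, rfl⟩ := hdecomp y hy
    have hbc : Commute b c := by
      obtain ⟨i, rfl⟩ := hb
      obtain ⟨j, rfl⟩ := hc
      exact (Commute.refl a).zpow_zpow i j
    have e : ⁅r * b, s * c⁆ = r * (b * s * b⁻¹) * (c * r⁻¹ * c⁻¹) * s⁻¹ := by
      have e1 : c * b⁻¹ = b⁻¹ * c := (hbc.inv_left).symm.eq
      rw [commutatorElement_def]
      calc r * b * (s * c) * (r * b)⁻¹ * (s * c)⁻¹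
          = r * b * s * (c * b⁻¹) * r⁻¹ * c⁻¹ * s⁻¹ := by group
        _ = _ := by rw [e1]; group
    rw [e]
    refine mul_mem (mul_mem (mul_mem hr ?_) ?_) (inv_mem hs)
    · exact (Subgroup.mem_normalizer_iff.1 (hAN hb) s).1 hs
    · exact (Subgroup.mem_normalizer_iff.1 (hAN hc) r⁻¹).1 (inv_mem hr)
  have hp3 : p = 3 := by
    by_contra hne
    have h2 : (2 : ZMod p) ≠ 0 := fun h => hp ((Nat.prime_dvd_prime_iff_eq hpp Nat.prime_two).1
      ((CharP.cast_eq_zero_iff (ZMod p) p 2).1 (by exact_mod_cast h)))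
    have h3 : (3 : ZMod p) ≠ 0 := fun h => hne ((Nat.prime_dvd_prime_iff_eq hpp Nat.prime_three).1
      ((CharP.cast_eq_zero_iff (ZMod p) p 3).1 (by exact_mod_cast h)))
    have hmem : ∀ g h, ⁅g, h⁆ ∈ R.comap ψ := fun g h => by
      rw [Subgroup.mem_comap, map_commutatorElement]
      exact hcomm _ (hψL ⟨g, rfl⟩) _ (hψL ⟨h, rfl⟩)
    let d : Matrix.SpecialLinearGroup (Fin 2) (ZMod p) :=
      ⟨!![2, 0; 0, 2⁻¹], by rw [Matrix.det_fin_two_of]; field_simp; ring⟩
    let d' : Matrix.SpecialLinearGroup (Fin 2) (ZMod p) :=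
      ⟨!![2⁻¹, 0; 0, 2], by rw [Matrix.det_fin_two_of]; field_simp; ring⟩
    have eu : d * Cfsg.Lib.PStable.upperU 1 = Cfsg.Lib.PStable.upperU 3 * (Cfsg.Lib.PStable.upperU 1 * d) := by
      apply Subtype.ext
      show !![2, 0; 0, 2⁻¹] * !![1, 1; 0, 1] = !![1, 3; 0, 1] * (!![1, 1; 0, 1] * !![2, 0; 0, (2 : ZMod p)⁻¹])
      ext i j
      fin_cases i <;> fin_cases j <;> simp [Matrix.mul_apply, Fin.sum_univ_two]
      all_goals (field_simp; ring)
    have el : d' * Cfsg.Lib.PStable.lowerU 1 = Cfsg.Lib.PStable.lowerU 3 * (Cfsg.Lib.PStable.lowerU 1 * d') := by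
      apply Subtype.ext
      show !![2⁻¹, 0; 0, 2] * !![1, 0; 1, 1] = !![1, 0; 3, 1] * (!![1, 0; 1, 1] * !![(2 : ZMod p)⁻¹, 0; 0, 2])
      ext i j
      fin_cases i <;> fin_cases j <;> simp [Matrix.mul_apply, Fin.sum_univ_two]
      all_goals (field_simp; ring)
    have hu : Cfsg.Lib.PStable.upperU (3 : ZMod p) ∈ R.comap ψ := by
      convert hmem d (Cfsg.Lib.PStable.upperU 1) using 1
      rw [commutatorElement_def, eu]; group
    have hl : Cfsg.Lib.PStable.lowerU (3 : ZMod p) ∈ R.comap ψ := by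
      convert hmem d' (Cfsg.Lib.PStable.lowerU 1) using 1
      rw [commutatorElement_def, el]; group
    have hu1 : Cfsg.Lib.PStable.upperU (1 : ZMod p) ∈ R.comap ψ := by
      have hpow : ∀ m : ℕ, Cfsg.Lib.PStable.upperU ((m : ZMod p) * 3) ∈ R.comap ψ := by
        intro m
        induction m with
        | zero => simp [Cfsg.Lib.PStable.upperU_zero]
        | succ m ih =>
          rw [Nat.cast_succ, add_mul, one_mul, Cfsg.Lib.PStable.upperU_add]
          exact mul_mem ih hu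
      have := hpow ((3 : ZMod p)⁻¹).val
      rwa [ZMod.natCast_zmod_val, inv_mul_cancel₀ h3] at this
    have htop := Cfsg.Lib.PStable.eq_top_of_transvections _ hu1 h3 hl
    have hU : (Cfsg.Lib.PStable.upperU (1 : ZMod p)) ^ p ^ 1 = 1 := by
      rw [pow_one]
      exact Cfsg.Lib.PStable.pow_char_of_trc_two (by simp [Cfsg.Lib.PStable.trc, Cfsg.Lib.PStable.upperU]; ring)
    have h1 := hRp _ hu1 1 (by rw [← map_pow, hU, map_one])
    exact one_ne_zero (Cfsg.Lib.PStable.upperU_injective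
      ((hψ (h1.trans ψ.map_one.symm)).trans Cfsg.Lib.PStable.upperU_zero.symm))
  subst hp3
  -- the element a has order 3
  have ha3 : a ^ 3 = 1 := by
    obtain ⟨k, hk⟩ := ha ⟨a, Subgroup.mem_zpowers a⟩
    exact Cfsg.Lib.PStable.pow_char_of_trc_two (trc_p_element a (p := 3) (k := k)
      (by simpa using congrArg Subtype.val hk))
  have ha1 : a ≠ 1 := fun h => hnt (by rw [hA, h, Subgroup.zpowers_one_eq_bot, Subgroup.commutator_bot_right])
  have hcent : ∀ (g : Matrix.SpecialLinearGroup (Fin 2) F), Cfsg.Lib.PStable.IsScalar2 g →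
      ∀ h, g * h = h * g := by
    intro g hg h
    obtain ⟨g01, g10, gd⟩ := hg
    apply Subtype.ext
    ext i j
    fin_cases i <;> fin_cases j <;> simp [Matrix.mul_apply, Fin.sum_univ_two, g01, g10, gd, mul_comm]
  have hans : ¬ Cfsg.Lib.PStable.IsScalar2 a := by
    intro hs
    rcases (Cfsg.Lib.PStable.isScalar2_iff a).1 hs with h | h
    · exact ha1 h
    · rw [h, Odd.neg_one_pow (show Odd 3 from ⟨1, rfl⟩)] at ha3
      exact ha1 (h.trans ha3)
  have key : ∀ b ∈ R, Commute (a * b * a⁻¹) b → Cfsg.Lib.PStable.IsScalar2 b := by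
    intro b hb hc
    by_contra hns
    have hne : (b 0 0 + b 1 1) ^ 2 ≠ 4 := by
      intro h4
      have h4' : (b 0 0 + b 1 1 - 2) * (b 0 0 + b 1 1 + 2) = 0 := by linear_combination h4
      rcases mul_eq_zero.1 h4' with h | h
      · have := hRp b hb 1 (by
          rw [pow_one]; exact Cfsg.Lib.PStable.pow_char_of_trc_two (sub_eq_zero.1 h))
        exact hns ((Cfsg.Lib.PStable.isScalar2_iff b).2 (Or.inl this))
      · have hneg : (-b) ^ 3 = 1 := Cfsg.Lib.PStable.pow_char_of_trc_two (by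
          simp only [Cfsg.Lib.PStable.trc, Matrix.SpecialLinearGroup.coe_neg, Matrix.neg_apply]
          linear_combination -h)
        have hb2 : b ^ 2 = 1 := hRp _ (pow_mem hb 2) 1 (by
          rw [pow_one, ← pow_mul, show 2 * 3 = 3 * 2 by rfl, pow_mul, ← neg_sq (b ^ 3),
            ← Odd.neg_pow (⟨1, rfl⟩ : Odd 3), hneg, one_pow])
        exact hns (Cfsg.Lib.PStable.scalar_of_sq_eq_one h2F (by rw [← sq, hb2]))
    rcases Cfsg.Lib.PStable.eq_or_eq_inv h2F hns hne hc.eq (by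
        show Cfsg.Lib.PStable.trc (a * b * a⁻¹) = Cfsg.Lib.PStable.trc b
        simp only [Cfsg.Lib.PStable.trc, ← Matrix.trace_fin_two, Matrix.SpecialLinearGroup.coe_mul]
        rw [Matrix.trace_mul_cycle, ← Matrix.SpecialLinearGroup.coe_mul, inv_mul_cancel,
          Matrix.SpecialLinearGroup.coe_one, one_mul]) with h | h
    · have hab : b * a = a * b := by
        have := congrArg (· * a) h
        simpa [mul_assoc] using this.symm
      obtain ⟨u, v, e1, e2, e3, e4⟩ := Cfsg.Lib.PStable.exists_linear_of_commute hans hab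
      have hd := Cfsg.Lib.PStable.det_eq (g := b)
      have hda := Cfsg.Lib.PStable.det_eq (g := a)
      have hta : a 0 0 + a 1 1 = 2 := trc_p_element a (p := 3) (k := 1) (by rw [pow_one, ha3])
      apply hne
      rw [e1, e2, e3, e4] at hd
      rw [e1, e4]
      linear_combination 4 * hd - 4 * u ^ 2 * hda + (u ^ 2 * (a 0 0 + a 1 1 + 2)) * hta
    · have e1 : MulAut.conj a b = b⁻¹ := h
      have e3 : MulAut.conj a (MulAut.conj a (MulAut.conj a b)) = b := by
        rw [← MulAut.mul_apply, ← MulAut.mul_apply, ← map_mul, ← map_mul,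
          show a * a * a = a ^ 3 by rw [pow_three, mul_assoc], ha3, map_one, MulAut.one_apply]
      rw [e1, map_inv, e1, inv_inv, e1] at e3
      exact hns (Cfsg.Lib.PStable.scalar_of_sq_eq_one h2F (by
        nth_rewrite 1 [← e3]
        exact inv_mul_cancel b))
  have hnab : ¬ ∀ x ∈ R, ∀ y ∈ R, x * y = y * x := by
    intro hab
    apply hnt
    rw [Subgroup.commutator_eq_bot_iff_le_centralizer]
    intro x hx
    rw [Subgroup.mem_centralizer_iff]
    intro y _
    exact (hcent x (key x hx (hab _ (hconjR x hx) x hx)) y).symm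
  have hZ : ∀ z ∈ R, (∀ x ∈ R, x * z = z * x) → Cfsg.Lib.PStable.IsScalar2 z := by
    intro z hz hzc
    by_contra hns
    exact hnab fun x hx y hy => Cfsg.Lib.PStable.commute_trans hns (hzc x hx) (hzc y hy)
  -- conjugation by a on R
  let φ : ↥R ≃* ↥R :=
    { toFun := fun x => ⟨a * x * a⁻¹, hconjR x x.2⟩
      invFun := fun x => ⟨a⁻¹ * x * a, by
        simpa using (Subgroup.mem_normalizer_iff.1 (inv_mem haR) (x : Matrix.SpecialLinearGroup (Fin 2) F)).1 x.2⟩
      left_inv := fun x => Subtype.ext (by simp [mul_assoc])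
      right_inv := fun x => Subtype.ext (by simp [mul_assoc])
      map_mul' := fun x y => Subtype.ext (by simp [mul_assoc]) }
  have hφ3 : ∀ x : ↥R, φ^[3] x = x := by
    intro x
    apply Subtype.ext
    show a * (a * (a * (x : Matrix.SpecialLinearGroup (Fin 2) F) * a⁻¹) * a⁻¹) * a⁻¹ = x
    calc _ = a ^ 3 * (x : Matrix.SpecialLinearGroup (Fin 2) F) * (a ^ 3)⁻¹ := by simp [pow_three, mul_assoc]
      _ = _ := by rw [ha3]; simp
  have hRne : ∃ x : ↥R, x ≠ 1 := by
    by_contra h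
    push Not at h
    exact hnab fun x hx y hy => by rw [show x = 1 from congrArg Subtype.val (h ⟨x, hx⟩)]; simp
  have hneg1 : (-1 : Matrix.SpecialLinearGroup (Fin 2) F) ∈ R := by
    by_contra hn1
    have hsc : ∀ x : ↥R, Cfsg.Lib.PStable.IsScalar2 (x : Matrix.SpecialLinearGroup (Fin 2) F) → x = 1 := by
      intro x hx
      rcases (Cfsg.Lib.PStable.isScalar2_iff _).1 hx with h | h
      · exact Subtype.ext h
      · exact absurd (h ▸ x.2) hn1
    have hF : Cfsg.Lib.Solv.ThompsonKernel.Fpf φ 3 := ⟨Nat.prime_three, fun g hg => hsc g (key g g.2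
      (by rw [show a * (g : Matrix.SpecialLinearGroup (Fin 2) F) * a⁻¹ = g from congrArg Subtype.val hg])), hφ3⟩
    haveI := Cfsg.Lib.Solv.ThompsonKernel.fpf_isNilpotent hF
    haveI : Nontrivial ↥R := ⟨⟨hRne.choose, 1, hRne.choose_spec⟩⟩
    haveI : Nontrivial (Subgroup.center ↥R) :=
      (Subgroup.nontrivial_iff_ne_bot _).2 (Group.IsNilpotent.center_ne_bot _)
    obtain ⟨⟨z, hz⟩, hz1⟩ := exists_ne (1 : Subgroup.center ↥R)
    refine hz1 (Subtype.ext (hsc z (hZ z z.2 fun x hx => ?_)))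
    exact congrArg Subtype.val (Subgroup.mem_center_iff.1 hz ⟨x, hx⟩)
  -- R/Z has a fixed-point-free automorphism
  let Z : Subgroup ↥R := Subgroup.center ↥R
  have hZiff : ∀ x : ↥R, x ∈ Z ↔ Cfsg.Lib.PStable.IsScalar2 (x : Matrix.SpecialLinearGroup (Fin 2) F) := fun x =>
    ⟨fun hx => hZ x x.2 fun y hy => congrArg Subtype.val (Subgroup.mem_center_iff.1 hx ⟨y, hy⟩),
      fun hx => Subgroup.mem_center_iff.2 fun y => Subtype.ext (hcent _ hx y).symm⟩
  have hinvZ : Cfsg.Lib.Solv.ThompsonKernel.Inv φ Z :=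
    Cfsg.Lib.Solv.ThompsonKernel.inv_of_characteristic _
  have hFq : Cfsg.Lib.Solv.ThompsonKernel.Fpf (QuotientGroup.congr Z Z φ hinvZ.map_eq) 3 := by
    refine ⟨Nat.prime_three, fun g hg => ?_, fun g => ?_⟩
    · obtain ⟨x, rfl⟩ := QuotientGroup.mk'_surjective Z g
      have hx : (φ x)⁻¹ * x ∈ Z := QuotientGroup.eq.mp hg
      rw [QuotientGroup.mk'_apply, QuotientGroup.eq_one_iff, hZiff]
      refine key _ x.2 ?_
      have hxc := (hcent _ ((hZiff _).1 hx) (x : Matrix.SpecialLinearGroup (Fin 2) F))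
      have : Commute (a * (x : Matrix.SpecialLinearGroup (Fin 2) F) * a⁻¹)⁻¹ (x : Matrix.SpecialLinearGroup (Fin 2) F) := by
        have h' : ((a * (x : Matrix.SpecialLinearGroup (Fin 2) F) * a⁻¹)⁻¹ * x) * x =
            x * ((a * (x : Matrix.SpecialLinearGroup (Fin 2) F) * a⁻¹)⁻¹ * x) := hxc
        exact mul_right_cancel (b := (x : Matrix.SpecialLinearGroup (Fin 2) F)) (h'.trans (mul_assoc _ _ _).symm)
      simpa using this.inv_left
    · obtain ⟨x, rfl⟩ := QuotientGroup.mk'_surjective Z g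
      refine ((Function.Semiconj.iterate_right (f := (QuotientGroup.mk' Z : ↥R → ↥R ⧸ Z))
        (ga := φ) (gb := QuotientGroup.congr Z Z φ hinvZ.map_eq) (fun _ => rfl) 3 x).symm).trans ?_
      rw [hφ3]
  haveI hRnil : Group.IsNilpotent ↥R := by
    haveI := Cfsg.Lib.Solv.ThompsonKernel.fpf_isNilpotent hFq
    exact Subgroup.isNilpotent_of_ker_le_center (QuotientGroup.mk' Z) (by rw [QuotientGroup.ker_mk'])
  -- R is a 2-group
  have hR2 : IsPGroup 2 ↥R := by
    refine IsPGroup.iff_card.2 ⟨_, Nat.eq_prime_pow_of_unique_prime_dvd Nat.card_pos.ne' (fun {q} hq hdvd => ?_)⟩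
    by_contra hq2
    haveI : Fact q.Prime := ⟨hq⟩
    obtain ⟨Q⟩ : Nonempty (Sylow q ↥R) := inferInstance
    haveI hQn : (Q : Subgroup ↥R).Normal := Cfsg.Lib.Solv.normal_sylow_of_nilpotent Q
    haveI : Subsingleton (Sylow q ↥R) :=
      ⟨fun S T => by haveI := Sylow.unique_of_normal Q hQn; exact Subsingleton.elim S T⟩
    haveI : Nontrivial (Q : Subgroup ↥R) := (Subgroup.nontrivial_iff_ne_bot _).2 (Sylow.ne_bot_of_dvd_card Q hdvd)
    haveI := Q.isPGroup'.center_nontrivial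
    obtain ⟨⟨z, hz⟩, hz1⟩ := exists_ne (1 : Subgroup.center (Q : Subgroup ↥R))
    have hφQ : φ (z : ↥R) ∈ (Q : Subgroup ↥R) := by
      obtain ⟨S, hS⟩ := (Q.isPGroup'.map φ.toMonoidHom).exists_le_sylow
      rw [Subsingleton.elim S Q] at hS
      exact hS (Subgroup.mem_map_of_mem φ.toMonoidHom z.2)
    have hc : Commute (a * ((z : ↥R) : Matrix.SpecialLinearGroup (Fin 2) F) * a⁻¹)
        ((z : ↥R) : Matrix.SpecialLinearGroup (Fin 2) F) :=
      congrArg (fun w : (Q : Subgroup ↥R) => ((w : ↥R) : Matrix.SpecialLinearGroup (Fin 2) F))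
        (Subgroup.mem_center_iff.1 hz ⟨_, hφQ⟩)
    have hsq : (z : ↥R) ^ 2 = 1 := by
      rcases (Cfsg.Lib.PStable.isScalar2_iff _).1 (key _ (z : ↥R).2 hc) with h | h <;>
        exact Subtype.ext (by rw [SubmonoidClass.coe_pow, h]; simp)
    obtain ⟨k, hk⟩ := Q.isPGroup'.exists_orderOf_eq_pow z
    have hz2 : orderOf z = 1 := Nat.eq_one_of_dvd_coprimes
      (((Nat.coprime_primes hq Nat.prime_two).2 hq2).pow_left k) (hk ▸ dvd_rfl)
      (orderOf_dvd_of_pow_eq_one (Subtype.ext hsq))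
    exact hz1 (Subtype.ext (orderOf_eq_one_iff.1 hz2))
  haveI : Fact (Nat.Prime 2) := ⟨Nat.prime_two⟩
  have huniq : ∀ x y : ↥R, orderOf x = 2 → orderOf y = 2 → y ∈ Subgroup.zpowers x := by
    have k2 : ∀ x : ↥R, orderOf x = 2 → (x : Matrix.SpecialLinearGroup (Fin 2) F) = -1 := by
      intro x hx
      have h1 : x * x = 1 := by rw [← sq]; exact orderOf_dvd_iff_pow_eq_one.1 (dvd_of_eq hx)
      rcases (Cfsg.Lib.PStable.isScalar2_iff _).1
        (Cfsg.Lib.PStable.scalar_of_sq_eq_one h2F (congrArg Subtype.val h1)) with h | h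
      · rw [show x = 1 from Subtype.ext h, orderOf_one] at hx
        exact absurd hx (by norm_num)
      · exact h
    intro x y hx hy
    rw [show y = x from Subtype.ext ((k2 y hy).trans (k2 x hx).symm)]
    exact Subgroup.mem_zpowers x
  obtain ⟨c, g, hc4, hidx, hg, hinv, hg2⟩ : ∃ c g : ↥R, 4 ≤ orderOf c ∧ (Subgroup.zpowers c).index = 2 ∧
      g ∉ Subgroup.zpowers c ∧ g * c * g⁻¹ = c⁻¹ ∧ g ^ 2 = c ^ (orderOf c / 2) := by
    rcases Cfsg.Lib.ZStar.isCyclic_or_inverted hR2 huniq with h | ⟨-, h⟩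
    · exact absurd (fun x hx y hy => congrArg Subtype.val
        ((IsCyclic.commGroup (α := ↥R)).mul_comm ⟨x, hx⟩ ⟨y, hy⟩)) hnab
    · exact h
  have hc2 : orderOf c = 4 := by
    by_cases hw : φ c ∈ Subgroup.zpowers c
    · exfalso
      obtain ⟨i, hi⟩ := hw
      have hcom : Commute (φ c) c := hi ▸ (Commute.refl c).zpow_left i
      have hsc := key c c.2 (congrArg Subtype.val hcom.eq)
      have : c ^ 2 = 1 := by
        rcases (Cfsg.Lib.PStable.isScalar2_iff _).1 hsc with h | h <;>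
          exact Subtype.ext (by rw [SubmonoidClass.coe_pow, h]; simp)
      have := Nat.le_of_dvd two_pos (orderOf_dvd_of_pow_eq_one this)
      omega
    · obtain ⟨i, hi⟩ : g⁻¹ * φ c ∈ Subgroup.zpowers c :=
        (Subgroup.mul_mem_iff_of_index_two hidx).2 (iff_of_false (fun h => hg (by simpa using inv_mem h)) hw)
      have hw2 : φ c ^ 2 = g ^ 2 := by
        have h0 : φ c = g * c ^ i := by
          rw [show c ^ i = g⁻¹ * φ c from hi, mul_inv_cancel_left]
        have h1 : g⁻¹ * c ^ i * g = (c ^ i)⁻¹ := by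
          have h2 : g * c ^ i * g⁻¹ = (c ^ i)⁻¹ := by rw [← conj_zpow, hinv, inv_zpow]
          rw [eq_inv_iff_mul_eq_one] at h2 ⊢
          calc g⁻¹ * c ^ i * g * c ^ i = g⁻¹ * ((c ^ i) * (g * c ^ i * g⁻¹)) * g := by group
            _ = 1 := by
              rw [show c ^ i * (g * c ^ i * g⁻¹) = 1 by
                rw [← mul_eq_one_comm]; exact h2]
              group
        rw [h0, sq, sq]
        calc g * c ^ i * (g * c ^ i) = g * g * (g⁻¹ * c ^ i * g) * c ^ i := by group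
          _ = g * g := by rw [h1]; group
      have h4 : φ c ^ 4 = 1 := by
        rw [show 4 = 2 * 2 from rfl, pow_mul, hw2, hg2, ← pow_mul, ← orderOf_dvd_iff_pow_eq_one]
        obtain ⟨k, hk⟩ := hR2.exists_orderOf_eq_pow c
        rcases k with _ | k
        · rw [pow_zero] at hk; omega
        · rw [hk, pow_succ]; simp
      have := Nat.le_of_dvd (by norm_num) (orderOf_dvd_of_pow_eq_one h4)
      rw [MulEquiv.orderOf_eq] at this
      omega
  have hRQ : Nonempty (↥R ≃* QuaternionGroup 2) :=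
    Cfsg.Lib.ZStar.nonempty_quaternion_of_inverted two_ne_zero hc2 hidx hg hinv (by rw [hg2, hc2])
  refine ⟨rfl, hRQ, ?_⟩
  have hRc : Nat.card ↥R = 8 := by
    rw [← (Subgroup.zpowers c).index_mul_card, hidx, Nat.card_zpowers, hc2]
  have hAc : Nat.card ↥A = 3 := by
    rw [hA, Nat.card_zpowers]
    exact orderOf_eq_prime ha3 ha1
  have hLc : Nat.card ↥(R ⊔ A) ≤ 24 := by
    have hsurj : Function.Surjective (fun x : ↥R × ↥A =>
        (⟨x.1 * x.2, mul_mem (le_sup_left (b := A) x.1.2) (le_sup_right (a := R) x.2.2)⟩ : ↥(R ⊔ A))) := by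
      intro x
      obtain ⟨r, hr, b, hb, e⟩ := hdecomp _ x.2
      exact ⟨(⟨r, hr⟩, ⟨b, hb⟩), Subtype.ext e.symm⟩
    have := Nat.card_le_card_of_surjective _ hsurj
    rw [Nat.card_prod, hRc, hAc] at this
    exact this
  have hrange : ψ.range = R ⊔ A := Subgroup.eq_of_le_of_card_ge hψL (by
    rw [← Nat.card_congr (MonoidHom.ofInjective hψ).toEquiv, Cfsg.Lib.PLocal.FF.card_sl_two_three]
    exact hLc)
  exact ⟨(MulEquiv.subgroupCongr hrange.symm).trans (MonoidHom.ofInjective hψ).symm⟩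

end Cfsg.Agent.S3740
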