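import Cfsg.Statements.S3764
import Mathlib
import Cfsg.Agent.Lib.Solv.HHTheoremB
import Cfsg.Agent.Lib.PStable.Involve
-- import your own Cfsg.Agent.* helpers here

set_option autoImplicit false
open Cfsg

namespace Cfsg.Agent.S3764

/-- Let p, q, r be distinct primes and let X, Q, V be subgroups of a finite group with X of order r, Q an extraspecial q-group normalized by X with C_Q(X) = Z(Q), and V an elementary abelian p-group normalized by X and Q on which XQ acts faithfully ((X ⊔ Q) ∩ C(V) = 1). If C_V(X) = 1, then q = 2, r = 2^n + 1 for some n, and Q has order 2^(2n+1). -/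
theorem result {G : Type*} [Group G] [Finite G] {p q r : ℕ} (hp : p.Prime) (hq : q.Prime) (hr : r.Prime) (hpq : p ≠ q) (hpr : p ≠ r) (hqr : q ≠ r) (X Q V : Subgroup G) (hX : Nat.card X = r) (hQ : Cfsg.IsExtraspecial q ↥Q) (hXQ : X ≤ Subgroup.normalizer (Q : Set G)) (hCQ : Q ⊓ Subgroup.centralizer (X : Set G) = (Subgroup.center ↥Q).map Q.subtype) (hV : Cfsg.IsElementaryAbelian p V) (hXV : X ≤ Subgroup.normalizer (V : Set G)) (hQV : Q ≤ Subgroup.normalizer (V : Set G)) (hfaith : (X ⊔ Q) ⊓ Subgroup.centralizer (V : Set G) = ⊥) (hCV : V ⊓ Subgroup.centralizer (X : Set G) = ⊥) : q = 2 ∧ ∃ n : ℕ, r = 2 ^ n + 1 ∧ Nat.card Q = 2 ^ (2 * n + 1) := by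
  classical
  haveI := Fact.mk hp
  haveI := Fact.mk hq
  haveI := Fact.mk hr
  obtain ⟨⟨x, hxX⟩, hx⟩ := exists_prime_orderOf_dvd_card' (G := X) r (by rw [hX])
  have hxord : orderOf x = r := by rwa [Subgroup.orderOf_mk] at hx
  have hzx : Subgroup.zpowers x = X := Subgroup.eq_of_le_of_card_ge (Subgroup.zpowers_le.2 hxX)
    (by rw [hX, Nat.card_zpowers, hxord])
  have hxr : x ^ r ^ 1 = 1 := by rw [pow_one, ← hxord, pow_orderOf_eq_one]
  have hinv : ∀ b ∈ Q, MulAut.conj x b ∈ Q := fun b hb => (Subgroup.mem_normalizer_iff.1 (hXQ hxX) b).1 hb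
  let α : MulAut Q := Cfsg.Lib.Solv.HH.resAut (MulAut.conj x) Q hinv
  have hα : α ^ r ^ 1 = 1 :=
    Cfsg.Lib.Solv.HH.resAut_pow_eq_one _ Q hinv (by rw [← map_pow, hxr, map_one])
  have hfix : ∀ a : Q, α a = a ↔ a ∈ Subgroup.center Q := by
    intro a
    have h1 : α a = a ↔ (a : G) ∈ Q ⊓ Subgroup.centralizer (X : Set G) := by
      rw [← hzx, Subgroup.mem_inf, Subgroup.zpowers_eq_closure, Subgroup.centralizer_closure,
        Subgroup.mem_centralizer_singleton_iff]
      refine ⟨fun h => ⟨a.2, ?_⟩, fun h => Subtype.ext ?_⟩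
      · have h2 : x * (a : G) * x⁻¹ = a := congr_arg Subtype.val h
        calc (a : G) * x = x * a * x⁻¹ * x := by rw [h2]
          _ = x * a := by group
      · show x * (a : G) * x⁻¹ = a
        rw [← h.2, mul_inv_cancel_right]
    rw [h1, hCQ, Subgroup.mem_map]
    exact ⟨fun ⟨b, hb, hba⟩ => (show b = a from Subtype.ext hba) ▸ hb, fun h => ⟨a, h, rfl⟩⟩
  -- the module
  letI : CommGroup V := { (inferInstance : Group V) with mul_comm := fun u w => hV.1.is_comm.comm u w }
  haveI : NeZero p := ⟨hp.ne_zero⟩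
  letI : Module (ZMod p) (Additive V) :=
    Cfsg.Lib.PStable.zmodOfExp p fun v => Subtype.ext (hV.2 v v.2)
  let ψ : ↥(Subgroup.normalizer (V : Set G)) →* Module.End (ZMod p) (Additive V) :=
    (Cfsg.Lib.PStable.endHom p).comp (Subgroup.normalizerMonoidHom V)
  have hψ : ∀ g v, Additive.toMul (ψ g v) = Subgroup.normalizerMonoidHom V g (Additive.toMul v) :=
    fun g v => Cfsg.Lib.PStable.endHom_apply p _ v
  let x' : ↥(Subgroup.normalizer (V : Set G)) := ⟨x, hXV hxX⟩
  let ρ : Q →* Module.End (ZMod p) (Additive V) := ψ.comp (Subgroup.inclusion hQV)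
  set T := ψ x' with hT
  have hXinj : Function.Injective T := by
    intro u w huw
    have h1 := congr(ψ x'⁻¹ $huw)
    rw [hT, ← Module.End.mul_apply, ← Module.End.mul_apply, ← map_mul, inv_mul_cancel, map_one] at h1
    exact h1
  have hXr : T ^ r ^ 1 = 1 := by
    rw [hT, ← map_pow, show x' ^ r ^ 1 = 1 from Subtype.ext hxr, map_one]
  have hrel : ∀ g : Q, T * ρ g = ρ (α g) * T := fun g => by
    show ψ x' * ψ (Subgroup.inclusion hQV g) = ψ (Subgroup.inclusion hQV (α g)) * ψ x'
    rw [← map_mul, ← map_mul]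
    refine congr_arg ψ (Subtype.ext ?_)
    show x * (g : G) = x * g * x⁻¹ * x
    group
  have hρinj : Function.Injective ρ := by
    rw [← MonoidHom.ker_eq_bot_iff, eq_bot_iff]
    intro a ha
    have h1 : ∀ v ∈ V, (a : G) * v * (a : G)⁻¹ = v := fun v hv => by
      have h2 := congr(Additive.toMul ($ha (Additive.ofMul (⟨v, hv⟩ : V))))
      rw [Module.End.one_apply] at h2
      exact congr_arg Subtype.val h2
    have h2 : (a : G) ∈ (X ⊔ Q) ⊓ Subgroup.centralizer (V : Set G) := ⟨Subgroup.mem_sup_right a.2,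
      Subgroup.mem_centralizer_iff.2 fun v hv => by
        calc v * (a : G) = (a : G) * v * (a : G)⁻¹ * a := by rw [h1 v hv]
          _ = a * v := by group⟩
    rw [hfaith, Subgroup.mem_bot] at h2
    exact Subgroup.mem_bot.2 (Subtype.ext h2)
  have hfpfV : ∀ v, T v = v → v = 0 := by
    intro v hv
    have h1 : x * ((Additive.toMul v : V) : G) * x⁻¹ = ((Additive.toMul v : V) : G) := congr_arg Subtype.val hv
    have h2 : ((Additive.toMul v : V) : G) ∈ V ⊓ Subgroup.centralizer (X : Set G) := ⟨(Additive.toMul v).2, by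
      show _ ∈ Subgroup.centralizer (X : Set G)
      rw [← hzx, Subgroup.zpowers_eq_closure, Subgroup.centralizer_closure,
        Subgroup.mem_centralizer_singleton_iff]
      calc ((Additive.toMul v : V) : G) * x = x * ((Additive.toMul v : V) : G) * x⁻¹ * x := by rw [h1]
        _ = x * ((Additive.toMul v : V) : G) := by group⟩
    rw [hCV, Subgroup.mem_bot] at h2
    exact Additive.toMul.injective (Subtype.ext h2)
  let K := AlgebraicClosure (ZMod p)
  let ρK : Q →* Module.End K (TensorProduct (ZMod p) K (Additive V)) :=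
    (Module.End.baseChangeHom (ZMod p) K (Additive V)).toMonoidHom.comp ρ
  have hqK : (q : K) ≠ 0 := fun h => hpq
    ((Nat.prime_dvd_prime_iff_eq hp hq).1 ((CharP.cast_eq_zero_iff K p q).1 h))
  obtain ⟨hQp, hsp⟩ := hQ.1
  have hcardZ : Nat.card (Subgroup.center Q) = q := hQ.2
  have hcomm : ∀ a b : Q, a * b * a⁻¹ * b⁻¹ ∈ Subgroup.center Q := by
    intro a b
    rw [← hsp.2]
    exact Subgroup.commutator_mem_commutator (Subgroup.mem_top a) (Subgroup.mem_top b)
  have hτ : α ^ r ^ (1 - 1) = α := by simp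
  have hfpfZ : ∀ a, (α ^ r ^ (1 - 1)) a * a⁻¹ ∈ Subgroup.center Q → a ∈ Subgroup.center Q := by
    intro a ha
    rw [hτ] at ha
    rw [← hfix]
    set c := α a * a⁻¹ with hc
    have hcf : α c = c := (hfix c).2 ha
    have hk : ∀ k : ℕ, (α ^ k) a = c ^ k * a := by
      intro k
      induction k with
      | zero => simp
      | succ k ih =>
        rw [pow_succ', MulAut.mul_apply, ih, map_mul, map_pow, hcf, pow_succ, mul_assoc, hc, inv_mul_cancel_right]
    have h1 := hk (r ^ 1)
    rw [hα, MulAut.one_apply, eq_comm, mul_eq_right, pow_one] at h1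
    obtain ⟨k, hk'⟩ := hQp c
    have h2 := pow_gcd_eq_one.2 ⟨h1, hk'⟩
    rw [(Nat.Coprime.pow_right k ((Nat.coprime_primes hr hq).2 hqr.symm)).gcd_eq_one, pow_one] at h2
    exact mul_inv_eq_one.1 h2
  obtain ⟨a₀, ha₀⟩ : ∃ a : Q, a ∉ Subgroup.center Q := by
    by_contra hcon
    push Not at hcon
    haveI : Nontrivial Q := by
      rw [← Finite.one_lt_card_iff_nontrivial]
      calc 1 < Nat.card (Subgroup.center Q) := by rw [hcardZ]; exact hq.one_lt
        _ ≤ Nat.card Q := Nat.card_le_card_of_injective _ Subtype.val_injective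
    haveI : Group.IsNilpotent Q := hQp.isNilpotent
    exact (Group.IsSolvable.commutator_lt_top_of_nontrivial (G := Q)).ne
      (hsp.2.trans (eq_top_iff.2 fun a _ => hcon a))
  have hne : ∃ a, ρK ((α ^ r ^ (1 - 1)) a) ≠ ρK a :=
    ⟨a₀, fun h => ha₀ ((hfix a₀).1 (by
      have h1 := hρinj (Cfsg.Lib.Solv.HH.baseChangeHom_injective K h)
      rwa [hτ] at h1))⟩
  rcases Cfsg.Lib.Solv.HH.hh_core hr hq Nat.one_pos hQp hqK ρK α hα
      (Module.End.baseChangeHom (ZMod p) K (Additive V) T)
      (Cfsg.Lib.Solv.HH.baseChangeHom_injective_apply K hXinj)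
      (fun g => by
        show _ * Module.End.baseChangeHom (ZMod p) K (Additive V) (ρ g) = _
        rw [← map_mul, hrel, map_mul]
        rfl)
      (Subgroup.center Q) le_rfl hcomm (fun a ha => by rw [(hfix a).2 ha]; exact ha) hfpfZ hne with
    ⟨v, hv⟩ | ⟨j, e, m, lam, hje, hm, he, hPe, -, -, R, hZR, hRi, hRm, -⟩
  · exfalso
    have hdeg := Cfsg.Lib.Solv.HH.degGE_of_baseChange K T (Cfsg.Lib.Solv.HH.degGE_of_indep _ hv)
    have hS : ∑ i ∈ Finset.range (r ^ 1), T ^ i = 0 := by
      refine LinearMap.ext fun w => hfpfV _ ?_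
      have h1 : (T - 1) * ∑ i ∈ Finset.range (r ^ 1), T ^ i = 0 := by rw [mul_geom_sum, hXr, sub_self]
      exact sub_eq_zero.1 (congr($h1 w))
    set f : Polynomial (ZMod p) := ∑ i ∈ Finset.range (r ^ 1), Polynomial.X ^ i with hf
    have hc : f.coeff 0 = 1 := by simp [hf, Polynomial.coeff_X_pow, hr.pos]
    have h2 := hdeg f (fun h0 => by simp [h0] at hc) (by rw [hf, map_sum]; simpa using hS)
    have h3 : f.natDegree ≤ r ^ 1 - 1 := Polynomial.natDegree_sum_le_of_forall_le _ _ fun i hi => by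
      rw [Polynomial.natDegree_X_pow]
      have := Finset.mem_range.1 hi
      omega
    have := hr.pos
    rw [pow_one] at h2 h3
    omega
  · have he1 : e = 1 := by omega
    subst he1
    rw [pow_one] at hPe
    have hqm : 1 < q ^ m := Nat.one_lt_pow (by omega) hq.one_lt
    have hq2 : q = 2 := by
      by_contra h2
      have h3 : Odd (q ^ m) := (hq.odd_of_ne_two h2).pow
      have h4 : Odd r := hr.odd_of_ne_two (by omega)
      rw [hPe] at h4
      exact absurd h3 (by simpa [Nat.odd_add_one] using h4)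
    have hRZ : R = Subgroup.center Q := by
      refine le_antisymm (fun a ha => Subgroup.mem_center_iff.2 fun b => ?_) hZR
      have hinj : Function.Injective lam := by
        rw [← MonoidHom.ker_eq_bot_iff]
        haveI : Fact (Nat.card (Subgroup.center Q)).Prime := ⟨by rw [hcardZ]; exact hq⟩
        rcases Subgroup.eq_bot_or_eq_top_of_prime_card lam.ker with h | h
        · exact h
        · exfalso
          have hR : R = ⊤ := eq_top_iff.2 fun c _ => (hRm c).2 fun d =>
            MonoidHom.mem_ker.1 (h ▸ Subgroup.mem_top _)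
          rw [hR, Subgroup.index_top] at hRi
          have : 1 < q ^ (2 * m) := Nat.one_lt_pow (by omega) hq.one_lt
          omega
      have h1 : b * a * b⁻¹ * a⁻¹ = 1 :=
        congr_arg Subtype.val (hinj (((hRm a).1 ha b).trans (map_one lam).symm))
      calc b * a = b * a * b⁻¹ * a⁻¹ * (a * b) := by group
        _ = a * b := by rw [h1, one_mul]
    refine ⟨hq2, m, by rw [← hq2]; omega, ?_⟩
    rw [← Subgroup.card_mul_index (Subgroup.center Q), hcardZ, ← hRZ, hRi, hq2, pow_succ, mul_comm]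

end Cfsg.Agent.S3764
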