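import Cfsg.Statements.S3765
import Mathlib
import Mathlib
import Cfsg.Agent.Lib.Solv.HHTheoremB
import Cfsg.Agent.Lib.PStable.Involve
-- import your own Cfsg.Agent.* helpers here

set_option autoImplicit false
open Cfsg

namespace Cfsg.Agent.S3765

/-- Let p, q, r be distinct primes and let X, Q, V be subgroups of a finite group with X of order r normalizing the q-group Q and acting faithfully on it (X ∩ C(Q) = 1), and V a nontrivial elementary abelian p-group normalized by X and Q on which XQ acts faithfully. If q = 2 and r has the form 2^n + 1, assume in addition that Q is abelian. Then C_V(X) ≠ 1. -/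
theorem result {G : Type*} [Group G] [Finite G] {p q r : ℕ} (hp : p.Prime) (hq : q.Prime) (hr : r.Prime) (hpq : p ≠ q) (hpr : p ≠ r) (hqr : q ≠ r) (X Q V : Subgroup G) (hX : Nat.card X = r) (hQ : IsPGroup q Q) (hXQ : X ≤ Subgroup.normalizer (Q : Set G)) (hXfaith : X ⊓ Subgroup.centralizer (Q : Set G) = ⊥) (hV : Cfsg.IsElementaryAbelian p V) (hV1 : V ≠ ⊥) (hXV : X ≤ Subgroup.normalizer (V : Set G)) (hQV : Q ≤ Subgroup.normalizer (V : Set G)) (hfaith : (X ⊔ Q) ⊓ Subgroup.centralizer (V : Set G) = ⊥) (hexc : q = 2 → (∃ n : ℕ, r = 2 ^ n + 1) → IsMulCommutative Q) : V ⊓ Subgroup.centralizer (X : Set G) ≠ ⊥ := by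
  classical
  intro hCV
  haveI := Fact.mk hp
  haveI := Fact.mk hq
  haveI := Fact.mk hr
  obtain ⟨⟨x, hxX⟩, hx⟩ := exists_prime_orderOf_dvd_card' (G := X) r (by rw [hX])
  have hxord : orderOf x = r := by rwa [Subgroup.orderOf_mk] at hx
  have hzx : Subgroup.zpowers x = X := Subgroup.eq_of_le_of_card_ge (Subgroup.zpowers_le.2 hxX)
    (by rw [hX, Nat.card_zpowers, hxord])
  have hxr : x ^ r ^ 1 = 1 := by rw [pow_one, ← hxord, pow_orderOf_eq_one]
  have hinv : ∀ b ∈ Q, MulAut.conj x b ∈ Q := fun b hb => (Subgroup.mem_normalizer_iff.1 (hXQ hxX) b).1 hb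
  let α : MulAut Q := Cfsg.Lib.Solv.HH.resAut (MulAut.conj x) Q hinv
  have hα : α ^ r ^ 1 = 1 :=
    Cfsg.Lib.Solv.HH.resAut_pow_eq_one _ Q hinv (by rw [← map_pow, hxr, map_one])
  -- the module
  letI : CommGroup V := { (inferInstance : Group V) with mul_comm := fun u w => hV.1.is_comm.comm u w }
  haveI : NeZero p := ⟨hp.ne_zero⟩
  letI : Module (ZMod p) (Additive V) :=
    Cfsg.Lib.PStable.zmodOfExp p fun v => Subtype.ext (hV.2 v v.2)
  let ψ : ↥(Subgroup.normalizer (V : Set G)) →* Module.End (ZMod p) (Additive V) :=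
    (Cfsg.Lib.PStable.endHom p).comp (Subgroup.normalizerMonoidHom V)
  let x' : ↥(Subgroup.normalizer (V : Set G)) := ⟨x, hXV hxX⟩
  let ρ : Q →* Module.End (ZMod p) (Additive V) := ψ.comp (Subgroup.inclusion hQV)
  set T := ψ x' with hT
  have hXinj : Function.Injective T := by
    intro u w huw
    have h1 := congr(ψ x'⁻¹ $huw)
    rw [hT, ← Module.End.mul_apply, ← Module.End.mul_apply, ← map_mul, inv_mul_cancel, map_one] at h1
    exact h1
  have hXr : T ^ r ^ 1 = 1 := by
    rw [hT, ← map_pow, show x' ^ r ^ 1 = 1 from Subtype.ext hxr, map_one]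
  have hrel : ∀ g : Q, T * ρ g = ρ (α g) * T := fun g => by
    show ψ x' * ψ (Subgroup.inclusion hQV g) = ψ (Subgroup.inclusion hQV (α g)) * ψ x'
    rw [← map_mul, ← map_mul]
    refine congr_arg ψ (Subtype.ext ?_)
    show x * (g : G) = x * g * x⁻¹ * x
    group
  have hρinj : Function.Injective ρ := by
    rw [← MonoidHom.ker_eq_bot_iff, eq_bot_iff]
    intro a ha
    have h1 : ∀ v ∈ V, (a : G) * v * (a : G)⁻¹ = v := fun v hv => by
      have h2 := congr(Additive.toMul ($ha (Additive.ofMul (⟨v, hv⟩ : V))))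
      rw [Module.End.one_apply] at h2
      exact congr_arg Subtype.val h2
    have h2 : (a : G) ∈ (X ⊔ Q) ⊓ Subgroup.centralizer (V : Set G) := ⟨Subgroup.mem_sup_right a.2,
      Subgroup.mem_centralizer_iff.2 fun v hv => by
        calc v * (a : G) = (a : G) * v * (a : G)⁻¹ * a := by rw [h1 v hv]
          _ = a * v := by group⟩
    rw [hfaith, Subgroup.mem_bot] at h2
    exact Subgroup.mem_bot.2 (Subtype.ext h2)
  have hfpfV : ∀ v, T v = v → v = 0 := by
    intro v hv
    have h1 : x * ((Additive.toMul v : V) : G) * x⁻¹ = ((Additive.toMul v : V) : G) := congr_arg Subtype.val hv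
    have h2 : ((Additive.toMul v : V) : G) ∈ V ⊓ Subgroup.centralizer (X : Set G) := ⟨(Additive.toMul v).2, by
      show _ ∈ Subgroup.centralizer (X : Set G)
      rw [← hzx, Subgroup.zpowers_eq_closure, Subgroup.centralizer_closure,
        Subgroup.mem_centralizer_singleton_iff]
      calc ((Additive.toMul v : V) : G) * x = x * ((Additive.toMul v : V) : G) * x⁻¹ * x := by rw [h1]
        _ = x * ((Additive.toMul v : V) : G) := by group⟩
    rw [hCV, Subgroup.mem_bot] at h2
    exact Additive.toMul.injective (Subtype.ext h2)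
  have hne : ∃ a, ρ ((α ^ r ^ (1 - 1)) a) ≠ ρ a := by
    by_contra hcon
    push Not at hcon
    have h1 : x ∈ X ⊓ Subgroup.centralizer (Q : Set G) := ⟨hxX, Subgroup.mem_centralizer_iff.2 fun b hb => by
      have h2 := hρinj (hcon ⟨b, hb⟩)
      simp at h2
      have h3 : x * b * x⁻¹ = b := congr_arg Subtype.val h2
      calc b * x = x * b * x⁻¹ * x := by rw [h3]
        _ = x * b := by group⟩
    rw [hXfaith, Subgroup.mem_bot] at h1
    exact hr.ne_one (by rw [← hxord, h1, orderOf_one])
  have hqK : (q : ZMod p) ≠ 0 := fun h => hpq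
    ((Nat.prime_dvd_prime_iff_eq hp hq).1 ((CharP.cast_eq_zero_iff (ZMod p) p q).1 h))
  rcases Cfsg.Lib.Solv.HH.hall_higman hr hq hqr.symm Nat.one_pos hQ hqK ρ α hα T hXinj hrel hne with
    hdeg | ⟨e, m, he, he1, hm, hPe, hnab, -⟩
  · have hS : ∑ i ∈ Finset.range (r ^ 1), T ^ i = 0 := by
      refine LinearMap.ext fun w => hfpfV _ ?_
      have h1 : (T - 1) * ∑ i ∈ Finset.range (r ^ 1), T ^ i = 0 := by rw [mul_geom_sum, hXr, sub_self]
      exact sub_eq_zero.1 (congr($h1 w))
    set f : Polynomial (ZMod p) := ∑ i ∈ Finset.range (r ^ 1), Polynomial.X ^ i with hf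
    have hc : f.coeff 0 = 1 := by simp [hf, Polynomial.coeff_X_pow, hr.pos]
    have h2 := hdeg f (fun h0 => by simp [h0] at hc) (by rw [hf, map_sum]; simpa using hS)
    have h3 : f.natDegree ≤ r ^ 1 - 1 := Polynomial.natDegree_sum_le_of_forall_le _ _ fun i hi => by
      rw [Polynomial.natDegree_X_pow]
      have := Finset.mem_range.1 hi
      omega
    have := hr.pos
    rw [pow_one] at h2 h3
    omega
  · obtain rfl : e = 1 := by omega
    rw [pow_one] at hPe
    have hq2 : q = 2 := by
      by_contra h2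
      have h3 : Odd (q ^ m) := (hq.odd_of_ne_two h2).pow
      have h4 : r = 2 := by
        rcases hr.eq_two_or_odd' with h | h
        · exact h
        · rw [hPe] at h
          exact absurd h3 (by simpa [Nat.odd_add_one] using h)
      have : 1 < q ^ m := Nat.one_lt_pow (by omega) hq.one_lt
      omega
    subst hq2
    have hab := hexc rfl ⟨m, hPe⟩
    exact hnab fun a b => hab.is_comm.comm a b

end Cfsg.Agent.S3765
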