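import Cfsg.Statements.S3787
import Mathlib
import Mathlib
import Cfsg.Agent.Lib.Solv.HHWreath
import Cfsg.Agent.Lib.Fusion.Submodel
-- import your own Cfsg.Agent.* helpers here

set_option autoImplicit false
open Cfsg

namespace Cfsg.Agent.S3787

/-- Let G be a finite p-soluble group, p an odd prime not of the form 2^k + 1, and suppose the wreath product C_p ≀ C_p (of order p^(p+1)) is not involved in a Sylow p-subgroup of G: no section of a Sylow p-subgroup is isomorphic to it. Then G has p-length at most 1. -/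
theorem result {G : Type*} [Group G] [Finite G] {p : ℕ} [Fact p.Prime] (hp2 : p ≠ 2) (hnf : (¬ ∃ k : ℕ, p = 2 ^ k + 1)) (hG : Cfsg.IsPSolvable p G) (P : Sylow p G) (hwr : ∀ (W : Type) [Group W] [Finite W], (∃ (B : Subgroup W) (t : W), B.Normal ∧ IsMulCommutative B ∧ (∀ b ∈ B, b ^ p = 1) ∧ Nat.card B = p ^ p ∧ orderOf t = p ∧ t ∉ B ∧ Nat.card W = p ^ (p + 1) ∧ Nat.card ↥(B ⊓ Subgroup.centralizer ({t} : Set W)) = p) → ¬ Cfsg.Involves W ↥(P : Subgroup G)) : Cfsg.PLengthLE p 1 G := by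
  classical
  have hp : p.Prime := Fact.out
  set Y₀ := (Cfsg.upperPSeries p G 0).1 with hY₀
  set Y := (Cfsg.upperPSeries p G 1).1 with hY
  have h1 : Y = (Cfsg.pPrimeCore p (G ⧸ Y₀)).comap (QuotientGroup.mk' Y₀) := by
    rw [hY, show (1 : ℕ) = 0 + 1 from rfl, Cfsg.upperPSeries]
    simp only [show Even 0 from ⟨0, rfl⟩, if_true]
    rfl
  have h2 : (Cfsg.upperPSeries p G 2).1 = (Cfsg.pCore p (G ⧸ Y)).comap (QuotientGroup.mk' Y) := by
    rw [show (2 : ℕ) = 1 + 1 from rfl, Cfsg.upperPSeries]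
    simp only [Nat.not_even_one, if_false]
    rfl
  have hsolq : Cfsg.IsPSolvable p (G ⧸ Y) :=
    Cfsg.Lib.PLocal.IsPSolvable.of_surjective _ (QuotientGroup.mk'_surjective Y) hG
  have hY₀b : Y₀ = ⊥ := rfl
  have hO : Cfsg.pPrimeCore p (G ⧸ Y) = ⊥ := by
    rw [eq_bot_iff]
    intro y hy
    have hKn : ((Cfsg.pPrimeCore p (G ⧸ Y)).comap (QuotientGroup.mk' Y)).Normal := inferInstance
    set K := (Cfsg.pPrimeCore p (G ⧸ Y)).comap (QuotientGroup.mk' Y) with hK
    have hYK : Y ≤ K := fun z hz => by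
      rw [hK, Subgroup.mem_comap, QuotientGroup.mk'_apply, (QuotientGroup.eq_one_iff z).2 hz]
      exact one_mem _
    have hc : ∀ (Z : Subgroup G) [Z.Normal] (M : Subgroup (G ⧸ Z)),
        Z.relIndex (M.comap (QuotientGroup.mk' Z)) = Nat.card M := by
      intro Z _ M
      have := Subgroup.relIndex_ker (M.comap (QuotientGroup.mk' Z)) (QuotientGroup.mk' Z)
      rwa [QuotientGroup.ker_mk', Subgroup.map_comap_eq_self_of_surjective (QuotientGroup.mk'_surjective Z)] at this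
    have hle : K.map (QuotientGroup.mk' Y₀) ≤ Cfsg.pPrimeCore p (G ⧸ Y₀) := by
      refine Cfsg.Lib.Solv.le_pPrimeCore (hKn.map _ (QuotientGroup.mk'_surjective Y₀)) ?_
      have := Subgroup.relIndex_ker K (QuotientGroup.mk' Y₀)
      rw [QuotientGroup.ker_mk'] at this
      rw [← this, ← Subgroup.relIndex_mul_relIndex Y₀ Y K (hY₀b ▸ bot_le) hYK]
      refine Nat.Coprime.mul_left ?_ ?_
      · rw [h1, hc]; exact Cfsg.Lib.Solv.coprime_pPrimeCore p
      · rw [hK, hc]; exact Cfsg.Lib.Solv.coprime_pPrimeCore p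
    rw [Subgroup.map_le_iff_le_comap, ← h1] at hle
    obtain ⟨z, rfl⟩ := QuotientGroup.mk'_surjective Y y
    exact Subgroup.mem_bot.2 ((QuotientGroup.eq_one_iff z).2 (hle hy))
  let SY : Sylow p (G ⧸ Y) := P.mapSurjective (QuotientGroup.mk'_surjective Y)
  have hSY : (SY : Subgroup (G ⧸ Y)) = (P : Subgroup G).map (QuotientGroup.mk' Y) :=
    Sylow.coe_mapSurjective (QuotientGroup.mk'_surjective Y) P
  have hwr' : ∀ (W : Type) [Group W] [Finite W], Cfsg.Lib.Solv.HH.IsWreathCp p W →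
      ¬ Cfsg.Involves W ↥(SY : Subgroup (G ⧸ Y)) := by
    intro W _ _ hW hinv
    rw [hSY] at hinv
    exact hwr W hW (Cfsg.Lib.Fusion.involves_of_surjective ((QuotientGroup.mk' Y).subgroupMap (P : Subgroup G))
      (MonoidHom.subgroupMap_surjective _ _) hinv)
  have hSp : (SY : Subgroup (G ⧸ Y)) ≤ Cfsg.pCore p (G ⧸ Y) := by
    intro x hx
    obtain ⟨N, hN⟩ := SY.isPGroup' ⟨x, hx⟩
    have hN' : x ^ p ^ N = 1 := congr_arg Subtype.val hN
    have : ∀ j ≤ N, x ^ p ^ (N - j) ∈ Cfsg.pCore p (G ⧸ Y) := by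
      intro j
      induction j with
      | zero => intro _; rw [Nat.sub_zero, hN']; exact one_mem _
      | succ j ih =>
        intro hj
        refine Cfsg.Lib.Solv.HH.mem_pCore_of_noWreath hp2 hnf hsolq hO _
          (Cfsg.Lib.Solv.pCore_le_sylow p SY) hwr' _ (pow_mem hx _) ?_
        rw [← pow_mul, ← pow_succ, show N - (j + 1) + 1 = N - j by omega]
        exact ih (by omega)
    simpa using this N le_rfl
  have hS : (P : Subgroup G) ≤ (Cfsg.upperPSeries p G 2).1 := fun x hx => by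
    rw [h2, Subgroup.mem_comap]
    exact hSp (by rw [hSY]; exact Subgroup.mem_map_of_mem _ hx)
  show (Cfsg.upperPSeries p G (2 * 1 + 1)).1 = ⊤
  rw [Cfsg.upperPSeries]
  simp only [show Even (2 * 1) from even_two_mul 1, if_true]
  show (Cfsg.pPrimeCore p (G ⧸ (Cfsg.upperPSeries p G 2).1)).comap _ = ⊤
  rw [eq_top_iff]
  intro x _
  refine Cfsg.Lib.Solv.le_pPrimeCore (N := ⊤) inferInstance ?_ (Subgroup.mem_top _)
  rw [Subgroup.card_top, ← Subgroup.index_eq_card]
  exact (hp.coprime_iff_not_dvd.2 fun h =>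
    P.not_dvd_index (h.trans (Subgroup.index_dvd_of_le hS))).symm

end Cfsg.Agent.S3787
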