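import Cfsg.Statements.S3788
import Cfsg.Agent.Lib.PLocal.S4Section
import Cfsg.Agent.Lib.PLocal.TransferDegree
import Cfsg.Agent.Lib.PLocal.Constraint
import Cfsg.Agent.Lib.ThreeT.Cores
import Cfsg.Agent.Lib.Solv.Cores
import Cfsg.Agent.Lib.Solv.Coprime2
import Cfsg.Agent.Lib.Transfer.PGroupFrattini

set_option autoImplicit false
open Cfsg
open scoped Pointwise commutatorElement

namespace Cfsg.Agent.S3788

theorem fix_of_chain {G : Type*} [Group G] [Finite G] {p : ℕ} [Fact p.Prime] {Q U : Subgroup G} (hQ : IsPGroup p Q) (hUQ : U ≤ Q)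
    {g : G} (hg : (orderOf g).Coprime p) (hU : g ∈ Subgroup.centralizer (U : Set G))
    (hc : ∀ q ∈ Q, g * q * g⁻¹ * q⁻¹ ∈ U) : g ∈ Subgroup.centralizer (Q : Set G) := by
  refine Subgroup.mem_centralizer_iff.2 fun q hq => ?_
  set u := g * q * g⁻¹ * q⁻¹ with hu
  have huU : u ∈ U := hc q hq
  have hgu : g * u = u * g := (Subgroup.mem_centralizer_iff.1 hU u huU).symm
  have key : ∀ n : ℕ, g ^ n * q * (g ^ n)⁻¹ = u ^ n * q := by
    intro n
    induction n with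
    | zero => simp
    | succ n ih =>
      have hcomm : g * u ^ n = u ^ n * g := ((Commute.pow_right (show Commute g u from hgu) n)).eq
      calc g ^ (n + 1) * q * (g ^ (n + 1))⁻¹ = g * (g ^ n * q * (g ^ n)⁻¹) * g⁻¹ := by rw [pow_succ']; group
        _ = (g * u ^ n) * q * g⁻¹ := by rw [ih]; group
        _ = u ^ n * (g * q * g⁻¹ * q⁻¹) * q := by rw [hcomm]; group
        _ = u ^ (n + 1) * q := by rw [← hu, pow_succ]
  have h1 : u ^ orderOf g = 1 := by
    have := key (orderOf g)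
    rw [pow_orderOf_eq_one] at this
    simpa using this.symm
  obtain ⟨k, hk⟩ := hQ ⟨u, hUQ huU⟩
  have h2 : u ^ p ^ k = 1 := congrArg Subtype.val hk
  have hu1 : u = 1 := orderOf_eq_one_iff.1 (Nat.eq_one_of_dvd_coprimes (hg.pow_right k)
    (orderOf_dvd_of_pow_eq_one h1) (orderOf_dvd_of_pow_eq_one h2))
  rw [hu] at hu1
  calc q * g = (g * q * g⁻¹ * q⁻¹) * q * g := by rw [hu1, one_mul]
    _ = g * q := by group



theorem pow_conj {R : Type*} [Group R] {a w d : R} (had : a * d = d * a) (h : a * w * a⁻¹ = d * w) :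
    ∀ n : ℕ, a ^ n * w * (a ^ n)⁻¹ = d ^ n * w := by
  intro n
  induction n with
  | zero => simp
  | succ n ih =>
    have hc : a * d ^ n = d ^ n * a := ((Commute.pow_right (show Commute a d from had) n)).eq
    calc a ^ (n + 1) * w * (a ^ (n + 1))⁻¹ = a * (a ^ n * w * (a ^ n)⁻¹) * a⁻¹ := by rw [pow_succ']; group
      _ = (a * d ^ n) * w * a⁻¹ := by rw [ih]; group
      _ = d ^ n * (a * w * a⁻¹) := by rw [hc]; group
      _ = d ^ (n + 1) * w := by rw [h, pow_succ, mul_assoc]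

theorem mul_pow_comm {R : Type*} [Group R] {a w d : R} (had : a * d = d * a) (hwd : w * d = d * w)
    (h : a * w * a⁻¹ = d * w) : ∀ n : ℕ, (w * a) ^ n = d ^ n.choose 2 * w ^ n * a ^ n := by
  intro n
  induction n with
  | zero => simp
  | succ n ih =>
    have h1 : a ^ n * w = d ^ n * w * a ^ n := mul_inv_eq_iff_eq_mul.1 (pow_conj had h n)
    have h2 : w ^ n * d ^ n = d ^ n * w ^ n := ((show Commute w d from hwd).pow_pow n n).eq
    calc (w * a) ^ (n + 1) = d ^ n.choose 2 * w ^ n * (a ^ n * w) * a := by rw [pow_succ, ih]; group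
      _ = d ^ n.choose 2 * (w ^ n * d ^ n) * w * (a ^ n * a) := by rw [h1]; group
      _ = d ^ n.choose 2 * d ^ n * (w ^ n * w) * (a ^ n * a) := by rw [h2]; group
      _ = _ := by rw [← pow_add, ← pow_succ, ← pow_succ, Nat.choose_succ_succ, Nat.choose_one_right, add_comm (n.choose 2)]

theorem gen_of_prime {R : Type*} [Group R] [Finite R] {p : ℕ} [hp : Fact p.Prime] {b d y : R} (hb : b ^ p = 1)
    (hd : d ∈ Subgroup.zpowers b) (hd1 : d ≠ 1) (hy : y ∈ Subgroup.zpowers b) : ∃ n : ℕ, d ^ n = y := by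
  obtain ⟨k, rfl⟩ := hd
  have hdp : (b ^ k) ^ p = 1 := by rw [← zpow_natCast, ← zpow_mul, mul_comm, zpow_mul, zpow_natCast, hb, one_zpow]
  have hb1 : b ≠ 1 := fun e => hd1 (by simp [e])
  have h1 : orderOf (b ^ k) = p := orderOf_eq_prime hdp hd1
  have h2 : orderOf b = p := orderOf_eq_prime hb hb1
  have heq : Subgroup.zpowers (b ^ k) = Subgroup.zpowers b := Subgroup.eq_of_le_of_card_ge
    (Subgroup.zpowers_le.2 ⟨k, rfl⟩) (by rw [Nat.card_zpowers, Nat.card_zpowers, h1, h2])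
  rw [← heq] at hy
  obtain ⟨n, hn⟩ := mem_powers_iff_mem_zpowers.2 hy
  exact ⟨n, hn⟩

theorem pgroup_of_chain {R : Type*} [Group R] [Finite R] {p : ℕ} [hp : Fact p.Prime] (W : Subgroup R) [W.Normal]
    (hWp : IsPGroup p W) (hC : Subgroup.centralizer (W : Set R) ≤ W) (a a' b c : R)
    (hbW : b ∈ W) (hcW : c ∈ W) (hab : a * b * a⁻¹ = b) (hac : a * c * a⁻¹ = c) (ha'c : a' * c * a'⁻¹ = c)
    (ha : ∀ w ∈ W, a * w * a⁻¹ * w⁻¹ ∈ Subgroup.zpowers b)
    (ha' : ∀ w ∈ W, a' * w * a'⁻¹ * w⁻¹ ∈ Subgroup.zpowers c) :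
    IsPGroup p ↥(Subgroup.closure ({QuotientGroup.mk' W a, QuotientGroup.mk' W a'} : Set (R ⧸ W))) := by
  set U1 := Subgroup.zpowers c with hU1
  set U2 := Subgroup.zpowers b ⊔ Subgroup.zpowers c with hU2
  have hU1W : U1 ≤ W := Subgroup.zpowers_le.2 hcW
  have hU2W : U2 ≤ W := sup_le (Subgroup.zpowers_le.2 hbW) hU1W
  have hU12 : U1 ≤ U2 := le_sup_right
  let St : Subgroup R :=
    { carrier := {g | (∀ q ∈ U1, g * q * g⁻¹ = q) ∧ (∀ q ∈ U2, g * q * g⁻¹ * q⁻¹ ∈ U1) ∧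
        ∀ w ∈ W, g * w * g⁻¹ * w⁻¹ ∈ U2}
      one_mem' := ⟨fun q _ => by simp, fun q _ => by simp, fun q _ => by simp⟩
      mul_mem' := fun {g h} hg hh => by
        refine ⟨fun q hq => ?_, fun q hq => ?_, fun w hw => ?_⟩
        · calc g * h * q * (g * h)⁻¹ = g * (h * q * h⁻¹) * g⁻¹ := by group
            _ = q := by rw [hh.1 q hq, hg.1 q hq]
        · have e : g * h * q * (g * h)⁻¹ * q⁻¹ = (g * (h * q * h⁻¹ * q⁻¹) * g⁻¹) * (g * q * g⁻¹ * q⁻¹) := by group
          rw [e, hg.1 _ (hh.2.1 q hq)]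
          exact mul_mem (hh.2.1 q hq) (hg.2.1 q hq)
        · have e : g * h * w * (g * h)⁻¹ * w⁻¹ =
              ((g * (h * w * h⁻¹ * w⁻¹) * g⁻¹ * (h * w * h⁻¹ * w⁻¹)⁻¹) * (h * w * h⁻¹ * w⁻¹)) * (g * w * g⁻¹ * w⁻¹) := by group
          rw [e]
          exact mul_mem (mul_mem (hU12 (hg.2.1 _ (hh.2.2 w hw))) (hh.2.2 w hw)) (hg.2.2 w hw)
      inv_mem' := fun {g} hg => by
        have h1 : ∀ q ∈ U1, g⁻¹ * q * g = q := fun q hq => by
          conv_lhs => rw [← hg.1 q hq]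
          group
        have hU2i : ∀ q ∈ U2, g⁻¹ * q * g ∈ U2 := fun q hq => by
          have h3 : g⁻¹ * (g * q * g⁻¹ * q⁻¹)⁻¹ * g ∈ U2 := hU12 (by rw [h1 _ (inv_mem (hg.2.1 q hq))]; exact inv_mem (hg.2.1 q hq))
          have := mul_mem h3 hq
          convert this using 1
          group
        refine ⟨fun q hq => by simpa using h1 q hq, fun q hq => ?_, fun w hw => ?_⟩
        · have h3 := hg.2.1 _ (hU2i q hq)
          have := inv_mem h3
          convert this using 1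
          group
        · have h3 := hg.2.2 _ ((inferInstance : W.Normal).conj_mem' w hw g)
          have := inv_mem h3
          convert this using 1
          group }
  have hgen : ∀ q ∈ U2, a * q * a⁻¹ = q := by
    intro q hq
    have hle : U2 ≤ Subgroup.centralizer ({a} : Set R) := sup_le
      (Subgroup.zpowers_le.2 (Subgroup.mem_centralizer_singleton_iff.2 (mul_inv_eq_iff_eq_mul.1 hab).symm))
      (Subgroup.zpowers_le.2 (Subgroup.mem_centralizer_singleton_iff.2 (mul_inv_eq_iff_eq_mul.1 hac).symm))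
    rw [← Subgroup.mem_centralizer_singleton_iff.1 (hle hq), mul_inv_cancel_right]
  have haSt : a ∈ St := ⟨fun q hq => hgen q (hU12 hq),
    fun q hq => by rw [hgen q hq, mul_inv_cancel]; exact one_mem _, fun w hw => Subgroup.mem_sup_left (ha w hw)⟩
  have ha'St : a' ∈ St := ⟨fun q hq => by
      have hle : U1 ≤ Subgroup.centralizer ({a'} : Set R) :=
        Subgroup.zpowers_le.2 (Subgroup.mem_centralizer_singleton_iff.2 (mul_inv_eq_iff_eq_mul.1 ha'c).symm)
      rw [← Subgroup.mem_centralizer_singleton_iff.1 (hle hq), mul_inv_cancel_right],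
    fun q hq => ha' q (hU2W hq), fun w hw => hU12 (ha' w hw)⟩
  have hle : Subgroup.closure ({QuotientGroup.mk' W a, QuotientGroup.mk' W a'} : Set (R ⧸ W)) ≤ St.map (QuotientGroup.mk' W) := by
    rw [Subgroup.closure_le]
    rintro _ (rfl | rfl)
    · exact ⟨a, haSt, rfl⟩
    · exact ⟨a', ha'St, rfl⟩
  rintro ⟨y, hy⟩
  obtain ⟨g, hg, rfl⟩ := hle hy
  refine ⟨(orderOf g).factorization p, Subtype.ext ?_⟩
  show (QuotientGroup.mk' W g) ^ ordProj[p] (orderOf g) = 1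
  rw [← map_pow]
  refine (QuotientGroup.eq_one_iff _).2 (hC ?_)
  have ho : (orderOf (g ^ ordProj[p] (orderOf g))).Coprime p := by
    rw [orderOf_pow_of_dvd (Nat.ordProj_pos _ _).ne' (Nat.ordProj_dvd _ _)]
    exact (Nat.coprime_ordCompl hp.out (orderOf_pos g).ne').symm
  have hgS := pow_mem hg (ordProj[p] (orderOf g))
  refine fix_of_chain hWp hU2W ho ?_ hgS.2.2
  exact fix_of_chain (hWp.to_le hU2W) hU12 ho
    (Subgroup.mem_centralizer_iff.2 fun q hq => (mul_inv_eq_iff_eq_mul.1 (hgS.1 q hq)).symm) hgS.2.1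

theorem core_case {R : Type*} [Group R] [Finite R] {p : ℕ} [hp : Fact p.Prime] (W : Subgroup R) [W.Normal]
    (hW : Cfsg.IsElementaryAbelian p W) (hC : Subgroup.centralizer (W : Set R) = W)
    (hcore : Cfsg.pCore p (R ⧸ W) = ⊥) (a : R) (hcyc : ∀ w ∈ W, a * w * a⁻¹ * w⁻¹ ∈ Subgroup.zpowers a)
    (hap : ∃ k, a ^ p ^ k = 1) (haW : a ∉ W) (h : p ≠ 2 ∨ ¬ Cfsg.Involves (Equiv.Perm (Fin 4)) R) : False := by
  have hcm : ∀ x ∈ W, ∀ y ∈ W, Commute x y := fun x hx y hy =>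
    congrArg Subtype.val (hW.1.is_comm.comm (⟨x, hx⟩ : W) ⟨y, hy⟩)
  have hWn : ∀ (g : R) {w : R}, w ∈ W → g * w * g⁻¹ ∈ W := fun g {w} hw => (inferInstance : W.Normal).conj_mem w hw g
  have hWp : IsPGroup p W := fun w => ⟨1, by rw [pow_one]; exact Subtype.ext (hW.2 w w.2)⟩
  have hself : ∀ w ∈ W, ∀ k, k ∈ Subgroup.zpowers a → a * k = k * a := by
    rintro _ _ _ ⟨m, rfl⟩
    exact ((Commute.refl a).zpow_right m).eq
  have hconj : ∀ (n : ℕ), ∀ w ∈ W, a ^ n * w * (a ^ n)⁻¹ = (a * w * a⁻¹ * w⁻¹) ^ n * w := fun n w hw =>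
    pow_conj (hself w hw _ (hcyc w hw)) (by group) n
  have hb0W : a ^ p ∈ W := by
    rw [← hC]
    refine Subgroup.mem_centralizer_iff.2 fun w hw => ?_
    have := hconj p w hw
    rw [hW.2 _ (mul_mem (hWn a hw) (inv_mem hw)), one_mul] at this
    exact (mul_inv_eq_iff_eq_mul.1 this).symm
  set b0 := a ^ p with hb0
  have hb0p : b0 ^ p = 1 := hW.2 _ hb0W
  have hkey : ∀ y ∈ W, y ∈ Subgroup.zpowers a → y ∈ Subgroup.zpowers b0 := by
    rintro _ hy ⟨m, rfl⟩
    by_cases hm : (p : ℤ) ∣ m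
    · obtain ⟨i, rfl⟩ := hm
      exact ⟨i, by simp [hb0, zpow_mul]⟩
    · refine absurd ?_ haW
      obtain ⟨u, v, huv⟩ := ((Nat.prime_iff_prime_int.1 hp.out).coprime_iff_not_dvd.2 hm)
      have e : a = b0 ^ u * (a ^ m) ^ v := by
        rw [hb0, ← zpow_natCast, ← zpow_mul, ← zpow_mul, ← zpow_add, mul_comm (p : ℤ) u, mul_comm m v, huv, zpow_one]
      rw [e]
      exact mul_mem (zpow_mem hb0W u) (zpow_mem hy v)
  have hab : ∀ w ∈ W, a * w * a⁻¹ * w⁻¹ ∈ Subgroup.zpowers b0 := fun w hw =>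
    hkey _ (mul_mem (hWn a hw) (inv_mem hw)) (hcyc w hw)
  have hafix0 : a * b0 * a⁻¹ = b0 := by rw [hb0, ← pow_succ', pow_succ, mul_inv_cancel_right]
  have hqa : QuotientGroup.mk' W a ≠ 1 := fun e => haW ((QuotientGroup.eq_one_iff a).1 e)
  rcases eq_or_ne p 2 with hp2 | hp2
  · subst hp2
    refine (h.resolve_left (by simp)) (Cfsg.Lib.PLocal.involves_s4_of_transvection W W hW hC hcore a
      (orderOf_eq_prime (by rw [← map_pow]; exact (QuotientGroup.eq_one_iff _).2 hb0W) hqa) ?_)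
    let f : W →* R := MonoidHom.mk' (fun w => a * w * a⁻¹ * (w : R)⁻¹) fun v w => by
      have hv := mul_mem (hWn a v.2) (inv_mem v.2)
      have hw := mul_mem (hWn a w.2) (inv_mem w.2)
      show a * ((v : R) * w) * a⁻¹ * ((v : R) * w)⁻¹ = _
      calc a * ((v : R) * w) * a⁻¹ * ((v : R) * w)⁻¹
          = (a * v * a⁻¹) * ((a * w * a⁻¹ * (w : R)⁻¹) * (v : R)⁻¹) := by group
        _ = (a * v * a⁻¹) * ((v : R)⁻¹ * (a * w * a⁻¹ * (w : R)⁻¹)) := by rw [(hcm _ hw _ (inv_mem v.2)).eq]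
        _ = _ := by group
    have hr : Nat.card f.range ≤ 2 := by
      refine le_trans (Subgroup.card_le_of_le (H := f.range) (K := Subgroup.zpowers b0) ?_) ?_
      · rintro _ ⟨w, rfl⟩; exact hab w w.2
      · rw [Nat.card_zpowers]; exact Nat.le_of_dvd two_pos (orderOf_dvd_of_pow_eq_one hb0p)
    have hk : Nat.card f.ker ≤ Nat.card ↥(W ⊓ Subgroup.centralizer ({a} : Set R)) := by
      rw [← Subgroup.card_map_of_injective W.subtype_injective]
      refine Subgroup.card_le_of_le ?_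
      rintro _ ⟨w, hw, rfl⟩
      exact ⟨w.2, Subgroup.mem_centralizer_singleton_iff.2
        (mul_inv_eq_iff_eq_mul.1 (mul_inv_eq_one.1 (MonoidHom.mem_ker.1 hw))).symm⟩
    have := f.ker.card_mul_index
    rw [Subgroup.index_ker] at this
    calc Nat.card W = Nat.card f.ker * Nat.card f.range := this.symm
      _ ≤ Nat.card ↥(W ⊓ Subgroup.centralizer ({a} : Set R)) * 2 := Nat.mul_le_mul hk hr
      _ = _ := mul_comm _ _
  -- odd primes
  obtain ⟨g, hg⟩ : ∃ g : R ⧸ W, ¬ IsPGroup p ↥(Subgroup.closure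
      ({QuotientGroup.mk' W a, g * QuotientGroup.mk' W a * g⁻¹} : Set (R ⧸ W))) := by
    by_contra hh
    push Not at hh
    have := Cfsg.Lib.ThreeT.baerSuzuki hh
    rw [hcore, Subgroup.mem_bot] at this
    exact hqa this
  obtain ⟨x, rfl⟩ := QuotientGroup.mk'_surjective W g
  rw [← map_inv, ← map_mul, ← map_mul] at hg
  obtain ⟨a', ha'⟩ : ∃ a', a' = x * a * x⁻¹ := ⟨_, rfl⟩
  obtain ⟨c, hc⟩ : ∃ c, c = x * b0 * x⁻¹ := ⟨_, rfl⟩
  rw [← ha'] at hg
  have hcW : c ∈ W := hc ▸ hWn x hb0W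
  have ha'fix : a' * c * a'⁻¹ = c := by
    rw [ha', hc]
    calc _ = x * (a * b0 * a⁻¹) * x⁻¹ := by group
      _ = _ := by rw [hafix0]
  have ha'b : ∀ w ∈ W, a' * w * a'⁻¹ * w⁻¹ ∈ Subgroup.zpowers c := by
    intro w hw
    have h2 := hab (x⁻¹ * w * x) (by simpa using hWn x⁻¹ hw)
    obtain ⟨m, hm⟩ := h2
    refine ⟨m, ?_⟩
    show c ^ m = _
    rw [hc, conj_zpow, show b0 ^ m = a * (x⁻¹ * w * x) * a⁻¹ * (x⁻¹ * w * x)⁻¹ from hm, ha']
    group
  have hCle : Subgroup.centralizer (W : Set R) ≤ W := hC.le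
  obtain ⟨b1, hb1⟩ : ∃ b1, b1 = a * c * a⁻¹ * c⁻¹ := ⟨_, rfl⟩
  have hb1W : b1 ∈ W := hb1 ▸ mul_mem (hWn a hcW) (inv_mem hcW)
  have hb1b : b1 ∈ Subgroup.zpowers b0 := hb1 ▸ hab c hcW
  have hb1ne : b1 ≠ 1 := fun e => hg (pgroup_of_chain W hWp hCle a a' b0 c hb0W hcW hafix0
    (mul_inv_eq_one.1 (hb1 ▸ e)) ha'fix hab ha'b)
  set e := a' * b1 * a'⁻¹ * b1⁻¹ with he
  have hene : e ≠ 1 := fun e1 => hg (by
    have hb1fix : a' * b1 * a'⁻¹ = b1 := mul_inv_eq_one.1 e1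
    obtain ⟨n, hn⟩ := gen_of_prime hb0p hb1b hb1ne (Subgroup.mem_zpowers b0)
    have hb0fix : a' * b0 * a'⁻¹ = b0 := by rw [← hn, ← conj_pow, hb1fix]
    have := pgroup_of_chain W hWp hCle a' a c b0 hcW hb0W ha'fix hb0fix hafix0 ha'b hab
    rwa [Set.pair_comm] at this)
  have hcp : c ^ p = 1 := hW.2 _ hcW
  obtain ⟨j, hj⟩ := gen_of_prime hcp (ha'b b1 hb1W) hene (inv_mem (Subgroup.mem_zpowers c))
  set z := a' ^ j with hz
  have ha'c : ∀ y ∈ Subgroup.zpowers c, a' * y = y * a' := by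
    rintro _ ⟨m, rfl⟩
    exact ((show Commute a' c from mul_inv_eq_iff_eq_mul.1 ha'fix).zpow_right m).eq
  have hzW : ∀ w ∈ W, z * w * z⁻¹ = (a' * w * a'⁻¹ * w⁻¹) ^ j * w := fun w hw =>
    pow_conj (ha'c _ (ha'b w hw)) (by group) j
  have Z1 : z * b1 * z⁻¹ = c⁻¹ * b1 := by rw [hzW b1 hb1W, ← he, hj]
  have Z2 : z * c * z⁻¹ = c := by
    rw [hzW c hcW, ha'fix, mul_inv_cancel, one_pow, one_mul]
  have A1 : a * b1 * a⁻¹ = b1 := by
    obtain ⟨m, hm⟩ := hb1b
    rw [← hm]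
    show a * b0 ^ m * a⁻¹ = b0 ^ m
    rw [← conj_zpow, hafix0]
  have A2 : a * c * a⁻¹ = b1 * c := by rw [hb1]; group
  -- conjugation maps
  let φ : R → R →* R := fun g => (MulAut.conj g).toMonoidHom
  have φm : ∀ g h w, φ (g * h) w = φ g (φ h w) := fun g h w => by
    show g * h * w * (g * h)⁻¹ = g * (h * w * h⁻¹) * g⁻¹
    group
  have φW : ∀ g, ∀ w ∈ W, φ g w ∈ W := fun g w hw => hWn g hw
  have hA1 : φ a b1 = b1 := A1
  have hA2 : φ a c = b1 * c := A2
  have hZ1 : φ z b1 = c⁻¹ * b1 := Z1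
  have hZ2 : φ z c = c := Z2
  have T1 : φ (a * z * a) b1 = c⁻¹ := by
    rw [φm, φm, hA1, hZ1, map_mul, map_inv, hA1, hA2, mul_inv_rev, mul_assoc, inv_mul_cancel, mul_one]
  have T2 : φ (a * z * a) c = b1 := by
    have e : c⁻¹ * b1 * c = b1 := by rw [mul_assoc, (hcm b1 hb1W c hcW).eq, inv_mul_cancel_left]
    rw [φm, φm, hA2, map_mul, hZ1, hZ2, e, hA1]
  set s := a * z * a * (a * z * a) with hs
  have S1 : φ s b1 = b1⁻¹ := by rw [hs, φm, T1, map_inv, T2]
  have S2 : φ s c = c⁻¹ := by rw [hs, φm, T2, T1]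
  have hdec : ∀ w ∈ W, ∃ v ∈ W, ∃ k l : ℕ, φ a v = v ∧ φ z v = v ∧ w = v * (b1 ^ l)⁻¹ * c ^ k := by
    intro w hw
    obtain ⟨k, hk⟩ := gen_of_prime hb0p hb1b hb1ne (hab w hw)
    set w' := w * (c ^ k)⁻¹ with hw'
    have hw'W : w' ∈ W := mul_mem hw (inv_mem (pow_mem hcW k))
    have hw'a : φ a w' = w' := by
      rw [hw', map_mul, map_inv, map_pow, hA2, (hcm b1 hb1W c hcW).mul_pow, show φ a w = b1 ^ k * w from by
        show a * w * a⁻¹ = _
        rw [hk]; group]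
      rw [(hcm _ (pow_mem hb1W k) w hw).eq, mul_inv_rev, (hcm _ (inv_mem (pow_mem hcW k)) _ (inv_mem (pow_mem hb1W k))).eq]
      group
    have hzc : φ z w' * w'⁻¹ ∈ Subgroup.zpowers c := by
      show z * w' * z⁻¹ * w'⁻¹ ∈ _
      rw [hzW w' hw'W, mul_inv_cancel_right]
      exact pow_mem (ha'b w' hw'W) j
    obtain ⟨l, hl : c ^ l = φ z w' * w'⁻¹⟩ := mem_powers_iff_mem_zpowers.2 hzc
    refine ⟨w' * b1 ^ l, mul_mem hw'W (pow_mem hb1W l), k, l, by rw [map_mul, map_pow, hw'a, hA1], ?_, ?_⟩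
    · have e1 : φ z w' = c ^ l * w' := by rw [hl, inv_mul_cancel_right]
      rw [map_mul, map_pow, e1, hZ1, (hcm _ (inv_mem hcW) b1 hb1W).mul_pow, inv_pow,
        (hcm _ (pow_mem hcW l) w' hw'W).eq]
      group
    · rw [hw']; group
  have hfixs : ∀ v, φ a v = v → φ z v = v → φ s v = v := by
    intro v h1 h2
    rw [hs]
    simp only [φm, h1, h2]
  have hs2 : ∀ w ∈ W, φ (s * s) w = w := by
    intro w hw
    obtain ⟨v, hv, k, l, h1, h2, rfl⟩ := hdec w hw
    simp only [φm, map_mul, map_inv, map_pow, S1, S2, hfixs v h1 h2, inv_inv, inv_pow]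
  have hsa : ∀ w ∈ W, φ a (φ s w) = φ s (φ a w) := by
    intro w hw
    obtain ⟨v, hv, k, l, h1, h2, rfl⟩ := hdec w hw
    simp only [map_mul, map_inv, map_pow, S1, S2, hfixs v h1 h2, h1, hA1, hA2]
    rw [mul_inv_rev, (hcm _ (inv_mem hcW) _ (inv_mem hb1W)).eq]
  set f := ordProj[p] (orderOf s) with hf
  have hfo : Odd f := (hp.out.odd_of_ne_two hp2).pow
  set t := s ^ f with ht
  have hts : ∀ w ∈ W, φ t w = φ s w := by
    obtain ⟨m, hm⟩ := hfo
    have key : ∀ i : ℕ, ∀ w ∈ W, φ ((s * s) ^ i) w = w := by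
      intro i
      induction i with
      | zero => intro w _; simp [φ]
      | succ i ih => intro w hw; rw [pow_succ, φm, hs2 w hw, ih w hw]
    intro w hw
    rw [ht, hm, pow_succ, φm, pow_mul, pow_two, key m _ (φW s w hw)]
  have hto : (orderOf t).Coprime p := by
    rw [ht, hf, orderOf_pow_of_dvd (Nat.ordProj_pos _ _).ne' (Nat.ordProj_dvd _ _)]
    exact (Nat.coprime_ordCompl hp.out (orderOf_pos s).ne').symm
  have hb12 : b1⁻¹ ≠ b1 := fun e => hb1ne (by
    have h2 : b1 ^ 2 = 1 := by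
      rw [pow_two]
      calc b1 * b1 = b1⁻¹ * b1 := by rw [e]
        _ = 1 := inv_mul_cancel b1
    exact orderOf_eq_one_iff.1 (Nat.eq_one_of_dvd_coprimes
      ((Nat.coprime_primes Nat.prime_two hp.out).2 hp2.symm) (orderOf_dvd_of_pow_eq_one h2)
      (orderOf_dvd_of_pow_eq_one (hW.2 _ hb1W))))
  have Tb : φ t b1 = b1⁻¹ := by rw [hts b1 hb1W, S1]
  have ht2 : t * t ∈ Subgroup.centralizer (W : Set R) := Subgroup.mem_centralizer_iff.2 fun w hw => by
    have e : φ (t * t) w = w := by rw [φm, hts w hw, hts _ (φW s w hw), ← φm, hs2 w hw]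
    exact (mul_inv_eq_iff_eq_mul.1 e).symm
  obtain ⟨n, hn⟩ : Even (orderOf t) := by
    by_contra hodd
    rw [Nat.not_even_iff_odd] at hodd
    obtain ⟨m, hm⟩ := hodd
    have htC : t ∈ Subgroup.centralizer (W : Set R) := by
      have h1 : t ^ (2 * m + 1) = 1 := by rw [← hm]; exact pow_orderOf_eq_one t
      have e : t = ((t * t) ^ m)⁻¹ := by
        rw [eq_inv_iff_mul_eq_one, ← pow_two, ← pow_mul, ← pow_succ']; exact h1
      rw [e]; exact inv_mem (pow_mem ht2 m)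
    apply hb12
    rw [← Tb]
    show t * b1 * t⁻¹ = b1
    rw [← Subgroup.mem_centralizer_iff.1 htC b1 hb1W, mul_inv_cancel_right]
  set u := a * t * a⁻¹ * t⁻¹ with hu
  have huW : u ∈ W := by
    rw [← hC]
    refine Subgroup.mem_centralizer_iff.2 fun w hw => ?_
    have hv : φ (a⁻¹ * t⁻¹) w ∈ W := φW _ w hw
    have e : φ a (φ t (φ (a⁻¹ * t⁻¹) w)) = φ t (φ a (φ (a⁻¹ * t⁻¹) w)) := by
      rw [hts _ hv, hts _ (φW a _ hv), hsa _ hv]
    rw [← φm, ← φm, ← φm, ← φm] at e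
    have e' : φ u w = w := by
      rw [hu, show a * t * a⁻¹ * t⁻¹ = a * t * (a⁻¹ * t⁻¹) by group, e]
      rw [show t * a * (a⁻¹ * t⁻¹) = 1 by group]
      simp [φ]
    exact (mul_inv_eq_iff_eq_mul.1 e').symm
  have hUt : φ t u ∈ W := φW t u huW
  set v := u * φ t u with hv
  have hvW : v ∈ W := mul_mem huW hUt
  have hv1 : v = 1 := by
    have htv : t * v = v * t := by
      have e : φ t v = v := by
        have h2 : φ t (φ t u) = u := by rw [hts _ hUt, hts _ huW, ← φm, hs2 u huW]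
        rw [hv, map_mul, h2, (hcm u huW _ hUt).eq]
      exact mul_inv_eq_iff_eq_mul.1 e
    have h1 : (u * t) ^ orderOf t = 1 := by
      rw [show u * t = a * t * a⁻¹ by rw [hu]; group, conj_pow, pow_orderOf_eq_one, mul_one, mul_inv_cancel]
    have h2 : (u * t) ^ 2 = v * (t * t) := by
      rw [pow_two, hv]
      show u * t * (u * t) = u * (t * u * t⁻¹) * (t * t)
      group
    rw [hn, ← two_mul, pow_mul, h2, (show Commute v (t * t) from Commute.mul_right htv.symm htv.symm).mul_pow,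
      ← pow_two, ← pow_mul, two_mul, ← hn, pow_orderOf_eq_one, mul_one] at h1
    refine orderOf_eq_one_iff.1 (Nat.eq_one_of_dvd_coprimes (hto.coprime_dvd_left ⟨2, ?_⟩)
      (orderOf_dvd_of_pow_eq_one h1) (orderOf_dvd_of_pow_eq_one (hW.2 _ hvW)))
    rw [hn]; ring
  have htu : φ t u = u⁻¹ := eq_inv_of_mul_eq_one_right hv1
  set m := (p - 1) / 2 with hm
  have hpm : p = 2 * m + 1 := by
    obtain ⟨k, hk⟩ := hp.out.odd_of_ne_two hp2
    omega
  set w0 := u ^ m with hw0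
  have hw0W : w0 ∈ W := pow_mem huW m
  have htw0 : φ t w0 = w0⁻¹ := by rw [hw0, map_pow, htu, inv_pow]
  have hw0u : w0 * u * w0 = 1 := by
    rw [hw0, ← pow_succ, ← pow_add, show m + 1 + m = p by omega]
    exact hW.2 _ huW
  have hc0 : Commute (w0 * a) t := by
    show w0 * a * t = t * (w0 * a)
    have e : t * w0 * t⁻¹ = w0⁻¹ := htw0
    calc w0 * a * t = w0 * u * t * a := by rw [hu]; group
      _ = w0 * u * w0 * (w0⁻¹ * t) * a := by group
      _ = (w0⁻¹ * t) * a := by rw [hw0u, one_mul]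
      _ = t * (w0 * a) := by rw [← e]; group
  have hd : a * w0 * a⁻¹ * w0⁻¹ ∈ W := mul_mem (hWn a hw0W) (inv_mem hw0W)
  have hpow : (w0 * a) ^ p = b0 := by
    rw [mul_pow_comm (hself w0 hw0W _ (hcyc w0 hw0W)) (hcm w0 hw0W _ hd).eq (by group) p,
      hW.2 _ hw0W, mul_one]
    obtain ⟨k, hk⟩ := hp.out.dvd_choose_self (k := 2) (by norm_num) (by have := hp.out.two_le; omega)
    rw [hk, pow_mul, hW.2 _ hd, one_pow, one_mul]
  have htb0 : φ t b0 = b0 := by
    show t * b0 * t⁻¹ = b0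
    rw [← hpow, ← ((hc0.pow_left p)).eq, mul_inv_cancel_right]
  obtain ⟨k, hk⟩ := hb1b
  refine hb12 ?_
  rw [← Tb, ← hk]
  show φ t (b0 ^ k) = b0 ^ k
  rw [map_zpow, htb0]


/-- Let G be a finite p-soluble group, P a Sylow p-subgroup of G and A a cyclic normal subgroup of P. If p is odd, or if no section of G is isomorphic to the symmetric group of degree 4, then A ≤ O_{p',p}(G). -/
theorem result {G : Type*} [Group G] [Finite G] {p : ℕ} [Fact p.Prime] (hG : Cfsg.IsPSolvable p G) (P : Sylow p G) (A : Subgroup G) (hAP : A ≤ (P : Subgroup G)) (hAn : (P : Subgroup G) ≤ Subgroup.normalizer (A : Set G)) (hA : IsCyclic A) (h : p ≠ 2 ∨ ¬ Cfsg.Involves (Equiv.Perm (Fin 4)) G) : A ≤ Cfsg.pPrimePCore p G := by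
  obtain ⟨a, ha⟩ : ∃ a : G, A = Subgroup.zpowers a := by
    obtain ⟨a, ha⟩ := Subgroup.isCyclic_iff_exists_zpowers_eq_top A |>.1 hA
    exact ⟨a, ha.symm⟩
  subst ha
  refine Subgroup.zpowers_le.2 ?_
  show QuotientGroup.mk' (Cfsg.pPrimeCore p G) a ∈ Cfsg.pCore p (G ⧸ Cfsg.pPrimeCore p G)
  set q := QuotientGroup.mk' (Cfsg.pPrimeCore p G)
  have hqs : Function.Surjective q := QuotientGroup.mk'_surjective _
  have hsol := Cfsg.Lib.PLocal.IsPSolvable.of_surjective q hqs hG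
  have hself := Cfsg.Lib.PLocal.selfCentralizingCore_of_pSolvable hsol (Cfsg.Lib.Solv.pPrimeCore_quotient_eq_bot p)
  set H := G ⧸ Cfsg.pPrimeCore p G
  set Q := Cfsg.pCore p H with hQ
  by_contra haQ
  have hQp : IsPGroup p Q := Cfsg.Lib.Solv.isPGroup_pCore p
  haveI hQn : Q.Normal := Cfsg.Lib.Transfer.pCore_normal p
  set F := (frattini Q).map Q.subtype with hF
  haveI : F.Normal := by rw [hF]; exact ConjAct.normal_of_characteristic_of_normal
  set π := QuotientGroup.mk' F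
  have hπs : Function.Surjective π := QuotientGroup.mk'_surjective _
  have hFQ : F ≤ Q := Subgroup.map_subtype_le _
  set W := Cfsg.pCore p (H ⧸ F) with hW
  haveI hWn : W.Normal := Cfsg.Lib.Transfer.pCore_normal p
  have hWQ : W = Q.map π := by
    refine le_antisymm ?_ (Cfsg.Lib.Solv.le_pCore (hQn.map _ hπs) (hQp.map _))
    have : W.comap π ≤ Q := Cfsg.Lib.Solv.le_pCore inferInstance
      ((Cfsg.Lib.Solv.isPGroup_pCore p).comap_of_ker_isPGroup π (by
        rw [QuotientGroup.ker_mk']; exact hQp.to_le hFQ))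
    rw [← Subgroup.map_comap_eq_self_of_surjective hπs W]
    exact Subgroup.map_mono this
  have hFmem : ∀ x : Q, x ∈ frattini Q → π (x : H) = 1 := fun x hx =>
    (QuotientGroup.eq_one_iff (x : H)).2 ⟨x, hx, rfl⟩
  have hWe : Cfsg.IsElementaryAbelian p W := by
    rw [hWQ]
    refine ⟨⟨⟨?_⟩⟩, ?_⟩
    · rintro ⟨_, x, hx, rfl⟩ ⟨_, y, hy, rfl⟩
      refine Subtype.ext ?_
      show π x * π y = π y * π x
      have hc := hFmem ⁅(⟨x, hx⟩ : Q), (⟨y, hy⟩ : Q)⁆ (Cfsg.Lib.Transfer.commutator_le_frattini hQp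
        (Subgroup.commutator_mem_commutator (Subgroup.mem_top _) (Subgroup.mem_top _)))
      rw [show ((⁅(⟨x, hx⟩ : Q), (⟨y, hy⟩ : Q)⁆ : Q) : H) = x * y * x⁻¹ * y⁻¹ from rfl] at hc
      simp only [map_mul, map_inv] at hc
      exact commutatorElement_eq_one_iff_mul_comm.1 (by rw [commutatorElement_def]; exact hc)
    · rintro _ ⟨x, hx, rfl⟩
      rw [← map_pow]
      exact hFmem ((⟨x, hx⟩ : Q) ^ p) (Cfsg.Lib.Transfer.pow_mem_frattini hQp _)
  have hWC : Subgroup.centralizer (W : Set (H ⧸ F)) = W := by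
    refine le_antisymm ?_ fun w hw => Subgroup.mem_centralizer_iff.2 fun v hv =>
      congrArg Subtype.val (hWe.1.is_comm.comm (⟨v, hv⟩ : W) ⟨w, hw⟩)
    set C := Subgroup.centralizer (W : Set (H ⧸ F))
    have hCn : C.Normal := inferInstance
    refine Cfsg.Lib.Solv.le_pCore hCn ?_
    have hCc : IsPGroup p (C.comap π) := by
      rintro ⟨g, hg⟩
      refine ⟨(orderOf g).factorization p, Subtype.ext ?_⟩
      show g ^ ordProj[p] (orderOf g) = 1
      set g' := g ^ ordProj[p] (orderOf g) with hg'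
      have ho : (orderOf g').Coprime p := by
        rw [hg', orderOf_pow_of_dvd (Nat.ordProj_pos _ _).ne' (Nat.ordProj_dvd _ _)]
        exact (Nat.coprime_ordCompl (Fact.out : p.Prime) (orderOf_pos g).ne').symm
      have hg'C : g' ∈ C.comap π := pow_mem hg _
      have hcen : g' ∈ Subgroup.centralizer (Q : Set H) := by
        refine Cfsg.Lib.Solv.centralizes_of_frattini (Subgroup.zpowers g') Q
          (by rw [Subgroup.normalizer_eq_top_iff.2 hQn]; exact le_top) ?_ ?_ (Subgroup.mem_zpowers g')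
        · obtain ⟨k, hk⟩ := IsPGroup.iff_card.1 (hQp.to_subgroup (frattini Q))
          rw [Nat.card_zpowers, hk]; exact ho.pow_right k
        · intro y hy k hk
          have hyC : y ∈ C.comap π := (Subgroup.zpowers_le.2 hg'C) hy
          rw [← hF, ← QuotientGroup.eq_one_iff]
          show π (y * k * y⁻¹ * k⁻¹) = 1
          have := Subgroup.mem_centralizer_iff.1 hyC (π k) (hWQ ▸ ⟨k, hk, rfl⟩)
          simp only [map_mul, map_inv, ← this, mul_inv_cancel_right, mul_inv_cancel]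
      obtain ⟨k, hk⟩ := hQp ⟨g', hself hcen⟩
      exact orderOf_eq_one_iff.1 (Nat.eq_one_of_dvd_coprimes (ho.pow_right k) dvd_rfl
        (orderOf_dvd_of_pow_eq_one (congrArg Subtype.val hk)))
    have := hCc.map π
    rwa [Subgroup.map_comap_eq_self_of_surjective hπs] at this
  let P' : Sylow p H := P.mapSurjective hqs
  have haP : a ∈ (P : Subgroup G) := hAP (Subgroup.mem_zpowers a)
  refine core_case W hWe hWC (Cfsg.Lib.Solv.pCore_quotient_eq_bot p) (π (q a)) ?_ ?_ ?_ (h.imp_right fun hh hi => ?_)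
  · rw [hWQ]
    rintro _ ⟨k, hk, rfl⟩
    obtain ⟨g, hg, hgk⟩ := Cfsg.Lib.Transfer.pCore_le_sylow P' hk
    have hgN := Subgroup.mem_normalizer_iff.1 (hAn hg) a
    obtain ⟨m, hm⟩ := Subgroup.mem_zpowers_iff.1 (hgN.1 (Subgroup.mem_zpowers a))
    refine Subgroup.mem_zpowers_iff.2 ⟨1 - m, ?_⟩
    have e : q g * q a * (q g)⁻¹ = q a ^ m := by rw [← map_zpow, hm]; simp
    rw [show q g = k from hgk] at e
    have e2 : π (q a) * π k * (π (q a))⁻¹ * (π k)⁻¹ = π (q a) * (π (q a) ^ m)⁻¹ := by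
      rw [← map_zpow, ← e]
      simp only [map_mul, map_inv]
      group
    rw [e2, zpow_sub, zpow_one]
  · obtain ⟨k, hk⟩ := P.isPGroup' ⟨a, haP⟩
    refine ⟨k, ?_⟩
    rw [← map_pow, ← map_pow, show a ^ p ^ k = 1 from congrArg Subtype.val hk, map_one, map_one]
  · intro hw
    rw [hWQ] at hw
    obtain ⟨k, hk, hkq⟩ := hw
    apply haQ
    have : k⁻¹ * q a ∈ F := (QuotientGroup.eq).1 hkq
    simpa using mul_mem hk (hFQ this)
  · exact hh (Cfsg.Lib.Fusion.involves_of_surjective q hqs (Cfsg.Lib.Fusion.involves_of_surjective π hπs hi))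

end Cfsg.Agent.S3788
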