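import Cfsg.Statements.S3803
import Mathlib
import Cfsg.Agent.Lib.Solv.Coprime2
import Cfsg.Agent.Lib.Solv.PGroupBasic
import Cfsg.Agent.Lib.TwoFus.DihedralFusion
import Cfsg.Agent.S3736
import Cfsg.Agent.S0094
-- import your own Cfsg.Agent.* helpers here

set_option autoImplicit false
open Cfsg
open scoped Pointwise commutatorElement

namespace Cfsg.Agent.S3803

open Subgroup

variable {X : Type*} [Group X] [Finite X]

theorem exists_two_coatoms {S : Type*} [Group S] [Finite S] (hS : ¬ IsCyclic S) :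
    ∃ M M' : Subgroup S, IsCoatom M ∧ IsCoatom M' ∧ M ≠ M' := by
  by_contra hno
  push Not at hno
  apply hS
  rcases eq_top_or_exists_le_coatom (⊥ : Subgroup S) with h | ⟨M, hM, -⟩
  · haveI : Subsingleton S := Subgroup.subsingleton_iff.1 (subsingleton_of_bot_eq_top h)
    infer_instance
  · obtain ⟨x, -, hx⟩ := SetLike.exists_of_lt hM.lt_top
    refine ⟨x, fun y => ?_⟩
    rcases eq_top_or_exists_le_coatom (zpowers x) with h | ⟨M', hM', hle⟩
    · exact mem_zpowers_iff.1 (h ▸ mem_top y)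
    · exact absurd (hno M M' hM hM' ▸ hle (mem_zpowers x)) hx

theorem centralizes_cyclic {A U : Subgroup X} (hA : Odd (Nat.card A)) (hU : IsPGroup 2 U) (hc : IsCyclic ↥U)
    (hAU : A ≤ normalizer (U : Set X)) : A ≤ centralizer (U : Set X) := by
  obtain ⟨⟨c, hc⟩, hgen⟩ := hc
  obtain ⟨e, he⟩ := hU ⟨c, hc⟩
  intro a ha
  have hodd : Odd (orderOf a) := by
    rw [← Subgroup.orderOf_mk a ha]
    exact hA.of_dvd_nat (orderOf_dvd_natCard _)
  have hfix : a * c * a⁻¹ = c := by
    refine Cfsg.Lib.TwoFus.fix_of_cyclic hodd (e := e) (congrArg Subtype.val he) ?_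
    obtain ⟨i, hi⟩ := hgen ⟨a * c * a⁻¹, (mem_normalizer_iff.1 (hAU ha) c).1 hc⟩
    exact ⟨i, congrArg Subtype.val hi⟩
  refine mem_centralizer_iff.2 fun y hy => ?_
  obtain ⟨i, hi⟩ := hgen ⟨y, hy⟩
  have hy' : c ^ i = y := congrArg Subtype.val hi
  rw [← hy']
  exact ((show Commute a c from mul_inv_eq_iff_eq_mul.1 hfix).zpow_right i).eq.symm

/-- One step: all maximal subgroups invariant. -/
theorem step {A S : Subgroup X} (hA : Odd (Nat.card A)) (hS : IsPGroup 2 S) (hnc : ¬ IsCyclic ↥S)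
    (hinv : ∀ M : Subgroup X, M ≤ S → 2 * Nat.card M = Nat.card S → A ≤ normalizer (M : Set X)) :
    A ≤ normalizer (S : Set X) ∧ A ≤ centralizer (S : Set X) := by
  haveI : Fact (Nat.Prime 2) := ⟨Nat.prime_two⟩
  have hmax : ∀ M : Subgroup ↥S, IsCoatom M → A ≤ normalizer ((M.map S.subtype : Subgroup X) : Set X) := by
    intro M hM
    refine hinv _ (map_subtype_le M) ?_
    rw [Subgroup.card_map_of_injective S.subtype_injective, ← M.index_mul_card, Cfsg.Lib.Solv.coatom_index_eq_prime hS hM]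
  obtain ⟨M, M', hM, hM', hne⟩ := exists_two_coatoms hnc
  have hsup : M ⊔ M' = ⊤ := hM.2 _ (lt_of_le_of_ne le_sup_left fun e => hne (by
    rcases hM'.le_iff.1 (e ▸ le_sup_right : M' ≤ M) with h | h
    · exact absurd h hM.1
    · exact h))
  have hN : A ≤ normalizer (S : Set X) := by
    intro a ha
    have h1 := Cfsg.Lib.Solv.conj_smul_eq_self_iff.2 (hmax M hM ha)
    have h2 := Cfsg.Lib.Solv.conj_smul_eq_self_iff.2 (hmax M' hM' ha)
    rw [← Cfsg.Lib.Solv.conj_smul_eq_self_iff]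
    have e : (S : Subgroup X) = M.map S.subtype ⊔ M'.map S.subtype := by
      rw [← Subgroup.map_sup, hsup, ← MonoidHom.range_eq_map, range_subtype]
    rw [e, Subgroup.smul_sup, h1, h2]
  refine ⟨hN, Cfsg.Lib.Solv.centralizes_of_frattini A S hN ?_ fun a ha x hx => ?_⟩
  · obtain ⟨j, hj⟩ := IsPGroup.iff_card.1 (hS.to_subgroup (frattini ↥S))
    rw [hj]
    exact (Nat.coprime_two_right.2 hA).pow_right j
  · have hmem : a * x * a⁻¹ * x⁻¹ ∈ S := mul_mem ((mem_normalizer_iff.1 (hN ha) x).1 hx) (inv_mem hx)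
    refine ⟨⟨_, hmem⟩, Cfsg.Lib.Solv.mem_frattini_iff.2 fun M hM => ?_, rfl⟩
    have hidx := Cfsg.Lib.Solv.coatom_index_eq_prime hS hM
    rw [show (⟨_, hmem⟩ : ↥S) = ⟨a * x * a⁻¹, (mem_normalizer_iff.1 (hN ha) x).1 hx⟩ * ⟨x, hx⟩⁻¹ from rfl,
      mul_mem_iff_of_index_two hidx, inv_mem_iff]
    have hmapiff : ∀ y : ↥S, y ∈ M ↔ (y : X) ∈ M.map S.subtype := fun y =>
      ⟨fun h => ⟨y, h, rfl⟩, fun ⟨z, hz, hzy⟩ => Subtype.ext hzy ▸ hz⟩
    rw [hmapiff, hmapiff]
    exact (mem_normalizer_iff.1 (hmax M hM ha) x).symm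


/-- Let P be a 2-subgroup and A a subgroup of odd order of a finite group, with A normalizing P. Let D ≤ P with 1 < |D| < |P|. If every subgroup of P of order |D|, and also every subgroup of P of order 4 in case |D| = 2, is normalized by A, then A centralizes P. -/
theorem result {X : Type*} [Group X] [Finite X] (P A D : Subgroup X) (hP : IsPGroup 2 P) (hA : Odd (Nat.card A))
    (hAP : A ≤ Subgroup.normalizer (P : Set X)) (hDP : D ≤ P) (hD1 : 1 < Nat.card D) (hD2 : Nat.card D < Nat.card P)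
    (hinv : ∀ E : Subgroup X, E ≤ P → (Nat.card E = Nat.card D ∨ (Nat.card D = 2 ∧ Nat.card E = 4)) → A ≤ Subgroup.normalizer (E : Set X)) :
    A ≤ Subgroup.centralizer (P : Set X) := by
  classical
  haveI : Fact (Nat.Prime 2) := ⟨Nat.prime_two⟩
  obtain ⟨k, hk⟩ := IsPGroup.iff_card.1 (hP.to_le hDP)
  obtain ⟨n, hn⟩ := IsPGroup.iff_card.1 hP
  rw [hk] at hD1 hD2 hinv
  have hk1 : 1 ≤ k := by rcases k with _ | k <;> simp at hD1 ⊢
  have hkn : k < n := (Nat.pow_lt_pow_iff_right one_lt_two).1 (hn ▸ hD2)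
  by_contra hnot
  obtain ⟨U, ⟨hUP, hAU, hUne⟩, hUmin⟩ :=
    {U : Subgroup X | U ≤ P ∧ A ≤ Subgroup.normalizer (U : Set X) ∧ ⁅U, A⁆ ≠ ⊥}.toFinite.exists_minimal
      ⟨P, le_rfl, hAP, fun h => hnot (Subgroup.commutator_eq_bot_iff_le_centralizer.1
        (by rwa [Subgroup.commutator_comm] at h))⟩
  have hU2 : IsPGroup 2 U := hP.to_le hUP
  have hcent : ¬ A ≤ Subgroup.centralizer (U : Set X) := fun h => hUne (by
    rw [Subgroup.commutator_comm]; exact Subgroup.commutator_eq_bot_iff_le_centralizer.2 h)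
  have hUnc : ¬ IsCyclic ↥U := fun h => hcent (centralizes_cyclic hA hU2 h hAU)
  obtain ⟨m, hm⟩ := IsPGroup.iff_card.1 hU2
  rcases Nat.lt_or_ge (k + 1) m with hbig | hsmall
  · obtain ⟨-, hspec, -, -⟩ := Cfsg.Agent.S3736.result A A U hU2 hAU le_rfl Subgroup.le_normalizer
      (Nat.coprime_two_right.2 hA) hUne (fun V hV hAV => by
        by_contra hVne
        exact hV.not_ge (hUmin ⟨hV.le.trans hUP, hAV, hVne⟩ hV.le))
    have hexp : ∀ x : ↥U, x ^ 4 = 1 := by
      intro x
      rw [show 4 = 2 * 2 from rfl, pow_mul]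
      rcases hspec with he | hs
      · rw [show x ^ 2 = 1 from Subtype.ext (he.2 x x.2), one_pow]
      · exact Cfsg.Agent.S0094.result hs _ (hs.2.1 ▸ Cfsg.Lib.Solv.pow_mem_frattini hU2 x)
    have claim : ∀ j, k ≤ j → ∀ H : Subgroup X, H ≤ U → Nat.card H = 2 ^ j →
        A ≤ Subgroup.normalizer (H : Set X) := by
      intro j
      induction j with
      | zero => intro h; omega
      | succ j ih =>
        intro hj H hHU hH
        rcases hj.eq_or_lt with hj' | hj'
        · exact hinv H (hHU.trans hUP) (Or.inl (by rw [hH, hj']))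
        by_cases hHc : IsCyclic ↥H
        · obtain ⟨c, hc⟩ := hHc.exists_ofOrder_eq_natCard
          rw [hH] at hc
          have h4 : 2 ^ (j + 1) ∣ 2 ^ 2 := by
            rw [← hc, ← Subgroup.orderOf_coe]
            exact orderOf_dvd_of_pow_eq_one (congrArg Subtype.val (hexp ⟨(c : X), hHU c.2⟩))
          have := (Nat.pow_dvd_pow_iff_le_right one_lt_two).1 h4
          exact hinv H (hHU.trans hUP) (Or.inr ⟨by rw [show k = 1 by omega]; rfl, by rw [hH, show j + 1 = 2 by omega]; rfl⟩)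
        · refine (step hA (hU2.to_le hHU) hHc fun M hM hMc => ih (by omega) M (hM.trans hHU) ?_).1
          rw [hH, pow_succ'] at hMc
          omega
    exact hcent (step hA hU2 hUnc fun M hM hMc => claim (m - 1) (by omega) M hM (by
      rw [hm, show m = m - 1 + 1 by omega, pow_succ'] at hMc; omega)).2
  · obtain ⟨S, hS, hUS⟩ := Sylow.exists_subgroup_card_pow_prime_le (G := ↥P) 2 (n := m) (m := k + 1)
      (hn.symm ▸ pow_dvd_pow 2 (by omega)) (U.subgroupOf P)
      (by rw [Nat.card_congr (Subgroup.subgroupOfEquivOfLe hUP).toEquiv, hm]) hsmall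
    have hUS' : U ≤ S.map P.subtype := fun x hx => ⟨⟨x, hUP hx⟩, hUS hx, rfl⟩
    have hScard : Nat.card ↥(S.map P.subtype) = 2 ^ (k + 1) := by rw [Subgroup.card_map_of_injective (Subgroup.subtype_injective _), hS]
    have hSnc : ¬ IsCyclic ↥(S.map P.subtype) := fun h =>
      hUnc (isCyclic_of_injective (Subgroup.inclusion hUS') (Subgroup.inclusion_injective _))
    refine hcent ((step hA (hP.to_le (Subgroup.map_subtype_le S)) hSnc fun M hM hMc =>
      hinv M (hM.trans (Subgroup.map_subtype_le S)) (Or.inl ?_)).2.trans (Subgroup.centralizer_le hUS'))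
    rw [hScard, pow_succ'] at hMc
    omega

end Cfsg.Agent.S3803
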