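import Cfsg.Statements.S3815
import Mathlib
import Cfsg.Agent.Lib.Solv.Cores
-- import your own Cfsg.Agent.* helpers here

set_option autoImplicit false
open Cfsg

namespace Cfsg.Agent.S3815

/-- Let G be a finite group, p a prime and d ∈ G an element of order prime to p. If dg has order prime to p for every element g ∈ G of order prime to p, then d ∈ O_{p'}(G). -/
theorem result {G : Type*} [Group G] [Finite G] {p : ℕ} [Fact p.Prime]
    (d : G) (hd : (orderOf d).Coprime p)
    (h : ∀ g : G, (orderOf g).Coprime p → (orderOf (d * g)).Coprime p) :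
    d ∈ Cfsg.pPrimeCore p G := by
  have hp := (Fact.out : p.Prime)
  let M : Submonoid G :=
    { carrier := {x | ∀ g : G, (orderOf g).Coprime p → (orderOf (x * g)).Coprime p}
      one_mem' := fun g hg => by rwa [one_mul]
      mul_mem' := fun {x y} hx hy g hg => by rw [mul_assoc]; exact hx _ (hy g hg) }
  let S : Subgroup G :=
    { M with
      inv_mem' := fun {x} hx => by
        have h1 : x⁻¹ = x ^ (orderOf x - 1) := by
          refine inv_eq_of_mul_eq_one_right ?_
          rw [← pow_succ', Nat.sub_add_cancel (orderOf_pos x), pow_orderOf_eq_one]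
        show x⁻¹ ∈ M
        rw [h1]; exact M.pow_mem hx _ }
  have hconj : ∀ a b : G, orderOf (a * b * a⁻¹) = orderOf b := fun a b =>
    orderOf_injective (MulAut.conj a).toMonoidHom (MulAut.conj a).injective b
  have hn : S.Normal := ⟨fun x hx a g hg => by
    have h1 := hx (a⁻¹ * g * a⁻¹⁻¹) (by rw [hconj]; exact hg)
    rw [← hconj a] at h1
    have e : a * (x * (a⁻¹ * g * a⁻¹⁻¹)) * a⁻¹ = a * x * a⁻¹ * g := by group
    rwa [e] at h1⟩
  refine Cfsg.Lib.Solv.le_pPrimeCore hn ?_ (show d ∈ S from h)
  refine (hp.coprime_iff_not_dvd.2 fun hdvd => ?_).symm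
  obtain ⟨x, hx⟩ := exists_prime_orderOf_dvd_card' (G := S) p hdvd
  have h1 := x.2 1 (by simp)
  rw [mul_one, Subgroup.orderOf_coe, hx] at h1
  exact hp.ne_one ((Nat.coprime_self p).1 h1)

end Cfsg.Agent.S3815
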