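import Cfsg.Statements.S3820
import Mathlib
import Cfsg.Agent.Lib.Solv.SchurZassenhaus
-- import your own Cfsg.Agent.* helpers here

set_option autoImplicit false
open Cfsg
open scoped Pointwise commutatorElement

namespace Cfsg.Agent.S3820

/-- Call a subgroup H of G pronormal if H and gHg⁻¹ are conjugate inside ⟨H, gHg⁻¹⟩ for every g ∈ G. Let S ≤ H ≤ G be subgroups of a finite group with S pronormal in G (for instance S a Sylow subgroup). Then H is pronormal in G if and only if H and gHg⁻¹ are conjugate inside ⟨H, gHg⁻¹⟩ for every g ∈ N_G(S). In particular H is pronormal whenever N_G(S) ≤ H. -/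
theorem result {G : Type*} [Group G] [Finite G] (S H : Subgroup G) (hSH : S ≤ H)
    (hS : Cfsg.IsPronormal S) :
    Cfsg.IsPronormal H ↔
      ∀ g ∈ Subgroup.normalizer (S : Set G), ∃ w ∈ H ⊔ H.map (MulAut.conj g).toMonoidHom,
        H.map (MulAut.conj g).toMonoidHom = H.map (MulAut.conj w).toMonoidHom := by
  refine ⟨fun h g _ => h g, fun h g => ?_⟩
  have mcomp : ∀ (a b : G) (K : Subgroup G),
      (K.map (MulAut.conj b).toMonoidHom).map (MulAut.conj a).toMonoidHom = K.map (MulAut.conj (a * b)).toMonoidHom := by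
    intro a b K
    rw [Subgroup.map_map]
    congr 1
    ext x
    simp [mul_assoc]
  obtain ⟨x, hx, hxS⟩ := hS g
  set J := H ⊔ H.map (MulAut.conj g).toMonoidHom with hJ
  have hxJ : x ∈ J := (sup_le_sup hSH (Subgroup.map_mono hSH) :
    S ⊔ S.map (MulAut.conj g).toMonoidHom ≤ J) hx
  have hn : x⁻¹ * g ∈ Subgroup.normalizer (S : Set G) := by
    rw [← Cfsg.Lib.Solv.conj_smul_eq_self_iff, Cfsg.Lib.Solv.conj_smul_eq_map, ← mcomp, hxS, mcomp,
      inv_mul_cancel]
    ext z
    simp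
  obtain ⟨w, hw, hwH⟩ := h _ hn
  have hJ' : H.map (MulAut.conj (x⁻¹ * g)).toMonoidHom ≤ J := by
    rw [← mcomp]
    rintro _ ⟨z, hz, rfl⟩
    exact J.mul_mem (J.mul_mem (J.inv_mem hxJ) ((le_sup_right : _ ≤ J) hz)) (J.inv_mem (J.inv_mem hxJ))
  have hwJ : w ∈ J := (sup_le le_sup_left hJ' : H ⊔ H.map (MulAut.conj (x⁻¹ * g)).toMonoidHom ≤ J) hw
  refine ⟨x * w, J.mul_mem hxJ hwJ, ?_⟩
  rw [← mcomp x w, ← hwH, mcomp, mul_inv_cancel_left]

end Cfsg.Agent.S3820
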