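import Cfsg.Statements.S3821
import Mathlib
-- import your own Cfsg.Agent.* helpers here

set_option autoImplicit false
open Cfsg

namespace Cfsg.Agent.S3821

/-- Let A be a normal subgroup of the finite group G and H a subgroup of A. Then H is pronormal in G (H and gHg⁻¹ conjugate inside ⟨H, gHg⁻¹⟩ for every g ∈ G) if and only if H is pronormal in A and G = A · N_G(H). -/
theorem result {G : Type*} [Group G] [Finite G] (A H : Subgroup G) [A.Normal] (hHA : H ≤ A) :
    Cfsg.IsPronormal H ↔ (Cfsg.IsPronormal (H.subgroupOf A) ∧ A ⊔ Subgroup.normalizer (H : Set G) = ⊤) := by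
  have hmap : ∀ (L : Subgroup A) (a : A), (L.map (MulAut.conj a).toMonoidHom).map A.subtype =
      (L.map A.subtype).map (MulAut.conj (a : G)).toMonoidHom := fun L a => by
    rw [Subgroup.map_map, Subgroup.map_map]
    congr 1
  have hHmap : (H.subgroupOf A).map A.subtype = H := Subgroup.map_subgroupOf_eq_of_le hHA
  have hconjA : ∀ g : G, H.map (MulAut.conj g).toMonoidHom ≤ A := by
    rintro g _ ⟨h, hh, rfl⟩
    exact (inferInstance : A.Normal).conj_mem h (hHA hh) g
  constructor
  · intro hp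
    refine ⟨fun a => ?_, ?_⟩
    · obtain ⟨x, hx, he⟩ := hp (a : G)
      have hxA : x ∈ A := (sup_le hHA (hconjA a)) hx
      refine ⟨⟨x, hxA⟩, ?_, Subgroup.map_injective A.subtype_injective ?_⟩
      · have hx' : x ∈ (H.subgroupOf A ⊔ (H.subgroupOf A).map (MulAut.conj a).toMonoidHom).map A.subtype := by
          rw [Subgroup.map_sup, hmap, hHmap]; exact hx
        obtain ⟨y, hy, hyx⟩ := hx'
        have : y = ⟨x, hxA⟩ := Subtype.ext hyx
        exact this ▸ hy
      · rw [hmap, hmap, hHmap]; exact he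
    · refine eq_top_iff.2 fun g _ => ?_
      obtain ⟨x, hx, he⟩ := hp g
      have hxA : x ∈ A := (sup_le hHA (hconjA g)) hx
      have hn : x⁻¹ * g ∈ Subgroup.normalizer (H : Set G) := by
        refine Subgroup.mem_normalizer_iff.2 fun h => ⟨fun hh => ?_, fun hh => ?_⟩
        · have h1 : (MulAut.conj g).toMonoidHom h ∈ H.map (MulAut.conj x).toMonoidHom := he ▸ ⟨h, hh, rfl⟩
          obtain ⟨k, hk, hke⟩ := h1
          change x * k * x⁻¹ = g * h * g⁻¹ at hke
          have e : x⁻¹ * g * h * (x⁻¹ * g)⁻¹ = k := by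
            calc x⁻¹ * g * h * (x⁻¹ * g)⁻¹ = x⁻¹ * (g * h * g⁻¹) * x := by group
              _ = k := by rw [← hke]; group
          rwa [e]
        · have h1 : (MulAut.conj x).toMonoidHom (x⁻¹ * g * h * (x⁻¹ * g)⁻¹) ∈
              H.map (MulAut.conj g).toMonoidHom := he.symm ▸ ⟨_, hh, rfl⟩
          obtain ⟨k, hk, hke⟩ := h1
          change g * k * g⁻¹ = x * (x⁻¹ * g * h * (x⁻¹ * g)⁻¹) * x⁻¹ at hke
          have e : h = k := by
            calc h = g⁻¹ * (x * (x⁻¹ * g * h * (x⁻¹ * g)⁻¹) * x⁻¹) * g := by group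
              _ = k := by rw [← hke]; group
          rwa [e]
      have e : g = x * (x⁻¹ * g) := by group
      rw [e]
      exact mul_mem (Subgroup.mem_sup_left hxA) (Subgroup.mem_sup_right hn)
  · rintro ⟨hp, htop⟩ g
    obtain ⟨a, ha, n, hn, rfl⟩ := Subgroup.mem_sup_of_normal_left.1 (htop.ge (Subgroup.mem_top g))
    obtain ⟨x, hx, he⟩ := hp ⟨a, ha⟩
    have hHn : H.map (MulAut.conj n).toMonoidHom = H := by
      ext h
      constructor
      · rintro ⟨k, hk, rfl⟩
        exact (Subgroup.mem_normalizer_iff.1 hn k).1 hk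
      · intro hh
        refine ⟨n⁻¹ * h * n, (Subgroup.mem_normalizer_iff''.1 hn h).1 hh, ?_⟩
        show n * (n⁻¹ * h * n) * n⁻¹ = h
        group
    have e : H.map (MulAut.conj (a * n)).toMonoidHom = H.map (MulAut.conj a).toMonoidHom := by
      rw [show (MulAut.conj (a * n)).toMonoidHom =
        (MulAut.conj a).toMonoidHom.comp (MulAut.conj n).toMonoidHom from by ext y; simp [mul_assoc],
        ← Subgroup.map_map, hHn]
    refine ⟨x.1, ?_, ?_⟩
    · rw [e]
      have h1 := Subgroup.mem_map_of_mem A.subtype hx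
      rwa [Subgroup.map_sup, hmap, hHmap] at h1
    · rw [e]
      have h1 := congrArg (Subgroup.map A.subtype) he
      rwa [hmap, hmap, hHmap] at h1

end Cfsg.Agent.S3821
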