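import Cfsg.Statements.S3825
import Mathlib
-- import your own Cfsg.Agent.* helpers here

set_option autoImplicit false
open Cfsg
open scoped commutatorElement

namespace Cfsg.Agent.S3825

/-- Let U be a subgroup of a finite group H and w an involution of H normalizing U and commuting with exactly two elements of U, the identity and y. If V is a non-cyclic elementary abelian 2-subgroup of U containing y which is normal in U and invariant under w, then V is a Sylow 2-subgroup of U, V has order 4, and U/V is abelian. -/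
theorem result {H : Type*} [Group H] [Finite H] (U : Subgroup H) (w : H) (hw : orderOf w = 2)
    (hwU : w ∈ Subgroup.normalizer (U : Set H)) (y : H) (hy : y ≠ 1) (hyU : y ∈ U)
    (hfix : ∀ u ∈ U, w * u * w⁻¹ = u ↔ (u = 1 ∨ u = y))
    (V : Subgroup H) (hVU : V ≤ U) (hVn : (V.subgroupOf U).Normal) (hVw : ∀ v ∈ V, w * v * w⁻¹ ∈ V)
    (hVe : Cfsg.IsElementaryAbelian 2 V) (hVc : ¬ IsCyclic ↥V) (hyV : y ∈ V) :
    ¬ 2 ∣ V.relIndex U ∧ Nat.card ↥V = 4 ∧ ⁅U, U⁆ ≤ V := by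
  classical
  haveI := hVn
  have hnorm : ∀ u ∈ U, w * u * w⁻¹ ∈ U := fun u hu => (Subgroup.mem_normalizer_iff.1 hwU u).1 hu
  have hw2 : w * w = 1 := by rw [← sq, ← hw, pow_orderOf_eq_one]
  have hwi : w⁻¹ = w := inv_eq_of_mul_eq_one_right hw2
  have hV2 : ∀ v ∈ V, v * v = 1 := fun v hv => by
    rw [← sq]; exact hVe.2 v hv
  have hVc' : ∀ a ∈ V, ∀ b ∈ V, a * b = b * a := fun a ha b hb =>
    congrArg Subtype.val (hVe.1.is_comm.comm (⟨a, ha⟩ : ↥V) ⟨b, hb⟩)
  have hinv : ∀ u, w * (w * u * w⁻¹) * w⁻¹ = u := fun u => by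
    rw [hwi, show w * (w * u * w) * w = (w * w) * u * (w * w) by group, hw2]; group
  -- fixed points in V
  have hd : ∀ v ∈ V, v * (w * v * w⁻¹) = 1 ∨ v * (w * v * w⁻¹) = y := by
    intro v hv
    refine (hfix _ (hVU (V.mul_mem hv (hVw v hv)))).1 ?_
    rw [← conj_mul, hinv, hVc' _ hv _ (hVw v hv)]
  obtain ⟨v₀, hv₀, hv₀y, hv₀1⟩ : ∃ v ∈ V, v ≠ y ∧ v ≠ 1 := by
    by_contra hno
    push Not at hno
    refine hVc (isCyclic_of_injective (Subgroup.inclusion (K := Subgroup.zpowers y) fun v hv => ?_)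
      (Subgroup.inclusion_injective _))
    by_cases hvy : v = y
    · rw [hvy]; exact Subgroup.mem_zpowers y
    · rw [hno v hv hvy]; exact one_mem _
  have hfixV : ∀ v ∈ V, v * (w * v * w⁻¹) = 1 → v = 1 ∨ v = y := fun v hv he => by
    refine (hfix v (hVU hv)).1 ?_
    rw [← mul_left_cancel_iff (a := v), he, hV2 v hv]
  have hv₀e : v₀ * (w * v₀ * w⁻¹) = y := (hd v₀ hv₀).resolve_left fun e => by
    rcases hfixV v₀ hv₀ e with h | h
    · exact hv₀1 h
    · exact hv₀y h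
  have hy2 : y * y = 1 := hV2 y hyV
  have hVset : ∀ v ∈ V, v = 1 ∨ v = y ∨ v = v₀ ∨ v = v₀ * y := by
    intro v hv
    rcases hd v hv with h | h
    · rcases hfixV v hv h with h' | h'
      · exact Or.inl h'
      · exact Or.inr (Or.inl h')
    · have h1 : (v₀ * v) * (w * (v₀ * v) * w⁻¹) = 1 := by
        have hwv := hVw v hv
        have hwv₀ := hVw v₀ hv₀
        rw [← conj_mul]
        calc v₀ * v * (w * v₀ * w⁻¹ * (w * v * w⁻¹))
            = v₀ * (v * (w * v₀ * w⁻¹)) * (w * v * w⁻¹) := by group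
          _ = v₀ * ((w * v₀ * w⁻¹) * v) * (w * v * w⁻¹) := by rw [hVc' _ hv _ hwv₀]
          _ = (v₀ * (w * v₀ * w⁻¹)) * (v * (w * v * w⁻¹)) := by group
          _ = 1 := by rw [hv₀e, h, hy2]
      rcases hfixV _ (V.mul_mem hv₀ hv) h1 with h' | h'
      · refine Or.inr (Or.inr (Or.inl ?_))
        rw [← mul_left_cancel_iff (a := v₀), h', hV2 v₀ hv₀]
      · refine Or.inr (Or.inr (Or.inr ?_))
        rw [← mul_left_cancel_iff (a := v₀), h', ← mul_assoc, hV2 v₀ hv₀, one_mul]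
  have hcard : Nat.card ↥V = 4 := by
    have hne : v₀ * y ≠ 1 ∧ v₀ * y ≠ y ∧ v₀ * y ≠ v₀ :=
      ⟨fun e => hv₀y (by rw [← mul_right_cancel_iff (a := y), e, hy2]),
        fun e => hv₀1 (mul_eq_right.1 e), fun e => hy (mul_eq_left.1 e)⟩
    have hS : (V : Set H) = ({1, y, v₀, v₀ * y} : Finset H) := by
      ext v
      simp only [SetLike.mem_coe, Finset.coe_insert, Finset.coe_singleton, Set.mem_insert_iff, Set.mem_singleton_iff]
      refine ⟨hVset v, ?_⟩
      rintro (rfl | rfl | rfl | rfl)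
      exacts [V.one_mem, hyV, hv₀, V.mul_mem hv₀ hyV]
    rw [show Nat.card ↥V = (V : Set H).ncard from Nat.card_coe_set_eq _, hS, Set.ncard_coe_finset]
    rw [Finset.card_insert_of_notMem, Finset.card_insert_of_notMem, Finset.card_insert_of_notMem, Finset.card_singleton]
    · simp [hne.2.2.symm]
    · simp [hv₀y.symm, hne.2.1.symm]
    · simp [hy.symm, hv₀1.symm, hne.1.symm]
  -- w is fixed point free on U/V
  let ω : ↥U →* ↥U :=
    { toFun := fun u => ⟨w * u * w⁻¹, hnorm u u.2⟩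
      map_one' := Subtype.ext (by simp)
      map_mul' := fun a b => Subtype.ext (by simp [mul_assoc]) }
  set V' := V.subgroupOf U
  let ψ : ↥U ⧸ V' →* ↥U ⧸ V' := QuotientGroup.map V' V' ω (fun u hu => hVw _ hu)
  have hfpf : MonoidHom.FixedPointFree ψ := by
    intro a
    induction a using QuotientGroup.induction_on with | H u => ?_
    intro hu
    have h1 : (w * (u : H) * w⁻¹)⁻¹ * u ∈ V := (QuotientGroup.eq.1 hu : (ω u)⁻¹ * u ∈ V')
    set z := (w * (u : H) * w⁻¹)⁻¹ * u with hz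
    have hwz : w * z * w⁻¹ = z := by
      have : w * z * w⁻¹ = z⁻¹ := by
        rw [hz, ← conj_mul, ← conj_inv, hinv]; group
      rw [this, inv_eq_of_mul_eq_one_right (hV2 z h1)]
    obtain ⟨v, hv, hvz⟩ : ∃ v ∈ V, (w * v * w⁻¹)⁻¹ * v = z := by
      rcases (hfix z (hVU h1)).1 hwz with h | h
      · exact ⟨1, V.one_mem, by rw [h]; group⟩
      · refine ⟨v₀, hv₀, ?_⟩
        rw [h, inv_eq_of_mul_eq_one_right (hV2 _ (hVw v₀ hv₀)), hVc' _ (hVw v₀ hv₀) _ hv₀, hv₀e]
    have h3 : w * ((u : H) * v⁻¹) * w⁻¹ = u * v⁻¹ := by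
      rw [hz] at hvz
      calc w * ((u : H) * v⁻¹) * w⁻¹ = u * ((w * (u:H) * w⁻¹)⁻¹ * u)⁻¹ * (w * v⁻¹ * w⁻¹) := by group
        _ = u * ((w * v * w⁻¹)⁻¹ * v)⁻¹ * (w * v⁻¹ * w⁻¹) := by rw [hvz]
        _ = u * v⁻¹ := by group
    have h4 : (u : H) * v⁻¹ ∈ V := by
      rcases (hfix _ (U.mul_mem u.2 (U.inv_mem (hVU hv)))).1 h3 with h | h <;> rw [h]
      exacts [V.one_mem, hyV]
    refine (QuotientGroup.eq_one_iff u).2 ?_
    have h5 := V.mul_mem h4 hv
    rwa [inv_mul_cancel_right] at h5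
  have hψ : Function.Involutive ψ := by
    intro a
    induction a using QuotientGroup.induction_on with | H u => ?_
    exact congrArg QuotientGroup.mk (Subtype.ext (hinv u))
  refine ⟨?_, hcard, ?_⟩
  · have h1 := hfpf.odd_card_of_involutive hψ
    rw [← Subgroup.index_eq_card] at h1
    exact fun h2 => (Nat.not_even_iff_odd.2 h1) (even_iff_two_dvd.2 h2)
  · rw [Subgroup.commutator_le]
    intro a ha b hb
    have h1 : Commute (QuotientGroup.mk' V' ⟨a, ha⟩) (QuotientGroup.mk' V' ⟨b, hb⟩) :=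
      hfpf.commute_all_of_involutive hψ _ _
    have h2 : QuotientGroup.mk' V' ⁅(⟨a, ha⟩ : ↥U), ⟨b, hb⟩⁆ = 1 := by
      rw [map_commutatorElement, commutatorElement_eq_one_iff_commute]; exact h1
    have h3 : ⁅(⟨a, ha⟩ : ↥U), ⟨b, hb⟩⁆ ∈ V' := (QuotientGroup.eq_one_iff _).1 h2
    exact h3

end Cfsg.Agent.S3825
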