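import Cfsg.Statements.S3838
import Mathlib
import Cfsg.Agent.Lib.Transfer.Tate
import Cfsg.Agent.Lib.Transfer.Action
import Cfsg.Agent.Lib.Transfer.NormalPComplement
-- import your own Cfsg.Agent.* helpers here

set_option autoImplicit false
open Cfsg
open scoped commutatorElement

namespace Cfsg.Agent.S3838

/-- Let G be a finite group with Sylow p-subgroup P such that N_G(P) has a normal p-complement. Then N_G(Q) has a normal p-complement for every subgroup Q with [P, P] ≤ Q ≤ Φ(P). -/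
theorem result {G : Type*} [Group G] [Finite G] {p : ℕ} [Fact p.Prime] (P : Sylow p G) (hN : Cfsg.HasNormalPComplement p ↥(Subgroup.normalizer ((P : Subgroup G) : Set G))) (Q : Subgroup G) (h1 : (commutator ↥(P : Subgroup G)).map (P : Subgroup G).subtype ≤ Q) (h2 : Q ≤ (frattini ↥(P : Subgroup G)).map (P : Subgroup G).subtype) : Cfsg.HasNormalPComplement p ↥(Subgroup.normalizer (Q : Set G)) := by
  classical
  have hp := (Fact.out : p.Prime)
  set N := Subgroup.normalizer (Q : Set G) with hNdef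
  have hQP : Q ≤ (P : Subgroup G) := h2.trans (Subgroup.map_subtype_le _)
  have hQN : Q ≤ N := Subgroup.le_normalizer
  have hPN : (P : Subgroup G) ≤ N := fun x hx => by
    have key : ∀ y ∈ Q, ∀ x ∈ (P : Subgroup G), x * y * x⁻¹ ∈ Q := fun y hy x hx => by
      have hc : x * y * x⁻¹ * y⁻¹ ∈ Q := h1 ⟨⟨x, hx⟩ * ⟨y, hQP hy⟩ * ⟨x, hx⟩⁻¹ * ⟨y, hQP hy⟩⁻¹,
        by rw [← commutatorElement_def]; exact Subgroup.commutator_mem_commutator (Subgroup.mem_top _) (Subgroup.mem_top _), rfl⟩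
      simpa using Q.mul_mem hc hy
    refine Subgroup.mem_normalizer_iff.2 fun y => ⟨fun hy => key y hy x hx, fun hy => ?_⟩
    have h3 := key _ hy x⁻¹ ((P : Subgroup G).inv_mem hx)
    have e : x⁻¹ * (x * y * x⁻¹) * x⁻¹⁻¹ = y := by group
    rwa [e] at h3
  set P₁ : Sylow p N := P.subtype hPN with hP₁
  set Q₁ := Q.subgroupOf N with hQ₁
  haveI : Q₁.Normal := (Subgroup.normal_subgroupOf_iff_le_normalizer hQN).2 le_rfl
  set π := QuotientGroup.mk' Q₁ with hπ
  have hsur : Function.Surjective π := QuotientGroup.mk'_surjective Q₁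
  set P₂ : Sylow p (N ⧸ Q₁) := P₁.mapSurjective hsur with hP₂
  have hker : π.ker ≤ (P₁ : Subgroup N) := by
    rw [QuotientGroup.ker_mk']
    exact fun x hx => hQP hx
  -- the Sylow normaliser of the quotient centralises
  have hcen : Subgroup.normalizer ((P₂ : Subgroup (N ⧸ Q₁)) : Set (N ⧸ Q₁)) ≤
      Subgroup.centralizer ((P₂ : Subgroup (N ⧸ Q₁)) : Set (N ⧸ Q₁)) := by
    intro z hz
    obtain ⟨⟨g, hgN⟩, rfl⟩ := hsur z
    have hgP : g ∈ Subgroup.normalizer ((P : Subgroup G) : Set G) := by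
      have key : ∀ y : N, (⟨g, hgN⟩ * y * (⟨g, hgN⟩ : N)⁻¹ ∈ (P₁ : Subgroup N) ↔ y ∈ (P₁ : Subgroup N)) := by
        intro y
        have h := (Subgroup.mem_normalizer_iff.1 hz (π y)).symm
        rw [← map_inv, ← map_mul, ← map_mul] at h
        rw [show ((P₂ : Subgroup (N ⧸ Q₁))) = (P₁ : Subgroup N).map π from rfl] at h
        rw [← Subgroup.mem_comap, ← Subgroup.mem_comap, Subgroup.comap_map_eq, sup_eq_left.2 hker] at h
        exact h
      refine Subgroup.mem_normalizer_iff.2 fun y => ⟨fun hy => ?_, fun hy => ?_⟩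
      · exact (key ⟨y, hPN hy⟩).2 hy
      · have hyN : y ∈ N := by
          have h3 := N.mul_mem (N.mul_mem (N.inv_mem hgN) (hPN hy)) hgN
          simpa [mul_assoc] using h3
        exact (key ⟨y, hyN⟩).1 hy
    obtain ⟨PP, K, hKn, hK⟩ := hN
    set NP := Subgroup.normalizer ((P : Subgroup G) : Set G) with hNP
    have hKc := (Cfsg.Lib.Transfer.coprime_card_of_isComplement' hK).1
    obtain ⟨-, kk, hki⟩ := Cfsg.Lib.Transfer.coprime_card_of_isComplement' hK
    set P₀ : Sylow p NP := P.subtype Subgroup.le_normalizer with hP₀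
    haveI := hKn
    have hcp := Cfsg.Lib.Transfer.isComplement'_sylow hKc hki P₀
    haveI hP₀n : (P₀ : Subgroup NP).Normal := (Subgroup.normal_subgroupOf_iff_le_normalizer Subgroup.le_normalizer).2 le_rfl
    obtain ⟨⟨⟨k, hk⟩, ⟨u, hu⟩⟩, hku : k * u = (⟨g, hgP⟩ : NP)⟩ := (hcp : Function.Bijective _).2 ⟨g, hgP⟩
    refine Subgroup.mem_centralizer_iff.2 ?_
    rintro _ ⟨⟨y, hyN⟩, hy, rfl⟩
    have hyP : y ∈ (P : Subgroup G) := hy
    have hkcomm : Commute (k : G) y := congrArg Subtype.val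
      (Subgroup.commute_of_normal_of_disjoint _ (P₀ : Subgroup NP) hKn hP₀n hcp.disjoint k
        ⟨y, Subgroup.le_normalizer hyP⟩ hk hyP).eq
    have huP : (u : G) ∈ (P : Subgroup G) := hu
    have hkN : (k : G) ∈ N := by
      have e : (k : G) = g * (u : G)⁻¹ := by
        have := congrArg Subtype.val hku
        simp only [Subgroup.coe_mul] at this
        rw [← this, mul_inv_cancel_right]
      rw [e]; exact N.mul_mem hgN (N.inv_mem (hPN huP))
    show π ⟨y, hyN⟩ * π ⟨g, hgN⟩ = π ⟨g, hgN⟩ * π ⟨y, hyN⟩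
    rw [← map_mul, ← map_mul, QuotientGroup.mk'_eq_mk']
    have hg : g = (k : G) * (u : G) := by
      have := congrArg Subtype.val hku
      simpa using this.symm
    refine ⟨(⟨y, hyN⟩ * ⟨g, hgN⟩ : N)⁻¹ * (⟨g, hgN⟩ * ⟨y, hyN⟩), ?_, by group⟩
    show ((y * g)⁻¹ * (g * y) : G) ∈ Q
    have e : (y * g)⁻¹ * (g * y) = (u : G)⁻¹ * (y⁻¹ * (u : G) * y) := by
      rw [hg]
      calc (y * ((k : G) * u))⁻¹ * ((k : G) * u * y)
          = (u : G)⁻¹ * ((k : G)⁻¹ * y⁻¹ * k) * (u : G) * y := by group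
        _ = (u : G)⁻¹ * y⁻¹ * (u : G) * y := by
          rw [mul_assoc (k : G)⁻¹, ← hkcomm.inv_right.eq, inv_mul_cancel_left]
        _ = _ := by group
    rw [e]
    have h3 : (⟨u, huP⟩ : (P : Subgroup G))⁻¹ * ((⟨y, hyP⟩ : (P : Subgroup G))⁻¹ * ⟨u, huP⟩ * ⟨y, hyP⟩) ∈
        commutator (P : Subgroup G) := by
      have e2 : (⟨u, huP⟩ : (P : Subgroup G))⁻¹ * ((⟨y, hyP⟩ : (P : Subgroup G))⁻¹ * ⟨u, huP⟩ * ⟨y, hyP⟩) =
          ⁅(⟨u, huP⟩ : (P : Subgroup G))⁻¹, (⟨y, hyP⟩ : (P : Subgroup G))⁻¹⁆ := by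
        rw [commutatorElement_def]; group
      rw [e2]
      exact Subgroup.commutator_mem_commutator (Subgroup.mem_top _) (Subgroup.mem_top _)
    exact h1 ⟨_, h3, rfl⟩
  have hquot := Cfsg.Lib.Transfer.hasNormalPComplement_of_normalizer_le_centralizer P₂ hcen
  obtain ⟨PP, K₂, hK₂n, hK₂⟩ := hquot
  haveI := hK₂n
  obtain ⟨hK₂c, k₂, hK₂i⟩ := Cfsg.Lib.Transfer.coprime_card_of_isComplement' hK₂
  set M := K₂.comap π with hM
  have hMi : M.index = p ^ k₂ := by rw [hM, Subgroup.index_comap_of_surjective K₂ hsur, hK₂i]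
  have hMP : M ⊓ (P₁ : Subgroup N) ≤ Q₁ := by
    intro x hx
    have h4 : π x ∈ K₂ := hx.1
    obtain ⟨i, hi⟩ := IsPGroup.iff_orderOf.1 P₂.2 ⟨π x, ⟨x, hx.2, rfl⟩⟩
    rw [← Subgroup.orderOf_coe] at hi
    change orderOf (π x) = p ^ i at hi
    refine (QuotientGroup.eq_one_iff x).1 (orderOf_eq_one_iff.1 ?_)
    exact Nat.eq_one_of_dvd_coprimes (hK₂c.pow_right i) (Subgroup.orderOf_dvd_natCard _ h4) (hi ▸ dvd_rfl)
  have hΦ : M ⊓ (P₁ : Subgroup N) ≤ (frattini (P₁ : Subgroup N)).map (P₁ : Subgroup N).subtype := by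
    intro x hx
    let e : (P₁ : Subgroup N) ≃* (P : Subgroup G) := Subgroup.subgroupOfEquivOfLe hPN
    obtain ⟨y, hy, hyx⟩ := h2 (hMP hx)
    refine ⟨⟨x, hx.2⟩, ?_, rfl⟩
    have h5 : e ⟨x, hx.2⟩ = y := Subtype.ext hyx.symm
    have h6 : (⟨x, hx.2⟩ : (P₁ : Subgroup N)) = e.symm y := by rw [← h5, MulEquiv.symm_apply_apply]
    rw [h6]
    exact frattini_le_comap_frattini_of_surjective (φ := e.symm.toMonoidHom) e.symm.surjective hy
  haveI : M.Normal := Subgroup.Normal.comap inferInstance π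
  obtain ⟨PM, K₃, hK₃n, hK₃⟩ := Cfsg.Lib.Transfer.tate P₁ M hΦ
  obtain ⟨hK₃c, k₃, hK₃i⟩ := Cfsg.Lib.Transfer.coprime_card_of_isComplement' hK₃
  rw [Cfsg.Lib.Transfer.hasNormalPComplement_iff_pResidual]
  have hle : Cfsg.pResidual p N ≤ K₃.map M.subtype := by
    unfold Cfsg.pResidual
    rw [Subgroup.closure_le]
    intro x hx
    have hxM : x ∈ M := Cfsg.Lib.Transfer.pResidual_le_of_index_eq_pow M hMi
      (Cfsg.Lib.Transfer.coprime_orderOf_mem_pResidual hx)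
    haveI := hK₃n
    exact ⟨⟨x, hxM⟩, Cfsg.Lib.Transfer.pResidual_le_of_index_eq_pow K₃ hK₃i
      (Cfsg.Lib.Transfer.coprime_orderOf_mem_pResidual (by rwa [Subgroup.orderOf_mk])), rfl⟩
  refine Nat.Coprime.coprime_dvd_left (Subgroup.card_dvd_of_le hle) ?_
  rw [← Nat.card_congr (Subgroup.equivMapOfInjective K₃ _ M.subtype_injective).toEquiv]
  exact hK₃c

end Cfsg.Agent.S3838
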