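import Cfsg.Statements.S3839
import Cfsg.Agent.Lib.Transfer.Frobenius

set_option autoImplicit false
open Cfsg
open scoped Pointwise commutatorElement

namespace Cfsg.Agent.S3839

theorem fix_of_chain {G : Type*} [Group G] [Finite G] {p : ℕ} [Fact p.Prime] {Q U : Subgroup G} (hQ : IsPGroup p Q) (hUQ : U ≤ Q)
    {g : G} (hg : (orderOf g).Coprime p) (hU : g ∈ Subgroup.centralizer (U : Set G))
    (hc : ∀ q ∈ Q, g * q * g⁻¹ * q⁻¹ ∈ U) : g ∈ Subgroup.centralizer (Q : Set G) := by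
  refine Subgroup.mem_centralizer_iff.2 fun q hq => ?_
  set u := g * q * g⁻¹ * q⁻¹ with hu
  have huU : u ∈ U := hc q hq
  have hgu : g * u = u * g := (Subgroup.mem_centralizer_iff.1 hU u huU).symm
  have key : ∀ n : ℕ, g ^ n * q * (g ^ n)⁻¹ = u ^ n * q := by
    intro n
    induction n with
    | zero => simp
    | succ n ih =>
      have hcomm : g * u ^ n = u ^ n * g := ((Commute.pow_right (show Commute g u from hgu) n)).eq
      calc g ^ (n + 1) * q * (g ^ (n + 1))⁻¹ = g * (g ^ n * q * (g ^ n)⁻¹) * g⁻¹ := by rw [pow_succ']; group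
        _ = (g * u ^ n) * q * g⁻¹ := by rw [ih]; group
        _ = u ^ n * (g * q * g⁻¹ * q⁻¹) * q := by rw [hcomm]; group
        _ = u ^ (n + 1) * q := by rw [← hu, pow_succ]
  have h1 : u ^ orderOf g = 1 := by
    have := key (orderOf g)
    rw [pow_orderOf_eq_one] at this
    simpa using this.symm
  obtain ⟨k, hk⟩ := hQ ⟨u, hUQ huU⟩
  have h2 : u ^ p ^ k = 1 := congrArg Subtype.val hk
  have hu1 : u = 1 := orderOf_eq_one_iff.1 (Nat.eq_one_of_dvd_coprimes (hg.pow_right k)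
    (orderOf_dvd_of_pow_eq_one h1) (orderOf_dvd_of_pow_eq_one h2))
  rw [hu] at hu1
  calc q * g = (g * q * g⁻¹ * q⁻¹) * q * g := by rw [hu1, one_mul]
    _ = g * q := by group


/-- A Frobenius normal p-complement criterion relative to a strongly closed subgroup. Let G be a finite group, S a Sylow p-subgroup and D a subgroup of S strongly closed in S with respect to G. Then G has a normal p-complement if and only if N_G(U) has a normal p-complement for every subgroup U of D with C_D(U) ≤ U. -/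
theorem result {G : Type*} [Group G] [Finite G] {p : ℕ} [Fact p.Prime] (S : Sylow p G) (D : Subgroup G) (hD : Cfsg.IsStronglyClosed D (S : Subgroup G)) : Cfsg.HasNormalPComplement p G ↔ ∀ U : Subgroup G, U ≤ D → D ⊓ Subgroup.centralizer (U : Set G) ≤ U → Cfsg.HasNormalPComplement p ↥(Subgroup.normalizer (U : Set G)) := by
  refine ⟨fun h U _ _ => Cfsg.Lib.Transfer.hasNormalPComplement_subgroup _ h, fun h => ?_⟩
  rw [Cfsg.Lib.Transfer.frobenius_iff S]
  by_contra hbad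
  classical
  let Bad : Subgroup G → Prop := fun Q => IsPGroup p Q ∧ ∃ g ∈ Subgroup.normalizer (Q : Set G),
    (orderOf g).Coprime p ∧ g ∉ Subgroup.centralizer (Q : Set G)
  have hne : ({Q : Subgroup G | Bad Q}).Nonempty := by
    unfold Cfsg.Lib.Transfer.FrobeniusCond at hbad
    push Not at hbad
    obtain ⟨Q, hQ, g, hg, hgo, hgc⟩ := hbad
    exact ⟨Q, S.isPGroup'.to_le hQ, g, hg, hgo, hgc⟩
  obtain ⟨Q0, ⟨hQ0, g0, hg0, hgo0, hgc0⟩, hmax0⟩ :=
    Set.exists_max_image {Q : Subgroup G | Bad Q} (fun Q => Nat.card Q) (Set.toFinite _) hne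
  obtain ⟨P0, hP0⟩ := hQ0.exists_le_sylow
  obtain ⟨c, hc⟩ := MulAction.exists_smul_eq G P0 S
  let e := (MulAut.conj c).toMonoidHom
  have heinj : Function.Injective e := (MulAut.conj c).injective
  obtain ⟨Q, hQdef⟩ : ∃ Q, Q = Q0.map e := ⟨_, rfl⟩
  obtain ⟨g, hgdef⟩ : ∃ g, g = e g0 := ⟨_, rfl⟩
  have hQS : Q ≤ (S : Subgroup G) := by
    rw [hQdef, ← hc, Sylow.coe_subgroup_smul]
    rintro _ ⟨x, hx, rfl⟩
    exact ⟨x, hP0 hx, rfl⟩
  have hQp : IsPGroup p Q := S.isPGroup'.to_le hQS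
  have hgN : g ∈ Subgroup.normalizer (Q : Set G) := by
    rw [hQdef, hgdef]
    exact Subgroup.le_normalizer_map e ⟨g0, hg0, rfl⟩
  have hgo : (orderOf g).Coprime p := by rwa [hgdef, orderOf_injective e heinj]
  have hgc : g ∉ Subgroup.centralizer (Q : Set G) := fun hh => hgc0 (Subgroup.mem_centralizer_iff.2 fun y hy =>
    heinj (by rw [map_mul, map_mul]; exact Subgroup.mem_centralizer_iff.1 (hgdef ▸ hh) (e y) (hQdef ▸ ⟨y, hy, rfl⟩)))
  have hmax : ∀ R : Subgroup G, Bad R → Nat.card R ≤ Nat.card Q := fun R hR => by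
    rw [hQdef, Subgroup.card_map_of_injective heinj]; exact hmax0 R hR
  -- D is normalized by S
  have hDS : ∀ s ∈ (S : Subgroup G), ∀ x ∈ D, s * x * s⁻¹ ∈ D := fun s hs x hx =>
    hD.2 x hx s (mul_mem (mul_mem hs (hD.1 hx)) (inv_mem hs))
  obtain ⟨U, hUdef⟩ : ∃ U, U = D ⊓ Q := ⟨_, rfl⟩
  have hUD : U ≤ D := hUdef ▸ inf_le_left
  have hUQ : U ≤ Q := hUdef ▸ inf_le_right
  have hNU : ∀ n ∈ Subgroup.normalizer (Q : Set G), ∀ x ∈ U, n * x * n⁻¹ ∈ U := by
    intro n hn x hx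
    have h2 := (Subgroup.mem_normalizer_iff.1 hn x).1 (hUQ hx)
    rw [hUdef]
    exact ⟨hD.2 x (hUD hx) n (hQS h2), h2⟩
  have hNUle : Subgroup.normalizer (Q : Set G) ≤ Subgroup.normalizer (U : Set G) := fun n hn =>
    Subgroup.mem_normalizer_iff.2 fun x => ⟨hNU n hn x, fun hx => by
      have := hNU n⁻¹ (inv_mem hn) _ hx
      simpa [mul_assoc] using this⟩
  -- the stabilizer of the chain Q ≥ U ≥ 1
  let N := Subgroup.normalizer (Q : Set G)
  let K : Subgroup N :=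
    { carrier := {x | (x : G) ∈ Subgroup.centralizer (U : Set G) ∧ ∀ q ∈ Q, (x : G) * q * (x : G)⁻¹ * q⁻¹ ∈ U}
      one_mem' := ⟨one_mem _, fun q _ => by simp⟩
      mul_mem' := fun {x y} hx hy => ⟨mul_mem hx.1 hy.1, fun q hq => by
        have h1 : (y : G) * q * (y : G)⁻¹ ∈ Q := (Subgroup.mem_normalizer_iff.1 y.2 q).1 hq
        have e1 := mul_mem (hx.2 _ h1) (hy.2 q hq)
        show (x : G) * (y : G) * q * ((x : G) * (y : G))⁻¹ * q⁻¹ ∈ U
        convert e1 using 1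
        group⟩
      inv_mem' := fun {x} hx => ⟨inv_mem hx.1, fun q hq => by
        have h1 : (x : G)⁻¹ * q * (x : G) ∈ Q := by
          simpa using (Subgroup.mem_normalizer_iff.1 (inv_mem x.2) q).1 hq
        have e1 := inv_mem (hx.2 _ h1)
        show (x : G)⁻¹ * q * (x : G)⁻¹⁻¹ * q⁻¹ ∈ U
        convert e1 using 1
        group⟩ }
  haveI hKn : K.Normal := by
    constructor
    intro x hx n
    refine ⟨Subgroup.mem_centralizer_iff.2 fun u hu => ?_, fun q hq => ?_⟩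
    · have h1 : (n : G)⁻¹ * u * (n : G) ∈ U := by simpa using hNU _ (inv_mem n.2) u hu
      have h2 := Subgroup.mem_centralizer_iff.1 hx.1 _ h1
      show u * ((n : G) * (x : G) * (n : G)⁻¹) = (n : G) * (x : G) * (n : G)⁻¹ * u
      calc u * ((n : G) * (x : G) * (n : G)⁻¹) = (n : G) * (((n : G)⁻¹ * u * (n : G)) * (x : G)) * (n : G)⁻¹ := by group
        _ = (n : G) * ((x : G) * ((n : G)⁻¹ * u * (n : G))) * (n : G)⁻¹ := by rw [h2]
        _ = _ := by group
    · have h1 : (n : G)⁻¹ * q * (n : G) ∈ Q := by simpa using (Subgroup.mem_normalizer_iff.1 (inv_mem n.2) q).1 hq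
      have h2 := hNU n n.2 _ (hx.2 _ h1)
      show (n : G) * (x : G) * (n : G)⁻¹ * q * ((n : G) * (x : G) * (n : G)⁻¹)⁻¹ * q⁻¹ ∈ U
      convert h2 using 1
      group
  have hCK : ∀ x : N, (x : G) ∈ Subgroup.centralizer (Q : Set G) → x ∈ K := fun x hx =>
    ⟨Subgroup.centralizer_le hUQ hx, fun q hq => by
      rw [← Subgroup.mem_centralizer_iff.1 hx q hq, mul_inv_cancel_right, mul_inv_cancel]
      exact one_mem U⟩
  have hgK : (⟨g, hgN⟩ : N) ∉ K := fun hh => hgc (fix_of_chain hQp hUQ hgo hh.1 hh.2)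
  -- every Sylow subgroup of K lies in Q
  have hKQ : ∀ x : N, x ∈ K → (∃ k, x ^ p ^ k = 1) → (x : G) ∈ Q := by
    intro x hxK hxp
    by_contra hxQ
    have hzp : IsPGroup p (Subgroup.zpowers (⟨x, hxK⟩ : K)) := by
      obtain ⟨k, hk⟩ := hxp
      rintro ⟨y, m, rfl⟩
      refine ⟨k, Subtype.ext ?_⟩
      show ((⟨x, hxK⟩ : K) ^ m) ^ p ^ k = 1
      rw [← zpow_natCast, ← zpow_mul, mul_comm, zpow_mul, zpow_natCast,
        show (⟨x, hxK⟩ : K) ^ p ^ k = 1 from Subtype.ext hk, one_zpow]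
    obtain ⟨R, hR⟩ := hzp.exists_le_sylow
    set R' := (R : Subgroup K).map K.subtype with hR'
    have htop := Sylow.normalizer_sup_eq_top R
    have hgmem : (⟨g, hgN⟩ : N) ∈ Subgroup.normalizer (R' : Set N) ⊔ K := htop ▸ Subgroup.mem_top _
    rw [Subgroup.mem_sup_of_normal_right] at hgmem
    obtain ⟨n, hn, k, hk, hnk⟩ := hgmem
    set R'' := R'.map N.subtype with hR''
    have hR''N : R'' ≤ N := Subgroup.map_subtype_le _
    have hT : IsPGroup p (Q ⊔ R'' : Subgroup G) :=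
      hQp.to_sup_of_normal_left' ((R.isPGroup'.map _).map _) hR''N
    have hlt : Nat.card Q < Nat.card (Q ⊔ R'' : Subgroup G) := by
      refine lt_of_le_of_ne (Subgroup.card_le_of_le le_sup_left) fun e => hxQ ?_
      have := Subgroup.eq_of_le_of_card_ge (le_sup_left : Q ≤ Q ⊔ R'') e.ge
      rw [this]
      exact Subgroup.mem_sup_right ⟨x, ⟨⟨x, hxK⟩, hR (Subgroup.mem_zpowers _), rfl⟩, rfl⟩
    have hnR : (n : G) ∈ Subgroup.normalizer (R'' : Set G) := Subgroup.le_normalizer_map N.subtype ⟨n, hn, rfl⟩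
    have hnT : (n : G) ∈ Subgroup.normalizer ((Q ⊔ R'' : Subgroup G) : Set G) := by
      have key : ∀ a : G, a ∈ Subgroup.normalizer (Q : Set G) → a ∈ Subgroup.normalizer (R'' : Set G) →
          (Q ⊔ R'' : Subgroup G).map (MulAut.conj a).toMonoidHom ≤ Q ⊔ R'' := fun a ha hb => by
        rw [Subgroup.map_sup]
        refine sup_le_sup ?_ ?_
        · rintro _ ⟨x, hx, rfl⟩; exact (Subgroup.mem_normalizer_iff.1 ha x).1 hx
        · rintro _ ⟨x, hx, rfl⟩; exact (Subgroup.mem_normalizer_iff.1 hb x).1 hx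
      refine Subgroup.mem_normalizer_iff.2 fun x => ⟨fun hx => key _ n.2 hnR ⟨x, hx, rfl⟩, fun hx => ?_⟩
      have h9 := key _ (inv_mem n.2) (inv_mem hnR) ⟨_, hx, rfl⟩
      simpa [mul_assoc] using h9
    obtain ⟨f, hf⟩ : ∃ f, f = ordProj[p] (orderOf (n : G)) := ⟨_, rfl⟩
    have hcent : (n : G) ^ f ∈ Subgroup.centralizer (Q : Set G) := by
      refine Subgroup.centralizer_le (le_sup_left : Q ≤ Q ⊔ R'') ?_
      by_contra hh
      exact absurd (hmax _ ⟨hT, _, pow_mem hnT f, by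
        rw [hf, orderOf_pow_of_dvd (Nat.ordProj_pos _ _).ne' (Nat.ordProj_dvd _ _)]
        exact (Nat.coprime_ordCompl (Fact.out : p.Prime) (orderOf_pos _).ne').symm, hh⟩) (not_le.2 hlt)
    have hnK : n ^ f ∈ K := hCK _ (by simpa using hcent)
    have hgK' : (⟨g, hgN⟩ : N) ^ f ∈ K := by
      rw [← QuotientGroup.eq_one_iff] at hnK ⊢
      rw [← hnk, QuotientGroup.mk_pow, QuotientGroup.mk_mul, (QuotientGroup.eq_one_iff k).2 hk, mul_one,
        ← QuotientGroup.mk_pow, hnK]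
    have hcop : (orderOf (⟨g, hgN⟩ : N)).Coprime f := by
      rw [Subgroup.orderOf_mk, hf]; exact hgo.pow_right _
    obtain ⟨m, hm⟩ := exists_pow_eq_self_of_coprime hcop.symm
    exact hgK (hm ▸ pow_mem hgK' m)
  -- U contains its centralizer in D
  have hCU : D ⊓ Subgroup.centralizer (U : Set G) ≤ U := by
    intro y hy
    by_contra hyU
    set Y := D ⊓ Subgroup.centralizer (U : Set G) with hY
    have hQY : Q ≤ Subgroup.normalizer (Y : Set G) := by
      intro q hq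
      rw [hY]
      refine Subgroup.mem_normalizer_iff.2 fun z => ⟨fun hz => ⟨hDS q (hQS hq) z hz.1, ?_⟩, fun hz => ⟨?_, ?_⟩⟩
      · refine Subgroup.mem_centralizer_iff.2 fun u hu => ?_
        have h1 : q⁻¹ * u * q ∈ U := by simpa using hNU _ (inv_mem (Subgroup.le_normalizer hq)) u hu
        have h2 := Subgroup.mem_centralizer_iff.1 hz.2 _ h1
        calc u * (q * z * q⁻¹) = q * ((q⁻¹ * u * q) * z) * q⁻¹ := by group
          _ = q * (z * (q⁻¹ * u * q)) * q⁻¹ := by rw [h2]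
          _ = _ := by group
      · simpa [mul_assoc] using hDS q⁻¹ (inv_mem (hQS hq)) _ hz.1
      · refine Subgroup.mem_centralizer_iff.2 fun u hu => ?_
        have h1 : q * u * q⁻¹ ∈ U := hNU _ (Subgroup.le_normalizer hq) u hu
        have h2 := Subgroup.mem_centralizer_iff.1 hz.2 _ h1
        calc u * z = q⁻¹ * ((q * u * q⁻¹) * (q * z * q⁻¹)) * q := by group
          _ = q⁻¹ * ((q * z * q⁻¹) * (q * u * q⁻¹)) * q := by rw [h2]
          _ = z * u := by group
    set T := Q ⊔ Y with hTdef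
    have hTS : T ≤ (S : Subgroup G) := sup_le hQS (inf_le_left.trans hD.1)
    haveI : Group.IsNilpotent T := (S.isPGroup'.to_le hTS).isNilpotent
    have hlt : Q.subgroupOf T < ⊤ := lt_top_iff_ne_top.2 fun e => hyU (by
      have h2 : (⟨y, Subgroup.mem_sup_right hy⟩ : T) ∈ Q.subgroupOf T := e ▸ Subgroup.mem_top _
      rw [hUdef]; exact ⟨hy.1, h2⟩)
    obtain ⟨t, ht, htQ⟩ := SetLike.exists_of_lt (Group.normalizerCondition_of_isNilpotent _ hlt)
    have htN : (t : G) ∈ Subgroup.normalizer (Q : Set G) := by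
      have := Subgroup.le_normalizer_map T.subtype ⟨t, ht, rfl⟩
      rwa [Subgroup.subgroupOf_map_subtype, inf_eq_left.2 (le_sup_left : Q ≤ T)] at this
    have ht2 : (t : G) ∈ ((Q ⊔ Y : Subgroup G) : Set G) := t.2
    rw [Subgroup.coe_mul_of_left_le_normalizer_right Q Y hQY] at ht2
    obtain ⟨q, hq, z, hz, hqz⟩ := Set.mem_mul.1 ht2
    apply htQ
    show (t : G) ∈ Q
    rw [← hqz]
    refine mul_mem hq ?_
    have hzN : z ∈ Subgroup.normalizer (Q : Set G) := by
      have e1 : z = q⁻¹ * (t : G) := by rw [← hqz]; group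
      rw [e1]; exact mul_mem (inv_mem (Subgroup.le_normalizer hq)) htN
    obtain ⟨k, hk⟩ := S.isPGroup' ⟨z, hD.1 hz.1⟩
    refine hKQ ⟨z, hzN⟩ ⟨hz.2, fun r hr => ?_⟩ ⟨k, Subtype.ext (congrArg Subtype.val hk : z ^ p ^ k = 1)⟩
    have h1 : z * r * z⁻¹ * r⁻¹ ∈ Q := mul_mem ((Subgroup.mem_normalizer_iff.1 hzN r).1 hr) (inv_mem hr)
    have h2 : z * r * z⁻¹ * r⁻¹ ∈ D := by
      have := mul_mem hz.1 (hDS r (hQS hr) _ (inv_mem hz.1))
      simpa [mul_assoc] using this
    rw [hUdef]; exact ⟨h2, h1⟩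
  -- conclusion
  have hH := h U hUD hCU
  obtain ⟨H, hHdef⟩ : ∃ H, H = Subgroup.normalizer (U : Set G) := ⟨_, rfl⟩
  rw [← hHdef] at hH hNUle
  have hQH : Q ≤ H := Subgroup.le_normalizer.trans hNUle
  obtain ⟨P1, hP1⟩ := (hQp.of_equiv (Subgroup.subgroupOfEquivOfLe hQH).symm).exists_le_sylow
  have hgH : g ∈ H := hNUle hgN
  have h3 := (Cfsg.Lib.Transfer.frobenius_iff P1).1 hH (Q.subgroupOf H) hP1 ⟨g, hgH⟩
    (Subgroup.mem_normalizer_iff.2 fun x => by
      simpa [Subgroup.mem_subgroupOf] using Subgroup.mem_normalizer_iff.1 hgN x)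
    (by rwa [Subgroup.orderOf_mk])
  exact hgc (Subgroup.mem_centralizer_iff.2 fun q hq =>
    congrArg Subtype.val (Subgroup.mem_centralizer_iff.1 h3 ⟨q, hQH hq⟩ hq))

end Cfsg.Agent.S3839
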