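import Cfsg.Statements.S4001
import Mathlib
import Cfsg.Agent.Lib.Solv.Frobenius
import Cfsg.Agent.Lib.Solv.FrobeniusComplement
import Cfsg.Agent.Lib.Solv.ThompsonKernel

set_option autoImplicit false
open Cfsg
open scoped Pointwise commutatorElement

namespace Cfsg.Agent.S4001

open Subgroup

variable {G : Type*} [Group G] [Finite G]

/-- Thompson's theorem in subgroup form. -/
theorem nilpotent_of_fpf (A : Subgroup G) {c : G} {r : ℕ} (hr : r.Prime) (hc : orderOf c = r)
    (hN : ∀ a ∈ A, c * a * c⁻¹ ∈ A) (hfpf : A ⊓ centralizer ({c} : Set G) = ⊥) :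
    Group.IsNilpotent A := by
  let f : A →* A :=
    { toFun := fun a => ⟨c * a * c⁻¹, hN a a.2⟩
      map_one' := Subtype.ext (by simp)
      map_mul' := fun a b => Subtype.ext (by simp [mul_assoc]) }
  have hf : Function.Bijective f := Finite.injective_iff_bijective.1 fun a b h => Subtype.ext
    (by simpa [f] using congrArg Subtype.val h)
  let φ : A ≃* A := MulEquiv.ofBijective f hf
  have hφ : ∀ (i : ℕ) (a : A), ((φ^[i]) a : G) = c ^ i * a * (c ^ i)⁻¹ := by
    intro i
    induction i with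
    | zero => simp
    | succ i ih =>
      intro a
      rw [Function.iterate_succ_apply']
      change c * ((φ^[i]) a : G) * c⁻¹ = _
      rw [ih a, pow_succ']
      group
  refine Cfsg.Lib.Solv.ThompsonKernel.fpf_isNilpotent (φ := φ) (r := r) ⟨hr, fun a ha => ?_, fun a => ?_⟩
  · have h : c * (a : G) * c⁻¹ = a := congrArg Subtype.val ha
    have hm : (a : G) ∈ A ⊓ centralizer ({c} : Set G) :=
      ⟨a.2, mem_centralizer_singleton_iff.2 (mul_inv_eq_iff_eq_mul.1 h).symm⟩
    rw [hfpf, mem_bot] at hm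
    exact Subtype.ext hm
  · exact Subtype.ext (by rw [hφ, ← hc, pow_orderOf_eq_one]; simp)

theorem exists_order_prime {A : Subgroup G} (hA : A ≠ ⊥) :
    ∃ (r : ℕ) (a : G), r.Prime ∧ a ∈ A ∧ orderOf a = r ∧ a ≠ 1 := by
  have : Nontrivial A := (nontrivial_iff_ne_bot A).2 hA
  obtain ⟨r, hr, hrd⟩ := Nat.exists_prime_and_dvd (Finite.one_lt_card (α := A)).ne'
  have := Fact.mk hr
  obtain ⟨a, ha⟩ := exists_prime_orderOf_dvd_card' r hrd
  exact ⟨r, a, hr, a.2, (orderOf_coe a).trans ha, fun e => hr.ne_one (by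
    rw [← ha, ← orderOf_coe, e, orderOf_one])⟩

theorem isCyclic_exists_order {A : Subgroup G} (hA : IsCyclic A) {n : ℕ} (hn : n ∣ Nat.card A) :
    ∃ a ∈ A, orderOf a = n := by
  obtain ⟨a, ha⟩ := hA.exists_generator
  have hcard : orderOf (a : G) = Nat.card A := by
    rw [orderOf_coe]; exact orderOf_eq_card_of_forall_mem_zpowers ha
  obtain ⟨m, hm⟩ := hn
  have hn0 : n ≠ 0 := by rintro rfl; simp at hm; exact Nat.card_pos.ne' hm
  refine ⟨(a : G) ^ m, pow_mem a.2 m, ?_⟩
  have hm0 : m ≠ 0 := by rintro rfl; simp at hm; exact Nat.card_pos.ne' hm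
  rw [orderOf_pow_of_dvd hm0 (hcard ▸ hm ▸ dvd_mul_left m n), hcard, hm,
    Nat.mul_div_cancel _ (Nat.pos_of_ne_zero hm0)]

theorem exists_mul_order {x y : G} {p q : ℕ} (hp : p.Prime) (hq : q.Prime) (hne : p ≠ q)
    (hx : orderOf x = p) (hy : orderOf y = q) (hc : Commute x y) : ∃ g : G, orderOf g = p * q :=
  ⟨x * y, by rw [hc.orderOf_mul_eq_mul_orderOf_of_coprime
    (by rw [hx, hy]; exact (Nat.coprime_primes hp hq).2 hne), hx, hy]⟩

/-- The abelian normal `p`-subgroup inside a normal nilpotent subgroup. -/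
theorem exists_abelian_p (H : Subgroup G) [H.Normal] [hH : Group.IsNilpotent H] {p : ℕ}
    [Fact p.Prime] (hp : p ∣ Nat.card H) :
    ∃ V : Subgroup G, V.Normal ∧ V ≤ H ∧ V ≠ ⊥ ∧ IsMulCommutative V ∧ IsPGroup p V := by
  obtain ⟨P⟩ := (inferInstance : Nonempty (Sylow p H))
  have hPn : (P : Subgroup H).Normal := Cfsg.Lib.Solv.normal_sylow_of_nilpotent P
  have hPc : (P : Subgroup H).Characteristic := P.characteristic_of_normal hPn
  set P' : Subgroup G := (P : Subgroup H).map H.subtype with hP'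
  have hP'n : P'.Normal := ConjAct.normal_of_characteristic_of_normal
  refine ⟨P' ⊓ centralizer (P' : Set G), inferInstance, inf_le_left.trans (map_subtype_le _), ?_,
    ⟨⟨fun a b => Subtype.ext (mem_centralizer_iff.1 b.2.2 a a.2.1)⟩⟩,
    (P.isPGroup'.map _).to_le inf_le_left⟩
  have hPne : (P : Subgroup H) ≠ ⊥ := P.ne_bot_of_dvd_card hp
  have : Nontrivial P' :=
    (nontrivial_iff_ne_bot P').2 fun h => hPne ((map_eq_bot_iff_of_injective _ H.subtype_injective).1 h)
  have hPp : IsPGroup p P' := P.isPGroup'.map _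
  have := hPp.center_nontrivial
  obtain ⟨z, hz1⟩ := exists_ne (1 : center P')
  intro h
  have hm : ((z : P') : G) ∈ P' ⊓ centralizer (P' : Set G) := ⟨(z : P').2,
    mem_centralizer_iff.2 fun a ha =>
      congrArg Subtype.val (mem_center_iff.1 z.2 ⟨a, ha⟩)⟩
  rw [h, mem_bot] at hm
  exact hz1 (Subtype.ext (Subtype.ext hm))



/-- Let G be a 2-Frobenius group: it has normal subgroups H < K with K a Frobenius group with kernel H and G/H a Frobenius group with kernel K/H. Then G is solvable; K/H has odd order coprime to the order of H and to the order of G/K (it is the image of an odd-order Hall subgroup); G/K is cyclic; and the prime graph of G has exactly two connected components, both complete: for distinct primes p, q dividing the order of G, G has an element of order pq exactly when p and q either both divide the order of K/H or both do not. -/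
theorem result {G : Type*} [Group G] [Finite G] (H K : Subgroup G) [H.Normal] [K.Normal] (hlt : H < K)
    (hK : ∃ C : Subgroup ↥K, Cfsg.IsFrobeniusComplement C ∧ Cfsg.frobeniusKernel C = (H.subgroupOf K : Set ↥K))
    (hGH : ∃ C : Subgroup (G ⧸ H), Cfsg.IsFrobeniusComplement C ∧ Cfsg.frobeniusKernel C = (K.map (QuotientGroup.mk' H) : Set (G ⧸ H))) :
    Group.IsSolvable G ∧ Odd (Nat.card (↥K ⧸ H.subgroupOf K)) ∧
      Nat.Coprime (Nat.card (↥K ⧸ H.subgroupOf K)) (Nat.card ↥H * Nat.card (G ⧸ K)) ∧ IsCyclic (G ⧸ K) ∧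
      ∀ p q : ℕ, p.Prime → q.Prime → p ≠ q → p ∣ Nat.card G → q ∣ Nat.card G →
        ((∃ g : G, orderOf g = p * q) ↔ (p ∣ Nat.card (↥K ⧸ H.subgroupOf K) ↔ q ∣ Nat.card (↥K ⧸ H.subgroupOf K))) := by
  obtain ⟨C', hC', hC'k⟩ := hK
  obtain ⟨Cb, hCb, hCbk⟩ := hGH
  set f := QuotientGroup.mk' H with hf
  have hfker : ∀ g : G, f g = 1 ↔ g ∈ H := fun g => QuotientGroup.eq_one_iff g
  have hKc : IsComplement' (H.subgroupOf K) C' := by
    obtain ⟨L, -, hL, hLc⟩ := Cfsg.Lib.Solv.exists_frobeniusKernel hC'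
    rwa [show H.subgroupOf K = L from SetLike.ext' (hC'k.symm.trans hL.symm)]
  have hKbn : (K.map f).Normal := Normal.map inferInstance f (QuotientGroup.mk'_surjective H)
  have hQc : IsComplement' (K.map f) Cb := by
    obtain ⟨L, -, hL, hLc⟩ := Cfsg.Lib.Solv.exists_frobeniusKernel hCb
    rwa [show K.map f = L from SetLike.ext' (hCbk.symm.trans hL.symm)]
  -- the complement `D` of `H` in `K`
  set D : Subgroup G := C'.map K.subtype with hD
  have hDK : D ≤ K := map_subtype_le _
  have hsplit : ∀ k ∈ K, ∃ h ∈ H, ∃ d ∈ D, k = h * d := by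
    intro k hk
    obtain ⟨a, ha, b, hb, hab⟩ :=
      mem_sup_of_normal_left.1 (hKc.sup_eq_top.ge (mem_top (⟨k, hk⟩ : K)))
    exact ⟨a, ha, b, mem_map_of_mem _ hb, (congrArg Subtype.val hab).symm⟩
  have hfpfD : ∀ d ∈ D, d ≠ 1 → H ⊓ centralizer ({d} : Set G) = ⊥ := by
    rintro _ ⟨d, hd, rfl⟩ hd1
    rw [eq_bot_iff]
    rintro h ⟨hhH, hhc⟩
    have hcm : Commute (⟨h, hlt.le hhH⟩ : K) d := Subtype.ext (mem_centralizer_singleton_iff.1 hhc)
    have := Cfsg.Lib.Solv.frob_mem_of_commute hC' hd (fun e => hd1 (by rw [e]; rfl)) hcm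
    have hbot : (⟨h, hlt.le hhH⟩ : K) ∈ H.subgroupOf K ⊓ C' := ⟨hhH, this⟩
    rw [hKc.disjoint.eq_bot, mem_bot] at hbot
    exact mem_bot.2 (congrArg Subtype.val hbot)
  have hDH : ∀ d ∈ D, d ∈ H → d = 1 := by
    rintro _ ⟨d, hd, rfl⟩ hdH
    have hbot : d ∈ H.subgroupOf K ⊓ C' := ⟨hdH, hd⟩
    rw [hKc.disjoint.eq_bot, mem_bot] at hbot
    rw [hbot]; rfl
  have hDne : D ≠ ⊥ := fun h => hC'.1 ((map_eq_bot_iff_of_injective _ K.subtype_injective).1 h)
  have hHne : H ≠ ⊥ := fun h => hC'.2.1 (by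
    have := hKc.sup_eq_top
    rwa [show H.subgroupOf K = ⊥ by rw [h]; simp, bot_sup_eq] at this)
  have hcardD : Nat.card D = Nat.card C' :=
    (Nat.card_congr (C'.equivMapOfInjective K.subtype K.subtype_injective).toEquiv).symm
  -- Frattini argument
  set N := normalizer (D : Set G) with hN
  have hDN : D ≤ N := le_normalizer
  have hfrat : ∀ g : G, ∃ h ∈ H, ∃ n ∈ N, g = h * n := by
    intro g
    have hle : D.map (MulAut.conj g).toMonoidHom ≤ K := by
      rintro _ ⟨d, hd, rfl⟩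
      exact (inferInstance : K.Normal).conj_mem d (hDK hd) g
    obtain ⟨x, hx⟩ := Cfsg.Lib.Solv.frob_le_conj hC' ((D.map (MulAut.conj g).toMonoidHom).subgroupOf K)
      (by rw [Nat.card_congr (subgroupOfEquivOfLe hle).toEquiv,
            ← Nat.card_congr (D.equivMapOfInjective _ (MulAut.conj g).injective).toEquiv, hcardD])
    have hn : (x : G)⁻¹ * g ∈ N := by
      have key : D.map (MulAut.conj ((x : G)⁻¹ * g)).toMonoidHom = D := by
        refine eq_of_le_of_card_ge ?_
          (Nat.card_congr (D.equivMapOfInjective _ (MulAut.conj _).injective).toEquiv).le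
        rintro _ ⟨d, hd, rfl⟩
        have h1 := hx (x := ⟨g * d * g⁻¹, hle ⟨d, hd, rfl⟩⟩) (mem_subgroupOf.2 ⟨d, hd, rfl⟩)
        rw [mem_pointwise_smul_iff_inv_smul_mem] at h1
        refine ⟨_, h1, ?_⟩
        simp [MulAut.smul_def, mul_assoc]
      rw [hN, mem_normalizer_iff]
      intro d
      constructor
      · intro hd; exact key.le ⟨d, hd, rfl⟩
      · intro hd
        obtain ⟨d', hd', he⟩ := key.ge hd
        simp only [MulEquiv.coe_toMonoidHom, MulAut.conj_apply, mul_left_inj, mul_right_inj] at he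
        rwa [← he]
    obtain ⟨h, hh, d, hd, hxe⟩ := hsplit x x.2
    exact ⟨h, hh, d * ((x : G)⁻¹ * g), mul_mem (hDN hd) hn, by
      rw [← mul_assoc h d, ← hxe]; group⟩
  have hNH : ∀ n ∈ N, n ∈ H → n = 1 := by
    intro n hn hnH
    obtain ⟨r, d, hr, hd, hdo, hd1⟩ := exists_order_prime hDne
    have hcomm : n * d * n⁻¹ * d⁻¹ = 1 := hDH _
      (D.mul_mem ((mem_normalizer_iff.1 hn d).1 hd) (D.inv_mem hd))
      (by
        rw [show n * d * n⁻¹ * d⁻¹ = n * (d * n⁻¹ * d⁻¹) by group]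
        exact H.mul_mem hnH ((inferInstance : H.Normal).conj_mem _ (H.inv_mem hnH) d))
    have hm : n ∈ H ⊓ centralizer ({d} : Set G) := ⟨hnH, mem_centralizer_singleton_iff.2
      (mul_inv_eq_iff_eq_mul.1 (mul_inv_eq_one.1 hcomm))⟩
    rwa [hfpfD d hd hd1, mem_bot] at hm
  -- the complement `C`
  set C : Subgroup G := Cb.comap f ⊓ N with hC
  have hCK : ∀ c ∈ C, c ∈ K → c = 1 := fun c hc hcK => hNH c hc.2 ((hfker c).1 (by
    have : f c ∈ K.map f ⊓ Cb := ⟨mem_map_of_mem f hcK, hc.1⟩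
    rwa [hQc.disjoint.eq_bot, mem_bot] at this))
  have hlift : ∀ cb ∈ Cb, ∃ c ∈ C, f c = cb := by
    intro cb hcb
    obtain ⟨g, rfl⟩ := QuotientGroup.mk'_surjective H cb
    obtain ⟨h, hh, n, hn, rfl⟩ := hfrat g
    have hfn : f (h * n) = f n := by rw [map_mul, (hfker h).2 hh, one_mul]
    exact ⟨n, ⟨show f n ∈ Cb by rw [← hfn]; exact hcb, hn⟩, hfn.symm⟩
  have hdecomp : ∀ g : G, ∃ k ∈ K, ∃ c ∈ C, g = k * c := by
    intro g
    obtain ⟨kb, hkb, cb, hcb, he⟩ := mem_sup_of_normal_left.1 (hQc.sup_eq_top.ge (mem_top (f g)))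
    obtain ⟨k, hk, rfl⟩ := hkb
    obtain ⟨c, hc, rfl⟩ := hlift cb hcb
    refine ⟨g * c⁻¹, ?_, c, hc, by group⟩
    have h1 : f (g * c⁻¹ * k⁻¹) = 1 := by rw [map_mul, map_mul, ← he, map_inv, map_inv]; group
    have h2 := K.mul_mem (hlt.le ((hfker _).1 h1)) hk
    simpa [mul_assoc] using h2
  have hfpfC : ∀ c ∈ C, c ≠ 1 → D ⊓ centralizer ({c} : Set G) = ⊥ := by
    intro c hc hc1
    rw [eq_bot_iff]
    rintro d ⟨hd, hdc⟩
    have hfc : f c ≠ 1 := fun e => hc1 (hCK c hc (hlt.le ((hfker c).1 e)))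
    have hcm : Commute d c := mem_centralizer_singleton_iff.1 hdc
    have h1 := Cfsg.Lib.Solv.frob_mem_of_commute hCb hc.1 hfc (hcm.map f)
    have hbot : f d ∈ K.map f ⊓ Cb := ⟨mem_map_of_mem f (hDK hd), h1⟩
    rw [hQc.disjoint.eq_bot, mem_bot, hfker] at hbot
    exact mem_bot.2 (hDH d hd hbot)
  have hCne : C ≠ ⊥ := by
    intro h
    refine hCb.1 ((eq_bot_iff_forall _).2 fun cb hcb => ?_)
    obtain ⟨c, hc, rfl⟩ := hlift cb hcb
    rw [h, mem_bot] at hc
    rw [hc, map_one]
  -- `H` nilpotent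
  haveI hHnil : Group.IsNilpotent H := by
    obtain ⟨r, d, hr, hd, hdo, hd1⟩ := exists_order_prime hDne
    exact nilpotent_of_fpf H hr hdo (fun a ha => (inferInstance : H.Normal).conj_mem a ha d)
      (hfpfD d hd hd1)
  obtain ⟨r, c0, hr, hc0, hc0o, hc01⟩ := exists_order_prime hCne
  have hCD : ∀ c ∈ C, ∀ d ∈ D, c * d * c⁻¹ ∈ D := fun c hc d hd => (mem_normalizer_iff.1 hc.2 d).1 hd
  haveI hDnil : Group.IsNilpotent D :=
    nilpotent_of_fpf D hr hc0o (hCD c0 hc0) (hfpfC c0 hc0 hc01)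
  have hDodd : ¬ 2 ∣ Nat.card D := by
    intro h2
    obtain ⟨⟨s, hs, hso, hsu, -⟩, -⟩ := Cfsg.Lib.Solv.even_complement H D hfpfD hHne h2
    have he : c0 * s * c0⁻¹ = s := hsu _ (hCD c0 hc0 s hs) ((MulAut.conj c0).orderOf_eq s ▸ hso)
    have hm : s ∈ D ⊓ centralizer ({c0} : Set G) :=
      ⟨hs, mem_centralizer_singleton_iff.2 (mul_inv_eq_iff_eq_mul.1 he).symm⟩
    rw [hfpfC c0 hc0 hc01, mem_bot] at hm
    rw [hm, orderOf_one] at hso
    exact absurd hso (by norm_num)
  haveI hDcyc : IsCyclic D := by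
    have : Nontrivial H := (nontrivial_iff_ne_bot H).2 hHne
    obtain ⟨p, hp, hpH⟩ := Nat.exists_prime_and_dvd (Finite.one_lt_card (α := H)).ne'
    have := Fact.mk hp
    obtain ⟨V, hVn, hVH, hVne, hVc, -⟩ := exists_abelian_p H hpH
    have hZ : IsZGroup D := by
      rw [isZGroup_iff]
      intro q hq Q
      have := Fact.mk hq
      rcases Cfsg.Lib.ZStar.isCyclic_or_inverted Q.2 (fun x y =>
          Cfsg.Lib.Solv.FrobCompl.mem_zpowers_of_pgroup hVne
            (le_trans le_top (normalizer_eq_top (H := V)).ge)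
            (fun d hd hd1 => le_bot_iff.1 ((inf_le_inf_right _ hVH).trans (hfpfD d hd hd1).le))
            _ Q.2) with h | ⟨rfl, a, -, ha, -⟩
      · exact h
      · exfalso
        obtain ⟨j, hj⟩ := Q.2.exists_orderOf_eq_pow a
        have hj0 : j ≠ 0 := by rintro rfl; rw [hj] at ha; norm_num at ha
        refine hDodd (((dvd_pow_self 2 hj0).trans ?_).trans (card_subgroup_dvd_card (Q : Subgroup D)))
        rw [← hj]
        exact orderOf_dvd_natCard a
    infer_instance
  haveI hDab : IsMulCommutative D := IsCyclic.isMulCommutative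
  have hCcyc : IsCyclic C := by
    refine Cfsg.Lib.Solv.fpf_isCyclic C D hDne inf_le_right hfpfC (Or.inl ⟨⟨fun c c' => ?_⟩⟩)
    obtain ⟨a, ha⟩ := hDcyc.exists_generator
    have hact : ∀ x : C, ∃ i : ℤ, ∀ j : ℤ, (x : G) * (a : G) ^ j * (x : G)⁻¹ = (a : G) ^ (i * j) := by
      intro x
      obtain ⟨i, hi⟩ := ha ⟨_, hCD x x.2 a a.2⟩
      have hi' : (a : G) ^ i = (x : G) * a * (x : G)⁻¹ := by simpa using congrArg Subtype.val hi
      exact ⟨i, fun j => by rw [zpow_mul, hi', conj_zpow]⟩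
    obtain ⟨i, hi⟩ := hact c
    obtain ⟨i', hi'⟩ := hact c'
    set w : G := ((c' * c : C) : G)⁻¹ * (c * c' : C) with hw
    have hwa : w * a * w⁻¹ = a := by
      have e1 : ((c * c' : C) : G) * a * ((c * c' : C) : G)⁻¹ = (a : G) ^ (i * i') := by
        have := hi' 1
        rw [zpow_one, mul_one] at this
        rw [← hi i', ← this]; simp [mul_assoc]
      have e2 : ((c' * c : C) : G) * a * ((c' * c : C) : G)⁻¹ = (a : G) ^ (i' * i) := by
        have := hi 1
        rw [zpow_one, mul_one] at this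
        rw [← hi' i, ← this]; simp [mul_assoc]
      calc w * a * w⁻¹ = ((c' * c : C) : G)⁻¹ *
            (((c * c' : C) : G) * a * ((c * c' : C) : G)⁻¹) * ((c' * c : C) : G) := by rw [hw]; group
        _ = a := by rw [e1, mul_comm i i', ← e2]; group
    by_contra hne
    have hw1 : w ≠ 1 := fun e => hne (Subtype.ext (inv_mul_eq_one.1 e).symm)
    have hm : (a : G) ∈ D ⊓ centralizer ({w} : Set G) :=
      ⟨a.2, mem_centralizer_singleton_iff.2 (mul_inv_eq_iff_eq_mul.1 hwa).symm⟩
    rw [hfpfC w (C.mul_mem (C.inv_mem (c' * c).2) (c * c').2) hw1, mem_bot] at hm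
    refine hDne ((eq_bot_iff_forall _).2 fun x hx => ?_)
    obtain ⟨j, hj⟩ := ha ⟨x, hx⟩
    have hj' : (a : G) ^ j = x := by simpa using congrArg Subtype.val hj
    rw [← hj', hm, one_zpow]
  -- cardinalities
  have hidx : Nat.card (↥K ⧸ H.subgroupOf K) = Nat.card D := by
    rw [hcardD, ← hKc.symm.index_eq_card]; rfl
  let φ : C →* G ⧸ K := (QuotientGroup.mk' K).comp C.subtype
  have hφ : Function.Bijective φ := by
    refine ⟨(injective_iff_map_eq_one φ).2 fun c hc => Subtype.ext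
      (hCK c c.2 ((QuotientGroup.eq_one_iff (c : G)).1 hc)), fun q => ?_⟩
    obtain ⟨g, rfl⟩ := QuotientGroup.mk'_surjective K q
    obtain ⟨k, hk, c, hc, rfl⟩ := hdecomp g
    refine ⟨⟨c, hc⟩, ?_⟩
    change QuotientGroup.mk' K c = _
    rw [map_mul, show QuotientGroup.mk' K k = 1 from (QuotientGroup.eq_one_iff k).2 hk, one_mul]
  have hGKcyc : IsCyclic (G ⧸ K) := isCyclic_of_surjective φ hφ.2
  have hGKcard : Nat.card (G ⧸ K) = Nat.card C := (Nat.card_eq_of_bijective φ hφ).symm
  have hcop1 : (Nat.card D).Coprime (Nat.card H) := by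
    have := Cfsg.Lib.Solv.frob_coprime_index hC'
    rwa [hKc.index_eq_card, ← hcardD, Nat.card_congr (subgroupOfEquivOfLe hlt.le).toEquiv] at this
  have hcardCb : Nat.card C = Nat.card Cb := by
    refine Nat.card_eq_of_bijective (fun c : C => (⟨f c, c.2.1⟩ : Cb)) ⟨fun a b hab => ?_, fun cb => ?_⟩
    · refine Subtype.ext (inv_mul_eq_one.1 (hCK _ (C.mul_mem (C.inv_mem a.2) b.2) (hlt.le ((hfker _).1 ?_))))
      rw [map_mul, map_inv, inv_mul_eq_one]
      exact congrArg Subtype.val hab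
    · obtain ⟨c, hc, he⟩ := hlift cb cb.2
      exact ⟨⟨c, hc⟩, Subtype.ext he⟩
  have hcardKb : Nat.card D = Nat.card (K.map f) := by
    refine Nat.card_eq_of_bijective (fun d : D => (⟨f d, mem_map_of_mem f (hDK d.2)⟩ : K.map f))
      ⟨fun a b hab => ?_, fun kb => ?_⟩
    · refine Subtype.ext (inv_mul_eq_one.1 (hDH _ (D.mul_mem (D.inv_mem a.2) b.2) ((hfker _).1 ?_)))
      rw [map_mul, map_inv, inv_mul_eq_one]
      exact congrArg Subtype.val hab
    · obtain ⟨k, hk, he⟩ := kb.2
      obtain ⟨h, hh, d, hd, rfl⟩ := hsplit k hk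
      refine ⟨⟨d, hd⟩, Subtype.ext ?_⟩
      change f d = (kb : G ⧸ H)
      rw [← he, map_mul, (hfker h).2 hh, one_mul]
  have hcop2 : (Nat.card D).Coprime (Nat.card C) := by
    have := Cfsg.Lib.Solv.frob_coprime_index hCb
    rw [hQc.index_eq_card, ← hcardKb, ← hcardCb] at this
    exact this.symm
  have hcop : (Nat.card D).Coprime (Nat.card H * Nat.card C) := hcop1.mul_right hcop2
  have hcardG : Nat.card G = Nat.card D * (Nat.card H * Nat.card C) := by
    rw [← card_mul_index K, index_eq_card, hGKcard, ← card_mul_index (H.subgroupOf K),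
      index_eq_card (H := H.subgroupOf K), hidx, Nat.card_congr (subgroupOfEquivOfLe hlt.le).toEquiv]
    ring
  have hsolv : Group.IsSolvable G := by
    have hKs : Group.IsSolvable K := by
      haveI : IsCyclic (↥K ⧸ H.subgroupOf K) := by
        refine isCyclic_of_surjective ((QuotientGroup.mk' (H.subgroupOf K)).comp
          ((inclusion hDK) : D →* K)) fun q => ?_
        obtain ⟨k, rfl⟩ := QuotientGroup.mk'_surjective _ q
        obtain ⟨h, hh, d, hd, he⟩ := hsplit k k.2
        refine ⟨⟨d, hd⟩, ?_⟩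
        have : (k : K) = ⟨h, hlt.le hh⟩ * inclusion hDK ⟨d, hd⟩ := Subtype.ext he
        rw [this, map_mul, show QuotientGroup.mk' (H.subgroupOf K) ⟨h, hlt.le hh⟩ = 1 from
          (QuotientGroup.eq_one_iff _).2 hh, one_mul]
        rfl
      haveI : Group.IsSolvable H := inferInstance
      haveI : Group.IsSolvable (↥K ⧸ H.subgroupOf K) :=
        Group.isSolvable_of_comm fun a b => (IsCyclic.isMulCommutative (α := ↥K ⧸ H.subgroupOf K)).is_comm.comm a b
      exact Group.isSolvable_of_ker_le_range (inclusion hlt.le) (QuotientGroup.mk' (H.subgroupOf K))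
        (by rw [QuotientGroup.ker_mk']; exact fun x hx => ⟨⟨x, hx⟩, rfl⟩)
    haveI := hKs
    haveI : Group.IsSolvable (G ⧸ K) :=
      Group.isSolvable_of_comm fun a b => hGKcyc.isMulCommutative.is_comm.comm a b
    exact Group.isSolvable_of_ker_le_range K.subtype (QuotientGroup.mk' K)
      (by rw [QuotientGroup.ker_mk']; exact fun x hx => ⟨⟨x, hx⟩, rfl⟩)
  refine ⟨hsolv, ?_, ?_, hGKcyc, ?_⟩
  · rw [hidx, ← Nat.not_even_iff_odd, even_iff_two_dvd]; exact hDodd
  · rw [hidx, hGKcard]; exact hcop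
  intro p q hp hq hpq hpG hqG
  have := Fact.mk hp
  have := Fact.mk hq
  rw [hidx]
  have hsep : ∀ a b : ℕ, a.Prime → b.Prime → a ∣ Nat.card D → ¬ b ∣ Nat.card D →
      ¬ ∃ g : G, orderOf g = a * b := by
    intro a b ha hb haD hbD hex
    obtain ⟨g, hg⟩ := hex
    have hx : orderOf (g ^ b) = a := by
      rw [orderOf_pow_of_dvd hb.ne_zero (hg ▸ dvd_mul_left b a), hg, Nat.mul_div_cancel _ hb.pos]
    have hy : orderOf (g ^ a) = b := by
      rw [orderOf_pow_of_dvd ha.ne_zero (hg ▸ dvd_mul_right a b), hg, Nat.mul_div_cancel_left _ ha.pos]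
    have hxK : g ^ b ∈ K := by
      rw [← QuotientGroup.eq_one_iff (g ^ b), ← orderOf_eq_one_iff]
      have h1 : orderOf ((g ^ b : G) : G ⧸ K) ∣ a := hx ▸ orderOf_map_dvd (QuotientGroup.mk' K) _
      have h2 : orderOf ((g ^ b : G) : G ⧸ K) ∣ Nat.card C := hGKcard ▸ orderOf_dvd_natCard _
      exact Nat.eq_one_of_dvd_coprimes (hcop2.coprime_dvd_left haD) h1 h2
    obtain ⟨k, hk⟩ := Cfsg.Lib.Solv.frob_le_conj hC' (zpowers (⟨g ^ b, hxK⟩ : K))
      (by rw [Nat.card_zpowers, Subgroup.orderOf_mk, hx, ← hcardD]; exact haD)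
    have hk' := hk (mem_zpowers _)
    rw [mem_pointwise_smul_iff_inv_smul_mem] at hk'
    set x : G := (k : G)⁻¹ * g ^ b * k with hxdef
    set y : G := (k : G)⁻¹ * g ^ a * k with hydef
    have hxD : x ∈ D := ⟨_, hk', by simp [hxdef, MulAut.smul_def, mul_assoc]⟩
    have hxo : orderOf x = a := by
      rw [hxdef, ← hx]
      simpa using (MulAut.conj (k : G)⁻¹).orderOf_eq (g ^ b)
    have hyo : orderOf y = b := by
      rw [hydef, ← hy]
      simpa using (MulAut.conj (k : G)⁻¹).orderOf_eq (g ^ a)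
    have hxy : Commute x y := by
      have h := ((Commute.pow_pow (Commute.refl g) b a).map (MulAut.conj (k : G)⁻¹).toMonoidHom)
      simpa [hxdef, hydef] using h
    have hx1 : x ≠ 1 := fun e => ha.ne_one (by rw [← hxo, e, orderOf_one])
    obtain ⟨h, hh, n, hn, hyn⟩ := hfrat y
    have hnx : n * x * n⁻¹ * x⁻¹ = 1 := by
      refine hNH _ (N.mul_mem (N.mul_mem (N.mul_mem hn (hDN hxD)) (N.inv_mem hn))
        (N.inv_mem (hDN hxD))) ((hfker _).1 ?_)
      have h1 : f y = f n := by rw [hyn, map_mul, (hfker h).2 hh, one_mul]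
      rw [map_mul, map_mul, map_mul, map_inv, map_inv, ← h1, ← (hxy.map f).eq]
      group
    have hnx' : n * x = x * n := mul_inv_eq_iff_eq_mul.1 (mul_inv_eq_one.1 hnx)
    have hh1 : h = 1 := by
      have hm : h ∈ H ⊓ centralizer ({x} : Set G) := ⟨hh, mem_centralizer_singleton_iff.2 (by
        have := hxy.eq
        rw [hyn, mul_assoc h n x, hnx', ← mul_assoc, ← mul_assoc] at this
        exact (mul_right_cancel this).symm)⟩
      rwa [hfpfD x hxD hx1, mem_bot] at hm
    rw [hh1, one_mul] at hyn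
    obtain ⟨k', hk'K, c, hc, hnc⟩ := hdecomp n
    obtain ⟨h', hh', d, hd, rfl⟩ := hsplit k' hk'K
    have hh'1 : h' = 1 := hNH h' (by
      have : h' = n * c⁻¹ * d⁻¹ := by rw [hnc]; group
      rw [this]
      exact N.mul_mem (N.mul_mem hn (N.inv_mem hc.2)) (N.inv_mem (hDN hd))) hh'
    rw [hh'1, one_mul] at hnc
    have hdx : d * x = x * d := congrArg Subtype.val (hDab.is_comm.comm (⟨d, hd⟩ : D) ⟨x, hxD⟩)
    have hcx : c * x = x * c := by
      have e : d * c * x = x * (d * c) := by rw [← hnc]; exact hnx'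
      refine mul_left_cancel (a := d) ?_
      calc d * (c * x) = d * c * x := (mul_assoc _ _ _).symm
        _ = x * (d * c) := e
        _ = x * d * c := (mul_assoc _ _ _).symm
        _ = d * x * c := congrArg (· * c) hdx.symm
        _ = d * (x * c) := mul_assoc _ _ _
    rcases eq_or_ne c 1 with hc1 | hc1
    · rw [hc1, mul_one] at hnc
      apply hbD
      rw [← hyo, hyn, hnc]
      exact D.orderOf_dvd_natCard hd
    · have hm : x ∈ D ⊓ centralizer ({c} : Set G) := ⟨hxD, mem_centralizer_singleton_iff.2 hcx.symm⟩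
      rw [hfpfC c hc hc1, mem_bot] at hm
      exact hx1 hm
  have hmix : ∀ a b : ℕ, a.Prime → b.Prime → a ≠ b → a ∣ Nat.card H → b ∣ Nat.card C →
      ∃ g : G, orderOf g = a * b := by
    intro a b ha hb hab haH hbC
    have := Fact.mk ha
    have := Fact.mk hb
    obtain ⟨y', hy'⟩ := exists_prime_orderOf_dvd_card' (G := C) b hbC
    set y : G := y'.1 with hy
    have hyo : orderOf y = b := (orderOf_coe y').trans hy'
    obtain ⟨V, hVn, hVH, hVne, hVc, hVp⟩ := exists_abelian_p H haH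
    by_cases hfix : V ⊓ centralizer ({y} : Set G) = ⊥
    · exfalso
      have hy1 : y ≠ 1 := fun e => hb.ne_one (by rw [← hyo, e, orderOf_one])
      have hpowy : ∀ z ∈ zpowers y, z ≠ 1 → y ∈ zpowers z := by
        intro z hz hz1
        have : zpowers z = zpowers y := eq_of_le_of_card_ge (zpowers_le.2 hz) (by
          rw [Nat.card_zpowers, Nat.card_zpowers, hyo]
          rw [(hb.eq_one_or_self_of_dvd _ (hyo ▸ (orderOf_dvd_of_mem_zpowers hz))).resolve_left
            (fun e => hz1 (orderOf_eq_one_iff.1 e))])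
        rw [this]; exact mem_zpowers y
      set A := D ⊔ zpowers y with hA
      have hYN : zpowers y ≤ N := zpowers_le.2 y'.2.2
      have hsetA : ∀ z ∈ A, ∃ d ∈ D, ∃ w ∈ zpowers y, z = d * w := by
        intro z hz
        have hs : (z : G) ∈ ((D ⊔ zpowers y : Subgroup G) : Set G) := hz
        rw [Subgroup.coe_mul_of_right_le_normalizer_left D (zpowers y) hYN] at hs
        obtain ⟨d, hd, w, hw, rfl⟩ := hs
        exact ⟨d, hd, w, hw, rfl⟩
      have hfixw : ∀ w ∈ zpowers y, w ≠ 1 → V ⊓ centralizer ({w} : Set G) = ⊥ := by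
        intro w hw hw1
        rw [eq_bot_iff, ← hfix]
        refine inf_le_inf_left _ fun v hv => mem_centralizer_singleton_iff.2 ?_
        obtain ⟨i, hi⟩ := hpowy w hw hw1
        have hcm : Commute v w := mem_centralizer_singleton_iff.1 hv
        change v * y = y * v
        rw [← hi]
        exact hcm.zpow_right i
      have hfA : ∀ z ∈ A, z ≠ 1 → V ⊓ centralizer ({z} : Set G) = ⊥ := by
        intro z hz hz1
        obtain ⟨d, hd, w, hw, rfl⟩ := hsetA z hz
        rcases eq_or_ne w 1 with rfl | hw1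
        · rw [mul_one] at hz1 ⊢
          exact le_bot_iff.1 ((inf_le_inf_right _ hVH).trans (hfpfD d hd hz1).le)
        have hwC : w ∈ C := zpowers_le.2 y'.2 hw
        let ψ : D → D := fun u => ⟨(u : G) * (w * (u : G)⁻¹ * w⁻¹),
          D.mul_mem u.2 (hCD w hwC _ (D.inv_mem u.2))⟩
        have hψ : Function.Injective ψ := by
          intro u v huv
          have e : (u : G) * (w * (u : G)⁻¹ * w⁻¹) = (v : G) * (w * (v : G)⁻¹ * w⁻¹) :=
            congrArg Subtype.val huv
          have hm : (v : G)⁻¹ * u ∈ D ⊓ centralizer ({w} : Set G) :=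
            ⟨D.mul_mem (D.inv_mem v.2) u.2, mem_centralizer_singleton_iff.2 (by
              calc (v : G)⁻¹ * u * w = (v : G)⁻¹ * ((u : G) * (w * (u : G)⁻¹ * w⁻¹)) * w * u := by group
                _ = (v : G)⁻¹ * ((v : G) * (w * (v : G)⁻¹ * w⁻¹)) * w * u := by rw [e]
                _ = _ := by group)⟩
          rw [hfpfC w hwC hw1, mem_bot, inv_mul_eq_one] at hm
          exact Subtype.ext hm.symm
        obtain ⟨u, hu⟩ := (Finite.injective_iff_surjective.1 hψ) ⟨d, hd⟩
        have hu' : (u : G) * (w * (u : G)⁻¹ * w⁻¹) = d := congrArg Subtype.val hu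
        rw [eq_bot_iff]
        rintro v ⟨hvV, hvc⟩
        have hvm : (u : G)⁻¹ * v * u ∈ V ⊓ centralizer ({w} : Set G) := by
          refine ⟨by simpa [mul_assoc] using hVn.conj_mem v hvV (u : G)⁻¹,
            mem_centralizer_singleton_iff.2 ?_⟩
          have h0 := mem_centralizer_singleton_iff.1 hvc
          calc (u : G)⁻¹ * v * u * w = (u : G)⁻¹ * (v * (d * w)) * u := by rw [← hu']; group
            _ = (u : G)⁻¹ * ((d * w) * v) * u := by rw [h0]
            _ = _ := by rw [← hu']; group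
        rw [hfixw w hw hw1, mem_bot] at hvm
        rw [mem_bot]
        calc v = (u : G) * ((u : G)⁻¹ * v * u) * (u : G)⁻¹ := by group
          _ = 1 := by rw [hvm]; group
      have hAN : A ≤ normalizer (V : Set G) := by rw [normalizer_eq_top]; exact le_top
      haveI hDA : (D.subgroupOf A).Normal :=
        (normal_subgroupOf_iff_le_normalizer (le_sup_left : D ≤ A)).2 (sup_le hDN hYN)
      have hcompA : IsComplement' (D.subgroupOf A) ((zpowers y).subgroupOf A) := by
        refine isComplement'_of_disjoint_and_mul_eq_univ ?_ ?_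
        · rw [disjoint_iff, eq_bot_iff]
          rintro z ⟨hz1, hz2⟩
          exact mem_bot.2 (Subtype.ext (hCK _ (zpowers_le.2 y'.2 hz2) (hDK hz1)))
        · rw [Set.eq_univ_iff_forall]
          intro z
          obtain ⟨d, hd, w, hw, he⟩ := hsetA z z.2
          exact ⟨⟨d, mem_sup_left hd⟩, hd, ⟨w, mem_sup_right hw⟩, hw, Subtype.ext he.symm⟩
      refine hVne (Cfsg.Lib.Solv.frobenius_not_fpf A V hAN hfA _
        (Cfsg.Lib.Solv.isFrobeniusComplement_of_fpf hcompA ?_ ?_ ?_))
      · intro h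
        have : D ⊓ A = ⊥ := by rwa [subgroupOf_eq_bot, disjoint_iff] at h
        rw [inf_eq_left.2 (le_sup_left : D ≤ A)] at this
        exact hDne this
      · intro h
        have : (zpowers y) ⊓ A = ⊥ := by rwa [subgroupOf_eq_bot, disjoint_iff] at h
        rw [inf_eq_left.2 (le_sup_right : zpowers y ≤ A)] at this
        exact hy1 (zpowers_eq_bot.1 this)
      · intro w hw hw1
        rw [eq_bot_iff]
        rintro z ⟨hz, hzc⟩
        have hm : (z : G) ∈ D ⊓ centralizer ({(w : G)} : Set G) :=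
          ⟨hz, mem_centralizer_singleton_iff.2
            (congrArg Subtype.val (mem_centralizer_singleton_iff.1 hzc))⟩
        rw [hfpfC w (zpowers_le.2 y'.2 hw) (fun e => hw1 (Subtype.ext e)), mem_bot] at hm
        exact mem_bot.2 (Subtype.ext hm)
    · obtain ⟨v, hv, hv1⟩ := (bot_or_exists_ne_one _).resolve_left hfix
      obtain ⟨j, hj⟩ := hVp.exists_orderOf_eq_pow ⟨v, hv.1⟩
      have hjv : orderOf v = a ^ j := by rw [← hj, Subgroup.orderOf_mk]
      obtain ⟨i, rfl⟩ : ∃ i, j = i + 1 := ⟨j - 1, by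
        have : j ≠ 0 := by rintro rfl; rw [pow_zero, orderOf_eq_one_iff] at hjv; exact hv1 hjv
        omega⟩
      have hvo : orderOf (v ^ a ^ i) = a := by
        rw [orderOf_pow_of_dvd (pow_ne_zero _ ha.ne_zero) (hjv ▸ pow_dvd_pow a (Nat.le_succ i)),
          hjv, pow_succ', Nat.mul_div_cancel _ (pow_pos ha.pos i)]
      exact exists_mul_order ha hb hab hvo hyo
        ((show Commute v y from mem_centralizer_singleton_iff.1 hv.2).pow_left _)
  constructor
  · intro hex
    by_cases h1 : p ∣ Nat.card D <;> by_cases h2 : q ∣ Nat.card D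
    · exact iff_of_true h1 h2
    · exact absurd hex (hsep p q hp hq h1 h2)
    · exact absurd hex (by rw [mul_comm]; exact hsep q p hq hp h2 h1)
    · exact iff_of_false h1 h2
  · intro hiff
    have hpq' : Nat.Coprime p q := (Nat.coprime_primes hp hq).2 hpq
    by_cases h1 : p ∣ Nat.card D
    · obtain ⟨g, -, hg⟩ := isCyclic_exists_order hDcyc (hpq'.mul_dvd_of_dvd_of_dvd h1 (hiff.1 h1))
      exact ⟨g, hg⟩
    · have h2 : ¬ q ∣ Nat.card D := fun h => h1 (hiff.2 h)
      rw [hcardG] at hpG hqG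
      have hp' := (hp.dvd_mul.1 ((hp.dvd_mul.1 hpG).resolve_left h1))
      have hq' := (hq.dvd_mul.1 ((hq.dvd_mul.1 hqG).resolve_left h2))
      rcases hp' with hpH | hpC <;> rcases hq' with hqH | hqC
      · obtain ⟨x, hx⟩ := exists_prime_orderOf_dvd_card' (G := H) p hpH
        obtain ⟨y, hy⟩ := exists_prime_orderOf_dvd_card' (G := H) q hqH
        obtain ⟨P, hP⟩ := (IsPGroup.of_card (p := p) (n := 1)
          (by rw [Nat.card_zpowers, hx, pow_one]) : IsPGroup p (zpowers x)).exists_le_sylow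
        obtain ⟨Q, hQ⟩ := (IsPGroup.of_card (p := q) (n := 1)
          (by rw [Nat.card_zpowers, hy, pow_one]) : IsPGroup q (zpowers y)).exists_le_sylow
        have hcm : Commute x y := Subgroup.commute_of_normal_of_disjoint _ _
          (Cfsg.Lib.Solv.normal_sylow_of_nilpotent P) (Cfsg.Lib.Solv.normal_sylow_of_nilpotent Q)
          (IsPGroup.disjoint_of_ne p q hpq _ _ P.2 Q.2) x y (hP (mem_zpowers x)) (hQ (mem_zpowers y))
        exact exists_mul_order hp hq hpq ((orderOf_coe x).trans hx) ((orderOf_coe y).trans hy)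
          (hcm.map H.subtype)
      · exact hmix p q hp hq hpq hpH hqC
      · rw [mul_comm]; exact hmix q p hq hp hpq.symm hqH hpC
      · obtain ⟨g, -, hg⟩ := isCyclic_exists_order hCcyc (hpq'.mul_dvd_of_dvd_of_dvd hpC hqC)
        exact ⟨g, hg⟩

end Cfsg.Agent.S4001
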