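import Cfsg.Statements.S3857
import Mathlib
import Cfsg.Agent.Lib.Solv.MinNormal
import Cfsg.Agent.S4001

set_option autoImplicit false
open Cfsg
open scoped Pointwise commutatorElement

namespace Cfsg.Agent.S3857

open Subgroup

/-- No element has order `a * b` with `a ∈ π` and `b ∉ π`. -/
def NoMix (π : Set ℕ) (G : Type*) [Group G] : Prop :=
  ∀ a b : ℕ, a.Prime → b.Prime → a ∈ π → b ∉ π → ¬ ∃ g : G, orderOf g = a * b

variable {G : Type*} [Group G] [Finite G]

theorem exists_prime_power_order {x : G} (hx : x ≠ 1) :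
    ∃ (q k : ℕ), q.Prime ∧ q ∣ orderOf x ∧ orderOf (x ^ k) = q := by
  obtain ⟨q, hq, hqd⟩ := Nat.exists_prime_and_dvd (fun h => hx (orderOf_eq_one_iff.1 h))
  obtain ⟨k, hk⟩ := hqd
  have hk0 : 0 < k := Nat.pos_of_ne_zero fun e => (orderOf_pos x).ne' (by rw [hk, e, mul_zero])
  refine ⟨q, k, hq, ⟨k, hk⟩, ?_⟩
  rw [orderOf_pow_of_dvd hk0.ne' (hk ▸ dvd_mul_left k q), hk, Nat.mul_div_cancel _ hk0]

theorem eq_one_of_commute {π : Set ℕ} (hno : NoMix π G) {x y : G} (hxy : Commute x y)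
    (hx : ∀ q : ℕ, q.Prime → q ∣ orderOf x → q ∈ π) (hy : ∀ q : ℕ, q.Prime → q ∣ orderOf y → q ∉ π)
    (hy1 : y ≠ 1) : x = 1 := by
  by_contra hx1
  obtain ⟨a, k, ha, had, hak⟩ := exists_prime_power_order hx1
  obtain ⟨b, l, hb, hbd, hbl⟩ := exists_prime_power_order hy1
  refine hno a b ha hb (hx a ha had) (hy b hb hbd) ⟨x ^ k * y ^ l, ?_⟩
  rw [(hxy.pow_pow k l).orderOf_mul_eq_mul_orderOf_of_coprime ?_, hak, hbl]
  rw [hak, hbl]
  exact (Nat.coprime_primes ha hb).2 fun e => hy b hb hbd (e ▸ hx a ha had)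

theorem noMix_quotient {π : Set ℕ} (hno : NoMix π G) (N : Subgroup G) [N.Normal] :
    NoMix π (G ⧸ N) := by
  intro a b ha hb haπ hbπ hex
  obtain ⟨q, hq⟩ := hex
  obtain ⟨g, rfl⟩ := QuotientGroup.mk'_surjective N q
  obtain ⟨m, hm⟩ : a * b ∣ orderOf g := hq ▸ orderOf_map_dvd _ g
  have hm0 : 0 < m := Nat.pos_of_ne_zero fun e => (orderOf_pos g).ne' (by rw [hm, e, mul_zero])
  exact hno a b ha hb haπ hbπ ⟨g ^ m, by
    rw [orderOf_pow_of_dvd hm0.ne' (hm ▸ dvd_mul_left m _), hm, Nat.mul_div_cancel _ hm0]⟩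

/-- A largest normal `π`-subgroup. -/
theorem exists_largest (π : Set ℕ) (G : Type*) [Group G] [Finite G] :
    ∃ M : Subgroup G, M.Normal ∧ (∀ q : ℕ, q.Prime → q ∣ Nat.card M → q ∈ π) ∧
      ∀ N : Subgroup G, N.Normal → (∀ q : ℕ, q.Prime → q ∣ Nat.card N → q ∈ π) → N ≤ M := by
  obtain ⟨M, ⟨hMn, hM⟩, hmax⟩ := (Set.toFinite {M : Subgroup G | M.Normal ∧
      ∀ q : ℕ, q.Prime → q ∣ Nat.card M → q ∈ π}).exists_maximal
    ⟨⊥, inferInstance, fun q hq h => by simp at h; exact absurd h hq.ne_one⟩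
  refine ⟨M, hMn, hM, fun N hNn hN => le_sup_right.trans (hmax ⟨inferInstance, fun q hq h => ?_⟩
    (le_sup_left : M ≤ M ⊔ N))⟩
  have hcard : Nat.card M * M.relIndex N = Nat.card (M ⊔ N : Subgroup G) := by
    rw [← relIndex_bot_left, ← relIndex_bot_left, sup_comm, ← relIndex_sup_right (H := N) (K := M),
      relIndex_mul_relIndex _ _ _ bot_le le_sup_right]
  rw [← hcard] at h
  rcases hq.dvd_mul.1 h with h | h
  · exact hM q hq h
  · exact hN q hq (h.trans (relIndex_dvd_card M N))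

theorem coprime_of_pi {π : Set ℕ} {m n : ℕ} (hm : ∀ q : ℕ, q.Prime → q ∣ m → q ∈ π)
    (hn : ∀ q : ℕ, q.Prime → q ∣ n → q ∉ π) : m.Coprime n :=
  Nat.coprime_of_dvd fun q hq h1 h2 => hn q hq h2 (hm q hq h1)

/-- A normal Hall subgroup in a group without mixed elements has a Frobenius complement. -/
theorem exists_frobenius {π : Set ℕ} (hno : NoMix π G) (N : Subgroup G) [N.Normal]
    (hN : ∀ q : ℕ, q.Prime → q ∣ Nat.card N → q ∈ π) (hidx : ∀ q : ℕ, q.Prime → q ∣ N.index → q ∉ π)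
    (hne : N ≠ ⊥) (htop : N ≠ ⊤) :
    ∃ C : Subgroup G, IsFrobeniusComplement C ∧ frobeniusKernel C = (N : Set G) ∧ IsComplement' N C := by
  obtain ⟨C, hC⟩ := exists_right_complement'_of_coprime (coprime_of_pi hN hidx)
  have hCne : C ≠ ⊥ := by
    rintro rfl
    have := hC.sup_eq_top
    rw [sup_bot_eq] at this
    exact htop this
  have hfc : IsFrobeniusComplement C := by
    refine Cfsg.Lib.Solv.isFrobeniusComplement_of_fpf hC hne hCne fun h hh h1 => ?_
    rw [eq_bot_iff]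
    rintro x ⟨hx, hxc⟩
    refine mem_bot.2 (eq_one_of_commute hno (mem_centralizer_singleton_iff.1 hxc)
      (fun q hq hd => hN q hq (hd.trans (N.orderOf_dvd_natCard hx))) (fun q hq hd => hidx q hq ?_) h1)
    rw [hC.symm.index_eq_card]
    exact hd.trans (C.orderOf_dvd_natCard hh)
  exact ⟨C, hfc, (Cfsg.Lib.Solv.eq_frobeniusKernel hfc N hC).symm, hC⟩

/-- The dichotomy, with the side `π` containing a nontrivial normal subgroup. -/
theorem dichotomy [Group.IsSolvable G] {π : Set ℕ} (hno : NoMix π G)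
    (hb : ∃ b, b.Prime ∧ b ∣ Nat.card G ∧ b ∉ π) (N0 : Subgroup G) (hN0n : N0.Normal)
    (hN0 : ∀ q : ℕ, q.Prime → q ∣ Nat.card N0 → q ∈ π) (hN0ne : N0 ≠ ⊥) :
    (∃ C : Subgroup G, Cfsg.IsFrobeniusComplement C) ∨
    (∃ (H K : Subgroup G) (_ : H.Normal), K.Normal ∧ H < K ∧
      (∃ C : Subgroup ↥K, Cfsg.IsFrobeniusComplement C ∧ Cfsg.frobeniusKernel C = (H.subgroupOf K : Set ↥K)) ∧
      (∃ C : Subgroup (G ⧸ H), Cfsg.IsFrobeniusComplement C ∧
        Cfsg.frobeniusKernel C = (K.map (QuotientGroup.mk' H) : Set (G ⧸ H)))) := by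
  obtain ⟨b, hb, hbG, hbπ⟩ := hb
  obtain ⟨F, hFn, hF, hFmax⟩ := exists_largest π G
  have hFne : F ≠ ⊥ := fun h => hN0ne (le_bot_iff.1 (h ▸ hFmax N0 hN0n hN0))
  have hFtop : F ≠ ⊤ := fun h => hbπ (hF b hb (by rw [h, card_top]; exact hbG))
  haveI hFnil : Group.IsNilpotent F := by
    have := Fact.mk hb
    obtain ⟨x, hx⟩ := exists_prime_orderOf_dvd_card' (G := G) b hbG
    refine Cfsg.Agent.S4001.nilpotent_of_fpf F hb hx (fun a ha => hFn.conj_mem a ha x) ?_
    rw [eq_bot_iff]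
    rintro y ⟨hy, hyc⟩
    refine mem_bot.2 (eq_one_of_commute hno (mem_centralizer_singleton_iff.1 hyc)
      (fun q hq hd => hF q hq (hd.trans (F.orderOf_dvd_natCard hy)))
      (fun q hq hd => ?_) (fun e => hb.ne_one (by rw [← hx, e, orderOf_one])))
    rw [hx] at hd
    rwa [(Nat.prime_dvd_prime_iff_eq hq hb).1 hd]
  by_cases hall : ∀ q : ℕ, q.Prime → q ∣ F.index → q ∉ π
  · obtain ⟨C, hC, -, -⟩ := exists_frobenius hno F hF hall hFne hFtop
    exact Or.inl ⟨C, hC⟩
  right
  push Not at hall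
  obtain ⟨a, ha, hadvd, haπ⟩ := hall
  obtain ⟨Db, hDn, hDb, hDmax⟩ := exists_largest {q : ℕ | q ∉ π} (G ⧸ F)
  set K := Db.comap (QuotientGroup.mk' F) with hK
  have hKn : K.Normal := hDn.comap _
  have hFK : F ≤ K := fun x hx => by
    rw [hK, mem_comap, show QuotientGroup.mk' F x = 1 from (QuotientGroup.eq_one_iff x).2 hx]
    exact one_mem _
  have hKmap : K.map (QuotientGroup.mk' F) = Db :=
    map_comap_eq_self_of_surjective (QuotientGroup.mk'_surjective F) _
  have hrel : (F.subgroupOf K).index = Nat.card Db := by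
    change F.relIndex K = Nat.card Db
    have h1 := relIndex_comap (⊥ : Subgroup (G ⧸ F)) (QuotientGroup.mk' F) K
    rw [MonoidHom.comap_bot, QuotientGroup.ker_mk', relIndex_bot_left, hKmap] at h1
    exact h1
  have hne : Db ≠ ⊥ := by
    intro hDbot
    haveI : Nontrivial (G ⧸ F) := QuotientGroup.nontrivial_iff.2 hFtop
    obtain ⟨M, hMn, -, hMne, hmin⟩ := Cfsg.Lib.Solv.exists_minimal_normal_le
      (G := G ⧸ F) (N := ⊤) top_ne_bot
    obtain ⟨-, p, hp, hMp, -⟩ := Cfsg.Lib.Solv.minimal_normal_elementary hMne inferInstance hmin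
    have hMprime : ∀ q : ℕ, q.Prime → q ∣ Nat.card M → q = p := fun q hq hd => by
      have := Fact.mk hp
      obtain ⟨n, hn⟩ := IsPGroup.iff_card.mp hMp
      rw [hn] at hd
      exact (Nat.prime_dvd_prime_iff_eq hq hp).1 (hq.dvd_of_dvd_pow hd)
    by_cases hpπ : p ∈ π
    · have hle : M.comap (QuotientGroup.mk' F) ≤ F := by
        refine hFmax _ (hMn.comap _) fun q hq hd => ?_
        have hc : Nat.card (M.comap (QuotientGroup.mk' F)) = Nat.card F * Nat.card M := by
          rw [← relIndex_bot_left, ← relIndex_bot_left (H := F), ← relIndex_bot_left (H := M),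
            show M = (M.comap (QuotientGroup.mk' F)).map (QuotientGroup.mk' F) from
              (map_comap_eq_self_of_surjective (QuotientGroup.mk'_surjective F) _).symm,
            ← relIndex_comap, MonoidHom.comap_bot, QuotientGroup.ker_mk',
            map_comap_eq_self_of_surjective (QuotientGroup.mk'_surjective F),
            relIndex_mul_relIndex _ _ _ bot_le]
          intro x hx
          rw [mem_comap, show QuotientGroup.mk' F x = 1 from (QuotientGroup.eq_one_iff x).2 hx]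
          exact one_mem _
        rw [hc] at hd
        rcases hq.dvd_mul.1 hd with h | h
        · exact hF q hq h
        · rwa [hMprime q hq h]
      refine hMne ((eq_bot_iff_forall _).2 fun x hx => ?_)
      obtain ⟨g, rfl⟩ := QuotientGroup.mk'_surjective F x
      exact (QuotientGroup.eq_one_iff g).2 (hle hx)
    · refine hMne (le_bot_iff.1 (hDbot ▸ hDmax M hMn fun q hq hd => ?_))
      rw [Set.mem_setOf_eq, hMprime q hq hd]
      exact hpπ
  have hlt : F < K := lt_of_le_of_ne hFK fun h => hne ((eq_bot_iff_forall _).2 fun x hx => by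
    obtain ⟨g, rfl⟩ := QuotientGroup.mk'_surjective F x
    exact (QuotientGroup.eq_one_iff g).2 (h ▸ (hx : g ∈ K)))
  have hnoK : NoMix π ↥K := fun a b ha hb hai hbi => fun ⟨g, hg⟩ =>
    hno a b ha hb hai hbi ⟨g, by rw [orderOf_coe]; exact hg⟩
  have hFKcard : Nat.card (F.subgroupOf K) = Nat.card F := Nat.card_congr (subgroupOfEquivOfLe hFK).toEquiv
  obtain ⟨C, hC, hCk, hCc⟩ := exists_frobenius hnoK (F.subgroupOf K)
    (fun q hq hd => hF q hq (hFKcard ▸ hd)) (fun q hq hd => hDb q hq (hrel ▸ hd))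
    (fun h => hFne (by rwa [subgroupOf_eq_bot, disjoint_iff, inf_eq_left.2 hFK] at h))
    (fun h => hlt.not_ge (subgroupOf_eq_top.1 h))
  refine ⟨F, K, hFn, hKn, hlt, ⟨C, hC, hCk⟩, ?_⟩
  have hno' := noMix_quotient hno F
  obtain ⟨c, hc⟩ : ∃ c : G ⧸ F, orderOf c = a := by
    have := Fact.mk ha
    exact exists_prime_orderOf_dvd_card' a (by rw [← index_eq_card]; exact hadvd)
  have hcπ : ∀ q : ℕ, q.Prime → q ∣ orderOf c → q ∈ π := fun q hq hd => by
    rw [hc] at hd; rwa [(Nat.prime_dvd_prime_iff_eq hq ha).1 hd]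
  have hc1 : c ≠ 1 := fun e => ha.ne_one (by rw [← hc, e, orderOf_one])
  have hfix : ∀ y ∈ Db, Commute c y → y = 1 := by
    intro y hy hcy
    by_contra hy1
    exact hc1 (eq_one_of_commute hno' hcy hcπ
      (fun q hq hd => hDb q hq (hd.trans (Db.orderOf_dvd_natCard hy))) hy1)
  haveI hDnil : Group.IsNilpotent Db := by
    refine Cfsg.Agent.S4001.nilpotent_of_fpf Db ha hc (fun y hy => hDn.conj_mem y hy c) ?_
    rw [eq_bot_iff]
    exact fun y hy => mem_bot.2 (hfix y hy.1 (mem_centralizer_singleton_iff.1 hy.2).symm)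
  -- the complement `D` in `G`
  set D : Subgroup G := C.map K.subtype with hD
  have hfpfD : ∀ d ∈ D, d ≠ 1 → F ⊓ centralizer ({d} : Set G) = ⊥ := by
    rintro _ ⟨d, hd, rfl⟩ hd1
    rw [eq_bot_iff]
    rintro h ⟨hhF, hhc⟩
    have hcm : Commute (⟨h, hFK hhF⟩ : K) d := Subtype.ext (mem_centralizer_singleton_iff.1 hhc)
    have := Cfsg.Lib.Solv.frob_mem_of_commute hC hd (fun e => hd1 (by rw [e]; rfl)) hcm
    have hbot : (⟨h, hFK hhF⟩ : K) ∈ F.subgroupOf K ⊓ C := ⟨hhF, this⟩
    rw [hCc.disjoint.eq_bot, mem_bot] at hbot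
    exact mem_bot.2 (congrArg Subtype.val hbot)
  let θ : D →* Db :=
    { toFun := fun d => ⟨QuotientGroup.mk' F d, (map_subtype_le (H := K) C) d.2⟩
      map_one' := Subtype.ext (map_one _)
      map_mul' := fun x y => Subtype.ext (map_mul _ _ _) }
  have hθ : Function.Bijective θ := by
    refine ⟨(injective_iff_map_eq_one θ).2 ?_, fun y => ?_⟩
    · rintro ⟨_, d, hd, rfl⟩ he
      have hdF : (d : G) ∈ F := (QuotientGroup.eq_one_iff _).1 (congrArg Subtype.val he)
      have hbot : d ∈ F.subgroupOf K ⊓ C := ⟨hdF, hd⟩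
      rw [hCc.disjoint.eq_bot, mem_bot] at hbot
      exact Subtype.ext (by simp [hbot])
    · obtain ⟨g, hg⟩ := QuotientGroup.mk'_surjective F y
      obtain ⟨u, hu, v, hv, huv⟩ := mem_sup_of_normal_left.1
        (hCc.sup_eq_top.ge (mem_top (⟨g, show QuotientGroup.mk' F g ∈ Db from hg ▸ y.2⟩ : K)))
      refine ⟨⟨v, mem_map_of_mem _ hv⟩, Subtype.ext ?_⟩
      change QuotientGroup.mk' F (v : G) = y
      rw [← hg, show g = (u : G) * v from (congrArg Subtype.val huv).symm, map_mul,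
        show QuotientGroup.mk' F (u : G) = 1 from (QuotientGroup.eq_one_iff _).2 hu, one_mul]
  have hcardD : Nat.card D = Nat.card Db := Nat.card_eq_of_bijective θ hθ
  haveI hDcyc : IsCyclic Db := by
    have : Nontrivial F := (nontrivial_iff_ne_bot F).2 hFne
    obtain ⟨p, hp, hpF⟩ := Nat.exists_prime_and_dvd (Finite.one_lt_card (α := F)).ne'
    have := Fact.mk hp
    obtain ⟨V, hVn, hVF, hVne, hVc, -⟩ := Cfsg.Agent.S4001.exists_abelian_p F hpF
    have hodd : ¬ 2 ∣ Nat.card D := by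
      intro h2
      obtain ⟨⟨s, hs, hso, hsu, -⟩, -⟩ := Cfsg.Lib.Solv.even_complement F D hfpfD hFne h2
      set z := θ ⟨s, hs⟩ with hz
      have hzo : orderOf (z : G ⧸ F) = 2 := by
        rw [orderOf_coe, hz, orderOf_injective θ hθ.1, orderOf_mk, hso]
      have hzfix : c * z * c⁻¹ = z := by
        obtain ⟨⟨w, hw⟩, hwz⟩ := hθ.2 ⟨c * z * c⁻¹, hDn.conj_mem _ z.2 c⟩
        have hwo : orderOf w = 2 := by
          rw [← hzo, ← orderOf_mk (H := D) w hw, ← orderOf_injective θ hθ.1, hwz, orderOf_mk]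
          exact (MulAut.conj c).orderOf_eq (z : G ⧸ F)
        have hws := hsu w hw hwo
        subst hws
        exact (congrArg Subtype.val hwz).symm
      have hz1 := hfix z z.2 (mul_inv_eq_iff_eq_mul.1 hzfix)
      rw [hz1, orderOf_one] at hzo
      exact absurd hzo (by norm_num)
    have hZ : IsZGroup D := by
      rw [isZGroup_iff]
      intro q hq Q
      have := Fact.mk hq
      rcases Cfsg.Lib.ZStar.isCyclic_or_inverted Q.2 (fun x y =>
          Cfsg.Lib.Solv.FrobCompl.mem_zpowers_of_pgroup hVne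
            (le_trans le_top (normalizer_eq_top (H := V)).ge)
            (fun d hd hd1 => le_bot_iff.1 ((inf_le_inf_right _ hVF).trans (hfpfD d hd hd1).le))
            _ Q.2) with h | ⟨rfl, x, -, hx, -⟩
      · exact h
      · exfalso
        obtain ⟨j, hj⟩ := Q.2.exists_orderOf_eq_pow x
        have hj0 : j ≠ 0 := by rintro rfl; rw [hj] at hx; norm_num at hx
        refine hodd (((dvd_pow_self 2 hj0).trans ?_).trans (card_subgroup_dvd_card (Q : Subgroup D)))
        rw [← hj]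
        exact orderOf_dvd_natCard x
    haveI : IsZGroup Db := IsZGroup.of_surjective (f := θ) hθ.2
    infer_instance
  have hcomm : ∀ u v : G ⧸ F, (v * u)⁻¹ * (u * v) ∈ Db := by
    intro u v
    obtain ⟨d, hd⟩ := hDcyc.exists_generator
    have hact : ∀ x : G ⧸ F, ∃ i : ℤ,
        ∀ j : ℤ, x * (d : G ⧸ F) ^ j * x⁻¹ = (d : G ⧸ F) ^ (i * j) := by
      intro x
      obtain ⟨i, hi⟩ := hd ⟨_, hDn.conj_mem d d.2 x⟩
      have hi' : (d : G ⧸ F) ^ i = x * d * x⁻¹ := by simpa using congrArg Subtype.val hi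
      exact ⟨i, fun j => by rw [zpow_mul, hi', conj_zpow]⟩
    obtain ⟨i, hi⟩ := hact u
    obtain ⟨i', hi'⟩ := hact v
    set w := (v * u)⁻¹ * (u * v) with hw
    have hwd : w * d * w⁻¹ = d := by
      have e1 : (u * v) * d * (u * v)⁻¹ = (d : G ⧸ F) ^ (i * i') := by
        have := hi' 1
        rw [zpow_one, mul_one] at this
        rw [← hi i', ← this]; group
      have e2 : (v * u) * d * (v * u)⁻¹ = (d : G ⧸ F) ^ (i' * i) := by
        have := hi 1
        rw [zpow_one, mul_one] at this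
        rw [← hi' i, ← this]; group
      calc w * d * w⁻¹ = (v * u)⁻¹ * ((u * v) * d * (u * v)⁻¹) * (v * u) := by rw [hw]; group
        _ = d := by rw [e1, mul_comm i i', ← e2]; group
    have hcent : (centralizer (Db : Set (G ⧸ F))) ≤ Db := by
      refine hDmax _ inferInstance fun q hq hd' hqπ => ?_
      have := Fact.mk hq
      obtain ⟨y, hy⟩ := exists_prime_orderOf_dvd_card' q hd'
      obtain ⟨x, hx, hx1⟩ := Db.bot_or_exists_ne_one.resolve_left hne
      refine hq.ne_one ?_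
      rw [← hy, orderOf_eq_one_iff]
      refine Subtype.ext (eq_one_of_commute hno' (x := (y : G ⧸ F)) (y := x)
        ((mem_centralizer_iff.1 y.2 x hx).symm)
        (fun r hr hd'' => ?_) (fun r hr hd'' => hDb r hr (hd''.trans (Db.orderOf_dvd_natCard hx))) hx1)
      rw [orderOf_coe, hy] at hd''
      rwa [(Nat.prime_dvd_prime_iff_eq hr hq).1 hd'']
    refine hcent (mem_centralizer_iff.2 fun x hx => ?_)
    obtain ⟨j, hj⟩ := hd ⟨x, hx⟩
    have hj' : (d : G ⧸ F) ^ j = x := by simpa using congrArg Subtype.val hj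
    rw [← hj']
    exact (Commute.zpow_right (mul_inv_eq_iff_eq_mul.1 hwd : Commute w (d : G ⧸ F)) j).eq.symm
  have hhall : ∀ q : ℕ, q.Prime → q ∣ Db.index → q ∈ π := by
    intro q hq hd
    by_contra hqπ
    have := Fact.mk hq
    rw [index_eq_card] at hd
    obtain ⟨x, hx⟩ := exists_prime_orderOf_dvd_card' q hd
    obtain ⟨g, rfl⟩ := QuotientGroup.mk'_surjective Db x
    have hab : ∀ s t : (G ⧸ F) ⧸ Db, s * t = t * s := by
      intro s t
      obtain ⟨u, rfl⟩ := QuotientGroup.mk'_surjective Db s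
      obtain ⟨v, rfl⟩ := QuotientGroup.mk'_surjective Db t
      rw [← map_mul, ← map_mul]
      exact (QuotientGroup.eq.2 (hcomm u v)).symm
    set L := (zpowers (QuotientGroup.mk' Db g)).comap (QuotientGroup.mk' Db) with hL
    have hLn : L.Normal := Normal.comap ⟨fun s hs t => by rwa [hab t s, mul_inv_cancel_right]⟩ _
    have hLle : L ≤ Db := by
      refine hDmax L hLn fun r hr hrd => ?_
      have hDbL : Db ≤ L := fun y hy => by
        rw [hL, mem_comap, show QuotientGroup.mk' Db y = 1 from (QuotientGroup.eq_one_iff y).2 hy]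
        exact one_mem _
      have hdb : Db.relIndex L = q := by
        have h1 := relIndex_comap (⊥ : Subgroup ((G ⧸ F) ⧸ Db)) (QuotientGroup.mk' Db) L
        rw [MonoidHom.comap_bot, QuotientGroup.ker_mk', relIndex_bot_left, hL,
          map_comap_eq_self_of_surjective (QuotientGroup.mk'_surjective Db), Nat.card_zpowers, hx] at h1
        exact h1
      rw [← relIndex_bot_left, ← relIndex_mul_relIndex _ _ _ bot_le hDbL, relIndex_bot_left, hdb] at hrd
      rcases hr.dvd_mul.1 hrd with h | h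
      · exact hDb r hr h
      · rw [Set.mem_setOf_eq, (Nat.prime_dvd_prime_iff_eq hr hq).1 h]; exact hqπ
    have : QuotientGroup.mk' Db g = 1 :=
      (QuotientGroup.eq_one_iff g).2 (hLle (mem_zpowers (QuotientGroup.mk' Db g)))
    rw [this, orderOf_one] at hx
    exact hq.ne_one hx.symm
  have hno'' : NoMix {q : ℕ | q ∉ π} (G ⧸ F) := fun r s hr hs hrπ hsπ hex =>
    hno' s r hs hr (not_not.1 hsπ) hrπ (by rwa [mul_comm])
  obtain ⟨C2, hC2, hC2k, -⟩ := exists_frobenius hno'' Db hDb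
    (fun q hq hd => not_not.2 (hhall q hq hd)) hne
    (fun h => hDb a ha (by rw [h, card_top, ← index_eq_card]; exact hadvd) haπ)
  exact ⟨C2, hC2, by rw [hC2k, hKmap]⟩



/-- A finite solvable group whose prime graph (prime divisors of the order, two distinct primes joined when there is an element of order their product) is disconnected is a Frobenius group or a 2-Frobenius group (it has normal subgroups H < K with K a Frobenius group with kernel H and G/H a Frobenius group with kernel K/H). -/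
theorem result {G : Type*} [Group G] [Finite G] (hsol : Group.IsSolvable G)
    (hdisc : (∃ A : Set ℕ, (∃ a ∈ A, a.Prime ∧ a ∣ Nat.card G) ∧ (∃ b ∉ A, b.Prime ∧ b ∣ Nat.card G) ∧
      ∀ a ∈ A, ∀ b ∉ A, a.Prime → b.Prime → a ∣ Nat.card G → b ∣ Nat.card G → ¬ ∃ g : G, orderOf g = a * b)) :
    (∃ C : Subgroup G, Cfsg.IsFrobeniusComplement C) ∨
    (∃ (H K : Subgroup G) (_ : H.Normal), K.Normal ∧ H < K ∧
      (∃ C : Subgroup ↥K, Cfsg.IsFrobeniusComplement C ∧ Cfsg.frobeniusKernel C = (H.subgroupOf K : Set ↥K)) ∧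
      (∃ C : Subgroup (G ⧸ H), Cfsg.IsFrobeniusComplement C ∧ Cfsg.frobeniusKernel C = (K.map (QuotientGroup.mk' H) : Set (G ⧸ H)))) := by
  obtain ⟨A, ⟨a, haA, ha, had⟩, ⟨b, hbA, hb, hbd⟩, hno⟩ := hdisc
  haveI := hsol
  have hno1 : NoMix A G := by
    intro x y hx hy hxA hyA hex
    obtain ⟨g, hg⟩ := hex
    exact hno x hxA y hyA hx hy ((hg ▸ dvd_mul_right x y).trans (orderOf_dvd_natCard g))
      ((hg ▸ dvd_mul_left y x).trans (orderOf_dvd_natCard g)) ⟨g, hg⟩
  haveI : Nontrivial G := Finite.one_lt_card_iff_nontrivial.1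
    (lt_of_lt_of_le ha.one_lt (Nat.le_of_dvd Nat.card_pos had))
  obtain ⟨M, hMn, -, hMne, hmin⟩ := Cfsg.Lib.Solv.exists_minimal_normal_le
    (G := G) (N := ⊤) top_ne_bot
  obtain ⟨-, p, hp, hMp, -⟩ := Cfsg.Lib.Solv.minimal_normal_elementary hMne inferInstance hmin
  have hMprime : ∀ q : ℕ, q.Prime → q ∣ Nat.card M → q = p := fun q hq hd => by
    have := Fact.mk hp
    obtain ⟨n, hn⟩ := IsPGroup.iff_card.mp hMp
    rw [hn] at hd
    exact (Nat.prime_dvd_prime_iff_eq hq hp).1 (hq.dvd_of_dvd_pow hd)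
  by_cases hpA : p ∈ A
  · exact dichotomy hno1 ⟨b, hb, hbd, hbA⟩ M hMn (fun q hq hd => by rwa [hMprime q hq hd]) hMne
  · exact dichotomy (π := Aᶜ)
      (fun x y hx hy hxA hyA hex => hno1 y x hy hx (Set.notMem_compl_iff.1 hyA) hxA (by rwa [mul_comm]))
      ⟨a, ha, had, Set.notMem_compl_iff.2 haA⟩ M hMn (fun q hq hd => by rw [hMprime q hq hd]; exact hpA) hMne

end Cfsg.Agent.S3857
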