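import Cfsg.Statements.S3858
import Mathlib
import Mathlib
import Cfsg.Agent.Lib.Solv.AlmostSimpleSylow
-- import your own Cfsg.Agent.* helpers here

set_option autoImplicit false
open Cfsg
open scoped Pointwise

namespace Cfsg.Agent.S3858

/-- Let G be a finite group with a normal non-abelian simple subgroup T whose centralizer is trivial (G almost simple with socle T), r a prime and R a Sylow r-subgroup of G meeting T nontrivially. Then R lies in exactly one maximal subgroup of G if and only if G has exactly one conjugacy class of maximal subgroups whose index is prime to r. -/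
theorem result {G : Type*} [Group G] [Finite G] (T : Subgroup G) [T.Normal] (hT : IsSimpleGroup T) (hna : ¬ IsMulCommutative T)
    (hC : Subgroup.centralizer (T : Set G) = ⊥) {r : ℕ} [Fact r.Prime] (R : Sylow r G) (hR0 : (R : Subgroup G) ⊓ T ≠ ⊥) :
    (∃! M : Subgroup G, IsCoatom M ∧ (R : Subgroup G) ≤ M) ↔
      ((∃ M : Subgroup G, IsCoatom M ∧ ¬ r ∣ M.index) ∧
        ∀ M₁ M₂ : Subgroup G, IsCoatom M₁ → ¬ r ∣ M₁.index → IsCoatom M₂ → ¬ r ∣ M₂.index → ∃ g : G, M₂ = M₁.map (MulAut.conj g).toMonoidHom) := by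
  classical
  have hconjR : ∀ (g : G) (H : Subgroup G), H.map (MulAut.conj g).toMonoidHom = MulAut.conj g • H := fun g H => rfl
  have hsmul : ∀ (g : G) (M : Subgroup G), IsCoatom M → IsCoatom (MulAut.conj g • M) := by
    intro g M hM
    exact ((OrderIso.isCoatom_iff ((MulAut.conj g).mapSubgroup) M).2 hM)
  have hidx : ∀ M : Subgroup G, (R : Subgroup G) ≤ M → ¬ r ∣ M.index := fun M h hd =>
    R.not_dvd_index (hd.trans (Subgroup.index_dvd_of_le h))
  have hsyl : ∀ (M : Subgroup G), ¬ r ∣ M.index → ∃ g : G, MulAut.conj g • (R : Subgroup G) ≤ M := by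
    intro M hM
    obtain ⟨Q⟩ : Nonempty (Sylow r M) := inferInstance
    have hp : IsPGroup r ↥((Q : Subgroup M).map M.subtype) := Q.isPGroup'.map _
    obtain ⟨S, hS⟩ := hp.exists_le_sylow
    obtain ⟨g, hg⟩ := MulAction.exists_smul_eq G R S
    have heq : (Q : Subgroup M).map M.subtype = S := by
      refine Subgroup.eq_of_le_of_card_ge hS ?_
      rw [S.card_eq_multiplicity, Subgroup.card_map_of_injective M.subtype_injective,
        Q.card_eq_multiplicity]
      refine le_of_eq (congrArg (r ^ ·) ?_)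
      rw [← Subgroup.card_mul_index M, Nat.factorization_mul Nat.card_pos.ne' Subgroup.index_ne_zero_of_finite,
        Finsupp.add_apply, Nat.factorization_eq_zero_of_not_dvd hM, add_zero]
    refine ⟨g, ?_⟩
    have hgS : MulAut.conj g • (R : Subgroup G) = S := by rw [← hg]; rfl
    rw [hgS, ← heq]
    exact Subgroup.map_subtype_le _
  constructor
  · rintro ⟨M, ⟨hM, hRM⟩, hu⟩
    refine ⟨⟨M, hM, hidx M hRM⟩, fun M₁ M₂ hM₁ h₁ hM₂ h₂ => ?_⟩
    obtain ⟨g₁, hg₁⟩ := hsyl M₁ h₁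
    obtain ⟨g₂, hg₂⟩ := hsyl M₂ h₂
    have e : ∀ (g : G) (M' : Subgroup G), IsCoatom M' → MulAut.conj g • (R : Subgroup G) ≤ M' →
        MulAut.conj g⁻¹ • M' = M := fun g M' hM' hle => hu _ ⟨hsmul _ _ hM', by
      rw [Subgroup.subset_pointwise_smul_iff, ← map_inv, inv_inv]; exact hle⟩
    refine ⟨g₂ * g₁⁻¹, ?_⟩
    rw [hconjR, map_mul, mul_smul, e g₁ M₁ hM₁ hg₁, ← e g₂ M₂ hM₂ hg₂, ← mul_smul, ← map_mul,
      mul_inv_cancel, map_one, one_smul]
  · rintro ⟨⟨M₀, hM₀, h₀⟩, hconj⟩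
    obtain ⟨g₀, hg₀⟩ := hsyl M₀ h₀
    have hR' : (R : Subgroup G) ≤ MulAut.conj g₀⁻¹ • M₀ := by
      rw [Subgroup.subset_pointwise_smul_iff, ← map_inv, inv_inv]; exact hg₀
    have hNne : Subgroup.normalizer ((R : Subgroup G) : Set G) ≠ ⊤ := fun h => by
      refine Cfsg.Lib.Solv.sylow_inf_socle_normalizer_ne_top T hT hna R hR0 (top_le_iff.1 ?_)
      intro x _
      rw [← Cfsg.Lib.Solv.conj_smul_eq_self_iff, Subgroup.smul_inf,
        Cfsg.Lib.Solv.conj_smul_eq_self_iff.2 (h ▸ Subgroup.mem_top x),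
        Cfsg.Lib.Solv.conj_smul_eq_self_iff.2 (by rw [Subgroup.normalizer_eq_top T]; exact Subgroup.mem_top x)]
    obtain ⟨M₃, hM₃, hle₃⟩ := (eq_top_or_exists_le_coatom _).resolve_left hNne
    have inM : ∀ M : Subgroup G, IsCoatom M → (R : Subgroup G) ≤ M →
        Subgroup.normalizer ((R : Subgroup G) : Set G) ≤ M := by
      intro M hM hRM
      have hRM₃ : (R : Subgroup G) ≤ M₃ := Subgroup.le_normalizer.trans hle₃
      obtain ⟨x, hx⟩ := hconj M₃ M hM₃ (hidx _ hRM₃) hM (hidx _ hRM)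
      rw [hconjR] at hx
      have hxR : MulAut.conj x • (R : Subgroup G) ≤ M := hx ▸ Subgroup.pointwise_smul_le_pointwise_smul_iff.2 hRM₃
      obtain ⟨m, hm⟩ := MulAction.exists_smul_eq ↥M ((x • R).subtype (by rw [Sylow.coe_subgroup_smul]; exact hxR)) (R.subtype hRM)
      have hm' : MulAut.conj ((m : G) * x) • (R : Subgroup G) = R := by
        rw [Sylow.smul_subtype] at hm
        have h2 := congrArg (fun S : Sylow r G => (S : Subgroup G)) (Sylow.subtype_injective hm)
        rw [map_mul, mul_smul]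
        exact h2
      intro n hn
      have hmx : (m : G) * x ∈ Subgroup.normalizer ((R : Subgroup G) : Set G) :=
        Cfsg.Lib.Solv.conj_smul_eq_self_iff.1 hm'
      have h3 := hle₃ (mul_mem (mul_mem (inv_mem hmx) hn) hmx)
      have h4 : x * (((m : G) * x)⁻¹ * n * ((m : G) * x)) * x⁻¹ ∈ M := by
        exact hx.ge ⟨_, h3, rfl⟩
      have h5 : x * (((m : G) * x)⁻¹ * n * ((m : G) * x)) * x⁻¹ = (m : G)⁻¹ * n * m := by group
      rw [h5] at h4
      have h6 := mul_mem (mul_mem m.2 h4) (inv_mem m.2)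
      have h7 : (m : G) * ((m : G)⁻¹ * n * m) * (m : G)⁻¹ = n := by group
      rwa [h7] at h6
    refine ⟨_, ⟨hsmul _ _ hM₀, hR'⟩, fun M ⟨hM, hRM⟩ => ?_⟩
    obtain ⟨x, hx⟩ := hconj _ M (hsmul g₀⁻¹ _ hM₀) (hidx _ hR') hM (hidx _ hRM)
    rw [hconjR] at hx
    set M' := MulAut.conj g₀⁻¹ • M₀ with hM'
    have hxR : MulAut.conj x • (R : Subgroup G) ≤ M := hx ▸ Subgroup.pointwise_smul_le_pointwise_smul_iff.2 hR'
    obtain ⟨m, hm⟩ := MulAction.exists_smul_eq ↥M ((x • R).subtype (by rw [Sylow.coe_subgroup_smul]; exact hxR)) (R.subtype hRM)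
    rw [Sylow.smul_subtype] at hm
    have h2 := congrArg (fun S : Sylow r G => (S : Subgroup G)) (Sylow.subtype_injective hm)
    simp only [Sylow.coe_subgroup_smul, Subgroup.smul_def] at h2
    rw [← mul_smul, ← map_mul] at h2
    have hk : (m : G) * x ∈ M' := inM M' (hsmul g₀⁻¹ _ hM₀) hR' (Cfsg.Lib.Solv.conj_smul_eq_self_iff.1 h2)
    have : x = (m : G)⁻¹ * ((m : G) * x) := by group
    rw [hx, this, map_mul, mul_smul, Cfsg.Lib.Solv.conj_smul_eq_self_iff.2 (Subgroup.le_normalizer hk)]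
    rw [this, map_mul, mul_smul, Cfsg.Lib.Solv.conj_smul_eq_self_iff.2 (Subgroup.le_normalizer hk)] at hx
    have := congrArg (MulAut.conj (m : G) • ·) hx
    simp only [← mul_smul, ← map_mul, mul_inv_cancel, map_one, one_smul] at this
    rw [Cfsg.Lib.Solv.conj_smul_eq_self_iff.2 (Subgroup.le_normalizer m.2)] at this
    rw [← hx]; exact this

end Cfsg.Agent.S3858
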