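import Cfsg.Statements.S3859
import Mathlib
import Mathlib
import Cfsg.Agent.Lib.Solv.AlmostSimpleSylow
-- import your own Cfsg.Agent.* helpers here

set_option autoImplicit false
open Cfsg
open scoped Pointwise

namespace Cfsg.Agent.S3859

/-- Let G be a finite group with a normal non-abelian simple subgroup T whose centralizer is trivial (G almost simple with socle T), r a prime and R a Sylow r-subgroup of G meeting T nontrivially. If R lies in exactly one maximal subgroup of G, then G/T is an r-group. -/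
theorem result {G : Type*} [Group G] [Finite G] (T : Subgroup G) [T.Normal] (hT : IsSimpleGroup T) (hna : ¬ IsMulCommutative T)
    (hC : Subgroup.centralizer (T : Set G) = ⊥) {r : ℕ} [Fact r.Prime] (R : Sylow r G) (hR0 : (R : Subgroup G) ⊓ T ≠ ⊥)
    (huniq : ∃! M : Subgroup G, IsCoatom M ∧ (R : Subgroup G) ≤ M) : IsPGroup r (G ⧸ T) := by
  classical
  obtain ⟨M, ⟨hM, hRM⟩, huM⟩ := huniq
  have htop : (R : Subgroup G) ⊔ T = ⊤ := by
    by_contra hne
    obtain ⟨M', hM', hle⟩ := (eq_top_or_exists_le_coatom ((R : Subgroup G) ⊔ T)).resolve_left hne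
    have hM'eq : M' = M := huM M' ⟨hM', le_sup_left.trans hle⟩
    subst hM'eq
    set U := (R : Subgroup G) ⊓ T with hU
    obtain ⟨Q, hQ⟩ := Cfsg.Lib.Solv.sylow_inf_subnormal (Subgroup.Normal.isSubnormal ‹T.Normal›) R
    have hQU : (Q : Subgroup T).map T.subtype = U := by rw [hQ, Subgroup.subgroupOf_map_subtype]
    have hfr := Sylow.normalizer_sup_eq_top Q
    rw [hQU] at hfr
    obtain ⟨M3, hM3, hle3⟩ := (eq_top_or_exists_le_coatom _).resolve_left
      (Cfsg.Lib.Solv.sylow_inf_socle_normalizer_ne_top T hT hna R hR0)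
    have hRN : (R : Subgroup G) ≤ Subgroup.normalizer (U : Set G) := fun x hx => by
      rw [← Cfsg.Lib.Solv.conj_smul_eq_self_iff, hU, Subgroup.smul_inf,
        Cfsg.Lib.Solv.conj_smul_eq_self_iff.2 (Subgroup.le_normalizer hx),
        Cfsg.Lib.Solv.conj_smul_eq_self_iff.2 (by rw [Subgroup.normalizer_eq_top T]; exact Subgroup.mem_top x)]
    have h3 : M3 = M' := huM M3 ⟨hM3, hRN.trans hle3⟩
    subst h3
    exact hM3.1 (top_le_iff.1 (hfr ▸ sup_le hle3 (le_sup_right.trans hle)))
  intro x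
  obtain ⟨g, rfl⟩ := QuotientGroup.mk'_surjective T x
  have hg : g ∈ (((R : Subgroup G) ⊔ T : Subgroup G) : Set G) := by rw [htop]; trivial
  rw [Subgroup.mul_normal, Set.mem_mul] at hg
  obtain ⟨a, ha, t, ht, rfl⟩ := hg
  obtain ⟨k, hk⟩ := R.isPGroup' ⟨a, ha⟩
  refine ⟨k, ?_⟩
  have hk' : a ^ r ^ k = 1 := congrArg Subtype.val hk
  rw [map_mul, show QuotientGroup.mk' T t = 1 from (QuotientGroup.eq_one_iff t).2 ht, mul_one,
    ← map_pow, hk', map_one]

end Cfsg.Agent.S3859
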