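import Cfsg.Statements.S3861
import Mathlib
import Cfsg.Agent.Lib.Solv.RealElements
-- import your own Cfsg.Agent.* helpers here

set_option autoImplicit false
open Cfsg

namespace Cfsg.Agent.S3861

/-- A finite group G has no non-identity element of odd order that is conjugate to its inverse if and only if the Sylow 2-subgroups of G are normal. -/
theorem result {G : Type*} [Group G] [Finite G] (P : Sylow 2 G) : (∀ x : G, x ≠ 1 → Odd (orderOf x) → ¬ IsConj x x⁻¹) ↔ (P : Subgroup G).Normal := by
  constructor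
  · intro h
    by_contra hP
    obtain ⟨t, x, q, hq, hq2, hx, htx⟩ := Cfsg.Lib.Solv.exists_real_prime P hP
    refine h x ?_ ?_ (isConj_iff.2 ⟨t, htx⟩)
    · intro h1
      rw [h1, orderOf_one] at hx
      exact hq.ne_one hx.symm
    · rw [hx]; exact hq.odd_of_ne_two hq2
  · intro hP x hx1 hodd hc
    haveI := hP
    haveI : Fact (Nat.Prime 2) := ⟨Nat.prime_two⟩
    obtain ⟨g, hg⟩ := isConj_iff.1 hc
    have hq : Odd (Nat.card (G ⧸ (P : Subgroup G))) := by
      rw [← Subgroup.index_eq_card]
      exact Nat.not_even_iff_odd.1 fun he => P.not_dvd_index (even_iff_two_dvd.1 he)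
    have h1 := Cfsg.Lib.Solv.eq_one_of_real_odd hq (x := (x : G ⧸ (P : Subgroup G)))
      (g := (g : G ⧸ (P : Subgroup G))) (by
        rw [← QuotientGroup.mk_mul, ← QuotientGroup.mk_inv, ← QuotientGroup.mk_mul, hg,
          QuotientGroup.mk_inv])
    obtain ⟨k, hk⟩ := P.2 ⟨x, (QuotientGroup.eq_one_iff x).1 h1⟩
    refine hx1 (orderOf_eq_one_iff.1 (Nat.eq_one_of_dvd_coprimes
      ((Nat.coprime_two_right.2 hodd).pow_right k) dvd_rfl ?_))
    exact orderOf_dvd_of_pow_eq_one (congrArg Subtype.val hk)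

end Cfsg.Agent.S3861
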