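import Cfsg.Statements.S3862
import Mathlib
import Cfsg.Agent.Lib.Transfer.Frobenius
-- import your own Cfsg.Agent.* helpers here

set_option autoImplicit false
open Cfsg

namespace Cfsg.Agent.S3862

/-- If every 2-element of the finite group G that is conjugate to its inverse lies in the centre of G, then G has a normal 2-complement. -/
theorem result {G : Type*} [Group G] [Finite G] (h : ∀ x : G, (∃ j : ℕ, orderOf x = 2 ^ j) → IsConj x x⁻¹ → x ∈ Subgroup.center G) : Cfsg.HasNormalPComplement 2 G := by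
  haveI : Fact (Nat.Prime 2) := ⟨Nat.prime_two⟩
  obtain ⟨P⟩ : Nonempty (Sylow 2 G) := inferInstance
  refine (Cfsg.Lib.Transfer.frobenius_iff P).2 fun Q hQP x hx hox => ?_
  have key : ∀ (k : ℕ), ∀ u ∈ Q, u ^ 2 ^ k = 1 → x * u = u * x := by
    intro k
    induction k with
    | zero => intro u _ hu; rw [pow_zero, pow_one] at hu; subst hu; simp
    | succ k ih =>
      intro u huQ hu
      have hf := ih (u * u) (Q.mul_mem huQ huQ) (by rw [← pow_two, ← pow_mul, ← pow_succ', hu])
      set v := x * u * x⁻¹ with hv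
      have hvQ : v ∈ Q := (Subgroup.mem_normalizer_iff.1 hx u).1 huQ
      have hvv : v * v = u * u := by
        calc v * v = x * (u * u) * x⁻¹ := by rw [hv]; group
          _ = _ := by rw [hf, mul_inv_cancel_right]
      set w := u⁻¹ * v with hw
      have hwQ : w ∈ Q := Q.mul_mem (Q.inv_mem huQ) hvQ
      have hreal : IsConj w w⁻¹ := isConj_iff.2 ⟨u, by
        calc u * w * u⁻¹ = v * u⁻¹ := by rw [hw]; group
          _ = v⁻¹ * (v * v) * u⁻¹ := by group
          _ = v⁻¹ * (u * u) * u⁻¹ := by rw [hvv]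
          _ = w⁻¹ := by rw [hw]; group⟩
      obtain ⟨j, hj⟩ := IsPGroup.iff_orderOf.1 P.2 ⟨w, hQP hwQ⟩
      rw [Subgroup.orderOf_mk] at hj
      have hwc := Subgroup.mem_center_iff.1 (h w ⟨j, hj⟩ hreal)
      have hit : ∀ n : ℕ, x ^ n * u * (x ^ n)⁻¹ = u * w ^ n := by
        intro n
        induction n with
        | zero => simp
        | succ n ihn =>
          have h1 : x * u * x⁻¹ = u * w := by rw [hw, ← hv]; group
          calc x ^ (n + 1) * u * (x ^ (n + 1))⁻¹ = x * (x ^ n * u * (x ^ n)⁻¹) * x⁻¹ := by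
                rw [pow_succ']; group
            _ = x * (u * w ^ n) * x⁻¹ := by rw [ihn]
            _ = (x * u * x⁻¹) * (x * w * x⁻¹) ^ n := by rw [conj_pow]; group
            _ = u * w * w ^ n := by rw [h1, hwc x, mul_inv_cancel_right]
            _ = _ := by rw [mul_assoc, ← pow_succ']
      have h2 := hit (orderOf x)
      rw [pow_orderOf_eq_one, one_mul, inv_one, mul_one] at h2
      have h3 : w ^ orderOf x = 1 := left_eq_mul.1 h2
      have h4 : w = 1 := orderOf_eq_one_iff.1 (Nat.eq_one_of_dvd_coprimes (hox.pow_right j)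
        (orderOf_dvd_of_pow_eq_one h3) (hj ▸ dvd_rfl))
      have h5 : v = u := (inv_mul_eq_one.1 h4).symm
      exact mul_inv_eq_iff_eq_mul.1 h5
  refine Subgroup.mem_centralizer_iff.2 fun u hu => ?_
  obtain ⟨k, hk⟩ := P.2 ⟨u, hQP hu⟩
  exact (key k u hu (congrArg Subtype.val hk)).symm

end Cfsg.Agent.S3862
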