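import Cfsg.Statements.S3863
import Mathlib
import Cfsg.Agent.Lib.Solv.RealElements
-- import your own Cfsg.Agent.* helpers here

set_option autoImplicit false
open Cfsg

namespace Cfsg.Agent.S3863

/-- Let x be an element of the finite group G that is conjugate to its inverse. Then some 2-element conjugates x to its inverse; if the conjugacy class of x has odd size then x ^ 2 = 1; and x lies in, and is conjugate to its inverse inside, every normal subgroup of odd index. -/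
theorem result {G : Type*} [Group G] [Finite G] (x : G) (hx : IsConj x x⁻¹) : (∃ t : G, (∃ j : ℕ, orderOf t = 2 ^ j) ∧ t * x * t⁻¹ = x⁻¹) ∧ (Odd (Subgroup.centralizer ({x} : Set G)).index → x ^ 2 = 1) ∧ ∀ (N : Subgroup G) [N.Normal], Odd N.index → ∃ hxN : x ∈ N, IsConj (⟨x, hxN⟩ : N) (⟨x, hxN⟩ : N)⁻¹ := by
  obtain ⟨t, ht⟩ := isConj_iff.1 hx
  obtain ⟨s, hs2, hs⟩ := Cfsg.Lib.Solv.exists_two_inverter ht
  refine ⟨⟨s, hs2, hs⟩, Cfsg.Lib.Solv.sq_eq_one_of_real hx, fun N hN hodd => ?_⟩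
  rw [Subgroup.index_eq_card] at hodd
  have hxN : x ∈ N := (QuotientGroup.eq_one_iff x).1 (Cfsg.Lib.Solv.eq_one_of_real_odd hodd
    (g := (t : G ⧸ N)) (by
      rw [← QuotientGroup.mk_mul, ← QuotientGroup.mk_inv, ← QuotientGroup.mk_mul, ht,
        QuotientGroup.mk_inv]))
  obtain ⟨j, hj⟩ := hs2
  have hsN : s ∈ N := (QuotientGroup.eq_one_iff s).1 (orderOf_eq_one_iff.1
    (Nat.eq_one_of_dvd_coprimes ((Nat.coprime_two_left.2 hodd).pow_left j)
      (hj ▸ orderOf_map_dvd (QuotientGroup.mk' N) s) (orderOf_dvd_natCard _)))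
  exact ⟨hxN, isConj_iff.2 ⟨⟨s, hsN⟩, Subtype.ext hs⟩⟩

end Cfsg.Agent.S3863
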