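import Cfsg.Statements.S3864
import Mathlib
import Cfsg.Agent.Lib.TwoFus.DihedralFusion
import Cfsg.Agent.Lib.Transfer.IndexTwo
import Cfsg.Agent.Lib.Transfer.NormalPComplement
-- import your own Cfsg.Agent.* helpers here

set_option autoImplicit false
open Cfsg

namespace Cfsg.Agent.S3864

open Subgroup Cfsg.Lib.TwoFus

variable {G : Type*} [Group G] [Finite G] {S : Sylow 2 G} {a g : G} {t : ℕ}

theorem ag_not_mem (D : DihSylow S a g t) : a * g ∉ zpowers a := fun h => D.g_not (by
  have := mul_mem (inv_mem (mem_zpowers a)) h; rwa [inv_mul_cancel_left] at this)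

theorem inv_g (D : DihSylow S a g t) : g⁻¹ = g := inv_eq_of_mul_eq_one_right D.sq

theorem g_mul_zpow (D : DihSylow S a g t) (k : ℤ) : g * a ^ k = a ^ (-k) * g := by
  have h := D.inv (a ^ k) (zpow_mem (mem_zpowers a) k)
  rw [mul_inv_eq_iff_eq_mul] at h
  rw [h, zpow_neg]

theorem orderOf_refl (D : DihSylow S a g t) {r : G} (hr : r ∈ (S : Subgroup G)) (hra : r ∉ zpowers a) :
    orderOf r = 2 :=
  orderOf_eq_prime (by rw [pow_two, (D.involution_of_not_mem hr hra).1]) (fun h => hra (h ▸ one_mem _))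

/-- Any reflection is conjugate to one of the two standard ones. -/
theorem refl_cases (D : DihSylow S a g t) {r : G} (hr : r ∈ (S : Subgroup G)) (hra : r ∉ zpowers a) :
    IsConj r g ∨ IsConj r (a * g) := by
  obtain ⟨i, hi⟩ := mem_zpowers_iff.1 ((D.cover r hr).resolve_left hra)
  have hr' : r = a ^ i * g := by rw [hi, mul_assoc, D.sq, mul_one]
  have hconj : ∀ j k : ℤ, a ^ j * (a ^ k * g) * (a ^ j)⁻¹ = a ^ (2 * j + k) * g := fun j k => by
    rw [← zpow_neg, mul_assoc, mul_assoc, g_mul_zpow D, ← mul_assoc, ← mul_assoc, ← zpow_add, ← zpow_add]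
    congr 2
    ring
  rcases Int.even_or_odd' i with ⟨j, rfl | rfl⟩
  · left
    refine isConj_iff.2 ⟨a ^ (-j), ?_⟩
    rw [hr', hconj, show 2 * -j + 2 * j = (0 : ℤ) by ring, zpow_zero, one_mul]
  · right
    refine isConj_iff.2 ⟨a ^ (-j), ?_⟩
    rw [hr', hconj, show 2 * -j + (2 * j + 1) = (1 : ℤ) by ring, zpow_one]

theorem invol_cases (D : DihSylow S a g t) {x : G} (hx : orderOf x = 2) :
    IsConj x (a ^ 2 ^ (t - 1)) ∨ IsConj x g ∨ IsConj x (a * g) := by
  haveI : Fact (Nat.Prime 2) := ⟨Nat.prime_two⟩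
  have hp : IsPGroup 2 ↥(zpowers x) := IsPGroup.of_card (n := 1) (by rw [Nat.card_zpowers, hx, pow_one])
  obtain ⟨P, hP⟩ := hp.exists_le_sylow
  obtain ⟨w, hw⟩ := MulAction.exists_smul_eq G P S
  have hxS : w * x * w⁻¹ ∈ (S : Subgroup G) := by
    rw [← hw, Sylow.coe_subgroup_smul]
    exact ⟨x, hP (mem_zpowers x), rfl⟩
  have hconj : IsConj x (w * x * w⁻¹) := isConj_iff.2 ⟨w, rfl⟩
  have hord : orderOf (w * x * w⁻¹) = 2 := by rw [← hx]; exact (MulAut.conj w).orderOf_eq x
  by_cases ha : w * x * w⁻¹ ∈ zpowers a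
  · left
    rw [involution_unique ha (pow_mem (mem_zpowers a) _) hord D.exists_central.1] at hconj
    exact hconj
  · right
    rcases refl_cases D hxS ha with h | h
    · exact Or.inl (hconj.trans h)
    · exact Or.inr (hconj.trans h)

/-- The centralizer of a reflection in the Sylow subgroup. -/
theorem centralizer_refl (D : DihSylow S a g t) {r x : G} (hr : r ∈ (S : Subgroup G)) (hra : r ∉ zpowers a)
    (hx : x ∈ (S : Subgroup G)) (hxr : x * r = r * x) :
    x ∈ closure ({a ^ 2 ^ (t - 1), r} : Set G) := by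
  obtain ⟨hr2, hinv⟩ := D.involution_of_not_mem hr hra
  have hsmall : ∀ y ∈ zpowers a, y * r = r * y → y ∈ closure ({a ^ 2 ^ (t - 1), r} : Set G) := by
    intro y hy hyr
    have h1 := hinv y hy
    rw [← hyr, mul_inv_cancel_right] at h1
    by_cases h1y : y = 1
    · rw [h1y]; exact one_mem _
    · have ho : orderOf y = 2 := orderOf_eq_prime (by rw [sq]; nth_rewrite 2 [h1]; exact mul_inv_cancel y) h1y
      rw [involution_unique hy (pow_mem (mem_zpowers a) _) ho D.exists_central.1]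
      exact subset_closure (Set.mem_insert _ _)
  by_cases hxa : x ∈ zpowers a
  · exact hsmall x hxa hxr
  · have h1 := hsmall (x * r) (D.mul_mem_of_not_mem hx hr hxa hra) (by rw [← mul_assoc, ← hxr])
    have h2 := mul_mem h1 (subset_closure (Set.mem_insert_of_mem _ rfl) : r ∈ closure ({a ^ 2 ^ (t - 1), r} : Set G))
    rwa [mul_assoc, hr2, mul_one] at h2

/-- If the two standard reflections are conjugate, then they are conjugate to the central involution. -/
theorem fused_of_conj (D : DihSylow S a g t) (ht : 2 ≤ t) (h : IsConj g (a * g)) :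
    IsConj (a ^ 2 ^ (t - 1)) g := by
  classical
  haveI : Fact (Nat.Prime 2) := ⟨Nat.prime_two⟩
  by_contra hne
  set c := a ^ 2 ^ (t - 1) with hc
  obtain ⟨x, hx⟩ := isConj_iff.1 h
  have hag := ag_not_mem D
  have hagS : a * g ∈ (S : Subgroup G) := mul_mem D.a_mem D.g_mem
  obtain ⟨hK1, hU1⟩ := D.klein_of_not_mem D.g_mem D.g_not
  obtain ⟨hK2, hU2⟩ := D.klein_of_not_mem hagS hag
  set U1 := closure ({c, g} : Set G) with hU1d
  set U2 := closure ({c, a * g} : Set G) with hU2d
  set V := U1.map (MulAut.conj x).toMonoidHom with hV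
  have hVmem : ∀ u ∈ U1, x * u * x⁻¹ ∈ V := fun u hu => ⟨u, hu, rfl⟩
  have hagV : a * g ∈ V := hx ▸ hVmem g (subset_closure (Set.mem_insert_of_mem _ rfl))
  have hVK : IsKleinFour ↥V := by
    haveI := hK1
    exact ⟨by rw [Subgroup.card_map_of_injective (MulEquiv.injective _)]; exact IsKleinFour.card_four,
      by rw [← Monoid.exponent_eq_of_mulEquiv (U1.equivMapOfInjective _ (MulAut.conj x).injective)]
         exact IsKleinFour.exponent_two⟩
  set C := centralizer ({a * g} : Set G) with hC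
  have hle : ∀ W : Subgroup G, IsKleinFour ↥W → a * g ∈ W → W ≤ C := fun W hW hm y hy => by
    haveI := hW
    haveI := IsKleinFour.isMulCommutative (G := ↥W)
    rw [hC, mem_centralizer_singleton_iff]
    exact congrArg Subtype.val (mul_comm' (⟨y, hy⟩ : ↥W) ⟨a * g, hm⟩)
  have hVC := hle V hVK hagV
  have hagU2 : a * g ∈ U2 := subset_closure (Set.mem_insert_of_mem _ rfl)
  have hU2C := hle U2 hK2 hagU2
  have hpg : ∀ W : Subgroup G, IsKleinFour ↥W → W ≤ C → IsPGroup 2 ↥(W.subgroupOf C) := fun W hW hWC => by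
    haveI := hW
    refine IsPGroup.of_card (n := 2) ?_
    rw [Nat.card_congr (subgroupOfEquivOfLe hWC).toEquiv, IsKleinFour.card_four]; rfl
  obtain ⟨P1, hP1⟩ := (hpg V hVK hVC).exists_le_sylow
  obtain ⟨P2, hP2⟩ := (hpg U2 hK2 hU2C).exists_le_sylow
  obtain ⟨y, hy⟩ := MulAction.exists_smul_eq ↥C P1 P2
  have hT : IsPGroup 2 ↥((P2 : Subgroup ↥C).map C.subtype) := P2.isPGroup'.map _
  obtain ⟨Q, hQ⟩ := hT.exists_le_sylow
  obtain ⟨w, hw⟩ := MulAction.exists_smul_eq G Q S
  have hin : ∀ z ∈ (P2 : Subgroup ↥C), w * (z : G) * w⁻¹ ∈ (S : Subgroup G) := fun z hz => by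
    rw [← hw, Sylow.coe_subgroup_smul]
    exact ⟨z, hQ ⟨z, hz, rfl⟩, rfl⟩
  set r := w * (a * g) * w⁻¹ with hr
  have hrS : r ∈ (S : Subgroup G) := hin ⟨a * g, hU2C hagU2⟩ (hP2 hagU2)
  have hra : r ∉ zpowers a := fun hm => by
    have ho : orderOf r = 2 := by
      rw [← orderOf_refl D hagS hag]; exact (MulAut.conj w).orderOf_eq (a * g)
    have he := involution_unique hm (pow_mem (mem_zpowers a) _) ho D.exists_central.1
    apply hne
    rw [hc, ← he]
    exact ((isConj_iff.2 ⟨w, rfl⟩ : IsConj (a * g) r).symm).trans h.symm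
  obtain ⟨hKr, -⟩ := D.klein_of_not_mem hrS hra
  -- both four-groups become the same one inside `S`
  have hsub : ∀ z ∈ (P2 : Subgroup ↥C), w * (z : G) * w⁻¹ ∈ closure ({c, r} : Set G) := fun z hz => by
    refine centralizer_refl D hrS hra (hin z hz) ?_
    rw [hr, conj_mul, conj_mul, mem_centralizer_singleton_iff.1 z.2]
  have heq : V.map (MulAut.conj (y : G)).toMonoidHom = U2 := by
    have key : ∀ W : Subgroup G, IsKleinFour ↥W → (∀ u ∈ W, w * u * w⁻¹ ∈ closure ({c, r} : Set G)) →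
        W.map (MulAut.conj w).toMonoidHom = closure ({c, r} : Set G) := fun W hW hWs => by
      haveI := hW
      haveI := hKr
      refine eq_of_le_of_card_ge (fun _ ⟨u, hu, he⟩ => he ▸ hWs u hu) ?_
      rw [IsKleinFour.card_four, Subgroup.card_map_of_injective (MulEquiv.injective _), IsKleinFour.card_four]
    have e1 := key U2 hK2 fun u hu => hsub ⟨u, hU2C hu⟩ (hP2 hu)
    have hWK : IsKleinFour ↥(V.map (MulAut.conj (y : G)).toMonoidHom) := by
      haveI := hVK
      exact ⟨by rw [Subgroup.card_map_of_injective (MulEquiv.injective _)]; exact IsKleinFour.card_four,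
        by rw [← Monoid.exponent_eq_of_mulEquiv (V.equivMapOfInjective _ (MulAut.conj (y : G)).injective)]
           exact IsKleinFour.exponent_two⟩
    have e2 := key _ hWK (by
      rintro _ ⟨u, hu, rfl⟩
      refine hsub (y * ⟨u, hVC hu⟩ * y⁻¹) ?_
      rw [← hy, Sylow.coe_subgroup_smul]
      exact ⟨⟨u, hVC hu⟩, hP1 hu, rfl⟩)
    exact Subgroup.map_injective (MulAut.conj w).injective (e2.trans e1.symm)
  -- apply the fusion theorem of four-groups
  have hset : Cfsg.Lib.Transfer.conjR ((y : G) * x)⁻¹ (U1 : Set G) = (U2 : Set G) := by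
    rw [← heq, hV, Subgroup.map_map, Subgroup.coe_map]
    refine Set.image_congr fun b _ => ?_
    simp [MulAut.conj_apply, mul_assoc]
  obtain ⟨u, hu, hu'⟩ := D.klein_fusion hK1 hU1 (x := ((y : G) * x)⁻¹) (hset ▸ hU2)
  rw [hset] at hu'
  have hm : a * g ∈ Cfsg.Lib.Transfer.conjR u (U1 : Set G) := hu' ▸ hagU2
  obtain ⟨b, hb, hbe⟩ := hm
  change u⁻¹ * b * u = a * g at hbe
  obtain ⟨-, hel⟩ := klein_closure (c := c) (r := g)
    (by have := pow_orderOf_eq_one c; rwa [D.exists_central.1, pow_two] at this) D.sq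
    (D.exists_central.2 g D.g_mem D.g_not) (fun e => by
      have := D.exists_central.1; rw [← hc, e, orderOf_one] at this; omega)
    (fun e => D.g_not (e ▸ one_mem _)) (fun e => D.g_not (e ▸ pow_mem (mem_zpowers a) _))
  -- compare parities
  have hconj : ∀ j : ℤ, ∃ k : ℤ, u⁻¹ * (a ^ (2 * j) * g) * u = a ^ (2 * k) * g := by
    intro j
    rcases D.cover u hu with hua | hua
    · obtain ⟨i, rfl⟩ := mem_zpowers_iff.1 hua
      refine ⟨j - i, ?_⟩
      rw [← zpow_neg, mul_assoc, mul_assoc, g_mul_zpow D, ← mul_assoc, ← mul_assoc, ← zpow_add, ← zpow_add]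
      congr 2; ring
    · obtain ⟨i, hi⟩ := mem_zpowers_iff.1 hua
      have hu1 : u = a ^ i * g := by rw [hi, mul_assoc, D.sq, mul_one]
      refine ⟨i - j, ?_⟩
      rw [hu1, mul_inv_rev, inv_g D, ← zpow_neg]
      have e1 : g * a ^ (-i) * (a ^ (2 * j) * g) * (a ^ i * g) = g * a ^ (-i + 2 * j) * (g * a ^ i) * g := by
        rw [zpow_add]; group
      rw [e1, g_mul_zpow D, g_mul_zpow D,
        show a ^ (-(-i + 2 * j)) * g * (a ^ (-i) * g) * g = a ^ (-(-i + 2 * j)) * (g * a ^ (-i)) * (g * g) by group,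
        g_mul_zpow D, D.sq, mul_one, ← mul_assoc, ← zpow_add]
      congr 2; ring
  have hodd : ∀ k : ℤ, a ^ (2 * k) ≠ a := fun k e => by
    have h1 : (2 : ℤ) ∣ 2 * k - 1 := by
      have h2 : ((orderOf a : ℕ) : ℤ) ∣ 2 * k - 1 := orderOf_dvd_iff_zpow_eq_one.2 (by rw [zpow_sub, e, zpow_one, mul_inv_cancel])
      refine dvd_trans ?_ h2
      rw [D.ord]; exact_mod_cast dvd_pow_self 2 (by omega : t ≠ 0)
    omega
  have hce : c = a ^ (2 * (2 : ℤ) ^ (t - 2)) := by
    rw [hc, ← zpow_natCast, ← pow_succ', show t - 2 + 1 = t - 1 by omega]; norm_cast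
  have hfix : u⁻¹ * c * u = c := by
    rcases D.cover u hu with hua | hua
    · obtain ⟨i, rfl⟩ := mem_zpowers_iff.1 hua; rw [hc]; group
    · have huna : u ∉ zpowers a := fun h' => D.g_not (by
        have := mul_mem (inv_mem h') hua; rwa [inv_mul_cancel_left] at this)
      rw [mul_assoc, D.exists_central.2 u hu huna, inv_mul_cancel_left]
  rcases hel b hb with rfl | rfl | rfl | rfl
  · rw [mul_one, inv_mul_cancel] at hbe
    exact hag (hbe ▸ one_mem _)
  · rw [hfix] at hbe
    exact hag (hbe ▸ pow_mem (mem_zpowers a) _)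
  · obtain ⟨k, hk⟩ := hconj 0
    rw [mul_zero, zpow_zero, one_mul] at hk
    rw [hk] at hbe
    exact hodd k (mul_right_cancel hbe)
  · obtain ⟨k, hk⟩ := hconj ((2 : ℤ) ^ (t - 2))
    rw [← hce] at hk
    rw [hk] at hbe
    exact hodd k (mul_right_cancel hbe)

theorem quotient_small (D : DihSylow S a g t) (ht : 2 ≤ t) (h : IsConj (a ^ 2 ^ (t - 1)) (a * g))
    (N : Subgroup G) [N.Normal] {k : ℕ} (hk : N.index = 2 ^ k) (hk2 : k ≤ 2) :
    k ≤ 1 ∧ (IsConj (a ^ 2 ^ (t - 1)) g → k = 0) := by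
  haveI : Fact (Nat.Prime 2) := ⟨Nat.prime_two⟩
  set φ := QuotientGroup.mk' N with hφ
  have hcard : Nat.card (G ⧸ N) = 2 ^ k := by rw [← index_eq_card, hk]
  have hcomm : ∀ x y : G ⧸ N, x * y = y * x := by
    interval_cases k
    · intro x y
      haveI := (Nat.card_eq_one_iff_unique.1 hcard).1
      exact Subsingleton.elim _ _
    · intro x y
      haveI := isCyclic_of_prime_card (p := 2) (hcard.trans (pow_one 2))
      exact IsCyclic.commGroup.mul_comm x y
    · exact IsPGroup.commutative_of_card_eq_prime_sq hcard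
  have hag := (D.involution_of_not_mem (mul_mem D.a_mem D.g_mem) (ag_not_mem D)).1
  have ha2 : φ a ^ 2 = 1 := by
    have : φ a = φ (a * g) * φ g := by rw [← map_mul, mul_assoc, D.sq, mul_one]
    rw [this, (show Commute (φ (a * g)) (φ g) from hcomm _ _).mul_pow, sq, sq, ← map_mul, ← map_mul, hag, D.sq, map_one, one_mul]
  have hc : φ (a ^ 2 ^ (t - 1)) = 1 := by
    rw [map_pow, show t - 1 = t - 2 + 1 by omega, pow_succ', pow_mul, ha2, one_pow]
  have hconj : ∀ r : G, IsConj (a ^ 2 ^ (t - 1)) r → φ r = 1 := fun r hr => by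
    obtain ⟨x, rfl⟩ := isConj_iff.1 hr
    rw [map_mul, map_mul, hc, mul_one, map_inv, mul_inv_cancel]
  have hφag := hconj _ h
  have hle : (⊤ : Subgroup (G ⧸ N)) ≤ zpowers (φ g) := by
    have hS : (S : Subgroup G).map φ = ⊤ := by
      rw [← index_eq_one]
      refine Nat.eq_one_of_dvd_coprimes (((Nat.prime_two.coprime_iff_not_dvd).2 S.not_dvd_index).pow_left k) ?_ ?_
      · exact hcard ▸ index_dvd_card _
      · exact (S : Subgroup G).index_map_dvd (QuotientGroup.mk'_surjective N)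
    rw [← hS]
    have hφa : φ a ∈ zpowers (φ g) := by
      rw [show φ a = φ (a * g) * φ g by rw [← map_mul, mul_assoc, D.sq, mul_one], hφag, one_mul]
      exact mem_zpowers _
    rintro _ ⟨x, hx, rfl⟩
    rcases D.cover x hx with hxa | hxa <;> obtain ⟨i, hi⟩ := mem_zpowers_iff.1 hxa
    · rw [← hi, map_zpow]; exact zpow_mem hφa i
    · rw [show x = a ^ i * g by rw [hi, mul_assoc, D.sq, mul_one], map_mul, map_zpow]
      exact mul_mem (zpow_mem hφa i) (mem_zpowers _)
  have hb : 2 ^ k ≤ orderOf (φ g) := by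
    rw [← hcard, ← Nat.card_zpowers]
    exact (Subgroup.card_top (G := G ⧸ N)).ge.trans (card_le_of_le hle)
  constructor
  · have : orderOf (φ g) ≤ 2 := Nat.le_of_dvd two_pos (orderOf_dvd_of_pow_eq_one (by rw [sq, ← map_mul, D.sq, map_one]))
    exact (Nat.pow_le_pow_iff_right one_lt_two).1 ((hb.trans this).trans (le_of_eq (pow_one 2).symm))
  · intro hg
    rw [hconj g hg, orderOf_one] at hb
    exact Nat.le_zero.1 ((Nat.pow_le_pow_iff_right one_lt_two).1 (hb.trans (le_of_eq (pow_zero 2).symm)))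

theorem exists_index_two_of_not_conj (D : DihSylow S a g t) (ht : 2 ≤ t) (hag : IsConj (a ^ 2 ^ (t - 1)) (a * g))
    (hg : ¬ IsConj (a ^ 2 ^ (t - 1)) g) : ∃ N : Subgroup G, N.Normal ∧ N.index = 2 := by
  have hpar : ∀ i j : ℤ, a ^ i = a ^ j → i % 2 = j % 2 := fun i j e => by
    have h2 : ((orderOf a : ℕ) : ℤ) ∣ i - j := orderOf_dvd_iff_zpow_eq_one.2 (by rw [zpow_sub, e, mul_inv_cancel])
    have h1 : (2 : ℤ) ∣ i - j := by
      refine dvd_trans ?_ h2
      rw [D.ord]; exact_mod_cast dvd_pow_self 2 (by omega : t ≠ 0)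
    omega
  have hnmem : ∀ i j : ℤ, a ^ i ≠ a ^ j * g := fun i j e => D.g_not (by
    have := zpow_mem (mem_zpowers a) (-j + i); rwa [zpow_add, e, zpow_neg, inv_mul_cancel_left] at this)
  let M : Subgroup ↥(S : Subgroup G) :=
    { carrier := {x | ∃ i : ℤ, (x : G) = a ^ (2 * i) ∨ (x : G) = a ^ (2 * i + 1) * g}
      one_mem' := ⟨0, Or.inl (by simp)⟩
      mul_mem' := by
        rintro x y ⟨i, hx | hx⟩ ⟨j, hy | hy⟩
        · exact ⟨i + j, Or.inl (by rw [Subgroup.coe_mul, hx, hy, ← zpow_add]; ring_nf)⟩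
        · exact ⟨i + j, Or.inr (by rw [Subgroup.coe_mul, hx, hy, ← mul_assoc, ← zpow_add]; ring_nf)⟩
        · exact ⟨i - j, Or.inr (by rw [Subgroup.coe_mul, hx, hy, mul_assoc, g_mul_zpow D, ← mul_assoc, ← zpow_add]; ring_nf)⟩
        · exact ⟨i - j, Or.inl (by
            rw [Subgroup.coe_mul, hx, hy, show a ^ (2 * i + 1) * g * (a ^ (2 * j + 1) * g) =
              a ^ (2 * i + 1) * (g * a ^ (2 * j + 1)) * g by group, g_mul_zpow D,
              show a ^ (2 * i + 1) * (a ^ (-(2 * j + 1)) * g) * g = a ^ (2 * i + 1) * a ^ (-(2 * j + 1)) * (g * g) by group,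
              D.sq, mul_one, ← zpow_add]; ring_nf)⟩
      inv_mem' := by
        rintro x ⟨i, hx | hx⟩
        · exact ⟨-i, Or.inl (by rw [Subgroup.coe_inv, hx, ← zpow_neg]; ring_nf)⟩
        · exact ⟨i, Or.inr (by rw [Subgroup.coe_inv, hx, mul_inv_rev, inv_g D, ← zpow_neg, g_mul_zpow D, neg_neg])⟩ }
  have hMmem : ∀ x : ↥(S : Subgroup G), x ∈ M ↔ ∃ i : ℤ, (x : G) = a ^ (2 * i) ∨ (x : G) = a ^ (2 * i + 1) * g :=
    fun x => Iff.rfl
  have hM : M.index = 2 := by
    rw [index_eq_two_iff]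
    refine ⟨⟨g, D.g_mem⟩, fun b => ?_⟩
    rcases D.cover (b : G) b.2 with hb | hb <;> obtain ⟨k, hk⟩ := mem_zpowers_iff.1 hb
    · have h1 : b ∈ M ↔ k % 2 = 0 := by
        rw [hMmem]; constructor
        · rintro ⟨i, h | h⟩
          · have := hpar _ _ (hk.trans h); omega
          · exact absurd (hk.trans h) (hnmem _ _)
        · exact fun h => ⟨k / 2, Or.inl (by rw [← hk]; congr 1; omega)⟩
      have h2 : b * ⟨g, D.g_mem⟩ ∈ M ↔ k % 2 = 1 := by
        rw [hMmem]; simp only [Subgroup.coe_mul, ← hk]; constructor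
        · rintro ⟨i, h | h⟩
          · exact absurd h.symm (hnmem _ _)
          · have := hpar _ _ (mul_right_cancel h); omega
        · exact fun h => ⟨k / 2, Or.inr (by congr 2; omega)⟩
      rw [h1, h2]; rcases Int.emod_two_eq k with e | e <;> simp [e, Xor]
    · have hbk : (b : G) = a ^ k * g := by rw [hk, mul_assoc, D.sq, mul_one]
      have h1 : b ∈ M ↔ k % 2 = 1 := by
        rw [hMmem, hbk]; constructor
        · rintro ⟨i, h | h⟩
          · exact absurd h.symm (hnmem _ _)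
          · have := hpar _ _ (mul_right_cancel h); omega
        · exact fun h => ⟨k / 2, Or.inr (by congr 2; omega)⟩
      have h2 : b * ⟨g, D.g_mem⟩ ∈ M ↔ k % 2 = 0 := by
        rw [hMmem]; simp only [Subgroup.coe_mul, hbk, mul_assoc, D.sq, mul_one]; constructor
        · rintro ⟨i, h | h⟩
          · have := hpar _ _ h; omega
          · exact absurd h (hnmem _ _)
        · exact fun h => ⟨k / 2, Or.inl (by congr 1; omega)⟩
      rw [h1, h2]; rcases Int.emod_two_eq k with e | e <;> simp [e, Xor]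
  refine (Cfsg.Lib.Transfer.exists_index_two S M hM ⟨g, D.g_mem⟩ ?_ ?_).imp fun K hK => ⟨hK.1, hK.2.1⟩
  · intro x hm hxM
    obtain ⟨i, hi | hi⟩ := hxM
    all_goals change x⁻¹ * g * x = _ at hi
    all_goals have hgc : IsConj g (x⁻¹ * g * x) := isConj_iff.2 ⟨x⁻¹, by rw [inv_inv]⟩
    all_goals rw [hi] at hgc
    · have ho : orderOf (a ^ (2 * i)) = 2 := by
        obtain ⟨w, hw⟩ := isConj_iff.1 hgc
        rw [← hw, ← orderOf_refl D D.g_mem D.g_not]
        exact (MulAut.conj w).orderOf_eq g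
      rw [involution_unique (zpow_mem (mem_zpowers a) _) (pow_mem (mem_zpowers a) _) ho D.exists_central.1] at hgc
      exact hg hgc.symm
    · refine hg (hag.trans ((IsConj.trans hgc ?_).symm))
      refine isConj_iff.2 ⟨a ^ (-i), ?_⟩
      rw [← zpow_neg, neg_neg, mul_assoc, mul_assoc, g_mul_zpow D, ← mul_assoc, ← mul_assoc, ← zpow_add, ← zpow_add]
      rw [show -i + (2 * i + 1) + -i = (1 : ℤ) by ring, zpow_one]
  · intro m x hm
    refine ⟨0, Or.inl ?_⟩
    show x⁻¹ * g ^ (2 * m) * x = _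
    rw [pow_mul, sq, D.sq, one_pow, mul_one, inv_mul_cancel, mul_zero, zpow_zero]

theorem complement_of_unfused (D : DihSylow S a g t) (hg : ¬ IsConj (a ^ 2 ^ (t - 1)) g)
    (hag : ¬ IsConj (a ^ 2 ^ (t - 1)) (a * g)) : Cfsg.HasNormalPComplement 2 G := by
  haveI : Fact (Nat.Prime 2) := ⟨Nat.prime_two⟩
  rw [Cfsg.Lib.Transfer.frobenius_iff S]
  refine D.frobeniusCond_of fun U hU hK y hy hodd => ?_
  obtain ⟨hcU, r, hrU, hra, heq⟩ := D.klein_structure hK hU
  set c := a ^ 2 ^ (t - 1) with hc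
  have hc1 : c ≠ 1 := fun e => by have := D.exists_central.1; rw [← hc, e, orderOf_one] at this; omega
  by_contra hyC
  have hne : y * c * y⁻¹ ≠ c := fun e => hyC (klein_fix hK hodd hy hcU hc1 e)
  have hmem : y * c * y⁻¹ ∈ U := (mem_normalizer_iff.1 hy c).1 hcU
  have hr2 := (D.involution_of_not_mem (hU hrU) hra).1
  obtain ⟨-, hel⟩ := klein_closure (c := c) (r := r)
    (by have := pow_orderOf_eq_one c; rwa [D.exists_central.1, pow_two] at this) hr2
    (D.exists_central.2 r (hU hrU) hra) hc1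
    (fun e => hra (e ▸ one_mem _)) (fun e => hra (e ▸ pow_mem (mem_zpowers a) _))
  have hrefl : y * c * y⁻¹ ∉ zpowers a := by
    rcases hel _ (heq.symm ▸ hmem) with h | h | h | h
    · exact absurd h (fun e => hc1 (conj_eq_one_iff.1 e))
    · exact absurd h hne
    · rw [h]; exact hra
    · rw [h]; exact fun h' => hra (by
        have := mul_mem (inv_mem (pow_mem (mem_zpowers a) (2 ^ (t - 1)))) h'
        rwa [← hc, inv_mul_cancel_left] at this)
  rcases refl_cases D (hU hmem) hrefl with h | h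
  · exact hg ((isConj_iff.2 ⟨y, rfl⟩ : IsConj c (y * c * y⁻¹)).trans h)
  · exact hag ((isConj_iff.2 ⟨y, rfl⟩ : IsConj c (y * c * y⁻¹)).trans h)

theorem classes_eq (D : DihSylow S a g t) :
    {C : ConjClasses G | ∃ x : G, ConjClasses.mk x = C ∧ orderOf x = 2} =
      ({ConjClasses.mk (a ^ 2 ^ (t - 1)), ConjClasses.mk g, ConjClasses.mk (a * g)} : Set (ConjClasses G)) := by
  ext C
  simp only [Set.mem_setOf_eq, Set.mem_insert_iff, Set.mem_singleton_iff]
  constructor
  · rintro ⟨x, rfl, hx⟩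
    rcases invol_cases D hx with h | h | h
    · exact Or.inl (ConjClasses.mk_eq_mk_iff_isConj.2 h)
    · exact Or.inr (Or.inl (ConjClasses.mk_eq_mk_iff_isConj.2 h))
    · exact Or.inr (Or.inr (ConjClasses.mk_eq_mk_iff_isConj.2 h))
  · rintro (rfl | rfl | rfl)
    exacts [⟨_, rfl, D.exists_central.1⟩, ⟨_, rfl, orderOf_refl D D.g_mem D.g_not⟩,
      ⟨_, rfl, orderOf_refl D (mul_mem D.a_mem D.g_mem) (ag_not_mem D)⟩]

theorem flip (D : DihSylow S a g t) : DihSylow S a (a * g) t where
  t_pos := D.t_pos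
  a_mem := D.a_mem
  g_mem := mul_mem D.a_mem D.g_mem
  ord := D.ord
  sq := (D.involution_of_not_mem (mul_mem D.a_mem D.g_mem) (ag_not_mem D)).1
  g_not := ag_not_mem D
  inv := (D.involution_of_not_mem (mul_mem D.a_mem D.g_mem) (ag_not_mem D)).2
  cover := fun x hx => by
    by_cases h : x ∈ zpowers a
    · exact Or.inl h
    · exact Or.inr (D.mul_mem_of_not_mem hx (mul_mem D.a_mem D.g_mem) h (ag_not_mem D))
  card := D.card

/-- Let G be a finite group whose Sylow 2-subgroups are dihedral of order 2 ^ n with n ≥ 3, and count the conjugacy classes of involutions of G. Then exactly one of the following holds: there is one class of involutions and no normal subgroup of index 2; there are two classes of involutions, a normal subgroup of index 2 and none of index 4; there are three classes of involutions and G has a normal 2-complement. -/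
theorem result {G : Type*} [Group G] [Finite G] (P : Sylow 2 G) (n : ℕ) (hn : 3 ≤ n) (hdih : Nonempty (↥(P : Subgroup G) ≃* DihedralGroup (2 ^ (n - 1)))) : (Nat.card {C : ConjClasses G // ∃ g : G, ConjClasses.mk g = C ∧ orderOf g = 2} = 1 ∧ ∀ N : Subgroup G, N.Normal → N.index ≠ 2) ∨ (Nat.card {C : ConjClasses G // ∃ g : G, ConjClasses.mk g = C ∧ orderOf g = 2} = 2 ∧ (∃ N : Subgroup G, N.Normal ∧ N.index = 2) ∧ ∀ N : Subgroup G, N.Normal → N.index ≠ 4) ∨ (Nat.card {C : ConjClasses G // ∃ g : G, ConjClasses.mk g = C ∧ orderOf g = 2} = 3 ∧ Cfsg.HasNormalPComplement 2 G) := by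
  classical
  haveI : Fact (Nat.Prime 2) := ⟨Nat.prime_two⟩
  obtain ⟨e⟩ := hdih
  obtain ⟨a, g, t, D, hmt⟩ := exists_dihSylow P (le_trans (by norm_num) (Nat.pow_le_pow_right two_pos (show 1 ≤ n - 1 by omega))) e
  have ht : 2 ≤ t := by
    have := Nat.pow_right_injective le_rfl hmt
    omega
  set c := a ^ 2 ^ (t - 1) with hc
  have hcount : Nat.card {C : ConjClasses G // ∃ x : G, ConjClasses.mk x = C ∧ orderOf x = 2} =
      ({ConjClasses.mk c, ConjClasses.mk g, ConjClasses.mk (a * g)} : Set (ConjClasses G)).ncard := by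
    rw [← classes_eq D]; exact Nat.card_coe_set_eq _
  rw [hcount]
  have hga : IsConj (a * (a * g)) g := by
    refine isConj_iff.2 ⟨a⁻¹, ?_⟩
    have hg1 := g_mul_zpow D 1
    rw [zpow_one, zpow_neg, zpow_one] at hg1
    rw [inv_inv, show a⁻¹ * (a * (a * g)) * a = a * (g * a) by group, hg1, mul_inv_cancel_left]
  by_cases hg : IsConj c g <;> by_cases hag : IsConj c (a * g)
  · left
    refine ⟨?_, fun N hN hN2 => ?_⟩
    · rw [← ConjClasses.mk_eq_mk_iff_isConj.2 hg, ← ConjClasses.mk_eq_mk_iff_isConj.2 hag]; simp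
    · haveI := hN
      have := (quotient_small D ht hag N (k := 1) (by rw [hN2, pow_one]) (by norm_num)).2 hg
      omega
  · right; left
    refine ⟨?_, exists_index_two_of_not_conj (flip D) ht (hg.trans hga.symm) hag, fun N hN hN4 => ?_⟩
    · rw [← ConjClasses.mk_eq_mk_iff_isConj.2 hg, Set.insert_eq_of_mem (Set.mem_insert _ _),
        Set.ncard_pair (fun e => hag (ConjClasses.mk_eq_mk_iff_isConj.1 e))]
    · haveI := hN
      have := (quotient_small (flip D) ht (hg.trans hga.symm) N (k := 2) (by rw [hN4]; rfl) le_rfl).1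
      omega
  · right; left
    refine ⟨?_, exists_index_two_of_not_conj D ht hag hg, fun N hN hN4 => ?_⟩
    · rw [← ConjClasses.mk_eq_mk_iff_isConj.2 hag, Set.pair_comm (ConjClasses.mk g), Set.insert_eq_of_mem (Set.mem_insert _ _),
        Set.ncard_pair (fun e => hg (ConjClasses.mk_eq_mk_iff_isConj.1 e))]
    · haveI := hN
      have := (quotient_small D ht hag N (k := 2) (by rw [hN4]; rfl) le_rfl).1
      omega
  · right; right
    refine ⟨?_, complement_of_unfused D hg hag⟩
    have h1 : ConjClasses.mk g ≠ ConjClasses.mk (a * g) := fun e =>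
      hg (fused_of_conj D ht (ConjClasses.mk_eq_mk_iff_isConj.1 e))
    rw [Set.ncard_insert_of_notMem, Set.ncard_pair h1]
    simp only [Set.mem_insert_iff, Set.mem_singleton_iff, not_or]
    exact ⟨fun e => hg (ConjClasses.mk_eq_mk_iff_isConj.1 e), fun e => hag (ConjClasses.mk_eq_mk_iff_isConj.1 e)⟩

end Cfsg.Agent.S3864
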