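import Cfsg.Statements.S3866
import Mathlib
-- import your own Cfsg.Agent.* helpers here

set_option autoImplicit false
open Cfsg
open scoped commutatorElement

namespace Cfsg.Agent.S3866

/-- Let A be a commutative normal subgroup of the finite group G with G generated by A and an element x. Then a ↦ x a x⁻¹ a⁻¹ is a surjective homomorphism from A onto the commutator subgroup of G whose kernel is the centralizer of x in A; in particular the commutator subgroup has order equal to the index in A of that centralizer. -/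
theorem result {G : Type*} [Group G] [Finite G] (A : Subgroup G) [A.Normal] (hA : IsMulCommutative A) (x : G) (hgen : A ⊔ Subgroup.zpowers x = ⊤) : (∀ a ∈ A, x * a * x⁻¹ * a⁻¹ ∈ commutator G) ∧ (∀ c ∈ commutator G, ∃ a ∈ A, x * a * x⁻¹ * a⁻¹ = c) ∧ (∀ a ∈ A, ∀ b ∈ A, x * (a * b) * x⁻¹ * (a * b)⁻¹ = (x * a * x⁻¹ * a⁻¹) * (x * b * x⁻¹ * b⁻¹)) ∧ Nat.card (commutator G) * Nat.card ↥(A ⊓ Subgroup.centralizer ({x} : Set G)) = Nat.card A := by
  let φ : A →* G :=
    { toFun := fun a => x * (a : G) * x⁻¹ * (a : G)⁻¹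
      map_one' := by simp
      map_mul' := fun a b => by
        have hb : x * (b : G) * x⁻¹ * (b : G)⁻¹ ∈ A :=
          A.mul_mem ((inferInstance : A.Normal).conj_mem _ b.2 x) (A.inv_mem b.2)
        have hc : (x * (b : G) * x⁻¹ * (b : G)⁻¹) * (a : G)⁻¹ = (a : G)⁻¹ * (x * (b : G) * x⁻¹ * (b : G)⁻¹) :=
          congrArg Subtype.val (hA.is_comm.comm ⟨_, hb⟩ ⟨_, A.inv_mem a.2⟩)
        calc x * ((a * b : A) : G) * x⁻¹ * ((a * b : A) : G)⁻¹
            = (x * (a : G) * x⁻¹) * ((x * (b : G) * x⁻¹ * (b : G)⁻¹) * (a : G)⁻¹) := by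
              rw [Subgroup.coe_mul]; group
          _ = _ := by rw [hc]; group }
  have hmem : ∀ a ∈ A, x * a * x⁻¹ * a⁻¹ ∈ commutator G := fun a _ => by
    rw [← commutatorElement_def]
    exact Subgroup.commutator_mem_commutator (Subgroup.mem_top x) (Subgroup.mem_top a)
  have hrA : φ.range ≤ A := by
    rintro _ ⟨a, rfl⟩
    exact A.mul_mem ((inferInstance : A.Normal).conj_mem _ a.2 x) (A.inv_mem a.2)
  haveI hn : φ.range.Normal := by
    refine Subgroup.normalizer_eq_top_iff.1 (top_le_iff.1 (hgen ▸ sup_le ?_ ?_))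
    · intro a ha
      refine Subgroup.mem_normalizer_iff.2 fun z => ?_
      have e : ∀ w ∈ A, a * w * a⁻¹ = w := fun w hw => by
        rw [show a * w = w * a from congrArg Subtype.val (hA.is_comm.comm ⟨a, ha⟩ ⟨w, hw⟩),
          mul_inv_cancel_right]
      constructor
      · intro hz; rw [e z (hrA hz)]; exact hz
      · intro hz
        have h1 : z ∈ A := by simpa [mul_assoc] using A.mul_mem (A.mul_mem (A.inv_mem ha) (hrA hz)) ha
        rwa [e z h1] at hz
    · refine Subgroup.zpowers_le.2 (Subgroup.mem_normalizer_iff.2 fun z => ?_)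
      constructor
      · rintro ⟨a, rfl⟩
        exact ⟨⟨x * a * x⁻¹, (inferInstance : A.Normal).conj_mem _ a.2 x⟩, by
          show x * (x * (a : G) * x⁻¹) * x⁻¹ * (x * (a : G) * x⁻¹)⁻¹ = x * (x * (a : G) * x⁻¹ * (a : G)⁻¹) * x⁻¹
          group⟩
      · rintro ⟨a, ha⟩
        refine ⟨⟨x⁻¹ * a * x, by simpa using (inferInstance : A.Normal).conj_mem _ a.2 x⁻¹⟩, ?_⟩
        change x * (a : G) * x⁻¹ * (a : G)⁻¹ = x * z * x⁻¹ at ha
        show x * (x⁻¹ * (a : G) * x) * x⁻¹ * (x⁻¹ * (a : G) * x)⁻¹ = z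
        calc x * (x⁻¹ * (a : G) * x) * x⁻¹ * (x⁻¹ * (a : G) * x)⁻¹
            = x⁻¹ * (x * (a : G) * x⁻¹ * (a : G)⁻¹) * x := by group
          _ = _ := by rw [ha]; group
  have hle : commutator G ≤ φ.range := by
    set q := QuotientGroup.mk' φ.range
    have hxa : ∀ a ∈ A, q x * q a = q a * q x := fun a ha => by
      refine mul_inv_eq_iff_eq_mul.1 (mul_inv_eq_one.1 ?_)
      rw [← map_inv, ← map_inv, ← map_mul, ← map_mul, ← map_mul]
      exact (QuotientGroup.eq_one_iff _).2 ⟨⟨a, ha⟩, rfl⟩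
    have haa : ∀ a ∈ A, ∀ b ∈ A, q a * q b = q b * q a := fun a ha b hb => by
      rw [← map_mul, ← map_mul, show a * b = b * a from
        congrArg Subtype.val (hA.is_comm.comm ⟨a, ha⟩ ⟨b, hb⟩)]
    have hx : ∀ g, Commute (q x) (q g) := fun g => by
      have hh : (⊤ : Subgroup G) ≤ (Subgroup.centralizer {q x}).comap q := hgen ▸ sup_le
        (fun a ha => Subgroup.mem_centralizer_singleton_iff.2 (hxa a ha).symm)
        (Subgroup.zpowers_le.2 (Subgroup.mem_centralizer_singleton_iff.2 rfl))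
      exact (Subgroup.mem_centralizer_singleton_iff.1 (hh (Subgroup.mem_top g))).symm
    have hall : ∀ g h, Commute (q g) (q h) := fun g h => by
      have hh : (⊤ : Subgroup G) ≤ (Subgroup.centralizer {q h}).comap q := hgen ▸ sup_le
        (fun a ha => by
          refine Subgroup.mem_centralizer_singleton_iff.2 ?_
          have hh2 : (⊤ : Subgroup G) ≤ (Subgroup.centralizer {q a}).comap q := hgen ▸ sup_le
            (fun b hb => Subgroup.mem_centralizer_singleton_iff.2 (haa b hb a ha))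
            (Subgroup.zpowers_le.2 (Subgroup.mem_centralizer_singleton_iff.2 (hx a).eq))
          exact (Subgroup.mem_centralizer_singleton_iff.1 (hh2 (Subgroup.mem_top h))).symm)
        (Subgroup.zpowers_le.2 (Subgroup.mem_centralizer_singleton_iff.2 (hx h).eq))
      exact Subgroup.mem_centralizer_singleton_iff.1 (hh (Subgroup.mem_top g))
    rw [_root_.commutator_def, Subgroup.commutator_le]
    intro g _ h _
    refine (QuotientGroup.eq_one_iff _).1 ?_
    show q ⁅g, h⁆ = 1
    rw [map_commutatorElement, commutatorElement_eq_one_iff_mul_comm]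
    exact (hall g h).eq
  have heq : commutator G = φ.range := le_antisymm hle (by rintro _ ⟨a, rfl⟩; exact hmem a a.2)
  refine ⟨hmem, fun c hc => ?_, fun a ha b hb => map_mul φ ⟨a, ha⟩ ⟨b, hb⟩, ?_⟩
  · obtain ⟨a, rfl⟩ := hle hc
    exact ⟨a, a.2, rfl⟩
  · have hk : Nat.card φ.ker = Nat.card ↥(A ⊓ Subgroup.centralizer ({x} : Set G)) := by
      refine Nat.card_congr ⟨fun a => ⟨a.1.1, a.1.2, Subgroup.mem_centralizer_singleton_iff.2 ?_⟩,
        fun a => ⟨⟨a.1, a.2.1⟩, ?_⟩, fun a => rfl, fun a => rfl⟩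
      · have h : x * (a.1 : G) * x⁻¹ * (a.1 : G)⁻¹ = 1 := a.2
        exact (mul_inv_eq_iff_eq_mul.1 (mul_inv_eq_one.1 h)).symm
      · show x * a.1 * x⁻¹ * a.1⁻¹ = 1
        rw [← Subgroup.mem_centralizer_singleton_iff.1 a.2.2, mul_inv_cancel_right, mul_inv_cancel]
    rw [heq, ← hk, ← φ.ker.card_mul_index, Subgroup.index_ker, mul_comm]

end Cfsg.Agent.S3866
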