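import Cfsg.Statements.S3867
import Mathlib
import Cfsg.Agent.Lib.Solv.SchurZassenhaus
import Cfsg.Agent.Lib.Solv.PGroupBasic
-- import your own Cfsg.Agent.* helpers here

set_option autoImplicit false
open Cfsg
open scoped Pointwise

namespace Cfsg.Agent.S3867

/-- Let M and N be nontrivial normal subgroups of the finite group G with M ⊓ N trivial, and let p be a prime. Writing n(X) for the number of Sylow p-subgroups of a group X, one has n(G) · n(G/MN) = n(G/M) · n(G/N). -/
theorem result {G : Type*} [Group G] [Finite G] (p : ℕ) [Fact p.Prime] (M N : Subgroup G) [M.Normal] [N.Normal] (hM : M ≠ ⊥) (hN : N ≠ ⊥) (hMN : M ⊓ N = ⊥) : Nat.card (Sylow p G) * Nat.card (Sylow p (G ⧸ (M ⊔ N))) = Nat.card (Sylow p (G ⧸ M)) * Nat.card (Sylow p (G ⧸ N)) := by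
  classical
  obtain ⟨P⟩ := (inferInstance : Nonempty (Sylow p G))
  set N₀ := Subgroup.normalizer ((P : Subgroup G) : Set G) with hN₀
  have key : ∀ (L : Subgroup G) [L.Normal], Nat.card (Sylow p (G ⧸ L)) = (N₀ ⊔ L).index := by
    intro L _
    set f := QuotientGroup.mk' L with hf
    have hsur := QuotientGroup.mk'_surjective L
    rw [(P.mapSurjective hsur).card_eq_index_normalizer,
      ← Subgroup.index_comap_of_surjective _ hsur]
    show (Subgroup.comap f (Subgroup.normalizer (((P.mapSurjective hsur : Sylow p (G ⧸ L)) :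
      Subgroup (G ⧸ L)) : Set (G ⧸ L)))).index = _
    rw [hf, Subgroup.comap_normalizer_eq_of_surjective _ hsur,
      Sylow.coe_mapSurjective, Subgroup.comap_map_eq, QuotientGroup.ker_mk']
    congr 1
    refine le_antisymm (fun g hg => ?_) (sup_le (fun n hn => ?_) ?_)
    · set W := (P : Subgroup G) ⊔ L
      have hPW : (P : Subgroup G) ≤ W := le_sup_left
      have hgPW : ((g • P : Sylow p G) : Subgroup G) ≤ W := by
        rintro _ ⟨x, hx, rfl⟩
        exact (Subgroup.mem_normalizer_iff.1 hg x).1 (hPW hx)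
      obtain ⟨w, hw⟩ := MulAction.exists_smul_eq W ((g • P).subtype hgPW) (P.subtype hPW)
      have hw' : ((w : G) * g) • P = P := by
        apply Sylow.ext
        have h1 := congrArg (fun Q : Sylow p W => (Q : Subgroup W).map W.subtype) hw
        simp only [Sylow.coe_subtype, Subgroup.map_subgroupOf_eq_of_le hPW] at h1
        rw [mul_smul, Sylow.coe_subgroup_smul]
        conv_rhs => rw [← h1]
        ext x
        constructor
        · rintro ⟨y, hy, rfl⟩
          exact ⟨w * ⟨y, hgPW hy⟩ * w⁻¹, ⟨⟨y, hgPW hy⟩, hy, rfl⟩, rfl⟩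
        · rintro ⟨z, ⟨y, hy, rfl⟩, rfl⟩
          exact ⟨(y : G), hy, rfl⟩
      rw [Sylow.smul_eq_iff_mem_normalizer] at hw'
      have hle : W ≤ N₀ ⊔ L := sup_le_sup_right Subgroup.le_normalizer L
      simpa using (N₀ ⊔ L).mul_mem ((N₀ ⊔ L).inv_mem (hle w.2)) (Subgroup.mem_sup_left hw')
    · rw [← Cfsg.Lib.Solv.conj_smul_eq_self_iff, Subgroup.smul_sup,
        Cfsg.Lib.Solv.conj_smul_eq_self_iff.2 hn, Cfsg.Lib.Solv.conj_smul_normal]
    · exact le_sup_right.trans Subgroup.le_normalizer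
  have hinf : (N₀ ⊔ M) ⊓ (N₀ ⊔ N) = N₀ := by
    refine le_antisymm (fun g hg => ?_) (le_inf le_sup_left le_sup_left)
    have hPM : ∀ (L : Subgroup G) [L.Normal], g ∈ N₀ ⊔ L →
        g ∈ Subgroup.normalizer (((P : Subgroup G) ⊔ L : Subgroup G) : Set G) := by
      intro L _ h
      refine (sup_le (fun n hn => ?_) (le_sup_right.trans Subgroup.le_normalizer) : N₀ ⊔ L ≤ _) h
      rw [← Cfsg.Lib.Solv.conj_smul_eq_self_iff, Subgroup.smul_sup,
        Cfsg.Lib.Solv.conj_smul_eq_self_iff.2 hn, Cfsg.Lib.Solv.conj_smul_normal]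
    set X := ((P : Subgroup G) ⊔ M) ⊓ ((P : Subgroup G) ⊔ N) with hX
    have hXP : X = (P : Subgroup G) := by
      refine P.3 ?_ (le_inf le_sup_left le_sup_left)
      intro x
      have hq : ∀ (L : Subgroup G) [L.Normal], (x : G) ∈ (P : Subgroup G) ⊔ L →
          ∃ k : ℕ, (x : G) ^ p ^ k ∈ L := by
        intro L _ h
        rw [← SetLike.mem_coe, Subgroup.mul_normal] at h
        obtain ⟨a, ha, l, hl, e⟩ := Set.mem_mul.1 h
        obtain ⟨k, hk⟩ := P.2 ⟨a, ha⟩
        refine ⟨k, (QuotientGroup.eq_one_iff _).1 ?_⟩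
        rw [← QuotientGroup.mk'_apply, map_pow, ← e, map_mul,
          show QuotientGroup.mk' L l = 1 from (QuotientGroup.eq_one_iff l).2 hl, mul_one, ← map_pow,
          show a ^ p ^ k = 1 from congrArg Subtype.val hk, map_one]
      obtain ⟨i, hi⟩ := hq M x.2.1
      obtain ⟨j, hj⟩ := hq N x.2.2
      refine ⟨i + j, Subtype.ext ?_⟩
      have h1 : (x : G) ^ p ^ (i + j) ∈ M ⊓ N := ⟨by rw [pow_add, pow_mul]; exact M.pow_mem hi _,
        by rw [add_comm i j, pow_add, pow_mul]; exact N.pow_mem hj _⟩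
      rw [hMN, Subgroup.mem_bot] at h1
      exact h1
    rw [hN₀, ← hXP]
    rw [← Cfsg.Lib.Solv.conj_smul_eq_self_iff, hX, Subgroup.smul_inf,
      Cfsg.Lib.Solv.conj_smul_eq_self_iff.2 (hPM M hg.1),
      Cfsg.Lib.Solv.conj_smul_eq_self_iff.2 (hPM N hg.2)]
  rw [P.card_eq_index_normalizer, key, key, key, mul_comm (N₀ ⊔ M).index]
  show N₀.index * _ = _
  set A := N₀ ⊔ M with hA
  set B := N₀ ⊔ N with hB
  have hAB : N₀ ⊔ (M ⊔ N) = A ⊔ N := (sup_assoc _ _ _).symm
  rw [hAB, ← Subgroup.relIndex_mul_index (le_sup_left : N₀ ≤ B), ← Subgroup.relIndex_mul_index (le_sup_left : A ≤ A ⊔ N),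
    hB, Cfsg.Lib.Solv.relIndex_sup_left_normal, Cfsg.Lib.Solv.relIndex_sup_left_normal]
  have e : A.relIndex N = N₀.relIndex N := by
    rw [← Subgroup.inf_relIndex_right A N, ← Subgroup.inf_relIndex_right N₀ N]
    congr 1
    exact le_antisymm (le_inf (le_of_le_of_eq (le_inf inf_le_left (inf_le_right.trans le_sup_right)) hinf) inf_le_right)
      (inf_le_inf_right _ le_sup_left)
  rw [e, ← hB]
  ring

end Cfsg.Agent.S3867
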