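import Cfsg.Statements.S3878
import Mathlib

set_option autoImplicit false
open Cfsg
open scoped Pointwise commutatorElement

namespace Cfsg.Agent.S3878

open Equiv MulAction

/-- A subgroup whose index is prime to `p` contains a conjugate of every `p`-subgroup. -/
theorem exists_conj_le {G : Type*} [Group G] [Finite G] {p : ℕ} (hp : p.Prime) (H : Subgroup G)
    (hidx : ¬ p ∣ H.index) (Q : Subgroup G) (hQ : IsPGroup p Q) :
    ∃ g : G, ∀ x ∈ Q, g * x * g⁻¹ ∈ H := by
  haveI : Fact p.Prime := ⟨hp⟩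
  obtain ⟨S⟩ := (inferInstance : Nonempty (Sylow p H))
  obtain ⟨P, hP⟩ := hQ.exists_le_sylow
  set S' : Subgroup G := (S : Subgroup H).map H.subtype with hS'
  have hS'p : IsPGroup p S' := S.isPGroup'.map _
  have hS'idx : ¬ p ∣ S'.index := by
    rw [hS', Subgroup.index_map_subtype]
    exact Nat.Prime.not_dvd_mul hp S.not_dvd_index hidx
  obtain ⟨T, hT⟩ := hS'p.exists_le_sylow
  have hTS : (T : Subgroup G) = S' := by
    refine (le_antisymm hT ?_).symm
    have h1 : S'.relIndex T ∣ S'.index := Subgroup.relIndex_dvd_index_of_le hT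
    obtain ⟨k, hk⟩ := T.isPGroup'.index (S'.subgroupOf T)
    rcases Nat.eq_zero_or_pos k with hk0 | hk0
    · rw [hk0, pow_zero] at hk
      exact Subgroup.relIndex_eq_one.mp hk
    · exact absurd ((dvd_pow_self p hk0.ne').trans (hk ▸ h1)) hS'idx
  obtain ⟨g, hg⟩ := MulAction.exists_smul_eq G P T
  refine ⟨g, fun x hx => ?_⟩
  have : g * x * g⁻¹ ∈ (T : Subgroup G) := by
    rw [← hg]
    change g * x * g⁻¹ ∈ MulAut.conj g • (P : Subgroup G)
    exact Subgroup.smul_mem_pointwise_smul x (MulAut.conj g) _ (hP hx)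
  rw [hTS] at this
  exact Subgroup.map_subtype_le _ this

/-- A cyclic permutation moving every point, conjugated into `H`, makes `H` transitive. -/
theorem pretransitive_of_finRotate {n : ℕ} (hn : 2 ≤ n) {α : Type} (e : Fin n ≃ α)
    (H : Subgroup (Perm α)) (g : Perm α) (hg : g * e.permCongr (finRotate n) * g⁻¹ ∈ H) :
    IsPretransitive H α := by
  refine ⟨fun a b => ?_⟩
  obtain ⟨m, rfl⟩ : ∃ m, n = m + 2 := ⟨n - 2, by omega⟩
  have hne : ∀ x : Fin (m + 2), finRotate (m + 2) x ≠ x := by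
    intro x
    have hx : x ∈ (finRotate (m + 2)).support := by simp [support_finRotate]
    exact Perm.mem_support.mp hx
  obtain ⟨i, hi⟩ := (isCycle_finRotate (n := m)).sameCycle (hne (e.symm (g⁻¹ a)))
    (hne (e.symm (g⁻¹ b)))
  refine ⟨⟨_, H.zpow_mem hg i⟩, ?_⟩
  have h1 : e.permCongr (finRotate (m + 2)) ^ i = e.permCongr (finRotate (m + 2) ^ i) :=
    (map_zpow e.permCongrHom (finRotate (m + 2)) i).symm
  change ((g * e.permCongr (finRotate (m + 2)) * g⁻¹) ^ i) a = b
  rw [conj_zpow, h1, Perm.mul_apply, Perm.mul_apply, Equiv.permCongr_apply, hi,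
    Equiv.apply_symm_apply]
  simp

theorem finRotate_isPGroup {p k n : ℕ} (hn : n = p ^ k) {α : Type} (e : Fin n ≃ α)
    (hn2 : 2 ≤ n) (hp : p.Prime) :
    IsPGroup p (Subgroup.zpowers (e.permCongr (finRotate n))) := by
  haveI : Fact p.Prime := ⟨hp⟩
  obtain ⟨m, rfl⟩ : ∃ m, n = m + 2 := ⟨n - 2, by omega⟩
  refine IsPGroup.of_card (n := k) ?_
  rw [Nat.card_zpowers]
  have h := orderOf_injective e.permCongrHom.toMonoidHom e.permCongrHom.injective
    (finRotate (m + 2))
  rw [show e.permCongr (finRotate (m + 2)) = e.permCongrHom.toMonoidHom (finRotate (m + 2))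
    from rfl, h, (isCycle_finRotate (n := m)).orderOf, support_finRotate]
  simp [← hn]

/-- `S_q` has no Hall subgroup when `2, q ∈ π` and some prime `r < q` is missing. -/
theorem no_hall_two {π : Set ℕ} {q r : ℕ} (hq : q.Prime) (hr : r.Prime) (h2π : (2:ℕ) ∈ π)
    (hqπ : q ∈ π) (hrπ : r ∉ π) (hrq : r < q) : ¬ IsEPiGroup π (Perm (Fin q)) := by
  rintro ⟨H, hH1, hH2⟩
  have hq2 : 2 ≤ q := hq.two_le
  obtain ⟨g, hg⟩ := exists_conj_le hq H (hH2 q hq hqπ) _
    (finRotate_isPGroup (pow_one q).symm (Equiv.refl (Fin q)) hq2 hq)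
  haveI : IsPretransitive H (Fin q) :=
    pretransitive_of_finRotate hq2 (Equiv.refl _) H g (hg _ (Subgroup.mem_zpowers _))
  have hprim : IsPreprimitive H (Fin q) := IsPreprimitive.of_prime_card (by simpa using hq)
  set s : Perm (Fin q) := Equiv.swap ⟨0, by omega⟩ ⟨1, by omega⟩ with hs
  have hsw : s.IsSwap := ⟨_, _, by simp, hs⟩
  haveI : Fact (Nat.Prime 2) := ⟨Nat.prime_two⟩
  obtain ⟨u, hu⟩ := exists_conj_le Nat.prime_two H (hH2 2 Nat.prime_two h2π) (Subgroup.zpowers s)
    (IsPGroup.of_card (n := 1) (by rw [Nat.card_zpowers, hsw.orderOf, pow_one]))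
  have hsw' : (u * s * u⁻¹).IsSwap := by
    refine ⟨u ⟨0, by omega⟩, u ⟨1, by omega⟩, by simp, ?_⟩
    rw [hs, Equiv.swap_apply_apply]
  have htop := Perm.subgroup_eq_top_of_isPreprimitive_of_isSwap_mem hprim _ hsw'
    (hu _ (Subgroup.mem_zpowers _))
  apply hrπ (hH1 r hr ?_)
  rw [htop, Subgroup.card_top, Nat.card_perm, Nat.card_fin]
  exact hr.dvd_factorial.mpr hrq.le

/-- `S_q` has no Hall subgroup when `p < q` are in `π` and some prime `r < q` is missing. -/
theorem no_hall_prime {π : Set ℕ} {p q r : ℕ} (hp : p.Prime) (hq : q.Prime) (hr : r.Prime)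
    (hpπ : p ∈ π) (hqπ : q ∈ π) (hrπ : r ∉ π) (hpq : p < q) (hrq : r < q) :
    ¬ IsEPiGroup π (Perm (Fin q)) := by
  intro hE
  have hq2 : 2 ≤ q := hq.two_le
  suffices h2 : (2:ℕ) ∈ π from no_hall_two hq hr h2 hqπ hrπ hrq hE
  obtain ⟨H, hH1, hH2⟩ := hE
  refine hH1 2 Nat.prime_two ?_
  obtain ⟨g, hg⟩ := exists_conj_le hq H (hH2 q hq hqπ) _
    (finRotate_isPGroup (pow_one q).symm (Equiv.refl (Fin q)) hq2 hq)
  haveI : IsPretransitive H (Fin q) :=
    pretransitive_of_finRotate hq2 (Equiv.refl _) H g (hg _ (Subgroup.mem_zpowers _))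
  have hprim : IsPreprimitive H (Fin q) := IsPreprimitive.of_prime_card (by simpa using hq)
  haveI : NeZero q := ⟨by omega⟩
  set i : Fin q := ⟨p - 1, by omega⟩ with hi
  have hi0 : i ≠ 0 := by
    rw [Ne, Fin.ext_iff]; have := hp.two_le; simp [hi]; omega
  have hcyc : (Fin.cycleRange i).IsCycle := Fin.isCycle_cycleRange hi0
  have hsupp : (Fin.cycleRange i).support.card = p := by
    have h := hcyc.cycleType
    rw [Fin.cycleType_cycleRange hi0] at h
    have := hp.two_le
    simp only [Multiset.singleton_inj] at h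
    have hiv : (i : ℕ) = p - 1 := by rw [hi]
    omega
  haveI : Fact p.Prime := ⟨hp⟩
  obtain ⟨u, hu⟩ := exists_conj_le hp H (hH2 p hp hpπ) (Subgroup.zpowers (Fin.cycleRange i))
    (IsPGroup.of_card (n := 1) (by rw [Nat.card_zpowers, hcyc.orderOf, hsupp, pow_one]))
  set c := u * Fin.cycleRange i * u⁻¹ with hc
  have hcc : c.IsCycle := hcyc.conj
  have hcs : c.support.card = p := by rw [hc, Perm.card_support_conj, hsupp]
  have htr := Perm.isPretransitive_of_isCycle_mem hcc (hu _ (Subgroup.mem_zpowers _))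
  have hn : ((c.support : Set (Fin q))ᶜ).ncard = (q - p - 1) + 1 := by
    rw [Set.ncard_compl, Set.ncard_coe_finset, hcs, Nat.card_fin]; omega
  have h2t := hprim.is_two_pretransitive hn (by rw [Nat.card_fin]; have := hp.two_le; omega) htr
  rw [is_two_pretransitive_iff] at h2t
  obtain ⟨x, hx1, hx2⟩ := h2t (a := (⟨0, by omega⟩ : Fin q)) (b := ⟨1, by omega⟩)
    (c := ⟨1, by omega⟩) (d := ⟨0, by omega⟩) (by simp) (by simp)
  by_contra hodd
  have hx : Odd (orderOf x) := by
    rw [← Nat.not_even_iff_odd, even_iff_two_dvd]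
    exact fun h => hodd (h.trans (orderOf_dvd_natCard x))
  obtain ⟨k, hk⟩ := hx
  have h3 : (x ^ 2) ^ (k + 1) = x := by
    rw [← pow_mul, show 2 * (k + 1) = orderOf x + 1 by omega, pow_succ, pow_orderOf_eq_one, one_mul]
  have hfix : x ^ 2 • (⟨0, by omega⟩ : Fin q) = ⟨0, by omega⟩ := by rw [pow_two, mul_smul, hx1, hx2]
  have : x • (⟨0, by omega⟩ : Fin q) = ⟨0, by omega⟩ := by
    rw [← h3]
    exact smul_pow_eq_of_fixed_aux hfix _
  rw [hx1] at this
  simp at this
where
  smul_pow_eq_of_fixed_aux {M α : Type} [Monoid M] [MulAction M α] {y : M} {a : α}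
      (h : y • a = a) : ∀ k : ℕ, y ^ k • a = a
    | 0 => by rw [pow_zero, one_smul]
    | k + 1 => by rw [pow_succ, mul_smul, h, smul_pow_eq_of_fixed_aux h k]

/-- Rotation of the triples of `Option (Fin m × ZMod 3)`. -/
def rot (m : ℕ) : Multiplicative (Fin m → ZMod 3) →* Perm (Option (Fin m × ZMod 3)) where
  toFun v :=
    { toFun := Option.map fun x => (x.1, x.2 + Multiplicative.toAdd v x.1)
      invFun := Option.map fun x => (x.1, x.2 - Multiplicative.toAdd v x.1)
      left_inv := fun x => by cases x <;> simp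
      right_inv := fun x => by cases x <;> simp }
  map_one' := by ext x : 1; cases x <;> simp
  map_mul' u v := by ext x : 1; cases x <;> simp; abel

theorem rot_some (m : ℕ) (v : Fin m → ZMod 3) (i : Fin m) (t : ZMod 3) :
    rot m (Multiplicative.ofAdd v) (some (i, t)) = some (i, t + v i) := rfl

theorem rot_none (m : ℕ) (v : Multiplicative (Fin m → ZMod 3)) : rot m v none = none := rfl

/-- Symmetric groups of degree `4 ^ k` have no Hall subgroup when `2, 3 ∈ π` and a small prime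
is missing. -/
theorem zmod3_cycle : ∀ t : ZMod 3, t + 1 + 1 + 1 = t := by decide

theorem zmod3_ne : ∀ t s : ZMod 3, s ≠ t → s = t + 1 ∨ s = t + 1 + 1 := by decide

theorem zmod3_cases : ∀ t s : ZMod 3, s = t ∨ s = t + 1 ∨ s = t + 1 + 1 := by decide

theorem no_hall_four {π : Set ℕ} {r : ℕ} (hr : r.Prime) (h2π : (2:ℕ) ∈ π) (h3π : (3:ℕ) ∈ π)
    (hrπ : r ∉ π) {m k : ℕ} (hm : 3 * m + 1 = 2 ^ k) (hrm : r ≤ 3 * m + 1) :
    ¬ IsEPiGroup π (Perm (Option (Fin m × ZMod 3))) := by
  rintro ⟨H, hH1, hH2⟩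
  obtain ⟨m', rfl⟩ : ∃ m', m = m' + 1 := ⟨m - 1, by have := hr.two_le; omega⟩
  haveI : Fact (Nat.Prime 2) := ⟨Nat.prime_two⟩
  haveI : Fact (Nat.Prime 3) := ⟨Nat.prime_three⟩
  have hcard : Fintype.card (Option (Fin (m' + 1) × ZMod 3)) = 3 * (m' + 1) + 1 := by simp [mul_comm]
  have hn2 : 2 ≤ 3 * (m' + 1) + 1 := le_trans hr.two_le hrm
  let e : Fin (3 * (m' + 1) + 1) ≃ (Option (Fin (m' + 1) × ZMod 3)) := (Fintype.equivFinOfCardEq hcard).symm
  obtain ⟨g, hg⟩ := exists_conj_le Nat.prime_two H (hH2 2 Nat.prime_two h2π) _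
    (finRotate_isPGroup hm e hn2 Nat.prime_two)
  haveI : IsPretransitive H (Option (Fin (m' + 1) × ZMod 3)) :=
    pretransitive_of_finRotate hn2 e H g (hg _ (Subgroup.mem_zpowers _))
  set s : Perm (Option (Fin (m' + 1) × ZMod 3)) := Equiv.swap none (some (0, 0)) with hs
  have hsw : s.IsSwap := ⟨_, _, by simp, hs⟩
  obtain ⟨w, hw⟩ := exists_conj_le Nat.prime_two H (hH2 2 Nat.prime_two h2π) (Subgroup.zpowers s)
    (IsPGroup.of_card (n := 1) (by rw [Nat.card_zpowers, hsw.orderOf, pow_one]))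
  have hw' := hw _ (Subgroup.mem_zpowers s)
  have hQ : IsPGroup 3 (rot (m' + 1)).range := by
    refine IsPGroup.of_surjective (G := Multiplicative (Fin (m' + 1) → ZMod 3)) ?_
      (rot (m' + 1)).rangeRestrict (MonoidHom.rangeRestrict_surjective _)
    exact IsPGroup.of_card (n := m' + 1) (by rw [Nat.card_eq_fintype_card]; simp)
  obtain ⟨u, hu⟩ := exists_conj_le Nat.prime_three H (hH2 3 Nat.prime_three h3π) _ hQ
  set K : Subgroup (Perm (Option (Fin (m' + 1) × ZMod 3))) := H.comap (MulAut.conj u).toMonoidHom with hK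
  have hKrot : ∀ v, rot (m' + 1) v ∈ K := fun v => hu _ ⟨v, rfl⟩
  have hKtr : ∀ a b : (Option (Fin (m' + 1) × ZMod 3)), ∃ h ∈ K, h a = b := by
    intro a b
    obtain ⟨⟨h, hh⟩, hh'⟩ := exists_smul_eq H (u a) (u b)
    refine ⟨u⁻¹ * h * u, ?_, ?_⟩
    · simp [hK, Subgroup.mem_comap, mul_assoc, hh]
    · change u⁻¹ (h (u a)) = b
      rw [show h (u a) = u b from hh']
      simp
  obtain ⟨x0, y0, hxy0, hsK⟩ : ∃ x y : (Option (Fin (m' + 1) × ZMod 3)), x ≠ y ∧ Equiv.swap x y ∈ K := by
    refine ⟨u⁻¹ (w none), u⁻¹ (w (some (0, 0))), by simp, ?_⟩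
    simp only [hK, Subgroup.mem_comap, MulEquiv.coe_toMonoidHom, MulAut.conj_apply]
    rw [← Equiv.swap_apply_apply]
    simp only [← Perm.mul_apply, mul_inv_cancel_left]
    rwa [Equiv.swap_apply_apply]
  have hequiv : ∀ {a b c : (Option (Fin (m' + 1) × ZMod 3))}, a ≠ c → Equiv.swap a b ∈ K → Equiv.swap b c ∈ K →
      Equiv.swap a c ∈ K := by
    intro a b c hac hab hbc
    rcases eq_or_ne a b with rfl | hab'
    · exact hbc
    rcases eq_or_ne b c with rfl | hbc'
    · exact hab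
    have := K.mul_mem (K.mul_mem hbc hab) hbc
    have key := Equiv.swap_apply_apply (Equiv.swap b c) a b
    rw [Equiv.swap_inv,
      Equiv.swap_apply_of_ne_of_ne hab' hac, Equiv.swap_apply_left] at key
    rwa [← key] at this
  have hinv : ∀ (h : Perm (Option (Fin (m' + 1) × ZMod 3))), h ∈ K → ∀ {a b : (Option (Fin (m' + 1) × ZMod 3))}, Equiv.swap a b ∈ K →
      Equiv.swap (h a) (h b) ∈ K := by
    intro h hh a b hab
    rw [Equiv.swap_apply_apply]
    exact K.mul_mem (K.mul_mem hh hab) (K.inv_mem hh)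
  have hrefl : ∀ a : (Option (Fin (m' + 1) × ZMod 3)), Equiv.swap a a ∈ K := by intro a; rw [Equiv.swap_self]; exact K.one_mem
  have htriple : ∀ (i : Fin (m' + 1)) (t : ZMod 3),
      Equiv.swap (some (i, t)) (some (i, t + 1)) ∈ K := by
    intro i t
    obtain ⟨h, hhK, hh⟩ := hKtr x0 (some (i, t))
    have hb := hinv h hhK hsK
    rw [hh] at hb
    set c := rot (m' + 1) (Multiplicative.ofAdd (Pi.single i 1)) with hc
    have hcb := hinv c (hKrot _) hb
    have hca : c (some (i, t)) = some (i, t + 1) := by rw [hc, rot_some, Pi.single_eq_same]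
    rw [hca] at hcb
    have hne : h y0 ≠ some (i, t) := by rw [← hh]; exact fun e => hxy0 (h.injective e).symm
    generalize h y0 = b at hb hcb hne
    rcases b with _ | ⟨j, s'⟩
    · rw [hc, rot_none] at hcb
      exact hequiv (by simp) hb (by rwa [Equiv.swap_comm])
    · rcases eq_or_ne j i with rfl | hji
      · rw [hc, rot_some, Pi.single_eq_same] at hcb
        have h3 : s' = t + 1 ∨ s' = t + 1 + 1 := by
          have hst : s' ≠ t := fun e => hne (by rw [e])
          exact zmod3_ne _ _ hst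
        rcases h3 with rfl | rfl
        · exact hb
        · rw [zmod3_cycle, Equiv.swap_comm] at hcb
          exact hcb
      · rw [hc, rot_some, Pi.single_eq_of_ne hji, add_zero] at hcb
        exact hequiv (by simp) hb (by rwa [Equiv.swap_comm])
  have hclass : ∀ a : (Option (Fin (m' + 1) × ZMod 3)), Equiv.swap none a ∈ K := by
    classical
    intro a
    by_contra ha
    obtain ⟨h, hhK, hh⟩ := hKtr none a
    set S0 := Finset.univ.filter fun b : (Option (Fin (m' + 1) × ZMod 3)) => Equiv.swap none b ∈ K with hS0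
    set Sa := Finset.univ.filter fun b : (Option (Fin (m' + 1) × ZMod 3)) => Equiv.swap a b ∈ K with hSa
    have hcardEq : S0.card = Sa.card := by
      refine Finset.card_equiv h fun b => ?_
      simp only [hS0, hSa, Finset.mem_filter, Finset.mem_univ, true_and]
      rw [← hh]
      refine ⟨fun hb => hinv h hhK hb, fun hb => ?_⟩
      simpa using hinv h⁻¹ (K.inv_mem hhK) hb
    set x := rot (m' + 1) (Multiplicative.ofAdd fun _ => 1) with hx
    have hxsome : ∀ i t, x (some (i, t)) = some (i, t + 1) := fun i t => rot_some _ _ i t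
    have hmod : ∀ (S : Finset (Option (Fin (m' + 1) × ZMod 3))), (∀ i t, some (i, t) ∈ S → some (i, t + 1) ∈ S) →
        3 ∣ (S.erase none).card := by
      intro S hS
      have hfix : ∀ i t t', some (i, t) ∈ S → some (i, t') ∈ S := by
        intro i t t' h0
        have h1 := hS i t h0
        have h2 := hS i (t + 1) h1
        have := zmod3_cases t t'
        rcases this with rfl | rfl | rfl <;> assumption
      have hEq : S.erase none = ((Finset.univ.filter fun i => some (i, (0 : ZMod 3)) ∈ S) ×ˢ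
          (Finset.univ : Finset (ZMod 3))).map Function.Embedding.some := by
        ext b
        rcases b with _ | ⟨i, t⟩
        · simp
        · simp only [Finset.mem_erase, ne_eq, reduceCtorEq, not_false_eq_true, true_and,
            Finset.mem_map, Function.Embedding.some_apply, Option.some.injEq, exists_eq_right,
            Finset.mem_product, Finset.mem_filter, Finset.mem_univ, and_true]
          exact ⟨hfix i t 0, hfix i 0 t⟩
      rw [hEq, Finset.card_map, Finset.card_product, Finset.card_univ, ZMod.card]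
      exact dvd_mul_left 3 _
    have hclosed : ∀ c : (Option (Fin (m' + 1) × ZMod 3)), ∀ i t, Equiv.swap c (some (i, t)) ∈ K →
        Equiv.swap c (some (i, t + 1)) ∈ K := by
      intro c i t hct
      rcases eq_or_ne c (some (i, t + 1)) with rfl | hne
      · exact hrefl _
      · exact hequiv hne hct (htriple i t)
    have h0 := hmod S0 (by intro i t; simpa [hS0] using hclosed none i t)
    have hA := hmod Sa (by intro i t; simpa [hSa] using hclosed a i t)
    have hn0 : none ∈ S0 := Finset.mem_filter.mpr ⟨Finset.mem_univ _, hrefl none⟩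
    have hna : none ∉ Sa := by
      simp only [hSa, Finset.mem_filter, Finset.mem_univ, true_and]
      exact fun h => ha (by rwa [Equiv.swap_comm])
    rw [Finset.card_erase_of_mem hn0] at h0
    rw [Finset.erase_eq_of_notMem hna, ← hcardEq] at hA
    have : 0 < S0.card := Finset.card_pos.mpr ⟨_, hn0⟩
    omega
  have htop : K = ⊤ := by
    rw [← top_le_iff, ← Perm.closure_isSwap, Subgroup.closure_le]
    rintro σ ⟨a, b, hab, rfl⟩
    exact hequiv hab (by rw [Equiv.swap_comm]; exact hclass a) (hclass b)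
  have hHtop : H = ⊤ := by
    rw [← top_le_iff]
    intro σ _
    have : u⁻¹ * σ * u ∈ K := htop ▸ Subgroup.mem_top _
    simpa [hK, Subgroup.mem_comap, mul_assoc] using this
  apply hrπ (hH1 r hr ?_)
  rw [hHtop, Subgroup.card_top, Nat.card_perm, Nat.card_eq_fintype_card, hcard]
  exact hr.dvd_factorial.mpr hrm

theorem E_of_D {π : Set ℕ} {G : Type} [Group G] [Finite G] (hD : IsDPiGroup π G) :
    IsEPiGroup π G := by
  have hmax : ∀ A : Subgroup G, IsPiSubgroup π A →
      ∃ K, A ≤ K ∧ Maximal (IsPiSubgroup π) K := fun A hA => Finite.exists_le_maximal hA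
  obtain ⟨H, -, hH⟩ := hmax ⊥ (by intro p hp h; simp at h; exact absurd h hp.one_lt.ne')
  refine ⟨H, hH.1, fun p hp hpπ hdiv => ?_⟩
  haveI : Fact p.Prime := ⟨hp⟩
  obtain ⟨P⟩ := (inferInstance : Nonempty (Sylow p G))
  have hPπ : IsPiSubgroup π (P : Subgroup G) := by
    intro q hq hqd
    obtain ⟨n, hn⟩ := IsPGroup.iff_card.mp P.isPGroup'
    rw [hn] at hqd
    rwa [(Nat.prime_dvd_prime_iff_eq hq hp).mp (hq.dvd_of_dvd_pow hqd)]
  obtain ⟨K, hPK, hK⟩ := hmax _ hPπ
  obtain ⟨g, hg⟩ := hD H K hH hK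
  have hidx : H.index = K.index := by
    rw [hg, Subgroup.index_map_of_bijective (MulAut.conj g).bijective]
  exact P.not_dvd_index (hdiv.trans (hidx ▸ Subgroup.index_dvd_of_le hPK))

theorem D_of_trivial {π : Set ℕ}
    (h : (∀ p q : ℕ, p.Prime → q.Prime → p ∈ π → q ∈ π → p = q) ∨ ∀ p : ℕ, p.Prime → p ∈ π)
    (G : Type) [Group G] [Finite G] : IsDPiGroup π G := by
  intro H K hH hK
  rcases h with h | h
  · by_cases hne : ∃ p, p.Prime ∧ p ∈ π
    · obtain ⟨p, hp, hpπ⟩ := hne
      haveI : Fact p.Prime := ⟨hp⟩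
      have hsyl : ∀ A : Subgroup G, Maximal (IsPiSubgroup π) A → ∃ P : Sylow p G, (P : Subgroup G) = A := by
        intro A hA
        have hAp : IsPGroup p A :=
          IsPGroup.of_card (Nat.eq_prime_pow_of_unique_prime_dvd Nat.card_pos.ne'
            (fun {d} hd hdd => h d p hd hp (hA.1 d hd hdd) hpπ))
        obtain ⟨P, hP⟩ := hAp.exists_le_sylow
        refine ⟨P, le_antisymm (hA.2 (fun q hq hqd => ?_) hP) hP⟩
        obtain ⟨n, hn⟩ := IsPGroup.iff_card.mp P.isPGroup'
        rw [hn] at hqd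
        rwa [(Nat.prime_dvd_prime_iff_eq hq hp).mp (hq.dvd_of_dvd_pow hqd)]
      obtain ⟨P, rfl⟩ := hsyl H hH
      obtain ⟨Q, rfl⟩ := hsyl K hK
      obtain ⟨g, hg⟩ := MulAction.exists_smul_eq G P Q
      exact ⟨g, by rw [← hg]; rfl⟩
    · have hbot : ∀ A : Subgroup G, IsPiSubgroup π A → A = ⊥ := by
        intro A hA
        rw [← Subgroup.card_eq_one]
        by_contra h1
        obtain ⟨q, hq, hqd⟩ := Nat.exists_prime_and_dvd h1
        exact hne ⟨q, hq, hA q hq hqd⟩
      exact ⟨1, by rw [hbot H hH.1, hbot K hK.1, Subgroup.map_bot]⟩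
  · have htop : IsPiSubgroup π (⊤ : Subgroup G) := fun q hq _ => h q hq
    refine ⟨1, ?_⟩
    rw [top_le_iff.mp (hH.2 htop le_top), top_le_iff.mp (hK.2 htop le_top),
      Subgroup.map_top_of_surjective _ (MulAut.conj (1 : G)).surjective]

theorem trivial_of_E {π : Set ℕ} (hE : ∀ (G : Type) [Group G] [Finite G], IsEPiGroup π G) :
    (∀ p q : ℕ, p.Prime → q.Prime → p ∈ π → q ∈ π → p = q) ∨ ∀ p : ℕ, p.Prime → p ∈ π := by
  by_contra hcon
  push Not at hcon
  obtain ⟨⟨p, q, hp, hq, hpπ, hqπ, hpq⟩, r, hr, hrπ⟩ := hcon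
  wlog hlt : p < q generalizing p q
  · exact this q p hq hp hqπ hpπ hpq.symm (by omega)
  by_cases hsmall : ∃ s, s.Prime ∧ s < q ∧ s ∉ π
  · obtain ⟨s, hs, hsq, hsπ⟩ := hsmall
    exact no_hall_prime hp hq hs hpπ hqπ hsπ hlt hsq (hE _)
  push Not at hsmall
  have h2 : (2:ℕ) ∈ π := hsmall 2 Nat.prime_two (lt_of_le_of_lt hp.two_le hlt)
  have h3 : (3:ℕ) ∈ π := by
    rcases Nat.lt_or_ge 3 q with h | h
    · exact hsmall 3 Nat.prime_three h
    · have := hp.two_le
      rwa [show 3 = q by omega]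
  obtain ⟨m, hm⟩ : ∃ m, 3 * m + 1 = 2 ^ (2 * r) := by
    refine ⟨(2 ^ (2 * r)) / 3, ?_⟩
    have : (2 ^ (2 * r)) % 3 = 1 := by rw [pow_mul, Nat.pow_mod]; norm_num
    omega
  refine no_hall_four hr h2 h3 hrπ hm ?_ (hE _)
  rw [hm]
  exact le_trans (by omega) (Nat.lt_two_pow_self (n := 2 * r)).le



/-- For a set of primes π the following are equivalent: every finite group has a Hall π-subgroup; in every finite group the maximal π-subgroups are pairwise conjugate; π contains at most one prime or contains every prime. -/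
theorem result (π : Set ℕ) :
    ((∀ (G : Type) [Group G] [Finite G], Cfsg.IsEPiGroup π G) ↔
      ((∀ p q : ℕ, p.Prime → q.Prime → p ∈ π → q ∈ π → p = q) ∨ ∀ p : ℕ, p.Prime → p ∈ π)) ∧
    ((∀ (G : Type) [Group G] [Finite G], Cfsg.IsDPiGroup π G) ↔
      ((∀ p q : ℕ, p.Prime → q.Prime → p ∈ π → q ∈ π → p = q) ∨ ∀ p : ℕ, p.Prime → p ∈ π)) := by
  refine ⟨⟨trivial_of_E, fun h G _ _ => E_of_D (D_of_trivial h G)⟩,
    ⟨fun hD => trivial_of_E fun G _ _ => E_of_D (hD G), fun h G _ _ => D_of_trivial h G⟩⟩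

end Cfsg.Agent.S3878
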