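import Cfsg.Statements.S3881
import Mathlib
import Cfsg.Agent.Lib.Solv.MetacyclicOdd2
-- import your own Cfsg.Agent.* helpers here

set_option autoImplicit false
open Cfsg

namespace Cfsg.Agent.S3881

/-- Let p be an odd prime and G a finite metacyclic p-group (G has a cyclic normal subgroup with cyclic quotient). Suppose G is non-abelian with |G'| = p^n. Then for 1 ≤ i ≤ n the number of elements of G whose conjugacy class has exactly p^i elements is |Z(G)| · (p^(2i) − p^(2i−2)). -/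
theorem result {G : Type*} [Group G] [Finite G] {p : ℕ} [Fact p.Prime] (hp : p ≠ 2) (hG : IsPGroup p G) (hmc : Cfsg.IsMetacyclic G) (n : ℕ) (hn : n ≠ 0) (hGn : Nat.card ↥(commutator G) = p ^ n) (i : ℕ) (hi : 1 ≤ i) (hin : i ≤ n) :
    Nat.card {g : G // (Subgroup.centralizer ({g} : Set G)).index = p ^ i} =
      Nat.card ↥(Subgroup.center G) * (p ^ (2 * i) - p ^ (2 * i - 2)) := by
  classical
  obtain ⟨n', hn', ⟨C⟩⟩ := Cfsg.Lib.Solv.MC.exists_coord hp hG hmc
  obtain rfl : n' = n := Nat.pow_right_injective (Fact.out : p.Prime).two_le (hn'.symm.trans hGn)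
  haveI : NeZero p := ⟨(Fact.out : p.Prime).ne_zero⟩
  have hT : ∀ (x : Cfsg.Lib.Solv.MC.R2 p n'), addOrderOf x = p ^ i ↔
      (p : ZMod (p ^ n')) ^ i • x = 0 ∧ ¬ (p : ZMod (p ^ n')) ^ (i - 1) • x = 0 := by
    intro x
    have e : ∀ m : ℕ, (p : ZMod (p ^ n')) ^ m • x = (p ^ m) • x := fun m => by
      rw [← Nat.cast_pow, Nat.cast_smul_eq_nsmul]
    rw [e, e]
    obtain ⟨j, rfl⟩ := Nat.exists_eq_add_of_le hi
    rw [Nat.add_sub_cancel_left]
    constructor
    · intro h
      refine ⟨by rw [← h]; exact addOrderOf_nsmul_eq_zero x, fun h0 => ?_⟩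
      have h1 := addOrderOf_dvd_of_nsmul_eq_zero h0
      rw [h, Nat.pow_dvd_pow_iff_le_right (Fact.out : p.Prime).one_lt] at h1
      omega
    · rintro ⟨h1, h2⟩
      rw [add_comm] at h1 ⊢
      exact addOrderOf_eq_prime_pow h2 h1
  set T1 : Set (Cfsg.Lib.Solv.MC.R2 p n') := {x | (p : ZMod (p ^ n')) ^ i • x = 0}
  set T0 : Set (Cfsg.Lib.Solv.MC.R2 p n') := {x | (p : ZMod (p ^ n')) ^ (i - 1) • x = 0}
  have e1 : Nat.card {g : G // (Subgroup.centralizer ({g} : Set G)).index = p ^ i}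
      = Nat.card {g : G // C.φ g ∈ T1 \ T0} := by
    refine Nat.card_congr (Equiv.subtypeEquivRight fun g => ?_)
    rw [C.centralizer_singleton_index hp, hT]
    rfl
  have hsub : T0 ⊆ T1 := by
    intro x (hx : _ = 0)
    show _ = 0
    rw [show i = 1 + (i - 1) by omega, pow_add, mul_smul, hx, smul_zero]
  have c1 : T1.ncard = p ^ (2 * i) := by
    rw [← Nat.card_coe_set_eq]; exact Cfsg.Lib.Solv.MC.card_pow_range_two hin
  have c0 : T0.ncard = p ^ (2 * (i - 1)) := by
    rw [← Nat.card_coe_set_eq]; exact Cfsg.Lib.Solv.MC.card_pow_range_two (by omega)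
  rw [e1, C.card_preimage, Nat.card_coe_set_eq, Set.ncard_sdiff hsub (Set.toFinite _), c1, c0,
    Nat.mul_sub 2 i 1]

end Cfsg.Agent.S3881
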