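import Cfsg.Statements.S3882
import Mathlib
import Cfsg.Agent.Lib.Solv.MetacyclicOdd2
-- import your own Cfsg.Agent.* helpers here

set_option autoImplicit false
open Cfsg

namespace Cfsg.Agent.S3882

/-- Let p be an odd prime and G a finite metacyclic p-group (G has a cyclic normal subgroup with cyclic quotient). Suppose |G'| = p^n and 0 ≤ s ≤ n. Then an element g lies in the subgroup generated by the p^s-th powers if and only if its conjugacy class has at most p^(n−s) elements; in particular the subgroup generated by the p^n-th powers is the center of G. -/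
theorem result {G : Type*} [Group G] [Finite G] {p : ℕ} [Fact p.Prime] (hp : p ≠ 2) (hG : IsPGroup p G) (hmc : Cfsg.IsMetacyclic G) (n : ℕ) (hGn : Nat.card ↥(commutator G) = p ^ n) (s : ℕ) (hs : s ≤ n) (g : G) :
    (g ∈ Subgroup.closure {x : G | ∃ y : G, y ^ p ^ s = x} ↔ (Subgroup.centralizer ({g} : Set G)).index ≤ p ^ (n - s)) ∧
      Subgroup.closure {x : G | ∃ y : G, y ^ p ^ n = x} = Subgroup.center G := by
  obtain ⟨n', hn', ⟨C⟩⟩ := Cfsg.Lib.Solv.MC.exists_coord hp hG hmc
  obtain rfl : n' = n := Nat.pow_right_injective (Fact.out : p.Prime).two_le (hn'.symm.trans hGn)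
  haveI : NeZero p := ⟨(Fact.out : p.Prime).ne_zero⟩
  refine ⟨?_, ?_⟩
  · rw [C.closure_powers hp hs, C.centralizer_singleton_index hp, ← Nat.cast_pow, Nat.cast_smul_eq_nsmul,
      ← addOrderOf_dvd_iff_nsmul_eq_zero]
    have hd : addOrderOf (C.φ g) ∣ p ^ n' := by
      rw [addOrderOf_dvd_iff_nsmul_eq_zero, ← Nat.cast_smul_eq_nsmul (ZMod (p ^ n')), ZMod.natCast_self, zero_smul]
    obtain ⟨j, -, hj⟩ := (Nat.dvd_prime_pow (Fact.out : p.Prime)).1 hd
    rw [hj, Nat.pow_dvd_pow_iff_le_right (Fact.out : p.Prime).one_lt,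
      Nat.pow_le_pow_iff_right (Fact.out : p.Prime).one_lt]
  · ext z
    rw [C.closure_powers hp le_rfl, C.mem_center_iff', Nat.sub_self, pow_zero, one_smul]

end Cfsg.Agent.S3882
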