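import Cfsg.Statements.S3883
import Mathlib
import Cfsg.Agent.Lib.Solv.MetacyclicOdd2
-- import your own Cfsg.Agent.* helpers here

set_option autoImplicit false
open Cfsg
open scoped commutatorElement

namespace Cfsg.Agent.S3883

/-- Let p be an odd prime and G a finite metacyclic p-group (G has a cyclic normal subgroup with cyclic quotient). Suppose G is non-abelian. Then an element g of G lies outside the Frattini subgroup if and only if its centralizer C_G(g) is abelian. -/
theorem result {G : Type*} [Group G] [Finite G] {p : ℕ} [Fact p.Prime] (hp : p ≠ 2) (hG : IsPGroup p G) (hmc : Cfsg.IsMetacyclic G) (hna : ¬ IsMulCommutative G) (g : G) :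
    g ∉ frattini G ↔ IsMulCommutative ↥(Subgroup.centralizer ({g} : Set G)) := by
  classical
  obtain ⟨n, hn, ⟨C⟩⟩ := Cfsg.Lib.Solv.MC.exists_coord hp hG hmc
  have hpr := (Fact.out : p.Prime)
  haveI : NeZero p := ⟨hpr.ne_zero⟩
  have hn1 : 1 ≤ n := by
    by_contra h
    refine hna ⟨⟨fun x y => (C.comm' x y).2 ?_⟩⟩
    have h0 : (p : ZMod (p ^ n)) ^ 0 = 0 := Cfsg.Lib.Solv.MC.pow_eq_zero_iff'.2 (by omega)
    rw [pow_zero] at h0
    exact eq_zero_of_zero_eq_one h0.symm _
  set π : ZMod (p ^ n) := (p : ZMod (p ^ n)) ^ (n - 1) with hπ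
  have hχ : ∀ g, π * C.χ g = π := by
    intro g
    obtain ⟨q, ⟨t, ht⟩, e⟩ := C.chi' g
    rw [e, show q = 1 + (p : ℤ) * t by linarith, Int.cast_add, Int.cast_one, Int.cast_mul, Int.cast_natCast,
      mul_add, mul_one, ← mul_assoc, hπ, ← pow_succ, Cfsg.Lib.Solv.MC.pow_eq_zero_iff'.2 (show n ≤ n - 1 + 1 by omega),
      zero_mul, add_zero]
  let f : G →* Multiplicative (Cfsg.Lib.Solv.MC.R2 p n) :=
    MonoidHom.mk' (fun g => Multiplicative.ofAdd (π • C.φ g)) (fun a b => by
      rw [← ofAdd_add, C.mul', smul_add, smul_smul, hχ])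
  have hP : ∀ x, x ∈ f.ker ↔ x ∈ Subgroup.closure {x : G | ∃ y, y ^ p ^ 1 = x} := by
    intro x
    rw [C.closure_powers hp hn1, MonoidHom.mem_ker]
    exact ofAdd_eq_one
  have hΦ : ∀ x, x ∈ frattini G ↔ π • C.φ x = 0 := by
    intro x
    rw [← C.closure_powers hp hn1]
    constructor
    · intro hx
      rw [← hP]
      refine Cfsg.Lib.Solv.frattini_le_of_elementary_quotient (p := p) f.ker ?_ ?_ hx
      · rw [commutator_def, Subgroup.commutator_le]
        intro a _ b _
        rw [MonoidHom.mem_ker, map_commutatorElement, commutatorElement_eq_one_iff_mul_comm]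
        exact mul_comm _ _
      · intro y
        rw [hP]
        exact Subgroup.subset_closure ⟨y, by rw [pow_one]⟩
    · intro hx
      refine (Subgroup.closure_le _).2 ?_ hx
      rintro _ ⟨y, rfl⟩
      rw [pow_one]
      exact Cfsg.Lib.Solv.pow_mem_frattini hG y
  rw [hΦ, C.card_abelian_iff hp hG hmc]
  have hmul : Nat.card ↥(Subgroup.centralizer ({g} : Set G)) * addOrderOf (C.φ g)
      = Nat.card ↥(Subgroup.center G) * (p ^ n * p ^ n) := by
    rw [← C.centralizer_singleton_index hp, Subgroup.card_mul_index, C.card_eq, two_mul, pow_add]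
  have hd : addOrderOf (C.φ g) ∣ p ^ n := by
    rw [addOrderOf_dvd_iff_nsmul_eq_zero, ← Nat.cast_smul_eq_nsmul (ZMod (p ^ n)), ZMod.natCast_self, zero_smul]
  obtain ⟨j, hjn, hj⟩ := (Nat.dvd_prime_pow hpr).1 hd
  rw [hπ, ← Nat.cast_pow, Nat.cast_smul_eq_nsmul, ← addOrderOf_dvd_iff_nsmul_eq_zero, hj,
    Nat.pow_dvd_pow_iff_le_right hpr.one_lt]
  rw [hj] at hmul
  constructor
  · intro h
    obtain rfl : j = n := by omega
    rw [← mul_assoc] at hmul
    exact (Nat.eq_of_mul_eq_mul_right (pow_pos hpr.pos _) hmul).le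
  · intro h hj1
    have h1 := Nat.mul_le_mul_right (p ^ j) h
    rw [hmul, mul_assoc] at h1
    have h2 := Nat.le_of_mul_le_mul_left h1 Nat.card_pos
    have h3 := Nat.le_of_mul_le_mul_left h2 (pow_pos hpr.pos n)
    rw [Nat.pow_le_pow_iff_right hpr.one_lt] at h3
    omega

end Cfsg.Agent.S3883
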