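import Cfsg.Statements.S3884
import Mathlib
import Mathlib
import Cfsg.Agent.Lib.Transfer.MetacyclicPower
import Cfsg.Agent.Lib.Solv.Systems
-- import your own Cfsg.Agent.* helpers here

set_option autoImplicit false
open Cfsg
open scoped Pointwise

namespace Cfsg.Agent.S3884

/-- Let p be an odd prime and G a finite metacyclic p-group (G has a cyclic normal subgroup with cyclic quotient). Then G is the product of two cyclic subgroups with trivial intersection: there are cyclic subgroups A and B with A ∩ B = 1 and |A| · |B| = |G|. -/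
theorem result {G : Type*} [Group G] [Finite G] {p : ℕ} [Fact p.Prime] (hp : p ≠ 2) (hG : IsPGroup p G) (hmc : Cfsg.IsMetacyclic G) : ∃ A B : Subgroup G, IsCyclic ↥A ∧ IsCyclic ↥B ∧ A ⊓ B = ⊥ ∧ Nat.card ↥A * Nat.card ↥B = Nat.card G := by
  classical
  obtain ⟨a, b, r, hd, -, -⟩ := Cfsg.Lib.Transfer.Metacyclic.exists_data hG hmc
  have hpr := (Fact.out : p.Prime)
  have key : ∀ x y : G, (∀ g : G, ∃ i j : ℤ, g = x ^ i * y ^ j) → orderOf y ≤ orderOf x →
      ∃ c : G, Subgroup.zpowers x ⊓ Subgroup.zpowers c = ⊥ ∧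
        Nat.card ↥(Subgroup.zpowers x) * Nat.card ↥(Subgroup.zpowers c) = Nat.card G := by
    intro x y hcov hle
    obtain ⟨f, hf⟩ := IsPGroup.iff_orderOf.1 hG x
    obtain ⟨e, he⟩ := IsPGroup.iff_orderOf.1 hG y
    rw [hf, he, Nat.pow_le_pow_iff_right hpr.one_lt] at hle
    have hex : ∃ i : ℕ, y ^ p ^ i ∈ Subgroup.zpowers x :=
      ⟨e, by rw [← he, pow_orderOf_eq_one]; exact one_mem _⟩
    set ε := Nat.find hex with hε
    obtain ⟨m, hm⟩ := Subgroup.mem_zpowers_iff.1 (Nat.find_spec hex)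
    rw [← hε] at hm
    have hεe : ε ≤ e := Nat.find_min' hex (by rw [← he, pow_orderOf_eq_one]; exact one_mem _)
    have dvd_of : ∀ (l : ℤ) (i d : ℕ), i + d ≤ f → (x ^ l) ^ p ^ d = 1 → ((p : ℤ) ^ i) ∣ l := by
      intro l i d hid h
      rw [← zpow_natCast (x ^ l), ← zpow_mul, ← orderOf_dvd_iff_zpow_eq_one, hf] at h
      push_cast at h
      have h2 : (p : ℤ) ^ (i + d) ∣ l * (p : ℤ) ^ d := (pow_dvd_pow _ hid).trans h
      rw [pow_add] at h2
      exact Int.dvd_of_mul_dvd_mul_right (pow_ne_zero _ (by exact_mod_cast hpr.ne_zero)) h2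
    obtain ⟨t, ht⟩ : ((p : ℤ) ^ ε) ∣ m := by
      refine dvd_of m ε (e - ε) (by omega) ?_
      rw [hm, ← pow_mul, ← pow_add, show ε + (e - ε) = e by omega, ← he, pow_orderOf_eq_one]
    set z := x ^ t with hz
    have hzy : z ^ p ^ ε = y ^ p ^ ε := by
      rw [← hm, ht, hz, ← zpow_natCast, ← zpow_mul]; push_cast; rw [mul_comm]
    set c := z⁻¹ * y with hc
    have hc1 : c ^ p ^ ε = 1 := (hd.pow_eq_iff hp hG z y ε).1 hzy
    have hmin : ∀ i < ε, c ^ p ^ i ∉ Subgroup.zpowers x := by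
      intro i hi hmem
      obtain ⟨l, hl⟩ := Subgroup.mem_zpowers_iff.1 hmem
      obtain ⟨s, hs⟩ : ((p : ℤ) ^ i) ∣ l := by
        refine dvd_of l i (ε - i) (by omega) ?_
        rw [hl, ← pow_mul, ← pow_add, show i + (ε - i) = ε by omega, hc1]
      have h1 : (x ^ s) ^ p ^ i = c ^ p ^ i := by
        rw [← hl, hs, ← zpow_natCast (x ^ s), ← zpow_mul]; push_cast; rw [mul_comm]
      have h2 := (hd.pow_eq_iff hp hG (x ^ s) c i).1 h1
      have e3 : (x ^ s)⁻¹ * c = (z * x ^ s)⁻¹ * y := by rw [hc]; group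
      rw [e3] at h2
      have h3 := (hd.pow_eq_iff hp hG (z * x ^ s) y i).2 h2
      refine Nat.find_min hex hi ?_
      rw [← h3, hz, ← zpow_add]
      exact pow_mem (zpow_mem (Subgroup.mem_zpowers x) _) _
    have hco : orderOf c = p ^ ε := by
      obtain ⟨o, hoε, ho⟩ := (Nat.dvd_prime_pow hpr).1 (orderOf_dvd_of_pow_eq_one hc1)
      rcases lt_or_eq_of_le hoε with hlt | rfl
      · exfalso
        refine hmin o hlt ?_
        rw [← ho, pow_orderOf_eq_one]; exact one_mem _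
      · exact ho
    have hbot : Subgroup.zpowers x ⊓ Subgroup.zpowers c = ⊥ := by
      rw [Subgroup.eq_bot_iff_forall]
      rintro v ⟨hvx, hvc⟩
      obtain ⟨N, rfl⟩ := Subgroup.mem_zpowers_iff.1 hvc
      by_contra hv
      obtain ⟨i, hiε, hi⟩ := (Nat.dvd_prime_pow hpr).1 (Int.gcd_dvd_right N ((p ^ ε : ℕ) : ℤ) |> Int.natCast_dvd_natCast.1)
      have hilt : i < ε := by
        refine lt_of_le_of_ne hiε fun h => hv ?_
        rw [← orderOf_dvd_iff_zpow_eq_one, hco, ← h, ← hi]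
        exact Int.gcd_dvd_left _ _
      refine hmin i hilt ?_
      have hb := Int.gcd_eq_gcd_ab N ((p ^ ε : ℕ) : ℤ)
      rw [hi] at hb
      rw [← zpow_natCast, hb, zpow_add, zpow_mul, zpow_mul, zpow_natCast, hc1, one_zpow, mul_one]
      exact (Subgroup.zpowers x).zpow_mem hvx _
    refine ⟨c, hbot, le_antisymm ?_ ?_⟩
    · rw [← Cfsg.Lib.Solv.card_coe_mul_of_disjoint hbot, ← Nat.card_univ (α := G)]
      exact Nat.card_mono (Set.toFinite _) (Set.subset_univ _)
    · rw [Nat.card_zpowers c, hco, ← Nat.card_fin (p ^ ε), ← Nat.card_prod]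
      refine Nat.card_le_card_of_surjective (fun w => (w.1 : G) * y ^ (w.2 : ℕ)) fun g => ?_
      obtain ⟨i, j, rfl⟩ := hcov g
      have hpos : (0 : ℤ) < ((p ^ ε : ℕ) : ℤ) := by exact_mod_cast pow_pos hpr.pos ε
      set q := j / ((p ^ ε : ℕ) : ℤ)
      obtain ⟨r, hr⟩ := Int.eq_ofNat_of_zero_le (Int.emod_nonneg j hpos.ne')
      have hrlt : r < p ^ ε := by
        have := Int.emod_lt_of_pos j hpos
        rw [hr] at this; exact_mod_cast this
      refine ⟨(⟨x ^ i * (x ^ m) ^ q, mul_mem (zpow_mem (Subgroup.mem_zpowers x) _) (zpow_mem (zpow_mem (Subgroup.mem_zpowers x) _) _)⟩, ⟨r, hrlt⟩), ?_⟩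
      show x ^ i * (x ^ m) ^ q * y ^ r = x ^ i * y ^ j
      rw [hm, mul_assoc, ← zpow_natCast y r, ← zpow_natCast y (p ^ ε), ← zpow_mul, ← zpow_add, ← hr,
        Int.mul_ediv_add_emod j _]
  have hcov : ∀ g : G, ∃ i j : ℤ, g = a ^ i * b ^ j := fun g => by
    obtain ⟨u, k, h⟩ := hd.cover g
    exact ⟨u, k, by rw [zpow_natCast]; exact h⟩
  have hcov' : ∀ g : G, ∃ i j : ℤ, g = b ^ i * a ^ j := fun g => by
    obtain ⟨i, j, h⟩ := hcov g⁻¹
    exact ⟨-j, -i, by rw [← inv_inv g, h, mul_inv_rev, zpow_neg, zpow_neg]⟩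
  rcases le_total (orderOf b) (orderOf a) with h | h
  · obtain ⟨c, h1, h2⟩ := key a b hcov h
    exact ⟨_, _, inferInstance, inferInstance, h1, h2⟩
  · obtain ⟨c, h1, h2⟩ := key b a hcov' h
    exact ⟨_, _, inferInstance, inferInstance, h1, h2⟩

end Cfsg.Agent.S3884
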