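import Cfsg.Statements.S3885
import Mathlib
import Cfsg.Agent.Lib.Solv.MetacyclicOdd2
-- import your own Cfsg.Agent.* helpers here

set_option autoImplicit false
open Cfsg

namespace Cfsg.Agent.S3885

/-- Let p be an odd prime and G a finite metacyclic p-group (G has a cyclic normal subgroup with cyclic quotient). Then every abelian subgroup K of G containing the center of G is the center of its own centralizer: K = Z(C_G(K)). -/
theorem result {G : Type*} [Group G] [Finite G] {p : ℕ} [Fact p.Prime] (hp : p ≠ 2) (hG : IsPGroup p G) (hmc : Cfsg.IsMetacyclic G) (K : Subgroup G) (hK : IsMulCommutative ↥K) (hZ : Subgroup.center G ≤ K) :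
    K = Subgroup.centralizer (K : Set G) ⊓ Subgroup.centralizer (Subgroup.centralizer (K : Set G) : Set G) := by
  obtain ⟨n, hn, ⟨C⟩⟩ := Cfsg.Lib.Solv.MC.exists_coord hp hG hmc
  refine le_antisymm (le_inf ?_ ?_) ?_
  · intro x hx
    exact Subgroup.mem_centralizer_iff.2 fun y hy =>
      congrArg Subtype.val (hK.is_comm.comm (⟨y, hy⟩ : K) ⟨x, hx⟩)
  · exact Subgroup.le_centralizer_iff.1 le_rfl
  · rintro x ⟨-, hx⟩
    rw [← C.pre_img hp hZ]
    rw [SetLike.mem_coe, C.centralizer_eq hp (Subgroup.centralizer (K : Set G))] at hx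
    have e : C.img hp (Subgroup.centralizer (K : Set G)) = Cfsg.Lib.Solv.MC.perp (C.img hp K) := by
      ext y
      constructor
      · rintro ⟨g, hg, rfl⟩
        rw [SetLike.mem_coe, C.centralizer_eq hp] at hg
        exact hg
      · intro hy
        obtain ⟨g, rfl⟩ := C.surj y
        exact ⟨g, by rw [SetLike.mem_coe, C.centralizer_eq hp]; exact hy, rfl⟩
    rw [e, Cfsg.Lib.Solv.MC.perp_perp] at hx
    exact hx

end Cfsg.Agent.S3885
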