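import Cfsg.Statements.S3886
import Mathlib
import Cfsg.Agent.Lib.Solv.MetacyclicOdd2
-- import your own Cfsg.Agent.* helpers here

set_option autoImplicit false
open Cfsg

namespace Cfsg.Agent.S3886

/-- Let p be an odd prime and G a finite metacyclic p-group (G has a cyclic normal subgroup with cyclic quotient). Then the largest value of |R| · |Z(R)| over subgroups R of G is |G : G'|², and the subgroups attaining it (the centrally large subgroups) are exactly the non-abelian subgroups together with the maximal abelian subgroups of G. -/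
theorem result {G : Type*} [Group G] [Finite G] {p : ℕ} [Fact p.Prime] (hp : p ≠ 2) (hG : IsPGroup p G) (hmc : Cfsg.IsMetacyclic G) : Cfsg.maxCentralProduct G = (commutator G).index ^ 2 ∧
    ∀ R : Subgroup G, Cfsg.IsCentrallyLarge R ↔ (¬ IsMulCommutative ↥R ∨ Maximal (fun K : Subgroup G => IsMulCommutative ↥K) R) := by
  obtain ⟨n, hn, ⟨C⟩⟩ := Cfsg.Lib.Solv.MC.exists_coord hp hG hmc
  rw [C.commutator_index hn]
  have hval : ∀ R : Subgroup G, IsMulCommutative ↥R → Nat.card ↥(Subgroup.center ↥R) = Nat.card ↥R := by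
    intro R hR
    rw [show Subgroup.center ↥R = ⊤ by
      rw [eq_top_iff]; exact fun x _ => Subgroup.mem_center_iff.2 fun y => hR.is_comm.comm y x, Subgroup.card_top]
  have hmem : ∃ R : Subgroup G, Nat.card ↥R * Nat.card ↥(Subgroup.center ↥R) = (Nat.card ↥(Subgroup.center G) * p ^ n) ^ 2 := by
    by_cases htop : IsMulCommutative ↥(⊤ : Subgroup G)
    · refine ⟨⊤, ?_⟩
      have h1 := C.card_le_of_commutative hp htop
      have h2 := Subgroup.card_top (G := G)
      have h3 := C.card_eq
      have h4 : Nat.card ↥(⊤ : Subgroup G) = Nat.card ↥(Subgroup.center G) * p ^ n := by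
        refine le_antisymm h1 ?_
        rw [h2, h3]
        exact Nat.mul_le_mul_left _ (Nat.pow_le_pow_right (Fact.out : p.Prime).pos (by omega))
      rw [hval _ htop, h4, sq]
    · exact ⟨⊤, C.value_of_not_commutative hp hG hmc htop⟩
  have hf : Cfsg.maxCentralProduct G = (Nat.card ↥(Subgroup.center G) * p ^ n) ^ 2 := by
    refine IsGreatest.csSup_eq ⟨hmem, ?_⟩
    rintro k ⟨R, rfl⟩
    exact C.value_le hp hG hmc R
  refine ⟨hf, fun R => ?_⟩
  show _ = _ ↔ _
  rw [hf]
  by_cases hR : IsMulCommutative ↥R
  · rw [hval R hR, sq, Nat.mul_self_inj, C.maximal_abelian_iff hp hG hmc]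
    exact ⟨Or.inr, fun h => h.resolve_left (not_not.2 hR)⟩
  · exact iff_of_true (C.value_of_not_commutative hp hG hmc hR) (Or.inl hR)

end Cfsg.Agent.S3886
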