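import Cfsg.Statements.S3895
import Cfsg.Agent.Lib.Transfer.Frobenius

set_option autoImplicit false
open Cfsg
open scoped Pointwise commutatorElement

namespace Cfsg.Agent.S3895

open Cfsg.Lib.Transfer

lemma fixed_of_odd {G : Type*} [Group G] [Finite G] {x q : G} (hx : Odd (orderOf x)) (h : Commute (x ^ 2) q) :
    Commute x q := by
  obtain ⟨m, hm⟩ := exists_pow_eq_self_of_coprime (x := x) (n := 2) (Nat.coprime_two_left.2 hx)
  exact hm ▸ h.pow_left m

open scoped Classical in
lemma count_bound {G : Type*} [Group G] [Finite G] (P : Sylow 2 G) (Q : Subgroup G) (hQP : Q ≤ (P : Subgroup G))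
    (hZ : ∀ u ∈ (P : Subgroup G), (∀ v ∈ (P : Subgroup G), v * u = u * v) → u ∈ Q)
    (x : G) (hx : Odd (orderOf x)) (hxn : x ∈ Subgroup.normalizer (Q : Set G))
    (hmove : ∃ q ∈ Q, ¬ Commute x q) :
    2 * Nat.card {c : ConjClasses G // ∀ y ∈ c.carrier, ∃ k : ℕ, orderOf y = 2 ^ k} ≤ Nat.card ↥(P : Subgroup G) := by
  haveI := Fintype.ofFinite G
  haveI : Fact (Nat.Prime 2) := ⟨Nat.prime_two⟩
  set cl : G → ConjClasses G := ConjClasses.mk with hcl
  have hclc : ∀ (g u : G), cl (g * u * g⁻¹) = cl u := fun g u =>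
    ConjClasses.mk_eq_mk_iff_isConj.2 (isConj_iff.2 ⟨g⁻¹, by group⟩)
  set C := Q ⊓ Subgroup.centralizer ({x} : Set G) with hC
  have hCmem : ∀ q, q ∈ C ↔ q ∈ Q ∧ Commute x q := fun q => by
    rw [hC, Subgroup.mem_inf, Subgroup.mem_centralizer_singleton_iff]
    exact and_congr_right fun _ => ⟨fun h => h.symm, fun h => h.symm⟩
  have hcardf : ∀ H : Subgroup G, (Finset.univ.filter fun u : G => u ∈ H).card = Nat.card H := fun H => by
    rw [← Fintype.card_subtype, ← Nat.card_eq_fintype_card]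
  set SQ := Finset.univ.filter (fun u : G => u ∈ Q) with hSQ
  set SC := Finset.univ.filter (fun u : G => u ∈ C) with hSC
  set SP := Finset.univ.filter (fun u : G => u ∈ (P : Subgroup G)) with hSP
  set M := SQ.filter (fun u => cl u ∉ SC.image cl) with hM
  set R := SP.filter (fun u => cl u ∉ SQ.image cl) with hR
  set T := Finset.univ.filter (fun c : ConjClasses G => ∀ y ∈ c.carrier, ∃ k : ℕ, orderOf y = 2 ^ k) with hT
  have hTc : Nat.card {c : ConjClasses G // ∀ y ∈ c.carrier, ∃ k : ℕ, orderOf y = 2 ^ k} = T.card := by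
    rw [Nat.card_eq_fintype_card, Fintype.card_subtype]
  have hsub : T ⊆ SC.image cl ∪ M.image cl ∪ R.image cl := by
    intro c hc
    obtain ⟨y, rfl⟩ := ConjClasses.exists_rep c
    rw [hT, Finset.mem_filter] at hc
    obtain ⟨k, hk⟩ := hc.2 y ConjClasses.mem_carrier_mk
    have hzp : IsPGroup 2 (Subgroup.zpowers y) := IsPGroup.of_card (n := k) (by rw [Nat.card_zpowers, hk])
    obtain ⟨P2, hP2⟩ := hzp.exists_le_sylow
    obtain ⟨g, hg⟩ := MulAction.exists_smul_eq G P2 P
    have hu : g * y * g⁻¹ ∈ (P : Subgroup G) := by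
      rw [← hg, Sylow.coe_subgroup_smul, Subgroup.mem_pointwise_smul_iff_inv_smul_mem]
      simpa [mul_assoc] using hP2 (Subgroup.mem_zpowers y)
    show cl y ∈ _
    rw [← hclc g y]
    generalize g * y * g⁻¹ = u at hu
    by_cases h1 : cl u ∈ SQ.image cl
    · by_cases h2 : cl u ∈ SC.image cl
      · exact Finset.mem_union_left _ (Finset.mem_union_left _ h2)
      · obtain ⟨q, hq, hqe⟩ := Finset.mem_image.1 h1
        refine Finset.mem_union_left _ (Finset.mem_union_right _ (Finset.mem_image.2 ⟨q, ?_, hqe⟩))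
        rw [hM, Finset.mem_filter, hqe]; exact ⟨hq, h2⟩
    · refine Finset.mem_union_right _ (Finset.mem_image_of_mem cl ?_)
      rw [hR, Finset.mem_filter, hSP, Finset.mem_filter]
      exact ⟨⟨Finset.mem_univ u, hu⟩, h1⟩
  have hMb : 3 * (M.image cl).card ≤ M.card := by
    refine Finset.mul_card_image_le_card M 3 fun c hc => ?_
    obtain ⟨q, hq, rfl⟩ := Finset.mem_image.1 hc
    rw [hM, Finset.mem_filter, hSQ, Finset.mem_filter] at hq
    obtain ⟨⟨-, hqQ⟩, hqc⟩ := hq
    have hnc : ¬ Commute x q := fun h => hqc (Finset.mem_image_of_mem cl (by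
      rw [hSC, Finset.mem_filter, hCmem]; exact ⟨Finset.mem_univ _, hqQ, h⟩))
    have hin : ∀ g ∈ Subgroup.normalizer (Q : Set G), g * q * g⁻¹ ∈ M.filter (fun a => cl a = cl q) := by
      intro g hg
      rw [Finset.mem_filter, hM, Finset.mem_filter, hSQ, Finset.mem_filter, hclc]
      exact ⟨⟨⟨Finset.mem_univ _, (Subgroup.mem_normalizer_iff.1 hg q).1 hqQ⟩, hqc⟩, rfl⟩
    have h0 := hin 1 (one_mem _)
    have h1 := hin x hxn
    have h2 := hin (x * x) (mul_mem hxn hxn)
    rw [one_mul, inv_one, mul_one] at h0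
    have n01 : q ≠ x * q * x⁻¹ := fun e => hnc (show x * q = q * x by
      have := congrArg (· * x) e
      simpa [mul_assoc] using this.symm)
    have n02 : q ≠ x * x * q * (x * x)⁻¹ := fun e => hnc (fixed_of_odd hx (show x ^ 2 * q = q * x ^ 2 by
      have := congrArg (· * (x * x)) e
      simpa [mul_assoc, sq] using this.symm))
    have n12 : x * q * x⁻¹ ≠ x * x * q * (x * x)⁻¹ := fun e => n01 (by
      have := congrArg (fun z => x⁻¹ * z * x) e
      simpa [mul_assoc] using this)
    calc 3 = ({q, x * q * x⁻¹, x * x * q * (x * x)⁻¹} : Finset G).card :=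
          (Finset.card_eq_three.2 ⟨_, _, _, n01, n02, n12, rfl⟩).symm
      _ ≤ _ := Finset.card_le_card (by
          intro z hz
          simp only [Finset.mem_insert, Finset.mem_singleton] at hz
          rcases hz with rfl | rfl | rfl <;> assumption)
  have hRb : 2 * (R.image cl).card ≤ R.card := by
    refine Finset.mul_card_image_le_card R 2 fun c hc => ?_
    obtain ⟨u, hu, rfl⟩ := Finset.mem_image.1 hc
    rw [hR, Finset.mem_filter, hSP, Finset.mem_filter] at hu
    obtain ⟨⟨-, huP⟩, huc⟩ := hu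
    obtain ⟨v, hv, hne⟩ : ∃ v ∈ (P : Subgroup G), v * u ≠ u * v := by
      by_contra h
      push Not at h
      exact huc (Finset.mem_image_of_mem cl (by rw [hSQ, Finset.mem_filter]; exact ⟨Finset.mem_univ _, hZ u huP h⟩))
    have hne' : u ≠ v * u * v⁻¹ := fun e => hne (by
      have := congrArg (· * v) e
      simpa [mul_assoc] using this.symm)
    calc 2 = ({u, v * u * v⁻¹} : Finset G).card := (Finset.card_pair hne').symm
      _ ≤ _ := Finset.card_le_card (by
          intro z hz
          simp only [Finset.mem_insert, Finset.mem_singleton] at hz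
          rw [Finset.mem_filter, hR, Finset.mem_filter, hSP, Finset.mem_filter]
          rcases hz with rfl | rfl
          · exact ⟨⟨⟨Finset.mem_univ _, huP⟩, huc⟩, rfl⟩
          · rw [hclc]; exact ⟨⟨⟨Finset.mem_univ _, mul_mem (mul_mem hv huP) (inv_mem hv)⟩, huc⟩, rfl⟩)
  have hMs : M.card + SC.card ≤ SQ.card := by
    rw [← Finset.card_union_of_disjoint]
    · exact Finset.card_le_card (Finset.union_subset (Finset.filter_subset _ _) (fun u hu => by
        rw [hSC, Finset.mem_filter, hCmem] at hu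
        rw [hSQ, Finset.mem_filter]; exact ⟨hu.1, hu.2.1⟩))
    · rw [Finset.disjoint_left]
      intro u hu hu'
      rw [hM, Finset.mem_filter] at hu
      exact hu.2 (Finset.mem_image_of_mem cl hu')
  have hRs : R.card + SQ.card ≤ SP.card := by
    rw [← Finset.card_union_of_disjoint]
    · exact Finset.card_le_card (Finset.union_subset (Finset.filter_subset _ _) (fun u hu => by
        rw [hSQ, Finset.mem_filter] at hu
        rw [hSP, Finset.mem_filter]; exact ⟨hu.1, hQP hu.2⟩))
    · rw [Finset.disjoint_left]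
      intro u hu hu'
      rw [hR, Finset.mem_filter] at hu
      exact hu.2 (Finset.mem_image_of_mem cl hu')
  -- the fixed points have index at least four
  have hC4 : 4 * SC.card ≤ SQ.card := by
    rw [hSC, hSQ, hcardf, hcardf]
    set C' := C.subgroupOf Q with hC'
    have hCQ : C ≤ Q := inf_le_left
    have hQp : IsPGroup 2 Q := P.isPGroup'.to_le hQP
    obtain ⟨k, hk⟩ := hQp.index C'
    have hmul := C'.index_mul_card
    rw [hk, Nat.card_congr (Subgroup.subgroupOfEquivOfLe hCQ).toEquiv] at hmul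
    obtain ⟨q, hq, hqm⟩ := hmove
    rcases k with _ | _ | k
    · exfalso
      have h1 : C' = ⊤ := Subgroup.index_eq_one.1 (by rw [hk, pow_zero])
      exact hqm ((hCmem q).1 ((show (⟨q, hq⟩ : Q) ∈ C' from h1 ▸ Subgroup.mem_top _))).2
    · exfalso
      have hidx : C'.index = 2 := by rw [hk]; rfl
      have hq1 : x * q * x⁻¹ ∈ Q := (Subgroup.mem_normalizer_iff.1 hxn q).1 hq
      have hn : (⟨x * q * x⁻¹, hq1⟩ : Q) ∉ C' := fun h => by
        have h2 : Commute x (x * q * x⁻¹) := ((hCmem _).1 h).2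
        exact hqm (show x * q = q * x by
          have := congrArg (fun z => x⁻¹ * z * x) h2.eq
          simpa [mul_assoc] using this)
      have hc' : (⟨q, hq⟩ : Q)⁻¹ * ⟨x * q * x⁻¹, hq1⟩ ∈ C' := (Subgroup.mul_mem_iff_of_index_two hidx).2
        (iff_of_false (fun h => hqm ((hCmem q).1 (show (⟨q, hq⟩ : Q) ∈ C' by simpa using inv_mem h)).2) hn)
      obtain ⟨hcQ, hcx⟩ := (hCmem _).1 hc'
      set c : G := q⁻¹ * (x * q * x⁻¹) with hc
      have hcx' : Commute x c := hcx
      have hpow : ∀ n : ℕ, x ^ n * q * (x ^ n)⁻¹ = q * c ^ n := by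
        intro n
        induction n with
        | zero => simp
        | succ n ih =>
          calc x ^ (n + 1) * q * (x ^ (n + 1))⁻¹ = x * (x ^ n * q * (x ^ n)⁻¹) * x⁻¹ := by rw [pow_succ']; group
            _ = (x * q * x⁻¹) * (x * c ^ n * x⁻¹) := by rw [ih]; group
            _ = (q * c) * c ^ n := by
              rw [(hcx'.pow_right n).eq, mul_inv_cancel_right, hc, mul_inv_cancel_left]
            _ = q * c ^ (n + 1) := by rw [pow_succ', mul_assoc]
      have h1 := hpow (orderOf x)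
      rw [pow_orderOf_eq_one, one_mul, inv_one, mul_one] at h1
      have h2 : c ^ orderOf x = 1 := mul_left_cancel (a := q) (by rw [mul_one]; exact h1.symm)
      obtain ⟨j, hj⟩ := hQp ⟨c, hcQ⟩
      have hj' : c ^ 2 ^ j = 1 := congrArg Subtype.val hj
      have hc1 : c = 1 := orderOf_eq_one_iff.1 (Nat.eq_one_of_dvd_coprimes
        ((Nat.coprime_two_left.2 hx).pow_left j) (orderOf_dvd_of_pow_eq_one hj') (orderOf_dvd_of_pow_eq_one h2))
      rw [hc, inv_mul_eq_one] at hc1
      exact hqm (show x * q = q * x by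
        have := congrArg (· * x) hc1
        simpa [mul_assoc] using this.symm)
    · rw [← hmul]
      refine Nat.mul_le_mul_right _ ?_
      rw [pow_succ, pow_succ]
      have := Nat.one_le_two_pow (n := k)
      omega
  have hSPc : SP.card = Nat.card ↥(P : Subgroup G) := hcardf _
  have hU := (Finset.card_le_card hsub).trans ((Finset.card_union_le _ _).trans
    (Nat.add_le_add_right (Finset.card_union_le _ _) _))
  have hCi : (SC.image cl).card ≤ SC.card := Finset.card_image_le
  rw [hTc, ← hSPc]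
  omega



/-- Let G be a finite group with Sylow 2-subgroup P, and write k₂(G) for the number of conjugacy classes of G consisting of 2-elements (elements of 2-power order, the identity included). Then k₂(G) > |P|/2 if and only if G has a normal 2-complement and P has more than |P|/2 conjugacy classes. -/
theorem result {G : Type*} [Group G] [Finite G] (P : Sylow 2 G) :
    Nat.card ↥(P : Subgroup G) < 2 * Nat.card {c : ConjClasses G // ∀ x ∈ c.carrier, ∃ k : ℕ, orderOf x = 2 ^ k} ↔
      Cfsg.HasNormalPComplement 2 G ∧ Nat.card ↥(P : Subgroup G) < 2 * Nat.card (ConjClasses ↥(P : Subgroup G)) := by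
  classical
  haveI : Fact (Nat.Prime 2) := ⟨Nat.prime_two⟩
  have hiff : Cfsg.HasNormalPComplement 2 G →
      Nat.card {c : ConjClasses G // ∀ x ∈ c.carrier, ∃ k : ℕ, orderOf x = 2 ^ k} =
        Nat.card (ConjClasses ↥(P : Subgroup G)) := by
    intro h
    have hf := (controlsOwnFusion_iff P).2 h
    let F : ConjClasses ↥(P : Subgroup G) → {c : ConjClasses G // ∀ x ∈ c.carrier, ∃ k : ℕ, orderOf x = 2 ^ k} :=
      fun c => ⟨ConjClasses.map (P : Subgroup G).subtype c, by
        obtain ⟨u, rfl⟩ := ConjClasses.exists_rep c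
        intro x hx
        obtain ⟨k, hk⟩ := P.isPGroup'.exists_orderOf_eq_pow u
        refine ⟨k, ?_⟩
        obtain ⟨g, hg⟩ := isConj_iff.1 (ConjClasses.mk_eq_mk_iff_isConj.1 (ConjClasses.mem_carrier_iff_mk_eq.1 hx))
        rw [← hk, ← Subgroup.orderOf_coe, ← show g * x * g⁻¹ = (u : G) from hg]
        exact (MulEquiv.orderOf_eq (MulAut.conj g) x).symm⟩
    refine (Nat.card_eq_of_bijective F ⟨?_, ?_⟩).symm
    · intro c d hcd
      obtain ⟨u, rfl⟩ := ConjClasses.exists_rep c
      obtain ⟨v, rfl⟩ := ConjClasses.exists_rep d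
      have h1 : ConjClasses.mk (u : G) = ConjClasses.mk (v : G) := congrArg Subtype.val hcd
      obtain ⟨g, hg⟩ := isConj_iff.1 (ConjClasses.mk_eq_mk_iff_isConj.1 h1)
      obtain ⟨z, hz, hz'⟩ := hf u u.2 v v.2 ⟨g, hg⟩
      exact ConjClasses.mk_eq_mk_iff_isConj.2 (isConj_iff.2 ⟨⟨z, hz⟩, Subtype.ext hz'⟩)
    · rintro ⟨c, hc⟩
      obtain ⟨y, rfl⟩ := ConjClasses.exists_rep c
      obtain ⟨k, hk⟩ := hc y ConjClasses.mem_carrier_mk
      obtain ⟨P2, hP2⟩ := (IsPGroup.of_card (p := 2) (G := Subgroup.zpowers y) (n := k)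
        (by rw [Nat.card_zpowers, hk])).exists_le_sylow
      obtain ⟨g, hg⟩ := MulAction.exists_smul_eq G P2 P
      have hu : g * y * g⁻¹ ∈ (P : Subgroup G) := by
        rw [← hg, Sylow.coe_subgroup_smul, Subgroup.mem_pointwise_smul_iff_inv_smul_mem]
        simpa [mul_assoc] using hP2 (Subgroup.mem_zpowers y)
      exact ⟨ConjClasses.mk ⟨_, hu⟩, Subtype.ext
        (ConjClasses.mk_eq_mk_iff_isConj.2 (isConj_iff.2 ⟨g⁻¹, by simp [mul_assoc]⟩))⟩
  constructor
  · intro hlt
    by_cases h : Cfsg.HasNormalPComplement 2 G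
    · exact ⟨h, hiff h ▸ hlt⟩
    exfalso
    rw [frobenius_iff P] at h
    unfold FrobeniusCond at h
    push Not at h
    obtain ⟨Q0, hQ0P, g, hgN, hgo, hgc⟩ := h
    set C := Subgroup.centralizer (Q0 : Set G) with hC
    set N := Subgroup.normalizer (Q0 : Set G) with hN
    obtain ⟨S0⟩ : Nonempty (Sylow 2 C) := inferInstance
    set S := (S0 : Subgroup C).map C.subtype with hS
    have hSC : S ≤ C := Subgroup.map_subtype_le _
    have hgC : ∀ u ∈ C, g * u * g⁻¹ ∈ C := by
      intro u hu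
      rw [hC, Subgroup.mem_centralizer_iff]
      intro q hq
      have h2 : g⁻¹ * q * g ∈ Q0 := by
        simpa using (Subgroup.mem_normalizer_iff.1 (inv_mem hgN) q).1 hq
      have := (Subgroup.mem_centralizer_iff.1 hu) _ h2
      calc q * (g * u * g⁻¹) = g * ((g⁻¹ * q * g) * u) * g⁻¹ := by group
        _ = _ := by rw [this]; group
    let Sg : Subgroup C := (S.map (MulAut.conj g).toMonoidHom).subgroupOf C
    have hSgle : S.map (MulAut.conj g).toMonoidHom ≤ C := by
      rintro _ ⟨u, hu, rfl⟩; exact hgC u (hSC hu)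
    obtain ⟨S1, hS1⟩ : ∃ S1 : Sylow 2 C, (S1 : Subgroup C) = Sg := by
      refine ⟨Sylow.ofCard Sg ?_, rfl⟩
      rw [Nat.card_congr (Subgroup.subgroupOfEquivOfLe hSgle).toEquiv, ← S0.card_eq_multiplicity,
        Subgroup.card_map_of_injective (MulAut.conj g).injective, hS,
        Subgroup.card_map_of_injective C.subtype_injective]
    obtain ⟨c, hc⟩ := MulAction.exists_smul_eq C S1 S0
    set x0 : G := (c : G) * g with hx0
    have hCN : C ≤ N := Subgroup.centralizer_le_normalizer _
    have hx0N : x0 ∈ N := mul_mem (hCN c.2) hgN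
    have hx0S : ∀ u ∈ S, x0 * u * x0⁻¹ ∈ S := by
      intro u hu
      have h1 : (⟨g * u * g⁻¹, hgC u (hSC hu)⟩ : C) ∈ (S1 : Subgroup C) := by
        rw [hS1]; exact ⟨u, hu, rfl⟩
      have h2 : c * ⟨g * u * g⁻¹, hgC u (hSC hu)⟩ * c⁻¹ ∈ (S0 : Subgroup C) := by
        rw [← hc, Sylow.coe_subgroup_smul, Subgroup.mem_pointwise_smul_iff_inv_smul_mem]
        simpa [mul_assoc] using h1
      exact ⟨_, h2, by simp [hx0, mul_assoc]⟩
    have hx0Sn : x0 ∈ Subgroup.normalizer (S : Set G) := by
      rw [Subgroup.mem_normalizer_iff]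
      intro u
      refine ⟨hx0S u, fun hu => ?_⟩
      have hmap : S.map (MulAut.conj x0).toMonoidHom = S := Subgroup.eq_of_le_of_card_ge
        (by rintro _ ⟨w, hw, rfl⟩; exact hx0S w hw)
        (Subgroup.card_map_of_injective (MulAut.conj x0).injective).ge
      obtain ⟨w, hw, hwe⟩ := hmap.ge hu
      rwa [show u = w from (MulAut.conj x0).injective hwe.symm]
    have hact : ∀ n : ℕ, ∀ q ∈ Q0, x0 ^ n * q * (x0 ^ n)⁻¹ = g ^ n * q * (g ^ n)⁻¹ := by
      intro n
      induction n with
      | zero => simp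
      | succ n ih =>
        intro q hq
        have hq' : g ^ n * q * (g ^ n)⁻¹ ∈ Q0 := (Subgroup.mem_normalizer_iff.1 (pow_mem hgN n) q).1 hq
        have hq'' : g * (g ^ n * q * (g ^ n)⁻¹) * g⁻¹ ∈ Q0 := (Subgroup.mem_normalizer_iff.1 hgN _).1 hq'
        have hcc := Subgroup.mem_centralizer_iff.1 c.2 _ hq''
        calc x0 ^ (n + 1) * q * (x0 ^ (n + 1))⁻¹ = x0 * (x0 ^ n * q * (x0 ^ n)⁻¹) * x0⁻¹ := by rw [pow_succ']; group
          _ = (c : G) * (g * (g ^ n * q * (g ^ n)⁻¹) * g⁻¹) * (c : G)⁻¹ := by rw [ih q hq, hx0]; group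
          _ = g * (g ^ n * q * (g ^ n)⁻¹) * g⁻¹ := by rw [← hcc, mul_inv_cancel_right]
          _ = g ^ (n + 1) * q * (g ^ (n + 1))⁻¹ := by rw [pow_succ']; group
    set e := (orderOf x0).factorization 2
    set x := x0 ^ 2 ^ e with hx
    have hxodd : Odd (orderOf x) := by
      rw [hx, orderOf_pow_of_dvd (pow_pos two_pos e).ne' (Nat.ordProj_dvd _ _)]
      exact Nat.coprime_two_left.1 (Nat.coprime_ordCompl Nat.prime_two (orderOf_pos x0).ne')
    obtain ⟨q0, hq0, hq0m⟩ : ∃ q ∈ Q0, ¬ Commute x q := by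
      by_contra hcon
      push Not at hcon
      apply hgc
      have h1 : g ^ 2 ^ e ∈ C := by
        rw [hC, Subgroup.mem_centralizer_iff]
        intro q hq
        have h2 := hact (2 ^ e) q hq
        rw [show x0 ^ 2 ^ e * q = q * x0 ^ 2 ^ e from (hcon q hq).eq, mul_inv_cancel_right] at h2
        exact (eq_mul_inv_iff_mul_eq.1 h2)
      obtain ⟨m, hm⟩ := exists_pow_eq_self_of_coprime (x := g) (n := 2 ^ e) (hgo.symm.pow_left e)
      exact hm ▸ pow_mem h1 m
    set Q := Q0 ⊔ S with hQ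
    have hSp : IsPGroup 2 S := S0.isPGroup'.map _
    have hQp : IsPGroup 2 Q := (P.isPGroup'.to_le hQ0P).to_sup_of_normal_right' hSp (fun q hq =>
      Subgroup.centralizer_le_normalizer (S : Set G) (Subgroup.mem_centralizer_iff.2 fun s hs =>
        ((Subgroup.mem_centralizer_iff.1 (hSC hs)) q hq).symm))
    obtain ⟨P', hP'⟩ := hQp.exists_le_sylow
    have hxQ : x ∈ Subgroup.normalizer (Q : Set G) := by
      refine pow_mem ?_ _
      have h1 : ∀ H : Subgroup G, x0 ∈ Subgroup.normalizer (H : Set G) → MulAut.conj x0 • H = H :=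
        fun H h => Subgroup.eq_of_le_of_card_ge (by
          rintro _ ⟨w, hw, rfl⟩; exact (Subgroup.mem_normalizer_iff.1 h w).1 hw)
          (Subgroup.card_map_of_injective (MulAut.conj x0).injective).ge
      rw [Subgroup.mem_normalizer_iff'']
      have h2 : MulAut.conj x0 • Q = Q := by rw [hQ, Subgroup.smul_sup, h1 _ hx0N, h1 _ hx0Sn]
      intro u
      conv_lhs => rw [← h2]
      rw [Subgroup.mem_pointwise_smul_iff_inv_smul_mem]
      simp [mul_assoc]
    have hZ : ∀ u ∈ (P' : Subgroup G), (∀ v ∈ (P' : Subgroup G), v * u = u * v) → u ∈ Q := by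
      intro u hu huc
      have huC : u ∈ C := Subgroup.mem_centralizer_iff.2 fun q hq => huc q (hP' (Subgroup.mem_sup_left hq))
      have hle : S ⊔ Subgroup.zpowers u ≤ C := sup_le hSC (Subgroup.zpowers_le.2 huC)
      have hp2 : IsPGroup 2 ↥((S ⊔ Subgroup.zpowers u).subgroupOf C) :=
        (P'.isPGroup'.to_le (sup_le (le_sup_right.trans hP') (Subgroup.zpowers_le.2 hu))).of_equiv
          (Subgroup.subgroupOfEquivOfLe hle).symm
      have heq := S0.3 hp2 (fun s hs => Subgroup.mem_sup_left (Subgroup.mem_map_of_mem C.subtype hs))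
      refine Subgroup.mem_sup_right ⟨⟨u, huC⟩, ?_, rfl⟩
      show (⟨u, huC⟩ : C) ∈ (S0 : Subgroup C)
      rw [← heq]
      exact Subgroup.mem_sup_right (Subgroup.mem_zpowers u)
    have hb := count_bound P' Q hP' hZ x hxodd hxQ ⟨q0, Subgroup.mem_sup_left hq0, hq0m⟩
    have hcP : Nat.card ↥(P' : Subgroup G) = Nat.card ↥(P : Subgroup G) :=
      P'.card_eq_multiplicity.trans P.card_eq_multiplicity.symm
    omega
  · rintro ⟨h, hlt⟩
    rw [hiff h]; exact hlt

end Cfsg.Agent.S3895
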