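import Cfsg.Statements.S3897
import Mathlib

set_option autoImplicit false
open Cfsg

namespace Cfsg.Agent.S3897

open Subgroup in
theorem two_mul_card_orbits_le {A X : Type*} [Group A] [Finite X] [MulAction A X] :
    2 * Nat.card (MulAction.orbitRel.Quotient A X) ≤
      Nat.card X + Nat.card (MulAction.fixedPoints A X) := by
  classical
  haveI := Fintype.ofFinite X
  set Ω := MulAction.orbitRel.Quotient A X
  haveI : Fintype Ω := Fintype.ofFinite Ω
  have hX : Nat.card X = ∑ ω : Ω, Nat.card ω.orbit := by
    rw [Nat.card_congr (MulAction.selfEquivSigmaOrbits' A X), Nat.card_sigma]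
  have hsingle : (Finset.univ.filter fun ω : Ω => Nat.card ω.orbit < 2).card ≤
      Nat.card (MulAction.fixedPoints A X) := by
    rw [← Fintype.card_coe, ← Nat.card_eq_fintype_card]
    have hfix : ∀ ω : {ω : Ω // ω ∈ Finset.univ.filter fun ω : Ω => Nat.card ω.orbit < 2},
        (Quotient.out (ω : Ω)) ∈ MulAction.fixedPoints A X := by
      rintro ⟨ω, hω⟩
      simp only [Finset.mem_filter, Finset.mem_univ, true_and] at hω
      have hmem : Quotient.out ω ∈ ω.orbit :=
        MulAction.orbitRel.Quotient.mem_orbit.mpr (Quotient.out_eq ω)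
      have hsub : Subsingleton ω.orbit := Finite.card_le_one_iff_subsingleton.mp (by omega)
      intro a
      have hmem' : a • Quotient.out ω ∈ ω.orbit := by
        rw [MulAction.orbitRel.Quotient.orbit_eq_orbit_out _ Quotient.out_eq']
        exact MulAction.mem_orbit _ a
      exact congrArg Subtype.val
        (@Subsingleton.elim _ hsub (⟨_, hmem'⟩ : ω.orbit) ⟨_, hmem⟩)
    refine Nat.card_le_card_of_injective (fun ω => ⟨_, hfix ω⟩) fun a b hab => Subtype.ext ?_
    have h1 : Quotient.out (a : Ω) = Quotient.out (b : Ω) := congrArg Subtype.val hab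
    calc (a : Ω) = Quotient.mk'' (Quotient.out (a : Ω)) := (Quotient.out_eq' _).symm
      _ = Quotient.mk'' (Quotient.out (b : Ω)) := by rw [h1]
      _ = b := Quotient.out_eq' _
  have key : ∀ ω : Ω, 2 ≤ Nat.card ω.orbit + if Nat.card ω.orbit < 2 then 1 else 0 := by
    intro ω
    haveI : Nonempty ω.orbit := ⟨⟨_, MulAction.orbitRel.Quotient.mem_orbit.mpr (Quotient.out_eq ω)⟩⟩
    have : 0 < Nat.card ω.orbit := Nat.card_pos
    split_ifs <;> omega
  have hsum := Finset.sum_le_sum fun ω (_ : ω ∈ Finset.univ) => key ω
  rw [Finset.sum_const, Finset.card_univ, smul_eq_mul, Finset.sum_add_distrib, ← hX,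
    Finset.sum_boole, ← Nat.card_eq_fintype_card] at hsum
  simp only [Nat.cast_id] at hsum
  omega

/-- Let p be an odd prime and G a finite group with Sylow p-subgroup P, and write k_p(G) for the number of conjugacy classes of G consisting of p-elements (elements of p-power order, the identity included). Then k_p(G) > (p + 1)|P|/(2p) if and only if G has a normal p-complement and P is abelian. -/
theorem result {G : Type*} [Group G] [Finite G] {p : ℕ} [Fact p.Prime] (hp : p ≠ 2) (P : Sylow p G) :
    (p + 1) * Nat.card ↥(P : Subgroup G) < 2 * p * Nat.card {c : ConjClasses G // ∀ x ∈ c.carrier, ∃ k : ℕ, orderOf x = p ^ k} ↔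
      Cfsg.HasNormalPComplement p G ∧ IsMulCommutative ↥(P : Subgroup G) := by
  classical
  constructor
  · intro hk
    set N := Subgroup.normalizer ((P : Subgroup G) : Set G) with hN
    set P' := (P : Subgroup G).subgroupOf N with hP'
    haveI : P'.Normal := inferInstance
    letI act : MulAction N P' := MulAction.compHom _ (MulAut.conjNormal : N →* MulAut P')
    have hPN : (P : Subgroup G) ≤ N := Subgroup.le_normalizer
    have hcardP : Nat.card P' = Nat.card (P : Subgroup G) :=
      Nat.card_congr (Subgroup.subgroupOfEquivOfLe hPN).toEquiv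
    have hval : ∀ (a : N) (x : P'), (((a • x : P') : N) : G) = a * ((x : N) : G) * (a : G)⁻¹ := by
      intro a x
      show (((MulAut.conjNormal a x : P') : N) : G) = _
      rw [MulAut.conjNormal_apply]; simp
    let f : MulAction.orbitRel.Quotient N P' → ConjClasses G :=
      Quotient.lift (fun x : P' => ConjClasses.mk ((x : N) : G)) fun x y hxy => by
        obtain ⟨a, ha⟩ := hxy
        rw [ConjClasses.mk_eq_mk_iff_isConj, isConj_comm, isConj_iff]
        exact ⟨(a : G), by rw [← hval, ← ha]⟩
    have hle : Nat.card {c : ConjClasses G // ∀ x ∈ c.carrier, ∃ k : ℕ, orderOf x = p ^ k} ≤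
        Nat.card (MulAction.orbitRel.Quotient N P') := by
      have hex : ∀ c : {c : ConjClasses G // ∀ x ∈ c.carrier, ∃ k : ℕ, orderOf x = p ^ k},
          ∃ ω, f ω = c.1 := by
        rintro ⟨c, hc⟩
        induction c using Quotient.inductionOn with
        | h z =>
          obtain ⟨k, hk⟩ := hc z ConjClasses.mem_carrier_mk
          have hz : IsPGroup p (Subgroup.zpowers z) :=
            IsPGroup.of_card (n := k) (by rw [Nat.card_zpowers, hk])
          obtain ⟨Q, hQ⟩ := hz.exists_le_sylow
          obtain ⟨g, hg⟩ := MulAction.exists_smul_eq G Q P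
          have hmem : g * z * g⁻¹ ∈ (P : Subgroup G) := by
            rw [← hg]
            exact ⟨z, hQ (Subgroup.mem_zpowers z), rfl⟩
          refine ⟨Quotient.mk'' (⟨⟨g * z * g⁻¹, hPN hmem⟩, hmem⟩ : P'), ?_⟩
          show ConjClasses.mk (g * z * g⁻¹) = ConjClasses.mk z
          rw [ConjClasses.mk_eq_mk_iff_isConj, isConj_comm, isConj_iff]
          exact ⟨g, rfl⟩
      choose w hw using hex
      exact Nat.card_le_card_of_injective w fun a b hab =>
        Subtype.ext (by rw [← hw a, ← hw b, hab])
    have hburn := two_mul_card_orbits_le (A := N) (X := P')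
    have hPpos : 0 < Nat.card (P : Subgroup G) := Nat.card_pos
    by_cases hcomm : ∀ (a : N) (x : P'), a • x = x
    · have hab : N ≤ Subgroup.centralizer ((P : Subgroup G) : Set G) := by
        intro a ha
        rw [Subgroup.mem_centralizer_iff]
        intro x hx
        have h1 := congrArg (fun y : P' => ((y : N) : G))
          (hcomm ⟨a, ha⟩ ⟨⟨x, hPN hx⟩, hx⟩)
        simp only [hval] at h1
        exact (mul_inv_eq_iff_eq_mul.mp h1).symm
      refine ⟨⟨P, (MonoidHom.transferSylow P hab).ker, inferInstance,
        MonoidHom.ker_transferSylow_isComplement' P hab⟩, ⟨⟨fun a b => Subtype.ext ?_⟩⟩⟩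
      exact Subgroup.mem_centralizer_iff.mp (hab (hPN b.2)) a a.2
    · exfalso
      push Not at hcomm
      obtain ⟨a, x, hax⟩ := hcomm
      let F : Subgroup P' :=
        { carrier := MulAction.fixedPoints N P'
          one_mem' := fun a => map_one (MulAut.conjNormal a)
          mul_mem' := fun {u v} hu hv a => by
            show MulAut.conjNormal a (u * v) = u * v
            rw [map_mul]; exact congrArg₂ (· * ·) (hu a) (hv a)
          inv_mem' := fun {u} hu a => by
            show MulAut.conjNormal a u⁻¹ = u⁻¹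
            rw [map_inv]; exact congrArg (·⁻¹) (hu a) }
      have hF : F ≠ ⊤ := fun h => hax ((h ▸ Subgroup.mem_top x : x ∈ F) a)
      obtain ⟨n, hn⟩ := IsPGroup.iff_card.mp P.isPGroup'
      have hidx : p ∣ F.index := by
        have h1 : F.index ∣ p ^ n := hn ▸ hcardP ▸ F.index_dvd_card
        obtain ⟨m, -, hm⟩ := (Nat.dvd_prime_pow (Fact.out : p.Prime)).mp h1
        rcases m with _ | m
        · exact absurd (Subgroup.index_eq_one.mp (by simpa using hm)) hF
        · exact hm ▸ dvd_pow_self p (Nat.succ_ne_zero m)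
      have hfix : p * Nat.card (MulAction.fixedPoints N P') ≤ Nat.card (P : Subgroup G) := by
        rw [← hcardP, ← F.index_mul_card]
        exact Nat.mul_le_mul_right _
          (Nat.le_of_dvd (Nat.pos_of_ne_zero Subgroup.index_ne_zero_of_finite) hidx)
      rw [hcardP] at hburn
      have h2 := Nat.mul_le_mul_left p (le_trans (Nat.mul_le_mul_left 2 hle) hburn)
      nlinarith [hk, h2, hfix]
  · rintro ⟨⟨Q, K, hKn, hK⟩, hab⟩
    have hp1 : 1 < p := (Fact.out : p.Prime).one_lt
    haveI := hKn
    haveI : IsMulCommutative (G ⧸ K) := by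
      have e : G ⧸ K ≃* (Q : Subgroup G) := hK.symm.QuotientMulEquiv
      have hQc : ∀ a b : (Q : Subgroup G), a * b = b * a := by
        intro a b
        apply (Sylow.equiv Q P).injective
        rw [map_mul, map_mul]
        exact hab.is_comm.comm _ _
      exact ⟨⟨fun a b => e.injective (by rw [map_mul, map_mul, hQc])⟩⟩
    have hco : Nat.Coprime (Nat.card (P : Subgroup G)) (Nat.card K) := by
      have h2 : K.index = Nat.card (Q : Subgroup G) := hK.symm.index_eq_card
      have h3 : (Q : Subgroup G).index = Nat.card K := hK.index_eq_card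
      obtain ⟨n, hn⟩ := IsPGroup.iff_card.mp P.isPGroup'
      rw [hn, ← h3]
      exact Nat.Coprime.pow_left n ((Nat.Prime.coprime_iff_not_dvd Fact.out).mpr Q.not_dvd_index)
    have hle : Nat.card (P : Subgroup G) ≤
        Nat.card {c : ConjClasses G // ∀ x ∈ c.carrier, ∃ k : ℕ, orderOf x = p ^ k} := by
      refine Nat.card_le_card_of_injective (fun x => ⟨ConjClasses.mk (x : G), fun y hy => ?_⟩) ?_
      · rw [ConjClasses.mem_carrier_iff_mk_eq, ConjClasses.mk_eq_mk_iff_isConj, isConj_iff] at hy
        obtain ⟨c, hc⟩ := hy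
        obtain ⟨k, hk⟩ := IsPGroup.iff_orderOf.mp P.isPGroup' x
        refine ⟨k, ?_⟩
        rw [← hk, ← Subgroup.orderOf_coe, ← hc]
        exact (MulAut.conj c).orderOf_eq y |>.symm
      · intro x y hxy
        have h1 := congrArg Subtype.val hxy
        simp only [ConjClasses.mk_eq_mk_iff_isConj, isConj_iff] at h1
        obtain ⟨c, hc⟩ := h1
        have h2 : ((x : G) : G ⧸ K) = ((y : G) : G ⧸ K) := by
          rw [← hc, QuotientGroup.mk_mul, QuotientGroup.mk_mul, mul_comm' (c : G ⧸ K),
            mul_assoc, ← QuotientGroup.mk_mul, mul_inv_cancel, QuotientGroup.mk_one, mul_one]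
        rw [QuotientGroup.eq] at h2
        have h3 : orderOf ((x⁻¹ * y : (P : Subgroup G)) : G) = 1 :=
          Nat.eq_one_of_dvd_coprimes hco
            (by rw [Subgroup.orderOf_coe]; exact orderOf_dvd_natCard _)
            (by rw [← Subgroup.orderOf_mk _ (by simpa using h2 :
                ((x⁻¹ * y : (P : Subgroup G)) : G) ∈ K)]; exact orderOf_dvd_natCard _)
        rw [orderOf_eq_one_iff, OneMemClass.coe_eq_one, inv_mul_eq_one] at h3
        exact h3
    calc (p + 1) * Nat.card (P : Subgroup G) < 2 * p * Nat.card (P : Subgroup G) :=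
          Nat.mul_lt_mul_of_pos_right (by omega) Nat.card_pos
      _ ≤ _ := Nat.mul_le_mul_left _ hle

end Cfsg.Agent.S3897
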