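import Cfsg.Statements.S3899
import Cfsg.Agent.Lib.Blocks.Kernel
import Cfsg.Agent.S3897

set_option autoImplicit false
open Cfsg

namespace Cfsg.Agent.S3899

universe u

/-- The product of the `r`-parts of the group order. -/
noncomputable def piPart (π : Finset ℕ) (G : Type u) : ℕ :=
  π.prod fun r => r ^ (Nat.card G).factorization r

/-- The number of classes of `π`-elements. -/
noncomputable def piClassCount (π : Finset ℕ) (G : Type u) [Group G] : ℕ :=
  Nat.card {c : ConjClasses G // ∀ x ∈ c.carrier, ∀ r : ℕ, r.Prime → r ∣ orderOf x → r ∈ π}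

theorem exists_rep {G : Type u} [Group G] (c : ConjClasses G) : ∃ z : G, ConjClasses.mk z = c :=
  ConjClasses.mk_surjective c

theorem forall_carrier {G : Type u} [Group G] {P : ℕ → Prop} {z : G} (h : P (orderOf z)) :
    ∀ x ∈ (ConjClasses.mk z).carrier, P (orderOf x) := by
  intro x hx
  rw [ConjClasses.mem_carrier_iff_mk_eq, ConjClasses.mk_eq_mk_iff_isConj, isConj_iff] at hx
  obtain ⟨g, hg⟩ := hx
  rwa [← hg, ← MulAut.conj_apply, MulEquiv.orderOf_eq] at h

theorem classes_le_sylow {G : Type u} [Group G] [Finite G] {r : ℕ} [Fact r.Prime] (P : Sylow r G) :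
    Nat.card {c : ConjClasses G // ∀ x ∈ c.carrier, ∃ k : ℕ, orderOf x = r ^ k} ≤
      Nat.card (P : Subgroup G) := by
  have hex : ∀ c : {c : ConjClasses G // ∀ x ∈ c.carrier, ∃ k : ℕ, orderOf x = r ^ k},
      ∃ z : (P : Subgroup G), ConjClasses.mk (z : G) = c.1 := by
    rintro ⟨c, hc⟩
    obtain ⟨z, rfl⟩ := exists_rep c
    obtain ⟨k, hk⟩ := hc z ConjClasses.mem_carrier_mk
    obtain ⟨Q, hQ⟩ := (IsPGroup.of_card (p := r) (n := k)
      (show Nat.card (Subgroup.zpowers z) = r ^ k by rw [Nat.card_zpowers, hk])).exists_le_sylow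
    obtain ⟨g, hg⟩ := MulAction.exists_smul_eq G Q P
    refine ⟨⟨g * z * g⁻¹, by rw [← hg]; exact ⟨z, hQ (Subgroup.mem_zpowers z), rfl⟩⟩, ?_⟩
    rw [ConjClasses.mk_eq_mk_iff_isConj, isConj_comm, isConj_iff]
    exact ⟨g, rfl⟩
  choose w hw using hex
  exact Nat.card_le_card_of_injective w fun a b hab => Subtype.ext (by rw [← hw a, ← hw b, hab])

/-- Splitting off one prime. -/
theorem piClassCount_le_mul {G : Type u} [Group G] [Finite G] (π : Finset ℕ) (r : ℕ)
    [Fact r.Prime] (hπ : ∀ s ∈ π, s.Prime)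
    (ih : ∀ (H : Type u) [Group H] [Finite H], piClassCount (π.erase r) H ≤ piPart (π.erase r) H) :
    piClassCount π G ≤ Nat.card {c : ConjClasses G // ∀ x ∈ c.carrier, ∃ k : ℕ, orderOf x = r ^ k} *
      piPart (π.erase r) G := by
  classical
  haveI := Fintype.ofFinite G
  set A := {c : ConjClasses G // ∀ x ∈ c.carrier, ∃ k : ℕ, orderOf x = r ^ k}
  choose rep hrep using fun c : A => exists_rep c.1
  let C : A → Subgroup G := fun a => Subgroup.centralizer ({rep a} : Set G)
  have hkey : ∀ c : {c : ConjClasses G // ∀ x ∈ c.carrier, ∀ s : ℕ, s.Prime → s ∣ orderOf x → s ∈ π},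
      ∃ σ : Σ a : A, {d : ConjClasses (C a) //
          ∀ x ∈ d.carrier, ∀ s : ℕ, s.Prime → s ∣ orderOf x → s ∈ π.erase r},
        ∀ y : C σ.1, ConjClasses.mk y = σ.2.1 →
          ConjClasses.mk (rep σ.1 * (y : G)) = c.1 := by
    rintro ⟨c, hc⟩
    obtain ⟨z, rfl⟩ := exists_rep c
    have hz := hc z ConjClasses.mem_carrier_mk
    obtain ⟨x, y, rfl, hxy, ⟨k, hk⟩, hy⟩ := Cfsg.Lib.Blocks.exists_pPart_commute (p := r) z
    let a : A := ⟨ConjClasses.mk x, forall_carrier (P := fun n => ∃ k : ℕ, n = r ^ k) ⟨k, hk⟩⟩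
    obtain ⟨g, hg⟩ : ∃ g : G, g * x * g⁻¹ = rep a := by
      have h1 : ConjClasses.mk (rep a) = ConjClasses.mk x := hrep a
      exact isConj_iff.mp (ConjClasses.mk_eq_mk_iff_isConj.mp h1).symm
    have hmem : g * y * g⁻¹ ∈ C a := by
      show g * y * g⁻¹ ∈ Subgroup.centralizer ({rep a} : Set G)
      rw [Subgroup.mem_centralizer_singleton_iff, ← hg]
      calc g * y * g⁻¹ * (g * x * g⁻¹) = g * (y * x) * g⁻¹ := by group
        _ = g * (x * y) * g⁻¹ := by rw [hxy.eq]
        _ = _ := by group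
    have hord : orderOf (⟨g * y * g⁻¹, hmem⟩ : C a) = orderOf y := by
      rw [← Subgroup.orderOf_coe]
      exact (MulAut.conj g).orderOf_eq y
    have hcop : Nat.Coprime (orderOf x) (orderOf y) := by
      rw [hk]; exact Nat.Coprime.pow_left k ((Nat.Prime.coprime_iff_not_dvd Fact.out).mpr hy)
    have hy' : ∀ s : ℕ, s.Prime → s ∣ orderOf (⟨g * y * g⁻¹, hmem⟩ : C a) → s ∈ π.erase r := by
      intro s hs hsd
      rw [hord] at hsd
      refine Finset.mem_erase.mpr ⟨fun h => hy (h ▸ hsd), hz s hs ?_⟩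
      rw [hxy.orderOf_mul_eq_mul_orderOf_of_coprime hcop]
      exact hsd.mul_left _
    refine ⟨⟨a, ⟨ConjClasses.mk ⟨g * y * g⁻¹, hmem⟩,
      forall_carrier (P := fun n => ∀ s : ℕ, s.Prime → s ∣ n → s ∈ π.erase r) hy'⟩⟩, ?_⟩
    intro y' hy'eq
    obtain ⟨h, hh⟩ := isConj_iff.mp (ConjClasses.mk_eq_mk_iff_isConj.mp hy'eq)
    have hh' : (h : G) * (y' : G) * (h : G)⁻¹ = g * y * g⁻¹ := congrArg Subtype.val hh
    have hfix : (h : G) * rep a = rep a * (h : G) :=
      Subgroup.mem_centralizer_singleton_iff.mp h.2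
    rw [ConjClasses.mk_eq_mk_iff_isConj, isConj_iff]
    refine ⟨g⁻¹ * h, ?_⟩
    calc g⁻¹ * (h : G) * (rep a * (y' : G)) * (g⁻¹ * (h : G))⁻¹
        = g⁻¹ * ((h : G) * rep a) * (y' : G) * (h : G)⁻¹ * g := by group
      _ = g⁻¹ * rep a * ((h : G) * (y' : G) * (h : G)⁻¹) * g := by rw [hfix]; group
      _ = x * y := by rw [hh', ← hg]; group
  choose w hw using hkey
  haveI : Fintype A := Fintype.ofFinite A
  calc piClassCount π G
      ≤ Nat.card (Σ a : A, {d : ConjClasses (C a) //
          ∀ x ∈ d.carrier, ∀ s : ℕ, s.Prime → s ∣ orderOf x → s ∈ π.erase r}) := by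
        refine Nat.card_le_card_of_injective w fun c₁ c₂ h => ?_
        obtain ⟨y, hy⟩ := exists_rep (w c₁).2.1
        have h1 := hw c₁ y hy
        apply Subtype.ext
        rw [← h1]
        revert y
        rw [h]
        intro y hy _
        exact hw c₂ y hy
    _ = ∑ a : A, piClassCount (π.erase r) (C a) := Nat.card_sigma
    _ ≤ ∑ _a : A, piPart (π.erase r) G := by
        refine Finset.sum_le_sum fun a _ => (ih (C a)).trans ?_
        refine Finset.prod_le_prod' fun s hs => ?_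
        refine Nat.pow_le_pow_right (hπ s (Finset.mem_of_mem_erase hs)).pos ?_
        exact (Nat.factorization_le_iff_dvd Nat.card_pos.ne' Nat.card_pos.ne').mpr
          (Subgroup.card_subgroup_dvd_card _) s
    _ = _ := by
        rw [Finset.sum_const, Finset.card_univ, smul_eq_mul, Nat.card_eq_fintype_card]

/-- The number of classes of `π`-elements is at most the `π`-part of the order. -/
theorem piClassCount_le_piPart : ∀ (π : Finset ℕ), (∀ s ∈ π, s.Prime) →
    ∀ (G : Type u) [Group G] [Finite G], piClassCount π G ≤ piPart π G := by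
  intro π
  induction π using Finset.strongInduction with
  | _ π ih =>
    intro hπ G _ _
    rcases π.eq_empty_or_nonempty with rfl | ⟨r, hr⟩
    · have : Subsingleton {c : ConjClasses G //
          ∀ x ∈ c.carrier, ∀ r : ℕ, r.Prime → r ∣ orderOf x → r ∈ (∅ : Finset ℕ)} := by
        constructor
        intro a b
        have hone : ∀ c : {c : ConjClasses G //
            ∀ x ∈ c.carrier, ∀ r : ℕ, r.Prime → r ∣ orderOf x → r ∈ (∅ : Finset ℕ)},
            c.1 = ConjClasses.mk 1 := by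
          rintro ⟨c, hc⟩
          obtain ⟨z, rfl⟩ := exists_rep c
          have h1 : orderOf z = 1 := by
            by_contra h
            obtain ⟨s, hs, hsd⟩ := Nat.exists_prime_and_dvd h
            exact Finset.notMem_empty s (hc z ConjClasses.mem_carrier_mk s hs hsd)
          show ConjClasses.mk z = _
          rw [orderOf_eq_one_iff.mp h1]
        exact Subtype.ext ((hone a).trans (hone b).symm)
      show Nat.card _ ≤ piPart ∅ G
      simp only [piPart, Finset.prod_empty]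
      exact Finite.card_le_one_iff_subsingleton.mpr this
    · haveI := Fact.mk (hπ r hr)
      refine (piClassCount_le_mul π r hπ fun H _ _ => ih _ (Finset.erase_ssubset hr)
        (fun s hs => hπ s (Finset.mem_of_mem_erase hs)) H).trans ?_
      obtain ⟨P⟩ : Nonempty (Sylow r G) := inferInstance
      refine (Nat.mul_le_mul_right _ (classes_le_sylow P)).trans ?_
      rw [P.card_eq_multiplicity]
      exact le_of_eq (Finset.mul_prod_erase π (fun s => s ^ (Nat.card G).factorization s) hr)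

/-- Let π be a finite non-empty set of odd primes with smallest member p and G a finite group. Write k_π(G) for the number of conjugacy classes of G consisting of π-elements (elements all of whose order's prime divisors lie in π) and |G|_π for the π-part of the order of G. If k_π(G) > (p + 1)|G|_π/(2p), then G has a normal π-complement (a normal subgroup of order prime to π whose index is a π-number) and an abelian Hall π-subgroup. -/
theorem result {G : Type*} [Group G] [Finite G] (π : Finset ℕ) (hπ : ∀ r ∈ π, r.Prime) (h2 : 2 ∉ π) (p : ℕ) (hp : p ∈ π)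
    (hmin : ∀ r ∈ π, p ≤ r) (hk : (p + 1) * π.prod (fun r => r ^ (Nat.card G).factorization r) < 2 * p * Nat.card {c : ConjClasses G // ∀ x ∈ c.carrier, ∀ r : ℕ, r.Prime → r ∣ orderOf x → r ∈ π}) :
    (∃ N : Subgroup G, N.Normal ∧ (∀ r : ℕ, r.Prime → r ∣ Nat.card ↥N → r ∉ π) ∧ ∀ r : ℕ, r.Prime → r ∣ N.index → r ∈ π) ∧ ∃ H : Subgroup G, Cfsg.IsPiHall (↑π : Set ℕ) H ∧ IsMulCommutative ↥H := by
  classical
  have hloc : ∀ r : {r : ℕ // r ∈ π}, ∃ N : Subgroup G, N.Normal ∧ ¬ (r : ℕ) ∣ Nat.card N ∧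
      (∃ j : ℕ, N.index = (r : ℕ) ^ j) ∧ ∀ a b : G, a⁻¹ * b⁻¹ * a * b ∈ N := by
    rintro ⟨r, hr⟩
    haveI := Fact.mk (hπ r hr)
    obtain ⟨P⟩ : Nonempty (Sylow r G) := inferInstance
    have hr2 : r ≠ 2 := fun h => h2 (h ▸ hr)
    have hle := piClassCount_le_mul (G := G) π r hπ fun H _ _ =>
      piClassCount_le_piPart _ (fun s hs => hπ s (Finset.mem_of_mem_erase hs)) H
    rw [← Finset.mul_prod_erase π (fun s => s ^ (Nat.card G).factorization s) hr,
      ← P.card_eq_multiplicity] at hk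
    set kr := Nat.card {c : ConjClasses G // ∀ x ∈ c.carrier, ∃ k : ℕ, orderOf x = r ^ k}
    have h3 : (p + 1) * Nat.card (P : Subgroup G) < 2 * p * kr := by
      have h4 := hk.trans_le (Nat.mul_le_mul_left (2 * p) hle)
      rw [← mul_assoc, ← mul_assoc] at h4
      exact Nat.lt_of_mul_lt_mul_right h4
    have h5 : (r + 1) * Nat.card (P : Subgroup G) < 2 * r * kr := by
      have hp0 : 0 < p := (hπ p hp).pos
      have hr0 : 0 < r := (hπ r hr).pos
      have hrp : p ≤ r := hmin r hr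
      nlinarith [Nat.mul_lt_mul_of_pos_left h3 hr0, Nat.mul_le_mul_right (Nat.card (P : Subgroup G)) hrp]
    obtain ⟨⟨Q, K, hKn, hK⟩, hab⟩ := (Cfsg.Agent.S3897.result hr2 P).mp h5
    haveI := hKn
    refine ⟨K, hKn, ?_, ?_, ?_⟩
    · rw [← hK.index_eq_card]; exact Q.not_dvd_index
    · exact ⟨_, hK.symm.index_eq_card.trans Q.card_eq_multiplicity⟩
    · have e : G ⧸ K ≃* (Q : Subgroup G) := hK.symm.QuotientMulEquiv
      intro a b
      rw [← QuotientGroup.eq_one_iff]
      apply ((e.trans (Sylow.equiv Q P))).injective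
      simp only [QuotientGroup.mk_mul, QuotientGroup.mk_inv, map_mul, map_inv, map_one]
      set u := (e.trans (Sylow.equiv Q P)) (a : G ⧸ K)
      set v := (e.trans (Sylow.equiv Q P)) (b : G ⧸ K)
      rw [mul_assoc, hab.is_comm.comm u v, ← mul_assoc, mul_assoc (u⁻¹), inv_mul_cancel, mul_one,
        inv_mul_cancel]
  choose Nr hNn hNc hNi hNab using hloc
  haveI : ∀ r, (Nr r).Normal := hNn
  set N := ⨅ r, Nr r with hN
  haveI : N.Normal := Subgroup.normal_iInf_normal hNn
  have hcard : ∀ r : ℕ, r.Prime → r ∣ Nat.card N → r ∉ π := fun r _ hrd hr =>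
    hNc ⟨r, hr⟩ (hrd.trans (Subgroup.card_dvd_of_le (iInf_le _ _)))
  have hindex : ∀ r : ℕ, r.Prime → r ∣ N.index → r ∈ π := by
    intro s hs hsd
    let φ : G →* ((r : {r : ℕ // r ∈ π}) → G ⧸ Nr r) :=
      MonoidHom.pi fun r => QuotientGroup.mk' (Nr r)
    have hker : φ.ker = N := by
      ext g
      simp [φ, hN, MonoidHom.mem_ker, funext_iff, Subgroup.mem_iInf, QuotientGroup.eq_one_iff]
    have h1 : N.index ∣ Nat.card ((r : {r : ℕ // r ∈ π}) → G ⧸ Nr r) := by
      rw [← hker, Subgroup.index_ker]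
      exact Subgroup.card_subgroup_dvd_card _
    rw [Nat.card_pi] at h1
    obtain ⟨r, -, hrd⟩ := (Nat.Prime.prime hs).exists_mem_finset_dvd (hsd.trans h1)
    rw [← Subgroup.index_eq_card] at hrd
    obtain ⟨j, hj⟩ := hNi r
    rw [hj] at hrd
    exact (Nat.prime_dvd_prime_iff_eq hs (hπ r r.2)).mp (hs.dvd_of_dvd_pow hrd) ▸ r.2
  refine ⟨⟨N, inferInstance, hcard, hindex⟩, ?_⟩
  have hcop : (Nat.card N).Coprime N.index :=
    Nat.coprime_of_dvd fun s hs hd1 hd2 => hcard s hs hd1 (hindex s hs hd2)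
  obtain ⟨H, hH⟩ := Subgroup.exists_right_complement'_of_coprime hcop
  refine ⟨H, ⟨fun s hs hsd => hindex s hs (hH.symm.index_eq_card ▸ hsd),
    fun s hs hsπ hsd => hcard s hs (hH.index_eq_card ▸ hsd) hsπ⟩, ⟨⟨fun a b => Subtype.ext ?_⟩⟩⟩
  have hmem : (a : G)⁻¹ * (b : G)⁻¹ * a * b ∈ N := by
    rw [hN, Subgroup.mem_iInf]
    exact fun r => hNab r a b
  have h1 : (a : G)⁻¹ * (b : G)⁻¹ * a * b = 1 := by
    have := hH.disjoint.le_bot (x := (a : G)⁻¹ * (b : G)⁻¹ * a * b)
      (Subgroup.mem_inf.mpr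
        ⟨hmem, H.mul_mem (H.mul_mem (H.mul_mem (H.inv_mem a.2) (H.inv_mem b.2)) a.2) b.2⟩)
    exact Subgroup.mem_bot.mp this
  show (a : G) * b = b * a
  calc (a : G) * b = (b : G) * a * ((a : G)⁻¹ * (b : G)⁻¹ * a * b) := by group
    _ = b * a := by rw [h1, mul_one]

end Cfsg.Agent.S3899
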