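import Cfsg.Statements.S3901
import Mathlib
import Cfsg.Agent.Lib.Solv.PrimePowerOutside
-- import your own Cfsg.Agent.* helpers here

set_option autoImplicit false
open Cfsg

namespace Cfsg.Agent.S3901

/-- Let N be a non-trivial normal subgroup of the finite group G such that every element of G outside N has prime power order. If N is not solvable, then G/N is solvable. -/
theorem result {G : Type*} [Group G] [Finite G] (N : Subgroup G) [N.Normal] (hN : N ≠ ⊥) (hns : ¬ Group.IsSolvable ↥N)
    (h : ∀ x : G, x ∉ N → IsPrimePow (orderOf x)) : Group.IsSolvable (G ⧸ N) := by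
  by_contra hnsol
  haveI := Fintype.ofFinite G
  obtain ⟨H, hH⟩ := (Set.toFinite {H : Subgroup (G ⧸ N) | ¬ Group.IsSolvable H}).exists_minimal
    ⟨⊤, fun hh => hnsol (Group.isSolvable_of_isSolvable_injective (f := (Subgroup.topEquiv (G := G ⧸ N)).symm.toMonoidHom)
      (Subgroup.topEquiv (G := G ⧸ N)).symm.injective)⟩
  obtain ⟨hHns, hHmin⟩ := hH
  haveI : Nontrivial H := by
    by_contra hh
    haveI := not_nontrivial_iff_subsingleton.1 hh
    exact hHns inferInstance
  obtain ⟨M, hM⟩ := (Set.toFinite {M : Subgroup H | M.Normal ∧ M ≠ ⊤}).exists_maximal ⟨⊥, inferInstance, bot_ne_top⟩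
  obtain ⟨⟨hMn, hMtop⟩, hMmax⟩ := hM
  haveI := hMn
  have hMs : Group.IsSolvable M := by
    by_contra hMns
    have h1 : ¬ Group.IsSolvable (M.map H.subtype) := fun hh => hMns
      (Group.isSolvable_of_isSolvable_injective (f := (M.equivMapOfInjective H.subtype H.subtype_injective).toMonoidHom)
        (M.equivMapOfInjective H.subtype H.subtype_injective).injective)
    have h2 := hHmin h1 (Subgroup.map_subtype_le M)
    refine hMtop (top_le_iff.1 fun y _ => ?_)
    obtain ⟨y', hy', hyy⟩ := h2 y.2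
    rwa [show y = y' from Subtype.ext hyy.symm]
  haveI : Nontrivial (↥H ⧸ M) := (QuotientGroup.nontrivial_iff).2 hMtop
  haveI : IsSimpleGroup (↥H ⧸ M) := ⟨fun K hK => by
    haveI := hK
    have hle : M ≤ K.comap (QuotientGroup.mk' M) := fun x hx => by
      rw [Subgroup.mem_comap, QuotientGroup.mk'_apply, (QuotientGroup.eq_one_iff x).2 hx]; exact one_mem _
    by_cases ht : K.comap (QuotientGroup.mk' M) = ⊤
    · exact Or.inr (Subgroup.comap_injective (QuotientGroup.mk'_surjective M) (ht.trans (Subgroup.comap_top _).symm))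
    · refine Or.inl (Subgroup.comap_injective (QuotientGroup.mk'_surjective M) ?_)
      rw [MonoidHom.comap_bot, QuotientGroup.ker_mk']
      exact le_antisymm (hMmax ⟨inferInstance, ht⟩ hle) hle⟩
  have hqns : ¬ Group.IsSolvable (↥H ⧸ M) := fun hq => hHns
    (Group.isSolvable_of_ker_le_range M.subtype (QuotientGroup.mk' M) (by rw [QuotientGroup.ker_mk', Subgroup.range_subtype]))
  set G1 := H.comap (QuotientGroup.mk' N) with hG1
  let f : ↥G1 →* ↥H ⧸ M := (QuotientGroup.mk' M).comp ((QuotientGroup.mk' N).subgroupComap H)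
  have hf : Function.Surjective f := (QuotientGroup.mk'_surjective M).comp fun y => by
    obtain ⟨x, hx⟩ := QuotientGroup.mk'_surjective N (y : G ⧸ N)
    exact ⟨⟨x, show QuotientGroup.mk' N x ∈ H by rw [hx]; exact y.2⟩, Subtype.ext hx⟩
  let e := QuotientGroup.quotientKerEquivOfSurjective f hf
  haveI : Nontrivial (↥G1 ⧸ f.ker) := e.toEquiv.nontrivial
  haveI : IsSimpleGroup (↥G1 ⧸ f.ker) := IsSimpleGroup.isSimpleGroup_of_surjective e.symm.toMonoidHom e.symm.surjective
  have hns1 : ¬ Group.IsSolvable (↥G1 ⧸ f.ker) := fun hq => hqns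
    (Group.isSolvable_of_isSolvable_injective (f := e.symm.toMonoidHom) e.symm.injective)
  have hNle : N ≤ G1 := fun x hx => by
    show QuotientGroup.mk' N x ∈ H
    rw [QuotientGroup.mk'_apply, (QuotientGroup.eq_one_iff x).2 hx]; exact one_mem _
  have hNker : N.subgroupOf G1 ≤ f.ker := fun x hx => by
    have h1 : (QuotientGroup.mk' N).subgroupComap H x = 1 := Subtype.ext ((QuotientGroup.eq_one_iff _).2 hx)
    show QuotientGroup.mk' M _ = 1
    rw [h1, map_one]
  obtain ⟨r, hr, hrN, hrs⟩ : ∃ r : ℕ, r.Prime ∧ r ∣ Nat.card N ∧ r ≠ (Nat.card (↥G1 ⧸ f.ker)).minFac := by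
    obtain ⟨r, hr, hrN, hrs, -⟩ := Cfsg.Lib.Solv.PrimePowerOutside.three_primes hns (Nat.card (↥G1 ⧸ f.ker)).minFac 0
    exact ⟨r, hr, hrN, hrs⟩
  haveI := Fact.mk hr
  refine Cfsg.Lib.Solv.PrimePowerOutside.simple_quotient_false f.ker hns1 (fun x hx => ?_) (r := r) ?_ hrs
  · rw [← Subgroup.orderOf_coe]
    exact h _ fun hm => hx (hNker hm)
  · refine hrN.trans ?_
    rw [← Nat.card_congr (Subgroup.subgroupOfEquivOfLe hNle).toEquiv]
    exact Subgroup.card_dvd_of_le hNker

end Cfsg.Agent.S3901
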