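import Cfsg.Statements.S3903
import Mathlib
import Cfsg.Agent.Lib.Solv.OddMaximal
-- import your own Cfsg.Agent.* helpers here

set_option autoImplicit false
open Cfsg

namespace Cfsg.Agent.S3903

/-- Let N be a proper normal subgroup of the finite group G such that every element x of G outside N has prime power order and has centralizer C_G(x) a maximal subgroup of G. Then N is solvable. -/
theorem result {G : Type*} [Group G] [Finite G] (N : Subgroup G) [N.Normal] (hN : N ≠ ⊤)
    (h : ∀ x : G, x ∉ N → IsPrimePow (orderOf x) ∧ IsCoatom (Subgroup.centralizer ({x} : Set G))) : Group.IsSolvable ↥N := by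
  classical
  suffices hG : Group.IsSolvable G from
    Group.isSolvable_of_isSolvable_injective (f := N.subtype) N.subtype_injective
  by_contra hns
  -- centralizers of outside elements
  have hC : ∀ y : G, y ∉ N → ∃ p : ℕ, p.Prime ∧ IsPGroup p ↥(Subgroup.centralizer ({y} : Set G)) ∧
      ∃ P : Sylow p G, (P : Subgroup G) = Subgroup.centralizer ({y} : Set G) ∧
        Subgroup.normalizer ((P : Subgroup G) : Set G) = P ∧ p = 2 := by
    intro y hy
    obtain ⟨hpp, hmax⟩ := h y hy
    obtain ⟨p, a, hp, ha, hpa⟩ := hpp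
    replace hp := hp.nat_prime
    haveI := Fact.mk hp
    set C := Subgroup.centralizer ({y} : Set G) with hCdef
    have hpg : IsPGroup p C := by
      refine IsPGroup.of_card (n := (Nat.card C).primeFactorsList.length)
        (Nat.eq_prime_pow_of_unique_prime_dvd Nat.card_pos.ne' fun {r} hr hrd => ?_)
      by_contra hrp
      haveI := Fact.mk hr
      obtain ⟨z', hz'⟩ := exists_prime_orderOf_dvd_card' r hrd
      have hz : orderOf (z' : G) = r := by rw [Subgroup.orderOf_coe, hz']
      have hc : Commute y (z' : G) := (Subgroup.mem_centralizer_singleton_iff.1 z'.2).symm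
      have hcop : Nat.Coprime (orderOf y) (orderOf (z' : G)) := by
        rw [← hpa, hz]; exact ((Nat.coprime_primes hp hr).2 (Ne.symm hrp)).pow_left a
      have hnot : y * (z' : G) ∉ N := by
        intro hmem
        have h1 : (y * (z' : G)) ^ r = y ^ r := by
          rw [hc.mul_pow, ← hz, pow_orderOf_eq_one, mul_one]
        have h2 : y ^ r ∈ N := h1 ▸ pow_mem hmem r
        obtain ⟨m, hm⟩ := exists_pow_eq_self_of_coprime (x := y) (n := r) (by
          rw [← hpa]; exact (((Nat.coprime_primes hr hp).2 hrp).pow_right a))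
        exact hy (hm ▸ pow_mem h2 m)
      have h3 := (h _ hnot).1
      rw [hc.orderOf_mul_eq_mul_orderOf_of_coprime hcop, ← hpa, hz] at h3
      obtain ⟨u, b, hu, hb, he⟩ := h3
      replace hu := hu.nat_prime
      have e1 : p = u := (Nat.prime_dvd_prime_iff_eq hp hu).1 (hp.dvd_of_dvd_pow (he ▸ (dvd_pow_self p ha.ne').mul_right r))
      have e2 : r = u := (Nat.prime_dvd_prime_iff_eq hr hu).1 (hr.dvd_of_dvd_pow (he ▸ dvd_mul_left r _))
      exact hrp (e2.trans e1.symm)
    have hnorm : Subgroup.normalizer (C : Set G) = C := by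
      rcases (hmax.le_iff.1 (Subgroup.le_normalizer (H := C))) with h1 | h1
      · exfalso
        haveI hn : C.Normal := Subgroup.normalizer_eq_top_iff.1 h1
        refine hns ?_
        haveI : Group.IsSolvable C := by
          haveI := hpg.isNilpotent; exact inferInstance
        have hq : Group.IsSolvable (G ⧸ C) := by
          rcases subsingleton_or_nontrivial (G ⧸ C) with h2 | h2
          · infer_instance
          obtain ⟨w, hw⟩ := exists_ne (1 : G ⧸ C)
          have hz : Subgroup.zpowers w = ⊤ := by
            rcases hmax.le_iff.1 (show C ≤ (Subgroup.zpowers w).comap (QuotientGroup.mk' C) from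
              fun c hc => by
                show QuotientGroup.mk' C c ∈ Subgroup.zpowers w
                rw [show QuotientGroup.mk' C c = 1 from (QuotientGroup.eq_one_iff c).2 hc]; exact one_mem _) with h3 | h3
            · exact Subgroup.comap_injective (QuotientGroup.mk'_surjective C) (h3.trans (Subgroup.comap_top _).symm)
            · exfalso
              obtain ⟨g, rfl⟩ := QuotientGroup.mk'_surjective C w
              exact hw ((QuotientGroup.eq_one_iff g).2 (h3 ▸ Subgroup.mem_zpowers (QuotientGroup.mk' C g)))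
          haveI : IsCyclic (G ⧸ C) := ⟨w, fun v => (hz ▸ Subgroup.mem_top v : v ∈ Subgroup.zpowers w)⟩
          exact Group.isSolvable_of_comm fun a b => IsCyclic.isMulCommutative.is_comm.comm a b
        exact Group.isSolvable_of_ker_le_range C.subtype (QuotientGroup.mk' C) (by simp)
      · exact h1
    obtain ⟨P, hP⟩ := hpg.exists_le_sylow
    have hPC : (P : Subgroup G) = C := by
      rcases hmax.le_iff.1 hP with h1 | h1
      · exfalso
        refine hns ?_
        have : IsPGroup p G := (h1 ▸ P.isPGroup' : IsPGroup p (⊤ : Subgroup G)).of_equiv Subgroup.topEquiv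
        haveI := this.isNilpotent
        exact inferInstance
      · exact h1
    refine ⟨p, hp, hpg, P, hPC, hPC ▸ hnorm, ?_⟩
    by_contra hp2
    refine hns (Cfsg.Lib.Solv.OddMaximal.solvable_aux (Nat.card G) G rfl C hmax hpg.isNilpotent ?_)
    obtain ⟨b, hb⟩ := hpg.exists_card_eq
    rw [hb]; exact (hp.odd_of_ne_two hp2).pow
  haveI := Fact.mk Nat.prime_two
  have hC2 : ∀ y : G, y ∉ N → ∃ P : Sylow 2 G, (P : Subgroup G) = Subgroup.centralizer ({y} : Set G) ∧
      Subgroup.normalizer ((P : Subgroup G) : Set G) = P := by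
    intro y hy
    obtain ⟨p, hp, -, P, h1, h2, rfl⟩ := hC y hy
    exact ⟨P, h1, h2⟩
  choose f hf hfn using hC2
  obtain ⟨y0, -, hy0⟩ := SetLike.exists_of_lt (lt_top_iff_ne_top.2 hN)
  set P0 := f y0 hy0 with hP0
  have hPmax : IsCoatom (P0 : Subgroup G) := (hf y0 hy0).symm ▸ (h y0 hy0).2
  have hn2 : Nat.card (Sylow 2 G) = (P0 : Subgroup G).index := by
    rw [P0.card_eq_index_normalizer]
    exact congrArg Subgroup.index (hfn y0 hy0)
  -- the outside elements are central in their Sylow subgroups
  set Z := Subgroup.center (P0 : Subgroup G) with hZ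
  have hcount : Nat.card {y : G // y ∉ N} ≤ Nat.card (Sylow 2 G) * Nat.card Z := by
    have e : ∀ P : Sylow 2 G, Nat.card (Subgroup.center (P : Subgroup G)) = Nat.card Z := fun P => by
      obtain ⟨g, rfl⟩ := MulAction.exists_smul_eq G P0 P
      exact (Nat.card_congr (Subgroup.centerCongr (P0.equiv (g • P0))).toEquiv).symm
    calc Nat.card {y : G // y ∉ N} ≤ Nat.card (Σ P : Sylow 2 G, Subgroup.center (P : Subgroup G)) := by
          refine Nat.card_le_card_of_injective (fun y => ⟨f y.1 y.2, ⟨y.1, by
            rw [hf y.1 y.2]; exact Subgroup.mem_centralizer_singleton_iff.2 rfl⟩, ?_⟩) ?_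
          · rw [Subgroup.mem_center_iff]
            intro w
            refine Subtype.ext ?_
            have hw : (w : G) ∈ Subgroup.centralizer ({y.1} : Set G) := hf y.1 y.2 ▸ w.2
            exact Subgroup.mem_centralizer_singleton_iff.1 hw
          · intro y y' he
            exact Subtype.ext (congrArg (fun s : Σ P : Sylow 2 G, Subgroup.center (P : Subgroup G) => ((s.2 : (s.1 : Subgroup G)) : G)) he)
      _ = ∑ᶠ P : Sylow 2 G, Nat.card (Subgroup.center (P : Subgroup G)) := by
          have := Fintype.ofFinite (Sylow 2 G)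
          rw [Nat.card_sigma, finsum_eq_sum_of_fintype]
      _ = Nat.card (Sylow 2 G) * Nat.card Z := by
          have := Fintype.ofFinite (Sylow 2 G)
          rw [finsum_eq_sum_of_fintype, Finset.sum_congr rfl (fun P _ => e P), Finset.sum_const,
            Finset.card_univ, smul_eq_mul, ← Nat.card_eq_fintype_card]
  have hhalf : Nat.card G ≤ 2 * Nat.card {y : G // y ∉ N} := by
    have h1 := Nat.card_congr (Equiv.sumCompl (fun y : G => y ∈ N))
    rw [Nat.card_sum] at h1
    have h2 : 2 * Nat.card N ≤ Nat.card G := by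
      rw [← N.index_mul_card]
      exact Nat.mul_le_mul_right _ (N.one_lt_index_of_ne_top hN)
    have h3 : Nat.card {x : G // x ∈ N} = Nat.card N := rfl
    omega
  have hZle : (P0 : Subgroup G) ≠ ⊥ → Z.index ≤ 2 := by
    intro _
    have h1 : Nat.card Z * Z.index = Nat.card (P0 : Subgroup G) := Z.card_mul_index
    rw [hn2] at hcount
    have h2 := (P0 : Subgroup G).index_mul_card
    have h3 : (P0 : Subgroup G).index * (Nat.card Z * Z.index) ≤ (P0 : Subgroup G).index * (Nat.card Z * 2) := by
      rw [h1, h2]
      calc Nat.card G ≤ 2 * Nat.card {y : G // y ∉ N} := hhalf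
        _ ≤ 2 * ((P0 : Subgroup G).index * Nat.card Z) := Nat.mul_le_mul_left 2 hcount
        _ = (P0 : Subgroup G).index * (Nat.card Z * 2) := by ring
    exact Nat.le_of_mul_le_mul_left (Nat.le_of_mul_le_mul_left h3 (Nat.pos_of_ne_zero Subgroup.index_ne_zero_of_finite))
      Nat.card_pos
  have hP0ne : (P0 : Subgroup G) ≠ ⊥ := by
    intro hb
    have h1 : y0 ∈ (P0 : Subgroup G) := (hf y0 hy0).symm ▸ Subgroup.mem_centralizer_singleton_iff.2 rfl
    rw [hb, Subgroup.mem_bot] at h1
    exact hy0 (h1 ▸ one_mem N)
  have hab : ∀ a ∈ (P0 : Subgroup G), ∀ b ∈ (P0 : Subgroup G), a * b = b * a := by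
    intro a ha b hb
    haveI : IsCyclic ((P0 : Subgroup G) ⧸ Subgroup.center (P0 : Subgroup G)) := by
      rcases Nat.lt_or_ge Z.index 2 with h2 | h2
      · haveI : Subsingleton ((P0 : Subgroup G) ⧸ Subgroup.center (P0 : Subgroup G)) := by
          refine (Nat.card_eq_one_iff_unique.1 ?_).1
          rw [← Subgroup.index_eq_card]
          have : Z.index ≠ 0 := Subgroup.index_ne_zero_of_finite
          have hh : (Subgroup.center ↥(P0 : Subgroup G)).index < 2 := h2
          have hh0 : (Subgroup.center ↥(P0 : Subgroup G)).index ≠ 0 := Subgroup.index_ne_zero_of_finite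
          clear_value Z
          omega
        exact isCyclic_of_subsingleton
      · exact isCyclic_of_prime_card (p := 2) (by
          rw [← Subgroup.index_eq_card]; exact le_antisymm (hZle hP0ne) h2)
    exact congrArg Subtype.val
      (commutative_of_cyclic_center_quotient (QuotientGroup.mk' (Subgroup.center (P0 : Subgroup G)))
        (by simp) ⟨a, ha⟩ ⟨b, hb⟩)
  have hNC : Subgroup.normalizer ((P0 : Subgroup G) : Set G) ≤ Subgroup.centralizer ((P0 : Subgroup G) : Set G) := by
    rw [hfn y0 hy0]
    exact fun a ha => Subgroup.mem_centralizer_iff.2 fun b hb => hab b hb a ha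
  have hcompl := MonoidHom.ker_transferSylow_isComplement' P0 hNC
  set K := (MonoidHom.transferSylow P0 hNC).ker with hK
  haveI hKn : K.Normal := MonoidHom.normal_ker _
  have hKc : (Nat.card (P0 : Subgroup G)).Coprime (Nat.card K) := by
    rw [← hcompl.index_eq_card]
    exact P0.card_coprime_index
  haveI := P0.isPGroup'.isNilpotent
  have hMs : Group.IsSolvable (P0 : Subgroup G) := inferInstance
  refine hns ?_
  rcases eq_or_ne K ⊥ with hK0 | hK0
  · exact Group.isSolvable_of_isSolvable_injective (f := MonoidHom.transferSylow P0 hNC)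
      ((MonoidHom.ker_eq_bot_iff _).1 hK0)
  obtain ⟨q, hq, hqd⟩ := Nat.exists_prime_and_dvd (fun h => hK0 (Subgroup.eq_bot_of_card_eq K h))
  haveI := Fact.mk hq
  obtain ⟨Q, hQ⟩ := Cfsg.Lib.Solv.exists_invariant_sylow (P0 : Subgroup G) K
    (by rw [Subgroup.normalizer_eq_top_iff.2 hKn]; exact le_top) hKc (Or.inl hMs) q
  set Q' := (Q : Subgroup K).map K.subtype with hQ'
  have hQK : Q' ≤ K := Subgroup.map_subtype_le _
  have htop : (P0 : Subgroup G) ⊔ Q' = ⊤ := by
    refine (hPmax.le_iff.1 le_sup_left).resolve_right fun h => ?_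
    have h1 : Q' ≤ (P0 : Subgroup G) := le_sup_right.trans h.le
    refine Q.ne_bot_of_dvd_card hqd ((Subgroup.map_eq_bot_iff_of_injective _ K.subtype_injective).1 ?_)
    exact le_bot_iff.1 ((Subgroup.inf_eq_bot_of_coprime hKc) ▸ le_inf h1 hQK)
  have hKQ : K = Q' := by
    refine le_antisymm (fun k hk => ?_) hQK
    have hk' : k ∈ (((P0 : Subgroup G) ⊔ Q' : Subgroup G) : Set G) := by rw [htop]; trivial
    rw [Subgroup.coe_mul_of_left_le_normalizer_right (P0 : Subgroup G) Q' hQ] at hk'
    obtain ⟨m, hm, c, hc, rfl⟩ := Set.mem_mul.1 hk'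
    have h1 : m ∈ (P0 : Subgroup G) ⊓ K := ⟨hm, by simpa using K.mul_mem hk (K.inv_mem (hQK hc))⟩
    rw [Subgroup.inf_eq_bot_of_coprime hKc, Subgroup.mem_bot] at h1
    rw [h1, one_mul]; exact hc
  have hKp : IsPGroup q K := hKQ ▸ (Q.2.map _)
  haveI : Group.IsNilpotent K := hKp.isNilpotent
  haveI : Group.IsSolvable K := inferInstance
  exact Group.isSolvable_of_ker_le_range K.subtype (MonoidHom.transferSylow P0 hNC) (by simp [hK])

end Cfsg.Agent.S3903
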