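import Cfsg.Statements.S3909
import Mathlib
-- import your own Cfsg.Agent.* helpers here

set_option autoImplicit false
open Cfsg

namespace Cfsg.Agent.S3909

/-- Let G be a finite group in which any two abelian subgroups of the same order are conjugate. Let M be a normal subgroup of G. If M contains an element of the same order as a ∈ G, then a ∈ M; and if M is elementary abelian of order p^t with p prime and t ≥ 2, then M is the unique Sylow p-subgroup of G. -/
theorem result {G : Type*} [Group G] [Finite G] (hB : ∀ A B : Subgroup G, IsMulCommutative ↥A → IsMulCommutative ↥B → Nat.card ↥A = Nat.card ↥B → ∃ g : G, B = A.map (MulAut.conj g).toMonoidHom) (M : Subgroup G) [M.Normal] :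
    (∀ a : G, (∃ m ∈ M, orderOf m = orderOf a) → a ∈ M) ∧
    ∀ (p t : ℕ) [Fact p.Prime], 2 ≤ t → Nat.card ↥M = p ^ t → Cfsg.IsElementaryAbelian p M → ∀ P : Sylow p G, (P : Subgroup G) = M := by
  have hcyc : ∀ a : G, IsMulCommutative (Subgroup.zpowers a) := fun a => inferInstance
  have h1 : ∀ a : G, (∃ m ∈ M, orderOf m = orderOf a) → a ∈ M := by
    rintro a ⟨m, hm, hord⟩
    obtain ⟨g, hg⟩ := hB (Subgroup.zpowers m) (Subgroup.zpowers a) (hcyc m) (hcyc a)
      (by rw [Nat.card_zpowers, Nat.card_zpowers, hord])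
    obtain ⟨z, hz, hza⟩ := (hg ▸ Subgroup.mem_zpowers a : a ∈ (Subgroup.zpowers m).map (MulAut.conj g).toMonoidHom)
    rw [← hza]
    exact (inferInstance : M.Normal).conj_mem z (Subgroup.zpowers_le.2 hm hz) g
  refine ⟨h1, fun p t _ ht hcard hel P => ?_⟩
  have hp := (Fact.out : p.Prime)
  haveI : IsMulCommutative M := hel.1
  have hMp : IsPGroup p M := IsPGroup.of_card hcard
  refine P.3 hMp ?_ |>.symm
  intro a ha
  obtain ⟨k, hk⟩ := IsPGroup.iff_orderOf.1 P.2 ⟨a, ha⟩
  rw [Subgroup.orderOf_mk] at hk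
  rcases k with _ | _ | k
  · rw [pow_zero, orderOf_eq_one_iff] at hk; rw [hk]; exact M.one_mem
  · obtain ⟨m, hm⟩ := exists_prime_orderOf_dvd_card' (G := M) p (hcard ▸ dvd_pow_self p (by omega))
    exact h1 a ⟨m, m.2, by rw [Subgroup.orderOf_coe, hm, hk, zero_add, pow_one]⟩
  · exfalso
    obtain ⟨B, hB'⟩ := Sylow.exists_subgroup_card_pow_prime (G := M) p (n := 2)
      (hcard ▸ pow_dvd_pow p ht)
    set b := a ^ p ^ k with hb
    have hbo : orderOf b = p ^ 2 := by
      rw [hb, orderOf_pow_of_dvd (pow_ne_zero _ hp.ne_zero) (hk ▸ pow_dvd_pow p (by omega)), hk,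
        Nat.pow_div (by omega) hp.pos]
      congr 1
      omega
    obtain ⟨g, hg⟩ := hB (B.map M.subtype) (Subgroup.zpowers b) inferInstance (hcyc b)
      (by rw [← Nat.card_congr (Subgroup.equivMapOfInjective B _ M.subtype_injective).toEquiv, hB',
        Nat.card_zpowers, hbo])
    obtain ⟨z, ⟨w, -, hwz⟩, hzb⟩ := (hg ▸ Subgroup.mem_zpowers b :
      b ∈ (B.map M.subtype).map (MulAut.conj g).toMonoidHom)
    have hzp : z ^ p = 1 := by rw [← hwz]; exact hel.2 w.1 w.2
    have hbp : b ^ p = 1 := by rw [← hzb, ← map_pow, hzp, map_one]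
    have h2 := orderOf_dvd_of_pow_eq_one hbp
    rw [hbo] at h2
    exact absurd (Nat.le_of_dvd hp.pos h2) (not_le.2 (by
      calc p = p ^ 1 := (pow_one p).symm
        _ < p ^ 2 := Nat.pow_lt_pow_right hp.one_lt (by norm_num)))

end Cfsg.Agent.S3909
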