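import Cfsg.Statements.S3910
import Mathlib
import Cfsg.Agent.Lib.Solv.MinimalNonNilpotent
import Cfsg.Agent.Lib.Transfer.Action
-- import your own Cfsg.Agent.* helpers here

set_option autoImplicit false
open Cfsg

namespace Cfsg.Agent.S3910

/-- A finite nilpotent group in which any two abelian subgroups of the same order are conjugate is cyclic. -/
theorem result {G : Type*} [Group G] [Finite G] (hB : ∀ A B : Subgroup G, IsMulCommutative ↥A → IsMulCommutative ↥B → Nat.card ↥A = Nat.card ↥B → ∃ g : G, B = A.map (MulAut.conj g).toMonoidHom) (hnil : Group.IsNilpotent G) : IsCyclic G := by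
  classical
  haveI := hnil
  obtain ⟨x, hx⟩ := Finite.exists_max (fun x : G => orderOf x)
  refine ⟨⟨x, fun y => ?_⟩⟩
  by_contra hy
  have hne : Subgroup.zpowers x ≠ ⊤ := fun h => hy (Subgroup.mem_zpowers_iff.1 (h ▸ Subgroup.mem_top y))
  obtain ⟨M, hM, hxM⟩ := (eq_top_or_exists_le_coatom (Subgroup.zpowers x)).resolve_left hne
  haveI : M.Normal := (Subgroup.normalizer_eq_top_iff).1
    ((hM.le_iff.1 Subgroup.le_normalizer).resolve_right fun h =>
      (Group.normalizerCondition_of_isNilpotent M hM.1.lt_top).ne h.symm)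
  -- every element order divides the largest one
  have hdvd : ∀ z : G, orderOf z ∣ orderOf x := by
    intro z
    by_contra hnd
    obtain ⟨q, k, hq, hk, hkx⟩ : ∃ q k : ℕ, q.Prime ∧ q ^ k ∣ orderOf z ∧ ¬ q ^ k ∣ orderOf x := by
      by_contra! hall
      exact hnd ((Nat.dvd_iff_prime_pow_dvd_dvd _ _).2 fun q k hq hk => hall q k hq hk)
    obtain ⟨i, r, hr, hord⟩ := Nat.exists_eq_pow_mul_and_not_dvd (orderOf_pos x).ne' q hq.ne_one
    have hr0 : r ≠ 0 := fun e => hr (e ▸ dvd_zero q)
    have hik : i < k := by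
      by_contra hle
      exact hkx ((pow_dvd_pow q (not_lt.1 hle)).trans (hord ▸ dvd_mul_right _ _))
    set a := z ^ (orderOf z / q ^ k) with ha
    set b := x ^ q ^ i with hb
    have hao : orderOf a = q ^ k := orderOf_pow_orderOf_div (orderOf_pos z).ne' hk
    have hbo : orderOf b = r := by
      rw [hb, orderOf_pow_of_dvd (pow_ne_zero _ hq.ne_zero) (hord ▸ dvd_mul_right _ _), hord,
        Nat.mul_div_cancel_left _ (pow_pos hq.pos i)]
    have hcomm : Commute a b := by
      have h1 : b ∈ Subgroup.centralizer (Subgroup.zpowers a : Set G) :=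
        Cfsg.Lib.Transfer.mem_centralizer_of_prime_parts fun s hs w hw hws => by
          obtain ⟨j, hj⟩ := hws
          rcases eq_or_ne s q with rfl | hsq
          · have h3 : w = 1 := orderOf_eq_one_iff.1 (Nat.eq_one_of_dvd_coprimes
              ((hq.coprime_iff_not_dvd.2 hr).pow_left j) (hj ▸ dvd_rfl) (hbo ▸ orderOf_dvd_of_mem_zpowers hw))
            rw [h3]; exact one_mem _
          · refine Subgroup.mem_centralizer_iff.2 fun v hv => ?_
            obtain ⟨e, rfl⟩ := Subgroup.mem_zpowers_iff.1 hv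
            exact ((Cfsg.Lib.Solv.commute_of_nilpotent hq hs hsq.symm hao hj).zpow_left e).eq
      exact Subgroup.mem_centralizer_iff.1 h1 a (Subgroup.mem_zpowers a)
    have hlt : orderOf x < orderOf (a * b) := by
      rw [hcomm.orderOf_mul_eq_mul_orderOf_of_coprime (by
        rw [hao, hbo]; exact (hq.coprime_iff_not_dvd.2 hr).pow_left k), hao, hbo, hord]
      exact Nat.mul_lt_mul_of_pos_right (Nat.pow_lt_pow_right hq.one_lt hik) (Nat.pos_of_ne_zero hr0)
    exact absurd (hx (a * b)) (not_le.2 hlt)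
  refine hM.1 (eq_top_iff.2 fun z _ => ?_)
  set w := x ^ (orderOf x / orderOf z) with hw
  have hwo : orderOf w = orderOf z := orderOf_pow_orderOf_div (orderOf_pos x).ne' (hdvd z)
  obtain ⟨g, hg⟩ := hB (Subgroup.zpowers w) (Subgroup.zpowers z) inferInstance inferInstance
    (by rw [Nat.card_zpowers, Nat.card_zpowers, hwo])
  obtain ⟨v, hv, hvz⟩ := (hg ▸ Subgroup.mem_zpowers z : z ∈ (Subgroup.zpowers w).map (MulAut.conj g).toMonoidHom)
  rw [← hvz]
  exact (inferInstance : M.Normal).conj_mem v
    ((Subgroup.zpowers_le.2 (M.pow_mem (hxM (Subgroup.mem_zpowers x)) _)) hv) g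

end Cfsg.Agent.S3910
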