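import Cfsg.Statements.S3912
import Cfsg.Agent.S3909
import Cfsg.Agent.S3908
import Cfsg.Agent.Lib.Solv.MinNormal
import Cfsg.Agent.Lib.Solv.Cores

set_option autoImplicit false
open Cfsg
open scoped Pointwise commutatorElement

namespace Cfsg.Agent.S3912

/-- Abelian subgroups of the same order are conjugate. -/
def BG (G : Type*) [Group G] : Prop :=
  ∀ A B : Subgroup G, IsMulCommutative ↥A → IsMulCommutative ↥B → Nat.card ↥A = Nat.card ↥B →
    ∃ g : G, B = A.map (MulAut.conj g).toMonoidHom

theorem bg_of_mulEquiv {G H : Type*} [Group G] [Group H] (e : G ≃* H) (hB : BG G) : BG H := by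
  intro A B hA hB' hc
  have hmap : ∀ X : Subgroup H, IsMulCommutative X → IsMulCommutative (X.map e.symm.toMonoidHom) :=
    fun X hX => Subgroup.map_isMulCommutative X e.symm.toMonoidHom
  obtain ⟨g, hg⟩ := hB _ _ (hmap A hA) (hmap B hB')
    (by rw [Subgroup.card_map_of_injective e.symm.injective,
      Subgroup.card_map_of_injective e.symm.injective, hc])
  refine ⟨e g, ?_⟩
  have h := congrArg (Subgroup.map e.toMonoidHom) hg
  rw [Subgroup.map_map, Subgroup.map_map, Subgroup.map_map] at h
  convert h using 1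
  · ext x; simp
  · congr 1
    ext x; simp

open Subgroup in
/-- A Sylow `2`-subgroup of a solvable group with conjugate abelian subgroups is cyclic or of order `8`,
as soon as the group has a normal subgroup of order `2`. -/
theorem quaternion_small {G : Type*} [Group G] [Finite G] [Group.IsSolvable G] (hB : BG G)
    (P : Sylow 2 G) (N : Subgroup G) [N.Normal] (hN : Nat.card N = 2) :
    IsCyclic (P : Subgroup G) ∨ Nat.card (P : Subgroup G) = 8 := by
  classical
  haveI := Fact.mk Nat.prime_two
  obtain ⟨⟨z, hzN⟩, hz⟩ := exists_prime_orderOf_dvd_card' (G := N) 2 (by rw [hN])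
  rw [Subgroup.orderOf_mk] at hz
  have hinvN : ∀ x : G, orderOf x = 2 → x ∈ N := fun x hx =>
    (S3909.result hB N).1 x ⟨z, hzN, hz.trans hx.symm⟩
  have hNz : N = zpowers z := (eq_of_le_of_card_ge (zpowers_le.2 hzN)
    (by rw [Nat.card_zpowers, hz, hN])).symm
  have huG : ∀ x y : G, orderOf x = 2 → orderOf y = 2 → x = y := by
    have key : ∀ x : G, orderOf x = 2 → x = z := by
      intro x hx
      obtain ⟨k, hk⟩ := mem_zpowers_iff.1 (hNz ▸ hinvN x hx)
      rcases Int.even_or_odd k with ⟨t, rfl⟩ | ⟨t, rfl⟩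
      · exfalso
        rw [← two_mul, zpow_mul, show (2:ℤ) = ((2:ℕ):ℤ) from rfl, zpow_natCast, ← hz,
          pow_orderOf_eq_one, one_zpow] at hk
        rw [← hk, orderOf_one] at hx; omega
      · rw [zpow_add, zpow_one, zpow_mul, show (2:ℤ) = ((2:ℕ):ℤ) from rfl, zpow_natCast, ← hz,
          pow_orderOf_eq_one, one_zpow, one_mul] at hk
        exact hk.symm
    exact fun x y hx hy => (key x hx).trans (key y hy).symm
  have hu : ∀ x y : (P : Subgroup G), orderOf x = 2 → orderOf y = 2 → y ∈ zpowers x := by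
    intro x y hx hy
    rw [← Subgroup.orderOf_coe] at hx hy
    rw [show y = x from Subtype.ext (huG _ _ hy hx)]
    exact mem_zpowers x
  rcases Lib.ZStar.isCyclic_or_inverted P.isPGroup' hu with h | ⟨-, a, g, ha4, hidx, hg, hinv, hg2⟩
  · exact Or.inl h
  right
  by_contra h8
  have hcard : Nat.card (P : Subgroup G) = 2 * orderOf a := by
    rw [← (zpowers a).index_mul_card, hidx, Nat.card_zpowers]
  obtain ⟨k, hk⟩ := IsPGroup.iff_orderOf.1 P.isPGroup' a
  have hk3 : 3 ≤ k := by
    by_contra h
    rcases k with _ | _ | _ | k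
    · rw [pow_zero] at hk; omega
    · rw [zero_add, pow_one] at hk; omega
    · exact h8 (by rw [hcard, hk]; norm_num)
    · omega
  -- elements outside `⟨a⟩` have order four
  have hout : ∀ b : (P : Subgroup G), b ∉ zpowers a → orderOf b = 4 := by
    intro b hb
    obtain ⟨i, hi⟩ : ∃ i : ℤ, b = a ^ i * g := by
      have h1 : b * g⁻¹ ∈ zpowers a := by
        rw [mul_mem_iff_of_index_two hidx, inv_mem_iff]
        exact iff_of_false hb hg
      obtain ⟨i, hi⟩ := mem_zpowers_iff.1 h1
      exact ⟨i, by rw [hi, inv_mul_cancel_right]⟩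
    have h2 : b ^ 2 = a ^ (orderOf a / 2) := by
      have h1 : g * a ^ i * g⁻¹ = (a ^ i)⁻¹ := by rw [← conj_zpow, hinv, inv_zpow]
      rw [hi, ← hg2]
      calc (a ^ i * g) ^ 2 = a ^ i * (g * a ^ i * g⁻¹) * g ^ 2 := by simp only [sq]; group
        _ = g ^ 2 := by rw [h1, mul_inv_cancel, one_mul]
    refine orderOf_eq_prime_pow (p := 2) (n := 1) ?_ ?_
    · rw [pow_one, h2, ← orderOf_dvd_iff_pow_eq_one]
      intro h
      have := Nat.le_of_dvd (Nat.div_pos (by omega) two_pos) h
      omega
    · rw [show 2 ^ (1 + 1) = 2 * 2 from rfl, pow_mul, h2, ← pow_mul,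
        Nat.div_mul_cancel ((dvd_pow_self 2 (by omega : k ≠ 0)).trans (dvd_of_eq hk.symm)),
        pow_orderOf_eq_one]
  -- all elements of order four are conjugate
  have hconj : ∀ x y : G, orderOf x = 4 → orderOf y = 4 →
      ∃ c : G, y ∈ (zpowers x).map (MulAut.conj c).toMonoidHom := by
    intro x y hx hy
    obtain ⟨c, hc⟩ := hB (zpowers x) (zpowers y) inferInstance inferInstance
      (by rw [Nat.card_zpowers, Nat.card_zpowers, hx, hy])
    exact ⟨c, hc ▸ mem_zpowers y⟩
  let M0 := Cfsg.pPrimeCore 2 G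
  let π := QuotientGroup.mk' M0
  have hπ := QuotientGroup.mk'_surjective M0
  have hPinj : ∀ x ∈ (P : Subgroup G), π x = 1 → x = 1 := by
    intro x hx h1
    have hxM : x ∈ M0 := (QuotientGroup.eq_one_iff x).1 h1
    obtain ⟨j, hj⟩ := IsPGroup.iff_card.1 P.isPGroup'
    exact orderOf_eq_one_iff.1 (Nat.eq_one_of_dvd_coprimes
      (Nat.Coprime.pow_right j (Lib.Solv.coprime_pPrimeCore 2)) (Subgroup.orderOf_dvd_natCard M0 hxM)
      ((Subgroup.orderOf_dvd_natCard (P : Subgroup G) hx).trans hj.dvd))
  have hPcard : Nat.card ((P : Subgroup G).map π) = Nat.card (P : Subgroup G) := by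
    refine (Nat.card_eq_of_bijective (fun x : (P : Subgroup G) =>
      (⟨π x, x, x.2, rfl⟩ : (P : Subgroup G).map π)) ⟨?_, ?_⟩).symm
    · intro x y h
      have h' : π (x : G) = π (y : G) := congrArg Subtype.val h
      have := hPinj ((x : G)⁻¹ * y) (mul_mem (inv_mem x.2) y.2) (by rw [map_mul, map_inv, h', inv_mul_cancel])
      exact Subtype.ext (inv_mul_eq_one.1 this)
    · rintro ⟨w, x, hx, rfl⟩; exact ⟨⟨x, hx⟩, rfl⟩
  set Q := Cfsg.pCore 2 (G ⧸ M0) with hQ
  have hQP : Q ≤ (P : Subgroup G).map π := Lib.Solv.pCore_le_sylow 2 (P.mapSurjective hπ)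
  have hQC := Lib.Solv.centralizer_pCore_le (G := G ⧸ M0) 2 (Lib.Solv.pPrimeCore_quotient_eq_bot 2)
  have hQn : Q.Normal := inferInstance
  -- `Q` contains an element of order four
  obtain ⟨x, hxP, hxQ, hx4⟩ : ∃ x ∈ (P : Subgroup G), π x ∈ Q ∧ orderOf x = 4 := by
    have hQ4 : 2 < Nat.card Q := by
      by_contra h
      have hle : (⊤ : Subgroup (G ⧸ M0)) ≤ centralizer (Q : Set (G ⧸ M0)) := by
        intro w _
        refine mem_centralizer_iff.2 fun q hq => ?_
        by_cases hq1 : q = 1
        · simp [hq1]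
        have h2 : Nat.card Q = 2 := by
          have : Nontrivial Q := ⟨⟨⟨q, hq⟩, 1, fun e => hq1 (congrArg Subtype.val e)⟩⟩
          have := Finite.one_lt_card (α := Q)
          omega
        have hwq : w * q * w⁻¹ ∈ Q := hQn.conj_mem q hq w
        obtain ⟨⟨u, hu⟩, v, huv⟩ := Nat.card_eq_two_iff.1 h2
        have key : ∀ r : Q, r.1 ≠ 1 → r = ⟨q, hq⟩ := by
          intro r hr
          by_contra hne
          have h3 : ({1, ⟨q, hq⟩, r} : Finset Q).card = 3 := by
            rw [Finset.card_eq_three]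
            exact ⟨1, ⟨q, hq⟩, r, fun e => hq1 (congrArg Subtype.val e).symm,
              fun e => hr (congrArg Subtype.val e).symm, fun e => hne e.symm, rfl⟩
          have := Fintype.ofFinite Q
          have h4 := ({1, ⟨q, hq⟩, r} : Finset Q).card_le_univ
          rw [h3, ← Nat.card_eq_fintype_card, h2] at h4
          omega
        have h5 := congrArg Subtype.val (key ⟨_, hwq⟩ (fun e => hq1 (by
          calc q = w⁻¹ * (w * q * w⁻¹) * w := by group
            _ = 1 := by rw [show w * q * w⁻¹ = 1 from e]; group)))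
        simp only at h5
        calc q * w = (w * q * w⁻¹) * w := by rw [h5]
          _ = w * q := by group
      have h1 : Nat.card (⊤ : Subgroup (G ⧸ M0)) ≤ Nat.card Q := Subgroup.card_le_of_le (hle.trans hQC)
      rw [card_top] at h1
      have h2 := Subgroup.card_le_card_group ((P : Subgroup G).map π)
      rw [hPcard, hcard, hk] at h2
      have : 2 ^ 3 ≤ 2 ^ k := Nat.pow_le_pow_right two_pos hk3
      omega
    have := Fintype.ofFinite Q
    have hzQ : π z ∈ Q :=
      Lib.Solv.le_pCore ((inferInstance : N.Normal).map π hπ) ((IsPGroup.of_card (n := 1)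
        (by rw [hN, pow_one]) : IsPGroup 2 N).map π) ⟨z, hzN, rfl⟩
    obtain ⟨q, hq1, hq2⟩ : ∃ q : Q, q ≠ 1 ∧ q ≠ ⟨π z, hzQ⟩ := by
      by_contra! h
      have h4 : (Finset.univ : Finset Q).card ≤ 2 := by
        refine (Finset.card_le_card (t := {1, ⟨π z, hzQ⟩}) ?_).trans Finset.card_le_two
        intro q _
        simp only [Finset.mem_insert, Finset.mem_singleton]
        by_cases hq : q = 1
        · exact Or.inl hq
        · exact Or.inr (h q hq)
      rw [Finset.card_univ, ← Nat.card_eq_fintype_card] at h4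
      omega
    obtain ⟨y, hy, hyq⟩ := hQP q.2
    obtain ⟨j, hj⟩ := IsPGroup.iff_orderOf.1 P.isPGroup' ⟨y, hy⟩
    rw [Subgroup.orderOf_mk] at hj
    rcases j with _ | _ | j
    · rw [pow_zero, orderOf_eq_one_iff] at hj
      exact absurd (Subtype.ext (by rw [← hyq, hj, map_one]; rfl)) hq1
    · exfalso
      refine hq2 (Subtype.ext ?_)
      rw [← hyq, huG y z (by simpa using hj) hz]
    · refine ⟨y ^ 2 ^ j, pow_mem hy _, ?_, ?_⟩
      · rw [map_pow, hyq]; exact pow_mem q.2 _
      · rw [orderOf_pow, hj, Nat.gcd_eq_right (pow_dvd_pow 2 (by omega)), Nat.pow_div (by omega) two_pos,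
          show j + 2 - j = 2 by omega]
        rfl
  have hall4 : ∀ y : G, orderOf y = 4 → π y ∈ Q := by
    intro y hy
    obtain ⟨c, u, hu, rfl⟩ := hconj x y hx4 hy
    exact (inferInstance : (Q.comap π).Normal).conj_mem u
      ((zpowers_le.2 (show x ∈ Q.comap π from hxQ)) hu) c
  -- hence `P` maps into `Q`
  have haQ : ∀ b : (P : Subgroup G), π (b : G) ∈ Q := by
    have houtQ : ∀ b : (P : Subgroup G), b ∉ zpowers a → π (b : G) ∈ Q := fun b hb =>
      hall4 _ (by rw [Subgroup.orderOf_coe]; exact hout b hb)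
    intro b
    by_cases hb : b ∈ zpowers a
    · have h1 : b * g ∉ zpowers a := fun h => hg (by
        have := mul_mem (inv_mem hb) h
        rwa [inv_mul_cancel_left] at this)
      have h2 := mul_mem (houtQ _ h1) (inv_mem (houtQ g hg))
      rwa [← map_inv, ← map_mul, Subgroup.coe_mul, mul_inv_cancel_right] at h2
    · exact houtQ b hb
  -- conjugates of `a` stay in `⟨a⟩`
  let ι : (P : Subgroup G) →* G ⧸ M0 := π.comp (P : Subgroup G).subtype
  have hιinj : Function.Injective ι := by
    rw [← MonoidHom.ker_eq_bot_iff, eq_bot_iff]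
    intro b hb
    exact mem_bot.2 (Subtype.ext (hPinj b b.2 hb))
  have hnormA : ∀ w : G ⧸ M0, ∀ u ∈ (zpowers a).map ι, w * u * w⁻¹ ∈ (zpowers a).map ι := by
    have hcj : ∀ w : G ⧸ M0, w * ι a * w⁻¹ ∈ (zpowers a).map ι := by
      intro w
      obtain ⟨y, hy, he⟩ := hQP (hQn.conj_mem _ (haQ a) w)
      have hiy : ι ⟨y, hy⟩ = w * ι a * w⁻¹ := he
      have hord : orderOf (⟨y, hy⟩ : (P : Subgroup G)) = orderOf a := by
        rw [← orderOf_injective ι hιinj ⟨y, hy⟩, hiy, ← orderOf_injective ι hιinj a]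
        exact (MulEquiv.orderOf_eq (MulAut.conj w) (ι a))
      by_cases hmem : (⟨y, hy⟩ : (P : Subgroup G)) ∈ zpowers a
      · rw [← hiy]; exact mem_map_of_mem ι hmem
      · exfalso
        rw [hout _ hmem, hk] at hord
        have : 2 ^ 3 ≤ 2 ^ k := Nat.pow_le_pow_right two_pos hk3
        omega
    rintro w _ ⟨v, hv, rfl⟩
    obtain ⟨i, rfl⟩ := mem_zpowers_iff.1 hv
    rw [map_zpow, ← conj_zpow]
    exact zpow_mem (hcj w) i
  -- an element of order four in `⟨a⟩` and the element `g`
  set b0 := a ^ (orderOf a / 4) with hb0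
  have hb4 : orderOf b0 = 4 := by
    have h4 : 4 ∣ orderOf a := hk ▸ pow_dvd_pow 2 (show 2 ≤ k by omega)
    rw [hb0, orderOf_pow, Nat.gcd_eq_right (Nat.div_dvd_of_dvd h4), Nat.div_div_self h4 (orderOf_pos a).ne']
  obtain ⟨c, u, hu, hcu⟩ := hconj (b0 : G) (g : G) (by rw [Subgroup.orderOf_coe, hb4])
    (by rw [Subgroup.orderOf_coe, hout g hg])
  obtain ⟨i, rfl⟩ := mem_zpowers_iff.1 hu
  have h1 : ι g ∈ (zpowers a).map ι := by
    have h2 : ι g = π c * (ι b0) ^ i * (π c)⁻¹ := by
      show π (g : G) = π c * (π (b0 : G)) ^ i * (π c)⁻¹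
      rw [← map_zpow, ← map_inv, ← map_mul, ← map_mul, ← hcu]
      simp
    rw [h2]
    exact hnormA _ _ (zpow_mem (mem_map_of_mem ι (pow_mem (mem_zpowers a) _)) i)
  obtain ⟨v, hv, he⟩ := h1
  exact hg (hιinj he ▸ hv)

open Subgroup in
/-- The step: quotient by a minimal normal subgroup. -/
theorem step {G : Type*} [Group G] [Finite G] [Group.IsSolvable G] (hB : BG G)
    (N : Subgroup G) [N.Normal] {p : ℕ} [Fact p.Prime] (hNp : IsPGroup p N) (hNe : Cfsg.IsElementaryAbelian p N)
    (hN : N ≠ ⊥) : BG (G ⧸ N) := by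
  classical
  have hp := (Fact.out : p.Prime)
  intro A B hA hBab hAB
  let π := QuotientGroup.mk' N
  have hπ := QuotientGroup.mk'_surjective N
  suffices h : ∃ g : G, ∀ x ∈ A.comap π, g * x * g⁻¹ ∈ B.comap π by
    obtain ⟨g, hg⟩ := h
    refine ⟨π g, (Subgroup.eq_of_le_of_card_ge ?_ ?_).symm⟩
    · rintro _ ⟨w, hw, rfl⟩
      obtain ⟨x, rfl⟩ := hπ w
      show π g * π x * (π g)⁻¹ ∈ B
      rw [← map_inv, ← map_mul, ← map_mul]
      exact hg x hw
    · rw [card_map_of_injective (MulAut.conj (π g)).injective, hAB]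
  obtain ⟨t, ht⟩ := IsPGroup.iff_card.1 hNp
  have ht1 : 1 ≤ t := by
    by_contra h
    exact hN (card_eq_one.1 (by rw [ht, show t = 0 by omega, pow_zero]))
  have hNle : ∀ X : Subgroup (G ⧸ N), N ≤ X.comap π := fun X x hx => by
    rw [mem_comap, show π x = 1 from (QuotientGroup.eq_one_iff x).2 hx]; exact one_mem _
  have hcX : ∀ X : Subgroup (G ⧸ N), Nat.card (X.comap π) = Nat.card X * Nat.card N := by
    intro X
    have h1 := relIndex_mul_relIndex (⊥ : Subgroup G) N (X.comap π) bot_le (hNle X)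
    rw [relIndex_bot_left, relIndex_bot_left] at h1
    have h2 : Nat.card ((X.comap π).map π) = N.relIndex (X.comap π) := by
      rw [← relIndex_ker, QuotientGroup.ker_mk']
    rw [map_comap_eq_self_of_surjective hπ] at h2
    rw [h2, mul_comm, h1]
  have hcomm : ∀ X : Subgroup (G ⧸ N), IsMulCommutative X → ∀ x ∈ X.comap π, ∀ y ∈ X.comap π,
      ⁅x, y⁆ ∈ N := by
    intro X hX x hx y hy
    rw [← QuotientGroup.eq_one_iff (N := N)]
    show π ⁅x, y⁆ = 1
    rw [map_commutatorElement, commutatorElement_eq_one_iff_mul_comm]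
    exact congrArg Subtype.val (hX.is_comm.comm ⟨π x, hx⟩ ⟨π y, hy⟩)
  by_cases hpn : ¬ p ∣ Nat.card A
  · -- complements
    have hlift : ∀ X : Subgroup (G ⧸ N), IsMulCommutative X → ¬ p ∣ Nat.card X →
        ∃ L : Subgroup G, IsMulCommutative L ∧ Nat.card L = Nat.card X ∧ L ⊔ N = X.comap π := by
      intro X hX hpX
      set Y := X.comap π with hY
      let N' := N.subgroupOf Y
      have hN'c : Nat.card N' = p ^ t :=
        (Nat.card_congr (subgroupOfEquivOfLe (hNle X)).toEquiv).trans ht
      have hN'i : N'.index = Nat.card X := by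
        refine Nat.eq_of_mul_eq_mul_right (pow_pos hp.pos t) ?_
        rw [← hN'c, N'.index_mul_card, hN'c, ← ht]
        exact hcX X
      obtain ⟨L, hL⟩ := exists_right_complement'_of_coprime (N := N') (by
        rw [hN'c, hN'i]; exact (hp.coprime_iff_not_dvd.2 hpX).pow_left t)
      have hLc : Nat.card L = Nat.card X := by
        rw [← hN'i, hL.symm.index_eq_card]
      refine ⟨L.map Y.subtype, ⟨⟨?_⟩⟩, by rw [card_map_of_injective Y.subtype_injective, hLc], ?_⟩
      · rintro ⟨a, a', ha', rfl⟩ ⟨b, b', hb', rfl⟩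
        apply Subtype.ext
        show (a' : G) * b' = b' * a'
        rw [← commutatorElement_eq_one_iff_mul_comm]
        have h1 : ⁅a', b'⁆ ∈ N' := hcomm X hX _ a'.2 _ b'.2
        have h2 : ⁅a', b'⁆ ∈ L := by
          rw [commutatorElement_def]; exact mul_mem (mul_mem (mul_mem ha' hb') (inv_mem ha')) (inv_mem hb')
        have h3 : ⁅a', b'⁆ ∈ (⊥ : Subgroup Y) := hL.disjoint.le_bot ⟨h1, h2⟩
        exact congrArg Subtype.val (mem_bot.1 h3)
      · have h1 := congrArg (Subgroup.map Y.subtype) hL.sup_eq_top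
        rw [Subgroup.map_sup, ← MonoidHom.range_eq_map, range_subtype, map_subgroupOf_eq_of_le (hNle X),
          sup_comm] at h1
        exact h1
    obtain ⟨LA, hLA, hLAc, hLAs⟩ := hlift A hA hpn
    obtain ⟨LB, hLB, hLBc, hLBs⟩ := hlift B hBab (hAB ▸ hpn)
    obtain ⟨g, hg⟩ := hB LA LB hLA hLB (by rw [hLAc, hLBc, hAB])
    refine ⟨g, fun x hx => ?_⟩
    rw [← hLAs] at hx
    obtain ⟨u, hu, v, hv, rfl⟩ := mem_sup_of_normal_right.1 hx
    rw [← hLBs, show g * (u * v) * g⁻¹ = (g * u * g⁻¹) * (g * v * g⁻¹) by group]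
    exact mul_mem (mem_sup_left (hg ▸ ⟨u, hu, rfl⟩))
      (mem_sup_right ((inferInstance : N.Normal).conj_mem v hv g))
  push Not at hpn
  obtain ⟨P⟩ : Nonempty (Sylow p G) := inferInstance
  -- `N` has order `p`
  obtain rfl : t = 1 := by
    by_contra hne
    have hPN := (S3909.result hB N).2 p t (by omega) ht hNe P
    obtain ⟨k, hk⟩ := IsPGroup.iff_card.1 P.isPGroup'
    have h2 : Nat.card A * Nat.card N ∣ Nat.card G := by
      rw [← hcX A]; exact card_subgroup_dvd_card _
    have h3 : p ^ t * p ∣ Nat.card G := by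
      refine Dvd.dvd.trans ?_ h2
      rw [ht, mul_comm (Nat.card A)]
      exact mul_dvd_mul_left _ hpn
    rw [← pow_succ] at h3
    have h4 := P.pow_dvd_card_of_pow_dvd_card h3
    rw [hPN, ht, Nat.pow_dvd_pow_iff_le_right hp.one_lt] at h4
    omega
  rw [pow_one] at ht
  obtain ⟨⟨z, hzN⟩, hz⟩ := exists_prime_orderOf_dvd_card' (G := N) p (by rw [ht])
  rw [Subgroup.orderOf_mk] at hz
  have hordN : ∀ x : G, orderOf x = p → x ∈ N := fun x hx =>
    (S3909.result hB N).1 x ⟨z, hzN, hz.trans hx.symm⟩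
  have hNx : ∀ u ∈ N, u ≠ 1 → zpowers u = N := fun u hu hu1 =>
    eq_of_le_of_card_ge (zpowers_le.2 hu) (by
      rw [Nat.card_zpowers, ht, orderOf_eq_prime (hNe.2 u hu) hu1])
  have hSyl : ∀ S : Sylow p G, IsCyclic (S : Subgroup G) ∨ (p = 2 ∧ Nat.card (S : Subgroup G) = 8) := by
    intro S
    have hu : ∀ x y : (S : Subgroup G), orderOf x = p → orderOf y = p → y ∈ zpowers x := by
      intro x y hx hy
      rw [← Subgroup.orderOf_coe] at hx hy
      have h1 := hNx _ (hordN _ hx) (fun h => by rw [h, orderOf_one] at hx; exact hp.one_lt.ne hx)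
      obtain ⟨i, hi⟩ := mem_zpowers_iff.1 (h1.ge (hordN _ hy))
      exact ⟨i, Subtype.ext (by simpa using hi)⟩
    rcases Lib.ZStar.isCyclic_or_inverted S.isPGroup' hu with h | ⟨h2, -⟩
    · exact Or.inl h
    · subst h2
      exact (quaternion_small hB S N ht).imp id fun h => ⟨rfl, h⟩
  -- decomposition of the preimage of an abelian subgroup
  have hdata : ∀ X : Subgroup (G ⧸ N), IsMulCommutative X → p ∣ Nat.card X →
      ∃ T L : Subgroup G, IsPGroup p T ∧ Nat.card T = p ^ (Nat.card (X.comap π)).factorization p ∧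
        Nat.card T * Nat.card L = Nat.card (X.comap π) ∧ IsMulCommutative L ∧
        (∀ u ∈ T, ∀ v ∈ L, u * v = v * u) ∧ T ⊔ L = X.comap π := by
    intro X hX hpX
    set Y := X.comap π with hY
    obtain ⟨S⟩ : Nonempty (Sylow p Y) := inferInstance
    let N' := N.subgroupOf Y
    have hN'p : IsPGroup p N' := hNp.of_equiv (subgroupOfEquivOfLe (hNle X)).symm
    have hN'S : N' ≤ (S : Subgroup Y) :=
      le_trans (Lib.Solv.le_pCore inferInstance hN'p) (Lib.Solv.pCore_le_sylow p S)
    have hSn : (S : Subgroup Y).Normal := by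
      refine Subgroup.Normal.of_commutator_le Y ((le_trans ?_ hN'S))
      rw [_root_.commutator_def, Subgroup.commutator_le]
      exact fun a _ b _ => hcomm X hX _ a.2 _ b.2
    obtain ⟨L, hL⟩ := exists_right_complement'_of_coprime (N := (S : Subgroup Y)) S.card_coprime_index
    have hScard := S.card_eq_multiplicity
    refine ⟨(S : Subgroup Y).map Y.subtype, L.map Y.subtype, S.isPGroup'.map _, ?_, ?_, ?_, ?_, ?_⟩
    · rw [card_map_of_injective Y.subtype_injective, hScard]
    · rw [card_map_of_injective Y.subtype_injective, card_map_of_injective Y.subtype_injective]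
      exact hL.card_mul
    · refine ⟨⟨?_⟩⟩
      rintro ⟨a, a', ha', rfl⟩ ⟨b, b', hb', rfl⟩
      apply Subtype.ext
      show (a' : G) * b' = b' * a'
      rw [← commutatorElement_eq_one_iff_mul_comm]
      have h1 : ⁅a', b'⁆ ∈ N' := hcomm X hX _ a'.2 _ b'.2
      have h2 : ⁅a', b'⁆ ∈ L := by
        rw [commutatorElement_def]; exact mul_mem (mul_mem (mul_mem ha' hb') (inv_mem ha')) (inv_mem hb')
      have h3 : ⁅a', b'⁆ ∈ (⊥ : Subgroup Y) := hL.disjoint.le_bot ⟨hN'S h1, h2⟩
      exact congrArg Subtype.val (mem_bot.1 h3)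
    · rintro _ ⟨s, hs, rfl⟩ _ ⟨x, hx, rfl⟩
      show (s : G) * x = x * s
      have hxcop : (orderOf (x : G)).Coprime p := by
        rw [Subgroup.orderOf_coe, Nat.coprime_comm, hp.coprime_iff_not_dvd]
        intro h
        have h1 := h.trans (L.orderOf_dvd_natCard hx)
        rw [← hL.symm.index_eq_card] at h1
        exact S.not_dvd_index h1
      -- `x` fixes `z`
      have hxz : ∀ u ∈ N, (x : G) * u * (x : G)⁻¹ = u := by
        obtain ⟨S', hS'⟩ := (S.isPGroup'.map Y.subtype).exists_le_sylow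
        rcases hSyl S' with hcyc | ⟨hp2, -⟩
        · -- `N` consists of `p`-th powers in the cyclic group `S`
          intro u hu
          have hScyc : IsCyclic (S : Subgroup Y) := by
            have : IsCyclic ((S : Subgroup Y).map Y.subtype) := Subgroup.isCyclic_of_le hS'
            exact isCyclic_of_surjective (equivMapOfInjective _ _ Y.subtype_injective).symm
              (equivMapOfInjective _ _ Y.subtype_injective).symm.surjective
          obtain ⟨w, hw⟩ := IsCyclic.exists_generator (α := (S : Subgroup Y))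
          obtain ⟨i, hi⟩ := mem_zpowers_iff.1 (hw ⟨⟨u, hNle X hu⟩, hN'S hu⟩)
          have hsw : orderOf w = Nat.card (S : Subgroup Y) := orderOf_eq_card_of_forall_mem_zpowers hw
          have hp2S : p ^ 2 ∣ orderOf w := by
            rw [hsw, hScard]
            refine pow_dvd_pow p ?_
            rw [← hp.pow_dvd_iff_le_factorization Nat.card_pos.ne', hY, hcX, ht, sq]
            exact mul_dvd_mul_right hpX p
          have hpi : (p : ℤ) ∣ i := by
            have h1 : w ^ (i * p) = 1 := by
              rw [zpow_mul, hi, zpow_natCast]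
              exact Subtype.ext (Subtype.ext (hNe.2 u hu))
            rw [← orderOf_dvd_iff_zpow_eq_one] at h1
            have h2 : (p : ℤ) * p ∣ i * p := by
              refine Dvd.dvd.trans ?_ h1
              have := Int.natCast_dvd_natCast.2 hp2S
              simpa [sq] using this
            exact (mul_dvd_mul_iff_right (by exact_mod_cast hp.ne_zero)).1 h2
          obtain ⟨j, rfl⟩ := hpi
          set r := w ^ j with hr
          have hu' : ((r : Y) : G) ^ p = u := by
            have := congrArg (fun v : (S : Subgroup Y) => ((v : Y) : G)) hi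
            simp only at this
            rw [← this, mul_comm, zpow_mul, zpow_natCast]
            rfl
          have hc : ⁅(x : G), ((r : Y) : G)⁆ ∈ N := hcomm X hX _ x.2 _ r.1.2
          have hcomm' : Commute ((r : Y) : G) ⁅(x : G), ((r : Y) : G)⁆ := by
            have h1 : ⁅x, (r : Y)⁆ ∈ (S : Subgroup Y) := hN'S hc
            exact congrArg (fun v : (S : Subgroup Y) => ((v : Y) : G))
              ((IsCyclic.commGroup (α := (S : Subgroup Y))).mul_comm r ⟨_, h1⟩)
          rw [← hu', ← conj_pow,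
            show (x : G) * ((r : Y) : G) * (x : G)⁻¹ = ⁅(x : G), ((r : Y) : G)⁆ * ((r : Y) : G) by
              simp only [commutatorElement_def]; group,
            hcomm'.symm.mul_pow, hNe.2 _ hc, one_mul]
        · intro u hu
          by_cases hu1 : u = 1
          · simp [hu1]
          · have h1 : (x : G) * u * (x : G)⁻¹ ∈ N := (inferInstance : N.Normal).conj_mem u hu x
            obtain ⟨i, hi⟩ := mem_zpowers_iff.1 ((hNx u hu hu1).ge h1)
            subst hp2
            rcases Int.even_or_odd i with ⟨j, rfl⟩ | ⟨j, rfl⟩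
            · exfalso
              rw [← two_mul, zpow_mul, show (2:ℤ) = ((2:ℕ):ℤ) from rfl, zpow_natCast, hNe.2 u hu,
                one_zpow] at hi
              exact hu1 (by
                calc u = (x : G)⁻¹ * ((x : G) * u * (x : G)⁻¹) * x := by group
                  _ = 1 := by rw [← hi]; group)
            · rw [zpow_add, zpow_one, zpow_mul, show (2:ℤ) = ((2:ℕ):ℤ) from rfl, zpow_natCast,
                hNe.2 u hu, one_zpow, one_mul] at hi
              exact hi.symm
      -- so `x` centralises `s`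
      set c := ⁅(x : G), (s : G)⁆ with hc
      have hcN : c ∈ N := hcomm X hX _ x.2 _ s.2
      have hiter : ∀ m : ℕ, (x : G) ^ m * s * ((x : G) ^ m)⁻¹ = c ^ m * s := by
        intro m
        induction m with
        | zero => simp
        | succ m ih =>
          calc (x : G) ^ (m + 1) * s * ((x : G) ^ (m + 1))⁻¹
              = x * ((x : G) ^ m * s * ((x : G) ^ m)⁻¹) * (x : G)⁻¹ := by rw [pow_succ']; group
            _ = (x * c ^ m * (x : G)⁻¹) * (x * s * (x : G)⁻¹) := by rw [ih]; group
            _ = c ^ m * (c * s) := by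
                rw [hxz _ (pow_mem hcN m), hc, commutatorElement_def]; group
            _ = _ := by rw [pow_succ]; group
      have h1 := hiter (orderOf (x : G))
      rw [pow_orderOf_eq_one, one_mul, inv_one, mul_one] at h1
      replace h1 := mul_eq_right.1 h1.symm
      have h2 : orderOf c ∣ p := orderOf_dvd_of_pow_eq_one (hNe.2 c hcN)
      have h3 : c = 1 := orderOf_eq_one_iff.1
        (Nat.eq_one_of_dvd_coprimes hxcop (orderOf_dvd_of_pow_eq_one h1) h2)
      exact (commutatorElement_eq_one_iff_mul_comm.1 h3).symm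
    · rw [← Subgroup.map_sup, hL.sup_eq_top, ← MonoidHom.range_eq_map, range_subtype]
  obtain ⟨TA, LA, hTAp, hTAc, hTLA, hLA, hcA, hsA⟩ := hdata A hA hpn
  obtain ⟨TB, LB, hTBp, hTBc, hTLB, hLB, hcB, hsB⟩ := hdata B hBab (hAB ▸ hpn)
  have hYc : Nat.card (A.comap π) = Nat.card (B.comap π) := by rw [hcX, hcX, hAB]
  have hTc : Nat.card TA = Nat.card TB := by rw [hTAc, hTBc, hYc]
  have hLc : Nat.card LA = Nat.card LB := by
    refine Nat.eq_of_mul_eq_mul_left (Nat.card_pos (α := TA)) ?_
    rw [hTLA, hTc, hTLB, hYc]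
  by_cases hab : IsMulCommutative TA ∧ IsMulCommutative TB
  · have habY : ∀ T L : Subgroup G, IsMulCommutative T → IsMulCommutative L →
        (∀ u ∈ T, ∀ v ∈ L, u * v = v * u) → IsMulCommutative (T ⊔ L : Subgroup G) := by
      intro T L hT hL hc
      rw [← le_centralizer_iff_isMulCommutative] at hT hL ⊢
      refine sup_le (le_centralizer_iff.1 (sup_le hT fun v hv => mem_centralizer_iff.2 fun u hu => hc u hu v hv))
        (le_centralizer_iff.1 (sup_le (fun u hu => mem_centralizer_iff.2 fun v hv => (hc u hu v hv).symm) hL))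
    obtain ⟨g, hg⟩ := hB (A.comap π) (B.comap π) (hsA ▸ habY TA LA hab.1 hLA hcA)
      (hsB ▸ habY TB LB hab.2 hLB hcB) hYc
    exact ⟨g, fun x hx => hg ▸ ⟨x, hx, rfl⟩⟩
  · -- both are Sylow subgroups
    have hmax : ∀ T : Subgroup G, IsPGroup p T → ¬ IsMulCommutative T → Nat.card T = 8 ∧ p = 2 := by
      intro T hT hna
      obtain ⟨S', hS'⟩ := hT.exists_le_sylow
      rcases hSyl S' with hc | ⟨h2, h8⟩
      · exfalso
        have := Subgroup.isCyclic_of_le hS'
        exact hna ⟨⟨fun a b => (IsCyclic.commGroup (α := T)).mul_comm a b⟩⟩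
      · refine ⟨?_, h2⟩
        have hle := card_le_of_le hS'
        obtain ⟨j, hj⟩ := IsPGroup.iff_card.1 hT
        subst h2
        rw [h8] at hle
        rcases j with _ | _ | _ | j
        · exact absurd ⟨⟨fun a b => (Nat.card_eq_one_iff_unique.1 (hj.trans (pow_zero 2))).1.elim _ _⟩⟩ hna
        · exfalso
          have := isCyclic_of_prime_card (hj.trans (pow_one 2))
          exact hna ⟨⟨fun a b => (IsCyclic.commGroup (α := T)).mul_comm a b⟩⟩
        · exact absurd ⟨⟨IsPGroup.commutative_of_card_eq_prime_sq (p := 2) hj⟩⟩ hna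
        · rw [hj] at hle ⊢
          have : 2 ^ (j + 3) = 2 ^ j * 8 := by rw [pow_add]; norm_num
          have := Nat.one_le_pow j 2 two_pos
          omega
    have h8 : Nat.card TA = 8 ∧ p = 2 := by
      by_cases h : IsMulCommutative TA
      · obtain ⟨h1, h2⟩ := hmax TB hTBp fun h' => hab ⟨h, h'⟩
        exact ⟨hTc.trans h1, h2⟩
      · exact hmax TA hTAp h
    obtain ⟨g, hg⟩ := hB LA LB hLA hLB hLc
    set T1 := TA.map (MulAut.conj g).toMonoidHom with hT1
    set C := centralizer (LB : Set G) with hC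
    have hT1C : T1 ≤ C := by
      rintro _ ⟨u, hu, rfl⟩
      refine mem_centralizer_iff.2 fun w hw => ?_
      rw [hg] at hw
      obtain ⟨v, hv, rfl⟩ := hw
      rw [← map_mul, ← map_mul, hcA u hu v hv]
    have hTBC : TB ≤ C := fun u hu => mem_centralizer_iff.2 fun v hv => (hcB u hu v hv).symm
    have hsyl : ∀ T : Subgroup G, IsPGroup p T → T ≤ C → Nat.card T = 8 →
        ∃ S : Sylow p C, (S : Subgroup C).map C.subtype = T := by
      intro T hT hle hc8
      obtain ⟨S, hS⟩ := (hT.comap_subtype (K := C)).exists_le_sylow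
      refine ⟨S, (eq_of_le_of_card_ge ?_ ?_).symm⟩
      · intro u hu; exact ⟨⟨u, hle hu⟩, hS hu, rfl⟩
      · obtain ⟨S', hS'⟩ := (S.isPGroup'.map C.subtype).exists_le_sylow
        refine (card_le_of_le hS').trans ?_
        rw [hc8]
        rcases hSyl S' with hcyc | ⟨-, h⟩
        · exfalso
          obtain ⟨S'', hS''⟩ := hTAp.exists_le_sylow
          obtain ⟨c, rfl⟩ := MulAction.exists_smul_eq G S' S''
          have hcyc' : IsCyclic ((c • S' : Sylow p G) : Subgroup G) :=
            isCyclic_of_surjective (Sylow.equiv S' (c • S')) (Sylow.equiv S' (c • S')).surjective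
          by_cases hTA : IsMulCommutative TA
          · obtain ⟨S₃, hS₃⟩ := hTBp.exists_le_sylow
            have hcyc3 : IsCyclic (S₃ : Subgroup G) :=
              isCyclic_of_surjective (Sylow.equiv S' S₃) (Sylow.equiv S' S₃).surjective
            have := Subgroup.isCyclic_of_le hS₃
            exact hab ⟨hTA, ⟨⟨fun a b => (IsCyclic.commGroup (α := TB)).mul_comm a b⟩⟩⟩
          · have := Subgroup.isCyclic_of_le hS''
            exact hTA ⟨⟨fun a b => (IsCyclic.commGroup (α := TA)).mul_comm a b⟩⟩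
        · exact h.le
    obtain ⟨S1, hS1⟩ := hsyl T1 (hTAp.map _) hT1C
      (by rw [hT1, card_map_of_injective (MulAut.conj g).injective, h8.1])
    obtain ⟨S2, hS2⟩ := hsyl TB hTBp hTBC (hTc.symm.trans h8.1)
    obtain ⟨c, hc⟩ := MulAction.exists_smul_eq C S1 S2
    refine ⟨(c : G) * g, ?_⟩
    have hle : A.comap π ≤ (B.comap π).comap (MulAut.conj ((c : G) * g)).toMonoidHom := by
      rw [← hsA, ← hsB]
      refine sup_le (fun u hu => mem_sup_left ?_) (fun v hv => mem_sup_right ?_)
      · obtain ⟨w, hw, he⟩ := hS1.ge (show MulAut.conj g u ∈ T1 from ⟨u, hu, rfl⟩)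
        refine hS2.le ⟨c * w * c⁻¹, ?_, ?_⟩
        · rw [← hc]
          exact ⟨w, hw, rfl⟩
        · simp only [Subgroup.coe_subtype] at he
          show (c : G) * (w : G) * (c : G)⁻¹ = MulAut.conj ((c : G) * g) u
          rw [he]; simp [mul_assoc]
      · have hgv : MulAut.conj g v ∈ LB := hg ▸ ⟨v, hv, rfl⟩
        have h1 := mem_centralizer_iff.1 c.2 _ hgv
        show MulAut.conj ((c : G) * g) v ∈ LB
        rw [map_mul, MulAut.mul_apply, MulAut.conj_apply, ← h1, mul_inv_cancel_right]
        exact hgv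
    intro x hx
    exact hle hx

universe u

theorem main : ∀ (n : ℕ) {G : Type u} [Group G] [Finite G], Nat.card G ≤ n → Group.IsSolvable G →
    BG G → ∀ (M : Subgroup G) [M.Normal], BG (G ⧸ M) := by
  intro n
  induction n with
  | zero => intro G _ _ hn; exact absurd hn (by have := Nat.card_pos (α := G); omega)
  | succ n ih =>
    intro G _ _ hn hsol hB M _
    by_cases hM : M = ⊥
    · subst hM
      exact bg_of_mulEquiv QuotientGroup.quotientBot.symm hB
    obtain ⟨N, hNn, hNM, hNbot, hmin⟩ := Lib.Solv.exists_minimal_normal_le hM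
    haveI := hNn
    haveI := hsol
    obtain ⟨hab, p, hp, hNp, hexp⟩ := Lib.Solv.minimal_normal_elementary hNbot inferInstance hmin
    haveI := Fact.mk hp
    have hQ := step hB N hNp ⟨hab, hexp⟩ hNbot
    have hlt : Nat.card (G ⧸ N) ≤ n := by
      have h1 : 1 < Nat.card N := N.one_lt_card_iff_ne_bot.2 hNbot
      have h2 := Subgroup.card_eq_card_quotient_mul_card_subgroup N
      have h3 := Nat.card_pos (α := G ⧸ N)
      by_contra h
      nlinarith
    have hsolQ : Group.IsSolvable (G ⧸ N) :=
      Group.isSolvable_of_surjective (QuotientGroup.mk'_surjective N)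
    have hMn : (M.map (QuotientGroup.mk' N)).Normal :=
      (inferInstance : M.Normal).map _ (QuotientGroup.mk'_surjective N)
    exact bg_of_mulEquiv (QuotientGroup.quotientQuotientEquivQuotient N M hNM)
      (ih hlt hsolQ hQ (M.map (QuotientGroup.mk' N)))

/-- Let G be a finite solvable group in which any two abelian subgroups of the same order are conjugate. Then every quotient of G has the same property: any two abelian subgroups of the quotient of the same order are conjugate. -/
theorem result {G : Type*} [Group G] [Finite G] (hB : ∀ A B : Subgroup G, IsMulCommutative ↥A → IsMulCommutative ↥B → Nat.card ↥A = Nat.card ↥B → ∃ g : G, B = A.map (MulAut.conj g).toMonoidHom) (hsol : Group.IsSolvable G) (M : Subgroup G) [M.Normal] :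
    ∀ A B : Subgroup (G ⧸ M), IsMulCommutative ↥A → IsMulCommutative ↥B → Nat.card ↥A = Nat.card ↥B →
      ∃ g : G ⧸ M, B = A.map (MulAut.conj g).toMonoidHom := main (Nat.card G) le_rfl hsol hB M

end Cfsg.Agent.S3912
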