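import Cfsg.Statements.S3917
import Mathlib
-- import your own Cfsg.Agent.* helpers here

set_option autoImplicit false
open Cfsg

namespace Cfsg.Agent.S3917

/-- Say that a group has self-centralizing non-cyclic subgroups when every non-cyclic subgroup H satisfies C_G(H) ≤ H. A finite abelian group with self-centralizing non-cyclic subgroups is cyclic or elementary abelian of order p² for a prime p. -/
theorem result {G : Type*} [CommGroup G] [Finite G] (hX : (∀ H : Subgroup G, ¬ IsCyclic ↥H → Subgroup.centralizer (H : Set G) ≤ H)) :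
    IsCyclic G ∨ ∃ p : ℕ, p.Prime ∧ Nat.card G = p ^ 2 ∧ Monoid.exponent G = p := by
  classical
  have hcyc : ∀ H : Subgroup G, H ≠ ⊤ → IsCyclic H := fun H hH => by
    by_contra hn
    refine hH (eq_top_iff.2 fun g _ => hX H hn (Subgroup.mem_centralizer_iff.2 fun h _ => mul_comm h g))
  by_cases hc : IsCyclic G
  · exact Or.inl hc
  refine Or.inr ?_
  letI := Fintype.ofFinite G
  have hbig : ∃ p : ℕ, p.Prime ∧ p < Nat.card (powMonoidHom p : G →* G).ker := by
    by_contra hsmall
    push Not at hsmall
    refine hc (isCyclic_of_card_pow_eq_one_le fun n hn => ?_)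
    have key : ∀ n : ℕ, 0 < n → Nat.card (powMonoidHom n : G →* G).ker ≤ n := by
      intro n
      induction n using Nat.strong_induction_on with
      | _ n ih =>
        intro hn
        rcases eq_or_ne n 1 with rfl | hn1
        · rw [show (powMonoidHom 1 : G →* G).ker = ⊥ from eq_bot_iff.2 fun g hg => by
            simpa using hg]
          simp
        obtain ⟨p, hp, m, rfl⟩ := Nat.exists_prime_and_dvd hn1
        have hm : 0 < m := Nat.pos_of_mul_pos_left hn
        set h := (powMonoidHom p : G →* G).comp (powMonoidHom (p * m) : G →* G).ker.subtype with hh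
        have hr : Nat.card h.range ≤ m := by
          refine le_trans (Subgroup.card_le_of_le ?_) (ih m ?_ hm)
          · rintro _ ⟨g, rfl⟩
            have h1 : (g : G) ^ (p * m) = 1 := g.2
            show ((g : G) ^ p) ^ m = 1
            rw [← pow_mul]; exact h1
          · exact lt_mul_of_one_lt_left hm hp.one_lt
        have hk : Nat.card h.ker ≤ p := by
          refine le_trans (Nat.card_le_card_of_injective
            (fun g => (⟨g.1.1, g.2⟩ : (powMonoidHom p : G →* G).ker))
            fun a b e => Subtype.ext (Subtype.ext (congrArg (fun z : (powMonoidHom p : G →* G).ker => (z : G)) e)))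
            (hsmall p hp)
        have hc := h.ker.card_mul_index
        rw [Subgroup.index_ker] at hc
        rw [← hc]
        exact Nat.mul_le_mul hk hr
    refine le_trans (le_of_eq ?_) (key n hn)
    rw [Nat.card_eq_fintype_card, ← Fintype.card_subtype]
    exact Fintype.card_congr (Equiv.subtypeEquivRight fun g => Iff.rfl)
  obtain ⟨p, hp, hbig⟩ := hbig
  haveI := Fact.mk hp
  set Ω := (powMonoidHom p : G →* G).ker with hΩ
  have hexp : ∀ g ∈ Ω, g ^ p = 1 := fun g hg => hg
  have htop : Ω = ⊤ := by
    by_contra hne
    haveI := hcyc Ω hne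
    refine absurd (Nat.le_of_dvd hp.pos ?_) (not_le.2 hbig)
    rw [← IsCyclic.exponent_eq_card]
    exact Monoid.exponent_dvd_of_forall_pow_eq_one fun g => Subtype.ext (hexp g g.2)
  have hall : ∀ g : G, g ^ p = 1 := fun g => hexp g (htop ▸ Subgroup.mem_top g)
  haveI : Nontrivial G := by
    rcases subsingleton_or_nontrivial G with h | h
    · exact absurd (isCyclic_of_subsingleton (α := G)) hc
    · exact h
  have hexpG : Monoid.exponent G = p := by
    rcases (Nat.dvd_prime hp).1 (Monoid.exponent_dvd_of_forall_pow_eq_one hall) with h | h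
    · exact absurd (Monoid.exp_eq_one_iff.1 h) (not_subsingleton G)
    · exact h
  have hG : IsPGroup p G := fun g => ⟨1, by rw [pow_one]; exact hall g⟩
  obtain ⟨k, hk⟩ := IsPGroup.iff_card.1 hG
  have hk2 : 2 ≤ k := by
    by_contra hlt
    have hk' : k = 0 ∨ k = 1 := by omega
    rcases hk' with rfl | rfl
    · rw [pow_zero] at hk
      exact absurd ((Nat.card_eq_one_iff_unique.1 hk).1) (not_subsingleton G)
    · rw [pow_one] at hk
      exact hc (isCyclic_of_prime_card hk)
  refine ⟨p, hp, ?_, hexpG⟩
  rcases eq_or_lt_of_le hk2 with h | h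
  · rw [hk, ← h]
  · exfalso
    obtain ⟨H, hH⟩ := Sylow.exists_subgroup_card_pow_prime p (n := 2) (hk ▸ pow_dvd_pow p hk2)
    haveI := hcyc H (fun e => by
      rw [e, Subgroup.card_top, hk] at hH
      exact absurd (Nat.pow_right_injective hp.two_le hH) h.ne')
    have h3 : Monoid.exponent H ∣ p :=
      Monoid.exponent_dvd_of_forall_pow_eq_one fun g => Subtype.ext (hall g)
    rw [IsCyclic.exponent_eq_card, hH] at h3
    exact absurd (Nat.le_of_dvd hp.pos h3) (not_le.2 (by
      calc p = p ^ 1 := (pow_one p).symm
        _ < p ^ 2 := Nat.pow_lt_pow_right hp.one_lt (by norm_num)))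

end Cfsg.Agent.S3917
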