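import Cfsg.Statements.S3918
import Mathlib
import Cfsg.Agent.Lib.Transfer.RankTwo
import Cfsg.Agent.Lib.ZStar.UniqueInvolution
-- import your own Cfsg.Agent.* helpers here

set_option autoImplicit false
open Cfsg

namespace Cfsg.Agent.S3918

/-- Say that a group has self-centralizing non-cyclic subgroups when every non-cyclic subgroup H satisfies C_G(H) ≤ H. For an odd prime p, a finite non-abelian p-group has self-centralizing non-cyclic subgroups if and only if it has order p³. -/
theorem result {G : Type*} [Group G] [Finite G] {p : ℕ} [Fact p.Prime] (hp : p ≠ 2) (hG : IsPGroup p G) (hna : ¬ IsMulCommutative G) :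
    (∀ H : Subgroup G, ¬ IsCyclic ↥H → Subgroup.centralizer (H : Set G) ≤ H) ↔ Nat.card G = p ^ 3 := by
  classical
  have hpp := (Fact.out : p.Prime)
  have hncomm : ¬ ∀ a b : G, a * b = b * a := fun h => hna ⟨⟨h⟩⟩
  constructor
  · intro h
    set S := {A : Subgroup G | A.Normal ∧ IsMulCommutative A ∧ ∀ a ∈ A, a ^ p = 1}
    have hne : S.Nonempty :=
      ⟨⊥, inferInstance, ⟨⟨fun u v => Subsingleton.elim _ _⟩⟩, fun a ha => by rw [Subgroup.mem_bot.1 ha, one_pow]⟩
    obtain ⟨A, ⟨hAn, hAc, hAe⟩, hAmax⟩ := S.toFinite.exists_maximal hne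
    haveI := hAn
    have hmem : ∀ x ∈ Subgroup.centralizer (A : Set G), x ^ p = 1 → x ∈ A := fun x hx hxp =>
      Cfsg.Lib.Transfer.mem_of_maximal_normal_abelian_exponent hG 1 (by rwa [pow_one]) A hAc
        (fun a ha => by rw [pow_one]; exact hAe a ha)
        (fun B hB hBc hBe hle => le_antisymm (hAmax ⟨hB, hBc, fun b hb => by simpa using hBe b hb⟩ hle) hle) x hx
        (by rw [pow_one]; exact hxp)
    obtain ⟨k, hk⟩ := IsPGroup.iff_card.1 (hG.to_subgroup A)
    have hk2 : 2 ≤ k := by
      by_contra hlt
      have hAp : Nat.card A ≤ p := by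
        rw [hk]; calc p ^ k ≤ p ^ 1 := Nat.pow_le_pow_right hpp.pos (by omega)
          _ = p := pow_one p
      have hAz : A ≤ Subgroup.center G := by
        by_cases hAb : A = ⊥
        · rw [hAb]; exact bot_le
        obtain ⟨x, hx, hx1⟩ := (Subgroup.bot_or_exists_ne_one _).resolve_left (Cfsg.Lib.Transfer.inf_center_ne_bot hG A hAb)
        have h1 : Subgroup.zpowers x = A := by
          refine Subgroup.eq_of_le_of_card_ge (Subgroup.zpowers_le.2 hx.1) ?_
          rw [Nat.card_zpowers, orderOf_eq_prime (hAe x hx.1) hx1]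
          exact hAp
        rw [← h1]; exact Subgroup.zpowers_le.2 hx.2
      have huniq : ∀ x y : G, orderOf x = p → orderOf y = p → y ∈ Subgroup.zpowers x := by
        intro x y hx hy
        have hin : ∀ z : G, orderOf z = p → z ∈ A := fun z hz => hmem z
          (Subgroup.mem_centralizer_iff.2 fun a ha => ((Subgroup.mem_center_iff.1 (hAz ha)) z).symm)
          (hz ▸ pow_orderOf_eq_one z)
        have hAeq : Subgroup.zpowers x = A := by
          refine Subgroup.eq_of_le_of_card_ge (Subgroup.zpowers_le.2 (hin x hx)) ?_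
          rw [Nat.card_zpowers, hx]; exact hAp
        rw [hAeq]; exact hin y hy
      rcases Cfsg.Lib.ZStar.isCyclic_or_inverted hG huniq with hc | ⟨h2, -⟩
      · exact hncomm fun a b => IsCyclic.commGroup.mul_comm a b
      · exact hp h2
    obtain ⟨E, hEA, hEn, hEc⟩ := Cfsg.Lib.Transfer.RankTwo.exists_normal_le_card hG A hk 2 hk2
    haveI := hEn
    have hEcyc : ¬ IsCyclic ↥E := by
      intro hc
      obtain ⟨x, hx⟩ := hc.exists_ofOrder_eq_natCard
      have h1 : orderOf x ∣ p := orderOf_dvd_of_pow_eq_one (Subtype.ext (hAe _ (hEA x.2)))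
      rw [hx, hEc] at h1
      exact absurd (Nat.le_of_dvd hpp.pos h1) (by nlinarith [hpp.two_le])
    have hCle := h E hEcyc
    haveI : Nontrivial ↥E := Finite.one_lt_card_iff_nontrivial.1 (hEc ▸ Nat.one_lt_pow two_ne_zero hpp.one_lt)
    obtain ⟨z, hz1, hzE, hzc⟩ : ∃ z, z ≠ 1 ∧ z ∈ E ∧ z ∈ Subgroup.center G := by
      have h1 : Nontrivial ↥E := inferInstance
      have h2 := Cfsg.Lib.Transfer.inf_center_ne_bot hG E (fun hb => by
        rw [hb, Subgroup.card_bot] at hEc
        exact absurd hEc.symm (Nat.one_lt_pow two_ne_zero hpp.one_lt).ne')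
      obtain ⟨z, hz, hz1⟩ := (Subgroup.bot_or_exists_ne_one _).resolve_left h2
      exact ⟨z, hz1, hz.1, hz.2⟩
    obtain ⟨e, heE, hez⟩ : ∃ e ∈ E, e ∉ Subgroup.zpowers z := by
      by_contra hno
      push Not at hno
      exact hEcyc (isCyclic_of_injective (Subgroup.inclusion (show E ≤ Subgroup.zpowers z from hno))
        (Subgroup.inclusion_injective _))
    set C := Subgroup.centralizer ({e} : Set G) with hC
    have hmemC : ∀ x : G, x ∈ C ↔ e * x = x * e := fun x => by
      rw [hC, Subgroup.mem_centralizer_iff]; simp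
    have hCE : C ≤ E := by
      intro x hx
      refine hCle (Subgroup.mem_centralizer_iff.2 fun y hy => ?_)
      set X := Subgroup.centralizer ({x} : Set G) ⊓ E with hX
      have hzX : z ∈ X := ⟨Subgroup.mem_centralizer_singleton_iff.2 ((Subgroup.mem_center_iff.1 hzc x).symm), hzE⟩
      have heX : e ∈ X := ⟨Subgroup.mem_centralizer_singleton_iff.2 ((hmemC x).1 hx), heE⟩
      have hXE : X = E := by
        refine Subgroup.eq_of_le_of_card_ge inf_le_right ?_
        obtain ⟨l, hl⟩ := IsPGroup.iff_card.1 (hG.to_subgroup X)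
        rcases l with _ | _ | l
        · have := Subgroup.card_eq_one.1 (hl.trans (pow_zero p))
          exact absurd (Subgroup.mem_bot.1 (this ▸ hzX)) hz1
        · exfalso
          apply hez
          have : Subgroup.zpowers z = X := by
            refine Subgroup.eq_of_le_of_card_ge (Subgroup.zpowers_le.2 hzX) ?_
            rw [hl, Nat.card_zpowers, orderOf_eq_prime (hAe z (hEA hzE)) hz1, pow_one]
          exact this ▸ heX
        · rw [hl, hEc]; exact Nat.pow_le_pow_right hpp.pos (by omega)
      rw [← hXE] at hy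
      exact Subgroup.mem_centralizer_singleton_iff.1 hy.1
    have hidx : C.index < p ^ 2 := by
      let f : G ⧸ C → ↥E := Quotient.lift (fun g => (⟨g * e * g⁻¹, hEn.conj_mem e heE g⟩ : ↥E))
        (fun a b hab => by
          have h1 := (hmemC _).1 (QuotientGroup.leftRel_apply.1 hab)
          apply Subtype.ext
          calc a * e * a⁻¹ = a * (e * (a⁻¹ * b)) * b⁻¹ := by group
            _ = a * ((a⁻¹ * b) * e) * b⁻¹ := by rw [h1]
            _ = b * e * b⁻¹ := by group)
      have hf : Function.Injective f := by
        intro a b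
        induction a using QuotientGroup.induction_on with | H a => ?_
        induction b using QuotientGroup.induction_on with | H b => ?_
        intro hab
        have h1 : a * e * a⁻¹ = b * e * b⁻¹ := congrArg Subtype.val hab
        refine QuotientGroup.eq.2 ((hmemC _).2 ?_)
        calc e * (a⁻¹ * b) = a⁻¹ * (a * e * a⁻¹) * b := by group
          _ = a⁻¹ * (b * e * b⁻¹) * b := by rw [h1]
          _ = a⁻¹ * b * e := by group
      have hns : ¬ Function.Surjective f := by
        intro hs
        obtain ⟨a, ha⟩ := hs 1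
        induction a using QuotientGroup.induction_on with | H a => ?_
        have h1 : a * e * a⁻¹ = 1 := congrArg Subtype.val ha
        exact hez ((conj_eq_one_iff.1 h1) ▸ one_mem _)
      rw [Subgroup.index_eq_card, ← hEc]
      exact lt_of_le_of_ne (Nat.card_le_card_of_injective f hf) fun e' =>
        hns ((Nat.bijective_iff_injective_and_card f).2 ⟨hf, e'⟩).2
    obtain ⟨m, hm⟩ := hG.index C
    obtain ⟨N, hN⟩ := IsPGroup.iff_card.1 hG
    rw [hm] at hidx
    have hm1 : m ≤ 1 := by
      have := (Nat.pow_lt_pow_iff_right hpp.one_lt).1 hidx; omega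
    have hle : Nat.card G ≤ p ^ 3 := by
      rw [← C.card_mul_index, hm, pow_succ p 2, ← hEc]
      exact Nat.mul_le_mul (Subgroup.card_le_of_le hCE) (by simpa using Nat.pow_le_pow_right hpp.pos hm1)
    rw [hN] at hle ⊢
    have hN3 : N ≤ 3 := (Nat.pow_le_pow_iff_right hpp.one_lt).1 hle
    rcases Nat.lt_or_ge N 3 with hlt | hge
    · exfalso
      rcases hN2 : N with _ | _ | N'
      · rw [hN2, pow_zero] at hN
        haveI := (Nat.card_eq_one_iff_unique.1 hN).1
        exact hncomm fun a b => Subsingleton.elim _ _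
      · rw [hN2, pow_one] at hN
        haveI := isCyclic_of_prime_card hN
        exact hncomm fun a b => IsCyclic.commGroup.mul_comm a b
      · have : N = 2 := by omega
        rw [this] at hN
        exact hncomm (IsPGroup.commutative_of_card_eq_prime_sq hN)
    · rw [show N = 3 by omega]
  · intro hcard H hH
    by_cases hHt : H = ⊤
    · rw [hHt]; exact le_top
    obtain ⟨l, hl⟩ := IsPGroup.iff_card.1 (hG.to_subgroup H)
    have hl2 : l = 2 := by
      have h1 : 2 ≤ l := by
        by_contra hlt
        rcases l with _ | _ | l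
        · haveI := (Nat.card_eq_one_iff_unique.1 (hl.trans (pow_zero p))).1
          exact hH inferInstance
        · exact hH (isCyclic_of_prime_card (hl.trans (pow_one p)))
        · omega
      have h2 : l < 3 := by
        have h4 : Nat.card H < Nat.card G := lt_of_le_of_ne (Subgroup.card_le_card_group H)
          (fun e => hHt (Subgroup.eq_top_of_card_eq H e))
        rw [hl, hcard] at h4
        exact (Nat.pow_lt_pow_iff_right hpp.one_lt).1 h4
      omega
    rw [hl2] at hl
    have hHC : H ≤ Subgroup.centralizer (H : Set G) := fun x hx => Subgroup.mem_centralizer_iff.2 fun y hy =>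
      congrArg Subtype.val (IsPGroup.commutative_of_card_eq_prime_sq hl (⟨y, hy⟩ : ↥H) ⟨x, hx⟩)
    obtain ⟨l', hl'⟩ := IsPGroup.iff_card.1 (hG.to_subgroup (Subgroup.centralizer (H : Set G)))
    have hge := Subgroup.card_le_of_le hHC
    have hle := Subgroup.card_le_card_group (Subgroup.centralizer (H : Set G))
    rw [hl, hl', Nat.pow_le_pow_iff_right hpp.one_lt] at hge
    rw [hl', hcard, Nat.pow_le_pow_iff_right hpp.one_lt] at hle
    rcases Nat.lt_or_ge l' 3 with hlt | hge3
    · exact (Subgroup.eq_of_le_of_card_ge hHC (by rw [hl, hl', show l' = 2 by omega])).ge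
    · exfalso
      rw [show l' = 3 by omega, ← hcard] at hl'
      have hCtop := Subgroup.eq_top_of_card_eq _ hl'
      have hHz : H ≤ Subgroup.center G := fun x hx => Subgroup.mem_center_iff.2 fun g =>
        ((Subgroup.mem_centralizer_iff.1 (hCtop ▸ Subgroup.mem_top g : g ∈ Subgroup.centralizer (H : Set G))) x hx).symm
      have hq : Nat.card (G ⧸ Subgroup.center G) ∣ p := by
        rw [← Subgroup.index_eq_card]
        refine (Subgroup.index_dvd_of_le hHz).trans (dvd_of_eq ?_)
        refine Nat.eq_of_mul_eq_mul_left (pow_pos hpp.pos 2) ?_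
        rw [← hl, H.card_mul_index, hl, hcard, ← pow_succ]
      haveI : IsCyclic (G ⧸ Subgroup.center G) := by
        rcases (Nat.dvd_prime hpp).1 hq with h1 | h1
        · haveI := (Nat.card_eq_one_iff_unique.1 h1).1; infer_instance
        · exact isCyclic_of_prime_card h1
      exact hncomm fun a b => commutative_of_cyclic_center_quotient (QuotientGroup.mk' (Subgroup.center G))
        (QuotientGroup.ker_mk' _).le a b

end Cfsg.Agent.S3918
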