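import Cfsg.Statements.S3919
import Cfsg.Agent.Lib.Transfer.MaximalClass
import Cfsg.Agent.Lib.ZStar.UniqueInvolution
-- import your own Cfsg.Agent.* helpers here

set_option autoImplicit false
open Cfsg
open scoped Pointwise commutatorElement

namespace Cfsg.Agent.S3919

theorem insert_inv {G : Type*} [Group G] (W : Subgroup G) [IsMulCommutative W] (z : G) (hz : z ^ 2 = 1)
    (hW : ∀ w ∈ W, z * w = w * z) (hWexp : ∀ w ∈ W, w ^ 2 = 1) :
    ∃ V : Subgroup G, W ≤ V ∧ z ∈ V ∧ IsMulCommutative V ∧ ∀ a ∈ V, a ^ 2 = 1 := by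
  have hzz : z * z = 1 := by rw [← pow_two]; exact hz
  have hmem : ∀ a, a * z ∈ W → a = a * z * z := fun a _ => by rw [mul_assoc, hzz, mul_one]
  let V : Subgroup G :=
    { carrier := {a | a ∈ W ∨ a * z ∈ W}
      one_mem' := Or.inl W.one_mem
      mul_mem' := fun {a b} ha hb => by
        rcases ha with ha | ha <;> rcases hb with hb | hb
        · exact Or.inl (W.mul_mem ha hb)
        · exact Or.inr (by rw [mul_assoc]; exact W.mul_mem ha hb)
        · refine Or.inr ?_
          rw [mul_assoc, ← hW b hb, ← mul_assoc]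
          exact W.mul_mem ha hb
        · refine Or.inl ?_
          have h := W.mul_mem ha hb
          rwa [show a * z * (b * z) = a * (z * (b * z)) from mul_assoc _ _ _, hW _ hb, mul_assoc b, hzz, mul_one] at h
      inv_mem' := fun {a} ha => by
        rcases ha with ha | ha
        · exact Or.inl (W.inv_mem ha)
        · refine Or.inr ?_
          have h := W.inv_mem ha
          have h1 : a⁻¹ = (a * z)⁻¹ * z := by
            rw [← hW _ h, mul_inv_rev, ← mul_assoc, mul_inv_cancel, one_mul]
          rw [h1, mul_assoc, hzz, mul_one]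
          exact h }
  refine ⟨V, fun a ha => Or.inl ha, Or.inr (by rw [hzz]; exact W.one_mem), ?_, ?_⟩
  · refine ⟨⟨fun a b => Subtype.ext ?_⟩⟩
    show (a : G) * (b : G) = (b : G) * (a : G)
    have key : ∀ a : G, a ∈ V → Commute a z ∧ ∀ w ∈ W, Commute a w := by
      intro a ha
      rcases ha with ha | ha
      · exact ⟨(hW a ha).symm, fun w hw => setLike_mul_comm ha hw⟩
      · rw [hmem a ha]
        exact ⟨Commute.mul_left (hW _ ha).symm (Commute.refl z), fun w hw => Commute.mul_left (setLike_mul_comm ha hw) (hW w hw)⟩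
    rcases b.2 with hb | hb
    · exact (key a a.2).2 b hb
    · rw [hmem (b : G) hb]
      exact ((key a a.2).2 _ hb).mul_right (key a a.2).1
  · intro a ha
    rcases ha with ha | ha
    · exact hWexp a ha
    · rw [hmem a ha, Commute.mul_pow (hW _ ha).symm, hWexp _ ha, hz, one_mul]


/-- Say that a group has self-centralizing non-cyclic subgroups when every non-cyclic subgroup H satisfies C_G(H) ≤ H. A finite non-abelian 2-group G of order 2^n has self-centralizing non-cyclic subgroups if and only if G has nilpotency class n − 1 (that is, G is dihedral, semidihedral or generalized quaternion). -/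
theorem result {G : Type*} [Group G] [Finite G] (hna : ¬ IsMulCommutative G) (n : ℕ) (hG : Nat.card G = 2 ^ n) :
    (∀ H : Subgroup G, ¬ IsCyclic ↥H → Subgroup.centralizer (H : Set G) ≤ H) ↔ (⊤ : Subgroup G).lowerCentralSeries (n - 2) ≠ ⊥ := by
  classical
  haveI := Fact.mk Nat.prime_two
  have hP : IsPGroup 2 G := IsPGroup.of_card hG
  haveI : Group.IsNilpotent G := hP.isNilpotent
  have hn3 : 3 ≤ n := by
    by_contra h
    refine hna ?_
    rcases (show n = 0 ∨ n = 1 ∨ n = 2 by omega) with rfl | rfl | rfl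
    · haveI : Subsingleton G := (Nat.card_eq_one_iff_unique.1 (by simpa using hG)).1
      exact ⟨⟨fun a b => Subsingleton.elim _ _⟩⟩
    · haveI : IsCyclic G := isCyclic_of_prime_card (p := 2) (by simpa using hG)
      exact IsCyclic.isMulCommutative
    · letI := IsPGroup.commGroupOfCardEqPrimeSq (p := 2) hG
      exact ⟨⟨fun a b => mul_comm a b⟩⟩
  have hclass : (⊤ : Subgroup G).lowerCentralSeries (n - 2) ≠ ⊥ ↔ Group.nilpotencyClass G = n - 1 := by
    have hle := Cfsg.Lib.Transfer.nilpotencyClass_succ_le (p := 2) n G hG (by omega)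
    constructor
    · intro h
      by_contra hne
      refine h (le_bot_iff.1 ?_)
      rw [← Subgroup.lowerCentralSeries_nilpotencyClass (G := G)]
      exact Subgroup.lowerCentralSeries_antitone _ (by omega)
    · intro hc hbot
      have := Subgroup.lowerCentralSeries_eq_bot_iff_nilpotencyClass_le.1 hbot
      omega
  rw [hclass]
  constructor
  · intro hcen
    suffices h : ∃ A : Subgroup G, Nat.card A = 2 ^ 2 ∧ Subgroup.centralizer (A : Set G) = A by
      obtain ⟨A, h1, h2⟩ := h
      exact Cfsg.Lib.Transfer.nilpotencyClass_of_selfCentralizing n G hG A h1 h2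
    by_cases huniq : ∀ x y : G, orderOf x = 2 → orderOf y = 2 → y ∈ Subgroup.zpowers x
    · rcases Cfsg.Lib.ZStar.isCyclic_or_inverted hP huniq with hc | ⟨-, a, g, ha4, hidx, hg, hinv, hg2⟩
      · haveI := hc; exact absurd IsCyclic.isMulCommutative hna
      set A := Subgroup.zpowers a with hA
      obtain ⟨j, hj⟩ := IsPGroup.iff_card.1 (hP.to_subgroup A)
      rw [hA, Nat.card_zpowers] at hj
      have hdiv : 2 ∣ orderOf a := by
        rw [hj]; refine dvd_pow_self 2 fun h => ?_
        rw [hj, h] at ha4; norm_num at ha4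
      set w := a ^ (orderOf a / 2) with hw
      have hw2 : orderOf w = 2 := by
        rw [hw, orderOf_pow_of_dvd (by omega) (Nat.div_dvd_of_dvd hdiv), Nat.div_div_self hdiv (by omega)]
      have hog : orderOf g = 4 := by
        have h1 : g ^ 2 ^ (1 + 1) = 1 := by rw [pow_succ, pow_mul, pow_one, hg2, ← hw2, pow_orderOf_eq_one]
        have h2 : ¬ g ^ 2 ^ 1 = 1 := by
          rw [pow_one, hg2]; intro h; rw [h, orderOf_one] at hw2; omega
        simpa using orderOf_eq_prime_pow h2 h1
      refine ⟨Subgroup.zpowers g, by rw [Nat.card_zpowers, hog]; norm_num, le_antisymm ?_ (Subgroup.le_centralizer _)⟩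
      intro c hc
      have hcg : g * c = c * g := Subgroup.mem_centralizer_iff.1 hc g (Subgroup.mem_zpowers g)
      have key : ∀ d ∈ A, g * d = d * g → d ∈ Subgroup.zpowers g := by
        rintro d ⟨i, rfl⟩ hd
        have h1 : g * a ^ i * g⁻¹ = (a⁻¹) ^ i := by rw [← conj_zpow, hinv]
        rw [mul_inv_eq_iff_eq_mul.2 hd, inv_zpow, eq_inv_iff_mul_eq_one, ← pow_two] at h1
        show a ^ i ∈ Subgroup.zpowers g
        by_cases hd1 : a ^ i = 1
        · rw [hd1]; exact Subgroup.one_mem _
        · have h2 := huniq (g ^ 2) (a ^ i) (by rw [hg2]; exact hw2) (orderOf_eq_prime h1 hd1)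
          exact Subgroup.zpowers_le.2 (Subgroup.pow_mem _ (Subgroup.mem_zpowers g) 2) h2
      rcases Cfsg.Lib.Transfer.mem_or_mul_mem_of_index_two hidx hg c with h | h
      · exact key c h hcg
      · have := key _ h (by rw [← mul_assoc, hcg])
        have h2 := Subgroup.mul_mem _ this (Subgroup.inv_mem _ (Subgroup.mem_zpowers g))
        rwa [mul_inv_cancel_right] at h2
    · push_neg at huniq
      obtain ⟨x, y, hx, hy, hxy⟩ := huniq
      haveI : Nontrivial G := ⟨⟨x, 1, fun h => by rw [h, orderOf_one] at hx; omega⟩⟩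
      haveI : Nontrivial ↥(Subgroup.center G) := hP.center_nontrivial
      obtain ⟨z, hz⟩ := exists_prime_orderOf_dvd_card' (G := ↥(Subgroup.center G)) 2
        (((hP.to_subgroup _).card_eq_or_dvd).resolve_left (Finite.one_lt_card (α := ↥(Subgroup.center G))).ne')
      have hz' : orderOf (z : G) = 2 := by rw [Subgroup.orderOf_coe, hz]
      obtain ⟨u, hu, huz⟩ : ∃ u : G, orderOf u = 2 ∧ u ∉ Subgroup.zpowers (z : G) := by
        by_contra hno
        push_neg at hno
        have hzx : Subgroup.zpowers x = Subgroup.zpowers (z : G) :=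
          Subgroup.eq_of_le_of_card_ge (Subgroup.zpowers_le.2 (hno x hx)) (by rw [Nat.card_zpowers, Nat.card_zpowers, hx, hz'])
        exact hxy (hzx ▸ hno y hy)
      have hu2 : u ^ 2 = 1 := by rw [← hu, pow_orderOf_eq_one]
      have hz2 : (z : G) ^ 2 = 1 := by rw [← hz', pow_orderOf_eq_one]
      obtain ⟨V, hWV, huV, hVc, hV2⟩ := insert_inv (Subgroup.zpowers (z : G)) u hu2
        (by rintro _ ⟨i, rfl⟩; exact (Commute.zpow_left (Subgroup.mem_center_iff.1 z.2 u).symm i).symm.eq)
        (by rintro _ ⟨i, rfl⟩; show ((z : G) ^ i) ^ 2 = 1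
            rw [← zpow_natCast ((z : G) ^ i), ← zpow_mul, mul_comm, zpow_mul, zpow_natCast, hz2, one_zpow])
      have hne : Subgroup.zpowers (z : G) ≠ V := fun h => huz (h ▸ huV)
      have hVp : IsPGroup 2 V := hP.to_subgroup V
      obtain ⟨j, hj⟩ := IsPGroup.iff_card.1 hVp
      have hnc : ∀ F : Subgroup G, F ≤ V → 4 ≤ Nat.card F → ¬ IsCyclic F := by
        intro F hFV hF hcyc
        obtain ⟨g, hg⟩ := hcyc.exists_generator
        have : Nat.card F ∣ 2 := by
          rw [← orderOf_eq_card_of_forall_mem_zpowers hg]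
          exact orderOf_dvd_of_pow_eq_one (Subtype.ext (hV2 g (hFV g.2)))
        have := Nat.le_of_dvd two_pos this
        omega
      have hj2 : 2 ≤ j := by
        by_contra h
        refine hne (Subgroup.eq_of_le_of_card_ge hWV ?_)
        rw [hj, Nat.card_zpowers, hz']
        calc 2 ^ j ≤ 2 ^ 1 := Nat.pow_le_pow_right two_pos (by omega)
          _ = 2 := pow_one 2
      obtain ⟨F, hF⟩ := Sylow.exists_subgroup_card_pow_prime 2 (n := 2) (G := ↥V) (by rw [hj]; exact pow_dvd_pow 2 hj2)
      set F' := F.map V.subtype with hF'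
      have hFc : Nat.card F' = 2 ^ 2 := by rw [hF', Subgroup.card_map_of_injective V.subtype_injective, hF]
      have hFV : F' ≤ V := Subgroup.map_subtype_le _
      have hCF := hcen F' (hnc F' hFV (by rw [hFc]; norm_num))
      haveI := hVc
      refine ⟨F', hFc, le_antisymm hCF ?_⟩
      exact le_trans (hFV.trans (Subgroup.le_centralizer V)) (Subgroup.centralizer_le hFV)
  · intro hc H hH
    have h4 := Cfsg.Lib.Transfer.four_of_maximal_class n G hn3 hG hc
    obtain ⟨a, t, ha, ht, hZ, hZc, -, hta, -⟩ := Cfsg.Lib.Transfer.four_structure hn3 hG h4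
    set A := Subgroup.zpowers a with hA
    have hidx : A.index = 2 := by
      have h2 := A.card_mul_index
      rw [hA, Nat.card_zpowers, ha, hG] at h2
      refine Nat.eq_of_mul_eq_mul_left (pow_pos two_pos (n - 1)) (h2.trans ?_)
      rw [← pow_succ]; congr 1; omega
    obtain ⟨z, hz, hzt⟩ : ∃ z ∈ Subgroup.center G, t * a * t⁻¹ = z * a⁻¹ :=
      ⟨_, hta, by rw [mul_inv_cancel_right]⟩
    have hz2 : z ^ 2 = 1 := by
      have h := pow_card_eq_one' (x := (⟨z, hz⟩ : ↥(Subgroup.center G)))
      rw [hZc] at h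
      exact congrArg Subtype.val h
    have hgen : ∀ c : G, c ∈ A ∨ c * t ∈ A := Cfsg.Lib.Transfer.mem_or_mul_mem_of_index_two hidx ht
    have hnot : ∀ g ∉ A, g * a * g⁻¹ = z * a⁻¹ := by
      intro g hg
      obtain ⟨i, hi⟩ := (hgen g).resolve_left hg
      have ht2 : t * t ∈ A := ((hgen t).resolve_left ht)
      obtain ⟨k, hk⟩ := ht2
      have hg' : g = a ^ i * t⁻¹ := by rw [show a ^ i = g * t from hi, mul_inv_cancel_right]
      have hti : t⁻¹ = a ^ (-k) * t := by
        rw [zpow_neg, show a ^ k = t * t from hk]; group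
      have hg'' : g = a ^ (i + -k) * t := by rw [zpow_add, mul_assoc, ← hti, hg']
      calc g * a * g⁻¹ = a ^ (i + -k) * (t * a * t⁻¹) * (a ^ (i + -k))⁻¹ := by rw [hg'']; group
        _ = a ^ (i + -k) * (z * a⁻¹) * (a ^ (i + -k))⁻¹ := by rw [hzt]
        _ = z * (a ^ (i + -k) * a⁻¹ * (a ^ (i + -k))⁻¹) := by
          rw [← mul_assoc (a ^ (i + -k)), Subgroup.mem_center_iff.1 hz (a ^ (i + -k))]; simp only [mul_assoc]
        _ = z * a⁻¹ := by group
    have hkey : ∀ g ∉ A, ∀ d ∈ A, g * d = d * g → d ^ 2 = 1 := by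
      rintro g hg d ⟨i, rfl⟩ hd
      have h1 : g * a ^ i * g⁻¹ = z ^ i * (a ^ i)⁻¹ := by
        rw [← conj_zpow, hnot g hg, Commute.mul_zpow (Subgroup.mem_center_iff.1 hz a⁻¹).symm, inv_zpow]
      rw [mul_inv_eq_iff_eq_mul.2 hd, eq_mul_inv_iff_mul_eq, ← pow_two] at h1
      rcases Int.even_or_odd' i with ⟨m, rfl | rfl⟩
      · show (a ^ (2 * m)) ^ 2 = 1
        rw [h1, zpow_mul, show z ^ (2 : ℤ) = z ^ 2 from zpow_natCast z 2, hz2, one_zpow]
      · exfalso
        -- an odd power of `a` generates `A`, so `a` commutes with `g`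
        obtain ⟨q, hq⟩ : ∃ q : ℤ, (a ^ (2 * m + 1)) ^ q = a := by
          obtain ⟨u, v, huv⟩ := (show IsCoprime (2 * m + 1) (2 : ℤ) from ⟨1, -m, by ring⟩).pow_right (n := n - 1)
          refine ⟨u, ?_⟩
          have hN : a ^ ((2 : ℤ) ^ (n - 1)) = 1 := by
            rw [show ((2 : ℤ) ^ (n - 1)) = ((2 ^ (n - 1) : ℕ) : ℤ) by norm_num, zpow_natCast, ← ha, pow_orderOf_eq_one]
          rw [← zpow_mul, show (2 * m + 1) * u = 1 - (2 : ℤ) ^ (n - 1) * v by linarith [huv], zpow_sub, zpow_one,
            zpow_mul, hN, one_zpow, inv_one, mul_one]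
        have hga : Commute g a := by
          rw [← hq]; exact Commute.zpow_right hd q
        refine hna ⟨⟨fun u v => ?_⟩⟩
        have hall : ∀ c : G, Commute a c := by
          intro c
          rcases hgen c with h | h
          · obtain ⟨r, rfl⟩ := h; exact (Commute.refl a).zpow_right r
          · obtain ⟨r, hr⟩ := h
            have hg2 : g * t ∈ A := (hgen g).resolve_left hg
            obtain ⟨r', hr'⟩ := hg2
            have h3 : c = a ^ r * (a ^ r')⁻¹ * g := by
              rw [show a ^ r = c * t from hr, show a ^ r' = g * t from hr']; group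
            rw [h3]
            exact (((Commute.refl a).zpow_right r).mul_right ((Commute.refl a).zpow_right r').inv_right).mul_right hga.symm
        have hdec : ∀ c : G, ∃ r : ℤ, c = a ^ r ∨ c = a ^ r * g := by
          intro c
          rcases Cfsg.Lib.Transfer.mem_or_mul_mem_of_index_two hidx (t := g⁻¹) (fun h => hg (by simpa using A.inv_mem h)) c with h | h
          · obtain ⟨r, hr⟩ := h; exact ⟨r, Or.inl hr.symm⟩
          · obtain ⟨r, hr⟩ := h
            exact ⟨r, Or.inr (by rw [show a ^ r = c * g⁻¹ from hr, inv_mul_cancel_right])⟩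
        obtain ⟨r, hr⟩ := hdec v
        rcases hr with rfl | rfl
        · exact ((hall u).zpow_left r).symm.eq
        · have cu : Commute u g := by
            obtain ⟨s, hs⟩ := hdec u
            rcases hs with rfl | rfl
            · exact (hall g).zpow_left s
            · exact ((hall g).zpow_left s).mul_left (Commute.refl g)
          exact (((hall u).zpow_left r).symm.mul_right cu).eq
    obtain ⟨b, hbH, hbA⟩ : ∃ b ∈ H, b ∉ A := by
      by_contra h
      push_neg at h
      haveI : IsCyclic A := ⟨⟨⟨a, Subgroup.mem_zpowers a⟩, fun ⟨x, hx⟩ => by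
        obtain ⟨k, rfl⟩ := hx; exact ⟨k, Subtype.ext (by simp)⟩⟩⟩
      exact hH (isCyclic_of_injective (Subgroup.inclusion (show H ≤ A from h)) (Subgroup.inclusion_injective _))
    have hsq : ∀ d ∈ A, d ^ 2 = 1 → d ∈ Subgroup.center G := by
      intro d hd hd2
      by_cases h1 : d = 1
      · rw [h1]; exact Subgroup.one_mem _
      obtain ⟨i, rfl⟩ := hd
      have h2 : a ^ (i * 2) = 1 := by rw [zpow_mul]; exact_mod_cast hd2
      rw [← orderOf_dvd_iff_zpow_eq_one, ha] at h2
      obtain ⟨k, hk⟩ : ((2 ^ (n - 2) : ℕ) : ℤ) ∣ i := by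
        rw [show n - 1 = (n - 2) + 1 by omega, pow_succ, Nat.cast_mul] at h2
        exact Int.dvd_of_mul_dvd_mul_right (by norm_num) h2
      rw [hZ]
      refine ⟨k, ?_⟩
      show (a ^ 2 ^ (n - 2)) ^ k = a ^ i
      rw [hk, zpow_mul, zpow_natCast]
    have hZH : Subgroup.center G ≤ H := by
      by_contra hZH
      have hinf : H ⊓ A = ⊥ := by
        rw [eq_bot_iff]
        intro d hd
        by_contra hd1
        obtain ⟨k, hk⟩ := hP d
        obtain ⟨e, he, he1, he2⟩ : ∃ e ∈ Subgroup.zpowers d, e ≠ 1 ∧ e ^ 2 = 1 := by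
          haveI : Nontrivial ↥(Subgroup.zpowers d) := (Subgroup.nontrivial_iff_ne_bot _).2 (fun h => hd1 (h ▸ Subgroup.mem_zpowers d))
          obtain ⟨e, he⟩ := exists_prime_orderOf_dvd_card' (G := ↥(Subgroup.zpowers d)) 2
            (((hP.to_subgroup _).card_eq_or_dvd).resolve_left (Finite.one_lt_card (α := ↥(Subgroup.zpowers d))).ne')
          refine ⟨e, e.2, fun h => ?_, by rw [← he, ← Subgroup.orderOf_coe, pow_orderOf_eq_one]⟩
          rw [← Subgroup.orderOf_coe, h, orderOf_one] at he
          omega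
        have heC := hsq e (Subgroup.zpowers_le.2 hd.2 he) he2
        refine hZH ?_
        have hze : Subgroup.zpowers e = Subgroup.center G := Subgroup.eq_of_le_of_card_ge (Subgroup.zpowers_le.2 heC)
          (by rw [hZc, Nat.card_zpowers, orderOf_eq_prime he2 he1])
        rw [← hze]
        exact Subgroup.zpowers_le.2 (Subgroup.zpowers_le.2 hd.1 he)
      refine hH ?_
      have hHz : H = Subgroup.zpowers b := by
        refine le_antisymm (fun c hc => ?_) (Subgroup.zpowers_le.2 hbH)
        rcases Cfsg.Lib.Transfer.mem_or_mul_mem_of_index_two hidx hbA c with h | h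
        · have : c ∈ H ⊓ A := ⟨hc, h⟩
          rw [hinf, Subgroup.mem_bot] at this
          rw [this]; exact Subgroup.one_mem _
        · have : c * b ∈ H ⊓ A := ⟨H.mul_mem hc hbH, h⟩
          rw [hinf, Subgroup.mem_bot] at this
          rw [eq_inv_of_mul_eq_one_left this]; exact Subgroup.inv_mem _ (Subgroup.mem_zpowers b)
      rw [hHz]
      infer_instance
    intro c hc
    have hcb : b * c = c * b := Subgroup.mem_centralizer_iff.1 hc b hbH
    rcases Cfsg.Lib.Transfer.mem_or_mul_mem_of_index_two hidx hbA c with h | h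
    · exact hZH (hsq c h (hkey b hbA c h hcb))
    · have h2 := hkey b hbA _ h (by rw [← mul_assoc, hcb])
      have h3 := H.mul_mem (hZH (hsq _ h h2)) (H.inv_mem hbH)
      rwa [mul_inv_cancel_right] at h3


end Cfsg.Agent.S3919
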