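import Cfsg.Statements.S3920
import Mathlib
-- import your own Cfsg.Agent.* helpers here

set_option autoImplicit false
open Cfsg

namespace Cfsg.Agent.S3920

/-- Say that a group has self-centralizing non-cyclic subgroups when every non-cyclic subgroup H satisfies C_G(H) ≤ H. For n ≥ 3, the dihedral group of order 2n has self-centralizing non-cyclic subgroups if and only if n is odd or a power of 2. -/
theorem result (n : ℕ) (hn : 3 ≤ n) : (∀ H : Subgroup (DihedralGroup n), ¬ IsCyclic ↥H → Subgroup.centralizer (H : Set (DihedralGroup n)) ≤ H) ↔ (Odd n ∨ ∃ k : ℕ, n = 2 ^ k) := by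
  haveI : NeZero n := ⟨by omega⟩
  constructor
  · intro h
    by_contra hc
    push Not at hc
    obtain ⟨hodd, hpow⟩ := hc
    obtain ⟨a, m, hm, hnam⟩ := Nat.exists_eq_two_pow_mul_odd (n := n) (by omega)
    rcases a with _ | a
    · rw [pow_zero, one_mul] at hnam
      exact hodd (hnam ▸ hm) |>.elim
    have hm1 : 3 ≤ m := by
      obtain ⟨l, rfl⟩ := hm
      rcases l with _ | l
      · exact absurd (by simpa using hnam) (hpow (a + 1))
      · omega
    let c := ZMod.castHom (show 2 ^ (a + 1) ∣ n from ⟨m, hnam⟩) (ZMod (2 ^ (a + 1)))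
    let H : Subgroup (DihedralGroup n) :=
      { carrier := {g | match g with
          | DihedralGroup.r i => c i = 0
          | DihedralGroup.sr i => c i = 0}
        one_mem' := map_zero c
        mul_mem' := by
          rintro (x | x) (y | y) hx hy <;> simp_all [DihedralGroup.r_mul_r, DihedralGroup.r_mul_sr]
        inv_mem' := by
          rintro (x | x) hx <;> simp_all }
    have hr : DihedralGroup.r ((2 ^ (a + 1) : ℕ) : ZMod n) ∈ H := by
      show c _ = 0
      rw [map_natCast, ZMod.natCast_self]
    have hs : DihedralGroup.sr (0 : ZMod n) ∈ H := map_zero c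
    have hnc : ¬ IsCyclic ↥H := by
      intro hC
      have h1 := congrArg Subtype.val (IsCyclic.commGroup.mul_comm (⟨_, hr⟩ : ↥H) ⟨_, hs⟩)
      simp only [Subgroup.coe_mul, DihedralGroup.r_mul_sr, DihedralGroup.sr_mul_r] at h1
      injection h1 with h2
      have h4 : ((2 * 2 ^ (a + 1) : ℕ) : ZMod n) = 0 := by push_cast at h2 ⊢; linear_combination -h2
      have h5 := (ZMod.natCast_eq_zero_iff _ n).1 h4
      rw [hnam, mul_comm 2, Nat.mul_dvd_mul_iff_left (by positivity)] at h5
      have := Nat.le_of_dvd two_pos h5
      omega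
    have hhalf : ((2 ^ a * m : ℕ) : ZMod n) + ((2 ^ a * m : ℕ) : ZMod n) = 0 := by
      rw [← Nat.cast_add, show 2 ^ a * m + 2 ^ a * m = n by rw [hnam]; ring, ZMod.natCast_self]
    have hz : DihedralGroup.r ((2 ^ a * m : ℕ) : ZMod n) ∈ Subgroup.centralizer (H : Set (DihedralGroup n)) := by
      rw [Subgroup.mem_centralizer_iff]
      rintro (x | x) -
      · simp [add_comm]
      · simp only [DihedralGroup.r_mul_sr, DihedralGroup.sr_mul_r]
        congr 1
        linear_combination hhalf
    have h1 : c ((2 ^ a * m : ℕ) : ZMod n) = 0 := h H hnc hz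
    rw [map_natCast, ZMod.natCast_eq_zero_iff, pow_succ, Nat.mul_dvd_mul_iff_left (by positivity)] at h1
    exact (Nat.not_even_iff_odd.2 hm) (even_iff_two_dvd.2 h1)
  · intro hcase H hnc g hg
    have hcyc : ∀ x : DihedralGroup n, H ≤ Subgroup.zpowers x → False := fun x hle =>
      hnc (isCyclic_of_injective (Subgroup.inclusion hle) (Subgroup.inclusion_injective hle))
    obtain ⟨i, hi⟩ : ∃ i, DihedralGroup.sr i ∈ H := by
      by_contra hno
      push Not at hno
      refine hcyc (DihedralGroup.r 1) ?_
      rintro (x | x) hx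
      · exact ⟨x.val, by simp⟩
      · exact absurd hx (hno x)
    obtain ⟨j, hj, hj0⟩ : ∃ j, DihedralGroup.r j ∈ H ∧ j ≠ 0 := by
      by_contra hno
      push Not at hno
      refine hcyc (DihedralGroup.sr i) ?_
      rintro (x | x) hx
      · rw [hno x hx, DihedralGroup.r_zero]; exact one_mem _
      · have h1 := H.mul_mem hi hx
        rw [DihedralGroup.sr_mul_sr] at h1
        rw [sub_eq_zero.1 (hno _ h1)]; exact Subgroup.mem_zpowers _
    -- the only rotation of order two lies in H
    have hinv : ∀ d : ZMod n, d + d = 0 → DihedralGroup.r d ∈ H := by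
      intro d hd
      by_cases hd0 : d = 0
      · rw [hd0, DihedralGroup.r_zero]; exact H.one_mem
      have hval : ∀ e : ZMod n, e + e = 0 → e ≠ 0 → 2 * e.val = n := by
        intro e he he0
        have h1 : ((2 * e.val : ℕ) : ZMod n) = 0 := by
          push_cast [ZMod.natCast_zmod_val]; linear_combination he
        obtain ⟨t, ht⟩ := (ZMod.natCast_eq_zero_iff _ n).1 h1
        have h2 := ZMod.val_lt e
        have h3 : e.val ≠ 0 := fun h => he0 ((ZMod.val_eq_zero e).1 h)
        rcases t with _ | _ | t
        · omega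
        · omega
        · nlinarith
      rcases hcase with hodd | ⟨k, hk⟩
      · exact absurd ⟨d.val, by have := hval d hd hd0; omega⟩ (Nat.not_even_iff_odd.2 hodd)
      · have h1 : orderOf (DihedralGroup.r j) ∣ 2 ^ k := by
          rw [← hk, orderOf_dvd_iff_pow_eq_one, DihedralGroup.r_pow, ZMod.natCast_self, mul_zero,
            DihedralGroup.r_zero]
        obtain ⟨t, -, ht⟩ := (Nat.dvd_prime_pow Nat.prime_two).1 h1
        rcases t with _ | t
        · exfalso
          apply hj0
          have h2 := orderOf_eq_one_iff.1 ht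
          rw [DihedralGroup.one_def] at h2
          injection h2
        have h2 : DihedralGroup.r j ^ 2 ^ t ≠ 1 :=
          pow_ne_one_of_lt_orderOf (by positivity) (ht ▸ Nat.pow_lt_pow_right (by norm_num) (Nat.lt_succ_self t))
        have h3 : (DihedralGroup.r j ^ 2 ^ t) ^ 2 = 1 := by
          rw [← pow_mul, ← pow_succ, ← ht, pow_orderOf_eq_one]
        have h5 : DihedralGroup.r j ^ 2 ^ t ∈ H := H.pow_mem hj _
        rw [DihedralGroup.r_pow] at h2 h3 h5
        rw [sq, DihedralGroup.r_mul_r, DihedralGroup.one_def] at h3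
        injection h3 with h4
        have h6 : (j * ((2 ^ t : ℕ) : ZMod n)) ≠ 0 := fun h => h2 (by rw [h, DihedralGroup.r_zero])
        have h7 := hval _ h4 h6
        have h8 := hval d hd hd0
        have h9 : d = j * ((2 ^ t : ℕ) : ZMod n) := ZMod.val_injective n (by omega)
        rw [h9]; exact h5
    rw [Subgroup.mem_centralizer_iff] at hg
    rcases g with x | x
    · have h1 := hg _ hi
      simp only [DihedralGroup.sr_mul_r, DihedralGroup.r_mul_sr] at h1
      injection h1 with h2
      exact hinv x (by linear_combination h2)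
    · have h1 := hg _ hi
      simp only [DihedralGroup.sr_mul_sr] at h1
      injection h1 with h2
      have h3 := H.mul_mem hi (hinv (x - i) (by linear_combination h2))
      rwa [DihedralGroup.sr_mul_r, add_sub_cancel] at h3

end Cfsg.Agent.S3920
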