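import Cfsg.Statements.S3941
import Mathlib
import Mathlib
-- import your own Cfsg.Agent.* helpers here

set_option autoImplicit false
open Cfsg

namespace Cfsg.Agent.S3941

/-- Let n ≥ 5 and p an odd prime with p ≤ n, and suppose that every proper subgroup of the alternating group of degree n whose order is divisible by p has a normal Sylow p-subgroup. Then n = p. -/
theorem result (n p : ℕ) (hn : 5 ≤ n) [Fact p.Prime] (hp : p ≠ 2) (hpn : p ≤ n)
    (h : ∀ H : Subgroup ↥(alternatingGroup (Fin n)), H ≠ ⊤ → p ∣ Nat.card ↥H → Cfsg.IsPClosed p ↥H) : n = p := by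
  by_contra hne
  have hlt : p < n := lt_of_le_of_ne hpn (Ne.symm hne)
  have hp3 : 3 ≤ p := lt_of_le_of_ne (Fact.out : p.Prime).two_le (Ne.symm hp)
  obtain ⟨m, rfl⟩ : ∃ m, n = m + 1 := ⟨n - 1, by omega⟩
  haveI : Nontrivial (Fin (m + 1)) := Fin.nontrivial_iff_two_le.2 (by omega)
  haveI : Nontrivial (Fin m) := Fin.nontrivial_iff_two_le.2 (by omega)
  set A := ↥(alternatingGroup (Fin m)) with hA
  -- A_m as a proper subgroup of A_{m+1}
  let e : Fin m ↪ Fin (m + 1) := ⟨Fin.castSucc, Fin.castSucc_injective m⟩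
  let f : A →* ↥(alternatingGroup (Fin (m + 1))) :=
    ((Equiv.Perm.viaEmbeddingHom e).comp (alternatingGroup (Fin m)).subtype).codRestrict _ (fun σ => by
      rw [Equiv.Perm.mem_alternatingGroup]
      show Equiv.Perm.sign (Equiv.Perm.viaEmbedding (σ : Equiv.Perm (Fin m)) e) = 1
      rw [Equiv.Perm.viaEmbedding]
      simp [Equiv.Perm.sign_extendDomain, Equiv.Perm.mem_alternatingGroup.1 σ.2])
  have hf : Function.Injective f := fun a b hab => Subtype.ext
    (Equiv.Perm.viaEmbeddingHom_injective e (congrArg Subtype.val hab))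
  have hcardm : 2 * Nat.card A = m.factorial := by
    rw [hA, two_mul_nat_card_alternatingGroup]; simp [Fintype.card_perm]
  have hpA : p ∣ Nat.card A := by
    have h1 : p ∣ 2 * Nat.card A := by rw [hcardm]; exact Nat.dvd_factorial (by omega) (by omega)
    exact ((Nat.coprime_primes (Fact.out : p.Prime) Nat.prime_two).2 hp).dvd_of_dvd_mul_left h1
  have hne_top : f.range ≠ ⊤ := by
    intro htop
    have h1 : Nat.card A = Nat.card ↥(alternatingGroup (Fin (m + 1))) := by
      rw [Nat.card_congr (MonoidHom.ofInjective hf).toEquiv, htop, Subgroup.card_top]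
    have h2 : 2 * Nat.card ↥(alternatingGroup (Fin (m + 1))) = (m + 1).factorial := by
      rw [two_mul_nat_card_alternatingGroup]; simp [Fintype.card_perm]
    rw [← h1, hcardm, Nat.factorial_succ] at h2
    have := Nat.factorial_pos m
    nlinarith
  have hclosed := h f.range hne_top (by rwa [← Nat.card_congr (MonoidHom.ofInjective hf).toEquiv])
  obtain ⟨P⟩ : Nonempty (Sylow p A) := inferInstance
  let e' : A ≃* ↥f.range := MonoidHom.ofInjective hf
  have hPn : (P : Subgroup A).Normal := by
    have h1 := hclosed (P.mapSurjective (f := e'.toMonoidHom) e'.surjective)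
    change ((P : Subgroup A).map e'.toMonoidHom).Normal at h1
    have := h1.comap e'.toMonoidHom
    rwa [Subgroup.comap_map_eq_self_of_injective (f := e'.toMonoidHom) e'.injective] at this
  rcases Nat.lt_or_ge m 5 with hm | hm
  · obtain rfl : m = 4 := by omega
    obtain rfl : p = 3 := by
      have h4 : p ≠ 4 := fun h => by
        have := (Fact.out : p.Prime); rw [h] at this; norm_num at this
      omega
    let c₁ : A := ⟨Equiv.swap (0 : Fin 4) 1 * Equiv.swap 1 2, by rw [Equiv.Perm.mem_alternatingGroup]; decide⟩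
    let c₂ : A := ⟨Equiv.swap (0 : Fin 4) 1 * Equiv.swap 1 3, by rw [Equiv.Perm.mem_alternatingGroup]; decide⟩
    have hmem : ∀ c : A, orderOf c = 3 → c ∈ (P : Subgroup A) := fun c hc => by
      have hp' : IsPGroup 3 ↥(Subgroup.zpowers c) := IsPGroup.of_card (n := 1) (by rw [Nat.card_zpowers, hc, pow_one])
      obtain ⟨Q, hQ⟩ := hp'.exists_le_sylow
      haveI := (Sylow.unique_of_normal P hPn).instSubsingleton
      exact (Subsingleton.elim Q P) ▸ hQ (Subgroup.mem_zpowers c)
    have h1 : orderOf c₁ = 3 := orderOf_eq_prime (by decide) (by decide)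
    have h2 : orderOf c₂ = 3 := orderOf_eq_prime (by decide) (by decide)
    have hc12 : Nat.card A = 12 := by
      rw [Nat.factorial] at hcardm; norm_num [Nat.factorial] at hcardm ⊢; omega
    have hP3 : Nat.card ↥(P : Subgroup A) = 3 := by
      obtain ⟨k, hk⟩ := IsPGroup.iff_card.1 P.isPGroup'
      have hd := Subgroup.card_subgroup_dvd_card (P : Subgroup A)
      have h3 := Subgroup.orderOf_dvd_natCard _ (hmem c₁ h1)
      rw [h1] at h3
      rw [hc12, hk] at hd
      rw [hk] at h3 ⊢
      rcases k with _ | _ | k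
      · norm_num at h3
      · norm_num
      · exfalso
        have : 9 ∣ 12 := (Nat.pow_dvd_pow 3 (by omega : 2 ≤ k + 2)).trans hd
        norm_num at this
    have hz : Subgroup.zpowers c₁ = (P : Subgroup A) :=
      Subgroup.eq_of_le_of_card_ge (Subgroup.zpowers_le.2 (hmem c₁ h1)) (by rw [Nat.card_zpowers, h1, hP3])
    obtain ⟨k, hk⟩ := (mem_powers_iff_mem_zpowers.2 (hz ▸ hmem c₂ h2 : c₂ ∈ Subgroup.zpowers c₁))
    have hk' : c₁ ^ (k % 3) = c₂ := by rw [← h1, pow_mod_orderOf]; exact hk
    have hk3 : k % 3 < 3 := Nat.mod_lt _ (by norm_num)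
    interval_cases (k % 3) <;> revert hk' <;> decide
  · haveI : IsSimpleGroup A := alternatingGroup.isSimpleGroup (by simpa using hm)
    rcases hPn.eq_bot_or_eq_top with h0 | h1
    · exact P.ne_bot_of_dvd_card hpA h0
    · have hp' : IsPGroup p A := by
        have := P.isPGroup'
        rw [h1] at this
        exact this.of_equiv Subgroup.topEquiv
      obtain ⟨k, hk⟩ := IsPGroup.iff_card.1 hp'
      have h2 : 2 ∣ Nat.card A := by
        have h4 : 4 ∣ 2 * Nat.card A := by
          rw [hcardm]; exact (by norm_num [Nat.factorial] : 4 ∣ Nat.factorial 4).trans (Nat.factorial_dvd_factorial (by omega))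
        omega
      rw [hk] at h2
      exact hp ((Nat.prime_dvd_prime_iff_eq Nat.prime_two (Fact.out : p.Prime)).1 (Nat.prime_two.dvd_of_dvd_pow h2)).symm

end Cfsg.Agent.S3941
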