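import Cfsg.Statements.S3946
import Cfsg.Agent.Lib.Transfer.Hughes

set_option autoImplicit false
open Cfsg Cfsg.Lib

namespace Cfsg.Agent.S3946

/-- Call an automorphism α of order n of a group G splitting when x · α(x) · α²(x) ⋯ α^(n−1)(x) = 1 for every x ∈ G. A finite group admitting a splitting automorphism of prime order is nilpotent (this contains the case of a fixed-point-free automorphism of prime order). -/
theorem result {G : Type*} [Group G] [Finite G] (α : MulAut G) (hp : (orderOf α).Prime)
    (hsplit : ∀ x : G, (((List.range (orderOf α)).map (fun i : ℕ => (α ^ i) x)).prod = 1)) : Group.IsNilpotent G := by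
  set p := orderOf α with hpdef
  haveI : Finite (MulAut G) := Finite.of_injective (fun β : MulAut G => (β : G → G)) DFunLike.coe_injective
  let φ : Subgroup.zpowers α →* MulAut G := (Subgroup.zpowers α).subtype
  haveI : Finite (SemidirectProduct G (Subgroup.zpowers α) φ) :=
    Finite.of_injective (fun x => (x.left, x.right)) fun x y h => SemidirectProduct.ext (congrArg Prod.fst h) (congrArg Prod.snd h)
  set H : Subgroup (SemidirectProduct G (Subgroup.zpowers α) φ) := SemidirectProduct.rightHom.ker
  let a : Subgroup.zpowers α := ⟨α, Subgroup.mem_zpowers α⟩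
  have hap : a ^ p = 1 := Subtype.ext (by rw [SubgroupClass.coe_pow]; exact pow_orderOf_eq_one α)
  -- powers
  have hpow : ∀ (x : G) (n : ℕ), (SemidirectProduct.mk x a : SemidirectProduct G (Subgroup.zpowers α) φ) ^ n =
      ⟨((List.range n).map fun i => (α ^ i) x).prod, a ^ n⟩ := by
    intro x n
    induction n with
    | zero => rfl
    | succ n ih =>
      rw [pow_succ, ih]
      refine SemidirectProduct.ext ?_ ?_
      · rw [SemidirectProduct.mul_left, List.range_succ, List.map_append, List.prod_append, List.map_singleton, List.prod_singleton]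
        show _ * (φ (a ^ n)) x = _
        rw [map_pow]; rfl
      · rw [SemidirectProduct.mul_right, pow_succ]
  have hone : ∀ x : G, (SemidirectProduct.mk x a : SemidirectProduct G (Subgroup.zpowers α) φ) ^ p = 1 := fun x => by
    rw [hpow, hsplit x, hap]; rfl
  have hout : ∀ g ∉ H, g ^ p = 1 := by
    intro g hg
    obtain ⟨i, hi⟩ := Subgroup.mem_zpowers_iff.1 g.right.2
    have hnd : ¬ (p : ℤ) ∣ i := by
      rintro ⟨j, rfl⟩
      refine hg (Subtype.ext ?_)
      show (g.right : MulAut G) = 1
      rw [← hi, zpow_mul, zpow_natCast, pow_orderOf_eq_one, one_zpow]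
    obtain ⟨u, v, huv⟩ := ((Nat.prime_iff_prime_int.1 hp).coprime_iff_not_dvd.2 hnd).symm
    have key : ∀ m : ℤ, (p : ℤ) ∣ i * m - 1 → (g ^ p) ^ m = 1 := by
      rintro m ⟨c, hc⟩
      have hr : (g ^ m).right = a := by
        show SemidirectProduct.rightHom (g ^ m) = a
        rw [map_zpow]
        refine Subtype.ext ?_
        rw [SubgroupClass.coe_zpow, show ((SemidirectProduct.rightHom g : Subgroup.zpowers α) : MulAut G) = α ^ i from hi.symm,
          ← zpow_mul, show i * m = (p : ℤ) * c + 1 by linarith, zpow_add, zpow_mul, zpow_natCast, pow_orderOf_eq_one, one_zpow, one_mul, zpow_one]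
      have h := hone (g ^ m).left
      rw [show (SemidirectProduct.mk (g ^ m).left a : SemidirectProduct G (Subgroup.zpowers α) φ) = g ^ m from SemidirectProduct.ext rfl hr.symm] at h
      rw [← zpow_natCast, ← zpow_mul, mul_comm, zpow_mul, zpow_natCast]
      exact h
    have h1 := key u ⟨-v, by linarith⟩
    have h2 := key (u + p) ⟨i - v, by linarith⟩
    rw [zpow_add, h1, one_mul, zpow_natCast] at h2
    have h3 : (g ^ p) ^ (i * u + v * p) = g ^ p := by rw [show i * u + v * (p:ℤ) = 1 by linarith, zpow_one]
    rw [zpow_add, mul_comm i u, zpow_mul, h1, one_zpow, one_mul, mul_comm v, zpow_mul, zpow_natCast, h2, one_zpow] at h3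
    exact h3.symm
  haveI := Transfer.hughes_aux hp _ _ le_rfl H inferInstance (fun e => by
    have h1 : a = 1 := (e.ge (Subgroup.mem_top (SemidirectProduct.inr a)) : _)
    have h2 : α = 1 := congrArg Subtype.val h1
    rw [hpdef, h2, orderOf_one] at hp
    exact Nat.not_prime_one hp) hout
  let e : H →* G :=
    { toFun := fun x => (x : SemidirectProduct G (Subgroup.zpowers α) φ).left
      map_one' := rfl
      map_mul' := fun x y => by
        have hx : (x : SemidirectProduct G (Subgroup.zpowers α) φ).right = 1 := x.2
        rw [Subgroup.coe_mul, SemidirectProduct.mul_left, hx, map_one]; rfl }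
  exact Group.nilpotent_of_surjective e fun x => ⟨⟨SemidirectProduct.inl x, SemidirectProduct.rightHom_inl x⟩, rfl⟩

end Cfsg.Agent.S3946
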