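import Cfsg.Statements.S3949
import Mathlib
import Mathlib
-- import your own Cfsg.Agent.* helpers here

set_option autoImplicit false
open Cfsg

namespace Cfsg.Agent.S3949

/-- Let G be a finite group and α an automorphism of G of order 2 such that the elements g·α(g)⁻¹ generate G. Let j be a positive integer such that 2^j divides the order of no element inverted by α. Then the set of values of the j-th iterate of the map c ↦ c·α(c)⁻¹ is exactly the set of elements of odd order inverted by α. -/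
theorem result {G : Type*} [Group G] [Finite G] (α : MulAut G) (hα : orderOf α = 2) (hG : Subgroup.closure (Set.range (fun c : G => c * (α c)⁻¹)) = ⊤)
    (j : ℕ) (hj : ∀ g : G, α g = g⁻¹ → ¬ 2 ^ j ∣ orderOf g) :
    Set.range ((fun c : G => c * (α c)⁻¹)^[j]) = {g : G | Odd (orderOf g) ∧ α g = g⁻¹} := by
  set f : G → G := fun c => c * (α c)⁻¹ with hf
  have hα2 : ∀ c, α (α c) = c := fun c => by
    have h : α ^ 2 = 1 := by rw [← hα]; exact pow_orderOf_eq_one α
    exact DFunLike.congr_fun h c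
  have hinv : ∀ c, α (f c) = (f c)⁻¹ := fun c => by
    simp only [hf, map_mul, map_inv, hα2, mul_inv_rev, inv_inv]
  have hsq : ∀ g, α g = g⁻¹ → f g = g ^ 2 := fun g hg => by
    simp only [hf, hg, inv_inv, pow_two]
  have hpow : ∀ g, α g = g⁻¹ → ∀ n : ℕ, α (g ^ n) = (g ^ n)⁻¹ := fun g hg n => by
    rw [map_pow, hg, inv_pow]
  have hit : ∀ g, α g = g⁻¹ → ∀ i : ℕ, f^[i] g = g ^ 2 ^ i := by
    intro g hg i
    induction i with
    | zero => simp
    | succ i ih => rw [Function.iterate_succ_apply', ih, hsq _ (hpow g hg _), ← pow_mul, ← pow_succ]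
  obtain ⟨i, rfl⟩ : ∃ i, j = i + 1 := by
    rcases j with _ | i
    · exact absurd (by simp : 2 ^ 0 ∣ orderOf (1 : G)) (hj 1 (by simp))
    · exact ⟨i, rfl⟩
  ext g
  constructor
  · rintro ⟨c, rfl⟩
    rw [Function.iterate_succ_apply, hit _ (hinv c)]
    refine ⟨?_, hpow _ (hinv c) _⟩
    have hnd := hj _ (hinv c)
    by_contra hev
    rw [Nat.not_odd_iff_even, even_iff_two_dvd] at hev
    rw [orderOf_pow] at hev
    refine hnd ?_
    have hd : Nat.gcd (orderOf (f c)) (2 ^ i) ∣ orderOf (f c) := Nat.gcd_dvd_left _ _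
    obtain ⟨m, -, hm⟩ := (Nat.dvd_prime_pow Nat.prime_two).1 (Nat.gcd_dvd_right (orderOf (f c)) (2 ^ i))
    have h1 : 2 ^ (m + 1) ∣ orderOf (f c) := by
      rw [pow_succ, ← hm]
      exact Nat.mul_dvd_of_dvd_div hd hev
    rcases Nat.lt_or_ge m i with hlt | hge
    · exfalso
      have h2 : 2 ^ (m + 1) ∣ Nat.gcd (orderOf (f c)) (2 ^ i) :=
        Nat.dvd_gcd h1 (pow_dvd_pow 2 hlt)
      rw [hm] at h2
      have := (Nat.pow_dvd_pow_iff_le_right one_lt_two).1 h2
      omega
    · exact (pow_dvd_pow 2 (by omega)).trans h1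
  · rintro ⟨hodd, hg⟩
    have hcop : (2 ^ (i + 1)).Coprime (orderOf g) := hodd.coprime_two_left.pow_left _
    obtain ⟨m, hm⟩ := exists_pow_eq_self_of_coprime hcop
    refine ⟨g ^ m, ?_⟩
    rw [hit _ (hpow g hg m), ← pow_mul, mul_comm, pow_mul]
    exact hm

end Cfsg.Agent.S3949
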