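import Cfsg.Statements.S3982
import Mathlib
import Mathlib
import Cfsg.Agent.Lib.Solv.Coprime
import Cfsg.Agent.Lib.Solv.Coprime2
-- import your own Cfsg.Agent.* helpers here

set_option autoImplicit false
open Cfsg
open scoped Pointwise

namespace Cfsg.Agent.S3982

/-- Let p be an odd prime and G a finite group of even order divisible by p in which the centralizer of every non-identity p-element has odd order. If some nontrivial p-subgroup of G has a normalizer of even order, then the normalizer of every Sylow p-subgroup of G has even order. -/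
theorem result {G : Type*} [Group G] [Finite G] (p : ℕ) [Fact p.Prime] (hp2 : p ≠ 2) (hpG : p ∣ Nat.card G) (h2G : 2 ∣ Nat.card G) (hC : ∀ g : G, g ≠ 1 → (∃ k : ℕ, orderOf g = p ^ k) → Odd (Nat.card ↥(Subgroup.centralizer ({g} : Set G)))) (Q : Subgroup G) (hQ : IsPGroup p ↥Q) (hQ1 : Q ≠ ⊥) (hev : Even (Nat.card ↥(Subgroup.normalizer (Q : Set G)))) (P : Sylow p G) : Even (Nat.card ↥(Subgroup.normalizer ((P : Subgroup G) : Set G))) := by
  classical
  have hpp : p.Prime := Fact.out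
  have hodd : Odd p := hpp.odd_of_ne_two hp2
  -- an involution normalizing Q
  haveI : Fact (Nat.Prime 2) := ⟨Nat.prime_two⟩
  obtain ⟨t₀, ht₀⟩ := exists_prime_orderOf_dvd_card' (G := ↥(Subgroup.normalizer (Q : Set G))) 2
    (even_iff_two_dvd.1 hev)
  set t : G := (t₀ : G) with htdef
  have htQ : t ∈ Subgroup.normalizer (Q : Set G) := t₀.2
  have ht : orderOf t = 2 := by rw [htdef, Subgroup.orderOf_coe, ht₀]
  have ht2 : t * t = 1 := by rw [← pow_two, ← ht]; exact pow_orderOf_eq_one t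
  have htinv : t⁻¹ = t := inv_eq_of_mul_eq_one_right ht2
  obtain ⟨R, ⟨hR, hQR, htR⟩, hmax⟩ := (Set.toFinite {R : Subgroup G | IsPGroup p ↥R ∧ Q ≤ R ∧
    t ∈ Subgroup.normalizer (R : Set G)}).exists_maximal ⟨Q, hQ, le_rfl, htQ⟩
  -- t inverts R
  have hfix : ∀ x ∈ R, t * x * t⁻¹ = x → x = 1 := by
    intro x hx hxt
    by_contra hx1
    have hord : ∃ k : ℕ, orderOf x = p ^ k := by
      obtain ⟨k, hk⟩ := IsPGroup.iff_orderOf.1 hR ⟨x, hx⟩
      exact ⟨k, by rw [← hk, Subgroup.orderOf_mk]⟩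
    have hmem : t ∈ Subgroup.centralizer ({x} : Set G) := by
      rw [Subgroup.mem_centralizer_singleton_iff]
      calc t * x = (t * x * t⁻¹) * t := by group
        _ = x * t := by rw [hxt]
    have h2 := Subgroup.orderOf_dvd_natCard _ hmem
    rw [ht] at h2
    exact Nat.not_even_iff_odd.2 (hC x hx1 hord) (even_iff_two_dvd.2 h2)
  have hconj : ∀ x ∈ R, t * x * t⁻¹ ∈ R := fun x hx => (Subgroup.mem_normalizer_iff.1 htR x).1 hx
  let φ : ↥R →* ↥R :=
    { toFun := fun x => ⟨t * x * t⁻¹, hconj x x.2⟩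
      map_one' := Subtype.ext (by simp)
      map_mul' := fun x y => Subtype.ext (by simp only [Subgroup.coe_mul]; group) }
  have hφfix : MonoidHom.FixedPointFree φ := fun x hx =>
    Subtype.ext (hfix x x.2 (congrArg Subtype.val hx))
  have hφinv : Function.Involutive φ := fun x => Subtype.ext (by
    show t * (t * x * t⁻¹) * t⁻¹ = x
    rw [htinv]
    calc t * (t * (x:G) * t) * t = (t * t) * x * (t * t) := by group
      _ = x := by rw [ht2]; group)
  have hinv : ∀ x ∈ R, t * x * t⁻¹ = x⁻¹ := by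
    intro x hx
    have h := congrFun (hφfix.coe_eq_inv_of_involutive hφinv) ⟨x, hx⟩
    exact congrArg Subtype.val h
  -- commutators with t centralize R
  have hcomm : ∀ c ∈ Subgroup.normalizer (R : Set G),
      c * t * c⁻¹ * t⁻¹ ∈ Subgroup.centralizer (R : Set G) := by
    intro c hc
    rw [Subgroup.mem_centralizer_iff]
    intro r hr
    have h1 : c⁻¹ * r * c ∈ R := by
      have := (Subgroup.mem_normalizer_iff.1 hc (c⁻¹ * r * c)).2
      refine this ?_
      have : c * (c⁻¹ * r * c) * c⁻¹ = r := by group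
      rwa [this]
    have h2 := hinv (c⁻¹ * r * c) h1
    have h3 := hinv r hr
    have h4 : t⁻¹ * r * t = r⁻¹ := by rw [htinv] at h3 ⊢; exact h3
    calc r * (c * t * c⁻¹ * t⁻¹)
        = c * t * c⁻¹ * t⁻¹ * ((c * t * c⁻¹ * t⁻¹)⁻¹ * r * (c * t * c⁻¹ * t⁻¹)) := by group
      _ = c * t * c⁻¹ * t⁻¹ * r := by
          congr 1
          have e1 : (c * t * c⁻¹ * t⁻¹)⁻¹ * r * (c * t * c⁻¹ * t⁻¹)
              = t * (c * (t⁻¹ * (c⁻¹ * r * c) * t) * c⁻¹) * t⁻¹ := by group
          rw [e1, htinv]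
          rw [htinv] at h2
          rw [h2]
          have e2 : c * (c⁻¹ * r * c)⁻¹ * c⁻¹ = r⁻¹ := by group
          rw [e2]
          rw [htinv] at h3
          have e3 : t * r⁻¹ * t = (t * r * t)⁻¹ := by
            rw [mul_inv_rev, mul_inv_rev, htinv, mul_assoc]
          rw [e3, h3, inv_inv]
  -- R is nontrivial, so its centralizer has odd order
  have hR1 : R ≠ ⊥ := fun h => hQ1 (le_bot_iff.1 (h ▸ hQR))
  obtain ⟨r₀, hr₀, hr₀1⟩ : ∃ r ∈ R, r ≠ 1 := by
    by_contra hcon
    push Not at hcon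
    exact hR1 ((Subgroup.eq_bot_iff_forall R).2 hcon)
  have hCodd : Odd (Nat.card ↥(Subgroup.centralizer (R : Set G))) := by
    have hord : ∃ k : ℕ, orderOf r₀ = p ^ k := by
      obtain ⟨k, hk⟩ := IsPGroup.iff_orderOf.1 hR ⟨r₀, hr₀⟩
      exact ⟨k, by rw [← hk, Subgroup.orderOf_mk]⟩
    exact (hC r₀ hr₀1 hord).of_dvd_nat
      (Subgroup.card_dvd_of_le (Subgroup.centralizer_le (by simpa using hr₀)))
  -- a Sylow p-subgroup of the normalizer
  set N := Subgroup.normalizer (R : Set G) with hN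
  have hRN : R ≤ N := Subgroup.le_normalizer
  obtain ⟨T₀, hT₀⟩ := (hR.comap_subtype : IsPGroup p ↥(R.subgroupOf N)).exists_le_sylow
  set T := (T₀ : Subgroup N).map N.subtype with hTdef
  have hRT : R ≤ T := fun x hx => ⟨⟨x, hRN hx⟩, hT₀ hx, rfl⟩
  have hTN : T ≤ N := Subgroup.map_subtype_le _
  set C := Subgroup.centralizer (R : Set G) with hCdef
  have hCN : C ≤ N := Subgroup.centralizer_le_normalizer _
  have hNC : N ≤ Subgroup.normalizer (C : Set G) := Cfsg.Lib.Solv.normalizer_le_normalizer_centralizer _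
  set L := C ⊔ T with hLdef
  have hLN : L ≤ N := sup_le hCN hTN
  have hTC : T ≤ Subgroup.normalizer (C : Set G) := hTN.trans hNC
  have htL : t ∈ Subgroup.normalizer (L : Set G) := by
    rw [← Cfsg.Lib.Solv.conj_smul_eq_self_iff]
    refine Subgroup.eq_of_le_of_card_ge ?_ (Cfsg.Lib.Solv.card_conj_smul _ _).ge
    rw [hLdef, Subgroup.smul_sup]
    refine sup_le ?_ ?_
    · rw [Cfsg.Lib.Solv.conj_smul_eq_self_iff.2 (hNC htR)]
      exact le_sup_left
    · rintro _ ⟨x, hx, rfl⟩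
      have h1 := hcomm x (hTN hx)
      show t * x * t⁻¹ ∈ C ⊔ T
      have : t * x * t⁻¹ = (x * t * x⁻¹ * t⁻¹)⁻¹ * x := by group
      rw [this]
      exact mul_mem (Subgroup.mem_sup_left (inv_mem h1)) (Subgroup.mem_sup_right hx)
  have hTp : IsPGroup p ↥T := T₀.isPGroup'.map _
  have hLodd : Odd (Nat.card ↥L) := by
    obtain ⟨k, hk⟩ := IsPGroup.iff_card.1 hTp
    have hTodd : Odd (Nat.card ↥T) := by rw [hk]; exact hodd.pow
    refine (hCodd.mul hTodd).of_dvd_nat ?_
    set NC := Subgroup.normalizer (C : Set G)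
    haveI : (C.subgroupOf NC).Normal := Subgroup.normal_in_normalizer
    have h := Cfsg.Lib.Solv.card_sup_dvd_mul (T.subgroupOf NC) (C.subgroupOf NC)
    rw [← Subgroup.subgroupOf_sup hTC Subgroup.le_normalizer,
      Cfsg.Lib.Solv.card_subgroupOf (sup_le hTC Subgroup.le_normalizer),
      Cfsg.Lib.Solv.card_subgroupOf hTC, Cfsg.Lib.Solv.card_subgroupOf Subgroup.le_normalizer, sup_comm] at h
    rw [hLdef]
    rwa [mul_comm] at h
  set A := Subgroup.zpowers t with hA
  have hAc : Nat.card ↥A = 2 := by rw [hA, Nat.card_zpowers, ht]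
  have hAL : A ≤ Subgroup.normalizer (L : Set G) := by rw [hA, Subgroup.zpowers_le]; exact htL
  obtain ⟨T', hT'⟩ := Cfsg.Lib.Solv.exists_invariant_sylow A L hAL
    (by rw [hAc]; exact hLodd.coprime_two_left) (Or.inl inferInstance) p
  set T'' := (T' : Subgroup L).map L.subtype with hT''
  have hRL : R ≤ L := hRT.trans le_sup_right
  have hRT'' : R ≤ T'' := by
    haveI : (R.subgroupOf L).Normal := (Subgroup.normal_subgroupOf_iff_le_normalizer hRL).2 hLN
    intro x hx
    exact ⟨⟨x, hRL hx⟩, IsPGroup.le_sylow_of_normal (N := R.subgroupOf L) hR.comap_subtype T' hx, rfl⟩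
  have hT''R : T'' ≤ R := hmax ⟨T'.isPGroup'.map _, hQR.trans hRT'', hT' (Subgroup.mem_zpowers t)⟩ hRT''
  have hTR : T = R := by
    refine le_antisymm ?_ hRT
    obtain ⟨T2, hT2⟩ := (hTp.comap_subtype : IsPGroup p ↥(T.subgroupOf L)).exists_le_sylow
    have h1 : Nat.card ↥T ≤ Nat.card ↥R := by
      calc Nat.card ↥T = Nat.card ↥(T.subgroupOf L) := (Cfsg.Lib.Solv.card_subgroupOf le_sup_right).symm
        _ ≤ Nat.card ↥(T2 : Subgroup L) := Nat.le_of_dvd Nat.card_pos (Subgroup.card_dvd_of_le hT2)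
        _ = Nat.card ↥(T' : Subgroup L) := by rw [T2.card_eq_multiplicity, T'.card_eq_multiplicity]
        _ = Nat.card ↥T'' := (Subgroup.card_map_of_injective L.subtype_injective).symm
        _ ≤ Nat.card ↥R := Nat.le_of_dvd Nat.card_pos (Subgroup.card_dvd_of_le hT''R)
    exact (Subgroup.eq_of_le_of_card_ge hRT h1).ge
  -- R is a Sylow subgroup of G
  obtain ⟨P', hP'⟩ := hR.exists_le_sylow
  have hP'R : (P' : Subgroup G) = R := by
    by_contra hne
    have hlt : R < P' := lt_of_le_of_ne hP' (Ne.symm hne)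
    haveI : Group.IsNilpotent ↥(P' : Subgroup G) := P'.isPGroup'.isNilpotent
    have h1 : R.subgroupOf P' < ⊤ := lt_top_iff_ne_top.2 fun h => hlt.not_ge (Subgroup.subgroupOf_eq_top.1 h)
    obtain ⟨⟨x, hxP⟩, hxN, hxR⟩ := SetLike.exists_of_lt (Group.normalizerCondition_of_isNilpotent _ h1)
    have hxN' : x ∈ N := by
      rw [hN, ← Cfsg.Lib.Solv.conj_smul_eq_self_iff]
      refine Subgroup.eq_of_le_of_card_ge ?_ (Cfsg.Lib.Solv.card_conj_smul _ _).ge
      rintro _ ⟨v, hv, rfl⟩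
      exact (Subgroup.mem_normalizer_iff.1 hxN ⟨v, hP' hv⟩).1 hv
    set U := (P' : Subgroup G) ⊓ N with hU
    have hUT : Nat.card ↥U ≤ Nat.card ↥T := by
      obtain ⟨T3, hT3⟩ := ((P'.isPGroup'.to_le (inf_le_left : U ≤ P')).comap_subtype :
        IsPGroup p ↥(U.subgroupOf N)).exists_le_sylow
      calc Nat.card ↥U = Nat.card ↥(U.subgroupOf N) := (Cfsg.Lib.Solv.card_subgroupOf inf_le_right).symm
        _ ≤ Nat.card ↥(T3 : Subgroup N) := Nat.le_of_dvd Nat.card_pos (Subgroup.card_dvd_of_le hT3)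
        _ = Nat.card ↥(T₀ : Subgroup N) := by rw [T3.card_eq_multiplicity, T₀.card_eq_multiplicity]
        _ = Nat.card ↥T := (Subgroup.card_map_of_injective N.subtype_injective).symm
    rw [hTR] at hUT
    have hRU : R = U := Subgroup.eq_of_le_of_card_ge (le_inf hP' hRN) hUT
    exact hxR (show x ∈ R from hRU ▸ ⟨hxP, hxN'⟩)
  -- conjugate to P
  obtain ⟨g, hg⟩ := MulAction.exists_smul_eq G P' P
  have hPg : ((P : Subgroup G)) = MulAut.conj g • R := by
    rw [← hg, Sylow.coe_subgroup_smul, hP'R]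
  have htg : g * t * g⁻¹ ∈ Subgroup.normalizer ((P : Subgroup G) : Set G) := by
    rw [← Cfsg.Lib.Solv.conj_smul_eq_self_iff, hPg, map_mul, map_mul, mul_smul, mul_smul, ← mul_smul (MulAut.conj g⁻¹), ← map_mul, inv_mul_cancel, map_one, one_smul, Cfsg.Lib.Solv.conj_smul_eq_self_iff.2 htR]
  have h2 := Subgroup.orderOf_dvd_natCard _ htg
  have h3 : orderOf (g * t * g⁻¹) = 2 :=
    (orderOf_injective (MulAut.conj g).toMonoidHom (MulAut.conj g).injective t).trans ht
  rw [h3] at h2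
  exact even_iff_two_dvd.2 h2

end Cfsg.Agent.S3982
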