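import Cfsg.Statements.S3983
import Mathlib
import Cfsg.Agent.Lib.Solv.SchurZassenhaus
-- import your own Cfsg.Agent.* helpers here

set_option autoImplicit false
open scoped Pointwise
open Cfsg
open scoped Pointwise

namespace Cfsg.Agent.S3983

/-- Let P be a Sylow p-subgroup of the finite group G that meets each conjugate g P g⁻¹ with g outside N_G(P) trivially, and let U be a subgroup of G of order divisible by p. Then a Sylow p-subgroup Q of U has the same property inside U: Q meets each conjugate u Q u⁻¹ with u ∈ U outside N_U(Q) trivially. -/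
theorem result {G : Type*} [Group G] [Finite G] (p : ℕ) [Fact p.Prime] (P : Sylow p G) (hTI : ∀ g : G, g ∉ Subgroup.normalizer ((P : Subgroup G) : Set G) → (P : Subgroup G) ⊓ (MulAut.conj g • (P : Subgroup G)) = ⊥) (U : Subgroup G) (hU : p ∣ Nat.card ↥U) (Q : Sylow p ↥U) : ∀ u : ↥U, u ∉ Subgroup.normalizer ((Q : Subgroup ↥U) : Set ↥U) → (Q : Subgroup ↥U) ⊓ (MulAut.conj u • (Q : Subgroup ↥U)) = ⊥ := by
  intro u hu
  by_contra hne
  refine hu ?_
  obtain ⟨P₀, hP₀⟩ := (Q.2.map U.subtype).exists_le_sylow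
  obtain ⟨c, hc⟩ := MulAction.exists_smul_eq G P P₀
  have hP₀' : (P₀ : Subgroup G) = MulAut.conj c • (P : Subgroup G) := by
    rw [← hc]; rfl
  have hQ : (Q : Subgroup U) = (P₀ : Subgroup G).subgroupOf U :=
    (Q.3 (P₀.2.comap_of_injective U.subtype U.subtype_injective) (Subgroup.map_le_iff_le_comap.1 hP₀)).symm
  obtain ⟨z, hz, hz1⟩ := (Subgroup.bot_or_exists_ne_one _).resolve_left hne
  rw [Subgroup.mem_inf, Cfsg.Lib.Solv.mem_conj_smul, hQ] at hz
  obtain ⟨h1, h2⟩ := hz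
  rw [Subgroup.mem_subgroupOf, hP₀', Cfsg.Lib.Solv.mem_conj_smul] at h1 h2
  push_cast at h2
  set g := c⁻¹ * (u : G) * c with hg
  have hgN : g ∈ Subgroup.normalizer ((P : Subgroup G) : Set G) := by
    by_contra hgN
    have h3 := hTI g hgN
    have h4 : c⁻¹ * (z : G) * c ∈ (P : Subgroup G) ⊓ MulAut.conj g • (P : Subgroup G) := by
      refine ⟨h1, Cfsg.Lib.Solv.mem_conj_smul.2 ?_⟩
      have e : g⁻¹ * (c⁻¹ * (z : G) * c) * g = c⁻¹ * ((u : G)⁻¹ * z * u) * c := by rw [hg]; group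
      rw [e]; exact h2
    rw [h3, Subgroup.mem_bot] at h4
    refine hz1 (Subtype.ext ?_)
    calc (z : G) = c * (c⁻¹ * (z : G) * c) * c⁻¹ := by group
      _ = 1 := by rw [h4]; group
  refine Subgroup.mem_normalizer_iff.2 fun y => ?_
  rw [hQ, Subgroup.mem_subgroupOf, Subgroup.mem_subgroupOf, hP₀', Cfsg.Lib.Solv.mem_conj_smul,
    Cfsg.Lib.Solv.mem_conj_smul]
  push_cast
  have e : c⁻¹ * ((u : G) * y * (u : G)⁻¹) * c = g * (c⁻¹ * y * c) * g⁻¹ := by rw [hg]; group
  rw [e]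
  exact Subgroup.mem_normalizer_iff.1 hgN _

end Cfsg.Agent.S3983
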