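import Cfsg.Statements.S3984
import Mathlib
import Cfsg.Agent.Lib.Solv.SchurZassenhaus
-- import your own Cfsg.Agent.* helpers here

set_option autoImplicit false
open scoped Pointwise
open Cfsg
open scoped Pointwise

namespace Cfsg.Agent.S3984

/-- Let P be a Sylow p-subgroup of the finite group G that meets each conjugate g P g⁻¹ with g outside N_G(P) trivially, and let N be a normal subgroup of G of order prime to p. Then every Sylow p-subgroup Q of G ⧸ N meets each conjugate x Q x⁻¹ with x outside its normalizer trivially. -/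
theorem result {G : Type*} [Group G] [Finite G] (p : ℕ) [Fact p.Prime] (P : Sylow p G) (hTI : ∀ g : G, g ∉ Subgroup.normalizer ((P : Subgroup G) : Set G) → (P : Subgroup G) ⊓ (MulAut.conj g • (P : Subgroup G)) = ⊥) (N : Subgroup G) [N.Normal] (hN : (Nat.card ↥N).Coprime p) (Q : Sylow p (G ⧸ N)) : ∀ x : G ⧸ N, x ∉ Subgroup.normalizer ((Q : Subgroup (G ⧸ N)) : Set (G ⧸ N)) → (Q : Subgroup (G ⧸ N)) ⊓ (MulAut.conj x • (Q : Subgroup (G ⧸ N))) = ⊥ := by
  intro x hx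
  by_contra hne
  refine hx ?_
  set π := QuotientGroup.mk' N with hπ
  have hsur : Function.Surjective π := QuotientGroup.mk'_surjective N
  obtain ⟨c', hc⟩ := MulAction.exists_smul_eq (G ⧸ N) (P.mapSurjective hsur) Q
  obtain ⟨c, rfl⟩ := hsur c'
  set P₁ := MulAut.conj c • (P : Subgroup G) with hP₁
  have hQ : (Q : Subgroup (G ⧸ N)) = P₁.map π := by
    rw [← hc]
    ext z
    constructor
    · rintro ⟨_, ⟨y, hy, rfl⟩, rfl⟩
      refine ⟨c * y * c⁻¹, Cfsg.Lib.Solv.mem_conj_smul.2 ?_, ?_⟩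
      · have e : c⁻¹ * (c * y * c⁻¹) * c = y := by group
        rw [e]; exact hy
      · show π (c * y * c⁻¹) = π c * π y * (π c)⁻¹
        rw [map_mul, map_mul, map_inv]
    · rintro ⟨y, hy, rfl⟩
      refine ⟨π (c⁻¹ * y * c), ⟨_, Cfsg.Lib.Solv.mem_conj_smul.1 hy, rfl⟩, ?_⟩
      show π c * π (c⁻¹ * y * c) * (π c)⁻¹ = π y
      rw [← map_inv, ← map_mul, ← map_mul]
      congr 1; group
  obtain ⟨g, rfl⟩ := hsur x
  obtain ⟨z, hz, hz1⟩ := (Subgroup.bot_or_exists_ne_one _).resolve_left hne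
  rw [Subgroup.mem_inf, Cfsg.Lib.Solv.mem_conj_smul, hQ] at hz
  obtain ⟨⟨y, hy, rfl⟩, hz2⟩ := hz
  rw [← map_inv, ← map_mul, ← map_mul] at hz2
  have hP₁p : IsPGroup p P₁ := by
    rw [hP₁, Cfsg.Lib.Solv.conj_smul_eq_map]; exact P.2.map _
  obtain ⟨i, hi⟩ := IsPGroup.iff_card.1 hP₁p
  have hcop : (Nat.card P₁).Coprime (Nat.card N) := by rw [hi]; exact (hN.pow_right i).symm
  set P₂ := MulAut.conj g • P₁ with hP₂
  have hU : Subgroup.zpowers y ≤ P₂ ⊔ N := by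
    rw [Subgroup.zpowers_le]
    rw [← Subgroup.mem_comap, Subgroup.comap_map_eq, QuotientGroup.ker_mk'] at hz2
    rw [← SetLike.mem_coe, Subgroup.mul_normal] at hz2
    obtain ⟨a, ha, b, hb, hab⟩ := hz2
    have e : y = (g * a * g⁻¹) * (g * b * g⁻¹) := by
      calc y = g * (g⁻¹ * y * g) * g⁻¹ := by group
        _ = g * (a * b) * g⁻¹ := by rw [← hab]
        _ = _ := by group
    rw [e]
    refine mul_mem (Subgroup.mem_sup_left (Cfsg.Lib.Solv.mem_conj_smul.2 ?_))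
      (Subgroup.mem_sup_right ((inferInstance : N.Normal).conj_mem b hb g))
    have e2 : g⁻¹ * (g * a * g⁻¹) * g = a := by group
    rwa [e2]
  obtain ⟨j, hj⟩ := IsPGroup.iff_card.1 (hP₁p.to_le (Subgroup.zpowers_le.2 hy))
  obtain ⟨m, hm, hle⟩ := Cfsg.Lib.Solv.exists_conj_le N P₂ (Subgroup.zpowers y)
    Subgroup.le_normalizer_of_normal hU (by rw [hP₂, Cfsg.Lib.Solv.card_conj_smul]; exact hcop)
    (by rw [hj]; exact (hN.pow_right j).symm)
    (Or.inr (by haveI := (IsPGroup.of_card hj).isNilpotent; infer_instance))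
  have hy2 := Cfsg.Lib.Solv.mem_conj_smul.1 (hle (Subgroup.mem_zpowers y))
  rw [hP₂, Cfsg.Lib.Solv.mem_conj_smul, hP₁, Cfsg.Lib.Solv.mem_conj_smul] at hy2
  rw [hP₁, SetLike.mem_coe, Cfsg.Lib.Solv.mem_conj_smul] at hy
  set w := m * g with hw
  have hwN : c⁻¹ * w * c ∈ Subgroup.normalizer ((P : Subgroup G) : Set G) := by
    by_contra hwN
    have h4 : c⁻¹ * y * c ∈ (P : Subgroup G) ⊓ MulAut.conj (c⁻¹ * w * c) • (P : Subgroup G) := by
      refine ⟨hy, Cfsg.Lib.Solv.mem_conj_smul.2 ?_⟩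
      have e : (c⁻¹ * w * c)⁻¹ * (c⁻¹ * y * c) * (c⁻¹ * w * c) = c⁻¹ * (g⁻¹ * (m⁻¹ * y * m) * g) * c := by
        rw [hw]; group
      rw [e]; exact hy2
    rw [hTI _ hwN, Subgroup.mem_bot] at h4
    refine hz1 ?_
    have hy1 : y = 1 := by
      calc y = c * (c⁻¹ * y * c) * c⁻¹ := by group
        _ = 1 := by rw [h4]; group
    rw [hy1, map_one]
  have hwP₁ : w ∈ Subgroup.normalizer (P₁ : Set G) := by
    refine Subgroup.mem_normalizer_iff.2 fun u => ?_
    rw [hP₁, Cfsg.Lib.Solv.mem_conj_smul, Cfsg.Lib.Solv.mem_conj_smul]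
    have e : c⁻¹ * (w * u * w⁻¹) * c = (c⁻¹ * w * c) * (c⁻¹ * u * c) * (c⁻¹ * w * c)⁻¹ := by group
    rw [e]
    exact Subgroup.mem_normalizer_iff.1 hwN _
  have h5 : π g = π w := by
    rw [hw, map_mul, show π m = 1 from (QuotientGroup.eq_one_iff m).2 hm, one_mul]
  rw [h5, hQ]
  exact Subgroup.le_normalizer_map π ⟨w, hwP₁, rfl⟩

end Cfsg.Agent.S3984
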