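import Cfsg.Statements.S3985
import Mathlib
import Cfsg.Agent.Lib.Solv.FrobeniusComplement
import Cfsg.Agent.Lib.Solv.SchurZassenhaus
-- import your own Cfsg.Agent.* helpers here

set_option autoImplicit false
open scoped Pointwise
open Cfsg
open scoped Pointwise

namespace Cfsg.Agent.S3985

/-- Let P be a cyclic Sylow p-subgroup of the finite group G. Then P meets each conjugate g P g⁻¹ with g outside N_G(P) trivially if and only if P is weakly self-centralizing: C_G(x) = C_G(P) for every non-identity x ∈ P. -/
theorem result {G : Type*} [Group G] [Finite G] (p : ℕ) [Fact p.Prime] (P : Sylow p G) (hcyc : IsCyclic ↥(P : Subgroup G)) : (∀ g : G, g ∉ Subgroup.normalizer ((P : Subgroup G) : Set G) → (P : Subgroup G) ⊓ (MulAut.conj g • (P : Subgroup G)) = ⊥) ↔ ∀ x : G, x ∈ (P : Subgroup G) → x ≠ 1 → Subgroup.centralizer ({x} : Set G) = Subgroup.centralizer ((P : Subgroup G) : Set G) := by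
  classical
  have hp := (Fact.out : p.Prime)
  haveI := hcyc
  obtain ⟨⟨a, ha⟩, hgen⟩ := IsCyclic.exists_generator (α := (P : Subgroup G))
  have haz : Subgroup.zpowers a = (P : Subgroup G) := by
    refine le_antisymm (Subgroup.zpowers_le.2 ha) fun x hx => ?_
    obtain ⟨i, hi⟩ := hgen ⟨x, hx⟩
    exact ⟨i, congrArg Subtype.val hi⟩
  constructor
  · intro hTI x hx hx1
    refine le_antisymm (fun g hg => ?_) (fun g hg => Subgroup.mem_centralizer_singleton_iff.2
      (Subgroup.mem_centralizer_iff.1 hg x hx).symm)
    have hgx : g * x = x * g := Subgroup.mem_centralizer_singleton_iff.1 hg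
    have hgN : g ∈ Subgroup.normalizer ((P : Subgroup G) : Set G) := by
      by_contra h
      have h2 : x ∈ (P : Subgroup G) ⊓ (MulAut.conj g • (P : Subgroup G)) :=
        ⟨hx, x, hx, by show g * x * g⁻¹ = x; rw [hgx, mul_inv_cancel_right]⟩
      rw [hTI g h, Subgroup.mem_bot] at h2
      exact hx1 h2
    -- split `g` into `p`-part and `p'`-part
    have hle : Subgroup.zpowers g ≤ Subgroup.centralizer ({x} : Set G) := Subgroup.zpowers_le.2 hg
    refine Cfsg.Lib.Transfer.mem_of_forall_pow_ordCompl_mem fun r hr => ?_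
    set y := g ^ (orderOf g / r ^ (orderOf g).factorization r) with hy
    have hyN : y ∈ Subgroup.normalizer ((P : Subgroup G) : Set G) := pow_mem hgN _
    have hyo : orderOf y = r ^ (orderOf g).factorization r := by
      rw [hy, orderOf_pow_of_dvd (Nat.ordCompl_pos r (orderOf_pos g).ne').ne' (Nat.ordCompl_dvd _ _),
        Nat.div_div_self (Nat.ordProj_dvd _ _) (orderOf_pos g).ne']
    by_cases hrp : r = p
    · subst hrp
      have hyP : y ∈ (P : Subgroup G) := by
        have hR : IsPGroup r (Subgroup.zpowers y) :=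
          IsPGroup.of_card (by rw [Nat.card_zpowers]; exact hyo)
        have h : IsPGroup r ↥((P : Subgroup G) ⊔ Subgroup.zpowers y) :=
          P.2.to_sup_of_normal_left' hR (Subgroup.zpowers_le.2 hyN)
        rw [← P.3 h le_sup_left]
        exact le_sup_right (a := (P : Subgroup G)) (Subgroup.mem_zpowers y)
      exact Subgroup.mem_centralizer_iff.2 fun z hz =>
        congrArg Subtype.val (IsCyclic.isMulCommutative.is_comm.comm (⟨z, hz⟩ : (P : Subgroup G)) ⟨y, hyP⟩)
    · obtain ⟨k, hk⟩ := P.2.exists_card_eq
      have hca : Commute y a := by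
        refine Cfsg.Lib.Solv.FrobCompl.commute_of_fixes_prime (by rw [haz]; exact hyN) ?_ fun z hz hzp => ?_
        · have e : orderOf a = p ^ k := by rw [← Nat.card_zpowers, haz, hk]
          rw [hyo, e]
          exact Nat.Coprime.pow _ _ ((Nat.coprime_primes hr hp).2 hrp)
        · have hzP : z ∈ (P : Subgroup G) := haz ▸ hz
          have hoz : orderOf z = p := by
            obtain ⟨j, hj⟩ := IsPGroup.iff_orderOf.1 P.2 ⟨z, hzP⟩
            rw [Subgroup.orderOf_mk] at hj
            have := hj ▸ hzp
            have hj1 : j = 1 := (Nat.Prime.pow_eq_iff this).1 rfl |>.2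
            rw [hj, hj1, pow_one]
          have hdvd : p ∣ orderOf x := by
            obtain ⟨j, hj⟩ := IsPGroup.iff_orderOf.1 P.2 ⟨x, hx⟩
            rw [Subgroup.orderOf_mk] at hj
            rw [hj]
            refine dvd_pow_self p ?_
            rintro rfl
            exact hx1 (orderOf_eq_one_iff.1 (by simpa using hj))
          set w := x ^ (orderOf x / p) with hw
          have how : orderOf w = p := by
            rw [hw, orderOf_pow_of_dvd (Nat.div_pos (Nat.le_of_dvd (orderOf_pos x) hdvd) hp.pos).ne'
              (Nat.div_dvd_of_dvd hdvd), Nat.div_div_self hdvd (orderOf_pos x).ne']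
          have hwP : w ∈ (P : Subgroup G) := pow_mem hx _
          have he : (Subgroup.zpowers (⟨z, hzP⟩ : (P : Subgroup G))) = Subgroup.zpowers ⟨w, hwP⟩ := by
            refine Cfsg.Lib.TwoFus.eq_of_card_eq_cyclic ?_
            rw [Nat.card_zpowers, Nat.card_zpowers, Subgroup.orderOf_mk, Subgroup.orderOf_mk, hoz, how]
          obtain ⟨i, hi⟩ := he.le (Subgroup.mem_zpowers _)
          have hi' : w ^ i = z := congrArg Subtype.val hi
          rw [← hi']
          have hc : Commute y x := Subgroup.mem_centralizer_singleton_iff.1 (pow_mem hg _)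
          exact (hc.pow_right _).zpow_right i
      refine Subgroup.mem_centralizer_iff.2 fun z hz => ?_
      obtain ⟨i, rfl⟩ := Subgroup.mem_zpowers_iff.1 (show z ∈ Subgroup.zpowers a from haz ▸ hz)
      exact ((hca.zpow_right i).eq).symm
  · intro hW g hg
    refine le_bot_iff.1 fun z hz => ?_
    rw [Subgroup.mem_bot]
    by_contra hz1
    obtain ⟨hzP, u, hu, huz⟩ := hz
    have huz' : g * u * g⁻¹ = z := huz
    have hu1 : u ≠ 1 := fun e => hz1 (by rw [← huz', e]; group)
    set C := Subgroup.centralizer ((P : Subgroup G) : Set G) with hC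
    have hPC : (P : Subgroup G) ≤ C := fun x hx => Subgroup.mem_centralizer_iff.2 fun w hw =>
      congrArg Subtype.val (IsCyclic.isMulCommutative.is_comm.comm (⟨w, hw⟩ : (P : Subgroup G)) ⟨x, hx⟩)
    have hgP : MulAut.conj g • (P : Subgroup G) ≤ C := by
      rintro _ ⟨x, hx, rfl⟩
      rw [← hW z hzP hz1, Subgroup.mem_centralizer_singleton_iff, ← huz']
      show g * x * g⁻¹ * (g * u * g⁻¹) = g * u * g⁻¹ * (g * x * g⁻¹)
      have e : x * u = u * x :=
        congrArg Subtype.val (IsCyclic.isMulCommutative.is_comm.comm (⟨x, hx⟩ : (P : Subgroup G)) ⟨u, hu⟩)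
      calc g * x * g⁻¹ * (g * u * g⁻¹) = g * (x * u) * g⁻¹ := by group
        _ = g * (u * x) * g⁻¹ := by rw [e]
        _ = _ := by group
    have hsup : IsPGroup p ↥((P : Subgroup G) ⊔ MulAut.conj g • (P : Subgroup G)) :=
      P.2.to_sup_of_normal_left' (P.2.map _) (fun x hx => Subgroup.mem_normalizer_iff.2 fun w => by
        constructor
        · intro hw
          rw [show x * w * x⁻¹ = w by rw [← Subgroup.mem_centralizer_iff.1 (hgP hx) w hw]; group]
          exact hw
        · intro hw
          have e := Subgroup.mem_centralizer_iff.1 (hgP hx) _ hw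
          have e2 : x * w * x⁻¹ = w := by
            calc x * w * x⁻¹ = x⁻¹ * (x * w * x⁻¹ * x) := by
                  rw [e]; group
              _ = w := by group
          rwa [← e2])
    have h2 : MulAut.conj g • (P : Subgroup G) ≤ (P : Subgroup G) :=
      le_sup_right.trans (P.3 hsup le_sup_left).le
    exact hg (Cfsg.Lib.Solv.conj_smul_eq_self_iff.1
      (Subgroup.eq_of_le_of_card_ge h2 (Cfsg.Lib.Solv.card_conj_smul g _).ge))

end Cfsg.Agent.S3985
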