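import Cfsg.Statements.S3987
import Mathlib
import Cfsg.Agent.Lib.Solv.DirectSylow
-- import your own Cfsg.Agent.* helpers here

set_option autoImplicit false
open Cfsg

namespace Cfsg.Agent.S3987

/-- Let p be a prime and G a finite group. Then some Sylow p-subgroup of G is a direct factor of G (normal with a normal complement) if and only if for every element x of p-power order and every element y whose order is a power of a prime other than p, the conjugacy class of x y has as many elements as the product of the sizes of the classes of x and of y. -/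
theorem result {G : Type*} [Group G] [Finite G] (p : ℕ) [Fact p.Prime] : (∃ (P : Sylow p G) (K : Subgroup G), (P : Subgroup G).Normal ∧ K.Normal ∧ (P : Subgroup G) ⊓ K = ⊥ ∧ (P : Subgroup G) ⊔ K = ⊤) ↔ ∀ x y : G, (∃ a : ℕ, orderOf x = p ^ a) → (∃ q b : ℕ, q.Prime ∧ q ≠ p ∧ orderOf y = q ^ b) → (Subgroup.centralizer ({x * y} : Set G)).index = (Subgroup.centralizer ({x} : Set G)).index * (Subgroup.centralizer ({y} : Set G)).index := by
  constructor
  · rintro ⟨P, K, hPn, hKn, hinf, hsup⟩ x y hx ⟨q, b, hq, hqp, hy⟩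
    haveI := hPn
    haveI := hKn
    have hp := (Fact.out : p.Prime)
    have hdat := Cfsg.Lib.Solv.direct_factor_commute hPn hKn hinf hsup hx
      (hy ▸ ((Nat.coprime_primes hq hp).2 hqp).pow_left b)
    obtain ⟨hxP, hyK, -⟩ := hdat
    have hcomm : ∀ u ∈ (P : Subgroup G), ∀ v ∈ K, Commute u v := fun u hu v hv =>
      Subgroup.commute_of_normal_of_disjoint _ _ hPn hKn (disjoint_iff.2 hinf) u v hu hv
    set A := Subgroup.centralizer ({x} : Set G) with hA
    set B := Subgroup.centralizer ({y} : Set G) with hB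
    have hKA : K ≤ A := fun v hv => Subgroup.mem_centralizer_singleton_iff.2 (hcomm x hxP v hv).symm.eq
    have hPB : (P : Subgroup G) ≤ B := fun u hu => Subgroup.mem_centralizer_singleton_iff.2 (hcomm u hu y hyK).eq
    have heq : Subgroup.centralizer ({x * y} : Set G) = A ⊓ B := by
      refine le_antisymm (fun g hg => ?_) fun g hg => ?_
      · have h1 : g * (x * y) * g⁻¹ = x * y := by
          rw [Subgroup.mem_centralizer_singleton_iff.1 hg, mul_inv_cancel_right]
        have h2 : (g * x * g⁻¹) * (g * y * g⁻¹) = x * y := by rw [← h1]; group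
        have h3 : x⁻¹ * (g * x * g⁻¹) = y * (g * y * g⁻¹)⁻¹ := by
          rw [eq_mul_inv_iff_mul_eq, mul_assoc, h2, inv_mul_cancel_left]
        have h4 : x⁻¹ * (g * x * g⁻¹) ∈ (P : Subgroup G) ⊓ K :=
          ⟨(P : Subgroup G).mul_mem ((P : Subgroup G).inv_mem hxP) (hPn.conj_mem x hxP g), h3 ▸ K.mul_mem hyK (K.inv_mem (hKn.conj_mem y hyK g))⟩
        rw [hinf, Subgroup.mem_bot] at h4
        have h5 : y * (g * y * g⁻¹)⁻¹ = 1 := h3 ▸ h4
        refine ⟨Subgroup.mem_centralizer_singleton_iff.2 (mul_inv_eq_iff_eq_mul.1 (inv_mul_eq_one.1 h4).symm),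
          Subgroup.mem_centralizer_singleton_iff.2 (mul_inv_eq_iff_eq_mul.1 (mul_inv_eq_one.1 h5).symm)⟩
      · exact Subgroup.mem_centralizer_singleton_iff.2
          ((Commute.mul_right (Subgroup.mem_centralizer_singleton_iff.1 hg.1)
            (Subgroup.mem_centralizer_singleton_iff.1 hg.2)).eq)
    rw [heq]
    have hcop : A.index.Coprime B.index := by
      refine Nat.Coprime.coprime_dvd_left (Subgroup.index_dvd_of_le hKA)
        (Nat.Coprime.coprime_dvd_right (Subgroup.index_dvd_of_le hPB) ?_)
      have hcp : K.IsComplement' (P : Subgroup G) :=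
        Subgroup.isComplement'_of_disjoint_and_mul_eq_univ (disjoint_iff.2 (by rw [inf_comm]; exact hinf))
          (by rw [← Subgroup.mul_normal, sup_comm, hsup, Subgroup.coe_top])
      rw [hcp.symm.index_eq_card]
      exact P.card_coprime_index
    refine le_antisymm Subgroup.index_inf_le (Nat.le_of_dvd
      (Nat.pos_of_ne_zero Subgroup.index_ne_zero_of_finite)
      (hcop.mul_dvd_of_dvd_of_dvd (Subgroup.index_dvd_of_le inf_le_left) (Subgroup.index_dvd_of_le inf_le_right)))
  · intro h
    refine Cfsg.Lib.Solv.direct_factor_of_commute fun x y hx hy => ?_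
    refine (Cfsg.Lib.Solv.commute_of_class_mul fun a b ha hb => ?_).eq
    have key : ∀ {u v : G}, IsConj u v → orderOf v = orderOf u ∧
        (Subgroup.centralizer ({v} : Set G)).index = (Subgroup.centralizer ({u} : Set G)).index := by
      intro u v huv
      obtain ⟨g, rfl⟩ := isConj_iff.1 huv
      refine ⟨orderOf_injective (MulAut.conj g).toMonoidHom (MulAut.conj g).injective u, ?_⟩
      rw [← Cfsg.Lib.Characters.card_conj_eq_index, ← Cfsg.Lib.Characters.card_conj_eq_index]
      exact Nat.card_congr (Equiv.subtypeEquivRight fun c => ⟨huv.trans, huv.symm.trans⟩)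
    obtain ⟨i, hi⟩ := hx
    obtain ⟨q, j, hq, hqp, hj⟩ := hy
    rw [h a b ⟨i, (key ha).1.trans hi⟩ ⟨q, j, hq, hqp, (key hb).1.trans hj⟩, (key ha).2, (key hb).2]

end Cfsg.Agent.S3987
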