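import Cfsg.Statements.S4010
import Mathlib

set_option autoImplicit false
open Cfsg
open scoped Pointwise commutatorElement

namespace Cfsg.Agent.S4010

open Module

universe u v w

theorem derived_le {P : Type u} [Group P] (H : Subgroup P) (hH : commutator P ≤ H) :
    ∀ k, derivedSeries P (k + 1) ≤ (derivedSeries ↥H k).map H.subtype := by
  intro k
  induction k with
  | zero =>
    rw [derivedSeries_succ, derivedSeries_zero, derivedSeries_zero, ← MonoidHom.range_eq_map,
      Subgroup.range_subtype, ← commutator_def]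
    exact hH
  | succ k ih =>
    rw [derivedSeries_succ P (k + 1), derivedSeries_succ (↥H) k, Subgroup.map_commutator]
    exact Subgroup.commutator_mono ih ih

variable {L : Type v} [Field L]

/-- The action on an invariant subspace. -/
def sub {P : Type u} [Group P] {V : Type w} [AddCommGroup V] [Module L V] (ρ : P →* Module.End L V)
    (E : Submodule L V) (hE : ∀ g, ∀ x ∈ E, ρ g x ∈ E) : P →* Module.End L E where
  toFun g := (ρ g).restrict (hE g)
  map_one' := LinearMap.ext fun x => Subtype.ext (by simp)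
  map_mul' g h := LinearMap.ext fun x => Subtype.ext (by simp)

theorem eigenspace_span {V : Type w} [AddCommGroup V] [Module L V] [IsAlgClosed L]
    [FiniteDimensional L V] (a : Module.End L V) (N : ℕ) (hN : (N : L) ≠ 0) (ha : a ^ N = 1) :
    ⨆ μ, a.eigenspace μ = ⊤ := by
  have hss : a.IsSemisimple := by
    refine Module.End.isSemisimple_of_squarefree_aeval_eq_zero
      (p := Polynomial.X ^ N - Polynomial.C 1) (Polynomial.separable_X_pow_sub_C 1 hN one_ne_zero).squarefree ?_
    simp [ha]
  rw [← Module.End.iSup_maxGenEigenspace_eq_top a]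
  exact iSup_congr fun μ => (hss.isFinitelySemisimple.maxGenEigenspace_eq_eigenspace μ).symm

/-- Away from the characteristic. -/
theorem derived_semisimple [IsAlgClosed L] {q : ℕ} [Fact q.Prime] : ∀ (n : ℕ) (V : Type w) [AddCommGroup V] [Module L V]
    [FiniteDimensional L V], finrank L V = n → ∀ (P : Type u) [Group P] [Finite P],
    IsPGroup q P → (Nat.card P : L) ≠ 0 → ∀ (ρ : P →* Module.End L V) (k : ℕ), n < 2 ^ k →
    ∀ x ∈ derivedSeries P k, ρ x = 1 := by
  intro n
  induction n using Nat.strong_induction_on with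
  | _ n ih =>
    intro V _ _ _ hV P _ _ hPq hP ρ k hk x hx
    have hpow : ∀ g, ρ g ^ Nat.card P = 1 := fun g => by rw [← map_pow, pow_card_eq_one', map_one]
    have hinv : ∀ g : P, ρ g⁻¹ * ρ g = 1 := fun g => by rw [← map_mul, inv_mul_cancel, map_one]
    rcases Nat.eq_zero_or_pos n with rfl | hn
    · have := Module.finrank_zero_iff.1 hV
      exact LinearMap.ext fun y => Subsingleton.elim _ _
    obtain ⟨k, rfl⟩ : ∃ m, k = m + 1 := ⟨k - 1, by
      have : k ≠ 0 := by rintro rfl; rw [pow_zero] at hk; omega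
      omega⟩
    let C : Subgroup P :=
      { carrier := {a | ∀ g, Commute (ρ g) (ρ a)}
        one_mem' := fun g => by rw [map_one]; exact Commute.one_right _
        mul_mem' := fun {a b} ha hb g => by rw [map_mul]; exact (ha g).mul_right (hb g)
        inv_mem' := fun {a} ha g => by
          have h1 : ρ a * ρ a⁻¹ = 1 := by rw [← map_mul, mul_inv_cancel, map_one]
          calc ρ g * ρ a⁻¹ = ρ a⁻¹ * (ρ a * ρ g) * ρ a⁻¹ := by rw [← mul_assoc (ρ a⁻¹), hinv, one_mul]
            _ = ρ a⁻¹ * (ρ g * ρ a) * ρ a⁻¹ := by rw [(ha g).eq]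
            _ = ρ a⁻¹ * ρ g := by rw [mul_assoc, mul_assoc, h1, mul_one] }
    haveI hCn : C.Normal := ⟨fun a ha g h => by
      have e : ρ (g * a * g⁻¹) = ρ a := by
        rw [map_mul, map_mul, (ha g).eq, mul_assoc, ← map_mul ρ g, mul_inv_cancel, map_one, mul_one]
      rw [e]; exact ha h⟩
    by_cases hsc : ∃ c ∈ C, ∀ μ : L, ρ c ≠ μ • 1
    · obtain ⟨c, hc, hns⟩ := hsc
      have hE : ∀ μ, ∀ g : P, ∀ y ∈ (ρ c).eigenspace μ, ρ g y ∈ (ρ c).eigenspace μ := by
        intro μ g y hy
        rw [Module.End.mem_eigenspace_iff] at hy ⊢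
        rw [← Module.End.mul_apply, ← (hc g).eq, Module.End.mul_apply, hy, map_smul]
      have hle : ∀ μ, (ρ c).eigenspace μ ≤ LinearMap.ker (ρ x - 1) := by
        intro μ y hy
        have hlt : finrank L ((ρ c).eigenspace μ) < n := by
          rw [← hV]
          refine Submodule.finrank_lt fun e => hns μ (LinearMap.ext fun z => ?_)
          have hz : z ∈ (ρ c).eigenspace μ := e ▸ Submodule.mem_top
          rw [Module.End.mem_eigenspace_iff] at hz
          simpa using hz
        have := ih _ hlt _ rfl P hPq hP (sub ρ _ (hE μ)) (k + 1) (lt_trans hlt hk) x hx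
        have h2 := congrArg Subtype.val (LinearMap.congr_fun this ⟨y, hy⟩)
        rw [LinearMap.mem_ker, LinearMap.sub_apply, sub_eq_zero]
        exact h2
      have htop : ⊤ ≤ LinearMap.ker (ρ x - 1) := by
        rw [← eigenspace_span (ρ c) _ hP (hpow c)]; exact iSup_le hle
      exact sub_eq_zero.1 (LinearMap.ker_eq_top.1 (top_le_iff.1 htop))
    push Not at hsc
    by_cases htop : C = ⊤
    · have hle : derivedSeries P (k + 1) ≤ ρ.ker := by
        refine le_trans ((derivedSeries_antitone P) (Nat.succ_le_succ (Nat.zero_le k))) ?_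
        rw [derivedSeries_succ, derivedSeries_zero, Subgroup.commutator_le]
        intro g _ h _
        have hgh : Commute (ρ g) (ρ h) := (show h ∈ C by rw [htop]; exact Subgroup.mem_top h) g
        rw [MonoidHom.mem_ker, commutatorElement_def, map_mul, map_mul, map_mul, hgh.eq,
          mul_assoc (ρ h), ← map_mul ρ g, mul_inv_cancel, map_one, mul_one, ← map_mul,
          mul_inv_cancel, map_one]
      exact MonoidHom.mem_ker.1 (hle hx)
    obtain ⟨a, haC, ha⟩ : ∃ a, a ∉ C ∧ ∀ g, g * a * g⁻¹ * a⁻¹ ∈ C := by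
      have hnt : Nontrivial (P ⧸ C) := QuotientGroup.nontrivial_iff.2 htop
      have := (hPq.to_quotient C).center_nontrivial
      obtain ⟨z, hz⟩ := exists_ne (1 : Subgroup.center (P ⧸ C))
      obtain ⟨a, ha⟩ := QuotientGroup.mk'_surjective C (z : P ⧸ C)
      refine ⟨a, fun h => hz (Subtype.ext ?_), fun g => ?_⟩
      · rw [← ha]; exact (QuotientGroup.eq_one_iff a).2 h
      · rw [← QuotientGroup.eq_one_iff]
        have := Subgroup.mem_center_iff.1 z.2 (g : P ⧸ C)
        rw [← ha] at this
        change (g : P ⧸ C) * a * (g : P ⧸ C)⁻¹ * (a : P ⧸ C)⁻¹ = 1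
        rw [show (g : P ⧸ C) * a = a * g from this]; group
    have hscal : ∀ g, ∃ l : L, ρ g * ρ a = l • (ρ a * ρ g) := by
      intro g
      obtain ⟨l, hl⟩ := hsc _ (ha g)
      refine ⟨l, ?_⟩
      rw [← map_mul, ← map_mul, show g * a = g * a * g⁻¹ * a⁻¹ * (a * g) by group, map_mul, hl,
        smul_one_mul]
    let H : Subgroup P :=
      { carrier := {g | Commute (ρ g) (ρ a)}
        one_mem' := by rw [Set.mem_setOf_eq, map_one]; exact Commute.one_left _
        mul_mem' := fun {g h} hg hh => by rw [Set.mem_setOf_eq, map_mul]; exact Commute.mul_left hg hh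
        inv_mem' := fun {g} hg => by
          have h1 : ρ g * ρ g⁻¹ = 1 := by rw [← map_mul, mul_inv_cancel, map_one]
          calc ρ g⁻¹ * ρ a = ρ g⁻¹ * (ρ a * ρ g) * ρ g⁻¹ := by rw [mul_assoc, mul_assoc, h1, mul_one]
            _ = ρ g⁻¹ * (ρ g * ρ a) * ρ g⁻¹ := by rw [(show Commute (ρ g) (ρ a) from hg).eq]
            _ = ρ a * ρ g⁻¹ := by rw [← mul_assoc (ρ g⁻¹), hinv, one_mul] }
    have hH : commutator P ≤ H := by
      rw [commutator_def, Subgroup.commutator_le]
      intro g _ h _
      obtain ⟨l, hl⟩ := hscal g⁻¹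
      obtain ⟨l', hl'⟩ := hscal h⁻¹
      have e1 : ρ (g⁻¹ * h⁻¹) * ρ a = (l * l') • (ρ a * ρ (g⁻¹ * h⁻¹)) := by
        rw [map_mul, mul_assoc, hl', mul_smul_comm, ← mul_assoc, hl, smul_mul_assoc, smul_smul,
          mul_assoc, mul_comm l]
      have e2 : ρ (h⁻¹ * g⁻¹) * ρ a = (l * l') • (ρ a * ρ (h⁻¹ * g⁻¹)) := by
        rw [map_mul, mul_assoc, hl, mul_smul_comm, ← mul_assoc, hl', smul_mul_assoc, smul_smul,
          mul_assoc]
      have hgh : ⁅g, h⁆ = (h⁻¹ * g⁻¹)⁻¹ * (g⁻¹ * h⁻¹) := by rw [commutatorElement_def]; group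
      change ρ ⁅g, h⁆ * ρ a = ρ a * ρ ⁅g, h⁆
      rw [hgh, map_mul]
      calc ρ (h⁻¹ * g⁻¹)⁻¹ * ρ (g⁻¹ * h⁻¹) * ρ a
          = (l * l') • (ρ (h⁻¹ * g⁻¹)⁻¹ * ρ a * ρ (g⁻¹ * h⁻¹)) := by
            rw [mul_assoc, e1, mul_smul_comm, mul_assoc]
        _ = (l * l') • (ρ (h⁻¹ * g⁻¹)⁻¹ * (ρ a * ρ (h⁻¹ * g⁻¹)) *
              (ρ (h⁻¹ * g⁻¹)⁻¹ * ρ (g⁻¹ * h⁻¹))) := by
            congr 1
            simp only [← map_mul]
            congr 1
            group
        _ = ρ (h⁻¹ * g⁻¹)⁻¹ * (ρ (h⁻¹ * g⁻¹) * ρ a) * (ρ (h⁻¹ * g⁻¹)⁻¹ * ρ (g⁻¹ * h⁻¹)) := by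
            rw [e2, mul_smul_comm, smul_mul_assoc]
        _ = _ := by
            simp only [← map_mul]
            congr 1
            group
    obtain ⟨g, hg⟩ : ∃ g, g ∉ H := by
      by_contra hall
      push Not at hall
      exact haC fun g => hall g
    obtain ⟨l, hl⟩ := hscal g
    have hl1 : l ≠ 1 := fun e => hg (show Commute (ρ g) (ρ a) by rw [e, one_smul] at hl; exact hl)
    have hE : ∀ μ, ∀ h : H, ∀ y ∈ (ρ a).eigenspace μ, (ρ.comp H.subtype) h y ∈ (ρ a).eigenspace μ := by
      intro μ h y hy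
      rw [Module.End.mem_eigenspace_iff] at hy ⊢
      change ρ a (ρ (h : P) y) = μ • ρ (h : P) y
      rw [← Module.End.mul_apply, ← (show Commute (ρ (h : P)) (ρ a) from h.2).eq, Module.End.mul_apply,
        hy, map_smul]
    have hdim : ∀ μ : L, finrank L ((ρ a).eigenspace μ) < 2 ^ k := by
      intro μ
      by_cases hbot : (ρ a).eigenspace μ = ⊥
      · rw [hbot, finrank_bot]; exact pow_pos two_pos _
      obtain ⟨y, hy, hy0⟩ := Submodule.exists_mem_ne_zero_of_ne_bot hbot
      have hμ : μ ≠ 0 := by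
        rintro rfl
        rw [Module.End.mem_eigenspace_iff, zero_smul] at hy
        apply hy0
        have := LinearMap.congr_fun (hinv a) y
        rw [Module.End.mul_apply, hy, map_zero] at this
        exact this.symm
      have hl0 : l ≠ 0 := by
        rintro rfl
        rw [zero_smul] at hl
        have : ρ g⁻¹ * (ρ g * ρ a) = 0 := by rw [hl, mul_zero]
        rw [← mul_assoc, hinv, one_mul] at this
        apply hy0
        have h2 := LinearMap.congr_fun (hinv a) y
        rw [this, mul_zero] at h2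
        exact h2.symm
      have hmap : ((ρ a).eigenspace μ).map (ρ g) ≤ (ρ a).eigenspace (μ / l) := by
        rintro _ ⟨z, hz, rfl⟩
        rw [SetLike.mem_coe, Module.End.mem_eigenspace_iff] at hz
        rw [Module.End.mem_eigenspace_iff]
        have h1 := LinearMap.congr_fun hl z
        rw [Module.End.mul_apply, hz, map_smul, LinearMap.smul_apply, Module.End.mul_apply] at h1
        rw [div_eq_inv_mul, mul_smul, h1, smul_smul l⁻¹, inv_mul_cancel₀ hl0, one_smul]
      have hne : μ ≠ μ / l := fun e => hl1 (by field_simp at e; exact e)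
      have hdisj : Disjoint ((ρ a).eigenspace μ) (((ρ a).eigenspace μ).map (ρ g)) :=
        ((Module.End.eigenspaces_iSupIndep (ρ a)).pairwiseDisjoint hne).mono_right hmap
      have h1 : finrank L (((ρ a).eigenspace μ).map (ρ g)) = finrank L ((ρ a).eigenspace μ) := by
        refine (Submodule.equivMapOfInjective (ρ g) (fun z z' e => ?_) _).finrank_eq.symm
        have := congrArg (ρ g⁻¹) e
        rwa [← Module.End.mul_apply, ← Module.End.mul_apply, hinv] at this
      have h2 := Submodule.finrank_add_finrank_le_of_disjoint hdisj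
      rw [h1, hV] at h2
      have : 2 ^ (k + 1) = 2 * 2 ^ k := pow_succ' 2 k
      omega
    have hlt : ∀ μ : L, finrank L ((ρ a).eigenspace μ) < n := by
      intro μ
      rw [← hV]
      refine Submodule.finrank_lt fun e => haC fun h => ?_
      have hsc' : ρ a = μ • 1 := LinearMap.ext fun z => by
        have hz : z ∈ (ρ a).eigenspace μ := e ▸ Submodule.mem_top
        rw [Module.End.mem_eigenspace_iff] at hz
        simpa using hz
      rw [hsc']
      exact (Commute.one_right _).smul_right μ
    have hcardH : (Nat.card H : L) ≠ 0 := by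
      intro h0
      obtain ⟨m, hm⟩ := Subgroup.card_subgroup_dvd_card H
      exact hP (by rw [hm, Nat.cast_mul, h0, zero_mul])
    obtain ⟨x', hx', rfl⟩ := derived_le H hH k hx
    have hle : ∀ μ, (ρ a).eigenspace μ ≤ LinearMap.ker (ρ (x' : P) - 1) := by
      intro μ y hy
      have := ih _ (hlt μ) _ rfl ↥H (hPq.to_subgroup H) hcardH (sub (ρ.comp H.subtype) _ (hE μ)) k (hdim μ) x' hx'
      have h2 := congrArg Subtype.val (LinearMap.congr_fun this ⟨y, hy⟩)
      rw [LinearMap.mem_ker, LinearMap.sub_apply, sub_eq_zero]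
      exact h2
    have htop' : ⊤ ≤ LinearMap.ker (ρ (x' : P) - 1) := by
      rw [← eigenspace_span (ρ a) _ hP (hpow a)]; exact iSup_le hle
    exact sub_eq_zero.1 (LinearMap.ker_eq_top.1 (top_le_iff.1 htop'))

variable {P : Type u} [Group P] {V : Type w} [AddCommGroup V] [Module L V] (ρ : P →* Module.End L V)

/-- Vectors fixed modulo the previous layer. -/
def layer : ℕ → Submodule L V
  | 0 => ⊥
  | i + 1 => ⨅ g, (layer i).comap (ρ g - 1)

theorem mem_layer_succ {i : ℕ} {v : V} : v ∈ layer ρ (i + 1) ↔ ∀ g, ρ g v - v ∈ layer ρ i := by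
  simp [layer, Submodule.mem_iInf]

theorem layer_le_succ : ∀ i, layer ρ i ≤ layer ρ (i + 1)
  | 0 => bot_le
  | i + 1 => fun v hv => (mem_layer_succ ρ).2 fun g =>
      layer_le_succ i ((mem_layer_succ ρ).1 hv g)

theorem layer_invariant (i : ℕ) (g : P) {v : V} (hv : v ∈ layer ρ i) : ρ g v ∈ layer ρ i := by
  cases i with
  | zero => simp only [layer, Submodule.mem_bot] at hv ⊢; rw [hv, map_zero]
  | succ i =>
    have := (layer ρ (i + 1)).add_mem (layer_le_succ ρ i ((mem_layer_succ ρ).1 hv g)) hv
    simpa using this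

theorem layer_lt [Finite P] {p : ℕ} [Fact p.Prime] [CharP L p] (hP : IsPGroup p P) {i : ℕ}
    (h : layer ρ i ≠ ⊤) : layer ρ i < layer ρ (i + 1) := by
  classical
  refine lt_of_le_of_ne (layer_le_succ ρ i) fun e => ?_
  obtain ⟨v, hv⟩ : ∃ v, v ∉ layer ρ i := by
    by_contra hh
    push Not at hh
    exact h (eq_top_iff.2 fun v _ => hh v)
  haveI : Fintype P := Fintype.ofFinite P
  let c : ZMod p →+* L := ZMod.castHom dvd_rfl L
  let φ : (P → ZMod p) →+ V ⧸ layer ρ i := AddMonoidHom.mk'
    (fun f => ∑ g, c (f g) • Submodule.Quotient.mk (ρ g v))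
    fun f f' => by simp [add_smul, Finset.sum_add_distrib]
  let act : P → (V ⧸ layer ρ i) →ₗ[L] (V ⧸ layer ρ i) := fun g =>
    Submodule.mapQ _ _ (ρ g) fun w hw => layer_invariant ρ i g hw
  have hact : ∀ g f, act g (φ f) = φ (fun h => f (g⁻¹ * h)) := by
    intro g f
    change act g (∑ h, c (f h) • Submodule.Quotient.mk (ρ h v)) =
      ∑ h, c (f (g⁻¹ * h)) • Submodule.Quotient.mk (ρ h v)
    rw [map_sum]
    refine Fintype.sum_equiv (Equiv.mulLeft g) _ _ fun h => ?_
    simp [act, Submodule.mapQ_apply]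
  haveI hfin : Finite φ.range := Finite.of_surjective _ φ.rangeRestrict_surjective
  letI : MulAction P φ.range :=
    { smul := fun g m => ⟨act g m, by obtain ⟨f, hf⟩ := m.2; exact ⟨_, (hact g f).symm.trans (by rw [hf])⟩⟩
      one_smul := fun m => Subtype.ext (by
        obtain ⟨w, hw⟩ := Submodule.Quotient.mk_surjective _ (m : V ⧸ layer ρ i)
        change act 1 (m : V ⧸ layer ρ i) = m
        simp [act, ← hw])
      mul_smul := fun g g' m => Subtype.ext (by
        obtain ⟨w, hw⟩ := Submodule.Quotient.mk_surjective _ (m : V ⧸ layer ρ i)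
        change act (g * g') (m : V ⧸ layer ρ i) = act g (act g' m)
        simp [act, ← hw]) }
  have hdvd : p ∣ Nat.card φ.range := by
    have h1 : addOrderOf (Submodule.Quotient.mk (p := layer ρ i) v) = p := by
      refine addOrderOf_eq_prime ?_ fun e0 => hv ((Submodule.Quotient.mk_eq_zero _).1 e0)
      rw [← Nat.cast_smul_eq_nsmul L, CharP.cast_eq_zero, zero_smul]
    have hmem : Submodule.Quotient.mk (p := layer ρ i) v ∈ φ.range := by
      refine ⟨Pi.single 1 1, ?_⟩
      change ∑ g, c (Pi.single (M := fun _ => ZMod p) (1 : P) 1 g) • Submodule.Quotient.mk (ρ g v) = _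
      rw [Finset.sum_eq_single (1 : P)]
      · simp
      · intro g _ hg; simp [hg]
      · simp
    exact (dvd_of_eq h1.symm).trans (φ.range.addOrderOf_dvd_natCard hmem)
  obtain ⟨m, hm, hm0⟩ := hP.exists_fixed_point_of_prime_dvd_card_of_fixed_point φ.range hdvd
    (a := 0) (by intro g; exact Subtype.ext (map_zero (act g)))
  apply hm0
  obtain ⟨w, hw⟩ := Submodule.Quotient.mk_surjective _ (m : V ⧸ layer ρ i)
  have hw1 : w ∈ layer ρ (i + 1) := (mem_layer_succ ρ).2 fun g => by
    have h1 : act g (m : V ⧸ layer ρ i) = m := congrArg Subtype.val (hm g)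
    rw [← hw] at h1
    exact (Submodule.Quotient.eq _).1 h1
  rw [← e] at hw1
  refine Subtype.ext ?_
  rw [← hw, (Submodule.Quotient.mk_eq_zero _).2 hw1]
  rfl

theorem derived_layer : ∀ (j : ℕ) (x : P), x ∈ derivedSeries P j → ∀ (i : ℕ) (v : V),
    v ∈ layer ρ (i + 2 ^ j) → ρ x v - v ∈ layer ρ i := by
  intro j
  induction j with
  | zero => intro x _ i v hv; exact (mem_layer_succ ρ).1 hv x
  | succ j ih =>
    intro x hx
    let S : Subgroup P :=
      { carrier := {y | ∀ (i : ℕ) (v : V), v ∈ layer ρ (i + 2 ^ (j + 1)) → ρ y v - v ∈ layer ρ i}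
        one_mem' := fun i v _ => by simp
        mul_mem' := fun {y z} hy hz i v hv => by
          have h1 := layer_invariant ρ i y (hz i v hv)
          have h2 := (layer ρ i).add_mem h1 (hy i v hv)
          rw [map_mul]
          simpa [map_sub] using h2
        inv_mem' := fun {y} hy i v hv => by
          have h1 := layer_invariant ρ i y⁻¹ (hy i v hv)
          rw [map_sub, ← Module.End.mul_apply, ← map_mul, inv_mul_cancel, map_one,
            Module.End.one_apply] at h1
          simpa using (layer ρ i).neg_mem h1 }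
    suffices hS : derivedSeries P (j + 1) ≤ S from hS hx
    rw [derivedSeries_succ, Subgroup.commutator_le]
    intro g hg h hh i v hv
    have hj : i + 2 ^ (j + 1) = i + 2 ^ j + 2 ^ j := by rw [pow_succ']; omega
    set u := ρ (g⁻¹ * h⁻¹) v with hu
    have huL : u ∈ layer ρ (i + 2 ^ j + 2 ^ j) := by
      rw [← hj]; exact layer_invariant ρ _ _ hv
    have h1 := ih g hg i _ (ih h hh (i + 2 ^ j) u huL)
    have h2 := ih h hh i _ (ih g hg (i + 2 ^ j) u huL)
    have h3 := (layer ρ i).sub_mem h1 h2
    have e1 : ρ g (ρ h u) = ρ ⁅g, h⁆ v := by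
      simp only [hu, ← Module.End.mul_apply, ← map_mul, commutatorElement_def, mul_assoc]
    have e2 : ρ h (ρ g u) = v := by
      simp only [hu, ← Module.End.mul_apply, ← map_mul]
      rw [show h * (g * (g⁻¹ * h⁻¹)) = 1 by group, map_one, Module.End.one_apply]
    simp only [map_sub] at h3
    rw [e1, e2] at h3
    have e3 : ρ ⁅g, h⁆ v - v = ρ ⁅g, h⁆ v - ρ g u - (ρ h u - u) - (v - ρ h u - (ρ g u - u)) := by abel
    rw [e3]
    exact h3

/-- In the characteristic. -/
theorem derived_unipotent [Finite P] [FiniteDimensional L V] {p : ℕ} [Fact p.Prime] [CharP L p]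
    (hP : IsPGroup p P) (k : ℕ) (hk : finrank L V < 2 ^ k) : ∀ x ∈ derivedSeries P k, ρ x = 1 := by
  have key : ∀ i, layer ρ i = ⊤ ∨ i ≤ finrank L (layer ρ i) := by
    intro i
    induction i with
    | zero => right; exact Nat.zero_le _
    | succ i ih =>
      by_cases h : layer ρ i = ⊤
      · left; exact eq_top_iff.2 (h ▸ layer_le_succ ρ i)
      · right
        have := Submodule.finrank_lt_finrank_of_lt (layer_lt ρ hP h)
        have := ih.resolve_left h
        omega
  have htop : layer ρ (2 ^ k) = ⊤ := (key _).resolve_right fun h => by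
    have := Submodule.finrank_le (layer ρ (2 ^ k)); omega
  intro x hx
  refine LinearMap.ext fun v => ?_
  have := derived_layer ρ k x hx 0 v (by rw [zero_add, htop]; exact Submodule.mem_top)
  simpa [layer, sub_eq_zero] using this



/-- Let F be a field, n ≥ 1, and P a finite p-group (p a prime) admitting an injective homomorphism into the general linear group of degree n over F. Then the derived length of P is at most ⌊log₂ n⌋ + 1: that term of the derived series of P is trivial. -/
theorem result {P : Type*} [Group P] [Finite P] (p : ℕ) [Fact p.Prime] (hP : IsPGroup p P) (F : Type*) [Field F] (n : ℕ) (hn : 1 ≤ n) (ρ : P →* Matrix.GeneralLinearGroup (Fin n) F) (hρ : Function.Injective ρ) : derivedSeries P (Nat.log 2 n + 1) = ⊥ := by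
  classical
  let L := AlgebraicClosure F
  let f : Matrix.GeneralLinearGroup (Fin n) F →* Matrix.GeneralLinearGroup (Fin n) L :=
    Matrix.GeneralLinearGroup.map (algebraMap F L)
  let ρ' : P →* Module.End L (Fin n → L) :=
    (Matrix.toLinAlgEquiv' (R := L) (n := Fin n)).toMonoidHom.comp ((Units.coeHom _).comp (f.comp ρ))
  have hinj : ∀ x, ρ' x = 1 → x = 1 := by
    intro x hx
    refine hρ ?_
    rw [map_one]
    refine Units.ext (Matrix.map_injective (algebraMap F L).injective ?_)
    have h1 : ((f (ρ x) : Matrix.GeneralLinearGroup (Fin n) L) : Matrix (Fin n) (Fin n) L) = 1 :=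
      (Matrix.toLinAlgEquiv' (R := L) (n := Fin n)).injective (hx.trans (map_one _).symm)
    dsimp only
    rw [Units.val_one, Matrix.map_one _ (map_zero _) (map_one _)]
    exact h1
  have hn' : Module.finrank L (Fin n → L) < 2 ^ (Nat.log 2 n + 1) := by
    rw [Module.finrank_fin_fun]; exact Nat.lt_pow_succ_log_self one_lt_two n
  rw [Subgroup.eq_bot_iff_forall]
  intro x hx
  refine hinj x ?_
  by_cases hchar : (p : L) = 0
  · haveI : CharP L p := by
      rw [CharP.charP_iff_prime_eq_zero (Fact.out : p.Prime)]; exact hchar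
    exact derived_unipotent ρ' hP _ hn' x hx
  · refine derived_semisimple (q := p) _ _ rfl P hP ?_ ρ' _ hn' x hx
    obtain ⟨m, hm⟩ := IsPGroup.iff_card.1 hP
    rw [hm, Nat.cast_pow]
    exact pow_ne_zero _ hchar

end Cfsg.Agent.S4010
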