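import Cfsg.Statements.S4013
import Mathlib
-- import your own Cfsg.Agent.* helpers here

set_option autoImplicit false
open Cfsg

namespace Cfsg.Agent.S4013

/-- Let G be a finite p-group (p prime) and N < M normal subgroups of G such that for some g ∈ M ∖ N the conjugacy class of g is exactly M ∖ N. Then p = 2 and N has index 2 in M. -/
theorem result {G : Type*} [Group G] [Finite G] (p : ℕ) [Fact p.Prime] (hG : IsPGroup p G) (N M : Subgroup G) [N.Normal] [M.Normal] (hNM : N < M) (g : G) (hgM : g ∈ M) (hgN : g ∉ N) (hcl : {h : G | IsConj g h} = (M : Set G) \ (N : Set G)) : p = 2 ∧ N.relIndex M = 2 := by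
  have hp := (Fact.out : p.Prime)
  have hset : {h : G | IsConj g h}.ncard = Nat.card M - Nat.card N := by
    rw [hcl, Set.ncard_diff (SetLike.coe_subset_coe.2 hNM.le) (Set.toFinite _),
      ← Nat.card_coe_set_eq, ← Nat.card_coe_set_eq]
    rfl
  obtain ⟨k, hk⟩ := hG.index (Subgroup.centralizer ({g} : Set G))
  have hcls : {h : G | IsConj g h}.ncard = p ^ k := by
    rw [← hk, Set.ncard_def]
    rw [show {h : G | IsConj g h} = MulAction.orbit (ConjAct G) g by
      ext y; simp only [Set.mem_setOf_eq, ConjAct.mem_orbit_conjAct]; exact ⟨IsConj.symm, IsConj.symm⟩,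
      ← Set.ncard_def,
      ← MulAction.index_stabilizer, ConjAct.stabilizer_eq_centralizer]
    rfl
  obtain ⟨m, hm⟩ := IsPGroup.iff_card.1 (hG.to_subgroup M)
  obtain ⟨n, hn⟩ := IsPGroup.iff_card.1 (hG.to_subgroup N)
  have hrel : Nat.card N * N.relIndex M = Nat.card M :=
    (Subgroup.card_mul_index (N.subgroupOf M)) ▸ by
      rw [Subgroup.relIndex, Nat.card_congr (Subgroup.subgroupOfEquivOfLe hNM.le).toEquiv]
  have hlt : p ^ n < p ^ m := by
    rw [← hm, ← hn]
    exact (Nat.le_of_dvd Nat.card_pos (Subgroup.card_dvd_of_le hNM.le)).lt_of_ne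
      fun e => hNM.ne (Subgroup.eq_of_le_of_card_ge hNM.le e.ge)
  have hnm : n < m := (Nat.pow_lt_pow_iff_right hp.one_lt).1 hlt
  rw [hset, hm, hn] at hcls
  obtain ⟨d, rfl⟩ : ∃ d, m = n + (d + 1) := ⟨m - n - 1, by omega⟩
  have hsub : p ^ n * (p ^ (d + 1) - 1) = p ^ k := by
    rw [← hcls, Nat.mul_sub, mul_one, ← pow_add]
  have h1 : 1 < p ^ (d + 1) := Nat.one_lt_pow (by omega) hp.one_lt
  have hdvd : p ^ (d + 1) - 1 ∣ p ^ k := ⟨p ^ n, by rw [← hsub, mul_comm]⟩
  obtain ⟨i, -, hi⟩ := (Nat.dvd_prime_pow hp).1 hdvd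
  have hi0 : i = 0 := by
    by_contra hne
    have h2 : p ∣ p ^ (d + 1) := dvd_pow_self p (Nat.succ_ne_zero d)
    have h3 : p ∣ p ^ (d + 1) - 1 := hi ▸ dvd_pow_self p hne
    have h4 := Nat.dvd_sub h2 h3
    rw [show p ^ (d + 1) - (p ^ (d + 1) - 1) = 1 by omega] at h4
    exact hp.ne_one (Nat.eq_one_of_dvd_one h4)
  rw [hi0, pow_zero] at hi
  have h2 : p ^ (d + 1) = 2 := by omega
  have hp2 : p = 2 :=
    ((Nat.prime_dvd_prime_iff_eq hp Nat.prime_two).1 (h2 ▸ dvd_pow_self p (Nat.succ_ne_zero d)))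
  refine ⟨hp2, ?_⟩
  rw [hm, hn, pow_add, h2] at hrel
  exact Nat.eq_of_mul_eq_mul_left (pow_pos hp.pos n) hrel

end Cfsg.Agent.S4013
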