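import Cfsg.Statements.S4014
import Mathlib
import Cfsg.Agent.Lib.Transfer.PGroupFrattini
-- import your own Cfsg.Agent.* helpers here

set_option autoImplicit false
open Cfsg
open scoped commutatorElement

namespace Cfsg.Agent.S4014

universe u

theorem derived_succ_eq {H : Type u} [Group H] (i : ℕ) :
    (derivedSeries ↥(commutator H) i).map (commutator H).subtype = derivedSeries H (i + 1) := by
  induction i with
  | zero => rw [derivedSeries_zero, ← MonoidHom.range_eq_map, Subgroup.range_subtype, derivedSeries_one]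
  | succ i ih => rw [derivedSeries_succ, Subgroup.map_commutator, ih, ← derivedSeries_succ]

theorem derived_trivial {p : ℕ} [hp : Fact p.Prime] {α : Type*} [Finite α] :
    ∀ (k : ℕ) {H : Type u} [Group H] [Finite H] [MulAction H α], IsPGroup p H →
      (∀ a : α, Nat.card (MulAction.orbit H a) ≤ p ^ k) →
      ∀ g ∈ derivedSeries H k, ∀ a : α, g • a = a := by
  intro k
  induction k with
  | zero =>
    intro H _ _ _ _ horb g _ a
    have h1 : Nat.card (MulAction.orbit H a) ≤ 1 := by simpa using horb a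
    haveI : Nonempty (MulAction.orbit H a) := ⟨⟨a, MulAction.mem_orbit_self a⟩⟩
    haveI := Finite.card_le_one_iff_subsingleton.1 h1
    exact congrArg Subtype.val
      (Subsingleton.elim (⟨g • a, MulAction.mem_orbit a g⟩ : MulAction.orbit H a) ⟨a, MulAction.mem_orbit_self a⟩)
  | succ k ih =>
    intro H _ _ _ hH horb g hg a
    rw [← derived_succ_eq] at hg
    obtain ⟨g', hg', rfl⟩ := Subgroup.mem_map.1 hg
    refine ih (H := ↥(commutator H)) (hH.to_subgroup _) (fun b => ?_) g' hg' a
    set S := MulAction.stabilizer H b with hS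
    set D := commutator H with hD
    have hcard : Nat.card (MulAction.orbit ↥D b) = S.relIndex D := by
      rw [Subgroup.relIndex]
      have e : MulAction.stabilizer ↥D b = S.subgroupOf D := by
        ext x; rfl
      rw [← e, MulAction.index_stabilizer, ← Nat.card_coe_set_eq]
    rw [hcard]
    have hStotal : S.index ≤ p ^ (k + 1) := by
      rw [hS, MulAction.index_stabilizer, ← Nat.card_coe_set_eq]
      exact horb b
    by_cases hSt : S = ⊤
    · rw [hSt, Subgroup.relIndex_top_left]
      exact Nat.one_le_pow _ _ hp.out.pos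
    have hne : S ⊔ D ≠ ⊤ := by
      intro h
      apply hSt
      refine frattini_nongenerating (top_le_iff.1 ?_)
      rw [← h]
      exact sup_le_sup_left (Cfsg.Lib.Transfer.commutator_le_frattini hH) S
    obtain ⟨m, hm⟩ := IsPGroup.index hH (S ⊔ D)
    have hm0 : m ≠ 0 := by
      rintro rfl
      rw [pow_zero, Subgroup.index_eq_one] at hm
      exact hne hm
    have h2 : S.relIndex D * (S ⊔ D).index = S.index := by
      rw [← Subgroup.relIndex_mul_index (le_sup_left : S ≤ S ⊔ D)]
      congr 1
      have e1 := Subgroup.relIndex_mul_relIndex (S ⊓ D) S (S ⊔ D) inf_le_left le_sup_left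
      have e2 := Subgroup.relIndex_mul_relIndex (S ⊓ D) D (S ⊔ D) inf_le_right le_sup_right
      rw [Subgroup.inf_relIndex_left] at e1
      rw [Subgroup.inf_relIndex_right, Subgroup.relIndex_sup_right] at e2
      refine Nat.eq_of_mul_eq_mul_left (Nat.pos_of_ne_zero (Subgroup.index_ne_zero_of_finite (H := D.subgroupOf S))) ?_
      show D.relIndex S * _ = D.relIndex S * _
      rw [e1, ← e2, mul_comm]
    have h3 : S.relIndex D * p ≤ p ^ k * p := by
      calc S.relIndex D * p ≤ S.relIndex D * (S ⊔ D).index :=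
            Nat.mul_le_mul_left _ (hm ▸ Nat.le_self_pow hm0 p)
        _ = S.index := h2
        _ ≤ _ := hStotal.trans (le_of_eq (pow_succ p k))
    exact Nat.le_of_mul_le_mul_right h3 hp.out.pos

theorem wreath_step {D : Type u} [Group D] {Q : Type u} [Group Q] [Nontrivial Q] (j : ℕ) :
    ∀ x ∈ derivedSeries D j, ∃ w ∈ derivedSeries (D ≀ᵣ Q) (j + 1), w.right = 1 ∧ w.left 1 = x := by
  classical
  induction j with
  | zero =>
    intro x _
    obtain ⟨q, hq⟩ := exists_ne (1 : Q)
    let b : D ≀ᵣ Q := ⟨Pi.mulSingle 1 x, 1⟩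
    let t : D ≀ᵣ Q := ⟨1, q⟩
    refine ⟨⁅b, t⁆, ?_, ?_, ?_⟩
    · rw [derivedSeries_one]
      exact Subgroup.commutator_mem_commutator (Subgroup.mem_top b) (Subgroup.mem_top t)
    · simp [b, t, commutatorElement_def]
    · simp [b, t, commutatorElement_def, Pi.mulSingle_apply, hq, eq_comm]
  | succ j ih =>
    let B : Subgroup (D ≀ᵣ Q) := (RegularWreathProduct.rightHom (D := D) (Q := Q)).ker
    have hB : ∀ w : D ≀ᵣ Q, w ∈ B → w.right = 1 := fun w hw => hw
    let π : ↥B →* D :=
      { toFun := fun w => (w : D ≀ᵣ Q).left 1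
        map_one' := rfl
        map_mul' := fun v w => by
          show ((v : D ≀ᵣ Q) * w).left 1 = _
          simp [hB v v.2] }
    set A := (derivedSeries (D ≀ᵣ Q) (j + 1)).subgroupOf B with hA
    have hle : derivedSeries D j ≤ A.map π := by
      intro x hx
      obtain ⟨w, hw, hw1, hwx⟩ := ih x hx
      exact ⟨⟨w, hw1⟩, hw, hwx⟩
    intro x hx
    rw [derivedSeries_succ] at hx
    have hx' : x ∈ (⁅A, A⁆ : Subgroup ↥B).map π := by
      rw [Subgroup.map_commutator]
      exact Subgroup.commutator_mono hle hle hx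
    obtain ⟨w, hw, rfl⟩ := Subgroup.mem_map.1 hx'
    refine ⟨w, ?_, hB w w.2, rfl⟩
    rw [derivedSeries_succ]
    have h2 : (w : D ≀ᵣ Q) ∈ (⁅A, A⁆ : Subgroup ↥B).map B.subtype := ⟨w, hw, rfl⟩
    rw [Subgroup.map_commutator] at h2
    exact Subgroup.commutator_mono (Subgroup.map_le_iff_le_comap.2 le_rfl) (Subgroup.map_le_iff_le_comap.2 le_rfl) h2

theorem lower_ne_bot (C : Type) [Group C] [Nontrivial C] :
    ∀ k : ℕ, 1 ≤ k → derivedSeries (IteratedWreathProduct C k) (k - 1) ≠ ⊥ := by
  intro k hk
  induction k with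
  | zero => omega
  | succ k ih =>
    intro hbot
    obtain ⟨q, hq⟩ := exists_ne (1 : C)
    rcases k with _ | k
    · rw [derivedSeries_zero] at hbot
      have h1 : (⟨1, q⟩ : IteratedWreathProduct C 0 ≀ᵣ C) = 1 :=
        Subgroup.mem_bot.1 (hbot.le (Subgroup.mem_top (⟨1, q⟩ : IteratedWreathProduct C 0 ≀ᵣ C)))
      exact hq (congrArg RegularWreathProduct.right h1)
    · apply ih (Nat.succ_pos k)
      rw [eq_bot_iff]
      intro x hx
      obtain ⟨w, hw, -, hwx⟩ := wreath_step (D := IteratedWreathProduct C (k + 1)) (Q := C) k x hx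
      have hw1 : w = 1 := Subgroup.mem_bot.1 (hbot.le hw)
      rw [Subgroup.mem_bot, ← hwx, hw1]
      rfl

/-- Let p be a prime, n ≥ 1, and P a Sylow p-subgroup of the symmetric group on n letters. Then the derived length of P is exactly k = ⌊log_p n⌋ (the largest k with p^k ≤ n): the k-th derived subgroup of P is trivial and, when k ≥ 1, the (k−1)-st is not. -/
theorem result (p : ℕ) [Fact p.Prime] (n : ℕ) (hn : 1 ≤ n) (P : Sylow p (Equiv.Perm (Fin n))) : derivedSeries ↥(P : Subgroup (Equiv.Perm (Fin n))) (Nat.log p n) = ⊥ ∧ (1 ≤ Nat.log p n → derivedSeries ↥(P : Subgroup (Equiv.Perm (Fin n))) (Nat.log p n - 1) ≠ ⊥) := by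
  classical
  have hp := (inferInstance : Fact p.Prime).out
  constructor
  · -- the orbits have size at most the largest power of p below n
    have hfix : ∀ g ∈ derivedSeries ↥(P : Subgroup (Equiv.Perm (Fin n))) (Nat.log p n), ∀ a : Fin n, g • a = a := by
      refine derived_trivial _ P.isPGroup' fun a => ?_
      obtain ⟨j, hj⟩ := P.isPGroup'.card_orbit a
      have hle : Nat.card (MulAction.orbit ↥(P : Subgroup (Equiv.Perm (Fin n))) a) ≤ n :=
        le_trans (Nat.card_le_card_of_injective _ Subtype.val_injective) (le_of_eq (Nat.card_fin n))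
      rw [hj] at hle ⊢
      exact Nat.pow_le_pow_right hp.pos (Nat.le_log_of_pow_le hp.one_lt hle)
    rw [eq_bot_iff]
    intro g hg
    rw [Subgroup.mem_bot]
    exact Subtype.ext (Equiv.ext fun a => hfix g hg a)
  · intro hk hbot
    set k := Nat.log p n with hkdef
    have hle : p ^ k ≤ n := Nat.pow_log_le_self p (by omega)
    let C := Multiplicative (ZMod p)
    have hC : Nat.card C = p := (Nat.card_congr Multiplicative.toAdd).trans (Nat.card_zmod p)
    obtain P1 : Sylow p (Equiv.Perm (Fin (p ^ k))) := default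
    let e := Sylow.mulEquivIteratedWreathProduct p k (Fin (p ^ k)) (Nat.card_fin _) C hC P1
    let φ : ↥(P1 : Subgroup (Equiv.Perm (Fin (p ^ k)))) →* Equiv.Perm (Fin n) :=
      (Equiv.Perm.viaEmbeddingHom (Fin.castLEEmb hle)).comp (P1 : Subgroup (Equiv.Perm (Fin (p ^ k)))).subtype
    have hφ : Function.Injective φ :=
      (Equiv.Perm.viaEmbeddingHom_injective _).comp Subtype.val_injective
    obtain ⟨Q, hQ⟩ := (P1.isPGroup'.of_surjective φ.rangeRestrict φ.rangeRestrict_surjective).exists_le_sylow
    let ψ : IteratedWreathProduct C k →* ↥(P : Subgroup (Equiv.Perm (Fin n))) :=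
      (Q.equiv P).toMonoidHom.comp
        ((φ.codRestrict (Q : Subgroup (Equiv.Perm (Fin n))) (fun z => hQ ⟨z, rfl⟩)).comp e.symm.toMonoidHom)
    have hψ : Function.Injective ψ := (Q.equiv P).injective.comp
      ((show Function.Injective (φ.codRestrict (Q : Subgroup (Equiv.Perm (Fin n))) (fun z => hQ ⟨z, rfl⟩))
        from fun a b hab => hφ (congrArg Subtype.val hab)).comp e.symm.injective)
    haveI : Nontrivial C := Finite.one_lt_card_iff_nontrivial.1 (hC.symm ▸ hp.one_lt)
    refine lower_ne_bot C k hk ((Subgroup.map_eq_bot_iff_of_injective _ hψ).1 (le_bot_iff.1 ?_))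
    exact hbot ▸ map_derivedSeries_le_derivedSeries ψ (k - 1)

end Cfsg.Agent.S4014
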