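import Cfsg.Statements.S4022
import Cfsg.Agent.Lib.Solv.SchurZassenhaus

set_option autoImplicit false
open Cfsg
open scoped Pointwise commutatorElement

namespace Cfsg.Agent.S4022

open Cfsg.Lib.Solv

universe w

/-- All Sylow subgroups for primes other than `r` are cyclic. -/
def Cyc (r : ℕ) (G : Type*) [Group G] : Prop :=
  ∀ p : ℕ, p.Prime → p ≠ r → ∀ P : Sylow p G, IsCyclic P

/-- Prime-power subgroups of equal order are conjugate. -/
def DD (G : Type*) [Group G] : Prop :=
  ∀ p : ℕ, p.Prime → ∀ H K : Subgroup G, IsPGroup p H → IsPGroup p K → Nat.card H = Nat.card K →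
    ∃ g : G, MulAut.conj g • H = K

section
variable {G : Type w} [Group G] [Finite G] {r : ℕ}

lemma Cyc.subgroup (hG : Cyc r G) (Y : Subgroup G) : Cyc r Y := by
  intro p hp hpr P
  haveI := Fact.mk hp
  obtain ⟨Q, hQ⟩ := (P.isPGroup'.map Y.subtype).exists_le_sylow
  haveI := hG p hp hpr Q
  exact isCyclic_of_injective
    ((Subgroup.inclusion hQ).comp ((P : Subgroup Y).equivMapOfInjective Y.subtype Y.subtype_injective).toMonoidHom)
    ((Subgroup.inclusion_injective hQ).comp (MulEquiv.injective _))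

lemma Cyc.quotient (hG : Cyc r G) (N : Subgroup G) [N.Normal] : Cyc r (G ⧸ N) := by
  intro p hp hpr P
  haveI := Fact.mk hp
  obtain ⟨Q, rfl⟩ := Sylow.mapSurjective_surjective (QuotientGroup.mk'_surjective N) p P
  haveI := hG p hp hpr Q
  exact isCyclic_of_surjective ((QuotientGroup.mk' N).subgroupMap (Q : Subgroup G))
    (MonoidHom.subgroupMap_surjective _ _)

lemma DD.quotient (hG : DD G) (N : Subgroup G) [N.Normal] : DD (G ⧸ N) := by
  intro p hp H K hH hK hc
  haveI := Fact.mk hp
  have key : ∀ L : Subgroup (G ⧸ N), IsPGroup p L → ∃ P : Subgroup G, IsPGroup p P ∧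
      P.map (QuotientGroup.mk' N) = L ∧
      Nat.card P = p ^ (Nat.card L * Nat.card N).factorization p := by
    intro L hL
    set X := L.comap (QuotientGroup.mk' N) with hX
    obtain ⟨S⟩ : Nonempty (Sylow p X) := inferInstance
    let f : X →* L := (QuotientGroup.mk' N).subgroupComap L
    have hf : Function.Surjective f := MonoidHom.subgroupComap_surjective_of_surjective _ L (QuotientGroup.mk'_surjective N)
    refine ⟨(S : Subgroup X).map X.subtype, S.isPGroup'.map _, ?_, ?_⟩
    · have htop : (S.mapSurjective hf : Subgroup L) = ⊤ :=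
        ((S.mapSurjective hf).3 (hL.of_equiv Subgroup.topEquiv.symm) le_top).symm
      rw [Sylow.coe_mapSurjective] at htop
      rw [Subgroup.map_map, show (QuotientGroup.mk' N).comp X.subtype = L.subtype.comp f from rfl,
        ← Subgroup.map_map, htop, ← MonoidHom.range_eq_map, Subgroup.range_subtype]
    · rw [card_map_subtype', S.card_eq_multiplicity]
      have hNX : N ≤ X := fun x hx => by
        rw [hX, Subgroup.mem_comap, QuotientGroup.mk'_apply, (QuotientGroup.eq_one_iff x).2 hx]; exact L.one_mem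
      have hrel : N.relIndex X = Nat.card L := by
        calc N.relIndex X = (QuotientGroup.mk' N).ker.relIndex X := by rw [QuotientGroup.ker_mk']
          _ = Nat.card (X.map (QuotientGroup.mk' N)) := (card_map_eq_relIndex _ X).symm
          _ = Nat.card L := by rw [hX, Subgroup.map_comap_eq_self_of_surjective (QuotientGroup.mk'_surjective N)]
      rw [card_eq_mul_relIndex hNX, hrel, mul_comm]
  obtain ⟨P, hP, rfl, hPc⟩ := key H hH
  obtain ⟨Q, hQ, rfl, hQc⟩ := key K hK
  obtain ⟨g, hg⟩ := hG p hp P Q hP hQ (by rw [hPc, hQc, hc])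
  exact ⟨QuotientGroup.mk' N g, by rw [← map_conj_smul, hg]⟩

lemma conj_of_le (N H K : Subgroup G) [N.Normal] (hH : N ≤ H) (hK : N ≤ K)
    (h : ∃ x : G ⧸ N, MulAut.conj x • H.map (QuotientGroup.mk' N) = K.map (QuotientGroup.mk' N)) :
    ∃ g : G, MulAut.conj g • H = K := by
  obtain ⟨x, hx⟩ := h
  obtain ⟨g, rfl⟩ := QuotientGroup.mk'_surjective N x
  rw [← map_conj_smul, Subgroup.map_eq_map_iff, QuotientGroup.ker_mk', sup_eq_left.2 hK,
    sup_eq_left.2 (by rw [← conj_smul_normal g N]; exact smul_le_smul_left _ hH)] at hx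
  exact ⟨g, hx⟩

lemma conj_of_coprime [Group.IsSolvable G] (N H K : Subgroup G) [N.Normal] (hc : Nat.card H = Nat.card K)
    (hcop : (Nat.card H).Coprime (Nat.card N))
    (h : ∃ x : G ⧸ N, MulAut.conj x • H.map (QuotientGroup.mk' N) = K.map (QuotientGroup.mk' N)) :
    ∃ g : G, MulAut.conj g • H = K := by
  obtain ⟨x, hx⟩ := h
  obtain ⟨g, rfl⟩ := QuotientGroup.mk'_surjective N x
  rw [← map_conj_smul, Subgroup.map_eq_map_iff, QuotientGroup.ker_mk'] at hx
  obtain ⟨n, -, hn⟩ := exists_conj_le N K (MulAut.conj g • H) (by rw [Subgroup.normalizer_eq_top]; exact le_top)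
    (hx ▸ le_sup_left) (hc ▸ hcop) (by rw [card_conj_smul]; exact hcop)
    (Or.inl (Group.isSolvable_of_isSolvable_injective N.subtype_injective))
  have he : MulAut.conj g • H = MulAut.conj n • K := Subgroup.eq_of_le_of_card_ge hn
    (by rw [card_conj_smul, card_conj_smul, hc])
  exact ⟨n⁻¹ * g, by rw [map_mul, mul_smul, he, map_inv, inv_smul_smul]⟩

lemma card_map_lt {N : Subgroup G} [N.Normal] (hN : N ≠ ⊥) : Nat.card (G ⧸ N) < Nat.card G := by
  rw [Subgroup.card_eq_card_quotient_mul_card_subgroup N]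
  exact lt_mul_right Nat.card_pos ((Subgroup.one_lt_card_iff_ne_bot N).2 hN)

/-- In the presence of cyclic Sylow `q`-subgroups, an elementary normal `q`-subgroup lies in every
subgroup of order divisible by `q`. -/
lemma le_of_cyclic {q : ℕ} [hq : Fact q.Prime] (hcyc : ∀ P : Sylow q G, IsCyclic P) (N : Subgroup G)
    [N.Normal] (hN : N ≠ ⊥) (hqN : ∀ x ∈ N, x ^ q = 1) (H : Subgroup G) (hd : q ∣ Nat.card H) : N ≤ H := by
  classical
  have hNp : IsPGroup q N := fun x => ⟨1, Subtype.ext (by simpa using hqN x x.2)⟩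
  obtain ⟨x, hx⟩ := exists_prime_orderOf_dvd_card' (G := H) q hd
  have hxp : IsPGroup q (Subgroup.zpowers (x : G)) :=
    IsPGroup.of_card (n := 1) (by rw [Nat.card_zpowers, Subgroup.orderOf_coe, hx, pow_one])
  obtain ⟨P, hP⟩ := hxp.exists_le_sylow
  haveI := hcyc P
  haveI : Fintype (P : Subgroup G) := Fintype.ofFinite _
  have hNP : N ≤ (P : Subgroup G) := hNp.le_sylow_of_normal P
  set s := Finset.univ.filter (fun y : (P : Subgroup G) => y ^ q = 1) with hs
  have hle : s.card ≤ q := IsCyclic.card_pow_eq_one_le hq.out.pos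
  obtain ⟨y, hy⟩ : ∃ y : G, y ∈ N ∧ y ≠ 1 := by
    by_contra hno
    push Not at hno
    exact hN ((Subgroup.eq_bot_iff_forall N).2 hno)
  have hyo : orderOf y = q := orderOf_eq_prime (hqN y hy.1) hy.2
  have hsub : (Finset.univ.filter (fun z : (P : Subgroup G) => (z : G) ∈ Subgroup.zpowers y)) ⊆ s := by
    intro z hz
    rw [Finset.mem_filter] at hz
    rw [hs, Finset.mem_filter]
    exact ⟨hz.1, Subtype.ext (hqN _ (Subgroup.zpowers_le.2 hy.1 hz.2))⟩
  have hcard : (Finset.univ.filter (fun z : (P : Subgroup G) => (z : G) ∈ Subgroup.zpowers y)).card = q := by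
    rw [← Fintype.card_subtype, ← Nat.card_eq_fintype_card]
    calc Nat.card ((Subgroup.zpowers y).subgroupOf (P : Subgroup G)) = Nat.card (Subgroup.zpowers y) :=
        card_subgroupOf ((Subgroup.zpowers_le.2 hy.1).trans hNP)
      _ = q := by rw [Nat.card_zpowers, hyo]
  have heq := Finset.eq_of_subset_of_card_le hsub (hle.trans hcard.ge)
  have hall : ∀ z ∈ (P : Subgroup G), z ^ q = 1 → z ∈ Subgroup.zpowers y := by
    intro z hz hzq
    have : (⟨z, hz⟩ : (P : Subgroup G)) ∈ s := by
      rw [hs, Finset.mem_filter]; exact ⟨Finset.mem_univ _, Subtype.ext hzq⟩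
    rw [← heq, Finset.mem_filter] at this
    exact this.2
  intro z hz
  have hz' := hall z (hNP hz) (hqN z hz)
  have hx' : (x : G) ∈ Subgroup.zpowers y := hall _ (hP (Subgroup.mem_zpowers _))
    (orderOf_dvd_iff_pow_eq_one.1 (by rw [Subgroup.orderOf_coe, hx]))
  have hxy : Subgroup.zpowers (x : G) = Subgroup.zpowers y := Subgroup.eq_of_le_of_card_ge
    (Subgroup.zpowers_le.2 hx') (by rw [Nat.card_zpowers, Nat.card_zpowers, Subgroup.orderOf_coe, hx, hyo])
  rw [← hxy] at hz'
  exact Subgroup.zpowers_le.2 x.2 hz'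

end

/-- Subgroups of equal order prime to `r` are conjugate. -/
lemma hall_part (r : ℕ) : ∀ (n : ℕ) (G : Type w) [Group G] [Finite G] [Group.IsSolvable G], Nat.card G ≤ n →
    Cyc r G → ∀ H K : Subgroup G, Nat.card H = Nat.card K → (∀ p : ℕ, p.Prime → p ∣ Nat.card H → p ≠ r) →
    ∃ g : G, MulAut.conj g • H = K := by
  intro n
  induction n with
  | zero => intro G _ _ _ hn; exact absurd hn (Nat.card_pos (α := G)).not_ge
  | succ n ih =>
    intro G _ _ _ hn hG H K hc hr
    rcases subsingleton_or_nontrivial G with hs | hs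
    · exact ⟨1, Subsingleton.elim _ _⟩
    obtain ⟨N, hNn, -, hN, hNmin⟩ := exists_minimal_normal_le (N := (⊤ : Subgroup G)) bot_lt_top.ne'
    obtain ⟨-, q, hq, hNp, hNq⟩ := minimal_normal_elementary hN
      (Group.isSolvable_of_isSolvable_injective N.subtype_injective) hNmin
    haveI := Fact.mk hq
    have hlt := card_map_lt hN
    have ih' : Nat.card (H.map (QuotientGroup.mk' N)) = Nat.card (K.map (QuotientGroup.mk' N)) →
        ∃ x, MulAut.conj x • H.map (QuotientGroup.mk' N) = K.map (QuotientGroup.mk' N) := fun he =>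
      ih (G ⧸ N) (by omega) (hG.quotient N) _ _ he
        (fun p hp hd => hr p hp (hd.trans (Subgroup.card_map_dvd H _)))
    by_cases hd : q ∣ Nat.card H
    · have hcq : ∀ P : Sylow q G, IsCyclic P := hG q hq (hr q hq hd)
      have hH := le_of_cyclic hcq N hN hNq H hd
      have hK := le_of_cyclic hcq N hN hNq K (hc ▸ hd)
      refine conj_of_le N H K hH hK (ih' ?_)
      rw [card_map_eq_relIndex, card_map_eq_relIndex, QuotientGroup.ker_mk']
      exact Nat.eq_of_mul_eq_mul_left Nat.card_pos
        ((card_eq_mul_relIndex hH).symm.trans (hc.trans (card_eq_mul_relIndex hK)))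
    · obtain ⟨k, hk⟩ := IsPGroup.iff_card.1 hNp
      have hcop : (Nat.card H).Coprime (Nat.card N) :=
        hk ▸ ((hq.coprime_iff_not_dvd.2 hd).symm.pow_right k)
      refine conj_of_coprime N H K hc hcop (ih' ?_)
      rw [card_map_eq_relIndex, card_map_eq_relIndex, QuotientGroup.ker_mk',
        card_eq_relIndex_of_inf_eq_bot (inf_eq_bot_of_coprime_card hcop),
        card_eq_relIndex_of_inf_eq_bot (inf_eq_bot_of_coprime_card (hc ▸ hcop)), hc]

lemma main_aux (r : ℕ) : ∀ (n : ℕ) (G : Type w) [Group G] [Finite G] [Group.IsSolvable G], Nat.card G ≤ n →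
    Cyc r G → DD G → ∀ H K : Subgroup G, Nat.card H = Nat.card K →
    ∃ g : G, MulAut.conj g • H = K := by
  intro n
  induction n with
  | zero => intro G _ _ _ hn; exact absurd hn (Nat.card_pos (α := G)).not_ge
  | succ n ih =>
    intro G _ _ _ hn hG hD H K hc
    rcases subsingleton_or_nontrivial G with hs | hs
    · exact ⟨1, Subsingleton.elim _ _⟩
    obtain ⟨N, hNn, -, hN, hNmin⟩ := exists_minimal_normal_le (N := (⊤ : Subgroup G)) bot_lt_top.ne'
    obtain ⟨-, q, hq, hNp, hNq⟩ := minimal_normal_elementary hN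
      (Group.isSolvable_of_isSolvable_injective N.subtype_injective) hNmin
    haveI := Fact.mk hq
    have hlt := card_map_lt hN
    have ih' : Nat.card (H.map (QuotientGroup.mk' N)) = Nat.card (K.map (QuotientGroup.mk' N)) →
        ∃ x, MulAut.conj x • H.map (QuotientGroup.mk' N) = K.map (QuotientGroup.mk' N) := fun he =>
      ih (G ⧸ N) (by omega) (hG.quotient N) (hD.quotient N) _ _ he
    have hle : N ≤ H → N ≤ K → ∃ g : G, MulAut.conj g • H = K := by
      intro hH hK
      refine conj_of_le N H K hH hK (ih' ?_)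
      rw [card_map_eq_relIndex, card_map_eq_relIndex, QuotientGroup.ker_mk']
      exact Nat.eq_of_mul_eq_mul_left Nat.card_pos
        ((card_eq_mul_relIndex hH).symm.trans (hc.trans (card_eq_mul_relIndex hK)))
    obtain ⟨k, hk⟩ := IsPGroup.iff_card.1 hNp
    by_cases hd : q ∣ Nat.card H
    swap
    · have hcop : (Nat.card H).Coprime (Nat.card N) :=
        hk ▸ ((hq.coprime_iff_not_dvd.2 hd).symm.pow_right k)
      refine conj_of_coprime N H K hc hcop (ih' ?_)
      rw [card_map_eq_relIndex, card_map_eq_relIndex, QuotientGroup.ker_mk',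
        card_eq_relIndex_of_inf_eq_bot (inf_eq_bot_of_coprime_card hcop),
        card_eq_relIndex_of_inf_eq_bot (inf_eq_bot_of_coprime_card (hc ▸ hcop)), hc]
    by_cases hqr : q = r
    swap
    · exact hle (le_of_cyclic (hG q hq hqr) N hN hNq H hd)
        (le_of_cyclic (hG q hq hqr) N hN hNq K (hc ▸ hd))
    subst hqr
    set a := (Nat.card H).factorization q with ha
    by_cases hka : k ≤ a
    · have hmem : ∀ L : Subgroup G, q ^ k ∣ Nat.card L → N ≤ L := by
        intro L hL
        obtain ⟨S, hS⟩ := Sylow.exists_subgroup_card_pow_prime (G := L) q hL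
        have hSc : Nat.card (S.map L.subtype) = q ^ k := by rw [card_map_subtype', hS]
        obtain ⟨g, hg⟩ := hD q hq N (S.map L.subtype) hNp (IsPGroup.of_card hSc) (hk.trans hSc.symm)
        rw [conj_smul_normal] at hg
        exact hg ▸ Subgroup.map_subtype_le S
      have hdvd : q ^ k ∣ Nat.card H := (pow_dvd_pow q hka).trans (Nat.ordProj_dvd _ _)
      exact hle (hmem H hdvd) (hmem K (hc ▸ hdvd))
    push Not at hka
    have hpart : ∀ L : Subgroup G, Nat.card L = Nat.card H → Nat.card (L ⊓ N : Subgroup G) = q ^ a := by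
      intro L hL
      obtain ⟨S⟩ : Nonempty (Sylow q L) := inferInstance
      have hSc : Nat.card ((S : Subgroup L).map L.subtype) = q ^ a := by
        rw [card_map_subtype', S.card_eq_multiplicity, hL]
      obtain ⟨M, hMc, -⟩ : ∃ M : Subgroup N, Nat.card M = q ^ a ∧ True := by
        obtain ⟨M, hM⟩ := Sylow.exists_subgroup_card_pow_prime (G := N) q (n := a)
          (hk ▸ pow_dvd_pow q hka.le)
        exact ⟨M, hM, trivial⟩
      have hMc' : Nat.card (M.map N.subtype) = q ^ a := by rw [card_map_subtype', hMc]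
      obtain ⟨g, hg⟩ := hD q hq (M.map N.subtype) _ (IsPGroup.of_card hMc') (IsPGroup.of_card hSc) (hMc'.trans hSc.symm)
      have hSN : (S : Subgroup L).map L.subtype ≤ N := by
        rw [← hg]
        exact (smul_le_smul_left _ (Subgroup.map_subtype_le M)).trans (conj_smul_normal g N).le
      obtain ⟨j, hj⟩ := IsPGroup.iff_card.1 (hNp.to_le (inf_le_right : L ⊓ N ≤ N))
      refine le_antisymm ?_ (hSc ▸ Subgroup.card_le_of_le (le_inf (Subgroup.map_subtype_le _) hSN))
      rw [hj]
      refine Nat.pow_le_pow_right hq.pos ?_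
      rw [ha, ← hL]
      exact (hq.pow_dvd_iff_le_factorization Nat.card_pos.ne').1 (hj ▸ Subgroup.card_dvd_of_le inf_le_left)
    set R := K ⊓ N with hR
    obtain ⟨g, hg⟩ := hD q hq (H ⊓ N) R (hNp.to_le inf_le_right) (hNp.to_le inf_le_right)
      ((hpart H rfl).trans (hpart K hc.symm).symm)
    set H1 := MulAut.conj g • H with hH1
    have hRH1 : R = H1 ⊓ N := by rw [← hg, Subgroup.smul_inf, conj_smul_normal g N]
    set Y := Subgroup.normalizer (R : Set G) with hY
    have hnorm : ∀ L : Subgroup G, R = L ⊓ N → L ≤ Y := by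
      intro L hL x hx
      rw [hY, ← conj_smul_eq_self_iff, hL, Subgroup.smul_inf, conj_smul_normal x N,
        conj_smul_eq_self_iff.2 (Subgroup.le_normalizer hx)]
    have hH1Y : H1 ≤ Y := hnorm H1 hRH1
    have hKY : K ≤ Y := hnorm K rfl
    have hRY : R ≤ Y := Subgroup.le_normalizer
    haveI : (R.subgroupOf Y).Normal := Subgroup.normal_in_normalizer
    have hidx : ∀ L : Subgroup G, L ≤ Y → R ≤ L → Nat.card L = Nat.card H →
        Nat.card ((L.subgroupOf Y).map (QuotientGroup.mk' (R.subgroupOf Y))) * q ^ a = Nat.card H := by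
      intro L hLY hRL hL
      rw [card_map_eq_relIndex, QuotientGroup.ker_mk', Subgroup.relIndex_subgroupOf hLY, ← hpart K hc.symm,
        mul_comm, ← card_eq_mul_relIndex hRL, hL]
    have h1 := hidx H1 hH1Y (hRH1 ▸ inf_le_left) (card_conj_smul g H)
    have h2 := hidx K hKY inf_le_left hc.symm
    obtain ⟨y, hy⟩ := conj_of_le (R.subgroupOf Y) (H1.subgroupOf Y) (K.subgroupOf Y)
      (Subgroup.comap_mono (hRH1 ▸ inf_le_left)) (Subgroup.comap_mono inf_le_left)
      (hall_part q _ _ le_rfl ((hG.subgroup Y).quotient _) _ _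
        (Nat.eq_of_mul_eq_mul_right (pow_pos hq.pos a) (h1.trans h2.symm))
        (fun p hp hpd hpq => by
          subst hpq
          have h3 := mul_dvd_mul_right hpd (p ^ a)
          rw [h1, ← pow_succ', hp.pow_dvd_iff_le_factorization Nat.card_pos.ne', ← ha] at h3
          omega))
    have h := congrArg (Subgroup.map Y.subtype) hy
    rw [map_conj_smul, Subgroup.subgroupOf_map_subtype, inf_eq_left.2 hH1Y,
      Subgroup.subgroupOf_map_subtype, inf_eq_left.2 hKY, hH1, ← mul_smul, ← map_mul] at h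
    exact ⟨_, h⟩



/-- Let G be a finite solvable group in which, for every prime p, any two p-subgroups of the same order are conjugate, and suppose the Sylow p-subgroups of G are cyclic for all primes p with at most one exception. Then any two subgroups of G of the same order are conjugate. -/
theorem result {G : Type*} [Group G] [Finite G]
    [Group.IsSolvable G] (hD : ∀ p : ℕ, p.Prime → ∀ H K : Subgroup G, IsPGroup p H → IsPGroup p K → Nat.card H = Nat.card K →
      ∃ g : G, K = H.map (MulAut.conj g).toMonoidHom)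
    (r : ℕ) (hcyc : ∀ p : ℕ, p.Prime → p ≠ r → ∀ P : Sylow p G, IsCyclic P) :
    ∀ H K : Subgroup G, Nat.card H = Nat.card K → ∃ g : G, K = H.map (MulAut.conj g).toMonoidHom := by
  intro H K hHK
  obtain ⟨g, hg⟩ := main_aux r _ G le_rfl hcyc
    (fun p hp A B hA hB hAB => by
      obtain ⟨g, hg⟩ := hD p hp A B hA hB hAB
      exact ⟨g, hg.symm⟩) H K hHK
  exact ⟨g, hg.symm⟩

end Cfsg.Agent.S4022
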