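import Cfsg.Statements.S4027
import Mathlib
import Cfsg.Agent.Lib.Solv.RealElements
-- import your own Cfsg.Agent.* helpers here

set_option autoImplicit false
open Cfsg

namespace Cfsg.Agent.S4027

/-- Let G be a finite group in which every element x of odd order satisfies N_G(⟨x⟩) = C_G(x). Then the Sylow 2-subgroups of G are normal. -/
theorem result {G : Type*} [Group G] [Finite G]
    (hirr : ∀ x : G, (∀ r : ℕ, r.Prime → r ∣ orderOf x → r ≠ 2) →
      Subgroup.normalizer ((Subgroup.zpowers x : Subgroup G) : Set G) ≤ Subgroup.centralizer {x}) (P : Sylow 2 G) :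
    (P : Subgroup G).Normal := by
  by_contra hP
  obtain ⟨t, x, q, hq, hq2, hx, htx⟩ := Cfsg.Lib.Solv.exists_real_prime P hP
  have hn : t ∈ Subgroup.normalizer ((Subgroup.zpowers x : Subgroup G) : Set G) := by
    haveI : Finite (Subgroup.zpowers x) := inferInstance
    refine Subgroup.mem_normalizer_iff.2 fun y => ?_
    have e : (Subgroup.zpowers x).map (MulAut.conj t).toMonoidHom = Subgroup.zpowers x := by
      rw [MonoidHom.map_zpowers]
      show Subgroup.zpowers (MulAut.conj t x) = _
      rw [MulAut.conj_apply, htx, Subgroup.zpowers_inv]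
    constructor
    · intro hy
      rw [← e]
      exact ⟨y, hy, rfl⟩
    · intro hy
      rw [← e] at hy
      obtain ⟨z, hz, hzy⟩ := hy
      rwa [← (MulAut.conj t).injective hzy]
  have hc := Subgroup.mem_centralizer_singleton_iff.1 (hirr x (fun r hr hd => by
    rw [hx] at hd
    rw [(Nat.prime_dvd_prime_iff_eq hr hq).1 hd]
    exact hq2) hn)
  rw [hc, mul_inv_cancel_right] at htx
  have h2 : x ^ 2 = 1 := by rw [pow_two]; nth_rewrite 2 [htx]; exact mul_inv_cancel x
  exact hq2 ((Nat.prime_dvd_prime_iff_eq hq Nat.prime_two).1 (hx ▸ orderOf_dvd_of_pow_eq_one h2))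

end Cfsg.Agent.S4027
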