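import Cfsg.Statements.S4028
import Mathlib
import Cfsg.Agent.Lib.Transfer.Action
import Cfsg.Agent.Lib.Solv.SchurZassenhaus
-- import your own Cfsg.Agent.* helpers here

set_option autoImplicit false
open Cfsg
open scoped Pointwise commutatorElement

namespace Cfsg.Agent.S4028

/-- Let G be a finite group with Sylow 2-subgroup P. Then N_G(⟨x⟩) = C_G(x) holds for every 2-element x of G if and only if N_P(⟨y⟩) = C_P(y) holds for every y ∈ P (computed inside P). -/
theorem result {G : Type*} [Group G] [Finite G] (P : Sylow 2 G) :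
    (∀ x : G, (∀ r : ℕ, r.Prime → r ∣ orderOf x → r = 2) →
      Subgroup.normalizer ((Subgroup.zpowers x : Subgroup G) : Set G) ≤ Subgroup.centralizer {x}) ↔
    (∀ y : ↥(P : Subgroup G), Subgroup.normalizer ((Subgroup.zpowers y : Subgroup ↥(P : Subgroup G)) : Set ↥(P : Subgroup G)) ≤
        Subgroup.centralizer {y}) := by
  classical
  haveI := Fact.mk Nat.prime_two
  constructor
  · intro h y g hg
    have hy2 : ∀ r : ℕ, r.Prime → r ∣ orderOf (y : G) → r = 2 := by
      intro r hr hd
      obtain ⟨k, hk⟩ := IsPGroup.iff_orderOf.1 P.2 y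
      rw [Subgroup.orderOf_coe, hk] at hd
      exact (Nat.prime_dvd_prime_iff_eq hr Nat.prime_two).1 (hr.dvd_of_dvd_pow hd)
    have hgG : (g : G) ∈ Subgroup.normalizer ((Subgroup.zpowers (y : G) : Subgroup G) : Set G) := by
      refine Subgroup.mem_normalizer_iff.2 fun z => ⟨?_, fun hz => ?_⟩
      · rintro ⟨i, rfl⟩
        obtain ⟨j, hj⟩ := (Subgroup.mem_normalizer_iff.1 hg _).1 ⟨i, rfl⟩
        exact ⟨j, by simpa using congrArg Subtype.val hj⟩
      · obtain ⟨i, hi⟩ := hz
        obtain ⟨j, hj⟩ := (Subgroup.mem_normalizer_iff.1 (inv_mem hg) _).1 ⟨i, rfl⟩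
        refine ⟨j, ?_⟩
        have := congrArg Subtype.val hj
        simp only [Subgroup.coe_zpow, Subgroup.coe_mul, Subgroup.coe_inv, hi] at this
        simp [this, mul_assoc]
    exact Subgroup.mem_centralizer_singleton_iff.2
      (Subtype.ext (Subgroup.mem_centralizer_singleton_iff.1 (h _ hy2 hgG)))
  · intro h x hx g hg
    have hxo : ∃ k, orderOf x = 2 ^ k := by
      refine ⟨(orderOf x).factorization 2, Nat.eq_pow_of_factorization_eq_single (orderOf_pos x).ne' ?_⟩
      ext q
      by_cases hq : q = 2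
      · subst hq; simp
      · rw [Finsupp.single_eq_of_ne hq]
        by_cases hqp : q.Prime
        · exact Nat.factorization_eq_zero_of_not_dvd fun hd => hq (hx q hqp hd)
        · exact Nat.factorization_eq_zero_of_not_prime _ hqp
    obtain ⟨k, hk⟩ := hxo
    refine Cfsg.Lib.Transfer.mem_of_forall_pow_ordCompl_mem fun r hr => ?_
    set y := g ^ (orderOf g / r ^ (orderOf g).factorization r) with hy
    have hyN : y ∈ Subgroup.normalizer ((Subgroup.zpowers x : Subgroup G) : Set G) := pow_mem hg _
    have hyo : orderOf y = r ^ (orderOf g).factorization r := by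
      rw [hy, orderOf_pow_of_dvd (Nat.ordCompl_pos r (orderOf_pos g).ne').ne' (Nat.ordCompl_dvd _ _),
        Nat.div_div_self (Nat.ordProj_dvd _ _) (orderOf_pos g).ne']
    have hX : IsPGroup 2 (Subgroup.zpowers x) := IsPGroup.of_card (by rw [Nat.card_zpowers]; exact hk)
    by_cases hr2 : r = 2
    · subst hr2
      set T := Subgroup.zpowers x ⊔ Subgroup.zpowers y with hT
      have hTp : IsPGroup 2 T := hX.to_sup_of_normal_left'
        (IsPGroup.of_card (by rw [Nat.card_zpowers]; exact hyo)) (Subgroup.zpowers_le.2 hyN)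
      obtain ⟨S, hS⟩ := hTp.exists_le_sylow
      obtain ⟨u, hu⟩ := MulAction.exists_smul_eq G S P
      have hxP : u * x * u⁻¹ ∈ (P : Subgroup G) := by
        rw [← hu]; exact ⟨x, hS (Subgroup.mem_sup_left (Subgroup.mem_zpowers x)), rfl⟩
      have hyP : u * y * u⁻¹ ∈ (P : Subgroup G) := by
        rw [← hu]; exact ⟨y, hS (Subgroup.mem_sup_right (Subgroup.mem_zpowers y)), rfl⟩
      have hn : (⟨_, hyP⟩ : (P : Subgroup G)) ∈ Subgroup.normalizer
          ((Subgroup.zpowers (⟨_, hxP⟩ : (P : Subgroup G)) : Subgroup (P : Subgroup G)) : Set (P : Subgroup G)) := by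
        rw [← Cfsg.Lib.Solv.conj_smul_eq_self_iff]
        refine Subgroup.eq_of_le_of_card_ge ?_ (Cfsg.Lib.Solv.card_conj_smul _ _).ge
        rintro _ ⟨z, ⟨i, rfl⟩, rfl⟩
        obtain ⟨j, hj⟩ := (Subgroup.mem_normalizer_iff.1 hyN (x ^ i)).1 ⟨i, rfl⟩
        refine ⟨j, Subtype.ext ?_⟩
        have hj' : x ^ j = y * x ^ i * y⁻¹ := hj
        show ((⟨_, hxP⟩ : (P : Subgroup G)) ^ j : G) = _
        simp only [Subgroup.coe_zpow, conj_zpow, hj']
        simp [conj_zpow]
        group
      have hc : u * y * u⁻¹ * (u * x * u⁻¹) = u * x * u⁻¹ * (u * y * u⁻¹) :=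
        congrArg Subtype.val (Subgroup.mem_centralizer_singleton_iff.1 (h ⟨_, hxP⟩ hn))
      refine Subgroup.mem_centralizer_singleton_iff.2 ?_
      calc y * x = u⁻¹ * (u * y * u⁻¹ * (u * x * u⁻¹)) * u := by group
        _ = u⁻¹ * (u * x * u⁻¹ * (u * y * u⁻¹)) * u := by rw [hc]
        _ = x * y := by group
    · -- an odd order automorphism of a cyclic 2-group is trivial
      obtain ⟨m, hm⟩ := (Subgroup.mem_normalizer_iff.1 hyN x).1 (Subgroup.mem_zpowers x)
      have hm' : x ^ m = y * x * y⁻¹ := hm
      refine Subgroup.mem_centralizer_singleton_iff.2 ?_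
      rcases Cfsg.Lib.Transfer.cyclic_coprime_action hX inferInstance hyN
        (by rw [hyo]; exact ((Nat.coprime_primes hr Nat.prime_two).2 hr2).pow_left _) with hc | hc
      · exact (Subgroup.mem_centralizer_iff.1 hc x (Subgroup.mem_zpowers x)).symm
      · -- the commutator lies in the proper subgroup of squares
        by_cases hk0 : k = 0
        · subst hk0
          rw [pow_zero, orderOf_eq_one_iff] at hk
          rw [hk, mul_one, one_mul]
        exfalso
        set Q := Subgroup.zpowers (x ^ 2) with hQ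
        have hodd : Odd m := by
          rcases Int.even_or_odd m with ⟨t, ht⟩ | hodd
          · exfalso
            have h1 : (x ^ m) ^ (2 ^ (k - 1) : ℕ) = 1 := by
              rw [← zpow_natCast, ← zpow_mul]
              refine orderOf_dvd_iff_zpow_eq_one.1 ⟨t, ?_⟩
              rw [hk, ht]
              obtain ⟨k', rfl⟩ : ∃ k', k = k' + 1 := ⟨k - 1, by omega⟩
              push_cast
              simp only [Nat.add_sub_cancel, pow_succ]
              ring
            rw [hm', conj_pow, conj_eq_one_iff] at h1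
            have h2 := orderOf_dvd_of_pow_eq_one h1
            rw [hk] at h2
            have := (Nat.pow_dvd_pow_iff_le_right (by norm_num : 1 < 2)).1 h2
            omega
          · exact hodd
        have hle : ⁅Subgroup.zpowers x, Subgroup.zpowers y⁆ ≤ Q := by
          rw [Subgroup.commutator_le]
          rintro _ ⟨i, rfl⟩ _ ⟨j, rfl⟩
          have key : ∀ j : ℕ, ∃ t : ℤ, y ^ j * x * (y ^ j)⁻¹ = x ^ (2 * t + 1) := by
            intro j
            induction j with
            | zero => exact ⟨0, by simp⟩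
            | succ j ih =>
              obtain ⟨t, ht⟩ := ih
              obtain ⟨s, hs⟩ := hodd
              refine ⟨2 * s * t + s + t, ?_⟩
              calc y ^ (j + 1) * x * (y ^ (j + 1))⁻¹ = y * (y ^ j * x * (y ^ j)⁻¹) * y⁻¹ := by
                    rw [pow_succ']; group
                _ = (y * x * y⁻¹) ^ (2 * t + 1) := by rw [ht, conj_zpow]
                _ = _ := by
                    rw [← hm', ← zpow_mul, hs]
                    ring_nf
          obtain ⟨n, hn⟩ : ∃ n : ℕ, y ^ j = y ^ n := by
            refine ⟨(j % (orderOf y : ℤ)).toNat, ?_⟩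
            rw [← zpow_natCast, Int.toNat_of_nonneg (Int.emod_nonneg _ (by exact_mod_cast (orderOf_pos y).ne')),
              zpow_mod_orderOf]
          obtain ⟨t, ht⟩ := key n
          refine ⟨-(t * i), ?_⟩
          show (x ^ (2 : ℕ)) ^ (-(t * i)) = ⁅x ^ i, y ^ j⁆
          rw [commutatorElement_def, hn]
          calc (x ^ (2 : ℕ)) ^ (-(t * i)) = x ^ i * (x ^ (2 * t + 1)) ^ (-i) := by
                rw [← zpow_natCast, ← zpow_mul, ← zpow_mul, ← zpow_add]
                congr 1
                push_cast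
                ring
            _ = _ := by rw [← ht, conj_zpow, zpow_neg]; group
        have hxQ : x ∈ Q := hle (hc (Subgroup.mem_zpowers x))
        have h1 : orderOf x ∣ orderOf (x ^ 2) := orderOf_dvd_of_mem_zpowers hxQ
        have h2 : orderOf (x ^ 2) * 2 = orderOf x := by
          obtain ⟨k', rfl⟩ : ∃ k', k = k' + 1 := ⟨k - 1, by omega⟩
          rw [orderOf_pow_of_dvd two_ne_zero (hk ▸ dvd_pow_self 2 hk0), hk, pow_succ, Nat.mul_div_cancel _ two_pos]
        have := Nat.le_of_dvd (orderOf_pos _) h1
        have := orderOf_pos (x ^ 2)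
        omega

end Cfsg.Agent.S4028
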