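import Cfsg.Statements.S4029
import Cfsg.Agent.Lib.Characters.Permutation
import Cfsg.Agent.Lib.Characters.Induction
import Cfsg.Agent.Lib.Transfer.PGroupFrattini
import Cfsg.Agent.Lib.Solv.PGroupBasic

set_option autoImplicit false
open Cfsg
open scoped Pointwise commutatorElement

namespace Cfsg.Agent.S4029

/-- Let P be a finite 2-group in which N_P(⟨y⟩) = C_P(y) for every y ∈ P. If s is the number of conjugacy classes of involutions of P, then #(P/Φ(P)) ≤ s + 1; in particular the subgroup generated by the involutions of P has order at least #(P/Φ(P)). -/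
theorem result {P : Type*} [Group P] [Finite P] (hP : IsPGroup 2 P)
    (hirr : ∀ y : P, Subgroup.normalizer ((Subgroup.zpowers y : Subgroup P) : Set P) ≤ Subgroup.centralizer {y}) :
    Nat.card (P ⧸ frattini P) ≤ Nat.card {c : ConjClasses P // ∃ y : P, ConjClasses.mk y = c ∧ orderOf y = 2} + 1 ∧
    Nat.card (P ⧸ frattini P) ≤ Nat.card (Subgroup.closure {y : P | orderOf y = 2}) := by
  classical
  -- real classes are the classes of elements of order at most two
  have hreal : ∀ g : P, IsConj g g⁻¹ → g ^ 2 = 1 := by
    intro g hg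
    obtain ⟨c, hc⟩ := isConj_iff.1 hg
    have hn : c ∈ Subgroup.normalizer ((Subgroup.zpowers g : Subgroup P) : Set P) := by
      rw [Subgroup.mem_normalizer_iff]
      intro x
      constructor
      · intro hx
        obtain ⟨k, rfl⟩ := Subgroup.mem_zpowers_iff.1 hx
        rw [← conj_zpow, hc, inv_zpow]
        exact (Subgroup.zpowers g).inv_mem ⟨k, rfl⟩
      · intro hx
        obtain ⟨k, hk⟩ := Subgroup.mem_zpowers_iff.1 hx
        refine Subgroup.mem_zpowers_iff.2 ⟨-k, ?_⟩
        apply mul_left_cancel (a := c)
        apply mul_right_cancel (b := c⁻¹)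
        rw [← hk, ← conj_zpow, hc, zpow_neg, inv_zpow, inv_inv]
    have hcg := Subgroup.mem_centralizer_singleton_iff.1 (hirr g hn)
    have h : g = g⁻¹ := by
      calc g = c * g * c⁻¹ := by rw [hcg, mul_inv_cancel_right]
        _ = _ := hc
    rw [sq]; nth_rewrite 2 [h]; exact mul_inv_cancel g
  let I := {c : ConjClasses P // ∃ y : P, ConjClasses.mk y = c ∧ orderOf y = 2}
  have h1 : Nat.card {C : ConjClasses P // ∀ g : P, ConjClasses.mk g = C → IsConj g g⁻¹} ≤
      Nat.card I + 1 := by
    rw [← Finite.card_option]
    refine Nat.card_le_card_of_injective (fun C =>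
      if h : ∃ y : P, ConjClasses.mk y = C.1 ∧ orderOf y = 2 then some ⟨C.1, h⟩ else none) ?_
    have hone : ∀ C : {C : ConjClasses P // ∀ g : P, ConjClasses.mk g = C → IsConj g g⁻¹},
        ¬ (∃ y : P, ConjClasses.mk y = C.1 ∧ orderOf y = 2) → C.1 = ConjClasses.mk 1 := by
      intro C hC
      obtain ⟨g, hg⟩ := ConjClasses.mk_surjective C.1
      rw [← hg]
      congr 1
      by_contra hg1
      exact hC ⟨g, hg, orderOf_eq_prime (hreal g (C.2 g hg)) hg1⟩
    intro a b hab
    apply Subtype.ext
    dsimp only at hab
    split_ifs at hab with ha hb hb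
    · exact congrArg (fun x : I => (x : ConjClasses P)) (Option.some.inj hab)
    · rw [hone a ha, hone b hb]
  -- real linear characters
  have hΦn : (frattini P).Normal := inferInstance
  let _ : CommGroup (P ⧸ frattini P) :=
    { (inferInstance : Group (P ⧸ frattini P)) with
      mul_comm := by
        intro a b
        induction a using QuotientGroup.induction_on with
        | H a => induction b using QuotientGroup.induction_on with
          | H b =>
            rw [← QuotientGroup.mk_mul, ← QuotientGroup.mk_mul, QuotientGroup.eq]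
            apply Lib.Solv.commutator_le_frattini hP
            have := Subgroup.commutator_mem_commutator (Subgroup.mem_top b⁻¹)
              (Subgroup.mem_top a⁻¹)
            simpa [commutatorElement_def, commutator_def, mul_assoc] using this }
  have h2 : Nat.card (P ⧸ frattini P) ≤
      Nat.card {χ : IrrCharacter P // ∀ g : P, ((χ : P → ℂ) g).im = 0} := by
    rw [← CommGroup.card_monoidHom_of_hasEnoughRootsOfUnity (P ⧸ frattini P) ℂ]
    refine Nat.card_le_card_of_injective (fun φ =>
      ⟨⟨fun g => ((φ.comp (QuotientGroup.mk' (frattini P))) g : ℂ),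
        Lib.Characters.isIrrCharacter_linear _⟩, fun g => ?_⟩) ?_
    · have hsq : (φ (g : P ⧸ frattini P)) ^ 2 = 1 := by
        rw [← map_pow, ← QuotientGroup.mk_pow,
          (QuotientGroup.eq_one_iff _).2 (Lib.Solv.pow_mem_frattini hP g), map_one]
      have hv : ((φ (g : P ⧸ frattini P) : ℂˣ) : ℂ) ^ 2 = 1 := by
        rw [← Units.val_pow_eq_pow_val, hsq, Units.val_one]
      show ((φ (g : P ⧸ frattini P) : ℂˣ) : ℂ).im = 0
      rcases sq_eq_one_iff.1 hv with e | e <;> rw [e] <;> simp
    · intro a b hab
      have h := Lib.Characters.linear_char_injective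
        (congrArg (fun x : {χ : IrrCharacter P // ∀ g : P, ((χ : P → ℂ) g).im = 0} =>
          ((x.1 : IrrCharacter P) : P → ℂ)) hab)
      refine MonoidHom.ext fun q => ?_
      obtain ⟨g, rfl⟩ := QuotientGroup.mk'_surjective (frattini P) q
      exact DFunLike.congr_fun h g
  have hA : Nat.card (P ⧸ frattini P) ≤ Nat.card I + 1 :=
    h2.trans ((Lib.Characters.card_real_irr_eq (G := P)).le.trans h1)
  refine ⟨hA, hA.trans ?_⟩
  rw [← Finite.card_option]
  let r : Option I → Subgroup.closure {y : P | orderOf y = 2} := fun o =>
    match o with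
    | none => 1
    | some c => ⟨c.2.choose, Subgroup.subset_closure c.2.choose_spec.2⟩
  refine Nat.card_le_card_of_injective r ?_
  intro a b hab
  have h := congrArg Subtype.val hab
  rcases a with _ | a <;> rcases b with _ | b
  · rfl
  · simp only [r, OneMemClass.coe_one] at h
    have := b.2.choose_spec.2
    rw [← h, orderOf_one] at this
    omega
  · simp only [r, OneMemClass.coe_one] at h
    have := a.2.choose_spec.2
    rw [h, orderOf_one] at this
    omega
  · simp only [r] at h
    exact congrArg some (Subtype.ext (by rw [← a.2.choose_spec.1, h, b.2.choose_spec.1]))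

end Cfsg.Agent.S4029
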