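import Cfsg.Statements.S4032
import Mathlib
import Cfsg.Agent.Lib.Solv.SchurZassenhaus
-- import your own Cfsg.Agent.* helpers here

set_option autoImplicit false
open Cfsg
open scoped Pointwise

namespace Cfsg.Agent.S4032

/-- Let π be a set of primes and G a finite group in which N_G(⟨x⟩) = C_G(x) for every π-element x. If N is a normal subgroup of G whose order is divisible by no prime of π, then G/N has the same property: N_{G/N}(⟨y⟩) = C_{G/N}(y) for every π-element y of G/N. -/
theorem result {G : Type*} [Group G] [Finite G] (π : Set ℕ)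
    (hirr : ∀ x : G, (∀ r : ℕ, r.Prime → r ∣ orderOf x → r ∈ π) →
      Subgroup.normalizer ((Subgroup.zpowers x : Subgroup G) : Set G) ≤ Subgroup.centralizer {x})
    (N : Subgroup G) [N.Normal] (hN : ∀ r : ℕ, r.Prime → r ∣ Nat.card N → r ∉ π) :
    ∀ y : G ⧸ N, (∀ r : ℕ, r.Prime → r ∣ orderOf y → r ∈ π) →
      Subgroup.normalizer ((Subgroup.zpowers y : Subgroup (G ⧸ N)) : Set (G ⧸ N)) ≤ Subgroup.centralizer {y} := by
  intro y hy z hz
  set π' := QuotientGroup.mk' N with hπ
  obtain ⟨u, rfl⟩ := QuotientGroup.mk'_surjective N y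
  obtain ⟨g, rfl⟩ := QuotientGroup.mk'_surjective N z
  set m := Nat.card N with hm
  set o := orderOf (π' u) with ho
  have hcop : o.Coprime m := Nat.coprime_of_dvd fun r hr h1 h2 => hN r hr h2 (hy r hr h1)
  obtain ⟨k, hk⟩ : ∃ k : ℤ, (o : ℤ) ∣ (m : ℤ) * k - 1 := by
    obtain ⟨a, b, hab⟩ := (Int.isCoprime_iff_nat_coprime.2
      (show (o : ℤ).natAbs.Coprime (m : ℤ).natAbs by simpa using hcop))
    exact ⟨b, -a, by linarith⟩
  set x := u ^ ((m : ℤ) * k) with hx
  have hxy : π' x = π' u := by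
    obtain ⟨c, hc⟩ := hk
    rw [hx, map_zpow, show (m : ℤ) * k = (o : ℤ) * c + 1 by linarith, zpow_add, zpow_mul, zpow_natCast,
      ho, pow_orderOf_eq_one, one_zpow, one_mul, zpow_one]
  have hxo : orderOf x ∣ o := orderOf_dvd_of_pow_eq_one (by
    have h1 : u ^ o ∈ N := (QuotientGroup.eq_one_iff _).1 (by
      show π' (u ^ o) = 1
      rw [map_pow, ho, pow_orderOf_eq_one])
    have h2 : (u ^ o) ^ m = 1 := congrArg Subtype.val (pow_card_eq_one' (x := (⟨_, h1⟩ : N)))
    rw [hx, ← zpow_natCast, ← zpow_mul, show (m : ℤ) * k * (o : ℤ) = ((o * m : ℕ) : ℤ) * k by push_cast; ring,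
      zpow_mul, zpow_natCast, pow_mul, h2, one_zpow])
  have hxc : (Nat.card (Subgroup.zpowers x)).Coprime m := by
    rw [Nat.card_zpowers]; exact hcop.coprime_dvd_left hxo
  have hle : Subgroup.zpowers (g * x * g⁻¹) ≤ Subgroup.zpowers x ⊔ N := by
    rw [Subgroup.zpowers_le]
    have h1 := (Subgroup.mem_normalizer_iff.1 hz (π' u)).1 (Subgroup.mem_zpowers _)
    rw [← hxy, ← map_inv, ← map_mul, ← map_mul, ← MonoidHom.map_zpowers, ← Subgroup.mem_comap,
      Subgroup.comap_map_eq, QuotientGroup.ker_mk'] at h1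
    exact h1
  have hord : orderOf (g * x * g⁻¹) = orderOf x :=
    orderOf_injective (MulAut.conj g).toMonoidHom (MulAut.conj g).injective x
  obtain ⟨n, hn, hnle⟩ := Cfsg.Lib.Solv.exists_conj_le N (Subgroup.zpowers x) (Subgroup.zpowers (g * x * g⁻¹))
    Subgroup.le_normalizer_of_normal hle hxc (by rw [Nat.card_zpowers, hord, ← Nat.card_zpowers]; exact hxc)
    (Or.inr (by
      letI : CommGroup (Subgroup.zpowers (g * x * g⁻¹)) :=
        { (inferInstance : Group (Subgroup.zpowers (g * x * g⁻¹))) with mul_comm := mul_comm' }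
      exact Group.isSolvable_of_comm fun a b => mul_comm a b))
  have hmem := Cfsg.Lib.Solv.mem_conj_smul.1 (hnle (Subgroup.mem_zpowers _))
  set w := n⁻¹ * g with hw
  have hwx : w * x * w⁻¹ ∈ Subgroup.zpowers x := by
    have e : w * x * w⁻¹ = n⁻¹ * (g * x * g⁻¹) * n := by rw [hw]; group
    rw [e]; exact hmem
  have hwn : w ∈ Subgroup.normalizer ((Subgroup.zpowers x : Subgroup G) : Set G) := by
    have heq : (Subgroup.zpowers x).map (MulAut.conj w).toMonoidHom = Subgroup.zpowers x := by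
      refine Subgroup.eq_of_le_of_card_ge ?_
        (Nat.card_congr (Subgroup.equivMapOfInjective _ _ (MulAut.conj w).injective).toEquiv).le
      rw [MonoidHom.map_zpowers, Subgroup.zpowers_le]
      exact hwx
    refine Subgroup.mem_normalizer_iff.2 fun a => ⟨fun ha => ?_, fun ha => ?_⟩
    · rw [← heq]; exact ⟨a, ha, rfl⟩
    · rw [← heq] at ha
      obtain ⟨b, hb, hba⟩ := ha
      rwa [← (MulAut.conj w).injective hba]
  have hxπ : ∀ r : ℕ, r.Prime → r ∣ orderOf x → r ∈ π := fun r hr hd => hy r hr (hd.trans hxo)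
  have hcomm := Subgroup.mem_centralizer_singleton_iff.1 (hirr x hxπ hwn)
  have hgw : π' g = π' w := by
    rw [hw, map_mul, map_inv, show π' n = 1 from (QuotientGroup.eq_one_iff n).2 hn, inv_one, one_mul]
  rw [Subgroup.mem_centralizer_singleton_iff, hgw, ← hxy, ← map_mul, ← map_mul, hcomm]

end Cfsg.Agent.S4032
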