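import Cfsg.Statements.S4034
import Mathlib
import Cfsg.Agent.Lib.Solv.RegularClasses
-- import your own Cfsg.Agent.* helpers here

set_option autoImplicit false
open Cfsg

namespace Cfsg.Agent.S4034

/-- Let G be a finite group and p a prime. Every conjugacy class of p-regular elements of G (elements of order prime to p) has p-power size if and only if G has an abelian p-complement, i.e. an abelian subgroup of order prime to p and p-power index. -/
theorem result {G : Type*} [Group G] [Finite G] {p : ℕ} (hp : p.Prime) :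
    (∀ x : G, (orderOf x).Coprime p → ∃ k : ℕ, (ConjClasses.mk x).carrier.ncard = p ^ k) ↔
    (∃ H : Subgroup G, IsMulCommutative H ∧ ¬ p ∣ Nat.card H ∧ ∃ k : ℕ, H.index = p ^ k) := by
  haveI := Fact.mk hp
  constructor
  · intro h
    exact Cfsg.Lib.Solv.exists_abelian_hall_of_regularClasses (p := p) fun x hx => by
      obtain ⟨k, hk⟩ := h x hx
      exact ⟨k, by rw [← Cfsg.Lib.Solv.carrier_ncard_eq_index, hk]⟩
  · rintro ⟨H, hH, hpH, k, hk⟩ x hx
    obtain ⟨i, hi⟩ := Cfsg.Lib.Solv.regularClasses_of_abelian_hall hH hpH hk x hx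
    exact ⟨i, by rw [Cfsg.Lib.Solv.carrier_ncard_eq_index, hi]⟩

end Cfsg.Agent.S4034
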