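import Cfsg.Statements.S4035
import Mathlib
import Cfsg.Agent.Lib.Solv.ConjCover
import Cfsg.Agent.Lib.Solv.SchurZassenhaus
import Cfsg.Agent.Lib.Blocks.Kernel
-- import your own Cfsg.Agent.* helpers here

set_option autoImplicit false
open Cfsg
open scoped Pointwise

namespace Cfsg.Agent.S4035

/-- Let G be a finite group and p a prime such that p divides the size of no conjugacy class of p-regular elements (elements of order prime to p). Then G is the internal direct product of a Sylow p-subgroup P and a normal subgroup H of order prime to p: P is normal, P ⊓ H = 1 and PH = G. -/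
theorem result {G : Type*} [Group G] [Finite G] {p : ℕ} [Fact p.Prime]
    (h : ∀ x : G, (orderOf x).Coprime p → ¬ p ∣ (ConjClasses.mk x).carrier.ncard) (P : Sylow p G) :
    (P : Subgroup G).Normal ∧ ∃ H : Subgroup G, H.Normal ∧ ¬ p ∣ Nat.card H ∧
      (P : Subgroup G) ⊓ H = ⊥ ∧ (P : Subgroup G) ⊔ H = ⊤ := by
  letI := Fintype.ofFinite G
  have hp := (Fact.out : p.Prime)
  set C := Subgroup.centralizer ((P : Subgroup G) : Set G) with hC
  -- every element is conjugate to an element of `P ⊔ C`
  have htop : (P : Subgroup G) ⊔ C = ⊤ := by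
    refine Cfsg.Lib.Solv.eq_top_of_forall_conj_mem fun g => ?_
    obtain ⟨a, b, hab, hcomm, ⟨i, hi⟩, hb⟩ := Cfsg.Lib.Blocks.exists_pPart_commute (p := p) g
    set D := Subgroup.centralizer ({b} : Set G) with hD
    have hidx : ¬ p ∣ D.index := by
      have h1 := h b (hp.coprime_iff_not_dvd.2 hb).symm
      rwa [show (ConjClasses.mk b).carrier.ncard = D.index by
        rw [← Nat.card_coe_set_eq, hD, ← Cfsg.Lib.Characters.card_conj_eq_index]
        exact Nat.card_congr (Equiv.subtypeEquivRight fun y => by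
          rw [ConjClasses.mem_carrier_iff_mk_eq, ConjClasses.mk_eq_mk_iff_isConj]
          exact ⟨IsConj.symm, IsConj.symm⟩)] at h1
    have haD : a ∈ D := Subgroup.mem_centralizer_singleton_iff.2 hcomm.eq
    obtain ⟨Q, hQ⟩ := (IsPGroup.of_card (n := i) (by
      rw [Nat.card_zpowers, Subgroup.orderOf_mk, hi]) :
        IsPGroup p (Subgroup.zpowers (⟨a, haD⟩ : D))).exists_le_sylow
    set Q' := (Q : Subgroup D).map D.subtype with hQ'
    have hQ'p : IsPGroup p Q' := Q.2.map _
    have hQi : ¬ p ∣ Q'.index := fun hd => by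
      rw [hQ', Subgroup.index_map, D.ker_subtype, sup_bot_eq, Subgroup.range_subtype] at hd
      rcases hp.dvd_mul.1 hd with h1 | h1
      · exact Q.not_dvd_index h1
      · exact hidx h1
    obtain ⟨x, hx⟩ := MulAction.exists_smul_eq G P (hQ'p.toSylow hQi)
    have hQP : Q' = MulAut.conj x • (P : Subgroup G) := by
      have := congrArg (fun S : Sylow p G => (S : Subgroup G)) hx
      simp only [Sylow.coe_subgroup_smul] at this
      rw [this]; rfl
    have hmem : ∀ y ∈ Q', x⁻¹ * y * x ∈ (P : Subgroup G) := fun y hy => by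
      rw [hQP] at hy
      exact Cfsg.Lib.Solv.mem_conj_smul.1 hy
    refine ⟨x, ?_⟩
    have e : x⁻¹ * g * x = (x⁻¹ * a * x) * (x⁻¹ * b * x) := by rw [← hab]; group
    rw [e]
    refine mul_mem (Subgroup.mem_sup_left (hmem a ⟨⟨a, haD⟩, hQ (Subgroup.mem_zpowers _), rfl⟩))
      (Subgroup.mem_sup_right (Subgroup.mem_centralizer_iff.2 fun y hy => ?_))
    have h1 : x * y * x⁻¹ ∈ Q' := by
      rw [hQP]
      refine Cfsg.Lib.Solv.mem_conj_smul.2 ?_
      have e2 : x⁻¹ * (x * y * x⁻¹) * x = y := by group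
      rwa [e2]
    obtain ⟨d, -, hd⟩ := h1
    have h2 : x * y * x⁻¹ * b = b * (x * y * x⁻¹) := hd ▸ (Subgroup.mem_centralizer_singleton_iff.1 d.2)
    calc y * (x⁻¹ * b * x) = x⁻¹ * (x * y * x⁻¹ * b) * x := by group
      _ = x⁻¹ * (b * (x * y * x⁻¹)) * x := by rw [h2]
      _ = _ := by group
  have hPn : (P : Subgroup G).Normal := by
    refine Subgroup.normalizer_eq_top_iff.1 (top_le_iff.1 (htop.ge.trans (sup_le Subgroup.le_normalizer
      (Subgroup.centralizer_le_normalizer _))))
  haveI := hPn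
  refine ⟨hPn, ?_⟩
  obtain ⟨H, hH⟩ := Subgroup.exists_right_complement'_of_coprime (N := (P : Subgroup G)) P.card_coprime_index
  have hHidx : Nat.card H = (P : Subgroup G).index := (hH.symm.index_eq_card).symm
  have hHp : ¬ p ∣ Nat.card H := hHidx ▸ P.not_dvd_index
  -- the complement centralises `P`
  have hHC : ∀ h ∈ H, ∀ y ∈ (P : Subgroup G), h * y = y * h := by
    intro h hh y hy
    let φ : G →* MulAut (P : Subgroup G) := MulAut.conjNormal
    have hr : φ.range = (P : Subgroup G).map φ := by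
      refine le_antisymm ?_ (Subgroup.map_le_range φ _)
      rw [MonoidHom.range_eq_map, ← htop, Subgroup.map_sup]
      refine sup_le le_rfl ?_
      rintro _ ⟨c, hc, rfl⟩
      rw [show φ c = 1 from MulEquiv.ext fun z => Subtype.ext (by
        rw [MulAut.conjNormal_apply, ← (Subgroup.mem_centralizer_iff.1 hc) z z.2, mul_inv_cancel_right]
        rfl)]
      exact one_mem _
    have h1 : φ h = 1 := by
      obtain ⟨j, hj⟩ := (P.2.map φ) ⟨φ h, hr ▸ ⟨h, rfl⟩⟩
      refine orderOf_eq_one_iff.1 (Nat.eq_one_of_dvd_coprimes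
        ((hp.coprime_iff_not_dvd.2 hHp).pow_left j) (orderOf_dvd_of_pow_eq_one (congrArg Subtype.val hj)) ?_)
      exact (orderOf_map_dvd φ h).trans (Subgroup.orderOf_dvd_natCard _ hh)
    have h2 := congrArg Subtype.val (DFunLike.congr_fun h1 ⟨y, hy⟩)
    rw [MulAut.conjNormal_apply] at h2
    exact mul_inv_eq_iff_eq_mul.1 h2
  have hHn : H.Normal := by
    refine Subgroup.normalizer_eq_top_iff.1 (top_le_iff.1 ?_)
    rw [← hH.sup_eq_top]
    refine sup_le (fun y hy => Subgroup.mem_normalizer_iff.2 fun z => ?_) Subgroup.le_normalizer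
    constructor
    · intro hz
      rwa [← hHC z hz y hy, mul_inv_cancel_right]
    · intro hz
      have h4 := hHC _ hz y⁻¹ (inv_mem hy)
      have h5 : z = y * z * y⁻¹ := by
        calc z = y⁻¹ * (y * z * y⁻¹) * y := by group
          _ = (y * z * y⁻¹ * y⁻¹) * y := by rw [← h4]
          _ = _ := by group
      rwa [h5]
  exact ⟨H, hHn, hHp, disjoint_iff.1 hH.disjoint, hH.sup_eq_top⟩

end Cfsg.Agent.S4035
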