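import Cfsg.Statements.S4036
import Mathlib
-- import your own Cfsg.Agent.* helpers here

set_option autoImplicit false
open Cfsg

namespace Cfsg.Agent.S4036

/-- Let P be a finite abelian p-group and K a group of automorphisms of P (a subgroup of Aut P) whose order is divisible by p. If all non-identity elements of K have the same fixed-point subgroup on P, then K has no non-trivial normal subgroup of order prime to p. -/
theorem result {P : Type*} [CommGroup P] [Finite P] {p : ℕ}
    [Fact p.Prime] (hP : IsPGroup p P) (K : Subgroup (MulAut P)) (hK : p ∣ Nat.card K)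
    (hfix : ∀ x y : MulAut P, x ∈ K → y ∈ K → x ≠ 1 → y ≠ 1 → ∀ v : P, x v = v ↔ y v = v) :
    ∀ N : Subgroup ↥K, N.Normal → ¬ p ∣ Nat.card N → N = ⊥ := by
  classical
  intro N hN hNp
  by_contra hne
  haveI := hN
  letI : Fintype N := Fintype.ofFinite N
  have hp := (Fact.out : p.Prime)
  obtain ⟨y, hy⟩ := exists_prime_orderOf_dvd_card' (G := K) p hK
  have hy1 : y ≠ 1 := fun h => by rw [h, orderOf_one] at hy; exact hp.ne_one hy.symm
  have hyp : IsPGroup p (Subgroup.zpowers y) :=
    IsPGroup.of_card (n := 1) (by rw [Nat.card_zpowers, hy, pow_one])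
  obtain ⟨x, hxN, hx1⟩ := N.bot_or_exists_ne_one.resolve_left hne
  let E : P →* P :=
    { toFun := fun v => ∏ n : N, (n : MulAut P) v
      map_one' := by simp
      map_mul' := fun a b => by simp [Finset.prod_mul_distrib] }
  have hxf : ∀ v, (x : MulAut P) (E v) = E v := fun v => by
    show (x : MulAut P) (∏ n : N, (n : MulAut P) v) = _
    rw [map_prod]
    exact (Fintype.prod_equiv (Equiv.mulLeft (⟨x, hxN⟩ : N)) _ (fun n : N => (n : MulAut P) v)
      (fun n => rfl))
  have hy1' : (y : MulAut P) ≠ 1 := fun h => hy1 (Subtype.ext h)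
  have hx1' : (x : MulAut P) ≠ 1 := fun h => hx1 (Subtype.ext h)
  have hxy := hfix (x : MulAut P) (y : MulAut P) x.2 y.2 hx1' hy1'
  -- the kernel of the norm has no fixed point
  letI := MulAction.compHom P ((K.subtype).comp (Subgroup.zpowers y).subtype)
  have hker : E.ker = ⊥ := by
    by_contra hk
    have hinv : ∀ (g : Subgroup.zpowers y) (v : P), v ∈ E.ker → (g : K).1 v ∈ E.ker := fun g v hv => by
      rw [MonoidHom.mem_ker] at hv ⊢
      show ∏ n : N, (n : MulAut P) ((g : K).1 v) = 1
      rw [← map_one ((g : K).1), ← hv]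
      show _ = (g : K).1 (∏ n : N, (n : MulAut P) v)
      rw [map_prod]
      refine Fintype.prod_equiv (MulAut.conjNormal ((g : K)⁻¹) : MulAut N).toEquiv _ _ fun n => ?_
      have e : ((MulAut.conjNormal ((g : K)⁻¹) n : N) : K) = (g : K)⁻¹ * n * ((g : K)⁻¹)⁻¹ :=
        MulAut.conjNormal_apply _ _
      show (n : MulAut P) ((g : K).1 v) = (g : K).1 (((MulAut.conjNormal ((g : K)⁻¹) n : N) : K).1 v)
      rw [e, inv_inv]
      show ((n : K).1 * (g : K).1) v = ((g : K).1 * ((g : K).1⁻¹ * (n : K).1 * (g : K).1)) v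
      congr 1; group
    letI : MulAction (Subgroup.zpowers y) E.ker :=
      { smul := fun g v => ⟨(g : K).1 v.1, hinv g v.1 v.2⟩
        one_smul := fun v => rfl
        mul_smul := fun g h v => rfl }
    obtain ⟨i, hi⟩ := IsPGroup.iff_card.1 (hP.to_subgroup E.ker)
    have hi0 : i ≠ 0 := fun h0 => hk (Subgroup.card_eq_one.1 (by rw [hi, h0, pow_zero]))
    obtain ⟨v, hv, hv1⟩ := hyp.exists_fixed_point_of_prime_dvd_card_of_fixed_point E.ker
      (hi ▸ dvd_pow_self p hi0) (a := (1 : E.ker)) (fun g => Subtype.ext (map_one (g : K).1))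
    have hyv : (y : MulAut P) v.1 = v.1 := congrArg Subtype.val (hv ⟨y, Subgroup.mem_zpowers y⟩)
    have hall : ∀ n : N, (n : MulAut P) v.1 = v.1 := fun n => by
      rcases eq_or_ne ((n : K) : MulAut P) 1 with h | h
      · rw [h]; rfl
      · exact (hfix _ _ (n : K).2 y.2 h hy1' v.1).2 hyv
    have hprod : E v.1 = 1 := v.2
    change ∏ n : N, (n : MulAut P) v.1 = 1 at hprod
    rw [Finset.prod_congr rfl (fun n _ => hall n), Finset.prod_const, Finset.card_univ] at hprod
    have h1 : orderOf v.1 ∣ Nat.card N := by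
      rw [Nat.card_eq_fintype_card]; exact orderOf_dvd_of_pow_eq_one hprod
    obtain ⟨j, hj⟩ := hP v.1
    refine hv1 (Subtype.ext ?_)
    exact (orderOf_eq_one_iff.1 (Nat.eq_one_of_dvd_coprimes ((hp.coprime_iff_not_dvd.2 hNp).pow_left j)
      (orderOf_dvd_of_pow_eq_one hj) h1)).symm
  have hbij : Function.Surjective E :=
    Finite.injective_iff_surjective.1 ((MonoidHom.ker_eq_bot_iff E).1 hker)
  refine hx1' (MulEquiv.ext fun v => ?_)
  obtain ⟨w, rfl⟩ := hbij v
  exact hxf w

end Cfsg.Agent.S4036
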