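import Cfsg.Statements.S4039
import Cfsg.Agent.Lib.Solv.ClassTwoMaximal

set_option autoImplicit false
open Cfsg
open scoped Pointwise commutatorElement

namespace Cfsg.Agent.S4039



/-- A finite group possessing a maximal subgroup that is nilpotent of class at most 2 is solvable. -/
theorem result {G : Type*} [Group G] [Finite G]
    (M : Subgroup G) (hmax : IsCoatom M) (hnil : Group.IsNilpotent M) (hcl : Group.nilpotencyClass ↥M ≤ 2) :
    Group.IsSolvable G := by
  haveI := hnil
  have h2 : (⊤ : Subgroup M).lowerCentralSeries 2 = ⊥ := Subgroup.lowerCentralSeries_eq_bot_iff_nilpotencyClass_le.2 hcl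
  refine Cfsg.Lib.Solv.ClassTwoMaximal.solvable_aux _ G rfl M hmax hnil ?_
  intro a ha b hb c hc
  have h : ⁅⁅(⟨a, ha⟩ : M), (⟨b, hb⟩ : M)⁆, (⟨c, hc⟩ : M)⁆ ∈ (⊤ : Subgroup M).lowerCentralSeries 2 :=
    Subgroup.commutator_mem_commutator (Subgroup.commutator_mem_commutator (Subgroup.mem_top _) (Subgroup.mem_top _))
      (Subgroup.mem_top _)
  rw [h2, Subgroup.mem_bot, commutatorElement_eq_one_iff_mul_comm] at h
  exact congrArg Subtype.val h

end Cfsg.Agent.S4039
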