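import Cfsg.Statements.S4043
import Mathlib
import Cfsg.Agent.Lib.Transfer.NormalPComplement
import Cfsg.Agent.Lib.Transfer.Action
import Cfsg.Agent.Lib.Solv.SchurZassenhaus
-- import your own Cfsg.Agent.* helpers here

set_option autoImplicit false
open Cfsg
open scoped Pointwise

namespace Cfsg.Agent.S4043

/-- Let G be a finite group that is the semidirect product of a normal p-subgroup N by a subgroup A, and also of N by a subgroup A₁, where p is a prime and A and A₁ both have normal p-complements. If C_N(A) = C_N(A₁) = 1, then A₁ is conjugate to A by an element of N. -/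
theorem result {G : Type*} [Group G] [Finite G] {p : ℕ}
    [Fact p.Prime] (N : Subgroup G) [N.Normal] (hN : IsPGroup p N) (A A₁ : Subgroup G)
    (hA : A.IsComplement' N) (hA₁ : A₁.IsComplement' N)
    (hAp : Cfsg.HasNormalPComplement p A) (hA₁p : Cfsg.HasNormalPComplement p A₁)
    (hC : ∀ n : G, n ∈ N → (∀ a : G, a ∈ A → a * n * a⁻¹ = n) → n = 1)
    (hC₁ : ∀ n : G, n ∈ N → (∀ a : G, a ∈ A₁ → a * n * a⁻¹ = n) → n = 1) :
    ∃ n : G, n ∈ N ∧ A₁ = A.map (MulAut.conj n).toMonoidHom := by
  classical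
  have hp := (Fact.out : p.Prime)
  obtain ⟨P, K₀, hK₀n, hK₀⟩ := hAp
  obtain ⟨P₁, L₀, hL₀n, hL₀⟩ := hA₁p
  haveI := hK₀n
  haveI := hL₀n
  obtain ⟨hKc, kK, hKi⟩ := Cfsg.Lib.Transfer.coprime_card_of_isComplement' hK₀
  obtain ⟨hLc, kL, hLi⟩ := Cfsg.Lib.Transfer.coprime_card_of_isComplement' hL₀
  set K := K₀.map A.subtype with hK
  set L := L₀.map A₁.subtype with hL
  have hKA : K ≤ A := Subgroup.map_subtype_le _
  have hLA : L ≤ A₁ := Subgroup.map_subtype_le _
  have hcK : Nat.card K = Nat.card K₀ :=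
    (Nat.card_congr (Subgroup.equivMapOfInjective K₀ _ A.subtype_injective).toEquiv).symm
  have hcL : Nat.card L = Nat.card L₀ :=
    (Nat.card_congr (Subgroup.equivMapOfInjective L₀ _ A₁.subtype_injective).toEquiv).symm
  have hnorm : ∀ (B : Subgroup G) (B₀ : Subgroup B), B₀.Normal → B ≤ Subgroup.normalizer
      ((B₀.map B.subtype : Subgroup G) : Set G) := fun B B₀ hB₀ => by
    refine (Subgroup.normal_subgroupOf_iff_le_normalizer (Subgroup.map_subtype_le _)).1 ?_
    rw [Subgroup.subgroupOf, Subgroup.comap_map_eq_self_of_injective B.subtype_injective]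
    exact hB₀
  obtain ⟨n₀, hn₀⟩ := IsPGroup.iff_card.1 hN
  have hKN : (Nat.card K).Coprime (Nat.card N) := by rw [hcK, hn₀]; exact hKc.pow_right _
  have hLN : (Nat.card L).Coprime (Nat.card N) := by rw [hcL, hn₀]; exact hLc.pow_right _
  -- the subgroup `K N` is normal of `p`-power index
  set M := K ⊔ N with hM
  haveI : M.Normal := by
    refine Subgroup.normalizer_eq_top_iff.1 (top_le_iff.1 ?_)
    rw [← hA.sup_eq_top]
    refine sup_le ?_ ((le_sup_right : N ≤ M).trans Subgroup.le_normalizer)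
    intro a ha
    refine Subgroup.mem_normalizer_iff.2 fun z => ?_
    have e : M.map (MulAut.conj a).toMonoidHom = M := by
      have e1 : K.map (MulAut.conj a).toMonoidHom = K := by
        refine Subgroup.eq_of_le_of_card_ge ?_ (Nat.card_congr (Subgroup.equivMapOfInjective K _
          (MulAut.conj a).injective).toEquiv).le
        rintro _ ⟨y, hy, rfl⟩
        exact (Subgroup.mem_normalizer_iff.1 (hnorm A K₀ hK₀n ha) y).1 hy
      have e2 : N.map (MulAut.conj a).toMonoidHom = N := by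
        refine Subgroup.eq_of_le_of_card_ge ?_ (Nat.card_congr (Subgroup.equivMapOfInjective N _
          (MulAut.conj a).injective).toEquiv).le
        rintro _ ⟨y, hy, rfl⟩
        exact Subgroup.Normal.conj_mem inferInstance y hy a
      rw [hM, Subgroup.map_sup, e1, e2]
    constructor
    · intro hz; rw [← e]; exact ⟨z, hz, rfl⟩
    · intro hz
      rw [← e] at hz
      obtain ⟨y, hy, hyz⟩ := hz
      rwa [← (MulAut.conj a).injective hyz]
  have hMidx : ∃ j, M.index = p ^ j := by
    have hd : M.index ∣ p ^ kK := by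
      rw [← hKi]
      have h1 : M.index * Nat.card M = Nat.card A * Nat.card N := by
        rw [Subgroup.index_mul_card]; exact (hA.card_mul).symm
      have h2 : Nat.card M = Nat.card K * Nat.card N := by
        rw [hM, Cfsg.Lib.Solv.card_sup_eq_mul (Cfsg.Lib.Solv.inf_eq_bot_of_coprime_card hKN), mul_comm]
      rw [h2, hcK, ← K₀.index_mul_card, ← mul_assoc] at h1
      exact ⟨1, by rw [mul_one]; exact (Nat.eq_of_mul_eq_mul_right Nat.card_pos
        (Nat.eq_of_mul_eq_mul_right Nat.card_pos h1)).symm⟩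
    obtain ⟨j, -, hj⟩ := (Nat.dvd_prime_pow hp).1 hd
    exact ⟨j, hj⟩
  obtain ⟨j, hj⟩ := hMidx
  have hLM : L ≤ M := fun y hy => Cfsg.Lib.Transfer.pResidual_le_of_index_eq_pow M hj
    (Cfsg.Lib.Transfer.coprime_orderOf_mem_pResidual
      (Nat.Coprime.coprime_dvd_left (Subgroup.orderOf_dvd_natCard _ hy) (hcL ▸ hLc)))
  obtain ⟨n, hnN, hle⟩ := Cfsg.Lib.Solv.exists_conj_le N K L Subgroup.le_normalizer_of_normal hLM
    hKN hLN (Or.inl (by haveI := hN.isNilpotent; infer_instance))
  have hcard : Nat.card K = Nat.card L := by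
    have h1 := hA.card_mul.trans hA₁.card_mul.symm
    have h2 := Nat.eq_of_mul_eq_mul_right Nat.card_pos h1
    rw [← K₀.card_mul_index, ← L₀.card_mul_index, hKi, hLi, ← hcK, ← hcL] at h2
    refine Nat.dvd_antisymm ?_ ?_
    · exact (Nat.Coprime.pow_right kL (hcK ▸ hKc)).dvd_of_dvd_mul_right ⟨p ^ kK, h2.symm⟩
    · exact (Nat.Coprime.pow_right kK (hcL ▸ hLc)).dvd_of_dvd_mul_right ⟨p ^ kL, h2⟩
  have hKL : L = K.map (MulAut.conj n).toMonoidHom := by
    rw [Cfsg.Lib.Solv.conj_smul_eq_map] at hle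
    exact Subgroup.eq_of_le_of_card_ge hle (by
      rw [← Nat.card_congr (Subgroup.equivMapOfInjective K _ (MulAut.conj n).injective).toEquiv, hcard])
  -- nothing in `N` centralises `L`
  have hCL : N ⊓ Subgroup.centralizer (L : Set G) = ⊥ := by
    by_contra hne
    set V := N ⊓ Subgroup.centralizer (L : Set G) with hV
    set Q := (P₁ : Subgroup A₁).map A₁.subtype with hQ
    have hQA : Q ≤ A₁ := Subgroup.map_subtype_le _
    have hQV : Q ≤ Subgroup.normalizer (V : Set G) := by
      intro a ha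
      refine Subgroup.mem_normalizer_iff.2 fun z => ?_
      have h1 : z ∈ N ↔ a * z * a⁻¹ ∈ N :=
        ⟨fun h => Subgroup.Normal.conj_mem inferInstance z h a, fun h => by
          simpa [mul_assoc] using (inferInstance : N.Normal).conj_mem _ h a⁻¹⟩
      have h2 : a ∈ Subgroup.normalizer (Subgroup.centralizer (L : Set G) : Set G) := by
        have h3 := hnorm A₁ L₀ hL₀n (hQA ha)
        refine Subgroup.mem_normalizer_iff.2 fun w => ?_
        simp only [Subgroup.mem_centralizer_iff]
        constructor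
        · intro hw l hl
          have h4 := hw _ ((Subgroup.mem_normalizer_iff''.1 h3 l).1 hl)
          calc l * (a * w * a⁻¹) = a * ((a⁻¹ * l * a) * w) * a⁻¹ := by group
            _ = a * (w * (a⁻¹ * l * a)) * a⁻¹ := by rw [h4]
            _ = _ := by group
        · intro hw l hl
          have h4 := hw _ ((Subgroup.mem_normalizer_iff.1 h3 l).1 hl)
          calc l * w = a⁻¹ * ((a * l * a⁻¹) * (a * w * a⁻¹)) * a := by group
            _ = a⁻¹ * ((a * w * a⁻¹) * (a * l * a⁻¹)) * a := by rw [h4]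
            _ = _ := by group
      rw [Subgroup.mem_inf, Subgroup.mem_inf, h1, Subgroup.mem_normalizer_iff.1 h2 z]
    have hmod := Cfsg.Lib.Transfer.card_modEq_card_inf_centralizer V Q (P₁.2.map _) hQV
    obtain ⟨v, hv⟩ := IsPGroup.iff_card.1 (hN.to_le (inf_le_left : V ≤ N))
    have hv0 : v ≠ 0 := fun h0 => hne (Subgroup.card_eq_one.1 (by rw [hv, h0, pow_zero]))
    have hd : p ∣ Nat.card ↥(V ⊓ Subgroup.centralizer (Q : Set G)) :=
      (Nat.modEq_zero_iff_dvd.1 (hmod.symm.trans (Nat.modEq_zero_iff_dvd.2 (hv ▸ dvd_pow_self p hv0))))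
    obtain ⟨w, hw, hw1⟩ := (Subgroup.bot_or_exists_ne_one (V ⊓ Subgroup.centralizer (Q : Set G))).resolve_left (fun hb => by
      rw [hb, Subgroup.card_bot] at hd
      exact hp.ne_one (Nat.eq_one_of_dvd_one hd))
    refine hw1 (hC₁ w hw.1.1 fun a ha => ?_)
    have hall : A₁ ≤ Subgroup.centralizer {w} := by
      have hgen : A₁ ≤ L ⊔ Q := by
        rw [hL, hQ, ← Subgroup.map_sup, hL₀.sup_eq_top, ← MonoidHom.range_eq_map, Subgroup.range_subtype]
      refine hgen.trans (sup_le (fun l hl => ?_) fun l hl => ?_)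
      · exact Subgroup.mem_centralizer_singleton_iff.2 (Subgroup.mem_centralizer_iff.1 hw.1.2 l hl)
      · exact Subgroup.mem_centralizer_singleton_iff.2 (Subgroup.mem_centralizer_iff.1 hw.2 l hl)
    rw [Subgroup.mem_centralizer_singleton_iff.1 (hall ha), mul_inv_cancel_right]
  refine ⟨n, hnN, (Subgroup.eq_of_le_of_card_ge ?_ ?_).symm⟩
  · -- the conjugate of `A` normalises `L`
    rintro _ ⟨a, ha, rfl⟩
    set g := (MulAut.conj n).toMonoidHom a
    obtain ⟨⟨⟨b, hb⟩, ⟨m, hm⟩⟩, hbm : b * m = g⟩ := (hA₁ : Function.Bijective _).2 g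
    have hg : g ∈ Subgroup.normalizer (L : Set G) := by
      rw [hKL]
      exact Subgroup.le_normalizer_map _ ⟨a, hnorm A K₀ hK₀n ha, rfl⟩
    have hmL : m ∈ Subgroup.normalizer (L : Set G) := by
      have := mul_mem (inv_mem (hnorm A₁ L₀ hL₀n hb)) hg
      rwa [← hbm, inv_mul_cancel_left] at this
    have hm1 : m = 1 := by
      rw [← Subgroup.mem_bot, ← hCL]
      refine ⟨hm, Subgroup.mem_centralizer_iff.2 fun l hl => ?_⟩
      have h1 : m * l * m⁻¹ * l⁻¹ ∈ L ⊓ N := by
        refine ⟨L.mul_mem ((Subgroup.mem_normalizer_iff.1 hmL l).1 hl) (L.inv_mem hl), ?_⟩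
        have e : m * l * m⁻¹ * l⁻¹ = m * (l * m⁻¹ * l⁻¹) := by group
        rw [e]
        exact N.mul_mem hm (Subgroup.Normal.conj_mem inferInstance _ (N.inv_mem hm) l)
      rw [Cfsg.Lib.Solv.inf_eq_bot_of_coprime_card hLN, Subgroup.mem_bot] at h1
      exact (mul_inv_eq_iff_eq_mul.1 (mul_inv_eq_one.1 h1)).symm
    rw [← hbm, hm1, mul_one]
    exact hb
  · rw [← Nat.card_congr (Subgroup.equivMapOfInjective A _ (MulAut.conj n).injective).toEquiv]
    exact (Nat.eq_of_mul_eq_mul_right Nat.card_pos (hA.card_mul.trans hA₁.card_mul.symm)).ge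

end Cfsg.Agent.S4043
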