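import Cfsg.Statements.S4049
import Mathlib
import Cfsg.Agent.Lib.Solv.RealElements
-- import your own Cfsg.Agent.* helpers here

set_option autoImplicit false
open Cfsg

namespace Cfsg.Agent.S4049

/-- Let G be a finite group such that N_G(H)/C_G(H) has odd order for every nontrivial subgroup H of odd order. Then the Sylow 2-subgroups of G are normal. -/
theorem result {G : Type*} [Group G] [Finite G]
    (hhom : ∀ H : Subgroup G, H ≠ ⊥ → ¬ 2 ∣ Nat.card ↥H →
        ¬ 2 ∣ (Subgroup.centralizer (H : Set G)).relIndex (Subgroup.normalizer (H : Set G))) (P : Sylow 2 G) :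
    (P : Subgroup G).Normal := by
  by_contra hP
  obtain ⟨t, x, q, hq, hq2, hx, htx⟩ := Cfsg.Lib.Solv.exists_real_prime P hP
  obtain ⟨s, ⟨j, hj⟩, hs⟩ := Cfsg.Lib.Solv.exists_two_inverter htx
  set H := Subgroup.zpowers x with hH
  set N := Subgroup.normalizer (H : Set G) with hN
  set C := Subgroup.centralizer (H : Set G) with hC
  have hn : s ∈ N := by
    refine Subgroup.mem_normalizer_iff.2 fun y => ?_
    have e : H.map (MulAut.conj s).toMonoidHom = H := by
      rw [hH, MonoidHom.map_zpowers]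
      show Subgroup.zpowers (MulAut.conj s x) = _
      rw [MulAut.conj_apply, hs, Subgroup.zpowers_inv]
    constructor
    · intro hy
      rw [← e]
      exact ⟨y, hy, rfl⟩
    · intro hy
      rw [← e] at hy
      obtain ⟨z, hz, hzy⟩ := hy
      rwa [← (MulAut.conj s).injective hzy]
  refine hhom H ?_ ?_ ?_
  · rw [hH, Ne, Subgroup.zpowers_eq_bot]
    intro h1
    rw [h1, orderOf_one] at hx
    exact hq.ne_one hx.symm
  · rw [hH, Nat.card_zpowers, hx]
    exact fun hd => hq2 ((Nat.prime_dvd_prime_iff_eq Nat.prime_two hq).1 hd).symm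
  haveI : (C.subgroupOf N).Normal := inferInstanceAs ((Subgroup.centralizer (H : Set G)).subgroupOf (Subgroup.normalizer (H : Set G))).Normal
  show 2 ∣ (C.subgroupOf N).index
  rw [Subgroup.index_eq_card]
  set y : ↥N ⧸ C.subgroupOf N := QuotientGroup.mk ⟨s, hn⟩
  have hy : y ≠ 1 := fun h1 => by
    have h2 : s ∈ C := (QuotientGroup.eq_one_iff (⟨s, hn⟩ : N)).1 h1
    have h3 := Subgroup.mem_centralizer_iff.1 h2 x (Subgroup.mem_zpowers x)
    rw [← h3, mul_inv_cancel_right] at hs
    have h4 : x ^ 2 = 1 := by rw [pow_two]; nth_rewrite 2 [hs]; exact mul_inv_cancel x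
    exact hq2 ((Nat.prime_dvd_prime_iff_eq hq Nat.prime_two).1 (hx ▸ orderOf_dvd_of_pow_eq_one h4))
  have hdvd : orderOf y ∣ 2 ^ j := by
    have : orderOf (⟨s, hn⟩ : N) = 2 ^ j := by rw [Subgroup.orderOf_mk]; exact hj
    exact this ▸ orderOf_map_dvd (QuotientGroup.mk' (C.subgroupOf N)) ⟨s, hn⟩
  obtain ⟨i, hi, hoi⟩ := (Nat.dvd_prime_pow Nat.prime_two).1 hdvd
  rcases i with _ | i
  · exact absurd (orderOf_eq_one_iff.1 (by rw [hoi, pow_zero])) hy
  · exact (dvd_pow_self 2 (Nat.succ_ne_zero i)).trans (hoi ▸ orderOf_dvd_natCard y)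

end Cfsg.Agent.S4049
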