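import Cfsg.Statements.S4050
import Mathlib
import Cfsg.Agent.Lib.Solv.PiElementsSubgroup
-- import your own Cfsg.Agent.* helpers here

set_option autoImplicit false
open Cfsg

namespace Cfsg.Agent.S4050

/-- Let π be a set of primes and G a finite group. The π-elements of G (elements whose order is divisible only by primes of π) form a subgroup if and only if G is π-separable (it has a chain of normal subgroups from 1 to G with each successive index divisible only by primes in π or only by primes outside π) and N_G(H)/C_G(H) is a π'-group for every nontrivial π'-subgroup H of G. -/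
theorem result {G : Type*} [Group G] [Finite G] (π : Set ℕ)
    (hπ : ∀ p ∈ π, p.Prime) :
    (∃ K : Subgroup G, ∀ x : G, x ∈ K ↔ ∀ p : ℕ, p.Prime → p ∣ orderOf x → p ∈ π) ↔
    ((∃ (n : ℕ) (H : Fin (n + 1) → Subgroup G), H 0 = ⊥ ∧ H (Fin.last n) = ⊤ ∧ Monotone H ∧ (∀ i, (H i).Normal) ∧
      ∀ i : Fin n, (∀ q : ℕ, q.Prime → q ∣ (H i.castSucc).relIndex (H i.succ) → q ∈ π) ∨
        (∀ q : ℕ, q.Prime → q ∣ (H i.castSucc).relIndex (H i.succ) → q ∉ π)) ∧
     (∀ H : Subgroup G, H ≠ ⊥ → (∀ p : ℕ, p.Prime → p ∣ Nat.card ↥H → p ∉ π) →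
        ∀ p : ℕ, p.Prime → p ∣ (Subgroup.centralizer (H : Set G)).relIndex (Subgroup.normalizer (H : Set G)) → p ∉ π)) := by
  classical
  constructor
  · rintro ⟨K, hK⟩
    have hKn : K.Normal := by
      refine ⟨fun x hx g => (hK _).2 ?_⟩
      exact (Cfsg.Lib.Solv.PiElems.PiEl.map ((hK x).1 hx) (MulAut.conj g).toMonoidHom)
    haveI := hKn
    have hKpi := Cfsg.Lib.Solv.PiElems.card_pi (π := π) (L := K) (fun y hy => (hK y).1 hy)
    constructor
    · refine ⟨2, ![⊥, K, ⊤], rfl, rfl, ?_, ?_, ?_⟩
      · intro i j hij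
        fin_cases i <;> fin_cases j <;> simp_all
      · intro i
        fin_cases i
        · exact (inferInstance : (⊥ : Subgroup G).Normal)
        · exact hKn
        · exact (inferInstance : (⊤ : Subgroup G).Normal)
      · intro i
        fin_cases i
        · left
          intro q hq hd
          refine hKpi q hq ?_
          simpa [Subgroup.relIndex_bot_left] using hd
        · right
          intro q hq hd hqπ
          haveI := Fact.mk hq
          have hd' : q ∣ Nat.card (G ⧸ K) := by
            rw [← Subgroup.index_eq_card]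
            simpa [Subgroup.relIndex_top_right] using hd
          obtain ⟨z, hz⟩ := exists_prime_orderOf_dvd_card' q hd'
          obtain ⟨x, rfl⟩ := QuotientGroup.mk'_surjective K z
          have hxK : x ∈ K := by
            refine (hK x).2 (Cfsg.Lib.Solv.PiElems.piEl_of_pow (fun y hy => (hK y).1 hy) hq.ne_zero
              (fun r hr hrd => ((Nat.prime_dvd_prime_iff_eq hr hq).1 hrd).symm ▸ hqπ)
              ((QuotientGroup.eq_one_iff _).1 ?_))
            show QuotientGroup.mk' K (x ^ q) = 1
            rw [map_pow, ← hz, pow_orderOf_eq_one]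
          rw [show QuotientGroup.mk' K x = 1 from (QuotientGroup.eq_one_iff x).2 hxK, orderOf_one] at hz
          exact hq.one_lt.ne hz
    · intro H hH hHpi p hp hd hpπ
      haveI := Fact.mk hp
      set N := Subgroup.normalizer (H : Set G) with hN
      haveI := Subgroup.normal_subgroupOf_centralizer_normalizer (H : Set G)
      set C := (Subgroup.centralizer (H : Set G)).subgroupOf N with hC
      rw [Subgroup.relIndex, ← hC, Subgroup.index_eq_card] at hd
      obtain ⟨z, hz⟩ := exists_prime_orderOf_dvd_card' p hd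
      obtain ⟨x, rfl⟩ := QuotientGroup.mk'_surjective C z
      set e := ordCompl[p] (orderOf x) with he
      have hye : orderOf (x ^ e) = p ^ (orderOf x).factorization p := by
        rw [orderOf_pow_of_dvd (Nat.ordCompl_pos p (orderOf_pos x).ne').ne' (Nat.ordCompl_dvd _ _),
          Nat.div_div_self (Nat.ordProj_dvd _ _) (orderOf_pos x).ne']
      have hyK : ((x ^ e : N) : G) ∈ K := by
        refine (hK _).2 fun r hr hrd => ?_
        rw [Subgroup.orderOf_coe, hye] at hrd
        exact ((Nat.prime_dvd_prime_iff_eq hr hp).1 (hr.dvd_of_dvd_pow hrd)).symm ▸ hpπ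
      have hcent : ((x ^ e : N) : G) ∈ Subgroup.centralizer (H : Set G) := by
        rw [Subgroup.mem_centralizer_iff]
        intro h hh
        set y : G := ((x ^ e : N) : G) with hy
        have h1 : y * h * y⁻¹ * h⁻¹ ∈ H := H.mul_mem
          ((Subgroup.mem_normalizer_iff.1 (x ^ e : N).2 h).1 hh) (H.inv_mem hh)
        have h2 : y * h * y⁻¹ * h⁻¹ ∈ K := by
          rw [show y * h * y⁻¹ * h⁻¹ = y * (h * y⁻¹ * h⁻¹) by group]
          exact K.mul_mem hyK (hKn.conj_mem _ (K.inv_mem hyK) h)
        have h3 : y * h * y⁻¹ * h⁻¹ = 1 := orderOf_eq_one_iff.1 (by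
          by_contra hne
          obtain ⟨r, hr, hrd⟩ := Nat.exists_prime_and_dvd hne
          exact hHpi r hr (hrd.trans (Subgroup.orderOf_dvd_natCard H h1))
            ((hK _).1 h2 r hr hrd))
        rw [mul_inv_eq_one, mul_inv_eq_iff_eq_mul] at h3
        exact h3.symm
      have h4 : (QuotientGroup.mk' C x) ^ e = 1 := by
        rw [← map_pow]
        exact (QuotientGroup.eq_one_iff (x ^ e : N)).2 hcent
      have h5 := orderOf_dvd_of_pow_eq_one h4
      rw [hz] at h5
      exact Nat.not_dvd_ordCompl hp (orderOf_pos x).ne' h5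
  · rintro ⟨⟨n, H, h0, hlast, hmono, hnorm, hstep⟩, hhom⟩
    have hh := Cfsg.Lib.Solv.PiElems.hom_of_index hhom
    have hcongr : ∀ (A B : Subgroup G), A = B → Cfsg.Lib.Solv.PiElems.Closed π ↥A →
        Cfsg.Lib.Solv.PiElems.Closed π ↥B := fun A B h => h ▸ id
    have key : ∀ i : Fin (n + 1), Cfsg.Lib.Solv.PiElems.Closed π ↥(H i) := by
      intro i
      induction i using Fin.induction with
      | zero =>
        refine ⟨⊤, fun x => ⟨fun _ p hp hd => ?_, fun _ => trivial⟩⟩
        have hx : (x : G) = 1 := Subgroup.mem_bot.1 (h0 ▸ x.2 : (x : G) ∈ (⊥ : Subgroup G))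
        rw [← Subgroup.orderOf_coe, hx, orderOf_one, Nat.dvd_one] at hd
        exact absurd hd hp.one_lt.ne'
      | succ i ih =>
        set M := H i.succ
        set Hi := H i.castSucc
        have hle : Hi ≤ M := hmono (Fin.castSucc_lt_succ (i := i)).le
        haveI := hnorm i.castSucc
        set K := Hi.subgroupOf M with hK
        haveI : K.Normal := inferInstance
        refine Cfsg.Lib.Solv.PiElems.closed_extend (hh.subgroup M) K ?_ ?_
        · obtain ⟨L, hL⟩ := ih
          let e : ↥K ≃* ↥Hi := Subgroup.subgroupOfEquivOfLe hle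
          refine ⟨L.comap e.toMonoidHom, fun x => ?_⟩
          rw [Subgroup.mem_comap, hL]
          simp [MulEquiv.orderOf_eq, Cfsg.Lib.Solv.PiElems.PiEl]
        · rcases hstep i with h | h
          · refine ⟨⊤, fun x => ⟨fun _ p hp hd => h p hp ?_, fun _ => trivial⟩⟩
            rw [Subgroup.relIndex, Subgroup.index_eq_card]
            exact hd.trans (orderOf_dvd_natCard x)
          · refine ⟨⊥, fun x => ⟨fun hx p hp hd => ?_, fun hx => ?_⟩⟩
            · rw [Subgroup.mem_bot.1 hx, orderOf_one, Nat.dvd_one] at hd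
              exact absurd hd hp.one_lt.ne'
            · rw [Subgroup.mem_bot]
              apply orderOf_eq_one_iff.1
              by_contra hne
              obtain ⟨r, hr, hrd⟩ := Nat.exists_prime_and_dvd hne
              refine h r hr ?_ (hx r hr hrd)
              rw [Subgroup.relIndex, Subgroup.index_eq_card]
              exact hrd.trans (orderOf_dvd_natCard x)
    obtain ⟨L, hL⟩ := hcongr _ _ hlast (key (Fin.last n))
    refine ⟨L.map (⊤ : Subgroup G).subtype, fun x => ?_⟩
    constructor
    · rintro ⟨y, hy, rfl⟩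
      intro p hp hd
      exact (hL y).1 hy p hp (by rwa [Subgroup.coe_subtype, Subgroup.orderOf_coe] at hd)
    · intro hx
      exact ⟨⟨x, trivial⟩, (hL _).2 (fun p hp hd => hx p hp (by rwa [← Subgroup.orderOf_coe] at hd)), rfl⟩

end Cfsg.Agent.S4050
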