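import Cfsg.Statements.S4056
import Mathlib
import Cfsg.Agent.Lib.Solv.PGroupBasic
-- import your own Cfsg.Agent.* helpers here

set_option autoImplicit false
open Cfsg
open scoped commutatorElement

namespace Cfsg.Agent.S4056

/-- In a finite 2-group of nilpotency class at most 2 and exponent dividing 4, the Frattini subgroup lies in the centre and is elementary abelian. -/
theorem result {P : Type*} [Group P] [Finite P] (hP : IsPGroup 2 P)
    (hcl : Group.nilpotencyClass P ≤ 2) (hexp : Monoid.exponent P ∣ 4) :
    frattini P ≤ Subgroup.center P ∧ Cfsg.IsElementaryAbelian 2 (frattini P) := by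
  haveI : Fact (Nat.Prime 2) := ⟨Nat.prime_two⟩
  haveI : Group.IsNilpotent P := hP.isNilpotent
  have hc : ∀ a b : P, ⁅a, b⁆ ∈ Subgroup.center P := by
    intro a b
    have h2 : Subgroup.upperCentralSeries P 2 = ⊤ :=
      top_le_iff.1 ((Subgroup.upperCentralSeries_nilpotencyClass (G := P)).ge.trans (Subgroup.upperCentralSeries_mono P hcl))
    have h3 := Subgroup.mem_upperCentralSeries_succ_iff.1 (show a ∈ Subgroup.upperCentralSeries P (1 + 1) from h2 ▸ Subgroup.mem_top a) b
    rwa [Subgroup.upperCentralSeries_one] at h3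
  have h4 : ∀ a : P, a ^ 4 = 1 := fun a =>
    orderOf_dvd_iff_pow_eq_one.1 ((Monoid.order_dvd_exponent a).trans hexp)
  have hq : ∀ x : P, x * x ∈ Subgroup.center P := fun x => by
    refine Subgroup.mem_center_iff.2 fun y => ?_
    set c := ⁅x, y⁆ with hc'
    have hxy : x * y = c * (y * x) := by rw [hc', commutatorElement_def]; group
    have hcz : ∀ w, w * c = c * w := fun w => Subgroup.mem_center_iff.1 (hc x y) w
    have hyx : y * x = c⁻¹ * (x * y) := by rw [hxy]; group
    have hsq : (x * y) * (x * y) = c⁻¹ * ((x * x) * (y * y)) := by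
      calc (x * y) * (x * y) = x * (y * x) * y := by group
        _ = x * (c⁻¹ * (x * y)) * y := by rw [hyx]
        _ = (x * c⁻¹) * x * (y * y) := by group
        _ = _ := by rw [(Commute.inv_right (show Commute x c from hcz x)).eq]; group
    have hxx : (x * x) * y = c * c * (y * (x * x)) := by
      calc (x * x) * y = x * (x * y) := by group
        _ = x * c * (y * x) := by rw [hxy]; group
        _ = c * (x * y) * x := by rw [hcz x]; group
        _ = c * (c * (y * x)) * x := by rw [hxy]
        _ = _ := by group
    have hc2 : c * c = 1 := by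
      have hyy : (x * x) * (y * y) = (y * y) * (x * x) := by
        calc (x * x) * (y * y) = ((x * x) * y) * y := by group
          _ = (c * c * (y * (x * x))) * y := by rw [hxx]
          _ = c * c * y * ((x * x) * y) := by group
          _ = c * c * y * (c * c * (y * (x * x))) := by rw [hxx]
          _ = c * c * (y * (c * c)) * (y * (x * x)) := by group
          _ = c * c * (c * c) * ((y * y) * (x * x)) := by
              rw [show y * (c * c) = c * c * y from (Commute.mul_right (hcz y) (hcz y)).eq]; group
          _ = _ := by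
              rw [show c * c * (c * c) = c ^ 4 by simp only [pow_succ, pow_zero, one_mul, mul_assoc], h4,
                one_mul]
      have h1 := h4 (x * y)
      rw [show (x * y) ^ 4 = ((x * y) * (x * y)) * ((x * y) * (x * y)) by
        simp only [pow_succ, pow_zero, one_mul, mul_assoc], hsq] at h1
      have hX : x * x * (x * x) = 1 := by
        rw [← h4 x]; simp only [pow_succ, pow_zero, one_mul, mul_assoc]
      have hY : y * y * (y * y) = 1 := by
        rw [← h4 y]; simp only [pow_succ, pow_zero, one_mul, mul_assoc]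
      have h2 : c⁻¹ * c⁻¹ = 1 := by
        rw [← h1]
        symm
        calc c⁻¹ * (x * x * (y * y)) * (c⁻¹ * (x * x * (y * y)))
            = c⁻¹ * ((x * x * (y * y)) * c⁻¹) * (x * x * (y * y)) := by group
          _ = c⁻¹ * c⁻¹ * ((x * x) * ((y * y) * (x * x)) * (y * y)) := by
              rw [(Commute.inv_right (show Commute (x * x * (y * y)) c from hcz _)).eq]; group
          _ = c⁻¹ * c⁻¹ * ((x * x * (x * x)) * (y * y * (y * y))) := by rw [← hyy]; group
          _ = _ := by rw [hX, hY, one_mul, mul_one]
      rw [← mul_inv_rev, inv_eq_one] at h2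
      exact h2
    rw [hxx, hc2, one_mul]
  set K := Subgroup.closure (Set.range fun x : P => x * x) with hK
  have hKc : K ≤ Subgroup.center P := by
    rw [hK, Subgroup.closure_le]
    rintro _ ⟨x, rfl⟩
    exact hq x
  haveI : K.Normal := ⟨fun k hk g => by
    rw [Subgroup.mem_center_iff.1 (hKc hk) g, mul_inv_cancel_right]; exact hk⟩
  have hsqK : ∀ x : P, x * x ∈ K := fun x => Subgroup.subset_closure ⟨x, rfl⟩
  have hΦ : frattini P ≤ K := Cfsg.Lib.Solv.frattini_le_of_elementary_quotient (p := 2) K
    (by
      rw [_root_.commutator_def, Subgroup.commutator_le]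
      intro a _ b _
      rw [commutatorElement_def]
      have e : a * b * a⁻¹ * b⁻¹ = (a * b) * (a * b) * (b⁻¹ * (a⁻¹ * a⁻¹) * b) * (b⁻¹ * b⁻¹) := by group
      rw [e]
      refine K.mul_mem (K.mul_mem (hsqK _) ?_) (hsqK _)
      have := (inferInstance : K.Normal).conj_mem _ (hsqK a⁻¹) b⁻¹
      rwa [inv_inv] at this)
    (fun x => by rw [pow_two]; exact hsqK x)
  refine ⟨hΦ.trans hKc, ⟨⟨fun a b => Subtype.ext
    (Subgroup.mem_center_iff.1 ((hΦ.trans hKc) b.2) a)⟩⟩, fun a ha => ?_⟩
  have ha' := hΦ ha
  rw [hK] at ha'
  clear ha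
  induction ha' using Subgroup.closure_induction with
  | mem a ha =>
    obtain ⟨x, rfl⟩ := ha
    rw [← h4 x]; simp only [pow_succ, pow_zero, one_mul, mul_assoc]
  | one => simp
  | mul a b ha _ h1 h2 =>
    rw [(show Commute a b from (Subgroup.mem_center_iff.1 (hKc ha) b).symm).mul_pow, h1, h2, one_mul]
  | inv a _ h1 => rw [inv_pow, h1, inv_one]

end Cfsg.Agent.S4056
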