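import Cfsg.Statements.S4058
import Cfsg.Agent.Lib.Characters.FSInt

set_option autoImplicit false
open Cfsg

namespace Cfsg.Agent.S4058

open Finset Cfsg.Lib.Characters
open scoped ComplexConjugate

variable {G : Type*} [Group G] [Finite G]

/-- The complex value of a sign character. -/
def cv (l : G →* ℤˣ) (g : G) : ℂ := ((l g : ℤ) : ℂ)

theorem cv_sq (l : G →* ℤˣ) (g : G) : cv l g * cv l g = 1 := by
  unfold cv
  rcases Int.units_eq_one_or (l g) with h | h <;> simp [h]

theorem conj_cv (l : G →* ℤˣ) (g : G) : conj (cv l g) = cv l g := by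
  simp [cv]

theorem twist_irr [Fintype G] (l : G →* ℤˣ) {χ : G → ℂ} (h : IsIrrCharacter G χ) :
    IsIrrCharacter G (fun g => cv l g * χ g) := by
  refine isIrrCharacter_of_classInner_eq_one ?_ ?_
  · refine isCharacter_mul ?_ h.isCharacter
    have h1 := (isIrrCharacter_linear (G := G)
      ((Units.map (Int.castRingHom ℂ).toMonoidHom).comp l)).isCharacter
    exact h1
  · rw [← classInner_irr_self h, Cfsg.classInner, Cfsg.classInner]
    congr 1
    refine sum_congr rfl fun g _ => ?_
    rw [map_mul, conj_cv]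
    linear_combination (χ g * conj (χ g)) * cv_sq l g

@[reducible]
noncomputable def twistAction [Fintype G] : MulAction (G →* ℤˣ) (IrrCharacter G) where
  smul l χ := ⟨fun g => cv l g * (χ : G → ℂ) g, twist_irr l χ.2⟩
  one_smul χ := Subtype.ext (funext fun g => by
    show cv 1 g * (χ : G → ℂ) g = _
    simp [cv])
  mul_smul l m χ := Subtype.ext (funext fun g => by
    show cv (l * m) g * (χ : G → ℂ) g = cv l g * (cv m g * (χ : G → ℂ) g)
    simp [cv, mul_assoc])

/-- The common kernel of a subgroup of sign characters. -/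
def comKer (S : Subgroup (G →* ℤˣ)) : Subgroup G where
  carrier := {g | ∀ l ∈ S, l g = 1}
  one_mem' := fun l _ => map_one l
  mul_mem' := fun {a b} ha hb l hl => by rw [map_mul, ha l hl, hb l hl, one_mul]
  inv_mem' := fun {a} ha l hl => by rw [map_inv, ha l hl, inv_one]

theorem card_mul_comKer [Finite (G →* ℤˣ)] (S : Subgroup (G →* ℤˣ)) :
    Nat.card S * Nat.card (comKer S) = Nat.card G := by
  classical
  haveI := Fintype.ofFinite G
  haveI := Fintype.ofFinite S
  have h1 : ∀ g : G, ∑ l : S, ((l.1 g : ℤ)) = if g ∈ comKer S then (Nat.card S : ℤ) else 0 := by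
    intro g
    split_ifs with hg
    · rw [sum_congr rfl (fun l _ => by rw [hg l.1 l.2, Units.val_one]), sum_const, card_univ,
        Nat.card_eq_fintype_card]
      simp
    · obtain ⟨l₀, hl₀, hne⟩ : ∃ l₀ ∈ S, l₀ g ≠ 1 := by
        by_contra hc
        push Not at hc
        exact hg hc
      have e : ∑ l : S, ((l.1 g : ℤ)) = ∑ l : S, ((l₀ g : ℤ)) * ((l.1 g : ℤ)) := by
        conv_lhs => rw [← Equiv.sum_comp (Equiv.mulLeft (⟨l₀, hl₀⟩ : S))]
        refine sum_congr rfl fun l _ => ?_
        simp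
      rw [← mul_sum, (Int.units_eq_one_or _).resolve_left hne] at e
      simp only [Units.val_neg, Units.val_one] at e
      omega
  have h2 : ∀ l : S, ∑ g : G, ((l.1 g : ℤ)) = if l = 1 then (Nat.card G : ℤ) else 0 := by
    intro l
    split_ifs with hl
    · subst hl; simp
    · obtain ⟨g₀, hg₀⟩ : ∃ g₀, l.1 g₀ ≠ 1 := by
        by_contra hc
        push Not at hc
        exact hl (Subtype.ext (MonoidHom.ext hc))
      have e : ∑ g : G, ((l.1 g : ℤ)) = ∑ g : G, ((l.1 g₀ : ℤ)) * ((l.1 g : ℤ)) := by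
        conv_lhs => rw [← Equiv.sum_comp (Equiv.mulLeft g₀)]
        refine sum_congr rfl fun g _ => ?_
        simp
      rw [← mul_sum, (Int.units_eq_one_or _).resolve_left hg₀] at e
      simp only [Units.val_neg, Units.val_one] at e
      omega
  have h3 := (sum_comm : ∑ g : G, ∑ l : S, ((l.1 g : ℤ)) = _)
  rw [sum_congr rfl (fun g _ => h1 g), sum_congr rfl (fun l _ => h2 l), sum_ite_eq' univ (1 : S),
    if_pos (mem_univ _), sum_ite, sum_const_zero, add_zero, sum_const,
    show #(univ.filter fun g => g ∈ comKer S) = Nat.card (comKer S) by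
      rw [Nat.card_eq_fintype_card, Fintype.card_subtype], nsmul_eq_mul] at h3
  rw [mul_comm]
  exact_mod_cast h3

/-- Twisting fixes an irreducible character for at most `χ(1)²` sign characters. -/
theorem stab_le [Fintype G] [Finite (G →* ℤˣ)] (S : Subgroup (G →* ℤˣ)) {χ : G → ℂ}
    (h : IsIrrCharacter G χ) (hfix : ∀ l ∈ S, ∀ g, cv l g * χ g = χ g) {d : ℕ} (hd : χ 1 = d) :
    Nat.card S ≤ d ^ 2 := by
  classical
  have hzero : ∀ g, g ∉ comKer S → χ g = 0 := by
    intro g hg
    obtain ⟨l₀, hl₀, hne⟩ : ∃ l₀ ∈ S, l₀ g ≠ 1 := by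
      by_contra hc
      push Not at hc
      exact hg hc
    have e := hfix l₀ hl₀ g
    rw [cv, (Int.units_eq_one_or _).resolve_left hne] at e
    push_cast at e
    linear_combination (-(1:ℂ)/2) * e
  have h1 := classInner_irr_self h
  rw [Cfsg.classInner, inv_mul_eq_one₀ (Nat.cast_ne_zero.mpr Nat.card_pos.ne')] at h1
  simp only [Complex.mul_conj'] at h1
  have h2 : (Nat.card G : ℝ) ≤ (Nat.card (comKer S) : ℝ) * (d : ℝ) ^ 2 := by
    have e : (Nat.card G : ℝ) = ∑ g, ‖χ g‖ ^ 2 := by exact_mod_cast h1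
    rw [e, ← sum_filter_add_sum_filter_not univ (fun g => g ∈ comKer S)]
    have hz : ∑ g ∈ univ.filter (fun g => g ∉ comKer S), ‖χ g‖ ^ 2 = 0 :=
      sum_eq_zero fun g hg => by rw [hzero g (mem_filter.mp hg).2]; simp
    rw [hz, add_zero]
    calc ∑ g ∈ univ.filter (fun g => g ∈ comKer S), ‖χ g‖ ^ 2
        ≤ ∑ _g ∈ univ.filter (fun g => g ∈ comKer S), (d : ℝ) ^ 2 := sum_le_sum fun g _ =>
          pow_le_pow_left₀ (norm_nonneg _) (by
            have := char_norm_le_degree h.isCharacter g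
            rwa [hd, Complex.natCast_re] at this) 2
      _ = _ := by rw [sum_const, nsmul_eq_mul, Nat.card_eq_fintype_card, Fintype.card_subtype]
  have h4 : Nat.card G ≤ Nat.card (comKer S) * d ^ 2 := by exact_mod_cast h2
  rw [← card_mul_comKer S, mul_comm (Nat.card (comKer S))] at h4
  exact Nat.le_of_mul_le_mul_right h4 Nat.card_pos

/-- There are at least as many sign characters as elements modulo the Frattini subgroup. -/
theorem card_frattini_le [Finite (G →* ℤˣ)] (hG : IsPGroup 2 G) :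
    Nat.card (G ⧸ frattini G) ≤ Nat.card (G →* ℤˣ) := by
  classical
  haveI : Fact (Nat.Prime 2) := ⟨Nat.prime_two⟩
  haveI := hG.isNilpotent
  have hle : comKer (⊤ : Subgroup (G →* ℤˣ)) ≤ frattini G := by
    rw [frattini, Order.radical]
    refine le_iInf₂ fun M hM g hg => ?_
    haveI : M.Normal := Subgroup.NormalizerCondition.normal_of_coatom M Group.normalizerCondition_of_isNilpotent hM
    haveI := hG.to_quotient M
    have hnt : Nontrivial (G ⧸ M) := by
      refine Finite.one_lt_card_iff_nontrivial.mp ?_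
      rw [← M.index_eq_card]
      have := M.index_ne_zero_of_finite
      have : M.index ≠ 1 := fun e => hM.1 (Subgroup.index_eq_one.mp e)
      omega
    have hi : M.index = 2 := by
      obtain ⟨x, hx⟩ := exists_prime_orderOf_dvd_card' (G := G ⧸ M) 2
        (by
          obtain ⟨j, hj0, hj⟩ := (hG.to_quotient M).nontrivial_iff_card.mp hnt
          rw [hj]; exact dvd_pow_self 2 hj0.ne')
      have hcp : (Subgroup.zpowers x).comap (QuotientGroup.mk' M) = ⊤ := by
        refine hM.2 _ ⟨fun m hm => ?_, fun hcon => ?_⟩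
        · simp [(QuotientGroup.eq_one_iff m).mpr hm]
        · obtain ⟨y, hy⟩ := QuotientGroup.mk'_surjective M x
          have hyM : y ∈ M := hcon (by simp [hy, Subgroup.mem_zpowers])
          rw [← hy, show (QuotientGroup.mk' M) y = 1 from (QuotientGroup.eq_one_iff y).mpr hyM,
            orderOf_one] at hx
          omega
      have htop : Subgroup.zpowers x = ⊤ := by
        rw [← Subgroup.comap_top (QuotientGroup.mk' M)] at hcp
        exact Subgroup.comap_injective (QuotientGroup.mk'_surjective M) hcp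
      rw [M.index_eq_card, ← Subgroup.card_top (G := G ⧸ M), ← htop, Nat.card_zpowers, hx]
    let l : G →* ℤˣ := MonoidHom.mk' (fun a => if a ∈ M then 1 else -1) fun a b => by
      show (if a * b ∈ M then (1 : ℤˣ) else -1) = (if a ∈ M then 1 else -1) * (if b ∈ M then 1 else -1)
      have hab := Subgroup.mul_mem_iff_of_index_two hi (a := a) (b := b)
      by_cases ha : a ∈ M <;> by_cases hb : b ∈ M <;> simp [ha, hb, hab]
    by_contra hgM
    have := hg l (Subgroup.mem_top l)
    simp [l, hgM] at this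
  have h1 := card_mul_comKer (⊤ : Subgroup (G →* ℤˣ))
  rw [Subgroup.card_top] at h1
  have h2 : Nat.card (G →* ℤˣ) = (comKer (⊤ : Subgroup (G →* ℤˣ))).index := by
    refine Nat.eq_of_mul_eq_mul_right Nat.card_pos (h1.trans ?_)
    rw [mul_comm, Subgroup.card_mul_index]
  rw [h2, ← Subgroup.index_eq_card]
  exact Nat.le_of_dvd (Nat.pos_of_ne_zero Subgroup.index_ne_zero_of_finite)
    (Subgroup.index_dvd_of_le hle)

/-- Let G be a finite 2-group with #(G/Φ(G)) ≥ 2^(2k+1). Then the number of elements x of G with x² = 1 is divisible by 2^(k+1). -/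
theorem result {G : Type*} [Group G] [Finite G] (hG : IsPGroup 2 G) (k : ℕ)
    (hgen : 2 ^ (2 * k + 1) ≤ Nat.card (G ⧸ frattini G)) :
    2 ^ (k + 1) ∣ Nat.card {x : G // x ^ 2 = 1} := by
  classical
  haveI : Fact (Nat.Prime 2) := ⟨Nat.prime_two⟩
  haveI := Fintype.ofFinite G
  haveI : Finite (G →* ℤˣ) := Finite.of_injective _ DFunLike.coe_injective
  letI := twistAction (G := G)
  obtain ⟨e, he⟩ := hG.exists_card_eq
  obtain ⟨r, -, hr⟩ := (Nat.dvd_prime_pow Nat.prime_two).mp
    (he ▸ (⟨_, (card_mul_comKer (⊤ : Subgroup (G →* ℤˣ))).symm⟩ :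
      Nat.card (⊤ : Subgroup (G →* ℤˣ)) ∣ Nat.card G))
  rw [Subgroup.card_top] at hr
  have hr2 : 2 * k + 1 ≤ r := by
    have := hgen.trans (card_frattini_le hG)
    rw [hr] at this
    exact (Nat.pow_le_pow_iff_right (by norm_num)).mp this
  choose ν hν using fun χ : IrrCharacter G => fs_exists_int (isIrrCharacter_conjVal χ.2)
  choose d hd using fun χ : IrrCharacter G => exists_degree χ.2.isCharacter
  have hsum : (Nat.card {x : G // x ^ 2 = 1} : ℤ) = ∑ χ, ν χ * d χ := by
    have h := card_sqrt_eq_sum (G := G) 1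
    rw [sum_congr rfl (fun χ _ => by rw [hν χ, hd χ])] at h
    rw [Nat.card_eq_fintype_card, Fintype.card_subtype]
    simp only [sq]
    exact_mod_cast h
  have hsmul : ∀ (l : G →* ℤˣ) (χ : IrrCharacter G) (g : G),
      ((l • χ : IrrCharacter G) : G → ℂ) g = cv l g * (χ : G → ℂ) g := fun _ _ _ => rfl
  have hνc : ∀ (l : G →* ℤˣ) χ, ν (l • χ) = ν χ := fun l χ => by
    have h1 := hν (l • χ)
    simp only [hsmul, map_mul, conj_cv] at h1
    have h2 : ∀ g, cv l (g * g) = 1 := fun g => by
      have := cv_sq l g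
      unfold cv at this ⊢
      rw [map_mul, Units.val_mul, Int.cast_mul]
      exact this
    simp only [h2, one_mul] at h1
    rw [hν χ] at h1
    exact_mod_cast h1.symm
  have hdc : ∀ (l : G →* ℤˣ) χ, d (l • χ) = d χ := fun l χ => by
    have h1 := hd (l • χ)
    rw [hsmul, hd χ] at h1
    simp [cv] at h1
    exact h1.symm
  have hdvd : (2 : ℤ) ^ (k + 1) ∣ ∑ χ, ν χ * d χ := by
    rw [← sum_fiberwise univ (fun χ => (Quotient.mk (MulAction.orbitRel (G →* ℤˣ) (IrrCharacter G)) χ))
      (fun χ => ν χ * (d χ : ℤ))]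
    refine dvd_sum fun o _ => ?_
    obtain ⟨χ, rfl⟩ := Quotient.exists_rep o
    have hmem : ∀ ψ : IrrCharacter G, Quotient.mk (MulAction.orbitRel (G →* ℤˣ) (IrrCharacter G)) ψ =
        Quotient.mk _ χ ↔ ψ ∈ MulAction.orbit (G →* ℤˣ) χ := fun ψ => by
      rw [Quotient.eq, MulAction.orbitRel_apply]
    rw [sum_eq_card_nsmul (b := ν χ * (d χ : ℤ)) fun ψ hψ => by
      obtain ⟨l, rfl⟩ := (hmem ψ).mp (mem_filter.mp hψ).2
      show ν (l • χ) * (d (l • χ) : ℤ) = ν χ * d χ
      rw [hνc, hdc], nsmul_eq_mul]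
    set c := #(univ.filter fun ψ => Quotient.mk (MulAction.orbitRel (G →* ℤˣ) (IrrCharacter G)) ψ =
      Quotient.mk _ χ) with hc
    have hcard : c * Nat.card (MulAction.stabilizer (G →* ℤˣ) χ) = 2 ^ r := by
      rw [← hr]
      have h1 : c = Nat.card (MulAction.orbit (G →* ℤˣ) χ) := by
        rw [hc, Nat.card_eq_fintype_card, ← Set.toFinset_card]
        congr 1
        ext ψ
        simp [hmem]
      rw [h1]
      haveI := Fintype.ofFinite (G →* ℤˣ)
      simp only [Nat.card_eq_fintype_card]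
      exact MulAction.card_orbit_mul_card_stabilizer_eq_card_group _ χ
    obtain ⟨s, hsr, hs⟩ := (Nat.dvd_prime_pow Nat.prime_two).mp (Dvd.intro_left _ hcard)
    obtain ⟨a, -, ha⟩ := (Nat.dvd_prime_pow Nat.prime_two).mp (he ▸ degree_dvd_card χ.2 (hd χ))
    have hsa : s ≤ 2 * a := by
      have h1 := stab_le (MulAction.stabilizer (G →* ℤˣ) χ) χ.2 (fun l hl g => by
        conv_rhs => rw [← (MulAction.mem_stabilizer_iff.mp hl)]
        rfl) (hd χ)
      rw [hs, ha, ← pow_mul, Nat.pow_le_pow_iff_right (by norm_num)] at h1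
      omega
    have hc2 : c = 2 ^ (r - s) := by
      rw [hs] at hcard
      refine Nat.eq_of_mul_eq_mul_right (pow_pos (by norm_num : 0 < 2) s) ?_
      rw [hcard, ← pow_add, Nat.sub_add_cancel hsr]
    rw [hc2, ha]
    push_cast
    refine Dvd.dvd.trans (pow_dvd_pow 2 (show k + 1 ≤ r - s + a by omega)) ⟨ν χ, ?_⟩
    rw [pow_add]; ring
  rw [← hsum] at hdvd
  exact_mod_cast hdvd

end Cfsg.Agent.S4058
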