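import Cfsg.Statements.S4065
import Cfsg.Agent.Lib.PLocal.RankTwoOdd

set_option autoImplicit false
open Cfsg

namespace Cfsg.Agent.S4065

theorem commutant_abelian {K : Type*} [Field K] (t : Matrix (Fin 2) (Fin 2) K) (ht : ∀ c : K, t ≠ c • 1)
    {a b : Matrix (Fin 2) (Fin 2) K} (ha : Commute a t) (hb : Commute b t) : Commute a b := by
  obtain ⟨α, β, rfl⟩ := Cfsg.Lib.RankTwoOdd.commutant t a ht ha
  refine Commute.add_left ((Commute.one_left b).smul_left α) ?_
  exact (hb.symm).smul_left β

/-- Let F be a finite field with 2ⁿ elements, n ≥ 2. In PSL₂(F) the centralizer of every element meets each of its conjugates by elements outside its normalizer trivially. -/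
theorem result (n : ℕ) (hn : 2 ≤ n)
    (x : Matrix.ProjectiveSpecialLinearGroup (Fin 2) (GaloisField 2 n)) :
    Cfsg.IsTISubset (Subgroup.centralizer ({x} : Set (Matrix.ProjectiveSpecialLinearGroup (Fin 2) (GaloisField 2 n))) :
      Set (Matrix.ProjectiveSpecialLinearGroup (Fin 2) (GaloisField 2 n))) := by
  classical
  set F := GaloisField 2 n
  set π := QuotientGroup.mk' (Subgroup.center (Matrix.SpecialLinearGroup (Fin 2) F))
  have hsc : ∀ (A : Matrix.SpecialLinearGroup (Fin 2) F) (c : F),
      (A : Matrix (Fin 2) (Fin 2) F) = c • 1 → A = 1 := by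
    intro A c hA
    have hdet := A.2
    rw [show (A.1 : Matrix (Fin 2) (Fin 2) F) = c • 1 from hA, Matrix.det_smul, Matrix.det_one,
      Fintype.card_fin, mul_one] at hdet
    have h2 : (2 : F) = 0 := by
      have := CharP.cast_eq_zero F 2
      exact_mod_cast this
    have h : (c - 1) ^ 2 = 0 := by linear_combination hdet + (1 - c) * h2
    have hc : c = 1 := sub_eq_zero.1 (pow_eq_zero_iff two_ne_zero |>.1 h)
    exact Subtype.ext (by rw [show (A.1 : Matrix (Fin 2) (Fin 2) F) = c • 1 from hA, hc, one_smul]; rfl)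
  have hZ : Subgroup.center (Matrix.SpecialLinearGroup (Fin 2) F) = ⊥ := by
    rw [eq_bot_iff]
    intro A hA
    obtain ⟨r, -, hr⟩ := Matrix.SpecialLinearGroup.mem_center_iff.1 hA
    exact Subgroup.mem_bot.2 (hsc A r (by rw [← hr, Matrix.scalar_apply, Matrix.smul_one_eq_diagonal]))
  have hinj : Function.Injective π := by
    rw [← MonoidHom.ker_eq_bot_iff, QuotientGroup.ker_mk', hZ]
  have hCA : ∀ y : Matrix.ProjectiveSpecialLinearGroup (Fin 2) F, y ≠ 1 → ∀ a b,
      Commute a y → Commute b y → Commute a b := by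
    intro y hy a b ha hb
    obtain ⟨Y, rfl⟩ := QuotientGroup.mk'_surjective _ y
    obtain ⟨A, rfl⟩ := QuotientGroup.mk'_surjective _ a
    obtain ⟨B, rfl⟩ := QuotientGroup.mk'_surjective _ b
    have hA : A * Y = Y * A := hinj (by rw [map_mul, map_mul]; exact ha)
    have hB : B * Y = Y * B := hinj (by rw [map_mul, map_mul]; exact hb)
    have hAB : A * B = B * A := Subtype.ext (commutant_abelian (Y : Matrix (Fin 2) (Fin 2) F)
      (fun c h => hy (by rw [hsc Y c h, map_one]))
      (congrArg Subtype.val hA) (congrArg Subtype.val hB))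
    show π A * π B = π B * π A
    rw [← map_mul, hAB, map_mul]
  intro g hg y hy hyg
  by_contra hy1
  apply hg
  rw [SetLike.mem_coe, Subgroup.mem_centralizer_singleton_iff] at hy hyg
  by_cases hx : x = 1
  · subst hx
    rw [Subgroup.mem_normalizer_iff]
    intro h
    simp [Subgroup.mem_centralizer_singleton_iff]
  have hcent : ∀ u w : Matrix.ProjectiveSpecialLinearGroup (Fin 2) F, u ≠ 1 → Commute u w → w ≠ 1 →
      ∀ v, Commute v u → Commute v w :=
    fun u w hu huw _ v hv => hCA u hu v w hv huw.symm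
  set z := g * y * g⁻¹ with hz
  have hz1 : z ≠ 1 := fun h => hy1 (by
    calc y = g⁻¹ * z * g := by rw [hz]; group
      _ = 1 := by rw [h]; group)
  -- `x' = g x g⁻¹` has the same centraliser as `x`
  set x' := g * x * g⁻¹ with hx'
  have hx'1 : x' ≠ 1 := fun h => hx (by
    calc x = g⁻¹ * x' * g := by rw [hx']; group
      _ = 1 := by rw [h]; group)
  have hzx : Commute z x := hyg
  have hzx' : Commute z x' := by
    show g * y * g⁻¹ * (g * x * g⁻¹) = g * x * g⁻¹ * (g * y * g⁻¹)
    calc g * y * g⁻¹ * (g * x * g⁻¹) = g * (y * x) * g⁻¹ := by group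
      _ = _ := by rw [hy]; group
  have hiff : ∀ v, Commute v x ↔ Commute v x' := fun v =>
    ⟨fun h => hcent z x' hz1 hzx' hx'1 v (hcent x z hx hzx.symm hz1 v h),
     fun h => hcent z x hz1 hzx hx v (hcent x' z hx'1 hzx'.symm hz1 v h)⟩
  rw [Subgroup.mem_normalizer_iff]
  intro v
  simp only [SetLike.mem_coe, Subgroup.mem_centralizer_singleton_iff]
  change v * x = x * v ↔ Commute (g * v * g⁻¹) x
  rw [hiff, hx']
  constructor
  · intro h
    show g * v * g⁻¹ * (g * x * g⁻¹) = g * x * g⁻¹ * (g * v * g⁻¹)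
    calc g * v * g⁻¹ * (g * x * g⁻¹) = g * (v * x) * g⁻¹ := by group
      _ = _ := by rw [h]; group
  · intro h
    have h' : g * v * g⁻¹ * (g * x * g⁻¹) = g * x * g⁻¹ * (g * v * g⁻¹) := h
    calc v * x = g⁻¹ * (g * v * g⁻¹ * (g * x * g⁻¹)) * g := by group
      _ = _ := by rw [h']; group

end Cfsg.Agent.S4065
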