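import Cfsg.Statements.S4066
import Mathlib
import Cfsg.Agent.Lib.Solv.Cores
-- import your own Cfsg.Agent.* helpers here

set_option autoImplicit false
open Cfsg

namespace Cfsg.Agent.S4066

/-- Let G be a finite group in which the centralizer of every element meets each of its conjugates by elements outside its normalizer trivially. Then any two distinct Sylow p-subgroups of G, for any prime p, intersect trivially. -/
theorem result {G : Type*} [Group G] [Finite G] (hTI : ∀ x : G, Cfsg.IsTISubset (Subgroup.centralizer ({x} : Set G) : Set G))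
    {p : ℕ} [Fact p.Prime] (P Q : Sylow p G) (hPQ : P ≠ Q) : (P : Subgroup G) ⊓ (Q : Subgroup G) = ⊥ := by
  classical
  have hp := (Fact.out : p.Prime)
  by_contra hne
  set C : G → Subgroup G := fun x => Subgroup.centralizer ({x} : Set G) with hC
  have hnorm : ∀ (y z g : G), z ∈ C y → g⁻¹ * z * g ∈ C y → z ≠ 1 →
      g ∈ Subgroup.normalizer (C y : Set G) := fun y z g hz hgz hz1 => by
    by_contra hg
    have hg' : g⁻¹ ∉ Subgroup.normalizer (C y : Set G) := fun h => hg (by simpa using inv_mem h)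
    exact hz1 (hTI y g⁻¹ hg' z hz (by rwa [inv_inv]))
  have hcen : ∀ (S : Sylow p G), (S : Subgroup G) ≠ ⊥ →
      ∃ z ∈ (S : Subgroup G), z ≠ 1 ∧ (S : Subgroup G) ≤ C z := fun S hS => by
    haveI : Nontrivial (S : Subgroup G) := (Subgroup.nontrivial_iff_ne_bot _).2 hS
    haveI := S.2.center_nontrivial
    obtain ⟨⟨z, hz⟩, hz1⟩ := exists_ne (1 : Subgroup.center (S : Subgroup G))
    exact ⟨z.1, z.2, fun h => hz1 (Subtype.ext (Subtype.ext h)), fun s hs =>
      Subgroup.mem_centralizer_singleton_iff.2 (congrArg Subtype.val (Subgroup.mem_center_iff.1 hz ⟨s, hs⟩))⟩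
  -- an element of both subgroups
  obtain ⟨y, hy, hy1⟩ := (Subgroup.bot_or_exists_ne_one ((P : Subgroup G) ⊓ (Q : Subgroup G))).resolve_left hne
  obtain ⟨z, hz, hz1, hzP⟩ := hcen P (fun h => hy1 (Subgroup.mem_bot.1 (h ▸ hy.1)))
  obtain ⟨a, ha⟩ := MulAction.exists_smul_eq G P Q
  have hQ : ∀ v, v ∈ (Q : Subgroup G) ↔ a⁻¹ * v * a ∈ (P : Subgroup G) := fun v => by
    rw [← ha]
    constructor
    · rintro ⟨u, hu, rfl⟩
      show a⁻¹ * (a * u * a⁻¹) * a ∈ _
      have e : a⁻¹ * (a * u * a⁻¹) * a = u := by group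
      rw [e]; exact hu
    · intro hu
      exact ⟨_, hu, by show a * (a⁻¹ * v * a) * a⁻¹ = v; group⟩
  set w := a * z * a⁻¹ with hw
  -- both lie in the centraliser of `z`
  have hyz : y ∈ C z := hzP hy.1
  have hyw : a⁻¹ * y * a ∈ C z := hzP ((hQ y).1 hy.2)
  have han := hnorm z y a hyz hyw hy1
  set M := C z with hM
  have hQM : (Q : Subgroup G) ≤ M := fun v hv => by
    have h1 := (Subgroup.mem_normalizer_iff.1 han _).1 (hzP ((hQ v).1 hv))
    have e : a * (a⁻¹ * v * a) * a⁻¹ = v := by group
    rwa [e] at h1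
  have hzM : ∀ m ∈ M, m⁻¹ * z * m = z := fun m hm => by
    rw [mul_assoc, ← Subgroup.mem_centralizer_singleton_iff.1 hm, inv_mul_cancel_left]
  -- all centralisers of elements of `M` are normal in `M`
  have hnc : ∀ b ∈ M, M ≤ Subgroup.normalizer (C b : Set G) := fun b hb m hm => by
    have hzb : z ∈ C b := Subgroup.mem_centralizer_singleton_iff.2
      (Subgroup.mem_centralizer_singleton_iff.1 hb).symm
    exact hnorm b z m hzb (by rw [hzM m hm]; exact hzb) hz1
  have hnil : Group.IsNilpotent M := by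
    suffices htop : Cfsg.fittingSubgroup M = ⊤ by
      have h := Cfsg.Lib.Solv.fitting_isNilpotent (G := M)
      rw [htop] at h
      exact Group.nilpotent_of_mulEquiv (_h := h) Subgroup.topEquiv
    refine eq_top_iff.2 fun b _ => ?_
    set W := Subgroup.normalClosure ({b} : Set M) with hW
    haveI : IsMulCommutative W := by
      refine Subgroup.isMulCommutative_closure fun u hu v hv => ?_
      have hconj : ∀ u ∈ Group.conjugatesOfSet ({b} : Set M), ∃ c : M, u = c * b * c⁻¹ := fun u hu => by
        obtain ⟨b', hb', hu'⟩ := Group.mem_conjugatesOfSet_iff.1 hu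
        rw [Set.mem_singleton_iff] at hb'
        subst hb'
        obtain ⟨c, hc⟩ := isConj_iff.1 hu'
        exact ⟨c, hc.symm⟩
      obtain ⟨c, rfl⟩ := hconj u hu
      obtain ⟨d, rfl⟩ := hconj v hv
      have hbb : (b : G) ∈ C (b : G) := Subgroup.mem_centralizer_singleton_iff.2 rfl
      have h1 : ((c⁻¹ * d : M) : G) * b * ((c⁻¹ * d : M) : G)⁻¹ ∈ C (b : G) :=
        (Subgroup.mem_normalizer_iff.1 (hnc b b.2 (c⁻¹ * d : M).2) b).1 hbb
      have h2 : Commute ((c⁻¹ * d) * b * (c⁻¹ * d)⁻¹) b := Subtype.ext (by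
        push_cast; exact Subgroup.mem_centralizer_singleton_iff.1 h1)
      have h3 := h2.map (MulAut.conj c).toMonoidHom
      simp only [MulEquiv.coe_toMonoidHom, MulAut.conj_apply] at h3
      have e : c * (c⁻¹ * d * b * (c⁻¹ * d)⁻¹) * c⁻¹ = d * b * d⁻¹ := by group
      rw [e] at h3
      exact h3.symm.eq
    letI : CommGroup W := { (inferInstance : Group W) with mul_comm := mul_comm' }
    have hWn : Group.IsNilpotent W := CommGroup.isNilpotent
    exact Cfsg.Lib.Solv.le_fitting (N := W) Subgroup.normalClosure_normal hWn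
      (Subgroup.subset_normalClosure rfl)
  have hPM : (P : Subgroup G) ≤ M := hzP
  haveI := hnil
  have hnP : ((P.subtype hPM) : Subgroup M).Normal :=
    (Group.isNilpotent_of_finite_tfae (G := M)).out 0 3 rfl rfl |>.mp inferInstance p inferInstance (P.subtype hPM)
  haveI := Sylow.unique_of_normal (P.subtype hPM) hnP
  exact hPQ (Sylow.subtype_injective (Subsingleton.elim (P.subtype hPM) (Q.subtype hQM)))

end Cfsg.Agent.S4066
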