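import Cfsg.Statements.S4071
import Mathlib
import Cfsg.Agent.Lib.Solv.SelfNormNonabelian
import Cfsg.Agent.Lib.Solv.Cores
import Cfsg.Agent.Lib.Solv.Coprime
import Cfsg.Agent.Lib.Transfer.PGroupFrattini
-- import your own Cfsg.Agent.* helpers here

set_option autoImplicit false
open Cfsg
open scoped Pointwise

namespace Cfsg.Agent.S4071

/-- Let G be a finite solvable non-nilpotent group. Every non-abelian subgroup of G is self-normalizing if and only if G is a semidirect product ⟨x⟩ ⋉ A in which ⟨x⟩ is a p-group for some prime p, A is a normal abelian subgroup of order prime to p, x^p is central in G, and x acts fixed-point-freely on A (no non-identity element of A commutes with x). -/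
theorem result {G : Type*} [Group G] [Finite G]
    [Group.IsSolvable G] (hnn : ¬ Group.IsNilpotent G) :
    (∀ H : Subgroup G, ¬ IsMulCommutative H → Subgroup.normalizer (H : Set G) = H) ↔
    ∃ (x : G) (A : Subgroup G) (p : ℕ), p.Prime ∧ A.Normal ∧ IsMulCommutative A ∧ (∃ k : ℕ, orderOf x = p ^ k) ∧
      ¬ p ∣ Nat.card A ∧ (Subgroup.zpowers x).IsComplement' A ∧ x ^ p ∈ Subgroup.center G ∧
      ∀ a : G, a ∈ A → a ≠ 1 → x * a * x⁻¹ ≠ a := by
  constructor
  · intro hS
    haveI : Nontrivial G := by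
      by_contra h
      rw [not_nontrivial_iff_subsingleton] at h
      exact hnn inferInstance
    obtain ⟨K, q, hKn, hq, hKc, hKi⟩ :=
      Cfsg.Lib.Solv.SelfNormNA.exists_abelian_prime_index (G := G) hS inferInstance
    haveI := hKn
    haveI := hKc
    haveI := Fact.mk hq
    let A : Subgroup G :=
      { carrier := {g | g ∈ K ∧ (orderOf g).Coprime q}
        one_mem' := ⟨K.one_mem, by rw [orderOf_one]; exact Nat.coprime_one_left q⟩
        mul_mem' := fun {a b} ha hb => ⟨K.mul_mem ha.1 hb.1,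
          ((Nat.Coprime.mul_left ha.2 hb.2).coprime_dvd_left
            (((show Commute a b from Cfsg.Lib.Solv.commute_of_isMulCommutative ha.1 hb.1).orderOf_mul_dvd_lcm).trans
              (Nat.lcm_dvd_mul _ _)))⟩
        inv_mem' := fun {a} ha => ⟨K.inv_mem ha.1, by rw [orderOf_inv]; exact ha.2⟩ }
    have hAK : A ≤ K := fun a ha => ha.1
    haveI hAn : A.Normal := ⟨fun a ha g => ⟨hKn.conj_mem a ha.1 g, by
      rw [show g * a * g⁻¹ = MulAut.conj g a from rfl, MulEquiv.orderOf_eq]; exact ha.2⟩⟩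
    have hAc : ∀ a ∈ A, ∀ b ∈ A, a * b = b * a := fun a ha b hb =>
      Cfsg.Lib.Solv.commute_of_isMulCommutative (hAK ha) (hAK hb)
    have hqA : ¬ q ∣ Nat.card A := by
      intro h
      obtain ⟨z, hz⟩ := exists_prime_orderOf_dvd_card' q h
      have := z.2.2
      rw [Subgroup.orderOf_coe, hz, Nat.coprime_self] at this
      exact hq.one_lt.ne' this
    obtain Q : Sylow q G := default
    have hAQ : A ⊓ (Q : Subgroup G) = ⊥ := by
      rw [eq_bot_iff]
      intro z hz
      obtain ⟨k, hk⟩ := IsPGroup.iff_orderOf.1 Q.isPGroup' ⟨z, hz.2⟩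
      rw [← Subgroup.orderOf_coe] at hk
      exact Subgroup.mem_bot.2 (orderOf_eq_one_iff.1
        (Nat.eq_one_of_dvd_coprimes (hz.1.2.pow_right k) dvd_rfl (hk ▸ dvd_rfl)))
    have hGA : IsPGroup q (G ⧸ A) := by
      intro w
      obtain ⟨g, rfl⟩ := QuotientGroup.mk'_surjective A w
      refine ⟨(orderOf g).factorization q, ?_⟩
      rw [← map_pow]
      refine (QuotientGroup.eq_one_iff _).2 ?_
      have hc : (orderOf (g ^ q ^ (orderOf g).factorization q)).Coprime q := by
        rw [orderOf_pow_of_dvd (pow_ne_zero _ hq.ne_zero) (Nat.ordProj_dvd _ _)]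
        exact (Nat.coprime_ordCompl hq (orderOf_pos g).ne').symm
      refine ⟨(QuotientGroup.eq_one_iff _).1 (orderOf_eq_one_iff.1
        (Nat.eq_one_of_dvd_coprimes hc (orderOf_map_dvd (QuotientGroup.mk' K) _) ?_)), hc⟩
      rw [← hKi, Subgroup.index_eq_card]
      exact orderOf_dvd_natCard _
    obtain ⟨j, hj⟩ := IsPGroup.iff_card.1 hGA
    have hsup : A ⊔ (Q : Subgroup G) = ⊤ := by
      rw [← Subgroup.index_eq_one]
      have h1 : (A ⊔ (Q : Subgroup G)).index ∣ q ^ j := by
        rw [← hj, ← Subgroup.index_eq_card]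
        exact Subgroup.index_dvd_of_le le_sup_left
      have h2 : (A ⊔ (Q : Subgroup G)).index ∣ (Q : Subgroup G).index :=
        Subgroup.index_dvd_of_le le_sup_right
      exact Nat.eq_one_of_dvd_coprimes ((hq.coprime_iff_not_dvd.2 Q.not_dvd_index).pow_left j) h1 h2
    -- if Q centralizes A then G is nilpotent
    have hnil : ¬ ∀ a ∈ A, ∀ y ∈ (Q : Subgroup G), y * a = a * y := by
      intro h
      have hQn : (Q : Subgroup G).Normal := by
        rw [← Subgroup.normalizer_eq_top_iff, ← top_le_iff, ← hsup]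
        refine sup_le (fun a ha => ?_) Subgroup.le_normalizer
        refine Subgroup.centralizer_le_normalizer _ (Subgroup.mem_centralizer_iff.2 fun y hy => ?_)
        exact h a ha y hy
      haveI : IsMulCommutative A := ⟨⟨fun a b => Subtype.ext (hAc a a.2 b b.2)⟩⟩
      have hA' : A ≤ Cfsg.fittingSubgroup G := Cfsg.Lib.Solv.le_fitting hAn (by
        letI : CommGroup A := { (inferInstance : Group A) with mul_comm := mul_comm' }
        infer_instance)
      have hQ' : (Q : Subgroup G) ≤ Cfsg.fittingSubgroup G :=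
        Cfsg.Lib.Solv.le_fitting hQn Q.isPGroup'.isNilpotent
      have htop : (⊤ : Subgroup G) ≤ Cfsg.fittingSubgroup G := hsup ▸ sup_le hA' hQ'
      exact hnn ((Group.isNilpotent_congr Subgroup.topEquiv).1
        (Cfsg.Lib.Solv.isNilpotent_of_le htop Cfsg.Lib.Solv.fitting_isNilpotent))
    -- maximal subgroups of Q centralize A
    have hcen : ∀ L : Subgroup ↥(Q : Subgroup G), IsCoatom L →
        L.Normal ∧ L.index = q ∧ ∀ a ∈ A, ∀ y ∈ L, (y : G) * a = a * y := by
      intro L hL
      obtain ⟨hLn, hLi⟩ := Cfsg.Lib.Transfer.coatom_normal_index Q.isPGroup' hL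
      refine ⟨hLn, hLi, fun a ha y hy => ?_⟩
      set L' := L.map (Q : Subgroup G).subtype with hL'
      have hn : (A ⊔ L').Normal := by
        rw [← Subgroup.normalizer_eq_top_iff, ← top_le_iff, ← hsup]
        refine sup_le (le_sup_left.trans Subgroup.le_normalizer) (fun g hg => ?_)
        rw [← Cfsg.Lib.Solv.conj_smul_eq_self_iff, Subgroup.smul_sup]
        congr 1
        · exact Subgroup.Normal.conjAct hAn g |> fun _ =>
            Cfsg.Lib.Solv.conj_smul_eq_self_iff.2 (Subgroup.normalizer_eq_top_iff.2 hAn ▸ trivial)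
        · refine Subgroup.eq_of_le_of_card_ge ?_ (Cfsg.Lib.Solv.card_conj_smul _ _).ge
          rintro _ ⟨v, ⟨l, hl, rfl⟩, rfl⟩
          exact ⟨⟨g, hg⟩ * l * ⟨g, hg⟩⁻¹, hLn.conj_mem l hl _, rfl⟩
      have hne : A ⊔ L' ≠ ⊤ := by
        intro h
        apply hL.1
        rw [eq_top_iff]
        intro z _
        have hz : (z : G) ∈ A ⊔ L' := h ▸ trivial
        rw [← SetLike.mem_coe, Subgroup.normal_mul] at hz
        obtain ⟨b, hb, _, ⟨l, hl, rfl⟩, hbl⟩ := hz
        have hb1 : b = 1 := by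
          have : b ∈ A ⊓ (Q : Subgroup G) := ⟨hb, by
            rw [show b = (z : G) * (l : G)⁻¹ by rw [← hbl]; simp]
            exact (Q : Subgroup G).mul_mem z.2 ((Q : Subgroup G).inv_mem l.2)⟩
          rwa [hAQ, Subgroup.mem_bot] at this
        rw [hb1] at hbl
        have : l = z := Subtype.ext (by simpa using hbl)
        exact this ▸ hl
      haveI := hn
      haveI := Cfsg.Lib.Solv.SelfNormNA.abelian_normal (G := G) hS (A ⊔ L') hne
      exact Cfsg.Lib.Solv.commute_of_isMulCommutative (H := A ⊔ L')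
        (Subgroup.mem_sup_right ⟨y, hy, rfl⟩) (Subgroup.mem_sup_left ha)
    haveI : Nontrivial ↥(Q : Subgroup G) := by
      rw [Subgroup.nontrivial_iff_ne_bot]
      intro h
      exact hnil fun a _ y hy => by rw [h, Subgroup.mem_bot] at hy; subst hy; simp
    obtain ⟨L, hL, -⟩ := (eq_top_or_exists_le_coatom (⊥ : Subgroup ↥(Q : Subgroup G))).resolve_left bot_ne_top
    obtain ⟨y, hy⟩ : ∃ y, y ∉ L := by
      by_contra h
      exact hL.1 (eq_top_iff.2 fun z _ => not_not.1 (not_exists.1 h z))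
    have hgen : Subgroup.zpowers y = ⊤ := by
      by_contra h
      obtain ⟨L2, hL2, hle⟩ := (eq_top_or_exists_le_coatom _).resolve_left h
      have hne : L2 ≠ L := fun he => hy (he ▸ hle (Subgroup.mem_zpowers y))
      have htop : L ⊔ L2 = ⊤ := hL.2 _ (lt_of_le_of_ne le_sup_left fun he =>
        hne ((hL2.le_iff.1 (he ▸ le_sup_right : L2 ≤ L)).resolve_left hL.1).symm)
      apply hnil
      intro a ha z hz
      let C : Subgroup ↥(Q : Subgroup G) :=
        (Subgroup.centralizer ({a} : Set G)).comap (Q : Subgroup G).subtype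
      have hC : L ⊔ L2 ≤ C := by
        refine sup_le (fun w hw => ?_) (fun w hw => ?_) <;>
          show (w : G) ∈ Subgroup.centralizer ({a} : Set G)
        · exact Subgroup.mem_centralizer_singleton_iff.2 ((hcen L hL).2.2 a ha w hw)
        · exact Subgroup.mem_centralizer_singleton_iff.2 ((hcen L2 hL2).2.2 a ha w hw)
      rw [htop] at hC
      exact Subgroup.mem_centralizer_singleton_iff.1 (hC (Subgroup.mem_top (⟨z, hz⟩ : (Q : Subgroup G))))
    set x : G := (y : G) with hxdef
    have hxQ : Subgroup.zpowers x = (Q : Subgroup G) := by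
      have := congrArg (Subgroup.map (Q : Subgroup G).subtype) hgen
      rwa [MonoidHom.map_zpowers, ← MonoidHom.range_eq_map, Subgroup.range_subtype] at this
    obtain ⟨k, hk⟩ := IsPGroup.iff_orderOf.1 Q.isPGroup' y
    have hxord : orderOf x = q ^ k := by rw [hxdef, Subgroup.orderOf_coe, hk]
    have hqc : ∀ a ∈ A, (x ^ q) * a = a * (x ^ q) := by
      intro a ha
      haveI := (hcen L hL).1
      have hyq : y ^ q ∈ L := by
        have h := L.pow_index_mem y
        rwa [(hcen L hL).2.1] at h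
      exact (hcen L hL).2.2 a ha _ hyq
    refine ⟨x, A, q, hq, hAn, ⟨⟨fun a b => Subtype.ext (hAc a a.2 b b.2)⟩⟩, ⟨k, hxord⟩, hqA, ?_, ?_, ?_⟩
    · rw [hxQ]
      refine (Subgroup.isComplement'_of_disjoint_and_mul_eq_univ ?_ ?_)
      · rw [disjoint_iff, inf_comm, hAQ]
      · rw [← Subgroup.mul_normal, sup_comm, hsup]
        rfl
    · rw [Subgroup.mem_center_iff]
      intro g
      have hg : g ∈ A ⊔ Subgroup.zpowers x := by rw [hxQ, hsup]; trivial
      have hle : A ⊔ Subgroup.zpowers x ≤ Subgroup.centralizer ({x ^ q} : Set G) :=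
        sup_le (fun a ha => Subgroup.mem_centralizer_singleton_iff.2 (hqc a ha).symm)
          ((Subgroup.zpowers_le).2 (Subgroup.mem_centralizer_singleton_iff.2
            ((Commute.refl x).pow_right q).eq))
      exact Subgroup.mem_centralizer_singleton_iff.1 (hle hg)
    · intro a ha ha1 hfix
      have hxA : ∀ b ∈ A, x * b * x⁻¹ * b⁻¹ ∈ A := fun b hb =>
        A.mul_mem (hAn.conj_mem b hb x) (A.inv_mem hb)
      let φ : A →* G :=
        { toFun := fun b => x * (b : G) * x⁻¹ * (b : G)⁻¹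
          map_one' := by simp
          map_mul' := fun b c => by
            have e := hAc _ (hxA c c.2) _ (A.inv_mem b.2)
            rw [Subgroup.coe_mul]
            calc x * ((b : G) * c) * x⁻¹ * ((b : G) * c)⁻¹
                = (x * b * x⁻¹) * ((x * c * x⁻¹ * (c : G)⁻¹) * (b : G)⁻¹) := by group
              _ = (x * b * x⁻¹) * ((b : G)⁻¹ * (x * c * x⁻¹ * (c : G)⁻¹)) := by rw [e]
              _ = _ := by group }
      -- no fixed nontrivial commutators
      have key : ∀ b : A, x * φ b * x⁻¹ = φ b → φ b = 1 := by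
        intro b hb
        have hb' : x * (b : G) * x⁻¹ = φ b * b := by
          show _ = x * (b : G) * x⁻¹ * (b : G)⁻¹ * b
          group
        have hpow : ∀ n : ℕ, x ^ n * (b : G) * (x ^ n)⁻¹ = φ b ^ n * b := by
          intro n
          induction n with
          | zero => simp
          | succ n ih =>
            rw [pow_succ', mul_inv_rev, show x * x ^ n * (b : G) * ((x ^ n)⁻¹ * x⁻¹) =
              x * (x ^ n * (b : G) * (x ^ n)⁻¹) * x⁻¹ by group, ih,
              show x * (φ b ^ n * b) * x⁻¹ = (x * φ b ^ n * x⁻¹) * (x * b * x⁻¹) by group,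
              hb', ← conj_pow, hb, ← mul_assoc, pow_succ]
        have h1 := hpow (orderOf x)
        rw [pow_orderOf_eq_one, one_mul, inv_one, mul_one, eq_comm, mul_eq_right, hxord] at h1
        exact orderOf_eq_one_iff.1 (Nat.eq_one_of_dvd_coprimes ((hxA b b.2).2.pow_right k)
          dvd_rfl (orderOf_dvd_of_pow_eq_one h1))
      set H := φ.range ⊔ Subgroup.zpowers x with hH
      have hHna : ¬ IsMulCommutative H := by
        intro hc
        haveI := hc
        apply hnil
        intro b hb z hz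
        have h1 : φ ⟨b, hb⟩ = 1 := key _ (by
          rw [Cfsg.Lib.Solv.commute_of_isMulCommutative (H := H)
            (Subgroup.mem_sup_right (Subgroup.mem_zpowers x))
            (Subgroup.mem_sup_left (⟨_, rfl⟩ : φ ⟨b, hb⟩ ∈ φ.range)), mul_inv_cancel_right])
        have h2 : x * b = b * x := by
          have h1' : x * b * x⁻¹ * b⁻¹ = 1 := h1
          rwa [mul_inv_eq_one, mul_inv_eq_iff_eq_mul] at h1'
        rw [← hxQ] at hz
        obtain ⟨n, rfl⟩ := hz
        exact ((show Commute x b from h2).zpow_left n).eq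
      have haH : a ∈ H := by
        rw [← hS H hHna]
        refine Subgroup.centralizer_le_normalizer _ (Subgroup.mem_centralizer_iff.2 fun z hz => ?_)
        have hle : H ≤ Subgroup.centralizer ({a} : Set G) := by
          refine sup_le ?_ ((Subgroup.zpowers_le).2 ?_)
          · rintro _ ⟨b, rfl⟩
            exact Subgroup.mem_centralizer_singleton_iff.2 (hAc _ (hxA b b.2) a ha)
          · exact Subgroup.mem_centralizer_singleton_iff.2 (mul_inv_eq_iff_eq_mul.1 hfix)
        exact Subgroup.mem_centralizer_singleton_iff.1 (hle hz)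
      have hN : Subgroup.zpowers x ≤ Subgroup.normalizer (φ.range : Set G) := by
        refine (Subgroup.zpowers_le).2 ?_
        rw [← Cfsg.Lib.Solv.conj_smul_eq_self_iff]
        refine Subgroup.eq_of_le_of_card_ge ?_ (Cfsg.Lib.Solv.card_conj_smul _ _).ge
        rintro _ ⟨_, ⟨b, rfl⟩, rfl⟩
        refine ⟨⟨x * b * x⁻¹, hAn.conj_mem b b.2 x⟩, ?_⟩
        show x * (x * b * x⁻¹) * x⁻¹ * (x * b * x⁻¹)⁻¹ = x * (x * b * x⁻¹ * (b : G)⁻¹) * x⁻¹
        group
      rw [hH, ← SetLike.mem_coe, Subgroup.coe_mul_of_right_le_normalizer_left φ.range _ hN] at haH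
      obtain ⟨_, ⟨b, rfl⟩, z, hz, hbz⟩ := haH
      have hz1 : z = 1 := by
        have : z ∈ A ⊓ (Q : Subgroup G) := ⟨by
          rw [show z = (φ b)⁻¹ * a by rw [← hbz]; simp]
          exact A.mul_mem (A.inv_mem (hxA b b.2)) ha, hxQ ▸ hz⟩
        rwa [hAQ, Subgroup.mem_bot] at this
      simp only [hz1, mul_one] at hbz
      exact ha1 (hbz ▸ key b (by rw [hbz]; exact hfix))
  · rintro ⟨x, A, p, hp, hAn, hAc, ⟨k, hk⟩, hpA, hcompl, hxp, hfpf⟩ H hH
    haveI := hAn
    haveI := hAc
    haveI := Fact.mk hp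
    have hdec : ∀ g : G, ∃ a ∈ A, ∃ j : ℤ, g = a * x ^ j := by
      intro g
      obtain ⟨⟨⟨a, ha⟩, ⟨_, j, rfl⟩⟩, hg⟩ := hcompl.symm.2 g
      exact ⟨a, ha, j, hg.symm⟩
    -- an element of H acting fixed-point-freely on A
    obtain ⟨h, hhH, b, hb, j, hhj, hj⟩ : ∃ h ∈ H, ∃ b ∈ A, ∃ j : ℤ, h = b * x ^ j ∧ ¬ (p : ℤ) ∣ j := by
      by_contra hcon
      push_neg at hcon
      apply hH
      refine ⟨⟨fun u v => Subtype.ext ?_⟩⟩
      obtain ⟨a, ha, i, hu⟩ := hdec u
      obtain ⟨a', ha', i', hv⟩ := hdec v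
      obtain ⟨i1, rfl⟩ := hcon u u.2 a ha i hu
      obtain ⟨i2, rfl⟩ := hcon v v.2 a' ha' i' hv
      have hc : ∀ (m : ℤ) (g : G), Commute (x ^ ((p : ℤ) * m)) g := fun m g => by
        rw [zpow_mul, zpow_natCast]
        exact (show Commute (x ^ p) g from (Subgroup.mem_center_iff.1 hxp g).symm).zpow_left m
      show (u : G) * v = v * u
      rw [hu, hv]
      calc a * x ^ ((p : ℤ) * i1) * (a' * x ^ ((p : ℤ) * i2))
          = a * (x ^ ((p : ℤ) * i1) * a') * x ^ ((p : ℤ) * i2) := by group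
        _ = a * a' * (x ^ ((p : ℤ) * i1) * x ^ ((p : ℤ) * i2)) := by rw [(hc i1 a').eq]; group
        _ = a' * a * (x ^ ((p : ℤ) * i2) * x ^ ((p : ℤ) * i1)) := by
            rw [Cfsg.Lib.Solv.commute_of_isMulCommutative ha ha', (hc i1 _).eq]
        _ = a' * (x ^ ((p : ℤ) * i2) * a) * x ^ ((p : ℤ) * i1) := by rw [(hc i2 a).eq]; group
        _ = _ := by group
    obtain ⟨u, v, huv⟩ : IsCoprime j ((p : ℤ) ^ k) :=
      (IsCoprime.pow_right ((Nat.prime_iff_prime_int.1 hp).coprime_iff_not_dvd.2 hj).symm)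
    have hxpow : x = (x ^ j) ^ u := by
      conv_lhs => rw [← zpow_one x, ← huv]
      rw [zpow_add, mul_comm v, zpow_mul x ((p : ℤ) ^ k), ← Nat.cast_pow, zpow_natCast, ← hk,
        pow_orderOf_eq_one, one_zpow, mul_one, ← zpow_mul, mul_comm]
    have hfh : ∀ a ∈ A, h * a * h⁻¹ = a → a = 1 := by
      intro a ha hfix
      by_contra ha1
      have h1 : x ^ j * a * (x ^ j)⁻¹ ∈ A := hAn.conj_mem a ha _
      have h2 : x ^ j * a * (x ^ j)⁻¹ = a := by
        rw [hhj, show b * x ^ j * a * (b * x ^ j)⁻¹ = b * (x ^ j * a * (x ^ j)⁻¹) * b⁻¹ by group,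
          Cfsg.Lib.Solv.commute_of_isMulCommutative hb h1, mul_inv_cancel_right] at hfix
        exact hfix
      apply hfpf a ha ha1
      have h3 : Commute (x ^ j) a := mul_inv_eq_iff_eq_mul.1 h2
      rw [hxpow, (h3.zpow_left u).eq, mul_inv_cancel_right]
    set D := H ⊓ A with hD
    have hhA : ∀ a ∈ A, h * a * h⁻¹ * a⁻¹ ∈ A := fun a ha =>
      A.mul_mem (hAn.conj_mem a ha h) (A.inv_mem ha)
    let ψ : G → G := fun a => h * a * h⁻¹ * a⁻¹
    have hψinj : ∀ a ∈ A, ∀ c ∈ A, ψ a = ψ c → a = c := by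
      intro a ha c hc hac
      have e : h * (c⁻¹ * a) * h⁻¹ = c⁻¹ * a := by
        have e1 : h * a * h⁻¹ = h * c * h⁻¹ * c⁻¹ * a := by
          rw [← show ψ a * a = h * a * h⁻¹ by simp [ψ, mul_assoc], hac]
        have e2 : h * c * h⁻¹ * c⁻¹ = c⁻¹ * (h * c * h⁻¹) := by
          rw [Cfsg.Lib.Solv.commute_of_isMulCommutative (A.inv_mem hc) (hAn.conj_mem c hc h)]
        rw [e2] at e1
        calc h * (c⁻¹ * a) * h⁻¹ = (h * c * h⁻¹)⁻¹ * (h * a * h⁻¹) := by group
          _ = (h * c * h⁻¹)⁻¹ * (c⁻¹ * (h * c * h⁻¹) * a) := by rw [e1]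
          _ = c⁻¹ * a := by
            rw [Cfsg.Lib.Solv.commute_of_isMulCommutative (A.inv_mem hc) (hAn.conj_mem c hc h)]
            group
      have := hfh _ (A.mul_mem (A.inv_mem hc) ha) e
      exact (inv_mul_eq_one.1 this).symm
    let ψD : D → D := fun d => ⟨ψ d, ⟨H.mul_mem (H.mul_mem (H.mul_mem hhH d.2.1) (H.inv_mem hhH))
      (H.inv_mem d.2.1), hhA d d.2.2⟩⟩
    have hψD : Function.Surjective ψD := Finite.injective_iff_surjective.1 fun c d hcd =>
      Subtype.ext (hψinj c c.2.2 d d.2.2 (congrArg Subtype.val hcd))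
    refine le_antisymm ?_ Subgroup.le_normalizer
    intro g hg
    -- write g = a h^i
    obtain ⟨a, ha, i, rfl⟩ : ∃ a ∈ A, ∃ i : ℤ, g = a * h ^ i := by
      obtain ⟨a, ha, m, rfl⟩ := hdec g
      refine ⟨a * x ^ m * ((h ^ (u * m))⁻¹), ?_, u * m, by group⟩
      rw [mul_assoc]
      refine A.mul_mem ha ?_
      have hq : (QuotientGroup.mk' A) (x ^ m * (h ^ (u * m))⁻¹) = 1 := by
        rw [map_mul, map_inv, map_zpow, map_zpow, hhj, map_mul,
          show QuotientGroup.mk' A b = 1 from (QuotientGroup.eq_one_iff b).2 hb, one_mul, map_zpow,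
          zpow_mul, ← map_zpow, ← map_zpow, ← map_zpow, ← hxpow, map_zpow, mul_inv_cancel]
      exact (QuotientGroup.eq_one_iff _).1 hq
    refine H.mul_mem ?_ (H.zpow_mem hhH i)
    have haN : a ∈ Subgroup.normalizer (H : Set G) := by
      have := mul_mem hg (inv_mem (Subgroup.le_normalizer (H.zpow_mem hhH i)))
      rwa [mul_inv_cancel_right] at this
    have hψa : ψ a ∈ D := by
      refine ⟨?_, hhA a ha⟩
      rw [show ψ a = h * (a * h⁻¹ * a⁻¹) by simp [ψ, mul_assoc]]
      exact H.mul_mem hhH ((Subgroup.mem_normalizer_iff.1 haN h⁻¹).1 (H.inv_mem hhH))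
    obtain ⟨d, hd⟩ := hψD ⟨_, hψa⟩
    rw [hψinj a ha d d.2.2 (congrArg Subtype.val hd).symm]
    exact d.2.1

end Cfsg.Agent.S4071
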