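import Cfsg.Statements.S4072
import Cfsg.Agent.Lib.Solv.SelfNormNonabelian
import Cfsg.Agent.Lib.Transfer.Frobenius
import Cfsg.Agent.Lib.Transfer.NormalPComplement
-- import your own Cfsg.Agent.* helpers here

set_option autoImplicit false
open Cfsg
open Cfsg.Lib.Solv
open scoped commutatorElement

namespace Cfsg.Agent.S4072

universe u

theorem solvable_of_abelian {G : Type u} [Group G] (N : Subgroup G) [IsMulCommutative N] :
    Group.IsSolvable N := by
  refine (Group.isSolvable_def ↥N).2 ⟨1, ?_⟩
  rw [derivedSeries_one, eq_bot_iff]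
  show ⁅(⊤ : Subgroup N), (⊤ : Subgroup N)⁆ ≤ ⊥
  rw [Subgroup.commutator_le]
  intro a _ b _
  rw [Subgroup.mem_bot, commutatorElement_eq_one_iff_mul_comm]
  exact mul_comm' a b

theorem solvable_of_ext {G : Type u} [Group G] (N : Subgroup G) [N.Normal]
    (h1 : Group.IsSolvable N) (h2 : Group.IsSolvable (G ⧸ N)) : Group.IsSolvable G :=
  Group.isSolvable_of_ker_le_range N.subtype (QuotientGroup.mk' N)
    (by rw [QuotientGroup.ker_mk', Subgroup.range_subtype])

/-- Main step. -/
theorem main (n : ℕ) : ∀ (G : Type u) [Group G] [Finite G], Nat.card G = n → SelfNormNA G →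
    Group.IsSolvable G ∨ IsSimpleGroup G := by
  induction n using Nat.strong_induction_on with
  | _ n ih =>
  intro G _ _ hcard hS
  by_cases hsol : Group.IsSolvable G
  · exact Or.inl hsol
  refine Or.inr ?_
  haveI hnt : Nontrivial G := by
    by_contra h
    rw [not_nontrivial_iff_subsingleton] at h
    exact hsol ((Group.isSolvable_def G).2 ⟨0, Subsingleton.elim _ _⟩)
  have habn : ∀ N : Subgroup G, N.Normal → N ≠ ⊤ → IsMulCommutative N := fun N hN h => by
    haveI := hN
    exact hS.abelian_normal N h
  have hperf : commutator G = ⊤ := by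
    by_contra h
    haveI := habn _ inferInstance h
    refine hsol (solvable_of_ext (commutator G) (solvable_of_abelian _) ?_)
    haveI : IsMulCommutative (G ⧸ commutator G) :=
      Subgroup.Normal.quotient_commutative_iff_commutator_le.2 le_rfl
    refine (Group.isSolvable_def (G ⧸ commutator G)).2 ⟨1, ?_⟩
    rw [derivedSeries_one]
    exact eq_bot_iff.2 (Subgroup.commutator_le.2 fun a _ b _ => by
      rw [Subgroup.mem_bot, commutatorElement_eq_one_iff_mul_comm]; exact mul_comm' a b)
  refine ⟨fun R hR => ?_⟩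
  by_contra hcon
  push_neg at hcon
  obtain ⟨hR1, hR2⟩ := hcon
  -- enlarge R to a maximal proper normal subgroup
  obtain ⟨R0, hR0R, ⟨hR0n, hR0t⟩, hmax⟩ := Set.Finite.exists_le_maximal
    (Set.toFinite {N : Subgroup G | N.Normal ∧ N ≠ ⊤}) (a := R) ⟨hR, hR2⟩
  haveI := hR0n
  haveI hR0c : IsMulCommutative R0 := habn R0 hR0n hR0t
  have hR0b : R0 ≠ ⊥ := fun h => hR1 (le_bot_iff.1 (h ▸ hR0R))
  -- R0 is central
  have hcen : R0 ≤ Subgroup.center G := by
    by_contra hnc
    set C := Subgroup.centralizer (R0 : Set G) with hC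
    have hCt : C ≠ ⊤ := by
      intro h
      refine hnc fun x hx => Subgroup.mem_center_iff.2 fun y => ?_
      have hy : y ∈ C := h ▸ trivial
      exact (Subgroup.mem_centralizer_iff.1 hy x hx).symm
    have hRC : R0 ≤ C := Subgroup.le_centralizer_iff_isMulCommutative.2 hR0c
    have hCR : C ≤ R0 := hmax ⟨inferInstance, hCt⟩ hRC
    set f := QuotientGroup.mk' R0 with hf
    have hfs : Function.Surjective f := QuotientGroup.mk'_surjective R0
    -- nontrivial cyclic subgroups of the quotient are self-normalizing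
    have hcyc : ∀ z : G ⧸ R0, z ≠ 1 →
        Subgroup.normalizer ((Subgroup.zpowers z : Subgroup (G ⧸ R0)) : Set (G ⧸ R0)) = Subgroup.zpowers z := by
      intro z hz
      obtain ⟨x, rfl⟩ := hfs z
      set H := (Subgroup.zpowers (f x)).comap f with hH
      have hHna : ¬ IsMulCommutative H := by
        intro hc
        refine hz ((QuotientGroup.eq_one_iff x).2 (hCR (Subgroup.mem_centralizer_iff.2 fun r hr => ?_)))
        refine commute_of_isMulCommutative (H := H) ?_ ?_
        · rw [hH, Subgroup.mem_comap, show f r = 1 from (QuotientGroup.eq_one_iff r).2 hr]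
          exact one_mem _
        · exact Subgroup.mem_zpowers _
      refine le_antisymm ?_ Subgroup.le_normalizer
      rw [← Subgroup.map_comap_eq_self_of_surjective hfs (Subgroup.zpowers (f x)), ← hH]
      intro w hw
      obtain ⟨y, rfl⟩ := hfs w
      refine ⟨y, ?_, rfl⟩
      rw [← hS H hHna, SetLike.mem_coe, Subgroup.mem_normalizer_iff]
      intro u
      have h2 := Subgroup.mem_normalizer_iff.1 hw (f u)
      rw [Subgroup.map_comap_eq_self_of_surjective hfs] at h2
      simpa [hH, Subgroup.mem_comap, map_mul, map_inv] using h2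
    haveI : Nontrivial (G ⧸ R0) := QuotientGroup.nontrivial_iff.2 hR0t
    set p := (Nat.card (G ⧸ R0)).minFac with hp
    have hpp : p.Prime := Nat.minFac_prime (Finite.one_lt_card).ne'
    haveI := Fact.mk hpp
    obtain P : Sylow p (G ⧸ R0) := default
    have hPne : (P : Subgroup (G ⧸ R0)) ≠ ⊥ := P.ne_bot_of_dvd_card (Nat.minFac_dvd _)
    haveI : Nontrivial ↥(P : Subgroup (G ⧸ R0)) := (Subgroup.nontrivial_iff_ne_bot _).2 hPne
    obtain ⟨⟨z, hzP⟩, hzc, hz1⟩ : ∃ z, z ∈ Subgroup.center ↥(P : Subgroup (G ⧸ R0)) ∧ z ≠ 1 := by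
      haveI := P.isPGroup'.center_nontrivial
      obtain ⟨z, hz⟩ := exists_ne (1 : Subgroup.center ↥(P : Subgroup (G ⧸ R0)))
      exact ⟨z, z.2, fun h => hz (Subtype.ext h)⟩
    have hz1' : z ≠ 1 := fun h => hz1 (Subtype.ext h)
    have hPz : (P : Subgroup (G ⧸ R0)) ≤ Subgroup.zpowers z := by
      rw [← hcyc z hz1']
      refine le_trans (fun w hw => ?_) (Subgroup.centralizer_le_normalizer _)
      rw [Subgroup.mem_centralizer_iff]
      rintro _ ⟨k, rfl⟩
      have := congrArg Subtype.val (Subgroup.mem_center_iff.1 hzc ⟨w, hw⟩)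
      exact ((show Commute w z from this).zpow_right k).symm.eq
    have hPeq : (P : Subgroup (G ⧸ R0)) = Subgroup.zpowers z :=
      le_antisymm hPz ((Subgroup.zpowers_le).2 hzP)
    have hnpc : Cfsg.HasNormalPComplement p (G ⧸ R0) := by
      refine (Cfsg.Lib.Transfer.frobenius_iff P).2 fun Q hQ g hg _ => ?_
      by_cases hQ1 : Q = ⊥
      · subst hQ1
        rw [Subgroup.mem_centralizer_iff]
        intro y hy
        rw [Subgroup.mem_bot.1 hy, one_mul, mul_one]
      haveI : IsCyclic Q := Subgroup.isCyclic_of_le (hQ.trans hPz)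
      obtain ⟨w, hw⟩ := (Subgroup.isCyclic_iff_exists_zpowers_eq_top Q).1 inferInstance
      have hw1 : w ≠ 1 := fun h => hQ1 (by rw [← hw, h, Subgroup.zpowers_one_eq_bot])
      rw [← hw] at hg ⊢
      rw [hcyc w hw1] at hg
      rw [Subgroup.mem_centralizer_iff]
      intro y hy
      obtain ⟨i, rfl⟩ := hg
      obtain ⟨j, rfl⟩ := hy
      exact (Commute.zpow_zpow_self w j i).eq
    haveI := Cfsg.Lib.Transfer.pResidual_normal (G := G ⧸ R0) p
    have hk := Cfsg.Lib.Transfer.hasNormalPComplement_iff_pResidual.1 hnpc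
    have hne : Cfsg.pResidual p (G ⧸ R0) ≠ ⊤ := by
      intro h
      rw [h, Subgroup.card_top] at hk
      exact hpp.coprime_iff_not_dvd.1 hk.symm (Nat.minFac_dvd _)
    have hKb : (Cfsg.pResidual p (G ⧸ R0)).comap f = R0 := by
      have hle : R0 ≤ (Cfsg.pResidual p (G ⧸ R0)).comap f := fun r hr => by
        rw [Subgroup.mem_comap, show f r = 1 from (QuotientGroup.eq_one_iff r).2 hr]
        exact one_mem _
      refine le_antisymm (hmax ⟨inferInstance, fun h => hne ?_⟩ hle) hle
      rw [← Subgroup.map_comap_eq_self_of_surjective hfs (Cfsg.pResidual p (G ⧸ R0)), h,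
        Subgroup.map_top_of_surjective f hfs]
    have hbot : Cfsg.pResidual p (G ⧸ R0) = ⊥ := by
      rw [← Subgroup.map_comap_eq_self_of_surjective hfs (Cfsg.pResidual p (G ⧸ R0)), hKb,
        Subgroup.map_eq_bot_iff, QuotientGroup.ker_mk']
    obtain ⟨k, hk2⟩ := Cfsg.Lib.Transfer.exists_index_pResidual_eq_pow (G := G ⧸ R0) (p := p)
    rw [hbot, Subgroup.index_bot] at hk2
    haveI : Group.IsNilpotent (G ⧸ R0) := (IsPGroup.of_card hk2).isNilpotent
    exact hsol (solvable_of_ext R0 (solvable_of_abelian R0) inferInstance)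
  -- a prime dividing the order of R0
  obtain ⟨p, hpp, hpR⟩ := Nat.exists_prime_and_dvd
    (fun h : Nat.card R0 = 1 => hR0b (Subgroup.eq_bot_of_card_eq _ h))
  haveI := Fact.mk hpp
  obtain ⟨z0, hz0⟩ := exists_prime_orderOf_dvd_card' p hpR
  obtain P : Sylow p G := default
  -- the Sylow subgroups are non-abelian
  have hPna : ∀ S : Sylow p G, ¬ IsMulCommutative (S : Subgroup G) := by
    intro S hc
    haveI := hc
    haveI : (S : Subgroup G).FiniteIndex := ⟨Subgroup.index_ne_zero_of_finite⟩
    letI : CommGroup ↥(S : Subgroup G) :=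
      { (inferInstance : Group ↥(S : Subgroup G)) with mul_comm := mul_comm' }
    have hzc : ∀ y : G, y * (z0 : G) = (z0 : G) * y := Subgroup.mem_center_iff.1 (hcen z0.2)
    have hzS : (z0 : G) ∈ (S : Subgroup G) := by
      have hz : IsPGroup p ↥(Subgroup.zpowers (z0 : G)) :=
        IsPGroup.of_card (n := 1) (by rw [Nat.card_zpowers, Subgroup.orderOf_coe, hz0, pow_one])
      haveI : (Subgroup.zpowers (z0 : G)).Normal := ⟨fun a ha g => by
        obtain ⟨k, rfl⟩ := ha
        rw [((show Commute g (z0 : G) from hzc g).zpow_right k).eq, mul_inv_cancel_right]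
        exact ⟨k, rfl⟩⟩
      exact hz.le_sylow_of_normal S (Subgroup.mem_zpowers _)
    let τ : G →* ↥(S : Subgroup G) := MonoidHom.transfer (MonoidHom.id ↥(S : Subgroup G))
    have hτ : τ (z0 : G) = 1 := by
      have : commutator G ≤ τ.ker := Abelianization.commutator_subset_ker τ
      rw [hperf] at this
      exact this trivial
    rw [MonoidHom.transfer_eq_pow (ϕ := MonoidHom.id ↥(S : Subgroup G)) (z0 : G) (fun k g₀ _ => by
      rw [mul_assoc, ← ((show Commute g₀ (z0 : G) from hzc g₀).pow_right k).eq, inv_mul_cancel_left])] at hτ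
    have h2 : (z0 : G) ^ (S : Subgroup G).index = 1 := congrArg Subtype.val hτ
    have h3 := orderOf_dvd_of_pow_eq_one h2
    rw [Subgroup.orderOf_coe, hz0] at h3
    exact S.not_dvd_index h3
  -- Frobenius criterion by downward induction
  have hfrob : ∀ U : Subgroup G, IsPGroup p U → ∀ g ∈ Subgroup.normalizer (U : Set G),
      (orderOf g).Coprime p → g ∈ Subgroup.centralizer (U : Set G) := by
    intro U
    induction U using (wellFounded_gt (α := Subgroup G)).induction with
    | _ U IH =>
    intro hUp g hg hgp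
    by_cases hUc : IsMulCommutative U
    swap
    · rw [hS U hUc] at hg
      obtain ⟨k, hk⟩ := IsPGroup.iff_orderOf.1 hUp ⟨g, hg⟩
      rw [← Subgroup.orderOf_coe] at hk
      have hg1 : g = 1 := orderOf_eq_one_iff.1
        (Nat.eq_one_of_dvd_coprimes (hgp.pow_right k) dvd_rfl (hk ▸ dvd_rfl))
      rw [hg1]
      exact one_mem _
    rw [Subgroup.mem_centralizer_iff]
    by_cases hUn : Subgroup.normalizer (U : Set G) = ⊤
    · intro u hu
      haveI : U.Normal := Subgroup.normalizer_eq_top_iff.1 hUn
      have hUle : U ≤ R0 := by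
        by_contra hnle
        have hsup : R0 ⊔ U = ⊤ := by
          by_contra h
          exact hnle (le_sup_right.trans (hmax ⟨inferInstance, h⟩ le_sup_left))
        refine hsol (solvable_of_ext R0 (solvable_of_abelian R0) ?_)
        haveI : Group.IsNilpotent U := hUp.isNilpotent
        refine Group.isSolvable_of_surjective (f := (QuotientGroup.mk' R0).comp U.subtype) ?_
        intro w
        obtain ⟨y, rfl⟩ := QuotientGroup.mk'_surjective R0 w
        have hy : y ∈ R0 ⊔ U := hsup ▸ trivial
        rw [← SetLike.mem_coe, Subgroup.normal_mul] at hy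
        obtain ⟨r, hr, v, hv, rfl⟩ := hy
        refine ⟨⟨v, hv⟩, ?_⟩
        rw [map_mul, show QuotientGroup.mk' R0 r = 1 from (QuotientGroup.eq_one_iff r).2 hr, one_mul]
        rfl
      exact (Subgroup.mem_center_iff.1 (hcen (hUle hu)) g).symm
    set M := Subgroup.normalizer (U : Set G) with hM
    have hUM : U ≤ M := Subgroup.le_normalizer
    haveI hUMn : (U.subgroupOf M).Normal := Subgroup.normal_in_normalizer
    by_cases hMc : IsMulCommutative M
    · intro u hu
      exact commute_of_isMulCommutative (H := M) (hUM hu) hg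
    by_cases hU1 : U = ⊥
    · intro u hu
      rw [hU1] at hu
      rw [Subgroup.mem_bot.1 hu, one_mul, mul_one]
    have hMsol : Group.IsSolvable M := by
      have hlt : Nat.card M < n := hcard ▸ lt_of_le_of_ne (Subgroup.card_le_card_group M)
        (fun h => hUn ((Subgroup.card_eq_iff_eq_top M).1 h))
      refine (ih _ hlt M rfl (hS.subgroup M)).resolve_right fun hsimp => ?_
      haveI := hsimp
      rcases hUMn.eq_bot_or_eq_top with h | h
      · rw [Subgroup.subgroupOf_eq_bot] at h
        exact hU1 ((disjoint_self.1 (h.mono_right hUM)))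
      · rw [Subgroup.subgroupOf_eq_top] at h
        exact hMc (le_antisymm h hUM ▸ hUc)
    haveI : Nontrivial M := by
      rw [Subgroup.nontrivial_iff_ne_bot]
      exact fun h => hU1 (le_bot_iff.1 (h ▸ hUM))
    obtain ⟨K, q, hKn, hq, hKc, hKi⟩ := (hS.subgroup M).exists_abelian_prime_index hMsol
    haveI := hKn
    haveI := hKc
    let π := QuotientGroup.mk' K
    have hmemK : ∀ (m : M) (r : ℕ), orderOf m ∣ r → r.Coprime q → m ∈ K := by
      intro m r h1 h2
      refine (QuotientGroup.eq_one_iff m).1 (orderOf_eq_one_iff.1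
        (Nat.eq_one_of_dvd_coprimes h2 ((orderOf_map_dvd π m).trans h1) ?_))
      rw [← hKi, Subgroup.index_eq_card]
      exact orderOf_dvd_natCard _
    by_cases hqp : q = p
    · subst hqp
      have hgK : (⟨g, hg⟩ : M) ∈ K :=
        hmemK _ (orderOf g) (dvd_of_eq (Subgroup.orderOf_coe _).symm) hgp
      intro u hu
      set c : M := ⟨g, hg⟩ * ⟨u, hUM hu⟩ * ⟨g, hg⟩⁻¹ * ⟨u, hUM hu⟩⁻¹ with hc
      have hcK : c ∈ K := by
        rw [hc, mul_assoc, mul_assoc]
        refine K.mul_mem hgK ?_
        rw [← mul_assoc]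
        exact hKn.conj_mem _ (K.inv_mem hgK) _
      have hcU : (c : G) ∈ U := by
        show g * u * g⁻¹ * u⁻¹ ∈ U
        exact U.mul_mem ((Subgroup.mem_normalizer_iff.1 hg u).1 hu) (U.inv_mem hu)
      have hcg : g * (c : G) * g⁻¹ = c := by
        have := congrArg Subtype.val (commute_of_isMulCommutative hgK hcK)
        rw [Subgroup.coe_mul, Subgroup.coe_mul] at this
        rw [show g * (c : G) = (c : G) * g from this, mul_inv_cancel_right]
      have hgu : g * u * g⁻¹ = (c : G) * u := by
        show _ = g * u * g⁻¹ * u⁻¹ * u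
        group
      have hpow : ∀ k : ℕ, g ^ k * u * (g ^ k)⁻¹ = (c : G) ^ k * u := by
        intro k
        induction k with
        | zero => simp
        | succ k ih' =>
          rw [pow_succ', mul_inv_rev, show g * g ^ k * u * ((g ^ k)⁻¹ * g⁻¹) =
            g * (g ^ k * u * (g ^ k)⁻¹) * g⁻¹ by group, ih',
            show g * ((c : G) ^ k * u) * g⁻¹ = (g * (c : G) ^ k * g⁻¹) * (g * u * g⁻¹) by group,
            hgu, ← conj_pow, hcg, ← mul_assoc, pow_succ]
      have h1 := hpow (orderOf g)
      rw [pow_orderOf_eq_one, one_mul, inv_one, mul_one, eq_comm, mul_eq_right] at h1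
      obtain ⟨k, hk⟩ := IsPGroup.iff_orderOf.1 hUp ⟨c, hcU⟩
      rw [← Subgroup.orderOf_coe] at hk
      have hc1 : (c : G) = 1 := orderOf_eq_one_iff.1
        (Nat.eq_one_of_dvd_coprimes (hgp.pow_right k) (orderOf_dvd_of_pow_eq_one h1) (hk ▸ dvd_rfl))
      rw [hc1, one_mul, mul_inv_eq_iff_eq_mul] at hgu
      exact hgu.symm
    · obtain S : Sylow p M := default
      have hSK : (S : Subgroup M) ≤ K := by
        intro s hs
        obtain ⟨k, hk⟩ := IsPGroup.iff_orderOf.1 S.isPGroup' ⟨s, hs⟩
        refine hmemK s (p ^ k) (by rw [← hk]; exact dvd_of_eq (Subgroup.orderOf_coe (⟨s, hs⟩ : ↥(S : Subgroup M)))) ?_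
        exact Nat.Coprime.pow_left _ ((Nat.coprime_primes hpp hq).2 (fun h => hqp h.symm))
      haveI hSn : (S : Subgroup M).Normal := by
        refine ⟨fun a ha m => ?_⟩
        set T : Subgroup M := (S : Subgroup M).map (MulAut.conj m).toMonoidHom with hT
        have hTK : T ≤ K := by
          rintro _ ⟨b, hb, rfl⟩
          exact hKn.conj_mem b (hSK hb) m
        have hN : T ≤ Subgroup.normalizer ((S : Subgroup M) : Set M) := by
          intro t ht
          rw [Subgroup.mem_normalizer_iff]
          intro w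
          constructor
          · intro hw
            rwa [commute_of_isMulCommutative (hTK ht) (hSK hw), mul_inv_cancel_right]
          · intro hw
            have := commute_of_isMulCommutative (K.inv_mem (hTK ht)) (hSK hw)
            rw [show w = t⁻¹ * (t * w * t⁻¹) * t by group, this, inv_mul_cancel_right]
            exact hw
        have hp' := IsPGroup.to_sup_of_normal_left' S.isPGroup' (S.isPGroup'.map _) hN
        have := S.is_maximal' hp' le_sup_left
        exact this.le (Subgroup.mem_sup_right ⟨a, ha, rfl⟩)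
      set R := (S : Subgroup M).map M.subtype with hR
      have hUR : U ≤ R := fun u hu =>
        haveI : (U.comap M.subtype).Normal := hUMn
        ⟨⟨u, hUM hu⟩, (hUp.comap_subtype (K := M)).le_sylow_of_normal S hu, rfl⟩
      rcases hUR.lt_or_eq with hlt | heq
      · have hgR : g ∈ Subgroup.normalizer (R : Set G) := by
          rw [Subgroup.mem_normalizer_iff]
          intro y
          constructor
          · rintro ⟨b, hb, rfl⟩
            exact ⟨⟨g, hg⟩ * b * ⟨g, hg⟩⁻¹, hSn.conj_mem b hb _, rfl⟩
          · rintro ⟨b, hb, hby⟩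
            refine ⟨⟨g, hg⟩⁻¹ * b * ⟨g, hg⟩, ?_, ?_⟩
            · have h := hSn.conj_mem b hb (⟨g, hg⟩ : M)⁻¹
              rwa [inv_inv] at h
            · show g⁻¹ * M.subtype b * g = y
              rw [hby]
              group
        intro u hu
        exact Subgroup.mem_centralizer_iff.1 (IH R hlt (S.isPGroup'.map _) g hgR hgp) u (hUR hu)
      · exfalso
        obtain ⟨S', hS'⟩ := hUp.exists_le_sylow
        apply hPna S'
        have heq' : U = (S' : Subgroup G) := by
          by_contra hne
          have hlt : U < (S' : Subgroup G) := lt_of_le_of_ne hS' hne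
          haveI : Group.IsNilpotent ↥(S' : Subgroup G) := S'.isPGroup'.isNilpotent
          have hne' : U.subgroupOf (S' : Subgroup G) < ⊤ := by
            rw [lt_top_iff_ne_top, Ne, Subgroup.subgroupOf_eq_top]
            exact hlt.not_ge
          obtain ⟨r, hrN, hrU⟩ :=
            SetLike.exists_of_lt (Group.normalizerCondition_of_isNilpotent _ hne')
          set N := (Subgroup.normalizer ((U.subgroupOf (S' : Subgroup G) : Subgroup ↥(S' : Subgroup G)) : Set ↥(S' : Subgroup G))).map (S' : Subgroup G).subtype with hN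
          have hNM : N ≤ M := by
            rintro _ ⟨t, ht, rfl⟩
            rw [hM, Subgroup.mem_normalizer_iff]
            intro y
            constructor
            · intro hy
              exact (Subgroup.mem_normalizer_iff.1 ht ⟨y, hS' hy⟩).1 hy
            · intro hy
              have hy' : y ∈ (S' : Subgroup G) := by
                have := (S' : Subgroup G).mul_mem ((S' : Subgroup G).mul_mem ((S' : Subgroup G).inv_mem t.2) (hS' hy)) t.2
                simpa [mul_assoc] using this
              exact (Subgroup.mem_normalizer_iff.1 ht ⟨y, hy'⟩).2 hy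
          have hNp : IsPGroup p ↥(N.subgroupOf M) :=
            ((S'.isPGroup'.to_subgroup _).map _).comap_subtype
          obtain ⟨S2, hS2⟩ := hNp.exists_le_sylow
          haveI := Sylow.unique_of_normal S hSn
          rw [Subsingleton.elim S2 S] at hS2
          have hr : (r : G) ∈ U := heq ▸ ⟨⟨r, hNM ⟨r, hrN, rfl⟩⟩, hS2 ⟨r, hrN, rfl⟩, rfl⟩
          exact hrU hr
        exact heq' ▸ hUc
  have hnpc : Cfsg.HasNormalPComplement p G :=
    (Cfsg.Lib.Transfer.frobenius_iff P).2 fun Q hQ => hfrob Q (P.isPGroup'.to_le hQ)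
  haveI := Cfsg.Lib.Transfer.pResidual_normal (G := G) p
  have hk := Cfsg.Lib.Transfer.hasNormalPComplement_iff_pResidual.1 hnpc
  have hne : Cfsg.pResidual p G ≠ ⊤ := by
    intro h
    rw [h, Subgroup.card_top] at hk
    exact hpp.coprime_iff_not_dvd.1 hk.symm (hpR.trans (Subgroup.card_subgroup_dvd_card _))
  haveI := habn _ inferInstance hne
  obtain ⟨k, hk2⟩ := Cfsg.Lib.Transfer.exists_index_pResidual_eq_pow (G := G) (p := p)
  rw [Subgroup.index_eq_card] at hk2
  haveI : Group.IsNilpotent (G ⧸ Cfsg.pResidual p G) := (IsPGroup.of_card hk2).isNilpotent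
  exact hsol (solvable_of_ext _ (solvable_of_abelian (Cfsg.pResidual p G)) inferInstance)

/-- A finite group in which every non-abelian subgroup is self-normalizing is solvable or simple. -/
theorem result {G : Type*} [Group G] [Finite G] (hS : ∀ H : Subgroup G, ¬ IsMulCommutative H → Subgroup.normalizer (H : Set G) = H) :
    Group.IsSolvable G ∨ IsSimpleGroup G := by
  exact main _ G rfl hS

end Cfsg.Agent.S4072
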