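import Cfsg.Statements.S4074
import Mathlib
-- import your own Cfsg.Agent.* helpers here

set_option autoImplicit false
open Cfsg

namespace Cfsg.Agent.S4074

/-- For n > 2, every non-abelian subgroup of the dihedral group of order 2n is self-normalizing if and only if n = 4 or n is odd. -/
theorem result (n : ℕ) (hn : 2 < n) :
    (∀ H : Subgroup (DihedralGroup n), ¬ IsMulCommutative H → Subgroup.normalizer (H : Set (DihedralGroup n)) = H) ↔
    (n = 4 ∨ Odd n) := by
  constructor
  · intro h
    by_contra hc
    push Not at hc
    obtain ⟨hn4, hodd⟩ := hc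
    have hev : 2 ∣ n := even_iff_two_dvd.1 (Nat.not_odd_iff_even.1 hodd)
    let c := ZMod.castHom hev (ZMod 2)
    have hneg : ∀ x : ZMod 2, -x = x := by decide
    let φ : DihedralGroup n →* Multiplicative (ZMod 2) :=
      MonoidHom.mk' (fun g => Multiplicative.ofAdd (match g with
        | DihedralGroup.r i => c i
        | DihedralGroup.sr i => c i)) (by
        rintro (a | a) (b | b) <;>
          simp only [DihedralGroup.r_mul_r, DihedralGroup.r_mul_sr, DihedralGroup.sr_mul_r,
            DihedralGroup.sr_mul_sr, ← ofAdd_add, map_add, map_sub, sub_eq_add_neg, map_neg, hneg, add_comm])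
    have hr2 : DihedralGroup.r (2 : ZMod n) ∈ φ.ker := by
      show Multiplicative.ofAdd (c 2) = 1
      rw [map_ofNat]; rfl
    have hs : DihedralGroup.sr (0 : ZMod n) ∈ φ.ker := by
      show Multiplicative.ofAdd (c 0) = 1
      rw [map_zero]; rfl
    have hna : ¬ IsMulCommutative φ.ker := by
      intro hC
      have h1 := congrArg Subtype.val (hC.is_comm.comm ⟨_, hr2⟩ ⟨_, hs⟩)
      simp only [Subgroup.coe_mul, DihedralGroup.r_mul_sr, DihedralGroup.sr_mul_r] at h1
      injection h1 with h2
      have h4 : ((4 : ℕ) : ZMod n) = 0 := by push_cast; linear_combination -h2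
      have h5 := (ZMod.natCast_eq_zero_iff 4 n).1 h4
      have h6 := Nat.le_of_dvd (by norm_num) h5
      interval_cases n <;> omega
    have h1 := h φ.ker hna
    rw [Subgroup.normalizer_eq_top_iff.2 φ.normal_ker] at h1
    have h2 : DihedralGroup.r (1 : ZMod n) ∈ φ.ker := h1 ▸ Subgroup.mem_top _
    have h3 : Multiplicative.ofAdd (c 1) = 1 := h2
    rw [map_one] at h3
    exact absurd h3 (by decide)
  · intro hcase H hna
    refine le_antisymm ?_ Subgroup.le_normalizer
    obtain ⟨i, hi⟩ : ∃ i, DihedralGroup.sr i ∈ H := by
      by_contra hno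
      push Not at hno
      refine hna ⟨⟨?_⟩⟩
      rintro ⟨a | a, ha⟩ ⟨b | b, hb⟩
      · exact Subtype.ext (by simp [add_comm])
      · exact absurd hb (hno b)
      · exact absurd ha (hno a)
      · exact absurd ha (hno a)
    obtain ⟨j, hj, hj2⟩ : ∃ j, DihedralGroup.r j ∈ H ∧ j + j ≠ 0 := by
      by_contra hno
      push Not at hno
      refine hna ⟨⟨?_⟩⟩
      rintro ⟨a | a, ha⟩ ⟨b | b, hb⟩
      · exact Subtype.ext (by simp [add_comm])
      · refine Subtype.ext ?_
        simp only [Subgroup.coe_mul, DihedralGroup.r_mul_sr, DihedralGroup.sr_mul_r]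
        congr 1
        linear_combination -hno a ha
      · refine Subtype.ext ?_
        simp only [Subgroup.coe_mul, DihedralGroup.r_mul_sr, DihedralGroup.sr_mul_r]
        congr 1
        linear_combination hno b hb
      · refine Subtype.ext ?_
        simp only [Subgroup.coe_mul, DihedralGroup.sr_mul_sr]
        congr 1
        have h1 := H.mul_mem ha hb
        rw [DihedralGroup.sr_mul_sr] at h1
        linear_combination hno _ h1
    intro g hg
    rcases hcase with rfl | hodd
    · have hjj : ∀ x : ZMod 4, x + x ≠ 0 → x * x = 1 := by decide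
      have hr1 : DihedralGroup.r (1 : ZMod 4) ∈ H := by
        have h1 := H.pow_mem hj j.val
        rwa [DihedralGroup.r_pow, ZMod.natCast_zmod_val, hjj j hj2] at h1
      have hr : ∀ x : ZMod 4, DihedralGroup.r x ∈ H := fun x => by
        have h1 := H.pow_mem hr1 x.val
        rwa [DihedralGroup.r_pow, one_mul, ZMod.natCast_zmod_val] at h1
      rcases g with x | x
      · exact hr x
      · have h1 := H.mul_mem hi (hr (x - i))
        rwa [DihedralGroup.sr_mul_r, add_sub_cancel] at h1
    · have hrot : ∀ c : ZMod n, DihedralGroup.r c ∈ Subgroup.normalizer (H : Set (DihedralGroup n)) → DihedralGroup.r c ∈ H := by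
        intro c hc
        have h1 := (Subgroup.mem_normalizer_iff.1 hc (DihedralGroup.sr i)).1 hi
        rw [DihedralGroup.r_mul_sr, DihedralGroup.inv_r, DihedralGroup.sr_mul_r] at h1
        have h2 := H.mul_mem h1 hi
        rw [DihedralGroup.sr_mul_sr] at h2
        obtain ⟨k, hk⟩ := hodd
        have h3 := H.pow_mem h2 (k + 1)
        rw [DihedralGroup.r_pow] at h3
        have hn0 : (2 : ZMod n) * k + 1 = 0 := by
          have h9 : ((2 * k + 1 : ℕ) : ZMod n) = 0 := by
            rw [ZMod.natCast_eq_zero_iff, hk]
          push_cast at h9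
          exact h9
        convert h3 using 2
        push_cast
        linear_combination -c * hn0
      rcases g with x | x
      · exact hrot x hg
      · have h1 := hrot _ (by
          have := mul_mem hg (Subgroup.le_normalizer hi)
          rwa [DihedralGroup.sr_mul_sr] at this)
        have h2 := H.mul_mem hi (H.inv_mem h1)
        rwa [DihedralGroup.inv_r, DihedralGroup.sr_mul_r, ← sub_eq_add_neg, sub_sub_cancel] at h2

end Cfsg.Agent.S4074
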