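import Cfsg.Statements.S4075
import Mathlib
import Cfsg.Agent.Lib.Solv.Carter
-- import your own Cfsg.Agent.* helpers here

set_option autoImplicit false
open Cfsg

namespace Cfsg.Agent.S4075

/-- Let G be a finite nilpotent group. Every non-abelian subgroup of G is self-normalizing if and only if G is abelian or G is a minimal non-abelian p-group for some prime p (non-abelian of prime-power order with every proper subgroup abelian). -/
theorem result {G : Type*} [Group G] [Finite G]
    [Group.IsNilpotent G] :
    (∀ H : Subgroup G, ¬ IsMulCommutative H → Subgroup.normalizer (H : Set G) = H) ↔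
    (IsMulCommutative G ∨ (IsPrimePow (Nat.card G) ∧ ¬ IsMulCommutative G ∧ ∀ H : Subgroup G, H ≠ ⊤ → IsMulCommutative H)) := by
  classical
  constructor
  · intro h
    have hproper : ∀ H : Subgroup G, H ≠ ⊤ → IsMulCommutative H := by
      intro H hH
      by_contra hc
      exact hH (Cfsg.Lib.Solv.Carter.eq_top_of_selfnorm (h H hc))
    by_cases hab : IsMulCommutative G
    · exact Or.inl hab
    refine Or.inr ⟨?_, hab, hproper⟩
    by_contra hpp
    refine hab ⟨⟨fun a b => ?_⟩⟩
    obtain ⟨e⟩ := ((Group.isNilpotent_of_finite_tfae (G := G)).out 0 4 :).1 ‹_›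
    obtain ⟨x, rfl⟩ := e.surjective a
    obtain ⟨y, rfl⟩ := e.surjective b
    rw [← map_mul, ← map_mul]
    congr 1
    funext p P
    haveI := Fact.mk (Nat.prime_of_mem_primeFactors p.2)
    have hne : (P : Subgroup G) ≠ ⊤ := by
      intro h
      obtain ⟨k, hk⟩ := P.2.exists_card_eq
      have hG : Nat.card G = (p : ℕ) ^ k := by rw [← hk, h]; exact Subgroup.card_top.symm
      have hk0 : k ≠ 0 := by
        rintro rfl
        have : (p : ℕ) ∈ (Nat.card G).primeFactors := p.2
        simp [hG] at this
      exact hpp (hG ▸ (Nat.prime_of_mem_primeFactors p.2).isPrimePow.pow hk0)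
    exact (hproper _ hne).is_comm.comm _ _
  · rintro (hab | ⟨-, -, hproper⟩) H hH
    · exfalso
      haveI := hab
      exact hH ⟨⟨fun a b => Subtype.ext (IsMulCommutative.is_comm.comm (a : G) b)⟩⟩
    · have : H = ⊤ := by
        by_contra h
        exact hH (hproper H h)
      subst this
      exact top_le_iff.1 Subgroup.le_normalizer

end Cfsg.Agent.S4075
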