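import Cfsg.Statements.S4080
import Mathlib
-- import your own Cfsg.Agent.* helpers here

set_option autoImplicit false
open Cfsg

namespace Cfsg.Agent.S4080

/-- Let p > 3 be a prime and L the direct product of two cyclic groups of order p². Every automorphism of L of order p fixes every element of order p of L. -/
theorem result {p : ℕ} [Fact p.Prime] (hp : 3 < p)
    (a : MulAut (Multiplicative (ZMod (p ^ 2) × ZMod (p ^ 2)))) (ha : orderOf a = p)
    (x : Multiplicative (ZMod (p ^ 2) × ZMod (p ^ 2))) (hx : orderOf x = p) : a x = x := by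
  classical
  have hpp : p.Prime := Fact.out
  -- the additive map
  let A : AddMonoid.End (ZMod (p ^ 2) × ZMod (p ^ 2)) :=
    AddMonoidHom.mk' (fun v => (a (Multiplicative.ofAdd v)).toAdd) (fun u v => by simp)
  let M : AddMonoid.End (ZMod (p ^ 2) × ZMod (p ^ 2)) := A - 1
  let Mh : (ZMod (p ^ 2) × ZMod (p ^ 2)) →+ (ZMod (p ^ 2) × ZMod (p ^ 2)) := M
  have hM : ∀ v, M v = (a (Multiplicative.ofAdd v)).toAdd - v := fun v => rfl
  have hpow : ∀ (j : ℕ) v, ((M + 1) ^ j) v = ((a ^ j) (Multiplicative.ofAdd v)).toAdd := by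
    intro j
    induction j with
    | zero => intro v; rfl
    | succ j ih =>
      intro v
      rw [pow_succ' (M + 1) j, pow_succ' a j]
      show (M + 1) (((M + 1) ^ j) v) = (a ((a ^ j) (Multiplicative.ofAdd v))).toAdd
      rw [ih]
      show M _ + _ = _
      show M _ + ((a ^ j) (Multiplicative.ofAdd v)).toAdd = _
      rw [hM, sub_add_cancel, ofAdd_toAdd]
  have hap : (M + 1) ^ p = 1 := by
    ext v <;>
    · have := hpow p
      simp only [← ha, pow_orderOf_eq_one] at this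
      simp [← ha, this]
  have hp2 : ((p : ℕ) : ZMod (p ^ 2)) * p = 0 := by
    rw [← Nat.cast_mul, ← pow_two, ZMod.natCast_self]
  -- the kernel of multiplication by `p`
  let Ω : AddSubgroup (ZMod (p ^ 2) × ZMod (p ^ 2)) := (nsmulAddMonoidHom (α := ZMod (p ^ 2) × ZMod (p ^ 2)) p).ker
  have hΩmem : ∀ v, v ∈ Ω ↔ p • v = 0 := fun v => Iff.rfl
  have hdiv : ∀ c : ZMod (p ^ 2), ((p : ℕ) : ZMod (p ^ 2)) * c = 0 → ∃ d : ZMod (p ^ 2), c = ((p : ℕ) : ZMod (p ^ 2)) * d := by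
    intro c hc
    rw [← ZMod.natCast_zmod_val c, ← Nat.cast_mul, ZMod.natCast_eq_zero_iff] at hc
    have hc' : p * p ∣ p * c.val := (dvd_of_eq (pow_two p).symm).trans hc
    obtain ⟨d, hd⟩ := (Nat.mul_dvd_mul_iff_left hpp.pos).mp hc'
    exact ⟨d, by rw [← ZMod.natCast_zmod_val c, hd, Nat.cast_mul]⟩
  have hΩ : ∀ v ∈ Ω, ∃ w, v = p • w := by
    rintro ⟨u, v⟩ h
    rw [hΩmem, Prod.smul_mk, Prod.mk_eq_zero, nsmul_eq_mul, nsmul_eq_mul] at h
    obtain ⟨d, hd⟩ := hdiv u h.1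
    obtain ⟨e, he⟩ := hdiv v h.2
    exact ⟨(d, e), by rw [Prod.smul_mk, nsmul_eq_mul, nsmul_eq_mul, hd, he]⟩
  have hpM : ∀ v, M (p • v) = p • M v := fun v => map_nsmul M p v
  -- `p M² = 0`
  have hcard : Nat.card Ω ≤ p ^ 2 := by
    haveI : NeZero (p ^ 2) := ⟨(pow_pos hpp.pos 2).ne'⟩
    obtain ⟨g, hg⟩ : ∃ g : (ZMod p × ZMod p) → Ω, Function.Surjective g := by
      refine ⟨fun z => ⟨p • ((z.1.val : ZMod (p ^ 2)), (z.2.val : ZMod (p ^ 2))), ?_⟩, ?_⟩
      · rw [hΩmem, ← mul_nsmul', Prod.smul_mk, nsmul_eq_mul, nsmul_eq_mul, Nat.cast_mul, hp2]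
        simp
      · rintro ⟨v, hv⟩
        obtain ⟨⟨d, e⟩, rfl⟩ := hΩ v hv
        have key : ∀ d : ZMod (p ^ 2), ((p : ℕ) : ZMod (p ^ 2)) * (((d.val : ZMod p)).val : ZMod (p ^ 2)) = ((p : ℕ) : ZMod (p ^ 2)) * d := by
          intro d
          rw [ZMod.val_natCast]
          conv_rhs => rw [← ZMod.natCast_zmod_val d, ← Nat.mod_add_div d.val p, Nat.cast_add, Nat.cast_mul, mul_add, ← mul_assoc, hp2, zero_mul, add_zero]
        refine ⟨((d.val : ZMod p), (e.val : ZMod p)), Subtype.ext ?_⟩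
        simp only [Prod.smul_mk, nsmul_eq_mul, key]
    refine (Nat.card_le_card_of_surjective g hg).trans ?_
    rw [Nat.card_prod, Nat.card_zmod, pow_two]
  have hinv : ∀ v ∈ Ω, M v ∈ Ω := fun v hv => by
    rw [hΩmem] at hv ⊢
    rw [← hpM, hv, map_zero]
  have hbin : ∀ v, ∑ k ∈ Finset.range (p + 1), p.choose k • (M ^ k) v = v := by
    intro v
    have h1 := congrArg (fun F : AddMonoid.End (ZMod (p ^ 2) × ZMod (p ^ 2)) => F v) hap
    rw [(Commute.one_right M).add_pow] at h1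
    simp only [AddMonoid.End.one_apply] at h1
    conv_rhs => rw [← h1]
    rw [show (∑ k ∈ Finset.range (p + 1), M ^ k * 1 ^ (p - k) * (p.choose k : AddMonoid.End (ZMod (p ^ 2) × ZMod (p ^ 2)))) v =
      ∑ k ∈ Finset.range (p + 1), (M ^ k * 1 ^ (p - k) * (p.choose k : AddMonoid.End (ZMod (p ^ 2) × ZMod (p ^ 2)))) v from AddMonoidHom.finsetSum_apply _ _ _]
    refine Finset.sum_congr rfl fun k _ => ?_
    rw [one_pow, mul_one]
    show _ = (M ^ k) ((p.choose k : AddMonoid.End (ZMod (p ^ 2) × ZMod (p ^ 2))) v)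
    rw [AddMonoid.End.natCast_apply, map_nsmul]
  have hMpΩ : ∀ v ∈ Ω, (M ^ p) v = 0 := by
    intro v hv
    have hmid : ∀ k ∈ Finset.range (p + 1), k ≠ 0 → k ≠ p → p.choose k • (M ^ k) v = 0 := by
      intro k hk h0 hkp
      rw [Finset.mem_range] at hk
      obtain ⟨c, hc⟩ := hpp.dvd_choose_self h0 (by omega)
      rw [hc, mul_comm, mul_nsmul', ← map_nsmul, (hΩmem v).mp hv, map_zero, nsmul_zero]
    have h1 := hbin v
    rw [Finset.sum_eq_add (s := Finset.range (p + 1)) 0 p hpp.ne_zero.symm (fun k hk hne => hmid k hk hne.1 hne.2)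
      (fun h => absurd (Finset.mem_range.mpr (by omega)) h) (fun h => absurd (Finset.mem_range.mpr (by omega)) h)] at h1
    simpa using h1
  have hM2Ω : ∀ v ∈ Ω, M (M v) = 0 := by
    have hΩp : ∀ S : AddSubgroup (ZMod (p ^ 2) × ZMod (p ^ 2)), S ≤ Ω → S ≠ ⊥ → Nat.card (S.map Mh) < Nat.card S ∨ ¬ S.map Mh ≤ S := by
      intro S hS hne
      by_contra hcon
      push Not at hcon
      obtain ⟨hcard', hle⟩ := hcon
      haveI : NeZero (p ^ 2) := ⟨(pow_pos hpp.pos 2).ne'⟩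
      have heq : S.map Mh = S := AddSubgroup.eq_of_le_of_card_ge hle hcard'
      have hall : ∀ j : ℕ, ∀ v ∈ S, ∃ w ∈ S, (M ^ j) w = v := by
        intro j
        induction j with
        | zero => exact fun v hv => ⟨v, hv, rfl⟩
        | succ j ih =>
          intro v hv
          obtain ⟨u, hu, rfl⟩ := (show v ∈ S.map Mh by rw [heq]; exact hv)
          obtain ⟨w, hw, e⟩ := ih u hu
          exact ⟨w, hw, by rw [pow_succ' M j]; show M ((M ^ j) w) = _; rw [e]; rfl⟩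
      apply hne
      rw [eq_bot_iff]
      intro v hv
      obtain ⟨w, hw, rfl⟩ := hall p v hv
      rw [AddSubgroup.mem_bot]
      exact hMpΩ w (hS hw)
    haveI : NeZero (p ^ 2) := ⟨(pow_pos hpp.pos 2).ne'⟩
    set S1 := Ω.map Mh with hS1
    have hS1Ω : S1 ≤ Ω := by rintro _ ⟨w, hw, rfl⟩; exact hinv w hw
    set S2 := S1.map Mh with hS2
    have hS2S1 : S2 ≤ S1 := AddSubgroup.map_mono hS1Ω
    suffices hS2bot : S2 = ⊥ by
      intro v hv
      have : M (M v) ∈ S2 := ⟨M v, ⟨v, hv, rfl⟩, rfl⟩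
      rwa [hS2bot, AddSubgroup.mem_bot] at this
    by_contra hne
    have hS1ne : S1 ≠ ⊥ := fun h => hne (by rw [hS2, h, AddSubgroup.map_bot])
    have hΩne : Ω ≠ ⊥ := fun h => hS1ne (by rw [hS1, h, AddSubgroup.map_bot])
    have l1 : Nat.card S1 < Nat.card Ω := (hΩp Ω le_rfl hΩne).resolve_right (not_not_intro hS1Ω)
    have l2 : Nat.card S2 < Nat.card S1 := (hΩp S1 hS1Ω hS1ne).resolve_right (not_not_intro hS2S1)
    have hS2gt : 1 < Nat.card S2 := by
      rw [AddSubgroup.one_lt_card_iff_ne_bot]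
      exact hne
    have hdvdΩ : Nat.card Ω ∣ p ^ 4 := by
      refine (AddSubgroup.card_addSubgroup_dvd_card Ω).trans ?_
      rw [Nat.card_prod, Nat.card_zmod, ← pow_add]
    obtain ⟨i, -, hi⟩ := (Nat.dvd_prime_pow hpp).mp hdvdΩ
    obtain ⟨j, -, hj⟩ := (Nat.dvd_prime_pow hpp).mp ((AddSubgroup.card_dvd_of_le hS1Ω).trans hdvdΩ)
    obtain ⟨l, -, hl⟩ := (Nat.dvd_prime_pow hpp).mp (((AddSubgroup.card_dvd_of_le hS2S1).trans (AddSubgroup.card_dvd_of_le hS1Ω)).trans hdvdΩ)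
    rw [hi, hj] at l1
    rw [hj, hl] at l2
    rw [hi] at hcard
    rw [hl] at hS2gt
    have i2 := (Nat.pow_le_pow_iff_right hpp.one_lt).mp hcard
    have ij := (Nat.pow_lt_pow_iff_right hpp.one_lt).mp l1
    have jl := (Nat.pow_lt_pow_iff_right hpp.one_lt).mp l2
    have l0 : l = 0 := by omega
    rw [l0, pow_zero] at hS2gt
    omega
  have hp2v : ∀ v : ZMod (p ^ 2) × ZMod (p ^ 2), p • p • v = 0 := by
    rintro ⟨u, v⟩
    simp only [Prod.smul_mk, nsmul_eq_mul, ← mul_assoc, hp2, zero_mul]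
    rfl
  have hM2 : ∀ v, M (M v) ∈ Ω := fun v => by
    rw [hΩmem, ← hpM, ← hpM, hM2Ω _ (by rw [hΩmem]; exact hp2v v)]
  have hM4 : ∀ k, 4 ≤ k → ∀ v, (M ^ k) v = 0 := by
    intro k hk v
    obtain ⟨j, rfl⟩ : ∃ j, k = j + 4 := ⟨k - 4, by omega⟩
    rw [pow_add]
    show (M ^ j) (M (M (M (M v)))) = 0
    rw [hM2Ω _ (hM2 v), map_zero]
  have hpMv : ∀ v, p • M v = 0 := by
    intro v
    have h1 := hbin v
    have hmid : ∀ k ∈ Finset.range (p + 1), k ≠ 0 → k ≠ 1 → p.choose k • (M ^ k) v = 0 := by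
      intro k hk h0 h1
      rcases Nat.lt_or_ge k 4 with hk4 | hk4
      · obtain ⟨c, hc⟩ := hpp.dvd_choose_self h0 (by omega)
        obtain ⟨j, rfl⟩ : ∃ j, k = j + 2 := ⟨k - 2, by omega⟩
        rw [hc, mul_comm, mul_nsmul', ← map_nsmul, pow_add]
        show c • (M ^ j) (M (M (p • v))) = 0
        rw [hM2Ω _ (by rw [hΩmem]; exact hp2v v), map_zero, nsmul_zero]
      · rw [hM4 k hk4, nsmul_zero]
    rw [Finset.sum_eq_add (s := Finset.range (p + 1)) 0 1 zero_ne_one (fun k hk hne => hmid k hk hne.1 hne.2)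
      (fun h => absurd (Finset.mem_range.mpr (by omega)) h) (fun h => absurd (Finset.mem_range.mpr (by omega)) h)] at h1
    simpa using h1
  have hxΩ : x.toAdd ∈ Ω := by
    rw [hΩmem]
    have h1 : x ^ p = 1 := orderOf_dvd_iff_pow_eq_one.mp (dvd_of_eq hx)
    exact congrArg Multiplicative.toAdd h1
  obtain ⟨w, hw⟩ := hΩ _ hxΩ
  have h1 := hM x.toAdd
  rw [hw, hpM, hpMv, ← hw, ofAdd_toAdd] at h1
  exact Multiplicative.toAdd.injective (sub_eq_zero.mp h1.symm)

end Cfsg.Agent.S4080
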