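import Cfsg.Statements.S4081
import Mathlib
import Cfsg.Agent.Lib.PLocal.FpfModule
import Cfsg.Agent.Lib.PLocal.TISubgroup
import Cfsg.Agent.Lib.Solv.MinNormal
import Cfsg.Agent.Lib.Solv.Cores
import Cfsg.Agent.Lib.Solv.Coprime2
import Cfsg.Agent.Lib.Characters.Burnside

set_option autoImplicit false
set_option maxHeartbeats 1000000
open Cfsg Cfsg.Lib
open scoped IsMulCommutative Pointwise

namespace Cfsg.Agent.S4081

section Aux

variable {G : Type*} [Group G] {p : ℕ} [Fact p.Prime] {P : Subgroup G} [hn : P.Normal] [hc : IsMulCommutative P]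
  [Module (ZMod p) (Additive P)]

/-- Conjugation by `x` as a linear map. -/
noncomputable def sigma (x : G) : Module.End (ZMod p) (Additive P) :=
  (MonoidHom.toAdditive (MulAut.conjNormal x : MulAut P).toMonoidHom).toZModLinearMap p

theorem sigma_apply (x : G) (v : Additive P) :
    sigma (p := p) x v = Additive.ofMul (MulAut.conjNormal x (Additive.toMul v)) := rfl

theorem sigma_pow (x : G) (k : ℕ) (v : Additive P) : (sigma (p := p) x ^ k) v = sigma (p := p) (x ^ k) v := by
  induction k generalizing v with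
  | zero => simp [sigma_apply]
  | succ k ih => rw [pow_succ, Module.End.mul_apply, ih, sigma_apply, sigma_apply, sigma_apply, pow_succ, map_mul]; rfl

theorem sigma_fpf (x : G) (h : ∀ y ∈ P, x * y * x⁻¹ = y → y = 1) :
    ∀ v, sigma (p := p) (P := P) x v = v → v = 0 := by
  intro v hv
  rw [sigma_apply] at hv
  have h1 := congrArg (fun w : Additive P => ((Additive.toMul w : P) : G)) hv
  simp only [toMul_ofMul, MulAut.conjNormal_apply] at h1
  exact Additive.toMul.injective (Subtype.ext (h _ (Additive.toMul v).2 h1))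

end Aux

theorem forward {G : Type*} [Group G] [Finite G] {p q : ℕ} [hp : Fact p.Prime] [hq : Fact q.Prime] (hpq : p ≠ q)
    (hpG : p ∣ Nat.card G) (hqG : q ∣ Nat.card G)
    (h3 : ∀ g : G, g = 1 ∨ orderOf g = p ∨ orderOf g = q)
    (htr : ∀ g h : G, orderOf g = orderOf h → ∃ α : MulAut G, α g = h) (hcore : pCore p G ≠ ⊥) :
    ∃ (p q n : ℕ) (_ : Fact p.Prime) (_ : Fact q.Prime), p ≠ q ∧ 1 ≤ n ∧ Nat.card G = p ^ n * q ∧
      (∀ P : Sylow p G, (P : Subgroup G).Normal ∧ Cfsg.IsElementaryAbelian p (P : Subgroup G)) ∧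
      orderOf (p : ZMod q) = q - 1 ∧
      ∀ x y : G, orderOf x = q → orderOf y = p → x * y * x⁻¹ ≠ y := by
  classical
  set P := pCore p G with hPdef
  have hPp : IsPGroup p P := Solv.isPGroup_pCore (G := G) p
  haveI : P.Normal := inferInstance
  have hord : ∀ g : G, ∀ j : ℕ, g ^ p ^ j = 1 → g = 1 ∨ orderOf g = p := fun g j hj => by
    rcases h3 g with h | h | h
    · exact Or.inl h
    · exact Or.inr h
    · exact absurd ((Nat.prime_dvd_prime_iff_eq hq.out hp.out).1 (hq.out.dvd_of_dvd_pow (h ▸ orderOf_dvd_of_pow_eq_one hj))) (Ne.symm hpq)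
  have hmemord : ∀ g ∈ P, g = 1 ∨ orderOf g = p := fun g hg => by
    obtain ⟨j, hj⟩ := hPp ⟨g, hg⟩
    exact hord g j (congrArg Subtype.val hj)
  have hmap : ∀ (α : MulAut G), ∀ g ∈ P, α g ∈ P := fun α g hg => by
    have := (inferInstance : P.Characteristic).fixed α
    rw [← this] at hg
    exact hg
  obtain ⟨z, hz, hz1⟩ := P.bot_or_exists_ne_one.resolve_left hcore
  have hall : ∀ g, orderOf g = p → g ∈ P := fun g hg => by
    obtain ⟨α, rfl⟩ := htr z g (((hmemord z hz).resolve_left hz1).trans hg.symm)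
    exact hmap α z hz
  have hS : ∀ S : Sylow p G, (S : Subgroup G) = P := fun S => by
    refine le_antisymm (fun g hg => ?_) (Solv.pCore_le_sylow p S)
    obtain ⟨j, hj⟩ := S.isPGroup' ⟨g, hg⟩
    rcases hord g j (congrArg Subtype.val hj) with h | h
    · rw [h]; exact one_mem _
    · exact hall g h
  haveI : Nontrivial P := (Subgroup.nontrivial_iff_ne_bot _).2 hcore
  haveI hPc : IsMulCommutative P := by
    haveI := hPp.center_nontrivial
    obtain ⟨⟨⟨c, hc⟩, hcc⟩, hc1⟩ := exists_ne (1 : Subgroup.center P)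
    have hc1' : c ≠ 1 := fun e => hc1 (Subtype.ext (Subtype.ext e))
    refine ⟨⟨fun a b => ?_⟩⟩
    by_cases ha1 : a = 1
    · rw [ha1, one_mul, mul_one]
    obtain ⟨α, hα⟩ := htr c a (((hmemord c hc).resolve_left hc1').trans
      ((hmemord a a.2).resolve_left fun e => ha1 (Subtype.ext e)).symm)
    have hb : α⁻¹ (b : G) ∈ P := hmap _ b b.2
    have h4 := congrArg Subtype.val (Subgroup.mem_center_iff.1 hcc ⟨α⁻¹ (b : G), hb⟩)
    simp only [Subgroup.coe_mul] at h4
    have h5 := congrArg α h4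
    rw [map_mul, map_mul, hα, MulAut.apply_inv_self] at h5
    exact Subtype.ext h5.symm
  have hexp : ∀ a ∈ P, a ^ p = 1 := fun a ha => by
    rcases hmemord a ha with h | h
    · rw [h, one_pow]
    · rw [← h, pow_orderOf_eq_one]
  obtain ⟨x, hx⟩ := exists_prime_orderOf_dvd_card' q hqG
  have hfpf : ∀ a b : G, orderOf a = q → orderOf b = p → a * b * a⁻¹ ≠ b := by
    intro a b ha hb e
    have hab : Commute a b := mul_inv_eq_iff_eq_mul.1 e
    have h1 : orderOf (a * b) = q * p := by
      rw [hab.orderOf_mul_eq_mul_orderOf_of_coprime (by rw [ha, hb]; exact (Nat.coprime_primes hq.out hp.out).2 (Ne.symm hpq)), ha, hb]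
    have h2 := hp.out.two_le
    have h3' := hq.out.two_le
    rcases h3 (a * b) with h | h | h
    · rw [h, orderOf_one] at h1; nlinarith
    · rw [h] at h1; nlinarith
    · rw [h] at h1; nlinarith
  have hfixP : ∀ a, orderOf a = q → ∀ b ∈ P, a * b * a⁻¹ = b → b = 1 := fun a ha b hb e =>
    by_contra fun hb1 => hfpf a b ha ((hmemord b hb).resolve_left hb1) e
  obtain ⟨Q⟩ : Nonempty (Sylow q G) := inferInstance
  have hQord : ∀ a : G, a ∈ (Q : Subgroup G) → a ≠ 1 → orderOf a = q := fun a ha ha1 => by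
    obtain ⟨j, hj⟩ := Q.isPGroup' ⟨a, ha⟩
    rcases h3 a with h | h | h
    · exact absurd h ha1
    · exact absurd ((Nat.prime_dvd_prime_iff_eq hp.out hq.out).1 (hp.out.dvd_of_dvd_pow (h ▸ orderOf_dvd_of_pow_eq_one (congrArg Subtype.val hj)))) hpq
    · exact h
  haveI hQz : IsZGroup (Q : Subgroup G) := by
    refine PLocal.TISub.isZGroup (fun A hA hAc => by_contra fun hnc => ?_) fun S => ?_
    · have hcop : (Nat.card A).Coprime (Nat.card P) := by
        obtain ⟨i, hi⟩ := IsPGroup.iff_card.1 (Q.isPGroup'.to_le hA)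
        obtain ⟨j, hj⟩ := IsPGroup.iff_card.1 hPp
        rw [hi, hj]
        exact Nat.Coprime.pow _ _ ((Nat.coprime_primes hq.out hp.out).2 (Ne.symm hpq))
      haveI := hAc
      refine hcore (le_bot_iff.1 (Solv.le_of_fixed_le A P ⊥ hnc (by rw [Subgroup.normalizer_eq_top]; exact le_top) hcop ?_))
      intro a ha ha1 b hb
      refine Subgroup.mem_bot.2 (hfixP a (hQord a (hA ha) ha1) b hb.1 ?_)
      rw [← Subgroup.mem_centralizer_singleton_iff.1 hb.2, mul_inv_cancel_right]
    · rcases eq_or_ne q 2 with rfl | hq2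
      · refine ⟨⟨fun a b => ?_⟩⟩
        have hsq : ∀ c : (S : Subgroup (Q : Subgroup G)), c * c = 1 := fun c => by
          by_cases hc : ((c : (Q : Subgroup G)) : G) = 1
          · exact Subtype.ext (Subtype.ext (by simp [hc]))
          · refine Subtype.ext (Subtype.ext ?_)
            have := pow_orderOf_eq_one ((c : (Q : Subgroup G)) : G)
            rw [hQord _ (c : (Q : Subgroup G)).2 hc, pow_two] at this
            exact this
        have h1 : ∀ c : (S : Subgroup (Q : Subgroup G)), c⁻¹ = c := fun c => inv_eq_of_mul_eq_one_right (hsq c)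
        calc a * b = (a * b)⁻¹ := (h1 _).symm
          _ = b * a := by rw [mul_inv_rev, h1, h1]
      · have : (S : Subgroup (Q : Subgroup G)) = ⊥ := by
          obtain ⟨i, hi⟩ := IsPGroup.iff_card.1 S.isPGroup'
          obtain ⟨j, hj⟩ := IsPGroup.iff_card.1 Q.isPGroup'
          refine Subgroup.card_eq_one.1 (Nat.eq_one_of_dvd_coprimes
            (Nat.Coprime.pow i j ((Nat.coprime_primes Nat.prime_two hq.out).2 (Ne.symm hq2))) (dvd_of_eq hi) ?_)
          rw [← hj]
          exact Subgroup.card_subgroup_dvd_card _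
        exact ⟨⟨fun a b => by
          rw [show a = 1 from Subtype.ext (Subgroup.mem_bot.1 (this.le a.2)), one_mul, mul_one]⟩⟩
  have hQcard : Nat.card (Q : Subgroup G) = q := by
    haveI : IsCyclic (Q : Subgroup G) :=
      Subgroup.topEquiv.isCyclic.1 (Q.isPGroup'.to_subgroup (⊤ : Subgroup (Q : Subgroup G))).isCyclic_of_isZGroup
    obtain ⟨g, hg⟩ := IsCyclic.exists_generator (α := (Q : Subgroup G))
    rw [← orderOf_eq_card_of_forall_mem_zpowers hg, ← Subgroup.orderOf_coe]
    refine hQord g g.2 fun e => ?_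
    have h1 := Q.dvd_card_of_dvd_card hqG
    rw [← orderOf_eq_card_of_forall_mem_zpowers hg, ← Subgroup.orderOf_coe, e, orderOf_one, Nat.dvd_one] at h1
    exact hq.out.ne_one h1
  obtain ⟨n, hn⟩ := IsPGroup.iff_card.1 hPp
  have hn1 : 1 ≤ n := by
    rcases Nat.eq_zero_or_pos n with h | h
    · rw [h, pow_zero] at hn
      exact absurd (Subgroup.card_eq_one.1 hn) hcore
    · exact h
  have hcard : Nat.card G = p ^ n * q := by
    obtain ⟨S⟩ : Nonempty (Sylow p G) := inferInstance
    rw [← hn, ← hS S, ← hQcard, S.card_eq_multiplicity, Q.card_eq_multiplicity]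
    conv_lhs => rw [Nat.prod_primeFactors_pow_factorization (Nat.card_pos (α := G)).ne']
    have hpf : (Nat.card G).primeFactors = {p, q} := by
      ext r
      rw [Nat.mem_primeFactors, Finset.mem_insert, Finset.mem_singleton]
      refine ⟨fun ⟨hr, hrd, _⟩ => ?_, ?_⟩
      · haveI := Fact.mk hr
        obtain ⟨g, hg⟩ := exists_prime_orderOf_dvd_card' r hrd
        rcases h3 g with h | h | h
        · rw [h, orderOf_one] at hg; exact absurd hg.symm hr.ne_one
        · exact Or.inl (hg.symm.trans h)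
        · exact Or.inr (hg.symm.trans h)
      · rintro (rfl | rfl)
        · exact ⟨hp.out, hpG, Nat.card_pos.ne'⟩
        · exact ⟨hq.out, hqG, Nat.card_pos.ne'⟩
    rw [hpf, Finset.prod_pair hpq]
  refine ⟨p, q, n, hp, hq, hpq, hn1, hcard, fun S => ?_, ?_, hfpf⟩
  · rw [hS S]
    exact ⟨inferInstance, hPc, hexp⟩
  have instMod : Module (ZMod p) (Additive P) := AddCommGroup.zmodModule (G := Additive P) fun v =>
    Additive.toMul.injective (Subtype.ext (hexp _ (Additive.toMul v).2))
  have hzx : Subgroup.zpowers x ⊔ P = ⊤ := by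
    refine Subgroup.eq_top_of_card_eq _ ?_
    rw [Solv.card_sup_eq_mul, Nat.card_zpowers, hx, hn, hcard]
    refine Solv.inf_eq_bot_of_coprime_card ?_
    rw [Nat.card_zpowers, hx, hn]
    exact Nat.Coprime.pow_right _ ((Nat.coprime_primes hq.out hp.out).2 (Ne.symm hpq))
  set σ := sigma (p := p) (P := P) x
  have key : ∀ α : MulAut G, ∀ k : ℕ, (∃ u ∈ P, α x = u * x ^ k) →
      ∃ αl : Additive P ≃ₗ[ZMod p] Additive P, (∀ v, ((Additive.toMul (αl v) : P) : G) = α ((Additive.toMul v : P) : G)) ∧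
        αl.conjAlgEquiv (ZMod p) σ = σ ^ k := by
    rintro α k ⟨u, hu, hαx⟩
    let eP : P ≃* P :=
      { toFun := fun a => ⟨α a, hmap α a a.2⟩
        invFun := fun a => ⟨α.symm a, hmap α.symm a a.2⟩
        left_inv := fun a => Subtype.ext (α.symm_apply_apply _)
        right_inv := fun a => Subtype.ext (α.apply_symm_apply _)
        map_mul' := fun a b => Subtype.ext (map_mul α _ _) }
    let eA := MulEquiv.toAdditive eP
    let αl : Additive P ≃ₗ[ZMod p] Additive P :=
      { eA.toAddMonoidHom.toZModLinearMap p, eA with }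
    refine ⟨αl, fun v => rfl, LinearMap.ext fun v => ?_⟩
    rw [LinearEquiv.conjAlgEquiv_apply, sigma_pow]
    refine Additive.toMul.injective (Subtype.ext ?_)
    show α (x * α.symm ((Additive.toMul v : P) : G) * x⁻¹) = x ^ k * ((Additive.toMul v : P) : G) * (x ^ k)⁻¹
    rw [map_mul, map_mul, map_inv, hαx, α.apply_symm_apply]
    have hmem : x ^ k * ((Additive.toMul v : P) : G) * (x ^ k)⁻¹ ∈ P := ‹P.Normal›.conj_mem _ (Additive.toMul v).2 _
    have hcu := congrArg Subtype.val (hPc.is_comm.comm (⟨u, hu⟩ : P) ⟨_, hmem⟩)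
    simp only [Subgroup.coe_mul] at hcu
    calc u * x ^ k * ((Additive.toMul v : P) : G) * (u * x ^ k)⁻¹
        = u * (x ^ k * ((Additive.toMul v : P) : G) * (x ^ k)⁻¹) * u⁻¹ := by group
      _ = _ := by rw [hcu, mul_inv_cancel_right]
  refine PLocal.FpfModule.orderOf_eq_of_transitive hpq (σ := σ) ?_ (sigma_fpf x (hfixP x hx)) ?_ ?_
  · refine LinearMap.ext fun v => ?_
    rw [sigma_pow, Module.End.one_apply, sigma_apply, ← hx, pow_orderOf_eq_one, map_one]
    rfl
  · intro v w hv hw
    have hne : ∀ v : Additive P, v ≠ 0 → orderOf ((Additive.toMul v : P) : G) = p := fun v hv =>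
      (hmemord _ (Additive.toMul v).2).resolve_left fun e => hv (Additive.toMul.injective (Subtype.ext e))
    obtain ⟨α, hα⟩ := htr _ _ ((hne v hv).trans (hne w hw).symm)
    obtain ⟨a, ha, b, hb, hab⟩ := Subgroup.mem_sup_of_normal_right.1 (hzx ▸ Subgroup.mem_top (α x))
    obtain ⟨k, rfl⟩ := mem_powers_iff_mem_zpowers.2 ha
    obtain ⟨αl, h1, h2⟩ := key α k ⟨x ^ k * b * (x ^ k)⁻¹, ‹P.Normal›.conj_mem _ hb _, by rw [← hab]; group⟩
    exact ⟨αl, k, Additive.toMul.injective (Subtype.ext ((h1 v).trans hα)), h2⟩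
  · intro k hk0 hkq
    obtain ⟨α, hα⟩ := htr x (x ^ k) (by
      rw [(Nat.Coprime.orderOf_pow (hx ▸ (Nat.coprime_of_lt_prime hk0.ne' hkq hq.out)))])
    obtain ⟨αl, -, h2⟩ := key α k ⟨1, one_mem _, by rw [hα, one_mul]⟩
    exact ⟨αl, h2⟩

theorem backward {G : Type*} [Group G] [Finite G] {p q n : ℕ} [hp : Fact p.Prime] [hq : Fact q.Prime]
    (hpq : p ≠ q) (hn : 1 ≤ n) (hcard : Nat.card G = p ^ n * q)
    (hP : ∀ P : Sylow p G, (P : Subgroup G).Normal ∧ Cfsg.IsElementaryAbelian p (P : Subgroup G))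
    (hord : orderOf (p : ZMod q) = q - 1)
    (hfpf : ∀ x y : G, orderOf x = q → orderOf y = p → x * y * x⁻¹ ≠ y) :
    Nat.card (MulAction.orbitRel.Quotient (MulAut G) G) = 3 := by
  classical
  obtain ⟨S⟩ : Nonempty (Sylow p G) := inferInstance
  obtain ⟨hSn, hSc, hexp⟩ := hP S
  set P := (S : Subgroup G)
  haveI := hSn
  haveI := hSc
  have hPcard : Nat.card P = p ^ n := by
    rw [S.card_eq_multiplicity, hcard, Nat.factorization_mul (pow_ne_zero _ hp.out.ne_zero) hq.out.ne_zero, Finsupp.add_apply,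
      hp.out.factorization_pow, Finsupp.single_eq_same,
      Nat.factorization_eq_zero_of_not_dvd (fun h => hpq ((Nat.prime_dvd_prime_iff_eq hp.out hq.out).1 h)), add_zero]
  obtain ⟨x, hx⟩ := exists_prime_orderOf_dvd_card' (G := G) q (hcard ▸ dvd_mul_left q _)
  have hPord : ∀ a ∈ P, a ≠ 1 → orderOf a = p := fun a ha ha1 => orderOf_eq_prime (hexp a ha) ha1
  have hfixP : ∀ w, orderOf w = q → ∀ b ∈ P, w * b * w⁻¹ = b → b = 1 := fun w hw b hb e =>
    by_contra fun hb1 => hfpf w b hw (hPord b hb hb1) e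
  set Q := Subgroup.zpowers x
  have hco : (Nat.card P).Coprime (Nat.card Q) := by
    rw [hPcard, Nat.card_zpowers, hx]
    exact Nat.Coprime.pow_left _ ((Nat.coprime_primes hp.out hq.out).2 hpq)
  have hcompl : P.IsComplement' Q :=
    Subgroup.isComplement'_of_coprime (by rw [hPcard, Nat.card_zpowers, hx, hcard]) hco
  have hsplit : ∀ g : G, ∃ u ∈ P, ∃ k : ℕ, k < q ∧ g = u * x ^ k := by
    intro g
    obtain ⟨⟨u, w⟩, rfl⟩ := hcompl.2 g
    obtain ⟨k, hk, hkw⟩ := Finset.mem_image.1 (mem_zpowers_iff_mem_range_orderOf.1 w.2)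
    exact ⟨u, u.2, k, hx ▸ Finset.mem_range.1 hk, by rw [hkw]⟩
  have hconj : ∀ u ∈ P, ∀ w, orderOf w = q → ∃ c : G, c * w * c⁻¹ = u * w := by
    intro u hu w hw
    let f : P → P := fun a => ⟨a * (w * (a : G)⁻¹ * w⁻¹), mul_mem a.2 (hSn.conj_mem _ (inv_mem a.2) _)⟩
    have hinj : Function.Injective f := by
      intro a b e
      have e' := congrArg Subtype.val e
      simp only [f] at e'
      have h1 : w * ((b : G)⁻¹ * a) * w⁻¹ = (b : G)⁻¹ * a := by
        calc w * ((b : G)⁻¹ * a) * w⁻¹ = (b : G)⁻¹ * (b * (w * (b : G)⁻¹ * w⁻¹)) * (w * (a : G) * w⁻¹) := by group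
          _ = (b : G)⁻¹ * (a * (w * (a : G)⁻¹ * w⁻¹)) * (w * (a : G) * w⁻¹) := by rw [e']
          _ = _ := by group
      exact Subtype.ext (inv_mul_eq_one.1 (hfixP w hw _ (mul_mem (inv_mem b.2) a.2) h1)).symm
    obtain ⟨a, ha⟩ := Finite.injective_iff_surjective.1 hinj ⟨u, hu⟩
    refine ⟨a, ?_⟩
    rw [← show (a : G) * (w * (a : G)⁻¹ * w⁻¹) = u from congrArg Subtype.val ha]
    group
  -- linear algebra on `P`
  have instMod : Module (ZMod p) (Additive P) := AddCommGroup.zmodModule (G := Additive P) fun v =>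
    Additive.toMul.injective (Subtype.ext (hexp _ (Additive.toMul v).2))
  haveI : Finite (Additive P) := Finite.of_equiv P Additive.ofMul
  obtain ⟨htrans, hgal⟩ := PLocal.FpfModule.transitive_of_orderOf_eq hpq hord (σ := sigma (p := p) (P := P) x)
    (LinearMap.ext fun v => by
      rw [sigma_pow, Module.End.one_apply, sigma_apply, ← hx, pow_orderOf_eq_one, map_one]
      rfl) (sigma_fpf x (hfixP x hx))
  have extend : ∀ (k : ℕ), k.Coprime q → ∀ a : Additive P ≃+ Additive P,
      (∀ v, a (sigma (p := p) x v) = (sigma (p := p) x ^ k) (a v)) →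
      ∃ α : MulAut G, α x = x ^ k ∧ ∀ u : P, α u = (Additive.toMul (a (Additive.ofMul u)) : P) := by
    intro k hk a ha
    let aP : P ≃* P :=
      { toFun := fun u => Additive.toMul (a (Additive.ofMul u))
        invFun := fun u => Additive.toMul (a.symm (Additive.ofMul u))
        left_inv := fun u => by simp
        right_inv := fun u => by simp
        map_mul' := fun u v => by simp [map_add] }
    have hkQ : (Nat.card Q).Coprime k := by rw [Nat.card_zpowers, hx]; exact hk.symm
    let fQ : Q ≃* Q := MulEquiv.ofBijective (powMonoidHom k : Q →* Q) (powCoprime hkQ).bijective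
    have hcomm : ∀ (i : ℕ) (v : Additive P), a ((sigma (p := p) x ^ i) v) = (sigma (p := p) x ^ (k * i)) (a v) := by
      intro i
      induction i with
      | zero => intro v; simp
      | succ i ih =>
        intro v
        rw [pow_succ, Module.End.mul_apply, ih, ha, ← Module.End.mul_apply, ← pow_add]
        congr 2
    let e := SemidirectProduct.mulEquivSubgroup hcompl
    refine ⟨(e.symm.trans (SemidirectProduct.congr aP fQ ?_)).trans e, ?_, fun u => ?_⟩
    · intro g
      refine MulEquiv.ext fun u => Subtype.ext ?_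
      obtain ⟨i, hi⟩ := mem_powers_iff_mem_zpowers.2 g.2
      simp only at hi
      have h1 := congrArg (fun w : Additive P => ((Additive.toMul w : P) : G)) (hcomm i (Additive.ofMul u))
      simp only [sigma_pow, sigma_apply] at h1
      have h2 : MulAut.conjNormal (x ^ i) u = (P.normalizerMonoidHom.comp (Subgroup.inclusion (P.normalizer_eq_top ▸ le_top))) g u := by
        refine Subtype.ext ?_
        rw [MulAut.conjNormal_apply, hi]
        rfl
      simp only [MulEquiv.trans_apply]
      show ((aP _ : P) : G) = (fQ g : G) * (aP u : G) * (fQ g : G)⁻¹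
      rw [show (fQ g : G) = x ^ (k * i) by show ((g : G)) ^ k = _; rw [← hi, ← pow_mul, mul_comm]]
      rw [← h2]
      exact h1
    · have h1 : e.symm x = SemidirectProduct.inr ⟨x, Subgroup.mem_zpowers x⟩ := by
        rw [MulEquiv.symm_apply_eq]
        simp [e, SemidirectProduct.mulEquivSubgroup, SemidirectProduct.monoidHomSubgroup]
      rw [MulEquiv.trans_apply, MulEquiv.trans_apply, h1]
      show ((aP 1 : P) : G) * ((fQ ⟨x, Subgroup.mem_zpowers x⟩ : Q) : G) = x ^ k
      rw [map_one, OneMemClass.coe_one, one_mul]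
      rfl
    · have h1 : e.symm (u : G) = SemidirectProduct.inl u := by
        rw [MulEquiv.symm_apply_eq]
        simp [e, SemidirectProduct.mulEquivSubgroup, SemidirectProduct.monoidHomSubgroup]
      rw [MulEquiv.trans_apply, MulEquiv.trans_apply, h1]
      show ((aP u : P) : G) * ((fQ 1 : Q) : G) = _
      simp [aP]
  haveI : Nontrivial P := Finite.one_lt_card_iff_nontrivial.1 (by rw [hPcard]; exact Nat.one_lt_pow (by omega) hp.out.one_lt)
  obtain ⟨⟨y, hy⟩, hy1⟩ := exists_ne (1 : P)
  have hyne : y ≠ 1 := fun e => hy1 (Subtype.ext e)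
  have hrel : ∀ (α : MulAut G) (g : G), (Quotient.mk'' g : MulAction.orbitRel.Quotient (MulAut G) G) = Quotient.mk'' (α g) := by
    intro α g
    exact Quotient.eq''.2 (MulAction.orbitRel_apply.2 ⟨α⁻¹, by show α.symm (α g) = g; exact α.symm_apply_apply g⟩)
  have hcover : ∀ g : G, (Quotient.mk'' g : MulAction.orbitRel.Quotient (MulAut G) G) ∈
      ({Quotient.mk'' 1, Quotient.mk'' y, Quotient.mk'' x} : Finset (MulAction.orbitRel.Quotient (MulAut G) G)) := by
    intro g
    simp only [Finset.mem_insert, Finset.mem_singleton]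
    obtain ⟨u, hu, k, hkq, rfl⟩ := hsplit g
    by_cases hk0 : k = 0
    · subst hk0
      rw [pow_zero, mul_one]
      by_cases hu1 : u = 1
      · exact Or.inl (by rw [hu1])
      · obtain ⟨a, ha, hcm⟩ := htrans (Additive.ofMul ⟨y, hy⟩) (Additive.ofMul ⟨u, hu⟩)
          (fun e => hy1 (Additive.ofMul.injective e)) (fun e => hu1 (congrArg Subtype.val (Additive.ofMul.injective e)))
        obtain ⟨α, -, hα⟩ := extend 1 (Nat.coprime_one_left q) a (fun v => by rw [pow_one]; exact hcm v)
        refine Or.inr (Or.inl ?_)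
        rw [hrel α y, show α y = u by rw [hα ⟨y, hy⟩, ha]; rfl]
    · have hkc : k.Coprime q := (Nat.coprime_of_lt_prime hk0 hkq hq.out).symm
      obtain ⟨a, ha⟩ := hgal k hkc
      obtain ⟨α, hαx, -⟩ := extend k hkc a ha
      obtain ⟨c, hc⟩ := hconj u hu (x ^ k) (by rw [(Nat.Coprime.orderOf_pow (hx ▸ hkc.symm)), hx])
      refine Or.inr (Or.inr ?_)
      rw [hrel α x, hαx, hrel (MulAut.conj c) (x ^ k)]
      exact congrArg _ (by rw [MulAut.conj_apply, hc])
  have hne : ∀ g h : G, orderOf g ≠ orderOf h →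
      (Quotient.mk'' g : MulAction.orbitRel.Quotient (MulAut G) G) ≠ Quotient.mk'' h := by
    intro g h hgh e
    obtain ⟨α, rfl⟩ := MulAction.orbitRel_apply.1 (Quotient.eq''.1 e)
    exact hgh (MulEquiv.orderOf_eq α h)
  haveI := Fintype.ofFinite (MulAction.orbitRel.Quotient (MulAut G) G)
  rw [Nat.card_eq_fintype_card, ← Finset.card_univ, show (Finset.univ : Finset (MulAction.orbitRel.Quotient (MulAut G) G)) =
    {Quotient.mk'' 1, Quotient.mk'' y, Quotient.mk'' x} from (Finset.eq_univ_of_forall fun c => Quotient.inductionOn' c hcover).symm]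
  have hoy := hPord y hy hyne
  have h1p : orderOf (1 : G) ≠ orderOf y := by rw [orderOf_one, hoy]; exact hp.out.ne_one.symm
  have h1q : orderOf (1 : G) ≠ orderOf x := by rw [orderOf_one, hx]; exact hq.out.ne_one.symm
  have hpq' : orderOf y ≠ orderOf x := by rw [hoy, hx]; exact hpq
  rw [Finset.card_insert_of_notMem (by
      simp only [Finset.mem_insert, Finset.mem_singleton, not_or]
      exact ⟨hne _ _ h1p, hne _ _ h1q⟩),
    Finset.card_pair (hne _ _ hpq')]

theorem result {G : Type*} [Group G] [Finite G] (hnpp : ¬ IsPrimePow (Nat.card G)) (hnt : Nat.card G ≠ 1) :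
    Nat.card (MulAction.orbitRel.Quotient (MulAut G) G) = 3 ↔
    ∃ (p q n : ℕ) (_ : Fact p.Prime) (_ : Fact q.Prime), p ≠ q ∧ 1 ≤ n ∧ Nat.card G = p ^ n * q ∧
      (∀ P : Sylow p G, (P : Subgroup G).Normal ∧ Cfsg.IsElementaryAbelian p (P : Subgroup G)) ∧
      orderOf (p : ZMod q) = q - 1 ∧
      ∀ x y : G, orderOf x = q → orderOf y = p → x * y * x⁻¹ ≠ y := by
  classical
  refine ⟨fun h3 => ?_, ?_⟩
  swap
  · rintro ⟨p, q, n, hp, hq, hpq, hn, hcard, hP, hord, hfpf⟩
    exact backward hpq hn hcard hP hord hfpf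
  haveI := Fintype.ofFinite (MulAction.orbitRel.Quotient (MulAut G) G)
  obtain ⟨p, hp, hpG⟩ := Nat.exists_prime_and_dvd hnt
  obtain ⟨q, hq, hqG, hpq⟩ : ∃ q, q.Prime ∧ q ∣ Nat.card G ∧ p ≠ q := by
    by_contra hno
    refine hnpp ?_
    have h1 := Nat.eq_prime_pow_of_unique_prime_dvd Nat.card_pos.ne' (p := p) (n := Nat.card G)
      (fun {d} hd hdd => by_contra fun h => hno ⟨d, hd, hdd, fun e => h e.symm⟩)
    rw [h1]
    refine hp.isPrimePow.pow ?_
    intro h0
    rw [h0, pow_zero] at h1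
    exact hnt h1
  haveI := Fact.mk hp
  haveI := Fact.mk hq
  obtain ⟨y, hy⟩ := exists_prime_orderOf_dvd_card' p hpG
  obtain ⟨x, hx⟩ := exists_prime_orderOf_dvd_card' q hqG
  set mk : G → MulAction.orbitRel.Quotient (MulAut G) G := Quotient.mk'' with hmk
  have hsame : ∀ g h : G, mk g = mk h → ∃ α : MulAut G, α h = g := fun g h e =>
    MulAction.orbitRel_apply.1 (Quotient.eq''.1 e)
  have hne : ∀ g h : G, orderOf g ≠ orderOf h → mk g ≠ mk h := fun g h hgh e => by
    obtain ⟨α, rfl⟩ := hsame g h e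
    exact hgh (MulEquiv.orderOf_eq α h)
  have h1p : orderOf (1 : G) ≠ orderOf y := by rw [orderOf_one, hy]; exact hp.ne_one.symm
  have h1q : orderOf (1 : G) ≠ orderOf x := by rw [orderOf_one, hx]; exact hq.ne_one.symm
  have hpq' : orderOf y ≠ orderOf x := by rw [hy, hx]; exact hpq
  have huniv : ({mk 1, mk y, mk x} : Finset (MulAction.orbitRel.Quotient (MulAut G) G)) = Finset.univ := by
    refine Finset.eq_univ_of_card _ ?_
    rw [Finset.card_insert_of_notMem (by
        simp only [Finset.mem_insert, Finset.mem_singleton, not_or]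
        exact ⟨hne _ _ h1p, hne _ _ h1q⟩),
      Finset.card_pair (hne _ _ hpq'), ← Nat.card_eq_fintype_card, h3]
  have hclass : ∀ g : G, g = 1 ∨ (mk g = mk y ∧ orderOf g = p) ∨ (mk g = mk x ∧ orderOf g = q) := by
    intro g
    have := huniv.ge (Finset.mem_univ (mk g))
    simp only [Finset.mem_insert, Finset.mem_singleton] at this
    rcases this with h | h | h
    · obtain ⟨α, hα⟩ := hsame g 1 h
      exact Or.inl (by rw [← hα, map_one])
    · obtain ⟨α, hα⟩ := hsame g y h
      exact Or.inr (Or.inl ⟨h, by rw [← hα, MulEquiv.orderOf_eq, hy]⟩)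
    · obtain ⟨α, hα⟩ := hsame g x h
      exact Or.inr (Or.inr ⟨h, by rw [← hα, MulEquiv.orderOf_eq, hx]⟩)
  have htr : ∀ g h : G, orderOf g = orderOf h → ∃ α : MulAut G, α g = h := by
    intro g h e
    have hfin : mk h = mk g → ∃ α : MulAut G, α g = h := hsame h g
    rcases hclass g with hg | ⟨hg, hgo⟩ | ⟨hg, hgo⟩ <;> rcases hclass h with hh | ⟨hh, hho⟩ | ⟨hh, hho⟩
    · exact ⟨1, by rw [hg, hh]; rfl⟩
    · rw [hg, orderOf_one, hho] at e; exact absurd e.symm hp.ne_one
    · rw [hg, orderOf_one, hho] at e; exact absurd e.symm hq.ne_one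
    · rw [hh, orderOf_one, hgo] at e; exact absurd e hp.ne_one
    · exact hfin (hh.trans hg.symm)
    · rw [hgo, hho] at e; exact absurd e hpq
    · rw [hh, orderOf_one, hgo] at e; exact absurd e hq.ne_one
    · rw [hgo, hho] at e; exact absurd e.symm hpq
    · exact hfin (hh.trans hg.symm)
  have h3' : ∀ g : G, g = 1 ∨ orderOf g = p ∨ orderOf g = q := fun g =>
    (hclass g).imp id (Or.imp And.right And.right)
  have hsolv : Group.IsSolvable G := by
    refine Characters.isSolvable_of_card_eq_pow_mul_pow hp hq _ G rfl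
      ⟨(Nat.card G).factorization p, (Nat.card G).factorization q, ?_⟩
    conv_lhs => rw [Nat.prod_primeFactors_pow_factorization (Nat.card_pos (α := G)).ne']
    have hpf : (Nat.card G).primeFactors = {p, q} := by
      ext r
      rw [Nat.mem_primeFactors, Finset.mem_insert, Finset.mem_singleton]
      refine ⟨fun ⟨hr, hrd, _⟩ => ?_, ?_⟩
      · haveI := Fact.mk hr
        obtain ⟨g, hg⟩ := exists_prime_orderOf_dvd_card' r hrd
        rcases h3' g with h | h | h
        · rw [h, orderOf_one] at hg; exact absurd hg.symm hr.ne_one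
        · exact Or.inl (hg.symm.trans h)
        · exact Or.inr (hg.symm.trans h)
      · rintro (rfl | rfl)
        · exact ⟨hp, hpG, Nat.card_pos.ne'⟩
        · exact ⟨hq, hqG, Nat.card_pos.ne'⟩
    rw [hpf, Finset.prod_pair hpq]
  haveI : Nontrivial G := Finite.one_lt_card_iff_nontrivial.1 (by have := Nat.card_pos (α := G); omega)
  obtain ⟨N, hNn, -, hNb, hmin⟩ := Solv.exists_minimal_normal_le (N := (⊤ : Subgroup G)) top_ne_bot
  haveI := hNn
  obtain ⟨-, r, hr, hNr, hNexp⟩ := Solv.minimal_normal_elementary hNb inferInstance hmin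
  haveI := Fact.mk hr
  obtain ⟨a, ha, ha1⟩ := N.bot_or_exists_ne_one.resolve_left hNb
  have hra : orderOf a = r := orderOf_eq_prime (hNexp a ha) ha1
  have hcore : pCore r G ≠ ⊥ := fun e => hNb (eq_bot_iff.2 (e ▸ Solv.le_pCore hNn hNr))
  rcases h3' a with h | h | h
  · exact absurd h ha1
  · obtain rfl : r = p := hra.symm.trans h
    exact forward hpq hpG hqG h3' htr hcore
  · obtain rfl : r = q := hra.symm.trans h
    exact forward hpq.symm hqG hpG (fun g => (h3' g).imp id Or.symm) htr hcore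

end Cfsg.Agent.S4081
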