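import Cfsg.Statements.S4082
import Cfsg.Agent.Lib.TwoFus.Presentations
import Cfsg.Agent.Lib.Transfer.Frobenius
import Cfsg.Agent.Lib.Transfer.Action

set_option autoImplicit false
open Cfsg
open scoped Pointwise commutatorElement

namespace Cfsg.Agent.S4082

theorem eq_one_of_coprime {G : Type*} [Group G] {p : ℕ} {x : G} (hx : (orderOf x).Coprime p) {k : ℕ}
    (hk : x ^ p ^ k = 1) : x = 1 :=
  orderOf_eq_one_iff.1 (Nat.eq_one_of_dvd_coprimes (hx.pow_right k) dvd_rfl (orderOf_dvd_of_pow_eq_one hk))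

theorem fix_cyclic {G : Type*} [Group G] [Finite G] {p : ℕ} [hp : Fact p.Prime] {u x : G} {m : ℕ}
    (hu : orderOf u = p ^ (m + 1)) (hxu : x * u * x⁻¹ ∈ Subgroup.zpowers u) (hx : (orderOf x).Coprime p)
    (hfix : x * u ^ p ^ m * x⁻¹ = u ^ p ^ m) : x * u * x⁻¹ = u := by
  obtain ⟨i, hi : u ^ i = x * u * x⁻¹⟩ := mem_powers_iff_mem_zpowers.2 hxu
  have key : ∀ n : ℕ, x ^ n * u * (x ^ n)⁻¹ = u ^ i ^ n := by
    intro n
    induction n with
    | zero => simp
    | succ n ih =>
      calc x ^ (n + 1) * u * (x ^ (n + 1))⁻¹ = x * (x ^ n * u * (x ^ n)⁻¹) * x⁻¹ := by rw [pow_succ']; group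
        _ = (x * u * x⁻¹) ^ i ^ n := by rw [ih, conj_pow]
        _ = u ^ i ^ (n + 1) := by rw [← hi, ← pow_mul, pow_succ']
  have h1 : i ^ orderOf x ≡ 1 [MOD p ^ (m + 1)] := by
    have := key (orderOf x)
    rw [pow_orderOf_eq_one, one_mul, inv_one, mul_one] at this
    rw [← hu, ← pow_eq_pow_iff_modEq, pow_one, ← this]
  have hi1 : i ≡ 1 [MOD p] := by
    rw [← conj_pow, ← hi, ← pow_mul, pow_eq_pow_iff_modEq, hu, pow_succ] at hfix
    rw [mul_comm i (p ^ m)] at hfix
    refine Nat.ModEq.mul_left_cancel' (pow_pos hp.out.pos m).ne' (?_ : p ^ m * i ≡ p ^ m * 1 [MOD p ^ m * p])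
    rwa [mul_one]
  have h4 : i ≡ 1 [MOD p ^ (m + 1)] := by
    set v : ZMod (p ^ (m + 1)) := (i : ZMod (p ^ (m + 1))) with hv
    have e1 : v ^ orderOf x = 1 := by rw [hv, ← Nat.cast_pow, ← Nat.cast_one (R := ZMod (p ^ (m + 1))), ZMod.natCast_eq_natCast_iff]; exact h1
    have e2 : v ^ p ^ m = 1 := by
      have h0 : ((p : ℕ) : ℤ) ∣ (i : ℤ) - 1 := by
        have := (Nat.modEq_iff_dvd.1 hi1.symm)
        simpa using this
      have h5 := dvd_sub_pow_of_dvd_sub h0 m
      rw [one_pow] at h5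
      have h6 : (((i : ℤ) ^ p ^ m - 1 : ℤ) : ZMod (p ^ (m + 1))) = 0 := by
        rw [ZMod.intCast_zmod_eq_zero_iff_dvd]
        exact_mod_cast h5
      rw [hv]
      push_cast at h6
      exact sub_eq_zero.1 h6
    have hd := Nat.dvd_gcd (orderOf_dvd_of_pow_eq_one e1) (orderOf_dvd_of_pow_eq_one e2)
    rw [(Nat.Coprime.pow_right m hx : (orderOf x).gcd (p ^ m) = 1)] at hd
    have hv1 := orderOf_eq_one_iff.1 (Nat.dvd_one.1 hd)
    rw [hv, ← Nat.cast_one (R := ZMod (p ^ (m + 1))), ZMod.natCast_eq_natCast_iff] at hv1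
    exact hv1
  rw [← hi]
  calc u ^ i = u ^ 1 := by rw [pow_eq_pow_iff_modEq, hu]; exact h4
    _ = u := pow_one u

theorem omega_le {G : Type*} [Group G] [Finite G] {p : ℕ} [hp : Fact p.Prime] {u y : G} {m : ℕ}
    (hu : orderOf u = p ^ (m + 1)) (hy : y ∈ Subgroup.zpowers u) (hy1 : y ^ p = 1) :
    y ∈ Subgroup.zpowers (u ^ p ^ m) := by
  obtain ⟨a, ha : u ^ a = y⟩ := mem_powers_iff_mem_zpowers.2 hy
  rw [← ha, ← pow_mul, ← orderOf_dvd_iff_pow_eq_one, hu, pow_succ] at hy1
  obtain ⟨b, hb⟩ := Nat.dvd_of_mul_dvd_mul_right hp.out.pos hy1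
  rw [← ha, hb, pow_mul]
  exact Subgroup.npow_mem_zpowers _ b

theorem sup_hyp {G : Type*} [Group G] [Finite G] {p : ℕ} [hp : Fact p.Prime]
    (h : ∀ H : Subgroup G, (∀ S : Sylow p ↥H, (S : Subgroup ↥H).Normal) →
        (∀ (S : Sylow p ↥H) [(S : Subgroup ↥H).Normal], IsCyclic (↥H ⧸ (S : Subgroup ↥H))) →
        IsCyclic H ∨ (∃ n : ℕ, Nonempty (H ≃* DihedralGroup (p ^ n))))
    (R : Subgroup G) (hR : IsPGroup p R) {x : G} (hxN : x ∈ Subgroup.normalizer (R : Set G)) (hxo : (orderOf x).Coprime p) :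
    IsCyclic ↥(R ⊔ Subgroup.zpowers x) ∨ ∃ n : ℕ, Nonempty (↥(R ⊔ Subgroup.zpowers x) ≃* DihedralGroup (p ^ n)) := by
  obtain ⟨H, hH⟩ : ∃ H, H = R ⊔ Subgroup.zpowers x := ⟨_, rfl⟩
  rw [← hH]
  have hKH : R ≤ H := hH ▸ le_sup_left
  have hxH : x ∈ H := hH ▸ Subgroup.mem_sup_right (Subgroup.mem_zpowers x)
  have hHN : H ≤ Subgroup.normalizer (R : Set G) := hH ▸ sup_le Subgroup.le_normalizer (Subgroup.zpowers_le.2 hxN)
  haveI hKn : (R.subgroupOf H).Normal := ⟨fun a ha b => by
    rw [Subgroup.mem_subgroupOf] at ha ⊢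
    exact (Subgroup.mem_normalizer_iff.1 (hHN b.2) _).1 ha⟩
  have hgen : ∀ q : H ⧸ R.subgroupOf H, q ∈ Subgroup.zpowers (QuotientGroup.mk (⟨x, hxH⟩ : H) : H ⧸ R.subgroupOf H) := by
    intro q
    induction q using QuotientGroup.induction_on with
    | _ y =>
      have hy : (y : G) ∈ ((R ⊔ Subgroup.zpowers x : Subgroup G) : Set G) := hH ▸ y.2
      rw [Subgroup.coe_mul_of_right_le_normalizer_left R (Subgroup.zpowers x) (Subgroup.zpowers_le.2 hxN)] at hy
      obtain ⟨a, ha, _, ⟨i, rfl⟩, hai⟩ := Set.mem_mul.1 hy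
      refine ⟨i, ?_⟩
      have : y = (⟨a, hKH ha⟩ : H) * (⟨x, hxH⟩ : H) ^ i := Subtype.ext (by simpa using hai.symm)
      rw [this, QuotientGroup.mk_mul, (QuotientGroup.eq_one_iff (⟨a, hKH ha⟩ : H)).2 (Subgroup.mem_subgroupOf.2 ha), one_mul]
      rfl
  have hidx : (R.subgroupOf H).index.Coprime p := by
    refine Nat.Coprime.coprime_dvd_left ?_ hxo
    rw [Subgroup.index_eq_card, ← orderOf_eq_card_of_forall_mem_zpowers hgen, ← Subgroup.orderOf_mk (a := x) hxH]
    exact orderOf_map_dvd (QuotientGroup.mk' _) _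
  have hS : ∀ S : Sylow p H, (S : Subgroup H) = R.subgroupOf H := fun S => by
    have hKp : IsPGroup p (R.subgroupOf H) := hR.of_equiv (Subgroup.subgroupOfEquivOfLe hKH).symm
    have hle : R.subgroupOf H ≤ (S : Subgroup H) := by
      obtain ⟨T, hT⟩ := hKp.exists_le_sylow
      obtain ⟨g, hg⟩ := MulAction.exists_smul_eq H T S
      intro a ha
      rw [← hg, Sylow.coe_subgroup_smul, Subgroup.mem_pointwise_smul_iff_inv_smul_mem]
      exact hT (by simpa using hKn.conj_mem' a ha g)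
    refine le_antisymm ?_ hle
    rw [← Subgroup.relIndex_eq_one]
    obtain ⟨j, hj⟩ := IsPGroup.iff_card.1 S.isPGroup'
    exact Nat.eq_one_of_dvd_coprimes (hidx.pow_right j) ((R.subgroupOf H).relIndex_dvd_index_of_normal (S : Subgroup H))
      (hj ▸ Subgroup.relIndex_dvd_card _ _)
  have hcy : IsCyclic (H ⧸ R.subgroupOf H) := ⟨⟨_, hgen⟩⟩
  exact h H (fun S => by rw [hS S]; exact hKn) (fun S _ =>
    isCyclic_of_surjective (QuotientGroup.quotientMulEquivOfEq (hS S).symm) (MulEquiv.surjective _))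

/-- A `p'`-element acting nontrivially is an inverting involution. -/
theorem act_data {G : Type*} [Group G] [Finite G] {p : ℕ} [hp : Fact p.Prime] (hp2 : p ≠ 2)
    (h : ∀ H : Subgroup G, (∀ S : Sylow p ↥H, (S : Subgroup ↥H).Normal) →
        (∀ (S : Sylow p ↥H) [(S : Subgroup ↥H).Normal], IsCyclic (↥H ⧸ (S : Subgroup ↥H))) →
        IsCyclic H ∨ (∃ n : ℕ, Nonempty (H ≃* DihedralGroup (p ^ n))))
    (R : Subgroup G) (hR : IsPGroup p R) {x : G} (hxN : x ∈ Subgroup.normalizer (R : Set G)) (hxo : (orderOf x).Coprime p)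
    (hxC : x ∉ Subgroup.centralizer (R : Set G)) : orderOf x = 2 ∧ ∀ a ∈ R, x * a * x⁻¹ = a⁻¹ := by
  rcases sup_hyp h R hR hxN hxo with hc | ⟨n, ⟨f⟩⟩
  · refine absurd (Subgroup.mem_centralizer_iff.2 fun a ha => ?_) hxC
    have := hc.isMulCommutative.is_comm.comm (⟨a, Subgroup.mem_sup_left ha⟩ : ↥(R ⊔ Subgroup.zpowers x))
      ⟨x, Subgroup.mem_sup_right (Subgroup.mem_zpowers x)⟩
    exact congrArg Subtype.val this
  · haveI : NeZero (p ^ n) := ⟨(pow_pos hp.out.pos n).ne'⟩
    set X : ↥(R ⊔ Subgroup.zpowers x) := ⟨x, Subgroup.mem_sup_right (Subgroup.mem_zpowers x)⟩ with hX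
    have hx1 : x ≠ 1 := fun e => hxC (e ▸ one_mem _)
    have hX1 : X ≠ 1 := fun e => hx1 (congrArg Subtype.val e)
    obtain ⟨i, hi⟩ : ∃ i, f X = DihedralGroup.sr i := by
      rcases hd : f X with i | i
      · exfalso
        refine hx1 (eq_one_of_coprime hxo (k := n) ?_)
        have h1 : X ^ p ^ n = 1 := f.injective (by
          rw [map_pow, hd, map_one, DihedralGroup.r_pow]
          simp)
        exact congrArg Subtype.val h1
      · exact ⟨i, rfl⟩
    refine ⟨?_, fun a ha => ?_⟩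
    · refine orderOf_eq_prime ?_ hx1
      have h1 : X ^ 2 = 1 := f.injective (by rw [map_pow, hi, map_one, pow_two, DihedralGroup.sr_mul_self])
      exact congrArg Subtype.val h1
    · set A : ↥(R ⊔ Subgroup.zpowers x) := ⟨a, Subgroup.mem_sup_left ha⟩ with hA
      rcases hd : f A with j | j
      · have h1 : X * A * X⁻¹ = A⁻¹ := f.injective (by
          rw [map_mul, map_mul, map_inv, map_inv, hi, hd]
          simp [DihedralGroup.inv_sr, DihedralGroup.inv_r])
        exact congrArg Subtype.val h1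
      · exfalso
        have h1 : A ^ 2 = 1 := f.injective (by rw [map_pow, hd, map_one, pow_two, DihedralGroup.sr_mul_self])
        obtain ⟨k, hk⟩ := hR ⟨a, ha⟩
        have ha1 : a = 1 := orderOf_eq_one_iff.1 (Nat.eq_one_of_dvd_coprimes
          (((Nat.coprime_primes Nat.prime_two hp.out).2 hp2.symm).pow_right k)
          (orderOf_dvd_of_pow_eq_one (congrArg Subtype.val h1)) (orderOf_dvd_of_pow_eq_one (congrArg Subtype.val hk)))
        rw [show A = 1 from Subtype.ext ha1, map_one, DihedralGroup.one_def] at hd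
        cases hd


/-- Let p be an odd prime and G a finite group with Sylow p-subgroup P. Say that G has restricted p-by-cyclic subgroups when every subgroup H of G whose Sylow p-subgroup is normal in H with cyclic quotient is itself cyclic or dihedral of order 2pⁿ for some n. Then G has restricted p-by-cyclic subgroups if and only if P is cyclic and one of the following holds: (1) N_G(P) = C_G(P); or (2) N_G(P)/C_G(P) has order 2 and, for the subgroup Q of order p of P, the centralizer C_G(Q) is abelian and every element of N_G(Q) outside C_G(Q) is an involution inverting every element of C_G(Q). -/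
theorem result {G : Type*} [Group G] [Finite G] {p : ℕ}
    [Fact p.Prime] (hp : p ≠ 2) (P : Sylow p G) :
    (∀ H : Subgroup G, (∀ S : Sylow p ↥H, (S : Subgroup ↥H).Normal) →
        (∀ (S : Sylow p ↥H) [(S : Subgroup ↥H).Normal], IsCyclic (↥H ⧸ (S : Subgroup ↥H))) →
        IsCyclic H ∨ (∃ n : ℕ, Nonempty (H ≃* DihedralGroup (p ^ n)))) ↔
    (IsCyclic P ∧
      (Subgroup.normalizer ((P : Subgroup G) : Set G) = Subgroup.centralizer ((P : Subgroup G) : Set G) ∨
       ((Subgroup.centralizer ((P : Subgroup G) : Set G)).relIndex (Subgroup.normalizer ((P : Subgroup G) : Set G)) = 2 ∧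
        ∀ Q : Subgroup G, Q ≤ P → Nat.card Q = p →
          IsMulCommutative ↥(Subgroup.centralizer (Q : Set G)) ∧
          ∀ x : G, x ∈ Subgroup.normalizer (Q : Set G) → x ∉ Subgroup.centralizer (Q : Set G) →
            orderOf x = 2 ∧ ∀ c : G, c ∈ Subgroup.centralizer (Q : Set G) → x * c * x⁻¹ = c⁻¹))) := by
  classical
  have hpp : p.Prime := Fact.out
  constructor
  · intro h
    have hPc : IsCyclic P := by
      rcases sup_hyp h (P : Subgroup G) P.isPGroup' (x := 1) (one_mem _) (by simp) with hc | ⟨n, ⟨f⟩⟩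
      · rw [Subgroup.zpowers_one_eq_bot, sup_bot_eq] at hc
        exact hc
      · exfalso
        obtain ⟨k, hk⟩ := IsPGroup.iff_card.1 P.isPGroup'
        have h1 := Nat.card_congr f.toEquiv
        rw [DihedralGroup.nat_card, Subgroup.zpowers_one_eq_bot, sup_bot_eq] at h1
        have h2 : 2 ∣ p ^ k := ⟨p ^ n, by rw [← hk, h1]⟩
        exact hp ((Nat.prime_dvd_prime_iff_eq Nat.prime_two hpp).1 (Nat.prime_two.dvd_of_dvd_pow h2)).symm
    refine ⟨hPc, ?_⟩
    haveI := hPc
    by_cases hNC : Subgroup.normalizer ((P : Subgroup G) : Set G) = Subgroup.centralizer ((P : Subgroup G) : Set G)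
    · exact Or.inl hNC
    right
    obtain ⟨u, hu⟩ := Subgroup.isCyclic_iff_exists_zpowers_eq_top (P : Subgroup G) |>.1 hPc
    have huP : u ∈ (P : Subgroup G) := hu ▸ Subgroup.mem_zpowers u
    have hPle : (P : Subgroup G) ≤ Subgroup.centralizer ((P : Subgroup G) : Set G) := fun a ha =>
      Subgroup.mem_centralizer_iff.2 fun b hb =>
        congrArg Subtype.val (hPc.isMulCommutative.is_comm.comm (⟨b, hb⟩ : (P : Subgroup G)) ⟨a, ha⟩)
    obtain ⟨k, hk⟩ := IsPGroup.iff_orderOf.1 P.isPGroup' ⟨u, huP⟩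
    rw [Subgroup.orderOf_mk] at hk
    obtain ⟨m, rfl⟩ : ∃ m, k = m + 1 := Nat.exists_eq_succ_of_ne_zero fun e => hNC (by
      rw [e, pow_zero, orderOf_eq_one_iff] at hk
      have hb : (P : Subgroup G) = ⊥ := by rw [← hu, hk, Subgroup.zpowers_one_eq_bot]
      rw [hb, Subgroup.normalizer_eq_top_iff.2 inferInstance]
      exact (top_le_iff.1 fun a _ => Subgroup.mem_centralizer_iff.2 fun b hb' => by
        rw [Subgroup.mem_bot.1 hb', one_mul, mul_one]).symm)
    obtain ⟨w, hw⟩ : ∃ w, w = u ^ p ^ m := ⟨_, rfl⟩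
    have hwo : orderOf w = p := by
      rw [hw, orderOf_pow_of_dvd (pow_pos hpp.pos m).ne' (hk ▸ pow_dvd_pow p (Nat.le_succ m)), hk, pow_succ,
        Nat.mul_div_cancel_left _ (pow_pos hpp.pos m)]
    have hwP : w ∈ (P : Subgroup G) := hw ▸ pow_mem huP _
    -- subgroups of order `p` in `P`
    have hQeq : ∀ Q : Subgroup G, Q ≤ (P : Subgroup G) → Nat.card Q = p → Q = Subgroup.zpowers w := by
      intro Q hQ hQp
      refine Subgroup.eq_of_le_of_card_ge (fun y hy => ?_) (by rw [Nat.card_zpowers, hwo, hQp])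
      rw [hw]
      refine omega_le hk (hu.symm ▸ hQ hy) ?_
      have h1 := orderOf_dvd_iff_pow_eq_one.1 (Q.orderOf_dvd_natCard hy)
      rwa [hQp] at h1
    -- part one : the data of an element outside the centralizer
    have hmain : ∀ Q : Subgroup G, Q ≤ (P : Subgroup G) → Nat.card Q = p → ∀ x ∈ Subgroup.normalizer (Q : Set G),
        x ∉ Subgroup.centralizer (Q : Set G) → orderOf x = 2 := by
      intro Q hQ hQp x hxN hxC
      have hQpg : IsPGroup p Q := IsPGroup.of_card (n := 1) (by rw [hQp, pow_one])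
      set f := (orderOf x).factorization p with hf
      set x' := x ^ p ^ f with hx'
      set d := orderOf x / p ^ f with hd
      set xp := x ^ d with hxp
      have hx'o : (orderOf x').Coprime p := by
        rw [hx', orderOf_pow_of_dvd (Nat.ordProj_pos _ _).ne' (Nat.ordProj_dvd _ _)]
        exact (Nat.coprime_ordCompl hpp (orderOf_pos x).ne').symm
      have hcop : (p ^ f).Coprime d := Nat.Coprime.pow_left f (Nat.coprime_ordCompl hpp (orderOf_pos x).ne')
      have hxpp : xp ^ p ^ f = 1 := by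
        rw [hxp, ← pow_mul, hd, Nat.div_mul_cancel (Nat.ordProj_dvd _ _), pow_orderOf_eq_one]
      -- the `p`-part centralizes `Q`
      have hxpC : xp ∈ Subgroup.centralizer (Q : Set G) := by
        refine Subgroup.mem_centralizer_iff.2 fun q hq => ?_
        have hT : IsPGroup p (Q ⊔ Subgroup.zpowers xp : Subgroup G) := hQpg.to_sup_of_normal_left'
          (IsPGroup.of_card (n := (orderOf xp).factorization p) (by
            obtain ⟨j, -, hj⟩ := (Nat.dvd_prime_pow hpp).1 (orderOf_dvd_of_pow_eq_one hxpp)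
            rw [Nat.card_zpowers, hj, hpp.factorization_pow, Finsupp.single_eq_same]))
          (Subgroup.zpowers_le.2 (pow_mem hxN d))
        obtain ⟨T, hT'⟩ := hT.exists_le_sylow
        haveI : IsCyclic T := isCyclic_of_surjective (Sylow.equiv P T) (MulEquiv.surjective _)
        exact congrArg Subtype.val (IsCyclic.isMulCommutative.is_comm.comm
          (⟨q, hT' (Subgroup.mem_sup_left hq)⟩ : T) ⟨xp, hT' (Subgroup.mem_sup_right (Subgroup.mem_zpowers _))⟩)
      have hsplit : x ∈ Subgroup.zpowers xp ⊔ Subgroup.zpowers x' := by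
        have hb := Int.gcd_eq_gcd_ab (p ^ f : ℕ) d
        rw [show Int.gcd ((p ^ f : ℕ) : ℤ) (d : ℤ) = 1 by rw [Int.gcd_natCast_natCast]; exact hcop] at hb
        have e : x = (x ^ p ^ f) ^ (Int.gcdA (p ^ f : ℕ) d) * (x ^ d) ^ (Int.gcdB (p ^ f : ℕ) d) := by
          rw [← zpow_natCast x (p ^ f), ← zpow_natCast x d, ← zpow_mul, ← zpow_mul, ← zpow_add, ← hb, Nat.cast_one, zpow_one]
        rw [e]
        exact mul_mem (zpow_mem (Subgroup.mem_sup_right (Subgroup.mem_zpowers _)) _)
          (zpow_mem (Subgroup.mem_sup_left (Subgroup.mem_zpowers _)) _)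
      have hx'C : x' ∉ Subgroup.centralizer (Q : Set G) := fun hh =>
        hxC (sup_le (Subgroup.zpowers_le.2 hxpC) (Subgroup.zpowers_le.2 hh) hsplit)
      have hx'2 := (act_data hp h Q hQpg (pow_mem hxN _) hx'o hx'C).1
      -- the `p`-part is trivial
      have hxp1 : xp = 1 := by
        by_contra hne
        set R := Q ⊔ Subgroup.zpowers xp with hR
        have hRp : IsPGroup p R := hQpg.to_sup_of_normal_left'
          (IsPGroup.of_card (n := (orderOf xp).factorization p) (by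
            obtain ⟨j, -, hj⟩ := (Nat.dvd_prime_pow hpp).1 (orderOf_dvd_of_pow_eq_one hxpp)
            rw [Nat.card_zpowers, hj, hpp.factorization_pow, Finsupp.single_eq_same]))
          (Subgroup.zpowers_le.2 (pow_mem hxN d))
        have hxx : x' * xp = xp * x' := ((Commute.refl x).pow_pow _ _).eq
        have hxR : x' ∈ Subgroup.normalizer (R : Set G) := by
          have key : ∀ a : G, a ∈ Subgroup.normalizer (Q : Set G) → a * xp = xp * a →
              R.map (MulAut.conj a).toMonoidHom ≤ R := fun a ha hb => by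
            rw [hR, Subgroup.map_sup]
            refine sup_le_sup ?_ ?_
            · rintro _ ⟨y, hy, rfl⟩; exact (Subgroup.mem_normalizer_iff.1 ha y).1 hy
            · rw [MonoidHom.map_zpowers, Subgroup.zpowers_le]
              show a * xp * a⁻¹ ∈ _
              rw [hb, mul_inv_cancel_right]
              exact Subgroup.mem_zpowers xp
          refine Subgroup.mem_normalizer_iff.2 fun y => ⟨fun hy => key _ (pow_mem hxN _) hxx ⟨y, hy, rfl⟩, fun hy => ?_⟩
          have h9 : x'⁻¹ * (x' * y * x'⁻¹) * x'⁻¹⁻¹ ∈ R :=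
            key _ (inv_mem (pow_mem hxN _)) ((Commute.inv_left hxx).eq) ⟨_, hy, rfl⟩
          rwa [show x'⁻¹ * (x' * y * x'⁻¹) * x'⁻¹⁻¹ = y by group] at h9
        have h2 := (act_data hp h R hRp hxR hx'o (fun hh => hx'C (Subgroup.centralizer_le (SetLike.coe_subset_coe.2 (le_sup_left : Q ≤ R)) hh))).2 xp
          (Subgroup.mem_sup_right (Subgroup.mem_zpowers _))
        rw [hxx, mul_inv_cancel_right] at h2
        apply hne
        refine orderOf_eq_one_iff.1 (Nat.eq_one_of_dvd_coprimes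
          (((Nat.coprime_primes Nat.prime_two hpp).2 hp.symm).pow_right f) ?_ (orderOf_dvd_of_pow_eq_one hxpp))
        refine orderOf_dvd_of_pow_eq_one ?_
        rw [pow_two]
        nth_rw 1 [h2]
        exact inv_mul_cancel xp
      have hxx' : x ∈ Subgroup.zpowers x' := by simpa [hxp1] using hsplit
      have hz : x ^ 2 = 1 := by
        obtain ⟨i, hi⟩ := hxx'
        rw [← hi]
        show (x' ^ i) ^ 2 = 1
        rw [← zpow_natCast, ← zpow_mul, mul_comm, zpow_mul, zpow_natCast, ← hx'2, pow_orderOf_eq_one, one_zpow]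
      exact orderOf_eq_prime hz fun e => hxC (e ▸ one_mem _)
    have hnon : ∀ x ∈ Subgroup.normalizer ((P : Subgroup G) : Set G), x ∈ Subgroup.centralizer ((Subgroup.zpowers w : Subgroup G) : Set G) →
        x ∈ Subgroup.centralizer ((P : Subgroup G) : Set G) := by
      intro x hxN hxC
      set f := (orderOf x).factorization p with hf
      have hx'o : (orderOf (x ^ p ^ f)).Coprime p := by
        rw [orderOf_pow_of_dvd (Nat.ordProj_pos _ _).ne' (Nat.ordProj_dvd _ _)]
        exact (Nat.coprime_ordCompl hpp (orderOf_pos x).ne').symm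
      have h1 : x ^ p ^ f * u * (x ^ p ^ f)⁻¹ = u := fix_cyclic hk
        (hu.symm ▸ (Subgroup.mem_normalizer_iff.1 (pow_mem hxN _) u).1 huP) hx'o (by
          rw [← hw, ← Subgroup.mem_centralizer_iff.1 (pow_mem hxC _) w (Subgroup.mem_zpowers w), mul_inv_cancel_right])
      set d := orderOf x / p ^ f with hd
      have hxd : x ^ d ∈ (P : Subgroup G) := by
        have hz : IsPGroup p (Subgroup.zpowers (x ^ d)) := IsPGroup.of_card (n := (orderOf (x ^ d)).factorization p) (by
          obtain ⟨j, -, hj⟩ := (Nat.dvd_prime_pow hpp).1 (orderOf_dvd_of_pow_eq_one (show (x ^ d) ^ p ^ f = 1 by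
            rw [← pow_mul, hd, Nat.div_mul_cancel (Nat.ordProj_dvd _ _), pow_orderOf_eq_one]))
          rw [Nat.card_zpowers, hj, hpp.factorization_pow, Finsupp.single_eq_same])
        have hs := P.isPGroup'.to_sup_of_normal_left' hz (Subgroup.zpowers_le.2 (pow_mem hxN d))
        exact P.3 hs le_sup_left ▸ Subgroup.mem_sup_right (Subgroup.mem_zpowers _)
      have h2 : x ^ p ^ f ∈ Subgroup.centralizer ((P : Subgroup G) : Set G) := Subgroup.mem_centralizer_iff.2 fun a ha => by
        obtain ⟨i, hi⟩ := hu.symm ▸ ha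
        rw [← hi]
        exact ((show Commute (x ^ p ^ f) u from mul_inv_eq_iff_eq_mul.1 h1).zpow_right i).eq.symm
      have hb := Int.gcd_eq_gcd_ab (p ^ f : ℕ) d
      rw [show Int.gcd ((p ^ f : ℕ) : ℤ) (d : ℤ) = 1 by
        rw [Int.gcd_natCast_natCast]; exact Nat.Coprime.pow_left f (Nat.coprime_ordCompl hpp (orderOf_pos x).ne')] at hb
      have e : x = (x ^ p ^ f) ^ (Int.gcdA (p ^ f : ℕ) d) * (x ^ d) ^ (Int.gcdB (p ^ f : ℕ) d) := by
        rw [← zpow_natCast x (p ^ f), ← zpow_natCast x d, ← zpow_mul, ← zpow_mul, ← zpow_add, ← hb, Nat.cast_one, zpow_one]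
      rw [e]
      exact mul_mem (zpow_mem h2 _) (zpow_mem (hPle hxd) _)
    obtain ⟨x0, hx0N, hx0C⟩ := SetLike.exists_of_lt (lt_of_le_of_ne
      (Subgroup.centralizer_le_normalizer ((P : Subgroup G) : Set G)) (fun e => hNC e.symm))
    have hwN : ∀ x ∈ Subgroup.normalizer ((P : Subgroup G) : Set G), x ∈ Subgroup.normalizer ((Subgroup.zpowers w : Subgroup G) : Set G) := by
      intro x hx
      have key : ∀ x ∈ Subgroup.normalizer ((P : Subgroup G) : Set G), ∀ y ∈ Subgroup.zpowers w, x * y * x⁻¹ ∈ Subgroup.zpowers w := by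
        intro x hx y hy
        rw [hw]
        refine omega_le hk (hu.symm ▸ (Subgroup.mem_normalizer_iff.1 hx y).1 ((Subgroup.zpowers_le.2 hwP) hy)) ?_
        have h1 := orderOf_dvd_iff_pow_eq_one.1 ((Subgroup.zpowers w).orderOf_dvd_natCard hy)
        rw [Nat.card_zpowers, hwo] at h1
        rw [conj_pow, h1, mul_one, mul_inv_cancel]
      exact Subgroup.mem_normalizer_iff.2 fun y => ⟨key x hx y, fun hy => by
        simpa [mul_assoc] using key _ (inv_mem hx) _ hy⟩
    have hinv : ∀ x ∈ Subgroup.normalizer ((Subgroup.zpowers w : Subgroup G) : Set G), x ∉ Subgroup.centralizer ((Subgroup.zpowers w : Subgroup G) : Set G) →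
        ∀ c ∈ Subgroup.centralizer ((Subgroup.zpowers w : Subgroup G) : Set G), x * c * x⁻¹ = c⁻¹ := by
      intro x hxN hxC c hc
      have h1 := hmain _ (Subgroup.zpowers_le.2 hwP) (by rw [Nat.card_zpowers, hwo]) x hxN hxC
      have h2 := hmain _ (Subgroup.zpowers_le.2 hwP) (by rw [Nat.card_zpowers, hwo]) (x * c)
        (mul_mem hxN (Subgroup.centralizer_le_normalizer _ hc))
        (fun hh => hxC (by simpa using mul_mem hh (inv_mem hc)))
      have e1 : x⁻¹ = x := inv_eq_of_mul_eq_one_right (by rw [← pow_two, ← h1, pow_orderOf_eq_one])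
      refine eq_inv_of_mul_eq_one_left ?_
      rw [e1]
      calc x * c * x * c = (x * c) * (x * c) := by group
        _ = 1 := by rw [← pow_two, ← h2, pow_orderOf_eq_one]
    have hx0w : x0 ∉ Subgroup.centralizer ((Subgroup.zpowers w : Subgroup G) : Set G) := fun hh => hx0C (hnon x0 hx0N hh)
    refine ⟨?_, fun Q hQ hQp => ?_⟩
    · show ((Subgroup.centralizer ((P : Subgroup G) : Set G)).subgroupOf (Subgroup.normalizer ((P : Subgroup G) : Set G))).index = 2
      rw [Subgroup.index_eq_two_iff]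
      refine ⟨⟨x0, hx0N⟩, fun b => ?_⟩
      simp only [Subgroup.mem_subgroupOf, Subgroup.coe_mul]
      by_cases hbC : (b : G) ∈ Subgroup.centralizer ((P : Subgroup G) : Set G)
      · refine Or.inr ⟨hbC, fun hh => hx0C ?_⟩
        simpa using mul_mem (inv_mem hbC) hh
      · refine Or.inl ⟨hnon _ (mul_mem b.2 hx0N) (Subgroup.mem_centralizer_iff.2 fun y hy => ?_), hbC⟩
        have hy' : y ∈ Subgroup.centralizer ((Subgroup.zpowers w : Subgroup G) : Set G) := by
          obtain ⟨i, rfl⟩ := hy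
          refine Subgroup.mem_centralizer_iff.2 ?_
          rintro _ ⟨j, rfl⟩
          exact ((Commute.refl w).zpow_zpow j i).eq
        have h1 := hinv b (hwN b b.2) (fun hh => hbC (hnon b b.2 hh)) _ (inv_mem hy')
        have h2 := hinv x0 (hwN x0 hx0N) hx0w y hy'
        have e : (b : G) * x0 * y * ((b : G) * x0)⁻¹ = y := by
          calc _ = (b : G) * (x0 * y * x0⁻¹) * (b : G)⁻¹ := by group
            _ = y := by rw [h2, h1, inv_inv]
        exact (mul_inv_eq_iff_eq_mul.1 e).symm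
    · obtain rfl := hQeq Q hQ hQp
      refine ⟨⟨⟨fun a b => Subtype.ext ?_⟩⟩, fun x hx hxC => ⟨hmain _ hQ hQp x hx hxC, hinv x hx hxC⟩⟩
      show (a : G) * b = b * a
      have e1 := hinv x0 (hwN x0 hx0N) hx0w (a : G) a.2
      have e2 := hinv x0 (hwN x0 hx0N) hx0w (b : G) b.2
      have e3 := hinv x0 (hwN x0 hx0N) hx0w ((a : G) * b) (mul_mem a.2 b.2)
      rw [show x0 * ((a : G) * b) * x0⁻¹ = (x0 * a * x0⁻¹) * (x0 * b * x0⁻¹) by group, e1, e2, ← mul_inv_rev,
        inv_inj] at e3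
      exact e3.symm
  · rintro ⟨hPc, hcase⟩ H hSn hScyc
    obtain ⟨S⟩ : Nonempty (Sylow p H) := inferInstance
    haveI hSnormal : (S : Subgroup H).Normal := hSn S
    haveI := hScyc S
    obtain ⟨Q, hQ⟩ : ∃ Q, Q = (S : Subgroup H).map H.subtype := ⟨_, rfl⟩
    have hQH : Q ≤ H := hQ ▸ Subgroup.map_subtype_le _
    have hQp : IsPGroup p Q := hQ ▸ S.isPGroup'.map _
    obtain ⟨g₀, hg₀⟩ := IsCyclic.exists_generator (α := H ⧸ (S : Subgroup H))
    obtain ⟨g, rfl⟩ := QuotientGroup.mk_surjective g₀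
    set f := ordProj[p] (orderOf g) with hf
    obtain ⟨x, hxdef⟩ : ∃ x, x = g ^ f := ⟨_, rfl⟩
    have hxo : (orderOf (x : G)).Coprime p := by
      rw [Subgroup.orderOf_coe, hxdef, hf, orderOf_pow_of_dvd (Nat.ordProj_pos _ _).ne' (Nat.ordProj_dvd _ _)]
      exact (Nat.coprime_ordCompl hpp (orderOf_pos g).ne').symm
    have hxgen : ∀ q : H ⧸ (S : Subgroup H), q ∈ Subgroup.zpowers (QuotientGroup.mk x : H ⧸ (S : Subgroup H)) := by
      have hcop : (orderOf (QuotientGroup.mk g : H ⧸ (S : Subgroup H))).Coprime f := by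
        rw [orderOf_eq_card_of_forall_mem_zpowers hg₀, ← Subgroup.index_eq_card, hf]
        exact (Nat.Coprime.pow_left _ (hpp.coprime_iff_not_dvd.2 S.not_dvd_index)).symm
      obtain ⟨m, hm⟩ := exists_pow_eq_self_of_coprime hcop.symm
      intro q
      refine Subgroup.zpowers_le.2 ?_ (hg₀ q)
      rw [← hm, hxdef, QuotientGroup.mk_pow]
      exact Subgroup.npow_mem_zpowers _ m
    have hxN : (x : G) ∈ Subgroup.normalizer (Q : Set G) := by
      have hh := Subgroup.le_normalizer_map H.subtype (H := (S : Subgroup H))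
        ⟨x, Subgroup.normalizer_eq_top_iff.2 hSnormal ▸ Subgroup.mem_top x, rfl⟩
      rw [hQ]; exact hh
    have hdec : ∀ y : H, ∃ q ∈ Q, ∃ i : ℤ, (y : G) = q * (x : G) ^ i := by
      intro y
      obtain ⟨i, hi : (QuotientGroup.mk x : H ⧸ (S : Subgroup H)) ^ i = QuotientGroup.mk y⟩ := hxgen (QuotientGroup.mk y)
      have h1 : y * (x ^ i)⁻¹ ∈ (S : Subgroup H) := by
        rw [← QuotientGroup.eq_one_iff, QuotientGroup.mk_mul, QuotientGroup.mk_inv, QuotientGroup.mk_zpow, hi,
          mul_inv_cancel]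
      exact ⟨((y * (x ^ i)⁻¹ : H) : G), hQ ▸ ⟨_, h1, rfl⟩, i, by simp⟩
    obtain ⟨P1, hP1⟩ := hQp.exists_le_sylow
    haveI := hPc
    haveI : IsCyclic P1 := isCyclic_of_surjective (Sylow.equiv P P1) (MulEquiv.surjective _)
    haveI hQc : IsCyclic Q := isCyclic_of_injective (Subgroup.inclusion hP1) (Subgroup.inclusion_injective hP1)
    obtain ⟨u, hu⟩ := Subgroup.isCyclic_iff_exists_zpowers_eq_top Q |>.1 hQc
    have huQ : u ∈ Q := hu ▸ Subgroup.mem_zpowers u
    by_cases hxc : (x : G) ∈ Subgroup.centralizer (Q : Set G)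
    · left
      have hcm : Commute u (x : G) := Subgroup.mem_centralizer_iff.1 hxc u huQ
      obtain ⟨k, hk⟩ := IsPGroup.iff_orderOf.1 hQp ⟨u, huQ⟩
      rw [Subgroup.orderOf_mk] at hk
      have hcp : (orderOf u).Coprime (orderOf (x : G)) := by rw [hk]; exact (hxo.pow_right k).symm
      refine ⟨⟨⟨u * x, mul_mem (hQH huQ) x.2⟩, fun y => ?_⟩⟩
      obtain ⟨q, hq, i, hy⟩ := hdec y
      obtain ⟨j, hj⟩ : q ∈ Subgroup.zpowers u := hu.symm ▸ hq
      have hw : ∀ (a b : G), Commute a b → (orderOf a).Coprime (orderOf b) → a ∈ Subgroup.zpowers (a * b) := by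
        intro a b hab hco
        obtain ⟨m, hm⟩ := exists_pow_eq_self_of_coprime hco.symm
        refine ⟨(orderOf b * m : ℕ), ?_⟩
        show (a * b) ^ ((orderOf b * m : ℕ) : ℤ) = a
        rw [zpow_natCast, hab.mul_pow, pow_mul b, pow_orderOf_eq_one, one_pow, mul_one, pow_mul, hm]
      have hu' := hw _ _ hcm hcp
      have hx' := hw _ _ hcm.symm hcp.symm
      rw [← hcm.eq] at hx'
      have hy' : (y : G) ∈ Subgroup.zpowers (u * x) := by
        rw [hy]
        refine mul_mem ?_ (zpow_mem hx' i)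
        rw [← hj]
        exact zpow_mem hu' j
      obtain ⟨i', hi'⟩ := hy'
      exact ⟨i', Subtype.ext (by simpa using hi')⟩
    right
    obtain ⟨k, hk⟩ := IsPGroup.iff_orderOf.1 hQp ⟨u, huQ⟩
    rw [Subgroup.orderOf_mk] at hk
    obtain ⟨m, rfl⟩ : ∃ m, k = m + 1 := Nat.exists_eq_succ_of_ne_zero fun e => hxc (by
      rw [e, pow_zero, orderOf_eq_one_iff] at hk
      refine Subgroup.mem_centralizer_iff.2 fun q hq => ?_
      obtain ⟨i, hi⟩ : q ∈ Subgroup.zpowers u := hu.symm ▸ hq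
      rw [← hi, hk]; simp)
    rcases hcase with hNC | ⟨-, hdata⟩
    · exact absurd ((Cfsg.Lib.Transfer.frobenius_iff P1).1
        (Cfsg.Lib.Transfer.hasNormalPComplement_of_normalizer_le_centralizer P hNC.le) Q hP1 _ hxN hxo) hxc
    obtain ⟨w, hw⟩ : ∃ w, w = u ^ p ^ m := ⟨_, rfl⟩
    have hwo : orderOf w = p := by
      rw [hw, orderOf_pow_of_dvd (pow_pos hpp.pos m).ne' (hk ▸ pow_dvd_pow p (Nat.le_succ m)), hk, pow_succ,
        Nat.mul_div_cancel_left _ (pow_pos hpp.pos m)]
    have hwQ : Subgroup.zpowers w ≤ Q := Subgroup.zpowers_le.2 (hw ▸ pow_mem huQ _)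
    have hxuQ : (x : G) * u * (x : G)⁻¹ ∈ Subgroup.zpowers u := hu.symm ▸ (Subgroup.mem_normalizer_iff.1 hxN u).1 huQ
    have hxwN : (x : G) ∈ Subgroup.normalizer ((Subgroup.zpowers w : Subgroup G) : Set G) := by
      have key : ∀ a ∈ Subgroup.normalizer (Q : Set G), ∀ y ∈ Subgroup.zpowers w, a * y * a⁻¹ ∈ Subgroup.zpowers w := by
        intro a ha y hy
        rw [hw]
        refine omega_le hk (hu.symm ▸ (Subgroup.mem_normalizer_iff.1 ha y).1 (hwQ hy)) ?_
        have h1 := orderOf_dvd_iff_pow_eq_one.1 ((Subgroup.zpowers w).orderOf_dvd_natCard hy)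
        rw [Nat.card_zpowers, hwo] at h1
        rw [conj_pow, h1, mul_one, mul_inv_cancel]
      exact Subgroup.mem_normalizer_iff.2 fun y => ⟨key _ hxN y, fun hy => by
        simpa [mul_assoc] using key _ (inv_mem hxN) _ hy⟩
    have hxwC : (x : G) ∉ Subgroup.centralizer ((Subgroup.zpowers w : Subgroup G) : Set G) := fun hh => hxc (by
      have h1 := fix_cyclic hk hxuQ hxo (by
        rw [← hw, ← Subgroup.mem_centralizer_iff.1 hh w (Subgroup.mem_zpowers w), mul_inv_cancel_right])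
      refine Subgroup.mem_centralizer_iff.2 fun q hq => ?_
      obtain ⟨i, hi⟩ : q ∈ Subgroup.zpowers u := hu.symm ▸ hq
      rw [← hi]
      exact ((show Commute (x : G) u from mul_inv_eq_iff_eq_mul.1 h1).zpow_right i).eq.symm)
    obtain ⟨c, hc⟩ := MulAction.exists_smul_eq G P1 P
    set φ := (MulAut.conj c).toMonoidHom
    have hφ : Function.Injective φ := (MulAut.conj c).injective
    set W := (Subgroup.zpowers w).map φ with hW
    have hWP : W ≤ (P : Subgroup G) := by
      rw [← hc, Sylow.coe_subgroup_smul]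
      rintro _ ⟨a, ha, rfl⟩
      exact ⟨a, hP1 (hwQ ha), rfl⟩
    obtain ⟨-, hW2⟩ := hdata W hWP (by rw [hW, Subgroup.card_map_of_injective hφ, Nat.card_zpowers, hwo])
    have hWC : ∀ a, φ a ∈ Subgroup.centralizer (W : Set G) ↔ a ∈ Subgroup.centralizer ((Subgroup.zpowers w : Subgroup G) : Set G) := by
      intro a
      rw [Subgroup.mem_centralizer_iff, Subgroup.mem_centralizer_iff]
      constructor
      · intro h1 b hb
        exact hφ (by rw [map_mul, map_mul]; exact h1 _ ⟨b, hb, rfl⟩)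
      · rintro h1 _ ⟨b, hb, rfl⟩
        rw [← map_mul, ← map_mul, h1 b hb]
    obtain ⟨ho, hi⟩ := hW2 (φ (x : G)) (Subgroup.le_normalizer_map φ ⟨_, hxwN, rfl⟩) (fun hh => hxwC ((hWC _).1 hh))
    rw [orderOf_injective φ hφ] at ho
    have huw : u ∈ Subgroup.centralizer ((Subgroup.zpowers w : Subgroup G) : Set G) := by
      refine Subgroup.mem_centralizer_iff.2 ?_
      rintro _ ⟨j, rfl⟩
      rw [hw]
      exact (((Commute.refl u).pow_left _).zpow_left j).eq
    have hinv : (x : G) * u * (x : G)⁻¹ = u⁻¹ := hφ (by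
      have := hi (φ u) ((hWC u).2 huw)
      simpa only [map_mul, map_inv] using this)
    have hx2 : (x : G) * x = 1 := by rw [← pow_two, ← ho, pow_orderOf_eq_one]
    have hxu : (x : G) ∉ Subgroup.zpowers u := fun ⟨i, hi⟩ => hxc (Subgroup.mem_centralizer_iff.2 fun q hq => by
      obtain ⟨j, hj⟩ : q ∈ Subgroup.zpowers u := hu.symm ▸ hq
      rw [← hj, ← hi]
      exact ((Commute.refl u).zpow_zpow j i).eq)
    haveI : NeZero (p ^ (m + 1)) := ⟨(pow_pos hpp.pos _).ne'⟩
    obtain ⟨e⟩ := Cfsg.Lib.TwoFus.nonempty_dihedral hk hx2 hinv hxu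
    refine ⟨m + 1, ⟨(MulEquiv.subgroupCongr (le_antisymm (fun y hy => ?_) ?_ : H = Subgroup.closure ({u, (x : G)} : Set G))).trans e⟩⟩
    · obtain ⟨q, hq, i, hy'⟩ := hdec ⟨y, hy⟩
      rw [show y = q * (x : G) ^ i from hy']
      refine mul_mem ?_ (zpow_mem (Subgroup.subset_closure (by simp)) i)
      obtain ⟨j, hj⟩ : q ∈ Subgroup.zpowers u := hu.symm ▸ hq
      rw [← hj]
      exact zpow_mem (Subgroup.subset_closure (by simp)) j
    · rw [Subgroup.closure_le]
      rintro _ (rfl | rfl)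
      · exact hQH huQ
      · exact x.2

end Cfsg.Agent.S4082
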