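import Cfsg.Statements.S4083
import Cfsg.Agent.Lib.TwoFus.Presentations
import Cfsg.Agent.S0228

set_option autoImplicit false
open Cfsg
open scoped Pointwise commutatorElement

namespace Cfsg.Agent.S4083

theorem eq_one_of_odd {G : Type*} [Group G] {x : G} (hx : (orderOf x).Coprime 2) {k : ℕ} (hk : x ^ 2 ^ k = 1) : x = 1 :=
  orderOf_eq_one_iff.1 (Nat.eq_one_of_dvd_coprimes (hx.pow_right k) dvd_rfl (orderOf_dvd_of_pow_eq_one hk))

/-- An element of odd order normalizing a cyclic 2-group centralizes it. -/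
theorem fix_cyclic {G : Type*} [Group G] [Finite G] {u x : G} {k : ℕ} (hu : orderOf u = 2 ^ k)
    (hxu : x * u * x⁻¹ ∈ Subgroup.zpowers u) (hx : (orderOf x).Coprime 2) : x * u * x⁻¹ = u := by
  obtain ⟨i, hi : u ^ i = x * u * x⁻¹⟩ := mem_powers_iff_mem_zpowers.2 hxu
  have key : ∀ n : ℕ, x ^ n * u * (x ^ n)⁻¹ = u ^ i ^ n := by
    intro n
    induction n with
    | zero => simp
    | succ n ih =>
      calc x ^ (n + 1) * u * (x ^ (n + 1))⁻¹ = x * (x ^ n * u * (x ^ n)⁻¹) * x⁻¹ := by rw [pow_succ']; group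
        _ = (x * u * x⁻¹) ^ i ^ n := by rw [ih, conj_pow]
        _ = u ^ i ^ (n + 1) := by rw [← hi, ← pow_mul, pow_succ']
  have h1 : i ^ orderOf x ≡ 1 [MOD 2 ^ k] := by
    have := key (orderOf x)
    rw [pow_orderOf_eq_one, one_mul, inv_one, mul_one] at this
    rw [← hu, ← pow_eq_pow_iff_modEq, pow_one, ← this]
  rcases Nat.eq_zero_or_pos k with rfl | hk
  · rw [pow_zero, orderOf_eq_one_iff] at hu
    simp [hu]
  have hi2 : i.Coprime (2 ^ k) := by
    have h3 : orderOf (u ^ i) = 2 ^ k := by rw [hi, ← hu]; exact (MulAut.conj x).orderOf_eq u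
    rw [orderOf_pow, hu] at h3
    rcases Nat.div_eq_self.1 h3 with h | h
    · exact absurd h (pow_pos two_pos k).ne'
    · rw [Nat.Coprime, Nat.gcd_comm, h]
  have h2 : i ^ (2 ^ k).totient ≡ 1 [MOD 2 ^ k] := Nat.ModEq.pow_totient hi2
  have h4 : i ≡ 1 [MOD 2 ^ k] := by
    set v : ZMod (2 ^ k) := (i : ZMod (2 ^ k)) with hv
    have e1 : v ^ orderOf x = 1 := by rw [hv, ← Nat.cast_pow, ← Nat.cast_one, ZMod.natCast_eq_natCast_iff]; exact h1
    have e2 : v ^ (2 ^ k).totient = 1 := by rw [hv, ← Nat.cast_pow, ← Nat.cast_one, ZMod.natCast_eq_natCast_iff]; exact h2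
    have hd := Nat.dvd_gcd (orderOf_dvd_of_pow_eq_one e1) (orderOf_dvd_of_pow_eq_one e2)
    rw [Nat.totient_prime_pow Nat.prime_two hk, show (2 - 1 : ℕ) = 1 from rfl, mul_one,
      (Nat.Coprime.pow_right (k - 1) hx : (orderOf x).gcd (2 ^ (k - 1)) = 1)] at hd
    have hv1 := orderOf_eq_one_iff.1 (Nat.dvd_one.1 hd)
    rw [hv, ← Nat.cast_one, ZMod.natCast_eq_natCast_iff] at hv1
    exact hv1
  rw [← hi]
  calc u ^ i = u ^ 1 := by rw [pow_eq_pow_iff_modEq, hu]; exact h4
    _ = u := pow_one u

/-- Data of a dihedral `2`-group. -/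
def DData {G : Type*} [Group G] (P : Subgroup G) (r : G) : Prop :=
  r ∈ P ∧ (∀ x ∈ P, x ∈ Subgroup.zpowers r ∨ (x * x = 1 ∧ x * r * x⁻¹ = r⁻¹)) ∧
    ∀ x ∈ P, ∀ y ∈ P, x ∉ Subgroup.zpowers r → y ∉ Subgroup.zpowers r → x * y ∈ Subgroup.zpowers r

theorem dData_of_iso {G : Type*} [Group G] {P : Subgroup G} {m : ℕ} (e : P ≃* DihedralGroup m) :
    ∃ r : G, DData P r := by
  refine ⟨((e.symm (DihedralGroup.r 1) : P) : G), (e.symm _).2, fun x hx => ?_, fun x hx y hy hxn hyn => ?_⟩
  · rcases hd : e ⟨x, hx⟩ with i | i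
    · left
      have h1 : (⟨x, hx⟩ : P) = (e.symm (DihedralGroup.r 1)) ^ (i.cast : ℤ) := by
        apply e.injective
        rw [map_zpow, MulEquiv.apply_symm_apply, hd, DihedralGroup.r_one_zpow, ZMod.intCast_cast, ZMod.cast_id]
      exact ⟨i.cast, by simpa using (congrArg Subtype.val h1).symm⟩
    · right
      refine ⟨?_, ?_⟩
      · have h1 : (⟨x, hx⟩ : P) * ⟨x, hx⟩ = 1 := e.injective (by rw [map_mul, hd, map_one, DihedralGroup.sr_mul_self])
        exact congrArg Subtype.val h1
      · have h1 : (⟨x, hx⟩ : P) * e.symm (DihedralGroup.r 1) * (⟨x, hx⟩ : P)⁻¹ = (e.symm (DihedralGroup.r 1))⁻¹ := by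
          apply e.injective
          rw [map_mul, map_mul, map_inv, map_inv, MulEquiv.apply_symm_apply, hd]
          simp [DihedralGroup.inv_sr, DihedralGroup.inv_r]
        exact congrArg Subtype.val h1
  · rcases hd : e ⟨x, hx⟩ with i | i
    · refine absurd ⟨i.cast, ?_⟩ hxn
      have h1 : (⟨x, hx⟩ : P) = (e.symm (DihedralGroup.r 1)) ^ (i.cast : ℤ) := by
        apply e.injective
        rw [map_zpow, MulEquiv.apply_symm_apply, hd, DihedralGroup.r_one_zpow, ZMod.intCast_cast, ZMod.cast_id]
      simpa using (congrArg Subtype.val h1).symm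
    · rcases hd' : e ⟨y, hy⟩ with j | j
      · refine absurd ⟨j.cast, ?_⟩ hyn
        have h1 : (⟨y, hy⟩ : P) = (e.symm (DihedralGroup.r 1)) ^ (j.cast : ℤ) := by
          apply e.injective
          rw [map_zpow, MulEquiv.apply_symm_apply, hd', DihedralGroup.r_one_zpow, ZMod.intCast_cast, ZMod.cast_id]
        simpa using (congrArg Subtype.val h1).symm
      · have h1 : (⟨x, hx⟩ : P) * ⟨y, hy⟩ = (e.symm (DihedralGroup.r 1)) ^ ((j - i).cast : ℤ) := by
          apply e.injective
          rw [map_mul, map_zpow, MulEquiv.apply_symm_apply, hd, hd', DihedralGroup.r_one_zpow, ZMod.intCast_cast,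
            ZMod.cast_id, DihedralGroup.sr_mul_sr]
        exact ⟨(j - i).cast, by simpa using (congrArg Subtype.val h1).symm⟩

/-- Subgroups of a dihedral `2`-group. -/
theorem sub_cases {G : Type*} [Group G] [Finite G] {P Q : Subgroup G} (hP : IsPGroup 2 P) {r : G} (hd : DData P r)
    (hQ : Q ≤ P) :
    IsCyclic Q ∨ (Nat.card Q = 4 ∧ (∀ q ∈ Q, q ^ 2 = 1) ∧ Nonempty (Q ≃* DihedralGroup (2 ^ 1))) ∨
      ∃ u s : G, ∃ k : ℕ, 2 ≤ k ∧ orderOf u = 2 ^ k ∧ u ∈ Q ∧ s ∈ Q ∧ s * u * s⁻¹ = u⁻¹ ∧
        Q = Subgroup.closure {u, s} ∧ (∀ q ∈ Q, q ∈ Subgroup.zpowers u ∨ (q * q = 1 ∧ q * u * q⁻¹ = u⁻¹)) ∧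
        Nonempty (Q ≃* DihedralGroup (2 ^ k)) := by
  classical
  by_cases hr : Q ≤ Subgroup.zpowers r
  · exact Or.inl (isCyclic_of_injective (Subgroup.inclusion hr) (Subgroup.inclusion_injective hr))
  obtain ⟨s, hsQ, hsr⟩ := SetLike.not_le_iff_exists.1 hr
  obtain ⟨hs2, hsinv⟩ := (hd.2.1 s (hQ hsQ)).resolve_left hsr
  obtain ⟨u, hu⟩ : ∃ u : G, Subgroup.zpowers u = Q ⊓ Subgroup.zpowers r := by
    have hc : IsCyclic ↥(Q ⊓ Subgroup.zpowers r) :=
      isCyclic_of_injective (Subgroup.inclusion inf_le_right) (Subgroup.inclusion_injective inf_le_right)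
    obtain ⟨u, hu⟩ := Subgroup.isCyclic_iff_exists_zpowers_eq_top _ |>.1 hc
    exact ⟨u, hu⟩
  have huQ : u ∈ Q := (hu ▸ Subgroup.mem_zpowers u : u ∈ Q ⊓ Subgroup.zpowers r).1
  have hur : u ∈ Subgroup.zpowers r := (hu ▸ Subgroup.mem_zpowers u : u ∈ Q ⊓ Subgroup.zpowers r).2
  obtain ⟨k, hk⟩ := IsPGroup.iff_orderOf.1 (hP.to_le hQ) ⟨u, huQ⟩
  rw [Subgroup.orderOf_mk] at hk
  have hinv : ∀ q ∈ Q, q ∈ Subgroup.zpowers u ∨ (q * q = 1 ∧ q * u * q⁻¹ = u⁻¹) := by
    intro q hq
    rcases hd.2.1 q (hQ hq) with h | ⟨h1, h2⟩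
    · exact Or.inl (hu.symm ▸ ⟨hq, h⟩)
    · refine Or.inr ⟨h1, ?_⟩
      obtain ⟨i, hi⟩ := hur
      rw [← hi]
      show q * r ^ i * q⁻¹ = (r ^ i)⁻¹
      rw [← conj_zpow, h2, inv_zpow]
  have hsu : s ∉ Subgroup.zpowers u := fun h => hsr (Subgroup.zpowers_le.2 hur h)
  have hsinvu : s * u * s⁻¹ = u⁻¹ := ((hinv s hsQ).resolve_left hsu).2
  have hQeq : Q = Subgroup.closure {u, s} := by
    refine le_antisymm (fun q hq => ?_) ((Subgroup.closure_le _).2 (by rintro _ (rfl | rfl) <;> assumption))
    have hucl : Subgroup.zpowers u ≤ Subgroup.closure ({u, s} : Set G) :=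
      Subgroup.zpowers_le.2 (Subgroup.subset_closure (by simp))
    by_cases hqr : q ∈ Subgroup.zpowers r
    · exact hucl (hu.symm ▸ ⟨hq, hqr⟩)
    · have h1 : q * s ∈ Subgroup.zpowers u := hu.symm ▸ ⟨mul_mem hq hsQ, hd.2.2 q (hQ hq) s (hQ hsQ) hqr hsr⟩
      have : q = (q * s) * s := by rw [mul_assoc, hs2, mul_one]
      rw [this]
      exact mul_mem (hucl h1) (Subgroup.subset_closure (by simp))
  haveI : NeZero (2 ^ k) := ⟨(pow_pos two_pos k).ne'⟩
  obtain ⟨e⟩ := Cfsg.Lib.TwoFus.nonempty_dihedral hk hs2 hsinvu hsu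
  let e' : Q ≃* DihedralGroup (2 ^ k) := (MulEquiv.subgroupCongr hQeq).trans e
  rcases Nat.lt_or_ge k 2 with hk2 | hk2
  · interval_cases k
    · left
      rw [pow_zero, orderOf_eq_one_iff] at hk
      have hQs : Q ≤ Subgroup.zpowers s := by
        rw [hQeq, Subgroup.closure_le]
        rintro _ (rfl | rfl)
        · rw [hk]; exact one_mem _
        · exact Subgroup.mem_zpowers _
      exact isCyclic_of_injective (Subgroup.inclusion hQs) (Subgroup.inclusion_injective hQs)
    · refine Or.inr (Or.inl ⟨by rw [Nat.card_congr e'.toEquiv, DihedralGroup.nat_card]; norm_num, fun q hq => ?_, ⟨e'⟩⟩)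
      rcases hinv q hq with ⟨i, rfl⟩ | ⟨h, -⟩
      · show (u ^ i) ^ 2 = 1
        rw [← zpow_natCast, ← zpow_mul, mul_comm, zpow_mul, zpow_natCast,
          show u ^ 2 = 1 from (by rw [← pow_orderOf_eq_one u, hk, pow_one]), one_zpow]
      · rw [pow_two]; exact h
  · exact Or.inr (Or.inr ⟨u, s, k, hk2, hk, huQ, hsQ, hsinvu, hQeq, hinv, ⟨e'⟩⟩)

theorem a4_center : ∀ a : alternatingGroup (Fin 4), (∀ b, a * b = b * a) → a = 1 := by decide


/-- Let G be a finite group with Sylow 2-subgroup P. Every subgroup H of G whose Sylow 2-subgroup is normal in H with cyclic quotient is cyclic, dihedral of 2-power order, or isomorphic to the alternating group of degree 4, if and only if either P is cyclic, or P is dihedral (of order at least 4) and every elementary abelian subgroup K of order 4 of P satisfies C_G(K) = K. -/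
theorem result {G : Type*} [Group G] [Finite G] (P : Sylow 2 G) :
    (∀ H : Subgroup G, (∀ S : Sylow 2 ↥H, (S : Subgroup ↥H).Normal) →
        (∀ (S : Sylow 2 ↥H) [(S : Subgroup ↥H).Normal], IsCyclic (↥H ⧸ (S : Subgroup ↥H))) →
        IsCyclic H ∨ (∃ n : ℕ, Nonempty (H ≃* DihedralGroup (2 ^ n))) ∨ Nonempty (H ≃* alternatingGroup (Fin 4))) ↔
    (IsCyclic P ∨
      ((∃ n : ℕ, 1 ≤ n ∧ Nonempty ((P : Subgroup G) ≃* DihedralGroup (2 ^ n))) ∧
        ∀ K : Subgroup G, K ≤ P → Nat.card K = 4 → (∀ k ∈ K, k ^ 2 = 1) → Subgroup.centralizer (K : Set G) = K)) := by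
  classical
  have hPp : IsPGroup 2 P := P.isPGroup'
  constructor
  · intro h
    -- `P` itself
    have hP : IsCyclic P ∨ ∃ n : ℕ, Nonempty ((P : Subgroup G) ≃* DihedralGroup (2 ^ n)) := by
      have hall : ∀ S : Sylow 2 (P : Subgroup G), (S : Subgroup (P : Subgroup G)) = ⊤ := fun S =>
        (S.is_maximal' (hPp.of_equiv Subgroup.topEquiv.symm) le_top).symm
      rcases h P (fun S => by rw [hall S]; infer_instance) (fun S _ => by
        haveI : Subsingleton ((P : Subgroup G) ⧸ (S : Subgroup (P : Subgroup G))) := by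
          rw [QuotientGroup.subsingleton_iff]; exact hall S
        infer_instance) with h1 | h1 | ⟨⟨e⟩⟩
      · exact Or.inl h1
      · exact Or.inr h1
      · exfalso
        obtain ⟨k, hk⟩ := IsPGroup.iff_card.1 hPp
        rw [Nat.card_congr e.toEquiv, nat_card_alternatingGroup, Nat.card_fin] at hk
        have : (3 : ℕ) ∣ 2 ^ k := hk ▸ (by decide : 3 ∣ Nat.factorial 4 / 2)
        exact absurd (Nat.prime_three.dvd_of_dvd_pow this) (by norm_num)
    rcases hP with hP | ⟨n, ⟨e⟩⟩
    · exact Or.inl hP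
    rcases Nat.eq_zero_or_pos n with rfl | hn
    · left
      haveI : Fact (Nat.Prime 2) := ⟨Nat.prime_two⟩
      refine isCyclic_of_prime_card (p := 2) ?_
      rw [Nat.card_congr e.toEquiv, DihedralGroup.nat_card]
      norm_num
    refine Or.inr ⟨⟨n, hn, ⟨e⟩⟩, fun K hKP hK4 hK2 => ?_⟩
    obtain ⟨r, hr⟩ := dData_of_iso e
    have hKc : ∀ a ∈ K, ∀ b ∈ K, a * b = b * a := fun a ha b hb => by
      have h1 := hK2 _ (mul_mem ha hb)
      have ha' : a⁻¹ = a := inv_eq_of_mul_eq_one_right (by rw [← pow_two]; exact hK2 a ha)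
      have hb' : b⁻¹ = b := inv_eq_of_mul_eq_one_right (by rw [← pow_two]; exact hK2 b hb)
      calc a * b = (a * b)⁻¹ := (inv_eq_of_mul_eq_one_right (by rw [← pow_two]; exact h1)).symm
        _ = b * a := by rw [mul_inv_rev, ha', hb']
    have hKC : K ≤ Subgroup.centralizer (K : Set G) := fun a ha =>
      Subgroup.mem_centralizer_iff.2 fun b hb => hKc b hb a ha
    -- odd elements of the centralizer are trivial
    have hodd : ∀ x ∈ Subgroup.centralizer (K : Set G), (orderOf x).Coprime 2 → x = 1 := by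
      intro x hx hxo
      obtain ⟨H, hH⟩ : ∃ H, H = K ⊔ Subgroup.zpowers x := ⟨_, rfl⟩
      have hKH : K ≤ H := hH ▸ le_sup_left
      have hxH : x ∈ H := hH ▸ Subgroup.mem_sup_right (Subgroup.mem_zpowers x)
      have hHC : H ≤ Subgroup.centralizer (K : Set G) := hH ▸ sup_le hKC (Subgroup.zpowers_le.2 hx)
      haveI hKn : (K.subgroupOf H).Normal := ⟨fun a ha b => by
        rw [Subgroup.mem_subgroupOf] at ha ⊢
        have hb := Subgroup.mem_centralizer_iff.1 (hHC b.2) _ ha
        simp only [Subgroup.coe_mul, Subgroup.coe_inv]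
        rw [← hb, mul_inv_cancel_right]; exact ha⟩
      have hgen : ∀ q : H ⧸ K.subgroupOf H, q ∈ Subgroup.zpowers (QuotientGroup.mk (⟨x, hxH⟩ : H) : H ⧸ K.subgroupOf H) := by
        intro q
        induction q using QuotientGroup.induction_on with
        | _ y =>
          have hy : (y : G) ∈ ((K ⊔ Subgroup.zpowers x : Subgroup G) : Set G) := hH ▸ y.2
          rw [Subgroup.coe_mul_of_right_le_normalizer_left K (Subgroup.zpowers x)
            (Subgroup.zpowers_le.2 (Subgroup.centralizer_le_normalizer _ hx))] at hy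
          obtain ⟨a, ha, _, ⟨i, rfl⟩, hai⟩ := Set.mem_mul.1 hy
          refine ⟨i, ?_⟩
          have : y = (⟨a, hKH ha⟩ : H) * (⟨x, hxH⟩ : H) ^ i := Subtype.ext (by simpa using hai.symm)
          rw [this, QuotientGroup.mk_mul, (QuotientGroup.eq_one_iff (⟨a, hKH ha⟩ : H)).2 (Subgroup.mem_subgroupOf.2 ha), one_mul]
          rfl
      have hidx : (K.subgroupOf H).index.Coprime 2 := by
        refine Nat.Coprime.coprime_dvd_left ?_ hxo
        rw [Subgroup.index_eq_card, ← orderOf_eq_card_of_forall_mem_zpowers hgen, ← Subgroup.orderOf_mk (a := x) hxH]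
        exact orderOf_map_dvd (QuotientGroup.mk' _) _
      have hS : ∀ S : Sylow 2 H, (S : Subgroup H) = K.subgroupOf H := fun S => by
        haveI : Fact (Nat.Prime 2) := ⟨Nat.prime_two⟩
        have hKp : IsPGroup 2 (K.subgroupOf H) := (hPp.to_le hKP).of_equiv (Subgroup.subgroupOfEquivOfLe hKH).symm
        have hle : K.subgroupOf H ≤ (S : Subgroup H) := by
          obtain ⟨T, hT⟩ := hKp.exists_le_sylow
          obtain ⟨g, hg⟩ := MulAction.exists_smul_eq H T S
          intro a ha
          rw [← hg, Sylow.coe_subgroup_smul, Subgroup.mem_pointwise_smul_iff_inv_smul_mem]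
          exact hT (by simpa using hKn.conj_mem' a ha g)
        refine le_antisymm ?_ hle
        rw [← Subgroup.relIndex_eq_one]
        obtain ⟨j, hj⟩ := IsPGroup.iff_card.1 S.isPGroup'
        exact Nat.eq_one_of_dvd_coprimes (hidx.pow_right j) ((K.subgroupOf H).relIndex_dvd_index_of_normal (S : Subgroup H))
          (hj ▸ Subgroup.relIndex_dvd_card _ _)
      have hcy : IsCyclic (H ⧸ K.subgroupOf H) := ⟨⟨_, hgen⟩⟩
      rcases h H (fun S => by rw [hS S]; exact hKn) (fun S _ =>
          isCyclic_of_surjective (QuotientGroup.quotientMulEquivOfEq (hS S).symm)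
            (MulEquiv.surjective _)) with h1 | ⟨m, ⟨f⟩⟩ | ⟨⟨f⟩⟩
      · exfalso
        haveI := h1
        haveI : IsCyclic K := isCyclic_of_injective (Subgroup.inclusion hKH) (Subgroup.inclusion_injective hKH)
        have h2 := IsCyclic.exponent_eq_card (α := K)
        have h3 : Monoid.exponent K ∣ 2 := Monoid.exponent_dvd_of_forall_pow_eq_one fun a => Subtype.ext (hK2 a a.2)
        rw [h2, hK4] at h3
        norm_num at h3
      · have h2 : orderOf x ∣ 2 ^ (m + 1) := by
          rw [pow_succ', ← DihedralGroup.nat_card, ← Nat.card_congr f.toEquiv]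
          exact H.orderOf_dvd_natCard hxH
        exact eq_one_of_odd hxo (orderOf_dvd_iff_pow_eq_one.1 h2)
      · exfalso
        obtain ⟨a, haK, ha1⟩ : ∃ a ∈ K, a ≠ 1 := by
          by_contra hh
          push Not at hh
          rw [(Subgroup.eq_bot_iff_forall K).2 hh, Subgroup.card_bot] at hK4
          norm_num at hK4
        have := a4_center (f ⟨a, hKH haK⟩) fun b => by
          obtain ⟨y, rfl⟩ := f.surjective b
          rw [← map_mul, ← map_mul]
          exact congrArg f (Subtype.ext (Subgroup.mem_centralizer_iff.1 (hHC y.2) a haK))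
        exact ha1 (congrArg Subtype.val (f.injective (this.trans (map_one f).symm)))
    -- so the centralizer is a `2`-group in a dihedral group
    set C := Subgroup.centralizer (K : Set G) with hC
    haveI : Fact (Nat.Prime 2) := ⟨Nat.prime_two⟩
    have hCp : IsPGroup 2 C := by
      intro c
      refine ⟨(orderOf (c : G)).factorization 2, Subtype.ext ?_⟩
      refine hodd _ (pow_mem c.2 _) ?_
      rw [SubgroupClass.coe_pow, orderOf_pow_of_dvd (Nat.ordProj_pos _ _).ne' (Nat.ordProj_dvd _ _)]
      exact (Nat.coprime_ordCompl Nat.prime_two (orderOf_pos _).ne').symm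
    obtain ⟨P', hP'⟩ := hCp.exists_le_sylow
    obtain ⟨r', hr'⟩ := dData_of_iso ((Sylow.equiv P' P).trans e)
    refine (Subgroup.eq_of_le_of_card_ge hKC ?_).symm
    rcases sub_cases P'.isPGroup' hr' hP' with h1 | ⟨h1, -⟩ | ⟨u, s, k, hk, hu, huC, hsC, hsu, -, hcases, -⟩
    · exfalso
      haveI := h1
      haveI : IsCyclic K := isCyclic_of_injective (Subgroup.inclusion hKC) (Subgroup.inclusion_injective hKC)
      have h2 := IsCyclic.exponent_eq_card (α := K)
      have h3 : Monoid.exponent K ∣ 2 := Monoid.exponent_dvd_of_forall_pow_eq_one fun a => Subtype.ext (hK2 a a.2)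
      rw [h2, hK4] at h3
      norm_num at h3
    · rw [h1, hK4]
    · exfalso
      have hu2 : u * u ≠ 1 := fun h2 => by
        have := orderOf_dvd_of_pow_eq_one (show u ^ 2 = 1 by rw [pow_two]; exact h2)
        rw [hu] at this
        exact absurd (Nat.le_of_dvd two_pos this) (by
          have : 2 ^ 2 ≤ 2 ^ k := Nat.pow_le_pow_right two_pos hk
          omega)
      have hKu : K ≤ Subgroup.zpowers u := fun a ha => (hcases a (hKC ha)).resolve_right fun h2 => hu2 (by
        have h3 := Subgroup.mem_centralizer_iff.1 huC a ha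
        have h4 := h2.2
        rw [h3, mul_inv_cancel_right] at h4
        nth_rw 1 [h4]
        exact inv_mul_cancel u)
      haveI : IsCyclic K := isCyclic_of_injective (Subgroup.inclusion hKu) (Subgroup.inclusion_injective hKu)
      have h2 := IsCyclic.exponent_eq_card (α := K)
      have h3 : Monoid.exponent K ∣ 2 := Monoid.exponent_dvd_of_forall_pow_eq_one fun a => Subtype.ext (hK2 a a.2)
      rw [h2, hK4] at h3
      norm_num at h3
  · intro hP H hSn hScyc
    haveI : Fact (Nat.Prime 2) := ⟨Nat.prime_two⟩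
    obtain ⟨S⟩ : Nonempty (Sylow 2 H) := inferInstance
    haveI hSnormal : (S : Subgroup H).Normal := hSn S
    haveI := hScyc S
    obtain ⟨Q, hQ⟩ : ∃ Q, Q = (S : Subgroup H).map H.subtype := ⟨_, rfl⟩
    have hQH : Q ≤ H := hQ ▸ Subgroup.map_subtype_le _
    have hQp : IsPGroup 2 Q := hQ ▸ S.isPGroup'.map _
    let eQ : (S : Subgroup H) ≃* Q :=
      ((S : Subgroup H).equivMapOfInjective H.subtype H.subtype_injective).trans (MulEquiv.subgroupCongr hQ.symm)
    obtain ⟨g₀, hg₀⟩ := IsCyclic.exists_generator (α := H ⧸ (S : Subgroup H))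
    obtain ⟨g, rfl⟩ := QuotientGroup.mk_surjective g₀
    set f := ordProj[2] (orderOf g) with hf
    obtain ⟨x, hxdef⟩ : ∃ x, x = g ^ f := ⟨_, rfl⟩
    have hxo : (orderOf (x : G)).Coprime 2 := by
      rw [Subgroup.orderOf_coe, hxdef, hf, orderOf_pow_of_dvd (Nat.ordProj_pos _ _).ne' (Nat.ordProj_dvd _ _)]
      exact (Nat.coprime_ordCompl Nat.prime_two (orderOf_pos g).ne').symm
    have hxgen : ∀ q : H ⧸ (S : Subgroup H), q ∈ Subgroup.zpowers (QuotientGroup.mk x : H ⧸ (S : Subgroup H)) := by
      have hcop : (orderOf (QuotientGroup.mk g : H ⧸ (S : Subgroup H))).Coprime f := by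
        rw [orderOf_eq_card_of_forall_mem_zpowers hg₀, ← Subgroup.index_eq_card, hf]
        exact (Nat.Coprime.pow_left _ (Nat.prime_two.coprime_iff_not_dvd.2 S.not_dvd_index)).symm
      obtain ⟨m, hm⟩ := exists_pow_eq_self_of_coprime hcop.symm
      intro q
      refine Subgroup.zpowers_le.2 ?_ (hg₀ q)
      rw [← hm, hxdef, QuotientGroup.mk_pow]
      exact Subgroup.npow_mem_zpowers _ m
    have hxN : (x : G) ∈ Subgroup.normalizer (Q : Set G) := by
      have hh := Subgroup.le_normalizer_map H.subtype (H := (S : Subgroup H))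
        ⟨x, Subgroup.normalizer_eq_top_iff.2 hSnormal ▸ Subgroup.mem_top x, rfl⟩
      rw [hQ]; exact hh
    have hdec : ∀ y : H, ∃ q ∈ Q, ∃ i : ℤ, (y : G) = q * (x : G) ^ i := by
      intro y
      obtain ⟨i, hi : (QuotientGroup.mk x : H ⧸ (S : Subgroup H)) ^ i = QuotientGroup.mk y⟩ := hxgen (QuotientGroup.mk y)
      have h1 : y * (x ^ i)⁻¹ ∈ (S : Subgroup H) := by
        rw [← QuotientGroup.eq_one_iff, QuotientGroup.mk_mul, QuotientGroup.mk_inv, QuotientGroup.mk_zpow, hi,
          mul_inv_cancel]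
      exact ⟨((y * (x ^ i)⁻¹ : H) : G), hQ ▸ ⟨_, h1, rfl⟩, i, by simp⟩
    have hcycH : IsCyclic Q → (x : G) ∈ Subgroup.centralizer (Q : Set G) → IsCyclic H := by
      intro hQc hxc
      haveI := hQc
      obtain ⟨u, hu⟩ := IsCyclic.exists_generator (α := Q)
      obtain ⟨k, hk⟩ := IsPGroup.iff_orderOf.1 hQp u
      have hcm : Commute (u : G) x := Subgroup.mem_centralizer_iff.1 hxc u u.2
      have hcp : (orderOf (u : G)).Coprime (orderOf (x : G)) := by
        rw [Subgroup.orderOf_coe u, hk]; exact (hxo.pow_right k).symm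
      refine ⟨⟨⟨(u : G) * x, mul_mem (hQH u.2) x.2⟩, fun y => ?_⟩⟩
      obtain ⟨q, hq, i, hy⟩ := hdec y
      obtain ⟨j, hj⟩ := hu ⟨q, hq⟩
      have hw : ∀ (a b : G), Commute a b → (orderOf a).Coprime (orderOf b) → a ∈ Subgroup.zpowers (a * b) := by
        intro a b hab hco
        obtain ⟨m, hm⟩ := exists_pow_eq_self_of_coprime hco.symm
        refine ⟨(orderOf b * m : ℕ), ?_⟩
        show (a * b) ^ ((orderOf b * m : ℕ) : ℤ) = a
        rw [zpow_natCast, hab.mul_pow, pow_mul b, pow_orderOf_eq_one, one_pow, mul_one, pow_mul, hm]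
      have hu' := hw _ _ hcm hcp
      have hx' := hw _ _ hcm.symm hcp.symm
      rw [← hcm.eq] at hx'
      have hy' : (y : G) ∈ Subgroup.zpowers ((u : G) * x) := by
        rw [hy]
        refine mul_mem ?_ (zpow_mem hx' i)
        rw [show q = (u : G) ^ j by rw [show q = ((⟨q, hq⟩ : Q) : G) from rfl, ← hj]; simp]
        exact zpow_mem hu' j
      obtain ⟨i', hi'⟩ := hy'
      exact ⟨i', Subtype.ext (by simpa using hi')⟩
    rcases hP with hPc | ⟨⟨n, hn, ⟨e⟩⟩, hK⟩
    · left
      obtain ⟨P', hP'⟩ := hQp.exists_le_sylow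
      haveI : IsCyclic P' := isCyclic_of_surjective (Sylow.equiv P P') (MulEquiv.surjective _)
      haveI hQc : IsCyclic Q := isCyclic_of_injective (Subgroup.inclusion hP') (Subgroup.inclusion_injective hP')
      obtain ⟨u, hu⟩ := IsCyclic.exists_generator (α := Q)
      obtain ⟨k, hk⟩ := IsPGroup.iff_orderOf.1 hQp u
      rw [← Subgroup.orderOf_coe u] at hk
      refine hcycH hQc (Subgroup.mem_centralizer_iff.2 fun q hq => ?_)
      have hQu : Q ≤ Subgroup.zpowers (u : G) := fun a ha => by
        obtain ⟨j, hj⟩ := hu ⟨a, ha⟩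
        exact ⟨j, by simpa using congrArg Subtype.val hj⟩
      have hfix := fix_cyclic hk (hQu ((Subgroup.mem_normalizer_iff.1 hxN _).1 u.2)) hxo
      obtain ⟨j, hj⟩ := hQu hq
      rw [← hj]
      exact ((show Commute (x : G) u from mul_inv_eq_iff_eq_mul.1 hfix).zpow_right j).eq.symm
    · obtain ⟨P', hP'⟩ := hQp.exists_le_sylow
      obtain ⟨r, hr⟩ := dData_of_iso ((Sylow.equiv P' P).trans e)
      -- centralizers of four-groups
      have hK' : ∀ K : Subgroup G, K ≤ (P' : Subgroup G) → Nat.card K = 4 → (∀ k ∈ K, k ^ 2 = 1) →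
          ∀ z ∈ Subgroup.centralizer (K : Set G), z ∈ K := by
        intro K hKP' hK4 hK2 z hz
        obtain ⟨c, hc⟩ := MulAction.exists_smul_eq G P' P
        set φ := (MulAut.conj c).toMonoidHom
        have hφ : Function.Injective φ := (MulAut.conj c).injective
        have h1 : Subgroup.centralizer ((K.map φ : Subgroup G) : Set G) = K.map φ := by
          refine hK _ ?_ (by rw [Subgroup.card_map_of_injective hφ, hK4]) ?_
          · rw [← hc, Sylow.coe_subgroup_smul]
            rintro _ ⟨a, ha, rfl⟩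
            exact ⟨a, hKP' ha, rfl⟩
          · rintro _ ⟨a, ha, rfl⟩; rw [← map_pow, hK2 a ha, map_one]
        have h2 : φ z ∈ Subgroup.centralizer ((K.map φ : Subgroup G) : Set G) := by
          refine Subgroup.mem_centralizer_iff.2 ?_
          rintro _ ⟨a, ha, rfl⟩
          rw [← map_mul, ← map_mul, Subgroup.mem_centralizer_iff.1 hz a ha]
        rw [h1] at h2
        obtain ⟨a, ha, hae⟩ := h2
        rwa [← hφ hae]
      have hHQ : (x : G) = 1 → ∀ y : H, (y : G) ∈ Q := fun hx1 y => by
        obtain ⟨q, hq, i, hy⟩ := hdec y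
        rw [hy, hx1, one_zpow, mul_one]; exact hq
      rcases sub_cases P'.isPGroup' hr hP' with hQc | ⟨hQ4, hQ2, ⟨e4⟩⟩ | ⟨u, s, k, hk, hu, huQ, hsQ, hsu, hQeq, hcases, ⟨ek⟩⟩
      · left
        haveI := hQc
        obtain ⟨u, hu⟩ := IsCyclic.exists_generator (α := Q)
        obtain ⟨k, hk⟩ := IsPGroup.iff_orderOf.1 hQp u
        rw [← Subgroup.orderOf_coe u] at hk
        refine hcycH hQc (Subgroup.mem_centralizer_iff.2 fun q hq => ?_)
        have hQu : Q ≤ Subgroup.zpowers (u : G) := fun a ha => by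
          obtain ⟨j, hj⟩ := hu ⟨a, ha⟩
          exact ⟨j, by simpa using congrArg Subtype.val hj⟩
        have hfix := fix_cyclic hk (hQu ((Subgroup.mem_normalizer_iff.1 hxN _).1 u.2)) hxo
        obtain ⟨j, hj⟩ := hQu hq
        rw [← hj]
        exact ((show Commute (x : G) u from mul_inv_eq_iff_eq_mul.1 hfix).zpow_right j).eq.symm
      · right
        by_cases hxc : (x : G) ∈ Subgroup.centralizer (Q : Set G)
        · left
          have hx1 : (x : G) = 1 := eq_one_of_odd hxo (k := 1) (by
            rw [pow_one]; exact hQ2 _ (hK' Q hP' hQ4 hQ2 _ hxc))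
          exact ⟨1, ⟨(MulEquiv.subgroupCongr (le_antisymm (fun y hy => hHQ hx1 ⟨y, hy⟩) hQH : H = Q)).trans e4⟩⟩
        · right
          have hperm : ∀ z ∈ Q, z ≠ 1 → ∀ a : G, a ∈ Subgroup.normalizer (Q : Set G) → a * z * a⁻¹ = z →
              ∀ q ∈ Q, a ^ 2 * q * (a ^ 2)⁻¹ = q := by
            intro z hz hz1 a ha haz q hq
            by_cases hq1 : q = 1
            · simp [hq1]
            by_cases hqz : q = z
            · rw [hqz, pow_two, mul_inv_rev]
              calc a * a * z * (a⁻¹ * a⁻¹) = a * (a * z * a⁻¹) * a⁻¹ := by group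
                _ = z := by rw [haz, haz]
            have hzi : z * z = 1 := by rw [← pow_two]; exact hQ2 z hz
            have hset : ({1, z, q, z * q} : Set G) = (Q : Set G) := by
              refine Set.eq_of_subset_of_ncard_le ?_ ?_
              · rintro _ (rfl | rfl | rfl | rfl)
                exacts [one_mem Q, hz, hq, mul_mem hz hq]
              · rw [← Nat.card_coe_set_eq, show Nat.card (Q : Set G) = 4 from hQ4]
                rw [Set.ncard_insert_of_notMem, Set.ncard_insert_of_notMem, Set.ncard_pair]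
                · exact fun e0 => hz1 (by
                    have := congrArg (fun t => t * q⁻¹) e0
                    simpa using this.symm)
                · simp only [Set.mem_insert_iff, Set.mem_singleton_iff, not_or]
                  exact ⟨fun e0 => hqz e0.symm, fun e0 => hq1 (by simpa using e0)⟩
                · simp only [Set.mem_insert_iff, Set.mem_singleton_iff, not_or]
                  refine ⟨hz1.symm, Ne.symm hq1, fun e0 => hqz ?_⟩
                  calc q = z * (z * q) := by rw [← mul_assoc, hzi, one_mul]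
                    _ = z := by rw [← e0, mul_one]
            have hm : a * q * a⁻¹ ∈ ({1, z, q, z * q} : Set G) := hset ▸ (Subgroup.mem_normalizer_iff.1 ha q).1 hq
            have e2 : a ^ 2 * q * (a ^ 2)⁻¹ = a * (a * q * a⁻¹) * a⁻¹ := by rw [pow_two]; group
            rw [e2]
            rcases hm with h0 | h0 | h0 | h0
            · exact absurd (conj_eq_one_iff.1 h0) hq1
            · exact absurd ((MulAut.conj a).injective (h0.trans haz.symm)) hqz
            · rw [h0, h0]
            · rw [Set.mem_singleton_iff] at h0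
              rw [h0]
              calc a * (z * q) * a⁻¹ = (a * z * a⁻¹) * (a * q * a⁻¹) := by group
                _ = q := by rw [haz, h0, ← mul_assoc, hzi, one_mul]
          have h3 : (x : G) ^ 3 = 1 := by
            refine eq_one_of_odd (k := 1) ?_ ?_
            · exact Nat.Coprime.coprime_dvd_left (orderOf_pow_dvd 3) hxo
            rw [pow_one]
            refine hQ2 _ (hK' Q hP' hQ4 hQ2 _ (Subgroup.mem_centralizer_iff.2 fun q hq => ?_))
            by_cases hq1 : q = 1
            · simp [hq1]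
            -- the orbit of `q` has length three or one
            by_cases hfx : (x : G) * q * (x : G)⁻¹ = q
            · exact ((show Commute (x : G) q from mul_inv_eq_iff_eq_mul.1 hfx).pow_left 3).eq.symm
            set q1 := (x : G) * q * (x : G)⁻¹ with hq1def
            have hq1Q : q1 ∈ Q := (Subgroup.mem_normalizer_iff.1 hxN q).1 hq
            have hq11 : q1 ≠ 1 := fun h0 => hq1 (conj_eq_one_iff.1 h0)
            set q2 := (x : G) * q1 * (x : G)⁻¹ with hq2def
            have hq2Q : q2 ∈ Q := (Subgroup.mem_normalizer_iff.1 hxN q1).1 hq1Q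
            have hq21 : q2 ≠ q1 := fun h0 => hfx ((MulAut.conj (x : G)).injective h0)
            have hq20 : q2 ≠ q := by
              intro h0
              -- `x ^ 2` fixes `q`, and so does `x`
              have hx2 : Commute ((x : G) ^ 2) q := mul_inv_eq_iff_eq_mul.1 (by
                rw [pow_two]
                calc (x : G) * x * q * ((x : G) * x)⁻¹ = q2 := by rw [hq2def, hq1def]; group
                  _ = q := h0)
              obtain ⟨m, hm⟩ := exists_pow_eq_self_of_coprime (x := (x : G)) (n := 2) hxo.symm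
              exact hfx (mul_inv_eq_iff_eq_mul.2 ((hm ▸ hx2.pow_left m : Commute (x : G) q)).eq)
            have hset : ({1, q, q1, q2} : Set G) = (Q : Set G) := by
              refine Set.eq_of_subset_of_ncard_le ?_ ?_
              · rintro _ (rfl | rfl | rfl | rfl)
                exacts [one_mem Q, hq, hq1Q, hq2Q]
              · rw [← Nat.card_coe_set_eq, show Nat.card (Q : Set G) = 4 from hQ4]
                rw [Set.ncard_insert_of_notMem, Set.ncard_insert_of_notMem, Set.ncard_pair hq21.symm]
                · simp only [Set.mem_insert_iff, Set.mem_singleton_iff, not_or]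
                  exact ⟨fun e0 => hfx e0.symm, hq20.symm⟩
                · simp only [Set.mem_insert_iff, Set.mem_singleton_iff, not_or]
                  exact ⟨Ne.symm hq1, hq11.symm, fun e0 => hq11 (conj_eq_one_iff.1 e0.symm)⟩
            have hm : (x : G) * q2 * (x : G)⁻¹ ∈ ({1, q, q1, q2} : Set G) :=
              hset ▸ (Subgroup.mem_normalizer_iff.1 hxN q2).1 hq2Q
            have hq3 : (x : G) * q2 * (x : G)⁻¹ = q := by
              rcases hm with h0 | h0 | h0 | h0
              · exact absurd (conj_eq_one_iff.1 h0) (fun e0 => hq11 (conj_eq_one_iff.1 e0))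
              · exact h0
              · exact absurd ((MulAut.conj (x : G)).injective h0) hq20
              · rw [Set.mem_singleton_iff] at h0
                exact absurd ((MulAut.conj (x : G)).injective h0) hq21
            have e3 : (x : G) ^ 3 * q * ((x : G) ^ 3)⁻¹ = q := by
              nth_rw 2 [← hq3]
              rw [hq2def, hq1def, pow_three]
              group
            exact (mul_inv_eq_iff_eq_mul.1 e3).symm
          have hcard : Nat.card H = 12 := by
            rw [← (S : Subgroup H).card_mul_index, Nat.card_congr eQ.toEquiv, hQ4]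
            have hxS : x ∉ (S : Subgroup H) := fun h0 => by
              obtain ⟨k, hk⟩ := S.isPGroup' ⟨x, h0⟩
              have hx1 : (x : G) = 1 := eq_one_of_odd hxo (k := k) (by
                have := congrArg (fun t : (S : Subgroup H) => ((t : H) : G)) hk
                simpa using this)
              exact hxc (hx1 ▸ one_mem _)
            have ho : orderOf (QuotientGroup.mk x : H ⧸ (S : Subgroup H)) = 3 := by
              haveI : Fact (Nat.Prime 3) := ⟨Nat.prime_three⟩
              refine orderOf_eq_prime ?_ fun e0 => hxS ((QuotientGroup.eq_one_iff x).1 e0)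
              rw [← QuotientGroup.mk_pow, show x ^ 3 = 1 from Subtype.ext (by simpa using h3), QuotientGroup.mk_one]
            rw [Subgroup.index_eq_card, ← orderOf_eq_card_of_forall_mem_zpowers hxgen, ho]
          refine Cfsg.Agent.S0228.result hcard fun z hz hzc => hxc ?_
          have hzQ : (z : G) ∈ Q := by
            obtain ⟨T, hT⟩ := (IsPGroup.of_card (n := 1) (by rw [Nat.card_zpowers, hz, pow_one]) :
              IsPGroup 2 (Subgroup.zpowers z)).exists_le_sylow
            haveI := hSn T
            haveI : Subsingleton (Sylow 2 H) := by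
              haveI := Sylow.unique_of_normal S hSnormal
              infer_instance
            rw [hQ]
            exact ⟨z, Subsingleton.elim T S ▸ hT (Subgroup.mem_zpowers z), rfl⟩
          have hz1 : (z : G) ≠ 1 := fun e0 => by
            rw [show z = 1 from Subtype.ext e0, orderOf_one] at hz; omega
          have hzfix : (x : G) * z * (x : G)⁻¹ = z := by
            have := congrArg Subtype.val (Subgroup.mem_center_iff.1 hzc x)
            simp only [Subgroup.coe_mul] at this
            rw [this, mul_inv_cancel_right]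
          refine Subgroup.mem_centralizer_iff.2 fun q hq => ?_
          have h2 : Commute ((x : G) ^ 2) q := mul_inv_eq_iff_eq_mul.1 (hperm z hzQ hz1 x hxN hzfix q hq)
          have e4' : (x : G) = ((x : G) ^ 2) ^ 2 := by rw [← pow_mul, show 2 * 2 = 3 + 1 from rfl, pow_succ, h3, one_mul]
          rw [e4']; exact (h2.pow_left 2).eq.symm
      · right; left
        have hxu : (x : G) * u * (x : G)⁻¹ ∈ Subgroup.zpowers u := by
          refine (hcases _ ((Subgroup.mem_normalizer_iff.1 hxN u).1 huQ)).resolve_right fun h0 => ?_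
          have h1 := orderOf_dvd_of_pow_eq_one (show ((MulAut.conj (x : G)) u) ^ 2 = 1 by rw [pow_two]; exact h0.1)
          rw [MulEquiv.orderOf_eq, hu] at h1
          have : 2 ^ 2 ≤ 2 ^ k := Nat.pow_le_pow_right two_pos hk
          have := Nat.le_of_dvd two_pos h1
          omega
        have hfu := fix_cyclic hu hxu hxo
        have hxc : (x : G) ∈ Subgroup.centralizer (Q : Set G) := by
          have hu' : Commute (x : G) u := mul_inv_eq_iff_eq_mul.1 hfu
          have hs' : Commute (x : G) s := by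
            have hu2' : u * u ≠ 1 := fun h2 => by
              have := orderOf_dvd_of_pow_eq_one (show u ^ 2 = 1 by rw [pow_two]; exact h2)
              rw [hu] at this
              have h22 : 2 ^ 2 ≤ 2 ^ k := Nat.pow_le_pow_right two_pos hk
              exact absurd (Nat.le_of_dvd two_pos this) (by omega)
            have hmem : (x : G) * s * (x : G)⁻¹ * s⁻¹ ∈ Subgroup.zpowers u := by
              refine (hcases _ (mul_mem ((Subgroup.mem_normalizer_iff.1 hxN s).1 hsQ) (inv_mem hsQ))).resolve_right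
                fun h0 => hu2' ?_
              have hxsu : (x : G) * s * (x : G)⁻¹ * u * ((x : G) * s * (x : G)⁻¹)⁻¹ = u⁻¹ := by
                calc _ = (x : G) * (s * ((x : G)⁻¹ * u * x) * s⁻¹) * (x : G)⁻¹ := by group
                  _ = (x : G) * u⁻¹ * (x : G)⁻¹ := by rw [mul_assoc (x : G)⁻¹, ← hu'.eq, inv_mul_cancel_left, hsu]
                  _ = u⁻¹ := by rw [hu'.inv_right.eq, mul_inv_cancel_right]
              have h1 : (x : G) * s * (x : G)⁻¹ * s⁻¹ * u * ((x : G) * s * (x : G)⁻¹ * s⁻¹)⁻¹ = u := by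
                calc _ = (x : G) * s * (x : G)⁻¹ * (s⁻¹ * u * s) * ((x : G) * s * (x : G)⁻¹)⁻¹ := by group
                  _ = (x : G) * s * (x : G)⁻¹ * u⁻¹ * ((x : G) * s * (x : G)⁻¹)⁻¹ := by
                    rw [show s⁻¹ * u * s = u⁻¹ by
                      rw [mul_assoc, show u * s = s * u⁻¹ by calc u * s = u * (s * u) * u⁻¹ := by group
                          _ = u * (u⁻¹ * s) * u⁻¹ := by rw [mul_inv_eq_iff_eq_mul.1 hsu]
                          _ = s * u⁻¹ := by group, inv_mul_cancel_left]]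
                  _ = ((x : G) * s * (x : G)⁻¹ * u * ((x : G) * s * (x : G)⁻¹)⁻¹)⁻¹ := by group
                  _ = u := by rw [hxsu, inv_inv]
              rw [h0.2] at h1
              nth_rw 1 [← h1]
              exact inv_mul_cancel u
            obtain ⟨j, hj⟩ := hmem
            have hud : (x : G) * (u ^ j) = u ^ j * x := (hu'.zpow_right j).eq
            have hiter : ∀ m : ℕ, (x : G) ^ m * s * ((x : G) ^ m)⁻¹ = (u ^ j) ^ m * s := by
              intro m
              induction m with
              | zero => simp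
              | succ m ih =>
                have hcm : (x : G) * (u ^ j) ^ m = (u ^ j) ^ m * x := ((Commute.pow_right (show Commute (x : G) (u ^ j) from hud) m)).eq
                calc (x : G) ^ (m + 1) * s * ((x : G) ^ (m + 1))⁻¹ = (x : G) * ((x : G) ^ m * s * ((x : G) ^ m)⁻¹) * (x : G)⁻¹ := by rw [pow_succ']; group
                  _ = ((x : G) * (u ^ j) ^ m) * s * (x : G)⁻¹ := by rw [ih]; group
                  _ = (u ^ j) ^ m * ((x : G) * s * (x : G)⁻¹ * s⁻¹) * s := by rw [hcm]; group
                  _ = _ := by rw [← show u ^ j = (x : G) * s * (x : G)⁻¹ * s⁻¹ from hj, pow_succ]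
            have h1 := hiter (orderOf (x : G))
            rw [pow_orderOf_eq_one, one_mul, inv_one, mul_one] at h1
            have h2 : (u ^ j) ^ orderOf (x : G) = 1 := mul_eq_right.1 h1.symm
            have h3 : u ^ j = 1 := by
              have h4 : (u ^ j) ^ 2 ^ k = 1 := by
                rw [← zpow_natCast, ← zpow_mul, mul_comm, zpow_mul, zpow_natCast, ← hu, pow_orderOf_eq_one, one_zpow]
              exact orderOf_eq_one_iff.1 (Nat.eq_one_of_dvd_coprimes (hxo.pow_right k) (orderOf_dvd_of_pow_eq_one h2)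
                (orderOf_dvd_of_pow_eq_one h4))
            have h5 : (x : G) * s * (x : G)⁻¹ * s⁻¹ = 1 := by rw [← show u ^ j = _ from hj, h3]
            exact mul_inv_eq_iff_eq_mul.1 (mul_inv_eq_one.1 h5)
          have hle : Q ≤ Subgroup.centralizer ({(x : G)} : Set G) := by
            rw [hQeq, Subgroup.closure_le]
            rintro _ (rfl | rfl)
            · exact Subgroup.mem_centralizer_singleton_iff.2 hu'.eq.symm
            · exact Subgroup.mem_centralizer_singleton_iff.2 hs'.eq.symm
          exact Subgroup.mem_centralizer_iff.2 fun q hq => Subgroup.mem_centralizer_singleton_iff.1 (hle hq)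
        -- a four-group inside
        obtain ⟨z, hz⟩ : ∃ z, z = u ^ 2 ^ (k - 1) := ⟨_, rfl⟩
        have hzo : orderOf z = 2 := by
          rw [hz, orderOf_pow_of_dvd (pow_pos two_pos _).ne' (hu ▸ pow_dvd_pow 2 (Nat.sub_le k 1)), hu,
            Nat.pow_div (Nat.sub_le k 1) two_pos, show k - (k - 1) = 1 by omega, pow_one]
        have hsnu : s ∉ Subgroup.zpowers u := fun ⟨i, hi⟩ => by
          have h1 : s * u * s⁻¹ = u := by
            rw [← hi]; show u ^ i * u * (u ^ i)⁻¹ = u; group
          rw [hsu] at h1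
          have := orderOf_dvd_of_pow_eq_one (show u ^ 2 = 1 by rw [pow_two]; nth_rw 1 [← h1]; exact inv_mul_cancel u)
          rw [hu] at this
          have h22 : 2 ^ 2 ≤ 2 ^ k := Nat.pow_le_pow_right two_pos hk
          exact absurd (Nat.le_of_dvd two_pos this) (by omega)
        have hs2 : s * s = 1 := ((hcases s hsQ).resolve_left hsnu).1
        have hsnz : s ∉ Subgroup.zpowers z := fun h => hsnu (Subgroup.zpowers_le.2 (hz ▸ pow_mem (Subgroup.mem_zpowers u) _) h)
        have hszs : s * z * s⁻¹ = z⁻¹ := by rw [hz, ← conj_pow, hsu, inv_pow]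
        obtain ⟨eK⟩ := Cfsg.Lib.TwoFus.nonempty_dihedral (m := 2) hzo hs2 hszs hsnz
        set K := Subgroup.closure ({z, s} : Set G) with hKdef
        have hKQ : K ≤ Q := (Subgroup.closure_le _).2 (by
          rintro _ (rfl | rfl)
          · rw [hz]; exact pow_mem huQ _
          · exact hsQ)
        have hx1 : (x : G) = 1 := eq_one_of_odd hxo (k := 1) (by
          have hxK := hK' K (hKQ.trans hP') (by rw [Nat.card_congr eK.toEquiv, DihedralGroup.nat_card]) (fun a ha => by
            have h1 : (⟨a, ha⟩ : K) ^ 2 = 1 := eK.injective (by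
              rw [map_pow, map_one]
              generalize eK ⟨a, ha⟩ = d
              revert d; decide)
            exact congrArg Subtype.val h1) (x : G)
            (Subgroup.centralizer_le (fun a ha => hKQ ha) hxc)
          rw [pow_one]
          have h1 : (⟨(x : G), hxK⟩ : K) ^ 2 = 1 := eK.injective (by
              rw [map_pow, map_one]
              generalize eK ⟨(x : G), hxK⟩ = d
              revert d; decide)
          exact congrArg Subtype.val h1)
        exact ⟨k, ⟨(MulEquiv.subgroupCongr (le_antisymm (fun y hy => hHQ hx1 ⟨y, hy⟩) hQH : H = Q)).trans ek⟩⟩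

end Cfsg.Agent.S4083
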