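import Cfsg.Statements.S4084
import Mathlib
-- import your own Cfsg.Agent.* helpers here

set_option autoImplicit false
open Cfsg

namespace Cfsg.Agent.S4084

theorem forward {G H : Type*} [Group G] [Finite G] [Group H] [Finite H] (e : G ≃ H)
    (he : ∀ x y : G, Commute x y ↔ Commute (e x) (e y))
    {p q : ℕ} (hp : p.Prime) (hq : q.Prime) (hpq : p ≠ q)
    (hg : ∃ g : G, orderOf g = p * q) : ∃ h : H, orderOf h = p * q := by
  classical
  obtain ⟨g, hg⟩ := hg
  haveI := Fact.mk hp
  haveI := Fact.mk hq
  obtain ⟨A, ⟨hAc, hgA⟩, hmax⟩ := Set.Finite.exists_maximalFor id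
    {B : Subgroup G | (∀ a ∈ B, ∀ b ∈ B, Commute a b) ∧ g ∈ B} (Set.toFinite _)
    ⟨Subgroup.zpowers g, fun a ha b hb => by
      obtain ⟨i, rfl⟩ := ha
      obtain ⟨j, rfl⟩ := hb
      exact (Commute.refl g).zpow_zpow i j, Subgroup.mem_zpowers g⟩
  -- `A` is a maximal commuting set
  have hclique : ∀ x : G, (∀ a ∈ A, Commute x a) → x ∈ A := by
    intro x hx
    have hS : ∀ a ∈ (A : Set G) ∪ {x}, ∀ b ∈ (A : Set G) ∪ {x}, a * b = b * a := by
      rintro a (ha | ha) b (hb | hb)
      · exact hAc a ha b hb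
      · rw [Set.mem_singleton_iff.mp hb]; exact (hx a ha).symm
      · rw [Set.mem_singleton_iff.mp ha]; exact hx b hb
      · rw [Set.mem_singleton_iff.mp ha, Set.mem_singleton_iff.mp hb]
    haveI := Subgroup.isMulCommutative_closure hS
    have hle : A ≤ Subgroup.closure ((A : Set G) ∪ {x}) := fun a ha => Subgroup.subset_closure (Or.inl ha)
    exact hmax ⟨fun a ha b hb => congrArg Subtype.val (IsMulCommutative.is_comm.comm (⟨a, ha⟩ : Subgroup.closure ((A : Set G) ∪ {x})) ⟨b, hb⟩), hle hgA⟩ hle (Subgroup.subset_closure (Or.inr rfl))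
  have himg : ∀ h : H, (∀ a ∈ A, Commute h (e a)) → e.symm h ∈ A := fun h hh => hclique _ fun a ha => by
    rw [he, Equiv.apply_symm_apply]; exact hh a ha
  let B : Subgroup H :=
    { carrier := {h | e.symm h ∈ A}
      one_mem' := himg 1 fun a _ => Commute.one_left _
      mul_mem' := fun {u v} hu hv => himg (u * v) fun a ha => by
        have h1 := (he _ _).mp (hAc _ hu a ha)
        have h2 := (he _ _).mp (hAc _ hv a ha)
        rw [Equiv.apply_symm_apply] at h1 h2
        exact h1.mul_left h2
      inv_mem' := fun {u} hu => himg u⁻¹ fun a ha => by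
        have h1 := (he _ _).mp (hAc _ hu a ha)
        rw [Equiv.apply_symm_apply] at h1
        exact h1.inv_left }
  have hcard : Nat.card B = Nat.card A := Nat.card_congr
    ⟨fun b => ⟨e.symm b.1, b.2⟩, fun a => ⟨e a.1, by show e.symm (e a.1) ∈ A; rw [Equiv.symm_apply_apply]; exact a.2⟩,
      fun b => Subtype.ext (e.apply_symm_apply _), fun a => Subtype.ext (e.symm_apply_apply _)⟩
  have hd := Subgroup.orderOf_dvd_natCard A hgA
  rw [hg, ← hcard] at hd
  obtain ⟨u, hu⟩ := exists_prime_orderOf_dvd_card' p ((dvd_mul_right p q).trans hd)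
  obtain ⟨v, hv⟩ := exists_prime_orderOf_dvd_card' q ((dvd_mul_left q p).trans hd)
  have huv : Commute (u : H) (v : H) := by
    have := (he _ _).mp (hAc _ u.2 _ v.2)
    rwa [Equiv.apply_symm_apply, Equiv.apply_symm_apply] at this
  refine ⟨u * v, ?_⟩
  rw [huv.orderOf_mul_eq_mul_orderOf_of_coprime (by rw [Subgroup.orderOf_coe, Subgroup.orderOf_coe, hu, hv]; exact (Nat.coprime_primes hp hq).mpr hpq),
    Subgroup.orderOf_coe, Subgroup.orderOf_coe, hu, hv]

/-- Let G and H be finite groups whose commuting graphs are isomorphic: there is a bijection e : G → H with x, y commuting exactly when e(x), e(y) commute. Then G and H have the same prime graph: for distinct primes p, q, G has an element of order pq if and only if H does (and #G = #H, so the prime divisors agree). -/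
theorem result {G H : Type*} [Group G] [Finite G] [Group H] [Finite H] (e : G ≃ H)
    (he : ∀ x y : G, Commute x y ↔ Commute (e x) (e y))
    {p q : ℕ} (hp : p.Prime) (hq : q.Prime) (hpq : p ≠ q) :
    (∃ g : G, orderOf g = p * q) ↔ (∃ h : H, orderOf h = p * q) := by
  exact ⟨forward e he hp hq hpq, forward e.symm (fun x y => by rw [he, Equiv.apply_symm_apply, Equiv.apply_symm_apply]) hp hq hpq⟩

end Cfsg.Agent.S4084
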