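import Cfsg.Statements.S4085
import Mathlib

set_option autoImplicit false
open Cfsg
open scoped Pointwise commutatorElement

namespace Cfsg.Agent.S4085

/-- Comparable in the power graph. -/
def Cmp {G : Type*} [Group G] (x y : G) : Prop := x ∈ Subgroup.zpowers y ∨ y ∈ Subgroup.zpowers x

theorem cmp_congr {G : Type*} [Group G] {x x' : G} (h : Subgroup.zpowers x = Subgroup.zpowers x')
    (b : G) : Cmp x b ↔ Cmp x' b := by
  unfold Cmp
  rw [← Subgroup.zpowers_le (H := Subgroup.zpowers b), ← Subgroup.zpowers_le (H := Subgroup.zpowers b),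
    h]

theorem mem_of_dvd {G : Type*} [Group G] [Finite G] {v a b : G} (ha : a ∈ Subgroup.zpowers v)
    (hb : b ∈ Subgroup.zpowers v) (h : orderOf a ∣ orderOf b) : a ∈ Subgroup.zpowers b := by
  obtain ⟨i, rfl⟩ := mem_powers_iff_mem_zpowers.2 ha
  obtain ⟨j, rfl⟩ := mem_powers_iff_mem_zpowers.2 hb
  have hg : v ^ Nat.gcd j (orderOf v) ∈ Subgroup.zpowers (v ^ j) := by
    refine Subgroup.mem_zpowers_iff.2 ⟨Nat.gcdA j (orderOf v), ?_⟩
    rw [← zpow_natCast v (Nat.gcd j _), Nat.gcd_eq_gcd_ab, zpow_add, zpow_mul, zpow_mul]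
    simp [pow_orderOf_eq_one]
  have hdvd : Nat.gcd j (orderOf v) ∣ i := by
    have h1 := orderOf_dvd_iff_pow_eq_one.1 h
    have hv : 0 < orderOf v := orderOf_pos v
    rw [orderOf_pow, ← pow_mul, ← orderOf_dvd_iff_pow_eq_one, Nat.gcd_comm] at h1
    obtain ⟨c, hc⟩ := Nat.gcd_dvd_right j (orderOf v)
    have hgpos : 0 < Nat.gcd j (orderOf v) := Nat.gcd_pos_of_pos_right _ hv
    have hq : orderOf v / Nat.gcd j (orderOf v) = c := Nat.div_eq_of_eq_mul_right hgpos hc
    rw [hq] at h1
    rw [hc] at h1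
    have hc0 : 0 < c := Nat.pos_of_ne_zero (by rintro rfl; omega)
    exact Nat.dvd_of_mul_dvd_mul_right hc0 h1
  obtain ⟨c, hc⟩ := hdvd
  show v ^ i ∈ _
  rw [hc, pow_mul]
  exact pow_mem hg c

theorem cmp_iff {G : Type*} [Group G] [Finite G] {v a b : G} (ha : a ∈ Subgroup.zpowers v)
    (hb : b ∈ Subgroup.zpowers v) : Cmp a b ↔ orderOf a ∣ orderOf b ∨ orderOf b ∣ orderOf a :=
  ⟨fun h => h.imp orderOf_dvd_of_mem_zpowers orderOf_dvd_of_mem_zpowers,
    fun h => h.imp (mem_of_dvd ha hb) (mem_of_dvd hb ha)⟩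

theorem exists_of_dvd {G : Type*} [Group G] [Finite G] {v : G} {d : ℕ} (hd : d ∣ orderOf v) :
    ∃ a ∈ Subgroup.zpowers v, orderOf a = d := by
  obtain ⟨c, hc⟩ := hd
  have hc0 : c ≠ 0 := by rintro rfl; simp [(orderOf_pos v).ne'] at hc
  refine ⟨v ^ c, pow_mem (Subgroup.mem_zpowers v) c, ?_⟩
  rw [orderOf_pow_of_dvd hc0 ⟨d, by rw [hc, mul_comm]⟩, hc]
  exact Nat.mul_div_cancel d (Nat.pos_of_ne_zero hc0)

theorem oneWay {G H : Type*} [Group G] [Finite G] [Group H] [Finite H] (e : G ≃ H)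
    (he : ∀ x y : G, Cmp x y ↔ Cmp (e x) (e y)) {p q : ℕ} (hp : p.Prime) (hq : q.Prime)
    (hpq : p ≠ q) (hg : ∃ g : G, orderOf g = p * q) : ∃ h : H, orderOf h = p * q := by
  classical
  haveI := Fintype.ofFinite G
  haveI := Fintype.ofFinite H
  obtain ⟨g, hg⟩ := hg
  obtain ⟨v, hv, hvmax⟩ := Finset.exists_max_image
    (Finset.univ.filter fun x : G => g ∈ Subgroup.zpowers x) orderOf
    ⟨g, by simp⟩
  rw [Finset.mem_filter] at hv
  have hpqm : p * q ∣ orderOf v := hg ▸ orderOf_dvd_of_mem_zpowers hv.2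
  have hN : ∀ u, Cmp v u ↔ u ∈ Subgroup.zpowers v := by
    intro u
    refine ⟨fun h => h.elim (fun h1 => ?_) id, Or.inr⟩
    have hle : Subgroup.zpowers v ≤ Subgroup.zpowers u := Subgroup.zpowers_le.2 h1
    have h2 := hvmax u (Finset.mem_filter.2 ⟨Finset.mem_univ _, hle hv.2⟩)
    have heq : Subgroup.zpowers v = Subgroup.zpowers u :=
      Subgroup.eq_of_le_of_card_ge hle (by rwa [Nat.card_zpowers, Nat.card_zpowers])
    rw [heq]; exact Subgroup.mem_zpowers u
  generalize hm : orderOf v = m at hpqm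
  have hmpos : 0 < m := hm ▸ orderOf_pos v
  have hpm : p ∣ m := dvd_trans (dvd_mul_right p q) hpqm
  have hqm : q ∣ m := dvd_trans (dvd_mul_left q p) hpqm
  -- prime elements
  obtain ⟨yp, hyp, hypo⟩ := exists_of_dvd (v := v) (hm.symm ▸ hpm)
  obtain ⟨yq, hyq, hyqo⟩ := exists_of_dvd (v := v) (hm.symm ▸ hqm)
  have hord : ∀ a ∈ Subgroup.zpowers v, orderOf a ∣ m := fun a ha =>
    hm ▸ orderOf_dvd_of_mem_zpowers ha
  -- connectedness of incomparability
  have conn : ∀ S : G → Prop, (∀ a ∈ Subgroup.zpowers v, ∀ b ∈ Subgroup.zpowers v, ¬ Cmp a b →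
      (S a ↔ S b)) → ∀ a ∈ Subgroup.zpowers v, a ≠ 1 → orderOf a ≠ m → (S a ↔ S yp) := by
    intro S hS a ha ha1 ham
    have hpq' : S yp ↔ S yq := hS yp hyp yq hyq (by
      rw [cmp_iff hyp hyq, hypo, hyqo, Nat.prime_dvd_prime_iff_eq hp hq,
        Nat.prime_dvd_prime_iff_eq hq hp]
      exact fun h => h.elim hpq fun h => hpq h.symm)
    have other : ∀ l : ℕ, l.Prime → ∃ y, y ∈ Subgroup.zpowers v ∧ (orderOf y).Prime ∧ orderOf y ≠ l ∧
        (S y ↔ S yp) := by
      intro l _
      by_cases hl : p = l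
      · exact ⟨yq, hyq, hyqo ▸ hq, by rw [hyqo]; exact fun h => hpq (hl.trans h.symm), hpq'.symm⟩
      · exact ⟨yp, hyp, hypo ▸ hp, by rw [hypo]; exact hl, Iff.rfl⟩
    have ppow : ∀ b ∈ Subgroup.zpowers v, ∀ l k : ℕ, l.Prime → orderOf b = l ^ k → b ≠ 1 →
        (S b ↔ S yp) := by
      intro b hb l k hl hbo hb1
      obtain ⟨y, hy, hyo, hyl, hSy⟩ := other l hl
      refine (hS b hb y hy ?_).trans hSy
      rw [cmp_iff hb hy, hbo]
      rintro (h | h)
      · rcases (Nat.dvd_prime hyo).1 h with h1 | h1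
        · exact hb1 (orderOf_eq_one_iff.1 (hbo.trans h1))
        · rcases Nat.eq_zero_or_pos k with rfl | hk
          · simp at h1; exact hyo.ne_one h1.symm
          · exact hyl ((Nat.prime_dvd_prime_iff_eq hl hyo).1 (h1 ▸ dvd_pow_self l hk.ne')).symm
      · exact hyl ((Nat.prime_dvd_prime_iff_eq hyo hl).1 (hyo.dvd_of_dvd_pow h))
    have hao := hord a ha
    obtain ⟨l, k, hl, hlk, hnd⟩ : ∃ l k : ℕ, l.Prime ∧ l ^ k ∣ m ∧ ¬ l ^ k ∣ orderOf a := by
      by_contra hcon
      push Not at hcon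
      exact ham (Nat.dvd_antisymm hao ((Nat.dvd_iff_prime_pow_dvd_dvd _ _).2
        fun l k hl h => hcon l k hl h))
    obtain ⟨b, hb, hbo⟩ := exists_of_dvd (v := v) (hm.symm ▸ hlk)
    have hb1 : b ≠ 1 := by
      rintro rfl
      rw [orderOf_one] at hbo
      exact hnd (hbo ▸ one_dvd _)
    by_cases had : orderOf a ∣ l ^ k
    · obtain ⟨j, _, hj⟩ := (Nat.dvd_prime_pow hl).1 had
      exact ppow a ha l j hl hj ha1
    · refine (hS a ha b hb ?_).trans (ppow b hb l k hl hbo hb1)
      rw [cmp_iff ha hb, hbo]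
      exact fun h => h.elim had hnd
  -- dominating vertices
  have hdomG : ∀ a ∈ Subgroup.zpowers v,
      (∀ b ∈ Subgroup.zpowers v, Cmp a b) ↔ (a = 1 ∨ orderOf a = m) := by
    intro a ha
    constructor
    · intro hall
      by_contra hcon
      push Not at hcon
      have h1 := (conn (fun x => x = a) (fun x hx y hy hxy =>
        ⟨fun e1 => absurd (e1 ▸ hall y hy) hxy, fun e1 => absurd ((e1 ▸ hall x hx : Cmp y x).symm) hxy⟩)
        a ha hcon.1 hcon.2).1 rfl
      have := hall yq hyq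
      rw [← h1, cmp_iff hyp hyq, hypo, hyqo, Nat.prime_dvd_prime_iff_eq hp hq,
        Nat.prime_dvd_prime_iff_eq hq hp] at this
      exact this.elim hpq fun h => hpq h.symm
    · intro h b hb
      rw [cmp_iff ha hb]
      rcases h with rfl | h
      · left; rw [orderOf_one]; exact one_dvd _
      · right; rw [h]; exact hord b hb
  let DG : Finset G := Finset.univ.filter fun a => a ∈ Subgroup.zpowers v ∧
    ∀ b ∈ Subgroup.zpowers v, Cmp a b
  have hDG : DG.card = m.totient + 1 := by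
    have h1 : DG = insert 1 (((Finset.range m).filter (Nat.Coprime m)).image (v ^ ·)) := by
      ext a
      simp only [DG, Finset.mem_filter, Finset.mem_univ, true_and, Finset.mem_insert,
        Finset.mem_image, Finset.mem_range]
      constructor
      · rintro ⟨ha, hall⟩
        rcases (hdomG a ha).1 hall with h | h
        · exact Or.inl h
        · right
          obtain ⟨i, rfl⟩ := mem_powers_iff_mem_zpowers.2 ha
          refine ⟨i % m, ⟨Nat.mod_lt _ hmpos, ?_⟩, by rw [← hm, pow_mod_orderOf]⟩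
          have h' : orderOf (v ^ i) = m := h
          rw [orderOf_pow, hm] at h'
          have h2 : Nat.gcd m i = 1 := by
            rcases Nat.div_eq_self.1 h' with h3 | h3
            · omega
            · exact h3
          rw [Nat.Coprime, Nat.gcd_comm, ← Nat.gcd_rec]
          exact h2
      · rintro (rfl | ⟨i, ⟨_, hi⟩, rfl⟩)
        · exact ⟨one_mem _, (hdomG 1 (one_mem _)).2 (Or.inl rfl)⟩
        · refine ⟨pow_mem (Subgroup.mem_zpowers v) i, (hdomG _ (pow_mem (Subgroup.mem_zpowers v) i)).2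
            (Or.inr ?_)⟩
          rw [orderOf_pow, hm, hi, Nat.div_one]
    rw [h1, Finset.card_insert_of_notMem, Finset.card_image_of_injOn, Nat.totient_eq_card_coprime]
    · intro i hi j hj hij
      exact pow_injOn_Iio_orderOf (by simpa [hm] using (Finset.mem_filter.1 hi).1)
        (by simpa [hm] using (Finset.mem_filter.1 hj).1) hij
    · rw [Finset.mem_image]
      rintro ⟨i, hi, h⟩
      rw [Finset.mem_filter] at hi
      have h2 : orderOf (v ^ i) = 1 := by rw [show v ^ i = 1 from h, orderOf_one]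
      rw [orderOf_pow, hm, hi.2, Nat.div_one] at h2
      exact hp.one_lt.ne' (Nat.dvd_one.1 (h2 ▸ hpm))
  -- transport
  have hsur := e.surjective
  have hNH : ∀ u, Cmp (e v) (e u) ↔ u ∈ Subgroup.zpowers v := fun u => (he v u).symm.trans (hN u)
  let DH : Finset H := DG.map e.toEmbedding
  have hne : ∃ w ∈ DH, w ≠ 1 := by
    by_contra hcon
    push Not at hcon
    have h1 : DH.card ≤ 1 := (Finset.card_le_card (t := {1}) fun x hx =>
      Finset.mem_singleton.2 (hcon x hx)).trans (le_of_eq (Finset.card_singleton _))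
    rw [Finset.card_map, hDG] at h1
    have := Nat.totient_pos.2 hmpos
    omega
  obtain ⟨w, hw, hwmax⟩ := Finset.exists_max_image (DH.filter (· ≠ 1)) orderOf
    (by obtain ⟨w, hw, hw1⟩ := hne; exact ⟨w, Finset.mem_filter.2 ⟨hw, hw1⟩⟩)
  rw [Finset.mem_filter] at hw
  have hDmem : ∀ a, e a ∈ DH ↔ a ∈ DG := fun a => Finset.mem_map' _
  obtain ⟨w0, rfl⟩ := hsur w
  -- neighbourhood of the chosen vertex
  have hNw : ∀ u, Cmp (e w0) (e u) ↔ u ∈ Subgroup.zpowers v := by
    have hw0 := (Finset.mem_filter.1 ((hDmem w0).1 hw.1)).2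
    rcases (hdomG w0 hw0.1).1 hw0.2 with h1 | h1
    · -- the identity is universal
      obtain ⟨u1, hu1⟩ := hsur 1
      have hu10 : u1 ≠ 1 := fun h => hw.2 (by rw [h1, ← h, hu1])
      have huniv : ∀ u, Cmp u1 u := fun u => (he u1 u).2 (Or.inl (hu1 ▸ one_mem _))
      have hu1M : u1 ∈ Subgroup.zpowers v := (hN u1).1 (huniv v).symm
      rcases (hdomG u1 hu1M).1 (fun b _ => huniv b) with h2 | h2
      · exact absurd h2 hu10
      have heq : Subgroup.zpowers u1 = Subgroup.zpowers v :=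
        Subgroup.eq_of_le_of_card_ge (Subgroup.zpowers_le.2 hu1M)
          (by rw [Nat.card_zpowers, Nat.card_zpowers, h2, hm])
      have hall : ∀ u, u ∈ Subgroup.zpowers v := fun u => (hN u).1 ((cmp_congr heq u).1 (huniv u))
      intro u
      refine iff_of_true ((he w0 u).1 ?_) (hall u)
      rw [h1]; exact Or.inl (one_mem _)
    · have heq : Subgroup.zpowers w0 = Subgroup.zpowers v :=
        Subgroup.eq_of_le_of_card_ge (Subgroup.zpowers_le.2 hw0.1)
          (by rw [Nat.card_zpowers, Nat.card_zpowers, h1, hm])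
      intro u
      rw [← he, cmp_congr heq u, hN]
  by_cases hA : ∀ u ∈ Subgroup.zpowers v, e u ∈ Subgroup.zpowers (e w0)
  · have hcard : orderOf (e w0) = m := by
      rw [← hm, ← Nat.card_zpowers, ← Nat.card_zpowers]
      exact (Nat.card_congr (e.subtypeEquiv fun u =>
        ⟨hA u, fun h => (hNw u).1 (Or.inr h)⟩)).symm
    obtain ⟨h, -, hh⟩ := exists_of_dvd (v := e w0) (hcard.symm ▸ hpqm)
    exact ⟨h, hh⟩
  exfalso
  push Not at hA
  obtain ⟨z, hz, hzw⟩ := hA
  have hout : ∀ u ∈ Subgroup.zpowers v, e u ∉ Subgroup.zpowers (e w0) →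
      e w0 ∈ Subgroup.zpowers (e u) := fun u hu hn => ((hNw u).2 hu).resolve_right hn
  have hbig : ∀ u ∈ Subgroup.zpowers v, e u ∉ Subgroup.zpowers (e w0) → u ∉ DG := by
    intro u hu hn hD
    have h1 := hwmax (e u) (Finset.mem_filter.2 ⟨(hDmem u).2 hD, fun h => hn (h ▸ one_mem _)⟩)
    refine hn ?_
    rw [Subgroup.eq_of_le_of_card_ge (Subgroup.zpowers_le.2 (hout u hu hn))
      (by rw [Nat.card_zpowers, Nat.card_zpowers]; exact h1)]
    exact Subgroup.mem_zpowers _
  have hS : ∀ a ∈ Subgroup.zpowers v, ∀ b ∈ Subgroup.zpowers v, ¬ Cmp a b →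
      (e a ∈ Subgroup.zpowers (e w0) ↔ e b ∈ Subgroup.zpowers (e w0)) := by
    intro a ha b hb hab
    constructor
    · intro h1
      by_contra h2
      exact hab ((he a b).2 (Or.inl ((Subgroup.zpowers_le.2 (hout b hb h2)) h1)))
    · intro h1
      by_contra h2
      exact hab ((he a b).2 (Or.inr ((Subgroup.zpowers_le.2 (hout a ha h2)) h1)))
  have hnd : ∀ u ∈ Subgroup.zpowers v, u ∉ DG → e u ∉ Subgroup.zpowers (e w0) := by
    intro u hu hD h1
    have key : ∀ a ∈ Subgroup.zpowers v, a ∉ DG →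
        (e a ∈ Subgroup.zpowers (e w0) ↔ e yp ∈ Subgroup.zpowers (e w0)) := by
      intro a ha haD
      have hc : ¬ (a = 1 ∨ orderOf a = m) := fun h => haD (Finset.mem_filter.2
        ⟨Finset.mem_univ _, ha, (hdomG a ha).2 h⟩)
      push Not at hc
      exact conn _ hS a ha hc.1 hc.2
    exact hzw ((key z hz (hbig z hz hzw)).2 ((key u hu hD).1 h1))
  have hiff : ∀ u, u ∈ DG ↔ e u ∈ Subgroup.zpowers (e w0) := by
    intro u
    constructor
    · intro hu
      by_contra hn
      exact hbig u (Finset.mem_filter.1 hu).2.1 hn hu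
    · intro hu
      by_contra hn
      exact hnd u ((hNw u).1 (Or.inr hu)) hn hu
  have ho : orderOf (e w0) = m.totient + 1 := by
    rw [← hDG, ← Nat.card_zpowers, ← Nat.card_eq_finsetCard]
    exact (Nat.card_congr (e.subtypeEquiv fun u => hiff u)).symm
  have hoP : ∀ a b : ℕ, a.Prime → b.Prime → a ∣ orderOf (e w0) → b ∣ orderOf (e w0) → a = b := by
    intro a b ha hb hda hdb
    obtain ⟨x, hx, hxo⟩ := exists_of_dvd hda
    obtain ⟨y, hy, hyo⟩ := exists_of_dvd hdb
    obtain ⟨x0, rfl⟩ := hsur x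
    obtain ⟨y0, rfl⟩ := hsur y
    have h1 := (he x0 y0).1 ((Finset.mem_filter.1 ((hiff x0).2 hx)).2.2 y0
      (Finset.mem_filter.1 ((hiff y0).2 hy)).2.1)
    rw [cmp_iff hx hy, hxo, hyo, Nat.prime_dvd_prime_iff_eq ha hb,
      Nat.prime_dvd_prime_iff_eq hb ha] at h1
    exact h1.elim id Eq.symm
  -- classes of prime elements
  have hcls : ∀ y r s : ℕ, r.Prime → s.Prime → r ≠ s → r ∣ m → s ∣ m → y = r * s →
      (orderOf (e w0)).totient ≤ r - 1 := by
    intro _ r s hr hs hrs hrm hsm _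
    obtain ⟨y, hy, hyo⟩ := exists_of_dvd (v := v) (hm.symm ▸ hrm)
    have hyD : y ∉ DG := by
      intro h
      rcases (hdomG y hy).1 (Finset.mem_filter.1 h).2.2 with h1 | h1
      · exact hr.ne_one (by rw [← hyo, h1, orderOf_one])
      · exact hrs ((Nat.prime_dvd_prime_iff_eq hs hr).1 (by rw [← hyo, h1]; exact hsm)).symm
    have hzdvd : orderOf (e w0) ∣ orderOf (e y) :=
      orderOf_dvd_of_mem_zpowers (hout y hy (hnd y hy hyD))
    have hclass : ∀ u, Subgroup.zpowers (e u) = Subgroup.zpowers (e y) → u ∈ Subgroup.zpowers y := by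
      intro u hu
      have hadj : ∀ b, Cmp u b ↔ Cmp y b := fun b => by
        rw [he u b, he y b]; exact cmp_congr hu _
      have huv : u ∈ Subgroup.zpowers v := (hN u).1 ((hadj v).2 ((hN y).2 hy).symm).symm
      by_contra hny
      have h1 : orderOf y ∣ orderOf u := by
        rcases (cmp_iff huv hy).1 ((hadj y).2 (Or.inl (Subgroup.mem_zpowers y))) with h2 | h2
        · exact absurd (mem_of_dvd huv hy h2) hny
        · exact h2
      rw [hyo] at h1
      by_cases hso : s ∣ orderOf u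
      · obtain ⟨b, hb, hbo⟩ := exists_of_dvd (v := v) (hm.symm ▸ hsm)
        have h3 := (hadj b).1 ((cmp_iff huv hb).2 (Or.inr (hbo ▸ hso)))
        rw [cmp_iff hy hb, hyo, hbo, Nat.prime_dvd_prime_iff_eq hr hs,
          Nat.prime_dvd_prime_iff_eq hs hr] at h3
        exact h3.elim hrs fun h => hrs h.symm
      · obtain ⟨b, hb, hbo⟩ := exists_of_dvd (v := v) (d := r * s)
          (hm.symm ▸ Nat.Coprime.mul_dvd_of_dvd_of_dvd ((Nat.coprime_primes hr hs).2 hrs) hrm hsm)
        have h3 := (cmp_iff huv hb).1 ((hadj b).2 ((cmp_iff hy hb).2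
          (Or.inl (by rw [hyo, hbo]; exact dvd_mul_right r s))))
        rw [hbo] at h3
        rcases h3 with h4 | h4
        · have hcop : (orderOf u).Coprime s := ((hs.coprime_iff_not_dvd).2 hso).symm
          have h5 := Nat.le_antisymm (Nat.le_of_dvd hr.pos (hcop.dvd_of_dvd_mul_right h4))
            (Nat.le_of_dvd (orderOf_pos u) h1)
          exact hny (mem_of_dvd huv hy (by rw [h5, hyo]))
        · exact hso (dvd_trans (dvd_mul_left s r) h4)
    refine (Nat.le_of_dvd (Nat.totient_pos.2 (orderOf_pos _)) (Nat.totient_dvd_of_dvd hzdvd)).trans ?_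
    let F : Finset G := ((Finset.range (orderOf (e y))).filter (Nat.Coprime (orderOf (e y)))).image
      fun i => e.symm (e y ^ i)
    have hFc : F.card = (orderOf (e y)).totient := by
      rw [Finset.card_image_of_injOn, Nat.totient_eq_card_coprime]
      intro i hi j hj hij
      exact pow_injOn_Iio_orderOf (by simpa using (Finset.mem_filter.1 hi).1)
        (by simpa using (Finset.mem_filter.1 hj).1) (e.symm.injective hij)
    have hF : F ⊆ (Finset.univ.filter (· ∈ Subgroup.zpowers y)).erase 1 := by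
      intro u hu
      obtain ⟨i, hi, rfl⟩ := Finset.mem_image.1 hu
      rw [Finset.mem_filter] at hi
      have hgen : Subgroup.zpowers (e (e.symm (e y ^ i))) = Subgroup.zpowers (e y) := by
        rw [e.apply_symm_apply]
        refine Subgroup.eq_of_le_of_card_ge (Subgroup.zpowers_le.2
          (pow_mem (Subgroup.mem_zpowers _) i)) ?_
        rw [Nat.card_zpowers, Nat.card_zpowers, orderOf_pow, hi.2, Nat.div_one]
      refine Finset.mem_erase.2 ⟨fun h1 => ?_, Finset.mem_filter.2 ⟨Finset.mem_univ _, hclass _ hgen⟩⟩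
      rw [h1] at hgen
      apply hyD
      refine Finset.mem_filter.2 ⟨Finset.mem_univ _, hy, fun b _ => ?_⟩
      rw [he, ← cmp_congr hgen (e b), ← he]
      exact Or.inl (one_mem _)
    have h := Finset.card_le_card hF
    rw [hFc, Finset.card_erase_of_mem (by simp)] at h
    refine h.trans (le_of_eq ?_)
    rw [← Nat.card_eq_finsetCard, ← hyo, ← Nat.card_zpowers]
    congr 1
    exact Nat.card_congr (Equiv.subtypeEquivRight fun u => by simp)
  have hcp := hcls _ p q hp hq hpq hpm hqm rfl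
  have hcq := hcls _ q p hq hp hpq.symm hqm hpm rfl
  have ho1 : orderOf (e w0) ≠ 1 := fun h => hw.2 (orderOf_eq_one_iff.1 h)
  obtain ⟨l, hl, hlo⟩ := Nat.exists_prime_and_dvd ho1
  obtain ⟨k, hk⟩ : ∃ k, orderOf (e w0) = l ^ k :=
    ⟨_, Nat.eq_prime_pow_of_unique_prime_dvd (orderOf_pos _).ne' fun {d} hd hdd => hoP d l hd hl hdd hlo⟩
  have hk0 : 0 < k := Nat.pos_of_ne_zero fun h => ho1 (by rw [hk, h, pow_zero])
  have h2c : orderOf (e w0) ≤ 2 * (orderOf (e w0)).totient := by
    rw [hk, Nat.totient_prime_pow hl hk0]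
    have h2 := hl.two_le
    calc l ^ k = l ^ (k - 1) * l := by rw [← pow_succ, Nat.sub_add_cancel hk0]
      _ ≤ l ^ (k - 1) * (2 * (l - 1)) := Nat.mul_le_mul_left _ (by omega)
      _ = 2 * (l ^ (k - 1) * (l - 1)) := by ring
  have hm' : (p - 1) * (q - 1) ≤ m.totient := by
    refine Nat.le_of_dvd (Nat.totient_pos.2 hmpos) ?_
    rw [← Nat.totient_prime hp, ← Nat.totient_prime hq,
      ← Nat.totient_mul ((Nat.coprime_primes hp hq).2 hpq)]
    exact Nat.totient_dvd_of_dvd hpqm
  have hc1 := Nat.mul_le_mul hcp hcq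
  have hp2 := hp.two_le
  have hq2 := hq.two_le
  rcases Nat.lt_or_ge (orderOf (e w0)).totient 2 with hc | hc
  · have hbig : 2 ≤ (p - 1) * (q - 1) := by
      rcases Nat.lt_or_ge p 3 with h | h
      · have : 2 ≤ q - 1 := by omega
        exact this.trans (Nat.le_mul_of_pos_left _ (by omega))
      · exact (show 2 ≤ p - 1 by omega).trans (Nat.le_mul_of_pos_right _ (by omega))
    omega
  · have := Nat.mul_le_mul_right (orderOf (e w0)).totient hc
    omega


/-- Let G and H be finite groups whose power graphs are isomorphic: there is a bijection e : G → H such that, for all x, y, one of x, y is a power of the other exactly when one of e(x), e(y) is a power of the other. Then G and H have the same prime graph: for distinct primes p, q, G has an element of order pq if and only if H does. -/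
theorem result {G H : Type*} [Group G] [Finite G] [Group H] [Finite H] (e : G ≃ H)
    (he : ∀ x y : G, (x ∈ Subgroup.zpowers y ∨ y ∈ Subgroup.zpowers x) ↔
      (e x ∈ Subgroup.zpowers (e y) ∨ e y ∈ Subgroup.zpowers (e x)))
    {p q : ℕ} (hp : p.Prime) (hq : q.Prime) (hpq : p ≠ q) :
    (∃ g : G, orderOf g = p * q) ↔ (∃ h : H, orderOf h = p * q) := by
  exact ⟨oneWay e he hp hq hpq, oneWay e.symm (fun x y => by
    have h := he (e.symm x) (e.symm y)
    rw [e.apply_symm_apply, e.apply_symm_apply] at h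
    exact h.symm) hp hq hpq⟩

end Cfsg.Agent.S4085
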