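import Cfsg.Statements.S4086
import Mathlib
-- import your own Cfsg.Agent.* helpers here

set_option autoImplicit false
open Cfsg

namespace Cfsg.Agent.S4086

/-- For a finite group G the following are equivalent: every non-identity element has prime-power order; whenever two elements generate a cyclic subgroup, one of them is a power of the other (the enhanced power graph of G coincides with its power graph). -/
theorem result {G : Type*} [Group G] [Finite G] :
    (∀ g : G, g ≠ 1 → IsPrimePow (orderOf g)) ↔
    (∀ x y : G, IsCyclic ↥(Subgroup.closure ({x, y} : Set G)) → (x ∈ Subgroup.zpowers y ∨ y ∈ Subgroup.zpowers x)) := by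
  classical
  constructor
  · intro h x y hcyc
    haveI := hcyc
    haveI := Fintype.ofFinite G
    obtain ⟨⟨z, hz⟩, hgen⟩ := hcyc.exists_generator
    by_cases hz1 : z = 1
    · left
      obtain ⟨i, hi⟩ := hgen ⟨x, Subgroup.subset_closure (Set.mem_insert x {y})⟩
      have e : x = 1 := by
        have := congrArg Subtype.val hi
        simp [hz1] at this
        exact this.symm
      rw [e]; exact one_mem _
    obtain ⟨p, k, hp, -, hk⟩ := (isPrimePow_nat_iff _).mp (h z hz1)
    have hmem : ∀ w ∈ Subgroup.closure ({x, y} : Set G), w ∈ Subgroup.zpowers z := by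
      intro w hw
      obtain ⟨i, hi⟩ := hgen ⟨w, hw⟩
      exact ⟨i, congrArg Subtype.val hi⟩
    have key : ∀ a b : G, a ∈ Subgroup.zpowers z → b ∈ Subgroup.zpowers z → orderOf a ∣ orderOf b → a ∈ Subgroup.zpowers b := by
      intro a b ha hb hab
      haveI : IsCyclic (Subgroup.zpowers z) := inferInstance
      letI := Fintype.ofFinite (Subgroup.zpowers z)
      have h1 : (Finset.univ.filter fun w : Subgroup.zpowers z => w ^ orderOf b = 1).card ≤ orderOf b :=
        IsCyclic.card_pow_eq_one_le (orderOf_pos b)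
      set T := (Finset.univ.filter fun w : Subgroup.zpowers z => (w : G) ∈ Subgroup.zpowers b)
      have h2 : T.card = orderOf b := by
        rw [← Nat.card_zpowers b, ← Nat.card_eq_finsetCard]
        exact Nat.card_congr ⟨fun w => ⟨w.1.1, (Finset.mem_filter.mp w.2).2⟩,
          fun w => ⟨⟨w.1, Subgroup.zpowers_le.mpr hb w.2⟩, Finset.mem_filter.mpr ⟨Finset.mem_univ _, w.2⟩⟩,
          fun _ => rfl, fun _ => rfl⟩
      have h3 : T ⊆ (Finset.univ.filter fun w : Subgroup.zpowers z => w ^ orderOf b = 1) := by
        intro w hw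
        obtain ⟨i, hi⟩ := (Finset.mem_filter.mp hw).2
        refine Finset.mem_filter.mpr ⟨Finset.mem_univ _, Subtype.ext ?_⟩
        show (w : G) ^ orderOf b = 1
        rw [← hi, ← zpow_natCast, zpow_comm, zpow_natCast, pow_orderOf_eq_one, one_zpow]
      have h4 := Finset.eq_of_subset_of_card_le h3 (by rw [h2]; exact h1)
      have h5 : (⟨a, ha⟩ : Subgroup.zpowers z) ∈ T := by
        rw [h4]
        exact Finset.mem_filter.mpr ⟨Finset.mem_univ _, Subtype.ext (orderOf_dvd_iff_pow_eq_one.mp hab)⟩
      exact (Finset.mem_filter.mp h5).2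
    have hx := hmem x (Subgroup.subset_closure (Set.mem_insert x {y}))
    have hy := hmem y (Subgroup.subset_closure (Set.mem_insert_of_mem x (Set.mem_singleton y)))
    obtain ⟨i, -, hi⟩ := (Nat.dvd_prime_pow hp).mp (hk ▸ orderOf_dvd_of_mem_zpowers hx)
    obtain ⟨j, -, hj⟩ := (Nat.dvd_prime_pow hp).mp (hk ▸ orderOf_dvd_of_mem_zpowers hy)
    rcases le_total i j with hij | hij
    · exact Or.inl (key x y hx hy (by rw [hi, hj]; exact pow_dvd_pow p hij))
    · exact Or.inr (key y x hy hx (by rw [hi, hj]; exact pow_dvd_pow p hij))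
  · intro h g hg
    by_contra hnp
    have hne : orderOf g ≠ 1 := fun e => hg (orderOf_eq_one_iff.mp e)
    obtain ⟨p, hp, hpd⟩ := Nat.exists_prime_and_dvd hne
    set a := p ^ (orderOf g).factorization p with ha
    set b := orderOf g / a with hb
    have hab : a * b = orderOf g := Nat.ordProj_mul_ordCompl_eq_self _ _
    have hb1 : b ≠ 1 := fun e => hnp ((isPrimePow_nat_iff _).mpr
      ⟨p, _, hp, hp.factorization_pos_of_dvd (orderOf_pos g).ne' hpd, by rw [e, mul_one] at hab; exact hab⟩)
    have ha1 : a ≠ 1 := (Nat.one_lt_pow (hp.factorization_pos_of_dvd (orderOf_pos g).ne' hpd).ne' hp.one_lt).ne'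
    have hco : a.Coprime b := (Nat.coprime_ordCompl hp (orderOf_pos g).ne').pow_left _
    have hoa : orderOf (g ^ b) = a := by
      rw [orderOf_pow_of_dvd (Nat.ordCompl_pos p (orderOf_pos g).ne').ne' (Nat.ordCompl_dvd _ _)]
      exact Nat.div_eq_of_eq_mul_left (Nat.ordCompl_pos p (orderOf_pos g).ne') hab.symm
    have hob : orderOf (g ^ a) = b := by
      rw [orderOf_pow_of_dvd (pow_pos hp.pos _).ne' (Nat.ordProj_dvd _ _)]
    have hcyc : IsCyclic (Subgroup.closure ({g ^ b, g ^ a} : Set G)) := by
      refine Subgroup.isCyclic_of_le (show Subgroup.closure ({g ^ b, g ^ a} : Set G) ≤ Subgroup.zpowers g from ?_)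
      rw [Subgroup.closure_le]
      rintro w (rfl | rfl)
      · exact pow_mem (Subgroup.mem_zpowers g) b
      · exact pow_mem (Subgroup.mem_zpowers g) a
    rcases h _ _ hcyc with h1 | h1
    · have := orderOf_dvd_of_mem_zpowers h1
      rw [hoa, hob] at this
      exact ha1 (Nat.eq_one_of_dvd_coprimes hco dvd_rfl this)
    · have := orderOf_dvd_of_mem_zpowers h1
      rw [hoa, hob] at this
      exact hb1 (Nat.eq_one_of_dvd_coprimes hco this dvd_rfl)

end Cfsg.Agent.S4086
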