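import Cfsg.Statements.S4089
import Mathlib
import Cfsg.Agent.Lib.Solv.Subnormal
-- import your own Cfsg.Agent.* helpers here

set_option autoImplicit false
open Cfsg

namespace Cfsg.Agent.S4089

open Subgroup

variable {G : Type*} [Group G] [Finite G] {p : ℕ} [Fact p.Prime]

theorem subnormal_of_normalizer {H R : Subgroup G} (hR : IsPGroup p R) (hHR : H ≤ R) {g : G}
    (hg : g ∈ normalizer (R : Set G)) : ((H).subgroupOf (H ⊔ zpowers g)).IsSubnormal := by
  set X := R ⊔ zpowers g with hX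
  have hRn : X ≤ normalizer (R : Set G) := sup_le le_normalizer (zpowers_le.2 hg)
  have h1 : (R.subgroupOf X).Normal := (normal_subgroupOf_iff_le_normalizer le_sup_left).2 hRn
  haveI : Group.IsNilpotent R := hR.isNilpotent
  have h2 : ((H.subgroupOf X).subgroupOf (R.subgroupOf X)).IsSubnormal := by
    haveI : Group.IsNilpotent (R.subgroupOf X) :=
      (hR.of_equiv (subgroupOfEquivOfLe le_sup_left).symm).isNilpotent
    exact Cfsg.Lib.Solv.isSubnormal_of_nilpotent _
  have h3 : (H.subgroupOf X).IsSubnormal :=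
    IsSubnormal.trans (fun x hx => hHR hx) h2 h1.isSubnormal
  have hle : H ⊔ zpowers g ≤ X := sup_le (hHR.trans le_sup_left) le_sup_right
  have h4 := IsSubnormal.comap (Subgroup.inclusion hle) h3
  exact h4

theorem exists_radical : ∀ (m : ℕ) (K : Subgroup G), Nat.card G - Nat.card K ≤ m → IsPGroup p K →
    ∀ g ∈ normalizer (K : Set G), ∃ R : Subgroup G, K ≤ R ∧
      (Cfsg.pCore p (normalizer (R : Set G))).map (normalizer (R : Set G)).subtype = R ∧ g ∈ normalizer (R : Set G) := by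
  intro m
  induction m using Nat.strong_induction_on with
  | _ m ih =>
  intro K hm hK g hg
  set K' := (Cfsg.pCore p (normalizer (K : Set G))).map (normalizer (K : Set G)).subtype with hK'
  have hle : K ≤ K' := by
    intro x hx
    refine ⟨⟨x, le_normalizer hx⟩, ?_, rfl⟩
    have : (K.subgroupOf (normalizer (K : Set G))) ≤ Cfsg.pCore p (normalizer (K : Set G)) :=
      le_sSup ⟨normal_in_normalizer, hK.of_equiv (subgroupOfEquivOfLe le_normalizer).symm⟩
    exact this hx
  rcases eq_or_lt_of_le hle with h | h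
  · exact ⟨K, le_rfl, by rw [← hK', ← h], hg⟩
  · have hlt : Nat.card K < Nat.card K' := by
      refine lt_of_le_of_ne (card_le_of_le hle) fun e => h.ne (eq_of_le_of_card_ge hle e.ge)
    have hK'p : IsPGroup p K' := (Cfsg.Lib.Solv.isPGroup_pCore p).map _
    have hg' : g ∈ normalizer (K' : Set G) := by
      refine mem_normalizer_fintype (S := (K' : Set G)) ?_
      rintro _ ⟨x, hx, rfl⟩
      haveI : (Cfsg.pCore p (normalizer (K : Set G))).Normal := inferInstance
      exact ⟨⟨g, hg⟩ * x * ⟨g, hg⟩⁻¹, Normal.conj_mem inferInstance _ hx _, rfl⟩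
    have hc := Subgroup.card_le_card_group K'
    obtain ⟨R, h1, h2, h3⟩ := ih (Nat.card G - Nat.card K') (by omega) K' le_rfl hK'p g hg'
    exact ⟨R, hle.trans h1, h2, h3⟩

theorem exists_normalized {H : Subgroup G} (hH : IsPGroup p H) {g : G}
    (hg : ((H).subgroupOf (H ⊔ zpowers g)).IsSubnormal) :
    ∃ K : Subgroup G, IsPGroup p K ∧ H ≤ K ∧ g ∈ normalizer (K : Set G) := by
  set X := H ⊔ zpowers g
  refine ⟨(Cfsg.pCore p X).map X.subtype, (Cfsg.Lib.Solv.isPGroup_pCore p).map _, ?_, ?_⟩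
  · intro x hx
    refine ⟨⟨x, mem_sup_left hx⟩, ?_, rfl⟩
    have h1 : H.subgroupOf X ≤ Cfsg.piCore ({p} : Set ℕ) X := Cfsg.Lib.Solv.subnormal_pi_le_piCore hg (by
      intro q hq hd
      obtain ⟨n, hn⟩ := IsPGroup.iff_card.1 hH
      rw [Nat.card_congr (subgroupOfEquivOfLe (le_sup_left : H ≤ X)).toEquiv, hn] at hd
      exact (Nat.prime_dvd_prime_iff_eq hq Fact.out).1 (hq.dvd_of_dvd_pow hd))
    have h2 := h1 (show (⟨x, mem_sup_left hx⟩ : X) ∈ H.subgroupOf X from hx)
    refine Cfsg.Lib.Solv.le_pCore (N := Cfsg.piCore ({p} : Set ℕ) X) inferInstance ?_ h2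
    obtain ⟨n, hn⟩ : ∃ n, Nat.card (Cfsg.piCore ({p} : Set ℕ) X) = p ^ n :=
      ⟨_, Nat.eq_prime_pow_of_unique_prime_dvd Nat.card_pos.ne' fun {d} hd hdd => Cfsg.Lib.Solv.piCore_primes _ d hd hdd⟩
    exact IsPGroup.of_card hn
  · refine mem_normalizer_fintype (S := (((Cfsg.pCore p X).map X.subtype : Subgroup G) : Set G)) ?_
    rintro _ ⟨x, hx, rfl⟩
    haveI : (Cfsg.pCore p X).Normal := inferInstance
    exact ⟨⟨g, mem_sup_right (mem_zpowers g)⟩ * x * ⟨g, mem_sup_right (mem_zpowers g)⟩⁻¹,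
      Normal.conj_mem inferInstance _ hx _, rfl⟩

/-- Let G be a finite group, p a prime and H a p-subgroup of G. Then the set of elements g of G such that H is subnormal in the subgroup generated by H and g is the union of the normalizers N_G(R) over the subgroups R of G containing H with R = O_p(N_G(R)); and this set does not change when H is replaced by the intersection of all Sylow p-subgroups of G containing H. -/
theorem result {G : Type*} [Group G] [Finite G] (p : ℕ) [Fact p.Prime]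
    (H : Subgroup G) (hH : IsPGroup p H) :
    {g : G | ((H).subgroupOf (H ⊔ Subgroup.zpowers g)).IsSubnormal} =
      {g : G | ∃ R : Subgroup G, H ≤ R ∧ (Cfsg.pCore p (Subgroup.normalizer (R : Set G))).map (Subgroup.normalizer (R : Set G)).subtype = R ∧ g ∈ Subgroup.normalizer (R : Set G)} ∧
    ∀ g : G, (((H).subgroupOf (H ⊔ Subgroup.zpowers g)).IsSubnormal ↔
      (((sInf {K : Subgroup G | ∃ Q : Sylow p G, H ≤ (Q : Subgroup G) ∧ K = (Q : Subgroup G)})).subgroupOf ((sInf {K : Subgroup G | ∃ Q : Sylow p G, H ≤ (Q : Subgroup G) ∧ K = (Q : Subgroup G)}) ⊔ Subgroup.zpowers g)).IsSubnormal) := by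
  refine ⟨Set.ext fun g => ⟨fun hg => ?_, ?_⟩, fun g => ?_⟩
  · obtain ⟨K, hK, hHK, hgK⟩ := exists_normalized hH hg
    obtain ⟨R, h1, h2, h3⟩ := exists_radical _ K le_rfl hK g hgK
    exact ⟨R, hHK.trans h1, h2, h3⟩
  · rintro ⟨R, h1, h2, h3⟩
    refine subnormal_of_normalizer (p := p) ?_ h1 h3
    rw [← h2]
    exact (Cfsg.Lib.Solv.isPGroup_pCore p).map _
  · set D := sInf {K : Subgroup G | ∃ Q : Sylow p G, H ≤ (Q : Subgroup G) ∧ K = (Q : Subgroup G)} with hD
    have hHD : H ≤ D := le_sInf fun K ⟨Q, hQ, hK⟩ => hK ▸ hQ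
    have hDp : IsPGroup p D := by
      obtain ⟨Q, hQ⟩ := hH.exists_le_sylow
      exact Q.isPGroup'.to_le (sInf_le ⟨Q, hQ, rfl⟩)
    constructor
    · intro hg
      obtain ⟨K, hK, hHK, hgK⟩ := exists_normalized hH hg
      set E := sInf {J : Subgroup G | ∃ Q : Sylow p G, K ≤ (Q : Subgroup G) ∧ J = (Q : Subgroup G)} with hE
      have hDE : D ≤ E := le_sInf fun J ⟨Q, hQ, hJ⟩ => sInf_le ⟨Q, hHK.trans hQ, hJ⟩
      have hEp : IsPGroup p E := by
        obtain ⟨Q, hQ⟩ := hK.exists_le_sylow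
        exact Q.isPGroup'.to_le (sInf_le ⟨Q, hQ, rfl⟩)
      refine subnormal_of_normalizer hEp hDE ?_
      refine Subgroup.mem_normalizer_fintype (S := (E : Set G)) fun x hx => ?_
      rw [SetLike.mem_coe, hE, Subgroup.mem_sInf] at hx ⊢
      rintro J ⟨Q, hQ, rfl⟩
      have h2 : K ≤ ((g⁻¹ • Q : Sylow p G) : Subgroup G) := by
        intro k hk
        refine ⟨g * k * g⁻¹, hQ ((Subgroup.mem_normalizer_iff.1 hgK k).1 hk), ?_⟩
        show g⁻¹ * (g * k * g⁻¹) * g⁻¹⁻¹ = k
        group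
      obtain ⟨y, hy, hyx⟩ := hx _ ⟨_, h2, rfl⟩
      have : g * x * g⁻¹ = y := by
        rw [← hyx]
        show g * (g⁻¹ * y * g⁻¹⁻¹) * g⁻¹ = y
        group
      rw [this]; exact hy
    · intro hg
      obtain ⟨K, hK, hDK, hgK⟩ := exists_normalized hDp hg
      exact subnormal_of_normalizer hK (hHD.trans hDK) hgK

end Cfsg.Agent.S4089
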