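import Cfsg.Statements.S4092
import Mathlib
import Cfsg.Agent.Lib.Solv.FrobeniusDivisibility
-- import your own Cfsg.Agent.* helpers here

set_option autoImplicit false
open Cfsg

namespace Cfsg.Agent.S4092

/-- Let G be a finite group, p a prime and P a Sylow p-subgroup of G that is not normal in G. Then G has at least p·#P elements of p-power order (the identity included). -/
theorem result {G : Type*} [Group G] [Finite G] (p : ℕ) [Fact p.Prime]
    (P : Sylow p G) (hP : ¬ (P : Subgroup G).Normal) :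
    p * Nat.card (P : Subgroup G) ≤ Nat.card {g : G // ∃ k : ℕ, orderOf g = p ^ k} := by
  classical
  have hp : p.Prime := Fact.out
  set X := {g : G // ∃ k : ℕ, orderOf g = p ^ k}
  obtain ⟨n, hn⟩ := IsPGroup.iff_card.mp P.isPGroup'
  have hXeq : Nat.card X = Nat.card {g : G // g ^ (p ^ n) = 1} := by
    refine Nat.card_congr (Equiv.subtypeEquivRight fun g => ⟨fun ⟨k, hk⟩ => ?_, fun hg => ?_⟩)
    · have hz : IsPGroup p (Subgroup.zpowers g) := IsPGroup.of_card (n := k) (by rw [Nat.card_zpowers, hk])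
      obtain ⟨Q, hQ⟩ := hz.exists_le_sylow
      have := Subgroup.orderOf_dvd_natCard _ (hQ (Subgroup.mem_zpowers g))
      rw [Q.card_eq_multiplicity, ← P.card_eq_multiplicity, hn] at this
      exact orderOf_dvd_iff_pow_eq_one.mp this
    · obtain ⟨k, -, hk⟩ := (Nat.dvd_prime_pow hp).mp (orderOf_dvd_of_pow_eq_one hg)
      exact ⟨k, hk⟩
  obtain ⟨m, hm⟩ : p ^ n ∣ Nat.card X := by
    rw [hXeq]
    exact Cfsg.Lib.Solv.FrobDiv.frobenius_dvd _ (hn ▸ Subgroup.card_subgroup_dvd_card _)
  -- the number is `≡ 1` modulo `p - 1`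
  have hmod : Nat.card X ≡ 1 [MOD p - 1] := by
    letI := Fintype.ofFinite G
    rw [Nat.card_eq_fintype_card, Fintype.card_subtype]
    set S := (Finset.univ.filter fun g : G => ∃ k : ℕ, orderOf g = p ^ k) with hS
    rw [Finset.card_eq_sum_card_fiberwise (f := Subgroup.zpowers) (t := S.image Subgroup.zpowers) (fun g hg => Finset.mem_image_of_mem _ hg)]
    have h1mem : Subgroup.zpowers (1 : G) ∈ S.image Subgroup.zpowers :=
      Finset.mem_image_of_mem _ (Finset.mem_filter.mpr ⟨Finset.mem_univ _, 0, by simp⟩)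
    have hfib : ∀ g ∈ S, (S.filter fun h => Subgroup.zpowers h = Subgroup.zpowers g).card = (orderOf g).totient := by
      intro g hg
      rw [← IsCyclic.card_orderOf_eq_totient (α := Subgroup.zpowers g) (d := orderOf g) (by rw [← Nat.card_eq_fintype_card, Nat.card_zpowers])]
      refine Finset.card_bij (fun h hh => ⟨h, by
        have := (Finset.mem_filter.mp hh).2
        rw [← this]; exact Subgroup.mem_zpowers h⟩) ?_ ?_ ?_
      · intro h hh
        refine Finset.mem_filter.mpr ⟨Finset.mem_univ _, ?_⟩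
        rw [Subgroup.orderOf_mk, ← Nat.card_zpowers, (Finset.mem_filter.mp hh).2, Nat.card_zpowers]
      · intro a _ b _ hab; exact congrArg Subtype.val hab
      · rintro ⟨h, hh⟩ ho
        have ho' : orderOf h = orderOf g := by
          have := (Finset.mem_filter.mp ho).2
          rwa [Subgroup.orderOf_mk] at this
        obtain ⟨k, hk⟩ := (Finset.mem_filter.mp hg).2
        refine ⟨h, Finset.mem_filter.mpr ⟨Finset.mem_filter.mpr ⟨Finset.mem_univ _, k, ho'.trans hk⟩, ?_⟩, rfl⟩
        exact Subgroup.eq_of_le_of_card_ge (Subgroup.zpowers_le.mpr hh) (by rw [Nat.card_zpowers, Nat.card_zpowers, ho'])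
    rw [← Finset.add_sum_erase _ _ h1mem, hfib 1 (Finset.mem_filter.mpr ⟨Finset.mem_univ _, 0, by simp⟩), orderOf_one,
      Nat.totient_one]
    have hz : ∑ x ∈ (S.image Subgroup.zpowers).erase (Subgroup.zpowers 1), (S.filter fun h => Subgroup.zpowers h = x).card ≡ 0 [MOD p - 1] := by
      rw [Nat.modEq_zero_iff_dvd]
      refine Finset.dvd_sum fun K hK => ?_
      obtain ⟨g, hg, rfl⟩ := Finset.mem_image.mp (Finset.mem_of_mem_erase hK)
      rw [hfib g hg]
      obtain ⟨k, hk⟩ := (Finset.mem_filter.mp hg).2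
      have hk0 : k ≠ 0 := fun e => Finset.ne_of_mem_erase hK (by rw [orderOf_eq_one_iff.mp (by rw [hk, e, pow_zero] : orderOf g = 1)])
      rw [hk, Nat.totient_prime_pow hp (Nat.pos_of_ne_zero hk0)]
      exact dvd_mul_left _ _
    simpa using hz.add_left 1
  have hm1 : m ≠ 1 := by
    intro e
    rw [e, mul_one] at hm
    apply hP
    refine ⟨fun x hx g => ?_⟩
    have hsub : ∀ y : G, (∃ k : ℕ, orderOf y = p ^ k) → y ∈ (P : Subgroup G) := by
      letI := Fintype.ofFinite G
      intro y hy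
      let f : ↥(P : Subgroup G) → X := fun u => ⟨u.1, by
        obtain ⟨k, hk⟩ := IsPGroup.iff_orderOf.mp P.isPGroup' u
        exact ⟨k, by rw [← hk, Subgroup.orderOf_coe]⟩⟩
      have hf : Function.Bijective f := by
        rw [Nat.bijective_iff_injective_and_card]
        exact ⟨fun a b hab => Subtype.ext (congrArg (fun z : X => z.1) hab), by rw [hn, hm]⟩
      obtain ⟨u, hu⟩ := hf.2 ⟨y, hy⟩
      have : u.1 = y := congrArg Subtype.val hu
      exact this ▸ u.2
    refine hsub _ ?_
    obtain ⟨k, hk⟩ := IsPGroup.iff_orderOf.mp P.isPGroup' ⟨x, hx⟩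
    exact ⟨k, by rw [← hk, Subgroup.orderOf_mk]; exact (MulAut.conj g).orderOf_eq x⟩
  have hm0 : m ≠ 0 := fun e => by
    haveI : Nonempty X := ⟨⟨1, 0, by simp⟩⟩
    rw [e, mul_zero] at hm
    exact Nat.card_pos.ne' hm
  have hmm : m ≡ 1 [MOD p - 1] := by
    have h2 : p ^ n ≡ 1 [MOD p - 1] := by
      have : p ≡ 1 [MOD p - 1] := ((Nat.modEq_iff_dvd' hp.one_le).mpr dvd_rfl).symm
      simpa using this.pow n
    have := (h2.mul_right m).symm.trans (hm ▸ hmod)
    simpa using this
  have hmp : p ≤ m := by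
    have h3 := Nat.le_of_dvd (by omega) ((Nat.modEq_iff_dvd' (by omega : 1 ≤ m)).mp hmm.symm)
    omega
  rw [hm, hn, mul_comm (p ^ n) m]
  exact Nat.mul_le_mul_right _ hmp

end Cfsg.Agent.S4092
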