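import Cfsg.Statements.S4093
import Mathlib
import Cfsg.Agent.Lib.Transfer.NormalPComplement
-- import your own Cfsg.Agent.* helpers here

set_option autoImplicit false
open scoped BigOperators
open Cfsg

namespace Cfsg.Agent.S4093

/-- Let G be a finite group with a normal subgroup N complementing a Sylow p-subgroup P (a normal p-complement). Then the number of elements of G of p-power order equals the sum over x ∈ P of the index of C_N(x) in N. -/
theorem result {G : Type*} [Group G] [Finite G] (p : ℕ) [Fact p.Prime]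
    (P : Sylow p G) (N : Subgroup G) [N.Normal] (hNP : N.IsComplement' (P : Subgroup G)) :
    Nat.card {g : G // ∃ k : ℕ, orderOf g = p ^ k} =
      ∑ᶠ x : (P : Subgroup G), Nat.card N / Nat.card ↥(N ⊓ Subgroup.centralizer ({(x : G)} : Set G)) := by
  classical
  have hp : p.Prime := Fact.out
  letI := Fintype.ofFinite (P : Subgroup G)
  obtain ⟨hcop, k, hk⟩ := Cfsg.Lib.Transfer.coprime_card_of_isComplement' hNP
  rw [finsum_eq_sum_of_fintype]
  let C : ↥(P : Subgroup G) → Subgroup N := fun x => (Subgroup.centralizer ({(x : G)} : Set G)).subgroupOf N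
  have hterm : ∀ x : (P : Subgroup G), Nat.card N / Nat.card ↥(N ⊓ Subgroup.centralizer ({(x : G)} : Set G)) = Nat.card (N ⧸ C x) := by
    intro x
    have h1 := (C x).card_mul_index
    have e : C x = (N ⊓ Subgroup.centralizer ({(x : G)} : Set G)).subgroupOf N := (Subgroup.inf_subgroupOf_left _ _).symm
    rw [e, Nat.card_congr (Subgroup.subgroupOfEquivOfLe inf_le_left).toEquiv, ← e] at h1
    refine Nat.div_eq_of_eq_mul_right Nat.card_pos ?_
    rw [← h1, Subgroup.index_eq_card]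
  rw [Finset.sum_congr rfl fun x _ => hterm x, ← Nat.card_sigma]
  have hpel : ∀ (x : (P : Subgroup G)) (n : G), ∃ k : ℕ, orderOf (n * (x : G) * n⁻¹) = p ^ k := fun x n => by
    obtain ⟨i, hi⟩ := IsPGroup.iff_orderOf.mp P.isPGroup' x
    exact ⟨i, by rw [← hi, ← Subgroup.orderOf_coe]; exact (MulAut.conj n).orderOf_eq (x : G)⟩
  let f : (Σ x : (P : Subgroup G), N ⧸ C x) → {g : G // ∃ k : ℕ, orderOf g = p ^ k} :=
    fun s => ⟨(s.2.out : G) * s.1 * (s.2.out : G)⁻¹, hpel s.1 _⟩
  refine (Nat.card_eq_of_bijective f ⟨?_, ?_⟩).symm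
  · rintro ⟨x, c⟩ ⟨y, d⟩ h
    have h1 : (c.out : G) * x * (c.out : G)⁻¹ = (d.out : G) * y * (d.out : G)⁻¹ := congrArg Subtype.val h
    have h2 : (x : G) = y := by
      have hcong := congrArg (QuotientGroup.mk' N) h1
      simp only [map_mul, map_inv, QuotientGroup.mk'_apply, (QuotientGroup.eq_one_iff _).mpr c.out.2,
        (QuotientGroup.eq_one_iff _).mpr d.out.2, one_mul, inv_one, mul_one] at hcong
      have h3 : (x : G)⁻¹ * y ∈ N ⊓ (P : Subgroup G) := Subgroup.mem_inf.mpr ⟨QuotientGroup.eq.mp hcong, mul_mem (inv_mem x.2) y.2⟩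
      rw [hNP.disjoint.eq_bot, Subgroup.mem_bot] at h3
      exact inv_mul_eq_one.mp h3
    obtain rfl : x = y := Subtype.ext h2
    have h4 : c = d := by
      rw [← QuotientGroup.out_eq' c, ← QuotientGroup.out_eq' d]
      refine QuotientGroup.eq.mpr ?_
      rw [Subgroup.mem_subgroupOf, Subgroup.mem_centralizer_singleton_iff]
      push_cast
      calc (c.out : G)⁻¹ * d.out * x = (c.out : G)⁻¹ * ((d.out : G) * x * (d.out : G)⁻¹) * d.out := by group
        _ = (c.out : G)⁻¹ * ((c.out : G) * x * (c.out : G)⁻¹) * d.out := by rw [h1]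
        _ = _ := by group
    rw [h4]
  · rintro ⟨g, i, hi⟩
    have hz : IsPGroup p (Subgroup.zpowers g) := IsPGroup.of_card (n := i) (by rw [Nat.card_zpowers, hi])
    obtain ⟨Q, hQ⟩ := hz.exists_le_sylow
    obtain ⟨u, hu⟩ := MulAction.exists_smul_eq G P Q
    obtain ⟨n, hn, v, hv, rfl⟩ := Subgroup.mem_sup_of_normal_left.mp
      (show u ∈ N ⊔ (P : Subgroup G) by rw [hNP.sup_eq_top]; trivial)
    have hgQ : g ∈ (Q : Subgroup G) := hQ (Subgroup.mem_zpowers g)
    rw [← hu, Sylow.smul_def, Sylow.pointwise_smul_def] at hgQ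
    obtain ⟨x, hx, hxg⟩ := hgQ
    have e : n * v * x * (n * v)⁻¹ = g := hxg
    let y : (P : Subgroup G) := ⟨v * x * v⁻¹, mul_mem (mul_mem hv hx) (inv_mem hv)⟩
    obtain ⟨c, hc⟩ := QuotientGroup.mk_out_eq_mul (C y) ⟨n, hn⟩
    refine ⟨⟨y, ((⟨n, hn⟩ : N) : N ⧸ C y)⟩, Subtype.ext ?_⟩
    show (((⟨n, hn⟩ : N) : N ⧸ C y).out : G) * y * (((⟨n, hn⟩ : N) : N ⧸ C y).out : G)⁻¹ = g
    rw [hc]
    push_cast
    have h5 : ((c : N) : G) * y = y * ((c : N) : G) := Subgroup.mem_centralizer_singleton_iff.mp c.2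
    rw [← e, mul_assoc n, h5]
    show n * ((v * x * v⁻¹) * ((c : N) : G)) * (n * ((c : N) : G))⁻¹ = n * v * x * (n * v)⁻¹
    group

end Cfsg.Agent.S4093
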