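import Cfsg.Statements.S4106
import Mathlib
import Cfsg.Agent.Lib.Blocks.Kernel
-- import your own Cfsg.Agent.* helpers here

set_option autoImplicit false
open Cfsg

namespace Cfsg.Agent.S4106

open scoped Classical in
theorem count.{u} : ∀ (s : Finset ℕ), (∀ q ∈ s, q.Prime) → ∀ (G : Type u) [Group G] [Finite G],
    Nat.card {C : ConjClasses G // ∀ q : ℕ, q.Prime → (∃ g : G, ConjClasses.mk g = C ∧ q ∣ orderOf g) → q ∈ s} ≤
      ∏ q ∈ s, q ^ (Nat.card G).factorization q := by
  intro s
  induction s using Finset.induction with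
  | empty =>
    intro _ G _ _
    rw [Finset.prod_empty, Finite.card_le_one_iff_subsingleton]
    refine ⟨?_⟩
    rintro ⟨C, hC⟩ ⟨D, hD⟩
    obtain ⟨c, rfl⟩ := ConjClasses.exists_rep C
    obtain ⟨d, rfl⟩ := ConjClasses.exists_rep D
    have h1 : ∀ x : G, (∀ q : ℕ, q.Prime → (∃ g : G, ConjClasses.mk g = ConjClasses.mk x ∧ q ∣ orderOf g) → q ∈ (∅ : Finset ℕ)) → x = 1 := by
      intro x hx
      by_contra hne
      obtain ⟨q, hq, hqd⟩ := Nat.exists_prime_and_dvd (fun h => hne (orderOf_eq_one_iff.1 h))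
      exact absurd (hx q hq ⟨x, rfl, hqd⟩) (Finset.notMem_empty q)
    exact Subtype.ext (congrArg ConjClasses.mk ((h1 c hC).trans (h1 d hD).symm))
  | insert p s hps ih =>
    intro hs G _ _
    haveI := Fintype.ofFinite G
    haveI := Fact.mk (hs p (Finset.mem_insert_self p s))
    have hs' : ∀ q ∈ s, q.Prime := fun q hq => hs q (Finset.mem_insert_of_mem hq)
    rw [Finset.prod_insert hps]
    obtain ⟨P⟩ : Nonempty (Sylow p G) := inferInstance
    rw [← P.card_eq_multiplicity]
    set m := ∏ q ∈ s, q ^ (Nat.card G).factorization q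
    set α := {C : ConjClasses G // ∀ q : ℕ, q.Prime → (∃ g : G, ConjClasses.mk g = C ∧ q ∣ orderOf g) → q ∈ insert p s}
    let β := fun u : (P : Subgroup G) => {C : ConjClasses (Subgroup.centralizer ({(u : G)} : Set G)) //
      ∀ q : ℕ, q.Prime → (∃ g, ConjClasses.mk g = C ∧ q ∣ orderOf g) → q ∈ s}
    have key : ∀ C : α, ∃ (u : (P : Subgroup G)) (c : β u) (v : Subgroup.centralizer ({(u : G)} : Set G)),
        ConjClasses.mk v = c.1 ∧ C.1 = ConjClasses.mk ((u : G) * (v : G)) := by
      rintro ⟨C, hC⟩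
      obtain ⟨g, rfl⟩ := ConjClasses.exists_rep C
      obtain ⟨x, y, hxy, hcomm, ⟨k, hk⟩, hy⟩ := Cfsg.Lib.Blocks.exists_pPart_commute (p := p) g
      obtain ⟨R, hR⟩ := (IsPGroup.of_card (G := Subgroup.zpowers x) (by rw [Nat.card_zpowers, hk])).exists_le_sylow
      obtain ⟨t, ht⟩ := MulAction.exists_smul_eq G R P
      have hu : MulAut.conj t x ∈ (P : Subgroup G) := by
        rw [← ht]; exact Subgroup.smul_mem_pointwise_smul _ _ _ (hR (Subgroup.mem_zpowers x))
      have hv : MulAut.conj t y ∈ Subgroup.centralizer ({MulAut.conj t x} : Set G) :=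
        Subgroup.mem_centralizer_singleton_iff.2 (by rw [← map_mul, ← map_mul, hcomm.eq])
      refine ⟨⟨_, hu⟩, ⟨ConjClasses.mk ⟨_, hv⟩, ?_⟩, ⟨_, hv⟩, rfl, ?_⟩
      · rintro q hq ⟨w, hw, hqw⟩
        obtain ⟨e, he⟩ := isConj_iff.1 (ConjClasses.mk_eq_mk_iff_isConj.1 hw)
        have ho : orderOf w = orderOf y := by
          refine (MulEquiv.orderOf_eq (MulAut.conj e) w).symm.trans ?_
          show orderOf (e * w * e⁻¹) = _
          rw [he, Subgroup.orderOf_mk, MulEquiv.orderOf_eq]
        rw [ho] at hqw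
        have hdg : q ∣ orderOf g := by
          rw [← hxy, hcomm.orderOf_mul_eq_mul_orderOf_of_coprime (by
            rw [hk]; exact ((Nat.Prime.coprime_iff_not_dvd Fact.out).2 hy).pow_left k)]
          exact hqw.trans (dvd_mul_left _ _)
        rcases Finset.mem_insert.1 (hC q hq ⟨g, rfl, hdg⟩) with rfl | h
        · exact absurd hqw hy
        · exact h
      · show ConjClasses.mk g = ConjClasses.mk (MulAut.conj t x * MulAut.conj t y)
        rw [← map_mul, hxy, ConjClasses.mk_eq_mk_iff_isConj, isConj_iff]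
        exact ⟨t, rfl⟩
    choose u c v hv hC using key
    have hinj : Function.Injective (fun C : α => (⟨u C, c C⟩ : Σ u, β u)) := by
      intro C D h
      have aux : ∀ (a b : (P : Subgroup G)) (ca : β a) (cb : β b) (va : Subgroup.centralizer ({(a : G)} : Set G))
          (vb : Subgroup.centralizer ({(b : G)} : Set G)), (⟨a, ca⟩ : Σ u, β u) = ⟨b, cb⟩ → ConjClasses.mk va = ca.1 →
          ConjClasses.mk vb = cb.1 → ConjClasses.mk ((a : G) * (va : G)) = ConjClasses.mk ((b : G) * (vb : G)) := by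
        intro a b ca cb va vb e h1 h2
        obtain ⟨rfl, e'⟩ := Sigma.mk.inj_iff.1 e
        rw [← eq_of_heq e'] at h2
        obtain ⟨w, hw⟩ := isConj_iff.1 (ConjClasses.mk_eq_mk_iff_isConj.1 (h1.trans h2.symm))
        rw [ConjClasses.mk_eq_mk_iff_isConj, isConj_iff]
        refine ⟨w, ?_⟩
        have hwa : (w : G) * a = a * w := Subgroup.mem_centralizer_singleton_iff.1 w.2
        rw [← hw]
        simp only [Subgroup.coe_mul, InvMemClass.coe_inv]
        rw [← mul_assoc, hwa]; group
      exact Subtype.ext (by rw [hC C, hC D]; exact aux _ _ _ _ _ _ h (hv C) (hv D))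
    have hm : ∀ a : (P : Subgroup G), Nat.card (β a) ≤ m := by
      intro a
      refine (ih hs' _).trans (Finset.prod_le_prod' fun q hq => Nat.pow_le_pow_right (hs' q hq).pos ?_)
      exact (Nat.factorization_le_iff_dvd Nat.card_pos.ne' Nat.card_pos.ne').2 (Subgroup.card_subgroup_dvd_card _) q
    haveI : Fintype (P : Subgroup G) := Fintype.ofFinite _
    refine (Nat.card_le_card_of_injective _ hinj).trans ?_
    rw [Nat.card_sigma]
    refine (Finset.sum_le_sum fun a _ => hm a).trans ?_
    rw [Finset.sum_const, Finset.card_univ, smul_eq_mul, Nat.card_eq_fintype_card]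

/-- Let G be a finite group, π a set of primes and m the π-part of the order of G. Then the number of conjugacy classes of G consisting of π-elements (elements whose order is divisible only by primes in π) is at most m. -/
theorem result {G : Type*} [Group G] [Finite G]
    (π : Set ℕ) (hπ : ∀ q ∈ π, q.Prime)
    (m : ℕ) (hm : m ∣ Nat.card G) (hmπ : ∀ q : ℕ, q.Prime → q ∣ m → q ∈ π)
    (hm' : ∀ q ∈ π, ¬ q ∣ Nat.card G / m) :
    Nat.card {C : ConjClasses G // ∀ q : ℕ, q.Prime → (∃ g : G, ConjClasses.mk g = C ∧ q ∣ orderOf g) → q ∈ π} ≤ m := by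
  classical
  set s := (Nat.card G).primeFactors.filter (fun q => q ∈ π)
  have hs : ∀ q ∈ s, q.Prime := fun q hq => Nat.prime_of_mem_primeFactors (Finset.mem_filter.1 hq).1
  obtain ⟨k, hk⟩ := hm
  have hm0 : m ≠ 0 := by rintro rfl; rw [zero_mul] at hk; exact Nat.card_pos.ne' hk
  have hkd : Nat.card G / m = k := by rw [hk, Nat.mul_div_cancel_left _ (Nat.pos_of_ne_zero hm0)]
  have hfac : ∀ q ∈ s, m.factorization q = (Nat.card G).factorization q := by
    intro q hq
    have hk0 : k ≠ 0 := by rintro rfl; rw [mul_zero] at hk; exact Nat.card_pos.ne' hk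
    rw [hk, Nat.factorization_mul hm0 hk0, Finsupp.add_apply,
      Nat.factorization_eq_zero_of_not_dvd (n := k) (p := q) (by rw [← hkd]; exact hm' q (Finset.mem_filter.1 hq).2), add_zero]
  have hmprod : m = ∏ q ∈ s, q ^ (Nat.card G).factorization q := by
    rw [← Finset.prod_congr rfl (fun q hq => by rw [hfac q hq] : ∀ q ∈ s, q ^ m.factorization q = q ^ (Nat.card G).factorization q)]
    conv_lhs => rw [← Nat.prod_factorization_pow_eq_self hm0]
    rw [Finsupp.prod, Nat.support_factorization]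
    refine Finset.prod_subset ?_ ?_
    · intro q hq
      have h1 := Nat.prime_of_mem_primeFactors hq
      have h2 := Nat.dvd_of_mem_primeFactors hq
      exact Finset.mem_filter.2 ⟨Nat.mem_primeFactors.2 ⟨h1, h2.trans ⟨k, hk⟩, Nat.card_pos.ne'⟩, hmπ q h1 h2⟩
    · intro q _ hq
      rw [Finsupp.notMem_support_iff.1 (by rwa [Nat.support_factorization]), pow_zero]
  rw [hmprod]
  refine le_trans ?_ (count s hs G)
  refine Nat.card_le_card_of_injective (fun C => ⟨C.1, fun q hq h => ?_⟩) (fun C D e => Subtype.ext (congrArg Subtype.val e :))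
  obtain ⟨g, hg, hd⟩ := h
  exact Finset.mem_filter.2 ⟨Nat.mem_primeFactors.2 ⟨hq, hd.trans (orderOf_dvd_natCard g), Nat.card_pos.ne'⟩, C.2 q hq ⟨g, hg, hd⟩⟩

end Cfsg.Agent.S4106
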