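import Cfsg.Statements.S4107
import Mathlib
import Cfsg.Agent.Lib.Transfer.Basic
-- import your own Cfsg.Agent.* helpers here

set_option autoImplicit false
open Cfsg

namespace Cfsg.Agent.S4107

theorem isPGroup_of_core {G : Type*} [Group G] [Finite G] {N : Subgroup G} [N.Normal]
    (heq : ∀ x : G, x ∉ N → ∀ n ∈ N, orderOf (x * n) = orderOf x) {q : ℕ} [Fact q.Prime] {x : G}
    (hx : x ∈ Cfsg.pCore q G) (hxN : x ∉ N) : IsPGroup q N := by
  rintro ⟨n, hn⟩
  haveI := Cfsg.Lib.Transfer.pCore_normal (G := G) q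
  have hO := Cfsg.Lib.Transfer.pCore_isPGroup (G := G) q
  obtain ⟨k, hk⟩ := IsPGroup.iff_orderOf.mp hO ⟨x, hx⟩
  rw [Subgroup.orderOf_mk] at hk
  have h1 : (x * n) ^ q ^ k = 1 := by rw [← hk, ← heq x hxN n hn, pow_orderOf_eq_one]
  have h2 : n ^ q ^ k ∈ Cfsg.pCore q G := by
    rw [← QuotientGroup.eq_one_iff, QuotientGroup.mk_pow]
    have h3 := congrArg (QuotientGroup.mk (s := Cfsg.pCore q G)) h1
    rwa [QuotientGroup.mk_pow, QuotientGroup.mk_mul, (QuotientGroup.eq_one_iff x).mpr hx, one_mul,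
      QuotientGroup.mk_one] at h3
  obtain ⟨j, hj⟩ := hO ⟨_, h2⟩
  refine ⟨k + j, Subtype.ext ?_⟩
  show n ^ q ^ (k + j) = 1
  rw [pow_add, pow_mul]
  exact congrArg Subtype.val hj

theorem exists_core_notMem {G : Type*} [Group G] [Finite G] {N : Subgroup G}
    (h : ¬ Cfsg.fittingSubgroup G ≤ N) : ∃ q, q.Prime ∧ ∃ x ∈ Cfsg.pCore q G, x ∉ N := by
  obtain ⟨x, hx, hxN⟩ := Set.not_subset.mp h
  by_contra hcon
  apply hxN
  refine Cfsg.Lib.Transfer.mem_of_forall_pow_ordCompl_mem fun r hr => by_contra fun hr' => hcon ?_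
  haveI := Fact.mk hr
  exact ⟨r, hr, _, Cfsg.Lib.Transfer.pow_ordCompl_mem_pCore hx, hr'⟩

/-- Let G be a finite group and N a proper non-trivial normal subgroup such that for every x outside N all elements of the coset xN have the same order as x. Then N ≤ F(G) or F(G) ≤ N, where F(G) is the Fitting subgroup; and if N is properly contained in F(G) then F(G) has prime-power order. -/
theorem result {G : Type*} [Group G] [Finite G] (N : Subgroup G) [N.Normal] (hN1 : N ≠ ⊥) (hN2 : N ≠ ⊤)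
    (heq : ∀ x : G, x ∉ N → ∀ n ∈ N, orderOf (x * n) = orderOf x) :
    (N ≤ Cfsg.fittingSubgroup G ∨ Cfsg.fittingSubgroup G ≤ N) ∧
    (N < Cfsg.fittingSubgroup G → IsPrimePow (Nat.card (Cfsg.fittingSubgroup G))) := by
  refine ⟨?_, fun hlt => ?_⟩
  · by_cases hF : Cfsg.fittingSubgroup G ≤ N
    · exact Or.inr hF
    obtain ⟨q, hq, x, hx, hxN⟩ := exists_core_notMem hF
    haveI := Fact.mk hq
    exact Or.inl ((Cfsg.Lib.Transfer.le_pCore inferInstance (isPGroup_of_core heq hx hxN)).trans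
      (Cfsg.Lib.Transfer.pCore_le_fittingSubgroup q))
  · obtain ⟨q, hq, x, hx, hxN⟩ := exists_core_notMem hlt.not_ge
    haveI := Fact.mk hq
    have hNq := isPGroup_of_core heq hx hxN
    have hsmall : ∀ r, r.Prime → r ≠ q → Cfsg.pCore r G = ⊥ := by
      intro r hr hne
      haveI := Fact.mk hr
      have hle : Cfsg.pCore r G ≤ N := by
        intro y hy
        by_contra hyN
        exact hN1 (disjoint_self.mp (IsPGroup.disjoint_of_ne q r hne.symm N N hNq (isPGroup_of_core heq hy hyN)))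
      exact disjoint_self.mp (IsPGroup.disjoint_of_ne q r hne.symm _ _ (hNq.to_le hle) (Cfsg.Lib.Transfer.pCore_isPGroup r))
    have hle : Cfsg.fittingSubgroup G ≤ Cfsg.pCore q G := fun y hy => by
      refine Cfsg.Lib.Transfer.mem_of_forall_pow_ordCompl_mem fun r hr => ?_
      haveI := Fact.mk hr
      rcases eq_or_ne r q with rfl | hne
      · exact Cfsg.Lib.Transfer.pow_ordCompl_mem_pCore hy
      · have := Cfsg.Lib.Transfer.pow_ordCompl_mem_pCore (p := r) hy
        rw [hsmall r hr hne, Subgroup.mem_bot] at this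
        rw [this]
        exact one_mem _
    obtain ⟨k, hk⟩ := IsPGroup.iff_card.mp ((Cfsg.Lib.Transfer.pCore_isPGroup q).to_le hle)
    rw [isPrimePow_nat_iff]
    refine ⟨q, k, hq, Nat.pos_of_ne_zero fun hk0 => ?_, hk.symm⟩
    rw [hk0, pow_zero, Subgroup.card_eq_one] at hk
    exact not_lt_bot (hk ▸ hlt)

end Cfsg.Agent.S4107
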