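import Cfsg.Statements.S4108
import Mathlib
-- import your own Cfsg.Agent.* helpers here

set_option autoImplicit false
open Cfsg
open scoped Pointwise

namespace Cfsg.Agent.S4108

/-- Let G be a finite group, p a prime and N a proper non-trivial normal p-subgroup such that for every x outside N all elements of the coset xN have the same order as x. Then every non-trivial subgroup H of G of order prime to p acts fixed-point-freely on N: NH is a Frobenius group with complement H and kernel N. -/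
theorem result {G : Type*} [Group G] [Finite G] (N : Subgroup G) [N.Normal] (hN1 : N ≠ ⊥) (hN2 : N ≠ ⊤)
    (heq : ∀ x : G, x ∉ N → ∀ n ∈ N, orderOf (x * n) = orderOf x)
    (p : ℕ) [Fact p.Prime] (hNp : IsPGroup p N) :
    ∀ H : Subgroup G, H ≠ ⊥ → (Nat.card H).Coprime p →
      Cfsg.IsFrobeniusComplement (H.subgroupOf (N ⊔ H)) ∧ Cfsg.frobeniusKernel (H.subgroupOf (N ⊔ H)) = (N.subgroupOf (N ⊔ H) : Set ↥(N ⊔ H)) := by
  classical
  intro H hH hcop
  have hHN : H ⊓ N = ⊥ := by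
    obtain ⟨k, hk⟩ := IsPGroup.iff_card.mp hNp
    exact Subgroup.inf_eq_bot_of_coprime (by rw [hk]; exact hcop.pow_right k)
  -- fixed point freeness
  have hfpf : ∀ h ∈ H, ∀ n ∈ N, h ≠ 1 → h * n = n * h → n = 1 := by
    intro h hh n hn hh1 hc
    have hhN : h ∉ N := fun h' => hh1 (by
      have : h ∈ H ⊓ N := ⟨hh, h'⟩
      rwa [hHN, Subgroup.mem_bot] at this)
    obtain ⟨k, hk⟩ := IsPGroup.iff_orderOf.mp hNp ⟨n, hn⟩
    rw [Subgroup.orderOf_mk] at hk
    have hco : (orderOf h).Coprime (orderOf n) := by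
      rw [hk]; exact (hcop.coprime_dvd_left (Subgroup.orderOf_dvd_natCard H hh)).pow_right k
    have h2 := heq h hhN n hn
    rw [(show Commute h n from hc).orderOf_mul_eq_mul_orderOf_of_coprime hco] at h2
    exact orderOf_eq_one_iff.mp (Nat.eq_of_mul_eq_mul_left (orderOf_pos h) (h2.trans (mul_one _).symm))
  set W := N ⊔ H with hW
  have hdec : ∀ w ∈ W, ∃ n ∈ N, ∃ h ∈ H, w = n * h := fun w hw => by
    obtain ⟨n, hn, h, hh, e⟩ := Subgroup.mem_sup_of_normal_left.mp hw
    exact ⟨n, hn, h, hh, e.symm⟩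
  have hconjN : ∀ h ∈ H, ∀ n ∈ N, n * h * n⁻¹ ∈ H → h ≠ 1 → n = 1 := by
    intro h hh n hn hmem hh1
    refine hfpf h hh n hn hh1 ?_
    have h1 : n * h * n⁻¹ * h⁻¹ ∈ H ⊓ N := by
      refine Subgroup.mem_inf.mpr ⟨mul_mem hmem (inv_mem hh), ?_⟩
      rw [show n * h * n⁻¹ * h⁻¹ = n * (h * n⁻¹ * h⁻¹) by group]
      exact mul_mem hn ((inferInstance : N.Normal).conj_mem _ (inv_mem hn) h)
    rw [hHN, Subgroup.mem_bot, mul_inv_eq_one, mul_inv_eq_iff_eq_mul] at h1
    exact h1.symm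
  have hmemconj : ∀ (g x : W), x ∈ MulAut.conj g • H.subgroupOf W ↔ (g : G)⁻¹ * x * g ∈ H := by
    intro g x
    rw [Subgroup.mem_pointwise_smul_iff_inv_smul_mem, Subgroup.mem_subgroupOf]
    simp [mul_assoc]
  refine ⟨⟨?_, ?_, ?_⟩, ?_⟩
  · intro h
    rw [Subgroup.subgroupOf_eq_bot] at h
    exact hH (disjoint_self.mp (h.mono_right le_sup_right))
  · intro h
    rw [Subgroup.subgroupOf_eq_top] at h
    exact hN1 (by rw [← hHN]; exact (inf_eq_right.mpr (le_sup_left.trans h)).symm)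
  · intro g hg
    rw [eq_bot_iff]
    rintro x ⟨hx, hx'⟩
    rw [Subgroup.mem_bot]
    by_contra hx1
    obtain ⟨n, hn, h, hh, e⟩ := hdec g g.2
    apply hg
    have h1 := (hmemconj g x).mp hx'
    rw [e] at h1
    have h2 : n⁻¹ * (x : G) * n⁻¹⁻¹ ∈ H := by
      have := mul_mem (mul_mem hh h1) (inv_mem hh)
      convert this using 1
      group
    have hn1 := hconjN x hx n⁻¹ (inv_mem hn) h2 (fun e => hx1 (Subtype.ext e))
    show (g : G) ∈ H
    rw [e, inv_eq_one.mp hn1, one_mul]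
    exact hh
  · ext x
    constructor
    · rintro (rfl | hx)
      · exact one_mem _
      obtain ⟨n, hn, h, hh, e⟩ := hdec x x.2
      by_contra hxN
      have hh1 : h ≠ 1 := fun h1 => hxN (show (x : G) ∈ N by rw [e, h1, mul_one]; exact hn)
      let f : N → N := fun m => ⟨(m : G) * (h * (m : G)⁻¹ * h⁻¹), mul_mem m.2 ((inferInstance : N.Normal).conj_mem _ (inv_mem m.2) h)⟩
      have hf : Function.Injective f := by
        intro a b hab
        have h1 : (a : G) * (h * (a : G)⁻¹ * h⁻¹) = b * (h * (b : G)⁻¹ * h⁻¹) := congrArg Subtype.val hab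
        have h2 : ((b : G)⁻¹ * a) = 1 := by
          refine hfpf h hh _ (mul_mem (inv_mem b.2) a.2) hh1 ?_
          calc h * ((b : G)⁻¹ * a) = (b : G)⁻¹ * ((b : G) * (h * (b : G)⁻¹ * h⁻¹)) * h * a := by group
            _ = (b : G)⁻¹ * ((a : G) * (h * (a : G)⁻¹ * h⁻¹)) * h * a := by rw [h1]
            _ = _ := by group
        exact Subtype.ext (inv_mul_eq_one.mp h2).symm
      obtain ⟨m, hm⟩ := (Finite.injective_iff_surjective.mp hf) ⟨n, hn⟩
      have hm' : (m : G) * (h * (m : G)⁻¹ * h⁻¹) = n := congrArg Subtype.val hm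
      refine hx ⟨m, (le_sup_left : N ≤ W) m.2⟩ ((hmemconj _ _).mpr ?_)
      show (m : G)⁻¹ * x * m ∈ H
      rw [e, ← hm', show (m : G)⁻¹ * ((m : G) * (h * (m : G)⁻¹ * h⁻¹) * h) * m = h by group]
      exact hh
    · intro hx
      by_cases hx1 : x = 1
      · exact Or.inl hx1
      refine Or.inr fun g hg => hx1 (Subtype.ext ?_)
      have h1 := (hmemconj g x).mp hg
      have h2 : (g : G)⁻¹ * x * g ∈ H ⊓ N :=
        ⟨h1, by simpa using (inferInstance : N.Normal).conj_mem _ hx (g : G)⁻¹⟩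
      rw [hHN, Subgroup.mem_bot] at h2
      calc (x : G) = g * ((g : G)⁻¹ * x * g) * (g : G)⁻¹ := by group
        _ = 1 := by rw [h2]; group

end Cfsg.Agent.S4108
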