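import Cfsg.Statements.S4112
import Cfsg.Agent.Lib.Transfer.MaximalClass
import Mathlib
-- import your own Cfsg.Agent.* helpers here

set_option autoImplicit false
open Cfsg

namespace Cfsg.Agent.S4112

/-- Let G be a finite group and M ≤ N non-trivial proper normal subgroups such that for every g outside N the conjugacy class of g is a union of cosets of M (equivalently gm is conjugate to g for every m ∈ M). Then (1) and (2) below are equivalent, and they imply (3): (1) every g outside N acts fixed-point-freely on M, that is C_G(x) ≤ N for every x ∈ M, x ≠ 1; (2) the index of N in G is coprime to the order of M; (3) there is a subgroup H of G with HN = G and H ∩ M = 1. -/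
theorem result {G : Type*} [Group G] [Finite G] (N M : Subgroup G) [N.Normal] [M.Normal] (hMN : M ≤ N) (hM1 : M ≠ ⊥) (hN2 : N ≠ ⊤)
    (hcam : ∀ g : G, g ∉ N → ∀ m ∈ M, ∃ x : G, x * g * x⁻¹ = g * m) :
    ((∀ x ∈ M, x ≠ 1 → Subgroup.centralizer ({x} : Set G) ≤ N) ↔ N.index.Coprime (Nat.card M)) ∧
    ((∀ x ∈ M, x ≠ 1 → Subgroup.centralizer ({x} : Set G) ≤ N) → ∃ H : Subgroup G, H ⊔ N = ⊤ ∧ H ⊓ M = ⊥) := by
  classical
  have hiff : (∀ x ∈ M, x ≠ 1 → Subgroup.centralizer ({x} : Set G) ≤ N) ↔ N.index.Coprime (Nat.card M) := by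
    constructor
    · intro hC
      refine Nat.coprime_of_dvd fun q hq hqN hqM => ?_
      haveI := Fact.mk hq
      obtain ⟨Q⟩ : Nonempty (Sylow q G) := inferInstance
      have hQN : ¬ (Q : Subgroup G) ≤ N := fun h => Q.not_dvd_index (hqN.trans (Subgroup.index_dvd_of_le h))
      haveI : (M.subgroupOf (Q : Subgroup G)).Normal := inferInstance
      have hne : Nontrivial (M.subgroupOf (Q : Subgroup G)) := by
        obtain ⟨x, hx⟩ := exists_prime_orderOf_dvd_card' q hqM
        obtain ⟨R, hR⟩ := (IsPGroup.of_card (n := 1) (G := Subgroup.zpowers (x : G)) (by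
          rw [Nat.card_zpowers, Subgroup.orderOf_coe, hx, pow_one])).exists_le_sylow
        obtain ⟨g, hg⟩ := MulAction.exists_smul_eq G R Q
        have hm : MulAut.conj g (x : G) ∈ (Q : Subgroup G) := by
          rw [← hg]
          exact Subgroup.smul_mem_pointwise_smul _ _ _ (hR (Subgroup.mem_zpowers _))
        refine ⟨⟨⟨⟨_, hm⟩, ?_⟩, 1, fun e => ?_⟩⟩
        · show MulAut.conj g (x : G) ∈ M
          exact ‹M.Normal›.conj_mem _ x.2 g
        · have h1 : MulAut.conj g (x : G) = 1 := congrArg (fun z => (z.1 : G)) e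
          rw [map_eq_one_iff _ (MulAut.conj g).injective] at h1
          rw [show x = 1 from Subtype.ext h1, orderOf_one] at hx
          exact hq.ne_one hx.symm
      have hmeet := Cfsg.Lib.Transfer.inf_center_ne_bot Q.isPGroup' (M.subgroupOf (Q : Subgroup G))
        ((Subgroup.nontrivial_iff_ne_bot _).1 hne)
      obtain ⟨z, hz, hz1⟩ := (Subgroup.bot_or_exists_ne_one _).resolve_left hmeet
      obtain ⟨hzM, hzc⟩ := Subgroup.mem_inf.1 hz
      apply hQN
      intro y hy
      exact hC z.1 hzM (fun e => hz1 (Subtype.ext e)) (Subgroup.mem_centralizer_singleton_iff.2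
        (congrArg Subtype.val (Subgroup.mem_center_iff.1 hzc ⟨y, hy⟩)))
    · intro hcop x hxM hx1 g hg
      by_contra hgN
      have hcm : Commute g x := Subgroup.mem_centralizer_singleton_iff.1 hg
      have hgo : ¬ (orderOf g).Coprime N.index := fun hc => hgN (by
        rw [← QuotientGroup.eq_one_iff, ← orderOf_eq_one_iff]
        exact Nat.eq_one_of_dvd_coprimes hc (orderOf_map_dvd (QuotientGroup.mk' N) g) (orderOf_dvd_natCard _))
      set g' := g ^ Nat.card M with hg'
      have hg'N : g' ∉ N := by
        intro h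
        apply hgN
        rw [← QuotientGroup.eq_one_iff] at h ⊢
        rw [hg', QuotientGroup.mk_pow] at h
        rw [← orderOf_dvd_iff_pow_eq_one] at h
        rw [← orderOf_eq_one_iff]
        exact Nat.eq_one_of_dvd_coprimes hcop.symm h (orderOf_dvd_natCard _)
      -- a power of `g` outside `N` of order prime to the order of `M`
      have hex : ∃ j, g ^ j ∉ N ∧ (orderOf (g ^ j)).Coprime (Nat.card M) := by
        refine ⟨Nat.card M ^ orderOf g, ?_, ?_⟩
        · intro h
          apply hgN
          rw [← QuotientGroup.eq_one_iff] at h ⊢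
          rw [QuotientGroup.mk_pow, ← orderOf_dvd_iff_pow_eq_one] at h
          rw [← orderOf_eq_one_iff]
          exact Nat.eq_one_of_dvd_coprimes (hcop.symm.pow_left _) h (orderOf_dvd_natCard _)
        · have hn : orderOf g ≠ 0 := (orderOf_pos g).ne'
          refine Nat.coprime_of_dvd fun r hr hr1 hr2 => ?_
          rw [orderOf_pow] at hr1
          have hle : r ^ (orderOf g).factorization r ∣ Nat.card M ^ orderOf g :=
            (pow_dvd_pow r (Nat.factorization_lt r hn).le).trans (pow_dvd_pow_of_dvd hr2 _)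
          have hg2 : r ^ (orderOf g).factorization r ∣ Nat.gcd (orderOf g) (Nat.card M ^ orderOf g) :=
            Nat.dvd_gcd (Nat.ordProj_dvd _ _) hle
          have := (mul_dvd_mul hg2 hr1)
          rw [Nat.mul_div_cancel' (Nat.gcd_dvd_left _ _), ← pow_succ] at this
          exact Nat.pow_succ_factorization_not_dvd hn hr this
      obtain ⟨j, hjN, hjc⟩ := hex
      obtain ⟨y, hy⟩ := hcam _ hjN x hxM
      have ho : orderOf (g ^ j) = orderOf (g ^ j * x) := by
        rw [← hy, ← MulAut.conj_apply, MulEquiv.orderOf_eq]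
      have hox : orderOf x ∣ Nat.card M := Subgroup.orderOf_dvd_natCard M hxM
      rw [(hcm.pow_left j).orderOf_mul_eq_mul_orderOf_of_coprime (hjc.coprime_dvd_right hox)] at ho
      have : orderOf x = 1 := by
        have hp := orderOf_pos (g ^ j)
        nlinarith
      exact hx1 (orderOf_eq_one_iff.1 this)
  refine ⟨hiff, fun hC => ?_⟩
  have hcop := hiff.1 hC
  obtain ⟨H, hHN, hmin⟩ : ∃ H : Subgroup G, H ⊔ N = ⊤ ∧ ∀ K : Subgroup G, K ⊔ N = ⊤ → K ≤ H → K = H := by
    obtain ⟨H, hH⟩ := (Set.toFinite {H : Subgroup G | H ⊔ N = ⊤}).exists_minimal ⟨⊤, top_sup_eq _⟩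
    exact ⟨H, hH.1, fun K hK hle => le_antisymm hle (hH.2 hK hle)⟩
  refine ⟨H, hHN, ?_⟩
  by_contra hne
  obtain ⟨p, hp, hpd⟩ := Nat.exists_prime_and_dvd (fun h => hne (Subgroup.card_eq_one.1 h))
  haveI := Fact.mk hp
  have hpM : p ∣ Nat.card M := hpd.trans (Subgroup.card_dvd_of_le inf_le_right)
  set N' := N.subgroupOf H with hN'
  have hpN' : ¬ p ∣ N'.index := fun h => hp.ne_one (Nat.eq_one_of_dvd_coprimes hcop
    (h.trans (Subgroup.relIndex_dvd_index_of_normal N H)) hpM)
  obtain ⟨P⟩ : Nonempty (Sylow p N') := inferInstance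
  have hfr := Sylow.normalizer_sup_eq_top P
  set P' := (P : Subgroup N').map N'.subtype with hP'
  have hNP : Subgroup.normalizer (P' : Set H) = ⊤ := by
    set J := Subgroup.normalizer (P' : Set H)
    have h1 : J.map H.subtype ⊔ N = ⊤ := by
      rw [eq_top_iff, ← hHN]
      refine sup_le ?_ le_sup_right
      calc H = (⊤ : Subgroup H).map H.subtype := by rw [← MonoidHom.range_eq_map, Subgroup.range_subtype]
        _ = (J ⊔ N').map H.subtype := by rw [hfr]
        _ ≤ _ := by
          rw [Subgroup.map_sup]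
          exact sup_le_sup_left (Subgroup.map_comap_le _ _) _
    have h2 := hmin _ h1 (Subgroup.map_subtype_le _)
    rw [eq_top_iff]
    intro z _
    have : (z : G) ∈ J.map H.subtype := by rw [h2]; exact z.2
    obtain ⟨w, hw, e⟩ := this
    rwa [← Subtype.ext e]
  haveI : P'.Normal := Subgroup.normalizer_eq_top_iff.1 hNP
  have hidx : P'.index = (P : Subgroup N').index * N'.index := Subgroup.index_map_subtype _
  have hcardP : Nat.card P' = Nat.card (P : Subgroup N') :=
    (Nat.card_congr (Subgroup.equivMapOfInjective _ _ N'.subtype_injective).toEquiv).symm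
  obtain ⟨e, he⟩ := P.isPGroup'.exists_card_eq
  have hco : (Nat.card P').Coprime P'.index := by
    rw [hcardP, he, hidx]
    exact (hp.coprime_iff_not_dvd.2 (hp.not_dvd_mul P.not_dvd_index hpN')).pow_left _
  obtain ⟨K, hK⟩ := Subgroup.exists_right_complement'_of_coprime hco
  have h1 : K.map H.subtype ⊔ N = ⊤ := by
    rw [eq_top_iff, ← hHN]
    refine sup_le ?_ le_sup_right
    calc H = (⊤ : Subgroup H).map H.subtype := by rw [← MonoidHom.range_eq_map, Subgroup.range_subtype]
      _ = (P' ⊔ K).map H.subtype := by rw [hK.sup_eq_top]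
      _ ≤ _ := by
        rw [Subgroup.map_sup, sup_comm]
        exact sup_le_sup_left ((Subgroup.map_mono (Subgroup.map_subtype_le _)).trans (Subgroup.map_comap_le _ _)) _
  have h2 := hmin _ h1 (Subgroup.map_subtype_le _)
  have hKc : Nat.card K = Nat.card H := by
    rw [Nat.card_congr (Subgroup.equivMapOfInjective K _ H.subtype_injective).toEquiv, h2]
  have h3 := hK.card_mul
  rw [hKc, hcardP] at h3
  have hP1 : Nat.card (P : Subgroup N') = 1 := by
    have := Nat.card_pos (α := H); nlinarith
  have hpN : p ∣ Nat.card N' := by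
    rw [hN', ← Subgroup.inf_subgroupOf_right, inf_comm, Nat.card_congr (Subgroup.subgroupOfEquivOfLe (inf_le_left : H ⊓ N ≤ H)).toEquiv]
    exact hpd.trans (Subgroup.card_dvd_of_le (inf_le_inf_left H hMN))
  have := P.dvd_card_of_dvd_card hpN
  rw [hP1, Nat.dvd_one] at this
  exact hp.ne_one this

end Cfsg.Agent.S4112
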