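import Cfsg.Statements.S4293
import Mathlib
-- import your own Cfsg.Agent.* helpers here

set_option autoImplicit false
open Cfsg

namespace Cfsg.Agent.S4293

/-- A bare type with `n` elements. -/
def Carrier (n : ℕ) : Type := Fin n

instance (n : ℕ) : Finite (Carrier n) := inferInstanceAs (Finite (Fin n))

theorem frobenius_semidirect {H V : Type*} [Group H] [Finite H] [Nontrivial H] [Group V] [Finite V] [Nontrivial V]
    (φ : H →* MulAut V) (hfpf : ∀ h : H, h ≠ 1 → ∀ v : V, φ h v = v → v = 1) :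
    ∃ (L : Type) (_ : Group L) (_ : Finite L) (C : Subgroup L),
      Cfsg.IsFrobeniusComplement C ∧ Nonempty (H ≃* C) := by
  classical
  haveI : Finite (V ⋊[φ] H) := Finite.of_equiv (V × H) SemidirectProduct.equivProd.symm
  let e : (V ⋊[φ] H) ≃ Carrier (Nat.card (V ⋊[φ] H)) := Finite.equivFin (V ⋊[φ] H)
  letI : Group (Carrier (Nat.card (V ⋊[φ] H))) := e.symm.group
  let E : (V ⋊[φ] H) ≃* Carrier (Nat.card (V ⋊[φ] H)) := (e.symm.mulEquiv).symm
  refine ⟨Carrier (Nat.card (V ⋊[φ] H)), inferInstance, inferInstance,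
    ((SemidirectProduct.inr : H →* V ⋊[φ] H).range).map E.toMonoidHom, ⟨?_, ?_, ?_⟩, ⟨?_⟩⟩
  · rw [Ne, Subgroup.map_eq_bot_iff_of_injective _ E.injective, MonoidHom.range_eq_bot_iff]
    intro h
    obtain ⟨x, hx⟩ := exists_ne (1 : H)
    exact hx (SemidirectProduct.inr_injective (by rw [h]; simp))
  · intro h
    obtain ⟨v, hv⟩ := exists_ne (1 : V)
    have : E (SemidirectProduct.inl v) ∈ (⊤ : Subgroup (Carrier (Nat.card (V ⋊[φ] H)))) := trivial
    rw [← h] at this
    obtain ⟨_, ⟨x, rfl⟩, hx⟩ := this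
    have := congrArg SemidirectProduct.left (E.injective hx)
    simp at this
    exact hv this.symm
  · intro g hg
    rw [eq_bot_iff]
    rintro _ ⟨⟨_, ⟨x, rfl⟩, rfl⟩, hx⟩
    obtain ⟨_, ⟨_, ⟨y, rfl⟩, rfl⟩, hy⟩ := hx
    rw [Subgroup.mem_bot]
    obtain ⟨g, rfl⟩ := E.surjective g
    simp only [MulDistribMulAction.toMonoidEnd_apply, MulDistribMulAction.toMonoidHom_apply, MulAut.smul_def,
      MulAut.conj_apply, MulEquiv.coe_toMonoidHom] at hy
    rw [← map_inv, ← map_mul, ← map_mul] at hy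
    have h1 := E.injective hy
    have hl : g.left ≠ 1 := fun h => hg ⟨g, ⟨g.right, by ext <;> simp [h]⟩, rfl⟩
    have hl2 : g.left * (φ (g.right * y * g.right⁻¹) g.left)⁻¹ = 1 := by
      have := congrArg SemidirectProduct.left h1
      simpa [mul_assoc] using this
    have hr : g.right * y * g.right⁻¹ = x := by
      have := congrArg SemidirectProduct.right h1
      simpa using this
    rw [hr, mul_inv_eq_one] at hl2
    have hx1 : x = 1 := by
      by_contra hx1
      exact hl (hfpf x hx1 _ hl2.symm)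
    simp [hx1]
  · exact (MonoidHom.ofInjective (f := (SemidirectProduct.inr : H →* V ⋊[φ] H)) SemidirectProduct.inr_injective).trans
      (Subgroup.equivMapOfInjective _ E.toMonoidHom E.injective)

/-- A nontrivial finite subgroup of the multiplicative group of a division ring occurs as a Frobenius complement of some finite Frobenius group. -/
theorem result {D : Type*} [DivisionRing D] (H : Subgroup Dˣ) [Finite H] (hH : H ≠ ⊥) :
    ∃ (L : Type) (_ : Group L) (_ : Finite L) (C : Subgroup L), Cfsg.IsFrobeniusComplement C ∧ Nonempty (H ≃* C) := by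
  classical
  haveI : Nontrivial H := (Subgroup.nontrivial_iff_ne_bot H).mpr hH
  haveI : Fintype H := Fintype.ofFinite H
  set M : AddSubgroup D := AddSubgroup.closure (Set.range fun h : H => ((h : Dˣ) : D)) with hM
  haveI hfg : AddGroup.FG M := (AddGroup.fg_iff_addSubgroup_fg M).mpr
    ⟨Finset.univ.image fun h : H => ((h : Dˣ) : D), by rw [hM, Finset.coe_image, Finset.coe_univ, Set.image_univ]⟩
  have hmul : ∀ (h : H), ∀ v ∈ M, ((h : Dˣ) : D) * v ∈ M := by
    intro h v hv
    induction hv using AddSubgroup.closure_induction with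
    | mem x hx =>
      obtain ⟨k, rfl⟩ := hx
      exact AddSubgroup.subset_closure ⟨h * k, by simp⟩
    | zero => simp
    | add x y _ _ hx hy => rw [mul_add]; exact add_mem hx hy
    | neg x _ hx => rw [mul_neg]; exact neg_mem hx
  have hone : (1 : D) ∈ M := AddSubgroup.subset_closure ⟨1, by simp⟩
  obtain ⟨l, hl, hlH, hne, hfinite⟩ : ∃ l : ℕ, l.Prime ∧ (∀ h : H, ¬ l ∣ orderOf h) ∧
      (¬ ∃ w ∈ M, (l : D) * w = 1) ∧ 0 < l := by
    obtain ⟨c, hc⟩ := CharP.exists D
    rcases CharP.char_is_prime_or_zero D c with hcp | rfl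
    · refine ⟨c, hcp, ?_, ?_, hcp.pos⟩
      · intro h hdvd
        haveI := Fact.mk hcp
        have hd := hdvd.trans (dvd_of_eq (show orderOf h = orderOf ((h : Dˣ) : D) by rw [orderOf_units, Subgroup.orderOf_coe]))
        have ho : orderOf (((h : Dˣ) : D) ^ (orderOf ((h : Dˣ) : D) / c)) = c := by
          have hpos : 0 < orderOf ((h : Dˣ) : D) := by rw [orderOf_units, Subgroup.orderOf_coe]; exact orderOf_pos h
          rw [orderOf_pow_of_dvd (Nat.div_pos (Nat.le_of_dvd hpos hd) hcp.pos).ne' (Nat.div_dvd_of_dvd hd),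
            Nat.div_div_self hd hpos.ne']
        set z := ((h : Dˣ) : D) ^ (orderOf ((h : Dˣ) : D) / c)
        have hz : z = 1 := by
          have h1 : (z - 1) ^ c = 0 := by
            rw [sub_pow_char_of_commute (p := c) (Commute.one_right z), one_pow, ← ho, pow_orderOf_eq_one, sub_self]
          exact sub_eq_zero.mp (pow_eq_zero_iff hcp.ne_zero |>.mp h1)
        rw [hz, orderOf_one] at ho
        exact hcp.ne_one ho.symm
      · rintro ⟨w, -, hw⟩
        rw [CharP.cast_eq_zero, zero_mul] at hw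
        exact zero_ne_one hw
    · haveI : CharZero D := CharP.charP_to_charZero D
      haveI : Module.Finite ℤ M := Module.Finite.iff_addGroup_fg.mpr hfg
      haveI : Module.IsTorsionFree ℤ M := inferInstance
      haveI : Module.Free ℤ M := Module.free_of_finite_type_torsion_free'
      let b := Module.Free.chooseBasis ℤ M
      obtain ⟨i, hi⟩ : ∃ i, b.repr ⟨1, hone⟩ i ≠ 0 := by
        by_contra hcon
        push Not at hcon
        have h0 : b.repr ⟨1, hone⟩ = 0 := Finsupp.ext hcon
        rw [LinearEquiv.map_eq_zero_iff] at h0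
        exact one_ne_zero (congrArg Subtype.val h0)
      obtain ⟨l, hl, hlp⟩ := Nat.exists_infinite_primes (max (Nat.card H) (b.repr ⟨1, hone⟩ i).natAbs + 1)
      refine ⟨l, hlp, fun h hdvd => ?_, ?_, hlp.pos⟩
      · have := Nat.le_of_dvd Nat.card_pos (hdvd.trans (orderOf_dvd_natCard h))
        omega
      · rintro ⟨w, hw, hwe⟩
        have e : (⟨1, hone⟩ : M) = (l : ℤ) • ⟨w, hw⟩ := Subtype.ext (by simp [hwe])
        have hd : l ∣ (b.repr ⟨1, hone⟩ i).natAbs := by
          rw [e, map_smul, Finsupp.smul_apply, smul_eq_mul, Int.natAbs_mul, Int.natAbs_natCast]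
          exact dvd_mul_right _ _
        have := Nat.le_of_dvd (Int.natAbs_pos.mpr hi) hd
        omega
  set T : AddSubgroup M := (nsmulAddMonoidHom (α := M) l).range with hT
  haveI : AddGroup.FG (M ⧸ T) := inferInstance
  haveI : Finite (M ⧸ T) := AddCommGroup.finite_of_fg_torsion _ fun v => by
    obtain ⟨w, rfl⟩ := QuotientAddGroup.mk_surjective v
    exact isOfFinAddOrder_iff_nsmul_eq_zero.mpr ⟨l, hfinite, by
      rw [← QuotientAddGroup.mk_nsmul, QuotientAddGroup.eq_zero_iff]; exact ⟨w, rfl⟩⟩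
  haveI : Nontrivial (M ⧸ T) := ⟨⟨((⟨1, hone⟩ : M) : M ⧸ T), 0, fun h => by
    obtain ⟨w, hw⟩ := (QuotientAddGroup.eq_zero_iff _).mp h
    refine hne ⟨w, w.2, ?_⟩
    simpa [nsmul_eq_mul] using congrArg Subtype.val hw⟩⟩
  let μ : H → (M →+ M) := fun h => AddMonoidHom.mk' (fun v => ⟨((h : Dˣ) : D) * v, hmul h v v.2⟩)
    (fun a b => Subtype.ext (mul_add _ _ _))
  have hμT : ∀ h, T ≤ T.comap (μ h) := by
    rintro h _ ⟨w, rfl⟩
    exact ⟨μ h w, (map_nsmul (μ h) l w).symm⟩
  let ν : H → (M ⧸ T →+ M ⧸ T) := fun h => QuotientAddGroup.map T T (μ h) (hμT h)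
  have hνmk : ∀ h (v : M), ν h (v : M ⧸ T) = ((μ h v : M) : M ⧸ T) := fun h v => rfl
  have hνmul : ∀ g h v, ν g (ν h v) = ν (g * h) v := by
    intro g h v
    obtain ⟨v, rfl⟩ := QuotientAddGroup.mk_surjective v
    rw [hνmk, hνmk, hνmk]
    congr 1
    apply Subtype.ext
    simp [μ, mul_assoc]
  have hν1 : ∀ v, ν 1 v = v := by
    intro v
    obtain ⟨v, rfl⟩ := QuotientAddGroup.mk_surjective v
    rw [hνmk]
    congr 1
    apply Subtype.ext
    simp [μ]
  let φ : H →* MulAut (Multiplicative (M ⧸ T)) := MonoidHom.mk' (fun h =>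
    { toFun := fun v => Multiplicative.ofAdd (ν h v.toAdd)
      invFun := fun v => Multiplicative.ofAdd (ν h⁻¹ v.toAdd)
      left_inv := fun v => by simp [hνmul, hν1]
      right_inv := fun v => by simp [hνmul, hν1]
      map_mul' := fun v w => by simp })
    (fun g h => MulEquiv.ext fun v => by simp [hνmul])
  refine frobenius_semidirect (H := H) φ ?_
  intro h hh v hv
  obtain ⟨w, hw⟩ := QuotientAddGroup.mk_surjective v.toAdd
  have hfix : ν h (w : M ⧸ T) = (w : M ⧸ T) := by
    rw [hw]; exact congrArg Multiplicative.toAdd hv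
  have hpow : ∀ j : ℕ, ν (h ^ j) (w : M ⧸ T) = (w : M ⧸ T) := by
    intro j
    induction j with
    | zero => rw [pow_zero]; exact hν1 _
    | succ j ih => rw [pow_succ', ← hνmul, ih, hfix]
  have hgeom : ∑ j ∈ Finset.range (orderOf h), ((h : Dˣ) : D) ^ j = 0 := by
    have h1 := geom_sum_mul ((h : Dˣ) : D) (orderOf h)
    have h2 : ((h : Dˣ) : D) ^ orderOf h = 1 := by
      rw [← Units.val_pow_eq_pow_val, ← SubgroupClass.coe_pow, pow_orderOf_eq_one]; rfl
    rw [h2, sub_self, mul_eq_zero] at h1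
    refine h1.resolve_right (sub_ne_zero.mpr fun e => hh ?_)
    exact Subtype.ext (Units.ext e)
  have hsum : ∑ j ∈ Finset.range (orderOf h), μ (h ^ j) w = 0 := by
    apply Subtype.ext
    rw [AddSubgroup.val_finset_sum]
    simp only [μ, AddMonoidHom.mk'_apply, SubgroupClass.coe_pow, Units.val_pow_eq_pow_val]
    rw [← Finset.sum_mul, hgeom, zero_mul]
    rfl
  have hzero : (orderOf h) • (w : M ⧸ T) = 0 := by
    have h1 := congrArg (QuotientAddGroup.mk' T) hsum
    rw [map_sum, map_zero] at h1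
    rw [← h1]
    conv_lhs => rw [← Finset.card_range (orderOf h), ← Finset.sum_const]
    exact Finset.sum_congr rfl fun j _ => (hpow j).symm
  have hlz : l • (w : M ⧸ T) = 0 := by
    rw [← QuotientAddGroup.mk_nsmul, QuotientAddGroup.eq_zero_iff]; exact ⟨w, rfl⟩
  have hord := Nat.dvd_gcd (addOrderOf_dvd_of_nsmul_eq_zero hzero) (addOrderOf_dvd_of_nsmul_eq_zero hlz)
  rw [Nat.coprime_comm.mp (hl.coprime_iff_not_dvd.mpr (hlH h)) |>.gcd_eq_one, Nat.dvd_one,
    AddMonoid.addOrderOf_eq_one_iff, hw] at hord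
  rw [← ofAdd_toAdd v, hord]
  rfl

end Cfsg.Agent.S4293
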