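import Cfsg.Statements.S4115
import Mathlib
import Cfsg.Agent.Lib.PLocal.TISubgroup
import Cfsg.Agent.Lib.Characters.PiSection
import Cfsg.Agent.Lib.Solv.Coprime
import Cfsg.Agent.Lib.Solv.Frobenius
import Cfsg.Agent.S4293
-- import your own Cfsg.Agent.* helpers here

set_option autoImplicit false
universe u
open Cfsg

namespace Cfsg.Agent.S4115

open Pointwise

variable {G : Type*} [Group G] [Finite G] {H : Subgroup G}

theorem nilp_le_conj (hTI : Cfsg.IsTISubset (H : Set G))
    (hHall : (Nat.card H).Coprime (H.subgroupOf (Subgroup.normalizer (H : Set G))).index)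
    (E : Subgroup G) (hE : Group.IsNilpotent E) (hd : Nat.card E ∣ Nat.card H) :
    ∃ g : G, E.map (MulAut.conj g).toMonoidHom ≤ H := by
  classical
  by_cases hE1 : E = ⊥
  · exact ⟨1, by rw [hE1, Subgroup.map_bot]; exact bot_le⟩
  have hco := Cfsg.Lib.PLocal.TISub.coprime_index hTI hHall
  haveI : Nontrivial E := (Subgroup.nontrivial_iff_ne_bot E).2 hE1
  haveI : Nontrivial (Subgroup.center E) := (Subgroup.nontrivial_iff_ne_bot _).2 (fun h => by
    haveI := hE
    exact Group.IsNilpotent.center_ne_bot (G := E) h)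
  obtain ⟨p, hp, hpd⟩ := Nat.exists_prime_and_dvd (Finite.one_lt_card (α := Subgroup.center E)).ne'
  haveI := Fact.mk hp
  obtain ⟨z, hz⟩ := exists_prime_orderOf_dvd_card' p hpd
  set z' : G := ((z : E) : G) with hz'
  have hzo : orderOf z' = p := by rw [hz', Subgroup.orderOf_coe, Subgroup.orderOf_coe, hz]
  have hpH : p ∣ Nat.card H := (hzo ▸ Subgroup.orderOf_dvd_natCard E (z : E).2).trans hd
  obtain ⟨P⟩ : Nonempty (Sylow p H) := inferInstance
  have hPG : ¬ p ∣ ((P : Subgroup H).map H.subtype).index := by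
    rw [Subgroup.index_map_subtype]
    exact hp.not_dvd_mul P.not_dvd_index (fun h => hp.ne_one (Nat.eq_one_of_dvd_coprimes hco hpH h))
  let S : Sylow p G := (IsPGroup.map P.isPGroup' H.subtype).toSylow hPG
  obtain ⟨R, hR⟩ := (IsPGroup.of_card (n := 1) (G := Subgroup.zpowers z') (by rw [Nat.card_zpowers, hzo, pow_one])).exists_le_sylow
  obtain ⟨g, hg⟩ := MulAction.exists_smul_eq G R S
  have hzH : MulAut.conj g z' ∈ H := by
    have h1 : MulAut.conj g z' ∈ (S : Subgroup G) := by
      rw [← hg]; exact Subgroup.smul_mem_pointwise_smul _ _ _ (hR (Subgroup.mem_zpowers _))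
    obtain ⟨w, -, e⟩ := h1
    rw [← e]; exact w.2
  refine ⟨g, ?_⟩
  set E' := E.map (MulAut.conj g).toMonoidHom
  have hcE : Nat.card E' ∣ Nat.card H := (Subgroup.card_map_dvd _ _).trans hd
  have hle : E' ≤ Subgroup.normalizer (H : Set G) := by
    rintro _ ⟨e, he, rfl⟩
    have h1 : e * z' = z' * e := congrArg Subtype.val (Subgroup.mem_center_iff.1 z.2 ⟨e, he⟩)
    have h2 : MulAut.conj g e * MulAut.conj g z' * (MulAut.conj g e)⁻¹ = MulAut.conj g z' := by
      rw [← map_inv, ← map_mul, ← map_mul, h1, mul_inv_cancel_right]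
    have hne : MulAut.conj g z' ≠ 1 := fun e' => hp.ne_one (by
      rw [← hzo, ← MulEquiv.orderOf_eq (MulAut.conj g) z', e', orderOf_one])
    exact Cfsg.Lib.PLocal.TISub.mem_normalizer_of_ti hTI hzH hne (by
      rw [show (MulAut.conj g).toMonoidHom e = MulAut.conj g e from rfl, h2]; exact hzH)
  intro x hx
  haveI : (H.subgroupOf (Subgroup.normalizer (H : Set G))).Normal := Subgroup.normal_in_normalizer
  have ho : orderOf (QuotientGroup.mk' (H.subgroupOf (Subgroup.normalizer (H : Set G))) ⟨x, hle hx⟩) = 1 := by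
    refine Nat.eq_one_of_dvd_coprimes hHall ?_ (orderOf_dvd_natCard _)
    refine (orderOf_map_dvd _ _).trans ?_
    rw [Subgroup.orderOf_mk]
    exact (Subgroup.orderOf_dvd_natCard _ hx).trans hcE
  rw [orderOf_eq_one_iff] at ho
  exact Subgroup.mem_subgroupOf.1
    ((QuotientGroup.eq_one_iff (N := H.subgroupOf (Subgroup.normalizer (H : Set G))) ⟨x, hle hx⟩).1 ho)

theorem commutes {K : Subgroup (Subgroup.normalizer (H : Set G))} (hK : K.Normal)
    (hc : K.IsComplement' (H.subgroupOf (Subgroup.normalizer (H : Set G))))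
    {g : G} (hg : g ∈ Subgroup.normalizer (H : Set G)) :
    ∃ k h : G, h ∈ H ∧ g = k * h ∧ ∀ x ∈ H, k * x = x * k := by
  haveI := hK
  haveI : (H.subgroupOf (Subgroup.normalizer (H : Set G))).Normal := Subgroup.normal_in_normalizer
  obtain ⟨⟨k, h⟩, e, -⟩ := hc.existsUnique ⟨g, hg⟩
  refine ⟨((k : Subgroup.normalizer (H : Set G)) : G), ((h : Subgroup.normalizer (H : Set G)) : G), h.2,
    (congrArg Subtype.val e).symm, fun x hx => ?_⟩
  exact congrArg Subtype.val (Subgroup.commute_of_normal_of_disjoint _ _ hK inferInstance hc.disjoint k.1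
    ⟨x, Subgroup.le_normalizer hx⟩ k.2 (by exact hx)).eq

theorem complement_of (hTI : Cfsg.IsTISubset (H : Set G))
    (hHall : (Nat.card H).Coprime (H.subgroupOf (Subgroup.normalizer (H : Set G))).index)
    {K : Subgroup (Subgroup.normalizer (H : Set G))} (hK : K.Normal)
    (hc : K.IsComplement' (H.subgroupOf (Subgroup.normalizer (H : Set G)))) :
    ∃ N : Subgroup G, N.Normal ∧ N.IsComplement' H := by
  have hco := Cfsg.Lib.PLocal.TISub.coprime_index hTI hHall
  obtain ⟨N, hN, h1, h2⟩ := Cfsg.Lib.Characters.exists_complement_of_fusion hco (fun x hx y hy hxy => by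
    obtain ⟨g, hg⟩ := isConj_iff.1 hxy
    by_cases hx1 : x = 1
    · exact ⟨1, one_mem _, by rw [← hg, hx1]; group⟩
    have hgN : g ∈ Subgroup.normalizer (H : Set G) :=
      Cfsg.Lib.PLocal.TISub.mem_normalizer_of_ti hTI hx hx1 (by rw [hg]; exact hy)
    obtain ⟨k, h, hh, rfl, hk⟩ := commutes hK hc hgN
    refine ⟨h, hh, ?_⟩
    rw [← hg]
    have := hk (h * x * h⁻¹) (mul_mem (mul_mem hh hx) (inv_mem hh))
    calc h * x * h⁻¹ = (h * x * h⁻¹) * k * k⁻¹ := by group
      _ = k * (h * x * h⁻¹) * k⁻¹ := by rw [this]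
      _ = k * h * x * (k * h)⁻¹ := by group)
    (fun E p hp hE hd => nilp_le_conj hTI hHall E (Cfsg.Lib.Characters.isNilpotent_of_isElementary hp hE) hd)
  refine ⟨N, hN, Subgroup.isComplement'_of_disjoint_and_mul_eq_univ (disjoint_iff.2 h2) ?_⟩
  haveI := hN
  rw [← Subgroup.normal_mul N H, h1]; rfl

/-- A group of order `card H` meeting `N` trivially is a conjugate of `H`. -/
theorem eq_conj (hTI : Cfsg.IsTISubset (H : Set G))
    (hHall : (Nat.card H).Coprime (H.subgroupOf (Subgroup.normalizer (H : Set G))).index)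
    (H' : Subgroup G) (hc : Nat.card H' = Nat.card H) : ∃ g : G, H' = MulAut.conj g • H := by
  classical
  by_cases hbot : H' = ⊥
  · refine ⟨1, ?_⟩
    rw [hbot, Subgroup.card_bot] at hc
    rw [hbot, map_one, one_smul, Subgroup.eq_bot_of_card_eq H hc.symm]
  -- a proper intersection with a conjugate of `H` is a Frobenius complement of `H'`
  have key : ∀ g : G, H' ⊓ MulAut.conj g • H ≠ ⊥ → ¬ H' ≤ MulAut.conj g • H →
      Cfsg.IsFrobeniusComplement ((MulAut.conj g • H).subgroupOf H') := by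
    intro g hne hnle
    refine ⟨fun h => hne ?_, fun h => hnle (Subgroup.subgroupOf_eq_top.1 h), fun y hy => ?_⟩
    · rw [Subgroup.subgroupOf_eq_bot, disjoint_iff, inf_comm] at h; exact h
    by_contra hne'
    obtain ⟨w, hw, hw1⟩ := (Subgroup.bot_or_exists_ne_one _).resolve_left hne'
    obtain ⟨hwX, hw'⟩ := Subgroup.mem_inf.1 hw
    rw [Subgroup.mem_pointwise_smul_iff_inv_smul_mem, ← map_inv, MulAut.smul_def, MulAut.conj_apply, inv_inv,
      Subgroup.mem_subgroupOf, Subgroup.mem_pointwise_smul_iff_inv_smul_mem, ← map_inv, MulAut.smul_def, MulAut.conj_apply] at hw'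
    have hwX' : g⁻¹ * (w : G) * g ∈ H := by
      rw [Subgroup.mem_subgroupOf, Subgroup.mem_pointwise_smul_iff_inv_smul_mem, ← map_inv, MulAut.smul_def, MulAut.conj_apply, inv_inv] at hwX
      exact hwX
    simp only [Subgroup.coe_mul, InvMemClass.coe_inv, inv_inv] at hw'
    have hn : g⁻¹ * (y : G)⁻¹ * g ∈ Subgroup.normalizer (H : Set G) :=
      Cfsg.Lib.PLocal.TISub.mem_normalizer_of_ti hTI hwX'
        (fun h => hw1 (Subtype.ext (by
          calc (w : G) = g * (g⁻¹ * (w : G) * g) * g⁻¹ := by group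
            _ = 1 := by rw [h]; group))) (by
        have e : g⁻¹ * (y : G)⁻¹ * g * (g⁻¹ * (w : G) * g) * (g⁻¹ * (y : G)⁻¹ * g)⁻¹ =
            g⁻¹ * ((y : G)⁻¹ * (w : G) * (y : G)) * g := by group
        rw [e]; exact hw')
    haveI : (H.subgroupOf (Subgroup.normalizer (H : Set G))).Normal := Subgroup.normal_in_normalizer
    have ho : orderOf (QuotientGroup.mk' (H.subgroupOf (Subgroup.normalizer (H : Set G))) ⟨_, hn⟩) = 1 := by
      refine Nat.eq_one_of_dvd_coprimes hHall ?_ (orderOf_dvd_natCard _)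
      refine (orderOf_map_dvd _ _).trans ?_
      rw [Subgroup.orderOf_mk, show g⁻¹ * (y : G)⁻¹ * g = MulAut.conj g⁻¹ (y : G)⁻¹ by simp,
        MulEquiv.orderOf_eq, orderOf_inv, ← hc]
      exact Subgroup.orderOf_dvd_natCard _ y.2
    rw [orderOf_eq_one_iff] at ho
    have hyH : g⁻¹ * (y : G)⁻¹ * g ∈ H := Subgroup.mem_subgroupOf.1
      ((QuotientGroup.eq_one_iff (N := H.subgroupOf (Subgroup.normalizer (H : Set G))) ⟨_, hn⟩).1 ho)
    apply hy
    rw [Subgroup.mem_subgroupOf, Subgroup.mem_pointwise_smul_iff_inv_smul_mem, ← map_inv, MulAut.smul_def, MulAut.conj_apply, inv_inv]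
    have := inv_mem hyH
    simpa [mul_assoc] using this
  have hcyc : ∀ x : H', ∃ g : G, (x : G) ∈ MulAut.conj g • H := by
    intro x
    haveI : Group.IsNilpotent (Subgroup.zpowers (x : G)) :=
      @CommGroup.isNilpotent _ IsCyclic.commGroup
    obtain ⟨g, hg⟩ := nilp_le_conj hTI hHall (Subgroup.zpowers (x : G)) inferInstance
      (by rw [Nat.card_zpowers, ← hc]; exact Subgroup.orderOf_dvd_natCard _ x.2)
    refine ⟨g⁻¹, ?_⟩
    rw [Subgroup.mem_pointwise_smul_iff_inv_smul_mem, map_inv, inv_inv]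
    exact hg ⟨_, Subgroup.mem_zpowers _, rfl⟩
  by_contra hcon
  push Not at hcon
  have hnle : ∀ g : G, ¬ H' ≤ MulAut.conj g • H := fun g h => hcon g
    (Subgroup.eq_of_le_of_card_ge h (by rw [hc, Nat.card_congr (Subgroup.equivSMul (MulAut.conj g) H).toEquiv.symm]))
  obtain ⟨a, ha, ha1⟩ := (Subgroup.bot_or_exists_ne_one H').resolve_left hbot
  obtain ⟨g, hg⟩ := hcyc ⟨a, ha⟩
  have hX := key g (fun h => ha1 (Subgroup.mem_bot.1 (h ▸ Subgroup.mem_inf.2 ⟨ha, hg⟩))) (hnle g)
  set X := (MulAut.conj g • H).subgroupOf H' with hXdef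
  have hkX := Cfsg.Lib.Solv.card_frobeniusKernel hX
  have h2X : 2 ≤ Nat.card X := by
    by_contra h
    exact hX.1 (Subgroup.eq_bot_of_card_eq _ (by have := Nat.card_pos (α := X); omega))
  have hiX : 2 ≤ X.index := Subgroup.one_lt_index_of_ne_top hX.2.1
  have hmX := X.card_mul_index
  obtain ⟨b, hb, hb1⟩ : ∃ b ∈ Cfsg.frobeniusKernel X, b ≠ 1 := by
    by_contra h
    push Not at h
    have : Cfsg.frobeniusKernel X ⊆ {1} := fun z hz => h z hz
    have := Set.ncard_le_ncard this
    rw [Set.ncard_singleton, ← Nat.card_coe_set_eq, hkX] at this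
    omega
  obtain ⟨g', hg'⟩ := hcyc b
  have hY := key g' (fun h => hb1 (Subtype.ext (Subgroup.mem_bot.1 (h ▸ Subgroup.mem_inf.2 ⟨b.2, hg'⟩)))) (hnle g')
  set Y := (MulAut.conj g' • H).subgroupOf H' with hYdef
  have hkY := Cfsg.Lib.Solv.card_frobeniusKernel hY
  have hcov : (Set.univ : Set H') ⊆ Cfsg.frobeniusKernel X ∪ Cfsg.frobeniusKernel Y := by
    intro z _
    by_contra hz
    simp only [Set.mem_union, Cfsg.frobeniusKernel, Set.mem_setOf_eq, not_or, not_forall, not_not] at hz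
    obtain ⟨⟨hz1, u, hu⟩, ⟨-, v, hv⟩⟩ := hz
    have hzu : (z : G) ∈ MulAut.conj ((u : G) * g) • H := by
      rw [map_mul, ← smul_smul, Subgroup.mem_pointwise_smul_iff_inv_smul_mem]
      rw [Subgroup.mem_pointwise_smul_iff_inv_smul_mem, Subgroup.mem_subgroupOf] at hu
      exact hu
    have hzv : (z : G) ∈ MulAut.conj ((v : G) * g') • H := by
      rw [map_mul, ← smul_smul, Subgroup.mem_pointwise_smul_iff_inv_smul_mem]
      rw [Subgroup.mem_pointwise_smul_iff_inv_smul_mem, Subgroup.mem_subgroupOf] at hv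
      exact hv
    have heq : MulAut.conj ((u : G) * g) • H = MulAut.conj ((v : G) * g') • H := by
      rw [Subgroup.mem_pointwise_smul_iff_inv_smul_mem, ← map_inv, MulAut.smul_def] at hzu hzv
      set c := ((v : G) * g')⁻¹ * ((u : G) * g)
      have e : c * MulAut.conj ((u : G) * g)⁻¹ (z : G) * c⁻¹ = MulAut.conj ((v : G) * g')⁻¹ (z : G) := by
        simp only [c, MulAut.conj_apply]; group
      have hcN : c ∈ Subgroup.normalizer (H : Set G) := Cfsg.Lib.PLocal.TISub.mem_normalizer_of_ti hTI hzu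
        (fun h => hz1 (Subtype.ext ((map_eq_one_iff _ (MulAut.conj _).injective).1 h))) (e ▸ hzv)
      have := Cfsg.Lib.Solv.conj_smul_eq_self_iff.2 hcN
      rw [show (u : G) * g = ((v : G) * g') * c by simp only [c]; group, map_mul, ← smul_smul, this]
    -- so `b` lies in a conjugate of `X` inside `H'`
    rcases hb with hb | hb
    · exact hb1 hb
    apply hb (v⁻¹ * u)
    rw [Subgroup.mem_pointwise_smul_iff_inv_smul_mem, Subgroup.mem_subgroupOf, Subgroup.mem_pointwise_smul_iff_inv_smul_mem]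
    have hb2 : (b : G) ∈ MulAut.conj ((v : G)⁻¹ * ((u : G) * g)) • H := by
      rw [map_mul, ← smul_smul, heq, smul_smul, ← map_mul, show (v : G)⁻¹ * ((v : G) * g') = g' by group]
      exact hg'
    rw [← mul_assoc, map_mul, ← smul_smul, Subgroup.mem_pointwise_smul_iff_inv_smul_mem,
      Subgroup.mem_pointwise_smul_iff_inv_smul_mem] at hb2
    exact hb2
  have hle := (Set.ncard_le_ncard hcov).trans (Set.ncard_union_le _ _)
  rw [Set.ncard_univ, ← Nat.card_coe_set_eq, ← Nat.card_coe_set_eq, hkX, hkY] at hle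
  have hmY := Y.card_mul_index
  have h2Y : 2 ≤ Nat.card Y := by
    by_contra h
    exact hY.1 (Subgroup.eq_bot_of_card_eq _ (by have := Nat.card_pos (α := Y); omega))
  have : X.index * 2 ≤ Nat.card H' := hmX ▸ (mul_comm X.index 2 ▸ Nat.mul_le_mul_right _ h2X)
  have : Y.index * 2 ≤ Nat.card H' := hmY ▸ (mul_comm Y.index 2 ▸ Nat.mul_le_mul_right _ h2Y)
  -- the identity lies in both kernels
  have h1both : (1 : H') ∈ Cfsg.frobeniusKernel X ∩ Cfsg.frobeniusKernel Y := ⟨Or.inl rfl, Or.inl rfl⟩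
  have hie := Set.ncard_union_add_ncard_inter (Cfsg.frobeniusKernel X) (Cfsg.frobeniusKernel Y)
  have hpos : 0 < (Cfsg.frobeniusKernel X ∩ Cfsg.frobeniusKernel Y).ncard := (Set.ncard_pos).2 ⟨1, h1both⟩
  have hu := Set.ncard_le_ncard hcov
  rw [Set.ncard_univ] at hu
  rw [← Nat.card_coe_set_eq (Cfsg.frobeniusKernel X), ← Nat.card_coe_set_eq (Cfsg.frobeniusKernel Y), hkX, hkY] at hie
  omega

theorem frobenius_of (hTI : Cfsg.IsTISubset (H : Set G))
    (hHall : (Nat.card H).Coprime (H.subgroupOf (Subgroup.normalizer (H : Set G))).index)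
    (hnn : ¬ H.Normal) (N : Subgroup G) (hN : N.Normal) (hc : N.IsComplement' H) :
    ∃ (L : Type) (_ : Group L) (_ : Finite L) (C : Subgroup L), Cfsg.IsFrobeniusComplement C ∧ Nonempty (H ≃* C) := by
  classical
  have hH1 : H ≠ ⊥ := fun h => hnn (h ▸ inferInstance)
  haveI : Nontrivial H := (Subgroup.nontrivial_iff_ne_bot H).2 hH1
  have hcN : Nat.card N = H.index := hc.index_eq_card.symm
  have hco : (Nat.card H).Coprime (Nat.card N) := hcN ▸ Cfsg.Lib.PLocal.TISub.coprime_index hTI hHall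
  have hdisj : N ⊓ H = ⊥ := disjoint_iff.1 hc.disjoint
  have hKc : ∀ k ∈ N ⊓ Subgroup.normalizer (H : Set G), ∀ h ∈ H, k * h = h * k := by
    rintro k ⟨hkN, hkH⟩ h hh
    have : k * h * k⁻¹ * h⁻¹ ∈ N ⊓ H := by
      refine Subgroup.mem_inf.2 ⟨?_, mul_mem ((Subgroup.mem_normalizer_iff.1 hkH h).1 hh) (inv_mem hh)⟩
      rw [show k * h * k⁻¹ * h⁻¹ = k * (h * k⁻¹ * h⁻¹) by group]
      exact mul_mem hkN (hN.conj_mem _ (inv_mem hkN) h)
    rw [hdisj, Subgroup.mem_bot, mul_inv_eq_one, mul_inv_eq_iff_eq_mul] at this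
    exact this
  have hfixK : ∀ h ∈ H, h ≠ 1 → ∀ n ∈ N, h * n = n * h → n ∈ Subgroup.normalizer (H : Set G) :=
    fun h hh hh1 n _ e => Cfsg.Lib.PLocal.TISub.mem_normalizer_of_ti hTI hh hh1 (by
      rw [← e, mul_inv_cancel_right]; exact hh)
  obtain ⟨q, hq, hqn⟩ : ∃ q : ℕ, q.Prime ∧ q ∣ ((Subgroup.normalizer (H : Set G)).subgroupOf N).index := by
    refine Nat.exists_prime_and_dvd (fun h => hnn ?_)
    rw [Subgroup.index_eq_one, Subgroup.subgroupOf_eq_top] at h
    rw [← Subgroup.normalizer_eq_top_iff, eq_top_iff, ← hc.sup_eq_top]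
    exact sup_le h Subgroup.le_normalizer
  haveI := Fact.mk hq
  haveI := hN
  obtain ⟨Q⟩ : Nonempty (Sylow q N) := inferInstance
  set Q0 := (Q : Subgroup N).map N.subtype
  have hfr : Subgroup.normalizer (Q0 : Set G) ⊔ N = ⊤ := Sylow.normalizer_sup_eq_top Q
  have hidx : ((N.subgroupOf (Subgroup.normalizer (Q0 : Set G)))).index = Nat.card H := by
    have h1 : N.index = Nat.card H := hc.symm.index_eq_card
    rw [← h1]
    show N.relIndex _ = _
    rw [← Subgroup.relIndex_top_right, ← hfr, Subgroup.relIndex_sup_right]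
  have hcoN : (Nat.card (N.subgroupOf (Subgroup.normalizer (Q0 : Set G)))).Coprime
      (N.subgroupOf (Subgroup.normalizer (Q0 : Set G))).index := by
    rw [hidx]
    refine Nat.Coprime.coprime_dvd_left ?_ hco.symm
    rw [← Subgroup.inf_subgroupOf_right, Nat.card_congr (Subgroup.subgroupOfEquivOfLe inf_le_right).toEquiv]
    exact Subgroup.card_dvd_of_le inf_le_left
  obtain ⟨C, hC⟩ := Subgroup.exists_right_complement'_of_coprime hcoN
  obtain ⟨g, hg⟩ := eq_conj hTI hHall (C.map (Subgroup.normalizer (Q0 : Set G)).subtype) (by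
    rw [← hidx, Nat.card_congr (Subgroup.equivMapOfInjective _ _ (Subgroup.subtype_injective _)).toEquiv.symm]
    exact (hC.symm.index_eq_card).symm)
  set Q1 := Q0.map (MulAut.conj g⁻¹).toMonoidHom
  have hQ1N : Q1 ≤ N := by
    rintro _ ⟨z, ⟨w, -, rfl⟩, rfl⟩
    exact hN.conj_mem _ w.2 g⁻¹
  have hQ1p : IsPGroup q Q1 := (Q.isPGroup'.map _).map _
  have hQ1c : Nat.card Q1 = q ^ (Nat.card N).factorization q := by
    rw [← Q.card_eq_multiplicity, Nat.card_congr (Subgroup.equivMapOfInjective (Q : Subgroup N) _ N.subtype_injective).toEquiv,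
      Nat.card_congr (Subgroup.equivMapOfInjective Q0 (MulAut.conj g⁻¹).toMonoidHom (MulAut.conj g⁻¹).injective).toEquiv]
  have hHQ : H ≤ Subgroup.normalizer (Q1 : Set G) := by
    intro h hh
    have h1 : g * h * g⁻¹ ∈ Subgroup.normalizer (Q0 : Set G) := by
      have : g * h * g⁻¹ ∈ C.map (Subgroup.normalizer (Q0 : Set G)).subtype := by
        rw [hg]; exact Subgroup.smul_mem_pointwise_smul _ _ _ hh
      obtain ⟨w, -, e⟩ := this
      rw [← e]; exact w.2
    exact Subgroup.le_normalizer_map (MulAut.conj g⁻¹).toMonoidHom ⟨_, h1, by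
      show g⁻¹ * (g * h * g⁻¹) * g⁻¹⁻¹ = h
      group⟩
  set R := Q1 ⊓ Subgroup.normalizer (H : Set G)
  have hRne : R.subgroupOf Q1 ≠ ⊤ := by
    intro h
    have hle : Q1 ≤ Subgroup.normalizer (H : Set G) := fun z hz => ((Subgroup.subgroupOf_eq_top.1 h) hz).2
    have h1 : (Subgroup.normalizer (H : Set G) ⊓ N).relIndex N ∣ Q1.relIndex N :=
      Subgroup.relIndex_dvd_of_le_left N (le_inf hle hQ1N)
    have h2 : q ∣ Q1.relIndex N := by
      refine dvd_trans ?_ h1
      rw [Subgroup.inf_relIndex_right]; exact hqn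
    have h3 : Q1.relIndex N * Nat.card Q1 = Nat.card N := by
      rw [← Nat.card_congr (Subgroup.subgroupOfEquivOfLe hQ1N).toEquiv, mul_comm]
      exact Subgroup.card_mul_index _
    have h4 : q ^ ((Nat.card N).factorization q + 1) ∣ Nat.card N := by
      rw [pow_succ, ← hQ1c, ← h3, mul_comm (Q1.relIndex N)]; exact mul_dvd_mul_left _ h2
    exact Nat.pow_succ_factorization_not_dvd Nat.card_pos.ne' hq h4
  haveI : Group.IsNilpotent Q1 := hQ1p.isNilpotent
  have hlt := Group.normalizerCondition_of_isNilpotent (G := Q1) (R.subgroupOf Q1) hRne.lt_top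
  set T := Q1 ⊓ Subgroup.normalizer (R : Set G)
  have hRT : R ≤ T := le_inf inf_le_left Subgroup.le_normalizer
  have hTR : ¬ T ≤ R := by
    intro h
    refine hlt.not_ge (fun z hz => ?_)
    have hz' : (z : G) ∈ Subgroup.normalizer (R : Set G) := by
      apply Subgroup.mem_normalizer_fintype
      intro r hr
      exact (Subgroup.mem_normalizer_iff.1 hz ⟨r, (inf_le_left : R ≤ Q1) hr⟩).1 hr
    exact h ⟨z.2, hz'⟩
  have hHR : H ≤ Subgroup.normalizer (R : Set G) := by
    intro h hh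
    apply Subgroup.mem_normalizer_fintype
    intro r hr
    have := hKc r ⟨hQ1N hr.1, hr.2⟩ h hh
    rw [← this, mul_inv_cancel_right]; exact hr
  have hHT : H ≤ Subgroup.normalizer (T : Set G) := by
    intro h hh
    apply Subgroup.mem_normalizer_fintype
    intro t ht
    exact ⟨(Subgroup.mem_normalizer_iff.1 (hHQ hh) t).1 ht.1, (Subgroup.normalizer (R : Set G)).mul_mem ((Subgroup.normalizer (R : Set G)).mul_mem (hHR hh) ht.2) (inv_mem (hHR hh))⟩
  let R' := R.subgroupOf T
  haveI : R'.Normal := ⟨fun r hr t => (Subgroup.mem_normalizer_iff.1 (t.2.2 : (t : G) ∈ _) r).1 hr⟩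
  haveI : Nontrivial (T ⧸ R') := QuotientGroup.nontrivial_iff.2 (fun h => hTR (Subgroup.subgroupOf_eq_top.1 h))
  let a : H → (T →* T ⧸ R') := fun h => (QuotientGroup.mk' R').comp
    (MonoidHom.mk' (fun t : T => (⟨(h : G) * t * (h : G)⁻¹, (Subgroup.mem_normalizer_iff.1 (hHT h.2) _).1 t.2⟩ : T))
      (fun s t => Subtype.ext (by simp [mul_assoc])))
  let b : H → (T ⧸ R' →* T ⧸ R') := fun h => QuotientGroup.lift R' (a h) (fun r hr =>
    (QuotientGroup.eq_one_iff _).2 ((Subgroup.mem_normalizer_iff.1 (hHR h.2) _).1 hr))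
  have hb : ∀ g h v, b (g * h) v = b g (b h v) := by
    intro g h v
    induction v using QuotientGroup.induction_on
    exact congrArg (QuotientGroup.mk' R') (Subtype.ext (by simp [mul_assoc]))
  have hb1 : ∀ v, b 1 v = v := by
    intro v
    induction v using QuotientGroup.induction_on
    simp [b, a]
  let φ : H →* MulAut (T ⧸ R') := MonoidHom.mk' (fun h =>
    { toFun := b h, invFun := b h⁻¹
      left_inv := fun v => by rw [← hb, inv_mul_cancel, hb1]
      right_inv := fun v => by rw [← hb, mul_inv_cancel, hb1]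
      map_mul' := (b h).map_mul }) (fun g h => MulEquiv.ext fun v => hb g h v)
  refine Cfsg.Agent.S4293.frobenius_semidirect φ ?_
  intro h hh v hv
  induction v using QuotientGroup.induction_on with
  | H t =>
    change b h (t : T ⧸ R') = (t : T ⧸ R') at hv
    replace hv : ((h : G) * (t : G) * (h : G)⁻¹)⁻¹ * (t : G) ∈ R := Subgroup.mem_subgroupOf.1 (QuotientGroup.eq.1 hv)
    have hT : ∀ z ∈ Subgroup.zpowers ((h : G)), z ∈ H := fun z hz => (Subgroup.zpowers_le.2 h.2) hz
    obtain ⟨c, hc', htc⟩ := Cfsg.Lib.Solv.fixed_coset (Subgroup.zpowers (h : G)) T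
      (fun z hz => hHT (hT z hz))
      (by
        refine Nat.Coprime.coprime_dvd_left ?_ (hco.coprime_dvd_right (Subgroup.card_dvd_of_le (inf_le_left.trans hQ1N)))
        exact Subgroup.card_dvd_of_le (Subgroup.zpowers_le.2 h.2))
      (Or.inl inferInstance) R hRT (fun z hz => hz.2) (fun z hz => hHR (hT z hz)) (t : G) t.2
      (by
        intro z hz
        have h0 : (h : G) * (t : G) * (h : G)⁻¹ * (t : G)⁻¹ ∈ R := by
          have := (Subgroup.mem_normalizer_iff.1 (t.2.2 : (t : G) ∈ _) _).1 (inv_mem hv)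
          have e : (t : G) * (((h : G) * (t : G) * (h : G)⁻¹)⁻¹ * (t : G))⁻¹ * (t : G)⁻¹ = ((h : G) * (t : G) * (h : G)⁻¹ * (t : G)⁻¹) := by
            group
          first
            | exact e ▸ this
            | exact (inv_mem_iff.1 (e ▸ this))
        -- the set of such elements is closed under powers
        obtain ⟨n, rfl⟩ := Subgroup.mem_zpowers_iff.1 hz
        clear hz
        induction n using Int.induction_on with
        | zero => simpa using one_mem R
        | succ i ih =>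
          rw [zpow_add_one]
          have e : (h : G) ^ (i : ℤ) * h * t * ((h : G) ^ (i : ℤ) * h)⁻¹ * (t : G)⁻¹ =
              ((h : G) ^ (i : ℤ) * ((h : G) * t * (h : G)⁻¹ * (t : G)⁻¹) * ((h : G) ^ (i : ℤ))⁻¹) *
                ((h : G) ^ (i : ℤ) * t * ((h : G) ^ (i : ℤ))⁻¹ * (t : G)⁻¹) := by group
          rw [e]
          exact mul_mem ((Subgroup.mem_normalizer_iff.1 (zpow_mem (hHR h.2) _) _).1 h0) ih
        | pred i ih =>
          rw [zpow_sub_one]
          have e : (h : G) ^ (-(i : ℤ)) * (h : G)⁻¹ * t * ((h : G) ^ (-(i : ℤ)) * (h : G)⁻¹)⁻¹ * (t : G)⁻¹ =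
              ((h : G) ^ (-(i : ℤ)) * ((h : G)⁻¹ * ((h : G) * t * (h : G)⁻¹ * (t : G)⁻¹)⁻¹ * (h : G)) * ((h : G) ^ (-(i : ℤ)))⁻¹) *
                ((h : G) ^ (-(i : ℤ)) * t * ((h : G) ^ (-(i : ℤ)))⁻¹ * (t : G)⁻¹) := by group
          rw [e]
          refine mul_mem ((Subgroup.mem_normalizer_iff.1 (zpow_mem (hHR h.2) _) _).1 ?_) ih
          exact (Subgroup.mem_normalizer_iff''.1 (hHR h.2) _).1 (inv_mem h0))
    obtain ⟨hcT, hcC⟩ := Subgroup.mem_inf.1 hc'
    have hcR : c ∈ R := ⟨hcT.1, hfixK h h.2 (fun e => hh (Subtype.ext e)) c (hQ1N hcT.1)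
      (Subgroup.mem_centralizer_iff.1 hcC h (Subgroup.mem_zpowers _))⟩
    rw [QuotientGroup.eq_one_iff]
    show (t : G) ∈ R
    have e : (t : G) = c * ((t : G)⁻¹ * c)⁻¹ := by group
    rw [e]
    exact mul_mem hcR (inv_mem htc)

/-- Let G be a finite group and H a subgroup that meets each of its conjugates by elements outside N_G(H) trivially and whose order is coprime to its index in N_G(H). Then H has a normal complement in N_G(H) if and only if H has a normal complement in G. Moreover, if H is not normal in G and has a normal complement in N_G(H), then H is isomorphic to a Frobenius complement of some finite Frobenius group. -/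
theorem result {G : Type u} [Group G] [Finite G] (H : Subgroup G)
    (hTI : Cfsg.IsTISubset (H : Set G)) (hHall : (Nat.card H).Coprime (H.subgroupOf (Subgroup.normalizer (H : Set G))).index) :
    ((∃ K : Subgroup (Subgroup.normalizer (H : Set G)), K.Normal ∧ K.IsComplement' (H.subgroupOf (Subgroup.normalizer (H : Set G)))) ↔
      (∃ N : Subgroup G, N.Normal ∧ N.IsComplement' H)) ∧
    (¬ H.Normal → (∃ K : Subgroup (Subgroup.normalizer (H : Set G)), K.Normal ∧ K.IsComplement' (H.subgroupOf (Subgroup.normalizer (H : Set G)))) →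
      ∃ (F : Type u) (_ : Group F) (_ : Finite F) (C : Subgroup F), Cfsg.IsFrobeniusComplement C ∧ Nonempty (H ≃* C)) := by
  classical
  have h12 : (∃ K : Subgroup (Subgroup.normalizer (H : Set G)), K.Normal ∧ K.IsComplement' (H.subgroupOf (Subgroup.normalizer (H : Set G)))) →
      ∃ N : Subgroup G, N.Normal ∧ N.IsComplement' H := fun ⟨K, hK, hc⟩ => complement_of hTI hHall hK hc
  refine ⟨⟨h12, ?_⟩, fun hnn hK => ?_⟩
  · rintro ⟨N, hN, hc⟩
    haveI := hN
    refine ⟨N.subgroupOf (Subgroup.normalizer (H : Set G)), inferInstance, Subgroup.isComplement'_of_disjoint_and_mul_eq_univ ?_ ?_⟩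
    · rw [disjoint_iff]
      refine (Subgroup.eq_bot_iff_forall _).2 fun z hz => ?_
      obtain ⟨h1, h2⟩ := Subgroup.mem_inf.1 hz
      have : (z : G) ∈ N ⊓ H := Subgroup.mem_inf.2 ⟨h1, h2⟩
      rw [disjoint_iff.1 hc.disjoint] at this
      exact Subtype.ext this
    · refine Set.eq_univ_of_forall fun z => ?_
      obtain ⟨⟨n, h⟩, e, -⟩ := hc.existsUnique (z : G)
      change (n : G) * (h : G) = z at e
      have hn : (n : G) ∈ Subgroup.normalizer (H : Set G) := by
        rw [eq_mul_inv_of_mul_eq e]; exact mul_mem z.2 (inv_mem (Subgroup.le_normalizer h.2))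
      exact ⟨⟨_, hn⟩, n.2, ⟨_, Subgroup.le_normalizer h.2⟩, h.2, Subtype.ext e⟩
  · obtain ⟨N, hN, hc⟩ := h12 hK
    obtain ⟨L, i1, i2, C, hC, ⟨e⟩⟩ := frobenius_of hTI hHall hnn N hN hc
    let E : L ≃* ULift.{u} L := MulEquiv.ulift.symm
    refine ⟨ULift.{u} L, inferInstance, inferInstance, C.map E.toMonoidHom, ⟨?_, ?_, ?_⟩, ⟨e.trans (Subgroup.equivMapOfInjective _ _ E.injective)⟩⟩
    · exact fun h => hC.1 ((Subgroup.map_eq_bot_iff_of_injective _ E.injective).1 h)
    · intro h
      exact hC.2.1 (Subgroup.map_injective E.injective (h.trans (Subgroup.map_top_of_surjective _ E.surjective).symm))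
    · intro z hz
      obtain ⟨y, rfl⟩ := E.surjective z
      have hy : y ∉ C := fun h => hz ⟨y, h, rfl⟩
      rw [eq_bot_iff]
      rintro _ ⟨⟨x, hx, rfl⟩, hx2⟩
      obtain ⟨_, ⟨w, hw, rfl⟩, e'⟩ := hx2
      simp only [MulDistribMulAction.toMonoidEnd_apply, MulDistribMulAction.toMonoidHom_apply, MulAut.smul_def,
        MulAut.conj_apply, MulEquiv.coe_toMonoidHom] at e'
      rw [← map_inv, ← map_mul, ← map_mul] at e'
      have := E.injective e'
      have hmem : x ∈ C ⊓ MulAut.conj y • C := ⟨hx, w, hw, this⟩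
      rw [hC.2.2 y hy] at hmem
      rw [Subgroup.mem_bot, show x = 1 from hmem]
      exact map_one E

end Cfsg.Agent.S4115
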