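import Cfsg.Statements.S4116
import Mathlib
-- import your own Cfsg.Agent.* helpers here

set_option autoImplicit false
open Cfsg
open scoped Pointwise

namespace Cfsg.Agent.S4116

/-- Let G be a finite group with a subgroup H whose order is coprime to its index (a Hall subgroup) and which meets each of its conjugates by elements outside N_G(H) trivially. Then every subgroup of G whose order is divisible only by primes dividing the order of H lies in a conjugate of H. -/
theorem result {G : Type*} [Group G] [Finite G] (H : Subgroup G)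
    (hHall : (Nat.card H).Coprime H.index) (hTI : Cfsg.IsTISubset (H : Set G))
    (K : Subgroup G) (hK : ∀ q : ℕ, q.Prime → q ∣ Nat.card K → q ∣ Nat.card H) :
    ∃ g : G, K ≤ H.map (MulAut.conj g).toMonoidHom := by
  classical
  set N := Subgroup.normalizer (H : Set G)
  have hcop : (Nat.card K).Coprime H.index := Nat.coprime_of_dvd fun q hq h1 h2 => by
    have := Nat.dvd_gcd (hK q hq h1) h2
    rw [hHall.gcd_eq_one, Nat.dvd_one] at this
    exact hq.ne_one this
  -- a `π`-element normalising `H` lies in `H`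
  have hpiN : ∀ x : G, ∀ k ∈ K, x⁻¹ * k * x ∈ N → x⁻¹ * k * x ∈ H := by
    intro x k hk hn
    haveI : (H.subgroupOf N).Normal := Subgroup.normal_in_normalizer
    have h1 : orderOf (x⁻¹ * k * x) ∣ Nat.card K := by
      have e : orderOf (x⁻¹ * k * x) = orderOf k := by
        simpa using (MulAut.conj x⁻¹).orderOf_eq k
      rw [e]
      exact Subgroup.orderOf_dvd_natCard K hk
    let z : N ⧸ H.subgroupOf N := (⟨_, hn⟩ : N)
    have h2 : orderOf z ∣ Nat.card K :=
      (orderOf_map_dvd (QuotientGroup.mk' (H.subgroupOf N)) (⟨_, hn⟩ : N)).trans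
        ((Subgroup.orderOf_mk _ hn).symm ▸ h1)
    have h3 : orderOf z ∣ H.index := by
      refine (orderOf_dvd_natCard z).trans ?_
      rw [← Subgroup.index_eq_card]
      exact Subgroup.relIndex_dvd_index_of_le Subgroup.le_normalizer
    have h4 : orderOf z = 1 := Nat.dvd_one.mp (hcop ▸ Nat.dvd_gcd h2 h3)
    rw [orderOf_eq_one_iff, QuotientGroup.eq_one_iff, Subgroup.mem_subgroupOf] at h4
    exact h4
  -- TI
  have hti : ∀ x y k : G, k ≠ 1 → x⁻¹ * k * x ∈ H → y⁻¹ * k * y ∈ H → y⁻¹ * x ∈ N := by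
    intro x y k hk hx hy
    by_contra hn
    have h := hTI (y⁻¹ * x) hn _ hx (by
      rw [show y⁻¹ * x * (x⁻¹ * k * x) * (y⁻¹ * x)⁻¹ = y⁻¹ * k * y by group]
      exact hy)
    apply hk
    calc k = x * (x⁻¹ * k * x) * x⁻¹ := by group
      _ = 1 := by rw [h]; group
  have hsame : ∀ x y k : G, k ≠ 1 → x⁻¹ * k * x ∈ H → y⁻¹ * k * y ∈ H →
      ∀ j : G, y⁻¹ * j * y ∈ H → x⁻¹ * j * x ∈ H := by
    intro x y k hk hx hy j hj
    have h := (Subgroup.mem_normalizer_iff''.mp (hti x y k hk hx hy) (y⁻¹ * j * y)).mp hj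
    rw [show (y⁻¹ * x)⁻¹ * (y⁻¹ * j * y) * (y⁻¹ * x) = x⁻¹ * j * x by group] at h
    exact h
  -- Sylow subgroups of `K` lie in conjugates
  have hsyl : ∀ q : ℕ, q.Prime → q ∣ Nat.card K → ∀ Q : Sylow q K, ∃ y : G, ∀ k ∈ (Q : Subgroup K), y⁻¹ * (k : G) * y ∈ H := by
    intro q hq hqK Q
    haveI : Fact q.Prime := ⟨hq⟩
    obtain ⟨S, hS⟩ := (Q.isPGroup'.map K.subtype).exists_le_sylow
    obtain ⟨P⟩ : Nonempty (Sylow q H) := inferInstance
    obtain ⟨T, hT⟩ := (P.isPGroup'.map H.subtype).exists_le_sylow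
    have hTH : (T : Subgroup G) ≤ H := by
      refine le_of_eq_of_le (Subgroup.eq_of_le_of_card_ge hT ?_).symm (Subgroup.map_subtype_le _)
      rw [T.card_eq_multiplicity, Subgroup.card_map_of_injective H.subtype_injective,
        P.card_eq_multiplicity, ← H.card_mul_index,
        Nat.factorization_mul Nat.card_pos.ne' Subgroup.index_ne_zero_of_finite, Finsupp.add_apply,
        Nat.factorization_eq_zero_of_not_dvd
          (fun h => hq.ne_one (Nat.dvd_one.1 (hHall ▸ Nat.dvd_gcd (hK q hq hqK) h))), add_zero]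
    obtain ⟨g, hg⟩ := MulAction.exists_smul_eq G S T
    refine ⟨g⁻¹, fun k hk => ?_⟩
    have h1 : (MulAut.conj g) (k : G) ∈ MulAut.conj g • (S : Subgroup G) :=
      Subgroup.smul_mem_pointwise_smul _ _ _ (hS ⟨k, hk, rfl⟩)
    rw [← Sylow.pointwise_smul_def, ← Sylow.smul_def, hg] at h1
    simpa using hTH h1
  by_cases hK1 : Nat.card K = 1
  · exact ⟨1, fun k hk => by
      rw [Subgroup.card_eq_one.mp hK1, Subgroup.mem_bot] at hk
      rw [hk]
      exact one_mem _⟩
  obtain ⟨p, hp, hpK⟩ := Nat.exists_prime_and_dvd hK1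
  haveI : Fact p.Prime := ⟨hp⟩
  let A : G → Subgroup K := fun x => (H.map (MulAut.conj x).toMonoidHom).subgroupOf K
  have hmemA : ∀ (x : G) (k : K), k ∈ A x ↔ x⁻¹ * (k : G) * x ∈ H := by
    intro x k
    show (k : G) ∈ H.map (MulAut.conj x).toMonoidHom ↔ _
    rw [Subgroup.mem_map]
    constructor
    · rintro ⟨h, hh, e⟩
      rw [← e]
      simpa [mul_assoc] using hh
    · exact fun h => ⟨_, h, by simp [mul_assoc]⟩
  obtain ⟨P⟩ : Nonempty (Sylow p K) := inferInstance
  obtain ⟨x, hx⟩ := hsyl p hp hpK P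
  refine ⟨x, ?_⟩
  have hPne : (P : Subgroup K) ≠ ⊥ := P.ne_bot_of_dvd_card hpK
  have hPA : (P : Subgroup K) ≤ A x := fun k hk => (hmemA x k).mpr (hx k hk)
  have hAne : A x ≠ ⊥ := fun e => hPne (le_bot_iff.mp (e ▸ hPA))
  -- `A x` is a Hall subgroup of `K`
  have hA : ∀ q : ℕ, q.Prime → q ∣ Nat.card (A x) → ¬ q ∣ (A x).index := by
    intro q hq hqA hqi
    haveI : Fact q.Prime := ⟨hq⟩
    obtain ⟨a, ha⟩ := exists_prime_orderOf_dvd_card' q hqA
    obtain ⟨Q, hQ⟩ := (IsPGroup.of_card (G := Subgroup.zpowers (a : K)) (p := q) (n := 1)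
      (by rw [Nat.card_zpowers, pow_one, Subgroup.orderOf_coe, ha])).exists_le_sylow
    obtain ⟨y, hy⟩ := hsyl q hq (hqA.trans (Subgroup.card_subgroup_dvd_card _)) Q
    have hane : ((a : K) : G) ≠ 1 := by
      intro e
      have e' : a = 1 := by exact_mod_cast e
      rw [e', orderOf_one] at ha
      exact hq.ne_one ha.symm
    have hQA : (Q : Subgroup K) ≤ A x := fun j hj => (hmemA x j).mpr
      (hsame x y _ hane ((hmemA x _).mp a.2) (hy _ (hQ (Subgroup.mem_zpowers _))) _ (hy j hj))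
    exact Q.not_dvd_index (hqi.trans (Subgroup.index_dvd_of_le hQA))
  by_cases hidx : (A x).index = 1
  · rw [Subgroup.index_eq_one] at hidx
    intro k hk
    have : (⟨k, hk⟩ : K) ∈ A x := by rw [hidx]; trivial
    exact this
  exfalso
  obtain ⟨q, hq, hqi⟩ := Nat.exists_prime_and_dvd hidx
  haveI : Fact q.Prime := ⟨hq⟩
  obtain ⟨Q⟩ : Nonempty (Sylow q K) := inferInstance
  have hqK : q ∣ Nat.card K := hqi.trans (Subgroup.index_dvd_card _)
  obtain ⟨y, hy⟩ := hsyl q hq hqK Q
  have hqB : q ∣ Nat.card (A y) :=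
    (Q.dvd_card_of_dvd_card hqK).trans (Subgroup.card_dvd_of_le fun k hk => (hmemA y k).mpr (hy k hk))
  have hBne : A y ≠ ⊥ := fun e => by
    rw [e, Subgroup.card_bot, Nat.dvd_one] at hqB
    exact hq.ne_one hqB
  -- counting
  let f : ∀ z : G, (K ⧸ A z) × {a : A z // a ≠ 1} → {k : K // k ≠ 1} := fun z v =>
    ⟨v.1.out * ((v.2.1 : A z) : K) * v.1.out⁻¹, fun e => v.2.2 (by
      have e1 : ((v.2.1 : A z) : K) = 1 := by simpa using e
      exact_mod_cast e1)⟩
  have key : ∀ z w : G, ∀ v : (K ⧸ A z) × {a : A z // a ≠ 1}, ∀ u : (K ⧸ A w) × {a : A w // a ≠ 1},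
      f z v = f w u → ∀ e : K, e ∈ A w → (u.1.out⁻¹ * v.1.out)⁻¹ * e * (u.1.out⁻¹ * v.1.out) ∈ A z := by
    intro z w v u h e he
    set g : K := u.1.out⁻¹ * v.1.out with hg
    have hb : ((u.2.1 : A w) : K) = g * ((v.2.1 : A z) : K) * g⁻¹ := by
      have h' := congrArg Subtype.val h
      simp only [f] at h'
      rw [hg, mul_inv_rev, inv_inv]
      calc ((u.2.1 : A w) : K) = u.1.out⁻¹ * (u.1.out * ((u.2.1 : A w) : K) * u.1.out⁻¹) * u.1.out := by group
        _ = _ := by rw [← h']; group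
    have hb1 : (((u.2.1 : A w) : K) : G) ≠ 1 := fun e => u.2.2 (by exact_mod_cast e)
    have h1 : w⁻¹ * (((u.2.1 : A w) : K) : G) * w ∈ H := (hmemA w _).mp u.2.1.2
    have h2 : ((g : G) * z)⁻¹ * (((u.2.1 : A w) : K) : G) * ((g : G) * z) ∈ H := by
      rw [hb]
      push_cast
      have h3 := (hmemA z _).mp v.2.1.2
      simpa [mul_assoc] using h3
    have h4 := hsame ((g : G) * z) w _ hb1 h2 h1 (e : G) ((hmemA w _).mp he)
    rw [hmemA]
    push_cast
    simpa [mul_assoc] using h4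
  have hinj : ∀ z : G, Function.Injective (f z) := by
    intro z v u h
    set g : K := u.1.out⁻¹ * v.1.out with hg
    have hgA : g ∈ A z := by
      have h' := congrArg Subtype.val h
      simp only [f] at h'
      have hb : ((u.2.1 : A z) : K) = g * ((v.2.1 : A z) : K) * g⁻¹ := by
        rw [hg, mul_inv_rev, inv_inv]
        calc ((u.2.1 : A z) : K) = u.1.out⁻¹ * (u.1.out * ((u.2.1 : A z) : K) * u.1.out⁻¹) * u.1.out := by group
          _ = _ := by rw [← h']; group
      have hb1 : (((u.2.1 : A z) : K) : G) ≠ 1 := fun e => u.2.2 (by exact_mod_cast e)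
      have h2 : ((g : G) * z)⁻¹ * (((u.2.1 : A z) : K) : G) * ((g : G) * z) ∈ H := by
        rw [hb]
        push_cast
        have h3 := (hmemA z _).mp v.2.1.2
        simpa [mul_assoc] using h3
      have h4 := hti ((g : G) * z) z _ hb1 h2 ((hmemA z _).mp u.2.1.2)
      rw [← mul_assoc] at h4
      exact (hmemA z g).mpr (hpiN z g g.2 h4)
    have e1 : v.1 = u.1 := by
      rw [← QuotientGroup.out_eq' v.1, ← QuotientGroup.out_eq' u.1]
      exact (QuotientGroup.eq.mpr hgA).symm
    refine Prod.ext e1 (Subtype.ext (Subtype.ext ?_))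
    have h' := congrArg Subtype.val h
    simp only [f, e1] at h'
    simpa using h'
  have hdisj : ∀ v u, f x v ≠ f y u := by
    intro v u h
    obtain ⟨e, he⟩ := exists_prime_orderOf_dvd_card' q hqB
    have h1 := key x y v u h e e.2
    have h2 : q ∣ Nat.card (A x) := by
      refine (dvd_of_eq ?_).trans (Subgroup.orderOf_dvd_natCard _ h1)
      rw [← he, ← Subgroup.orderOf_coe e]
      simpa [mul_assoc] using ((MulAut.conj (u.1.out⁻¹ * v.1.out)⁻¹).orderOf_eq (e : K)).symm
    exact hA q hq h2 hqi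
  have hcount := Nat.card_le_card_of_injective (Sum.elim (f x) (f y)) (Function.Injective.sumElim (hinj x) (hinj y) hdisj)
  have hs : ∀ (W : Type _) [Group W] [Finite W], Nat.card {w : W // w ≠ 1} + 1 = Nat.card W := by
    intro W _ _
    rw [← Finite.card_option, Nat.card_congr (Equiv.optionSubtypeNe (1 : W))]
  have eK := hs K
  have eA := hs (A x)
  have eB := hs (A y)
  have hAi := (A x).index_mul_card
  have hBi := (A y).index_mul_card
  have hA2 : 2 ≤ Nat.card (A x) := (Subgroup.one_lt_card_iff_ne_bot _).mpr hAne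
  have hB2 : 2 ≤ Nat.card (A y) := (Subgroup.one_lt_card_iff_ne_bot _).mpr hBne
  rw [Nat.card_sum, Nat.card_prod, Nat.card_prod, ← Subgroup.index_eq_card, ← Subgroup.index_eq_card] at hcount
  nlinarith

end Cfsg.Agent.S4116
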