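import Cfsg.Statements.S4117
import Mathlib
import Cfsg.Agent.Lib.PLocal.TISubgroup
import Cfsg.Agent.Lib.Solv.MinNormal
-- import your own Cfsg.Agent.* helpers here

set_option autoImplicit false
open Cfsg
open scoped commutatorElement

namespace Cfsg.Agent.S4117

open Subgroup Cfsg.Lib in
theorem cyclic_commutator {Γ : Type*} [Group Γ] [Finite Γ] (H Q : Subgroup Γ) [IsZGroup H]
    (hQH : Q ≤ normalizer (H : Set Γ)) (hco : (Nat.card Q).Coprime (Nat.card H)) : IsCyclic ↥(⁅H, Q⁆ : Subgroup Γ) := by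
  set W : Subgroup Γ := ⁅H, Q⁆
  have hWH : W ≤ H := Solv.commutator_le_of_normalizes hQH
  haveI : IsZGroup W := IsZGroup.of_injective (inclusion_injective hWH)
  set D : Subgroup Γ := (commutator W).map W.subtype
  haveI : IsCyclic ↥(_root_.commutator W) := IsZGroup.isCyclic_commutator W
  haveI : IsCyclic D := ((commutator W).equivMapOfInjective _ W.subtype_injective).isCyclic.1 inferInstance
  have hQW : Q ≤ normalizer (W : Set Γ) := Solv.le_normalizer_commutator_right H Q
  have hD : ∀ g ∈ normalizer (W : Set Γ), ∀ x ∈ D, g * x * g⁻¹ ∈ D := by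
    intro g hg x hx
    have hDW : D = ⁅W, W⁆ := Subgroup.map_subtype_commutator W
    have hgm : W.map (MulAut.conj g).toMonoidHom = W := Subgroup.mem_normalizer_iff_map_conj_eq.1 hg
    have : D.map (MulAut.conj g).toMonoidHom = D := by rw [hDW, Subgroup.map_commutator, hgm]
    rw [← this]
    exact ⟨x, hx, rfl⟩
  have hWW : ⁅W, Q⁆ = W := Solv.commutator_commutator_eq Q H hQH hco (Or.inr (inferInstance : Group.IsSolvable H))
  have hWD : W ≤ centralizer (D : Set Γ) := by
    have hle : ⁅W, Q⁆ ≤ centralizer (D : Set Γ) := by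
      rw [commutator_le]
      intro w hw q hq
      obtain ⟨⟨x, hx⟩, hgen⟩ := IsCyclic.exists_generator (α := D)
      have hex : ∀ g ∈ normalizer (W : Set Γ), ∃ i : ℤ, g * x * g⁻¹ = x ^ i := by
        intro g hg
        obtain ⟨i, hi⟩ := Subgroup.mem_zpowers_iff.1 (hgen ⟨_, hD g hg x hx⟩)
        exact ⟨i, (congrArg Subtype.val hi).symm⟩
      obtain ⟨i, hi⟩ := hex w (le_normalizer hw)
      obtain ⟨j, hj⟩ := hex q (hQW hq)
      obtain ⟨i', hi'⟩ := hex w⁻¹ (inv_mem (le_normalizer hw))
      obtain ⟨j', hj'⟩ := hex q⁻¹ (inv_mem (hQW hq))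
      have hc : ∀ (g : Γ) (k : ℤ), MulAut.conj g (x ^ k) = (MulAut.conj g x) ^ k := fun g k => map_zpow _ _ _
      have hcomp : MulAut.conj ⁅w, q⁆ x = x := by
        have h1 : MulAut.conj ⁅w, q⁆ x = MulAut.conj w (MulAut.conj q (MulAut.conj w⁻¹ (MulAut.conj q⁻¹ x))) := by
          simp only [MulAut.conj_apply, commutatorElement_def]; group
        have h2 : MulAut.conj w x = x ^ i := hi
        have h3 : MulAut.conj q x = x ^ j := hj
        have h4 : MulAut.conj w⁻¹ x = x ^ i' := hi'
        have h5 : MulAut.conj q⁻¹ x = x ^ j' := hj'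
        have h6 : MulAut.conj w (MulAut.conj w⁻¹ x) = x := by simp [mul_assoc]
        have h7 : MulAut.conj q (MulAut.conj q⁻¹ x) = x := by simp [mul_assoc]
        rw [h4, hc, h2, ← zpow_mul] at h6
        rw [h5, hc, h3, ← zpow_mul] at h7
        rw [h1, h5, hc, h4, ← zpow_mul, hc, h3, ← zpow_mul, hc, h2, ← zpow_mul,
          show i * (j * (i' * j')) = (i * i') * (j * j') by ring, zpow_mul, h6, h7]
      rw [mem_centralizer_iff]
      intro y hy
      obtain ⟨k, hk⟩ := Subgroup.mem_zpowers_iff.1 (hgen ⟨y, hy⟩)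
      have hy' : y = x ^ k := (congrArg Subtype.val hk).symm
      subst hy'
      have hcx : Commute ⁅w, q⁆ x := (mul_inv_eq_iff_eq_mul.1 (by rw [MulAut.conj_apply] at hcomp; exact hcomp))
      exact (hcx.zpow_right k).symm.eq
    rwa [hWW] at hle
  haveI : Group.IsNilpotent W := Solv.nilpotent_of_commutator_le_center (fun y hy => by
    rw [Subgroup.mem_center_iff]
    intro w
    exact Subtype.ext ((mem_centralizer_iff.1 (hWD w.2) _ ⟨y, hy, rfl⟩).symm))
  infer_instance

/-- Let A be a finite group acting on the finite group G by automorphisms with the orders of A and G coprime, and suppose every Sylow subgroup of G is cyclic. Then the fixed-point subgroup C_G(A) is a Hall subgroup of G (its order is coprime to its index), the subgroup [G, A] generated by the elements g⁻¹·a(g) is cyclic and normal with [G, A] ∩ C_G(A) = 1 and [G, A]·C_G(A) = G. -/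
theorem result {G A : Type*} [Group G] [Finite G] [Group A] [Finite A]
    [MulDistribMulAction A G] (hcop : (Nat.card A).Coprime (Nat.card G))
    (hcyc : ∀ (p : ℕ) [Fact p.Prime] (P : Sylow p G), IsCyclic (P : Subgroup G)) :
    (Nat.card (MulAction.fixedPoints A G : Set G)).Coprime (Nat.card G / Nat.card (MulAction.fixedPoints A G : Set G)) ∧
    IsCyclic (Subgroup.closure {y : G | ∃ (a : A) (g : G), y = g⁻¹ * a • g}) ∧
    (Subgroup.closure {y : G | ∃ (a : A) (g : G), y = g⁻¹ * a • g}).Normal ∧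
    (Subgroup.closure {y : G | ∃ (a : A) (g : G), y = g⁻¹ * a • g} : Set G) ∩ MulAction.fixedPoints A G = {1} ∧
    Subgroup.closure {y : G | ∃ (a : A) (g : G), y = g⁻¹ * a • g} ⊔ Subgroup.closure (MulAction.fixedPoints A G) = ⊤ := by
  classical
  let φ : A →* MulAut G := MulDistribMulAction.toMulAut A G
  haveI : Finite (G ⋊[φ] A) := Finite.of_equiv (G × A) SemidirectProduct.equivProd.symm
  let ι : G →* G ⋊[φ] A := SemidirectProduct.inl
  have hι : Function.Injective ι := SemidirectProduct.inl_injective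
  set H := ι.range
  set Q := (SemidirectProduct.inr : A →* G ⋊[φ] A).range
  haveI : IsZGroup G := ⟨fun p hp P => by haveI := Fact.mk hp; exact hcyc p P⟩
  haveI : IsZGroup H := IsZGroup.of_surjective (f := ι.rangeRestrict) ι.rangeRestrict_surjective
  have hQH : Q ≤ Subgroup.normalizer (H : Set (G ⋊[φ] A)) := by
    rintro _ ⟨a, rfl⟩
    apply Subgroup.mem_normalizer_fintype
    rintro _ ⟨g, rfl⟩
    exact ⟨φ a g, by rw [show ι (φ a g) = _ from SemidirectProduct.inl_aut a g, map_inv]⟩
  have hH : Nat.card H = Nat.card G := (Nat.card_congr (MonoidHom.ofInjective hι).toEquiv).symm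
  have hQ : Nat.card Q = Nat.card A := (Nat.card_congr (MonoidHom.ofInjective SemidirectProduct.inr_injective).toEquiv).symm
  have hco : (Nat.card Q).Coprime (Nat.card H) := by rw [hH, hQ]; exact hcop
  set D := Subgroup.closure {y : G | ∃ (a : A) (g : G), y = g⁻¹ * a • g} with hDdef
  set F := Subgroup.closure (MulAction.fixedPoints A G : Set G) with hFdef
  have hfix : ∀ x : G, x ∈ F ↔ x ∈ MulAction.fixedPoints A G := by
    intro x
    refine ⟨fun hx => ?_, fun hx => Subgroup.subset_closure hx⟩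
    induction hx using Subgroup.closure_induction with
    | mem y hy => exact hy
    | one => exact fun a => smul_one a
    | mul y z _ _ hy hz => exact fun a => by rw [smul_mul', hy a, hz a]
    | inv y _ hy => exact fun a => by rw [smul_inv', hy a]
  have hinl : ∀ (a : A) (g : G), ι (g⁻¹ * a • g) = ⁅(ι g)⁻¹, SemidirectProduct.inr a⁆ := by
    intro a g
    rw [map_mul, map_inv, commutatorElement_def, show a • g = φ a g from rfl, SemidirectProduct.inl_aut, inv_inv]
    show (ι g)⁻¹ * (SemidirectProduct.inr a * ι g * SemidirectProduct.inr a⁻¹) = _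
    rw [map_inv SemidirectProduct.inr a]
    group
  have hDmap : D.map ι = ⁅H, Q⁆ := by
    apply le_antisymm
    · rw [hDdef, MonoidHom.map_closure, Subgroup.closure_le]
      rintro _ ⟨_, ⟨a, g, rfl⟩, rfl⟩
      rw [SetLike.mem_coe, hinl]
      exact Subgroup.commutator_mem_commutator (inv_mem ⟨g, rfl⟩) ⟨a, rfl⟩
    · rw [Subgroup.commutator_le]
      rintro _ ⟨g, rfl⟩ _ ⟨a, rfl⟩
      refine ⟨g⁻¹⁻¹ * a • g⁻¹, Subgroup.subset_closure ⟨a, g⁻¹, rfl⟩, ?_⟩
      rw [hinl, map_inv, inv_inv]
  have hFmap : F.map ι = H ⊓ Subgroup.centralizer (Q : Set (G ⋊[φ] A)) := by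
    apply le_antisymm
    · rintro _ ⟨x, hx, rfl⟩
      refine Subgroup.mem_inf.2 ⟨⟨x, rfl⟩, Subgroup.mem_centralizer_iff.2 ?_⟩
      rintro _ ⟨a, rfl⟩
      have h := SemidirectProduct.inl_aut (φ := φ) a x
      rw [show φ a x = x from (hfix x).1 hx a] at h
      rw [map_inv] at h
      exact (mul_inv_eq_iff_eq_mul.1 h.symm)
    · rintro _ ⟨⟨x, rfl⟩, hx⟩
      refine ⟨x, (hfix x).2 fun a => hι ?_, rfl⟩
      show ι (φ a x) = ι x
      show SemidirectProduct.inl (φ a x) = SemidirectProduct.inl x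
      rw [SemidirectProduct.inl_aut, map_inv]
      exact mul_inv_eq_iff_eq_mul.2 (Subgroup.mem_centralizer_iff.1 hx _ ⟨a, rfl⟩)
  have hsup : D ⊔ F = ⊤ := by
    apply Subgroup.map_injective hι
    rw [Subgroup.map_sup, hDmap, hFmap, ← MonoidHom.range_eq_map]
    exact Cfsg.Lib.Solv.commutator_sup_centralizer Q H hQH hco (Or.inr (inferInstance : Group.IsSolvable H))
  have hDn : D.Normal := by
    rw [← Subgroup.normalizer_eq_top_iff, eq_top_iff]
    intro g _
    apply Subgroup.mem_normalizer_fintype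
    intro x hx
    have h1 := Cfsg.Lib.Solv.le_normalizer_commutator_left H Q ⟨g, rfl⟩
    have h2 := (Subgroup.mem_normalizer_iff.1 h1 (ι x)).1 (hDmap ▸ ⟨x, hx, rfl⟩)
    rw [← map_inv, ← map_mul, ← map_mul, ← hDmap] at h2
    exact (Subgroup.mem_map_iff_mem hι).1 h2
  haveI := hDn
  have hcoDF : (Nat.card D).Coprime (Nat.card F) := by
    rw [Nat.card_congr (Subgroup.equivMapOfInjective D ι hι).toEquiv, Nat.card_congr (Subgroup.equivMapOfInjective F ι hι).toEquiv,
      hDmap, hFmap]
    exact Cfsg.Lib.PLocal.TISub.commutator_fixed_coprime Q hQH hco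
  have hdisj : D ⊓ F = ⊥ := Subgroup.inf_eq_bot_of_coprime hcoDF
  have hF : Nat.card F = Nat.card (MulAction.fixedPoints A G : Set G) :=
    Nat.card_congr (Equiv.subtypeEquivRight hfix)
  have hcard : Nat.card G = Nat.card F * Nat.card D := by
    rw [mul_comm]
    exact ((Subgroup.isComplement'_of_disjoint_and_mul_eq_univ (disjoint_iff.2 hdisj)
      (by rw [← Subgroup.normal_mul, hsup]; rfl)).card_mul).symm
  refine ⟨?_, ?_, hDn, ?_, hsup⟩
  · rw [← hF, hcard, Nat.mul_div_cancel_left _ Nat.card_pos]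
    exact hcoDF.symm
  · haveI : IsCyclic ↥(D.map ι) := by rw [hDmap]; exact cyclic_commutator H Q hQH hco
    exact (Subgroup.equivMapOfInjective D ι hι).isCyclic.2 inferInstance
  · ext x
    simp only [Set.mem_inter_iff, SetLike.mem_coe, ← hfix, Set.mem_singleton_iff]
    rw [← Subgroup.mem_inf, hdisj, Subgroup.mem_bot]

end Cfsg.Agent.S4117
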