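import Cfsg.Statements.S4126
import Mathlib
import Cfsg.Agent.Lib.Transfer.Critical
import Cfsg.Agent.Lib.Transfer.Frobenius
import Cfsg.Agent.Lib.Transfer.Basic
import Cfsg.Agent.Lib.Kazarin.Main
-- import your own Cfsg.Agent.* helpers here

set_option autoImplicit false
open Cfsg

namespace Cfsg.Agent.S4126

open scoped commutatorElement in
theorem mul_pow_comm {G : Type*} [Group G] (x y : G) (hx : Commute ⁅y, x⁆ x) (hy : Commute ⁅y, x⁆ y) :
    ∀ n : ℕ, (x * y) ^ n = x ^ n * y ^ n * ⁅y, x⁆ ^ n.choose 2 := by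
  set c := ⁅y, x⁆ with hc
  have h1 : y * x = x * y * c := by
    have : y * x = c * (x * y) := by rw [hc, commutatorElement_def]; group
    rw [this, ← (hx.mul_right hy).eq]
  have h2 : ∀ n : ℕ, y ^ n * x = x * y ^ n * c ^ n := by
    intro n
    induction n with
    | zero => simp
    | succ n ih =>
      calc y ^ (n + 1) * x = y ^ n * (y * x) := by rw [pow_succ, mul_assoc]
        _ = y ^ n * x * (y * c) := by rw [h1]; group
        _ = x * y ^ n * (c ^ n * y) * c := by rw [ih]; group
        _ = x * y ^ n * (y * c ^ n) * c := by rw [(hy.pow_left n).eq]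
        _ = x * y ^ (n + 1) * c ^ (n + 1) := by rw [pow_succ, pow_succ]; group
  intro n
  induction n with
  | zero => simp
  | succ n ih =>
    have hch : (n + 1).choose 2 = n + n.choose 2 := by
      rw [show (2 : ℕ) = 1 + 1 from rfl, Nat.choose_succ_succ, Nat.choose_one_right]
    calc (x * y) ^ (n + 1) = x ^ n * y ^ n * (c ^ n.choose 2 * (x * y)) := by rw [pow_succ, ih]; group
      _ = x ^ n * (y ^ n * x) * y * c ^ n.choose 2 := by
          rw [((hx.mul_right hy).pow_left _).eq]; group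
      _ = x ^ n * x * y ^ n * (c ^ n * y) * c ^ n.choose 2 := by rw [h2]; group
      _ = x ^ (n + 1) * y ^ (n + 1) * c ^ (n + 1).choose 2 := by
          rw [(hy.pow_left n).eq, hch, pow_add, pow_succ, pow_succ]; group

variable {p : ℕ}

/-- `p` for odd `p`, and `4` for `p = 2`. -/
def expo (p : ℕ) : ℕ := if p = 2 then 4 else p

open scoped commutatorElement in
theorem critical_facts {Q : Type*} [Group Q] [Finite Q] [hp : Fact p.Prime] (hQ : IsPGroup p Q) {C : Subgroup Q}
    (hΦ : (frattini C).map C.subtype ≤ Subgroup.centralizer (C : Set Q))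
    (hcomm : ⁅C, (⊤ : Subgroup Q)⁆ ≤ C ⊓ Subgroup.centralizer (C : Set Q)) {x y : Q} (hx : x ∈ C) (hy : y ∈ C) :
    (x * y) ^ expo p = x ^ expo p * y ^ expo p := by
  have hc := hcomm (Subgroup.commutator_mem_commutator hy (Subgroup.mem_top x))
  have hcc : ∀ z ∈ C, Commute ⁅y, x⁆ z := fun z hz => ((Subgroup.mem_centralizer_iff.mp hc.2) z hz).symm
  have hyp : Commute (y ^ p) x := by
    have : y ^ p ∈ Subgroup.centralizer (C : Set Q) :=
      hΦ ⟨(⟨y, hy⟩ : C) ^ p, Cfsg.Lib.Transfer.pow_mem_frattini (hQ.to_subgroup C) _, rfl⟩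
    exact ((Subgroup.mem_centralizer_iff.mp this) x hx).symm
  have key : ∀ k : ℕ, ⁅y ^ k, x⁆ = ⁅y, x⁆ ^ k := by
    intro k
    induction k with
    | zero => simp [commutatorElement_def]
    | succ k ih =>
      calc ⁅y ^ (k + 1), x⁆ = y ^ k * ⁅y, x⁆ * (y ^ k)⁻¹ * ⁅y ^ k, x⁆ := by
            simp only [commutatorElement_def]; group
        _ = ⁅y, x⁆ * ⁅y, x⁆ ^ k := by
            rw [← ((hcc y hy).pow_right k).eq, mul_inv_cancel_right, ih]
        _ = _ := (pow_succ' _ _).symm
  have hcp : ⁅y, x⁆ ^ p = 1 := by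
    rw [← key, commutatorElement_eq_one_iff_commute]
    exact hyp
  rw [mul_pow_comm x y (hcc x hx) (hcc y hy)]
  obtain ⟨d, hd⟩ : p ∣ (expo p).choose 2 := by
    unfold expo
    split_ifs with h
    · exact ⟨3, by subst h; rfl⟩
    · exact hp.out.dvd_choose_self (by omega) (lt_of_le_of_ne hp.out.two_le (Ne.symm h))
  rw [hd, pow_mul, hcp, one_pow, mul_one]

theorem fixed_small [hp : Fact p.Prime] {Q : Type*} [Group Q] [Finite Q] (hQ : IsPGroup p Q)
    (f : Q ≃* Q) (n : ℕ) (hn : n.Coprime p) (hf : ∀ x, f^[n] x = x)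
    (hfix : ∀ x, x ^ expo p = 1 → f x = x) : ∀ g, f g = g := by
  by_cases h2 : p = 2
  · subst h2
    obtain ⟨C, hC, hΦ, hcomm, hcent⟩ := Cfsg.Lib.Transfer.exists_critical hQ
    haveI := hC
    refine fun g => Cfsg.Lib.Transfer.fixed_of_fix_selfCentralizing hQ f.toMonoidHom hn hf C hcent ?_ g
    have key : ∀ k : ℕ, ∀ c ∈ C, c ^ 2 ^ k = 1 → f c = c := by
      intro k
      induction k with
      | zero =>
        intro c _ hc
        rw [pow_zero, pow_one] at hc
        rw [hc, map_one]
      | succ k ih =>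
        intro c hc hck
        have h1 : f (c ^ 2) = c ^ 2 := ih _ (pow_mem hc 2) (by rw [← pow_mul, ← pow_succ']; exact hck)
        have hfc : f c ∈ C := Cfsg.Lib.Transfer.map_mem_of_characteristic f hc
        have h4 : (c⁻¹ * f c) ^ expo 2 = 1 := by
          rw [critical_facts hQ hΦ hcomm (inv_mem hc) hfc, ← map_pow,
            show expo 2 = 2 * 2 from rfl, pow_mul c 2 2, map_pow, h1, inv_pow, pow_mul, inv_mul_cancel]
        exact Cfsg.Lib.Transfer.fixed_of_translate hQ f.toMonoidHom hn hf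
          (show f.toMonoidHom c = c * (c⁻¹ * f c) by simp) (hfix _ h4)
    intro c hc
    obtain ⟨k, hk⟩ := hQ c
    exact key k c hc hk
  · exact Cfsg.Lib.Transfer.fixed_of_fix_omega h2 _ Q rfl hQ f n hn hf
      (fun x hx => hfix x (by rw [expo, if_neg h2]; exact hx))

theorem conj_iterate {G : Type*} [Group G] {O : Subgroup G} (f : O ≃* O) (g : G)
    (hf : ∀ x : O, ((f x : O) : G) = g * x * g⁻¹) (k : ℕ) (x : O) :
    ((f^[k] x : O) : G) = g ^ k * x * (g ^ k)⁻¹ := by
  induction k with
  | zero => simp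
  | succ k ih => rw [Function.iterate_succ_apply', hf, ih, pow_succ']; group

/-- Let G be a finite group and p a prime. Suppose every element of order p, and when p = 2 also every element of order 4, has a conjugacy class of p-power size. Then G has a normal p-complement. -/
theorem result {G : Type*} [Group G] [Finite G] (p : ℕ) [Fact p.Prime]
    (h : ∀ x : G, (orderOf x = p ∨ (p = 2 ∧ orderOf x = 4)) → ∃ a : ℕ, (Subgroup.centralizer ({x} : Set G)).index = p ^ a) :
    Cfsg.HasNormalPComplement p G := by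
  classical
  have hp : p.Prime := Fact.out
  have hexp : ∀ x : G, x ^ expo p = 1 → x ≠ 1 → ∃ a : ℕ, (Subgroup.centralizer ({x} : Set G)).index = p ^ a := by
    intro x hx hx1
    apply h
    have hd := orderOf_dvd_of_pow_eq_one hx
    have hne : orderOf x ≠ 1 := fun e => hx1 (orderOf_eq_one_iff.mp e)
    unfold expo at hd
    split_ifs at hd with h2
    · rw [show (4 : ℕ) = 2 ^ 2 from rfl, Nat.dvd_prime_pow Nat.prime_two] at hd
      obtain ⟨i, hi, he⟩ := hd
      subst h2
      interval_cases i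
      · exact absurd he hne
      · exact Or.inl he
      · exact Or.inr ⟨rfl, he⟩
    · exact Or.inl (((Nat.dvd_prime hp).mp hd).resolve_left hne)
  -- conjugates of such elements are conjugates under any Sylow subgroup
  have hconj : ∀ x : G, x ^ expo p = 1 → ∀ (P : Sylow p G) (g : G), ∃ u ∈ (P : Subgroup G), g * x * g⁻¹ = u * x * u⁻¹ := by
    intro x hx P g
    by_cases hx1 : x = 1
    · exact ⟨1, one_mem _, by simp [hx1]⟩
    obtain ⟨a, ha⟩ := hexp x hx hx1
    obtain ⟨u, hu, huc⟩ := Cfsg.Lib.Kazarin.exists_mul_of_index_eq _ ha P g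
    refine ⟨u, hu, ?_⟩
    rw [Subgroup.mem_centralizer_singleton_iff] at huc
    calc g * x * g⁻¹ = u * (u⁻¹ * g * x) * g⁻¹ := by group
      _ = u * (x * (u⁻¹ * g)) * g⁻¹ := by rw [huc]
      _ = u * x * u⁻¹ := by group
  -- they lie in `O_p`
  have hO : ∀ x : G, x ^ expo p = 1 → x ∈ Cfsg.pCore p G := by
    intro x hx
    have hz : IsPGroup p (Subgroup.zpowers x) := by
      rintro ⟨y, i, rfl⟩
      refine ⟨2, Subtype.ext ?_⟩
      obtain ⟨d, hd⟩ : expo p ∣ p ^ 2 := by
        unfold expo
        split_ifs with h2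
        · subst h2; exact dvd_rfl
        · exact dvd_pow_self p two_ne_zero
      show (x ^ i) ^ (p ^ 2) = 1
      rw [← zpow_natCast, zpow_comm, zpow_natCast, hd, pow_mul, hx, one_pow, one_zpow]
    obtain ⟨P, hP⟩ := hz.exists_le_sylow
    have hle : Subgroup.normalClosure ({x} : Set G) ≤ (P : Subgroup G) := by
      refine (Subgroup.closure_le _).mpr ?_
      intro z hz'
      obtain ⟨w, hw, hc⟩ := Group.mem_conjugatesOfSet_iff.mp hz'
      rw [Set.mem_singleton_iff] at hw
      subst hw
      obtain ⟨g, rfl⟩ := isConj_iff.mp hc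
      obtain ⟨u, hu, e⟩ := hconj w hx P g
      rw [e]
      exact mul_mem (mul_mem hu (hP (Subgroup.mem_zpowers w))) (inv_mem hu)
    exact Cfsg.Lib.Transfer.le_pCore Subgroup.normalClosure_normal (P.isPGroup'.to_le hle)
      (Subgroup.subset_normalClosure rfl)
  -- `p'`-elements centralise `O_p`
  set O := Cfsg.pCore p G with hOdef
  haveI hOn : O.Normal := Cfsg.Lib.Transfer.pCore_normal p
  have hOp : IsPGroup p O := Cfsg.Lib.Transfer.pCore_isPGroup p
  have hcent : ∀ y : G, (orderOf y).Coprime p → ∀ x ∈ O, y * x * y⁻¹ = x := by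
    obtain ⟨C, hC, hΦ, hcomm, hself⟩ := Cfsg.Lib.Transfer.exists_critical hOp
    haveI := hC
    let W : Subgroup O :=
      { carrier := {x | x ∈ C ∧ x ^ expo p = 1}
        one_mem' := ⟨one_mem _, one_pow _⟩
        mul_mem' := fun {a b} ha hb => ⟨mul_mem ha.1 hb.1, by
          rw [critical_facts hOp hΦ hcomm ha.1 hb.1, ha.2, hb.2, one_mul]⟩
        inv_mem' := fun {a} ha => ⟨inv_mem ha.1, by rw [inv_pow, ha.2, inv_one]⟩ }
    haveI : W.Characteristic := Cfsg.Lib.Transfer.characteristic_of_mem_iff fun φ x hx =>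
      ⟨Cfsg.Lib.Transfer.map_mem_of_characteristic φ hx.1, by rw [← map_pow, hx.2, map_one]⟩
    set W' := W.map O.subtype with hW'
    haveI : W'.Normal := ConjAct.normal_of_characteristic_of_normal
    let S : Subgroup G := W' ⊓ Subgroup.centralizer {y : G | (orderOf y).Coprime p}
    haveI hS : S.Normal := ⟨fun s hs g => ⟨‹W'.Normal›.conj_mem s hs.1 g, by
      intro y hy
      have hy' : (orderOf (g⁻¹ * y * g)).Coprime p := by
        have e : orderOf (g⁻¹ * y * g) = orderOf y := by simpa using (MulAut.conj g⁻¹).orderOf_eq y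
        rw [e]; exact hy
      have h3 := hs.2 (g⁻¹ * y * g) hy'
      calc y * (g * s * g⁻¹) = g * ((g⁻¹ * y * g) * s) * g⁻¹ := by group
        _ = g * (s * (g⁻¹ * y * g)) * g⁻¹ := by rw [h3]
        _ = _ := by group⟩⟩
    have hWS : W' ≤ S := by
      by_contra hlt
      obtain ⟨P⟩ : Nonempty (Sylow p G) := inferInstance
      have hWP : W' ≤ (P : Subgroup G) :=
        (Subgroup.map_subtype_le W).trans (Cfsg.Lib.Transfer.pCore_le_sylow P)
      have hlt' : S.subgroupOf (P : Subgroup G) < W'.subgroupOf (P : Subgroup G) := by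
        refine lt_of_le_not_ge (Subgroup.comap_mono inf_le_left) fun e => hlt fun w hw => ?_
        exact e (show (⟨w, hWP hw⟩ : (P : Subgroup G)) ∈ W'.subgroupOf (P : Subgroup G) from hw)
      obtain ⟨B, b, -, -, hBW, -, hb, hbS, -, hbg⟩ :=
        Cfsg.Lib.Transfer.exists_normal_step P.isPGroup' _ _ hlt'
      have hbW : (b : G) ∈ W' := hBW hb
      have hbx : (b : G) ^ expo p = 1 := by
        obtain ⟨w, hw, e⟩ := hbW
        rw [← e, ← map_pow, hw.2, map_one]
      refine hbS ⟨hbW, fun y hy => ?_⟩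
      obtain ⟨u, hu, e⟩ := hconj (b : G) hbx P y
      set z := (b : G)⁻¹ * (y * b * y⁻¹) with hz
      have hzS : z ∈ S := by
        have h4 : ((u : G) * b * u⁻¹ * (b : G)⁻¹) ∈ S := hbg ⟨u, hu⟩
        have h5 := hS.conj_mem _ h4 (b : G)⁻¹
        rw [hz, e]
        convert h5 using 1
        group
      have hyz : y * z * y⁻¹ = z := by rw [hzS.2 y hy]; group
      have hiter : ∀ k : ℕ, y ^ k * b * (y ^ k)⁻¹ = b * z ^ k := by
        intro k
        induction k with
        | zero => simp
        | succ k ih =>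
          calc y ^ (k + 1) * b * (y ^ (k + 1))⁻¹ = y * (y ^ k * b * (y ^ k)⁻¹) * y⁻¹ := by rw [pow_succ']; group
            _ = y * b * y⁻¹ * (y * z * y⁻¹) ^ k := by rw [ih, conj_pow]; group
            _ = b * z ^ (k + 1) := by rw [hyz, pow_succ', ← mul_assoc (b : G)]; congr 1; rw [hz]; group
      have h6 := hiter (orderOf y)
      rw [pow_orderOf_eq_one, one_mul, inv_one, mul_one, left_eq_mul] at h6
      obtain ⟨j, hj⟩ := P.isPGroup' ⟨z, hWP hzS.1⟩
      have hj' : z ^ p ^ j = 1 := congrArg Subtype.val hj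
      have hz1 : z = 1 := by
        have := Nat.dvd_gcd (orderOf_dvd_of_pow_eq_one h6) (orderOf_dvd_of_pow_eq_one hj')
        rw [(Nat.Coprime.pow_right j hy).gcd_eq_one, Nat.dvd_one] at this
        exact orderOf_eq_one_iff.mp this
      have h7 : y * b * y⁻¹ = b := by
        have := congrArg (fun w => (b : G) * w) (hz ▸ hz1 : (b : G)⁻¹ * (y * b * y⁻¹) = 1)
        simpa [mul_assoc] using this
      exact mul_inv_eq_iff_eq_mul.mp h7
    intro y hy x hx
    let f : O ≃* O := MulAut.conjNormal y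
    have hfv : ∀ v : O, ((f v : O) : G) = y * v * y⁻¹ := fun v => MulAut.conjNormal_apply y v
    have hfn : ∀ v : O, f^[orderOf y] v = v := fun v => Subtype.ext (by
      rw [conj_iterate f y hfv, pow_orderOf_eq_one]; simp)
    let f' : C ≃* C := (f.subgroupMap C).trans (MulEquiv.subgroupCongr
      (Subgroup.characteristic_iff_map_eq.mp hC f))
    have hf' : ∀ v : C, ((f' v : C) : O) = f (v : O) := fun v => rfl
    have hit : ∀ (k : ℕ) (v : C), ((f'^[k] v : C) : O) = f^[k] (v : O) := by
      intro k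
      induction k with
      | zero => intro v; rfl
      | succ k ihk => intro v; rw [Function.iterate_succ_apply', Function.iterate_succ_apply', hf', ihk]
    have hfix : ∀ v : C, f' v = v := fixed_small (hOp.to_subgroup C) f' (orderOf y) hy
      (fun v => Subtype.ext (by rw [hit, hfn])) fun v hv => Subtype.ext (Subtype.ext (by
        rw [hf', hfv]
        have hvW : ((v : O) : G) ∈ W' :=
          ⟨(v : O), ⟨v.2, by rw [← SubgroupClass.coe_pow, hv]; rfl⟩, rfl⟩
        exact mul_inv_eq_iff_eq_mul.mpr ((hWS hvW).2 y hy)))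
    have h8 := Cfsg.Lib.Transfer.fixed_of_fix_selfCentralizing hOp f.toMonoidHom hy hfn C hself
      (fun v hv => (hf' ⟨v, hv⟩).symm.trans (congrArg Subtype.val (hfix ⟨v, hv⟩))) ⟨x, hx⟩
    exact (hfv ⟨x, hx⟩).symm.trans (congrArg Subtype.val h8)
  obtain ⟨P⟩ : Nonempty (Sylow p G) := inferInstance
  rw [Cfsg.Lib.Transfer.frobenius_iff P]
  intro U hU g hg hgp
  have hUp : IsPGroup p U := P.isPGroup'.to_le hU
  let f : U ≃* U :=
    { toFun := fun v => ⟨g * v * g⁻¹, (Subgroup.mem_normalizer_iff.mp hg v).mp v.2⟩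
      invFun := fun v => ⟨g⁻¹ * v * g, (Subgroup.mem_normalizer_iff''.mp hg v).mp v.2⟩
      left_inv := fun v => Subtype.ext (by simp [mul_assoc])
      right_inv := fun v => Subtype.ext (by simp [mul_assoc])
      map_mul' := fun v w => Subtype.ext (by simp [mul_assoc]) }
  have hfn : ∀ v : U, f^[orderOf g] v = v := fun v => Subtype.ext (by
    rw [conj_iterate f g (fun _ => rfl), pow_orderOf_eq_one]; simp)
  have hfix := fixed_small hUp f (orderOf g) hgp hfn fun v hv => Subtype.ext
    (hcent g hgp v (hO v (by rw [← SubgroupClass.coe_pow, hv]; rfl)))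
  intro v hv
  exact (mul_inv_eq_iff_eq_mul.mp (congrArg Subtype.val (hfix ⟨v, hv⟩))).symm

end Cfsg.Agent.S4126
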