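import Cfsg.Statements.S4127
import Mathlib
import Cfsg.Agent.Lib.Transfer.Critical
import Cfsg.Agent.Lib.Transfer.Frobenius
import Cfsg.Agent.Lib.Transfer.NormalPComplement
import Cfsg.Agent.Lib.Transfer.Basic
import Cfsg.Agent.Lib.Kazarin.Main
import Cfsg.Agent.Lib.Solv.ConjCover
-- import your own Cfsg.Agent.* helpers here

set_option autoImplicit false
open Cfsg

namespace Cfsg.Agent.S4127

/-- Let G be a finite group, p a prime and p^a the largest power of p dividing the size of any conjugacy class of G. If some element of p-power order has a conjugacy class of size exactly p^a, then G has a normal p-complement. -/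
theorem result {G : Type*} [Group G] [Finite G] (p : ℕ) [Fact p.Prime]
    (a : ℕ) (hmax : ∀ y : G, ¬ p ^ (a + 1) ∣ (Subgroup.centralizer ({y} : Set G)).index)
    (hx : ∃ x : G, (∃ k : ℕ, orderOf x = p ^ k) ∧ (Subgroup.centralizer ({x} : Set G)).index = p ^ a) :
    Cfsg.HasNormalPComplement p G := by
  classical
  have hp : p.Prime := Fact.out
  obtain ⟨x, ⟨k, hxk⟩, hxi⟩ := hx
  set L := Subgroup.centralizer ({x} : Set G) with hL
  have hxL : x ∈ L := Subgroup.mem_centralizer_singleton_iff.mpr rfl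
  -- `x` is in `O_p`
  set O := Cfsg.pCore p G with hOdef
  haveI hOn : O.Normal := Cfsg.Lib.Transfer.pCore_normal p
  have hxO : x ∈ O := by
    have hz : IsPGroup p (Subgroup.zpowers x) :=
      IsPGroup.of_card (n := k) (by rw [Nat.card_zpowers, hxk])
    obtain ⟨P, hP⟩ := hz.exists_le_sylow
    have hle : Subgroup.normalClosure ({x} : Set G) ≤ (P : Subgroup G) := by
      refine (Subgroup.closure_le _).mpr ?_
      intro z hz'
      obtain ⟨w, hw, hc⟩ := Group.mem_conjugatesOfSet_iff.mp hz'
      rw [Set.mem_singleton_iff] at hw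
      subst hw
      obtain ⟨g, rfl⟩ := isConj_iff.mp hc
      obtain ⟨u, hu, huc⟩ := Cfsg.Lib.Kazarin.exists_mul_of_index_eq _ hxi P g
      rw [Subgroup.mem_centralizer_singleton_iff] at huc
      have e : g * w * g⁻¹ = u * w * u⁻¹ := by
        calc g * w * g⁻¹ = u * (u⁻¹ * g * w) * g⁻¹ := by group
          _ = u * (w * (u⁻¹ * g)) * g⁻¹ := by rw [huc]
          _ = u * w * u⁻¹ := by group
      rw [e]
      exact mul_mem (mul_mem hu (hP (Subgroup.mem_zpowers w))) (inv_mem hu)
    exact Cfsg.Lib.Transfer.le_pCore Subgroup.normalClosure_normal (P.isPGroup'.to_le hle)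
      (Subgroup.subset_normalClosure rfl)
  -- `p'`-elements of `L` centralise a Sylow subgroup of `L`
  have hfull : ∀ y : L, (orderOf y).Coprime p → ¬ p ∣ (Subgroup.centralizer ({y} : Set L)).index := by
    intro y hy hdvd
    have hcm : Commute x (y : G) := (Subgroup.mem_centralizer_singleton_iff.mp y.2).symm
    have hle : (Subgroup.centralizer ({x * (y : G)} : Set G)) ≤ L ⊓ Subgroup.centralizer {(y : G)} := by
      intro c hc
      rw [Subgroup.mem_centralizer_singleton_iff] at hc
      have hcx : Commute c x := by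
        obtain ⟨m, hm1, hm2⟩ : ∃ m : ℕ, Nat.ModEq (orderOf x) m 1 ∧ Nat.ModEq (orderOf (y : G)) m 0 := by
          have hco : (orderOf x).Coprime (orderOf (y : G)) := by
            rw [hxk, Subgroup.orderOf_coe]
            exact Nat.Coprime.pow_left k hy.symm
          exact ⟨_, (Nat.chineseRemainder hco 1 0).2⟩
        have e : (x * (y : G)) ^ m = x := by
          rw [hcm.mul_pow, pow_eq_pow_iff_modEq.mpr hm1, pow_eq_pow_iff_modEq.mpr hm2, pow_one, pow_zero, mul_one]
        rw [← e]
        exact Commute.pow_right hc m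
      refine ⟨Subgroup.mem_centralizer_singleton_iff.mpr hcx, Subgroup.mem_centralizer_singleton_iff.mpr ?_⟩
      calc c * (y : G) = x⁻¹ * (x * c) * y := by group
        _ = x⁻¹ * (c * (x * y)) := by rw [← hcx.eq]; group
        _ = x⁻¹ * ((x * y) * c) := by rw [hc]
        _ = y * c := by group
    apply hmax (x * y)
    refine dvd_trans ?_ (Subgroup.index_dvd_of_le hle)
    rw [← Subgroup.relIndex_mul_index (inf_le_left : L ⊓ Subgroup.centralizer {(y : G)} ≤ L), hxi, pow_succ']
    refine mul_dvd_mul ?_ dvd_rfl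
    rw [Subgroup.inf_relIndex_left]
    have e : (Subgroup.centralizer {(y : G)}).subgroupOf L = Subgroup.centralizer ({y} : Set L) := by
      ext c
      rw [Subgroup.mem_subgroupOf, Subgroup.mem_centralizer_singleton_iff, Subgroup.mem_centralizer_singleton_iff]
      exact ⟨fun h => Subtype.ext h, fun h => congrArg Subtype.val h⟩
    rwa [Subgroup.relIndex, e]
  obtain ⟨S⟩ : Nonempty (Sylow p L) := inferInstance
  -- Jordan
  set H : Subgroup L := (S : Subgroup L) ⊔ Subgroup.centralizer ((S : Subgroup L) : Set L) with hH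
  have hHtop : H = ⊤ := by
    apply Cfsg.Lib.Solv.eq_top_of_forall_conj_mem
    intro g
    obtain ⟨e, he⟩ : ∃ e, (orderOf g) = p ^ e * (orderOf g / p ^ e) ∧ (orderOf g / p ^ e).Coprime p :=
      ⟨(orderOf g).factorization p, (Nat.ordProj_mul_ordCompl_eq_self (orderOf g) p).symm,
        (Nat.coprime_ordCompl hp (orderOf_pos g).ne').symm⟩
    set r := orderOf g / p ^ e
    have hco : (p ^ e).Coprime r := he.2.symm.pow_left e
    obtain ⟨m, hm1, hm2⟩ : ∃ m : ℕ, Nat.ModEq (p ^ e) m 1 ∧ Nat.ModEq r m 0 :=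
      ⟨_, (Nat.chineseRemainder hco 1 0).2⟩
    obtain ⟨n, hn1, hn2⟩ : ∃ n : ℕ, Nat.ModEq (p ^ e) n 0 ∧ Nat.ModEq r n 1 :=
      ⟨_, (Nat.chineseRemainder hco 0 1).2⟩
    have hg : g ^ m * g ^ n = g := by
      rw [← pow_add]
      conv_rhs => rw [← pow_one g]
      rw [pow_eq_pow_iff_modEq, he.1, ← Nat.modEq_and_modEq_iff_modEq_mul hco]
      exact ⟨by simpa using hm1.add hn1, by simpa using hm2.add hn2⟩
    have hgp : (g ^ m) ^ p ^ e = 1 := by
      obtain ⟨d, hd⟩ := (Nat.modEq_zero_iff_dvd.mp hm2)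
      rw [← pow_mul, hd, show r * d * p ^ e = p ^ e * r * d by ring, ← he.1, pow_mul, pow_orderOf_eq_one, one_pow]
    have hgr : (orderOf (g ^ n)).Coprime p := by
      obtain ⟨d, hd⟩ := (Nat.modEq_zero_iff_dvd.mp hn1)
      refine he.2.coprime_dvd_left (orderOf_dvd_of_pow_eq_one ?_)
      rw [← pow_mul, hd, show p ^ e * d * r = p ^ e * r * d by ring, ← he.1, pow_mul, pow_orderOf_eq_one, one_pow]
    set C := Subgroup.centralizer ({g ^ n} : Set L)
    have hmC : g ^ m ∈ C := Subgroup.mem_centralizer_singleton_iff.mpr ((Commute.refl g).pow_pow m n)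
    have hz : IsPGroup p (Subgroup.zpowers (⟨g ^ m, hmC⟩ : C)) := by
      have hd : orderOf (⟨g ^ m, hmC⟩ : C) ∣ p ^ e := by
        rw [Subgroup.orderOf_mk]
        exact orderOf_dvd_of_pow_eq_one hgp
      obtain ⟨i, -, hi⟩ := (Nat.dvd_prime_pow hp).mp hd
      exact IsPGroup.of_card (n := i) (by rw [Nat.card_zpowers, hi])
    obtain ⟨T, hT⟩ := hz.exists_le_sylow
    obtain ⟨T', hT'⟩ := (T.isPGroup'.map C.subtype).exists_le_sylow
    have hTeq : (T : Subgroup C).map C.subtype = (T' : Subgroup L) := by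
      refine Subgroup.eq_of_le_of_card_ge hT' ?_
      rw [Subgroup.card_map_of_injective C.subtype_injective, T.card_eq_multiplicity, T'.card_eq_multiplicity]
      refine Nat.pow_le_pow_right hp.pos ?_
      rw [← C.card_mul_index, Nat.factorization_mul Nat.card_pos.ne' Subgroup.index_ne_zero_of_finite,
        Finsupp.add_apply, Nat.factorization_eq_zero_of_not_dvd (hfull _ hgr), add_zero]
    obtain ⟨l, hl⟩ := MulAction.exists_smul_eq L S T'
    refine ⟨l, ?_⟩
    have hmem : ∀ t ∈ (T' : Subgroup L), l⁻¹ * t * l ∈ (S : Subgroup L) := by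
      intro t ht
      rw [← hl, Sylow.smul_def, Sylow.pointwise_smul_def] at ht
      obtain ⟨s, hs, hst⟩ := ht
      have e : l * s * l⁻¹ = t := hst
      rw [← e, show l⁻¹ * (l * s * l⁻¹) * l = s by group]
      exact hs
    rw [← hg, show l⁻¹ * (g ^ m * g ^ n) * l = (l⁻¹ * g ^ m * l) * (l⁻¹ * g ^ n * l) by group]
    refine mul_mem (Subgroup.mem_sup_left (hmem _ (hTeq ▸ ⟨_, hT (Subgroup.mem_zpowers _), rfl⟩)))
      (Subgroup.mem_sup_right ?_)
    intro s hs
    have h1 : l * s * l⁻¹ ∈ (T' : Subgroup L) := by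
      rw [← hl, Sylow.smul_def, Sylow.pointwise_smul_def]
      exact ⟨s, hs, rfl⟩
    rw [← hTeq] at h1
    obtain ⟨c, -, hc⟩ := h1
    have h2 : (l * s * l⁻¹) * g ^ n = g ^ n * (l * s * l⁻¹) :=
      Subgroup.mem_centralizer_singleton_iff.mp (hc ▸ c.2)
    calc s * (l⁻¹ * g ^ n * l) = l⁻¹ * ((l * s * l⁻¹) * g ^ n) * l := by group
      _ = l⁻¹ * (g ^ n * (l * s * l⁻¹)) * l := by rw [h2]
      _ = _ := by group
  haveI hSn : (S : Subgroup L).Normal := by
    rw [← Subgroup.normalizer_eq_top_iff, eq_top_iff, ← hHtop]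
    exact sup_le Subgroup.le_normalizer (Subgroup.centralizer_le_normalizer _)
  have hcS : ∀ y : L, (orderOf y).Coprime p → y ∈ Subgroup.centralizer ((S : Subgroup L) : Set L) := by
    intro y hy
    haveI : (Subgroup.centralizer ((S : Subgroup L) : Set L)).Normal := inferInstance
    obtain ⟨i, hi⟩ : ∃ i, (Subgroup.centralizer ((S : Subgroup L) : Set L)).index = p ^ i := by
      obtain ⟨n, hn⟩ := IsPGroup.iff_card.mp S.isPGroup'
      have h1 : (Subgroup.centralizer ((S : Subgroup L) : Set L)).index ∣ p ^ n := by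
        rw [← hn, ← Subgroup.relIndex_top_right, ← hHtop, hH, Subgroup.relIndex_sup_right]
        exact Subgroup.relIndex_dvd_card _ _
      obtain ⟨i, -, hi⟩ := (Nat.dvd_prime_pow hp).mp h1
      exact ⟨i, hi⟩
    exact Cfsg.Lib.Transfer.pResidual_le_of_index_eq_pow _ hi
      (Cfsg.Lib.Transfer.coprime_orderOf_mem_pResidual hy)
  have hLc : Cfsg.HasNormalPComplement p L := by
    rw [Cfsg.Lib.Transfer.frobenius_iff S]
    exact fun U hU g _ hg => Subgroup.centralizer_le hU (hcS g hg)
  -- `p'`-elements of `L` centralise `O`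
  have hcO : ∀ y : L, (orderOf y).Coprime p → (y : G) ∈ Subgroup.centralizer (O : Set G) := by
    intro y hy
    let f : O ≃* O := MulAut.conjNormal (y : G)
    have hfv : ∀ v : O, ((f v : O) : G) = y * v * (y : G)⁻¹ := fun v => MulAut.conjNormal_apply _ v
    have hfn : ∀ v : O, f^[orderOf y] v = v := by
      intro v
      have hit : ∀ j : ℕ, ((f^[j] v : O) : G) = (y : G) ^ j * v * ((y : G) ^ j)⁻¹ := by
        intro j
        induction j with
        | zero => simp
        | succ j ih => rw [Function.iterate_succ_apply', hfv, ih, pow_succ']; group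
      apply Subtype.ext
      rw [hit, ← SubgroupClass.coe_pow, pow_orderOf_eq_one]
      simp
    let F : Subgroup O :=
      { carrier := {v | f v = v}
        one_mem' := map_one f
        mul_mem' := fun {a b} ha hb => by
          show f (a * b) = a * b
          rw [map_mul, ha, hb]
        inv_mem' := fun {a} ha => by
          show f a⁻¹ = a⁻¹
          rw [map_inv, ha] }
    have hxF : (⟨x, hxO⟩ : O) ∈ F := Subtype.ext (by
      rw [hfv, (Subgroup.mem_centralizer_singleton_iff.mp y.2), mul_inv_cancel_right])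
    -- `C_O(x) ≤ F`
    have hCF : ∀ v : O, Commute v ⟨x, hxO⟩ → v ∈ F := by
      intro v hv
      have hvL : (v : G) ∈ L := Subgroup.mem_centralizer_singleton_iff.mpr (congrArg Subtype.val hv.eq)
      have hvS : (⟨(v : G), hvL⟩ : L) ∈ (S : Subgroup L) := by
        have hz : IsPGroup p (O.subgroupOf L) :=
          (Cfsg.Lib.Transfer.pCore_isPGroup p).of_injective
            (MonoidHom.mk' (fun c : O.subgroupOf L => (⟨((c : L) : G), c.2⟩ : O)) (fun _ _ => rfl))
            (fun a b e => Subtype.ext (Subtype.ext (congrArg Subtype.val e :)))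
        haveI : (O.subgroupOf L).Normal := inferInstance
        exact hz.le_sylow_of_normal S v.2
      exact Subtype.ext (by
        rw [hfv]
        have h5 := congrArg Subtype.val (hcS y hy ⟨(v : G), hvL⟩ hvS)
        simp only [Subgroup.coe_mul] at h5
        rw [← h5, mul_inv_cancel_right])
    have hO : IsPGroup p O := Cfsg.Lib.Transfer.pCore_isPGroup p
    have hN : Subgroup.normalizer (F : Set O) = F := by
      refine le_antisymm ?_ Subgroup.le_normalizer
      intro c hc
      refine Cfsg.Lib.Transfer.fixed_of_translate hO f.toMonoidHom hy hfn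
        (show f.toMonoidHom c = c * (c⁻¹ * f c) by simp) ?_
      apply hCF
      have h1 := (Subgroup.mem_normalizer_iff.mp hc ⟨x, hxO⟩).mp hxF
      have h2 : f (c * ⟨x, hxO⟩ * c⁻¹) = c * ⟨x, hxO⟩ * c⁻¹ := h1
      rw [map_mul, map_mul, map_inv, show f ⟨x, hxO⟩ = ⟨x, hxO⟩ from hxF] at h2
      show c⁻¹ * f c * ⟨x, hxO⟩ = ⟨x, hxO⟩ * (c⁻¹ * f c)
      calc c⁻¹ * f c * ⟨x, hxO⟩ = c⁻¹ * (f c * ⟨x, hxO⟩ * (f c)⁻¹) * f c := by group
        _ = c⁻¹ * (c * ⟨x, hxO⟩ * c⁻¹) * f c := by rw [h2]
        _ = _ := by group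
    haveI : Group.IsNilpotent O := hO.isNilpotent
    have hFtop : F = ⊤ := by
      by_contra hne
      exact (normalizerCondition_of_isNilpotent F (lt_top_iff_ne_top.mpr hne)).ne' hN
    intro v hv
    have h3 : f ⟨v, hv⟩ = ⟨v, hv⟩ := by
      have : (⟨v, hv⟩ : O) ∈ F := by rw [hFtop]; trivial
      exact this
    have h4 := congrArg Subtype.val h3
    rw [hfv] at h4
    exact (mul_inv_eq_iff_eq_mul.mp h4).symm
  set N := Subgroup.centralizer (O : Set G) with hN
  have hNL : N ≤ L := fun c hc => Subgroup.mem_centralizer_singleton_iff.mpr (hc x hxO).symm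
  haveI : N.Normal := inferInstance
  obtain ⟨i, hi⟩ : ∃ i, (N.subgroupOf L).index = p ^ i := by
    haveI : (N.subgroupOf L).Normal := inferInstance
    obtain ⟨i, hi⟩ := Cfsg.Lib.Transfer.exists_index_pResidual_eq_pow (G := L) (p := p)
    have hle : Cfsg.pResidual p L ≤ N.subgroupOf L := (Subgroup.closure_le _).mpr fun c hc => hcO c hc
    have h := Subgroup.index_dvd_of_le hle
    rw [hi] at h
    obtain ⟨j, -, hj⟩ := (Nat.dvd_prime_pow hp).mp h
    exact ⟨j, hj⟩
  refine Cfsg.Lib.Transfer.hasNormalPComplement_of_pResidual N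
    (Cfsg.Lib.Transfer.pResidual_le_of_index_eq_pow N (k := i + a) ?_) ?_
  · rw [← Subgroup.relIndex_mul_index hNL, hxi, pow_add]
    exact congrArg (· * p ^ a) hi
  · exact Cfsg.Lib.Transfer.hasNormalPComplement_of_injective (Subgroup.inclusion hNL)
      (Subgroup.inclusion_injective hNL) hLc

end Cfsg.Agent.S4127
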