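import Cfsg.Statements.S4134
import Cfsg.Agent.Lib.ClassSizes.TwoSizes

set_option autoImplicit false
open Cfsg

namespace Cfsg.Agent.S4134

/-- Let G be a finite group whose conjugacy classes have exactly two sizes, 1 and n > 1. Then n is a power of a prime p and G is the direct product of a p-group and an abelian group of order prime to p: its Sylow p-subgroup P is normal with an abelian normal complement centralizing it; moreover P has an abelian normal subgroup A with P/A of exponent dividing p. -/
theorem result {G : Type*} [Group G] [Finite G] (n : ℕ) (hn : 1 < n)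
    (h : ∀ x : G, (Subgroup.centralizer ({x} : Set G)).index = 1 ∨ (Subgroup.centralizer ({x} : Set G)).index = n) (hex : ∃ x : G, (Subgroup.centralizer ({x} : Set G)).index = n) :
    ∃ (p : ℕ) (_ : Fact p.Prime) (a : ℕ), n = p ^ a ∧ ∀ P : Sylow p G, (P : Subgroup G).Normal ∧
      (∃ N : Subgroup G, N.Normal ∧ N.IsComplement' (P : Subgroup G) ∧ IsMulCommutative N ∧
        ∀ x ∈ N, ∀ y ∈ (P : Subgroup G), x * y = y * x) ∧
      ∃ A : Subgroup (P : Subgroup G), A.Normal ∧ IsMulCommutative A ∧ ∀ y : (P : Subgroup G), y ^ p ∈ A := by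
  obtain ⟨x, hx⟩ := hex
  have key : ∀ y : G, y ∉ Subgroup.center G → (Subgroup.centralizer ({y} : Set G)).index = n := by
    intro y hy
    refine (h y).resolve_left fun h1 => hy (Subgroup.mem_center_iff.mpr fun g => ?_)
    exact Subgroup.mem_centralizer_singleton_iff.mp (Subgroup.index_eq_one.mp h1 ▸ Subgroup.mem_top g)
  refine Cfsg.Lib.TwoSizes.structure_two_sizes key (x := x) fun hc => ?_
  have h1 : Subgroup.centralizer ({x} : Set G) = ⊤ := (Subgroup.eq_top_iff' _).mpr fun g =>
    Subgroup.mem_centralizer_singleton_iff.mpr (Subgroup.mem_center_iff.mp hc g)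
  rw [h1, Subgroup.index_top] at hx
  omega


end Cfsg.Agent.S4134
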