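import Cfsg.Statements.S4142
import Mathlib
import Cfsg.Agent.Lib.Kazarin.Main
-- import your own Cfsg.Agent.* helpers here

set_option autoImplicit false
open Cfsg

namespace Cfsg.Agent.S4142

/-- Let G be a finite group and N a normal subgroup. Then the conjugacy class of every element g outside N is a union of cosets of N (gn is conjugate to g for all n ∈ N) if and only if for every g outside N the centralizer of g in G has the same order as the centralizer of gN in G/N. -/
theorem result {G : Type*} [Group G] [Finite G] (N : Subgroup G) [N.Normal] :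
    (∀ g : G, g ∉ N → ∀ n ∈ N, ∃ x : G, x * g * x⁻¹ = g * n) ↔
      ∀ g : G, g ∉ N → Nat.card (Subgroup.centralizer ({g} : Set G)) =
        Nat.card (Subgroup.centralizer ({(QuotientGroup.mk g : G ⧸ N)} : Set (G ⧸ N))) := by
  classical
  letI := Fintype.ofFinite G
  letI := Fintype.ofFinite (G ⧸ N)
  let π := QuotientGroup.mk' N
  have hA : ∀ g : G, Nat.card {y : G // IsConj g y} = (Subgroup.centralizer ({g} : Set G)).index := fun g =>
    Cfsg.Lib.Kazarin.card_isConj_eq_index g
  have hB : ∀ g : G, Nat.card {y : G // IsConj (π g) (π y)} = Nat.card N * (Subgroup.centralizer ({(π g)} : Set (G ⧸ N))).index := by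
    intro g
    rw [← Cfsg.Lib.Kazarin.card_isConj_eq_index (π g), mul_comm, ← Nat.card_prod]
    refine Nat.card_congr
      ⟨fun y => (⟨π y.1, y.2⟩, ⟨(π y.1).out⁻¹ * y.1, QuotientGroup.eq.mp (QuotientGroup.out_eq' _)⟩),
        fun v => ⟨v.1.1.out * v.2, ?_⟩, fun y => Subtype.ext (mul_inv_cancel_left _ _), fun v => ?_⟩
    · have e : π (v.1.1.out * (v.2 : G)) = v.1.1 := by
        show ((v.1.1.out * (v.2 : G) : G) : G ⧸ N) = v.1.1
        rw [QuotientGroup.mk_mul_of_mem _ v.2.2, QuotientGroup.out_eq']
      rw [e]; exact v.1.2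
    · have e : π (v.1.1.out * (v.2 : G)) = v.1.1 := by
        show ((v.1.1.out * (v.2 : G) : G) : G ⧸ N) = v.1.1
        rw [QuotientGroup.mk_mul_of_mem _ v.2.2, QuotientGroup.out_eq']
      exact Prod.ext (Subtype.ext e) (Subtype.ext (by simp only [e, inv_mul_cancel_left]))
  have key : ∀ g : G, (∀ y : G, IsConj (π g) (π y) → IsConj g y) ↔ Nat.card (Subgroup.centralizer ({g} : Set G)) = Nat.card (Subgroup.centralizer ({π g} : Set (G ⧸ N))) := by
    intro g
    have hsub : ∀ y : G, IsConj g y → IsConj (π g) (π y) := fun y h => π.map_isConj h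
    have e1 := (Subgroup.centralizer ({g} : Set G)).card_mul_index
    have e2 := (Subgroup.centralizer ({π g} : Set (G ⧸ N))).card_mul_index
    rw [← Subgroup.index_eq_card] at e2
    have e3 := N.card_mul_index
    have hpos : 0 < Nat.card {y : G // IsConj g y} := by
      haveI : Nonempty {y : G // IsConj g y} := ⟨⟨g, IsConj.refl g⟩⟩
      exact Nat.card_pos
    constructor
    · intro h
      have hAB : Nat.card {y : G // IsConj g y} = Nat.card {y : G // IsConj (π g) (π y)} :=
        Nat.card_congr (Equiv.subtypeEquivRight fun y => ⟨hsub y, h y⟩)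
      rw [hB, hA] at hAB
      apply Nat.eq_of_mul_eq_mul_right (hA g ▸ hpos)
      rw [e1, hAB, mul_left_comm, e2, e3]
    · intro h y hy
      let i : {y : G // IsConj g y} → {y : G // IsConj (π g) (π y)} := fun y => ⟨y.1, hsub y.1 y.2⟩
      have hi : Function.Bijective i := by
        rw [Nat.bijective_iff_injective_and_card]
        refine ⟨fun a b hab => Subtype.ext (congrArg (fun z : {y : G // IsConj (π g) (π y)} => z.1) hab), ?_⟩
        rw [hA, hB]
        apply Nat.eq_of_mul_eq_mul_left (Nat.card_pos (α := Subgroup.centralizer ({g} : Set G)))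
        rw [e1, h, mul_left_comm, e2, e3]
      obtain ⟨z, hz⟩ := hi.2 ⟨y, hy⟩
      have : z.1 = y := congrArg Subtype.val hz
      exact this ▸ z.2
  constructor
  · intro h g hg
    refine (key g).mp fun y hy => ?_
    obtain ⟨c, hc⟩ := isConj_iff.mp hy
    obtain ⟨c, rfl⟩ := QuotientGroup.mk'_surjective N c
    have hy' : (c * g * c⁻¹)⁻¹ * y ∈ N := QuotientGroup.eq.mp (by
      show π (c * g * c⁻¹) = π y
      rw [map_mul, map_mul, map_inv]; exact hc)
    have hn : c⁻¹ * ((c * g * c⁻¹)⁻¹ * y) * c ∈ N := by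
      simpa using (inferInstance : N.Normal).conj_mem _ hy' c⁻¹
    obtain ⟨x, hx⟩ := h g hg _ hn
    refine isConj_iff.mpr ⟨c * x, ?_⟩
    rw [show c * x * g * (c * x)⁻¹ = c * (x * g * x⁻¹) * c⁻¹ by group, hx]
    group
  · intro h g hg n hn
    obtain ⟨x, hx⟩ := isConj_iff.mp ((key g).mpr (h g hg) (g * n) (by
      rw [map_mul, show π n = 1 from (QuotientGroup.eq_one_iff n).mpr hn, mul_one]))
    exact ⟨x, hx⟩

end Cfsg.Agent.S4142
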