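import Cfsg.Statements.S4145
import Mathlib
import Cfsg.Agent.Lib.Transfer.Action
import Cfsg.Agent.Lib.Transfer.Critical
import Cfsg.Agent.Lib.Transfer.Frobenius
import Cfsg.Agent.Lib.Transfer.NormalPComplement
import Cfsg.Agent.Lib.Transfer.Basic
-- import your own Cfsg.Agent.* helpers here

set_option autoImplicit false
open Cfsg
open scoped commutatorElement

namespace Cfsg.Agent.S4145

open scoped commutatorElement in
theorem centralize_of_fixed {G : Type*} [Group G] [Finite G] {p : ℕ} [Fact p.Prime] {V : Subgroup G}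
    (hV : IsPGroup p V) (hc : IsCyclic V) {g : G} (hg : g ∈ Subgroup.normalizer (V : Set G))
    (hgc : (orderOf g).Coprime p) {z : G} (hz : z ∈ V) (hz1 : z ≠ 1) (hgz : g * z * g⁻¹ = z) :
    g ∈ Subgroup.centralizer (V : Set G) := by
  rcases Cfsg.Lib.Transfer.cyclic_coprime_action hV hc hg hgc with h | h
  · exact h
  exfalso
  haveI := hc
  have hcomm : ∀ a b : V, a * b = b * a := fun a b => IsCyclic.commutative.is_comm.comm a b
  have hmem : ∀ v : V, g * (v : G) * g⁻¹ ∈ V := fun v => (Subgroup.mem_normalizer_iff.mp hg v).mp v.2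
  let δ : V →* V := MonoidHom.mk' (fun v => v⁻¹ * ⟨_, hmem v⟩) fun a b => by
    have e : (⟨_, hmem (a * b)⟩ : V) = ⟨_, hmem a⟩ * ⟨_, hmem b⟩ := Subtype.ext (by push_cast; group)
    show (a * b)⁻¹ * ⟨_, hmem (a * b)⟩ = a⁻¹ * ⟨_, hmem a⟩ * (b⁻¹ * ⟨_, hmem b⟩)
    calc (a * b)⁻¹ * ⟨_, hmem (a * b)⟩ = b⁻¹ * (a⁻¹ * ⟨_, hmem a⟩) * ⟨_, hmem b⟩ := by rw [e]; group
      _ = a⁻¹ * ⟨_, hmem a⟩ * b⁻¹ * ⟨_, hmem b⟩ := by rw [hcomm b⁻¹]
      _ = _ := by group
  have hsurj : Function.Surjective δ := by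
    have hle : ⁅V, Subgroup.zpowers g⁆ ≤ δ.range.map V.subtype := by
      rw [Subgroup.commutator_le]
      intro a ha w hw
      obtain ⟨j, rfl⟩ := (Submonoid.mem_powers_iff _ _).mp (mem_powers_iff_mem_zpowers.mpr hw)
      have key : ∀ j : ℕ, ∀ a : V, a * (⟨g ^ j * a * (g ^ j)⁻¹, by
          have := Subgroup.pow_mem _ hg j
          exact (Subgroup.mem_normalizer_iff.mp this a).mp a.2⟩ : V)⁻¹ ∈ δ.range := by
        intro j
        induction j with
        | zero =>
          intro a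
          convert one_mem δ.range
          apply Subtype.ext
          simp
        | succ j ih =>
          intro a
          have h1 := ih ⟨_, hmem a⟩
          have h2 : δ a ∈ δ.range := ⟨a, rfl⟩
          have h3 := mul_mem (inv_mem h2) h1
          convert h3 using 1
          have e : δ a = a⁻¹ * ⟨_, hmem a⟩ := rfl
          rw [e, ← mul_assoc, mul_inv_rev, inv_inv, mul_assoc _ a, hcomm a ⟨_, hmem a⟩, inv_mul_cancel_left]
          congr 2
          apply Subtype.ext
          show g ^ (j + 1) * (a : G) * (g ^ (j + 1))⁻¹ = g ^ j * (g * a * g⁻¹) * (g ^ j)⁻¹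
          rw [pow_succ]
          group
      refine ⟨_, key j ⟨a, ha⟩, ?_⟩
      show a * (g ^ j * a * (g ^ j)⁻¹)⁻¹ = ⁅a, g ^ j⁆
      rw [commutatorElement_def]
      group
    intro v
    obtain ⟨w, ⟨x, hx⟩, e⟩ := hle (h v.2)
    exact ⟨x, hx.trans (Subtype.ext e)⟩
  have hinj : Function.Injective δ := Finite.injective_iff_surjective.mpr hsurj
  apply hz1
  have h1 : δ ⟨z, hz⟩ = δ 1 := by
    rw [map_one]
    apply Subtype.ext
    show z⁻¹ * (g * z * g⁻¹) = 1
    rw [hgz, inv_mul_cancel]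
  exact congrArg Subtype.val (hinj h1)

theorem mem_sylow_of_normalizes {G : Type*} [Group G] [Finite G] {p : ℕ} [Fact p.Prime] (P : Sylow p G) {x : G}
    (hx : x ∈ Subgroup.normalizer ((P : Subgroup G) : Set G)) (hz : IsPGroup p (Subgroup.zpowers x)) :
    x ∈ (P : Subgroup G) := by
  have h : x ∈ Subgroup.zpowers x ⊓ Subgroup.normalizer ((P : Subgroup G) : Set G) := ⟨Subgroup.mem_zpowers x, hx⟩
  exact ((hz.inf_normalizer_sylow P).le h).2

theorem eq_split {G : Type*} [Group G] [Finite G] {p : ℕ} (hp : p.Prime) (m : G) :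
    ∃ e r : ℕ, orderOf m = p ^ e * r ∧ r.Coprime p ∧ (orderOf (m ^ p ^ e)).Coprime p ∧
      orderOf (m ^ r) = p ^ e ∧ m ∈ Subgroup.closure {m ^ p ^ e, m ^ r} := by
  refine ⟨(orderOf m).factorization p, orderOf m / p ^ (orderOf m).factorization p,
    (Nat.ordProj_mul_ordCompl_eq_self _ p).symm, (Nat.coprime_ordCompl hp (orderOf_pos m).ne').symm, ?_, ?_, ?_⟩
  · rw [orderOf_pow_of_dvd (pow_pos hp.pos _).ne' (Nat.ordProj_dvd _ _)]
    exact (Nat.coprime_ordCompl hp (orderOf_pos m).ne').symm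
  · have h1 := Nat.ordProj_mul_ordCompl_eq_self (orderOf m) p
    rw [orderOf_pow_of_dvd (Nat.ordCompl_pos p (orderOf_pos m).ne').ne' (Nat.ordCompl_dvd _ _)]
    exact Nat.div_eq_of_eq_mul_left (Nat.ordCompl_pos p (orderOf_pos m).ne') h1.symm
  · set a := p ^ (orderOf m).factorization p
    set b := orderOf m / a
    have hco : a.Coprime b := (Nat.coprime_ordCompl hp (orderOf_pos m).ne').pow_left _
    have hb : Int.gcd a b = 1 := by simpa using hco
    have he : m = (m ^ a) ^ Int.gcdA a b * (m ^ b) ^ Int.gcdB a b := by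
      rw [← zpow_natCast m a, ← zpow_natCast m b, ← zpow_mul, ← zpow_mul, ← zpow_add, ← Int.gcd_eq_gcd_ab, hb]
      simp
    have key := mul_mem (zpow_mem (Subgroup.subset_closure (Set.mem_insert (m ^ a) {m ^ b})) (Int.gcdA a b))
      (zpow_mem (Subgroup.subset_closure (Set.mem_insert_of_mem (m ^ a) (Set.mem_singleton (m ^ b)))) (Int.gcdB a b))
    rwa [← he] at key

/-- Let G be a finite group with a cyclic Sylow p-subgroup and H a normal subgroup such that p divides both the order of H and the index of H. Then H has a normal p-complement and G is p-solvable. -/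
theorem result {G : Type*} [Group G] [Finite G] (p : ℕ) [Fact p.Prime]
    (P : Sylow p G) (hP : IsCyclic (P : Subgroup G)) (H : Subgroup G) [H.Normal] (h1 : p ∣ Nat.card H) (h2 : p ∣ H.index) :
    Cfsg.HasNormalPComplement p H ∧ Cfsg.IsPSolvable p G := by
  classical
  have hp : p.Prime := Fact.out
  set P0 : Subgroup G := (P : Subgroup G) with hP0
  haveI := hP
  set Q := P0 ⊓ H with hQ
  have hQP : Q ≤ P0 := inf_le_left
  obtain ⟨nQ, hnQ⟩ := IsPGroup.iff_card.mp (P.isPGroup'.to_le hQP)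
  have hHrel : ¬ p ∣ P0.relIndex H := fun h =>
    P.not_dvd_index (h.trans (Cfsg.Lib.Transfer.relIndex_dvd_index_of_normal_right P0 H))
  have hHcard : Nat.card H = Nat.card Q * P0.relIndex H := by
    rw [← Subgroup.inf_relIndex_right, ← Nat.card_congr (Subgroup.subgroupOfEquivOfLe (inf_le_right : Q ≤ H)).toEquiv]
    exact (Subgroup.card_mul_index _).symm
  have hQne : Q ≠ ⊥ := fun e => hHrel (by
    rw [hHcard, e, Subgroup.card_bot, one_mul] at h1
    exact h1)
  have hQlt : ¬ P0 ≤ Q := fun e => P.not_dvd_index (h2.trans (Subgroup.index_dvd_of_le (e.trans inf_le_right)))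
  obtain ⟨z, hzQ, hz1⟩ := Q.bot_or_exists_ne_one.resolve_left hQne
  set N := Subgroup.normalizer (Q : Set G) with hN
  set C := Subgroup.centralizer (Q : Set G) with hC
  have hPC : P0 ≤ C := by
    intro x hx q hq
    exact congrArg Subtype.val (IsCyclic.commutative.is_comm.comm (⟨q, hQP hq⟩ : P0) ⟨x, hx⟩)
  have hCN : C ≤ N := Subgroup.centralizer_le_normalizer _
  haveI hCn : (C.subgroupOf N).Normal := Subgroup.normal_subgroupOf_centralizer_normalizer _
  -- `C` has a normal `p`-complement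
  have hCcomp : Cfsg.HasNormalPComplement p C := by
    refine Cfsg.Lib.Transfer.hasNormalPComplement_of_normalizer_le_centralizer (P.subtype hPC) ?_
    intro c hc
    have hcG : (c : G) ∈ Subgroup.normalizer (P0 : Set G) := by
      rw [Subgroup.mem_normalizer_iff]
      intro x
      constructor
      · intro hx
        exact (Subgroup.mem_normalizer_iff.mp hc ⟨x, hPC hx⟩).mp hx
      · intro hx
        have h3 := (Subgroup.mem_normalizer_iff''.mp hc ⟨_, hPC hx⟩).mp hx
        have e : (c : G)⁻¹ * ((c : G) * x * (c : G)⁻¹) * c = x := by group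
        have h4 : (c : G)⁻¹ * ((c : G) * x * (c : G)⁻¹) * c ∈ P0 := h3
        rwa [e] at h4
    suffices hcc : (c : G) ∈ Subgroup.centralizer (P0 : Set G) from
      fun x hx => Subtype.ext (hcc (x : G) hx)
    obtain ⟨e, r, -, -, hy, hr, hgen⟩ := eq_split hp (c : G)
    refine (Subgroup.closure_le _).mpr ?_ hgen
    rintro w (rfl | rfl)
    · refine centralize_of_fixed P.isPGroup' hP (pow_mem hcG _) hy (hQP hzQ) hz1 ?_
      have h4 := (pow_mem c.2 (p ^ e) : (c : G) ^ p ^ e ∈ C) z hzQ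
      rw [← h4, mul_inv_cancel_right]
    · have hmem : (c : G) ^ r ∈ P0 := by
        have hz : IsPGroup p (Subgroup.zpowers ((c : G) ^ r)) :=
          IsPGroup.of_card (n := e) (by rw [Nat.card_zpowers, hr])
        exact mem_sylow_of_normalizes P (pow_mem hcG r) hz
      intro x hx
      exact congrArg Subtype.val (IsCyclic.commutative.is_comm.comm (⟨x, hx⟩ : P0) ⟨_, hmem⟩)
  -- the complement
  set K := (Cfsg.pResidual p C).map C.subtype with hK
  have hKC : K ≤ C := Subgroup.map_subtype_le _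
  have hKcop : (Nat.card K).Coprime p := by
    rw [hK, Subgroup.card_map_of_injective C.subtype_injective]
    exact Cfsg.Lib.Transfer.hasNormalPComplement_iff_pResidual.mp hCcomp
  have hKnorm : N ≤ Subgroup.normalizer (K : Set G) := by
    haveI : (Cfsg.pResidual p C).Characteristic := Cfsg.Lib.Transfer.pResidual_characteristic p
    haveI : ((Cfsg.pResidual p C).map (Subgroup.inclusion hCN)).Normal := by
      haveI := hCn
      have e : (Cfsg.pResidual p C).map (Subgroup.inclusion hCN) =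
          ((Cfsg.pResidual p C).map (Subgroup.subgroupOfEquivOfLe hCN).symm.toMonoidHom).map (C.subgroupOf N).subtype := by
        rw [Subgroup.map_map]
        rfl
      rw [e]
      haveI : ((Cfsg.pResidual p C).map (Subgroup.subgroupOfEquivOfLe hCN).symm.toMonoidHom).Characteristic := by
        rw [Subgroup.characteristic_iff_map_le]
        intro φ
        rintro _ ⟨_, ⟨x, hx, rfl⟩, rfl⟩
        refine ⟨((Subgroup.subgroupOfEquivOfLe hCN).symm.trans (φ.trans (Subgroup.subgroupOfEquivOfLe hCN))) x,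
          Cfsg.Lib.Transfer.map_mem_of_characteristic _ hx, ?_⟩
        simp
      exact ConjAct.normal_of_characteristic_of_normal
    intro n hn
    rw [Subgroup.mem_normalizer_iff]
    intro x
    constructor
    · rintro ⟨x', hx', rfl⟩
      obtain ⟨y, hy, e⟩ := (inferInstance : ((Cfsg.pResidual p C).map (Subgroup.inclusion hCN)).Normal).conj_mem _
        ⟨x', hx', rfl⟩ ⟨n, hn⟩
      exact ⟨y, hy, congrArg Subtype.val e⟩
    · rintro ⟨x', hx', e'⟩
      obtain ⟨y, hy, e⟩ := (inferInstance : ((Cfsg.pResidual p C).map (Subgroup.inclusion hCN)).Normal).conj_mem _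
        ⟨x', hx', rfl⟩ ⟨n, hn⟩⁻¹
      refine ⟨y, hy, (congrArg Subtype.val e).trans ?_⟩
      show n⁻¹ * (x' : G) * (n⁻¹)⁻¹ = x
      have e'' : (x' : G) = n * x * n⁻¹ := e'
      rw [e'']
      group
  have hCdec : ∀ c ∈ C, ∃ k ∈ K, ∃ x ∈ P0, c = k * x := by
    intro c hc
    haveI := Cfsg.Lib.Transfer.pResidual_normal (G := C) p
    have hmem : (⟨c, hc⟩ : C) ∈ Cfsg.pResidual p C ⊔ (P.subtype hPC : Subgroup C) := by
      rw [Cfsg.Lib.Transfer.pResidual_sup_sylow]; trivial
    obtain ⟨k, hk, x, hx, e⟩ := Subgroup.mem_sup_of_normal_left.mp hmem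
    exact ⟨k, ⟨k, hk, rfl⟩, x, hx, (congrArg Subtype.val e).symm⟩
  -- `P ∩ K H = Q`
  have hPKH : P0 ⊓ (K ⊔ H) ≤ Q := by
    have hle : Q ≤ P0 ⊓ (K ⊔ H) := le_inf hQP (inf_le_right.trans le_sup_right)
    refine (Subgroup.eq_of_le_of_card_ge hle ?_).ge
    obtain ⟨i, hi⟩ := IsPGroup.iff_card.mp (P.isPGroup'.to_le (inf_le_left : P0 ⊓ (K ⊔ H) ≤ P0))
    have hd : p ^ i ∣ Nat.card K * (Nat.card Q * P0.relIndex H) := by
      rw [← hi, ← hHcard]
      exact (Subgroup.card_dvd_of_le inf_le_right).trans (Cfsg.Lib.Transfer.card_sup_dvd_of_normal K H)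
    rw [hi]
    refine Nat.le_of_dvd Nat.card_pos ?_
    exact ((hp.coprime_iff_not_dvd.mpr hHrel).pow_left i).dvd_of_dvd_mul_right
      ((hKcop.symm.pow_left i).dvd_of_dvd_mul_left hd)
  have hNH : ∀ y ∈ H, y ∈ N → y ∈ C := by
    intro y hyH hyN
    -- Frattini in `N`
    have hfr := Sylow.normalizer_sup_eq_top (N := C.subgroupOf N)
      ((P.subtype (hPC.trans hCN)).subtype (show (P.subtype (hPC.trans hCN) : Subgroup N) ≤ C.subgroupOf N from fun x hx => hPC hx))
    obtain ⟨m, hm, c, hc, hmc⟩ := Subgroup.mem_sup_of_normal_right.mp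
      (hfr.symm ▸ Subgroup.mem_top (⟨y, hyN⟩ : N))
    have hmP : (m : G) ∈ Subgroup.normalizer (P0 : Set G) := by
      have hmem : ∀ w : N, w ∈ ((P.subtype (hPC.trans hCN)).subtype (show (P.subtype (hPC.trans hCN) : Subgroup N) ≤ C.subgroupOf N from fun x hx => hPC hx) : Subgroup (C.subgroupOf N)).map (C.subgroupOf N).subtype ↔ (w : G) ∈ P0 := by
        intro w
        constructor
        · rintro ⟨w', hw', rfl⟩
          exact hw'
        · intro hw
          exact ⟨⟨w, hPC hw⟩, hw, rfl⟩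
      rw [Subgroup.mem_normalizer_iff]
      intro x
      constructor
      · intro hx
        exact (hmem _).mp ((Subgroup.mem_normalizer_iff.mp hm ⟨x, hPC.trans hCN hx⟩).mp ((hmem _).mpr hx))
      · intro hx
        have hxN : (m : G) * x * (m : G)⁻¹ ∈ N := hPC.trans hCN hx
        have h3 := (hmem _).mp ((Subgroup.mem_normalizer_iff''.mp hm ⟨_, hxN⟩).mp ((hmem _).mpr hx))
        have e : (m : G)⁻¹ * ((m : G) * x * (m : G)⁻¹) * m = x := by group
        have h4 : (m : G)⁻¹ * ((m : G) * x * (m : G)⁻¹) * m ∈ P0 := h3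
        rwa [e] at h4
    have hy' : y = (m : G) * (c : G) := (congrArg Subtype.val hmc).symm
    rw [hy']
    refine mul_mem ?_ hc
    obtain ⟨e, r, -, -, hord, hr, hgen⟩ := eq_split hp (m : G)
    refine (Subgroup.closure_le _).mpr ?_ hgen
    rintro w (rfl | rfl)
    · rcases Cfsg.Lib.Transfer.cyclic_coprime_action P.isPGroup' hP (pow_mem hmP (p ^ e)) hord with h | h
      · exact Subgroup.centralizer_le hQP h
      · exfalso
        apply hQlt
        refine h.trans (le_trans (le_inf (Subgroup.le_normalizer_iff_commutator_le_left.mp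
          ((Subgroup.zpowers_le).mpr (pow_mem hmP _))) ?_) hPKH)
        rw [Subgroup.commutator_le]
        intro x hx w hw
        have hmCH : (m : G) ∈ C ⊔ H := by
          have : (m : G) = y * (c : G)⁻¹ := by rw [hy']; group
          rw [this]
          exact mul_mem (Subgroup.mem_sup_right hyH) (Subgroup.mem_sup_left (inv_mem hc))
        have hwCH : w ∈ C ⊔ H := (Subgroup.zpowers_le.mpr (pow_mem hmCH _)) hw
        obtain ⟨c', hc', h', hh', rfl⟩ := Subgroup.mem_sup_of_normal_right.mp hwCH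
        obtain ⟨k, hk, x', hx', rfl⟩ := hCdec c' hc'
        have e1 : ⁅x, k * x' * h'⁆ = ⁅x, k⁆ * (k * x') * (x * h' * x⁻¹ * h'⁻¹) * (k * x')⁻¹ := by
          have hxx : x * x' = x' * x := congrArg Subtype.val (IsCyclic.commutative.is_comm.comm (⟨x, hx⟩ : P0) ⟨x', hx'⟩)
          simp only [commutatorElement_def]
          calc x * (k * x' * h') * x⁻¹ * (k * x' * h')⁻¹
              = x * k * (x' * x) * x⁻¹ * h' * x⁻¹ * h'⁻¹ * x'⁻¹ * k⁻¹ := by group
            _ = x * k * (x * x') * x⁻¹ * h' * x⁻¹ * h'⁻¹ * x'⁻¹ * k⁻¹ := by rw [hxx]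
            _ = x * k * x * (x' * x⁻¹) * h' * x⁻¹ * h'⁻¹ * x'⁻¹ * k⁻¹ := by group
            _ = x * k * x * (x⁻¹ * x') * h' * x⁻¹ * h'⁻¹ * x'⁻¹ * k⁻¹ := by
                rw [show x' * x⁻¹ = x⁻¹ * x' by rw [eq_inv_mul_iff_mul_eq, ← mul_assoc, hxx, mul_inv_cancel_right]]
            _ = x * k * (x⁻¹ * k⁻¹) * (k * x * x') * h' * x⁻¹ * h'⁻¹ * x'⁻¹ * k⁻¹ := by group
            _ = x * k * (x⁻¹ * k⁻¹) * (k * (x' * x)) * h' * x⁻¹ * h'⁻¹ * x'⁻¹ * k⁻¹ := by rw [← hxx]; group
            _ = _ := by group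
        rw [e1, commutatorElement_def]
        have h5 : x * k * x⁻¹ * k⁻¹ ∈ K ⊔ H :=
          Subgroup.mem_sup_left (mul_mem ((Subgroup.mem_normalizer_iff.mp (hKnorm (hCN (hPC hx))) k).mp hk) (inv_mem hk))
        have h6 : x * h' * x⁻¹ * h'⁻¹ ∈ H := mul_mem (‹H.Normal›.conj_mem h' hh' x) (inv_mem hh')
        have h7 := mul_mem h5 (Subgroup.mem_sup_right (S := K) (‹H.Normal›.conj_mem _ h6 (k * x')))
        simpa [mul_assoc] using h7
    · exact hPC (mem_sylow_of_normalizes P (pow_mem hmP r)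
        (IsPGroup.of_card (n := e) (by rw [Nat.card_zpowers, hr])))
  -- `H` has a normal complement
  have hQH : Q ≤ H := inf_le_right
  have hQsyl : ¬ p ∣ (Q.subgroupOf H).index := by
    rw [Subgroup.inf_subgroupOf_right]
    exact hHrel
  let S : Sylow p H := ((P.isPGroup'.to_le hQP).of_equiv (Subgroup.subgroupOfEquivOfLe hQH).symm).toSylow hQsyl
  have hHcomp : Cfsg.HasNormalPComplement p H := by
    refine Cfsg.Lib.Transfer.hasNormalPComplement_of_normalizer_le_centralizer S ?_
    intro c hc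
    have hcN : (c : G) ∈ N := by
      rw [hN, Subgroup.mem_normalizer_iff]
      intro x
      constructor
      · intro hx
        exact (Subgroup.mem_normalizer_iff.mp hc ⟨x, hQH hx⟩).mp hx
      · intro hx
        have h3 := (Subgroup.mem_normalizer_iff''.mp hc ⟨_, hQH hx⟩).mp hx
        have e : (c : G)⁻¹ * ((c : G) * x * (c : G)⁻¹) * c = x := by group
        have h4 : (c : G)⁻¹ * ((c : G) * x * (c : G)⁻¹) * c ∈ Q := h3
        rwa [e] at h4
    exact fun x hx => Subtype.ext (hNH _ c.2 hcN (x : G) hx)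
  refine ⟨hHcomp, ?_⟩
  -- the series
  set KH := (Cfsg.pResidual p H).map H.subtype with hKH
  haveI : KH.Normal := by
    haveI := Cfsg.Lib.Transfer.pResidual_characteristic (G := H) p
    exact ConjAct.normal_of_characteristic_of_normal
  have hKHcop : (Nat.card KH).Coprime p := by
    rw [hKH, Subgroup.card_map_of_injective H.subtype_injective]
    exact Cfsg.Lib.Transfer.hasNormalPComplement_iff_pResidual.mp hHcomp
  have hHdec : H ≤ Q ⊔ KH := by
    intro h hh
    haveI := Cfsg.Lib.Transfer.pResidual_normal (G := H) p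
    have hmem : (⟨h, hh⟩ : H) ∈ Cfsg.pResidual p H ⊔ (S : Subgroup H) := by
      rw [Cfsg.Lib.Transfer.pResidual_sup_sylow]; trivial
    obtain ⟨k, hk, x, hx, e⟩ := Subgroup.mem_sup_of_normal_left.mp hmem
    rw [show h = (k : G) * (x : G) from (congrArg Subtype.val e).symm]
    exact mul_mem (Subgroup.mem_sup_right ⟨k, hk, rfl⟩) (Subgroup.mem_sup_left hx)
  have hNsup : N ⊔ KH = ⊤ := by
    have hfr := Sylow.normalizer_sup_eq_top S
    have e : (S : Subgroup H).map H.subtype = Q := by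
      show (Q.subgroupOf H).map H.subtype = Q
      rw [Subgroup.map_subgroupOf_eq_of_le hQH]
    rw [e] at hfr
    rw [eq_top_iff, ← hfr]
    exact sup_le le_sup_left (hHdec.trans (sup_le (Subgroup.le_normalizer.trans le_sup_left) le_sup_right))
  have hnormal : ∀ X : Subgroup G, N ≤ Subgroup.normalizer (X : Set G) → (X ⊔ KH).Normal := by
    intro X hX
    rw [← Subgroup.normalizer_eq_top_iff, eq_top_iff, ← hNsup]
    refine sup_le (fun n hn => ?_) (le_sup_right.trans Subgroup.le_normalizer)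
    rw [Subgroup.mem_normalizer_iff_map_conj_eq, Subgroup.map_sup]
    rw [Subgroup.mem_normalizer_iff_map_conj_eq.mp (hX hn), Subgroup.Normal.map_conj_eq]
  have hNC : N ≤ Subgroup.normalizer (C : Set G) := by
    intro n hn
    rw [Subgroup.mem_normalizer_iff]
    intro x
    have hmem : ∀ n ∈ N, ∀ x ∈ C, n * x * n⁻¹ ∈ C := by
      intro n hn x hx q hq
      have h3 := hx _ ((Subgroup.mem_normalizer_iff''.mp hn q).mp hq)
      calc q * (n * x * n⁻¹) = n * ((n⁻¹ * q * n) * x) * n⁻¹ := by group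
        _ = n * (x * (n⁻¹ * q * n)) * n⁻¹ := by rw [h3]
        _ = _ := by group
    refine ⟨hmem n hn x, fun h => ?_⟩
    have := hmem n⁻¹ (inv_mem hn) _ h
    simpa [mul_assoc] using this
  have hn1 := hnormal K hKnorm
  have hn2 := hnormal C hNC
  refine ⟨3, ![⊥, K ⊔ KH, C ⊔ KH, ⊤], rfl, rfl, ?_, ?_, ?_⟩
  · refine Fin.monotone_iff_le_succ.mpr fun i => ?_
    fin_cases i
    · exact bot_le
    · exact sup_le_sup_right hKC _
    · exact le_top
  · intro i
    fin_cases i
    · exact inferInstanceAs (⊥ : Subgroup G).Normal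
    · exact hn1
    · exact hn2
    · exact inferInstanceAs (⊤ : Subgroup G).Normal
  · intro i
    fin_cases i
    · right
      show ((⊥ : Subgroup G).relIndex (K ⊔ KH)).Coprime p
      rw [Subgroup.relIndex_bot_left]
      exact (hKcop.mul_left hKHcop).coprime_dvd_left (Cfsg.Lib.Transfer.card_sup_dvd_of_normal K KH)
    · left
      show ∃ j, (K ⊔ KH).relIndex (C ⊔ KH) = p ^ j
      obtain ⟨nP, hnP⟩ := IsPGroup.iff_card.mp P.isPGroup'
      have hle : C ⊔ KH = P0 ⊔ (K ⊔ KH) := by
        refine le_antisymm (sup_le (fun c hc => ?_) (le_sup_right.trans le_sup_right)) (sup_le (hPC.trans le_sup_left) (sup_le_sup_right hKC _))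
        obtain ⟨k, hk, x, hx, rfl⟩ := hCdec c hc
        exact mul_mem (Subgroup.mem_sup_right (Subgroup.mem_sup_left hk)) (Subgroup.mem_sup_left hx)
      haveI := hn1
      obtain ⟨j, -, hj⟩ := (Nat.dvd_prime_pow hp).mp (hnP ▸ Subgroup.relIndex_dvd_card (K ⊔ KH) P0)
      exact ⟨j, by rw [hle, Subgroup.relIndex_sup_right]; exact hj⟩
    · right
      show ((C ⊔ KH).relIndex ⊤).Coprime p
      rw [Subgroup.relIndex_top_right, Nat.coprime_comm, hp.coprime_iff_not_dvd]
      exact fun h => P.not_dvd_index (h.trans (Subgroup.index_dvd_of_le (hPC.trans le_sup_left)))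

end Cfsg.Agent.S4145
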