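import Cfsg.Statements.S4151
import Mathlib
import Cfsg.Agent.Lib.PLocal.TISubgroup
-- import your own Cfsg.Agent.* helpers here

set_option autoImplicit false
open Cfsg Cfsg.Lib

namespace Cfsg.Agent.S4151

/-- Let G be a finite group and H a non-normal subgroup meeting each of its conjugates by elements outside N_G(H) trivially, with the order of H coprime to its index in N_G(H), such that G is π-separable for π the set of primes dividing the order of H (G has a chain of normal subgroups from 1 to G each of whose factors has order divisible only by primes dividing the order of H or coprime to it). Suppose a Sylow 2-subgroup of H is abelian and Q is a complement of H in N_G(H). Then C_H(Q), the subgroup of elements of H commuting with Q, has order coprime to its index in G and has a normal complement in G. -/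
theorem result {G : Type*} [Group G] [Finite G] (H : Subgroup G)
    (hTI : Cfsg.IsTISubset (H : Set G)) (hnn : ¬ H.Normal)
    (hHall : (Nat.card H).Coprime (H.subgroupOf (Subgroup.normalizer (H : Set G))).index)
    (hsep : ∃ (n : ℕ) (M : Fin (n + 1) → Subgroup G), M 0 = ⊥ ∧ M (Fin.last n) = ⊤ ∧ Monotone M ∧ (∀ i, (M i).Normal) ∧
      ∀ i : Fin n, (∀ q : ℕ, q.Prime → q ∣ (M i.castSucc).relIndex (M i.succ) → q ∣ Nat.card H) ∨
        ((M i.castSucc).relIndex (M i.succ)).Coprime (Nat.card H))
    (h2 : ∀ P : Sylow 2 H, IsMulCommutative (P : Subgroup H))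
    (Q : Subgroup G) (hQ : Q ≤ Subgroup.normalizer (H : Set G)) (hQH : Q ⊓ H = ⊥) (hQH' : Q ⊔ H = Subgroup.normalizer (H : Set G)) :
    (Nat.card ↥(H ⊓ Subgroup.centralizer (Q : Set G))).Coprime (H ⊓ Subgroup.centralizer (Q : Set G)).index ∧
    ∃ N : Subgroup G, N.Normal ∧ N.IsComplement' (H ⊓ Subgroup.centralizer (Q : Set G)) := by
  have hco := PLocal.TISub.coprime_index hTI hHall
  obtain ⟨O, hOn, hOc, hOmax⟩ := PLocal.TISub.exists_core H
  haveI := hOn
  have htop := PLocal.TISub.core_sup_normalizer hTI hnn hco hsep hOc hOmax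
  haveI : IsZGroup H := PLocal.TISub.isZGroup (fun A hA hAc => by
    haveI := hAc
    exact PLocal.TISub.isCyclic_of_comm hTI hnn hOc htop hA) h2
  have hQc : (Nat.card Q).Coprime (Nat.card H) := by
    have h1 : Nat.card (Subgroup.normalizer (H : Set G)) = Nat.card Q * Nat.card H := by
      set N := Subgroup.normalizer (H : Set G)
      haveI : (H.subgroupOf N).Normal := Subgroup.normal_in_normalizer
      have hd : Q.subgroupOf N ⊓ H.subgroupOf N = ⊥ := by
        rw [eq_bot_iff]
        rintro x ⟨hx1, hx2⟩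
        exact Subgroup.mem_bot.2 (Subtype.ext (Subgroup.mem_bot.1 (hQH ▸ ⟨hx1, hx2⟩)))
      have hs : Q.subgroupOf N ⊔ H.subgroupOf N = ⊤ := by
        rw [← Subgroup.subgroupOf_sup hQ Subgroup.le_normalizer, hQH', Subgroup.subgroupOf_self]
      have := Solv.card_sup_eq_mul hd
      rw [hs, Subgroup.card_top, Solv.card_subgroupOf hQ, Solv.card_subgroupOf Subgroup.le_normalizer, mul_comm] at this
      exact this
    have h3 := (H.subgroupOf (Subgroup.normalizer (H : Set G))).card_mul_index
    rw [Nat.card_congr (Subgroup.subgroupOfEquivOfLe Subgroup.le_normalizer).toEquiv, h1, mul_comm (Nat.card Q)] at h3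
    rw [Nat.eq_of_mul_eq_mul_left Nat.card_pos h3] at hHall
    exact hHall.symm
  set K := H ⊓ Subgroup.centralizer (Q : Set G) with hKdef
  have hKH : K ≤ H := inf_le_left
  set W : Subgroup G := ⁅H, Q⁆ with hWdef
  have hWK : (Nat.card W).Coprime (Nat.card K) := PLocal.TISub.commutator_fixed_coprime Q hQ hQc
  have hHWK : W ⊔ K = H := Solv.commutator_sup_centralizer Q H hQ hQc (Or.inr inferInstance)
  have hWn : Subgroup.normalizer (H : Set G) ≤ Subgroup.normalizer (W : Set G) := by
    rw [← hQH', sup_le_iff]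
    exact ⟨Solv.le_normalizer_commutator_right H Q, Solv.le_normalizer_commutator_left H Q⟩
  haveI hOW : (O ⊔ W).Normal := PLocal.TISub.sup_normal htop hWn
  set M := O ⊔ W ⊔ Q
  have hOK : (Nat.card O).Coprime (Nat.card K) := hOc.coprime_dvd_right (Subgroup.card_dvd_of_le hKH)
  have hQK : (Nat.card Q).Coprime (Nat.card K) := hQc.coprime_dvd_right (Subgroup.card_dvd_of_le hKH)
  have hMK : (Nat.card M).Coprime (Nat.card K) := by
    have hOWc : (Nat.card ↥(O ⊔ W)).Coprime (Nat.card K) := by
      rw [sup_comm]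
      exact PLocal.TISub.coprime_sup hWK hOK
    show (Nat.card ↥((O ⊔ W) ⊔ Q)).Coprime _
    rw [sup_comm]
    exact PLocal.TISub.coprime_sup hQK hOWc
  have hcov : M ⊔ K = ⊤ := by
    rw [eq_top_iff, ← htop, sup_le_iff]
    refine ⟨(le_sup_left.trans le_sup_left).trans le_sup_left, ?_⟩
    rw [← hQH', sup_le_iff]
    refine ⟨le_sup_right.trans le_sup_left, ?_⟩
    conv_lhs => rw [← hHWK]
    exact sup_le ((le_sup_right.trans le_sup_left).trans le_sup_left) le_sup_right
  haveI hMn : M.Normal := by
    rw [← Subgroup.normalizer_eq_top_iff, eq_top_iff, ← hcov, sup_le_iff]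
    refine ⟨Subgroup.le_normalizer, fun k hk => ?_⟩
    rw [← Solv.conj_smul_eq_self_iff, Subgroup.smul_sup,
      Solv.conj_smul_eq_self_iff.2 (by rw [Subgroup.normalizer_eq_top]; exact Subgroup.mem_top k),
      Solv.conj_smul_eq_self_iff.2 (Solv.normalizer_eq_of_centralizes hk.2)]
  have hdis : M ⊓ K = ⊥ := Solv.inf_eq_bot_of_coprime_card hMK
  have hcompl : M.IsComplement' K :=
    Subgroup.isComplement'_of_disjoint_and_mul_eq_univ (disjoint_iff.2 hdis)
      (by rw [← Subgroup.normal_mul, hcov, Subgroup.coe_top])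
  exact ⟨hcompl.index_eq_card ▸ hMK.symm, M, hMn, hcompl⟩

end Cfsg.Agent.S4151
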