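import Cfsg.Statements.S4152
-- import your own Cfsg.Agent.* helpers here

set_option autoImplicit false
open Cfsg

namespace Cfsg.Agent.S4152

/-- All prime divisors of the order lie in `π`. -/
def PiEl {G : Type*} [Group G] (π : Set ℕ) (g : G) : Prop :=
  ∀ q : ℕ, q.Prime → q ∣ orderOf g → q ∈ π

theorem piEl_of_dvd {G H : Type*} [Group G] [Group H] {π : Set ℕ} {g : G} {h : H}
    (hd : orderOf h ∣ orderOf g) (hg : PiEl π g) : PiEl π h :=
  fun q hq hdv => hg q hq (hdv.trans hd)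

theorem piEl_mul {G : Type*} [Group G] {π : Set ℕ} {g h : G} (hc : Commute g h) (hg : PiEl π g)
    (hh : PiEl π h) : PiEl π (g * h) := fun q hq hd =>
  (hq.dvd_mul.1 ((hd.trans hc.orderOf_mul_dvd_lcm).trans (Nat.lcm_dvd_mul _ _))).elim (hg q hq) (hh q hq)

theorem exists_split {G : Type*} [Group G] (π : Set ℕ) (m : ℕ) : m ≠ 0 → ∀ g : G, g ^ m = 1 →
    ∃ u v : G, u ∈ Subgroup.zpowers g ∧ v ∈ Subgroup.zpowers g ∧ PiEl π u ∧ PiEl πᶜ v ∧ u * v = g := by
  induction m using Nat.recOnPosPrimePosCoprime with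
  | prime_pow p n hp _ =>
    intro _ g hg
    have key : ∀ q, q.Prime → q ∣ orderOf g → q = p := fun q hq hd =>
      (Nat.prime_dvd_prime_iff_eq hq hp).1 (hq.dvd_of_dvd_pow (hd.trans (orderOf_dvd_of_pow_eq_one hg)))
    by_cases hpπ : p ∈ π
    · exact ⟨g, 1, Subgroup.mem_zpowers g, one_mem _, fun q hq hd => key q hq hd ▸ hpπ,
        fun q hq hd => absurd (Nat.dvd_one.1 (orderOf_one (G := G) ▸ hd)) hq.ne_one, mul_one g⟩
    · exact ⟨1, g, one_mem _, Subgroup.mem_zpowers g,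
        fun q hq hd => absurd (Nat.dvd_one.1 (orderOf_one (G := G) ▸ hd)) hq.ne_one,
        fun q hq hd => key q hq hd ▸ hpπ, one_mul g⟩
  | zero => intro h; exact absurd rfl h
  | one =>
    intro _ g hg
    rw [pow_one] at hg
    refine ⟨1, 1, one_mem _, one_mem _, ?_, ?_, by rw [hg, one_mul]⟩ <;>
      exact fun q hq hd => absurd (Nat.dvd_one.1 (orderOf_one (G := G) ▸ hd)) hq.ne_one
  | coprime a b ha hb hab iha ihb =>
    intro _ g hg
    set s := Nat.gcdA a b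
    set t := Nat.gcdB a b
    have hst : (1 : ℤ) = a * s + b * t := by
      rw [← Nat.gcd_eq_gcd_ab, hab.gcd_eq_one]; rfl
    have hg' : g ^ ((a : ℤ) * b) = 1 := by rw [← Nat.cast_mul, zpow_natCast, hg]
    set g1 := g ^ ((b : ℤ) * t) with hg1
    set g2 := g ^ ((a : ℤ) * s) with hg2
    have e1 : g1 ^ a = 1 := by
      rw [hg1, ← zpow_natCast, ← zpow_mul, show (b : ℤ) * t * a = a * b * t by ring, zpow_mul, hg',
        one_zpow]
    have e2 : g2 ^ b = 1 := by
      rw [hg2, ← zpow_natCast, ← zpow_mul, show (a : ℤ) * s * b = a * b * s by ring, zpow_mul, hg',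
        one_zpow]
    have e : g1 * g2 = g := by rw [hg1, hg2, ← zpow_add, add_comm, ← hst, zpow_one]
    have hle : ∀ k : ℤ, Subgroup.zpowers (g ^ k) ≤ Subgroup.zpowers g := fun k =>
      Subgroup.zpowers_le.2 (Subgroup.zpow_mem_zpowers g k)
    obtain ⟨u1, v1, hu1, hv1, pu1, pv1, euv1⟩ := iha (by omega) g1 e1
    obtain ⟨u2, v2, hu2, hv2, pu2, pv2, euv2⟩ := ihb (by omega) g2 e2
    have hc : ∀ x ∈ Subgroup.zpowers g, ∀ y ∈ Subgroup.zpowers g, Commute x y := fun x hx y hy => by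
      obtain ⟨i, rfl⟩ := Subgroup.mem_zpowers_iff.1 hx
      obtain ⟨j, rfl⟩ := Subgroup.mem_zpowers_iff.1 hy
      exact Commute.zpow_zpow (Commute.refl g) i j
    refine ⟨u1 * u2, v1 * v2, mul_mem (hle _ hu1) (hle _ hu2), mul_mem (hle _ hv1) (hle _ hv2),
      piEl_mul (hc _ (hle _ hu1) _ (hle _ hu2)) pu1 pu2,
      piEl_mul (hc _ (hle _ hv1) _ (hle _ hv2)) pv1 pv2, ?_⟩
    calc u1 * u2 * (v1 * v2) = u1 * (u2 * v1) * v2 := by group
      _ = u1 * (v1 * u2) * v2 := by rw [(hc _ (hle _ hu2) _ (hle _ hv1)).eq]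
      _ = (u1 * v1) * (u2 * v2) := by group
      _ = g := by rw [euv1, euv2, e]

theorem split_unique {G : Type*} [Group G] [Finite G] {π : Set ℕ} {z v z' v' : G}
    (hz : PiEl π z) (hv : PiEl πᶜ v) (hc : Commute z v)
    (hz' : PiEl π z') (hv' : PiEl πᶜ v') (hc' : Commute z' v') (h : z * v = z' * v') :
    z = z' ∧ v = v' := by
  have hzz : z = z' := by
    set m := orderOf v * orderOf v'
    have hcop : Nat.Coprime m (orderOf ((z, z') : G × G)) := by
      refine Nat.coprime_of_dvd fun q hq h1 h2 => ?_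
      rw [Prod.orderOf] at h2
      have hqπ : q ∈ π := (hq.dvd_mul.1 (h2.trans (Nat.lcm_dvd_mul _ _))).elim (hz q hq) (hz' q hq)
      exact (hq.dvd_mul.1 h1).elim (fun hd => hv q hq hd hqπ) (fun hd => hv' q hq hd hqπ)
    obtain ⟨k, hk⟩ := exists_pow_eq_self_of_coprime hcop
    have h1 : v ^ m = 1 := orderOf_dvd_iff_pow_eq_one.1 (Dvd.intro _ rfl)
    have h2 : v' ^ m = 1 := orderOf_dvd_iff_pow_eq_one.1 (Dvd.intro_left _ rfl)
    have h3 : z ^ m = z' ^ m := by
      have := congrArg (· ^ m) h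
      simpa [hc.mul_pow, hc'.mul_pow, h1, h2] using this
    have e1 := congrArg Prod.fst hk
    have e2 := congrArg Prod.snd hk
    simp only [Prod.pow_fst, Prod.pow_snd] at e1 e2
    rw [← e1, ← e2, h3]
  subst hzz
  exact ⟨rfl, mul_left_cancel h⟩

/-- The number of orbits of `N` on the `π`-elements of a coset is at most the number of classes of
`π`-elements of `N`. -/
theorem exists_orbit_bound.{u} {G : Type u} [Group G] [Finite G] (N : Subgroup G) [N.Normal] (π : Set ℕ)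
    (y : G ⧸ N) : ∃ (Ω : Type u) (_ : Finite Ω) (f : {z : G // (z : G ⧸ N) = y ∧ PiEl π z} → Ω),
      (∀ a b, f a = f b → ConjClasses.mk (a : G) = ConjClasses.mk (b : G)) ∧ Function.Surjective f ∧
      Nat.card Ω ≤ Nat.card {C : ConjClasses N // ∀ q : ℕ, q.Prime →
        (∃ g : N, ConjClasses.mk g = C ∧ q ∣ orderOf g) → q ∈ π} := by
  let Y := {z : G // (z : G ⧸ N) = y ∧ PiEl π z}
  let X := {u : N // PiEl π u}
  letI aY : MulAction N Y :=
    { smul := fun n z => ⟨(n : G) * z.1 * (n : G)⁻¹, by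
        rw [QuotientGroup.mk_mul, QuotientGroup.mk_mul, QuotientGroup.mk_inv,
          (QuotientGroup.eq_one_iff (n : G)).2 n.2, one_mul, inv_one, mul_one, z.2.1],
        piEl_of_dvd (by rw [← MulAut.conj_apply, MulEquiv.orderOf_eq]) z.2.2⟩
      one_smul := fun z => Subtype.ext (by show ((1 : N) : G) * z.1 * _ = z.1; simp)
      mul_smul := fun n n' z => Subtype.ext (by
        show ((n * n' : N) : G) * z.1 * ((n * n' : N) : G)⁻¹ =
          (n : G) * ((n' : G) * z.1 * (n' : G)⁻¹) * (n : G)⁻¹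
        rw [Subgroup.coe_mul]; group) }
  letI aX : MulAction N X :=
    { smul := fun n u => ⟨n * u.1 * n⁻¹, piEl_of_dvd (by rw [← MulAut.conj_apply, MulEquiv.orderOf_eq]) u.2⟩
      one_smul := fun u => Subtype.ext (by show (1 : N) * u.1 * (1 : N)⁻¹ = u.1; simp)
      mul_smul := fun n n' u => Subtype.ext (by
        show n * n' * u.1 * (n * n')⁻¹ = n * (n' * u.1 * n'⁻¹) * n⁻¹
        group) }
  refine ⟨Quotient (MulAction.orbitRel N Y), inferInstance, Quotient.mk _, ?_, Quotient.mk_surjective, ?_⟩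
  · intro a b hab
    obtain ⟨n, hn⟩ := MulAction.orbitRel_apply.1 (Quotient.exact hab)
    exact (ConjClasses.mk_eq_mk_iff_isConj.2 (isConj_iff.2 ⟨(n : G), congrArg Subtype.val hn⟩)).symm
  have hcl : Nat.card (Quotient (MulAction.orbitRel N X)) ≤ Nat.card {C : ConjClasses N // ∀ q : ℕ,
      q.Prime → (∃ g : N, ConjClasses.mk g = C ∧ q ∣ orderOf g) → q ∈ π} := by
    refine Nat.card_le_card_of_injective (Quotient.lift (fun u : X => ⟨ConjClasses.mk u.1, ?_⟩) ?_) ?_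
    · rintro q hq ⟨g, hg, hd⟩
      obtain ⟨c, hc⟩ := isConj_iff.1 (ConjClasses.mk_eq_mk_iff_isConj.1 hg)
      exact u.2 q hq (by rw [← hc, ← MulAut.conj_apply, MulEquiv.orderOf_eq]; exact hd)
    · intro a b hab
      obtain ⟨n, hn⟩ := MulAction.orbitRel_apply.1 hab
      exact Subtype.ext (ConjClasses.mk_eq_mk_iff_isConj.2
        (isConj_iff.2 ⟨n, congrArg Subtype.val hn⟩)).symm
    · intro a b
      induction a using Quotient.inductionOn with | _ a => ?_
      induction b using Quotient.inductionOn with | _ b => ?_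
      intro hab
      obtain ⟨n, hn⟩ := isConj_iff.1 (ConjClasses.mk_eq_mk_iff_isConj.1 (congrArg Subtype.val hab))
      exact (Quotient.sound (MulAction.orbitRel_apply.2 ⟨n, Subtype.ext hn⟩)).symm
  refine le_trans (Nat.le_of_mul_le_mul_right ?_ (Nat.card_pos (α := N))) hcl
  rw [← Nat.card_prod, ← Nat.card_prod,
    ← Nat.card_congr (MulAction.sigmaFixedByEquivOrbitsProdGroup N Y),
    ← Nat.card_congr (MulAction.sigmaFixedByEquivOrbitsProdGroup N X)]
  -- the injection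
  choose! w hw using fun (u : N) (hu : ∃ x : G, Commute x (u : G) ∧ (x : G ⧸ N) = y) => hu
  choose uf vf huf hvf huπ hvπ huv using fun n : N =>
    exists_split π (orderOf n) (orderOf_pos n).ne' n (pow_orderOf_eq_one n)
  have hcz : ∀ (p : Σ n : N, MulAction.fixedBy Y n) (x : N), x ∈ Subgroup.zpowers p.1 →
      Commute (p.2.1.1 : G) (x : G) := by
    intro p x hx
    have h1 : (p.1 : G) * p.2.1.1 * (p.1 : G)⁻¹ = p.2.1.1 := congrArg Subtype.val p.2.2
    have h2 : Commute (p.2.1.1 : G) (p.1 : G) := (mul_inv_eq_iff_eq_mul.1 h1).symm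
    obtain ⟨i, rfl⟩ := Subgroup.mem_zpowers_iff.1 hx
    rw [Subgroup.coe_zpow]
    exact h2.zpow_right i
  have hcuv : ∀ n : N, Commute (uf n) (vf n) := fun n => by
    obtain ⟨i, hi⟩ := Subgroup.mem_zpowers_iff.1 (huf n)
    obtain ⟨j, hj⟩ := Subgroup.mem_zpowers_iff.1 (hvf n)
    rw [← hi, ← hj]
    exact Commute.zpow_zpow (Commute.refl n) i j
  have hex : ∀ p : Σ n : N, MulAction.fixedBy Y n,
      Commute (p.2.1.1 * (vf p.1 : G)) (uf p.1 : G) ∧
        ((p.2.1.1 * (vf p.1 : G) : G) : G ⧸ N) = y := fun p => by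
    refine ⟨(hcz p _ (huf p.1)).mul_left ((hcuv p.1).symm.map N.subtype), ?_⟩
    rw [QuotientGroup.mk_mul, (QuotientGroup.eq_one_iff (vf p.1 : G)).2 (vf p.1).2, mul_one, p.2.1.2.1]
  have hm : ∀ p : Σ n : N, MulAction.fixedBy Y n,
      (w (uf p.1))⁻¹ * (p.2.1.1 * (vf p.1 : G)) ∈ N := fun p =>
    QuotientGroup.eq.1 ((hw (uf p.1) ⟨_, hex p⟩).2.trans (hex p).2.symm)
  refine Nat.card_le_card_of_injective (fun p => ⟨⟨_, hm p⟩, ⟨⟨uf p.1, huπ p.1⟩, ?_⟩⟩) ?_
  · show (⟨(⟨_, hm p⟩ : N) * uf p.1 * (⟨_, hm p⟩ : N)⁻¹, _⟩ : X) = _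
    refine Subtype.ext (Subtype.ext ?_)
    have h1 : Commute ((w (uf p.1))⁻¹ * (p.2.1.1 * (vf p.1 : G))) (uf p.1 : G) :=
      (hw (uf p.1) ⟨_, hex p⟩).1.inv_left.mul_left (hex p).1
    show (w (uf p.1))⁻¹ * (p.2.1.1 * (vf p.1 : G)) * (uf p.1 : G) *
      ((w (uf p.1))⁻¹ * (p.2.1.1 * (vf p.1 : G)))⁻¹ = (uf p.1 : G)
    rw [h1.eq, mul_inv_cancel_right]
  intro p p' hpp
  have hu : uf p.1 = uf p'.1 := congrArg (fun s : Σ n : N, MulAction.fixedBy X n => s.2.1.1) hpp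
  have hmm : (w (uf p.1))⁻¹ * (p.2.1.1 * (vf p.1 : G)) = (w (uf p'.1))⁻¹ * (p'.2.1.1 * (vf p'.1 : G)) :=
    congrArg (fun s : Σ n : N, MulAction.fixedBy X n => (s.1 : G)) hpp
  rw [hu] at hmm
  have hord : ∀ n : N, PiEl πᶜ (vf n : G) := fun n =>
    piEl_of_dvd (Subgroup.orderOf_coe _).dvd (hvπ n)
  obtain ⟨hz, hv⟩ := split_unique p.2.1.2.2 (hord p.1) (hcz p _ (hvf p.1))
    p'.2.1.2.2 (hord p'.1) (hcz p' _ (hvf p'.1)) (mul_left_cancel hmm)
  have hn : p.1 = p'.1 := by rw [← huv p.1, ← huv p'.1, hu, Subtype.ext hv]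
  obtain ⟨n, z⟩ := p
  obtain ⟨n', z'⟩ := p'
  simp only at hn hz
  subst hn
  exact congrArg (Sigma.mk n) (Subtype.ext (Subtype.ext hz))

/-- Let G be a finite group, N a normal subgroup and π a set of primes. Then the number of conjugacy classes of π-elements of G (elements whose order is divisible only by primes in π) is at most the number of conjugacy classes of π-elements of N (under conjugation by N) times the number of conjugacy classes of π-elements of G/N. -/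
theorem result {G : Type*} [Group G] [Finite G] (N : Subgroup G) [N.Normal] (π : Set ℕ) :
    Nat.card {C : ConjClasses G // ∀ q : ℕ, q.Prime → (∃ g : G, ConjClasses.mk g = C ∧ q ∣ orderOf g) → q ∈ π} ≤ Nat.card {C : ConjClasses N // ∀ q : ℕ, q.Prime → (∃ g : N, ConjClasses.mk g = C ∧ q ∣ orderOf g) → q ∈ π} * Nat.card {C : ConjClasses (G ⧸ N) // ∀ q : ℕ, q.Prime → (∃ g : (G ⧸ N), ConjClasses.mk g = C ∧ q ∣ orderOf g) → q ∈ π} := by
  let Q := {C : ConjClasses (G ⧸ N) // ∀ q : ℕ, q.Prime → (∃ g : (G ⧸ N), ConjClasses.mk g = C ∧ q ∣ orderOf g) → q ∈ π}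
  choose y hy using fun c : Q => ConjClasses.mk_surjective c.1
  choose Ω hfin f hf hfs hle using fun c : Q => exists_orbit_bound N π (y c)
  haveI := hfin
  choose r hr using hfs
  have hrC : ∀ (c : Q) (o : Ω c), ∀ q : ℕ, q.Prime →
      (∃ g : G, ConjClasses.mk g = ConjClasses.mk ((r c o) : G) ∧ q ∣ orderOf g) → q ∈ π := by
    rintro c o q hq ⟨g, hg, hd⟩
    obtain ⟨t, ht⟩ := isConj_iff.1 (ConjClasses.mk_eq_mk_iff_isConj.1 hg)
    exact (r c o).2.2 q hq (by rw [← ht, ← MulAut.conj_apply, MulEquiv.orderOf_eq]; exact hd)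
  refine le_trans (Nat.card_le_card_of_surjective
    (fun p : Σ c : Q, Ω c => ⟨ConjClasses.mk ((r p.1 p.2) : G), hrC p.1 p.2⟩) ?_) ?_
  · rintro ⟨C, hC⟩
    obtain ⟨g, rfl⟩ := ConjClasses.mk_surjective C
    have hgπ : PiEl π g := fun q hq hd => hC q hq ⟨g, rfl, hd⟩
    let c : Q := ⟨ConjClasses.mk ((g : G) : G ⧸ N), by
      rintro q hq ⟨x, hx, hd⟩
      obtain ⟨t, ht⟩ := isConj_iff.1 (ConjClasses.mk_eq_mk_iff_isConj.1 hx)
      refine hgπ q hq (hd.trans ?_)
      rw [← MulEquiv.orderOf_eq (MulAut.conj t) x, MulAut.conj_apply, ht]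
      exact orderOf_map_dvd (QuotientGroup.mk' N) g⟩
    obtain ⟨t, ht⟩ := isConj_iff.1 (ConjClasses.mk_eq_mk_iff_isConj.1 (hy c).symm)
    obtain ⟨s, rfl⟩ := QuotientGroup.mk_surjective t
    let z : {z : G // (z : G ⧸ N) = y c ∧ PiEl π z} := ⟨s * g * s⁻¹,
      by rw [QuotientGroup.mk_mul, QuotientGroup.mk_mul, QuotientGroup.mk_inv, ht],
      piEl_of_dvd (by rw [← MulAut.conj_apply, MulEquiv.orderOf_eq]) hgπ⟩
    refine ⟨⟨c, f c z⟩, Subtype.ext ?_⟩
    show ConjClasses.mk ((r c (f c z)) : G) = ConjClasses.mk g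
    rw [hf c (r c (f c z)) z (hr c (f c z))]
    exact (ConjClasses.mk_eq_mk_iff_isConj.2 (isConj_iff.2 ⟨s, rfl⟩)).symm
  · letI : Fintype {C : ConjClasses (G ⧸ N) // ∀ q : ℕ, q.Prime → (∃ g : (G ⧸ N), ConjClasses.mk g = C ∧ q ∣ orderOf g) → q ∈ π} := Fintype.ofFinite _
    rw [Nat.card_sigma, mul_comm]
    refine (Finset.sum_le_card_nsmul _ _ _ fun c _ => hle c).trans ?_
    rw [smul_eq_mul, Finset.card_univ, ← Nat.card_eq_fintype_card (α := Q)]

end Cfsg.Agent.S4152
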