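import Cfsg.Statements.S4153
import Mathlib
-- import your own Cfsg.Agent.* helpers here

set_option autoImplicit false
open Cfsg

namespace Cfsg.Agent.S4153

theorem card_eq_mul {G : Type*} [Group G] [Finite G] (p : ℕ) [Fact p.Prime] (N : Subgroup G) [N.Normal]
    (P : Sylow p G) (Pbar : Sylow p (G ⧸ N)) :
    Nat.card (P : Subgroup G) = Nat.card ↥((P : Subgroup G) ⊓ N) * Nat.card (Pbar : Subgroup (G ⧸ N)) := by
  classical
  set q : G →* G ⧸ N := QuotientGroup.mk' N with hq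
  have h1 : Nat.card (Pbar : Subgroup (G ⧸ N)) = Nat.card ↥((P : Subgroup G).map q) := by
    have h := (P.mapSurjective (f := q) (QuotientGroup.mk'_surjective N)).card_eq_multiplicity
    rw [Sylow.coe_mapSurjective] at h
    rw [Pbar.card_eq_multiplicity, h]
  rw [h1]
  let r : ↥(P : Subgroup G) →* G ⧸ N := q.comp (P : Subgroup G).subtype
  have hr : r.range = (P : Subgroup G).map q := by
    rw [MonoidHom.range_eq_map, ← Subgroup.map_map, ← MonoidHom.range_eq_map, Subgroup.range_subtype]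
  have hk : Nat.card r.ker = Nat.card ↥((P : Subgroup G) ⊓ N) := by
    refine Nat.card_congr ?_
    exact
      { toFun := fun x => ⟨x.1.1, x.1.2, (QuotientGroup.eq_one_iff _).1 x.2⟩
        invFun := fun x => ⟨⟨x.1, x.2.1⟩, (QuotientGroup.eq_one_iff _).2 x.2.2⟩
        left_inv := fun _ => rfl
        right_inv := fun _ => rfl }
  rw [← hk, ← hr, mul_comm, ← Nat.card_congr (QuotientGroup.quotientKerEquivRange r).toEquiv]
  exact Subgroup.card_eq_card_quotient_mul_card_subgroup r.ker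

theorem pp_iff {G : Type*} [Group G] [Finite G] (p : ℕ) [Fact p.Prime] (g : G) :
    (∃ k : ℕ, orderOf g = p ^ k) ↔ ∃ P : Sylow p G, g ∈ (P : Subgroup G) := by
  constructor
  · rintro ⟨k, hk⟩
    obtain ⟨Q, hQ⟩ := (IsPGroup.of_card (G := Subgroup.zpowers g) (by rw [Nat.card_zpowers, hk])).exists_le_sylow
    exact ⟨Q, hQ (Subgroup.mem_zpowers g)⟩
  · rintro ⟨P, hP⟩
    obtain ⟨k, hk⟩ := IsPGroup.iff_orderOf.1 P.isPGroup' ⟨g, hP⟩
    exact ⟨k, by rw [← hk, Subgroup.orderOf_mk]⟩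

/-- Let G be a finite group, p a prime, N a normal subgroup, P a Sylow p-subgroup of G and P̄ a Sylow p-subgroup of G/N. Count the elements of p-power order, the identity included. Then (number of such elements of G/N)/#P̄ ≤ (number of such elements of G)/#P, stated as a cross-multiplied inequality, with equality when N is central. -/
theorem result {G : Type*} [Group G] [Finite G] (p : ℕ) [Fact p.Prime] (N : Subgroup G) [N.Normal]
    (P : Sylow p G) (Pbar : Sylow p (G ⧸ N)) :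
    Nat.card {g : (G ⧸ N) // ∃ k : ℕ, orderOf g = p ^ k} * Nat.card (P : Subgroup G) ≤ Nat.card {g : G // ∃ k : ℕ, orderOf g = p ^ k} * Nat.card (Pbar : Subgroup (G ⧸ N)) ∧
    (N ≤ Subgroup.center G → Nat.card {g : (G ⧸ N) // ∃ k : ℕ, orderOf g = p ^ k} * Nat.card (P : Subgroup G) = Nat.card {g : G // ∃ k : ℕ, orderOf g = p ^ k} * Nat.card (Pbar : Subgroup (G ⧸ N))) := by
  classical
  have hc : ∀ Q : Sylow p G, Nat.card ↥((Q : Subgroup G) ⊓ N) = Nat.card ↥((P : Subgroup G) ⊓ N) := by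
    intro Q
    have h1 := card_eq_mul p N Q Pbar
    have h2 := card_eq_mul p N P Pbar
    rw [Q.card_eq_multiplicity, ← P.card_eq_multiplicity, h2] at h1
    exact (Nat.eq_of_mul_eq_mul_right (Nat.card_pos) h1).symm
  let f : {g : G // ∃ k : ℕ, orderOf g = p ^ k} → {g : (G ⧸ N) // ∃ k : ℕ, orderOf g = p ^ k} := fun g =>
    ⟨QuotientGroup.mk' N g.1, by
      obtain ⟨k, hk⟩ := g.2
      obtain ⟨j, -, hj⟩ := (Nat.dvd_prime_pow Fact.out).1 (hk ▸ orderOf_map_dvd (QuotientGroup.mk' N) g.1)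
      exact ⟨j, hj⟩⟩
  have : Fintype {g : (G ⧸ N) // ∃ k : ℕ, orderOf g = p ^ k} := Fintype.ofFinite _
  have hsum : Nat.card {g : G // ∃ k : ℕ, orderOf g = p ^ k} = ∑ a, Nat.card {g // f g = a} := by
    rw [← Nat.card_sigma]
    exact Nat.card_congr (Equiv.sigmaFiberEquiv f).symm
  have lift : ∀ a : {g : (G ⧸ N) // ∃ k : ℕ, orderOf g = p ^ k}, ∃ (Q : Sylow p G) (x : G),
      x ∈ (Q : Subgroup G) ∧ QuotientGroup.mk' N x = a.1 := by
    intro a
    obtain ⟨R, hR⟩ := (pp_iff p a.1).1 a.2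
    obtain ⟨Q, hQ⟩ := Sylow.mapSurjective_surjective (f := QuotientGroup.mk' N) (QuotientGroup.mk'_surjective N) p R
    rw [← hQ, Sylow.coe_mapSurjective] at hR
    obtain ⟨x, hx, hx'⟩ := hR
    exact ⟨Q, x, hx, hx'⟩
  have hfib : ∀ a, Nat.card ↥((P : Subgroup G) ⊓ N) ≤ Nat.card {g // f g = a} ∧
      (N ≤ Subgroup.center G → Nat.card {g // f g = a} = Nat.card ↥((P : Subgroup G) ⊓ N)) := by
    intro a
    obtain ⟨Q, x, hx, hxa⟩ := lift a
    let i : ↥((Q : Subgroup G) ⊓ N) → {g // f g = a} := fun n =>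
      ⟨⟨x * n.1, (pp_iff p _).2 ⟨Q, mul_mem hx n.2.1⟩⟩, by
        apply Subtype.ext
        show QuotientGroup.mk' N (x * n.1) = a.1
        rw [map_mul, show QuotientGroup.mk' N n.1 = 1 from (QuotientGroup.eq_one_iff _).2 n.2.2, mul_one, hxa]⟩
    have hi : Function.Injective i := fun n m h => by
      have := congrArg (fun z => z.1.1) h
      exact Subtype.ext (mul_left_cancel this)
    refine ⟨(hc Q) ▸ Nat.card_le_card_of_injective i hi, fun hN => ?_⟩
    rw [← hc Q]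
    refine (Nat.card_eq_of_bijective i ⟨hi, ?_⟩).symm
    rintro ⟨⟨y, hy⟩, hya⟩
    have hya' : QuotientGroup.mk' N y = QuotientGroup.mk' N x := (congrArg Subtype.val hya).trans hxa.symm
    have hn : x⁻¹ * y ∈ N := by
      rw [← QuotientGroup.eq]
      exact hya'.symm
    have hcm : Commute x (x⁻¹ * y) := Subgroup.mem_center_iff.1 (hN hn) x
    have hcy : Commute x⁻¹ y := by
      have h' := (Subgroup.mem_center_iff.1 (hN hn) x⁻¹)
      show x⁻¹ * y = y * x⁻¹
      calc x⁻¹ * y = x * (x⁻¹ * (x⁻¹ * y)) := by group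
        _ = x * ((x⁻¹ * y) * x⁻¹) := by rw [h']
        _ = y * x⁻¹ := by group
    obtain ⟨a', ha'⟩ := (pp_iff p x).2 ⟨Q, hx⟩
    obtain ⟨b', hb'⟩ := hy
    have hpn : IsPGroup p (Subgroup.zpowers (x⁻¹ * y)) := by
      obtain ⟨c, hc1, hc2⟩ := (Nat.dvd_prime_pow (Fact.out : p.Prime)).1
        ((hcy.orderOf_mul_dvd_mul_orderOf).trans (by rw [orderOf_inv, ha', hb', ← pow_add]))
      exact IsPGroup.of_card (by rw [Nat.card_zpowers, hc2])
    have : (Subgroup.zpowers (x⁻¹ * y)).Normal := by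
      refine ⟨fun z hz g => ?_⟩
      have hzc : z ∈ Subgroup.center G := hN ((Subgroup.zpowers_le.2 hn) hz)
      rwa [Subgroup.mem_center_iff.1 hzc g, mul_inv_cancel_right]
    have hQ : x⁻¹ * y ∈ (Q : Subgroup G) := by
      obtain ⟨Q', hQ'⟩ := hpn.exists_le_sylow
      obtain ⟨g, hg⟩ := MulAction.exists_smul_eq G Q' Q
      rw [← hg, Sylow.coe_subgroup_smul, Subgroup.mem_pointwise_smul_iff_inv_smul_mem]
      apply hQ'
      rw [← map_inv, MulAut.smul_def]
      rw [MulAut.conj_apply]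
      exact this.conj_mem _ (Subgroup.mem_zpowers _) g⁻¹
    exact ⟨⟨x⁻¹ * y, hQ, hn⟩, Subtype.ext (Subtype.ext (mul_inv_cancel_left x y))⟩
  have hA : Nat.card {g : (G ⧸ N) // ∃ k : ℕ, orderOf g = p ^ k} * Nat.card ↥((P : Subgroup G) ⊓ N)
      = ∑ _a : {g : (G ⧸ N) // ∃ k : ℕ, orderOf g = p ^ k}, Nat.card ↥((P : Subgroup G) ⊓ N) := by
    rw [Finset.sum_const, Finset.card_univ, smul_eq_mul, Nat.card_eq_fintype_card]
  constructor
  · rw [card_eq_mul p N P Pbar, ← mul_assoc, hA, hsum]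
    exact Nat.mul_le_mul_right _ (Finset.sum_le_sum fun a _ => (hfib a).1)
  · intro hN
    rw [card_eq_mul p N P Pbar, ← mul_assoc, hA, hsum, Finset.sum_congr rfl fun a _ => (hfib a).2 hN]

end Cfsg.Agent.S4153
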