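import Cfsg.Statements.S4154
import Mathlib
-- import your own Cfsg.Agent.* helpers here

set_option autoImplicit false
open Cfsg

namespace Cfsg.Agent.S4154

/-- Let G be a finite group and α an automorphism of G such that every element of G is the product of an element fixed by α and an element of the form g⁻¹α(g). If N is a normal α-invariant subgroup, then the automorphism ᾱ induced on G/N has the same property, and every coset fixed by ᾱ contains an element fixed by α (so the fixed points of ᾱ are the images of the fixed points of α). -/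
theorem result {G : Type*} [Group G] [Finite G] (α : MulAut G)
    (hccp : ∀ x : G, ∃ c g : G, α c = c ∧ x = c * (g⁻¹ * α g))
    (N : Subgroup G) [N.Normal] (hN : ∀ n ∈ N, α n ∈ N) :
    (∀ x : G, ∃ c g : G, c⁻¹ * α c ∈ N ∧ x⁻¹ * (c * (g⁻¹ * α g)) ∈ N) ∧
    (∀ x : G, x⁻¹ * α x ∈ N → ∃ c : G, α c = c ∧ c⁻¹ * x ∈ N) := by
  classical
  have hNinv : ∀ n : G, α n ∈ N → n ∈ N := by
    intro n hn
    let f : N → N := fun m => ⟨α m, hN m m.2⟩
    obtain ⟨⟨m, hm⟩, e⟩ := (Finite.injective_iff_surjective (f := f)).mp (fun a b h => Subtype.ext (α.injective (congrArg Subtype.val h))) ⟨_, hn⟩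
    exact α.injective (congrArg Subtype.val e) ▸ hm
  refine ⟨fun x => ?_, fun x hx => ?_⟩
  · obtain ⟨c, g, hc, rfl⟩ := hccp x
    exact ⟨c, g, by rw [hc, inv_mul_cancel]; exact one_mem _, by rw [inv_mul_cancel]; exact one_mem _⟩
  -- the fixed points
  let C : Subgroup G :=
    { carrier := {c | α c = c}
      one_mem' := map_one α
      mul_mem' := fun {a b} ha hb => by show α (a * b) = a * b; rw [map_mul, ha, hb]
      inv_mem' := fun {a} ha => by show α a⁻¹ = a⁻¹; rw [map_inv, ha] }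
  let K : Subgroup G :=
    { carrier := {c | c⁻¹ * α c ∈ N}
      one_mem' := by simp
      mul_mem' := fun {a b} ha hb => by
        show (a * b)⁻¹ * α (a * b) ∈ N
        rw [map_mul, show (a * b)⁻¹ * (α a * α b) = b⁻¹ * (a⁻¹ * α a) * b * (b⁻¹ * α b) by group]
        exact mul_mem (by simpa using (inferInstance : N.Normal).conj_mem _ ha b⁻¹) hb
      inv_mem' := fun {a} ha => by
        show a⁻¹⁻¹ * α a⁻¹ ∈ N
        rw [map_inv, inv_inv, show a * (α a)⁻¹ = a * (a⁻¹ * α a)⁻¹ * a⁻¹ by group]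
        exact (inferInstance : N.Normal).conj_mem _ (inv_mem ha) a }
  let π := QuotientGroup.mk' N
  -- a surjection `(C N / N) × (G / K) → G / N`
  have hsur : ∀ y : G ⧸ N, ∃ v : (C.map π) × (G ⧸ K), y = (v.1 : G ⧸ N) * π (v.2.out * α (v.2.out⁻¹)) := by
    intro y
    obtain ⟨y, rfl⟩ := QuotientGroup.mk'_surjective N y
    obtain ⟨c, g, hc, rfl⟩ := hccp y
    refine ⟨(⟨π c, c, hc, rfl⟩, ((g⁻¹ : G) : G ⧸ K)), ?_⟩
    show π (c * (g⁻¹ * α g)) = π c * π _
    rw [← map_mul]
    refine QuotientGroup.eq.mpr ?_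
    set o := ((g⁻¹ : G) : G ⧸ K).out with ho
    have h1 : g * o ∈ K := by
      have := QuotientGroup.eq.mp ((QuotientGroup.out_eq' ((g⁻¹ : G) : G ⧸ K)).symm)
      rwa [inv_inv] at this
    have h2 : (g * o)⁻¹ * α (g * o) ∈ N := h1
    have h3 := (inferInstance : N.Normal).conj_mem _ (inv_mem h2) (α g)⁻¹
    rw [map_inv] at *
    have h4 := (inferInstance : N.Normal).conj_mem _ ((inferInstance : N.Normal).conj_mem _ h2 ((α (g * o))⁻¹)) 1
    simp only [one_mul, inv_one, mul_one] at h4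
    rw [map_mul] at h4
    have h5 := (inferInstance : N.Normal).conj_mem _ h2 (α o)
    have goal_eq : (c * (g⁻¹ * α g))⁻¹ * (c * (o * (α o)⁻¹)) = (α g)⁻¹ * (g * o) * ((α g * α o)⁻¹ * α g) := by group
    rw [goal_eq]
    have h6 := (inferInstance : N.Normal).conj_mem _ (inv_mem h2) (α g)⁻¹
    have h7 : (α (g * o)) * ((g * o)⁻¹ * α (g * o))⁻¹ * (α (g * o))⁻¹ ∈ N := (inferInstance : N.Normal).conj_mem _ (inv_mem h2) _
    have h8 := (inferInstance : N.Normal).conj_mem _ h7 (α g)⁻¹
    rw [map_mul] at h8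
    convert h8 using 1
    group
  have hcard : Nat.card (G ⧸ N) ≤ Nat.card (C.map π) * Nat.card (G ⧸ K) := by
    rw [← Nat.card_prod]
    exact Nat.card_le_card_of_surjective (fun v : (C.map π) × (G ⧸ K) => (v.1 : G ⧸ N) * π (v.2.out * α (v.2.out⁻¹))) fun y => ⟨(hsur y).choose, (hsur y).choose_spec.symm⟩
  have hCK : C.map π ≤ K.map π := Subgroup.map_mono fun c (hc : α c = c) => by
    show c⁻¹ * α c ∈ N
    rw [hc, inv_mul_cancel]
    exact one_mem _
  have hNK : N ≤ K := fun n hn => mul_mem (inv_mem hn) (hN n hn)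
  have hKcard : Nat.card (K.map π) * Nat.card (G ⧸ K) = Nat.card (G ⧸ N) := by
    rw [← Subgroup.index_eq_card K, ← Subgroup.index_map_eq K (QuotientGroup.mk'_surjective N) (by rw [QuotientGroup.ker_mk']; exact hNK)]
    exact Subgroup.card_mul_index _
  have heq : C.map π = K.map π := by
    refine Subgroup.eq_of_le_of_card_ge hCK ?_
    exact Nat.le_of_mul_le_mul_right (hKcard.le.trans hcard) Nat.card_pos
  have hxK : π x ∈ C.map π := heq ▸ ⟨x, hx, rfl⟩
  obtain ⟨c, hc, e⟩ := hxK
  exact ⟨c, hc, QuotientGroup.eq.mp e⟩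

end Cfsg.Agent.S4154
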