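import Cfsg.Statements.S4155
import Mathlib
import Cfsg.Agent.Lib.Transfer.Basic
import Cfsg.Agent.Lib.ZStar.UniqueInvolution
import Cfsg.Agent.S4107
-- import your own Cfsg.Agent.* helpers here

set_option autoImplicit false
open Cfsg
open scoped commutatorElement

namespace Cfsg.Agent.S4155

theorem no_two {G : Type*} [Group G] [Finite G] (A : Subgroup G) [A.Normal] [IsMulCommutative A] (hA : A ≠ ⊥)
    {q : ℕ} [Fact q.Prime] (hAq : (Nat.card A).Coprime q) {a b : G}
    (N : Subgroup G) (hNA : ∀ n ∈ N, ∀ v ∈ A, n * v = v * n) (haq : a ^ q ∈ N) (hbq : b ^ q ∈ N)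
    (hab : a⁻¹ * b⁻¹ * a * b ∈ N)
    (hb : ∀ v ∈ A, b * v * b⁻¹ = v → v = 1)
    (hk : ∀ k : ℕ, ∀ v ∈ A, (a * b ^ k) * v * (a * b ^ k)⁻¹ = v → v = 1) : False := by
  classical
  letI : CommGroup A := { (inferInstance : Group A) with mul_comm := fun x y => (IsMulCommutative.is_comm.comm x y) }
  letI : NeZero q := ⟨(Fact.out : q.Prime).ne_zero⟩
  let σ : G →* MulAut A := MulAut.conjNormal
  have hσN : ∀ n ∈ N, σ n = 1 := fun n hn => MulEquiv.ext fun v => Subtype.ext (by
    show (MulAut.conjNormal n v : A).1 = v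
    rw [MulAut.conjNormal_apply, hNA n hn v v.2, mul_inv_cancel_right])
  have hfpf : ∀ c : G, (∀ v ∈ A, c * v * c⁻¹ = v → v = 1) → σ c ^ q = 1 → ∀ v : A,
      ∏ i : ZMod q, (σ c ^ i.val) v = 1 := by
    intro c hc hc' v
    have hfix : σ c (∏ i : ZMod q, (σ c ^ i.val) v) = ∏ i : ZMod q, (σ c ^ i.val) v := by
      rw [map_prod]
      refine Fintype.prod_equiv (Equiv.addRight (1 : ZMod q)) _ _ fun i => ?_
      show σ c ((σ c ^ i.val) v) = (σ c ^ (i + 1).val) v
      rw [← MulAut.mul_apply, ← pow_succ']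
      congr 1
      rw [ZMod.val_add, ← pow_eq_pow_mod _ hc', ZMod.val_one]
    exact Subtype.ext (hc _ (∏ i : ZMod q, (σ c ^ i.val) v).2 (congrArg Subtype.val hfix))
  obtain ⟨v, hv, hv1⟩ := A.bot_or_exists_ne_one.resolve_left hA
  apply hv1
  have hcomm : Commute (σ a) (σ b) := by
    have := hσN _ hab
    rw [map_mul, map_mul, map_mul, map_inv, map_inv] at this
    show σ a * σ b = σ b * σ a
    calc σ a * σ b = σ b * σ a * ((σ a)⁻¹ * (σ b)⁻¹ * σ a * σ b) := by group
      _ = σ b * σ a := by rw [this, mul_one]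
  have hb' : σ b ^ q = 1 := by rw [← map_pow]; exact hσN _ hbq
  have ha' : σ a ^ q = 1 := by rw [← map_pow]; exact hσN _ haq
  set w : A := ⟨v, hv⟩
  let e : ZMod q → ZMod q → A := fun i j => (σ a ^ i.val * σ b ^ j.val) w
  have hrow : ∀ k : ZMod q, ∏ i : ZMod q, e i (k * i) = 1 := by
    intro k
    have hc' : σ (a * b ^ k.val) ^ q = 1 := by
      rw [map_mul, map_pow, (hcomm.pow_right _).mul_pow, ha', one_mul, ← pow_mul, mul_comm,
        pow_mul, hb', one_pow]
    rw [← hfpf _ (hk k.val) hc' w]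
    refine Finset.prod_congr rfl fun i _ => ?_
    show (σ a ^ i.val * σ b ^ (k * i).val) w = (σ (a * b ^ k.val) ^ i.val) w
    rw [map_mul, map_pow, (hcomm.pow_right _).mul_pow, ← pow_mul, ZMod.val_mul, ← pow_eq_pow_mod _ hb']
  have hsum : ∏ i : ZMod q, ∏ k : ZMod q, e i (k * i) = 1 := by
    rw [Finset.prod_comm]
    exact Finset.prod_eq_one fun k _ => hrow k
  have hzero : ∏ k : ZMod q, e 0 (k * 0) = w ^ q := by
    simp [e, ZMod.card]
  have hne : ∀ i : ZMod q, i ≠ 0 → ∏ k : ZMod q, e i (k * i) = ∏ j : ZMod q, e i j := fun i hi =>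
    Fintype.prod_equiv (Equiv.mulRight₀ i hi) _ _ fun k => rfl
  have hfull : ∀ i : ZMod q, ∏ j : ZMod q, e i j = 1 := by
    intro i
    show ∏ j : ZMod q, (σ a ^ i.val) ((σ b ^ j.val) w) = 1
    rw [← map_prod, hfpf b hb hb' w, map_one]
  rw [← Finset.mul_prod_erase _ _ (Finset.mem_univ (0 : ZMod q)), hzero,
    Finset.prod_eq_one (fun i hi => (hne i (Finset.ne_of_mem_erase hi)).trans (hfull i)), mul_one] at hsum
  have hw : w = 1 := by
    have := Nat.dvd_gcd (orderOf_dvd_natCard w) (orderOf_dvd_of_pow_eq_one hsum)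
    rw [hAq.gcd_eq_one, Nat.dvd_one, orderOf_eq_one_iff] at this
    exact this
  exact congrArg Subtype.val hw

/-- Let G be a finite group and N a proper non-trivial normal nilpotent subgroup whose order is not a prime power, such that for every x outside N all elements of the coset xN have the same order as x. Then N is the Fitting subgroup of G, and for every prime q every Sylow q-subgroup of G/N is cyclic or generalized quaternion. -/
theorem result {G : Type*} [Group G] [Finite G] (N : Subgroup G) [N.Normal] (hN1 : N ≠ ⊥) (hN2 : N ≠ ⊤)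
    (heq : ∀ x : G, x ∉ N → ∀ n ∈ N, orderOf (x * n) = orderOf x)
    (hnil : Group.IsNilpotent N) (hnpp : ¬ IsPrimePow (Nat.card N)) :
    N = Cfsg.fittingSubgroup G ∧
    ∀ (q : ℕ) [Fact q.Prime] (Q : Sylow q (G ⧸ N)), IsCyclic (Q : Subgroup (G ⧸ N)) ∨ ∃ n : ℕ, Nonempty ((Q : Subgroup (G ⧸ N)) ≃* QuaternionGroup (2 ^ n)) := by
  classical
  have hNF : N ≤ Cfsg.fittingSubgroup G := le_sSup ⟨inferInstance, hnil⟩
  obtain ⟨hor, hlt'⟩ := Cfsg.Agent.S4107.result N hN1 hN2 heq
  refine ⟨?_, ?_⟩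
  · rcases eq_or_lt_of_le hNF with h | h
    · exact h
    · exfalso
      have hpp := hlt' h
      rw [isPrimePow_nat_iff] at hpp hnpp
      obtain ⟨p, k, hp, -, hk⟩ := hpp
      have hd : Nat.card N ∣ p ^ k := hk ▸ Subgroup.card_dvd_of_le hNF
      obtain ⟨j, -, hj⟩ := (Nat.dvd_prime_pow hp).mp hd
      refine hnpp ⟨p, j, hp, Nat.pos_of_ne_zero fun h0 => hN1 ?_, hj.symm⟩
      rw [h0, pow_zero] at hj
      exact Subgroup.card_eq_one.mp hj
  intro q hq Q
  -- a prime divisor of `|N|` other than `q`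
  obtain ⟨r, hr, hrN, hrq⟩ : ∃ r, r.Prime ∧ r ∣ Nat.card N ∧ r ≠ q := by
    by_contra hcon
    push Not at hcon
    have h1 : Nat.card N ≠ 1 := fun h => hN1 (Subgroup.card_eq_one.mp h)
    have heqp := Nat.eq_prime_pow_of_unique_prime_dvd Nat.card_pos.ne' (fun {d} hd hdN => hcon d hd hdN)
    refine hnpp ((isPrimePow_nat_iff _).mpr ⟨q, _, hq.out, Nat.pos_of_ne_zero fun h0 => h1 ?_, heqp.symm⟩)
    rw [h0, pow_zero] at heqp
    exact heqp
  haveI := Fact.mk hr
  obtain ⟨R⟩ : Nonempty (Sylow r N) := inferInstance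
  haveI := hnil
  have hRn : (R : Subgroup N).Normal := Sylow.normal_of_normalizerCondition Group.normalizerCondition_of_isNilpotent R
  haveI := R.characteristic_of_normal hRn
  -- the centre of the Sylow subgroup
  set A0 : Subgroup N := Subgroup.center N ⊓ (R : Subgroup N) with hA0
  haveI : A0.Characteristic := Subgroup.characteristic_iff_map_le.mpr fun φ => by
    rintro _ ⟨x, hx, rfl⟩
    exact ⟨Subgroup.characteristic_iff_map_le.mp inferInstance φ ⟨x, hx.1, rfl⟩,
      Subgroup.characteristic_iff_map_le.mp inferInstance φ ⟨x, hx.2, rfl⟩⟩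
  set A := A0.map N.subtype with hA
  haveI : A.Normal := ConjAct.normal_of_characteristic_of_normal
  have hAN : A ≤ N := Subgroup.map_subtype_le _
  have hcent : ∀ n ∈ N, ∀ v ∈ A, n * v = v * n := by
    rintro n hn _ ⟨v, hv, rfl⟩
    exact congrArg Subtype.val (Subgroup.mem_center_iff.mp hv.1 ⟨n, hn⟩)
  haveI : IsMulCommutative A := ⟨⟨fun x y => Subtype.ext (hcent x (hAN x.2) y y.2)⟩⟩
  have hRne : (R : Subgroup N) ≠ ⊥ := R.ne_bot_of_dvd_card hrN
  have hA0ne : A0 ≠ ⊥ := by
    intro h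
    obtain ⟨K, hK⟩ := (inferInstance : Group.IsNilpotent N).nilpotent'
    have key : ∀ k, (R : Subgroup N) ⊓ Subgroup.upperCentralSeries N k = ⊥ := by
      intro k
      induction k with
      | zero => simp
      | succ k ih =>
        rw [eq_bot_iff]
        intro x hx
        have hxc : x ∈ Subgroup.center N := by
          rw [Subgroup.mem_center_iff]
          intro y
          have h2 : ⁅x, y⁆ ∈ (R : Subgroup N) ⊓ Subgroup.upperCentralSeries N k := by
            refine ⟨?_, (Subgroup.mem_upperCentralSeries_succ_iff.mp hx.2) y⟩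
            rw [commutatorElement_def, mul_assoc, mul_assoc]
            exact mul_mem hx.1 (by rw [← mul_assoc]; exact hRn.conj_mem _ (inv_mem hx.1) y)
          rw [ih, Subgroup.mem_bot, commutatorElement_eq_one_iff_mul_comm] at h2
          exact h2.symm
        exact h ▸ (show x ∈ A0 from ⟨hxc, hx.1⟩)
    have := key K
    rw [hK, inf_top_eq] at this
    exact hRne this
  have hAne : A ≠ ⊥ := by rwa [hA, Ne, Subgroup.map_eq_bot_iff_of_injective _ N.subtype_injective]
  have hAr : IsPGroup r A := (R.isPGroup'.to_le inf_le_right).map _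
  have hAq : (Nat.card A).Coprime q := by
    obtain ⟨k, hk⟩ := IsPGroup.iff_card.mp hAr
    rw [hk]
    exact Nat.Coprime.pow_left k ((Nat.coprime_primes hr hq.out).mpr hrq)
  -- fixed point freeness
  have hfix : ∀ x : G, orderOf (x : G ⧸ N) = q → ∀ v ∈ A, x * v * x⁻¹ = v → v = 1 := by
    intro x hx v hv hxv
    have hx0 : x ≠ 1 := fun e => hq.out.ne_one (by rw [← hx, e]; simp)
    set m := ordCompl[q] (orderOf x) with hm
    have hm' : m.Coprime q := (Nat.coprime_ordCompl hq.out (orderOf_pos x).ne').symm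
    have hy : x ^ m ∉ N := fun hmem => by
      have h1 : orderOf (x : G ⧸ N) ∣ m := orderOf_dvd_of_pow_eq_one (by rw [← QuotientGroup.mk_pow]; exact (QuotientGroup.eq_one_iff _).mpr hmem)
      rw [hx] at h1
      exact hq.out.ne_one (Nat.eq_one_of_dvd_coprimes hm' h1 dvd_rfl)
    have hc : Commute (x ^ m) v := Commute.pow_left (mul_inv_eq_iff_eq_mul.mp hxv) m
    have ho : orderOf (x ^ m) = ordProj[q] (orderOf x) := by
      rw [orderOf_pow_of_dvd (Nat.ordCompl_pos q (orderOf_pos x).ne').ne' (Nat.ordCompl_dvd _ _)]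
      exact Nat.div_eq_of_eq_mul_left (Nat.ordCompl_pos q (orderOf_pos x).ne') (Nat.ordProj_mul_ordCompl_eq_self _ _).symm
    have hco : (orderOf (x ^ m)).Coprime (orderOf v) := by
      rw [ho]
      exact (hAq.coprime_dvd_left (Subgroup.orderOf_dvd_natCard _ hv)).symm.pow_left _
    have h2 := heq _ hy v (hAN hv)
    rw [hc.orderOf_mul_eq_mul_orderOf_of_coprime hco] at h2
    exact orderOf_eq_one_iff.mp (Nat.eq_of_mul_eq_mul_left (orderOf_pos (x ^ m)) (h2.trans (mul_one _).symm))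
  -- one subgroup of order `q`
  have huniq : ∀ x y : (Q : Subgroup (G ⧸ N)), orderOf x = q → orderOf y = q → y ∈ Subgroup.zpowers x := by
    intro x y hx hy
    by_contra hxy
    have hne : (Q : Subgroup (G ⧸ N)) ≠ ⊥ := fun e => hq.out.ne_one (by
      haveI := (Subgroup.eq_bot_iff_forall _).mp e
      rw [← hx, orderOf_eq_one_iff]
      exact Subtype.ext ((Subgroup.eq_bot_iff_forall _).mp e x x.2))
    haveI : Nontrivial (Q : Subgroup (G ⧸ N)) := (Subgroup.nontrivial_iff_ne_bot _).mpr hne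
    haveI := Q.isPGroup'.center_nontrivial
    obtain ⟨z, hz⟩ := exists_prime_orderOf_dvd_card' (G := Subgroup.center (Q : Subgroup (G ⧸ N))) q
      ((Q.isPGroup'.to_subgroup _).card_eq_or_dvd.resolve_left Finite.one_lt_card.ne')
    obtain ⟨w, hw, hwz⟩ : ∃ w : (Q : Subgroup (G ⧸ N)), orderOf w = q ∧ w ∉ Subgroup.zpowers (z : (Q : Subgroup (G ⧸ N))) := by
      by_contra hcon
      push Not at hcon
      apply hxy
      have hxz := hcon x hx
      have he : Subgroup.zpowers x = Subgroup.zpowers (z : (Q : Subgroup (G ⧸ N))) := by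
        refine Subgroup.eq_of_le_of_card_ge (Subgroup.zpowers_le.mpr hxz) ?_
        rw [Nat.card_zpowers, Nat.card_zpowers, Subgroup.orderOf_coe, hz, hx]
      rw [he]
      exact hcon y hy
    have hzw : Commute (z : (Q : Subgroup (G ⧸ N))) w := (Subgroup.mem_center_iff.mp z.2 w).symm
    obtain ⟨a, ha⟩ := QuotientGroup.mk_surjective (((z : (Q : Subgroup (G ⧸ N))) : G ⧸ N))
    obtain ⟨b, hb⟩ := QuotientGroup.mk_surjective ((w : G ⧸ N))
    have hao : orderOf (a : G ⧸ N) = q := by rw [ha, Subgroup.orderOf_coe, Subgroup.orderOf_coe, hz]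
    have hbo : orderOf (b : G ⧸ N) = q := by rw [hb, Subgroup.orderOf_coe, hw]
    have hcm : Commute (a : G ⧸ N) (b : G ⧸ N) := by
      rw [ha, hb]; exact congrArg Subtype.val hzw.eq
    refine no_two A hAne hAq N hcent ?_ ?_ ?_ (hfix b hbo) (fun k => hfix (a * b ^ k) ?_) (a := a)
    · rw [← QuotientGroup.eq_one_iff, QuotientGroup.mk_pow, ← hao, pow_orderOf_eq_one]
    · rw [← QuotientGroup.eq_one_iff, QuotientGroup.mk_pow, ← hbo, pow_orderOf_eq_one]
    · rw [← QuotientGroup.eq_one_iff, QuotientGroup.mk_mul, QuotientGroup.mk_mul, QuotientGroup.mk_mul,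
        QuotientGroup.mk_inv, QuotientGroup.mk_inv]
      calc (a : G ⧸ N)⁻¹ * (b : G ⧸ N)⁻¹ * a * b = (a : G ⧸ N)⁻¹ * (b : G ⧸ N)⁻¹ * ((a : G ⧸ N) * b) := by group
        _ = (a : G ⧸ N)⁻¹ * (b : G ⧸ N)⁻¹ * ((b : G ⧸ N) * a) := by rw [hcm.eq]
        _ = 1 := by group
    · rw [QuotientGroup.mk_mul, QuotientGroup.mk_pow]
      refine orderOf_eq_prime ?_ ?_
      · rw [(hcm.pow_right k).mul_pow, ← pow_mul, mul_comm k, pow_mul]
        conv_lhs => rw [← hao]
        rw [pow_orderOf_eq_one, one_mul, hao, ← hbo, pow_orderOf_eq_one, one_pow]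
      · intro h1
        apply hwz
        have h2 : (z : (Q : Subgroup (G ⧸ N))) ∈ Subgroup.zpowers w := by
          refine ⟨-(k : ℤ), Subtype.ext ?_⟩
          show ((w ^ (-(k : ℤ)) : (Q : Subgroup (G ⧸ N))) : G ⧸ N) = _
          rw [SubgroupClass.coe_zpow, zpow_neg, zpow_natCast, ← hb, ← ha]
          exact (eq_inv_of_mul_eq_one_left h1).symm
        have he : Subgroup.zpowers (z : (Q : Subgroup (G ⧸ N))) = Subgroup.zpowers w := by
          refine Subgroup.eq_of_le_of_card_ge (Subgroup.zpowers_le.mpr h2) ?_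
          rw [Nat.card_zpowers, Nat.card_zpowers, Subgroup.orderOf_coe, hz, hw]
        rw [he]
        exact Subgroup.mem_zpowers w
  rcases Cfsg.Lib.ZStar.isCyclic_or_inverted Q.isPGroup' huniq with h | ⟨h2, a, g, ha4, hidx, hg, hinv, hg2⟩
  · exact Or.inl h
  · subst h2
    obtain ⟨m, hm⟩ := IsPGroup.iff_orderOf.mp Q.isPGroup' a
    rcases m with _ | m
    · rw [hm] at ha4; norm_num at ha4
    refine Or.inr ⟨m, Cfsg.Lib.ZStar.nonempty_quaternion_of_inverted (pow_pos two_pos m).ne' ?_ hidx hg hinv ?_⟩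
    · rw [hm, pow_succ']
    · rw [hg2, hm, pow_succ', Nat.mul_div_cancel_left _ two_pos]

end Cfsg.Agent.S4155
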