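import Cfsg.Statements.S4156
import Mathlib
-- import your own Cfsg.Agent.* helpers here

set_option autoImplicit false
open Cfsg

namespace Cfsg.Agent.S4156

variable (m : ℕ) (F : Type*) [Field F]

/-- sum of coordinates -/
def S : (Fin m → F) →ₗ[F] F := ∑ i, LinearMap.proj i

theorem S_apply (v : Fin m → F) : S m F v = ∑ i, v i := by simp [S]

/-- the permutation action on the sum zero hyperplane -/
noncomputable def T : Equiv.Perm (Fin m) →* Module.End F (LinearMap.ker (S m F)) where
  toFun σ := (LinearMap.funLeft F F ⇑(σ⁻¹ : Equiv.Perm (Fin m))).restrict (fun v hv => by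
      rw [LinearMap.mem_ker, S_apply] at hv ⊢
      rw [← hv]
      exact Equiv.sum_comp (σ⁻¹ : Equiv.Perm (Fin m)) v)
  map_one' := by
    ext v i
    show v.1 ((1 : Equiv.Perm (Fin m))⁻¹ i) = v.1 i
    simp
  map_mul' σ τ := by
    ext v i
    show v.1 ((σ * τ)⁻¹ i) = v.1 (τ⁻¹ (σ⁻¹ i))
    rw [mul_inv_rev]
    rfl

theorem T_inj {σ : Equiv.Perm (Fin m)} (h3 : T m F σ = 1) (hm : 3 ≤ m) : σ = 1 := by
  classical
  refine Equiv.ext fun i => ?_
  by_contra hi
  change ¬ σ i = i at hi
  obtain ⟨j, hj1, hj2⟩ : ∃ j, j ≠ i ∧ j ≠ σ i := by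
    by_contra hne
    push_neg at hne
    have hsub : (Finset.univ : Finset (Fin m)) ⊆ {i, σ i} := fun k _ => by
      by_cases hk : k = i
      · simp [hk]
      · simp [hne k hk]
    have := (Finset.card_le_card hsub).trans Finset.card_le_two
    simp at this
    omega
  let v : LinearMap.ker (S m F) := ⟨Pi.single i 1 - Pi.single j 1, by simp [LinearMap.mem_ker, S_apply, Finset.sum_sub_distrib]⟩
  have h := congrFun (congrArg Subtype.val (LinearMap.congr_fun h3 v)) (σ i)
  change v.1 (σ⁻¹ (σ i)) = v.1 (σ i) at h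
  rw [show σ⁻¹ (σ i) = i from σ.symm_apply_apply i] at h
  simp [v, Pi.single_apply, hi, Ne.symm hj1, Ne.symm hj2] at h

theorem dim_ker (n : ℕ) : Module.finrank F (LinearMap.ker (S (n + 1) F)) = n := by
  classical
  have hsurj : Function.Surjective (S (n + 1) F) := fun c => ⟨Pi.single 0 c, by simp [S_apply]⟩
  have h := LinearMap.finrank_range_add_finrank_ker (S (n + 1) F)
  rw [LinearMap.range_eq_top.2 hsurj, finrank_top, Module.finrank_self, Module.finrank_fin_fun] at h
  omega

theorem trivial_hom {A B : Type*} [Group A] [CommGroup B] (hperf : commutator A = ⊤) (d : A →* B) (a : A) :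
    d a = 1 := by
  have h := Abelianization.commutator_subset_ker d
  rw [hperf] at h
  exact h (Subgroup.mem_top a)

theorem trivial_hom' {A B : Type*} [Group A] [Group B] (hperf : commutator A = ⊤) (d : A →* B)
    (hB : ∀ x y : B, x * y = y * x) (a : A) : d a = 1 := by
  let _ : CommGroup B := { (inferInstance : Group B) with mul_comm := hB }
  exact trivial_hom hperf d a

theorem embeds (n : ℕ) (hn : 5 ≤ n) :
    ∃ f : alternatingGroup (Fin (n + 1)) →* Matrix.ProjectiveSpecialLinearGroup (Fin n) F, Function.Injective f := by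
  classical
  have hs : IsSimpleGroup (alternatingGroup (Fin (n + 1))) := alternatingGroup.isSimpleGroup (by simp; omega)
  have hperf : commutator (alternatingGroup (Fin (n + 1))) = ⊤ := commutator_alternatingGroup_eq_top (by simp; omega)
  let b := Module.finBasisOfFinrankEq F (LinearMap.ker (S (n + 1) F)) (dim_ker F n)
  let e := LinearMap.toMatrixAlgEquiv b
  let M : alternatingGroup (Fin (n + 1)) →* Matrix (Fin n) (Fin n) F :=
    (MonoidHom.comp e.toMulEquiv.toMonoidHom (T (n + 1) F)).comp (alternatingGroup (Fin (n + 1))).subtype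
  have hdet : ∀ σ, (M σ).det = 1 := fun σ =>
    congrArg Units.val (trivial_hom hperf ((Matrix.detMonoidHom).comp M).toHomUnits σ)
  let s : alternatingGroup (Fin (n + 1)) →* Matrix.SpecialLinearGroup (Fin n) F :=
    { toFun := fun σ => ⟨M σ, hdet σ⟩
      map_one' := Subtype.ext M.map_one
      map_mul' := fun σ τ => Subtype.ext (M.map_mul σ τ) }
  let f : alternatingGroup (Fin (n + 1)) →* Matrix.ProjectiveSpecialLinearGroup (Fin n) F := (QuotientGroup.mk' _).comp s
  refine ⟨f, ?_⟩
  rw [← MonoidHom.ker_eq_bot_iff]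
  refine (hs.eq_bot_or_eq_top_of_normal f.ker inferInstance).resolve_right fun htop => ?_
  have hc : ∀ σ, s σ ∈ Subgroup.center (Matrix.SpecialLinearGroup (Fin n) F) := by
    intro σ
    have : σ ∈ f.ker := htop ▸ Subgroup.mem_top σ
    exact (QuotientGroup.eq_one_iff _).1 this
  obtain ⟨σ, hσ⟩ : ∃ σ : alternatingGroup (Fin (n + 1)), σ ≠ 1 := exists_ne 1
  have h1 := trivial_hom' hperf (s.codRestrict _ hc) (fun x y => Subtype.ext (Subgroup.mem_center_iff.1 y.2 x.1)) σ
  have h2 : M σ = 1 := congrArg (fun z => z.1.1) h1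
  have h3 : T (n + 1) F σ.1 = 1 := e.injective (h2.trans (map_one e).symm)
  exact hσ (Subtype.ext (T_inj (n + 1) F h3 (by omega)))

/-- Let n ≥ 5 and F a finite field. Then the projective special linear group PSL_n(F) contains a subgroup isomorphic to the alternating group of degree n + 1. -/
theorem result (n : ℕ) (hn : 5 ≤ n) (F : Type*) [Field F] [Finite F] :
    ∃ f : alternatingGroup (Fin (n + 1)) →* Matrix.ProjectiveSpecialLinearGroup (Fin n) F, Function.Injective f := by
  exact embeds F n hn

end Cfsg.Agent.S4156
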