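import Cfsg.Statements.S4163
import Mathlib
-- import your own Cfsg.Agent.* helpers here

set_option autoImplicit false
open Cfsg
open scoped commutatorElement

namespace Cfsg.Agent.S4163

open Subgroup

theorem commutator_mem_center {G : Type*} [Group G] [Finite G] (A : Subgroup G) [A.Normal] (hA : IsMulCommutative A)
    (m : ℕ) (hmin : ∀ x : G, 1 < (centralizer ({x} : Set G)).index → m ≤ (centralizer ({x} : Set G)).index)
    (x : G) (hx : (centralizer ({x} : Set G)).index = 1 ∨ (centralizer ({x} : Set G)).index = m) (a : G) (ha : a ∈ A) :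
    ⁅a, x⁆ ∈ center G := by
  classical
  rcases hx with hx | hx
  · have hxc : a * x = x * a :=
      mem_centralizer_singleton_iff.1 ((index_eq_one.1 hx).ge (mem_top a))
    rw [commutatorElement_eq_one_iff_mul_comm.2 hxc]
    exact one_mem _
  by_contra hy
  set y := ⁅a, x⁆ with hydef
  haveI := hA
  have hin : ∀ b ∈ A, ⁅b, x⁆ ∈ A := fun b hb => by
    rw [show ⁅b, x⁆ = b * (x * b⁻¹ * x⁻¹) by simp only [commutatorElement_def]; group]
    exact mul_mem hb ((inferInstance : A.Normal).conj_mem _ (inv_mem hb) x)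
  let φ : A →* A := MonoidHom.mk' (fun b => ⟨⁅(b : G), x⁆, hin b b.2⟩) fun b c => Subtype.ext (by
    show ⁅(b : G) * c, x⁆ = ⁅(b : G), x⁆ * ⁅(c : G), x⁆
    rw [show ⁅(b : G) * c, x⁆ = (b : G) * ⁅(c : G), x⁆ * (b : G)⁻¹ * ⁅(b : G), x⁆ by
      simp only [commutatorElement_def]; group, mul_comm_of_mem_isMulCommutative A b.2 (hin c c.2),
      mul_inv_cancel_right, mul_comm_of_mem_isMulCommutative A (hin c c.2) (hin b b.2)])
  set R := φ.range
  set C := centralizer ({x} : Set G)
  set K := C ⊔ A
  have hker : φ.ker = C.subgroupOf A := by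
    ext b
    rw [MonoidHom.mem_ker, mem_subgroupOf, mem_centralizer_singleton_iff]
    exact ⟨fun h => commutatorElement_eq_one_iff_mul_comm.1 (congrArg Subtype.val h),
      fun h => Subtype.ext (commutatorElement_eq_one_iff_mul_comm.2 h)⟩
  have hR : Nat.card R = C.relIndex A := by rw [← index_ker, hker]; rfl
  -- conjugates of elements of the range
  have hRconj : ∀ k ∈ K, ∀ r ∈ R, ∃ r' ∈ R, k * (r : G) * k⁻¹ = (r' : G) := by
    intro k hk
    rw [show K = closure ((C : Set G) ∪ (A : Set G)) from sup_eq_closure C A] at hk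
    induction hk using closure_induction'' with
    | one => intro r hr; exact ⟨r, hr, by group⟩
    | inv_mem z hz =>
      rcases hz with hc | hd
      · rintro r ⟨b, rfl⟩
        have hc' := inv_mem (show z ∈ C from hc)
        refine ⟨φ ⟨z⁻¹ * b * z⁻¹⁻¹, (inferInstance : A.Normal).conj_mem b b.2 z⁻¹⟩, ⟨_, rfl⟩, ?_⟩
        show z⁻¹ * ⁅(b : G), x⁆ * z⁻¹⁻¹ = ⁅z⁻¹ * (b : G) * z⁻¹⁻¹, x⁆
        have hcx : z⁻¹ * x = x * z⁻¹ := mem_centralizer_singleton_iff.1 hc'
        have hx' : z⁻¹ * x * z⁻¹⁻¹ = x := by rw [hcx, mul_inv_cancel_right]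
        conv_rhs => rw [← hx']
        simp only [commutatorElement_def]; group
      · intro r hr
        exact ⟨r, hr, by rw [mul_comm_of_mem_isMulCommutative A (inv_mem (show z ∈ A from hd)) r.2, mul_inv_cancel_right]⟩
    | mem c hc =>
      rcases hc with hc | hd
      swap
      · intro r hr
        exact ⟨r, hr, by rw [mul_comm_of_mem_isMulCommutative A (show c ∈ A from hd) r.2, mul_inv_cancel_right]⟩
      rintro r ⟨b, rfl⟩
      refine ⟨φ ⟨c * b * c⁻¹, (inferInstance : A.Normal).conj_mem b b.2 c⟩, ⟨_, rfl⟩, ?_⟩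
      show c * ⁅(b : G), x⁆ * c⁻¹ = ⁅c * (b : G) * c⁻¹, x⁆
      have hcx : c * x = x * c := mem_centralizer_singleton_iff.1 hc
      have hx' : c * x * c⁻¹ = x := by rw [hcx, mul_inv_cancel_right]
      conv_rhs => rw [← hx']
      simp only [commutatorElement_def]; group
    | mul u v _ _ iu iv =>
      intro r hr
      obtain ⟨r₁, hr₁, e₁⟩ := iv r hr
      obtain ⟨r₂, hr₂, e₂⟩ := iu r₁ hr₁
      exact ⟨r₂, hr₂, by rw [← e₂, ← e₁]; group⟩
  have hy1 : y ≠ 1 := fun h => hy (h ▸ one_mem _)
  -- count the conjugates of `y` under `K`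
  set D := centralizer ({y} : Set G)
  have hlt : D.relIndex K < Nat.card R := by
    have hmem : ∀ k : K, ∃ r : R, ((r : A) : G) = (k : G) * y * (k : G)⁻¹ := fun k => by
      obtain ⟨r, hr, e⟩ := hRconj k k.2 (φ ⟨a, ha⟩) ⟨_, rfl⟩
      exact ⟨⟨r, hr⟩, e.symm⟩
    choose f hf using hmem
    let g : K ⧸ D.subgroupOf K → {r : R // r ≠ 1} := fun q => Quotient.liftOn' q
      (fun k => ⟨f k, fun h => hy1 (by
        have := hf k
        rw [h] at this
        exact conj_eq_one_iff.1 this.symm)⟩) (fun k l hkl => by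
          rw [QuotientGroup.leftRel_apply, mem_subgroupOf, mem_centralizer_singleton_iff] at hkl
          refine Subtype.ext (Subtype.ext (Subtype.ext ?_))
          rw [hf, hf]
          calc (k : G) * y * (k : G)⁻¹ = (k : G) * (y * ((k : G)⁻¹ * (l : G))) * (l : G)⁻¹ := by group
            _ = (k : G) * ((((k⁻¹ * l : K) : G)) * y) * (l : G)⁻¹ := by rw [hkl]; simp
            _ = _ := by simp [mul_assoc])
    have hg : Function.Injective g := by
      intro u v
      induction u using QuotientGroup.induction_on with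
      | _ k =>
        induction v using QuotientGroup.induction_on with
        | _ l =>
          intro h
          have h' : f k = f l := congrArg Subtype.val h
          have e : (k : G) * y * (k : G)⁻¹ = (l : G) * y * (l : G)⁻¹ := by rw [← hf, ← hf, h']
          refine QuotientGroup.eq.2 ?_
          rw [mem_subgroupOf, mem_centralizer_singleton_iff]
          show ((k : G)⁻¹ * (l : G)) * y = y * ((k : G)⁻¹ * (l : G))
          calc ((k : G)⁻¹ * (l : G)) * y = (k : G)⁻¹ * ((l : G) * y * (l : G)⁻¹) * (l : G) := by group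
            _ = _ := by rw [← e]; group
    refine lt_of_le_of_lt (Nat.card_le_card_of_injective g hg) ?_
    exact Finite.card_subtype_lt (x := (1 : R)) (fun h => h rfl)
  have h1 : 1 < D.index := by
    refine Nat.one_lt_iff_ne_zero_and_ne_one.2 ⟨index_ne_zero_of_finite, fun h => hy (mem_center_iff.2 fun g => ?_)⟩
    exact mem_centralizer_singleton_iff.1 ((index_eq_one.1 h).ge (mem_top g))
  have h2 := hmin y h1
  have h3 : D.index ≤ D.relIndex K * K.index := by
    rw [← inf_relIndex_right, relIndex_mul_index inf_le_right]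
    exact Nat.le_of_dvd (Nat.pos_of_ne_zero index_ne_zero_of_finite) (index_dvd_of_le inf_le_left)
  have h4 : Nat.card R * K.index ≤ m := by
    rw [← hx, ← relIndex_mul_index (le_sup_left : C ≤ K), hR]
    exact Nat.mul_le_mul_right _ (relIndex_le_of_le_right le_sup_right index_ne_zero_of_finite)
  have hK : 0 < K.index := Nat.pos_of_ne_zero index_ne_zero_of_finite
  have := Nat.mul_lt_mul_of_pos_right hlt hK
  exact absurd h2 (not_le.2 (lt_of_le_of_lt h3 (lt_of_lt_of_le this h4)))

theorem lcs_three {G : Type*} [Group G] [Finite G] (A : Subgroup G) [A.Normal] (hA : IsMulCommutative A)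
    (hCA : centralizer (A : Set G) = A) (m : ℕ)
    (hmin : ∀ x : G, 1 < (centralizer ({x} : Set G)).index → m ≤ (centralizer ({x} : Set G)).index) :
    (closure {x : G | (centralizer ({x} : Set G)).index = 1 ∨ (centralizer ({x} : Set G)).index = m}).lowerCentralSeries 3 = ⊥ := by
  set M := closure {x : G | (centralizer ({x} : Set G)).index = 1 ∨ (centralizer ({x} : Set G)).index = m}
  have hAM : ⁅A, M⁆ ≤ center G := by
    refine commutator_le.2 fun a ha x hx => ?_
    induction hx using closure_induction with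
    | mem z hz => exact commutator_mem_center A hA m hmin z hz a ha
    | one => rw [commutatorElement_one_right]; exact one_mem _
    | mul u v _ _ i1 i2 =>
      rw [show ⁅a, u * v⁆ = ⁅a, u⁆ * (u * ⁅a, v⁆ * u⁻¹) by simp only [commutatorElement_def]; group]
      exact mul_mem i1 ((inferInstance : (center G).Normal).conj_mem _ i2 u)
    | inv u _ i1 =>
      rw [show ⁅a, u⁻¹⁆ = u⁻¹ * ⁅a, u⁆⁻¹ * u⁻¹⁻¹ by simp only [commutatorElement_def]; group]
      exact (inferInstance : (center G).Normal).conj_mem _ (inv_mem i1) _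
  have hc : ⁅⁅A, M⁆, M⁆ = ⊥ :=
    (commutator_eq_bot_iff_le_centralizer).2 (hAM.trans (center_le_centralizer _))
  have hMMA : ⁅⁅M, M⁆, A⁆ = ⊥ :=
    commutator_commutator_eq_bot_of_rotate (by rwa [commutator_comm M A]) hc
  have hle : ⁅M, M⁆ ≤ A := by
    rw [← hCA]; exact (commutator_eq_bot_iff_le_centralizer).1 hMMA
  rw [eq_bot_iff, ← hc]
  show ⁅⁅⁅M, M⁆, M⁆, M⁆ ≤ _
  exact commutator_mono (commutator_mono hle le_rfl) le_rfl

/-- Let G be a finite group with a normal abelian subgroup A satisfying C_G(A) = A. Suppose some conjugacy class of G has size greater than 1, let m be the smallest such size, and let M be the subgroup generated by the elements whose class has size 1 or m. Then M is nilpotent of class at most 3. -/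
theorem result {G : Type*} [Group G] [Finite G]
    (A : Subgroup G) [A.Normal] (hA : IsMulCommutative A) (hCA : Subgroup.centralizer (A : Set G) = A)
    (m : ℕ) (hm1 : 1 < m) (hm : ∃ x : G, (Subgroup.centralizer ({x} : Set G)).index = m) (hmin : ∀ x : G, 1 < (Subgroup.centralizer ({x} : Set G)).index → m ≤ (Subgroup.centralizer ({x} : Set G)).index) :
    Subgroup.upperCentralSeries ↥(Subgroup.closure {x : G | (Subgroup.centralizer ({x} : Set G)).index = 1 ∨ (Subgroup.centralizer ({x} : Set G)).index = m}) 3 = ⊤ := by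
  rw [← Subgroup.lowerCentralSeries_eq_bot_iff_upperCentralSeries_eq_top]
  apply Subgroup.map_injective (Subgroup.subtype_injective _)
  rw [Subgroup.map_bot, Subgroup.top_subtype_lowerCentralSeries]
  exact lcs_three A hA hCA m hmin

end Cfsg.Agent.S4163
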