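import Cfsg.Statements.S4168
import Mathlib
import Cfsg.Agent.Lib.Transfer.Action
import Cfsg.Agent.Lib.Transfer.NormalPComplement
-- import your own Cfsg.Agent.* helpers here

set_option autoImplicit false
open Cfsg

namespace Cfsg.Agent.S4168

/-- Let L be a finite quasisimple group (perfect with L/Z(L) simple). Then every prime dividing the order of the centre Z(L) also divides the order of L/Z(L). -/
theorem result {L : Type*} [Group L] [Finite L] (hL : Cfsg.IsQuasisimple L)
    (p : ℕ) (hp : p.Prime) (hdiv : p ∣ Nat.card (Subgroup.center L)) : p ∣ (Subgroup.center L).index := by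
  obtain ⟨hperf, hsimp⟩ := hL
  haveI := Fact.mk hp
  by_contra hdvd
  obtain ⟨P⟩ : Nonempty (Sylow p L) := inferInstance
  have hPZ : (P : Subgroup L) ≤ Subgroup.center L := by
    intro x hx
    obtain ⟨k, hk⟩ := IsPGroup.iff_orderOf.mp P.isPGroup' ⟨x, hx⟩
    rw [Subgroup.orderOf_mk] at hk
    rw [← QuotientGroup.eq_one_iff]
    refine orderOf_eq_one_iff.mp (Nat.eq_one_of_dvd_coprimes (a := p ^ k) (b := (Subgroup.center L).index) ?_ ?_ ?_)
    · exact Nat.Coprime.pow_left k (hp.coprime_iff_not_dvd.mpr hdvd)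
    · rw [← hk]; exact orderOf_map_dvd (QuotientGroup.mk' _) x
    · rw [Subgroup.index_eq_card]; exact orderOf_dvd_natCard _
  have hcomp := Cfsg.Lib.Transfer.hasNormalPComplement_of_normalizer_le_centralizer P (fun g _ x hx =>
    (Subgroup.mem_center_iff.mp (hPZ hx) g).symm)
  have hc := Cfsg.Lib.Transfer.hasNormalPComplement_iff_pResidual.mp hcomp
  haveI := Cfsg.Lib.Transfer.pResidual_normal (G := L) p
  obtain ⟨k, hk⟩ := Cfsg.Lib.Transfer.exists_index_pResidual_eq_pow (G := L) (p := p)
  have htop : Cfsg.pResidual p L = ⊤ := by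
    by_contra hne
    have hQ : IsPGroup p (L ⧸ Cfsg.pResidual p L) := IsPGroup.of_card (n := k) (by rw [← Subgroup.index_eq_card, hk])
    haveI := hQ.isNilpotent
    haveI : Nontrivial (L ⧸ Cfsg.pResidual p L) := by
      rw [← Finite.one_lt_card_iff_nontrivial, ← Subgroup.index_eq_card]
      exact Nat.lt_of_le_of_ne (Nat.one_le_iff_ne_zero.mpr Subgroup.index_ne_zero_of_finite) (fun e => hne (Subgroup.index_eq_one.mp e.symm))
    have h1 : commutator (L ⧸ Cfsg.pResidual p L) = ⊤ := by
      have h2 : commutator L = ⊤ := hperf.commutator_eq_top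
      rw [← Subgroup.map_top_of_surjective _ (QuotientGroup.mk'_surjective (Cfsg.pResidual p L))]
      conv_rhs => rw [← h2]
      rw [commutator_def, commutator_def, Subgroup.map_commutator, Subgroup.map_top_of_surjective _ (QuotientGroup.mk'_surjective (Cfsg.pResidual p L))]
    exact (Group.IsSolvable.commutator_lt_top_of_nontrivial (L ⧸ Cfsg.pResidual p L)).ne h1
  rw [htop, Subgroup.card_top] at hc
  exact hp.coprime_iff_not_dvd.mp hc.symm (hdiv.trans (Subgroup.card_subgroup_dvd_card _))

end Cfsg.Agent.S4168
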