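import Cfsg.Statements.S4169
import Mathlib
import Cfsg.Agent.Lib.Transfer.PGroupNormal
import Cfsg.Agent.S4163
-- import your own Cfsg.Agent.* helpers here

set_option autoImplicit false
open Cfsg
open scoped commutatorElement

namespace Cfsg.Agent.S4169

/-- Let P be a finite p-group whose conjugacy classes have exactly two sizes (1 and one other value). Then P has nilpotency class at most 3. -/
theorem result {P : Type*} [Group P] [Finite P] {p : ℕ} [Fact p.Prime] (hP : IsPGroup p P)
    (m : ℕ) (hm : 1 < m) (h : ∀ x : P, (Subgroup.centralizer ({x} : Set P)).index = 1 ∨ (Subgroup.centralizer ({x} : Set P)).index = m) :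
    upperCentralSeries P 3 = ⊤ := by
  classical
  obtain ⟨A, ⟨hAn, hAc⟩, hmax⟩ := (Set.toFinite {A : Subgroup P | A.Normal ∧ IsMulCommutative A}).exists_maximal
    ⟨⊥, inferInstance, inferInstance⟩
  haveI := hAn
  have hCA := Cfsg.Lib.Transfer.centralizer_eq_of_maximal_normal_abelian hP A hAc
    fun B hB hBc hle => le_antisymm (hmax ⟨hB, hBc⟩ hle) hle
  have h3 := Cfsg.Agent.S4163.lcs_three A hAc hCA m fun x hx => by
    rcases h x with h' | h'
    · omega
    · omega
  have htop : Subgroup.closure {x : P | (Subgroup.centralizer ({x} : Set P)).index = 1 ∨ (Subgroup.centralizer ({x} : Set P)).index = m} = ⊤ :=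
    eq_top_iff.2 fun x _ => Subgroup.subset_closure (h x)
  rw [htop] at h3
  exact Subgroup.lowerCentralSeries_eq_bot_iff_upperCentralSeries_eq_top.1 h3

end Cfsg.Agent.S4169
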