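import Cfsg.Statements.S4172
import Cfsg.Agent.Lib.Comp.Component
import Cfsg.Agent.Lib.Comp.FStar
import Cfsg.Agent.Lib.Transfer.Tate
import Cfsg.Agent.Lib.Transfer.PGroupFrattini
import Cfsg.Agent.Lib.Solv.Gaschutz
import Cfsg.Agent.Lib.Transfer.Basic
import Cfsg.Agent.Lib.Solv.Frattini
import Cfsg.Agent.Lib.Solv.Cores
import Cfsg.Agent.Lib.Solv.Subnormal

set_option autoImplicit false
open Cfsg
open scoped Pointwise commutatorElement

namespace Cfsg.Agent.S4172

theorem frattini_map_equiv_aux {A B : Type*} [Group A] [Group B] (e : A ≃* B) :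
    (frattini A).map e.toMonoidHom = frattini B := by
  exact e.mapSubgroup.map_radical

theorem isCyclic_quotient {X : Type*} [Group X] [Finite X] {p : ℕ} [hp : Fact p.Prime] (hX : IsPGroup p X)
    (hd : (frattini X).index = p ^ 2) (N : Subgroup X) [N.Normal] (h : ¬ N ≤ frattini X) : IsCyclic (X ⧸ N) := by
  classical
  set Φ := frattini X
  have hlt : Φ < N ⊔ Φ := lt_of_le_of_ne le_sup_right fun e => h (le_sup_left.trans e.symm.le)
  have h1 : Φ.relIndex (N ⊔ Φ) * (N ⊔ Φ).index = p ^ 2 := by rw [Subgroup.relIndex_mul_index le_sup_right, hd]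
  have h2 : Φ.relIndex (N ⊔ Φ) ≠ 1 := fun e => hlt.not_ge (Subgroup.relIndex_eq_one.1 e)
  obtain ⟨j, hj, hje⟩ := (Nat.dvd_prime_pow hp.out).1 (Dvd.intro_left _ h1)
  have hj1 : j ≤ 1 := by
    by_contra hh
    have : j = 2 := by omega
    subst this
    rw [hje] at h1
    exact h2 (Nat.eq_of_mul_eq_mul_right (pow_pos hp.out.pos 2) (by rw [h1, one_mul]))
  -- so the image of `Φ` has index at most `p`
  obtain ⟨c, hc⟩ : ∃ c : X, ∀ x : X, ∃ i : ℤ, x * (c ^ i)⁻¹ ∈ N ⊔ Φ := by
    haveI : IsCyclic (X ⧸ (N ⊔ Φ)) := by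
      rcases Nat.le_one_iff_eq_zero_or_eq_one.1 hj1 with rfl | rfl
      · haveI : Subsingleton (X ⧸ (N ⊔ Φ)) := by
          rw [QuotientGroup.subsingleton_iff]; exact Subgroup.index_eq_one.1 (by rw [hje, pow_zero])
        infer_instance
      · exact isCyclic_of_prime_card (p := p) (by rw [← Subgroup.index_eq_card, hje, pow_one])
    obtain ⟨c₀, hc₀⟩ := IsCyclic.exists_generator (α := X ⧸ (N ⊔ Φ))
    obtain ⟨c, rfl⟩ := QuotientGroup.mk_surjective c₀
    refine ⟨c, fun x => ?_⟩
    obtain ⟨i, hi : (QuotientGroup.mk c : X ⧸ (N ⊔ Φ)) ^ i = QuotientGroup.mk x⟩ := hc₀ (QuotientGroup.mk x)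
    exact ⟨i, by rw [← QuotientGroup.eq_one_iff, QuotientGroup.mk_mul, QuotientGroup.mk_inv, QuotientGroup.mk_zpow, hi, mul_inv_cancel]⟩
  have htop : N ⊔ Subgroup.zpowers c = ⊤ := by
    refine frattini_nongenerating (top_le_iff.1 fun x _ => ?_)
    obtain ⟨i, hi⟩ := hc x
    have : x = x * (c ^ i)⁻¹ * c ^ i := by group
    rw [this]
    exact mul_mem ((sup_le (le_sup_left.trans le_sup_left) le_sup_right : N ⊔ Φ ≤ N ⊔ Subgroup.zpowers c ⊔ Φ) hi)
      (Subgroup.mem_sup_left (Subgroup.mem_sup_right (zpow_mem (Subgroup.mem_zpowers c) i)))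
  refine ⟨⟨QuotientGroup.mk c, fun q => ?_⟩⟩
  induction q using QuotientGroup.induction_on with
  | _ x =>
    have hx : x ∈ ((N ⊔ Subgroup.zpowers c : Subgroup X) : Set X) := by rw [htop]; trivial
    rw [Subgroup.normal_mul] at hx
    obtain ⟨n, hn, _, ⟨i, rfl⟩, rfl⟩ := Set.mem_mul.1 hx
    exact ⟨i, by
      show (QuotientGroup.mk c : X ⧸ N) ^ i = QuotientGroup.mk (n * c ^ i)
      rw [QuotientGroup.mk_mul, (QuotientGroup.eq_one_iff n).2 hn, one_mul, QuotientGroup.mk_zpow]⟩

theorem key {X : Type*} [Group X] [Finite X] {p : ℕ} [hp : Fact p.Prime] (hX : IsPGroup p X)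
    (hd : (frattini X).index = p ^ 2) (N M : Subgroup X) [N.Normal] [M.Normal] (h1 : ¬ N ≤ frattini X)
    (h2 : ¬ M ≤ frattini X) (h : N ⊓ M = ⊥) : ∀ a b : X, a * b = b * a := by
  haveI := isCyclic_quotient hX hd N h1
  haveI := isCyclic_quotient hX hd M h2
  intro a b
  have h3 : (QuotientGroup.mk a : X ⧸ N) * QuotientGroup.mk b = QuotientGroup.mk b * QuotientGroup.mk a :=
    IsCyclic.isMulCommutative.is_comm.comm _ _
  have h4 : (QuotientGroup.mk a : X ⧸ M) * QuotientGroup.mk b = QuotientGroup.mk b * QuotientGroup.mk a :=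
    IsCyclic.isMulCommutative.is_comm.comm _ _
  rw [← QuotientGroup.mk_mul, ← QuotientGroup.mk_mul, QuotientGroup.eq] at h3 h4
  have h5 : (a * b)⁻¹ * (b * a) ∈ N ⊓ M := ⟨h3, h4⟩
  rw [h, Subgroup.mem_bot] at h5
  exact inv_mul_eq_one.1 h5

theorem center_disjoint {X : Type*} [Group X] [Finite X] {p : ℕ} [hp : Fact p.Prime] (S : Sylow p X)
    (hS : IsMulCommutative (S : Subgroup X)) (hperf : commutator X = ⊤) {z : X} (hz : z ∈ Subgroup.center X)
    (hzS : z ∈ (S : Subgroup X)) : z = 1 := by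
  letI : CommGroup (S : Subgroup X) :=
    { (inferInstance : Group (S : Subgroup X)) with mul_comm := fun a b => hS.is_comm.comm a b }
  have key : ∀ (k : ℕ) (g₀ : X), g₀⁻¹ * z ^ k * g₀ ∈ (S : Subgroup X) → g₀⁻¹ * z ^ k * g₀ = z ^ k := fun k g₀ _ => by
    rw [mul_assoc, ← Subgroup.mem_center_iff.1 (pow_mem hz k) g₀, inv_mul_cancel_left]
  have h1 := MonoidHom.transfer_eq_pow (MonoidHom.id (S : Subgroup X)) z key
  have h2 : z ∈ (MonoidHom.transfer (MonoidHom.id (S : Subgroup X))).ker :=
    (hperf ▸ Abelianization.commutator_subset_ker _ : (⊤ : Subgroup X) ≤ _) (Subgroup.mem_top z)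
  rw [MonoidHom.mem_ker, h1] at h2
  have h3 : z ^ (S : Subgroup X).index = 1 := congrArg Subtype.val h2
  obtain ⟨k, hk⟩ := S.isPGroup' ⟨z, hzS⟩
  exact orderOf_eq_one_iff.1 (Nat.eq_one_of_dvd_coprimes
    ((hp.out.coprime_iff_not_dvd.2 S.not_dvd_index).symm.pow_right k)
    (orderOf_dvd_of_pow_eq_one h3) (orderOf_dvd_of_pow_eq_one (congrArg Subtype.val hk)))


/-- Let p be a prime and G a finite group with a non-commutative Sylow p-subgroup P whose Frattini subgroup has index p² in P (P is generated by two elements). Suppose G has no nontrivial normal subgroup of order prime to p and the Frattini subgroup of P contains no nontrivial normal subgroup of G. Then the generalized Fitting subgroup F*(G) is the unique minimal normal subgroup of G, the image of P in G/F*(G) is cyclic, and if F*(G) is not commutative then P permutes the components of G transitively by conjugation. -/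
theorem result {G : Type*} [Group G] [Finite G] (p : ℕ) [Fact p.Prime] (P : Sylow p G) (hna : ¬ IsMulCommutative (P : Subgroup G)) (hgen : (frattini ↥(P : Subgroup G)).index = p ^ 2) (hcore : Cfsg.pPrimeCore p G = ⊥) (hfrat : ((frattini ↥(P : Subgroup G)).map (P : Subgroup G).subtype).normalCore = ⊥) [hFn : (Cfsg.generalizedFittingSubgroup G).Normal] :
    (Cfsg.generalizedFittingSubgroup G ≠ ⊥ ∧ ∀ K : Subgroup G, K.Normal → K ≠ ⊥ → Cfsg.generalizedFittingSubgroup G ≤ K) ∧
      IsCyclic ↥((P : Subgroup G).map (QuotientGroup.mk' (Cfsg.generalizedFittingSubgroup G))) ∧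
      (¬ IsMulCommutative (Cfsg.generalizedFittingSubgroup G) → ∀ K L : Subgroup G, Cfsg.IsComponent K → Cfsg.IsComponent L → ∃ x ∈ (P : Subgroup G), L = K.map (MulAut.conj x).toMonoidHom) := by
  classical
  have hpp : p.Prime := Fact.out
  set Pp : Subgroup G := (P : Subgroup G)
  have hPp : IsPGroup p Pp := P.isPGroup'
  -- normal subgroups meet `P` outside its Frattini subgroup
  have hmeet : ∀ N : Subgroup G, N.Normal → N ≠ ⊥ → ¬ N.subgroupOf Pp ≤ frattini Pp := by
    intro N hN hN1 hle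
    haveI := hN
    have h1 : N ⊓ Pp ≤ (frattini Pp).map Pp.subtype := fun x hx => ⟨⟨x, hx.2⟩, hle hx.1, rfl⟩
    have hnpc := Cfsg.Lib.Transfer.tate P N h1
    rw [Cfsg.Lib.Transfer.hasNormalPComplement_iff_pResidual] at hnpc
    haveI := Cfsg.Lib.Transfer.pResidual_characteristic (G := N) p
    have hK : (Cfsg.pResidual p N).map N.subtype = ⊥ := by
      refine le_bot_iff.1 (hcore ▸ Cfsg.Lib.Transfer.le_pPrimeCore ConjAct.normal_of_characteristic_of_normal ?_)
      rwa [Subgroup.card_map_of_injective N.subtype_injective]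
    rw [Subgroup.map_eq_bot_iff_of_injective _ N.subtype_injective] at hK
    have hNp : IsPGroup p N := by
      intro x
      refine ⟨(orderOf x).factorization p, ?_⟩
      have := Cfsg.Lib.Transfer.pow_ordProj_mem_pResidual (p := p) x
      rwa [hK, Subgroup.mem_bot] at this
    have hNP : N ≤ Pp := (Cfsg.Lib.Transfer.le_pCore hN hNp).trans (Cfsg.Lib.Transfer.pCore_le_sylow P)
    refine hN1 (le_bot_iff.1 (hfrat ▸ Subgroup.normal_le_normalCore.2 fun x hx => h1 ⟨hx, hNP hx⟩))
  have huniq : ∀ K L : Subgroup G, K.Normal → L.Normal → K ≠ ⊥ → L ≠ ⊥ → K ⊓ L ≠ ⊥ := by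
    intro K L hK hL hK1 hL1 e
    haveI := hK; haveI := hL
    refine hna ⟨⟨key hPp hgen (K.subgroupOf Pp) (L.subgroupOf Pp) (hmeet K hK hK1) (hmeet L hL hL1) ?_⟩⟩
    rw [Subgroup.eq_bot_iff_forall]
    rintro x ⟨hxK, hxL⟩
    exact Subtype.ext (Subgroup.mem_bot.1 (e ▸ (⟨hxK, hxL⟩ : (x : G) ∈ K ⊓ L)))
  have hGne : (⊤ : Subgroup G) ≠ ⊥ := fun e => hna ⟨⟨fun a b => Subtype.ext (by
    have h1 : ∀ y : G, y = 1 := fun y => Subgroup.mem_bot.1 (e ▸ Subgroup.mem_top y)
    rw [h1 (a * b : Pp), h1 (b * a : Pp)])⟩⟩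
  obtain ⟨M, ⟨hMn, hM1⟩, hMmin⟩ : ∃ M : Subgroup G, (M.Normal ∧ M ≠ ⊥) ∧ ∀ K : Subgroup G, K.Normal ∧ K ≠ ⊥ → Nat.card M ≤ Nat.card K :=
    Set.exists_min_image {K : Subgroup G | K.Normal ∧ K ≠ ⊥} (fun K => Nat.card K) (Set.toFinite _) ⟨⊤, inferInstance, hGne⟩
  haveI := hMn
  have hMle : ∀ K : Subgroup G, K.Normal → K ≠ ⊥ → M ≤ K := by
    intro K hK hK1
    haveI := hK
    have h1 : (M ⊓ K : Subgroup G) = M :=
      Subgroup.eq_of_le_of_card_ge inf_le_left (hMmin _ ⟨inferInstance, huniq M K hMn hK hM1 hK1⟩)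
    exact h1 ▸ inf_le_right
  set F := Cfsg.generalizedFittingSubgroup G with hF
  have hF1 : F ≠ ⊥ := fun e => hGne (le_bot_iff.1 (by
    have h1 := Cfsg.Lib.Comp.centralizer_fstar_le (G := G)
    rw [← hF, e] at h1
    exact le_trans (fun x _ => Subgroup.mem_centralizer_iff.2 fun y hy => by
      rw [Subgroup.mem_bot.1 hy, one_mul, mul_one]) h1))
  have hMF : M ≤ F := hMle F hFn hF1
  have hcycM : IsCyclic (Pp ⧸ M.subgroupOf Pp) := isCyclic_quotient hPp hgen _ (hmeet M hMn hM1)
  -- the Fitting subgroup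
  have hFit : Cfsg.fittingSubgroup G = Cfsg.pCore p G := by
    refine le_antisymm ?_ (Cfsg.Lib.Transfer.pCore_le_fittingSubgroup p)
    have := Cfsg.Lib.Transfer.fittingSubgroup_le_pCore_sup (G := G) p
    rwa [hcore, sup_bot_eq] at this
  have hFM : F = M := by
    refine le_antisymm ?_ hMF
    by_cases hMa : IsMulCommutative M
    · -- the abelian case
      set Q := Cfsg.pCore p G with hQ
      haveI hQn : Q.Normal := Cfsg.Lib.Transfer.pCore_normal p
      have hQp : IsPGroup p Q := Cfsg.Lib.Transfer.pCore_isPGroup p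
      have hQP : Q ≤ Pp := Cfsg.Lib.Transfer.pCore_le_sylow P
      haveI := hMa
      have hMnil : Group.IsNilpotent M := by
        letI : CommGroup M := { (inferInstance : Group M) with mul_comm := fun a b => hMa.is_comm.comm a b }
        infer_instance
      have hMQ : M ≤ Q := hFit ▸ (le_sSup ⟨hMn, hMnil⟩ : M ≤ Cfsg.fittingSubgroup G)
      -- `Q` is elementary abelian
      have hQcomm : ∀ a ∈ Q, ∀ b ∈ Q, a * b * a⁻¹ * b⁻¹ = 1 ∧ a ^ p = 1 := by
        have hX : ((frattini Q).map Q.subtype) ≤ (frattini Pp).map Pp.subtype := by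
          have h1 := Subgroup.map_mono (f := Pp.subtype) (Cfsg.Lib.Solv.map_frattini_le (Q.subgroupOf Pp))
          rw [← frattini_map_equiv_aux (Subgroup.subgroupOfEquivOfLe hQP), Subgroup.map_map]
          rw [Subgroup.map_map] at h1
          exact h1
        have hbot : (frattini Q).map Q.subtype = ⊥ :=
          le_bot_iff.1 (hfrat ▸ (Subgroup.normal_le_normalCore (N := (frattini Q).map Q.subtype)
            (hN := ConjAct.normal_of_characteristic_of_normal)).2 hX)
        rw [Subgroup.map_eq_bot_iff_of_injective _ Q.subtype_injective] at hbot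
        intro a ha b hb
        refine ⟨?_, ?_⟩
        · have h1 : ⁅(⟨a, ha⟩ : Q), (⟨b, hb⟩ : Q)⁆ ∈ frattini Q := Cfsg.Lib.Transfer.commutator_le_frattini hQp
            (Subgroup.commutator_mem_commutator (Subgroup.mem_top _) (Subgroup.mem_top _))
          rw [hbot, Subgroup.mem_bot] at h1
          exact congrArg Subtype.val h1
        · have h1 : (⟨a, ha⟩ : Q) ^ p ∈ frattini Q := Cfsg.Lib.Transfer.pow_mem_frattini hQp _
          rw [hbot, Subgroup.mem_bot] at h1
          exact congrArg Subtype.val h1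
      obtain ⟨c₀, hc₀⟩ := IsCyclic.exists_generator (α := Pp ⧸ M.subgroupOf Pp)
      obtain ⟨c, rfl⟩ := QuotientGroup.mk_surjective c₀
      have hdec : ∀ x ∈ Pp, ∃ i : ℤ, x * ((c : G) ^ i)⁻¹ ∈ M := fun x hx => by
        obtain ⟨i, hi : (QuotientGroup.mk c : Pp ⧸ M.subgroupOf Pp) ^ i = QuotientGroup.mk (⟨x, hx⟩ : Pp)⟩ :=
          hc₀ (QuotientGroup.mk ⟨x, hx⟩)
        have : (⟨x, hx⟩ : Pp) * (c ^ i)⁻¹ ∈ M.subgroupOf Pp := by
          rw [← QuotientGroup.eq_one_iff, QuotientGroup.mk_mul, QuotientGroup.mk_inv, QuotientGroup.mk_zpow, hi, mul_inv_cancel]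
        exact ⟨i, by simpa [Subgroup.mem_subgroupOf] using this⟩
      have hQM : Q ≤ M := by
        intro x hx
        obtain ⟨i, hi⟩ := hdec x (hQP hx)
        set e := (c : G) ^ i with he
        have heQ : e ∈ Q := by
          have h2 := mul_mem (inv_mem (hMQ hi)) hx
          simpa [mul_assoc] using h2
        by_contra hxM
        have heM : e ∉ M := fun h2 => hxM (by simpa using mul_mem hi h2)
        -- a complement of `M` in `P`
        have hdis : Subgroup.zpowers (c : G) ⊓ M = ⊥ := by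
          rw [Subgroup.eq_bot_iff_forall]
          rintro y ⟨⟨k, rfl⟩, hyM⟩
          by_contra hy1
          have hep : e ^ p = 1 := (hQcomm e heQ e heQ).2
          have he1 : e ≠ 1 := fun h2 => heM (h2 ▸ one_mem M)
          have hyp : ((c : G) ^ k) ^ p = 1 := (hQcomm _ (hMQ hyM) _ (hMQ hyM)).2
          have h2 : ∀ e' y' : Subgroup.zpowers (c : G), e' ^ p = 1 → y' ^ p = 1 → y' ≠ 1 → e' ∈ Subgroup.zpowers y' := by
            intro e' y' h3 h4 h5
            letI : CommGroup (Subgroup.zpowers (c : G)) := IsCyclic.commGroup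
            have : Subgroup.zpowers y' = (powMonoidHom p : Subgroup.zpowers (c : G) →* _).ker :=
              Subgroup.eq_of_le_of_card_ge (Subgroup.zpowers_le.2 h4) (by
                have h6 : Nat.card (Subgroup.zpowers y') = p := by rw [Nat.card_zpowers, orderOf_eq_prime h4 h5]
                rw [h6, IsCyclic.card_powMonoidHom_ker]
                exact Nat.gcd_le_right _ hpp.pos)
            rw [this]
            exact h3
          obtain ⟨l, hl⟩ := h2 ⟨e, he ▸ zpow_mem (Subgroup.mem_zpowers _) i⟩ ⟨_, zpow_mem (Subgroup.mem_zpowers _) k⟩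
            (Subtype.ext hep) (Subtype.ext hyp) (fun h6 => hy1 (congrArg Subtype.val h6))
          have hl' : ((c : G) ^ k) ^ l = e := congrArg Subtype.val hl
          exact heM (hl' ▸ M.zpow_mem hyM l)
        obtain ⟨H, hH⟩ := Cfsg.Lib.Solv.Gaschutz.complement_exists (K := M) Pp (hMQ.trans hQP) (by
            obtain ⟨a, ha⟩ := IsPGroup.iff_card.1 (hPp.to_le (hMQ.trans hQP))
            rw [ha]
            exact Nat.Coprime.pow_left a (hpp.coprime_iff_not_dvd.2 P.not_dvd_index))
          (Subgroup.zpowers (c : G)) hdis (le_antisymm (sup_le (hMQ.trans hQP) (Subgroup.zpowers_le.2 c.2)) fun y hy => by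
            obtain ⟨j, hj⟩ := hdec y hy
            have : y = y * ((c : G) ^ j)⁻¹ * (c : G) ^ j := by group
            rw [this]
            exact Subgroup.mul_mem_sup hj (zpow_mem (Subgroup.mem_zpowers _) j))
        have hQH : (Q ⊓ H).Normal := by
          constructor
          intro y hy g
          obtain ⟨⟨⟨m, hm⟩, ⟨h, hh⟩⟩, hmh⟩ := hH.2 g
          simp only at hmh
          rw [← hmh]
          have h1 : h * y * h⁻¹ ∈ Q ⊓ H := ⟨hQn.conj_mem y hy.1 h, H.mul_mem (H.mul_mem hh hy.2) (H.inv_mem hh)⟩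
          have h2 : m * (h * y * h⁻¹) * m⁻¹ = h * y * h⁻¹ := by
            have h3 := (hQcomm m (hMQ hm) _ h1.1).1
            exact mul_inv_eq_one.1 h3
          rw [show m * h * y * (m * h)⁻¹ = m * (h * y * h⁻¹) * m⁻¹ by group, h2]
          exact h1
        have hQH1 : Q ⊓ H = ⊥ := by
          by_contra h1
          refine huniq M (Q ⊓ H) hMn hQH hM1 h1 ?_
          rw [← le_bot_iff, ← hH.disjoint.eq_bot]
          exact inf_le_inf le_rfl inf_le_right
        obtain ⟨⟨⟨m, hm⟩, ⟨h, hh⟩⟩, hmh⟩ := hH.2 x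
        simp only at hmh
        have h1 : h ∈ Q ⊓ H := ⟨by
          have := mul_mem (inv_mem (hMQ hm)) hx
          rwa [← hmh, inv_mul_cancel_left] at this, hh⟩
        rw [hQH1, Subgroup.mem_bot] at h1
        exact hxM (by rw [← hmh, h1, mul_one]; exact hm)
      -- there is no component
      have hlayer : Cfsg.layer G = ⊥ := by
        by_contra hE
        set E := Cfsg.layer G
        haveI : E.Normal := Subgroup.normal_of_characteristic _
        have hME : M ≤ E := hMle E inferInstance hE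
        have hEc : E ≤ Subgroup.centralizer (M : Set G) := Subgroup.commutator_eq_bot_iff_le_centralizer.1
          (Cfsg.Lib.Comp.layer_commute_solvable (by haveI := hMnil; exact inferInstance))
        obtain ⟨S, hS⟩ := Cfsg.Lib.Solv.sylow_inf_subnormal (inferInstance : E.Normal).isSubnormal P
        have hMS : ∀ m, ∀ hm : m ∈ M, (⟨m, hME hm⟩ : E) ∈ (S : Subgroup E) := fun m hm => by rw [hS]; exact hQP (hMQ hm)
        have hSc : IsMulCommutative (S : Subgroup E) := by
          refine ⟨⟨fun a b => Subtype.ext (Subtype.ext ?_)⟩⟩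
          obtain ⟨i, hi⟩ := hdec _ (hS.le a.2 : ((a : E) : G) ∈ Pp)
          obtain ⟨j, hj⟩ := hdec _ (hS.le b.2 : ((b : E) : G) ∈ Pp)
          set A := ((a : E) : G)
          set B := ((b : E) : G)
          show A * B = B * A
          set m := A * ((c : G) ^ i)⁻¹ with hm
          set n := B * ((c : G) ^ j)⁻¹ with hn
          have eA : A = m * (c : G) ^ i := by rw [hm]; group
          have eB : B = n * (c : G) ^ j := by rw [hn]; group
          have cm : ∀ y ∈ M, ∀ z ∈ E, Commute y z := fun y hy z hz => Subgroup.mem_centralizer_iff.1 (hEc hz) y hy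
          have hci : (c : G) ^ i ∈ E := by
            have h2 : m⁻¹ * A ∈ E := mul_mem (inv_mem (hME hi)) (a : E).2
            rwa [hm, show (A * ((c : G) ^ i)⁻¹)⁻¹ * A = (c : G) ^ i by group] at h2
          have hcj : (c : G) ^ j ∈ E := by
            have h2 : n⁻¹ * B ∈ E := mul_mem (inv_mem (hME hj)) (b : E).2
            rwa [hn, show (B * ((c : G) ^ j)⁻¹)⁻¹ * B = (c : G) ^ j by group] at h2
          have h1 : Commute A B := by
            rw [eA, eB]
            exact Commute.mul_left ((cm m hi n (hME hj)).mul_right (cm m hi _ hcj))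
              (((cm n hj _ hci).symm).mul_right ((Commute.refl (c : G)).zpow_zpow i j))
          exact h1.eq
        obtain ⟨⟨m, hm⟩, hm1⟩ := Subgroup.ne_bot_iff_exists_ne_one.1 hM1
        refine hm1 (Subtype.ext ?_)
        have hperf : commutator E = ⊤ := by
          apply Subgroup.map_injective E.subtype_injective
          rw [commutator_def, Subgroup.map_commutator, ← MonoidHom.range_eq_map, Subgroup.range_subtype]
          exact Cfsg.Lib.Comp.layer_perfect
        have h2 := center_disjoint S hSc hperf (z := (⟨m, hME hm⟩ : E))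
          (Subgroup.mem_center_iff.2 fun y => Subtype.ext (Subgroup.mem_centralizer_iff.1 (hEc y.2) m hm).symm) (hMS m hm)
        have h9 : m = (1 : G) := congrArg Subtype.val h2
        exact h9
      rw [hF, Cfsg.generalizedFittingSubgroup, hlayer, bot_sup_eq, hFit]
      exact hQM
    · -- the nonabelian case
      have hC : Subgroup.centralizer (M : Set G) = ⊥ := by
        by_contra hh
        refine hMa ⟨⟨fun a b => Subtype.ext ?_⟩⟩
        exact Subgroup.mem_centralizer_iff.1 ((hMle _ inferInstance hh) b.2) a a.2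
      have hFit1 : Cfsg.fittingSubgroup G = ⊥ := by
        by_contra hh
        haveI : (Cfsg.fittingSubgroup G).Normal := by rw [hFit]; exact Cfsg.Lib.Transfer.pCore_normal p
        have hle := hMle _ inferInstance hh
        rw [hFit] at hle
        have hMp : IsPGroup p M := (Cfsg.Lib.Transfer.pCore_isPGroup p).to_le hle
        haveI : Nontrivial M := (Subgroup.nontrivial_iff_ne_bot M).2 hM1
        have hZ := hMp.center_nontrivial
        have hZn : ((Subgroup.center M).map M.subtype).Normal := ConjAct.normal_of_characteristic_of_normal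
        have hMZ := hMle _ hZn (fun e => (Subgroup.nontrivial_iff_ne_bot _).1 hZ
          ((Subgroup.map_eq_bot_iff_of_injective _ M.subtype_injective).1 e))
        refine hMa ⟨⟨fun a b => ?_⟩⟩
        obtain ⟨z, hz, hze⟩ := hMZ a.2
        have : z = a := Subtype.ext hze
        subst this
        exact (Subgroup.mem_center_iff.1 hz b).symm
      rw [hF, Cfsg.generalizedFittingSubgroup, hFit1, sup_bot_eq]
      refine Cfsg.Lib.Comp.layer_le_iff.2 fun L hL => ?_
      rcases Cfsg.Lib.Comp.component_subnormal hL hMn.isSubnormal with h1 | h1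
      · exact h1
      · exact absurd (le_bot_iff.1 (hC ▸ Subgroup.commutator_eq_bot_iff_le_centralizer.1 h1))
          (Cfsg.Lib.Comp.component_ne_bot hL)
  refine ⟨⟨hF1, fun K hK hK1 => hFM.trans_le (hMle K hK hK1)⟩, ?_, fun hMa K L hK hL => ?_⟩
  · let g : Pp →* Pp.map (QuotientGroup.mk' F) := (QuotientGroup.mk' F).subgroupMap Pp
    have hker : M.subgroupOf Pp ≤ g.ker := fun x hx => by
      have h9 : (x : G) ∈ M := hx
      rw [← hFM] at h9
      exact Subtype.ext ((QuotientGroup.eq_one_iff (x : G)).2 h9)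
    refine isCyclic_of_surjective (QuotientGroup.lift (M.subgroupOf Pp) g hker) fun y => ?_
    obtain ⟨x, rfl⟩ := (QuotientGroup.mk' F).subgroupMap_surjective Pp y
    exact ⟨QuotientGroup.mk x, rfl⟩
  · rw [← hF, hFM] at hMa
    by_contra hno
    push Not at hno
    have hZM : Subgroup.center M = ⊥ := by
      by_contra hh
      have hZn : ((Subgroup.center M).map M.subtype).Normal := ConjAct.normal_of_characteristic_of_normal
      have hMZ := hMle _ hZn (fun e => hh ((Subgroup.map_eq_bot_iff_of_injective _ M.subtype_injective).1 e))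
      refine hMa ⟨⟨fun a b => ?_⟩⟩
      obtain ⟨z, hz, hze⟩ := hMZ a.2
      have : z = a := Subtype.ext hze
      subst this
      exact (Subgroup.mem_center_iff.1 hz b).symm
    have hcM : ∀ J : Subgroup G, Cfsg.IsComponent J → J ≤ M := fun J hJ =>
      hFM ▸ ((Cfsg.Lib.Comp.component_le_layer hJ).trans Cfsg.Lib.Comp.layer_le_fstar : J ≤ Cfsg.generalizedFittingSubgroup G)
    have hMlayer : M ≤ Cfsg.layer G := hMle _ (Subgroup.normal_of_characteristic _) fun e =>
      Cfsg.Lib.Comp.component_ne_bot hK (le_bot_iff.1 (e ▸ Cfsg.Lib.Comp.component_le_layer hK))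
    let O : Set (Subgroup G) := {J | ∃ x ∈ Pp, J = K.map (MulAut.conj x).toMonoidHom}
    let O' : Set (Subgroup G) := {J | Cfsg.IsComponent J ∧ J ∉ O}
    have hOc : ∀ J ∈ O, Cfsg.IsComponent J := by
      rintro _ ⟨x, hx, rfl⟩
      exact Cfsg.Lib.Comp.component_conj x hK
    have hconj : ∀ (J : Subgroup G) (x y : G), (J.map (MulAut.conj y).toMonoidHom).map (MulAut.conj x).toMonoidHom =
        J.map (MulAut.conj (x * y)).toMonoidHom := fun J x y => by
      rw [Subgroup.map_map]; congr 1; ext z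
      show x * (y * z * y⁻¹) * x⁻¹ = x * y * z * (x * y)⁻¹
      group
    have hone : ∀ J : Subgroup G, J.map (MulAut.conj (1 : G)).toMonoidHom = J := fun J => by
      rw [show (MulAut.conj (1 : G)).toMonoidHom = MonoidHom.id G from by ext z; simp, Subgroup.map_id]
    have hOst : ∀ x ∈ Pp, ∀ J, J ∈ O → J.map (MulAut.conj x).toMonoidHom ∈ O := by
      rintro x hx _ ⟨y, hy, rfl⟩
      exact ⟨x * y, mul_mem hx hy, hconj K x y⟩
    have hO'st : ∀ x ∈ Pp, ∀ J, J ∈ O' → J.map (MulAut.conj x).toMonoidHom ∈ O' := by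
      rintro x hx J ⟨hJ, hJO⟩
      refine ⟨Cfsg.Lib.Comp.component_conj x hJ, fun hh => hJO ?_⟩
      have := hOst x⁻¹ (inv_mem hx) _ hh
      rw [hconj, inv_mul_cancel] at this
      rwa [hone] at this
    have hnorm : ∀ T : Set (Subgroup G), (∀ J ∈ T, Cfsg.IsComponent J) →
        (∀ x ∈ Pp, ∀ J, J ∈ T → J.map (MulAut.conj x).toMonoidHom ∈ T) →
        ∀ g ∈ M ⊔ Pp, ∀ y ∈ sSup T, g * y * g⁻¹ ∈ sSup T := by
      intro T hT hTst g hg y hy
      have hle : M ⊔ Pp ≤ Subgroup.normalizer ((sSup T : Subgroup G) : Set G) := by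
        have key : ∀ a : G, (∀ J ∈ T, J.map (MulAut.conj a).toMonoidHom ≤ sSup T) →
            (sSup T).map (MulAut.conj a).toMonoidHom ≤ sSup T := fun a ha => by
          rw [Subgroup.map_le_iff_le_comap, sSup_le_iff]
          exact fun J hJ => Subgroup.map_le_iff_le_comap.1 (ha J hJ)
        refine sup_le (fun a ha => ?_) (fun a ha => ?_)
        · have hb : ∀ b ∈ M, ∀ J ∈ T, J.map (MulAut.conj b).toMonoidHom ≤ sSup T := fun b hb J hJ => by
            rintro _ ⟨z, hz, rfl⟩
            exact le_sSup hJ ((Subgroup.mem_normalizer_iff.1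
              (Cfsg.Lib.Comp.layer_le_normalizer (hT J hJ) (hMlayer hb)) z).1 hz)
          refine Subgroup.mem_normalizer_iff.2 fun z => ⟨fun hz => key a (hb a ha) ⟨z, hz, rfl⟩, fun hz => ?_⟩
          have h9 : a⁻¹ * (a * z * a⁻¹) * a⁻¹⁻¹ ∈ sSup T := key a⁻¹ (hb _ (inv_mem ha)) ⟨_, hz, rfl⟩
          rwa [show a⁻¹ * (a * z * a⁻¹) * a⁻¹⁻¹ = z by group] at h9
        · have hb : ∀ b ∈ Pp, ∀ J ∈ T, J.map (MulAut.conj b).toMonoidHom ≤ sSup T := fun b hb J hJ =>
            le_sSup (hTst b hb J hJ)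
          refine Subgroup.mem_normalizer_iff.2 fun z => ⟨fun hz => key a (hb a ha) ⟨z, hz, rfl⟩, fun hz => ?_⟩
          have h9 : a⁻¹ * (a * z * a⁻¹) * a⁻¹⁻¹ ∈ sSup T := key a⁻¹ (hb _ (inv_mem ha)) ⟨_, hz, rfl⟩
          rwa [show a⁻¹ * (a * z * a⁻¹) * a⁻¹⁻¹ = z by group] at h9
      exact (Subgroup.mem_normalizer_iff.1 (hle hg) y).1 hy
    have hmeet' : ∀ T : Set (Subgroup G), (∀ J ∈ T, Cfsg.IsComponent J) →
        (∀ x ∈ Pp, ∀ J, J ∈ T → J.map (MulAut.conj x).toMonoidHom ∈ T) → ∀ J0 ∈ T,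
        ((sSup T).subgroupOf Pp).Normal ∧ ¬ (sSup T).subgroupOf Pp ≤ frattini Pp := by
      intro T hT hTst J0 hJ0
      refine ⟨⟨fun a ha b => hnorm T hT hTst b (Subgroup.mem_sup_right b.2) a ha⟩, fun hle => ?_⟩
      obtain ⟨X, hX⟩ : ∃ X, X = M ⊔ Pp := ⟨_, rfl⟩
      have hTX : sSup T ≤ X := hX ▸ sSup_le fun J hJ => (hcM J (hT J hJ)).trans le_sup_left
      have hPX : Pp ≤ X := hX ▸ le_sup_right
      haveI : ((sSup T).subgroupOf X).Normal := ⟨fun a ha b => hnorm T hT hTst b (hX ▸ b.2) a ha⟩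
      let PX : Sylow p X := P.subtype hPX
      have h1 : (sSup T).subgroupOf X ⊓ (PX : Subgroup X) ≤ (frattini PX).map (PX : Subgroup X).subtype := by
        rintro x ⟨hx1, hx2⟩
        have hx2' : (x : G) ∈ Pp := hx2
        let e : (PX : Subgroup X) ≃* Pp := Subgroup.subgroupOfEquivOfLe hPX
        refine ⟨⟨x, hx2⟩, ?_, rfl⟩
        have h3 : e ⟨x, hx2⟩ ∈ frattini Pp := hle hx1
        have h4 : (frattini (PX : Subgroup X)).map e.toMonoidHom = frattini Pp := frattini_map_equiv_aux e
        rw [← h4] at h3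
        obtain ⟨y, hy, hye⟩ := h3
        rwa [← e.injective hye]
      have hnpc := Cfsg.Lib.Transfer.tate PX ((sSup T).subgroupOf X) h1
      rw [Cfsg.Lib.Transfer.hasNormalPComplement_iff_pResidual] at hnpc
      have hJT : J0 ≤ sSup T := le_sSup hJ0
      let ι : J0 →* (sSup T).subgroupOf X :=
        (Subgroup.subgroupOfEquivOfLe hTX).symm.toMonoidHom.comp (Subgroup.inclusion hJT)
      haveI := Cfsg.Lib.Transfer.pResidual_normal (G := (sSup T).subgroupOf X) p
      have hJres : ι.range ≤ Cfsg.pResidual p ((sSup T).subgroupOf X) := by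
        set R := Cfsg.pResidual p ((sSup T).subgroupOf X)
        have hq : IsPGroup p ((sSup T).subgroupOf X ⧸ R) := Cfsg.Lib.Transfer.isPGroup_quotient_of_pResidual_le R le_rfl
        set ψ := (QuotientGroup.mk' R).comp ι
        haveI : Group.IsNilpotent ψ.range := (hq.to_subgroup ψ.range).isNilpotent
        have hperfJ : commutator J0 = ⊤ := by
          apply Subgroup.map_injective J0.subtype_injective
          rw [commutator_def, Subgroup.map_commutator, ← MonoidHom.range_eq_map, Subgroup.range_subtype]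
          exact Cfsg.Lib.Comp.component_perfect (hT J0 hJ0)
        have hr : commutator ψ.range = ⊤ := by
          rw [← Subgroup.map_top_of_surjective ψ.rangeRestrict ψ.rangeRestrict_surjective, ← hperfJ,
            commutator_def, commutator_def, Subgroup.map_commutator,
            Subgroup.map_top_of_surjective ψ.rangeRestrict ψ.rangeRestrict_surjective]
        rintro _ ⟨y, rfl⟩
        refine (QuotientGroup.eq_one_iff _).1 ?_
        by_contra hne
        haveI : Nontrivial ψ.range := ⟨⟨⟨_, y, rfl⟩, 1, fun e => hne (congrArg Subtype.val e)⟩⟩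
        exact (Group.IsSolvable.commutator_lt_top_of_nontrivial ψ.range).ne hr
      have hι : Function.Injective ι :=
        (Subgroup.subgroupOfEquivOfLe hTX).symm.injective.comp (Subgroup.inclusion_injective hJT)
      have hJcop : (Nat.card J0).Coprime p := by
        rw [Nat.card_congr (MonoidHom.ofInjective hι).toEquiv]
        exact Nat.Coprime.coprime_dvd_left (Subgroup.card_dvd_of_le hJres) hnpc
      have hJn : (J0.subgroupOf M).Normal := ⟨fun a ha b =>
        (Subgroup.mem_normalizer_iff.1 (Cfsg.Lib.Comp.layer_le_normalizer (hT J0 hJ0) (hMlayer b.2)) _).1 ha⟩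
      have hJM : J0 ≤ M := hcM J0 (hT J0 hJ0)
      have h5 : J0.subgroupOf M ≤ Cfsg.pPrimeCore p M := Cfsg.Lib.Transfer.le_pPrimeCore hJn (by
        rwa [Nat.card_congr (Subgroup.subgroupOfEquivOfLe hJM).toEquiv])
      haveI : (Cfsg.pPrimeCore p M).Characteristic := Cfsg.Lib.Solv.pPrimeCore_characteristic p
      have h6 : (Cfsg.pPrimeCore p M).map M.subtype = ⊥ :=
        le_bot_iff.1 (hcore ▸ Cfsg.Lib.Transfer.le_pPrimeCore ConjAct.normal_of_characteristic_of_normal (by
          rw [Subgroup.card_map_of_injective M.subtype_injective]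
          exact Cfsg.Lib.Transfer.coprime_card_pPrimeCore p))
      refine Cfsg.Lib.Comp.component_ne_bot (hT J0 hJ0) (le_bot_iff.1 (h6 ▸ fun z hz => ?_))
      exact ⟨⟨z, hJM hz⟩, h5 hz, rfl⟩
    have hKO : K ∈ O := ⟨1, one_mem _, (hone K).symm⟩
    have hLO : L ∈ O' := ⟨hL, fun ⟨x, hx, hxe⟩ => hno x hx hxe⟩
    obtain ⟨hn1, hf1⟩ := hmeet' O hOc hOst K hKO
    obtain ⟨hn2, hf2⟩ := hmeet' O' (fun J hJ => hJ.1) hO'st L hLO
    refine hna ⟨⟨key hPp hgen _ _ hf1 hf2 ?_⟩⟩
    rw [Subgroup.eq_bot_iff_forall]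
    rintro x ⟨hx1, hx2⟩
    have h7 : sSup O' ≤ Subgroup.centralizer ((sSup O : Subgroup G) : Set G) := by
      refine sSup_le fun J hJ => ?_
      rw [Subgroup.le_centralizer_iff]
      refine sSup_le fun J' hJ' => ?_
      exact Subgroup.commutator_eq_bot_iff_le_centralizer.1
        (Cfsg.Lib.Comp.component_commute (hOc J' hJ') hJ.1 fun e => hJ.2 (e ▸ hJ'))
    have hxM : (x : G) ∈ M := (sSup_le fun J hJ => hcM J (hOc J hJ) : sSup O ≤ M) hx1
    have hxc : (⟨(x : G), hxM⟩ : M) ∈ Subgroup.center M := by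
      refine Subgroup.mem_center_iff.2 fun m => Subtype.ext ?_
      show (m : G) * x = x * m
      have hgen : Cfsg.layer G ≤ Subgroup.centralizer ({(x : G)} : Set G) := by
        refine Cfsg.Lib.Comp.layer_le_iff.2 fun J hJ z hz => Subgroup.mem_centralizer_singleton_iff.2 ?_
        by_cases hJO : J ∈ O
        · exact Subgroup.mem_centralizer_iff.1 (h7 hx2) z (le_sSup hJO hz)
        · exact (Subgroup.mem_centralizer_iff.1 (h7 (le_sSup (show J ∈ O' from ⟨hJ, hJO⟩) hz)) _ hx1).symm
      exact Subgroup.mem_centralizer_singleton_iff.1 (hgen (hMlayer m.2))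
    rw [hZM, Subgroup.mem_bot] at hxc
    exact Subtype.ext (by simpa using congrArg Subtype.val hxc)

end Cfsg.Agent.S4172
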