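import Cfsg.Statements.S4176
import Cfsg.Agent.Lib.Transfer.Frobenius
import Cfsg.Agent.Lib.Solv.Systems

set_option autoImplicit false
open Cfsg
open scoped Pointwise commutatorElement

namespace Cfsg.Agent.S4176

noncomputable section
open scoped Classical
variable {k V H : Type*} [Field k] [AddCommGroup V] [Module k V] [Group H] [Finite H] (ρ : Representation k H V)

attribute [local instance] Fintype.ofFinite

def St (x : V) : Subgroup H where
  carrier := {h | ρ h x = x}
  one_mem' := by simp
  mul_mem' := fun {a b} ha hb => by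
    show ρ (a * b) x = x
    rw [map_mul, Module.End.mul_apply, show ρ b x = x from hb, show ρ a x = x from ha]
  inv_mem' := fun {a} ha => by
    show ρ a⁻¹ x = x
    conv_lhs => rw [← (show ρ a x = x from ha)]
    rw [← Module.End.mul_apply, ← map_mul, inv_mul_cancel, map_one, Module.End.one_apply]

theorem mem_St {x : V} {h : H} : h ∈ St ρ x ↔ ρ h x = x := Iff.rfl

theorem card_orbit (x : V) : Nat.card {u : V | ∃ h : H, ρ h x = u} = (St ρ x).index := by
  rw [Subgroup.index_eq_card]
  let f : H ⧸ St ρ x → {u : V | ∃ h : H, ρ h x = u} := Quotient.lift (fun h => ⟨ρ h x, h, rfl⟩) fun a b hab => by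
    replace hab : a⁻¹ * b ∈ St ρ x := QuotientGroup.leftRel_apply.1 hab
    refine Subtype.ext ?_
    show ρ a x = ρ b x
    conv_lhs => rw [← (show ρ (a⁻¹ * b) x = x from hab)]
    rw [← Module.End.mul_apply, ← map_mul, mul_inv_cancel_left]
  refine (Nat.card_congr (Equiv.ofBijective f ⟨?_, ?_⟩)).symm
  · intro a b
    induction a using Quotient.inductionOn
    induction b using Quotient.inductionOn
    rename_i a b
    intro h
    refine Quotient.sound (QuotientGroup.leftRel_apply.2 ?_)
    show ρ (a⁻¹ * b) x = x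
    have h' : ρ a x = ρ b x := congrArg Subtype.val h
    rw [map_mul, Module.End.mul_apply, ← h', ← Module.End.mul_apply, ← map_mul, inv_mul_cancel, map_one,
      Module.End.one_apply]
  · rintro ⟨_, h, rfl⟩
    exact ⟨QuotientGroup.mk h, rfl⟩

/-- The transfer operator from `K` to `N`. -/
def T (K N : Subgroup H) : V →ₗ[k] V := ∑ q : N ⧸ K.subgroupOf N, ρ ((q.out : N) : H)

theorem rep {K N : Subgroup H} {x : V} (hx : ∀ y ∈ K, ρ y x = x) (n : N) :
    ρ (((QuotientGroup.mk n : N ⧸ K.subgroupOf N).out : N) : H) x = ρ (n : H) x := by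
  obtain ⟨m, hm⟩ := QuotientGroup.mk_out_eq_mul (K.subgroupOf N) n
  rw [hm, Subgroup.coe_mul, map_mul, Module.End.mul_apply, hx _ (Subgroup.mem_subgroupOf.1 m.2)]

theorem T_inv {K N : Subgroup H} {x : V} (hx : ∀ y ∈ K, ρ y x = x) {n : H} (hn : n ∈ N) :
    ρ n (T ρ K N x) = T ρ K N x := by
  rw [T, LinearMap.sum_apply, map_sum]
  refine Fintype.sum_equiv (MulAction.toPerm (⟨n, hn⟩ : N)) _ _ fun q => ?_
  have e : MulAction.toPerm (⟨n, hn⟩ : N) q = QuotientGroup.mk ((⟨n, hn⟩ : N) * q.out) := by
    conv_lhs => rw [← QuotientGroup.out_eq' q]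
    rfl
  rw [e, rep ρ hx, Subgroup.coe_mul, map_mul, Module.End.mul_apply]

theorem T_const {K N : Subgroup H} {x : V} (hx : ∀ y ∈ N, ρ y x = x) :
    T ρ K N x = ((K.relIndex N : ℕ) : k) • x := by
  rw [T, LinearMap.sum_apply, Finset.sum_congr rfl (fun q _ => hx _ (q.out : N).2), Finset.sum_const,
    Finset.card_univ, ← Nat.card_eq_fintype_card, Nat.cast_smul_eq_nsmul, ← Subgroup.index_eq_card]
  rfl

theorem T_conj {K N : Subgroup H} [hK : K.Normal] [hN : N.Normal] {x : V} (hx : ∀ y ∈ K, ρ y x = x) (h : H) :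
    ρ h (T ρ K N x) = T ρ K N (ρ h x) := by
  have hx' : ∀ y ∈ K, ρ y (ρ h x) = ρ h x := fun y hy => by
    rw [← Module.End.mul_apply, ← map_mul, show y * h = h * (h⁻¹ * y * h) by group, map_mul, Module.End.mul_apply,
      hx _ (hK.conj_mem' y hy h)]
  rw [T, LinearMap.sum_apply, map_sum, LinearMap.sum_apply]
  let φ : N ⧸ K.subgroupOf N → N ⧸ K.subgroupOf N := fun q =>
    QuotientGroup.mk (⟨h * ((q.out : N) : H) * h⁻¹, hN.conj_mem _ (q.out : N).2 h⟩ : N)
  have hφ : Function.Injective φ := fun a b hab => by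
    have h1 := QuotientGroup.eq.1 hab
    rw [Subgroup.mem_subgroupOf] at h1
    have h2 := hK.conj_mem' _ h1 h
    rw [← QuotientGroup.out_eq' a, ← QuotientGroup.out_eq' b]
    refine QuotientGroup.eq.2 (Subgroup.mem_subgroupOf.2 ?_)
    convert h2 using 1
    simp only [Subgroup.coe_mul, Subgroup.coe_inv]
    group
  refine Fintype.sum_bijective φ (Finite.injective_iff_bijective.1 hφ) _ _ fun q => ?_
  rw [rep ρ hx']
  show ρ h (ρ _ x) = ρ (h * _ * h⁻¹) (ρ h x)
  rw [← Module.End.mul_apply, ← map_mul, ← Module.End.mul_apply, ← map_mul, inv_mul_cancel_right]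

theorem T_right {K D : Subgroup H} [hK : K.Normal] {x : V} (hx : ∀ y ∈ K, ρ y x = x) {y : H} (hy : y ∈ D) :
    T ρ K D (ρ y x) = T ρ K D x := by
  rw [T, LinearMap.sum_apply, LinearMap.sum_apply]
  let φ : D ⧸ K.subgroupOf D → D ⧸ K.subgroupOf D := fun q => QuotientGroup.mk (q.out * ⟨y, hy⟩)
  have hφ : Function.Injective φ := fun u v huv => by
    have h5 := Subgroup.mem_subgroupOf.1 (QuotientGroup.eq.1 huv)
    rw [← QuotientGroup.out_eq' u, ← QuotientGroup.out_eq' v]
    refine QuotientGroup.eq.2 (Subgroup.mem_subgroupOf.2 ?_)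
    have h6 := hK.conj_mem _ h5 y
    convert h6 using 1
    simp only [Subgroup.coe_mul, Subgroup.coe_inv]
    group
  refine Fintype.sum_bijective φ (Finite.injective_iff_bijective.1 hφ) _ _ fun q => ?_
  rw [rep ρ hx, Subgroup.coe_mul, map_mul, Module.End.mul_apply]

theorem comp_T {K N : Subgroup H} {g : V →ₗ[k] k} {d : V} (h : ∀ y ∈ N, g (ρ y d) = g d) :
    g (T ρ K N d) = ((K.relIndex N : ℕ) : k) * g d := by
  rw [T, LinearMap.sum_apply, map_sum, Finset.sum_congr rfl (fun q _ => h _ (q.out : N).2),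
    Finset.sum_const, Finset.card_univ, ← Nat.card_eq_fintype_card, nsmul_eq_mul, ← Subgroup.index_eq_card]
  rfl

end


/-- Let k be a field of prime characteristic p, H a finite p-soluble group and ρ a k-linear representation of H on V. Let a be a vector that is fixed by some Sylow p-subgroup of H and whose H-orbit spans V. Then the space of H-fixed vectors has dimension at most 1, and every vector b whose H-orbit has size coprime to the size of the orbit of a is fixed by H. -/
theorem result {k V H : Type*} [Field k] (p : ℕ) [Fact p.Prime] [CharP k p] [AddCommGroup V] [Module k V]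
    [Group H] [Finite H] (hsol : Cfsg.IsPSolvable p H) (ρ : Representation k H V) (a : V)
    (hfix : ∃ P : Sylow p H, ∀ x : H, x ∈ (P : Subgroup H) → ρ x a = a)
    (hspan : Submodule.span k {u : V | ∃ h : H, ρ h a = u} = ⊤) :
    Module.finrank k ρ.invariants ≤ 1 ∧
    ∀ b : V, (Nat.card {u : V | ∃ h : H, ρ h a = u}).Coprime (Nat.card {u : V | ∃ h : H, ρ h b = u}) → ∀ h : H, ρ h b = b := by
  classical
  obtain ⟨P, hP⟩ := hfix
  obtain ⟨n, F, h0, hn, hmono, hnorm, hfac⟩ := hsol
  have hPle : (P : Subgroup H) ≤ St ρ a := hP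
  suffices key : ∀ i : Fin (n + 1), ∃ ai : V, (∀ y ∈ F i, ρ y ai = ai) ∧ St ρ a ≤ St ρ ai ∧
      (∀ w : V, (∀ y ∈ F i, ρ y w = w) → w ∈ Submodule.span k {u : V | ∃ h : H, ρ h ai = u}) ∧
      (∀ b : V, (St ρ a).index.Coprime (St ρ b).index → ∀ y ∈ F i, ρ y b = b) by
    obtain ⟨an, h1, -, h3, h4⟩ := key (Fin.last n)
    rw [hn] at h1 h3 h4
    refine ⟨?_, fun b hb h => h4 b (by rwa [← card_orbit, ← card_orbit]) h (Subgroup.mem_top h)⟩
    have hle : ρ.invariants ≤ Submodule.span k ({an} : Set V) := fun w hw => by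
      refine Submodule.span_mono ?_ (h3 w fun y _ => hw y)
      rintro _ ⟨h, rfl⟩
      exact h1 h (Subgroup.mem_top h)
    exact (Submodule.finrank_mono hle).trans ((finrank_span_le_card ({an} : Set V)).trans (by simp))
  intro i
  induction i using Fin.induction with
  | zero =>
    rw [h0]
    refine ⟨a, fun y hy => ?_, le_rfl, fun w _ => hspan ▸ Submodule.mem_top, fun b _ y hy => ?_⟩ <;>
      (rw [Subgroup.mem_bot.1 hy]; simp)
  | succ i ih =>
    obtain ⟨ai, h1, h2, h3, h4⟩ := ih
    set K := F i.castSucc with hK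
    set N := F i.succ with hN
    haveI hKn : K.Normal := hnorm _
    haveI hNn : N.Normal := hnorm _
    have hKN : K ≤ N := hmono Fin.castSucc_lt_succ.le
    by_cases hp : p ∣ K.relIndex N
    · -- a `p`-factor: `N` acts trivially on the fixed points of `K`
      obtain ⟨m, hm⟩ := (hfac i).resolve_right fun hc =>
        (Fact.out : p.Prime).ne_one (Nat.eq_one_of_dvd_coprimes hc hp dvd_rfl)
      have hNle : N ≤ (P : Subgroup H) ⊔ K := by
        rw [← Subgroup.relIndex_eq_one]
        refine Nat.eq_one_of_dvd_coprimes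
          (Nat.Coprime.pow_right m (((Fact.out : p.Prime).coprime_iff_not_dvd.2 P.not_dvd_index).symm))
          ((Cfsg.Lib.Transfer.relIndex_dvd_index_of_normal_right _ _).trans (Subgroup.index_dvd_of_le le_sup_left))
          (hm ▸ Subgroup.relIndex_dvd_of_le_left N le_sup_right)
      have hfixai : ∀ y ∈ N, ρ y ai = ai := fun y hy =>
        (sup_le (hPle.trans h2) (fun z hz => h1 z hz) : (P : Subgroup H) ⊔ K ≤ St ρ ai) (hNle hy)
      have hall : ∀ w : V, (∀ y ∈ K, ρ y w = w) → ∀ y ∈ N, ρ y w = w := by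
        intro w hw y hy
        have hsub : Submodule.span k {u : V | ∃ h : H, ρ h ai = u} ≤
            LinearMap.ker (ρ y - LinearMap.id) := by
          rw [Submodule.span_le]
          rintro _ ⟨h, rfl⟩
          rw [SetLike.mem_coe, LinearMap.mem_ker, LinearMap.sub_apply, LinearMap.id_apply, sub_eq_zero,
            ← Module.End.mul_apply, ← map_mul, show y * h = h * (h⁻¹ * y * h) by group, map_mul,
            Module.End.mul_apply, hfixai _ (hNn.conj_mem' y hy h)]
        exact sub_eq_zero.1 (LinearMap.mem_ker.1 (hsub (h3 w hw)))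
      exact ⟨ai, hfixai, h2, fun w hw => h3 w fun y hy => hw y (hKN hy), fun b hb => hall b (h4 b hb)⟩
    · -- a `p'`-factor
      obtain ⟨c, hc⟩ : ∃ c : k, c = ((K.relIndex N : ℕ) : k) := ⟨_, rfl⟩
      have hc0 : c ≠ 0 := fun e => hp ((CharP.cast_eq_zero_iff k p _).1 (hc ▸ e))
      have hTfix : ∀ x : V, (∀ y ∈ K, ρ y x = x) → ∀ y ∈ N, ρ y (c⁻¹ • T ρ K N x) = c⁻¹ • T ρ K N x :=
        fun x hx y hy => by rw [map_smul, T_inv ρ hx hy]
      refine ⟨c⁻¹ • T ρ K N ai, hTfix ai h1, fun h hh => ?_, fun w hw => ?_, fun b hb => ?_⟩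
      · show ρ h (c⁻¹ • T ρ K N ai) = c⁻¹ • T ρ K N ai
        rw [map_smul, T_conj ρ h1 h, show ρ h ai = ai from h2 hh]
      · have hsub : Submodule.span k {u : V | ∃ h : H, ρ h ai = u} ≤
            (Submodule.span k {u : V | ∃ h : H, ρ h (c⁻¹ • T ρ K N ai) = u}).comap (c⁻¹ • T ρ K N) := by
          rw [Submodule.span_le]
          rintro _ ⟨h, rfl⟩
          refine Submodule.subset_span ⟨h, ?_⟩
          rw [LinearMap.smul_apply, map_smul, T_conj ρ h1 h]
        have := hsub (h3 w fun y hy => hw y (hKN hy))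
        rwa [Submodule.mem_comap, LinearMap.smul_apply, T_const ρ hw, ← hc, smul_smul, inv_mul_cancel₀ hc0,
          one_smul] at this
      · have hbK := h4 b hb
        set d := b - c⁻¹ • T ρ K N b with hd
        have hdK : ∀ y ∈ K, ρ y d = d := fun y hy => by
          rw [hd, map_sub, hbK y hy, hTfix b hbK y (hKN hy)]
        have hTd : T ρ K N d = 0 := by
          rw [hd, map_sub, map_smul, T_const ρ (fun y hy => T_inv ρ hbK hy), ← hc, smul_smul,
            inv_mul_cancel₀ hc0, one_smul, sub_self]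
        suffices hd0 : d = 0 by
          intro y hy
          have e : b = c⁻¹ • T ρ K N b := sub_eq_zero.1 hd0
          rw [e]; exact hTfix b hbK y hy
        by_contra hd0
        obtain ⟨f, hf⟩ : ∃ f : V →ₗ[k] k, f d ≠ 0 := by
          by_contra hh
          push Not at hh
          exact hd0 ((Module.forall_dual_apply_eq_zero_iff k d).1 hh)
        set D := N ⊓ St ρ d with hD
        have hKD : K ≤ D := fun y hy => ⟨hKN hy, hdK y hy⟩
        have hcD : ((K.relIndex D : ℕ) : k) ≠ 0 := fun e => hp
          (((CharP.cast_eq_zero_iff k p _).1 e).trans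
            (Dvd.intro _ (Subgroup.relIndex_mul_relIndex K D N hKD inf_le_left)))
        set g : V →ₗ[k] k := f ∘ₗ T ρ K D with hg
        have hgd : g d ≠ 0 := by
          rw [hg, LinearMap.comp_apply, T_const ρ (fun y (hy : y ∈ D) => hy.2), map_smul, smul_eq_mul]
          exact mul_ne_zero hcD hf
        have hgD : ∀ x : V, (∀ y ∈ K, ρ y x = x) → ∀ y ∈ D, g (ρ y x) = g x := fun x hx y hy => by
          rw [hg, LinearMap.comp_apply, LinearMap.comp_apply, T_right ρ hx hy]
        -- `g` is invariant under `N` on the fixed points of `K`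
        have hstd : St ρ b ≤ St ρ d := fun h hh => by
          show ρ h d = d
          rw [hd, map_sub, map_smul, T_conj ρ hbK h, show ρ h b = b from hh]
        have hgN : ∀ x : V, (∀ y ∈ K, ρ y x = x) → ∀ y ∈ N, g (ρ y x) = g x := by
          intro x hx y hy
          have hsub : Submodule.span k {u : V | ∃ h : H, ρ h ai = u} ≤ LinearMap.ker (g ∘ₗ ρ y - g) := by
            rw [Submodule.span_le]
            rintro _ ⟨h, rfl⟩
            rw [SetLike.mem_coe, LinearMap.mem_ker, LinearMap.sub_apply, LinearMap.comp_apply, sub_eq_zero]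
            have hxh : ∀ z ∈ K, ρ z (ρ h ai) = ρ h ai := fun z hz => by
              rw [← Module.End.mul_apply, ← map_mul, show z * h = h * (h⁻¹ * z * h) by group, map_mul,
                Module.End.mul_apply, h1 _ (hKn.conj_mem' z hz h)]
            -- factor `N` by the two stabilizers
            have hcop : (((St ρ d).subgroupOf N).index).Coprime (((St ρ (ρ h ai)).subgroupOf N).index) := by
              refine Nat.Coprime.coprime_dvd_left ((Cfsg.Lib.Transfer.relIndex_dvd_index_of_normal_right
                (St ρ d) N).trans (Subgroup.index_dvd_of_le hstd)) ?_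
              refine Nat.Coprime.coprime_dvd_right ((Cfsg.Lib.Transfer.relIndex_dvd_index_of_normal_right
                (St ρ (ρ h ai)) N).trans ?_) hb.symm
              have e1 : (St ρ a).map (MulAut.conj h).toMonoidHom ≤ St ρ (ρ h ai) := by
                rintro _ ⟨z, hz, rfl⟩
                show ρ (h * z * h⁻¹) (ρ h ai) = ρ h ai
                rw [← Module.End.mul_apply, ← map_mul, inv_mul_cancel_right, map_mul, Module.End.mul_apply,
                  show ρ z ai = ai from h2 hz]
              have e2 := Subgroup.index_dvd_of_le e1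
              rw [Subgroup.index_map_of_bijective (MulAut.conj h).bijective] at e2
              exact e2
            obtain ⟨d', hd', c', hc', e⟩ := Cfsg.Lib.Solv.exists_mul_of_coprime_index hcop ⟨y, hy⟩
            rw [show y = (d' : H) * (c' : H) from congrArg Subtype.val e, map_mul, Module.End.mul_apply,
              show ρ (c' : H) (ρ h ai) = ρ h ai from Subgroup.mem_subgroupOf.1 hc',
              hgD _ hxh _ ⟨d'.2, Subgroup.mem_subgroupOf.1 hd'⟩]
          have := LinearMap.mem_ker.1 (hsub (h3 x hx))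
          rwa [LinearMap.sub_apply, LinearMap.comp_apply, sub_eq_zero] at this
        refine hc0 ?_
        have h9 := comp_T ρ (K := K) (fun y hy => hgN d hdK y hy)
        rw [hTd, map_zero, ← hc] at h9
        exact (mul_eq_zero.1 h9.symm).resolve_right hgd

end Cfsg.Agent.S4176
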