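import Cfsg.Statements.S4177
import Mathlib
-- import your own Cfsg.Agent.* helpers here

set_option autoImplicit false
open Cfsg

namespace Cfsg.Agent.S4177

theorem prod_of_coprime_index {H : Type*} [Group H] [Finite H] (A B : Subgroup H)
    (h : A.index.Coprime B.index) (g : H) : ∃ b ∈ B, b⁻¹ * g ∈ A := by
  have h1 : (A ⊓ B).index = A.relIndex B * B.index := by
    rw [← Subgroup.inf_relIndex_right, Subgroup.relIndex_mul_index inf_le_right]
  have h2 : A.index ∣ A.relIndex B * B.index := h1 ▸ Subgroup.index_dvd_of_le inf_le_left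
  have h3 : A.index ∣ A.relIndex B := h.dvd_of_dvd_mul_right h2
  let f : B ⧸ A.subgroupOf B → H ⧸ A := Quotient.map' (fun b => (b : H)) (fun x y hxy => by
    rw [QuotientGroup.leftRel_apply] at hxy ⊢
    exact hxy)
  have hf : Function.Injective f := by
    intro x y
    induction x using QuotientGroup.induction_on
    induction y using QuotientGroup.induction_on
    intro e
    exact QuotientGroup.eq.2 (QuotientGroup.eq (s := A) |>.1 e)
  have hcard : Nat.card (H ⧸ A) ≤ Nat.card (B ⧸ A.subgroupOf B) :=
    Nat.le_of_dvd Nat.card_pos h3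
  obtain ⟨x, hx⟩ := (hf.bijective_of_nat_card_le hcard).2 (g : H ⧸ A)
  induction x using QuotientGroup.induction_on with
  | H b => exact ⟨b, b.2, QuotientGroup.eq.1 hx⟩

/-- Let k be a field whose characteristic does not divide the order of the finite group H (for instance a field of characteristic zero), and ρ a k-linear representation of H on V. Let a be a vector whose H-orbit spans V. Then the space of H-fixed vectors has dimension at most 1, and every vector b whose H-orbit has size coprime to the size of the orbit of a is fixed by H. -/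
theorem result {k V H : Type*} [Field k] [AddCommGroup V] [Module k V] [Group H] [Finite H]
    (hchar : ¬ ringChar k ∣ Nat.card H) (ρ : Representation k H V) (a : V)
    (hspan : Submodule.span k {u : V | ∃ h : H, ρ h a = u} = ⊤) :
    Module.finrank k ρ.invariants ≤ 1 ∧
    ∀ b : V, (Nat.card {u : V | ∃ h : H, ρ h a = u}).Coprime (Nat.card {u : V | ∃ h : H, ρ h b = u}) → ∀ h : H, ρ h b = b := by
  classical
  have : Fintype H := Fintype.ofFinite H
  have hcard : ∀ K : Subgroup H, (Nat.card K : k) ≠ 0 := fun K h =>
    hchar (((ringChar.spec k _).1 h).trans K.card_subgroup_dvd_card)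
  have hH : (Nat.card H : k) ≠ 0 := fun h => hchar ((ringChar.spec k _).1 h)
  set Ω := {u : V | ∃ h : H, ρ h a = u} with hΩ
  have hfinΩ : Ω.Finite := by
    rw [show Ω = Set.range (fun h => ρ h a) from Set.ext fun u => Iff.rfl]
    exact Set.finite_range _
  refine ⟨?_, ?_⟩
  · let π : V →ₗ[k] V := (Nat.card H : k)⁻¹ • ∑ h, ρ h
    have hπ : ∀ g : H, π (ρ g a) = π a := by
      intro g
      simp only [π, LinearMap.smul_apply, LinearMap.sum_apply]
      congr 1
      exact Fintype.sum_equiv (Equiv.mulRight g) _ _ (fun h => by simp [Module.End.mul_apply])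
    have hle : ρ.invariants ≤ Submodule.span k {π a} := by
      intro v hv
      have hv' : π v = v := by
        simp only [π, LinearMap.smul_apply, LinearMap.sum_apply]
        rw [Finset.sum_congr rfl (fun h _ => (Representation.mem_invariants ρ v).1 hv h), Finset.sum_const, Finset.card_univ,
          ← Nat.card_eq_fintype_card, ← Nat.cast_smul_eq_nsmul k, smul_smul, inv_mul_cancel₀ hH, one_smul]
      rw [← hv']
      have : v ∈ Submodule.span k Ω := by rw [hspan]; trivial
      refine Submodule.span_induction (p := fun x _ => π x ∈ Submodule.span k {π a}) ?_ (by simp) (fun x y _ _ hx hy => by rw [map_add]; exact add_mem hx hy)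
        (fun c x _ hx => by rw [map_smul]; exact Submodule.smul_mem _ c hx) this
      rintro x ⟨g, rfl⟩
      rw [hπ]
      exact Submodule.mem_span_singleton_self _
    refine (Submodule.finrank_mono hle).trans ?_
    exact (finrank_span_le_card _).trans (by simp)
  · intro b hb
    let _ : MulAction H V :=
      { smul := fun h v => ρ h v
        one_smul := fun v => by show ρ 1 v = v; simp
        mul_smul := fun g h v => by show ρ (g * h) v = ρ g (ρ h v); simp [Module.End.mul_apply] }
    set A := MulAction.stabilizer H a
    set B := MulAction.stabilizer H b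
    have hidx : A.index.Coprime B.index := by
      rw [MulAction.index_stabilizer, MulAction.index_stabilizer]
      exact hb
    have htr : ∀ g : H, ∃ y ∈ B, ρ y a = ρ g a := by
      intro g
      obtain ⟨y, hy, hy'⟩ := prod_of_coprime_index A B hidx g
      refine ⟨y, hy, ?_⟩
      have h' : ρ (y⁻¹ * g) a = a := hy'
      conv_lhs => rw [← h']
      simp [← Module.End.mul_apply, ← map_mul]
    obtain ⟨c, hc⟩ : ∃ c : k, b = c • ∑ u ∈ hfinΩ.toFinset, u := by
      have hbs : b ∈ Submodule.span k (id '' (hfinΩ.toFinset : Set V)) := by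
        rw [Set.image_id, Set.Finite.coe_toFinset, hspan]; trivial
      obtain ⟨f, hf⟩ := Submodule.mem_span_image_finset_iff_exists_fun' k |>.1 hbs
      haveI : Fintype B := Fintype.ofFinite B
      let f' : V → k := fun u => ∑ y : B, f (ρ (y : H)⁻¹ u)
      have hinv : ∀ (y : B) (u : V), f' (ρ (y : H) u) = f' u := by
        intro y u
        refine Fintype.sum_equiv (Equiv.mulLeft y⁻¹) _ _ (fun z => ?_)
        have e : ρ (((y⁻¹ * z : B) : H))⁻¹ u = ρ (z : H)⁻¹ (ρ (y : H) u) := by
          simp [← Module.End.mul_apply, ← map_mul]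
        simp only [Equiv.coe_mulLeft, e]
      refine ⟨(Nat.card B : k)⁻¹ * f' a, ?_⟩
      have hsum : ∑ u ∈ hfinΩ.toFinset, f' u • u = (Nat.card B : k) • b := by
        simp only [f', Finset.sum_smul]
        rw [Finset.sum_comm]
        rw [Finset.sum_congr rfl (g := fun _ : B => b), Finset.sum_const, Finset.card_univ, ← Nat.card_eq_fintype_card,
          ← Nat.cast_smul_eq_nsmul k]
        intro y _
        have hmem : ∀ (x : H) (u : V), u ∈ hfinΩ.toFinset → ρ x u ∈ hfinΩ.toFinset := by
          intro x u hu
          rw [Set.Finite.mem_toFinset] at hu ⊢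
          obtain ⟨g, rfl⟩ := hu
          exact ⟨x * g, by simp [Module.End.mul_apply]⟩
        have hyb : ρ (y : H) b = b := y.2
        conv_rhs => rw [← hyb, ← hf, map_sum]
        refine Finset.sum_bij' (fun u _ => ρ (y : H)⁻¹ u) (fun u _ => ρ (y : H) u) ?_ ?_ ?_ ?_ ?_
        · intro u hu; exact hmem _ _ hu
        · intro u hu; exact hmem _ _ hu
        · intro u hu; simp [← Module.End.mul_apply, ← map_mul]
        · intro u hu; simp [← Module.End.mul_apply, ← map_mul]
        · intro u hu
          rw [map_smul]
          congr 1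
          simp [← Module.End.mul_apply, ← map_mul]
      have hconst : ∀ u ∈ hfinΩ.toFinset, f' u = f' a := by
        intro u hu
        rw [Set.Finite.mem_toFinset] at hu
        obtain ⟨g, rfl⟩ := hu
        obtain ⟨y, hy, e⟩ := htr g
        rw [← e]
        exact hinv ⟨y, hy⟩ a
      rw [Finset.sum_congr rfl (fun u hu => by rw [hconst u hu] : ∀ u ∈ hfinΩ.toFinset, f' u • u = f' a • u), ← Finset.smul_sum] at hsum
      rw [mul_smul, hsum, smul_smul, inv_mul_cancel₀ (hcard B), one_smul]
    intro h
    rw [hc, map_smul, map_sum]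
    congr 1
    refine Finset.sum_bij' (fun u _ => ρ h u) (fun u _ => ρ h⁻¹ u) ?_ ?_ ?_ ?_ (fun u _ => rfl)
    · intro u hu
      rw [Set.Finite.mem_toFinset] at hu ⊢
      obtain ⟨g, rfl⟩ := hu
      exact ⟨h * g, by simp [Module.End.mul_apply]⟩
    · intro u hu
      rw [Set.Finite.mem_toFinset] at hu ⊢
      obtain ⟨g, rfl⟩ := hu
      exact ⟨h⁻¹ * g, by simp [Module.End.mul_apply]⟩
    · intro u _; simp [← Module.End.mul_apply, ← map_mul]
    · intro u _; simp [← Module.End.mul_apply, ← map_mul]

end Cfsg.Agent.S4177
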