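import Cfsg.Statements.S4178
import Mathlib
-- import your own Cfsg.Agent.* helpers here

set_option autoImplicit false
open Cfsg

namespace Cfsg.Agent.S4178

/-- Let F be a finite field with q elements, V a non-zero finite-dimensional F-space of dimension d, H a group of invertible linear maps of V, and R the subgroup of H generated by the elements of H that fix some non-zero vector (have eigenvalue 1). Then the index of R in H is at most q^d − 1; and if H leaves invariant some proper non-zero subspace, the index is at most q^(d/2) − 1. -/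
theorem result {F V : Type*} [Field F] [Fintype F] [AddCommGroup V] [Module F V] [FiniteDimensional F V] [Nontrivial V]
    (H : Subgroup (V ≃ₗ[F] V)) :
    (Subgroup.closure {h : ↥H | ∃ v : V, v ≠ 0 ∧ (h : V ≃ₗ[F] V) v = v}).index ≤ Fintype.card F ^ Module.finrank F V - 1 ∧
    ((∃ W : Submodule F V, W ≠ ⊥ ∧ W ≠ ⊤ ∧ ∀ h ∈ H, ∀ w ∈ W, h w ∈ W) →
      ((Subgroup.closure {h : ↥H | ∃ v : V, v ≠ 0 ∧ (h : V ≃ₗ[F] V) v = v}).index : ℝ) ≤ Real.sqrt ((Fintype.card F : ℝ) ^ Module.finrank F V) - 1) := by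
  classical
  haveI : Finite V := Module.finite_of_finite F
  haveI : Finite H := Finite.of_injective (fun h : H => ((h : V ≃ₗ[F] V) : V → V)) fun a b h => by
    apply Subtype.ext
    exact LinearEquiv.ext fun v => congrFun h v
  set S := {h : ↥H | ∃ v : V, v ≠ 0 ∧ (h : V ≃ₗ[F] V) v = v}
  set R := Subgroup.closure S
  -- a nonzero invariant piece bounds the index
  have hbound : ∀ (X : Type _) [Finite X] (z : X) (f : H → X), (∀ h, f h ≠ z) →
      (∀ a b, f a = f b → a⁻¹ * b ∈ S) → R.index + 1 ≤ Nat.card X := by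
    intro X _ z f hz hf
    have h1 : R.index ≤ Nat.card {x : X // x ≠ z} :=
      Nat.card_le_card_of_injective (fun q : H ⧸ R => (⟨f q.out, hz _⟩ : {x : X // x ≠ z})) fun u v huv => by
        rw [← Quotient.out_eq u, ← Quotient.out_eq v]
        exact QuotientGroup.eq.2 (Subgroup.subset_closure (hf _ _ (congrArg Subtype.val huv)))
    have h2 := Finite.card_subtype_lt (p := fun x : X => x ≠ z) (x := z) (fun h => h rfl)
    omega
  refine ⟨?_, ?_⟩
  · obtain ⟨v, hv⟩ := exists_ne (0 : V)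
    have := hbound V 0 (fun h => (h : V ≃ₗ[F] V) v) (fun h e => hv ((h : V ≃ₗ[F] V).map_eq_zero_iff.1 e))
      (fun a b e => ⟨v, hv, by
        show (a : V ≃ₗ[F] V)⁻¹ ((b : V ≃ₗ[F] V) v) = v
        rw [← e]; exact (a : V ≃ₗ[F] V).symm_apply_apply v⟩)
    rw [Module.natCard_eq_pow_finrank (K := F) (V := V), Nat.card_eq_fintype_card (α := F)] at this
    omega
  · rintro ⟨W, hW0, hW1, hinv⟩
    haveI : Finite (V ⧸ W) := Finite.of_surjective _ (Submodule.mkQ_surjective W)
    obtain ⟨w, hwW, hw⟩ := (Submodule.ne_bot_iff W).1 hW0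
    have hA := hbound W 0 (fun h => ⟨(h : V ≃ₗ[F] V) w, hinv _ h.2 w hwW⟩)
      (fun h e => hw ((h : V ≃ₗ[F] V).map_eq_zero_iff.1 (congrArg Subtype.val e)))
      (fun a b e => ⟨w, hw, by
        show (a : V ≃ₗ[F] V)⁻¹ ((b : V ≃ₗ[F] V) w) = w
        rw [← show (a : V ≃ₗ[F] V) w = (b : V ≃ₗ[F] V) w from congrArg Subtype.val e]
        exact (a : V ≃ₗ[F] V).symm_apply_apply w⟩)
    obtain ⟨v, hv⟩ : ∃ v, v ∉ W := by
      by_contra h
      push Not at h
      exact hW1 (eq_top_iff.2 fun x _ => h x)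
    have hnz : ∀ h : H, Submodule.Quotient.mk (p := W) ((h : V ≃ₗ[F] V) v) ≠ 0 := fun h e => hv (by
      rw [Submodule.Quotient.mk_eq_zero] at e
      have := hinv _ (inv_mem h.2) _ e
      rwa [show (h : V ≃ₗ[F] V)⁻¹ ((h : V ≃ₗ[F] V) v) = v from (h : V ≃ₗ[F] V).symm_apply_apply v] at this)
    have hB := hbound (V ⧸ W) 0 (fun h => Submodule.Quotient.mk ((h : V ≃ₗ[F] V) v)) hnz fun a b e => by
      rw [Submodule.Quotient.eq] at e
      set g : V ≃ₗ[F] V := ((a⁻¹ * b : H) : V ≃ₗ[F] V) with hg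
      have hgm : g ∈ H := (a⁻¹ * b : H).2
      have hgv : g v - v ∈ W := by
        have h1 := hinv _ (inv_mem a.2) _ e
        rw [map_sub, show (a : V ≃ₗ[F] V)⁻¹ ((a : V ≃ₗ[F] V) v) = v from (a : V ≃ₗ[F] V).symm_apply_apply v,
          show (a : V ≃ₗ[F] V)⁻¹ ((b : V ≃ₗ[F] V) v) = g v from rfl] at h1
        rw [← neg_sub]; exact W.neg_mem h1
      let U := W ⊔ Submodule.span F {v}
      have hUg : ∀ u ∈ U, g u - u ∈ W := by
        intro u hu
        obtain ⟨x, hx, y, hy, rfl⟩ := Submodule.mem_sup.1 hu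
        obtain ⟨c, rfl⟩ := Submodule.mem_span_singleton.1 hy
        rw [map_add, map_smul, show g x + c • g v - (x + c • v) = (g x - x) + c • (g v - v) by rw [smul_sub]; abel]
        exact W.add_mem (W.sub_mem (hinv g hgm x hx) hx) (W.smul_mem c hgv)
      let f : U →ₗ[F] W := LinearMap.codRestrict W ((g.toLinearMap - LinearMap.id) ∘ₗ U.subtype) fun u => hUg u u.2
      have hlt : W < U := lt_of_le_of_ne le_sup_left fun e' => hv (e'.ge (Submodule.mem_sup_right (Submodule.mem_span_singleton_self v)))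
      have hni : ¬ Function.Injective f := fun hi => (Submodule.finrank_lt_finrank_of_lt hlt).not_ge (LinearMap.finrank_le_finrank_of_injective hi)
      rw [← LinearMap.ker_eq_bot] at hni
      obtain ⟨u, hu, hu0⟩ := (Submodule.ne_bot_iff _).1 hni
      exact ⟨(u : V), fun h => hu0 (Subtype.ext h), sub_eq_zero.1 (congrArg Subtype.val (LinearMap.mem_ker.1 hu))⟩
    rw [Module.natCard_eq_pow_finrank (K := F), Nat.card_eq_fintype_card (α := F)] at hA hB
    have hd := W.finrank_quotient_add_finrank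
    have hsq : (R.index + 1) ^ 2 ≤ Fintype.card F ^ Module.finrank F V := by
      rw [← hd, pow_add, sq]; exact Nat.mul_le_mul hB hA
    have h2 : ((R.index : ℝ) + 1) ≤ Real.sqrt ((Fintype.card F : ℝ) ^ Module.finrank F V) := by
      apply Real.le_sqrt_of_sq_le
      exact_mod_cast hsq
    linarith

end Cfsg.Agent.S4178
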