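import Cfsg.Statements.S4181
import Cfsg.Agent.Lib.Praeger.SylowFix

set_option autoImplicit false
open Cfsg

namespace Cfsg.Agent.S4181

open Cfsg.Agent.Praeger in
lemma pg_top {G : Type*} [Group G] (p : ℕ)
    (hgen : Subgroup.closure {g : G | ∃ k : ℕ, orderOf g = p ^ k} = ⊤) :
    pg p (⊤ : Subgroup G) = ⊤ := by
  refine eq_top_iff.2 (hgen.ge.trans ((Subgroup.closure_le _).2 ?_))
  exact fun x hx => mem_pg p (Subgroup.mem_top x) hx

open Cfsg.Agent.Praeger Classical in
lemma card_sylow_eq {G : Type*} [Group G] [Finite G] (p : ℕ) [Fact p.Prime]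
    (H : Subgroup G) (P : Sylow p G) (hP : (P : Subgroup G) ≤ H) :
    Nat.card (Sylow p ↥H) = sCount p H := by
  letI := Fintype.ofFinite (Sylow p G)
  rw [sCount, ← Nat.card_eq_finsetCard]
  refine (Nat.card_congr (Equiv.ofBijective
    (fun Q : {Q : Sylow p G // (Q : Subgroup G) ≤ H} => (Q.1.subtype Q.2)) ⟨?_, ?_⟩)).symm.trans
      (Nat.card_congr (Equiv.subtypeEquivRight fun Q => by simp))
  · rintro ⟨Q, hQ⟩ ⟨Q', hQ'⟩ h
    have h' := congrArg (fun S : Sylow p ↥H => (S : Subgroup ↥H).map H.subtype) h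
    simp only [Sylow.coe_subtype, Subgroup.subgroupOf_map_subtype, inf_eq_left.2 hQ,
      inf_eq_left.2 hQ'] at h'
    exact Subtype.ext (Sylow.ext h')
  · intro R
    obtain ⟨h, hh⟩ := MulAction.exists_smul_eq (↥H) (P.subtype hP) R
    have hle : ((MulAut.conj (h : G) • P : Sylow p G) : Subgroup G) ≤ H := cj_le_of_mem h.2 hP
    refine ⟨⟨_, hle⟩, ?_⟩
    rw [← hh, Sylow.smul_subtype]
    rfl

/-- Let p be a prime and G a finite group generated by its elements of p-power order, and let H be a proper subgroup of G containing a Sylow p-subgroup of G. Then 2p − 1 times the number of Sylow p-subgroups of H is at most p − 1 times the number of Sylow p-subgroups of G. -/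
theorem result {G : Type*} [Group G] [Finite G] (p : ℕ) [Fact p.Prime] (hgen : Subgroup.closure {g : G | ∃ k : ℕ, orderOf g = p ^ k} = ⊤)
    (H : Subgroup G) (hH : H ≠ ⊤) (P : Sylow p G) (hP : (P : Subgroup G) ≤ H) :
    (2 * p - 1) * Nat.card (Sylow p ↥H) ≤ (p - 1) * Nat.card (Sylow p G) := by
  have h := Cfsg.Agent.Praeger.sCount_le p (pg_top p hgen) le_top hH
  rw [← card_sylow_eq p H P hP, ← card_sylow_eq p ⊤ P le_top] at h
  have e : Nat.card (Sylow p ↥(⊤ : Subgroup G)) = Nat.card (Sylow p G) := by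
    rw [card_sylow_eq p ⊤ P le_top, Cfsg.Agent.Praeger.sCount, ← Nat.card_eq_finsetCard]
    exact Nat.card_congr ((Equiv.subtypeEquivRight fun Q => by simp).trans
      (Equiv.subtypeUnivEquiv fun _ => trivial))
  rwa [e] at h

end Cfsg.Agent.S4181
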