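import Cfsg.Statements.S4182
import Mathlib.GroupTheory.Sylow

set_option autoImplicit false
open Cfsg

namespace Cfsg.Agent.S4182

open Subgroup MulAction
open scoped Pointwise

variable {G : Type*} [Group G] [Finite G] {p : ℕ} [Fact p.Prime]

theorem two_le_p : 2 ≤ p := (Fact.out : p.Prime).two_le

/-- A nontrivial `p`-subgroup is not the union of at most `p` proper subgroups. -/
theorem pgroup_not_union {P : Subgroup G} (hP : IsPGroup p P) (S : Finset (Subgroup G))
    (hS : S.card ≤ p) (hcov : ∀ g ∈ P, ∃ K ∈ S, g ∈ K) : ∃ K ∈ S, P ≤ K := by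
  classical
  by_contra hc
  push Not at hc
  have := Fintype.ofFinite G
  obtain ⟨k, hk⟩ := hP.exists_card_eq
  have hsub : (Finset.univ.filter (fun g => g ∈ P ∧ g ≠ 1)) ⊆
      S.biUnion (fun K => Finset.univ.filter (fun g => g ∈ P ⊓ K ∧ g ≠ 1)) := by
    intro g hg
    simp only [Finset.mem_filter, Finset.mem_univ, true_and] at hg
    obtain ⟨K, hK, hgK⟩ := hcov g hg.1
    simp only [Finset.mem_biUnion, Finset.mem_filter, Finset.mem_univ, true_and]
    exact ⟨K, hK, ⟨hg.1, hgK⟩, hg.2⟩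
  have hcnt : ∀ H : Subgroup G,
      (Finset.univ.filter (fun g => g ∈ H ∧ g ≠ 1)).card = Nat.card H - 1 := by
    intro H
    have : Finset.univ.filter (fun g => g ∈ H ∧ g ≠ 1) =
        (Finset.univ.filter (fun g => g ∈ H)).erase 1 := by
      ext g; simp [and_comm]
    rw [this, Finset.card_erase_of_mem (by simp), Nat.card_eq_fintype_card,
      Fintype.card_subtype]
  have hlt : ∀ K ∈ S, Nat.card ↥(P ⊓ K) * p ≤ Nat.card P := by
    intro K hK
    have hd := card_dvd_of_le (inf_le_left : P ⊓ K ≤ P)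
    rw [hk] at hd
    obtain ⟨j, hj, hje⟩ := (Nat.dvd_prime_pow Fact.out).1 hd
    rw [hje, hk, ← pow_succ]
    refine Nat.pow_le_pow_right (Fact.out : p.Prime).pos ?_
    rcases eq_or_lt_of_le hj with h | h
    · exfalso
      refine hc K hK (inf_eq_left.1 (eq_of_le_of_card_ge inf_le_left ?_))
      rw [hje, hk, h]
    · omega
  obtain ⟨K₀, hK₀, -⟩ := hcov 1 P.one_mem
  have hp2 := two_le_p (p := p)
  have h1 := Finset.card_le_card hsub
  rw [hcnt] at h1
  have h2 := h1.trans Finset.card_biUnion_le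
  rw [Finset.sum_congr rfl (fun K _ => hcnt (P ⊓ K))] at h2
  have h3 : ∀ K ∈ S, Nat.card ↥(P ⊓ K) - 1 ≤ Nat.card P / p - 1 := fun K hK =>
    Nat.sub_le_sub_right ((Nat.le_div_iff_mul_le (Fact.out : p.Prime).pos).2 (hlt K hK)) 1
  have h4 := h2.trans ((Finset.sum_le_sum h3).trans_eq (Finset.sum_const _))
  rw [smul_eq_mul] at h4
  have hbig : 1 ≤ Nat.card P / p := by
    rw [Nat.le_div_iff_mul_le (Fact.out : p.Prime).pos]
    exact le_trans (Nat.mul_le_mul_right p Nat.card_pos) (hlt K₀ hK₀)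
  have h5 := h4.trans (Nat.mul_le_mul_right _ hS)
  rw [Nat.mul_sub_one] at h5
  have h6 := Nat.mul_div_le (Nat.card P) p
  have h7 : p ≤ p * (Nat.card P / p) := Nat.le_mul_of_pos_right p hbig
  omega

/-- A subgroup generated by its `p`-elements lies in one of `≤ p` subgroups covering them. -/
theorem cover_le {ι : Type*} [Fintype ι] (K : ι → Subgroup G) (hι : Fintype.card ι ≤ p)
    (n : ℕ) : ∀ H : Subgroup G, Nat.card H ≤ n →
      closure {g : G | g ∈ H ∧ ∃ k : ℕ, orderOf g = p ^ k} = H →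
      (∀ g ∈ H, (∃ k : ℕ, orderOf g = p ^ k) → ∃ i, g ∈ K i) → ∃ i, H ≤ K i := by
  classical
  induction n with
  | zero => intro H h; have := Nat.card_pos (α := H); omega
  | succ n ih =>
  intro H hn hgen hcov
  by_contra hc
  push Not at hc
  let E : ι → Subgroup G := fun i =>
    closure {g : G | g ∈ H ⊓ K i ∧ ∃ k : ℕ, orderOf g = p ^ k}
  have hEH : ∀ i, E i ≤ H := fun i => (closure_le _).2 fun g hg => hg.1.1
  have hEK : ∀ i, E i ≤ K i := fun i => (closure_le _).2 fun g hg => hg.1.2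
  have hEne : ∀ i, E i < H := fun i =>
    lt_of_le_of_ne (hEH i) fun h => hc i (h ▸ hEK i)
  have hmemE : ∀ i g, g ∈ H → g ∈ K i → (∃ k : ℕ, orderOf g = p ^ k) → g ∈ E i :=
    fun i g h1 h2 h3 => subset_closure ⟨⟨h1, h2⟩, h3⟩
  set S : Finset (Subgroup G) := Finset.univ.image E with hSdef
  set M : Finset (Subgroup G) := S.filter (fun A => ∀ B ∈ S, A ≤ B → A = B) with hMdef
  have hMcard : M.card ≤ p :=
    (Finset.card_filter_le _ _).trans (Finset.card_image_le.trans (by simpa using hι))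
  have habove : ∀ A ∈ S, ∃ B ∈ M, A ≤ B := by
    intro A hA
    obtain ⟨B, hAB, hB⟩ := Finset.exists_le_maximal S hA
    exact ⟨B, Finset.mem_filter.2 ⟨hB.1, fun C hC hBC => le_antisymm hBC (hB.2 hC hBC)⟩, hAB⟩
  have hMH : ∀ A ∈ M, A < H := by
    intro A hA
    obtain ⟨i, -, rfl⟩ := Finset.mem_image.1 (Finset.mem_filter.1 hA).1
    exact hEne i
  have hMcov : ∀ g ∈ H, (∃ k : ℕ, orderOf g = p ^ k) → ∃ A ∈ M, g ∈ A := by
    intro g hg hgp
    obtain ⟨i, hi⟩ := hcov g hg hgp
    obtain ⟨B, hB, hle⟩ := habove (E i) (Finset.mem_image_of_mem E (Finset.mem_univ i))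
    exact ⟨B, hB, hle (hmemE i g hg hi hgp)⟩
  -- conjugation by elements of `H` permutes `M`
  have hconjS : ∀ x ∈ H, ∀ A ∈ S, ∃ B ∈ M, MulAut.conj x • A ≤ B := by
    intro x hx A hA
    obtain ⟨i, -, rfl⟩ := Finset.mem_image.1 hA
    have hle : MulAut.conj x • E i ≤ H := by
      rintro _ ⟨a, ha, rfl⟩
      exact H.mul_mem (H.mul_mem hx (hEH i ha)) (H.inv_mem hx)
    have hpow : ∀ a : G, (∃ k : ℕ, orderOf a = p ^ k) →
        ∃ k : ℕ, orderOf (MulAut.conj x a) = p ^ k := fun a ⟨k, hk⟩ =>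
      ⟨k, by rw [MulEquiv.orderOf_eq, hk]⟩
    have hgen' : closure {g : G | g ∈ MulAut.conj x • E i ∧ ∃ k : ℕ, orderOf g = p ^ k}
        = MulAut.conj x • E i := by
      refine le_antisymm ((closure_le _).2 fun g hg => hg.1) ?_
      rintro _ ⟨a, ha, rfl⟩
      have : E i ≤ (closure {g : G | g ∈ MulAut.conj x • E i ∧ ∃ k : ℕ, orderOf g = p ^ k}).comap
          (MulAut.conj x).toMonoidHom :=
        (closure_le _).2 fun g hg => subset_closure
          ⟨Subgroup.smul_mem_pointwise_smul g (MulAut.conj x) (E i) (subset_closure hg),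
            hpow g hg.2⟩
      exact this ha
    have hcardlt : Nat.card ↥(MulAut.conj x • E i) ≤ n := by
      rw [← Nat.card_congr (Subgroup.equivSMul (MulAut.conj x) (E i)).toEquiv]
      have hlt : Nat.card (E i) < Nat.card H := by
        by_contra hh
        exact (hEne i).ne (eq_of_le_of_card_ge (hEH i) (not_lt.1 hh))
      omega
    obtain ⟨j, hj⟩ := ih _ hcardlt hgen' fun g hg hgp => hcov g (hle hg) hgp
    have hjE : MulAut.conj x • E i ≤ E j := by
      rw [← hgen']
      exact (closure_le _).2 fun g hg => hmemE j g (hle hg.1) (hj hg.1) hg.2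
    obtain ⟨B, hB, hle'⟩ := habove (E j) (Finset.mem_image_of_mem E (Finset.mem_univ j))
    exact ⟨B, hB, hjE.trans hle'⟩
  have hperm : ∀ x ∈ H, ∀ A ∈ M, MulAut.conj x • A ∈ M := by
    intro x hx A hA
    obtain ⟨B, hB, hAB⟩ := hconjS x hx A (Finset.mem_filter.1 hA).1
    obtain ⟨C, hC, hBC⟩ := hconjS x⁻¹ (H.inv_mem hx) B (Finset.mem_filter.1 hB).1
    have h1 : A ≤ C := by
      have h := (Subgroup.pointwise_smul_le_pointwise_smul_iff (a := MulAut.conj x⁻¹)).2 hAB
      rw [smul_smul, ← map_mul, inv_mul_cancel, map_one, one_smul] at h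
      exact h.trans hBC
    have h2 : A = C := (Finset.mem_filter.1 hA).2 C (Finset.mem_filter.1 hC).1 h1
    subst h2
    have h3 : B ≤ MulAut.conj x • A := by
      have h := (Subgroup.pointwise_smul_le_pointwise_smul_iff (a := MulAut.conj x)).2 hBC
      rwa [smul_smul, ← map_mul, mul_inv_cancel, map_one, one_smul] at h
    rw [le_antisymm hAB h3]
    exact hB
  -- each `p`-element of `H` fixes each member of `M`
  have hfix : ∀ x ∈ H, (∃ k : ℕ, orderOf x = p ^ k) → ∀ A ∈ M, MulAut.conj x • A = A := by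
    intro x hx hxp A hA
    obtain ⟨A₀, hA₀, hxA₀⟩ := hMcov x hx hxp
    have hfix0 : MulAut.conj x • A₀ = A₀ := Subgroup.conj_smul_eq_self_of_mem hxA₀
    by_cases hA0 : A = A₀
    · rw [hA0, hfix0]
    obtain ⟨k, hk⟩ := hxp
    have hX : IsPGroup p (zpowers (MulAut.conj x)) := by
      refine IsPGroup.of_card_dvd_pow (n := k) ?_
      rw [Nat.card_zpowers, ← hk]
      exact orderOf_map_dvd MulAut.conj x
    obtain ⟨j, hj⟩ := hX.card_orbit A
    have hsub : orbit (zpowers (MulAut.conj x)) A ⊆ ↑(M.erase A₀) := by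
      rintro _ ⟨⟨g, z, rfl⟩, rfl⟩
      show (MulAut.conj x) ^ z • A ∈ (M.erase A₀ : Set _)
      rw [← map_zpow, Finset.coe_erase]
      refine ⟨hperm _ (H.zpow_mem hx z) A hA, fun h => hA0 ?_⟩
      have h' : MulAut.conj (x ^ z) • A₀ = A₀ :=
        Subgroup.conj_smul_eq_self_of_mem (A₀.zpow_mem hxA₀ z)
      exact smul_left_cancel _ ((Set.mem_singleton_iff.1 h).trans h'.symm)
    have hle := Set.ncard_le_ncard hsub (Finset.finite_toSet _)
    rw [← Nat.card_coe_set_eq, hj, Set.ncard_coe_finset, Finset.card_erase_of_mem hA₀] at hle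
    have hj0 : j = 0 := by
      by_contra hj0
      have := Nat.le_self_pow hj0 p
      have := two_le_p (p := p)
      omega
    rw [hj0, pow_zero] at hj
    have := (Nat.card_eq_one_iff_unique.1 hj).1
    exact congrArg Subtype.val (Subsingleton.elim
      (⟨MulAut.conj x • A, ⟨⟨_, mem_zpowers _⟩, rfl⟩⟩ : orbit (zpowers (MulAut.conj x)) A)
      ⟨A, mem_orbit_self A⟩)
  have hnorm : ∀ A ∈ M, ∀ x ∈ H, MulAut.conj x • A = A := by
    intro A hA
    have hle : H ≤ (stabilizer (MulAut G) A).comap MulAut.conj := by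
      rw [← hgen, closure_le]
      exact fun x hx => hfix x hx.1 hx.2 A hA
    exact fun x hx => hle hx
  -- a Sylow subgroup of `H` lies in some member
  let P : Sylow p H := default
  have hPp : IsPGroup p ((P : Subgroup H).map H.subtype) := P.2.map _
  obtain ⟨A, hA, hPA⟩ := pgroup_not_union hPp M hMcard (by
    rintro g ⟨a, ha, rfl⟩
    obtain ⟨k, hk⟩ := IsPGroup.iff_orderOf.1 hPp ⟨_, ⟨a, ha, rfl⟩⟩
    exact hMcov _ a.2 ⟨k, by simpa [orderOf_mk] using hk⟩)
  refine (hMH A hA).not_ge ?_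
  rw [← hgen, closure_le]
  rintro g ⟨hg, k, hk⟩
  have hZ : IsPGroup p (zpowers (⟨g, hg⟩ : H)) := by
    refine IsPGroup.of_card (n := k) ?_
    rw [Nat.card_zpowers, Subgroup.orderOf_mk, hk]
  obtain ⟨Q, hQ⟩ := hZ.exists_le_sylow
  obtain ⟨h, rfl⟩ := exists_smul_eq H P Q
  have hgQ := hQ (mem_zpowers (⟨g, hg⟩ : H))
  rw [Sylow.coe_subgroup_smul] at hgQ
  obtain ⟨a, ha, hae⟩ := hgQ
  have hmem : MulAut.conj (h : G) (a : G) ∈ MulAut.conj (h : G) • A :=
    Subgroup.smul_mem_pointwise_smul _ _ _ (hPA ⟨a, ha, rfl⟩)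
  rw [hnorm A hA h h.2] at hmem
  have he : (h : G) * (a : G) * (h : G)⁻¹ = g := congrArg Subtype.val hae
  show g ∈ A
  rw [← he]
  exact hmem

/-- Let p be a prime and G a finite group generated by its p-elements. If a finite family of proper subgroups of G covers the set of p-elements of G (every element of p-power order lies in one of them), then the family has at least p + 1 members. -/
theorem result {G : Type*} [Group G] [Finite G] (p : ℕ) [Fact p.Prime] (hgen : Subgroup.closure {g : G | ∃ k : ℕ, orderOf g = p ^ k} = ⊤)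
    {ι : Type*} [Fintype ι] (K : ι → Subgroup G) (hK : ∀ i, K i ≠ ⊤)
    (hcov : ∀ g : G, (∃ k : ℕ, orderOf g = p ^ k) → ∃ i, g ∈ K i) :
    p + 1 ≤ Fintype.card ι := by
  by_contra h
  obtain ⟨i, hi⟩ := cover_le (p := p) K (by omega) (Nat.card (⊤ : Subgroup G)) ⊤ le_rfl
    (by simpa using hgen) (fun g _ hg => hcov g hg)
  exact hK i (eq_top_iff.2 hi)

end Cfsg.Agent.S4182
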