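import Cfsg.Statements.S4186
import Mathlib
-- import your own Cfsg.Agent.* helpers here

set_option autoImplicit false
open Cfsg

namespace Cfsg.Agent.S4186

/-- Let T and X be subgroups of a group with T a finite 2-group normalizing X but not centralizing it. Then some element of T inverts some non-identity element of X under conjugation. -/
theorem result {G : Type*} [Group G] (T X : Subgroup G) [Finite ↥T] (hT : IsPGroup 2 ↥T) (hTN : T ≤ Subgroup.normalizer (X : Set G)) (hTC : ¬ T ≤ Subgroup.centralizer (X : Set G)) : ∃ t ∈ T, ∃ x ∈ X, x ≠ 1 ∧ t * x * t⁻¹ = x⁻¹ := by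
  classical
  set C := (Subgroup.centralizer (X : Set G)).subgroupOf T
  have hlt : C ≠ ⊤ := fun h => hTC (Subgroup.subgroupOf_eq_top.mp h)
  obtain ⟨t, htC, ht2⟩ : ∃ t : T, t ∉ C ∧ t ^ 2 ∈ C := by
    obtain ⟨t, -, ht⟩ : ∃ t : T, t ∈ (⊤ : Subgroup T) ∧ t ∉ C := Set.not_subset.mp (fun h => hlt (top_le_iff.mp h))
    obtain ⟨k, hk⟩ := hT t
    have hex : ∃ j, t ^ 2 ^ j ∈ C := ⟨k, by rw [hk]; exact one_mem _⟩
    obtain ⟨j, hj⟩ : ∃ j, Nat.find hex = j + 1 := Nat.exists_eq_succ_of_ne_zero fun h0 => ht (by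
      have := Nat.find_spec hex
      rwa [h0, pow_zero, pow_one] at this)
    refine ⟨t ^ 2 ^ j, Nat.find_min hex (by omega), ?_⟩
    rw [← pow_mul, ← pow_succ, ← hj]
    exact Nat.find_spec hex
  rw [Subgroup.mem_subgroupOf, Subgroup.mem_centralizer_iff] at htC
  push Not at htC
  obtain ⟨x0, hx0, hne⟩ := htC
  refine ⟨t, t.2, x0⁻¹ * ((t : G) * x0 * (t : G)⁻¹), mul_mem (inv_mem hx0) ((Subgroup.mem_normalizer_iff.mp (hTN t.2) x0).mp hx0), ?_, ?_⟩
  · intro h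
    apply hne
    rw [inv_mul_eq_one, eq_mul_inv_iff_mul_eq] at h
    exact h
  · have h2 : ((t : G) ^ 2) * x0 * ((t : G) ^ 2)⁻¹ = x0 := by
      have h3 : x0 * ((t ^ 2 : T) : G) = ((t ^ 2 : T) : G) * x0 := ht2 x0 hx0
      push_cast at h3
      rw [← h3, mul_inv_cancel_right]
    rw [mul_inv_rev, inv_inv]
    calc (t : G) * (x0⁻¹ * ((t : G) * x0 * (t : G)⁻¹)) * (t : G)⁻¹
        = ((t : G) * x0⁻¹ * (t : G)⁻¹) * ((t : G) ^ 2 * x0 * ((t : G) ^ 2)⁻¹) := by rw [pow_two]; group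
      _ = _ := by rw [h2]; group

end Cfsg.Agent.S4186
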