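import Cfsg.Statements.S4189
import Mathlib
import Cfsg.Agent.Lib.Transfer.MaximalClass
import Cfsg.Agent.Lib.ZStar.UniqueInvolution
-- import your own Cfsg.Agent.* helpers here

set_option autoImplicit false
open Cfsg

namespace Cfsg.Agent.S4189

/-- Let P be a finite non-abelian 2-group whose commutator subgroup has index 4 and whose automorphism group is not a 2-group (some automorphism has order that is not a power of 2). Then P is isomorphic to the quaternion group of order 8. -/
theorem result {P : Type*} [Group P] [Finite P] (hP : IsPGroup 2 P) (hna : ¬ IsMulCommutative P) (h4 : (commutator P).index = 4) (haut : ¬ IsPGroup 2 (MulAut P)) : Nonempty (P ≃* QuaternionGroup 2) := by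
  classical
  haveI := Fact.mk Nat.prime_two
  obtain ⟨n, hc⟩ := hP.exists_card_eq
  have hn : 3 ≤ n := by
    by_contra h
    haveI := hP.isNilpotent
    refine hna ?_
    have : n = 0 ∨ n = 1 ∨ n = 2 := by omega
    rcases this with rfl | rfl | rfl
    · haveI : Subsingleton P := Finite.card_le_one_iff_subsingleton.1 (by simpa using hc.le)
      exact ⟨⟨fun a b => Subsingleton.elim _ _⟩⟩
    · haveI : IsCyclic P := isCyclic_of_prime_card (p := 2) (by simpa using hc)
      exact ⟨⟨fun a b => IsCyclic.commutative.is_comm.comm a b⟩⟩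
    · exact ⟨⟨fun a b => IsPGroup.commutative_of_card_eq_prime_sq (p := 2) (by simpa using hc) a b⟩⟩
  obtain ⟨a, t, hoa, ht, hZ, hZc, -, htat, htt⟩ := Cfsg.Lib.Transfer.four_structure hn hc h4
  set A := Subgroup.zpowers a with hA
  have hidx : A.index = 2 := by
    have h := A.card_mul_index
    rw [Nat.card_zpowers, hoa, hc] at h
    have e : 2 ^ n = 2 ^ (n - 1) * 2 := by rw [← pow_succ]; congr 1; omega
    rw [e] at h
    exact mul_left_cancel₀ (by positivity) h
  haveI : A.Normal := Subgroup.normal_of_index_eq_two hidx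
  have hout : ∀ x : P, x ∉ A → x * x ∈ Subgroup.center P := by
    intro x hx
    obtain ⟨i, hi⟩ := Subgroup.mem_zpowers_iff.1 (((Cfsg.Lib.Transfer.mem_or_mul_mem_of_index_two hidx ht x).resolve_left hx))
    have hz : ∀ k : ℤ, (t * a * t⁻¹ * a) ^ k ∈ Subgroup.center P := fun k => zpow_mem htat k
    have hc1 : Commute (t * a * t⁻¹) a := by
      have := Subgroup.mem_center_iff.1 htat a
      show t * a * t⁻¹ * a = a * (t * a * t⁻¹)
      exact mul_right_cancel (this.symm.trans (mul_assoc _ _ _).symm)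
    have e : x = a ^ i * t⁻¹ := eq_mul_inv_of_mul_eq hi.symm
    have h1 : a ^ i * (t⁻¹ * a ^ i * t) ∈ Subgroup.center P := by
      have h0 : (t * a * t⁻¹ * a) ^ i = (t * a * t⁻¹) ^ i * a ^ i := hc1.mul_zpow i
      have h0' : t * (a ^ i * (t⁻¹ * a ^ i * t)) * t⁻¹ = (t * a ^ i * t⁻¹) * a ^ i := by group
      have h2 : t * (a ^ i * (t⁻¹ * a ^ i * t)) * t⁻¹ ∈ Subgroup.center P := by
        rw [h0', ← conj_zpow, ← h0]; exact hz i
      have := (inferInstance : (Subgroup.center P).Normal).conj_mem _ h2 t⁻¹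
      simpa [mul_assoc] using this
    have e2 : x * x = (a ^ i * (t⁻¹ * a ^ i * t)) * (t * t)⁻¹ := by rw [e]; group
    rw [e2]
    exact mul_mem h1 (inv_mem htt)
  by_contra hcon
  -- `A` is characteristic
  have hchar : ∀ α : MulAut P, α a ∈ A := by
    intro α
    by_contra hαa
    have ho : orderOf (α a) = 2 ^ (n - 1) := by rw [MulEquiv.orderOf_eq, hoa]
    have h4' : orderOf (α a) ∣ 4 := by
      apply orderOf_dvd_of_pow_eq_one
      have h := congrArg Subtype.val (pow_card_eq_one' (x := (⟨_, hout _ hαa⟩ : Subgroup.center P)))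
      rw [hZc] at h
      calc α a ^ 4 = (α a * α a) ^ 2 := by rw [← pow_two, ← pow_mul]
        _ = 1 := by simpa using h
    rw [ho] at h4'
    have h3 : n = 3 := by
      by_contra hne
      have : 2 ^ 3 ∣ 2 ^ (n - 1) := pow_dvd_pow 2 (by omega)
      exact absurd (Nat.le_of_dvd (by norm_num) (this.trans h4')) (by norm_num)
    subst h3
    -- an element of order four outside `A`
    have hsq : α a ^ 2 = a ^ 2 := by
      have hm : α a * α a ∈ Subgroup.center P := hout _ hαa
      rw [hZ, Subgroup.mem_zpowers_iff] at hm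
      obtain ⟨k, hk⟩ := hm
      have hne : α a ^ 2 ≠ 1 := fun e => by
        have := orderOf_dvd_of_pow_eq_one e
        rw [ho] at this
        norm_num at this
      norm_num at hk hoa
      have ha4 : (a ^ 2) ^ 2 = 1 := by rw [← pow_mul, show 2 * 2 = orderOf a by rw [hoa]]; exact pow_orderOf_eq_one a
      rcases Int.even_or_odd k with ⟨j, rfl⟩ | ⟨j, rfl⟩
      · refine absurd ?_ hne
        rw [pow_two, ← hk, ← two_mul, zpow_mul, zpow_two, ← pow_two, ha4, one_zpow]
      · rw [pow_two, ← hk, zpow_add, zpow_mul, zpow_two, ← pow_two, ha4, one_zpow, one_mul, zpow_one]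
    have hnz : α a * a * (α a)⁻¹ = a⁻¹ := by
      have hin : α a * a * (α a)⁻¹ ∈ A := (inferInstance : A.Normal).conj_mem a (Subgroup.mem_zpowers a) _
      obtain ⟨k, hk⟩ := Subgroup.mem_zpowers_iff.1 hin
      norm_num at hoa
      have hk' : a ^ k = a ^ (k % 4) := by
        rw [show (4 : ℤ) = ((orderOf a : ℕ) : ℤ) by rw [hoa]; norm_num, zpow_mod_orderOf]
      have hcases : k % 4 = 0 ∨ k % 4 = 1 ∨ k % 4 = 2 ∨ k % 4 = 3 := by omega
      have hord : orderOf (α a * a * (α a)⁻¹) = 4 := by rw [← MulAut.conj_apply, MulEquiv.orderOf_eq, hoa]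
      rcases hcases with h | h | h | h <;> rw [h] at hk'
      · rw [← hk, hk', zpow_zero, orderOf_one] at hord; norm_num at hord
      · exfalso
        apply hna
        have hcomm : Commute (α a) a := by
          show α a * a = a * α a
          calc α a * a = (α a * a * (α a)⁻¹) * α a := by group
            _ = a * α a := by rw [← hk, hk', zpow_one]
        have hgen : ∀ y : P, ∃ i : ℤ, y = a ^ i ∨ y = a ^ i * (α a)⁻¹ := by
          intro y
          rcases Cfsg.Lib.Transfer.mem_or_mul_mem_of_index_two hidx hαa y with h | h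
          · obtain ⟨i, hi⟩ := Subgroup.mem_zpowers_iff.1 h; exact ⟨i, Or.inl hi.symm⟩
          · obtain ⟨i, hi⟩ := Subgroup.mem_zpowers_iff.1 h; exact ⟨i, Or.inr (eq_mul_inv_of_mul_eq hi.symm)⟩
        refine ⟨⟨fun y z => ?_⟩⟩
        obtain ⟨i, hi⟩ := hgen y
        obtain ⟨j, hj⟩ := hgen z
        have hca : ∀ i : ℤ, Commute (a ^ i) (α a)⁻¹ := fun i => (hcomm.symm.inv_right).zpow_left i
        rcases hi with rfl | rfl <;> rcases hj with rfl | rfl
        · exact (Commute.refl a).zpow_zpow i j |>.eq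
        · exact (((Commute.refl a).zpow_zpow i j).mul_right (hca i)).eq
        · exact ((((Commute.refl a).zpow_zpow j i).mul_right (hca j)).symm).eq
        · exact ((((Commute.refl a).zpow_zpow i j).mul_right (hca i)).mul_left
            ((((hca j).symm)).mul_right (Commute.refl _))).eq
      · rw [← hk, hk', show (2 : ℤ) = ((2 : ℕ) : ℤ) from rfl, zpow_natCast,
          orderOf_pow_of_dvd (by norm_num) (by rw [hoa]; norm_num), hoa] at hord
        norm_num at hord
      · rw [← hk, hk', eq_inv_iff_mul_eq_one, ← zpow_add_one, show (3 : ℤ) + 1 = ((4 : ℕ) : ℤ) by norm_num, zpow_natCast,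
          ← hoa, pow_orderOf_eq_one]
    exact hcon (Cfsg.Lib.ZStar.nonempty_quaternion_of_inverted (by norm_num) (by rw [hoa]; norm_num) hidx hαa hnz hsq)
  -- automorphisms of odd prime order are trivial
  apply haut
  rw [IsPGroup.iff_orderOf]
  intro α
  by_contra hα
  obtain ⟨r, hr, hrd, hr2⟩ : ∃ r : ℕ, r.Prime ∧ r ∣ orderOf α ∧ r ≠ 2 := by
    by_contra h
    push Not at h
    exact hα ⟨_, Nat.eq_prime_pow_of_unique_prime_dvd (orderOf_pos α).ne' (fun {d} hd hdd => h d hd hdd)⟩
  obtain ⟨β, hβ⟩ : ∃ β : MulAut P, orderOf β = r := ⟨α ^ (orderOf α / r), orderOf_pow_orderOf_div (orderOf_pos α).ne' hrd⟩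
  obtain ⟨i, hi⟩ := Subgroup.mem_zpowers_iff.1 (hchar β)
  have hpow : ∀ k : ℕ, (β ^ k) a = a ^ (i ^ k) := by
    intro k
    induction k with
    | zero => simp
    | succ k ih => rw [pow_succ', MulAut.mul_apply, ih, map_zpow, ← hi, ← zpow_mul, ← pow_succ']
  have hr' : Odd r := hr.odd_of_ne_two hr2
  have hβa : β a = a := by
    have h1 := hpow r
    rw [← hβ, pow_orderOf_eq_one, MulAut.one_apply, hβ] at h1
    have h2 : ((i : ZMod (2 ^ (n - 1)))) ^ r = 1 := by
      rw [← Int.cast_pow, ← Int.cast_one, ZMod.intCast_eq_intCast_iff, ← hoa, ← zpow_eq_zpow_iff_modEq, zpow_one]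
      exact h1.symm
    obtain ⟨m, hm⟩ : ∃ m : ℕ, n - 1 = m + 1 := ⟨n - 2, by omega⟩
    have hu : IsUnit ((i : ZMod (2 ^ (n - 1)))) := IsUnit.of_pow_eq_one h2 hr.ne_zero
    have h3 : (hu.unit) ^ (2 ^ m) = 1 := by
      have := ZMod.pow_totient hu.unit
      rwa [show Nat.totient (2 ^ (n - 1)) = 2 ^ m by
        rw [hm, Nat.totient_prime_pow_succ Nat.prime_two, show (2 : ℕ) - 1 = 1 from rfl, mul_one]] at this
    have h4 : (hu.unit) ^ r = 1 := Units.ext (by simpa using h2)
    have h5 : hu.unit = 1 := by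
      rw [← orderOf_eq_one_iff]
      exact Nat.eq_one_of_dvd_coprimes ((Nat.coprime_two_left.2 hr').pow_left _) (orderOf_dvd_of_pow_eq_one h3)
        (orderOf_dvd_of_pow_eq_one h4)
    have h6 : ((i : ZMod (2 ^ (n - 1)))) = ((1 : ℤ) : ZMod (2 ^ (n - 1))) := by
      rw [← hu.unit_spec, h5]; simp
    rw [ZMod.intCast_eq_intCast_iff, ← hoa, ← zpow_eq_zpow_iff_modEq, zpow_one] at h6
    rw [← hi, h6]
  have hfixA : ∀ x ∈ A, β x = x := by
    intro x hx
    obtain ⟨k, rfl⟩ := Subgroup.mem_zpowers_iff.1 hx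
    rw [map_zpow, hβa]
  have hβt : t⁻¹ * β t ∈ A := by
    have h : β t ∉ A := by
      intro h
      obtain ⟨k, hk⟩ := Subgroup.mem_zpowers_iff.1 h
      apply ht
      have : t = a ^ k := β.injective (by rw [map_zpow, hβa, hk])
      rw [this]; exact Subgroup.zpow_mem _ (Subgroup.mem_zpowers a) k
    exact (Subgroup.mul_mem_iff_of_index_two hidx).2 (iff_of_false (fun h' => ht ((inv_mem_iff).1 h')) h)
  have hpowt : ∀ k : ℕ, (β ^ k) t = t * (t⁻¹ * β t) ^ k := by
    intro k
    induction k with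
    | zero => simp
    | succ k ih =>
      rw [pow_succ', MulAut.mul_apply, ih, map_mul, hfixA _ (A.pow_mem hβt k)]
      rw [pow_succ', ← mul_assoc, mul_inv_cancel_left]
  have hd1 : (t⁻¹ * β t) = 1 := by
    have h1 := hpowt r
    rw [← hβ, pow_orderOf_eq_one, MulAut.one_apply, left_eq_mul, hβ] at h1
    rw [← orderOf_eq_one_iff]
    exact Nat.eq_one_of_dvd_coprimes ((Nat.coprime_two_left.2 hr').pow_left (n - 1))
      (hoa ▸ orderOf_dvd_of_mem_zpowers hβt) (orderOf_dvd_of_pow_eq_one h1)
  have : β = 1 := by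
    ext x
    rcases Cfsg.Lib.Transfer.mem_or_mul_mem_of_index_two hidx ht x with h | h
    · exact hfixA x h
    · have h' := hfixA _ h
      rw [map_mul, (inv_mul_eq_one.1 hd1).symm] at h'
      exact mul_right_cancel h'
  rw [this, orderOf_one] at hβ
  exact hr.ne_one hβ.symm

end Cfsg.Agent.S4189
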