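import Cfsg.Statements.S4195
import Mathlib
-- import your own Cfsg.Agent.* helpers here

set_option autoImplicit false
open Cfsg

namespace Cfsg.Agent.S4195

theorem centralizes_of_inverts {G : Type*} [Group G] [Finite G] (x : G) (P : Sylow 2 G)
    (hP : (P : Subgroup G) ≤ Subgroup.centralizer ({x} : Set G)) {g : G} (hg : g * x * g⁻¹ = x⁻¹) : x⁻¹ = x := by
  classical
  let N : Subgroup G :=
    { carrier := {a | a * x * a⁻¹ = x ∨ a * x * a⁻¹ = x⁻¹}
      one_mem' := Or.inl (by group)
      mul_mem' := fun {a b} ha hb => by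
        have e : a * b * x * (a * b)⁻¹ = a * (b * x * b⁻¹) * a⁻¹ := by group
        rcases hb with hb | hb <;> rcases ha with ha | ha
        · exact Or.inl (by rw [e, hb, ha])
        · exact Or.inr (by rw [e, hb, ha])
        · exact Or.inr (by rw [e, hb, ← conj_inv, ha])
        · exact Or.inl (by rw [e, hb, ← conj_inv, ha, inv_inv])
      inv_mem' := fun {a} ha => by
        rcases ha with ha | ha
        · refine Or.inl ?_
          conv_lhs => rw [← ha]
          group
        · refine Or.inr ?_
          have h2 : a * x⁻¹ * a⁻¹ = x := by rw [← conj_inv, ha, inv_inv]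
          conv_lhs => rw [← h2]
          group }
  have hCN : Subgroup.centralizer ({x} : Set G) ≤ N := fun c hc => Or.inl (by
    rw [Subgroup.mem_centralizer_singleton_iff.mp hc, mul_inv_cancel_right])
  have hgN : g ∈ N := Or.inr hg
  by_contra hne
  set C := (Subgroup.centralizer ({x} : Set G)).subgroupOf N
  have hmemC : ∀ a : N, a ∈ C ↔ (a : G) * x * (a : G)⁻¹ = x := fun a => by
    rw [Subgroup.mem_subgroupOf, Subgroup.mem_centralizer_singleton_iff, mul_inv_eq_iff_eq_mul]
  have hidx : C.index = 2 := by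
    rw [Subgroup.index_eq_two_iff]
    refine ⟨⟨g, hgN⟩, fun b => ?_⟩
    rw [hmemC, hmemC]
    push_cast
    rw [show (b : G) * g * x * ((b : G) * g)⁻¹ = (b : G) * (g * x * g⁻¹) * (b : G)⁻¹ by group, hg, ← conj_inv]
    rcases b.2 with hb | hb
    · rw [hb]; exact Or.inr ⟨rfl, hne⟩
    · rw [hb, inv_inv]; exact Or.inl ⟨rfl, hne⟩
  apply P.not_dvd_index
  refine dvd_trans ?_ (Subgroup.index_dvd_of_le hP)
  rw [← Subgroup.relIndex_mul_index hCN]
  exact dvd_mul_of_dvd_left (dvd_of_eq hidx.symm) _

/-- Let x be a non-identity element of a finite group G whose centralizer contains a Sylow 2-subgroup of G. If x is conjugate to its inverse, then x has order 2. -/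
theorem result {G : Type*} [Group G] [Finite G] (x : G) (hx : x ≠ 1) (P : Sylow 2 G) (hP : (P : Subgroup G) ≤ Subgroup.centralizer ({x} : Set G)) (hreal : IsConj x x⁻¹) : orderOf x = 2 := by
  obtain ⟨g, hg⟩ := isConj_iff.mp hreal
  have h := centralizes_of_inverts x P hP hg
  refine orderOf_eq_prime ?_ hx
  rw [pow_two]
  conv_lhs => arg 1; rw [← h]
  exact inv_mul_cancel x

end Cfsg.Agent.S4195
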