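import Cfsg.Statements.S4196
import Mathlib
import Cfsg.Agent.S4195
-- import your own Cfsg.Agent.* helpers here

set_option autoImplicit false
open Cfsg

namespace Cfsg.Agent.S4196

/-- A finite group G has elementary abelian Sylow 2-subgroups (commutative with every element squaring to the identity) if and only if every 2-element of G has a Sylow 2-subgroup in its centralizer and is conjugate to its inverse. -/
theorem result {G : Type*} [Group G] [Finite G] (P : Sylow 2 G) :
    (IsMulCommutative (P : Subgroup G) ∧ ∀ x ∈ (P : Subgroup G), x ^ 2 = 1) ↔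
      ∀ x : G, (∃ k : ℕ, orderOf x = 2 ^ k) → (∃ Q : Sylow 2 G, (Q : Subgroup G) ≤ Subgroup.centralizer ({x} : Set G)) ∧ IsConj x x⁻¹ := by
  constructor
  · rintro ⟨-, hexp⟩ x ⟨k, hk⟩
    have hz : IsPGroup 2 (Subgroup.zpowers x) := IsPGroup.of_card (n := k) (by rw [Nat.card_zpowers, hk])
    obtain ⟨Q, hQ⟩ := hz.exists_le_sylow
    obtain ⟨g, hg⟩ := MulAction.exists_smul_eq G P Q
    have hQexp : ∀ y ∈ (Q : Subgroup G), y ^ 2 = 1 := by
      intro y hy
      rw [← hg, Sylow.smul_def, Sylow.pointwise_smul_def] at hy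
      obtain ⟨z, hz, rfl⟩ := hy
      show (MulAut.conj g z) ^ 2 = 1
      rw [← map_pow, hexp z hz, map_one]
    have hinv : ∀ y ∈ (Q : Subgroup G), y⁻¹ = y := fun y hy =>
      inv_eq_of_mul_eq_one_right (by rw [← pow_two]; exact hQexp y hy)
    have hx := hQ (Subgroup.mem_zpowers x)
    refine ⟨⟨Q, fun y hy => Subgroup.mem_centralizer_singleton_iff.mpr ?_⟩, isConj_iff.mpr ⟨1, by simp [hinv x hx]⟩⟩
    calc y * x = (y * x)⁻¹ := (hinv _ (mul_mem hy hx)).symm
      _ = x * y := by rw [mul_inv_rev, hinv x hx, hinv y hy]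
  · intro h
    have key : ∀ x ∈ (P : Subgroup G), x ^ 2 = 1 := by
      intro x hx
      obtain ⟨k, hk⟩ := IsPGroup.iff_orderOf.mp P.isPGroup' ⟨x, hx⟩
      obtain ⟨⟨Q, hQ⟩, hconj⟩ := h x ⟨k, by rw [← hk, Subgroup.orderOf_mk]⟩
      obtain ⟨g, hg⟩ := isConj_iff.mp hconj
      have h1 := Cfsg.Agent.S4195.centralizes_of_inverts x Q hQ hg
      rw [pow_two]
      conv_lhs => arg 1; rw [← h1]
      exact inv_mul_cancel x
    refine ⟨⟨⟨fun a b => Subtype.ext ?_⟩⟩, key⟩
    have hinv : ∀ y ∈ (P : Subgroup G), y⁻¹ = y := fun y hy =>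
      inv_eq_of_mul_eq_one_right (by rw [← pow_two]; exact key y hy)
    show (a : G) * b = b * a
    calc (a : G) * b = ((a : G) * b)⁻¹ := (hinv _ (mul_mem a.2 b.2)).symm
      _ = b * a := by rw [mul_inv_rev, hinv _ a.2, hinv _ b.2]

end Cfsg.Agent.S4196
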