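import Cfsg.Statements.S4230
import Mathlib
-- import your own Cfsg.Agent.* helpers here

set_option autoImplicit false
open Cfsg

namespace Cfsg.Agent.S4230

/-- Let p be an odd prime, q a natural number not divisible by p, and e the multiplicative order of q modulo p. For a natural number f, p divides the value at q of the f-th cyclotomic polynomial if and only if f = e·p^j for some j ≥ 0. -/
theorem result (p q f : ℕ) (hp : p.Prime) (hp2 : p ≠ 2) (hpq : ¬ p ∣ q) :
    ((p : ℤ) ∣ (Polynomial.cyclotomic f ℤ).eval (q : ℤ)) ↔ ∃ j : ℕ, f = orderOf (q : ZMod p) * p ^ j := by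
  haveI := Fact.mk hp
  have hq0 : (q : ZMod p) ≠ 0 := fun h => hpq ((ZMod.natCast_eq_zero_iff _ _).mp h)
  set e := orderOf (q : ZMod p) with he
  have hiff : ((p : ℤ) ∣ (Polynomial.cyclotomic f ℤ).eval (q : ℤ)) ↔ (Polynomial.cyclotomic f (ZMod p)).IsRoot (q : ZMod p) := by
    rw [← ZMod.intCast_zmod_eq_zero_iff_dvd, Polynomial.IsRoot.def, ← Polynomial.map_cyclotomic_int f (ZMod p)]
    have h : (q : ZMod p) = Int.castRingHom (ZMod p) (q : ℤ) := by simp
    rw [h, Polynomial.eval_map, Polynomial.eval₂_at_apply]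
    simp
  have hed : e ∣ p - 1 := ZMod.orderOf_dvd_card_sub_one hq0
  have he0 : 0 < e := Nat.pos_of_dvd_of_pos hed (by have := hp.two_le; omega)
  have hep : ¬ p ∣ e := fun h => by
    have h2 := Nat.le_of_dvd (by have := hp.two_le; omega) (h.trans hed)
    have := hp.two_le
    omega
  rw [hiff]
  constructor
  · intro hroot
    rcases Nat.eq_zero_or_pos f with rfl | hf
    · simp [Polynomial.IsRoot.def] at hroot
    obtain ⟨k, n, hn, hfeq⟩ := Nat.exists_eq_pow_mul_and_not_dvd hf.ne' p hp.ne_one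
    subst hfeq
    haveI : NeZero (n : ZMod p) := ⟨fun h => hn ((ZMod.natCast_eq_zero_iff _ _).mp h)⟩
    rw [Polynomial.isRoot_cyclotomic_prime_pow_mul_iff_of_charP] at hroot
    exact ⟨k, by rw [he, ← hroot.eq_orderOf, mul_comm]⟩
  · rintro ⟨j, rfl⟩
    haveI : NeZero (e : ZMod p) := ⟨fun h => hep ((ZMod.natCast_eq_zero_iff _ _).mp h)⟩
    rw [mul_comm, Polynomial.isRoot_cyclotomic_prime_pow_mul_iff_of_charP]
    exact IsPrimitiveRoot.orderOf _

end Cfsg.Agent.S4230
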