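import Cfsg.Statements.S4231
import Mathlib
import Cfsg.Agent.Lib.PermGroup.AltAut
import Cfsg.Agent.Lib.PermGroup.AltAutImage

set_option autoImplicit false
open Cfsg

namespace Cfsg.Agent.S4231

open Equiv Equiv.Perm

/-- Small `p`-groups of permutations are abelian. -/
theorem comm_of_small {n p : ℕ} [Fact p.Prime] (hn : n < p * p) (P : Subgroup (Perm (Fin n))) (hP : IsPGroup p P) :
    ∀ a ∈ P, ∀ b ∈ P, a * b = b * a := by
  intro a ha b hb
  refine Equiv.ext fun x => ?_
  have key : ∀ y : Fin n, a (b y) = b (a y) := by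
    intro y
    haveI : Finite P := inferInstance
    set S := MulAction.stabilizer P y
    obtain ⟨k, hk⟩ := hP.index S
    have hsmall : S.index ≤ n := by
      rw [MulAction.index_stabilizer]
      exact (Set.ncard_le_card (MulAction.orbit P y)).trans (by simp)
    have hk1 : k ≤ 1 := by
      by_contra h
      have : p ^ 2 ≤ p ^ k := Nat.pow_le_pow_right (Fact.out : p.Prime).pos (by omega)
      rw [← hk, pow_two] at this
      omega
    haveI : S.Normal := by
      rcases Nat.le_one_iff_eq_zero_or_eq_one.mp hk1 with h | h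
      · rw [h, pow_zero] at hk
        rw [Subgroup.index_eq_one.mp hk]
        infer_instance
      · rw [h, pow_one] at hk
        refine Subgroup.normal_of_index_eq_minFac_card ?_
        rw [hk]
        obtain ⟨m, hm⟩ := IsPGroup.iff_card.mp hP
        have hm0 : m ≠ 0 := fun h0 => by
          have := S.index_dvd_card
          rw [hk, hm, h0, pow_zero] at this
          exact (Fact.out : p.Prime).not_dvd_one this
        rw [hm, Nat.pow_minFac hm0, (Fact.out : p.Prime).minFac_eq]
    have hcard : Nat.card (P ⧸ S) = p ^ k := hk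
    have hq : ∀ u v : P ⧸ S, u * v = v * u := by
      rcases Nat.le_one_iff_eq_zero_or_eq_one.mp hk1 with h | h
      · intro u v
        rw [h, pow_zero] at hcard
        haveI := (Nat.card_eq_one_iff_unique.mp hcard).1
        exact Subsingleton.elim _ _
      · haveI := isCyclic_of_prime_card (hcard.trans (by rw [h, pow_one]))
        letI := IsCyclic.commGroup (α := P ⧸ S)
        exact mul_comm
    have hmem : ((⟨b, hb⟩ : P) * ⟨a, ha⟩)⁻¹ * (⟨a, ha⟩ * ⟨b, hb⟩) ∈ S := by
      rw [← QuotientGroup.eq_one_iff, QuotientGroup.mk_mul, QuotientGroup.mk_inv, QuotientGroup.mk_mul, QuotientGroup.mk_mul,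
        hq ((⟨b, hb⟩ : P) : P ⧸ S), inv_mul_cancel]
    have h2 : ((b * a)⁻¹ * (a * b)) y = y := hmem
    have h3 := congrArg (b * a : Perm (Fin n)) h2
    rw [← Perm.mul_apply, mul_inv_cancel_left, Perm.mul_apply, Perm.mul_apply] at h3
    exact h3
  exact key x

/-- An odd order automorphism is induced by a permutation. -/
theorem mem_range_odd {n : ℕ} (hn : 5 ≤ n) (φ : MulAut (alternatingGroup (Fin n))) (hφ : Odd (orderOf φ)) :
    φ ∈ (MulAut.conjNormal : Perm (Fin n) →* MulAut (alternatingGroup (Fin n))).range := by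
  by_cases h6 : n = 6
  · subst h6
    have hct : ∀ x : alternatingGroup (Fin 6), orderOf x = 3 →
        (x : Perm (Fin 6)).IsThreeCycle ∨ (x : Perm (Fin 6)).cycleType = {3, 3} := by
      intro x hx
      rw [← Subgroup.orderOf_coe] at hx
      obtain ⟨m, hm⟩ := cycleType_prime_order (hx ▸ Nat.prime_three)
      rw [hx] at hm
      have hs := sum_cycleType (x : Perm (Fin 6))
      have hle := (x : Perm (Fin 6)).support.card_le_univ
      rw [hm, Multiset.sum_replicate, smul_eq_mul] at hs
      rw [Fintype.card_fin] at hle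
      rcases (show m = 0 ∨ m = 1 by omega) with rfl | rfl
      · exact Or.inl hm
      · exact Or.inr hm
    -- elements of one type are conjugate
    have hconj : ∀ x y : alternatingGroup (Fin 6), orderOf x = 3 →
        (y : Perm (Fin 6)).cycleType = (x : Perm (Fin 6)).cycleType → IsConj x y := by
      intro x y hx hxy
      obtain ⟨g, hg⟩ := isConj_iff.mp (isConj_iff_cycleType_eq.mpr hxy.symm)
      rcases Int.units_eq_one_or (sign g) with hs | hs
      · exact isConj_iff.mpr ⟨⟨g, mem_alternatingGroup.mpr hs⟩, Subtype.ext hg⟩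
      · obtain ⟨c, hc, hcs⟩ : ∃ c : Perm (Fin 6), c * (x : Perm (Fin 6)) = x * c ∧ sign c = -1 := by
          rcases hct x hx with h | h
          · obtain ⟨u, hu, v, hv, huv⟩ := Finset.one_lt_card.mp (show 1 < ((x : Perm (Fin 6)).supportᶜ).card by
              rw [Finset.card_compl, Fintype.card_fin, h.card_support]; norm_num)
            refine ⟨swap u v, ?_, sign_swap huv⟩
            refine (Perm.Disjoint.commute (disjoint_iff_disjoint_support.2 ?_)).eq
            rw [support_swap huv, Finset.disjoint_left]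
            intro w hw
            rcases Finset.mem_insert.mp hw with rfl | hw
            · exact Finset.mem_compl.mp hu
            · rw [Finset.mem_singleton.mp hw]; exact Finset.mem_compl.mp hv
          · obtain ⟨d, hd⟩ := isConj_iff.mp (isConj_iff_cycleType_eq.mpr (show
              ((List.formPerm [0, 1, 2] : Perm (Fin 6)) * List.formPerm [3, 4, 5]).cycleType = (x : Perm (Fin 6)).cycleType by
                rw [h]; decide))
            refine ⟨d * (swap 0 3 * swap 1 4 * swap 2 5) * d⁻¹, ?_, ?_⟩
            · rw [← hd]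
              have : (swap 0 3 * swap 1 4 * swap 2 5 : Perm (Fin 6)) * (List.formPerm [0, 1, 2] * List.formPerm [3, 4, 5]) =
                  (List.formPerm [0, 1, 2] * List.formPerm [3, 4, 5]) * (swap 0 3 * swap 1 4 * swap 2 5) := by decide
              rw [conj_mul, conj_mul, this]
            · simp only [map_mul, map_inv, sign_swap (show (0 : Fin 6) ≠ 3 by decide), sign_swap (show (1 : Fin 6) ≠ 4 by decide),
                sign_swap (show (2 : Fin 6) ≠ 5 by decide)]
              rw [mul_comm (sign d), mul_assoc, mul_inv_cancel, mul_one]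
              rfl
        refine isConj_iff.mpr ⟨⟨g * c, mem_alternatingGroup.mpr (by rw [map_mul, hs, hcs]; rfl)⟩, Subtype.ext ?_⟩
        show g * c * (x : Perm (Fin 6)) * (g * c)⁻¹ = y
        rw [← hg, mul_assoc g c, hc]
        group
    -- the two types are permuted
    have hsame : ∀ (ψ : MulAut (alternatingGroup (Fin 6))) (x y : alternatingGroup (Fin 6)), orderOf x = 3 →
        (y : Perm (Fin 6)).cycleType = (x : Perm (Fin 6)).cycleType →
        (ψ y : Perm (Fin 6)).cycleType = (ψ x : Perm (Fin 6)).cycleType := by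
      intro ψ x y hx hxy
      obtain ⟨g, hg⟩ := isConj_iff.mp (hconj x y hx hxy)
      rw [← hg, map_mul, map_mul, map_inv, Subgroup.coe_mul, Subgroup.coe_mul, Subgroup.coe_inv, cycleType_conj]
    refine Cfsg.Lib.PermGroup.AltAut.mem_range_of_image (by simp) φ fun x hx => ?_
    have hx3 : orderOf x = 3 := by rw [← Subgroup.orderOf_coe]; exact hx.orderOf
    by_contra hne
    have hd : (φ x : Perm (Fin 6)).cycleType = {3, 3} := (hct (φ x) (by rw [MulEquiv.orderOf_eq, hx3])).resolve_left hne
    -- the square fixes both types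
    have hiter : ∀ k : ℕ, ((φ ^ (2 * k)) x : Perm (Fin 6)).cycleType = (x : Perm (Fin 6)).cycleType := by
      have h2 : (φ (φ x) : Perm (Fin 6)).cycleType = (x : Perm (Fin 6)).cycleType := by
        rcases hct (φ (φ x)) (by rw [MulEquiv.orderOf_eq, MulEquiv.orderOf_eq, hx3]) with h | h
        · rw [h.cycleType, hx.cycleType]
        · exfalso
          have := hsame φ⁻¹ (φ x) (φ (φ x)) (by rw [MulEquiv.orderOf_eq, hx3]) (h.trans hd.symm)
          simp only [MulAut.inv_apply_self, hx.cycleType] at this
          rw [hd] at this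
          exact absurd this (by decide)
      intro k
      induction k with
      | zero => simp
      | succ k ih =>
        rw [show 2 * (k + 1) = 2 + 2 * k by ring, pow_add, MulAut.mul_apply, pow_two, MulAut.mul_apply]
        have := hsame φ x ((φ ^ (2 * k)) x) hx3 ih
        have := hsame φ (φ x) (φ ((φ ^ (2 * k)) x)) (by rw [MulEquiv.orderOf_eq, hx3]) this
        rw [this, h2]
    obtain ⟨k, hk⟩ := hφ
    have h := hiter (k + 1)
    rw [show 2 * (k + 1) = orderOf φ + 1 by omega, pow_succ, pow_orderOf_eq_one, one_mul, hd, hx.cycleType] at h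
    exact absurd h (by decide)
  · exact MonoidHom.range_eq_top.mpr (Cfsg.Lib.PermGroup.AltAut.bijective_conjNormal (α := Fin n) (by simp; omega) (by simpa using h6)).2 ▸ Subgroup.mem_top φ

/-- An even permutation of order `p * q`. -/
theorem exists_pq {n p q : ℕ} (hp : p.Prime) (hq : q.Prime) (hpq : p ≠ q) (hpn : p * p ≤ n) (hqn : q * q ≤ n) :
    ∃ σ : alternatingGroup (Fin n), orderOf σ = p * q := by
  wlog hle : p ≤ q generalizing p q
  · obtain ⟨σ, hσ⟩ := this hq hp hpq.symm hqn hpn (by omega)
    exact ⟨σ, hσ.trans (mul_comm _ _)⟩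
  have hq2 : q ≠ 2 := by have := hp.two_le; omega
  have hodd := hq.odd_of_ne_two hq2
  have hq3 : 3 ≤ q := by have := hq.two_le; omega
  have hqq : 3 * q ≤ q * q := Nat.mul_le_mul_right _ hq3
  by_cases h2 : p = 2
  · subst h2
    obtain ⟨σ, hσ⟩ := (exists_with_cycleType_iff (α := Fin n) (m := {2, 2, q})).mpr
      ⟨by simp; omega, by simp; omega⟩
    have hsgn : sign σ = 1 := by
      rw [sign_of_cycleType, hσ]
      obtain ⟨j, rfl⟩ := hodd
      simp
      rw [show 2 + (2 + (2 * j + 1)) + 3 = 2 * (j + 4) by ring, pow_mul]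
      simp
    refine ⟨⟨σ, mem_alternatingGroup.mpr hsgn⟩, ?_⟩
    rw [Subgroup.orderOf_mk, ← lcm_cycleType, hσ]
    simp
    show Nat.lcm 2 (Nat.lcm 2 q) = 2 * q
    rw [← Nat.lcm_assoc, Nat.lcm_self]
    exact Nat.Coprime.lcm_eq_mul ((Nat.coprime_primes Nat.prime_two hq).mpr hpq)
  · have hp3 : 3 ≤ p := by have := hp.two_le; omega
    obtain ⟨σ, hσ⟩ := (exists_with_cycleType_iff (α := Fin n) (m := {p, q})).mpr
      ⟨by simp; omega, by simp; omega⟩
    have hsgn : sign σ = 1 := by
      rw [sign_of_cycleType, hσ]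
      obtain ⟨j, rfl⟩ := hodd
      obtain ⟨i, rfl⟩ := hp.odd_of_ne_two h2
      simp
      rw [show 2 * i + 1 + (2 * j + 1) + 2 = 2 * (i + j + 2) by ring, pow_mul]
      simp
    refine ⟨⟨σ, mem_alternatingGroup.mpr hsgn⟩, ?_⟩
    rw [Subgroup.orderOf_mk, ← lcm_cycleType, hσ]
    simp
    exact Nat.Coprime.lcm_eq_mul ((Nat.coprime_primes hp hq).mpr hpq)

/-- Let n ≥ 5 and let G be a group of automorphisms of the alternating group of degree n containing all inner automorphisms. If p ≠ q are primes and G has no element of order pq, then every Sylow p-subgroup of G is abelian or every Sylow q-subgroup of G is abelian. -/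
theorem result (n : ℕ) (hn : 5 ≤ n) (G : Subgroup (MulAut (alternatingGroup (Fin n))))
    (hG : (MulAut.conj : alternatingGroup (Fin n) →* MulAut (alternatingGroup (Fin n))).range ≤ G)
    (p q : ℕ) [Fact p.Prime] [Fact q.Prime] (hpq : p ≠ q) (h : ∀ g : G, orderOf g ≠ p * q) :
    (∀ P : Sylow p G, IsMulCommutative (P : Subgroup G)) ∨ (∀ Q : Sylow q G, IsMulCommutative (Q : Subgroup G)) := by
  classical
  have hinj : Function.Injective (MulAut.conj : alternatingGroup (Fin n) →* MulAut (alternatingGroup (Fin n))) := by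
    intro a b hab
    apply Subtype.ext
    have h := DFunLike.congr_fun hab
    refine inv_mul_eq_one.1 (Cfsg.Lib.PermGroup.AltAut.eq_one_of_centralizes (α := Fin n) (by simp; omega)
      (σ := ((a : Perm (Fin n))⁻¹ * b)) fun g => ?_)
    have e := congrArg Subtype.val (h g)
    simp only [MulAut.conj_apply, Subgroup.coe_mul, Subgroup.coe_inv] at e
    rw [mul_inv_rev, inv_inv, show (a : Perm (Fin n))⁻¹ * b * (g : Perm (Fin n)) * ((b : Perm (Fin n))⁻¹ * a) =
      (a : Perm (Fin n))⁻¹ * (b * (g : Perm (Fin n)) * (b : Perm (Fin n))⁻¹) * a by group, ← e]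
    group
  have key : ∀ (r : ℕ) [Fact r.Prime], r ≠ 2 → n < r * r → ∀ P : Sylow r G, IsMulCommutative (P : Subgroup G) := by
    intro r _ hr2 hrn P
    let Φ : Perm (Fin n) →* MulAut (alternatingGroup (Fin n)) := MulAut.conjNormal
    have hΦ : Function.Injective Φ := by
      intro a b hab
      refine inv_mul_eq_one.1 (Cfsg.Lib.PermGroup.AltAut.eq_one_of_centralizes (α := Fin n) (by simp; omega)
        (σ := (a⁻¹ * b)) fun g => ?_)
      have e := congrArg Subtype.val (DFunLike.congr_fun hab g)
      simp only [Φ, MulAut.conjNormal_apply] at e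
      rw [mul_inv_rev, inv_inv, show a⁻¹ * b * (g : Perm (Fin n)) * (b⁻¹ * a) =
        a⁻¹ * (b * (g : Perm (Fin n)) * b⁻¹) * a by group, ← e]
      group
    let P' : Subgroup (Perm (Fin n)) := ((P : Subgroup G).map G.subtype).comap Φ
    have hP' : IsPGroup r P' := (P.2.map G.subtype).comap_of_injective Φ hΦ
    have hodd : ∀ x : (P : Subgroup G), Odd (orderOf ((x : G) : MulAut (alternatingGroup (Fin n)))) := by
      intro x
      obtain ⟨j, hj⟩ := IsPGroup.iff_orderOf.mp P.2 x
      rw [Subgroup.orderOf_coe, Subgroup.orderOf_coe, hj]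
      exact ((Fact.out : r.Prime).odd_of_ne_two hr2).pow
    refine ⟨⟨fun x y => ?_⟩⟩
    obtain ⟨a, ha⟩ := mem_range_odd hn _ (hodd x)
    obtain ⟨b, hb⟩ := mem_range_odd hn _ (hodd y)
    have haP : a ∈ P' := ⟨x, x.2, ha.symm⟩
    have hbP : b ∈ P' := ⟨y, y.2, hb.symm⟩
    have := congrArg Φ (comm_of_small hrn P' hP' a haP b hbP)
    rw [map_mul, map_mul] at this
    apply Subtype.ext
    apply Subtype.ext
    show ((x : G) : MulAut (alternatingGroup (Fin n))) * (y : G) = (y : G) * (x : G)
    rw [← ha, ← hb]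
    exact this
  have both : p * p ≤ n ∧ q * q ≤ n → False := by
    rintro ⟨h1, h2⟩
    obtain ⟨σ, hσ⟩ := exists_pq Fact.out Fact.out hpq h1 h2
    refine h ⟨MulAut.conj σ, hG ⟨σ, rfl⟩⟩ ?_
    rw [Subgroup.orderOf_mk, orderOf_injective _ hinj, hσ]
  by_cases h1 : p * p ≤ n
  · right
    have : n < q * q := Nat.lt_of_not_le fun h2 => both ⟨h1, h2⟩
    exact key q (fun hq => by subst hq; omega) this
  · left
    exact key p (fun hp => by subst hp; omega) (by omega)

end Cfsg.Agent.S4231
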