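import Cfsg.Statements.S4236
import Mathlib.GroupTheory.Transfer
import Mathlib.GroupTheory.SpecificGroups.Cyclic
import Mathlib.GroupTheory.SpecificGroups.Alternating
import Mathlib.RingTheory.IntegralDomain

set_option autoImplicit false
open Cfsg

namespace Cfsg.Agent.S4236

open Equiv MulAction Subgroup

variable {α : Type*} [Fintype α] [DecidableEq α]

/-- The data attached to a point: a Sylow 17-subgroup of `H` fixing that point only. -/
structure PtData (H : Subgroup (Perm α)) (x : α) (P : Subgroup (Perm α)) : Prop where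
  le : P ≤ H
  pg : IsPGroup 17 P
  idx : ¬ 17 ∣ P.relIndex H
  fx : ∀ p ∈ P, p x = x
  uniq : ∀ y, (∀ p ∈ P, p y = y) → y = x
  nrm : ∀ h ∈ H, h x = x → ∀ p ∈ P, h * p * h⁻¹ ∈ P

def Good (H : Subgroup (Perm α)) : Prop :=
  (∀ x y : α, ∃ h ∈ H, h x = y) ∧ ∀ x, ∃ P, PtData H x P

instance : Fact (Nat.Prime 17) := ⟨by norm_num⟩

theorem good_descend {H M : Subgroup (Perm α)} (hH : Good H) (hle : M ≤ H)
    (hc : ∀ x P, PtData H x P → P ≤ M) : Good M := by
  choose P hP using hH.2
  have hPM : ∀ x, P x ≤ M := fun x => hc x (P x) (hP x)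
  have hidx : ∀ x, ¬ 17 ∣ (P x).relIndex M := fun x hd =>
    (hP x).idx (hd.trans ((relIndex_mul_relIndex (P x) M H (hPM x) hle) ▸ dvd_mul_right _ _))
  refine ⟨fun x y => ?_, fun x => ⟨P x, ⟨hPM x, (hP x).pg, hidx x, (hP x).fx, (hP x).uniq,
    fun h hh => (hP x).nrm h (hle hh)⟩⟩⟩
  have hs : ∀ z, IsPGroup 17 ((P z).subgroupOf M) := fun z =>
    (hP z).pg.of_equiv (subgroupOfEquivOfLe (hPM z)).symm
  obtain ⟨m, hm⟩ := exists_smul_eq M ((hs x).toSylow (hidx x)) ((hs y).toSylow (hidx y))
  refine ⟨m, m.2, (hP y).uniq _ fun q hq => ?_⟩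
  have h1 : (⟨q, hPM y hq⟩ : M) ∈ ((hs y).toSylow (hidx y) : Subgroup M) := by
    show (⟨q, hPM y hq⟩ : M) ∈ (P y).subgroupOf M
    rw [mem_subgroupOf]; exact hq
  rw [← hm, Sylow.coe_subgroup_smul, Subgroup.mem_pointwise_smul_iff_inv_smul_mem] at h1
  change _ ∈ (P x).subgroupOf M at h1
  rw [mem_subgroupOf, ← map_inv, MulAut.smul_def, MulAut.conj_apply] at h1
  have h2 := (hP x).fx _ h1
  simp only [inv_inv, coe_mul, coe_inv, Perm.mul_apply] at h2
  have h3 := congrArg (m : Perm α) h2
  simpa using h3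

variable {H P : Subgroup (Perm α)} {x y w z : α}

theorem orb_card (h35 : Fintype.card α = 35) (hP : PtData H x P) (hy : y ≠ x) :
    Nat.card (orbit P y) = 17 := by
  obtain ⟨n, hn⟩ := hP.pg.card_orbit y
  have hx : x ∉ orbit P y := by
    rintro ⟨p, hp⟩
    refine hy ((p : Perm α).injective ?_)
    rw [hP.fx _ p.2]
    exact hp
  have hlt : Nat.card (orbit P y) < 35 := by
    rw [Nat.card_coe_set_eq, ← h35, ← Nat.card_eq_fintype_card, ← Set.ncard_univ]
    exact Set.ncard_lt_ncard (Set.ssubset_univ_iff.2 fun h => hx (h ▸ Set.mem_univ x))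
      (Set.toFinite _)
  rcases n with _ | _ | n
  · exfalso
    apply hy
    apply hP.uniq
    intro p hp
    rw [pow_zero] at hn
    have := (Nat.card_eq_one_iff_unique.1 hn).1
    exact congrArg Subtype.val (Subsingleton.elim
      (⟨p y, ⟨⟨p, hp⟩, rfl⟩⟩ : orbit P y) ⟨y, mem_orbit_self y⟩)
  · simpa using hn
  · exfalso
    have : 17 ^ 2 ≤ 17 ^ (n + 1 + 1) := Nat.pow_le_pow_right (by norm_num) (by omega)
    omega

theorem orb_mem_symm (h : w ∈ orbit P y) : orbit P w = orbit P y := orbit_eq_iff.2 h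

theorem not_orb (hP : PtData H x P) (hy : y ≠ x) : x ∉ orbit P y := by
  rintro ⟨p, hp⟩
  refine hy ((p : Perm α).injective ?_)
  rw [hP.fx _ p.2]
  exact hp

theorem cover (h35 : Fintype.card α = 35) (hP : PtData H x P) (hy : y ≠ x) (hw : w ≠ x)
    (hwy : w ∉ orbit P y) (hz : z ≠ x) : z ∈ orbit P y ∨ z ∈ orbit P w := by
  by_contra hc
  push Not at hc
  have d1 : Disjoint (orbit P y) (orbit P w) := by
    rw [Set.disjoint_left]
    intro a ha hb
    exact hwy ((orb_mem_symm ha).symm.trans (orb_mem_symm hb) ▸ mem_orbit_self w)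
  have d2 : Disjoint (orbit P y ∪ orbit P w) (orbit P z) := by
    rw [Set.disjoint_left]
    rintro a (ha | ha) hb
    · exact hc.1 ((orb_mem_symm ha).symm.trans (orb_mem_symm hb) ▸ mem_orbit_self z)
    · exact hc.2 ((orb_mem_symm ha).symm.trans (orb_mem_symm hb) ▸ mem_orbit_self z)
  have h1 := orb_card h35 hP hy
  have h2 := orb_card h35 hP hw
  have h3 := orb_card h35 hP hz
  rw [Nat.card_coe_set_eq] at h1 h2 h3
  have h4 := Set.ncard_union_eq d2 (Set.toFinite _) (Set.toFinite _)
  rw [Set.ncard_union_eq d1 (Set.toFinite _) (Set.toFinite _), h1, h2, h3] at h4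
  have h5 := Set.ncard_le_ncard (Set.subset_univ (orbit P y ∪ orbit P w ∪ orbit P z))
  rw [Set.ncard_univ, Nat.card_eq_fintype_card, h35, h4] at h5
  omega

theorem range_card (h35 : Fintype.card α = 35) (hP : PtData H x P) (hy : y ≠ x) :
    Nat.card (toPermHom P (orbit P y)).range = 17 := by
  obtain ⟨k, hk⟩ := (hP.pg.of_surjective _
    (toPermHom P (orbit P y)).rangeRestrict_surjective).exists_card_eq
  have hd := Subgroup.card_subgroup_dvd_card (toPermHom P (orbit P y)).range
  rw [hk, Nat.card_perm, orb_card h35 hP hy] at hd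
  rcases k with _ | _ | k
  · exfalso
    apply hy
    apply hP.uniq
    intro p hp
    rw [pow_zero, Subgroup.card_eq_one, MonoidHom.range_eq_bot_iff] at hk
    have := congrArg (fun f => ((f ⟨p, hp⟩ : Perm (orbit P y)) ⟨y, mem_orbit_self y⟩ : α)) hk
    exact this
  · simpa using hk
  · exfalso
    have : 17 ^ 2 ∣ Nat.factorial 17 := (pow_dvd_pow 17 (by omega : 2 ≤ k + 2)).trans hd
    norm_num [Nat.factorial] at this

theorem orb_comm (h35 : Fintype.card α = 35) (hP : PtData H x P) (hy : y ≠ x)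
    {p p' : Perm α} (hp : p ∈ P) (hp' : p' ∈ P) (hz : z ∈ orbit P y) :
    p (p' z) = p' (p z) := by
  have := isCyclic_of_prime_card (range_card h35 hP hy)
  have h := IsCyclic.commGroup (α := (toPermHom P (orbit P y)).range) |>.mul_comm
    ⟨_, ⟨⟨p, hp⟩, rfl⟩⟩ ⟨_, ⟨⟨p', hp'⟩, rfl⟩⟩
  exact congrArg (fun f => (((f : (toPermHom P (orbit P y)).range) : Perm (orbit P y))
    ⟨z, hz⟩ : α)) h

theorem orb_free (h35 : Fintype.card α = 35) (hP : PtData H x P) (hy : y ≠ x)
    {p : Perm α} (hp : p ∈ P) (hz : z ∈ orbit P y) (hfix : p z = z) (hw : w ∈ orbit P y) :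
    p w = w := by
  rw [← orb_mem_symm hz] at hw
  obtain ⟨q, rfl⟩ := hw
  show p ((q : Perm α) z) = (q : Perm α) z
  rw [orb_comm h35 hP hy hp q.2 hz, hfix]

/-- A prime order element fixing a point is an involution or a 17-element. -/
theorem no_odd (h35 : Fintype.card α = 35) (hP : PtData H x P) {t : Perm α} (ht : t ∈ H)
    (htx : t x = x) {q : ℕ} (hq : q.Prime) (ho : orderOf t = q) (h2 : q ≠ 2) (h17 : q ≠ 17) :
    False := by
  have htq : t ^ q = 1 := ho ▸ pow_orderOf_eq_one t
  have hn : ∀ p ∈ P, t * p * t⁻¹ ∈ P := hP.nrm t ht htx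
  have htx' : t⁻¹ x = x := by rw [Perm.inv_eq_iff_eq, htx]
  have hn' : ∀ p ∈ P, t⁻¹ * p * t⁻¹⁻¹ ∈ P := hP.nrm t⁻¹ (H.inv_mem ht) htx'
  have hne : ∀ y, y ≠ x → t y ≠ x := fun y hy h => hy (t.injective (h.trans htx.symm))
  have hmap : ∀ y z, z ∈ orbit P y → t z ∈ orbit P (t y) := by
    rintro y z ⟨p, rfl⟩
    exact ⟨⟨_, hn p p.2⟩, by simp [Subgroup.smul_def]⟩
  have hpres : ∀ y, y ≠ x → t y ∈ orbit P y := by
    intro y hy
    by_contra hc
    have h2y : t (t y) ∈ orbit P y := by
      rcases cover h35 hP hy (hne y hy) hc (hne _ (hne y hy)) with h | ⟨p, hp⟩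
      · exact h
      · exfalso
        refine hc ⟨⟨_, hn' p p.2⟩, ?_⟩
        show (t⁻¹ * (p : Perm α) * t⁻¹⁻¹) y = t y
        simp only [inv_inv, Perm.mul_apply]
        rw [Perm.inv_eq_iff_eq]
        exact hp
    have heven : ∀ k, (t ^ (2 * k)) y ∈ orbit P y := by
      intro k
      induction k with
      | zero => exact mem_orbit_self y
      | succ k ih =>
        rw [show 2 * (k + 1) = 2 + 2 * k by ring, pow_add, Perm.mul_apply]
        have := hmap _ _ (hmap _ _ ih)
        rw [orb_mem_symm h2y] at this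
        simpa [pow_two] using this
    obtain ⟨k, hk⟩ := hq.odd_of_ne_two h2
    have := hmap _ _ (heven k)
    rw [← Perm.mul_apply, ← pow_succ', ← hk, htq] at this
    exact hc ((orb_mem_symm this).symm.trans (orb_mem_symm (mem_orbit_self y)) ▸
      mem_orbit_self (t y))
  have hall : t = 1 := by
    ext y
    show t y = y
    by_cases hy : y = x
    · rw [hy, htx]
    have hiff : ∀ a, t a ∈ orbit P y ↔ a ∈ orbit P y := by
      intro a
      constructor <;> intro ha
      · by_cases hax : a = x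
        · subst hax
          rw [htx] at ha
          exact absurd ha (not_orb hP hy)
        · exact (orb_mem_symm (hpres a hax)).symm.trans (orb_mem_symm ha) ▸ mem_orbit_self a
      · have := hmap _ _ ha
        rwa [orb_mem_symm (hpres y hy)] at this
    set τ : Perm (orbit P y) := t.subtypePerm hiff with hτ
    have hτq : τ ^ q = 1 := by
      ext a
      simp [hτ, Perm.subtypePerm_pow, htq]
    have : Fact q.Prime := ⟨hq⟩
    have := Fintype.ofFinite (orbit P y)
    obtain ⟨z, hz⟩ := Perm.exists_fixed_point_of_prime (p := q) (n := 1) (σ := τ)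
      (by
        rw [← Nat.card_eq_fintype_card, orb_card h35 hP hy]
        intro h
        exact h17 ((Nat.prime_dvd_prime_iff_eq hq (by norm_num)).1 h))
      (by rw [pow_one]; exact hτq)
    set C := (toPermHom P (orbit P y)).range with hC
    have hconj : ∀ (s : Perm α) (σ : Perm (orbit P y)) (_ : ∀ a, ((σ a : orbit P y) : α) = s a)
        (hs : ∀ p ∈ P, s * p * s⁻¹ ∈ P), ∀ c ∈ C, σ * c * σ⁻¹ ∈ C := by
      rintro s σ hσ hs _ ⟨p, rfl⟩
      refine ⟨⟨_, hs p p.2⟩, ?_⟩
      ext a
      show (s * (p : Perm α) * s⁻¹) (a : α) = _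
      simp only [Perm.mul_apply]
      rw [hσ]
      show s ((p : Perm α) (s⁻¹ a)) = s ((p : Perm α) ((σ⁻¹ a : orbit P y) : α))
      congr 2
      rw [Perm.inv_eq_iff_eq, ← hσ]
      simp
    have hτN : τ ∈ normalizer (C : Set (Perm (orbit P y))) := by
      rw [Subgroup.mem_set_normalizer_iff]
      intro c
      refine ⟨fun hc => hconj t τ (fun a => rfl) hn c hc, fun hc => ?_⟩
      have := hconj t⁻¹ τ⁻¹ (fun a => by
        rw [eq_comm, Perm.inv_eq_iff_eq]
        show (a : α) = ((τ (τ⁻¹ a) : orbit P y) : α)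
        simp) hn' _ hc
      simpa [mul_assoc] using this
    have hf : C.normalizerMonoidHom ⟨τ, hτN⟩ = 1 := by
      set f := C.normalizerMonoidHom ⟨τ, hτN⟩
      have h1 : orderOf f ∣ q := orderOf_dvd_of_pow_eq_one (by
        rw [← map_pow, show (⟨τ, hτN⟩ : normalizer (C : Set (Perm (orbit P y)))) ^ q = 1 from
          Subtype.ext hτq, map_one])
      have h16 : orderOf f ∣ 16 := by
        have := isCyclic_of_prime_card (range_card h35 hP hy)
        have h := orderOf_dvd_natCard f
        rwa [IsCyclic.card_mulAut, range_card h35 hP hy, Nat.totient_prime (by norm_num)] at h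
      have hco : Nat.Coprime q (2 ^ 4) :=
        Nat.Coprime.pow_right 4 ((Nat.coprime_primes hq Nat.prime_two).2 h2)
      rw [← orderOf_eq_one_iff]
      exact Nat.eq_one_of_dvd_coprimes hco h1 h16
    rw [← MonoidHom.mem_ker, normalizerMonoidHom_ker, mem_subgroupOf,
      mem_centralizer_iff] at hf
    have hmem : (⟨y, mem_orbit_self y⟩ : orbit P y).1 ∈ orbit P (z : α) := by
      rw [orb_mem_symm z.2]; exact mem_orbit_self y
    obtain ⟨p, hp⟩ := hmem
    have h := congrArg (fun g : Perm (orbit P y) => ((g z : orbit P y) : α))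
      (hf _ ⟨p, rfl⟩)
    simp only [Perm.mul_apply] at h
    rw [hz] at h
    change (p : Perm α) (z : α) = t ((p : Perm α) (z : α)) at h
    change (p : Perm α) (z : α) = y at hp
    rw [hp] at h
    exact h.symm
  rw [hall, orderOf_one] at ho
  exact hq.ne_one ho.symm

/-- An involution fixing `x` and commuting with the Sylow subgroup at `x` is odd. -/
theorem no_inv (h35 : Fintype.card α = 35) (hP : PtData H x P) {t : Perm α} (htx : t x = x)
    (ho : orderOf t = 2) (hcm : ∀ p ∈ P, t * p = p * t) (hs : Perm.sign t = 1) : False := by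
  have ht2 : ∀ a, t (t a) = a := fun a => by
    rw [← Perm.mul_apply, ← pow_two, ← ho, pow_orderOf_eq_one]; rfl
  have hfo : ∀ y, t y = y → ∀ a ∈ orbit P y, t a = a := by
    rintro y hy _ ⟨p, rfl⟩
    show t ((p : Perm α) y) = (p : Perm α) y
    rw [← Perm.mul_apply, hcm p p.2, Perm.mul_apply, hy]
  have hne : ∀ y, y ≠ x → t y ≠ x := fun y hy h => hy (t.injective (h.trans htx.symm))
  have hsupp : t.support = Finset.univ.erase x := by
    ext y
    simp only [Perm.mem_support, Finset.mem_erase, Finset.mem_univ, and_true]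
    refine ⟨fun h hyx => h (hyx ▸ htx), fun hy hty => ?_⟩
    have hone : t = 1 := by
      ext w
      show t w = w
      by_contra hw
      have hwx : w ≠ x := fun h => hw (h ▸ htx)
      have hwy : w ∉ orbit P y := fun h => hw (hfo y hty w h)
      have htw : t w ∈ orbit P w := by
        rcases cover h35 hP hy hwx hwy (hne w hwx) with h | h
        · exact absurd (t.injective (hfo y hty _ h)) hw
        · exact h
      have hiff : ∀ a, t a ∈ orbit P w ↔ a ∈ orbit P w := by
        have hf : ∀ a, a ∈ orbit P w → t a ∈ orbit P w := by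
          rintro _ ⟨p, rfl⟩
          show t ((p : Perm α) w) ∈ orbit P w
          rw [← Perm.mul_apply, hcm p p.2, Perm.mul_apply]
          rw [← orb_mem_symm htw]
          exact ⟨p, rfl⟩
        exact fun a => ⟨fun h => ht2 a ▸ hf _ h, hf a⟩
      have := Fintype.ofFinite (orbit P w)
      obtain ⟨z, hz⟩ := Perm.exists_fixed_point_of_prime (p := 2) (n := 1)
        (σ := t.subtypePerm hiff)
        (by rw [← Nat.card_eq_fintype_card, orb_card h35 hP hwx]; norm_num)
        (by ext a; simp [pow_two, ht2])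
      refine hw (hfo z (congrArg Subtype.val hz) w ?_)
      rw [orb_mem_symm z.2]
      exact mem_orbit_self w
    rw [hone, orderOf_one] at ho
    norm_num at ho
  obtain ⟨n, hn⟩ := Perm.cycleType_prime_order (σ := t) (by rw [ho]; norm_num)
  have hsum := Perm.sum_cycleType t
  rw [hn, hsupp, Finset.card_erase_of_mem (Finset.mem_univ x), Finset.card_univ, h35,
    Multiset.sum_replicate, ho, smul_eq_mul] at hsum
  rw [Perm.sign_of_cycleType, hn, Multiset.sum_replicate, Multiset.card_replicate, ho,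
    smul_eq_mul, show n + 1 = 17 by omega] at hs
  exact absurd hs (by decide)

/-- An element of `H` fixing `x` of 17-power order lies in the Sylow subgroup at `x`. -/
theorem mem_syl (hP : PtData H x P) {c : Perm α} (hc : c ∈ H) (hcx : c x = x)
    (hpg : IsPGroup 17 (zpowers c)) : c ∈ P := by
  have hnorm : zpowers c ≤ normalizer (P : Set (Perm α)) := by
    rw [zpowers_le, Subgroup.mem_set_normalizer_iff]
    intro p
    refine ⟨fun hp => hP.nrm c hc hcx p hp, fun hp => ?_⟩
    have := hP.nrm c⁻¹ (H.inv_mem hc) (by rw [Perm.inv_eq_iff_eq, hcx]) _ hp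
    simpa [mul_assoc] using this
  have hsup := hpg.to_sup_of_normal_right' hP.pg hnorm
  have hle : zpowers c ⊔ P ≤ H := sup_le (by rwa [zpowers_le]) hP.le
  have h1 : P.relIndex (zpowers c ⊔ P) = 1 := by
    obtain ⟨k, hk⟩ := (hsup.to_le (le_refl _)).exists_card_eq
    have hd : P.relIndex (zpowers c ⊔ P) ∣ 17 ^ k := hk ▸ relIndex_dvd_card ..
    obtain ⟨j, -, hj⟩ := (Nat.dvd_prime_pow (by norm_num)).1 hd
    rcases j with _ | j
    · simpa using hj
    · exfalso
      apply hP.idx
      rw [← relIndex_mul_relIndex P (zpowers c ⊔ P) H le_sup_right hle, hj]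
      exact (dvd_pow_self 17 (by omega)).trans (dvd_mul_right _ _)
  exact relIndex_eq_one.1 h1 (le_sup_left (α := Subgroup (Perm α)) (mem_zpowers c))

theorem not_three (h35 : Fintype.card α = 35) (hH : Good H) : ¬ 3 ∣ Nat.card H := by
  intro h
  obtain ⟨t, ht⟩ := exists_prime_orderOf_dvd_card' 3 h
  have ho : orderOf (t : Perm α) = 3 := by rw [orderOf_coe, ht]
  obtain ⟨x, hx⟩ := Perm.exists_fixed_point_of_prime (p := 3) (n := 1) (σ := (t : Perm α))
    (by rw [h35]; norm_num) (by rw [pow_one, ← ho, pow_orderOf_eq_one])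
  obtain ⟨P, hP⟩ := hH.2 x
  exact no_odd h35 hP t.2 hx (by norm_num) ho (by norm_num) (by norm_num)

theorem card_syl (h35 : Fintype.card α = 35) (hH : Good H) (hP : PtData H x P) :
    Nat.card P = 17 := by
  obtain ⟨y, hy⟩ : ∃ y, y ≠ x := Fintype.exists_ne_of_one_lt_card (by omega) x
  set ψ := toPermHom P (orbit P y)
  obtain ⟨c₀, hc₀⟩ | hinj : (∃ c ∈ ψ.ker, c ≠ 1) ∨ ψ.ker = ⊥ := by
    by_cases h : ψ.ker = ⊥
    · exact Or.inr h
    · exact Or.inl ((Subgroup.ne_bot_iff_exists_ne_one.1 h).elim fun a ha =>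
        ⟨a, a.2, fun he => ha (Subtype.ext he)⟩)
  swap
  · rw [← range_card h35 hP hy]
    exact Nat.card_congr ((MonoidHom.ofInjective ((ψ.ker_eq_bot_iff).1 hinj)).toEquiv)
  exfalso
  obtain ⟨hc₀, hc1⟩ := hc₀
  set c : Perm α := (c₀ : Perm α)
  have hcP : c ∈ P := c₀.2
  have hcO : ∀ a ∈ orbit P y, c a = a := fun a ha =>
    congrArg (fun f : Perm (orbit P y) => ((f ⟨a, ha⟩ : orbit P y) : α))
      (MonoidHom.mem_ker.1 hc₀)
  obtain ⟨w, hw⟩ : ∃ w, c w ≠ w := by
    by_contra h
    push Not at h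
    exact hc1 (Subtype.ext (Equiv.ext h))
  have hwx : w ≠ x := fun h => hw (h ▸ hP.fx c hcP)
  have hwy : w ∉ orbit P y := fun h => hw (hcO w h)
  have hcpg : IsPGroup 17 (zpowers c) := hP.pg.to_le (zpowers_le.2 hcP)
  have hcorb : ∀ {R : Subgroup (Perm α)}, c ∈ R → ∀ {x'}, PtData H x' R → w ≠ x' →
      orbit (zpowers c) w = orbit R w := by
    intro R hcR x' hR hwx'
    refine Set.eq_of_subset_of_ncard_le (fun a ⟨g, hg⟩ => ?_) ?_ (Set.toFinite _)
    · exact ⟨⟨g, (zpowers_le.2 hcR) g.2⟩, hg⟩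
    · rw [← Nat.card_coe_set_eq, ← Nat.card_coe_set_eq, orb_card h35 hR hwx']
      obtain ⟨n, hn⟩ := hcpg.card_orbit w
      rcases n with _ | n
      · exfalso
        rw [pow_zero] at hn
        have := (Nat.card_eq_one_iff_unique.1 hn).1
        exact hw (congrArg Subtype.val (Subsingleton.elim
          (⟨c w, ⟨⟨c, mem_zpowers c⟩, rfl⟩⟩ : orbit (zpowers c) w) ⟨w, mem_orbit_self w⟩))
      · rw [hn]; exact Nat.le_self_pow (by omega) 17
  obtain ⟨Q, hQ⟩ := hH.2 y
  have hcQ : c ∈ Q := mem_syl hQ (hP.le hcP) (hcO y (mem_orbit_self y)) hcpg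
  have hwy' : w ≠ y := by
    rintro rfl
    exact hwy (mem_orbit_self _)
  have hO2 : orbit Q w = orbit P w := (hcorb hcQ hQ hwy').symm.trans (hcorb hcP hP hwx)
  have hcards : ∀ R x', PtData H x' R → Nat.card R = Nat.card P := by
    intro R x' hR
    obtain ⟨i, hi⟩ := hR.pg.exists_card_eq
    obtain ⟨j, hj⟩ := hP.pg.exists_card_eq
    have e1 := relIndex_mul_relIndex ⊥ R H bot_le hR.le
    have e2 := relIndex_mul_relIndex ⊥ P H bot_le hP.le
    rw [relIndex_bot_left, relIndex_bot_left] at e1 e2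
    have a1 : 17 ^ i ∣ 17 ^ j * P.relIndex H := by
      rw [← hj, e2, ← e1, ← hi]; exact dvd_mul_right _ _
    have a2 : 17 ^ j ∣ 17 ^ i * R.relIndex H := by
      rw [← hi, e1, ← e2, ← hj]; exact dvd_mul_right _ _
    have b1 := (Nat.Coprime.pow_left i ((Nat.Prime.coprime_iff_not_dvd (by norm_num)).2
      hP.idx)).dvd_of_dvd_mul_right a1
    have b2 := (Nat.Coprime.pow_left j ((Nat.Prime.coprime_iff_not_dvd (by norm_num)).2
      hR.idx)).dvd_of_dvd_mul_right a2
    rw [hi, hj]
    exact Nat.dvd_antisymm b1 b2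
  have hbig : 17 < Nat.card P := by
    have h := Nat.card_congr (QuotientGroup.quotientKerEquivRange ψ).toEquiv
    rw [range_card h35 hP hy, ← index_eq_card] at h
    have h' := ψ.ker.card_mul_index
    rw [h] at h'
    have : 1 < Nat.card ψ.ker := by
      rw [one_lt_card_iff_ne_bot]
      exact fun hb => hc1 ((Subgroup.eq_bot_iff_forall _).1 hb c₀ hc₀)
    omega
  -- in each Sylow subgroup moving `w`, some nontrivial element fixes the orbit of `w` pointwise
  have hfix : ∀ R x', PtData H x' R → w ≠ x' →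
      ∃ e ∈ R, (∀ a ∈ orbit R w, e a = a) ∧ e ≠ 1 := by
    intro R x' hR hwx'
    set φ := toPermHom R (orbit R w)
    by_contra hcon
    push Not at hcon
    have hk : φ.ker = ⊥ := by
      rw [Subgroup.eq_bot_iff_forall]
      intro g hg
      exact Subtype.ext (hcon g g.2 fun a ha =>
        congrArg (fun f : Perm (orbit R w) => ((f ⟨a, ha⟩ : orbit R w) : α))
          (MonoidHom.mem_ker.1 hg))
    have := Nat.card_congr ((MonoidHom.ofInjective ((φ.ker_eq_bot_iff).1 hk)).toEquiv)
    rw [range_card h35 hR hwx', hcards R x' hR] at this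
    omega
  obtain ⟨e, heP, he, he1⟩ := hfix P x hP hwx
  obtain ⟨d, hdQ, hd, hd1⟩ := hfix Q y hQ hwy'
  rw [hO2] at hd
  set K : Subgroup (Perm α) := H ⊓ ⨅ a : orbit P w, stabilizer (Perm α) (a : α)
  have hmemK : ∀ g ∈ H, (∀ a ∈ orbit P w, g a = a) → g ∈ K := fun g hg h =>
    ⟨hg, Subgroup.mem_iInf.2 fun a => h a a.2⟩
  have hey : e y ≠ y := by
    intro h
    apply he1
    ext a
    show e a = a
    by_cases hax : a = x
    · rw [hax, hP.fx e heP]
    rcases cover h35 hP hy hwx hwy hax with ha | ha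
    · exact orb_free h35 hP hy heP (mem_orbit_self y) h ha
    · exact he a ha
  have hxw' : x ≠ y := hy.symm
  have hxO2 : x ∉ orbit Q w := hO2 ▸ not_orb hP hwx
  have hdx : d x ≠ x := by
    intro h
    apply hd1
    ext a
    show d a = a
    by_cases hay : a = y
    · rw [hay, hQ.fx d hdQ]
    rcases cover h35 hQ hwy' hxw' hxO2 hay with ha | ha
    · exact hd a (hO2 ▸ ha)
    · exact orb_free h35 hQ hxw' hdQ (mem_orbit_self x) h ha
  have hdxO : d x ∈ orbit P y := by
    rcases cover h35 hP hy hwx hwy hdx with h | h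
    · exact h
    · exact absurd (d.injective (hd _ h).symm ▸ h) (not_orb hP hwx)
  have hsub1 : insert x (orbit P y) ⊆ orbit K x := by
    rintro a (rfl | ha)
    · exact mem_orbit_self _
    rw [← orb_mem_symm hdxO] at ha
    have hedx : e (d x) ≠ d x := fun h =>
      hey (orb_free h35 hP hy heP hdxO h (mem_orbit_self y))
    have hz : orbit (zpowers e) (d x) = orbit P (d x) := by
      refine Set.eq_of_subset_of_ncard_le (fun a ⟨g, hg⟩ => ?_) ?_ (Set.toFinite _)
      · exact ⟨⟨g, (zpowers_le.2 heP) g.2⟩, hg⟩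
      · rw [← Nat.card_coe_set_eq, ← Nat.card_coe_set_eq, orb_card h35 hP hdx]
        obtain ⟨n, hn⟩ := (hP.pg.to_le (zpowers_le.2 heP)).card_orbit (d x)
        rcases n with _ | n
        · exfalso
          rw [pow_zero] at hn
          have := (Nat.card_eq_one_iff_unique.1 hn).1
          exact hedx (congrArg Subtype.val (Subsingleton.elim
            (⟨e (d x), ⟨⟨e, mem_zpowers e⟩, rfl⟩⟩ : orbit (zpowers e) (d x))
            ⟨d x, mem_orbit_self _⟩))
        · rw [hn]; exact Nat.le_self_pow (by omega) 17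
    rw [← hz] at ha
    obtain ⟨g, rfl⟩ := ha
    have hg : (g : Perm α) ∈ K := (zpowers_le.2 (hmemK e (hP.le heP) he)) g.2
    exact ⟨⟨_, K.mul_mem hg (hmemK d (hQ.le hdQ) hd)⟩, rfl⟩
  have hsub2 : orbit K x ⊆ (orbit P w)ᶜ := by
    rintro _ ⟨g, rfl⟩ hg
    have h1 := Subgroup.mem_iInf.1 g.2.2 ⟨_, hg⟩
    exact not_orb hP hwx ((g : Perm α).injective h1 ▸ hg)
  have hcardO : Nat.card (orbit K x) = 18 := by
    have h1 := Set.ncard_le_ncard hsub1 (Set.toFinite _)
    have h2 := Set.ncard_le_ncard hsub2 (Set.toFinite _)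
    rw [Set.ncard_insert_of_notMem (not_orb hP hy) (Set.toFinite _), ← Nat.card_coe_set_eq,
      orb_card h35 hP hy, ← Nat.card_coe_set_eq] at h1
    rw [Set.ncard_compl, ← Nat.card_coe_set_eq (orbit P w), orb_card h35 hP hwx,
      Nat.card_eq_fintype_card, h35, ← Nat.card_coe_set_eq] at h2
    simp only [Nat.reduceSub] at h2
    omega
  have hdvd : Nat.card (orbit K x) ∣ Nat.card K := by
    rw [Nat.card_congr (MulAction.orbitEquivQuotientStabilizer K x)]
    exact Subgroup.card_quotient_dvd_card _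
  rw [hcardO] at hdvd
  exact not_three h35 hH
    ((Nat.dvd_trans (by norm_num) hdvd).trans (card_dvd_of_le (inf_le_left : K ≤ H)))

theorem sign_syl (hP : PtData H x P) {p : Perm α} (hp : p ∈ P) : Perm.sign p = 1 := by
  obtain ⟨k, hk⟩ := IsPGroup.iff_orderOf.1 hP.pg ⟨p, hp⟩
  have h := congrArg Perm.sign (pow_orderOf_eq_one p)
  rw [Subgroup.orderOf_mk] at hk
  rw [hk, map_pow, map_one] at h
  rcases Int.units_eq_one_or (Perm.sign p) with h' | h'
  · exact h'
  · rw [h', Odd.neg_one_pow (Odd.pow (by decide))] at h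
    exact absurd h (by decide)

theorem no_good (h35 : Fintype.card α = 35) (hex : ∃ H : Subgroup (Perm α), Good H) : False := by
  obtain ⟨H, hH, hmin⟩ := WellFounded.has_min (wellFounded_lt (α := Subgroup (Perm α)))
    {H | Good H} hex
  have hmin' : ∀ M ≤ H, (∀ x P, PtData H x P → P ≤ M) → H ≤ M := by
    intro M hM hc
    rcases eq_or_lt_of_le hM with h | h
    · exact h.ge
    · exact absurd h (hmin M (good_descend hH hM hc))
  have halt : ∀ h ∈ H, Perm.sign h = 1 := fun h hh =>
    (hmin' (H ⊓ alternatingGroup α) inf_le_left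
      (fun x P hP => le_inf hP.le fun p hp => Perm.mem_alternatingGroup.2 (sign_syl hP hp))
      hh).2
  have : Nonempty α := Fintype.card_pos_iff.1 (by omega)
  let x : α := Classical.arbitrary α
  obtain ⟨P, hP⟩ := hH.2 x
  have hcP := card_syl h35 hH hP
  set N : Subgroup H := stabilizer H x
  have hcardH : Nat.card H = 35 * Nat.card N := by
    have h1 : orbit H x = Set.univ := Set.eq_univ_of_forall fun y =>
      let ⟨h, hh, he⟩ := hH.1 x y; ⟨⟨h, hh⟩, he⟩
    rw [← N.card_mul_index, index_stabilizer, h1, Set.ncard_univ,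
      Nat.card_eq_fintype_card (α := α), h35, mul_comm]
  have hPN : P.subgroupOf H ≤ N := fun g hg => hP.fx g hg
  have hNdiv : 17 ∣ Nat.card N := by
    have h := card_dvd_of_le hPN
    rwa [Nat.card_congr (subgroupOfEquivOfLe hP.le).toEquiv, hcP] at h
  obtain ⟨m, hm⟩ := hNdiv
  have hm17 : ¬ 17 ∣ m := by
    intro hd
    apply hP.idx
    have h := relIndex_mul_relIndex ⊥ P H bot_le hP.le
    rw [relIndex_bot_left, relIndex_bot_left, hcP, hcardH, hm] at h
    have : P.relIndex H = 35 * m := by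
      apply Nat.eq_of_mul_eq_mul_left (by norm_num : 0 < 17)
      rw [h]; ring
    rw [this]
    exact hd.mul_left 35
  have hmpow : m = 2 ^ m.primeFactorsList.length := by
    refine Nat.eq_prime_pow_of_unique_prime_dvd (fun h => ?_) fun {q} hq hqd => ?_
    · rw [h, mul_zero] at hm
      exact Nat.card_pos.ne' hm
    by_contra h2
    have : Fact q.Prime := ⟨hq⟩
    obtain ⟨t, ht⟩ := exists_prime_orderOf_dvd_card' (G := N) q (hm ▸ hqd.mul_left 17)
    refine no_odd h35 hP (t : H).2 t.2 hq ?_ h2 (fun h => hm17 (h ▸ hqd))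
    rw [orderOf_coe, orderOf_coe, ht]
  -- the Sylow 2-subgroup is cyclic
  have : Fact (Nat.Prime 2) := ⟨Nat.prime_two⟩
  let S₀ : Sylow 2 N := default
  have hNnorm : ∀ g : N, ((g : H) : Perm α) ∈ normalizer (P : Set (Perm α)) := by
    intro g
    rw [Subgroup.mem_set_normalizer_iff]
    intro p
    refine ⟨fun hp => hP.nrm _ (g : H).2 g.2 p hp, fun hp => ?_⟩
    have := hP.nrm _ (g⁻¹ : N).1.2 (g⁻¹ : N).2 _ hp
    simpa [mul_assoc] using this
  let f : N →* MulAut P := P.normalizerMonoidHom.comp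
    ((H.subtype.comp N.subtype).codRestrict _ hNnorm)
  have hker : Function.Injective (f.comp (S₀ : Subgroup N).subtype) := by
    rw [← MonoidHom.ker_eq_bot_iff, Subgroup.eq_bot_iff_forall]
    intro g hg
    by_contra hg1
    obtain ⟨k, hk⟩ := IsPGroup.iff_orderOf.1 S₀.2 g
    rcases k with _ | k
    · exact hg1 (orderOf_eq_one_iff.1 (by simpa using hk))
    have hg' : ((f.comp (S₀ : Subgroup N).subtype).ker).subtype ⟨g, hg⟩ = g := rfl
    set t := g ^ 2 ^ k
    have hto : orderOf t = 2 := by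
      rw [orderOf_pow' _ (by positivity), hk,
        Nat.gcd_eq_right (pow_dvd_pow 2 (by omega)), pow_succ, Nat.mul_div_cancel_left _
          (by positivity)]
    have htk : f ((t : S₀) : N) = 1 := by
      have : (f.comp (S₀ : Subgroup N).subtype) t = 1 := by
        simp only [t, map_pow, MonoidHom.mem_ker.1 hg, one_pow]
      exact this
    rw [← MonoidHom.mem_ker] at htk
    simp only [f] at htk
    rw [MonoidHom.mem_ker, MonoidHom.comp_apply, ← MonoidHom.mem_ker, normalizerMonoidHom_ker,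
      mem_subgroupOf, mem_centralizer_iff] at htk
    refine no_inv h35 hP ((t : S₀) : N).2 ?_ (fun p hp => (htk p hp).symm)
      (halt _ ((t : S₀) : N).1.2)
    rw [orderOf_coe, orderOf_coe, orderOf_coe, hto]
  have hcycP : IsCyclic P := isCyclic_of_prime_card hcP
  have : IsCyclic (ZMod (Nat.card P))ˣ := by
    rw [hcP]; infer_instance
  have hcycAut : IsCyclic (MulAut P) :=
    (IsCyclic.mulAutMulEquiv (G := P)).isCyclic.2 inferInstance
  have hS0cyc : IsCyclic S₀ := isCyclic_of_injective _ hker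
  let T : Subgroup H := (S₀ : Subgroup N).map N.subtype
  have hTpg : IsPGroup 2 T := S₀.2.map N.subtype
  have hTidx : ¬ 2 ∣ T.index := by
    have : IsPretransitive H α := ⟨fun a b => let ⟨g, hg, he⟩ := hH.1 a b; ⟨⟨g, hg⟩, he⟩⟩
    rw [index_map_subtype, index_stabilizer_of_transitive]
    · intro h
      rcases (Nat.prime_two.dvd_mul).1 h with h | h
      · exact S₀.not_dvd_index h
      · rw [Nat.card_eq_fintype_card, h35] at h
        norm_num at h
  let S : Sylow 2 H := hTpg.toSylow hTidx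
  have hcycS : IsCyclic S := isCyclic_of_surjective
    (((S₀ : Subgroup N).equivMapOfInjective N.subtype (subtype_injective N)).toMonoidHom)
    (MulEquiv.surjective _)
  by_cases ha : m = 1
  · subst ha
    -- order 595
    have h595 : Nat.card H = 595 := by rw [hcardH, hm]
    have : Fact (Nat.Prime 5) := ⟨by norm_num⟩
    let F : Sylow 5 H := default
    have hF : Nat.card F = 5 := by
      rw [F.card_eq_multiplicity, h595]
      have : Nat.factorization 595 5 = 1 := by
        rw [show (595 : ℕ) = 5 ^ 1 * 119 by norm_num,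
          Nat.factorization_mul (by norm_num) (by norm_num), Finsupp.add_apply,
          Nat.Prime.factorization_pow (by norm_num), Finsupp.single_eq_same,
          Nat.factorization_eq_zero_of_not_dvd (by norm_num : ¬ 5 ∣ 119)]
      rw [this, pow_one]
    have hFi : (F : Subgroup H).index = 119 := by
      have h := (F : Subgroup H).card_mul_index
      rw [h595, hF] at h
      omega
    have hn5 : Nat.card (Sylow 5 H) = 1 := by
      have h1 := F.card_dvd_index
      rw [hFi] at h1
      have h2 := card_sylow_modEq_one 5 H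
      rw [Nat.ModEq] at h2
      have h3 : Nat.card (Sylow 5 H) ∈ Nat.divisors 119 := Nat.mem_divisors.2 ⟨h1, by norm_num⟩
      rw [show Nat.divisors 119 = {1, 7, 17, 119} by decide] at h3
      simp only [Finset.mem_insert, Finset.mem_singleton] at h3
      omega
    have := (Nat.card_eq_one_iff_unique.1 hn5).1
    have : (F : Subgroup H).Normal := F.normal_of_subsingleton
    obtain ⟨w, hw⟩ := exists_prime_orderOf_dvd_card' (G := F) 5 (by rw [hF])
    have hwc : ∀ p ∈ P, (((w : F) : H) : Perm α) * p = p * (((w : F) : H) : Perm α) := by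
      intro p hp
      let u : H := ⟨p, hP.le hp⟩
      have : IsCyclic F := isCyclic_of_prime_card hF
      have h1 : orderOf (MulAut.conjNormal (H := (F : Subgroup H)) u) ∣ 17 := by
        apply orderOf_dvd_of_pow_eq_one
        have : u ^ 17 = 1 := by
          have := pow_card_eq_one' (x := (⟨p, hp⟩ : P))
          rw [hcP] at this
          exact Subtype.ext (congrArg Subtype.val this :)
        rw [← map_pow, this, map_one]
      have h4 : orderOf (MulAut.conjNormal (H := (F : Subgroup H)) u) ∣ 4 := by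
        have h := orderOf_dvd_natCard (MulAut.conjNormal (H := (F : Subgroup H)) u)
        rwa [IsCyclic.card_mulAut, hF, Nat.totient_prime (by norm_num)] at h
      have h := orderOf_eq_one_iff.1 (Nat.eq_one_of_dvd_coprimes (by norm_num) h1 h4)
      have h' := congrArg (fun g : MulAut (F : Subgroup H) => (((g w : F) : H) : Perm α)) h
      simp only [MulAut.conjNormal_apply, MulAut.one_apply] at h'
      change p * _ * p⁻¹ = _ at h'
      rw [mul_inv_eq_iff_eq_mul] at h'
      exact h'.symm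
    have hwx : (((w : F) : H) : Perm α) x = x := hP.uniq _ fun p hp => by
      rw [← Perm.mul_apply, ← hwc p hp, Perm.mul_apply, hP.fx p hp]
    refine no_odd h35 hP ((w : F) : H).2 hwx (q := 5) (by norm_num) ?_ (by norm_num)
      (by norm_num)
    rw [orderOf_coe, orderOf_coe, hw]
  · have hmin2 : (Nat.card H).minFac = 2 := by
      rw [Nat.minFac_eq_two_iff, hcardH, hm, hmpow]
      refine ((dvd_pow_self 2 ?_).mul_left 17).mul_left 35
      intro h0
      rw [h0, pow_zero] at hmpow
      exact ha hmpow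
    have hcompl := hcycS.isComplement' hmin2
    set M := (MonoidHom.transferSylow S (hcycS.normalizer_le_centralizer hmin2)).ker
    have hMi : M.index = Nat.card S := hcompl.symm.index_eq_card
    have hMP : ∀ x P, PtData H x P → P ≤ M.map H.subtype := by
      intro x P hP p hp
      refine ⟨⟨p, hP.le hp⟩, ?_, rfl⟩
      change _ = 1
      rw [← orderOf_eq_one_iff]
      obtain ⟨i, hi⟩ := IsPGroup.iff_orderOf.1 hP.pg ⟨p, hp⟩
      have h1 := orderOf_map_dvd
        (MonoidHom.transferSylow S (hcycS.normalizer_le_centralizer hmin2)) ⟨p, hP.le hp⟩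
      rw [← orderOf_coe (⟨p, hP.le hp⟩ : H)] at h1
      rw [← orderOf_coe (⟨p, hp⟩ : P)] at hi
      obtain ⟨j, hj⟩ := IsPGroup.iff_orderOf.1 S.2
        ((MonoidHom.transferSylow S (hcycS.normalizer_le_centralizer hmin2)) ⟨p, hP.le hp⟩)
      refine Nat.eq_one_of_dvd_coprimes
        (Nat.Coprime.pow i j (show Nat.Coprime 17 2 by norm_num)) (hi ▸ h1) hj.dvd
    have htop : M = ⊤ := by
      rw [eq_top_iff]
      intro g _
      obtain ⟨g', hg', he⟩ := hmin' (M.map H.subtype) (map_subtype_le M) hMP g.2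
      rwa [subtype_injective H he] at hg'
    rw [htop, index_top] at hMi
    have hc0 : Nat.card S₀ = 1 := by
      rw [hMi]
      exact Nat.card_congr
        ((S₀ : Subgroup N).equivMapOfInjective N.subtype (subtype_injective N)).toEquiv
    have h := (S₀ : Subgroup N).card_mul_index
    rw [hc0, one_mul] at h
    apply S₀.not_dvd_index
    rw [h, hm, hmpow]
    refine (dvd_pow_self 2 ?_).mul_left 17
    intro h0
    rw [h0, pow_zero] at hmpow
    exact ha hmpow

/-- No finite group has exactly 35 Sylow 17-subgroups. -/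
theorem result {G : Type*} [Group G] [Finite G] : Nat.card (Sylow 17 G) ≠ 35 := by
  intro h
  classical
  have := Fintype.ofFinite (Sylow 17 G)
  have h35 : Fintype.card (Sylow 17 G) = 35 := by rw [← Nat.card_eq_fintype_card, h]
  refine no_good h35 ⟨(toPermHom G (Sylow 17 G)).range, fun x y => ?_, fun x => ?_⟩
  · obtain ⟨g, hg⟩ := exists_smul_eq G x y
    exact ⟨_, ⟨g, rfl⟩, hg⟩
  set φ := toPermHom G (Sylow 17 G)
  refine ⟨(x : Subgroup G).map φ, ⟨map_le_range φ _, x.2.map φ, ?_, ?_, ?_, ?_⟩⟩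
  · intro hd
    apply x.not_dvd_index
    refine hd.trans ?_
    have hmap : ((x : Subgroup G).map φ).subgroupOf φ.range =
        (x : Subgroup G).map φ.rangeRestrict := by
      ext g
      simp only [mem_subgroupOf, mem_map]
      constructor
      · rintro ⟨a, ha, he⟩; exact ⟨a, ha, Subtype.ext he⟩
      · rintro ⟨a, ha, rfl⟩; exact ⟨a, ha, rfl⟩
    rw [relIndex, hmap]
    exact index_map_dvd _ φ.rangeRestrict_surjective
  · rintro _ ⟨g, hg, rfl⟩
    exact Sylow.smul_eq_iff_mem_normalizer.2 (le_normalizer hg)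
  · intro y hy
    have hle : (x : Subgroup G) ≤ normalizer (y : Set G) := fun g hg =>
      Sylow.smul_eq_iff_mem_normalizer.1 (hy _ ⟨g, hg, rfl⟩)
    have h1 := x.2.inf_normalizer_sylow y
    rw [inf_eq_left.2 hle] at h1
    exact (Sylow.ext (x.3 y.2 (h1 ▸ inf_le_right : (x : Subgroup G) ≤ y))).symm ▸ rfl
  · rintro _ ⟨g, rfl⟩ hgx _ ⟨a, ha, rfl⟩
    refine ⟨g * a * g⁻¹, ?_, by simp⟩
    exact ((Subgroup.mem_set_normalizer_iff).1
      (Sylow.smul_eq_iff_mem_normalizer.1 hgx) a).1 ha

end Cfsg.Agent.S4236
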