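import Cfsg.Statements.S4238
import Mathlib
import Cfsg.Agent.Lib.Solv.MinimalNonNilpotent
import Cfsg.Agent.Lib.Solv.Coprime2
import Cfsg.Agent.Lib.Solv.PGroupBasic
import Cfsg.Agent.Lib.Comp.Congr
-- import your own Cfsg.Agent.* helpers here

set_option autoImplicit false
open Cfsg
open scoped commutatorElement

namespace Cfsg.Agent.S4238

universe u

/-- every section with trivial `O_{p'}` attains its exponent -/
def SecCond (p : ℕ) (G : Type u) [Group G] : Prop :=
  ∀ (H : Subgroup G) (K : Type u) [Group K] (f : H →* K), Function.Surjective f →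
    Cfsg.pPrimeCore p K = ⊥ → ∃ k : K, orderOf k = Monoid.exponent K

theorem commute_of_pnilpotent {G : Type u} [Group G] [Finite G] {p : ℕ} [Fact p.Prime]
    (h : Cfsg.HasNormalPComplement p G) (Q : Subgroup G) (hQn : Q.Normal) (hQ : IsPGroup p Q)
    {g : G} (hg : (orderOf g).Coprime p) : ∀ x ∈ Q, g * x = x * g := by
  intro x hx
  haveI := Cfsg.Lib.Transfer.pResidual_normal (G := G) p
  have hc := Cfsg.Lib.Transfer.hasNormalPComplement_iff_pResidual.1 h
  have hgR : g ∈ Cfsg.pResidual p G := Cfsg.Lib.Transfer.coprime_orderOf_mem_pResidual hg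
  have h1 : g * x * g⁻¹ * x⁻¹ ∈ Q := Q.mul_mem (hQn.conj_mem x hx g) (Q.inv_mem hx)
  have h2 : g * x * g⁻¹ * x⁻¹ ∈ Cfsg.pResidual p G := by
    have : g * x * g⁻¹ * x⁻¹ = g * (x * g⁻¹ * x⁻¹) := by group
    rw [this]
    exact mul_mem hgR (Subgroup.Normal.conj_mem inferInstance _ (inv_mem hgR) x)
  obtain ⟨n, hn⟩ := IsPGroup.iff_card.1 hQ
  have hbot : Q ⊓ Cfsg.pResidual p G = ⊥ := Subgroup.inf_eq_bot_of_coprime (by
    rw [hn]; exact (hc.pow_right n).symm)
  have : g * x * g⁻¹ * x⁻¹ = 1 := Subgroup.mem_bot.1 (hbot ▸ Subgroup.mem_inf.2 ⟨h1, h2⟩)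
  exact mul_inv_eq_iff_eq_mul.1 (mul_inv_eq_one.1 this)

theorem key (p : ℕ) [Fact p.Prime] : ∀ (n : ℕ) (G : Type u) [Group G] [Finite G], Nat.card G ≤ n →
    SecCond p G → Cfsg.HasNormalPComplement p G := by
  have hp : p.Prime := Fact.out
  intro n
  induction n with
  | zero =>
    intro G _ _ h
    have := Nat.card_pos (α := G)
    omega
  | succ n ih =>
  intro G _ _ hcard hS
  by_contra hno
  have hsub : ∀ H : Subgroup G, H ≠ ⊤ → Cfsg.HasNormalPComplement p H := by
    intro H hH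
    refine ih H ?_ ?_
    · have h1 : Nat.card H ≠ Nat.card G := fun e => hH (Subgroup.eq_top_of_card_eq H e)
      have h2 := Subgroup.card_le_card_group H
      omega
    · intro H' K _ f hf hK
      let e := H'.equivMapOfInjective H.subtype H.subtype_injective
      exact hS (H'.map H.subtype) K (f.comp e.symm.toMonoidHom) (hf.comp e.symm.surjective) hK
  have hquot : ∀ M : Subgroup G, ∀ [M.Normal], M ≠ ⊥ → Cfsg.HasNormalPComplement p (G ⧸ M) := by
    intro M _ hM
    refine ih (G ⧸ M) ?_ ?_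
    · have h1 := M.card_mul_index
      rw [Subgroup.index_eq_card] at h1
      have h2 : 1 < Nat.card M := Finite.one_lt_card_iff_nontrivial.2 ((Subgroup.nontrivial_iff_ne_bot M).2 hM)
      have h3 := Nat.card_pos (α := G ⧸ M)
      have h4 : 2 * Nat.card (G ⧸ M) ≤ Nat.card G := by rw [← h1]; exact Nat.mul_le_mul_right _ h2
      omega
    · intro H K _ f hf hK
      let q : H.comap (QuotientGroup.mk' M) →* H :=
        ((QuotientGroup.mk' M).comp (H.comap (QuotientGroup.mk' M)).subtype).codRestrict H fun x => x.2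
      refine hS (H.comap (QuotientGroup.mk' M)) K (f.comp q) (hf.comp ?_) hK
      intro y
      obtain ⟨x, hx⟩ := QuotientGroup.mk'_surjective M (y : G ⧸ M)
      exact ⟨⟨x, by rw [Subgroup.mem_comap, hx]; exact y.2⟩, Subtype.ext hx⟩
  have hcore : Cfsg.pPrimeCore p G = ⊥ := by
    by_contra hne
    haveI := Cfsg.Lib.Transfer.pPrimeCore_normal (G := G) p
    have hMc := Cfsg.Lib.Transfer.coprime_card_pPrimeCore (G := G) p
    set M := Cfsg.pPrimeCore p G
    obtain ⟨P, N, hN, hc⟩ := hquot M hne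
    haveI := hN
    obtain ⟨hNc, k, hk⟩ := Cfsg.Lib.Transfer.coprime_card_of_isComplement' hc
    refine hno (Cfsg.Lib.Transfer.hasNormalPComplement_of (k := k) (N.comap (QuotientGroup.mk' M)) ?_ ?_)
    · have h1 := (N.comap (QuotientGroup.mk' M)).card_mul_index
      rw [Subgroup.index_comap_of_surjective _ (QuotientGroup.mk'_surjective M), ← M.card_mul_index,
        Subgroup.index_eq_card M, ← N.card_mul_index, ← mul_assoc] at h1
      have h2 : N.index ≠ 0 := Subgroup.index_ne_zero_of_finite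
      rw [Nat.eq_of_mul_eq_mul_right (Nat.pos_of_ne_zero h2) h1]
      exact Nat.Coprime.mul_left hMc hNc
    · rw [Subgroup.index_comap_of_surjective _ (QuotientGroup.mk'_surjective M), hk]
  obtain ⟨Q⟩ := (inferInstance : Nonempty (Sylow p G))
  haveI hQn : (Q : Subgroup G).Normal :=
    Cfsg.Lib.Solv.exists_normal_sylow_of_minimal.minimal_non_p_nilpotent hno hsub Q
  have hex : ∃ g : G, (orderOf g).Coprime p ∧ ∃ x ∈ (Q : Subgroup G), g * x ≠ x * g := by
    by_contra hcon
    push Not at hcon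
    refine hno ((Cfsg.Lib.Transfer.frobenius_iff Q).2 fun Q₀ hQ₀ g _ hg => ?_)
    exact Subgroup.mem_centralizer_iff.2 fun x hx => (hcon g hg x (hQ₀ hx)).symm
  classical
  have hexn : ∃ m : ℕ, ∃ g : G, orderOf g = m ∧ (orderOf g).Coprime p ∧ ∃ x ∈ (Q : Subgroup G), g * x ≠ x * g := by
    obtain ⟨g, h⟩ := hex
    exact ⟨_, g, rfl, h⟩
  obtain ⟨g, hgm, hgp, x₀, hx₀, hgx⟩ := Nat.find_spec hexn
  have hmin : ∀ h : G, orderOf h < orderOf g → (orderOf h).Coprime p → ∀ x ∈ (Q : Subgroup G), h * x = x * h := by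
    intro h hlt hcop x hx
    by_contra hne
    exact Nat.find_min hexn (hgm ▸ hlt) ⟨h, rfl, hcop, x, hx, hne⟩
  have hgen : (Q : Subgroup G) ⊔ Subgroup.zpowers g = ⊤ := by
    by_contra hne
    set H := (Q : Subgroup G) ⊔ Subgroup.zpowers g
    refine hgx ?_
    have := commute_of_pnilpotent (hsub H hne) ((Q : Subgroup G).subgroupOf H) inferInstance
      (Q.isPGroup'.of_equiv (Subgroup.subgroupOfEquivOfLe le_sup_left).symm)
      (g := ⟨g, Subgroup.mem_sup_right (Subgroup.mem_zpowers g)⟩) (by rwa [Subgroup.orderOf_mk])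
      ⟨x₀, Subgroup.mem_sup_left hx₀⟩ hx₀
    exact congrArg Subtype.val this
  have hg1 : orderOf g ≠ 1 := fun e => hgx (by rw [orderOf_eq_one_iff.1 e, one_mul, mul_one])
  obtain ⟨r, hr, hrd⟩ := Nat.exists_prime_and_dvd hg1
  have hgr : orderOf g = r := by
    have hlt : orderOf (g ^ r) < orderOf g := by
      rw [orderOf_pow_of_dvd hr.ne_zero hrd]
      exact Nat.div_lt_self (orderOf_pos g) hr.one_lt
    have hcop : (orderOf (g ^ r)).Coprime p := hgp.coprime_dvd_left (orderOf_pow_dvd _)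
    have hcen : g ^ r ∈ Subgroup.center G := by
      rw [Subgroup.mem_center_iff]
      have : (Q : Subgroup G) ⊔ Subgroup.zpowers g ≤ Subgroup.centralizer {g ^ r} := sup_le
        (fun x hx => Subgroup.mem_centralizer_singleton_iff.2 (hmin _ hlt hcop x hx).symm)
        (Subgroup.zpowers_le.2 (Subgroup.mem_centralizer_singleton_iff.2 ((Commute.refl g).pow_right r).eq))
      rw [hgen] at this
      exact fun y => Subgroup.mem_centralizer_singleton_iff.1 (this (Subgroup.mem_top y))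
    have hn : (Subgroup.zpowers (g ^ r)).Normal := ⟨fun y hy z => by
      have : y ∈ Subgroup.center G := (Subgroup.zpowers_le.2 hcen) hy
      rw [Subgroup.mem_center_iff.1 this z, mul_inv_cancel_right]
      exact hy⟩
    have h1 : g ^ r ∈ Cfsg.pPrimeCore p G :=
      Cfsg.Lib.Transfer.le_pPrimeCore hn (by rwa [Nat.card_zpowers]) (Subgroup.mem_zpowers _)
    rw [hcore, Subgroup.mem_bot] at h1
    exact (hr.eq_one_or_self_of_dvd _ dvd_rfl).elim (fun e => absurd e hr.ne_one)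
      (fun _ => ((Nat.dvd_prime hr).1 (orderOf_dvd_of_pow_eq_one h1)).resolve_left hg1)
  have hrp : r ≠ p := fun e => by
    rw [hgr, e] at hgp
    exact hp.ne_one ((Nat.coprime_self p).1 hgp)
  have hQne : (Q : Subgroup G) ≠ ⊥ := fun e => hgx (by
    rw [e, Subgroup.mem_bot] at hx₀; rw [hx₀, one_mul, mul_one])
  have hPhi : frattini (Q : Subgroup G) = ⊥ := by
    by_contra hne
    set M := (frattini (Q : Subgroup G)).map (Q : Subgroup G).subtype with hM
    haveI hMn : M.Normal := inferInstance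
    have hMne : M ≠ ⊥ := fun e => hne ((Subgroup.map_eq_bot_iff_of_injective _ (Subgroup.subtype_injective _)).1 e)
    have hq := hquot M hMne
    have hA : Subgroup.zpowers g ≤ Subgroup.centralizer ((Q : Subgroup G) : Set G) := by
      refine Cfsg.Lib.Solv.centralizes_of_frattini _ _ ?_ ?_ ?_
      · rw [Subgroup.normalizer_eq_top]; exact le_top
      · obtain ⟨j, hj⟩ := IsPGroup.iff_card.1 (Q.isPGroup'.to_subgroup (frattini (Q : Subgroup G)))
        rw [Nat.card_zpowers, hj]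
        exact hgp.pow_right j
      · intro a ha x hx
        obtain ⟨i, rfl⟩ := Subgroup.mem_zpowers_iff.1 ha
        have := commute_of_pnilpotent hq ((Q : Subgroup G).map (QuotientGroup.mk' M))
          (hQn.map _ (QuotientGroup.mk'_surjective M)) (Q.isPGroup'.map _)
          (g := QuotientGroup.mk' M g) (hgp.coprime_dvd_left (orderOf_map_dvd _ g))
          (QuotientGroup.mk' M x) (Subgroup.mem_map_of_mem _ hx)
        have h2 : Commute (QuotientGroup.mk' M (g ^ i)) (QuotientGroup.mk' M x) := by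
          rw [map_zpow]; exact Commute.zpow_left this i
        show g ^ i * x * (g ^ i)⁻¹ * x⁻¹ ∈ M
        rw [← QuotientGroup.eq_one_iff (N := M)]
        show QuotientGroup.mk' M (g ^ i * x * (g ^ i)⁻¹ * x⁻¹) = 1
        rw [map_mul, map_mul, map_mul, h2.eq, map_inv, map_inv, mul_inv_cancel_right, mul_inv_cancel]
    exact hgx (Subgroup.mem_centralizer_iff.1 (hA (Subgroup.mem_zpowers g)) x₀ hx₀).symm
  have hQab : ∀ a ∈ (Q : Subgroup G), ∀ b ∈ (Q : Subgroup G), a * b = b * a := by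
    intro a ha b hb
    have h1 : ⁅(⟨a, ha⟩ : (Q : Subgroup G)), ⟨b, hb⟩⁆ ∈ frattini (Q : Subgroup G) :=
      Cfsg.Lib.Solv.commutator_le_frattini Q.isPGroup'
        (Subgroup.commutator_mem_commutator (Subgroup.mem_top _) (Subgroup.mem_top _))
    rw [hPhi, Subgroup.mem_bot, commutatorElement_eq_one_iff_mul_comm] at h1
    exact congrArg Subtype.val h1
  have hQp : ∀ a ∈ (Q : Subgroup G), a ^ p = 1 := by
    intro a ha
    have h1 := Cfsg.Lib.Solv.pow_mem_frattini Q.isPGroup' (⟨a, ha⟩ : (Q : Subgroup G))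
    rw [hPhi, Subgroup.mem_bot] at h1
    exact congrArg Subtype.val h1
  -- an element commuting with a nontrivial element of Q
  obtain ⟨k, hk⟩ := hS ⊤ G (⊤ : Subgroup G).subtype (fun y => ⟨⟨y, trivial⟩, rfl⟩) hcore
  have hpe : p ∣ orderOf k := by
    obtain ⟨x, hx, hx1⟩ := (Subgroup.ne_bot_iff_exists_ne_one).1 hQne |> fun ⟨a, ha⟩ =>
      (⟨a.1, a.2, fun e => ha (Subtype.ext e)⟩ : ∃ x, x ∈ (Q : Subgroup G) ∧ x ≠ 1)
    rw [hk, ← orderOf_eq_prime (hQp x hx) hx1]
    exact Monoid.order_dvd_exponent x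
  have hre : r ∣ orderOf k := by rw [hk, ← hgr]; exact Monoid.order_dvd_exponent g
  obtain ⟨a, ha⟩ : ∃ a : G, a = k ^ (orderOf k / p) := ⟨_, rfl⟩
  obtain ⟨b, hb⟩ : ∃ b : G, b = k ^ (orderOf k / r) := ⟨_, rfl⟩
  have hao : orderOf a = p := by rw [ha]; exact orderOf_pow_orderOf_div (orderOf_pos k).ne' hpe
  have hbo : orderOf b = r := by rw [hb]; exact orderOf_pow_orderOf_div (orderOf_pos k).ne' hre
  have hab : b * a = a * b := by rw [ha, hb]; exact ((Commute.refl k).pow_pow _ _).eq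
  have hQ' : ∀ y : G, y ^ p = 1 → y ∈ (Q : Subgroup G) := by
    intro y hy
    have hyp : IsPGroup p (Subgroup.zpowers y) :=
      IsPGroup.of_card (n := if y = 1 then 0 else 1) (by
        rw [Nat.card_zpowers]
        split_ifs with h
        · simp [h]
        · rw [pow_one]; exact orderOf_eq_prime hy h)
    obtain ⟨P', hP'⟩ := hyp.exists_le_sylow
    haveI := Sylow.unique_of_normal Q hQn
    rw [← Subsingleton.elim P' Q]
    exact hP' (Subgroup.mem_zpowers y)
  have haQ : a ∈ (Q : Subgroup G) := hQ' a (hao ▸ pow_orderOf_eq_one a)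
  have hbQ : b ∉ (Q : Subgroup G) := fun h => by
    have := orderOf_dvd_of_pow_eq_one (hQp b h)
    rw [hbo] at this
    exact hrp ((Nat.prime_dvd_prime_iff_eq hr hp).1 this)
  obtain ⟨q₁, hq₁, g₁, hg₁, hbe⟩ := Subgroup.mem_sup_of_normal_left.1 (hgen ▸ Subgroup.mem_top b)
  have hag : g * a = a * g := by
    have h1 : g₁ * a = a * g₁ := by
      have e : q₁ * (g₁ * a) = q₁ * (a * g₁) := by
        rw [← mul_assoc, hbe, hab, ← hbe, ← mul_assoc, hQab a haQ q₁ hq₁, mul_assoc]
      exact mul_left_cancel e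
    have hg₁ne : g₁ ≠ 1 := fun e => hbQ (by rw [← hbe, e, mul_one]; exact hq₁)
    have hcz : Nat.card (Subgroup.zpowers g) = r := by rw [Nat.card_zpowers, hgr]
    haveI := Fact.mk hr
    obtain ⟨i, hi⟩ := mem_zpowers_of_prime_card (p := r) hcz (g := (⟨g₁, hg₁⟩ : Subgroup.zpowers g))
      (g' := ⟨g, Subgroup.mem_zpowers g⟩) (fun e => hg₁ne (congrArg Subtype.val e))
    have : g₁ ^ i = g := congrArg Subtype.val hi
    rw [← this]
    exact Commute.zpow_left h1 i
  have hane : a ≠ 1 := fun e => hp.ne_one (hao ▸ orderOf_eq_one_iff.2 e)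
  -- x ↦ [g, x] on Q
  let φ : (Q : Subgroup G) →* (Q : Subgroup G) :=
    { toFun := fun x => ⟨g * x * g⁻¹ * (x : G)⁻¹, mul_mem (hQn.conj_mem _ x.2 g) (inv_mem x.2)⟩
      map_one' := Subtype.ext (by simp)
      map_mul' := fun x y => Subtype.ext (by
        show g * ((x : G) * y) * g⁻¹ * ((x : G) * y)⁻¹ = g * x * g⁻¹ * (x : G)⁻¹ * (g * y * g⁻¹ * (y : G)⁻¹)
        have h1 := hQab (x : G)⁻¹ (inv_mem x.2) (g * y * g⁻¹ * (y : G)⁻¹)
          (mul_mem (hQn.conj_mem _ y.2 g) (inv_mem y.2))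
        rw [mul_assoc (g * x * g⁻¹), h1]
        group) }
  have hfix : ∀ y : (Q : Subgroup G), φ (φ y) = 1 → φ y = 1 := by
    intro y hy
    obtain ⟨c, hc⟩ : ∃ c : G, c = g * y * g⁻¹ * (y : G)⁻¹ := ⟨_, rfl⟩
    have hgc : Commute g c := by
      have h1 : g * c * g⁻¹ * c⁻¹ = 1 := by rw [hc]; exact congrArg Subtype.val hy
      exact mul_inv_eq_iff_eq_mul.1 (mul_inv_eq_one.1 h1)
    have hpow : ∀ m : ℕ, g ^ m * y * (g ^ m)⁻¹ = c ^ m * y := by
      intro m
      induction m with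
      | zero => simp
      | succ m ihm =>
        calc g ^ (m + 1) * y * (g ^ (m + 1))⁻¹ = g * (g ^ m * y * (g ^ m)⁻¹) * g⁻¹ := by rw [pow_succ']; group
          _ = g * c ^ m * y * g⁻¹ := by rw [ihm]; group
          _ = c ^ m * (g * y * g⁻¹) := by rw [(hgc.pow_right m).eq]; group
          _ = c ^ (m + 1) * y := by rw [pow_succ, mul_assoc (c ^ m) c]; congr 1; rw [hc]; group
    have h1 := hpow r
    rw [← hgr, pow_orderOf_eq_one, one_mul, inv_one, mul_one, hgr, right_eq_mul] at h1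
    have h2 : c ^ p = 1 := hQp c (hc ▸ (φ y).2)
    have h3 : orderOf c ∣ Nat.gcd r p := Nat.dvd_gcd (orderOf_dvd_of_pow_eq_one h1) (orderOf_dvd_of_pow_eq_one h2)
    rw [(Nat.coprime_primes hr hp).2 hrp, Nat.dvd_one, orderOf_eq_one_iff] at h3
    refine Subtype.ext ?_
    show g * y * g⁻¹ * (y : G)⁻¹ = 1
    rw [← hc]; exact h3
  set K := φ.range.map (Q : Subgroup G).subtype with hK
  have hKQ : K ≤ (Q : Subgroup G) := Subgroup.map_subtype_le _
  have hgK : ∀ i : ℤ, ∀ x ∈ K, g ^ i * x * (g ^ i)⁻¹ ∈ K := by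
    have hg' : g ∈ Subgroup.normalizer (K : Set G) := by
      refine Subgroup.mem_normalizer_fintype (S := (K : Set G)) ?_
      intro x hx
      obtain ⟨_, ⟨y, rfl⟩, rfl⟩ := hx
      refine ⟨φ ⟨g * y * g⁻¹, hQn.conj_mem _ y.2 g⟩, ⟨_, rfl⟩, ?_⟩
      show g * (g * y * g⁻¹) * g⁻¹ * (g * y * g⁻¹)⁻¹ = g * (g * y * g⁻¹ * (y : G)⁻¹) * g⁻¹
      group
    intro i x hx
    exact (Subgroup.mem_normalizer_iff.1 (zpow_mem hg' i) x).1 hx
  haveI hKn : K.Normal := ⟨fun x hx y => by
    obtain ⟨q₂, hq₂, g₂, hg₂, rfl⟩ := Subgroup.mem_sup_of_normal_left.1 (hgen ▸ Subgroup.mem_top y)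
    obtain ⟨i, rfl⟩ := Subgroup.mem_zpowers_iff.1 hg₂
    have h1 := hgK i x hx
    have : q₂ * g ^ i * x * (q₂ * g ^ i)⁻¹ = q₂ * (g ^ i * x * (g ^ i)⁻¹) * q₂⁻¹ := by group
    rw [this, hQab q₂ hq₂ _ (hKQ h1), mul_inv_cancel_right]
    exact h1⟩
  have hker : φ ⟨a, haQ⟩ = 1 := Subtype.ext (by
    show g * a * g⁻¹ * a⁻¹ = 1
    rw [hag]; group)
  have hproper : K ⊔ Subgroup.zpowers g ≠ ⊤ := by
    intro htop
    have hKeq : K = (Q : Subgroup G) := by
      refine le_antisymm hKQ fun x hx => ?_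
      obtain ⟨k₁, hk₁, g₂, hg₂, rfl⟩ := Subgroup.mem_sup_of_normal_left.1 (htop ▸ Subgroup.mem_top x)
      have hg₂Q : g₂ ∈ (Q : Subgroup G) := by
        have := mul_mem (inv_mem (hKQ hk₁)) hx
        rwa [inv_mul_cancel_left] at this
      have : g₂ = 1 := by
        have h1 : orderOf g₂ ∣ Nat.gcd r p := Nat.dvd_gcd
          (hgr ▸ orderOf_dvd_of_mem_zpowers hg₂) (orderOf_dvd_of_pow_eq_one (hQp _ hg₂Q))
        rwa [(Nat.coprime_primes hr hp).2 hrp, Nat.dvd_one, orderOf_eq_one_iff] at h1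
      rw [this, mul_one]; exact hk₁
    have hsurj : Function.Surjective φ := fun y => by
      have hyK : (y : G) ∈ K := by rw [hKeq]; exact y.2
      obtain ⟨z, ⟨w, rfl⟩, hz⟩ := hyK
      exact ⟨w, Subtype.ext hz⟩
    have hinj := Finite.injective_iff_surjective.2 hsurj
    exact hane (congrArg Subtype.val (hinj (hker.trans φ.map_one.symm) : (⟨a, haQ⟩ : (Q : Subgroup G)) = 1))
  refine hgx ?_
  set H := K ⊔ Subgroup.zpowers g
  have hy : φ (φ ⟨x₀, hx₀⟩) = 1 := by
    have hyK : ((φ ⟨x₀, hx₀⟩ : (Q : Subgroup G)) : G) ∈ K := ⟨_, ⟨_, rfl⟩, rfl⟩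
    have := commute_of_pnilpotent (hsub H hproper) (K.subgroupOf H) inferInstance
      ((Q.isPGroup'.to_le hKQ).of_equiv (Subgroup.subgroupOfEquivOfLe le_sup_left).symm)
      (g := ⟨g, Subgroup.mem_sup_right (Subgroup.mem_zpowers g)⟩) (by rwa [Subgroup.orderOf_mk])
      ⟨_, Subgroup.mem_sup_left hyK⟩ hyK
    refine Subtype.ext ?_
    show g * _ * g⁻¹ * _⁻¹ = 1
    rw [show g * (φ ⟨x₀, hx₀⟩ : (Q : Subgroup G)) = (φ ⟨x₀, hx₀⟩ : (Q : Subgroup G)) * g from congrArg Subtype.val this]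
    group
  have := congrArg Subtype.val (hfix _ hy)
  exact mul_inv_eq_iff_eq_mul.1 (mul_inv_eq_one.1 (this : g * x₀ * g⁻¹ * x₀⁻¹ = 1))

/-- Let G be a finite group and p a prime. Then G has a normal p-complement if and only if every section K = H/N of G (N a normal subgroup of a subgroup H) whose largest normal subgroup of order prime to p is trivial contains an element whose order equals the exponent of K. -/
theorem result {G : Type*} [Group G] [Finite G] (p : ℕ) [Fact p.Prime] :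
    Cfsg.HasNormalPComplement p G ↔
      ∀ (H : Subgroup G) (N : Subgroup H) [N.Normal], Cfsg.pPrimeCore p (H ⧸ N) = ⊥ →
        ∃ k : H ⧸ N, orderOf k = Monoid.exponent (H ⧸ N) := by
  constructor
  · intro hG H N _ hcore
    have hH := Cfsg.Lib.Transfer.hasNormalPComplement_of_surjective (QuotientGroup.mk' N)
      (QuotientGroup.mk'_surjective N) (Cfsg.Lib.Transfer.hasNormalPComplement_subgroup H hG)
    obtain ⟨P, M, hM, hc⟩ := hH
    haveI := hM
    obtain ⟨hMc, k, hk⟩ := Cfsg.Lib.Transfer.coprime_card_of_isComplement' hc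
    have hM1 : M = ⊥ := by
      rw [← le_bot_iff, ← hcore]
      exact Cfsg.Lib.Transfer.le_pPrimeCore hM hMc
    rw [hM1, Subgroup.index_bot] at hk
    exact by
      have hP : IsPGroup p (H ⧸ N) := IsPGroup.of_card hk
      obtain ⟨x, hx⟩ := Finite.exists_max (fun x : H ⧸ N => orderOf x)
      refine ⟨x, Nat.dvd_antisymm (Monoid.order_dvd_exponent x) (Monoid.exponent_dvd.2 fun y => ?_)⟩
      obtain ⟨i, hi⟩ := IsPGroup.iff_orderOf.1 hP y
      obtain ⟨j, hj⟩ := IsPGroup.iff_orderOf.1 hP x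
      have := hx y
      rw [hi, hj] at this ⊢
      exact pow_dvd_pow p ((Nat.pow_le_pow_iff_right (Fact.out : p.Prime).one_lt).1 this)
  · intro h
    refine key p _ G le_rfl fun H K _ f hf hK => ?_
    haveI : Finite K := Finite.of_surjective f hf
    let e := QuotientGroup.quotientKerEquivOfSurjective f hf
    have hK' : Cfsg.pPrimeCore p (H ⧸ f.ker) = ⊥ := by
      have := Cfsg.Lib.Comp.map_pPrimeCore_equiv (p := p) e.symm
      rw [← this, hK, Subgroup.map_bot]
    obtain ⟨k, hk⟩ := h H f.ker hK'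
    exact ⟨e k, by rw [MulEquiv.orderOf_eq, hk]; exact Monoid.exponent_eq_of_mulEquiv e⟩

end Cfsg.Agent.S4238
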