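import Cfsg.Statements.S4242
import Mathlib
import Cfsg.Agent.Lib.Transfer.Frobenius
import Cfsg.Agent.Lib.Solv.MinimalNonNilpotent
import Cfsg.Agent.Lib.Solv.Coprime
import Cfsg.Agent.Lib.Solv.Cores
import Cfsg.Agent.Lib.Transfer.NilpotentHall
-- import your own Cfsg.Agent.* helpers here

set_option autoImplicit false
open Cfsg

namespace Cfsg.Agent.S4242

open Subgroup in
theorem aux_card {G : Type*} [Group G] [Finite G] (H N : Subgroup G)
    (hn : H ≤ normalizer (N : Set G)) (hd : H ⊓ N = ⊥) :
    Nat.card (H ⊔ N : Subgroup G) = Nat.card H * Nat.card N := by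
  set L := normalizer (N : Set G)
  haveI : (N.subgroupOf L).Normal := Subgroup.normal_in_normalizer
  have hN : N ≤ L := le_normalizer
  have h := Cfsg.Lib.Transfer.card_sup_of_disjoint_normal (H.subgroupOf L) (N.subgroupOf L) (by
    simp only [Subgroup.subgroupOf]; rw [← Subgroup.comap_inf, hd, MonoidHom.comap_bot, Subgroup.ker_subtype])
  rw [← Subgroup.subgroupOf_sup hn hN, Nat.card_congr (subgroupOfEquivOfLe (sup_le hn hN)).toEquiv,
    Nat.card_congr (subgroupOfEquivOfLe hn).toEquiv, Nat.card_congr (subgroupOfEquivOfLe hN).toEquiv] at h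
  exact h

open Subgroup in
theorem aux_forward {G : Type*} [Group G] [Finite G] (p : ℕ) [hp : Fact p.Prime]
    (hpG : p ∣ Nat.card G) (h : ∀ M : Subgroup G, IsCoatom M → p ∣ Nat.card M → Group.IsNilpotent M)
    (M : Subgroup G) (hM : IsCoatom M) (hMn : ¬ Group.IsNilpotent M) :
    ∃ Z K : Subgroup G, Z.Normal ∧ K.Normal ∧ Z ⊓ K = ⊥ ∧ Z ⊔ K = ⊤ ∧ Nat.card Z = p ∧
          Cfsg.IsMinimalNonNilpotent K ∧ ¬ p ∣ Nat.card K := by
  have hMp : ¬ p ∣ Nat.card M := fun hd => hMn (h M hM hd)
  have hsmall : ∀ H : Subgroup G, H ≠ ⊤ → p ∣ Nat.card H → Group.IsNilpotent H := by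
    intro H hH hd
    obtain ⟨L, hL, hle⟩ := Cfsg.Lib.Solv.exists_coatom_ge hH
    exact Cfsg.Lib.Solv.isNilpotent_of_le hle (h L hL (hd.trans (Subgroup.card_dvd_of_le hle)))
  obtain ⟨P⟩ := (inferInstance : Nonempty (Sylow p G))
  have hPd : p ∣ Nat.card (P : Subgroup G) := P.dvd_card_of_dvd_card hpG
  have hdis : ∀ Q : Subgroup G, IsPGroup p Q → Q ⊓ M = ⊥ := fun Q hQ => by
    obtain ⟨a, ha⟩ := IsPGroup.iff_card.1 hQ
    refine Subgroup.inf_eq_bot_of_coprime ?_
    rw [ha]
    exact ((hp.out.coprime_iff_not_dvd.2 hMp).pow_left a)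
  have hcardsup : ∀ Q L : Subgroup G, L ≤ normalizer (Q : Set G) → Q ⊓ L = ⊥ →
      Nat.card (Q ⊔ L : Subgroup G) = Nat.card Q * Nat.card L := by
    intro Q L hn hd
    have e1 : (Q ⊔ L) = (L ⊔ Q) := sup_comm _ _
    have := aux_card L Q hn (by rw [inf_comm]; exact hd)
    rw [e1, this, mul_comm]
  have hPn : (P : Subgroup G).Normal := by
    by_contra hPn
    have hfc : Cfsg.Lib.Transfer.FrobeniusCond P := by
      intro Q hQP g hg hcop
      rw [mem_centralizer_iff]
      intro x hx
      by_cases hQ1 : Q = ⊥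
      · rw [hQ1] at hx; rw [Subgroup.mem_bot.1 hx, one_mul, mul_one]
      have hQp : IsPGroup p Q := P.isPGroup'.to_le hQP
      by_cases hN : normalizer (Q : Set G) = ⊤
      · exfalso
        apply hPn
        haveI := normalizer_eq_top_iff.1 hN
        have htop : M ⊔ Q = ⊤ := hM.2 _ (left_lt_sup.2 fun hle => hQ1 (by
          have := hdis Q hQp
          rwa [inf_eq_left.2 hle] at this))
        have hc : Nat.card G = Nat.card Q * Nat.card M := by
          rw [← hcardsup Q M (by rw [hN]; exact le_top) (hdis Q hQp), sup_comm, htop, card_top]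
        obtain ⟨b, hb⟩ := IsPGroup.iff_card.1 P.isPGroup'
        have hPQ : Nat.card (P : Subgroup G) ∣ Nat.card Q := by
          have hd : Nat.card (P : Subgroup G) ∣ Nat.card Q * Nat.card M :=
            hc ▸ Subgroup.card_subgroup_dvd_card _
          refine Nat.Coprime.dvd_of_dvd_mul_right ?_ hd
          rw [hb]
          exact (hp.out.coprime_iff_not_dvd.2 hMp).pow_left b
        rw [← Subgroup.eq_of_le_of_card_ge hQP (Nat.le_of_dvd Nat.card_pos hPQ)]
        infer_instance
      · obtain ⟨a, ha⟩ := IsPGroup.iff_orderOf.1 hQp ⟨x, hx⟩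
        rw [Subgroup.orderOf_mk] at ha
        have hd : p ∣ Nat.card (normalizer (Q : Set G)) := by
          refine dvd_trans ?_ (Subgroup.card_dvd_of_le le_normalizer)
          obtain ⟨b, hb⟩ := IsPGroup.iff_card.1 hQp
          rw [hb]
          refine dvd_pow_self _ ?_
          rintro rfl
          exact hQ1 (Subgroup.eq_bot_of_card_eq _ (by rw [hb, pow_zero]))
        have hnil := hsmall _ hN hd
        have hgc : g ∈ centralizer ((Subgroup.zpowers x : Subgroup G) : Set G) := by
          refine Cfsg.Lib.Transfer.mem_centralizer_of_prime_parts fun r hr y hy ⟨j, hj⟩ => ?_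
          rw [mem_centralizer_iff]
          intro z hz
          obtain ⟨c, hc⟩ := IsPGroup.iff_orderOf.1 hQp ⟨z, (zpowers_le.2 hx) hz⟩
          rw [Subgroup.orderOf_mk] at hc
          by_cases hrp : r = p
          · subst hrp
            have hd1 : r ^ j ∣ orderOf g := hj ▸ orderOf_dvd_of_mem_zpowers hy
            have h1 : r ^ j = 1 := Nat.eq_one_of_dvd_coprimes (hcop.pow_right j) hd1 dvd_rfl
            rw [orderOf_eq_one_iff.1 (hj.trans h1), one_mul, mul_one]
          · exact (Cfsg.Lib.Solv.commute_of_nilpotent_subgroup hnil hr hp.out hrp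
              ((zpowers_le.2 hg) hy) (le_normalizer ((zpowers_le.2 hx) hz)) hj hc).symm.eq
        exact mem_centralizer_iff.1 hgc x (mem_zpowers x)
    obtain ⟨P', N, hN, hc⟩ := (Cfsg.Lib.Transfer.frobenius_iff P).2 hfc
    haveI := hN
    obtain ⟨hNc, k, hk⟩ := Cfsg.Lib.Transfer.coprime_card_of_isComplement' hc
    have hMN : M ≤ N := fun x hx => by
      refine (Cfsg.Lib.Transfer.mem_iff_coprime_of_complement hNc hk x).2 ?_
      exact Nat.Coprime.coprime_dvd_left (Subgroup.orderOf_dvd_natCard _ hx)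
        (hp.out.coprime_iff_not_dvd.2 hMp).symm
    have hNtop : N ≠ ⊤ := fun e => hp.out.coprime_iff_not_dvd.1 hNc.symm (by rwa [e, card_top])
    have hNM : N = M := by
      rcases hM.le_iff.1 hMN with h1 | h1
      · exact absurd h1 hNtop
      · exact h1
    subst hNM
    have hPM : (P : Subgroup G) ≤ normalizer (N : Set G) := by rw [normalizer_eq_top]; exact le_top
    have hcop : (Nat.card (P : Subgroup G)).Coprime (Nat.card N) := by
      obtain ⟨a, ha⟩ := IsPGroup.iff_card.1 P.isPGroup'
      rw [ha]; exact (hp.out.coprime_iff_not_dvd.2 hMp).pow_left a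
    have hMC : N ≤ centralizer ((P : Subgroup G) : Set G) := by
      have hdvd : Nat.card N ∣ Nat.card (N ⊓ centralizer ((P : Subgroup G) : Set G) : Subgroup G) := by
        rw [Nat.dvd_iff_prime_pow_dvd_dvd]
        intro q k hq hqk
        haveI := Fact.mk hq
        obtain ⟨S, hS⟩ := Cfsg.Lib.Solv.exists_invariant_sylow (p := q) (P : Subgroup G) N hPM hcop
          (Or.inl (by haveI := P.isPGroup'.isNilpotent; infer_instance))
        refine dvd_trans ?_ (Subgroup.card_dvd_of_le (le_inf (Subgroup.map_subtype_le (S : Subgroup N)) ?_))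
        · rw [Nat.card_congr ((S : Subgroup N).equivMapOfInjective N.subtype
            N.subtype_injective).toEquiv.symm]
          exact S.pow_dvd_card_of_pow_dvd_card hqk
        intro y hy
        rw [mem_centralizer_iff]
        intro z hz
        set T := (S : Subgroup N).map N.subtype with hT
        have hTN : T ≤ N := Subgroup.map_subtype_le _
        have hTne : T ≠ N := fun e => hMn (by
          rw [← e]
          exact (S.isPGroup'.map N.subtype).isNilpotent)
        have hd0 : (P : Subgroup G) ⊓ T = ⊥ := le_bot_iff.1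
          ((inf_le_inf_left _ hTN).trans (le_of_eq (hdis _ P.isPGroup')))
        have hcard := aux_card (P : Subgroup G) T hS hd0
        have hne : (P : Subgroup G) ⊔ T ≠ ⊤ := fun e => by
          rw [e, card_top] at hcard
          have h2 := hcardsup N (P : Subgroup G) hPM (by rw [inf_comm]; exact hdis _ P.isPGroup')
          have h3 : Nat.card G ≥ Nat.card (N ⊔ (P : Subgroup G) : Subgroup G) :=
            Subgroup.card_le_card_group _
          have h4 : Nat.card T < Nat.card N :=
            lt_of_le_of_ne (Subgroup.card_le_of_le hTN) fun e' =>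
              hTne (Subgroup.eq_of_le_of_card_ge hTN e'.ge)
          have := Nat.mul_lt_mul_of_pos_left h4 (Nat.card_pos (α := (P : Subgroup G)))
          rw [h2] at h3
          nlinarith
        have hnil := hsmall _ hne (hPd.trans (Subgroup.card_dvd_of_le le_sup_left))
        obtain ⟨a, ha⟩ := IsPGroup.iff_orderOf.1 P.isPGroup' ⟨z, hz⟩
        obtain ⟨b, hb⟩ := IsPGroup.iff_orderOf.1 (S.isPGroup'.map N.subtype) ⟨y, hy⟩
        rw [Subgroup.orderOf_mk] at ha hb
        by_cases hqp : q = p
        · subst hqp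
          have h1 : orderOf y ∣ Nat.card N := Subgroup.orderOf_dvd_natCard _ (hTN hy)
          have : orderOf y = 1 := Nat.eq_one_of_dvd_coprimes
            ((hq.coprime_iff_not_dvd.2 hMp).pow_left b) (dvd_of_eq hb) h1
          rw [orderOf_eq_one_iff.1 this, one_mul, mul_one]
        · exact (Cfsg.Lib.Solv.commute_of_nilpotent_subgroup hnil hp.out hq (Ne.symm hqp)
            (mem_sup_left hz) (mem_sup_right hy) ha hb).eq
      exact (Subgroup.eq_of_le_of_card_ge inf_le_left (Nat.le_of_dvd Nat.card_pos hdvd)).ge.trans inf_le_right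
    apply hPn
    rw [← normalizer_eq_top_iff]
    refine hM.2 _ (lt_of_le_of_ne (hMC.trans (centralizer_le_normalizer _)) fun e => ?_)
    exact hMp (hPd.trans (Subgroup.card_dvd_of_le (le_normalizer.trans e.ge)))
  haveI := hPn
  have htop : M ⊔ (P : Subgroup G) = ⊤ := hM.2 _ (left_lt_sup.2 fun hle =>
    hMp (hPd.trans (Subgroup.card_dvd_of_le hle)))
  have hMnorm : M ≤ normalizer ((P : Subgroup G) : Set G) := by rw [normalizer_eq_top]; exact le_top
  have hcardG : Nat.card G = Nat.card (P : Subgroup G) * Nat.card M := by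
    rw [← hcardsup _ M hMnorm (hdis _ P.isPGroup'), sup_comm, htop, card_top]
  have hsub : ∀ L : Subgroup G, L < M → Group.IsNilpotent ((P : Subgroup G) ⊔ L : Subgroup G) := by
    intro L hL
    refine hsmall _ (fun e => ?_) (hPd.trans (Subgroup.card_dvd_of_le le_sup_left))
    have hc := hcardsup _ L (hL.le.trans hMnorm)
      (le_bot_iff.1 ((inf_le_inf_left _ hL.le).trans (le_of_eq (hdis _ P.isPGroup'))))
    rw [e, card_top, hcardG] at hc
    exact absurd (Nat.eq_of_mul_eq_mul_left Nat.card_pos hc)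
      (fun e' => hL.ne (Subgroup.eq_of_le_of_card_ge hL.le e'.le))
  have hMC : M ≤ centralizer ((P : Subgroup G) : Set G) := by
    intro y hy
    have hlt : zpowers y < M := lt_of_le_of_ne (zpowers_le.2 hy) fun e => hMn (by
      rw [← e]; letI : CommGroup (zpowers y) := IsCyclic.commGroup; infer_instance)
    have hnil := hsub _ hlt
    have hcop : (orderOf y).Coprime p := Nat.Coprime.coprime_dvd_left
      (Subgroup.orderOf_dvd_natCard _ hy) (hp.out.coprime_iff_not_dvd.2 hMp).symm
    refine Cfsg.Lib.Transfer.mem_centralizer_of_prime_parts fun r hr y' hy' ⟨j, hj⟩ => ?_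
    rw [mem_centralizer_iff]
    intro z hz
    obtain ⟨a, ha⟩ := IsPGroup.iff_orderOf.1 P.isPGroup' ⟨z, hz⟩
    rw [Subgroup.orderOf_mk] at ha
    by_cases hrp : r = p
    · subst hrp
      have h1 : r ^ j = 1 := Nat.eq_one_of_dvd_coprimes (hcop.pow_right j)
        (hj ▸ orderOf_dvd_of_mem_zpowers hy') dvd_rfl
      rw [orderOf_eq_one_iff.1 (hj.trans h1), one_mul, mul_one]
    · exact (Cfsg.Lib.Solv.commute_of_nilpotent_subgroup hnil hr hp.out hrp
        (mem_sup_right hy') (mem_sup_left hz) hj ha).symm.eq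
  have hMnormal : M.Normal := by
    rw [← normalizer_eq_top_iff]
    refine top_le_iff.1 (htop ▸ sup_le le_normalizer ?_)
    exact ((le_centralizer_iff.1 hMC).trans (centralizer_le_normalizer _))
  have hZ : Nat.card (P : Subgroup G) = p := by
    obtain ⟨z, hz⟩ := exists_prime_orderOf_dvd_card' (G := (P : Subgroup G)) p hPd
    set Z := (zpowers z).map (P : Subgroup G).subtype with hZdef
    have hZP : Z ≤ (P : Subgroup G) := Subgroup.map_subtype_le _
    have hZc : Nat.card Z = p := by
      rw [Nat.card_congr ((zpowers z).equivMapOfInjective _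
        (P : Subgroup G).subtype_injective).toEquiv.symm, Nat.card_zpowers, hz]
    have hn : M ≤ normalizer (Z : Set G) :=
      (hMC.trans (centralizer_le hZP)).trans (centralizer_le_normalizer _)
    have hZM := hdis Z (P.isPGroup'.to_le hZP)
    have hc := hcardsup Z M hn hZM
    have hlt : M < Z ⊔ M := right_lt_sup.2 fun hle => by
      rw [inf_eq_left.2 hle] at hZM
      rw [hZM, card_bot] at hZc
      exact hp.out.ne_one hZc.symm
    rw [hM.2 _ hlt, card_top, hcardG, hZc] at hc
    exact Nat.eq_of_mul_eq_mul_right Nat.card_pos hc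
  refine ⟨P, M, hPn, hMnormal, hdis _ P.isPGroup', by rw [sup_comm]; exact htop, hZ,
    ⟨hMn, fun H hH => ?_⟩, hMp⟩
  have hlt : H.map M.subtype < M := lt_of_le_of_ne (Subgroup.map_subtype_le _) fun e => hH (by
    apply Subgroup.map_injective M.subtype_injective
    rw [e, ← MonoidHom.range_eq_map, Subgroup.range_subtype])
  haveI := Cfsg.Lib.Solv.isNilpotent_of_le (le_sup_right (a := (P : Subgroup G))) (hsub _ hlt)
  exact Group.nilpotent_of_surjective (H.equivMapOfInjective _ M.subtype_injective).symm.toMonoidHom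
    (MulEquiv.surjective _)

open Subgroup in
theorem aux_backward {G : Type*} [Group G] [Finite G] {p : ℕ} (hp : p.Prime) {Z K : Subgroup G}
    (hZn : Z.Normal) (hKn : K.Normal) (hdis : Z ⊓ K = ⊥) (htop : Z ⊔ K = ⊤) (hZ : Nat.card Z = p)
    (hK : Cfsg.IsMinimalNonNilpotent K) (hKp : ¬ p ∣ Nat.card K)
    (M : Subgroup G) (hM : IsCoatom M) (hMd : p ∣ Nat.card M) : Group.IsNilpotent M := by
  haveI := hZn; haveI := hKn
  haveI := Fact.mk hp
  have hcG : Nat.card G = Nat.card K * p := by
    rw [← hZ, ← aux_card K Z (by rw [normalizer_eq_top]; exact le_top)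
      (by rw [inf_comm]; exact hdis), sup_comm, htop, card_top]
  have hZM : Z ≤ M := by
    by_contra hn
    have hd : M ⊓ Z = ⊥ := by
      rcases ((M ⊓ Z).subgroupOf Z).eq_bot_or_eq_top_of_prime_card (hp := ⟨hZ ▸ hp⟩) with h1 | h1
      · rw [Subgroup.subgroupOf_eq_bot] at h1
        exact disjoint_self.1 (h1.mono_right inf_le_right)
      · rw [Subgroup.subgroupOf_eq_top] at h1
        exact absurd (h1.trans inf_le_left) hn
    have hc := aux_card M Z (by rw [normalizer_eq_top]; exact le_top) hd
    rw [hM.2 _ (left_lt_sup.2 hn), card_top, hcG, hZ] at hc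
    exact hKp (Nat.eq_of_mul_eq_mul_right hp.pos hc ▸ hMd)
  have hcomm : ∀ z ∈ Z, ∀ k ∈ M ⊓ K, z * k = k * z := fun z hz k hk =>
    Subgroup.commute_of_normal_of_disjoint Z K hZn hKn (disjoint_iff.2 hdis) z k hz hk.2
  have hMK : M ⊓ K < K := lt_of_le_of_ne inf_le_right fun e => hM.1 (top_le_iff.1 (htop ▸
    sup_le hZM (e ▸ inf_le_left)))
  haveI : Group.IsNilpotent ((M ⊓ K).subgroupOf K) := hK.2 _ fun e => hMK.not_ge (by
    rw [Subgroup.subgroupOf_eq_top] at e; exact e)
  haveI : Group.IsNilpotent (M ⊓ K : Subgroup G) := Group.nilpotent_of_surjective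
    (Subgroup.subgroupOfEquivOfLe (inf_le_right : M ⊓ K ≤ K)).toMonoidHom (MulEquiv.surjective _)
  haveI : Group.IsNilpotent Z := (IsPGroup.of_card (p := p) (n := 1) (by rw [hZ, pow_one])).isNilpotent
  let f : Z × (M ⊓ K : Subgroup G) →* G := MonoidHom.noncommCoprod Z.subtype (M ⊓ K).subtype
    (fun z k => hcomm z z.2 k k.2 : ∀ (m : Z) (n : (M ⊓ K : Subgroup G)), Commute (Z.subtype m) ((M ⊓ K).subtype n))
  have hr : f.range = M := by
    rw [show f.range = Z.subtype.range ⊔ (M ⊓ K).subtype.range from MonoidHom.noncommCoprod_range _ _ _, Subgroup.range_subtype, Subgroup.range_subtype]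
    refine le_antisymm (sup_le hZM inf_le_left) fun m hm => ?_
    have hm' : m ∈ Z ⊔ K := htop ▸ Subgroup.mem_top m
    obtain ⟨z, hz, k, hk, rfl⟩ := Subgroup.mem_sup_of_normal_left.1 hm'
    have hkM : k ∈ M := by simpa using M.mul_mem (M.inv_mem (hZM hz)) hm
    exact Subgroup.mul_mem _ (mem_sup_left hz) (mem_sup_right ⟨hkM, hk⟩)
  rw [← hr]
  exact Group.nilpotent_of_surjective f.rangeRestrict f.rangeRestrict_surjective

/-- Let G be a finite group and p a prime dividing its order. Every maximal subgroup of G of order divisible by p is nilpotent if and only if G is nilpotent, or G is a minimal non-nilpotent group, or G is the internal direct product of a normal subgroup of order p and a normal minimal non-nilpotent subgroup of order prime to p. -/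
theorem result {G : Type*} [Group G] [Finite G] (p : ℕ) (hp : p.Prime) (hpG : p ∣ Nat.card G) :
    (∀ M : Subgroup G, IsCoatom M → p ∣ Nat.card M → Group.IsNilpotent M) ↔
      (Group.IsNilpotent G ∨ Cfsg.IsMinimalNonNilpotent G ∨
        ∃ Z K : Subgroup G, Z.Normal ∧ K.Normal ∧ Z ⊓ K = ⊥ ∧ Z ⊔ K = ⊤ ∧ Nat.card Z = p ∧
          Cfsg.IsMinimalNonNilpotent K ∧ ¬ p ∣ Nat.card K) := by
  constructor
  · intro h
    haveI := Fact.mk hp
    by_cases hall : ∀ M : Subgroup G, IsCoatom M → Group.IsNilpotent M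
    · by_cases hn : Group.IsNilpotent G
      · exact Or.inl hn
      · exact Or.inr (Or.inl ⟨hn, Cfsg.Lib.Solv.proper_nilpotent_of_maximal hall⟩)
    · push Not at hall
      obtain ⟨M, hM, hMn⟩ := hall
      exact Or.inr (Or.inr (aux_forward p hpG h M hM hMn))
  · rintro (h | h | ⟨Z, K, hZn, hKn, hdis, htop, hZ, hK, hKp⟩) M hM hMd
    · exact inferInstance
    · exact h.2 M hM.1
    · exact aux_backward hp hZn hKn hdis htop hZ hK hKp M hM hMd

end Cfsg.Agent.S4242
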