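import Cfsg.Statements.S4244
import Mathlib
import Cfsg.Agent.Lib.Transfer.Frobenius
-- import your own Cfsg.Agent.* helpers here

set_option autoImplicit false
open Cfsg

namespace Cfsg.Agent.S4244

/-- Let H be a subnormal subgroup of a finite group G. Then for every subgroup K of G the index of H ∩ K in H divides the index of K in G. -/
theorem result {G : Type*} [Group G] [Finite G] (H : Subgroup G) (hH : H.IsSubnormal) (K : Subgroup G) :
    (H ⊓ K).relIndex H ∣ K.index := by
  rw [Subgroup.inf_relIndex_left]
  induction hH with
  | top => rw [Subgroup.relIndex_top_right]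
  | step H L hle _ hN ih =>
    refine dvd_trans ?_ ih
    haveI := hN
    rw [← Subgroup.relIndex_subgroupOf hle]
    exact Cfsg.Lib.Transfer.relIndex_dvd_index_of_normal_right (K.subgroupOf L) (H.subgroupOf L)

end Cfsg.Agent.S4244
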