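import Cfsg.Statements.S4249
import Cfsg.Agent.Lib.Transfer.Hughes

set_option autoImplicit false
set_option maxHeartbeats 2000000
open Cfsg Cfsg.Lib

namespace Cfsg.Agent.S4249

/-- Let G be a finite group and p a prime such that G is not a p-group, and suppose the Hughes subgroup H_p(G), generated by all elements g with g^p ≠ 1, is a proper subgroup. Then H_p(G) is nilpotent and has index p in G. -/
theorem result {G : Type*} [Group G] [Finite G] (p : ℕ) (hp : p.Prime) (hG : ¬ IsPGroup p G)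
    (hH : Subgroup.closure {g : G | g ^ p ≠ 1} ≠ ⊤) :
    Group.IsNilpotent (Subgroup.closure {g : G | g ^ p ≠ 1}) ∧ (Subgroup.closure {g : G | g ^ p ≠ 1}).index = p := by
  haveI := Fact.mk hp
  set H := Subgroup.closure {g : G | g ^ p ≠ 1} with hHdef
  have hout : ∀ g ∉ H, g ^ p = 1 := fun g hg => by_contra fun h => hg (Subgroup.subset_closure h)
  haveI hHn : H.Normal := by
    refine ⟨fun a ha g => ?_⟩
    have hle : H ≤ H.comap (MulAut.conj g).toMonoidHom := by
      refine (Subgroup.closure_le _).2 fun b hb => Subgroup.subset_closure ?_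
      show (g * b * g⁻¹) ^ p ≠ 1
      rw [conj_pow]
      intro e
      exact hb (by rwa [mul_inv_eq_one, mul_eq_left] at e)
    exact hle ha
  haveI hnil := Transfer.hughes_aux hp _ G le_rfl H hHn hH hout
  refine ⟨hnil, ?_⟩
  have hq : IsPGroup p (G ⧸ H) := by
    intro y
    obtain ⟨y, rfl⟩ := QuotientGroup.mk'_surjective H y
    refine ⟨1, (QuotientGroup.eq_one_iff _).2 ?_⟩
    by_cases hy : y ∈ H
    · exact pow_mem hy _
    · show y ^ (p ^ 1) ∈ H
      rw [pow_one, hout y hy]; exact one_mem _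
  obtain ⟨k, hk⟩ := IsPGroup.iff_card.1 hq
  change H.index = p ^ k at hk
  by_contra hne
  have hnotle : ∀ y : G ⧸ H, Subgroup.zpowers y ≠ ⊤ := by
    intro y hy
    have h1 : H.index ∣ p := by
      show Nat.card (G ⧸ H) ∣ p
      rw [← Subgroup.card_top (G := G ⧸ H), ← hy, Nat.card_zpowers]
      refine orderOf_dvd_of_pow_eq_one ?_
      obtain ⟨y, rfl⟩ := QuotientGroup.mk'_surjective H y
      refine (QuotientGroup.eq_one_iff _).2 ?_
      by_cases hy : y ∈ H
      · exact pow_mem hy _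
      · show y ^ p ∈ H
        rw [hout y hy]; exact one_mem _
    exact ((Nat.dvd_prime hp).1 h1).elim (fun e => hH (Subgroup.index_eq_one.1 e)) hne
  obtain ⟨q, hqp, hqd, hqne⟩ : ∃ q : ℕ, q.Prime ∧ q ∣ Nat.card H ∧ q ≠ p := by
    by_contra hc
    push Not at hc
    refine hG ?_
    obtain ⟨j, hj⟩ : ∃ j, Nat.card H = p ^ j :=
      ⟨_, Nat.eq_prime_pow_of_unique_prime_dvd Nat.card_pos.ne' fun {d} hd hdd => hc d hd hdd⟩
    exact IsPGroup.of_card (n := j + k) (by rw [← H.card_mul_index, hj, hk, pow_add])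
  haveI := Fact.mk hqp
  obtain ⟨Q⟩ : Nonempty (Sylow q H) := inferInstance
  haveI hQn := Solv.normal_sylow_of_nilpotent Q
  haveI hQc : (Q : Subgroup H).Characteristic := Q.characteristic_of_normal hQn
  set ZQ := ((Subgroup.center (Q : Subgroup H)).map (Q : Subgroup H).subtype).map H.subtype
  haveI : ZQ.Normal := inferInstance
  haveI : Nontrivial (Q : Subgroup H) := (Subgroup.nontrivial_iff_ne_bot _).2 fun e => by
    have h1 := Q.card_eq_multiplicity
    rw [e, Subgroup.card_bot] at h1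
    exact (hqp.factorization_pos_of_dvd Nat.card_pos.ne' hqd).ne' ((Nat.pow_eq_one.1 h1.symm).resolve_left hqp.one_lt.ne')
  haveI := Q.isPGroup'.center_nontrivial
  have hZ1 : ZQ ≠ ⊥ := by
    rw [Ne, Subgroup.map_eq_bot_iff_of_injective _ H.subtype_injective,
      Subgroup.map_eq_bot_iff_of_injective _ (Q : Subgroup H).subtype_injective]
    exact (Subgroup.nontrivial_iff_ne_bot _).1 inferInstance
  obtain ⟨V, hVn, hVZ, hV1, hVmin⟩ := Solv.exists_minimal_normal_le hZ1
  haveI := hVn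
  have hVH : V ≤ H := hVZ.trans (Subgroup.map_subtype_le _)
  have hcen : ∀ v ∈ V, ∃ u : (Q : Subgroup H), u ∈ Subgroup.center (Q : Subgroup H) ∧ ((u : H) : G) = v := by
    intro v hv
    obtain ⟨w, ⟨u, hu, rfl⟩, rfl⟩ := hVZ hv
    exact ⟨u, hu, rfl⟩
  haveI hVab : IsMulCommutative V := ⟨⟨fun a b => by
    obtain ⟨u, hu, eu⟩ := hcen a a.2
    obtain ⟨w, hw, ew⟩ := hcen b b.2
    apply Subtype.ext
    show (a : G) * b = b * a
    rw [← eu, ← ew]
    exact congrArg (fun t : (Q : Subgroup H) => ((t : H) : G)) (Subgroup.mem_center_iff.1 hu w).symm⟩⟩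
  have hVq : IsPGroup q V := ((Q.isPGroup'.to_subgroup (Subgroup.center _)).map _).map _ |>.to_le hVZ
  have hVexp : ∀ v ∈ V, v ^ p = 1 → v = 1 := by
    intro v hv e
    obtain ⟨j, hj⟩ := IsPGroup.iff_orderOf.1 hVq ⟨v, hv⟩
    rw [Subgroup.orderOf_mk] at hj
    exact orderOf_eq_one_iff.1 (Nat.eq_one_of_dvd_coprimes (((Nat.coprime_primes hp hqp).2 (Ne.symm hqne)).pow_right j)
      (orderOf_dvd_of_pow_eq_one e) (dvd_of_eq hj))
  set C := Subgroup.centralizer (V : Set G)
  haveI : C.Normal := inferInstance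
  -- elements outside `H` do not centralize `V`
  have hCH : ∀ x ∈ C, x ∈ H := by
    intro x hx
    by_contra hxH
    refine hV1 (eq_bot_iff.2 fun v hv => Subgroup.mem_bot.2 (hVexp v hv ?_))
    have h1 : (v * x) ^ p = 1 := hout _ fun h => hxH ((mul_mem_cancel_left (hVH hv)).1 h)
    rwa [(show Commute v x from Subgroup.mem_centralizer_iff.1 hx v hv).mul_pow, hout x hxH, mul_one] at h1
  obtain ⟨P⟩ : Nonempty (Sylow p G) := inferInstance
  have hPH : (P : Subgroup G) ⊔ H = ⊤ := by
    rw [sup_comm]; exact Transfer.sup_sylow_eq_top_of_index_eq_pow H P hk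
  have hPC : (P : Subgroup G) ⊔ C = ⊤ := by
    refine Subgroup.eq_of_le_of_card_ge le_top (Nat.le_of_dvd Nat.card_pos ?_)
    rw [Subgroup.card_top]
    refine (Nat.factorization_prime_le_iff_dvd Nat.card_pos.ne' Nat.card_pos.ne').1 fun r hr => ?_
    haveI := Fact.mk hr
    obtain ⟨R, hR⟩ : ∃ R : Sylow r G, (R : Subgroup G) ≤ (P : Subgroup G) ⊔ C := by
      by_cases hrp : r = p
      · subst hrp; exact ⟨P, le_sup_left⟩
      obtain ⟨R⟩ : Nonempty (Sylow r G) := inferInstance
      refine ⟨R, fun x hx => Subgroup.mem_sup_right (Subgroup.mem_centralizer_iff.2 fun v hv => ?_)⟩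
      obtain ⟨i, hi⟩ := IsPGroup.iff_orderOf.1 R.isPGroup' ⟨x, hx⟩
      rw [Subgroup.orderOf_mk] at hi
      have hxH : x ∈ H := by
        by_contra hxH
        exact hxH (orderOf_eq_one_iff.1 (Nat.eq_one_of_dvd_coprimes (((Nat.coprime_primes hp hr).2 (Ne.symm hrp)).pow_right i)
          (orderOf_dvd_of_pow_eq_one (hout x hxH)) (dvd_of_eq hi)) ▸ one_mem H)
      obtain ⟨u, hu, rfl⟩ := hcen v hv
      by_cases hrq : r = q
      · subst hrq
        have hxQ : (⟨x, hxH⟩ : H) ∈ (Q : Subgroup H) := by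
          have h1 : IsPGroup r (Subgroup.zpowers (⟨x, hxH⟩ : H)) :=
            IsPGroup.of_card (n := i) (by rw [Nat.card_zpowers, Subgroup.orderOf_mk, hi])
          exact (Q.is_maximal' (Q.isPGroup'.to_sup_of_normal_left h1) le_sup_left).le
            (Subgroup.mem_sup_right (Subgroup.mem_zpowers _))
        exact (congrArg (fun t : (Q : Subgroup H) => ((t : H) : G)) (Subgroup.mem_center_iff.1 hu ⟨⟨x, hxH⟩, hxQ⟩)).symm
      · obtain ⟨j, hj⟩ := IsPGroup.iff_orderOf.1 Q.isPGroup' u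
        rw [← Subgroup.orderOf_coe] at hj
        exact (congrArg Subtype.val (Solv.commute_of_nilpotent hqp hr (Ne.symm hrq) (x := (u : H)) (y := ⟨x, hxH⟩) hj
          (by rw [Subgroup.orderOf_mk, hi])).eq)
    refine (hr.pow_dvd_iff_le_factorization Nat.card_pos.ne').1 ?_
    rw [← R.card_eq_multiplicity]
    exact Subgroup.card_dvd_of_le hR
  -- a central element of order `p` of the image of `P` in `Aut V`
  set K := C.subgroupOf (P : Subgroup G)
  haveI : Nontrivial ((P : Subgroup G) ⧸ K) := by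
    refine (QuotientGroup.nontrivial_iff).2 fun e => ?_
    refine hH (eq_top_iff.2 (hPH ▸ sup_le (fun x hx => hCH x ?_) le_rfl))
    exact (Subgroup.subgroupOf_eq_top.1 e) hx
  have hPK : IsPGroup p ((P : Subgroup G) ⧸ K) := P.isPGroup'.to_quotient K
  haveI := hPK.center_nontrivial
  obtain ⟨zb, hzb⟩ := exists_prime_orderOf_dvd_card' (G := Subgroup.center ((P : Subgroup G) ⧸ K)) p (by
    obtain ⟨j, hj⟩ := IsPGroup.iff_card.1 (hPK.to_subgroup (Subgroup.center _))
    rw [hj]
    refine dvd_pow_self _ fun h0 => ?_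
    rw [h0, pow_zero, Nat.card_eq_one_iff_unique] at hj
    exact not_subsingleton _ hj.1)
  obtain ⟨z, hz⟩ := QuotientGroup.mk'_surjective K (zb : (P : Subgroup G) ⧸ K)
  have hzC : (z : G) ∉ C := fun h => by
    have h1 : zb = 1 := Subtype.ext (by rw [← hz]; exact (QuotientGroup.eq_one_iff _).2 h)
    rw [h1, orderOf_one] at hzb
    exact hp.one_lt.ne hzb
  have hzpC : (z : G) ^ p ∈ C := by
    have h1 : (zb : (P : Subgroup G) ⧸ K) ^ p = 1 := by
      rw [← SubgroupClass.coe_pow, orderOf_dvd_iff_pow_eq_one.1 (dvd_of_eq hzb), OneMemClass.coe_one]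
    rw [← hz, ← map_pow] at h1
    exact (QuotientGroup.eq_one_iff (N := K) (z ^ p)).1 h1
  have hzcomm : ∀ a ∈ (P : Subgroup G), ∃ c ∈ C, a * z = z * a * c := by
    intro a ha
    have h1 := Subgroup.mem_center_iff.1 zb.2 (QuotientGroup.mk' K ⟨a, ha⟩)
    rw [← hz, ← map_mul, ← map_mul] at h1
    exact ⟨((z : G) * a)⁻¹ * (a * z), (QuotientGroup.eq (s := K) (a := z * (⟨a, ha⟩ : (P : Subgroup G))) (b := (⟨a, ha⟩ : (P : Subgroup G)) * z)).1 h1.symm, (mul_inv_cancel_left _ _).symm⟩
  obtain ⟨x, hxP, hxz⟩ : ∃ x ∈ (P : Subgroup G), QuotientGroup.mk' H x ∉ Subgroup.zpowers (QuotientGroup.mk' H (z : G)) := by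
    by_contra hc
    push Not at hc
    refine hnotle (QuotientGroup.mk' H (z : G)) (eq_top_iff.2 fun y _ => ?_)
    obtain ⟨y, rfl⟩ := QuotientGroup.mk'_surjective H y
    obtain ⟨a, ha, b, hb, rfl⟩ := Subgroup.mem_sup_of_normal_right.1 (hPH ▸ Subgroup.mem_top y : y ∈ (P : Subgroup G) ⊔ H)
    rw [map_mul, show QuotientGroup.mk' H b = 1 from (QuotientGroup.eq_one_iff _).2 hb, mul_one]
    exact hc a ha
  have hxj : ∀ j : ℕ, x * (z : G) ^ j ∉ H := by
    intro j h
    refine hxz ?_
    have h1 : QuotientGroup.mk' H x * QuotientGroup.mk' H (z : G) ^ j = 1 := by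
      rw [← map_pow, ← map_mul]; exact (QuotientGroup.eq_one_iff _).2 h
    rw [eq_inv_of_mul_eq_one_left h1]
    exact inv_mem (pow_mem (Subgroup.mem_zpowers _) j)
  have hconjC : ∀ c ∈ C, ∀ v : V, MulAut.conjNormal c v = v := fun c hc v => Subtype.ext (by
    rw [MulAut.conjNormal_apply, ← Subgroup.mem_centralizer_iff.1 hc v v.2, mul_inv_cancel_right])
  have key : ∀ v : V, v ^ p = 1 := by
    refine fun v => Transfer.eq_one_of_central (g := x) (z := (z : G)) hp (fun j => hout _ (hxj j)) (fun w => ?_)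
      (fun w => hconjC _ hzpC w) (fun j w => hout _ fun h => hxj j ((mul_mem_cancel_left (hVH w.2)).1 h)) ?_ v
    · obtain ⟨c, hc, e⟩ := hzcomm x hxP
      rw [e, map_mul, MulAut.mul_apply, hconjC c hc]
    · intro w hw
      set X := V ⊓ Subgroup.centralizer ({(z : G)} : Set G)
      have hwX : (w : G) ∈ X := by
        refine ⟨w.2, Subgroup.mem_centralizer_iff.2 fun t ht => ?_⟩
        have := congrArg Subtype.val hw
        rw [MulAut.conjNormal_apply, mul_inv_eq_iff_eq_mul] at this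
        rw [Set.mem_singleton_iff.1 ht]; exact this
      have hXn : X.Normal := by
        refine ⟨fun v hv a => ?_⟩
        obtain ⟨b, hb, c, hc, rfl⟩ := Subgroup.mem_sup_of_normal_right.1 (hPC ▸ Subgroup.mem_top a : a ∈ (P : Subgroup G) ⊔ C)
        have h1 : c * v * c⁻¹ = v := by
          rw [← Subgroup.mem_centralizer_iff.1 hc v hv.1, mul_inv_cancel_right]
        rw [show b * c * v * (b * c)⁻¹ = b * (c * v * c⁻¹) * b⁻¹ by group, h1]
        refine ⟨hVn.conj_mem v hv.1 b, Subgroup.mem_centralizer_iff.2 fun t ht => ?_⟩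
        rw [Set.mem_singleton_iff.1 ht]
        obtain ⟨c', hc', e⟩ := hzcomm b hb
        have hzv : (z : G) * v = v * z := Subgroup.mem_centralizer_iff.1 hv.2 _ rfl
        have hcv : v * c' = c' * v := Subgroup.mem_centralizer_iff.1 hc' v hv.1
        have ezb : (z : G) * b = b * z * c'⁻¹ := by rw [e, mul_inv_cancel_right]
        calc (z : G) * (b * v * b⁻¹) = b * z * (c'⁻¹ * v) * b⁻¹ := by rw [← mul_assoc, ← mul_assoc, ezb]; group
          _ = b * z * (v * c'⁻¹) * b⁻¹ := by rw [(show Commute v c' from hcv).inv_right.eq]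
          _ = b * ((z : G) * v) * c'⁻¹ * b⁻¹ := by group
          _ = b * v * (z * c'⁻¹ * b⁻¹) := by rw [hzv]; group
          _ = b * v * (b⁻¹ * z) := by
            congr 1
            calc (z : G) * c'⁻¹ * b⁻¹ = b⁻¹ * (b * z * c'⁻¹) * b⁻¹ := by group
              _ = b⁻¹ * (z * b) * b⁻¹ := by rw [ezb]
              _ = b⁻¹ * z := by group
          _ = b * v * b⁻¹ * z := by group
      rcases hVmin X hXn inf_le_left with e | e
      · exact Subtype.ext (Subgroup.mem_bot.1 (e ▸ hwX))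
      · exact absurd (Subgroup.mem_centralizer_iff.2 fun v hv => (Subgroup.mem_centralizer_iff.1 (e.ge hv).2 _ rfl).symm) hzC
  exact hV1 (eq_bot_iff.2 fun v hv => Subgroup.mem_bot.2 (hVexp v hv (congrArg Subtype.val (key ⟨v, hv⟩))))

end Cfsg.Agent.S4249
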