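import Cfsg.Statements.S4250
import Mathlib
import Cfsg.Agent.Lib.Transfer.Alperin
-- import your own Cfsg.Agent.* helpers here

set_option autoImplicit false
open Cfsg
open scoped commutatorElement

namespace Cfsg.Agent.S4250

/-- Let P be a Sylow p-subgroup of a finite group G. Call an intersection H = P ∩ Q with a Sylow p-subgroup Q tame when N_P(H) and N_Q(H) are Sylow p-subgroups of N_G(H). Then P ∩ G′ is generated by [P, N_G(P)] together with the commutator subgroups [P ∩ Q, ⟨x⟩] for all tame intersections P ∩ Q and all p-elements x of N_G(P ∩ Q). -/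
theorem result {G : Type*} [Group G] [Finite G] (p : ℕ) [Fact p.Prime] (P : Sylow p G) :
    (P : Subgroup G) ⊓ commutator G =
      ⁅(P : Subgroup G), Subgroup.normalizer ((P : Subgroup G) : Set G)⁆ ⊔
        ⨆ (Q : Sylow p G) (_ : (¬ p ∣ ((P : Subgroup G) ⊓ Subgroup.normalizer (((P : Subgroup G) ⊓ (Q : Subgroup G) : Subgroup G) : Set G)).relIndex (Subgroup.normalizer (((P : Subgroup G) ⊓ (Q : Subgroup G) : Subgroup G) : Set G)) ∧ ¬ p ∣ ((Q : Subgroup G) ⊓ Subgroup.normalizer (((P : Subgroup G) ⊓ (Q : Subgroup G) : Subgroup G) : Set G)).relIndex (Subgroup.normalizer (((P : Subgroup G) ⊓ (Q : Subgroup G) : Subgroup G) : Set G))))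
          (x : G) (_ : x ∈ Subgroup.normalizer (((P : Subgroup G) ⊓ (Q : Subgroup G) : Subgroup G) : Set G) ∧ ∃ k : ℕ, orderOf x = p ^ k),
          ⁅(P : Subgroup G) ⊓ (Q : Subgroup G), Subgroup.zpowers x⁆ := by
  refine le_antisymm ?_ ?_
  · rw [inf_comm, Subgroup.commutator_inf_eq_focalSubgroup, Subgroup.focalSubgroup_def, Subgroup.closure_le]
    rintro w ⟨hw, a, ha, u, rfl⟩
    set S : Subgroup G := ⁅(P : Subgroup G), Subgroup.normalizer ((P : Subgroup G) : Set G)⁆ ⊔
      ⨆ (Q : Sylow p G) (_ : Cfsg.Lib.Transfer.Tame P Q)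
        (x : G) (_ : x ∈ Subgroup.normalizer (((P : Subgroup G) ⊓ (Q : Subgroup G) : Subgroup G) : Set G) ∧ ∃ k : ℕ, orderOf x = p ^ k),
        ⁅(P : Subgroup G) ⊓ (Q : Subgroup G), Subgroup.zpowers x⁆ with hS
    have key : ∀ (A : Set G) (g : G), Cfsg.Lib.Transfer.FusionChain P A g → ∀ b ∈ A, b⁻¹ * g⁻¹ * b * g ∈ S := by
      intro A g h
      induction h with
      | nil A => intro b _; simp
      | @cons A g Q x ht hx hxp hA _ ih =>
        intro b hb
        have h1 := ih _ ⟨b, hb, rfl⟩
        have h2 : b⁻¹ * x⁻¹ * b * x ∈ S := by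
          have e : b⁻¹ * x⁻¹ * b * x = ⁅b⁻¹, x⁻¹⁆ := by rw [commutatorElement_def, inv_inv, inv_inv]
          rw [e]
          rcases hxp with hxp | rfl
          · exact Subgroup.mem_sup_right (Subgroup.mem_iSup_of_mem Q (Subgroup.mem_iSup_of_mem ht
              (Subgroup.mem_iSup_of_mem x (Subgroup.mem_iSup_of_mem ⟨hx, hxp⟩
                (Subgroup.commutator_mem_commutator (inv_mem (hA hb)) (inv_mem (Subgroup.mem_zpowers x)))))))
          · rw [inf_idem] at hx
            exact Subgroup.mem_sup_left (Subgroup.commutator_mem_commutator (inv_mem (hA hb).1) (inv_mem hx))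
        have h3 := mul_mem h2 h1
        convert h3 using 1
        group
    have hua : u * a⁻¹ * u⁻¹ ∈ (P : Subgroup G) := by
      have := mul_mem (inv_mem ha) hw
      rw [commutatorElement_def] at this
      convert this using 1
      group
    have hk := key _ _ (Cfsg.Lib.Transfer.alperin P (A := {a⁻¹}) (g := u⁻¹) (Set.singleton_subset_iff.mpr (inv_mem ha : a⁻¹ ∈ (P : Subgroup G)))
      (by rintro _ ⟨c, hc, rfl⟩; rw [Set.mem_singleton_iff] at hc; subst hc; show u⁻¹⁻¹ * a⁻¹ * u⁻¹ ∈ (P : Subgroup G); rwa [inv_inv])) a⁻¹ rfl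
    show ⁅a, u⁆ ∈ S
    rw [commutatorElement_def]
    convert hk using 1
    group
  · refine sup_le ?_ (iSup_le fun Q => iSup_le fun _ => iSup_le fun x => iSup_le fun hx => ?_)
    · refine le_inf ?_ (Subgroup.commutator_mono le_top le_top)
      exact Subgroup.le_normalizer_iff_commutator_le_left.mp le_rfl
    · refine le_inf ?_ (Subgroup.commutator_mono le_top le_top)
      exact (Subgroup.le_normalizer_iff_commutator_le_left.mp (Subgroup.zpowers_le.mpr hx.1)).trans inf_le_left

end Cfsg.Agent.S4250
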