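import Cfsg.Statements.S4251
import Mathlib
import Cfsg.Agent.Lib.Transfer.Frobenius
-- import your own Cfsg.Agent.* helpers here

set_option autoImplicit false
open Cfsg

namespace Cfsg.Agent.S4251

/-- Let P be a Sylow p-subgroup of a finite group G. Call an intersection H = P ∩ Q with a Sylow p-subgroup Q tame when N_P(H) and N_Q(H) are Sylow p-subgroups of N_G(H). If N_G(H)/C_G(H) is a p-group for every nontrivial tame intersection H = P ∩ Q, then G has a normal p-complement. -/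
theorem result {G : Type*} [Group G] [Finite G] (p : ℕ) [Fact p.Prime] (P : Sylow p G)
    (h : ∀ Q : Sylow p G, (P : Subgroup G) ⊓ (Q : Subgroup G) ≠ ⊥ → (¬ p ∣ ((P : Subgroup G) ⊓ Subgroup.normalizer (((P : Subgroup G) ⊓ (Q : Subgroup G) : Subgroup G) : Set G)).relIndex (Subgroup.normalizer (((P : Subgroup G) ⊓ (Q : Subgroup G) : Subgroup G) : Set G)) ∧ ¬ p ∣ ((Q : Subgroup G) ⊓ Subgroup.normalizer (((P : Subgroup G) ⊓ (Q : Subgroup G) : Subgroup G) : Set G)).relIndex (Subgroup.normalizer (((P : Subgroup G) ⊓ (Q : Subgroup G) : Subgroup G) : Set G))) →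
      IsPGroup p (Subgroup.normalizer (((P : Subgroup G) ⊓ (Q : Subgroup G) : Subgroup G) : Set G) ⧸
        (Subgroup.centralizer (((P : Subgroup G) ⊓ (Q : Subgroup G) : Subgroup G) : Set G)).subgroupOf
          (Subgroup.normalizer (((P : Subgroup G) ⊓ (Q : Subgroup G) : Subgroup G) : Set G)))) :
    Cfsg.HasNormalPComplement p G := by
  refine Lib.Transfer.hasNormalPComplement_of_controls (P := P) ?_
  rintro x hx y hy ⟨g, hg⟩
  have hchain := Lib.Transfer.alperin P (A := {x}) (g := g⁻¹) (Set.singleton_subset_iff.2 hx)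
    (by rw [Lib.Transfer.conjR, Set.image_singleton, inv_inv, hg]; exact Set.singleton_subset_iff.2 hy)
  suffices key : ∀ A w, Cfsg.Lib.Transfer.FusionChain P A w →
      ∃ u ∈ (P : Subgroup G), ∀ a ∈ A, w⁻¹ * a * w = u⁻¹ * a * u by
    obtain ⟨u, hu, hu'⟩ := key _ _ hchain
    exact ⟨u⁻¹, inv_mem hu, by rw [inv_inv, ← hu' x rfl, inv_inv, hg]⟩
  intro A w hc
  induction hc with
  | nil _ => exact ⟨1, one_mem _, fun a _ => by simp⟩
  | @cons A w Q z ht hz hp hA _ ih =>
    obtain ⟨u, hu, hu'⟩ := ih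
    have hcent : ∀ c ∈ Subgroup.normalizer (((P : Subgroup G) ⊓ (Q : Subgroup G) : Subgroup G) : Set G),
        (orderOf c).Coprime p →
        c ∈ Subgroup.centralizer (((P : Subgroup G) ⊓ (Q : Subgroup G) : Subgroup G) : Set G) := by
      intro c hc hco
      rcases eq_or_ne ((P : Subgroup G) ⊓ (Q : Subgroup G)) ⊥ with hbot | hne
      · refine Subgroup.mem_centralizer_iff.2 fun a ha => ?_
        rw [hbot] at ha
        rw [show a = 1 from Subgroup.mem_bot.1 ha]; simp
      · have hpg := h Q hne ⟨ht.1, ht.2⟩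
        set C := (Subgroup.centralizer (((P : Subgroup G) ⊓ (Q : Subgroup G) : Subgroup G) : Set G)).subgroupOf
          (Subgroup.normalizer (((P : Subgroup G) ⊓ (Q : Subgroup G) : Subgroup G) : Set G)) with hC
        obtain ⟨k, hk⟩ := IsPGroup.iff_orderOf.1 hpg (QuotientGroup.mk' C ⟨c, hc⟩)
        have hd := orderOf_map_dvd (QuotientGroup.mk' C) ⟨c, hc⟩
        rw [hk, Subgroup.orderOf_mk] at hd
        have hk0 : p ^ k = 1 := Nat.eq_one_of_dvd_coprimes ((hco.pow_right k).symm) dvd_rfl hd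
        rw [hk0, orderOf_eq_one_iff] at hk
        exact (QuotientGroup.eq_one_iff (⟨c, hc⟩ : Subgroup.normalizer _)).1 hk
    obtain ⟨v, hv, hv'⟩ := Lib.Transfer.exists_centralizer_mul_of_isPGroup P _ hcent ht.1 hz
    refine ⟨v * u, mul_mem hv hu, fun a ha => ?_⟩
    have h1 := hu' (z⁻¹ * a * z) ⟨a, ha, rfl⟩
    have h2 : a * (z * v⁻¹) = (z * v⁻¹) * a := Subgroup.mem_centralizer_iff.1 hv' a (hA ha)
    have h3 : z⁻¹ * a * z = v⁻¹ * a * v := by
      calc z⁻¹ * a * z = z⁻¹ * (a * (z * v⁻¹)) * v := by group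
        _ = z⁻¹ * ((z * v⁻¹) * a) * v := by rw [h2]
        _ = _ := by group
    calc (z * w)⁻¹ * a * (z * w) = w⁻¹ * (z⁻¹ * a * z) * w := by group
      _ = u⁻¹ * (z⁻¹ * a * z) * u := h1
      _ = u⁻¹ * (v⁻¹ * a * v) * u := by rw [h3]
      _ = _ := by group

end Cfsg.Agent.S4251
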