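import Cfsg.Statements.S4252
import Mathlib
-- import your own Cfsg.Agent.* helpers here

set_option autoImplicit false
open Cfsg
open scoped Pointwise

namespace Cfsg.Agent.S4252

/-- Let a finite group G act on a finite set Ω with more than one point, transitively but not regularly, so that no non-identity element of G fixes two distinct points. Then the stabilizer H of any point is a Frobenius complement in G (nontrivial, proper, meeting its other conjugates trivially), and the Frobenius kernel of G with respect to H (the identity together with the elements lying in no conjugate of H) is exactly the set consisting of the identity and the elements fixing no point. -/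
theorem result {G Ω : Type*} [Group G] [Finite G] [Fintype Ω] [MulAction G Ω] (hΩ : 1 < Fintype.card Ω)
    (htrans : ∀ α β : Ω, ∃ g : G, g • α = β) (hnreg : ∃ g : G, g ≠ 1 ∧ ∃ α : Ω, g • α = α)
    (hfix : ∀ g : G, g ≠ 1 → ∀ α β : Ω, g • α = α → g • β = β → α = β) (α : Ω) :
    Cfsg.IsFrobeniusComplement (MulAction.stabilizer G α) ∧
      Cfsg.frobeniusKernel (MulAction.stabilizer G α) = {g : G | g = 1 ∨ ∀ ω : Ω, g • ω ≠ ω} := by
  haveI : MulAction.IsPretransitive G Ω := ⟨htrans⟩
  have hmem : ∀ (g x : G), x ∈ MulAut.conj g • MulAction.stabilizer G α ↔ x • (g • α) = g • α := by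
    intro g x
    rw [show MulAut.conj g • MulAction.stabilizer G α = MulAction.stabilizer G (g • α) from
      (MulAction.stabilizer_smul_eq_stabilizer_map_conj g α).symm, MulAction.mem_stabilizer_iff]
  refine ⟨⟨?_, ?_, ?_⟩, ?_⟩
  · intro h
    obtain ⟨g, hg, β, hβ⟩ := hnreg
    obtain ⟨c, rfl⟩ := htrans α β
    apply hg
    have h1 : c⁻¹ * g * c ∈ MulAction.stabilizer G α := by
      rw [MulAction.mem_stabilizer_iff, mul_smul, mul_smul, hβ, inv_smul_smul]
    rw [h, Subgroup.mem_bot] at h1
    calc g = c * (c⁻¹ * g * c) * c⁻¹ := by group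
      _ = 1 := by rw [h1]; group
  · intro h
    obtain ⟨β, hβ⟩ := Fintype.exists_ne_of_one_lt_card hΩ α
    obtain ⟨c, rfl⟩ := htrans α β
    exact hβ (MulAction.mem_stabilizer_iff.mp (h ▸ Subgroup.mem_top c))
  · intro g hg
    rw [eq_bot_iff]
    rintro x ⟨hx1, hx2⟩
    rw [Subgroup.mem_bot]
    by_contra hne
    exact hg (MulAction.mem_stabilizer_iff.mpr (hfix x hne α (g • α) hx1 ((hmem g x).mp hx2)).symm)
  · ext x
    refine or_congr_right ⟨fun h ω hω => ?_, fun h g hg => h (g • α) ((hmem g x).mp hg)⟩
    obtain ⟨g, rfl⟩ := htrans α ω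
    exact h g ((hmem g x).mpr hω)

end Cfsg.Agent.S4252
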