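import Cfsg.Statements.S4253
import Mathlib
-- import your own Cfsg.Agent.* helpers here

set_option autoImplicit false
open Cfsg
open scoped Pointwise

namespace Cfsg.Agent.S4253

/-- Let H be a Frobenius complement in a finite group G (a nontrivial proper subgroup meeting each conjugate gHg⁻¹ with g outside H trivially). Then in the action of G on the left cosets of H by left multiplication, no non-identity element of G fixes two distinct cosets. -/
theorem result {G : Type*} [Group G] [Finite G] (H : Subgroup G) (hH : Cfsg.IsFrobeniusComplement H)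
    (g : G) (hg : g ≠ 1) (a b : G ⧸ H) (ha : g • a = a) (hb : g • b = b) : a = b := by
  obtain ⟨x, rfl⟩ := QuotientGroup.mk_surjective a
  obtain ⟨y, rfl⟩ := QuotientGroup.mk_surjective b
  change ((g * x : G) : G ⧸ H) = (x : G ⧸ H) at ha
  change ((g * y : G) : G ⧸ H) = (y : G ⧸ H) at hb
  rw [QuotientGroup.eq] at ha hb
  by_contra hne
  have ht : x⁻¹ * y ∉ H := fun h => hne (QuotientGroup.eq.mpr h)
  have h1 : x⁻¹ * g * x ∈ H := by
    have := inv_mem ha
    convert this using 1
    group
  have h2 : y⁻¹ * g * y ∈ H := by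
    have := inv_mem hb
    convert this using 1
    group
  have h3 : x⁻¹ * g * x ∈ H ⊓ MulAut.conj (x⁻¹ * y) • H :=
    ⟨h1, ⟨y⁻¹ * g * y, h2, by simp [mul_assoc]⟩⟩
  rw [hH.2.2 _ ht, Subgroup.mem_bot] at h3
  exact hg (conj_eq_one_iff.mp (by simpa using h3 : x⁻¹ * g * (x⁻¹)⁻¹ = 1))

end Cfsg.Agent.S4253
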