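import Cfsg.Statements.S4261
import Mathlib
import Cfsg.Agent.Lib.Blocks.GlaubermanSolvable
import Cfsg.Agent.Lib.Transfer.Basic
import Cfsg.Agent.Lib.Transfer.NormalPComplement
-- import your own Cfsg.Agent.* helpers here

set_option autoImplicit false
open Cfsg

namespace Cfsg.Agent.S4261

universe v
theorem normal_aux : ∀ (n : ℕ) (G : Type v) [Group G] [Finite G], Nat.card G ≤ n → Group.IsSolvable G →
    ∀ M : Subgroup G, IsCoatom M → (∀ x : G, x ^ M.index ∈ M) → M.Normal := by
  intro n
  induction n with
  | zero => intro G _ _ h; exact absurd (Nat.card_pos (α := G)) (by omega)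
  | succ n ih =>
  intro G _ _ hn hsolv M hM hexp
  haveI := hsolv
  have hG1 : Nat.card G ≠ 1 := fun h => hM.1 (by
    haveI := (Nat.card_eq_one_iff_unique.mp h).1
    exact eq_top_iff.mpr fun x _ => by rw [Subsingleton.elim x 1]; exact one_mem _)
  obtain ⟨p, N, hp, hN, hNp, hpN⟩ := Cfsg.Lib.Blocks.exists_normal_pSubgroup hG1
  haveI := hN
  haveI := Fact.mk hp
  by_cases hle : N ≤ M
  · have hlt : Nat.card (G ⧸ N) ≤ n := by
      rw [← Subgroup.index_eq_card]
      have h1 := N.card_mul_index
      have h2 : 2 ≤ Nat.card N := hp.two_le.trans (Nat.le_of_dvd Nat.card_pos hpN)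
      have h3 : 0 < N.index := Nat.pos_of_ne_zero Subgroup.index_ne_zero_of_finite
      nlinarith
    have hsurj := QuotientGroup.mk'_surjective N
    have hback : (M.map (QuotientGroup.mk' N)).comap (QuotientGroup.mk' N) = M := by
      rw [Subgroup.comap_map_eq, QuotientGroup.ker_mk', sup_eq_left.mpr hle]
    have hco : IsCoatom (M.map (QuotientGroup.mk' N)) := by
      refine ⟨fun h => hM.1 (by rw [← hback, h, Subgroup.comap_top]), fun K hK => ?_⟩
      have h1 : M < K.comap (QuotientGroup.mk' N) :=
        lt_of_eq_of_lt hback.symm ((Subgroup.comap_lt_comap_of_surjective hsurj).mpr hK)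
      rw [← Subgroup.map_comap_eq_self_of_surjective hsurj K, hM.2 _ h1, Subgroup.map_top_of_surjective _ hsurj]
    have := ih _ hlt inferInstance _ hco (fun x => by
      obtain ⟨y, rfl⟩ := hsurj x
      rw [Subgroup.index_map_eq _ hsurj (by rwa [QuotientGroup.ker_mk'])]
      exact ⟨y ^ M.index, hexp y, map_pow _ _ _⟩)
    rw [← hback]
    exact Subgroup.Normal.comap this _
  · have htop : N ⊔ M = ⊤ := hM.2 _ (lt_of_le_of_ne le_sup_right fun e => hle (le_sup_left.trans e.ge))
    obtain ⟨k, hk⟩ := IsPGroup.iff_card.mp hNp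
    have hidx : M.index ∣ p ^ k := by
      have h1 := Cfsg.Lib.Transfer.card_sup_dvd_of_normal M N
      rw [sup_comm, htop, Subgroup.card_top, ← M.card_mul_index, hk] at h1
      exact (Nat.mul_dvd_mul_iff_left Nat.card_pos).mp h1
    obtain ⟨j, -, hj⟩ := (Nat.dvd_prime_pow hp).mp hidx
    haveI := Cfsg.Lib.Transfer.pResidual_normal (G := G) p
    have hres : Cfsg.pResidual p G ≤ M := (Subgroup.closure_le _).mpr fun x hx => by
      obtain ⟨m, hm⟩ := exists_pow_eq_self_of_coprime (n := M.index) (x := x) (by rw [hj]; exact Nat.Coprime.pow_left j (Nat.Coprime.symm hx))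
      rw [← hm]
      exact pow_mem (hexp x) m
    have hQ := Cfsg.Lib.Transfer.isPGroup_quotient_of_pResidual_le (p := p) (Cfsg.pResidual p G) le_rfl
    haveI := hQ.isNilpotent
    have hsurj := QuotientGroup.mk'_surjective (Cfsg.pResidual p G)
    have hback : (M.map (QuotientGroup.mk' (Cfsg.pResidual p G))).comap (QuotientGroup.mk' (Cfsg.pResidual p G)) = M := by
      rw [Subgroup.comap_map_eq, QuotientGroup.ker_mk', sup_eq_left.mpr hres]
    have hco : IsCoatom (M.map (QuotientGroup.mk' (Cfsg.pResidual p G))) := by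
      refine ⟨fun h => hM.1 (by rw [← hback, h, Subgroup.comap_top]), fun K hK => ?_⟩
      have h1 : M < K.comap (QuotientGroup.mk' (Cfsg.pResidual p G)) :=
        lt_of_eq_of_lt hback.symm ((Subgroup.comap_lt_comap_of_surjective hsurj).mpr hK)
      rw [← Subgroup.map_comap_eq_self_of_surjective hsurj K, hM.2 _ h1, Subgroup.map_top_of_surjective _ hsurj]
    rw [← hback]
    exact Subgroup.Normal.comap (Subgroup.NormalizerCondition.normal_of_coatom _ Group.normalizerCondition_of_isNilpotent hco) _

/-- Let M be a maximal subgroup of a finite solvable group G such that x^[G : M] lies in M for every x in G. Then M is normal in G. -/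
theorem result {G : Type*} [Group G] [Finite G] (hG : Group.IsSolvable G) (M : Subgroup G) (hM : IsCoatom M)
    (hexp : ∀ x : G, x ^ M.index ∈ M) : M.Normal := by
  exact normal_aux _ G le_rfl hG M hM hexp

end Cfsg.Agent.S4261
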