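import Cfsg.Statements.S4262
import Cfsg.Agent.Lib.PLocal.NormalComplement
import Cfsg.Agent.Lib.PLocal.BaerInvolution
import Cfsg.Agent.Lib.Solv.MinimalNonNilpotent

set_option autoImplicit false
open Cfsg Cfsg.Lib
open scoped Pointwise

namespace Cfsg.Agent.S4262

universe u

variable {G : Type u} [Group G] [Finite G]

local notation "C(" g ")" => Subgroup.centralizer ({g} : Set _)

theorem mem_C {g x : G} : x ∈ Subgroup.centralizer ({g} : Set G) ↔ g * x = x * g := by
  rw [Subgroup.mem_centralizer_iff]; exact ⟨fun h => h g rfl, fun h y hy => by rw [Set.mem_singleton_iff.1 hy]; exact h⟩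

theorem C_eq_top {g : G} (hg : g ∈ Subgroup.center G) : Subgroup.centralizer ({g} : Set G) = ⊤ :=
  eq_top_iff.2 fun x _ => mem_C.2 (Subgroup.mem_center_iff.1 hg x).symm

theorem C_le_pow (g : G) (n : ℕ) : Subgroup.centralizer ({g} : Set G) ≤ Subgroup.centralizer ({g ^ n} : Set G) :=
  fun _ hx => mem_C.2 ((show Commute g _ from mem_C.1 hx).pow_left n).eq

variable (h : ∀ g : G, g ∉ Subgroup.center G → IsCoatom (Subgroup.centralizer ({g} : Set G)))

include h in
theorem eq_of_le {g x : G} (hx : x ∉ Subgroup.center G)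
    (hle : Subgroup.centralizer ({g} : Set G) ≤ Subgroup.centralizer ({x} : Set G)) :
    Subgroup.centralizer ({x} : Set G) = Subgroup.centralizer ({g} : Set G) := by
  by_cases hg : g ∈ Subgroup.center G
  · rw [C_eq_top hg] at hle
    exact absurd (top_le_iff.1 hle) (h x hx).1
  · exact ((h g hg).le_iff.1 hle).resolve_left (h x hx).1

include h in
theorem eq_of_commute {x y : G} (hx : x ∉ Subgroup.center G) (hy : y ∉ Subgroup.center G) (hc : Commute x y)
    (hco : (orderOf x).Coprime (orderOf y)) :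
    Subgroup.centralizer ({x} : Set G) = Subgroup.centralizer ({y} : Set G) := by
  have key : ∀ a b : G, Commute a b → (orderOf a).Coprime (orderOf b) →
      Subgroup.centralizer ({a * b} : Set G) ≤ Subgroup.centralizer ({a} : Set G) := by
    intro a b hc hco
    obtain ⟨m, hm⟩ := exists_pow_eq_self_of_coprime hco.symm
    have e : a = (a * b) ^ (orderOf b * m) := by
      rw [hc.mul_pow, pow_mul b, pow_orderOf_eq_one, one_pow, mul_one, pow_mul, hm]
    intro z hz
    rw [e]
    exact C_le_pow _ _ hz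
  rw [eq_of_le h hx (key x y hc hco), eq_of_le h hy (g := x * y) ?_]
  rw [hc.eq]
  exact key y x hc.symm hco.symm

/-- A noncentral element has a noncentral power of prime power order. -/
theorem exists_part {g : G} (hg : g ∉ Subgroup.center G) :
    ∃ (p k m : ℕ), p.Prime ∧ orderOf (g ^ m) = p ^ k ∧ g ^ m ∉ Subgroup.center G := by
  by_contra hc
  push Not at hc
  refine hg (Transfer.mem_of_forall_pow_ordCompl_mem fun p hp => hc p ((orderOf g).factorization p) _ hp ?_)
  rw [orderOf_pow_of_dvd (Nat.ordCompl_pos p (orderOf_pos g).ne').ne' (Nat.ordCompl_dvd _ _),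
    Nat.div_div_self (Nat.ordProj_dvd _ _) (orderOf_pos g).ne']

include h in
/-- In the centralizer of a noncentral `p`-element every `p'`-element is central. -/
theorem commute_of_coprime {p k : ℕ} (hp : p.Prime) {y : G} (hy : y ∉ Subgroup.center G) (hyo : orderOf y = p ^ k) {z x : G}
    (hz : z ∈ Subgroup.centralizer ({y} : Set G)) (hzo : (orderOf z).Coprime p)
    (hx : x ∈ Subgroup.centralizer ({y} : Set G)) : z * x = x * z := by
  by_cases hzc : z ∈ Subgroup.center G
  · exact (Subgroup.mem_center_iff.1 hzc x).symm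
  rw [← eq_of_commute h hzc hy (mem_C.1 hz).symm (hyo ▸ hzo.pow_right k)] at hx
  exact mem_C.1 hx

include h in
theorem nilpotent_C {g : G} (hg : g ∉ Subgroup.center G) : Group.IsNilpotent (Subgroup.centralizer ({g} : Set G)) := by
  obtain ⟨p, k, m, hp, ho, hm⟩ := exists_part hg
  rw [← eq_of_le h hm (C_le_pow g m)]
  haveI := Fact.mk hp
  set C := Subgroup.centralizer ({g ^ m} : Set G)
  have hq : IsPGroup p (C ⧸ Subgroup.center C) := by
    intro c
    obtain ⟨c, rfl⟩ := QuotientGroup.mk'_surjective _ c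
    refine ⟨(orderOf c).factorization p, (QuotientGroup.eq_one_iff _).2 ?_⟩
    refine Subgroup.mem_center_iff.2 fun x => Subtype.ext ?_
    refine (commute_of_coprime h hp hm ho (c ^ p ^ (orderOf c).factorization p).2 ?_ x.2).symm
    rw [Subgroup.orderOf_coe, orderOf_pow_of_dvd (Nat.ordProj_pos _ _).ne' (Nat.ordProj_dvd _ _)]
    exact (Nat.coprime_ordCompl hp (orderOf_pos c).ne').symm
  exact Group.of_quotient_center_nilpotent hq.isNilpotent

include h in
/-- The Sylow subgroup of the centralizer of a noncentral `p`-element. -/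
theorem sylow_C {p k : ℕ} [hp : Fact p.Prime] {y : G} (hy : y ∉ Subgroup.center G) (hyo : orderOf y = p ^ k)
    (hsn : Subgroup.normalizer (Subgroup.centralizer ({y} : Set G) : Set G) = Subgroup.centralizer ({y} : Set G)) :
    ∃ P : Sylow p G, (P : Subgroup G) ≤ Subgroup.centralizer ({y} : Set G) ∧
      Subgroup.normalizer (P : Set G) ≤ Subgroup.centralizer ({y} : Set G) ∧
      (∀ x ∈ Subgroup.centralizer ({y} : Set G), IsPGroup p (Subgroup.zpowers x) → x ∈ (P : Subgroup G)) ∧
      ((∀ a ∈ (P : Subgroup G), ∀ b ∈ Subgroup.centralizer ({y} : Set G), a * b = b * a) ∨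
       ∀ z ∈ Subgroup.centralizer ({y} : Set G), (orderOf z).Coprime p → z ∈ Subgroup.center G) := by
  set M := Subgroup.centralizer ({y} : Set G)
  haveI := nilpotent_C h hy
  obtain ⟨T0⟩ : Nonempty (Sylow p M) := inferInstance
  haveI hT0n := Solv.normal_sylow_of_nilpotent T0
  set T := (T0 : Subgroup M).map M.subtype
  have hTM : T ≤ M := Subgroup.map_subtype_le _
  have hTp : IsPGroup p T := T0.isPGroup'.map _
  have hall : ∀ x ∈ M, IsPGroup p (Subgroup.zpowers x) → x ∈ T := by
    intro x hx hxp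
    refine ⟨⟨x, hx⟩, ?_, rfl⟩
    obtain ⟨n, hn⟩ := IsPGroup.iff_card.1 hxp
    have h1 : IsPGroup p (Subgroup.zpowers (⟨x, hx⟩ : M)) :=
      IsPGroup.of_card (n := n) (by rw [Nat.card_zpowers, Subgroup.orderOf_mk, ← Nat.card_zpowers, hn])
    exact (T0.is_maximal' (T0.isPGroup'.to_sup_of_normal_left h1) le_sup_left).le
      (Subgroup.mem_sup_right (Subgroup.mem_zpowers _))
  have hyT : y ∈ T := hall y (mem_C.2 rfl) (IsPGroup.of_card (n := k) (by rw [Nat.card_zpowers, hyo]))
  have hdich : (∀ a ∈ T, ∀ b ∈ M, a * b = b * a) ∨ ∀ z ∈ M, (orderOf z).Coprime p → z ∈ Subgroup.center G := by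
    by_cases hB : ∀ z ∈ M, (orderOf z).Coprime p → z ∈ Subgroup.center G
    · exact Or.inr hB
    push Not at hB
    obtain ⟨z, hz, hzo, hzc⟩ := hB
    refine Or.inl fun a ha b hb => ?_
    by_cases hac : a ∈ Subgroup.center G
    · exact (Subgroup.mem_center_iff.1 hac b).symm
    obtain ⟨j, hj⟩ := IsPGroup.iff_orderOf.1 hTp ⟨a, ha⟩
    rw [Subgroup.orderOf_mk] at hj
    have e1 := eq_of_commute h hzc hac (commute_of_coprime h hp.out hy hyo hz hzo (hTM ha)) (hj ▸ hzo.pow_right j)
    have e2 := eq_of_commute h hzc hy (commute_of_coprime h hp.out hy hyo hz hzo (mem_C.2 rfl)) (hyo ▸ hzo.pow_right k)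
    exact mem_C.1 (show b ∈ Subgroup.centralizer ({a} : Set G) by rw [← e1, e2]; exact hb)
  have hN : Subgroup.normalizer (T : Set G) ≤ M := by
    intro g hg
    rw [← hsn]
    rcases hdich with hA | hB
    · have hMT : M = Subgroup.centralizer (T : Set G) := le_antisymm
        (fun b hb => Subgroup.mem_centralizer_iff.2 fun a ha => hA a ha b hb)
        (fun b hb => mem_C.2 (Subgroup.mem_centralizer_iff.1 hb y hyT))
      rw [hMT]
      have hinv : ∀ g' ∈ Subgroup.normalizer (T : Set G), ∀ b ∈ Subgroup.centralizer (T : Set G),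
          g' * b * g'⁻¹ ∈ Subgroup.centralizer (T : Set G) := by
        intro g' hg' b hb
        refine Subgroup.mem_centralizer_iff.2 fun a ha => ?_
        have := Subgroup.mem_centralizer_iff.1 hb _ ((Subgroup.mem_normalizer_iff''.1 hg' a).1 ha)
        calc a * (g' * b * g'⁻¹) = g' * ((g'⁻¹ * a * g') * b) * g'⁻¹ := by group
          _ = g' * (b * (g'⁻¹ * a * g')) * g'⁻¹ := by rw [this]
          _ = g' * b * g'⁻¹ * a := by group
      refine PLocal.mem_normalizer_of_map_conj (Subgroup.eq_of_le_of_card_ge ?_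
        (Subgroup.card_map_of_injective (MulAut.conj g).injective).ge)
      rintro _ ⟨x, hx, rfl⟩
      exact hinv g hg x hx
    · refine PLocal.mem_normalizer_of_map_conj (Subgroup.eq_of_le_of_card_ge ?_
        (Subgroup.card_map_of_injective (MulAut.conj g).injective).ge)
      rintro _ ⟨x, hx, rfl⟩
      refine Transfer.mem_of_forall_pow_ordCompl_mem fun r hr => ?_
      rw [← map_pow]
      by_cases hrp : r = p
      · subst hrp
        refine hTM ((Subgroup.mem_normalizer_iff.1 hg _).1 (hall _ (pow_mem hx _) ?_))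
        refine IsPGroup.of_card (n := (orderOf ((MulAut.conj g).toMonoidHom x)).factorization r) ?_
        rw [Nat.card_zpowers, show orderOf ((MulAut.conj g).toMonoidHom x) = orderOf x from orderOf_injective _ (MulAut.conj g).injective x,
          orderOf_pow_of_dvd (Nat.ordCompl_pos r (orderOf_pos x).ne').ne' (Nat.ordCompl_dvd _ _),
          Nat.div_div_self (Nat.ordProj_dvd _ _) (orderOf_pos x).ne']
      · have hz : x ^ ordCompl[r] (orderOf ((MulAut.conj g).toMonoidHom x)) ∈ Subgroup.center G := by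
          refine hB _ (pow_mem hx _) ?_
          rw [show orderOf ((MulAut.conj g).toMonoidHom x) = orderOf x from orderOf_injective _ (MulAut.conj g).injective x,
            orderOf_pow_of_dvd (Nat.ordCompl_pos r (orderOf_pos x).ne').ne' (Nat.ordCompl_dvd _ _),
            Nat.div_div_self (Nat.ordProj_dvd _ _) (orderOf_pos x).ne']
          exact ((Nat.coprime_primes hr hp.out).2 hrp).pow_left _
        refine mem_C.2 ?_
        simp only [MulEquiv.coe_toMonoidHom] at hz ⊢
        rw [MulAut.conj_apply, Subgroup.mem_center_iff.1 hz g, mul_inv_cancel_right]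
        exact (Subgroup.mem_center_iff.1 hz y)
  obtain ⟨P, hP⟩ := hTp.exists_le_sylow
  have hPT : (P : Subgroup G) = T := by
    by_contra hne
    have hlt := lt_of_le_of_ne hP (Ne.symm hne)
    have hU := Transfer.lt_inf_normalizer hlt
    refine hU.not_ge fun x hx => hall x (hN hx.2) (P.isPGroup'.to_le ?_)
    exact Subgroup.zpowers_le.2 hx.1
  refine ⟨P, hPT ▸ hTM, ?_, ?_, ?_⟩
  · show Subgroup.normalizer ((P : Subgroup G) : Set G) ≤ M
    rw [hPT]; exact hN
  · rw [hPT]; exact hall
  · rw [hPT]; exact hdich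

theorem p_case {p : ℕ} [hp : Fact p.Prime]
    (h : ∀ g : G, g ∉ Subgroup.center G → IsCoatom (Subgroup.centralizer ({g} : Set G)))
    (hsn : ∀ g : G, g ∉ Subgroup.center G →
      Subgroup.normalizer (Subgroup.centralizer ({g} : Set G) : Set G) = Subgroup.centralizer ({g} : Set G)) :
    Group.IsSolvable G ∨ HasNormalPComplement p G := by
  obtain ⟨P0⟩ : Nonempty (Sylow p G) := inferInstance
  by_cases hall : (P0 : Subgroup G) ≤ Subgroup.center G
  · exact Or.inr (Transfer.hasNormalPComplement_of_normalizer_le_centralizer P0 fun g _ =>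
      Subgroup.mem_centralizer_iff.2 fun a ha => (Subgroup.mem_center_iff.1 (hall ha) g).symm)
  obtain ⟨y, hyP, hy⟩ := SetLike.not_le_iff_exists.1 hall
  obtain ⟨k, hyo⟩ := IsPGroup.iff_orderOf.1 P0.isPGroup' ⟨y, hyP⟩
  rw [Subgroup.orderOf_mk] at hyo
  obtain ⟨P, hPM, hNM, hmem, hA | hB⟩ := sylow_C h hy hyo (hsn y hy)
  · exact Or.inr (Transfer.hasNormalPComplement_of_normalizer_le_centralizer P fun g hg =>
      Subgroup.mem_centralizer_iff.2 fun a ha => hA a ha g (hNM hg))
  left
  set M := Subgroup.centralizer ({y} : Set G) with hMdef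
  haveI hO := Transfer.pCore_normal (G := G) p
  set Z := Subgroup.center G
  set N := pCore p G ⊔ Z with hNdef
  haveI : N.Normal := inferInstance
  have hZM : Z ≤ M := fun z hz => mem_C.2 (Subgroup.mem_center_iff.1 hz y)
  have hNle : N ≤ M := sup_le ((Transfer.pCore_le_sylow P).trans hPM) hZM
  -- decomposition of the elements of `M`
  have hdec : ∀ x ∈ M, ∃ a ∈ (P : Subgroup G), ∃ z ∈ Z, x = a * z := by
    intro x hx
    have : x ∈ (P : Subgroup G) ⊔ Z := by
      refine Transfer.mem_of_forall_pow_ordCompl_mem fun r hr => ?_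
      have ho : orderOf (x ^ ordCompl[r] (orderOf x)) = r ^ (orderOf x).factorization r := by
        rw [orderOf_pow_of_dvd (Nat.ordCompl_pos r (orderOf_pos x).ne').ne' (Nat.ordCompl_dvd _ _),
          Nat.div_div_self (Nat.ordProj_dvd _ _) (orderOf_pos x).ne']
      by_cases hrp : r = p
      · subst hrp
        exact Subgroup.mem_sup_left (hmem _ (pow_mem hx _) (IsPGroup.of_card (by rw [Nat.card_zpowers, ho])))
      · exact Subgroup.mem_sup_right (hB _ (pow_mem hx _) (by rw [ho]; exact ((Nat.coprime_primes hr hp.out).2 hrp).pow_left _))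
    obtain ⟨a, ha, z, hz, e⟩ := Subgroup.mem_sup_of_normal_right.1 this
    exact ⟨a, ha, z, hz, e.symm⟩
  set q := QuotientGroup.mk' N with hqdef
  have hsurj : Function.Surjective q := QuotientGroup.mk'_surjective N
  have hqN : ∀ {x : G}, q x = 1 ↔ x ∈ N := fun {x} => QuotientGroup.eq_one_iff x
  set Pb := P.mapSurjective hsurj
  have hPbcoe : (Pb : Subgroup (G ⧸ N)) = (P : Subgroup G).map q := rfl
  have hMP : M.map q = (Pb : Subgroup (G ⧸ N)) := by
    refine le_antisymm ?_ (hPbcoe ▸ Subgroup.map_mono hPM)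
    rintro _ ⟨x, hx, rfl⟩
    obtain ⟨a, ha, z, hz, rfl⟩ := hdec x hx
    rw [map_mul, hqN.2 (show z ∈ N from Subgroup.mem_sup_right hz), mul_one]
    exact Subgroup.mem_map_of_mem q ha
  have hMq : (Pb : Subgroup (G ⧸ N)).comap q = M := by
    rw [← hMP, Subgroup.comap_map_eq, QuotientGroup.ker_mk', sup_eq_left.2 hNle]
  have hPbmax : ∀ X : Subgroup (G ⧸ N), (Pb : Subgroup (G ⧸ N)) ≤ X → X = Pb ∨ X = ⊤ := by
    intro X hX
    rcases (h y hy).le_iff.1 (hMq ▸ Subgroup.comap_mono (f := q) hX) with e | e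
    · exact Or.inr (Subgroup.comap_injective hsurj (e.trans (Subgroup.comap_top q).symm))
    · exact Or.inl (Subgroup.comap_injective hsurj (e.trans hMq.symm))
  have hMnn : ¬ M.Normal := fun hn => (h y hy).1 ((hsn y hy).symm.trans (Subgroup.normalizer_eq_top_iff.2 hn))
  have hOb : pCore p (G ⧸ N) = ⊥ := by
    haveI hOn := Transfer.pCore_normal (G := G ⧸ N) p
    set X := (pCore p (G ⧸ N)).comap q
    haveI : X.Normal := Subgroup.Normal.comap hOn _
    have hXM : X ≤ M := hMq ▸ Subgroup.comap_mono (Transfer.pCore_le_sylow Pb)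
    have hXP : ((P : Subgroup G) ⊓ X).Normal := by
      refine ⟨fun a ha g => ?_⟩
      have hgX : g * a * g⁻¹ ∈ X := (inferInstance : X.Normal).conj_mem a ha.2 g
      refine ⟨hmem _ (hXM hgX) ?_, hgX⟩
      obtain ⟨j, hj⟩ := IsPGroup.iff_orderOf.1 P.isPGroup' ⟨a, ha.1⟩
      rw [Subgroup.orderOf_mk] at hj
      refine IsPGroup.of_card (n := j) ?_
      rw [Nat.card_zpowers, ← hj]
      exact orderOf_injective (MulAut.conj g).toMonoidHom (MulAut.conj g).injective a
    refine Subgroup.comap_injective hsurj (le_antisymm ?_ (Subgroup.comap_mono bot_le))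
    rw [MonoidHom.comap_bot, hqdef, QuotientGroup.ker_mk']
    intro x hx
    obtain ⟨a, ha, z, hz, rfl⟩ := hdec x (hXM hx)
    have hzX : z ∈ X := by
      show q z ∈ pCore p (G ⧸ N)
      rw [hqN.2 (show z ∈ N from Subgroup.mem_sup_right hz)]; exact one_mem _
    have haX : a ∈ X := (mul_mem_cancel_right hzX).1 hx
    have haO : a ∈ pCore p G := Transfer.le_pCore hXP (P.isPGroup'.to_le inf_le_left) ⟨ha, haX⟩
    exact mul_mem (Subgroup.mem_sup_left haO) (Subgroup.mem_sup_right hz)
  have hPb1 : (Pb : Subgroup (G ⧸ N)) ≠ ⊥ := by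
    intro e
    refine hMnn ?_
    have e1 : M = N := by rw [← hMq, e, MonoidHom.comap_bot, hqdef, QuotientGroup.ker_mk']
    rw [e1]; infer_instance
  haveI hNsol : Group.IsSolvable N := by
    haveI := nilpotent_C h hy
    exact Group.isSolvable_of_isSolvable_injective (Subgroup.inclusion_injective hNle)
  suffices Group.IsSolvable (G ⧸ N) from (Group.isSolvable_iff_subgroup_quotient N).2 ⟨hNsol, this⟩
  by_cases hp2 : p = 2
  · subst hp2
    exfalso
    obtain ⟨t0, ht0⟩ := exists_prime_orderOf_dvd_card' (G := (Pb : Subgroup (G ⧸ N))) 2 (by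
      obtain ⟨j, hj⟩ := IsPGroup.iff_card.1 Pb.isPGroup'
      rw [hj]
      refine dvd_pow_self _ fun hj0 => hPb1 (Subgroup.eq_bot_of_card_eq _ (by rw [hj, hj0, pow_zero])))
    rw [← Subgroup.orderOf_coe] at ht0
    obtain ⟨v0, r, hr, hr2, hv0, htv0⟩ := PLocal.exists_inverted_of_not_mem_pCore ht0
      (by rw [hOb, Subgroup.mem_bot]; intro e; rw [e, orderOf_one] at ht0; omega)
    obtain ⟨t, ht⟩ := hsurj (t0 : G ⧸ N)
    obtain ⟨u0, hu0⟩ := hsurj v0
    haveI := Fact.mk hr
    -- a preimage of `r`-power order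
    set e := (orderOf u0).factorization r
    set u := u0 ^ ordCompl[r] (orderOf u0)
    have huo : orderOf u = r ^ e := by
      rw [orderOf_pow_of_dvd (Nat.ordCompl_pos r (orderOf_pos u0).ne').ne' (Nat.ordCompl_dvd _ _),
        Nat.div_div_self (Nat.ordProj_dvd _ _) (orderOf_pos u0).ne']
    set v := q u with hvdef
    have hvv : v = v0 ^ ordCompl[r] (orderOf u0) := by rw [hvdef, map_pow, hu0]
    have hvo : orderOf v = r := by
      rw [hvv, Nat.Coprime.orderOf_pow, hv0]
      rw [hv0]
      exact (Nat.coprime_ordCompl hr (orderOf_pos u0).ne')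
    have htv : q t * v * (q t)⁻¹ = v⁻¹ := by rw [hvv, ← conj_pow, ht, htv0, inv_pow]
    have hv1 : v ≠ 1 := fun e1 => hr.one_lt.ne' (by rw [← hvo, e1, orderOf_one])
    have huZ : u ∉ Z := fun hu => hv1 (hqN.2 (Subgroup.mem_sup_right hu))
    set W := (Subgroup.zpowers v).comap q
    have hW : W.map (MulAut.conj t).toMonoidHom = W := by
      refine Subgroup.eq_of_le_of_card_ge ?_ (Subgroup.card_map_of_injective (MulAut.conj t).injective).ge
      rintro _ ⟨x, hx, rfl⟩
      obtain ⟨i, hi⟩ := Subgroup.mem_zpowers_iff.1 (show q x ∈ Subgroup.zpowers v from hx)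
      show q (t * x * t⁻¹) ∈ Subgroup.zpowers v
      rw [map_mul, map_mul, map_inv, ← hi, ← conj_zpow, htv]
      exact zpow_mem (inv_mem (Subgroup.mem_zpowers v)) i
    have huW : u ∈ W := Subgroup.mem_zpowers v
    have hu' : IsPGroup r (Subgroup.zpowers (⟨u, huW⟩ : W)) :=
      IsPGroup.of_card (n := e) (by rw [Nat.card_zpowers, Subgroup.orderOf_mk, huo])
    obtain ⟨Q0, hQ0⟩ := hu'.exists_le_sylow
    set Q := (Q0 : Subgroup W).map W.subtype
    have hQW : Q ≤ W := Subgroup.map_subtype_le _
    have huQ : u ∈ Q := ⟨⟨u, huW⟩, hQ0 (Subgroup.mem_zpowers _), rfl⟩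
    set Qt := Q.map (MulAut.conj t).toMonoidHom
    have hQtW : Qt ≤ W := (Subgroup.map_mono hQW).trans hW.le
    let Q1 : Sylow r W := Sylow.ofCard (Qt.subgroupOf W) (by
      rw [Nat.card_congr (Subgroup.subgroupOfEquivOfLe hQtW).toEquiv,
        Subgroup.card_map_of_injective (MulAut.conj t).injective, Subgroup.card_map_of_injective W.subtype_injective]
      exact Q0.card_eq_multiplicity)
    obtain ⟨w, hw⟩ := MulAction.exists_smul_eq W Q0 Q1
    have hQw : Q.map (MulAut.conj (w : G)).toMonoidHom = Qt := by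
      refine Subgroup.eq_of_le_of_card_ge ?_ ?_
      · rintro _ ⟨_, ⟨x, hx, rfl⟩, rfl⟩
        have : w * x * w⁻¹ ∈ (Q1 : Subgroup W) := by
          rw [← hw]; exact Subgroup.mem_map_of_mem (MulAut.conj w).toMonoidHom hx
        exact this
      · exact ((Subgroup.card_map_of_injective (MulAut.conj t).injective).trans
          (Subgroup.card_map_of_injective (MulAut.conj (w : G)).injective).symm).le
    set t' := (w : G)⁻¹ * t
    have ht'Q : ∀ x ∈ Q, t' * x * t'⁻¹ ∈ Q := by
      intro x hx
      have h1 : t * x * t⁻¹ ∈ Qt := ⟨x, hx, rfl⟩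
      rw [← hQw] at h1
      obtain ⟨x', hx', hxe⟩ := h1
      rw [MulEquiv.coe_toMonoidHom, MulAut.conj_apply] at hxe
      have he : t' * x * t'⁻¹ = x' := by
        calc t' * x * t'⁻¹ = (w : G)⁻¹ * (t * x * t⁻¹) * (w : G) := by simp only [t']; group
          _ = x' := by rw [← hxe]; group
      rw [he]; exact hx'
    have hQC : ∀ x ∈ Q, ∀ c ∈ Subgroup.centralizer ({u} : Set G), x * c = c * x := by
      intro x hx c hc
      obtain ⟨i, hi⟩ := Subgroup.mem_zpowers_iff.1 (show q x ∈ Subgroup.zpowers v from hQW hx)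
      set n := (u ^ i)⁻¹ * x
      have hnN : n ∈ N := hqN.1 (by rw [map_mul, map_inv, map_zpow, ← hvdef, hi, inv_mul_cancel])
      have hnQ : n ∈ Q := mul_mem (inv_mem (zpow_mem huQ i)) hx
      have hnZ : n ∈ Z := by
        obtain ⟨j, hj⟩ := IsPGroup.iff_orderOf.1 (Q0.isPGroup'.map W.subtype) ⟨n, hnQ⟩
        rw [Subgroup.orderOf_mk] at hj
        exact hB n (hNle hnN) (by rw [hj]; exact ((Nat.coprime_primes hr hp.out).2 hr2).pow_left _)
      have hxe : x = u ^ i * n := (mul_inv_cancel_left _ _).symm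
      rw [hxe, mul_assoc, ← Subgroup.mem_center_iff.1 hnZ c, ← mul_assoc,
        ((show Commute u c from mem_C.1 hc).zpow_left i).eq, mul_assoc]
    have ht'N : t' ∈ Subgroup.normalizer (Subgroup.centralizer ({u} : Set G) : Set G) := by
      refine PLocal.mem_normalizer_of_map_conj (Subgroup.eq_of_le_of_card_ge ?_
        (Subgroup.card_map_of_injective (MulAut.conj t').injective).ge)
      rintro _ ⟨c, hc, rfl⟩
      refine mem_C.2 ?_
      rw [MulEquiv.coe_toMonoidHom, MulAut.conj_apply]
      -- `t'⁻¹ u t'` lies in `Q`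
      have hinQ : t'⁻¹ * u * t' ∈ Q := by
        have hle : Q.map (MulAut.conj t').toMonoidHom ≤ Q := by
          rintro _ ⟨x, hx, rfl⟩; exact ht'Q x hx
        have := Subgroup.eq_of_le_of_card_ge hle (Subgroup.card_map_of_injective (MulAut.conj t').injective).ge
        obtain ⟨x, hx, hxe⟩ := this.ge huQ
        rw [MulEquiv.coe_toMonoidHom, MulAut.conj_apply] at hxe
        have he : t'⁻¹ * u * t' = x := by rw [← hxe]; group
        rw [he]; exact hx
      calc u * (t' * c * t'⁻¹) = t' * ((t'⁻¹ * u * t') * c) * t'⁻¹ := by group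
        _ = t' * (c * (t'⁻¹ * u * t')) * t'⁻¹ := by rw [hQC _ hinQ c hc]
        _ = t' * c * t'⁻¹ * u := by group
    rw [hsn u huZ] at ht'N
    have h1 : Commute v (q t') := (show Commute u t' from mem_C.1 ht'N).map q
    obtain ⟨i, hi⟩ := Subgroup.mem_zpowers_iff.1 (show q (w : G) ∈ Subgroup.zpowers v from w.2)
    have h2 : q t = v ^ i * q t' := by rw [map_mul, map_inv, ← hi, mul_inv_cancel_left]
    have h3 : Commute v (q t) := h2 ▸ ((Commute.refl v).zpow_right i).mul_right h1
    rw [← h3.eq, mul_inv_cancel_right] at htv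
    have : v ^ 2 = 1 := by rw [pow_two]; nth_rewrite 2 [htv]; exact mul_inv_cancel v
    have := Nat.le_of_dvd (by norm_num) (hvo ▸ orderOf_dvd_of_pow_eq_one this)
    exact hr2 (le_antisymm this hr.two_le)
  -- odd `p`
  have hW := PLocal.isZJFunctor_zF.{u} hp2
  set Z' := PLocal.zF PLocal.Ab (Pb : Subgroup (G ⧸ N))
  have hNZ : Subgroup.normalizer (Z' : Set (G ⧸ N)) = Pb := by
    rcases hPbmax _ (Subgroup.le_normalizer.trans (hW.normalizer_le _)) with e | e
    · exact e
    · exfalso
      refine hW.ne_bot _ Pb.isPGroup' hPb1 (le_bot_iff.1 ?_)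
      rw [← hOb]
      exact Transfer.le_pCore (Subgroup.normalizer_eq_top_iff.1 e) (Pb.isPGroup'.to_le (hW.le _))
  have hnpc : HasNormalPComplement p (G ⧸ N) := by
    refine PLocal.glauberman_complement_aux hp2 hW _ (G ⧸ N) le_rfl ⟨Pb, ?_⟩
    show HasNormalPComplement p ↥(Subgroup.normalizer (Z' : Set (G ⧸ N)))
    rw [hNZ, Transfer.hasNormalPComplement_iff_pResidual]
    obtain ⟨j, hj⟩ := IsPGroup.iff_card.1 Pb.isPGroup'
    have h1 : pResidual p (Pb : Subgroup (G ⧸ N)) ≤ ⊥ :=
      Transfer.pResidual_le_of_index_eq_pow ⊥ (k := j) (by rw [Subgroup.index_bot, hj])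
    rw [le_bot_iff.1 h1, Subgroup.card_bot]
    exact Nat.coprime_one_left p
  rw [Transfer.hasNormalPComplement_iff_pResidual] at hnpc
  set K := pResidual p (G ⧸ N)
  haveI : K.Normal := Transfer.pResidual_normal p
  obtain ⟨k', hk'⟩ := Transfer.exists_index_pResidual_eq_pow (G := G ⧸ N) (p := p)
  by_cases hK1 : K = ⊥
  · have : IsPGroup p (G ⧸ N) := IsPGroup.of_card (n := k') (by rw [← hk']; show _ = K.index; rw [hK1, Subgroup.index_bot])
    haveI := this.isNilpotent
    infer_instance
  obtain ⟨r, hr, hrd⟩ := Nat.exists_prime_and_dvd (n := Nat.card K) (Subgroup.one_lt_card_iff_ne_bot K |>.2 hK1).ne'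
  haveI : Fact r.Prime := ⟨hr⟩
  obtain ⟨T⟩ : Nonempty (Sylow r K) := inferInstance
  set T' := (T : Subgroup K).map K.subtype
  set NT := Subgroup.normalizer (T' : Set (G ⧸ N))
  have hidx : ¬ p ∣ NT.index := by
    intro hd
    have h0 := PLocal.card_sup_mul_card_inf_normal NT K
    rw [T.normalizer_sup_eq_top, Subgroup.card_top, ← NT.card_mul_index, mul_assoc] at h0
    have h1 : NT.index ∣ Nat.card K := ⟨_, (Nat.eq_of_mul_eq_mul_left Nat.card_pos h0).symm⟩
    exact hp.out.coprime_iff_not_dvd.1 hnpc.symm (hd.trans h1)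
  obtain ⟨S⟩ : Nonempty (Sylow p NT) := inferInstance
  set P1 : Sylow p (G ⧸ N) := (S.isPGroup'.map NT.subtype).toSylow (by
    rw [Subgroup.index_map_subtype]; exact hp.out.not_dvd_mul S.not_dvd_index hidx) with hP1def
  have hP1le : (P1 : Subgroup (G ⧸ N)) ≤ NT := Subgroup.map_subtype_le _
  have htop : (P1 : Subgroup (G ⧸ N)) ⊔ T' = ⊤ := by
    obtain ⟨g, hg⟩ := MulAction.exists_smul_eq (G ⧸ N) P1 Pb
    have hgc : (P1 : Subgroup (G ⧸ N)).map (MulAut.conj g).toMonoidHom = (Pb : Subgroup (G ⧸ N)) :=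
      congrArg Sylow.toSubgroup hg
    rcases hPbmax (((P1 : Subgroup (G ⧸ N)) ⊔ T').map (MulAut.conj g).toMonoidHom)
      (hgc ▸ Subgroup.map_mono le_sup_left) with e | e
    · exfalso
      rw [← hgc] at e
      have hle : T' ≤ (P1 : Subgroup (G ⧸ N)) :=
        le_sup_right.trans (Subgroup.map_injective (MulAut.conj g).injective e).le
      obtain ⟨j, hj⟩ := IsPGroup.iff_card.1 P1.isPGroup'
      have hT1 : Nat.card T' = 1 := Nat.eq_one_of_dvd_coprimes
        ((Nat.Coprime.pow_left j hnpc.symm)) (hj ▸ Subgroup.card_dvd_of_le hle)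
        (Subgroup.card_dvd_of_le (Subgroup.map_subtype_le _))
      rw [Subgroup.card_map_of_injective K.subtype_injective, T.card_eq_multiplicity] at hT1
      exact (hr.factorization_pos_of_dvd Nat.card_pos.ne' hrd).ne'
        ((Nat.pow_eq_one.1 hT1).resolve_left hr.one_lt.ne')
    · exact Subgroup.map_injective (MulAut.conj g).injective
        (e.trans (Subgroup.map_top_of_surjective _ (MulAut.conj g).surjective).symm)
  haveI hTn : T'.Normal := Subgroup.normalizer_eq_top_iff.1 (eq_top_iff.2 (htop ▸ sup_le hP1le Subgroup.le_normalizer))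
  haveI : Group.IsNilpotent T' := (T.isPGroup'.map _).isNilpotent
  haveI : Group.IsNilpotent (P1 : Subgroup (G ⧸ N)) := P1.isPGroup'.isNilpotent
  have hsol := Solv.solvable_sup (P1 : Subgroup (G ⧸ N)) T' inferInstance inferInstance
  rw [htop] at hsol
  exact Group.isSolvable_of_surjective (f := (⊤ : Subgroup (G ⧸ N)).subtype) fun g => ⟨⟨g, Subgroup.mem_top g⟩, rfl⟩

/-- Let G be a finite group in which the centralizer of every non-central element is a maximal subgroup of G. Then G is solvable. -/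
theorem result {G : Type*} [Group G] [Finite G]
    (h : ∀ g : G, g ∉ Subgroup.center G → IsCoatom (Subgroup.centralizer ({g} : Set G))) :
    Group.IsSolvable G := by
  by_cases hn : ∃ g : G, g ∉ Subgroup.center G ∧ (Subgroup.centralizer ({g} : Set G)).Normal
  · obtain ⟨g, hg, hgn⟩ := hn
    set C := Subgroup.centralizer ({g} : Set G)
    haveI := nilpotent_C h hg
    refine (Group.isSolvable_iff_subgroup_quotient C).2 ⟨inferInstance, ?_⟩
    refine Group.isSolvable_of_comm fun a b => ?_
    by_cases ha : a = 1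
    · rw [ha, one_mul, mul_one]
    have hgen : Subgroup.zpowers a = ⊤ := by
      refine Subgroup.comap_injective (QuotientGroup.mk'_surjective C) ?_
      rw [Subgroup.comap_top]
      refine ((h g hg).le_iff.1 (fun x hx => ?_)).resolve_right fun e => ha ?_
      · show QuotientGroup.mk' C x ∈ Subgroup.zpowers a
        rw [show QuotientGroup.mk' C x = 1 from (QuotientGroup.eq_one_iff x).2 hx]; exact one_mem _
      · obtain ⟨x, rfl⟩ := QuotientGroup.mk'_surjective C a
        exact (QuotientGroup.eq_one_iff x).2 (e.le (Subgroup.mem_zpowers _))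
    obtain ⟨i, rfl⟩ := Subgroup.mem_zpowers_iff.1 (hgen ▸ Subgroup.mem_top b : b ∈ Subgroup.zpowers a)
    exact ((Commute.refl a).zpow_right i).eq
  push Not at hn
  have hsn : ∀ g : G, g ∉ Subgroup.center G →
      Subgroup.normalizer (Subgroup.centralizer ({g} : Set G) : Set G) = Subgroup.centralizer ({g} : Set G) :=
    fun g hg => ((h g hg).le_iff.1 Subgroup.le_normalizer).resolve_left
      fun e => hn g hg (Subgroup.normalizer_eq_top_iff.1 e)
  by_contra hns
  refine hns ?_
  haveI : Group.IsNilpotent G := Solv.nilpotent_of_all_complements fun p _ =>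
    (p_case h hsn).resolve_left hns
  infer_instance

end Cfsg.Agent.S4262
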