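import Cfsg.Statements.S4263
import Cfsg.Agent.Lib.Transfer.Basic
-- import your own Cfsg.Agent.* helpers here

set_option autoImplicit false
open Cfsg

namespace Cfsg.Agent.S4263

/-- Let G be a finite group. An element x lies in the Fitting subgroup F(G) if and only if, for every subgroup H of G, the power x^[G : H] lies in H. -/
theorem result {G : Type*} [Group G] [Finite G] (x : G) :
    x ∈ Cfsg.fittingSubgroup G ↔ ∀ H : Subgroup G, x ^ H.index ∈ H := by
  have hmod : ∀ (N : Subgroup G), Group.IsNilpotent N → ∀ K : Subgroup N, ∀ y : N,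
      y ^ K.index ∈ K := by
    intro N hN K
    induction K using WellFoundedGT.induction with
    | _ K ih =>
      intro y
      rcases eq_or_ne K ⊤ with rfl | hK
      · exact Subgroup.mem_top _
      have hlt : K < Subgroup.normalizer (K : Set N) :=
        Group.normalizerCondition_of_isNilpotent K (lt_top_iff_ne_top.2 hK)
      haveI : (K.subgroupOf (Subgroup.normalizer (K : Set N))).Normal :=
        Subgroup.normal_subgroupOf_of_le_normalizer le_rfl
      have h1 := ih _ hlt y
      have h2 := Subgroup.pow_index_mem (K.subgroupOf (Subgroup.normalizer (K : Set N)))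
        ⟨_, h1⟩
      rw [Subgroup.mem_subgroupOf, SubmonoidClass.coe_pow, ← pow_mul] at h2
      rw [← Subgroup.relIndex_mul_index hlt.le, mul_comm]
      exact h2
  constructor
  · intro hx H
    let S : Subgroup G :=
      { carrier := {z | z ∈ Subgroup.zpowers x ∧ z ^ H.index ∈ H}
        one_mem' := ⟨one_mem _, by simp⟩
        mul_mem' := by
          rintro a b ⟨ha, ha'⟩ ⟨hb, hb'⟩
          refine ⟨mul_mem ha hb, ?_⟩
          obtain ⟨i, rfl⟩ := Subgroup.mem_zpowers_iff.1 ha
          obtain ⟨j, rfl⟩ := Subgroup.mem_zpowers_iff.1 hb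
          rw [(Commute.zpow_zpow_self x i j).mul_pow]
          exact mul_mem ha' hb'
        inv_mem' := by
          rintro a ⟨ha, ha'⟩
          exact ⟨inv_mem ha, by rw [inv_pow]; exact inv_mem ha'⟩ }
    refine (Lib.Transfer.mem_of_forall_pow_ordCompl_mem (S := S) (x := x) fun p hp => ?_).2
    haveI := Fact.mk hp
    haveI := Lib.Transfer.pCore_normal (G := G) p
    refine ⟨pow_mem (Subgroup.mem_zpowers x) _, ?_⟩
    have hy := Lib.Transfer.pow_ordCompl_mem_pCore (p := p) hx
    have h1 := hmod (Cfsg.pCore p G) (Lib.Transfer.pCore_isPGroup p).isNilpotent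
      (H.subgroupOf (Cfsg.pCore p G)) ⟨_, hy⟩
    rw [Subgroup.mem_subgroupOf, SubmonoidClass.coe_pow] at h1
    have hd : H.relIndex (Cfsg.pCore p G) ∣ H.index := by
      refine dvd_trans ?_ (Subgroup.relIndex_dvd_index_of_le
        (le_sup_left : H ≤ H ⊔ Cfsg.pCore p G))
      refine dvd_of_eq (mul_right_cancel₀ (b := Nat.card ↥(H ⊓ Cfsg.pCore p G))
        Nat.card_pos.ne' ?_)
      have e1 := (H.subgroupOf (Cfsg.pCore p G)).card_mul_index
      rw [← Subgroup.inf_subgroupOf_right,
        Nat.card_congr (Subgroup.subgroupOfEquivOfLe inf_le_right).toEquiv,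
        show ((H ⊓ Cfsg.pCore p G).subgroupOf (Cfsg.pCore p G)).index
          = (H ⊓ Cfsg.pCore p G).relIndex (Cfsg.pCore p G) from rfl,
        Subgroup.inf_relIndex_right, mul_comm] at e1
      have e2 := (H.subgroupOf (H ⊔ Cfsg.pCore p G)).card_mul_index
      rw [Nat.card_congr (Subgroup.subgroupOfEquivOfLe le_sup_left).toEquiv] at e2
      have e3 := ((Cfsg.pCore p G).subgroupOf (H ⊔ Cfsg.pCore p G)).card_mul_index
      rw [Nat.card_congr (Subgroup.subgroupOfEquivOfLe le_sup_right).toEquiv,
        show ((Cfsg.pCore p G).subgroupOf (H ⊔ Cfsg.pCore p G)).index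
          = (Cfsg.pCore p G).relIndex (H ⊔ Cfsg.pCore p G) from rfl,
        Subgroup.relIndex_sup_right] at e3
      have e4 := ((H ⊓ Cfsg.pCore p G).subgroupOf H).card_mul_index
      rw [Nat.card_congr (Subgroup.subgroupOfEquivOfLe inf_le_left).toEquiv,
        show ((H ⊓ Cfsg.pCore p G).subgroupOf H).index = (H ⊓ Cfsg.pCore p G).relIndex H from rfl,
        Subgroup.inf_relIndex_left] at e4
      rw [e1]
      apply mul_left_cancel₀ (Nat.card_pos (α := H)).ne'
      rw [← mul_assoc, show Nat.card H * H.relIndex (H ⊔ Cfsg.pCore p G)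
        = Nat.card ↥(H ⊔ Cfsg.pCore p G) from e2, ← e3, ← e4]
      ring
    obtain ⟨c, hc⟩ := hd
    rw [hc, pow_mul]
    exact pow_mem h1 c
  · intro h
    apply Lib.Transfer.mem_fittingSubgroup_of_forall
    intro p hp
    apply Lib.Transfer.mem_pCore_of_forall_sylow
    intro P
    have hg : x ^ Nat.gcd (P : Subgroup G).index (orderOf x) ∈ (P : Subgroup G) := by
      rw [← zpow_natCast, Nat.gcd_eq_gcd_ab, zpow_add, zpow_mul, zpow_mul, zpow_natCast,
        zpow_natCast, pow_orderOf_eq_one, one_zpow, mul_one]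
      exact zpow_mem (h P) _
    have hd : Nat.gcd (P : Subgroup G).index (orderOf x) ∣ ordCompl[p] (orderOf x) :=
      Nat.dvd_ordCompl_of_dvd_not_dvd (Nat.gcd_dvd_right _ _) fun hd =>
        P.not_dvd_index (hd.trans (Nat.gcd_dvd_left _ _))
    obtain ⟨c, hc⟩ := hd
    rw [hc, pow_mul]
    exact pow_mem hg c

end Cfsg.Agent.S4263
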