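import Cfsg.Statements.S4269
import Mathlib
import Cfsg.Agent.Lib.Solv.Coprime
-- import your own Cfsg.Agent.* helpers here

set_option autoImplicit false
open Cfsg
open scoped commutatorElement

namespace Cfsg.Agent.S4269

open Subgroup in
theorem mem_sup_of_normalizes {G : Type*} [Group G] {A B : Subgroup G}
    (h : A ≤ normalizer (B : Set G)) {x : G} (hx : x ∈ A ⊔ B) : ∃ a ∈ A, ∃ b ∈ B, a * b = x := by
  rw [← SetLike.mem_coe, Subgroup.coe_mul_of_left_le_normalizer_right _ _ h] at hx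
  obtain ⟨a, ha, b, hb, e⟩ := Set.mem_mul.1 hx
  exact ⟨a, ha, b, hb, e⟩

open Subgroup in
theorem conj_map_eq {G : Type*} [Group G] {H : Subgroup G} {g : G}
    (hg : g ∈ normalizer (H : Set G)) : H.map (MulAut.conj g).toMonoidHom = H := by
  ext x
  constructor
  · rintro ⟨y, hy, rfl⟩
    exact (mem_normalizer_iff.1 hg y).1 hy
  · intro hx
    refine ⟨g⁻¹ * x * g, ?_, by simp [mul_assoc]⟩
    have := (mem_normalizer_iff.1 (inv_mem hg) x).1 hx
    rwa [inv_inv] at this

theorem conj_map_mul {G : Type*} [Group G] (H : Subgroup G) (a b : G) :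
    H.map (MulAut.conj (a * b)).toMonoidHom =
      (H.map (MulAut.conj b).toMonoidHom).map (MulAut.conj a).toMonoidHom := by
  rw [Subgroup.map_map]
  congr 1
  ext x; simp [mul_assoc]

/-- Let G be a finite group, V an abelian normal subgroup and H a subgroup with HV = G. Then H is pronormal in G (H and gHg⁻¹ are conjugate inside the subgroup they generate, for every g) if and only if every H-invariant subgroup U of V satisfies U = N_U(H)·[H, U], that is, U is the join of U ∩ N_G(H) and the commutator subgroup [H, U]. -/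
theorem result {G : Type*} [Group G] [Finite G]
    (V : Subgroup G) [V.Normal] (hV : IsMulCommutative ↥V) (H : Subgroup G) (hHV : H ⊔ V = ⊤) :
    Cfsg.IsPronormal H ↔
      ∀ U : Subgroup G, U ≤ V → (∀ h ∈ H, U.map (MulAut.conj h).toMonoidHom = U) →
        U = (U ⊓ Subgroup.normalizer (H : Set G)) ⊔ ⁅H, U⁆ := by
  have hinvH : ∀ {U : Subgroup G}, (∀ h ∈ H, U.map (MulAut.conj h).toMonoidHom = U) →
      H ≤ Subgroup.normalizer (U : Set G) := fun {U} hU h hh => by
    rw [Subgroup.mem_normalizer_iff]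
    intro u
    refine ⟨fun hu => ?_, fun hu => ?_⟩
    · rw [← hU h hh]; exact ⟨u, hu, rfl⟩
    · rw [← hU h⁻¹ (inv_mem hh)]; exact ⟨_, hu, by simp [mul_assoc]⟩
  constructor
  · intro hpro U hUV hU
    have hCU : ⁅H, U⁆ ≤ U := by
      rw [Subgroup.commutator_comm]
      exact Cfsg.Lib.Solv.commutator_le_of_normalizes (hinvH hU)
    refine le_antisymm ?_ (sup_le inf_le_left hCU)
    intro u hu
    obtain ⟨x, hx, hxe⟩ := hpro u
    have hn := Cfsg.Lib.Solv.le_normalizer_commutator_left H U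
    have hD : H ⊔ H.map (MulAut.conj u).toMonoidHom ≤ H ⊔ ⁅H, U⁆ := by
      refine sup_le le_sup_left ?_
      rintro _ ⟨h, hh, rfl⟩
      have e : (MulAut.conj u).toMonoidHom h = ⁅u, h⁆ * h := by
        simp [commutatorElement_def, mul_assoc]
      rw [e]
      refine mul_mem (Subgroup.mem_sup_right ?_) (Subgroup.mem_sup_left hh)
      rw [Subgroup.commutator_comm]
      exact Subgroup.commutator_mem_commutator hu hh
    obtain ⟨h0, hh0, w, hw, rfl⟩ := mem_sup_of_normalizes hn (hD hx)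
    set w' := h0 * w * h0⁻¹
    have hw' : w' ∈ ⁅H, U⁆ := (Subgroup.mem_normalizer_iff.1 (hn hh0) w).1 hw
    have hxw : h0 * w = w' * h0 := by simp [w', mul_assoc]
    rw [hxw, conj_map_mul, conj_map_eq (Subgroup.le_normalizer hh0)] at hxe
    have hN : w'⁻¹ * u ∈ Subgroup.normalizer (H : Set G) := by
      have : H.map (MulAut.conj (w'⁻¹ * u)).toMonoidHom = H := by
        rw [conj_map_mul, hxe, ← conj_map_mul, inv_mul_cancel]
        ext y; simp
      rw [Subgroup.mem_normalizer_iff]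
      intro y
      refine ⟨fun hy => ?_, fun hy => ?_⟩
      · rw [← this]; exact ⟨y, hy, rfl⟩
      · rw [← this] at hy
        obtain ⟨z, hz, he⟩ := hy
        have := (MulAut.conj (w'⁻¹ * u)).injective he
        rwa [← this]
    have hm : w' * (w'⁻¹ * u) ∈ (U ⊓ Subgroup.normalizer (H : Set G)) ⊔ ⁅H, U⁆ :=
      mul_mem (Subgroup.mem_sup_right hw')
        (Subgroup.mem_sup_left (Subgroup.mem_inf.2 ⟨U.mul_mem (U.inv_mem (hCU hw'))
          hu, hN⟩))
    rwa [mul_inv_cancel_left] at hm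
  · intro hyp g
    obtain ⟨v, hv, h, hh, rfl⟩ := Subgroup.mem_sup_of_normal_left.1
      (show g ∈ V ⊔ H by rw [sup_comm, hHV]; trivial)
    rw [conj_map_mul, conj_map_eq (Subgroup.le_normalizer hh)]
    set D := H ⊔ H.map (MulAut.conj v).toMonoidHom
    have hcV : ∀ a ∈ V, ∀ b ∈ V, a * b = b * a := fun a ha b hb =>
      congrArg Subtype.val (hV.1.comm ⟨a, ha⟩ ⟨b, hb⟩)
    set S := {x : G | ∃ k ∈ H, x = k * v * k⁻¹}
    set U := Subgroup.closure S
    have hUV : U ≤ V := (Subgroup.closure_le _).2 (by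
      rintro _ ⟨k, -, rfl⟩
      exact Subgroup.Normal.conj_mem ‹_› v hv k)
    have hle : ∀ k ∈ H, U.map (MulAut.conj k).toMonoidHom ≤ U := by
      intro k hk
      rw [MonoidHom.map_closure, Subgroup.closure_le]
      rintro _ ⟨_, ⟨j, hj, rfl⟩, rfl⟩
      exact Subgroup.subset_closure ⟨k * j, mul_mem hk hj, by simp [mul_assoc]⟩
    have hinv : ∀ k ∈ H, U.map (MulAut.conj k).toMonoidHom = U := fun k hk => by
      refine le_antisymm (hle k hk) fun x hx => ?_
      exact ⟨k⁻¹ * x * k, by simpa [mul_assoc] using hle k⁻¹ (inv_mem hk) ⟨x, hx, rfl⟩,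
        by simp [mul_assoc]⟩
    let T : Subgroup G :=
      { carrier := {u | u ∈ V ∧ ∀ k ∈ H, ⁅k, u⁆ ∈ D}
        one_mem' := ⟨one_mem _, fun k _ => by simp⟩
        mul_mem' := by
          rintro a b ⟨ha, ha'⟩ ⟨hb, hb'⟩
          refine ⟨mul_mem ha hb, fun k hk => ?_⟩
          have hbV : ⁅k, b⁆ ∈ V := by
            rw [commutatorElement_def]
            exact mul_mem (Subgroup.Normal.conj_mem ‹_› b hb k) (inv_mem hb)
          have e : ⁅k, a * b⁆ = ⁅k, a⁆ * (a * ⁅k, b⁆ * a⁻¹) := by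
            simp only [commutatorElement_def]; group
          rw [e, hcV a ha _ hbV, mul_inv_cancel_right]
          exact mul_mem (ha' k hk) (hb' k hk)
        inv_mem' := by
          rintro a ⟨ha, ha'⟩
          refine ⟨inv_mem ha, fun k hk => ?_⟩
          have hbV : ⁅k, a⁆⁻¹ ∈ V := by
            rw [commutatorElement_def]
            exact inv_mem (mul_mem (Subgroup.Normal.conj_mem ‹_› a ha k) (inv_mem ha))
          have e : ⁅k, a⁻¹⁆ = a⁻¹ * ⁅k, a⁆⁻¹ * a := by simp only [commutatorElement_def]; group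
          rw [e, hcV _ (inv_mem ha) _ hbV, inv_mul_cancel_right]
          exact inv_mem (ha' k hk) }
    have hkv : ∀ k ∈ H, ⁅k, v⁆ ∈ D := fun k hk => by
      have e : ⁅k, v⁆ = k * (v * k⁻¹ * v⁻¹) := by simp only [commutatorElement_def]; group
      rw [e]
      exact mul_mem (Subgroup.mem_sup_left hk) (Subgroup.mem_sup_right ⟨k⁻¹, inv_mem hk, rfl⟩)
    have hUT : U ≤ T := (Subgroup.closure_le _).2 (by
      rintro _ ⟨j, hj, rfl⟩
      refine ⟨Subgroup.Normal.conj_mem ‹_› v hv j, fun k hk => ?_⟩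
      have e : ⁅k, j * v * j⁻¹⁆ = j * ⁅j⁻¹ * k * j, v⁆ * j⁻¹ := by
        simp only [commutatorElement_def]; group
      rw [e]
      exact mul_mem (mul_mem (Subgroup.mem_sup_left hj)
        (hkv _ (mul_mem (mul_mem (inv_mem hj) hk) hj))) (Subgroup.mem_sup_left (inv_mem hj)))
    have hCD : ⁅H, U⁆ ≤ D := by
      rw [Subgroup.commutator_le]
      intro k hk u hu
      exact (hUT hu).2 k hk
    have hCU : ⁅H, U⁆ ≤ U := by
      rw [Subgroup.commutator_comm]
      exact Cfsg.Lib.Solv.commutator_le_of_normalizes (hinvH hinv)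
    have hvU : v ∈ U := Subgroup.subset_closure ⟨1, one_mem _, by simp⟩
    rw [hyp U hUV hinv, sup_comm] at hvU
    have hn : ⁅H, U⁆ ≤ Subgroup.normalizer ((U ⊓ Subgroup.normalizer (H : Set G) : Subgroup G) : Set G) := by
      intro w hw
      rw [Subgroup.mem_normalizer_iff]
      intro y
      refine ⟨fun hy => ?_, fun hy => ?_⟩
      · rw [← hcV y (hUV hy.1) w (hUV (hCU hw)), mul_inv_cancel_right]; exact hy
      · have h1 := hUV hy.1
        have h2 : y ∈ V := by
          have := mul_mem (mul_mem (inv_mem (hUV (hCU hw))) h1) (hUV (hCU hw))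
          simpa [mul_assoc] using this
        rw [← hcV y h2 w (hUV (hCU hw)), mul_inv_cancel_right] at hy
        exact hy
    obtain ⟨w, hw, n, hnn, rfl⟩ := mem_sup_of_normalizes hn hvU
    refine ⟨w, hCD hw, ?_⟩
    rw [conj_map_mul, conj_map_eq hnn.2]

end Cfsg.Agent.S4269
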