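import Cfsg.Statements.S4331
import Mathlib
import Cfsg.Agent.Lib.Solv.Subnormal
import Cfsg.Agent.Lib.Solv.Cores
-- import your own Cfsg.Agent.* helpers here

set_option autoImplicit false
open Cfsg

namespace Cfsg.Agent.S4331

/-- multiplication by a primitive element of the field with nine elements -/
def X (v : ZMod 3 × ZMod 3) : ZMod 3 × ZMod 3 := (v.2, v.1 + v.2)

/-- the Frobenius automorphism -/
def S (v : ZMod 3 × ZMod 3) : ZMod 3 × ZMod 3 := (v.1 + v.2, -v.2)

def act (k : ZMod 8) (e : ZMod 2) (v : ZMod 3 × ZMod 3) : ZMod 3 × ZMod 3 := X^[k.val] (S^[e.val] v)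

def tw (e : ZMod 2) (l : ZMod 8) : ZMod 8 := if e = 0 then l else 3 * l

theorem act_mul : ∀ k l : ZMod 8, ∀ e f : ZMod 2, ∀ v, act (k + tw e l) (e + f) v = act k e (act l f v) := by
  decide +kernel

theorem act_add : ∀ k : ZMod 8, ∀ e : ZMod 2, ∀ v w, act k e (v + w) = act k e v + act k e w := by
  decide +kernel

theorem tw_tw : ∀ e f : ZMod 2, ∀ l, tw e (tw f l) = tw (e + f) l := by decide +kernel
theorem tw_add : ∀ e : ZMod 2, ∀ l m, tw e (l + m) = tw e l + tw e m := by decide +kernel
theorem act_zero : ∀ v, act 0 0 v = v := by decide +kernel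
theorem tw_zero : ∀ l, tw 0 l = l := by decide +kernel

abbrev C8 := Multiplicative (ZMod 8)
abbrev C2 := Multiplicative (ZMod 2)
abbrev N := Multiplicative (ZMod 3 × ZMod 3)

def psi : C2 →* MulAut C8 where
  toFun e :=
    { toFun := fun l => Multiplicative.ofAdd (tw e.toAdd l.toAdd)
      invFun := fun l => Multiplicative.ofAdd (tw e.toAdd l.toAdd)
      left_inv := fun l => by
        apply Multiplicative.toAdd.injective
        show tw e.toAdd (tw e.toAdd l.toAdd) = l.toAdd
        rw [tw_tw, show e.toAdd + e.toAdd = 0 by revert e; decide, tw_zero]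
      right_inv := fun l => by
        apply Multiplicative.toAdd.injective
        show tw e.toAdd (tw e.toAdd l.toAdd) = l.toAdd
        rw [tw_tw, show e.toAdd + e.toAdd = 0 by revert e; decide, tw_zero]
      map_mul' := fun l m => Multiplicative.toAdd.injective (tw_add _ _ _) }
  map_one' := MulEquiv.ext fun l => Multiplicative.toAdd.injective (tw_zero _)
  map_mul' e f := MulEquiv.ext fun l => Multiplicative.toAdd.injective (tw_tw _ _ _).symm

abbrev L := C8 ⋊[psi] C2

def endo : L →* Monoid.End N where
  toFun a :=
    { toFun := fun v => Multiplicative.ofAdd (act a.left.toAdd a.right.toAdd v.toAdd)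
      map_one' := Multiplicative.toAdd.injective (show act a.left.toAdd a.right.toAdd 0 = 0 from
        add_left_cancel (a := act a.left.toAdd a.right.toAdd 0) (by rw [← act_add, add_zero, add_zero]))
      map_mul' := fun v w => Multiplicative.toAdd.injective (act_add _ _ _ _) }
  map_one' := MonoidHom.ext fun v => Multiplicative.toAdd.injective (act_zero _)
  map_mul' a b := MonoidHom.ext fun v => Multiplicative.toAdd.injective (act_mul _ _ _ _ _)

def phi : L →* MulAut N where
  toFun a :=
    { toFun := endo a
      invFun := endo a⁻¹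
      left_inv := fun v => by
        show (endo a⁻¹ * endo a) v = v
        rw [← map_mul, inv_mul_cancel, map_one]; rfl
      right_inv := fun v => by
        show (endo a * endo a⁻¹) v = v
        rw [← map_mul, mul_inv_cancel, map_one]; rfl
      map_mul' := map_mul (endo a) }
  map_one' := MulEquiv.ext fun v => by show endo 1 v = v; rw [map_one]; rfl
  map_mul' a b := MulEquiv.ext fun v => by show endo (a * b) v = endo a (endo b v); rw [map_mul]; rfl

abbrev G := N ⋊[phi] L

theorem key : ∀ (v : ZMod 3 × ZMod 3) (k : ZMod 8) (e : ZMod 2),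
    ∃ w, w + v - act k e w = 0 ∨
    ∃ (m : ZMod 8) (f : ZMod 2), S (act m f (w + v - act k e w)) = act m f (w + v - act k e w) ∧
      (0 : ZMod 8) + tw 1 (m + tw f k - tw e m) = m + tw f k - tw e m + tw e 0 := by
  decide +kernel

theorem conj_left : ∀ m k : ZMod 8, ∀ e f : ZMod 2,
    m + tw f k + tw (f + e) (tw f (-m)) = m + tw f k - tw e m := by decide +kernel

/-- There is a finite solvable group G with a subgroup A of order 2 such that every conjugacy class of G contains an element g for which A is subnormal in the subgroup generated by A and g, and yet A is not contained in O_2(G). (So the corresponding criteria for odd primes fail at the prime 2, even for solvable groups.) -/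
theorem result :
    ∃ (G : Type) (_ : Group G) (_ : Finite G) (A : Subgroup G), Group.IsSolvable G ∧ Nat.card A = 2 ∧
      (∀ c : G, ∃ g : G, IsConj c g ∧ (A.subgroupOf (A ⊔ Subgroup.zpowers g)).IsSubnormal) ∧
      ¬ A ≤ Cfsg.pCore 2 G := by
  haveI : Finite L := Finite.of_equiv _ SemidirectProduct.equivProd.symm
  haveI : Finite G := Finite.of_equiv _ SemidirectProduct.equivProd.symm
  set a : G := SemidirectProduct.inr (SemidirectProduct.inr (Multiplicative.ofAdd 1))
  have ha : orderOf a = 2 := by
    rw [orderOf_injective _ SemidirectProduct.inr_injective, orderOf_injective _ SemidirectProduct.inr_injective]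
    exact orderOf_eq_prime (by decide) (by decide)
  haveI hL : Group.IsSolvable L := solvable_of_ker_le_range (SemidirectProduct.inl : C8 →* L) SemidirectProduct.rightHom
    SemidirectProduct.range_inl_eq_ker_rightHom.ge
  refine ⟨G, inferInstance, inferInstance, Subgroup.zpowers a,
    solvable_of_ker_le_range (SemidirectProduct.inl : N →* G) SemidirectProduct.rightHom
      SemidirectProduct.range_inl_eq_ker_rightHom.ge, by rw [Nat.card_zpowers, ha], fun c => ?_, ?_⟩
  · set Lr : Subgroup G := (SemidirectProduct.inr : L →* G).range with hLr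
    have hcase1 : ∀ g ∈ Lr, ((Subgroup.zpowers a).subgroupOf (Subgroup.zpowers a ⊔ Subgroup.zpowers g)).IsSubnormal := by
      intro g hg
      have hp : IsPGroup 2 Lr := IsPGroup.of_card (n := 4) (by
        rw [hLr, ← Nat.card_congr (MonoidHom.ofInjective SemidirectProduct.inr_injective).toEquiv,
          Nat.card_congr SemidirectProduct.equivProd, Nat.card_prod,
          Nat.card_congr Multiplicative.toAdd, Nat.card_congr Multiplicative.toAdd, Nat.card_zmod, Nat.card_zmod]
        all_goals norm_num)
      have hle : Subgroup.zpowers a ⊔ Subgroup.zpowers g ≤ Lr :=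
        sup_le (Subgroup.zpowers_le.2 ⟨_, rfl⟩) (Subgroup.zpowers_le.2 hg)
      haveI := (hp.to_le hle).isNilpotent
      exact Cfsg.Lib.Solv.isSubnormal_of_nilpotent _
    have hcase2 : ∀ g : G, Commute g a → ((Subgroup.zpowers a).subgroupOf (Subgroup.zpowers a ⊔ Subgroup.zpowers g)).IsSubnormal := by
      intro g hg
      refine Subgroup.Normal.isSubnormal ((Subgroup.normal_subgroupOf_iff_le_normalizer le_sup_left).2
        (sup_le Subgroup.le_normalizer (Subgroup.zpowers_le.2 (Subgroup.centralizer_le_normalizer _ ?_))))
      rw [Subgroup.mem_centralizer_iff]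
      rintro _ ⟨i, rfl⟩
      exact (hg.zpow_right i).eq.symm
    obtain ⟨w, hcase⟩ := key c.left.toAdd c.right.left.toAdd c.right.right.toAdd
    set t : G := SemidirectProduct.inl (Multiplicative.ofAdd w) with ht
    set c₁ : G := t * c * t⁻¹ with hc₁
    have hc₁r : c₁.right = c.right := by simp [c₁, t]
    have hneg : act c.right.left.toAdd c.right.right.toAdd (-w) = -act c.right.left.toAdd c.right.right.toAdd w := by
      have hneg := act_add c.right.left.toAdd c.right.right.toAdd w (-w)
      have hz := act_add c.right.left.toAdd c.right.right.toAdd 0 0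
      rw [add_zero, left_eq_add] at hz
      rw [add_neg_cancel, hz] at hneg
      exact eq_neg_of_add_eq_zero_right hneg.symm
    have hc₁l : c₁.left.toAdd = w + c.left.toAdd - act c.right.left.toAdd c.right.right.toAdd w := by
      simp only [c₁, t, SemidirectProduct.mul_left, SemidirectProduct.mul_right, SemidirectProduct.left_inl,
          SemidirectProduct.right_inl, SemidirectProduct.inv_left, SemidirectProduct.inv_right, map_one, inv_one,
          one_mul, MulAut.one_apply]
      show w + c.left.toAdd + act c.right.left.toAdd c.right.right.toAdd (-w) = _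
      rw [hneg, sub_eq_add_neg]
    rcases hcase with hw | ⟨m, f, h1, h2⟩
    · refine ⟨c₁, isConj_iff.2 ⟨t, rfl⟩, hcase1 _ ⟨c.right, SemidirectProduct.ext ?_ ?_⟩⟩
      · rw [SemidirectProduct.left_inr]
        exact Multiplicative.toAdd.injective (by rw [hc₁l, hw]; rfl)
      · rw [SemidirectProduct.right_inr, hc₁r]
    · set b : L := ⟨Multiplicative.ofAdd m, Multiplicative.ofAdd f⟩ with hb
      refine ⟨_, isConj_iff.2 ⟨(SemidirectProduct.inr b : G) * t, rfl⟩, hcase2 _ ?_⟩
      set g := (SemidirectProduct.inr b : G) * t * c * ((SemidirectProduct.inr b : G) * t)⁻¹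
      have hge : g = (SemidirectProduct.inr b : G) * c₁ * (SemidirectProduct.inr b : G)⁻¹ := by
        simp only [g, c₁, mul_inv_rev, mul_assoc]
      have hgl : g.left = phi b c₁.left := by simp [hge]
      have hgr : g.right = b * c.right * b⁻¹ := by simp [hge, hc₁r]
      have hcom : SemidirectProduct.inr (Multiplicative.ofAdd 1) * g.right = g.right * (SemidirectProduct.inr (Multiplicative.ofAdd 1) : L) := by
        rw [hgr]
        ext1
        · apply Multiplicative.toAdd.injective
          show (0 : ZMod 8) + tw 1 (m + tw f c.right.left.toAdd + tw (f + c.right.right.toAdd) (tw (-f) (-m))) =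
            m + tw f c.right.left.toAdd + tw (f + c.right.right.toAdd) (tw (-f) (-m)) + tw (f + c.right.right.toAdd + -f) 0
          rw [(by decide : ∀ x : ZMod 2, -x = x) f, conj_left,
            (by decide : ∀ x y : ZMod 2, x + y + x = y) f c.right.right.toAdd]
          exact h2
        · simp [mul_comm]
      refine SemidirectProduct.ext ?_ ?_
      · simp only [a, SemidirectProduct.mul_left, SemidirectProduct.left_inr, map_one, mul_one,
          SemidirectProduct.right_inr, one_mul]
        rw [hgl]
        apply Multiplicative.toAdd.injective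
        show act m f c₁.left.toAdd = S (act m f c₁.left.toAdd)
        rw [hc₁l]
        exact h1.symm
      · simp only [a, SemidirectProduct.mul_right, SemidirectProduct.right_inr]
        exact hcom.symm
  · intro hle
    have haO : a ∈ Cfsg.pCore 2 G := hle (Subgroup.mem_zpowers a)
    set v : G := SemidirectProduct.inl (Multiplicative.ofAdd ((0, 1) : ZMod 3 × ZMod 3))
    set x := a * v * a⁻¹ * v⁻¹ with hx
    have hxO : x ∈ Cfsg.pCore 2 G := by
      rw [hx, show a * v * a⁻¹ * v⁻¹ = a * (v * a⁻¹ * v⁻¹) by group]
      exact mul_mem haO (Subgroup.Normal.conj_mem inferInstance _ (inv_mem haO) v)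
    obtain ⟨n, hn⟩ := IsPGroup.iff_orderOf.1 (Cfsg.Lib.Solv.isPGroup_pCore (G := G) 2) ⟨x, hxO⟩
    rw [Subgroup.orderOf_mk] at hn
    have hxe : x = SemidirectProduct.inl (Multiplicative.ofAdd ((1, 1) : ZMod 3 × ZMod 3)) := by
      rw [hx]
      refine SemidirectProduct.ext ?_ ?_
      · simp only [a, v, SemidirectProduct.mul_left, SemidirectProduct.left_inr, SemidirectProduct.inv_left,
          SemidirectProduct.inv_right, SemidirectProduct.left_inl, SemidirectProduct.right_inl,
          SemidirectProduct.mul_right, SemidirectProduct.right_inr]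
        decide +kernel
      · simp [a, v]
    have h3 : x ^ 3 = 1 := by
      rw [hxe, ← map_pow, show (Multiplicative.ofAdd ((1, 1) : ZMod 3 × ZMod 3)) ^ 3 = 1 by decide, map_one]
    have h4 : orderOf x ∣ 3 := orderOf_dvd_of_pow_eq_one h3
    rw [hn] at h4
    rcases n with _ | n
    · rw [pow_zero, orderOf_eq_one_iff, hxe, ← map_one (SemidirectProduct.inl : N →* G),
        SemidirectProduct.inl_injective.eq_iff] at hn
      exact absurd hn (by decide)
    · exact absurd ((dvd_pow_self 2 (Nat.succ_ne_zero n)).trans h4) (by decide)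

end Cfsg.Agent.S4331
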