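import Cfsg.Statements.S4332
import Mathlib
import Cfsg.Agent.Lib.Transfer.Basic
-- import your own Cfsg.Agent.* helpers here

set_option autoImplicit false
open Pointwise
open Cfsg

namespace Cfsg.Agent.S4332

open Pointwise

theorem exists_set (c : Equiv.Perm (Fin 8)) :
    ∃ T : Finset (Fin 8), T.card = 3 ∧ (T.image c = T ∨ Disjoint (T.image c) T) := by
  classical
  set F := (Finset.univ : Finset (Fin 8)).filter (fun a => c a = a)
  set M := (Finset.univ : Finset (Fin 8)).filter (fun a => ¬ c a = a)
  have hFM : F.card + M.card = 8 := Finset.card_filter_add_card_filter_not _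
  have hmem : ∀ a, a ∈ M ↔ c a ≠ a := fun a => by simp [M]
  have hmemF : ∀ a, a ∈ F ↔ c a = a := fun a => by simp [F]
  have three : ∀ a b d : Fin 8, a ≠ b → a ≠ d → b ≠ d → ({a, b, d} : Finset (Fin 8)).card = 3 := by
    intro a b d h1 h2 h3
    simp [Finset.card_insert_of_notMem, h1, h2, h3]
  by_cases h3 : 3 ≤ F.card
  · obtain ⟨T, hT, hT3⟩ := Finset.exists_subset_card_eq h3
    refine ⟨T, hT3, Or.inl ?_⟩
    exact Finset.image_congr (fun a ha => (hmemF a).1 (hT ha)) |>.trans Finset.image_id
  by_cases h33 : ∃ a, c a ≠ a ∧ c (c (c a)) = a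
  · obtain ⟨a, ha, ha3⟩ := h33
    refine ⟨{a, c a, c (c a)}, three _ _ _ (Ne.symm ha) (fun e => ha ?_) (fun e => ha (c.injective e.symm)), Or.inl ?_⟩
    · have := congrArg c e
      rw [ha3] at this
      exact this
    · rw [Finset.image_insert, Finset.image_insert, Finset.image_singleton, ha3]
      ext z; simp; tauto
  push Not at h33
  by_cases h20 : ∃ a f, c a ≠ a ∧ c (c a) = a ∧ c f = f
  · obtain ⟨a, f, ha, ha2, hf⟩ := h20
    refine ⟨{a, c a, f}, three _ _ _ (Ne.symm ha) (fun e => ha (by rw [e, hf])) (fun e => ha (c.injective (e.trans hf.symm) |>.symm ▸ hf)), Or.inl ?_⟩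
    rw [Finset.image_insert, Finset.image_insert, Finset.image_singleton, ha2, hf]
    ext z; simp; tauto
  push Not at h20
  let X : Fin 8 → Finset (Fin 8) := fun a => {a, c a, c.symm a}
  suffices key : ∃ a b d, a ∈ M ∧ b ∈ M ∧ d ∈ M ∧ b ∉ X a ∧ d ∉ X a ∧ d ∉ X b by
    obtain ⟨a, b, d, ha, hb, hd, h1, h2, h3'⟩ := key
    simp only [X, Finset.mem_insert, Finset.mem_singleton, not_or] at h1 h2 h3'
    refine ⟨{a, b, d}, three _ _ _ (Ne.symm h1.1) (Ne.symm h2.1) (Ne.symm h3'.1), Or.inr ?_⟩
    rw [Finset.disjoint_left]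
    have ha' := (hmem a).1 ha
    have hb' := (hmem b).1 hb
    have hd' := (hmem d).1 hd
    have e : ∀ u v : Fin 8, u ≠ c.symm v → c u ≠ v := fun u v h e => h (by rw [← e, c.symm_apply_apply])
    intro z hz hz'
    simp only [Finset.image_insert, Finset.image_singleton, Finset.mem_insert, Finset.mem_singleton] at hz hz'
    rcases hz with rfl | rfl | rfl <;> rcases hz' with h | h | h
    · exact ha' h
    · exact h1.2.1 h.symm
    · exact h2.2.1 h.symm
    · exact e b a h1.2.2 h
    · exact hb' h
    · exact h3'.2.1 h.symm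
    · exact e d a h2.2.2 h
    · exact e d b h3'.2.2 h
    · exact hd' h
  have hX : ∀ a, (X a).card ≤ 3 := fun a => Finset.card_le_three
  rcases Finset.eq_empty_or_nonempty F with hF | ⟨f, hf⟩
  · rw [hF, Finset.card_empty] at hFM
    obtain ⟨a, ha⟩ : M.Nonempty := Finset.card_pos.1 (by omega)
    have h1 : (M \ X a).card ≥ 5 := by have := Finset.le_card_sdiff (X a) M; have := hX a; omega
    obtain ⟨b, hb⟩ : (M \ X a).Nonempty := Finset.card_pos.1 (by omega)
    have h2 : ((M \ X a) \ X b).card ≥ 2 := by have := Finset.le_card_sdiff (X b) (M \ X a); have := hX b; omega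
    obtain ⟨d, hd⟩ : ((M \ X a) \ X b).Nonempty := Finset.card_pos.1 (by omega)
    simp only [Finset.mem_sdiff] at hb hd
    exact ⟨a, b, d, ha, hb.1, hd.1.1, hb.2, hd.1.2, hd.2⟩
  · rw [hmemF] at hf
    have hM : 6 ≤ M.card := by omega
    obtain ⟨a, ha⟩ : M.Nonempty := Finset.card_pos.1 (by omega)
    have ha' := (hmem a).1 ha
    have h2 : c (c a) ≠ a := fun e => h20 a f ha' e hf
    set b := c (c a) with hb
    have hbM : b ∈ M := (hmem b).2 (fun e => ha' (c.injective (c.injective e)))
    have hbX : b ∉ X a := by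
      simp only [X, Finset.mem_insert, Finset.mem_singleton, not_or]
      refine ⟨h2, fun e => ha' (c.injective e), fun e => h33 a ha' ?_⟩
      rw [show c (c (c a)) = c b from rfl, e, c.apply_symm_apply]
    have hU : (X a ∪ X b).card ≤ 5 := by
      have hsub : X a ∪ X b ⊆ {a, c a, c.symm a, b, c b} := by
        intro z hz
        simp only [X, Finset.mem_union, Finset.mem_insert, Finset.mem_singleton] at hz ⊢
        have : c.symm b = c a := c.symm_apply_apply _
        rw [this] at hz; tauto
      exact (Finset.card_le_card hsub).trans Finset.card_le_five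
    obtain ⟨d, hd⟩ : (M \ (X a ∪ X b)).Nonempty :=
      Finset.card_pos.1 (by have := Finset.le_card_sdiff (X a ∪ X b) M; omega)
    simp only [Finset.mem_sdiff, Finset.mem_union, not_or] at hd
    exact ⟨a, b, d, ha, hbM, hd.1, hbX, hd.2.1, hd.2.2⟩

theorem eq_of_apply_eq {σ τ : Equiv.Perm (Fin 8)} (hσ : σ.IsThreeCycle) (hτ : τ.IsThreeCycle)
    (hs : τ.support = σ.support) {a : Fin 8} (ha : a ∈ σ.support) (e : τ a = σ a) : τ = σ := by
  have h1 := hσ.support_eq_iff_mem_support.2 ha
  have h2 := hτ.nodup_iff_mem_support.2 (hs ▸ ha)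
  have h3 : τ (τ a) ∈ σ.support := by
    rw [← hs, Equiv.Perm.apply_mem_support, Equiv.Perm.apply_mem_support, hs]; exact ha
  rw [h1] at h3
  simp only [List.nodup_cons, List.mem_cons, List.not_mem_nil, or_false, not_or] at h2
  simp only [Finset.mem_insert, Finset.mem_singleton] at h3
  rcases h3 with h3 | h3 | h3
  · exact absurd h3.symm h2.1.2
  · exact absurd (h3.trans e.symm).symm h2.2.1
  · rw [hτ.eq_swap_mul_swap_iff_mem_support.2 (hs ▸ ha), h3, e, ← hσ.eq_swap_mul_swap_iff_mem_support.2 ha]

theorem core_bot : Cfsg.pCore 3 (Equiv.Perm (Fin 8)) = ⊥ := by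
  classical
  haveI := Fact.mk Nat.prime_three
  haveI := Cfsg.Lib.Transfer.pCore_normal (G := Equiv.Perm (Fin 8)) 3
  set N := Cfsg.pCore 3 (Equiv.Perm (Fin 8))
  set A := alternatingGroup (Fin 8)
  haveI hs : IsSimpleGroup A := alternatingGroup.isSimpleGroup (by simp)
  obtain ⟨k, hk⟩ := (Cfsg.Lib.Transfer.pCore_isPGroup (G := Equiv.Perm (Fin 8)) 3).exists_card_eq
  have hA : Nat.card A * 2 = Nat.card (Equiv.Perm (Fin 8)) := by
    rw [mul_comm]; exact two_mul_nat_card_alternatingGroup
  rcases hs.eq_bot_or_eq_top_of_normal (N.subgroupOf A) inferInstance with h | h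
  · rw [Subgroup.subgroupOf_eq_bot] at h
    have h1 := A.card_mul_index
    have h2 : A.index = 2 := by
      rw [← hA] at h1; exact mul_left_cancel₀ (Nat.card_pos (α := A)).ne' h1
    have h3 : Nat.card N ∣ 2 := by
      rw [← h2, ← Subgroup.relIndex_bot_left N, ← disjoint_iff.1 h, Subgroup.inf_relIndex_left]
      exact Subgroup.relIndex_dvd_index_of_normal A N
    rw [hk] at h3
    rcases k with _ | k
    · exact Subgroup.card_eq_one.1 (by rw [hk, pow_zero])
    · have := (dvd_pow_self 3 (Nat.succ_ne_zero k)).trans h3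
      norm_num at this
  · rw [Subgroup.subgroupOf_eq_top] at h
    have h1 := Subgroup.card_dvd_of_le h
    rw [hk] at h1
    have h2 : 2 ∣ Nat.card A := by
      rw [nat_card_alternatingGroup]; norm_num [Nat.factorial]
    have := Nat.prime_two.dvd_of_dvd_pow (h2.trans h1)
    norm_num at this

/-- In the symmetric group of degree 8, let A be the subgroup generated by a 3-cycle. Then every conjugacy class contains an element g for which A is subnormal in the subgroup generated by A and its conjugate by g, although O_3 of the symmetric group of degree 8 is trivial. -/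
theorem result
    (σ : Equiv.Perm (Fin 8)) (hσ : σ.IsThreeCycle) :
    (∀ c : Equiv.Perm (Fin 8), ∃ g : Equiv.Perm (Fin 8), IsConj c g ∧
      ((Subgroup.zpowers σ).subgroupOf (Subgroup.zpowers σ ⊔ MulAut.conj g • Subgroup.zpowers σ)).IsSubnormal) ∧
    Cfsg.pCore 3 (Equiv.Perm (Fin 8)) = ⊥ := by
  classical
  refine ⟨fun c => ?_, core_bot⟩
  obtain ⟨T, hT3, hT⟩ := exists_set c
  set S := σ.support
  have hS : S.card = 3 := hσ.card_support
  obtain ⟨e, he⟩ : ∃ e : Equiv.Perm (Fin 8), T.image e = S := by
    let e0 : {x // x ∈ T} ≃ {x // x ∈ S} := Finset.equivOfCardEq (hT3.trans hS.symm)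
    refine ⟨e0.extendSubtype, ?_⟩
    refine Finset.eq_of_subset_of_card_le (fun z hz => ?_) (by rw [Finset.card_image_of_injective _ (Equiv.injective _), hT3, hS])
    obtain ⟨a, ha, rfl⟩ := Finset.mem_image.1 hz
    exact e0.extendSubtype_mem a ha
  set g := e * c * e⁻¹
  refine ⟨g, isConj_iff.2 ⟨e, rfl⟩, ?_⟩
  have himg : S.image g = (T.image c).image e := by
    rw [← he, Finset.image_image, Finset.image_image]
    exact Finset.image_congr (fun z _ => by simp [g])
  set A := Subgroup.zpowers σ
  set B := MulAut.conj g • A with hBdef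
  have hBz : B = Subgroup.zpowers (g * σ * g⁻¹) := by
    rw [hBdef, ← MulAut.conj_apply]
    exact (MonoidHom.map_zpowers (MulAut.conj g).toMonoidHom σ)
  have hsupp : (g * σ * g⁻¹).support = S.image g := by
    rw [Equiv.Perm.support_conj, Finset.map_eq_image]; rfl
  suffices hc : A ⊔ B ≤ Subgroup.normalizer (A : Set (Equiv.Perm (Fin 8))) by
    haveI : (A.subgroupOf (A ⊔ B)).Normal := Subgroup.normal_subgroupOf_of_le_normalizer hc
    exact Subgroup.Normal.isSubnormal inferInstance
  refine sup_le Subgroup.le_normalizer ?_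
  rcases hT with h | h
  · -- same support: the conjugate generates the same subgroup
    have hS' : (g * σ * g⁻¹).support = σ.support := by rw [hsupp, himg, h, he]
    have h3 : (g * σ * g⁻¹).IsThreeCycle := by
      show (g * σ * g⁻¹).cycleType = {3}
      rw [Equiv.Perm.cycleType_conj]; exact hσ
    have : g * σ * g⁻¹ ∈ A := by
      set τ := g * σ * g⁻¹
      obtain ⟨a, ha⟩ : σ.support.Nonempty := Finset.card_pos.1 (by rw [hσ.card_support]; norm_num)
      have h1 := hσ.support_eq_iff_mem_support.2 ha
      have h2 : τ a ∈ σ.support := by rw [← hS', Equiv.Perm.apply_mem_support, hS']; exact ha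
      have hne : τ a ≠ a := Equiv.Perm.mem_support.1 (hS' ▸ ha)
      rw [h1] at h2
      simp only [Finset.mem_insert, Finset.mem_singleton] at h2
      rcases h2 with h2 | h2 | h2
      · exact absurd h2 hne
      · rw [eq_of_apply_eq hσ h3 hS' ha h2]; exact Subgroup.mem_zpowers σ
      · have : τ⁻¹ = σ := eq_of_apply_eq hσ h3.inv (by rw [Equiv.Perm.support_inv, hS']) ha (by
          rw [Equiv.Perm.inv_eq_iff_eq]
          have hm : τ (σ a) ∈ σ.support := by
            rw [← hS', Equiv.Perm.apply_mem_support, hS', Equiv.Perm.apply_mem_support]; exact ha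
          rw [h1] at hm
          simp only [Finset.mem_insert, Finset.mem_singleton] at hm
          rcases hm with hm | hm | hm
          · exact hm.symm
          · exact absurd hm (Equiv.Perm.mem_support.1 (hS' ▸ (Equiv.Perm.apply_mem_support.2 ha)))
          · exact absurd (τ.injective (hm.trans h2.symm)) (Equiv.Perm.mem_support.1 ha))
        rw [← inv_mem_iff, this]; exact Subgroup.mem_zpowers σ
    rw [hBz]
    exact (Subgroup.zpowers_le.2 this).trans Subgroup.le_normalizer
  · have hd : Equiv.Perm.Disjoint (g * σ * g⁻¹) σ := by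
      rw [Equiv.Perm.disjoint_iff_disjoint_support, hsupp, himg]
      show Disjoint ((T.image c).image e) S
      rw [← he, Finset.disjoint_image e.injective]
      exact h
    rw [hBz, Subgroup.zpowers_le]
    apply Subgroup.mem_normalizer_fintype
    intro a ha
    obtain ⟨n, rfl⟩ := Subgroup.mem_zpowers_iff.1 ha
    rw [(hd.commute.zpow_right n).eq, mul_inv_cancel_right]
    exact ha

end Cfsg.Agent.S4332
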