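import Cfsg.Statements.S4333
import Mathlib
import Cfsg.Agent.Lib.Solv.Subnormal
-- import your own Cfsg.Agent.* helpers here

set_option autoImplicit false
open Pointwise
open Cfsg

namespace Cfsg.Agent.S4333

open Subgroup
open scoped Pointwise

universe u

theorem aux : ∀ (n : ℕ) (G : Type u) [Group G] [Finite G], Nat.card G ≤ n → ∀ A : Subgroup G,
    (∀ a ∈ A, ∀ g : G, (A.subgroupOf (A ⊔ MulAut.conj (g⁻¹ * a * g) • A)).IsSubnormal) → A.IsSubnormal := by
  intro n
  induction n with
  | zero =>
    intro G _ _ hn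
    have := Nat.card_pos (α := G)
    omega
  | succ n ih =>
    intro G _ _ hn A hA
    have hsub : ∀ H : Subgroup G, H ≠ ⊤ → A ≤ H → (A.subgroupOf H).IsSubnormal := by
      intro H hH hAH
      have hcard : Nat.card H ≤ n := by
        have h1 : Nat.card H ≠ Nat.card G := fun h => hH (eq_top_of_card_eq H h)
        have h2 := Subgroup.card_le_card_group H
        omega
      refine ih H hcard _ fun a ha g => ?_
      have hmap : (A.subgroupOf H ⊔ MulAut.conj (g⁻¹ * a * g) • A.subgroupOf H).map H.subtype
          = A ⊔ MulAut.conj ((g : G)⁻¹ * a * g) • A := by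
        rw [Subgroup.map_sup, Cfsg.Lib.Solv.map_conj_smul, subgroupOf_map_subtype, inf_eq_left.2 hAH]
        rfl
      let φ : ↥(A.subgroupOf H ⊔ MulAut.conj (g⁻¹ * a * g) • A.subgroupOf H) →*
          ↥(A ⊔ MulAut.conj ((g : G)⁻¹ * a * g) • A) :=
        (H.subtype.comp (Subgroup.subtype _)).codRestrict _
          (fun y => hmap.le (mem_map_of_mem H.subtype y.2))
      have h2 := IsSubnormal.comap φ (hA (a : G) ha (g : G))
      have heq : (A.subgroupOf (A ⊔ MulAut.conj ((g : G)⁻¹ * a * g) • A)).comap φ
          = (A.subgroupOf H).subgroupOf (A.subgroupOf H ⊔ MulAut.conj (g⁻¹ * a * g) • A.subgroupOf H) := by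
        ext y
        simp only [φ, mem_comap, mem_subgroupOf, MonoidHom.codRestrict_apply, MonoidHom.comp_apply,
          coe_subtype]
      rwa [heq] at h2
    by_contra hnot
    obtain ⟨M, ⟨hM, hAM⟩, huniq⟩ := Cfsg.Lib.Solv.zipper A hsub hnot
    have hN : normalizer (M : Set G) = M := by
      rcases eq_or_lt_of_le (le_normalizer (H := M)) with h | h
      · exact h.symm
      · haveI : M.Normal := normalizer_eq_top_iff.1 (hM.2 _ h)
        exact absurd (IsSubnormal.trans hAM (hsub M hM.1 hAM) (Subgroup.Normal.isSubnormal inferInstance)) hnot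
    have hcl : ∀ a ∈ A, ∀ g : G, g⁻¹ * a * g ∈ M := by
      intro a ha g
      set c := g⁻¹ * a * g with hc
      have hle : MulAut.conj c • A ≤ M := by
        rcases eq_top_or_exists_le_coatom (A ⊔ MulAut.conj c • A) with h | ⟨K, hK, hle⟩
        · exact absurd (IsSubnormal.trans (K := A ⊔ MulAut.conj c • A) le_sup_left (hA a ha g) (h.symm ▸ IsSubnormal.top)) hnot
        · exact (le_sup_right.trans hle).trans (huniq K ⟨hK, le_sup_left.trans hle⟩).le
      have h1 : IsCoatom (M.map (MulAut.conj c⁻¹).toMonoidHom) := by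
        exact (MulEquiv.mapSubgroup (MulAut.conj c⁻¹)).isCoatom_iff M |>.2 hM
      have h2 : A ≤ M.map (MulAut.conj c⁻¹).toMonoidHom := by
        intro x hx
        refine ⟨c * x * c⁻¹, hle (smul_mem_pointwise_smul x _ A hx), ?_⟩
        show c⁻¹ * (c * x * c⁻¹) * c⁻¹⁻¹ = x
        group
      have h3 := huniq _ ⟨h1, h2⟩
      have : c⁻¹ ∈ normalizer (M : Set G) := Cfsg.Lib.Solv.conj_smul_eq_self_iff.1 h3
      rw [hN] at this
      exact inv_mem_iff.1 this
    have hcore : A ≤ M.normalCore := fun x hx g => by
      have := hcl x hx g⁻¹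
      rwa [inv_inv] at this
    exact hnot (IsSubnormal.trans hcore (hsub _ (fun h => hM.1 (top_le_iff.1 (h.ge.trans M.normalCore_le))) hcore)
      M.normalCore_normal.isSubnormal)

/-- Let A be a subgroup of a finite group G. If A is subnormal in the subgroup generated by A and its conjugate by g⁻¹ a g, for every a ∈ A and every g ∈ G, then A is subnormal in G. (A sharpening of Wielandt's subnormality criterion: only conjugates of A by conjugates of elements of A are needed.) -/
theorem result {G : Type*} [Group G] [Finite G]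
    (A : Subgroup G)
    (h : ∀ a ∈ A, ∀ g : G, (A.subgroupOf (A ⊔ MulAut.conj (g⁻¹ * a * g) • A)).IsSubnormal) :
    A.IsSubnormal := by
  exact aux _ G le_rfl A h

end Cfsg.Agent.S4333
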