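import Cfsg.Statements.S4334
import Mathlib
import Cfsg.Agent.Lib.Solv.Wielandt
import Cfsg.Agent.Lib.Solv.Coprime2
import Cfsg.Agent.Lib.Solv.MinimalNonNilpotent
import Cfsg.Agent.Lib.Solv.Cores
-- import your own Cfsg.Agent.* helpers here

set_option autoImplicit false
open Cfsg
open scoped Pointwise

namespace Cfsg.Agent.S4334

open Subgroup
open scoped Pointwise

theorem commute_of_sylow {G : Type*} [Group G] [Finite G] {r s : ℕ} [Fact r.Prime] [Fact s.Prime] (R : Sylow r G) (S : Sylow s G)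
    (hRS : (S : Subgroup G) ≤ centralizer ((R : Subgroup G) : Set G)) (A : Subgroup G) (hA : IsPGroup r A) {y : G}
    (hy : y ∈ normalizer (A : Set G)) (hys : ∃ k, orderOf y = s ^ k) : y ∈ centralizer (A : Set G) := by
  obtain ⟨R', hR'⟩ := hA.exists_le_sylow
  obtain ⟨g, rfl⟩ := MulAction.exists_smul_eq G R R'
  set C := centralizer (A : Set G) with hC
  set N := normalizer (A : Set G) with hN
  have hSC : ((g • S : Sylow s G) : Subgroup G) ≤ C := by
    rintro _ ⟨x, hx, rfl⟩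
    rw [hC, mem_centralizer_iff]
    intro a ha
    obtain ⟨b, hb, rfl⟩ := hR' ha
    have := mem_centralizer_iff.1 (hRS hx) b hb
    show g * b * g⁻¹ * (g * x * g⁻¹) = g * x * g⁻¹ * (g * b * g⁻¹)
    calc g * b * g⁻¹ * (g * x * g⁻¹) = g * (b * x) * g⁻¹ := by group
      _ = _ := by rw [this]; group
  have hd : ¬ s ∣ C.index := fun h => (g • S).not_dvd_index (h.trans (index_dvd_of_le hSC))
  haveI : (C.subgroupOf N).Normal := Subgroup.normal_subgroupOf_centralizer_normalizer _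
  obtain ⟨k, hk⟩ := hys
  have h1 : orderOf ((⟨y, hy⟩ : N) : N ⧸ C.subgroupOf N) ∣ s ^ k := by
    refine (orderOf_map_dvd (QuotientGroup.mk' (C.subgroupOf N)) _).trans ?_
    rw [Subgroup.orderOf_mk, hk]
  have h2 : orderOf ((⟨y, hy⟩ : N) : N ⧸ C.subgroupOf N) ∣ C.index :=
    (_root_.orderOf_dvd_natCard _).trans ((dvd_of_eq (index_eq_card (C.subgroupOf N)).symm).trans
      (relIndex_dvd_index_of_le (centralizer_le_normalizer _)))
  have h3 : orderOf ((⟨y, hy⟩ : N) : N ⧸ C.subgroupOf N) = 1 :=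
    Nat.eq_one_of_dvd_coprimes (Nat.Coprime.pow_left k ((Fact.out : s.Prime).coprime_iff_not_dvd.2 hd)) h1 h2
  rw [orderOf_eq_one_iff, QuotientGroup.eq_one_iff, mem_subgroupOf] at h3
  exact h3

set_option maxHeartbeats 800000 in
theorem le_conj_of_pi {G : Type*} [Group G] [Finite G] (σ τ π : Set ℕ) (hπ : π = σ ∪ τ) (hd : Disjoint σ τ)
    (H Hs Ht : Subgroup G) (hH : Cfsg.IsPiHall π H) (hs : Cfsg.IsPiSubgroup σ Hs) (ht : Cfsg.IsPiSubgroup τ Ht)
    (hsn : Group.IsNilpotent Hs) (hjoin : Hs ⊔ Ht = H) (hcomm : ∀ a ∈ Hs, ∀ b ∈ Ht, a * b = b * a)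
    (hD : Cfsg.IsDPiGroup τ G) (U : Subgroup G) (hU : Cfsg.IsPiSubgroup π U) :
    ∃ g : G, U ≤ MulAut.conj g • H := by
  classical
  have hcent : Ht ≤ centralizer (Hs : Set G) := fun b hb => mem_centralizer_iff.2 fun a ha => hcomm a ha b hb
  have hnotboth : ∀ q, q ∈ σ → q ∈ τ → False := fun q h1 h2 => Set.disjoint_left.1 hd h1 h2
  have hinf : Hs ⊓ Ht = ⊥ := by
    refine inf_eq_bot_of_coprime (Nat.coprime_of_dvd fun q hq h1 h2 => ?_)
    exact hnotboth q (hs q hq h1) (ht q hq h2)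
  have hHmul : Nat.card H = Nat.card Hs * Nat.card Ht := by
    rw [← hjoin]
    let f : Hs × Ht →* G := MonoidHom.noncommCoprod Hs.subtype Ht.subtype (fun a b => hcomm a a.2 b b.2)
    have hr : f.range = Hs ⊔ Ht := by
      exact (MonoidHom.noncommCoprod_range _ _ _).trans (by rw [range_subtype, range_subtype])
    rw [← hr, ← Nat.card_prod]
    refine (Nat.card_congr (MonoidHom.ofInjective ?_).toEquiv).symm
    rintro ⟨a, b⟩ ⟨a', b'⟩ h
    have h' : (a : G) * b = a' * b' := h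
    have e : (a' : G)⁻¹ * a = b' * (b : G)⁻¹ := by
      calc (a' : G)⁻¹ * a = (a' : G)⁻¹ * ((a : G) * b) * (b : G)⁻¹ := by group
        _ = _ := by rw [h']; group
    have hm : (a' : G)⁻¹ * a ∈ Hs ⊓ Ht := ⟨Hs.mul_mem (Hs.inv_mem a'.2) a.2, e ▸ Ht.mul_mem b'.2 (Ht.inv_mem b.2)⟩
    rw [hinf, mem_bot, inv_mul_eq_one] at hm
    have ha : a' = a := Subtype.ext hm
    subst ha
    exact Prod.ext rfl (Subtype.ext (mul_left_cancel h'))
  have hsH : Hs ≤ H := hjoin ▸ le_sup_left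
  have htH : Ht ≤ H := hjoin ▸ le_sup_right
  have hsub : ∀ {K : Subgroup G}, K ≤ H → ∀ q, q.Prime → q ∈ π → ¬ q ∣ Nat.card H / Nat.card K → ¬ q ∣ K.index := by
    intro K hK q hq hqπ hndvd hdvd
    rw [← relIndex_mul_index hK] at hdvd
    rcases hq.dvd_mul.1 hdvd with h | h
    · refine hndvd ?_
      have : Nat.card H = Nat.card K * K.relIndex H := by
        rw [← Nat.card_congr (subgroupOfEquivOfLe hK).toEquiv]; exact (card_mul_index _).symm
      rw [this, Nat.mul_div_cancel_left _ Nat.card_pos]; exact h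
    · exact hH.2 q hq hqπ h
  have hidxs : ∀ q : ℕ, q.Prime → q ∈ σ → ¬ q ∣ Hs.index := fun q hq hqσ =>
    hsub hsH q hq (hπ ▸ Or.inl hqσ) (by
      rw [hHmul, Nat.mul_div_cancel_left _ Nat.card_pos]; exact fun h => hnotboth q hqσ (ht q hq h))
  have hidxt : ∀ q : ℕ, q.Prime → q ∈ τ → ¬ q ∣ Ht.index := fun q hq hqτ =>
    hsub htH q hq (hπ ▸ Or.inr hqτ) (by
      rw [hHmul, Nat.mul_div_cancel _ Nat.card_pos]; exact fun h => hnotboth q (hs q hq h) hqτ)
  have hHshall : Nat.Coprime (Nat.card Hs) Hs.index :=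
    Nat.coprime_of_dvd fun q hq h1 h2 => hidxs q hq (hs q hq h1) h2
  -- Sylow subgroups inside the two factors
  have hsyl : ∀ (K : Subgroup G) (q : ℕ) [Fact q.Prime], ¬ q ∣ K.index → ∃ S : Sylow q G, (S : Subgroup G) ≤ K := by
    intro K q _ hq
    obtain ⟨P⟩ := (inferInstance : Nonempty (Sylow q K))
    have hp : IsPGroup q ((P : Subgroup K).map K.subtype) := P.isPGroup'.map _
    refine ⟨hp.toSylow ?_, map_subtype_le _⟩
    rw [index_map_subtype]
    exact fun h => (Fact.out : q.Prime).dvd_mul.1 h |>.elim P.not_dvd_index hq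
  have hpair : ∀ r s : ℕ, ∀ [Fact r.Prime] [Fact s.Prime], r ∈ π → s ∈ π → r ≠ s → (r ∈ σ ∨ s ∈ σ) →
      ∃ (R : Sylow r G) (S : Sylow s G), (S : Subgroup G) ≤ centralizer ((R : Subgroup G) : Set G) := by
    intro r s _ _ hr hs' hne hor
    rw [hπ] at hr hs'
    have hnil : ∀ (R : Sylow r G) (S : Sylow s G), (R : Subgroup G) ≤ Hs → (S : Subgroup G) ≤ Hs →
        (S : Subgroup G) ≤ centralizer ((R : Subgroup G) : Set G) := by
      intro R S hR hS y hy
      rw [mem_centralizer_iff]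
      intro x hx
      obtain ⟨i, hi⟩ := IsPGroup.iff_orderOf.1 R.isPGroup' ⟨x, hx⟩
      obtain ⟨j, hj⟩ := IsPGroup.iff_orderOf.1 S.isPGroup' ⟨y, hy⟩
      rw [Subgroup.orderOf_mk] at hi hj
      exact (Cfsg.Lib.Solv.commute_of_nilpotent_subgroup hsn Fact.out Fact.out hne (hR hx) (hS hy) hi hj).eq
    rcases hr with hr | hr
    · obtain ⟨R, hR⟩ := hsyl Hs r (hidxs r Fact.out hr)
      rcases hs' with hs' | hs'
      · obtain ⟨S, hS⟩ := hsyl Hs s (hidxs s Fact.out hs')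
        exact ⟨R, S, hnil R S hR hS⟩
      · obtain ⟨S, hS⟩ := hsyl Ht s (hidxt s Fact.out hs')
        exact ⟨R, S, hS.trans (hcent.trans (centralizer_le hR))⟩
    · obtain ⟨R, hR⟩ := hsyl Ht r (hidxt r Fact.out hr)
      have hsσ : s ∈ σ := hor.resolve_left fun h => hnotboth r h hr
      obtain ⟨S, hS⟩ := hsyl Hs s (hidxs s Fact.out hsσ)
      exact ⟨R, S, fun y hy => mem_centralizer_iff.2 fun x hx => (hcomm y (hS hy) x (hR hx)).symm⟩
  -- U is p-nilpotent for p in σ, and the p-part is central to the rest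
  have hcentral : ∀ p : ℕ, ∀ [Fact p.Prime], p ∈ σ → ∀ (P : Sylow p U),
      ∃ N : Subgroup U, N.Normal ∧ (Nat.card N).Coprime p ∧ N.IsComplement' (P : Subgroup U) ∧
        N ≤ centralizer ((P : Subgroup U) : Set U) := by
    intro p _ hp P
    have hcond : Cfsg.Lib.Transfer.FrobeniusCond P := by
      intro Q hQ g hg hgc
      have hQp : IsPGroup p (Q.map U.subtype) := (P.isPGroup'.to_le hQ).map _
      have key : (g : G) ∈ centralizer ((zpowers (g : G) : Subgroup G) : Set G) := mem_centralizer_iff.2 fun x ⟨i, hi⟩ => by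
        rw [← hi]; exact ((Commute.refl (g : G)).zpow_left i).eq
      refine Cfsg.Lib.Transfer.mem_centralizer_of_prime_parts fun s hs' y hy ⟨k, hk⟩ => ?_
      by_cases hk0 : k = 0
      · rw [hk0, pow_zero, orderOf_eq_one_iff] at hk; rw [hk]; exact one_mem _
      haveI := Fact.mk hs'
      have hsd : s ∣ orderOf g := (hk ▸ dvd_pow_self s hk0).trans (orderOf_dvd_of_mem_zpowers hy)
      have hne : p ≠ s := fun e => by
        subst e
        exact (Fact.out : p.Prime).ne_one (Nat.eq_one_of_dvd_coprimes hgc hsd dvd_rfl)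
      obtain ⟨R, S, hRS⟩ := hpair p s (hπ ▸ Or.inl hp)
        (hU s hs' (hsd.trans (by rw [← Subgroup.orderOf_coe]; exact Subgroup.orderOf_dvd_natCard _ g.2))) hne (Or.inl hp)
      have hyn : (y : G) ∈ normalizer ((Q.map U.subtype : Subgroup G) : Set G) :=
        Subgroup.le_normalizer_map U.subtype (mem_map_of_mem _ ((zpowers_le.2 hg) hy))
      have := commute_of_sylow R S hRS _ hQp hyn ⟨k, by rw [Subgroup.orderOf_coe]; exact hk⟩
      exact mem_centralizer_iff.2 fun x hx => Subtype.ext (mem_centralizer_iff.1 this x (mem_map_of_mem U.subtype hx))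
    obtain ⟨P₀, N, hN, hc⟩ := (Cfsg.Lib.Transfer.frobenius_iff P).2 hcond
    haveI := hN
    obtain ⟨hNc, k, hk⟩ := Cfsg.Lib.Transfer.coprime_card_of_isComplement' hc
    refine ⟨N, hN, hNc, Cfsg.Lib.Transfer.isComplement'_sylow hNc hk P, ?_⟩
    obtain ⟨n, hn⟩ := IsPGroup.iff_card.1 P.isPGroup'
    have hcop : (Nat.card (P : Subgroup U)).Coprime (Nat.card N) := by rw [hn]; exact hNc.symm.pow_left n
    have hPN : (P : Subgroup U) ≤ normalizer (N : Set U) := by rw [normalizer_eq_top]; exact le_top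
    have hsolv : Group.IsSolvable (P : Subgroup U) := by
      haveI := P.isPGroup'.isNilpotent
      infer_instance
    intro x hx
    have hle : (centralizer ((P : Subgroup U) : Set U)).subgroupOf N = ⊤ := by
      refine Cfsg.Lib.Solv.eq_top_of_forall_sylow_le fun q hq hqd => ?_
      haveI := Fact.mk hq
      obtain ⟨Q, hQ⟩ := Cfsg.Lib.Solv.exists_invariant_sylow (P : Subgroup U) N hPN hcop (Or.inl hsolv) q
      refine ⟨Q, fun z hz => ?_⟩
      rw [mem_subgroupOf, mem_centralizer_iff]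
      intro a ha
      have hqp : q ≠ p := fun e => by
        subst e
        exact hq.ne_one (Nat.eq_one_of_dvd_coprimes hNc hqd dvd_rfl)
      obtain ⟨R, S, hRS⟩ := hpair q p (hU q hq (hqd.trans (card_subgroup_dvd_card N))) (hπ ▸ Or.inl hp) hqp (Or.inr hp)
      have hQp : IsPGroup q (((Q : Subgroup N).map N.subtype).map U.subtype) := (Q.isPGroup'.map _).map _
      obtain ⟨k, hk⟩ := IsPGroup.iff_orderOf.1 P.isPGroup' ⟨a, ha⟩
      rw [Subgroup.orderOf_mk] at hk
      have := commute_of_sylow R S hRS _ hQp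
        (Subgroup.le_normalizer_map U.subtype (mem_map_of_mem _ (hQ ha))) ⟨k, by
          show orderOf ((a : G)) = _
          rw [Subgroup.orderOf_coe]; exact hk⟩
      exact Subtype.ext (mem_centralizer_iff.1 this ((z : U) : G) ⟨(z : U), ⟨z, hz, rfl⟩, rfl⟩).symm
    exact subgroupOf_eq_top.1 hle hx
  set A := Cfsg.piCore σ U with hA
  set B := Cfsg.piCore τ U with hB
  have hAp : ∀ q, q.Prime → q ∣ Nat.card A → q ∈ σ := Cfsg.Lib.Solv.piCore_primes σ
  have hBp : ∀ q, q.Prime → q ∣ Nat.card B → q ∈ τ := Cfsg.Lib.Solv.piCore_primes τ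
  have hPA : ∀ p : ℕ, ∀ [Fact p.Prime], p ∈ σ → ∀ P : Sylow p U, (P : Subgroup U) ≤ A := by
    intro p _ hp P
    obtain ⟨N, hN, hNc, hc, hNP⟩ := hcentral p hp P
    have hn : (P : Subgroup U).Normal := by
      rw [← normalizer_eq_top_iff, eq_top_iff, ← hc.sup_eq_top]
      exact sup_le (hNP.trans (centralizer_le_normalizer _)) le_normalizer
    refine Cfsg.Lib.Solv.le_piCore hn fun q hq hqd => ?_
    obtain ⟨k, hk⟩ := IsPGroup.iff_card.1 P.isPGroup'
    rw [hk] at hqd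
    rw [(Nat.prime_dvd_prime_iff_eq hq Fact.out).1 (hq.dvd_of_dvd_pow hqd)]
    exact hp
  have hQB : ∀ q : ℕ, ∀ [Fact q.Prime], q ∉ σ → ∀ Q : Sylow q U, (Q : Subgroup U) ≤ B := by
    intro q _ hq Q
    -- intersect the normal complements
    let K : Subgroup U := ⨅ p : {p : ℕ // p.Prime ∧ p ∈ σ}, Cfsg.pResidual (p : ℕ) U
    have hKn : K.Normal := Subgroup.normal_iInf_normal fun p => Cfsg.Lib.Transfer.pResidual_normal _
    have hKB : K ≤ B := by
      refine Cfsg.Lib.Solv.le_piCore hKn fun r hr hrd => ?_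
      have hrπ : r ∈ π := hU r hr (hrd.trans (card_subgroup_dvd_card K))
      rw [hπ] at hrπ
      refine hrπ.resolve_left fun hrσ => ?_
      haveI := Fact.mk hr
      obtain ⟨P⟩ := (inferInstance : Nonempty (Sylow r U))
      obtain ⟨N, hN, hNc, hc, -⟩ := hcentral r hrσ P
      have h1 : Nat.Coprime (Nat.card (Cfsg.pResidual r U)) r := Cfsg.Lib.Transfer.hasNormalPComplement_iff_pResidual.1 ⟨P, N, hN, hc⟩
      have hle : K ≤ Cfsg.pResidual r U :=
        iInf_le (fun p : {p : ℕ // p.Prime ∧ p ∈ σ} => Cfsg.pResidual (p : ℕ) U) ⟨r, hr, hrσ⟩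
      exact hr.ne_one (Nat.eq_one_of_dvd_coprimes h1 (hrd.trans (card_dvd_of_le hle)) dvd_rfl)
    refine le_trans ?_ hKB
    intro x hx
    rw [mem_iInf]
    rintro ⟨p, hp, hpσ⟩
    refine Cfsg.Lib.Transfer.coprime_orderOf_mem_pResidual ?_
    obtain ⟨k, hk⟩ := IsPGroup.iff_orderOf.1 Q.isPGroup' ⟨x, hx⟩
    rw [Subgroup.orderOf_mk] at hk
    rw [hk]
    exact Nat.Coprime.pow_left k ((Nat.coprime_primes Fact.out hp).2 fun e => hq (e ▸ hpσ))
  have hABtop : A ⊔ B = ⊤ := by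
    refine Cfsg.Lib.Solv.eq_top_of_forall_sylow_le fun q hq _ => ?_
    haveI := Fact.mk hq
    obtain ⟨P⟩ := (inferInstance : Nonempty (Sylow q U))
    by_cases hqσ : q ∈ σ
    · exact ⟨P, (hPA q hqσ P).trans le_sup_left⟩
    · exact ⟨P, (hQB q hqσ P).trans le_sup_right⟩
  have hABc : A ≤ centralizer (B : Set U) := by
    intro a ha
    rw [mem_centralizer_iff]
    intro b hb
    have hbot : A ⊓ B = ⊥ := inf_eq_bot_of_coprime (Nat.coprime_of_dvd fun q hq h1 h2 => hnotboth q (hAp q hq h1) (hBp q hq h2))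
    exact (Subgroup.commute_of_normal_of_disjoint A B inferInstance inferInstance (disjoint_iff.2 hbot) a b ha hb).symm
  -- conjugate the τ-part into Ht
  have hBτ : Cfsg.IsPiSubgroup τ (B.map U.subtype) := fun q hq hqd => by
    rw [card_map_of_injective U.subtype_injective] at hqd; exact hBp q hq hqd
  obtain ⟨M, ⟨hBM, hMmax⟩⟩ : ∃ M, B.map U.subtype ≤ M ∧ Maximal (Cfsg.IsPiSubgroup τ) M :=
    (Set.toFinite {M : Subgroup G | Cfsg.IsPiSubgroup τ M}).exists_le_maximal hBτ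
  have hHtmax : Maximal (Cfsg.IsPiSubgroup τ) Ht := by
    refine ⟨ht, fun K hK hle => ?_⟩
    have h1 := relIndex_mul_index hle
    by_contra hne
    have hne1 : Ht.relIndex K ≠ 1 := fun e => hne (relIndex_eq_one.1 e)
    obtain ⟨q, hq, hqd⟩ := Nat.exists_prime_and_dvd hne1
    have hqK : q ∣ Nat.card K := hqd.trans (by
      rw [relIndex]; exact index_dvd_card _)
    exact hidxt q hq (hK q hq hqK) (h1 ▸ dvd_mul_of_dvd_left hqd _)
  obtain ⟨g, rfl⟩ := hD Ht M hHtmax hMmax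
  -- the σ-part lies in the centralizer of the τ-part
  set B₀ := MulAut.conj g⁻¹ • B.map U.subtype with hB₀
  set A₀ := MulAut.conj g⁻¹ • A.map U.subtype with hA₀
  have hB₀le : B₀ ≤ Ht := by
    rintro _ ⟨x, hx, rfl⟩
    obtain ⟨y, hy, rfl⟩ := hBM hx
    show g⁻¹ * (g * y * g⁻¹) * g⁻¹⁻¹ ∈ Ht
    rw [show g⁻¹ * (g * y * g⁻¹) * g⁻¹⁻¹ = y by group]
    exact hy
  set C := centralizer (B₀ : Set G) with hC
  have hHsC : Hs ≤ C := fun a ha => mem_centralizer_iff.2 fun b hb => (hcomm a ha b (hB₀le hb)).symm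
  have hA₀C : A₀ ≤ C := by
    rintro _ ⟨_, ⟨a, ha, rfl⟩, rfl⟩
    rw [hC, mem_centralizer_iff]
    rintro _ ⟨_, ⟨b, hb, rfl⟩, rfl⟩
    have := congrArg Subtype.val (mem_centralizer_iff.1 (hABc ha) b hb)
    show g⁻¹ * (b : G) * g⁻¹⁻¹ * (g⁻¹ * (a : G) * g⁻¹⁻¹) = g⁻¹ * (a : G) * g⁻¹⁻¹ * (g⁻¹ * (b : G) * g⁻¹⁻¹)
    calc _ = g⁻¹ * ((b : G) * a) * g := by group
      _ = _ := by rw [show (b : G) * a = a * b from this]; group
  haveI : Group.IsNilpotent (Hs.subgroupOf C) := Group.nilpotent_of_mulEquiv (subgroupOfEquivOfLe hHsC).symm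
  obtain ⟨c, hc⟩ := Cfsg.Lib.Solv.wielandt_le_conj (Hs.subgroupOf C) (A₀.subgroupOf C) inferInstance
    (by
      rw [Nat.card_congr (subgroupOfEquivOfLe hHsC).toEquiv]
      exact hHshall.coprime_dvd_right (relIndex_dvd_index_of_le hHsC))
    (fun q hq hqd => by
      rw [Nat.card_congr (subgroupOfEquivOfLe hHsC).toEquiv]
      rw [Nat.card_congr (subgroupOfEquivOfLe hA₀C).toEquiv, hA₀, Cfsg.Lib.Solv.card_conj_smul,
        card_map_of_injective U.subtype_injective] at hqd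
      have hqσ := hAp q hq hqd
      have := hidxs q hq hqσ
      have h1 : q ∣ Nat.card G := hqd.trans ((card_subgroup_dvd_card A).trans (card_subgroup_dvd_card U))
      rw [← Hs.card_mul_index] at h1
      exact (hq.dvd_mul.1 h1).resolve_right this)
  refine ⟨g * c, ?_⟩
  have hmemA : A.map U.subtype ≤ MulAut.conj (g * (c : G)) • H := by
    rintro _ ⟨a, ha, rfl⟩
    have hm : g⁻¹ * (a : G) * g⁻¹⁻¹ ∈ A₀ := ⟨_, ⟨a, ha, rfl⟩, rfl⟩
    obtain ⟨h0, hh0, he⟩ := hc (show (⟨_, hA₀C hm⟩ : C) ∈ A₀.subgroupOf C from hm)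
    have he' : (c : G) * (h0 : G) * (c : G)⁻¹ = g⁻¹ * (a : G) * g⁻¹⁻¹ := congrArg Subtype.val he
    refine ⟨(h0 : G), hsH hh0, ?_⟩
    show g * (c : G) * (h0 : G) * (g * (c : G))⁻¹ = (a : G)
    calc _ = g * ((c : G) * (h0 : G) * (c : G)⁻¹) * g⁻¹ := by group
      _ = _ := by rw [he']; group
  have hmemB : B.map U.subtype ≤ MulAut.conj (g * (c : G)) • H := by
    rintro _ ⟨b, hb, rfl⟩
    have hm : g⁻¹ * (b : G) * g⁻¹⁻¹ ∈ B₀ := ⟨_, ⟨b, hb, rfl⟩, rfl⟩
    refine ⟨_, htH (hB₀le hm), ?_⟩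
    have := mem_centralizer_iff.1 c.2 _ hm
    show g * (c : G) * (g⁻¹ * (b : G) * g⁻¹⁻¹) * (g * (c : G))⁻¹ = (b : G)
    calc _ = g * ((c : G) * (g⁻¹ * (b : G) * g⁻¹⁻¹)) * ((c : G))⁻¹ * g⁻¹ := by group
      _ = _ := by rw [← this]; group
  calc U = (A ⊔ B).map U.subtype := by rw [hABtop, ← MonoidHom.range_eq_map, range_subtype]
    _ ≤ _ := by rw [Subgroup.map_sup]; exact sup_le hmemA hmemB

/-- Let σ and τ be disjoint sets of primes with union π. Suppose a finite group G has a Hall π-subgroup H which is the direct product of a nilpotent σ-subgroup and a τ-subgroup (two elementwise-commuting subgroups generating H), and that the maximal τ-subgroups of G are pairwise conjugate. Then the maximal π-subgroups of G are pairwise conjugate. -/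
theorem result {G : Type*} [Group G] [Finite G]
    (σ τ π : Set ℕ) (hπ : π = σ ∪ τ) (hd : Disjoint σ τ) (H Hs Ht : Subgroup G) (hH : Cfsg.IsPiHall π H)
    (hs : Cfsg.IsPiSubgroup σ Hs) (ht : Cfsg.IsPiSubgroup τ Ht) (hsn : Group.IsNilpotent Hs)
    (hjoin : Hs ⊔ Ht = H) (hcomm : ∀ a ∈ Hs, ∀ b ∈ Ht, a * b = b * a) (hD : Cfsg.IsDPiGroup τ G) :
    Cfsg.IsDPiGroup π G := by
  intro K L hK hL
  have hHpi : Cfsg.IsPiSubgroup π H := hH.1
  have hconj : ∀ g : G, Cfsg.IsPiSubgroup π (MulAut.conj g • H) := fun g q hq hqd =>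
    hHpi q hq (by rwa [Cfsg.Lib.Solv.card_conj_smul] at hqd)
  have key : ∀ U : Subgroup G, Maximal (Cfsg.IsPiSubgroup π) U → ∃ g : G, U = MulAut.conj g • H := by
    intro U hU
    obtain ⟨g, hg⟩ := le_conj_of_pi σ τ π hπ hd H Hs Ht hH hs ht hsn hjoin hcomm hD U hU.1
    exact ⟨g, le_antisymm hg (hU.2 (hconj g) hg)⟩
  obtain ⟨a, rfl⟩ := key K hK
  obtain ⟨b, rfl⟩ := key L hL
  refine ⟨b * a⁻¹, ?_⟩
  have : MulAut.conj (b * a⁻¹) • MulAut.conj a • H = MulAut.conj b • H := by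
    rw [← mul_smul, ← map_mul, inv_mul_cancel_right]
  rw [← this]; rfl

end Cfsg.Agent.S4334
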