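import Cfsg.Statements.S4337
import Mathlib
import Cfsg.Agent.Lib.Characters.Burnside
-- import your own Cfsg.Agent.* helpers here

set_option autoImplicit false
open Cfsg Cfsg.Lib

namespace Cfsg.Agent.S4337

theorem solvable_small {α : Type*} [Fintype α] [DecidableEq α] (T : Finset α) (hT : T.card ≤ 4)
    (H : Subgroup (Equiv.Perm α)) (hH : ∀ g ∈ H, ∀ x, x ∉ T → g x = x) :
    Group.IsSolvable H := by
  haveI : Group.IsSolvable (Equiv.Perm {x // x ∈ T}) := by
    refine Cfsg.Lib.Characters.isSolvable_of_card_eq_pow_mul_pow Nat.prime_two Nat.prime_three _ _ rfl ?_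
    rw [Nat.card_perm, Nat.card_eq_fintype_card, Fintype.card_coe]
    interval_cases T.card
    · exact ⟨0, 0, rfl⟩
    · exact ⟨0, 0, rfl⟩
    · exact ⟨1, 0, rfl⟩
    · exact ⟨1, 1, rfl⟩
    · exact ⟨3, 1, rfl⟩
  have hle : H ≤ (Equiv.Perm.ofSubtype : Equiv.Perm {x // x ∈ T} →* Equiv.Perm α).range := by
    intro g hg
    have h1 : ∀ x, g x ∈ T ↔ x ∈ T := by
      intro x
      by_cases hx : x ∈ T
      · simp only [hx, iff_true]
        by_contra hgx
        have h2 := hH g hg (g x) hgx
        exact hgx (by rw [g.injective h2]; exact hx)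
      · rw [hH g hg x hx]
    exact ⟨g.subtypePerm h1, Equiv.Perm.ofSubtype_subtypePerm h1
      (fun x hx => by_contra fun hxT => hx (hH g hg x hxT))⟩
  haveI : Group.IsSolvable (Equiv.Perm.ofSubtype : Equiv.Perm {x // x ∈ T} →* Equiv.Perm α).range :=
    solvable_of_surjective (MonoidHom.rangeRestrict_surjective _)
  exact solvable_of_solvable_injective (Subgroup.inclusion_injective hle)

theorem solvable_commute {G : Type*} [Group G] (A : Set G) (c : G)
    (hA : Group.IsSolvable (Subgroup.closure A)) (hcomm : ∀ a ∈ A, Commute a c) :
    Group.IsSolvable (Subgroup.closure (insert c A)) := by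
  haveI := hA
  have hC : Subgroup.closure A ≤ Subgroup.centralizer {c} := by
    rw [Subgroup.closure_le]
    intro a ha
    rw [SetLike.mem_coe, Subgroup.mem_centralizer_singleton_iff]
    exact (hcomm a ha).eq
  haveI : Group.IsSolvable (Subgroup.zpowers c) :=
    Group.isSolvable_of_comm (fun x y => by
      obtain ⟨i, hi⟩ := x.2
      obtain ⟨j, hj⟩ := y.2
      refine Subtype.ext ?_
      simp only [Subgroup.coe_mul, ← hi, ← hj]
      exact (Commute.refl c).zpow_zpow i j)
  let f : (Subgroup.closure A) × (Subgroup.zpowers c) →* G :=
    MonoidHom.noncommCoprod (Subgroup.closure A).subtype (Subgroup.zpowers c).subtype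
      (fun x y => by
        obtain ⟨k, hk⟩ := y.2
        show Commute (x : G) (y : G)
        rw [← hk]
        exact (Commute.zpow_right
          (show Commute (x : G) c from Subgroup.mem_centralizer_singleton_iff.mp (hC x.2)) k))
  haveI : Group.IsSolvable f.range := solvable_of_surjective f.rangeRestrict_surjective
  have hle : Subgroup.closure (insert c A) ≤ f.range := by
    rw [Subgroup.closure_le]
    rintro x (rfl | hx)
    · exact ⟨⟨1, ⟨x, Subgroup.mem_zpowers x⟩⟩, by simp [f]⟩
    · exact ⟨⟨⟨x, Subgroup.subset_closure hx⟩, 1⟩, by simp [f]⟩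
  exact solvable_of_solvable_injective (Subgroup.inclusion_injective hle)

theorem solvable_closure {α : Type*} [Fintype α] [DecidableEq α] (T : Finset α) (hT : T.card ≤ 4)
    (A : Set (Equiv.Perm α)) (hA : ∀ g ∈ A, g.support ⊆ T) :
    Group.IsSolvable (Subgroup.closure A) := by
  refine solvable_small T hT _ ?_
  intro g hg x hx
  induction hg using Subgroup.closure_induction with
  | mem s hs => exact Equiv.Perm.notMem_support.mp fun h => hx (hA s hs h)
  | one => rfl
  | mul s t _ _ h1 h2 => rw [Equiv.Perm.mul_apply, h2, h1]
  | inv s _ h1 => exact Equiv.Perm.inv_eq_iff_eq.mpr h1.symm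

theorem solvable_disjoint {α : Type*} [Fintype α] [DecidableEq α] (a b c : Equiv.Perm α)
    (ha : a.IsSwap) (hb : b.IsSwap) (hac : Disjoint a.support c.support)
    (hbc : Disjoint b.support c.support) :
    Group.IsSolvable (Subgroup.closure (insert c ({a, b} : Set (Equiv.Perm α)))) := by
  refine solvable_commute _ c (solvable_closure (a.support ∪ b.support) ?_ _ ?_) ?_
  · calc (a.support ∪ b.support).card ≤ a.support.card + b.support.card := Finset.card_union_le _ _
      _ = 4 := by rw [Equiv.Perm.card_support_eq_two.mpr ha, Equiv.Perm.card_support_eq_two.mpr hb]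
  · rintro g (rfl | rfl)
    · exact Finset.subset_union_left
    · exact Finset.subset_union_right
  · rintro g (rfl | rfl)
    · exact (Equiv.Perm.disjoint_iff_disjoint_support.mpr hac).commute
    · exact (Equiv.Perm.disjoint_iff_disjoint_support.mpr hbc).commute

/-- In a finite symmetric group, any three transpositions generate a solvable subgroup. -/
theorem result (n : ℕ) (a b c : Equiv.Perm (Fin n))
    (ha : a.IsSwap) (hb : b.IsSwap) (hc : c.IsSwap) :
    Group.IsSolvable (Subgroup.closure ({a, b, c} : Set (Equiv.Perm (Fin n)))) := by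
  classical
  by_cases h1 : Disjoint a.support c.support ∧ Disjoint b.support c.support
  · rw [show ({a, b, c} : Set (Equiv.Perm (Fin n))) = insert c {a, b} by grind]
    exact solvable_disjoint a b c ha hb h1.1 h1.2
  by_cases h2 : Disjoint a.support b.support ∧ Disjoint c.support b.support
  · rw [show ({a, b, c} : Set (Equiv.Perm (Fin n))) = insert b {a, c} by grind]
    exact solvable_disjoint a c b ha hc h2.1 h2.2
  by_cases h3 : Disjoint b.support a.support ∧ Disjoint c.support a.support
  · rw [show ({a, b, c} : Set (Equiv.Perm (Fin n))) = insert a {b, c} by grind]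
    exact solvable_disjoint b c a hb hc h3.1 h3.2
  refine solvable_closure (a.support ∪ b.support ∪ c.support) ?_ _ ?_
  · have e1 := Equiv.Perm.card_support_eq_two.mpr ha
    have e2 := Equiv.Perm.card_support_eq_two.mpr hb
    have e3 := Equiv.Perm.card_support_eq_two.mpr hc
    have k1 := Finset.card_union_add_card_inter a.support b.support
    have k2 := Finset.card_union_add_card_inter (a.support ∪ b.support) c.support
    have p : ∀ s t : Finset (Fin n), ¬ Disjoint s t → 1 ≤ (s ∩ t).card := by
      intro s t h
      rw [Finset.disjoint_iff_inter_eq_empty] at h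
      exact Finset.card_pos.mpr (Finset.nonempty_iff_ne_empty.mpr h)
    by_cases hab : Disjoint a.support b.support
    · have hac : ¬ Disjoint a.support c.support := fun h => h3 ⟨hab.symm, h.symm⟩
      have hbc : ¬ Disjoint b.support c.support := fun h => h2 ⟨hab, h.symm⟩
      have h4 : ((a.support ∪ b.support) ∩ c.support).card = (a.support ∩ c.support).card + (b.support ∩ c.support).card := by
        rw [Finset.union_inter_distrib_right, Finset.card_union_of_disjoint]
        exact hab.mono Finset.inter_subset_left Finset.inter_subset_left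
      have := p _ _ hac
      have := p _ _ hbc
      omega
    · have := p _ _ hab
      have hc' : ¬ Disjoint (a.support ∪ b.support) c.support := by
        rw [Finset.disjoint_union_left]
        exact h1
      have := p _ _ hc'
      omega
  · rintro g (rfl | rfl | rfl)
    · exact Finset.subset_union_left.trans Finset.subset_union_left
    · exact Finset.subset_union_right.trans Finset.subset_union_left
    · exact Finset.subset_union_right

end Cfsg.Agent.S4337
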