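import Cfsg.Statements.S4341
import Mathlib
-- import your own Cfsg.Agent.* helpers here

set_option autoImplicit false
open Cfsg

namespace Cfsg.Agent.S4341

variable {G : Type*} [Group G]

/-- Enlarging `B` by elements of `A` does not change the relative index. -/
theorem relIndex_eq (A B C : Subgroup G) (hBC : B ≤ C) (h : ∀ c ∈ C, ∃ b ∈ B, b⁻¹ * c ∈ A) :
    A.relIndex B = A.relIndex C := by
  let f : B ⧸ A.subgroupOf B → C ⧸ A.subgroupOf C := Quotient.map' (fun b => (⟨b, hBC b.2⟩ : C)) (fun x y hxy => by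
    rw [QuotientGroup.leftRel_apply] at hxy ⊢
    exact hxy)
  refine Nat.card_congr (Equiv.ofBijective f ⟨?_, ?_⟩)
  · intro x y
    induction x using QuotientGroup.induction_on
    induction y using QuotientGroup.induction_on
    intro e
    exact QuotientGroup.eq.2 (QuotientGroup.eq (s := A.subgroupOf C) |>.1 e)
  · intro y
    induction y using QuotientGroup.induction_on with
    | H c =>
      obtain ⟨b, hb, hbc⟩ := h c c.2
      exact ⟨((⟨b, hb⟩ : B) : B ⧸ A.subgroupOf B), QuotientGroup.eq.2 hbc⟩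

theorem card_sylow [Finite G] (p : ℕ) [Fact p.Prime] (T H : Subgroup G) (hTH : T ≤ H) (hT : IsPGroup p T)
    (hidx : ¬ p ∣ T.relIndex H) :
    Nat.card (Sylow p H) = (Subgroup.normalizer (T : Set G)).relIndex H ∧
    ∀ g : G, T.map (MulAut.conj g).toMonoidHom ≤ H →
      ∃ h ∈ H, T.map (MulAut.conj g).toMonoidHom = T.map (MulAut.conj h).toMonoidHom := by
  have hp : IsPGroup p (T.subgroupOf H) := hT.comap_of_injective H.subtype H.subtype_injective
  let S : Sylow p H := hp.toSylow hidx
  refine ⟨?_, fun g hg => ?_⟩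
  · rw [S.card_eq_index_normalizer]
    show (Subgroup.normalizer ((T.subgroupOf H : Subgroup H) : Set H)).index = _
    rw [← Subgroup.subgroupOf_normalizer_eq hTH]
    rfl
  · set T' := T.map (MulAut.conj g).toMonoidHom
    obtain ⟨R, hR⟩ := ((hT.map (MulAut.conj g).toMonoidHom).comap_of_injective H.subtype H.subtype_injective).exists_le_sylow
    obtain ⟨h, hh⟩ := MulAction.exists_smul_eq H S R
    refine ⟨h, h.2, Subgroup.eq_of_le_of_card_ge ?_ ?_⟩
    · intro x hx
      have hx' : (⟨x, hg hx⟩ : H) ∈ (R : Subgroup H) := hR hx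
      rw [← hh, Sylow.coe_subgroup_smul, Subgroup.mem_pointwise_smul_iff_inv_smul_mem] at hx'
      refine ⟨(((MulAut.conj h)⁻¹ • (⟨x, hg hx⟩ : H) : H) : G), hx', ?_⟩
      show (h : G) * _ * (h : G)⁻¹ = x
      simp [MulAut.smul_def, mul_assoc]
    · rw [← Nat.card_congr (Subgroup.equivMapOfInjective T (MulAut.conj (h : G)).toMonoidHom (MulAut.conj (h : G)).injective).toEquiv,
        ← Nat.card_congr (Subgroup.equivMapOfInjective T (MulAut.conj g).toMonoidHom (MulAut.conj g).injective).toEquiv]

/-- Let K be a normal subgroup of a finite group G, p a prime and P a Sylow p-subgroup of G; let N be the normalizer of P ∩ K inside the subgroup PK. Then the number of Sylow p-subgroups of G equals the product of the numbers of Sylow p-subgroups of G/K, of K, and of N/(P ∩ K). (The normality of P ∩ K in N, which always holds, is assumed as a hypothesis so that the quotient can be formed.) -/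
theorem result {G : Type*} [Group G] [Finite G]
    (p : ℕ) [Fact p.Prime] (K : Subgroup G) [K.Normal] (P : Sylow p G) (N : Subgroup G)
    (hN : N = ((P : Subgroup G) ⊔ K) ⊓ Subgroup.normalizer (((P : Subgroup G) ⊓ K : Subgroup G) : Set G))
    [hn : (((P : Subgroup G) ⊓ K).subgroupOf N).Normal] :
    Nat.card (Sylow p G) =
      Nat.card (Sylow p (G ⧸ K)) * Nat.card (Sylow p K) * Nat.card (Sylow p (N ⧸ ((P : Subgroup G) ⊓ K).subgroupOf N)) := by
  classical
  set q := QuotientGroup.mk' K
  set H := (P : Subgroup G) ⊔ K with hH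
  set D := (P : Subgroup G) ⊓ K with hD
  have hPH : (P : Subgroup G) ≤ H := le_sup_left
  have hKH : K ≤ H := le_sup_right
  have hPidx : ∀ X : Subgroup G, (P : Subgroup G) ≤ X → ¬ p ∣ (P : Subgroup G).relIndex X := fun X hX h =>
    P.not_dvd_index (h.trans (Subgroup.relIndex_dvd_index_of_le hX))
  have hmem : ∀ c ∈ H, ∃ b ∈ K, b⁻¹ * c ∈ (P : Subgroup G) := by
    intro c hc
    have hc' : c ∈ ((K ⊔ (P : Subgroup G) : Subgroup G) : Set G) := by rw [sup_comm]; exact hc
    rw [Subgroup.normal_mul K] at hc'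
    obtain ⟨k, hk, a, ha, rfl⟩ := Set.mem_mul.1 hc'
    exact ⟨k, hk, by rw [inv_mul_cancel_left]; exact ha⟩
  have hDK : ¬ p ∣ D.relIndex K := by
    rw [hD, Subgroup.inf_relIndex_right, relIndex_eq _ K H hKH hmem]
    exact hPidx H hPH
  have hDp : IsPGroup p D := P.isPGroup'.to_le inf_le_left
  have hPND : (P : Subgroup G) ≤ Subgroup.normalizer (D : Set G) := by
    intro a ha
    apply Subgroup.mem_normalizer_fintype
    intro x hx
    exact ⟨(P : Subgroup G).mul_mem ((P : Subgroup G).mul_mem ha hx.1) ((P : Subgroup G).inv_mem ha), ‹K.Normal›.conj_mem _ hx.2 a⟩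
  have hNPD : H ⊓ Subgroup.normalizer ((P : Subgroup G) : Set G) ≤ N := by
    rw [hN]
    refine le_inf inf_le_left fun a ha => ?_
    apply Subgroup.mem_normalizer_fintype
    intro x hx
    exact ⟨(Subgroup.mem_normalizer_iff.1 ha.2 x).1 hx.1, ‹K.Normal›.conj_mem _ hx.2 a⟩
  set NP := Subgroup.normalizer ((P : Subgroup G) : Set G)
  set ND := Subgroup.normalizer (D : Set G)
  set NH := Subgroup.normalizer (H : Set G)
  -- Sylow numbers
  have hG : Nat.card (Sylow p G) = NP.index := P.card_eq_index_normalizer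
  have hQ : Nat.card (Sylow p (G ⧸ K)) = NH.index := by
    rw [(P.mapSurjective (f := q) (QuotientGroup.mk'_surjective K)).card_eq_index_normalizer]
    show (Subgroup.normalizer (((P : Subgroup G).map q : Subgroup (G ⧸ K)) : Set (G ⧸ K))).index = _
    rw [← Subgroup.index_comap_of_surjective _ (QuotientGroup.mk'_surjective K),
      Subgroup.comap_normalizer_eq_of_surjective _ (QuotientGroup.mk'_surjective K), Subgroup.comap_map_eq,
      QuotientGroup.ker_mk']
  have hK' : Nat.card (Sylow p K) = ND.relIndex K := (card_sylow p D K inf_le_right hDp hDK).1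
  have hPN : (P : Subgroup G) ≤ N := hN ▸ le_inf hPH hPND
  have hN' : Nat.card (Sylow p (↥N ⧸ D.subgroupOf N)) = NP.relIndex N := by
    rw [← (card_sylow p (P : Subgroup G) N hPN P.isPGroup' (hPidx N hPN)).1]
    have hsurj : Function.Surjective (QuotientGroup.mk' (D.subgroupOf N)) := QuotientGroup.mk'_surjective _
    refine (Nat.card_eq_of_bijective (fun S : Sylow p N => S.mapSurjective hsurj) ⟨fun S T e => ?_,
      Sylow.mapSurjective_surjective hsurj p⟩).symm
    haveI : (Subgroup.comap N.subtype D).Normal := hn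
    have hker : ∀ S : Sylow p N, D.subgroupOf N ≤ (S : Subgroup N) := fun S =>
      IsPGroup.le_sylow_of_normal (h := (hDp.comap_of_injective N.subtype N.subtype_injective : IsPGroup p (D.subgroupOf N))) S
    have e' := congrArg (fun R : Sylow p (↥N ⧸ D.subgroupOf N) => (R : Subgroup (↥N ⧸ D.subgroupOf N)).comap (QuotientGroup.mk' _)) e
    simp only [Sylow.coe_mapSurjective, Subgroup.comap_map_eq, QuotientGroup.ker_mk', sup_eq_left.2 (hker _)] at e'
    exact Sylow.ext e'
  have hPHs := card_sylow p (P : Subgroup G) H hPH P.isPGroup' (hPidx H hPH)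
  have hmulP : ∀ (A X : Subgroup G) (c : G), A ≤ X → c ∈ Subgroup.normalizer (X : Set G) →
      A.map (MulAut.conj c).toMonoidHom ≤ X := by
    rintro A X c hAX hc _ ⟨x, hx, rfl⟩
    exact (Subgroup.mem_normalizer_iff.1 hc x).1 (hAX hx)
  have hfix : ∀ (T : Subgroup G) (h c : G), T.map (MulAut.conj c).toMonoidHom = T.map (MulAut.conj h).toMonoidHom →
      h⁻¹ * c ∈ Subgroup.normalizer (T : Set G) := by
    intro T h c e
    rw [Subgroup.mem_normalizer_iff_map_conj_eq]
    have e' := congrArg (fun S : Subgroup G => S.map (MulAut.conj h⁻¹).toMonoidHom) e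
    simp only [Subgroup.map_map] at e'
    convert e'.trans ?_ using 1
    · congr 1; ext x; simp [mul_assoc]
    · conv_rhs => rw [← Subgroup.map_id T]
      congr 1; ext x; simp [mul_assoc]
  have hNH1 : NP.relIndex H = NP.relIndex NH := relIndex_eq _ _ _ Subgroup.le_normalizer fun c hc => by
    obtain ⟨h, hh, e⟩ := hPHs.2 c (hmulP _ _ c hPH hc)
    exact ⟨h, hh, hfix _ h c e⟩
  have hNPNH : NP ≤ NH := by
    intro a ha
    apply Subgroup.mem_normalizer_fintype
    intro x hx
    obtain ⟨b, hb, hbx⟩ := hmem x hx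
    have e : a * x * a⁻¹ = (a * b * a⁻¹) * (a * (b⁻¹ * x) * a⁻¹) := by group
    rw [e]
    exact mul_mem (hKH (‹K.Normal›.conj_mem _ hb a)) (hPH ((Subgroup.mem_normalizer_iff.1 ha _).1 hbx))
  have hND : ND.relIndex K = ND.relIndex H := relIndex_eq _ _ _ hKH fun c hc => by
    obtain ⟨b, hb, hbc⟩ := hmem c hc
    exact ⟨b, hb, hPND hbc⟩
  have hNeq : ND.relIndex H = N.relIndex H := by
    rw [hN, Subgroup.inf_relIndex_left]
  have hmul : NP.relIndex H = NP.relIndex N * N.relIndex H := by
    have hNle : N ≤ H := hN ▸ inf_le_left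
    rw [← Subgroup.inf_relIndex_left H NP, ← Subgroup.inf_relIndex_left N NP,
      show N ⊓ NP = H ⊓ NP from le_antisymm (inf_le_inf_right _ hNle) (le_inf hNPD inf_le_right),
      Subgroup.relIndex_mul_relIndex _ _ _ hNPD hNle]
  rw [hG, hQ, hK', hN', ← Subgroup.relIndex_mul_index hNPNH, ← hNH1, hmul, hND, hNeq]
  ring

end Cfsg.Agent.S4341
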