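import Cfsg.Statements.S4342
import Mathlib
-- import your own Cfsg.Agent.* helpers here

set_option autoImplicit false
open Cfsg

namespace Cfsg.Agent.S4342

/-- Let H be a normal subgroup of a finite group G and p a prime not dividing the index of H. Then the number of Sylow p-subgroups of H/Z(H) equals the number of Sylow p-subgroups of G. -/
theorem result {G : Type*} [Group G] [Finite G]
    (p : ℕ) [Fact p.Prime] (H : Subgroup G) [H.Normal] (hp : ¬ p ∣ H.index) :
    Nat.card (Sylow p (H ⧸ Subgroup.center H)) = Nat.card (Sylow p G) := by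
  classical
  set Z := Subgroup.center H
  have h1 : Nat.card (Sylow p (H ⧸ Z)) = Nat.card (Sylow p H) := by
    refine (Nat.card_eq_of_bijective (fun P : Sylow p H => P.mapSurjective (QuotientGroup.mk'_surjective Z)) ⟨?_, Sylow.mapSurjective_surjective (QuotientGroup.mk'_surjective Z) p⟩).symm
    intro P Q hPQ
    have h2 := congrArg (fun S : Sylow p (H ⧸ Z) => ((S : Subgroup (H ⧸ Z))).comap (QuotientGroup.mk' Z)) hPQ
    simp only [Sylow.coe_mapSurjective] at h2
    rw [Subgroup.comap_map_eq, Subgroup.comap_map_eq, QuotientGroup.ker_mk'] at h2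
    set W := (P : Subgroup H) ⊔ Z with hW
    have hPW : (P : Subgroup H) ≤ W := le_sup_left
    have hQW : (Q : Subgroup H) ≤ W := le_sup_left.trans h2.ge
    haveI : ((P.subtype hPW : Sylow p W) : Subgroup W).Normal := by
      refine ⟨fun x hx w => ?_⟩
      have hw : (w : H) ∈ (P : Subgroup H) ⊔ Z := w.2
      obtain ⟨u, hu, z, hz, e⟩ := Subgroup.mem_sup_of_normal_right.mp hw
      show (w : H) * (x : H) * (w : H)⁻¹ ∈ (P : Subgroup H)
      rw [← e, show u * z * (x : H) * (u * z)⁻¹ = u * (z * (x : H)) * z⁻¹ * u⁻¹ by group,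
        ← Subgroup.mem_center_iff.mp hz (x : H), show u * ((x : H) * z) * z⁻¹ * u⁻¹ = u * x * u⁻¹ by group]
      exact mul_mem (mul_mem hu hx) (inv_mem hu)
    haveI := Sylow.unique_of_normal (P.subtype hPW) inferInstance
    have h3 := congrArg (fun S : Sylow p W => (S : Subgroup W).map W.subtype) (Subsingleton.elim (P.subtype hPW) (Q.subtype hQW))
    simp only [Sylow.coe_subtype, Subgroup.map_subgroupOf_eq_of_le hPW, Subgroup.map_subgroupOf_eq_of_le hQW] at h3
    exact Sylow.ext h3
  have hmem : ∀ P : Sylow p G, (P : Subgroup G) ≤ H := by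
    intro P x hx
    rw [← QuotientGroup.eq_one_iff]
    obtain ⟨k, hk⟩ := IsPGroup.iff_orderOf.mp P.isPGroup' ⟨x, hx⟩
    rw [Subgroup.orderOf_mk] at hk
    refine orderOf_eq_one_iff.mp (Nat.eq_one_of_dvd_coprimes (a := p ^ k) (b := H.index) ?_ ?_ ?_)
    · exact Nat.Coprime.pow_left k ((Fact.out : p.Prime).coprime_iff_not_dvd.mpr hp)
    · rw [← hk]; exact orderOf_map_dvd (QuotientGroup.mk' H) x
    · rw [Subgroup.index_eq_card]; exact orderOf_dvd_natCard _
  rw [h1]
  refine (Nat.card_eq_of_bijective (fun P : Sylow p G => P.subtype (hmem P)) ⟨?_, ?_⟩).symm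
  · intro P Q hPQ
    have h3 := congrArg (fun S : Sylow p H => (S : Subgroup H).map H.subtype) hPQ
    simp only [Sylow.coe_subtype, Subgroup.map_subgroupOf_eq_of_le (hmem P), Subgroup.map_subgroupOf_eq_of_le (hmem Q)] at h3
    exact Sylow.ext h3
  · intro S
    obtain ⟨P, hP⟩ := (S.isPGroup'.map H.subtype).exists_le_sylow
    refine ⟨P, Sylow.ext ((S.is_maximal' (P.subtype (hmem P)).isPGroup' ?_))⟩
    intro x hx
    exact hP ⟨x, hx, rfl⟩

end Cfsg.Agent.S4342
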