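import Cfsg.Statements.S4343
import Cfsg.Agent.S1009
import Mathlib

set_option autoImplicit false
open Cfsg

namespace Cfsg.Agent.S4343

open Subgroup MulAction

/-- Let S be a finite non-abelian simple group and p a prime dividing its order. If S has fewer than p² Sylow p-subgroups, then its Sylow p-subgroups have order p. -/
theorem result {S : Type*} [Group S] [Finite S]
    [IsSimpleGroup S] (hS : ¬ IsMulCommutative S) (p : ℕ) [Fact p.Prime] (hp : p ∣ Nat.card S)
    (hn : Nat.card (Sylow p S) < p ^ 2) (P : Sylow p S) : Nat.card P = p := by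
  have hpp : p.Prime := Fact.out
  -- two distinct Sylow subgroups meet in index `p`
  have hidx : ∀ A B : Sylow p S, A ≠ B → (B : Subgroup S).relIndex A = p := by
    intro A B hAB
    have hstab : stabilizer (A : Subgroup S) B = (B : Subgroup S).subgroupOf A := by
      ext g
      rw [MulAction.mem_stabilizer_iff, Subgroup.mem_subgroupOf]
      show (g : S) • B = B ↔ _
      rw [Sylow.smul_eq_iff_mem_normalizer]
      refine ⟨fun h => ?_, fun h => le_normalizer h⟩
      have h2 : (g : S) ∈ (A : Subgroup S) ⊓ normalizer (B : Set S) := ⟨g.2, h⟩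
      rw [A.2.inf_normalizer_sylow B] at h2
      exact h2.2
    rw [Subgroup.relIndex, ← hstab, index_stabilizer]
    obtain ⟨k, hk⟩ := A.2.card_orbit B
    rw [← Nat.card_coe_set_eq, hk]
    have hlt : p ^ k < p ^ 2 := by
      refine lt_of_le_of_lt ?_ hn
      rw [← hk, ← Nat.card_univ (α := Sylow p S)]
      exact Nat.card_mono (Set.toFinite _) (Set.subset_univ _)
    have hk2 := (Nat.pow_lt_pow_iff_right hpp.one_lt).1 hlt
    interval_cases k
    · exfalso
      rw [pow_zero] at hk
      have hss := (Nat.card_eq_one_iff_unique.1 hk).1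
      have hfix : ∀ a : (A : Subgroup S), (a : S) • B = B := fun a =>
        congrArg Subtype.val (Subsingleton.elim
          (⟨a • B, ⟨a, rfl⟩⟩ : orbit (A : Subgroup S) B) ⟨B, mem_orbit_self B⟩)
      have hle : (A : Subgroup S) ≤ normalizer (B : Set S) := fun a ha =>
        Sylow.smul_eq_iff_mem_normalizer.1 (hfix ⟨a, ha⟩)
      have h2 := A.2.inf_normalizer_sylow B
      rw [inf_eq_left.2 hle] at h2
      have hAB' : (A : Subgroup S) ≤ B := h2 ▸ inf_le_right
      exact hAB (Sylow.ext (A.3 B.2 hAB').symm)
    · simp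
  -- the intersection of all Sylow subgroups is trivial
  have hPne : (P : Subgroup S) ≠ ⊥ := P.ne_bot_of_dvd_card hp
  have hcore : (⨅ R : Sylow p S, (R : Subgroup S)) = ⊥ := by
    have hnorm : (⨅ R : Sylow p S, (R : Subgroup S)).Normal := by
      refine ⟨fun a ha g => ?_⟩
      rw [Subgroup.mem_iInf] at ha ⊢
      intro R
      have h := ha (g⁻¹ • R)
      change a ∈ (((g⁻¹ • R : Sylow p S)) : Subgroup S) at h
      rw [Sylow.coe_subgroup_smul, Subgroup.mem_pointwise_smul_iff_inv_smul_mem] at h
      simpa using h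
    refine hnorm.eq_bot_or_eq_top.resolve_right fun h => ?_
    have hPtop : (P : Subgroup S) = ⊤ := top_le_iff.1 (h ▸ iInf_le _ P)
    have hpg : IsPGroup p S := fun x => by
      obtain ⟨k, hk⟩ := P.2 ⟨x, hPtop ▸ Subgroup.mem_top x⟩
      exact ⟨k, congrArg Subtype.val hk⟩
    have : Group.IsNilpotent S := hpg.isNilpotent
    have hsol : Group.IsSolvable S := inferInstance
    exact hS ⟨⟨fun a b => (IsSimpleGroup.comm_iff_isSolvable.2 hsol) a b⟩⟩
  -- so the Sylow subgroups are abelian
  have hab : ∀ A : Sylow p S, IsMulCommutative ↥(A : Subgroup S) := by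
    intro A
    refine ⟨⟨fun x y => Subtype.ext ?_⟩⟩
    have hmem : (x : S) * y * (x : S)⁻¹ * (y : S)⁻¹ ∈ (⨅ R : Sylow p S, (R : Subgroup S)) := by
      rw [Subgroup.mem_iInf]
      intro R
      by_cases hAR : A = R
      · subst hAR
        exact mul_mem (mul_mem (mul_mem x.2 y.2) (inv_mem x.2)) (inv_mem y.2)
      set D := (R : Subgroup S).subgroupOf A
      have hDi : D.index = p := hidx A R hAR
      obtain ⟨k, hk⟩ := A.2.exists_card_eq
      have hk0 : k ≠ 0 := by
        rintro rfl
        have := D.index_dvd_card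
        rw [hDi, hk, pow_zero, Nat.dvd_one] at this
        exact hpp.ne_one this
      have hDn : D.Normal := Subgroup.normal_of_index_eq_minFac_card (by
        rw [hDi, hk, hpp.pow_minFac hk0])
      have : IsCyclic ((A : Subgroup S) ⧸ D) := isCyclic_of_prime_card (p := p) (by
        rw [← Subgroup.index_eq_card, hDi])
      have hcq := IsCyclic.commGroup (α := (A : Subgroup S) ⧸ D) |>.mul_comm
        (QuotientGroup.mk x) (QuotientGroup.mk y)
      rw [← QuotientGroup.mk_mul, ← QuotientGroup.mk_mul, eq_comm, QuotientGroup.eq] at hcq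
      have h1 := hDn.mem_comm hcq
      rw [Subgroup.mem_subgroupOf] at h1
      simpa [mul_assoc] using h1
    rw [hcore, Subgroup.mem_bot] at hmem
    have h2 := mul_inv_eq_one.1 hmem
    rw [mul_inv_eq_iff_eq_mul] at h2
    simpa using h2
  obtain ⟨A, B, hint⟩ := S1009.result p hab
  rw [hcore] at hint
  have hAB : A ≠ B := by
    rintro rfl
    rw [inf_idem] at hint
    exact (A.ne_bot_of_dvd_card hp) hint
  have h := hidx A B hAB
  rw [← Subgroup.inf_relIndex_right, inf_comm, hint, Subgroup.relIndex_bot_left] at h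
  exact (Nat.card_congr (Sylow.equiv P A).toEquiv).trans h

end Cfsg.Agent.S4343
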