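import Cfsg.Statements.S4344
import Mathlib
-- import your own Cfsg.Agent.* helpers here

set_option autoImplicit false
open Cfsg

namespace Cfsg.Agent.S4344

/-- Let S be a finite non-abelian simple group, M a maximal subgroup of S and C a cyclic normal subgroup of M. If a Sylow p-subgroup P of S (for a prime p dividing the order of S) is contained in C, then the number of Sylow p-subgroups of S equals the index of M. -/
theorem result {S : Type*} [Group S] [Finite S]
    [IsSimpleGroup S] (hS : ¬ IsMulCommutative S) (p : ℕ) [Fact p.Prime] (hp : p ∣ Nat.card S)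
    (M : Subgroup S) (hM : IsCoatom M) (C : Subgroup S) (hCM : C ≤ M) (hCn : (C.subgroupOf M).Normal)
    (hC : IsCyclic C) (P : Sylow p S) (hP : (P : Subgroup S) ≤ C) :
    Nat.card (Sylow p S) = M.index := by
  classical
  haveI := hC
  set N := Subgroup.normalizer ((P : Subgroup S) : Set S)
  have hne : (P : Subgroup S) ≠ ⊥ := P.ne_bot_of_dvd_card hp
  have hPn : ¬ (P : Subgroup S).Normal := by
    intro h
    have htop := (IsSimpleGroup.eq_bot_or_eq_top_of_normal _ h).resolve_left hne
    haveI : Nontrivial S := IsSimpleGroup.toNontrivial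
    apply hS
    have hSc : IsCyclic S := by
      have hC' : C = ⊤ := top_le_iff.mp (htop ▸ hP)
      subst hC'
      exact isCyclic_of_surjective (Subgroup.topEquiv (G := S)).toMonoidHom (Subgroup.topEquiv (G := S)).surjective
    exact ⟨⟨fun a b => by
      obtain ⟨z, hz⟩ := hSc.exists_generator
      obtain ⟨i, rfl⟩ := hz a
      obtain ⟨j, rfl⟩ := hz b
      exact ((Commute.refl z).zpow_zpow i j).eq⟩⟩
  have hMN : M ≤ N := by
    intro m hm
    have hPC : ∀ x ∈ C, (∃ k : ℕ, orderOf x = p ^ k) → x ∈ (P : Subgroup S) := by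
      intro x hx ⟨k, hk⟩
      haveI : ((P.subtype hP : Sylow p C) : Subgroup C).Normal :=
        ⟨fun a ha b => by rwa [IsCyclic.commutative.is_comm.comm b a, mul_inv_cancel_right]⟩
      have hz : IsPGroup p (Subgroup.zpowers (⟨x, hx⟩ : C)) :=
        IsPGroup.of_card (n := k) (by rw [Nat.card_zpowers, Subgroup.orderOf_mk, hk])
      exact hz.le_sylow_of_normal (P.subtype hP) (Subgroup.mem_zpowers _)
    have hconj : ∀ m ∈ M, ∀ x ∈ (P : Subgroup S), m * x * m⁻¹ ∈ (P : Subgroup S) := by
      intro m hm x hx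
      refine hPC _ (hCn.conj_mem ⟨x, hCM (hP hx)⟩ (hP hx) ⟨m, hm⟩) ?_
      obtain ⟨k, hk⟩ := IsPGroup.iff_orderOf.mp P.isPGroup' ⟨x, hx⟩
      exact ⟨k, by rw [← hk, Subgroup.orderOf_mk]; exact (MulAut.conj m).orderOf_eq x⟩
    rw [Subgroup.mem_normalizer_iff]
    refine fun x => ⟨hconj m hm x, fun h => ?_⟩
    have := hconj m⁻¹ (inv_mem hm) _ h
    simpa [mul_assoc] using this
  have hMeq : M = N := by
    by_contra hne'
    exact hPn (Subgroup.normalizer_eq_top_iff.mp (hM.2 N (lt_of_le_of_ne hMN hne')))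
  rw [Sylow.card_eq_index_normalizer P, hMeq]
  rfl

end Cfsg.Agent.S4344
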