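import Cfsg.Statements.S4345
import Mathlib
import Cfsg.Agent.S4341
import Cfsg.Agent.Lib.Solv.MinNormal
import Cfsg.Agent.Lib.Transfer.Basic
-- import your own Cfsg.Agent.* helpers here

set_option autoImplicit false
open Cfsg

namespace Cfsg.Agent.S4345

theorem aux.{u} : ∀ (n : ℕ) (G : Type u) [Group G] [Finite G], Nat.card G = n → Group.IsSolvable G →
    ∀ (p ℓ : ℕ) [Fact p.Prime], ℓ.Prime → ℓ ^ (Nat.card (Sylow p G)).factorization ℓ ≡ 1 [MOD p] := by
  intro n
  induction n using Nat.strong_induction_on with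
  | _ n ih =>
  intro G _ _ hn hG p ℓ _ hℓ
  haveI := hG
  obtain ⟨P⟩ : Nonempty (Sylow p G) := inferInstance
  rcases eq_or_ne (⊤ : Subgroup G) ⊥ with h | h
  · have h1 : Nat.card (Sylow p G) = 1 := by
      rw [P.card_eq_index_normalizer, Subgroup.index_eq_one, eq_top_iff, h]; exact bot_le
    rw [h1, Nat.factorization_one, Finsupp.coe_zero, Pi.zero_apply, pow_zero]
  obtain ⟨K, hKn, -, hK, hmin⟩ := Cfsg.Lib.Solv.exists_minimal_normal_le (N := (⊤ : Subgroup G)) h
  haveI := hKn
  obtain ⟨hKab, q, hq, hKq, -⟩ := Cfsg.Lib.Solv.minimal_normal_elementary hK inferInstance hmin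
  haveI := Fact.mk hq
  set N := ((P : Subgroup G) ⊔ K) ⊓ Subgroup.normalizer (((P : Subgroup G) ⊓ K : Subgroup G) : Set G) with hN
  haveI hn' : (((P : Subgroup G) ⊓ K).subgroupOf N).Normal :=
    Subgroup.normal_subgroupOf_of_le_normalizer (hN ▸ inf_le_right)
  rw [Cfsg.Agent.S4341.result p K P N rfl]
  have hK1 : Nat.card (Sylow p K) = 1 := by
    haveI := hKab
    obtain ⟨R⟩ : Nonempty (Sylow p K) := inferInstance
    rw [R.card_eq_index_normalizer, Subgroup.index_eq_one]
    show Subgroup.normalizer ((R : Subgroup K) : Set K) = ⊤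
    rw [Subgroup.normalizer_eq_top_iff]
    infer_instance
  set m := Nat.card (Sylow p (↥N ⧸ ((P : Subgroup G) ⊓ K).subgroupOf N))
  -- `m` is a power of `q`
  obtain ⟨e, he⟩ : ∃ e, m = q ^ e := by
    obtain ⟨a, ha⟩ := P.isPGroup'.exists_card_eq
    obtain ⟨b, hb⟩ := hKq.exists_card_eq
    have hd1 : Nat.card (↥N ⧸ ((P : Subgroup G) ⊓ K).subgroupOf N) ∣ p ^ a * q ^ b := by
      refine (Subgroup.card_quotient_dvd_card _).trans ?_
      refine (Subgroup.card_dvd_of_le (inf_le_left : N ≤ _)).trans ?_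
      rw [← ha, ← hb]
      exact Cfsg.Lib.Transfer.card_sup_dvd_of_normal _ _
    have hdiv : m ∣ p ^ a * q ^ b := by
      obtain ⟨R⟩ : Nonempty (Sylow p (↥N ⧸ ((P : Subgroup G) ⊓ K).subgroupOf N)) := inferInstance
      exact (R.card_dvd_index.trans (Subgroup.index_dvd_card _)).trans hd1
    have hm1 : m ≡ 1 [MOD p] := card_sylow_modEq_one p _
    have hco : m.Coprime (p ^ a) := by
      refine (Nat.Coprime.pow_right _ ((Nat.Prime.coprime_iff_not_dvd Fact.out).2 fun hd => ?_).symm)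
      have := (Nat.modEq_zero_iff_dvd.2 hd).symm.trans hm1
      exact (Fact.out : p.Prime).ne_one (Nat.dvd_one.1 (Nat.modEq_zero_iff_dvd.1 this.symm))
    obtain ⟨e, -, he⟩ := (Nat.dvd_prime_pow hq).1 (hco.dvd_of_dvd_mul_left hdiv)
    exact ⟨e, he⟩
  have hlt : Nat.card (G ⧸ K) < n := by
    rw [← hn, ← Subgroup.index_eq_card, ← K.card_mul_index]
    have h2 : 1 < Nat.card K := (Subgroup.one_lt_card_iff_ne_bot K).2 hK
    have h3 : 0 < K.index := Nat.pos_of_ne_zero Subgroup.index_ne_zero_of_finite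
    nlinarith
  have h1 := ih _ hlt (G ⧸ K) rfl inferInstance p ℓ hℓ
  rw [hK1, mul_one, Nat.factorization_mul Nat.card_pos.ne' Nat.card_pos.ne', Finsupp.add_apply, pow_add]
  suffices h2 : ℓ ^ m.factorization ℓ ≡ 1 [MOD p] by
    simpa using Nat.ModEq.mul h1 h2
  rw [he]
  by_cases hql : ℓ = q
  · subst hql
    rw [hq.factorization_pow, Finsupp.single_eq_same, ← he]
    exact card_sylow_modEq_one p _
  · rw [hq.factorization_pow, Finsupp.single_eq_of_ne hql, pow_zero]

/-- Let G be a finite solvable group and p, ℓ primes. Then the largest power of ℓ dividing the number of Sylow p-subgroups of G is congruent to 1 modulo p. -/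
theorem result {G : Type*} [Group G] [Finite G]
    (hG : Group.IsSolvable G) (p ℓ : ℕ) [Fact p.Prime] (hℓ : ℓ.Prime) :
    ℓ ^ (Nat.card (Sylow p G)).factorization ℓ ≡ 1 [MOD p] := by
  exact aux _ G rfl hG p ℓ hℓ

end Cfsg.Agent.S4345
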