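import Cfsg.Statements.S4354
import Cfsg.Agent.Lib.Transfer.Abelian
import Cfsg.Agent.Lib.Kazarin.Main
import Cfsg.Agent.Lib.Blocks.Kernel

set_option autoImplicit false
open Cfsg

namespace Cfsg.Agent.S4354

/-- Let G be a finite group and p a prime such that the Sylow p-subgroups of G are non-abelian while every element of p-power order has conjugacy class size prime to p, and suppose no nontrivial proper normal subgroup N of G has this property and no quotient G/N by such an N has it. Then G is simple. -/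
theorem result {G : Type*} [Group G] [Finite G]
    (p : ℕ) [Fact p.Prime] (h : ((∃ P : Sylow p G, ¬ IsMulCommutative P) ∧ ∀ x : G, (∃ k : ℕ, orderOf x = p ^ k) → ¬ p ∣ (Subgroup.centralizer ({x} : Set G)).index))
    (hmin : ∀ (N : Subgroup G) [N.Normal], N ≠ ⊥ → N ≠ ⊤ →
      ¬ ((∃ P : Sylow p N, ¬ IsMulCommutative P) ∧ ∀ x : N, (∃ k : ℕ, orderOf x = p ^ k) → ¬ p ∣ (Subgroup.centralizer ({x} : Set N)).index) ∧
      ¬ ((∃ P : Sylow p (G ⧸ N), ¬ IsMulCommutative P) ∧ ∀ x : (G ⧸ N), (∃ k : ℕ, orderOf x = p ^ k) → ¬ p ∣ (Subgroup.centralizer ({x} : Set (G ⧸ N))).index)) :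
    IsSimpleGroup G := by
  classical
  haveI := Fintype.ofFinite G
  obtain ⟨⟨P, hP⟩, hcl⟩ := h
  haveI : Nontrivial G := by
    by_contra hnt
    rw [not_nontrivial_iff_subsingleton] at hnt
    exact hP ⟨⟨fun a b => Subsingleton.elim _ _⟩⟩
  refine ⟨fun N hN => ?_⟩
  by_contra hcon
  rw [not_or] at hcon
  haveI := hN
  obtain ⟨hminN, hminQ⟩ := hmin N hcon.1 hcon.2
  -- both the normal subgroup and the quotient have abelian Sylow subgroups
  have habN : ∀ S : Sylow p N, IsMulCommutative (S : Subgroup N) := by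
    intro S
    by_contra hS
    refine hminN ⟨⟨S, hS⟩, fun x hx hd => ?_⟩
    refine hcl x (by rwa [Subgroup.orderOf_coe]) (hd.trans ?_)
    have he : Subgroup.centralizer ({x} : Set N) =
        (Subgroup.centralizer ({(x : G)} : Set G)).subgroupOf N := by
      ext c
      simp [Subgroup.mem_centralizer_singleton_iff, Subgroup.mem_subgroupOf, Subtype.ext_iff]
    rw [he]
    show (Subgroup.centralizer ({(x : G)} : Set G)).relIndex N ∣ _
    have := Cfsg.Lib.Kazarin.relIndex_dvd_index_of_sup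
      (Subgroup.centralizer ({(x : G)} : Set G)) N (y := 1) (one_mem _)
    rwa [Subgroup.zpowers_one_eq_bot, sup_bot_eq] at this
  set f := QuotientGroup.mk' N with hf
  set Pb := P.mapSurjective (QuotientGroup.mk'_surjective N) with hPb
  have habQ : IsMulCommutative (Pb : Subgroup (G ⧸ N)) := by
    by_contra hS
    refine hminQ ⟨⟨Pb, hS⟩, fun x hx hd => ?_⟩
    obtain ⟨g, rfl⟩ := QuotientGroup.mk'_surjective N x
    obtain ⟨k, hk⟩ := hx
    -- replace `g` by a power that is a `p`-element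
    obtain ⟨a, b, hab, hc, ⟨i, hi⟩, hb⟩ : ∃ a b : G, a * b = g ∧ Commute a b ∧
        (∃ i : ℕ, orderOf a = p ^ i) ∧ ¬ p ∣ orderOf b :=
      Cfsg.Lib.Blocks.exists_pPart_commute g
    have hfb : f b = 1 := by
      rw [← orderOf_eq_one_iff]
      refine Nat.eq_one_of_dvd_coprimes ?_ (orderOf_map_dvd f b) (dvd_refl _) |>.trans rfl
      have h1 : orderOf (f b) ∣ p ^ (max k i) := by
        rw [orderOf_dvd_iff_pow_eq_one]
        have h2 : (f a * f b) ^ p ^ (max k i) = 1 := by
          rw [← map_mul, hab, ← orderOf_dvd_iff_pow_eq_one, hk]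
          exact pow_dvd_pow p (le_max_left k i)
        rw [(hc.map f).mul_pow] at h2
        have h3 : f a ^ p ^ (max k i) = 1 := by
          rw [← orderOf_dvd_iff_pow_eq_one]
          exact (orderOf_map_dvd f a).trans (hi ▸ pow_dvd_pow p (le_max_right k i))
        rwa [h3, one_mul] at h2
      exact (Nat.Coprime.coprime_dvd_right h1 (Nat.Coprime.pow_right _
        ((Nat.Prime.coprime_iff_not_dvd Fact.out).mpr hb).symm))
    have hga : f g = f a := by rw [← hab, map_mul, hfb, mul_one]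
    refine hcl a ⟨i, hi⟩ (hd.trans ?_)
    show (Subgroup.centralizer ({f g} : Set (G ⧸ N))).index ∣ _
    rw [hga]
    refine (Subgroup.index_dvd_of_le ?_).trans
      (Subgroup.index_map_dvd (Subgroup.centralizer ({a} : Set G)) (QuotientGroup.mk'_surjective N))
    rintro _ ⟨c, hc', rfl⟩
    rw [Subgroup.mem_centralizer_singleton_iff, ← map_mul, ← map_mul,
      Subgroup.mem_centralizer_singleton_iff.mp hc']
  -- the part of the Sylow subgroup that is central or lies in `N`
  set Z := (P : Subgroup G) ⊓ Subgroup.centralizer ((P : Subgroup G) : Set G) with hZ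
  set P1 := (P : Subgroup G) ⊓ N with hP1
  have hP1c : ∀ a ∈ P1, ∀ b ∈ P1, a * b = b * a := by
    obtain ⟨S, hS⟩ := (P.isPGroup'.comap_subtype (K := N)).exists_le_sylow
    intro a ha b hb
    haveI := habN S
    have h1 := (habN S).is_comm.comm ⟨⟨a, ha.2⟩, hS ha.1⟩ ⟨⟨b, hb.2⟩, hS hb.1⟩
    exact congrArg (fun u : (S : Subgroup N) => ((u : N) : G)) h1
  have hWc : ∀ a ∈ Z ⊔ P1, ∀ b ∈ Z ⊔ P1, a * b = b * a := by
    have h1 : Z ⊔ P1 ≤ Subgroup.centralizer ((Z ⊔ P1 : Subgroup G) : Set G) := by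
      have hZc : ∀ z ∈ Z, ∀ b ∈ (P : Subgroup G), b * z = z * b := fun z hz b hb =>
        Subgroup.mem_centralizer_iff.mp hz.2 b hb
      refine sup_le ?_ ?_ <;> rw [Subgroup.le_centralizer_iff] <;> refine sup_le ?_ ?_ <;>
        intro a ha <;> rw [Subgroup.mem_centralizer_iff] <;> intro b hb
      · exact hZc a ha b hb.1
      · exact (hZc b hb a ha.1).symm
      · exact hZc a ha b hb.1
      · exact hP1c b hb a ha
    exact fun a ha b hb => Subgroup.mem_centralizer_iff.mp (h1 hb) a ha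
  -- every element of `P` lies there
  have hall : ∀ y ∈ (P : Subgroup G), y ∈ Z ⊔ P1 := by
    intro y hy
    obtain ⟨k, hk⟩ := IsPGroup.iff_orderOf.mp P.isPGroup' ⟨y, hy⟩
    rw [Subgroup.orderOf_mk] at hk
    have hidx := hcl y ⟨k, hk⟩
    obtain ⟨Q⟩ : Nonempty (Sylow p (Subgroup.centralizer ({y} : Set G))) := inferInstance
    have hQc : Nat.card ((Q : Subgroup (Subgroup.centralizer ({y} : Set G))).map
        (Subgroup.centralizer ({y} : Set G)).subtype) = p ^ (Nat.card G).factorization p := by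
      rw [Subgroup.card_map_of_injective (Subgroup.subtype_injective _), Sylow.card_eq_multiplicity,
        ← (Subgroup.centralizer ({y} : Set G)).index_mul_card,
        Nat.factorization_mul Subgroup.index_ne_zero_of_finite Nat.card_pos.ne',
        Finsupp.add_apply, Nat.factorization_eq_zero_of_not_dvd hidx, zero_add]
    obtain ⟨g, hg⟩ := MulAction.exists_smul_eq G (Sylow.ofCard _ hQc) P
    set y' := g * y * g⁻¹ with hy'
    have hy'c : y' ∈ Subgroup.centralizer ((P : Subgroup G) : Set G) := by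
      rw [Subgroup.mem_centralizer_iff]
      intro u hu
      have hu' : u ∈ ((g • Sylow.ofCard _ hQc : Sylow p G) : Subgroup G) := hg ▸ hu
      obtain ⟨w, ⟨q, -, rfl⟩, rfl⟩ := hu'
      show g * (q : G) * g⁻¹ * y' = y' * (g * (q : G) * g⁻¹)
      have hq : (q : G) * y = y * (q : G) := Subgroup.mem_centralizer_singleton_iff.mp q.2
      rw [hy']
      calc g * (q : G) * g⁻¹ * (g * y * g⁻¹) = g * ((q : G) * y) * g⁻¹ := by group
        _ = _ := by rw [hq]; group
    have hy'P : y' ∈ (P : Subgroup G) := by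
      have hpg : IsPGroup p (Subgroup.zpowers y') := IsPGroup.of_card (n := k) (by
        rw [Nat.card_zpowers, hy', ← MulAut.conj_apply, MulEquiv.orderOf_eq, hk])
      have hle : Subgroup.zpowers y' ≤ Subgroup.normalizer ((P : Subgroup G) : Set G) :=
        Subgroup.zpowers_le.mpr ((Subgroup.centralizer_le_normalizer _) hy'c)
      exact P.is_maximal' (IsPGroup.to_sup_of_normal_right' hpg P.isPGroup' hle) le_sup_right ▸
        Subgroup.mem_sup_left (Subgroup.mem_zpowers y')
    obtain ⟨nb, hnb, hfus⟩ := Cfsg.Lib.Transfer.abelian_sylow_controls Pb habQ (f y)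
      (Subgroup.mem_map_of_mem f hy) (f y') (Subgroup.mem_map_of_mem f hy'P)
      ⟨f g, by rw [hy', map_mul, map_mul, map_inv]⟩
    obtain ⟨n0, rfl⟩ := QuotientGroup.mk'_surjective N nb
    set M := (Pb : Subgroup (G ⧸ N)).comap f with hM
    have hPM : (P : Subgroup G) ≤ M := fun u hu => Subgroup.mem_map_of_mem f hu
    have hnM : ((n0 • P : Sylow p G) : Subgroup G) ≤ M := by
      rintro _ ⟨u, hu, rfl⟩
      show f (n0 * u * n0⁻¹) ∈ (Pb : Subgroup (G ⧸ N))
      rw [map_mul, map_mul, map_inv]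
      exact (Subgroup.mem_normalizer_iff.mp hnb _).mp (Subgroup.mem_map_of_mem f hu)
    obtain ⟨m, hm⟩ := MulAction.exists_smul_eq M ((n0 • P).subtype hnM) (P.subtype hPM)
    rw [Sylow.smul_subtype hnM m] at hm
    have hm' : (m : G) • (n0 • P) = P := Sylow.subtype_injective hm
    rw [smul_smul, Sylow.smul_eq_iff_mem_normalizer] at hm'
    set h := (m : G) * n0 with hh
    have hhy : f (h * y * h⁻¹) = f y' := by
      have hPbc : f (m : G) * f y' = f y' * f (m : G) :=
        congrArg Subtype.val (habQ.is_comm.comm ⟨f (m : G), m.2⟩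
          ⟨f y', Subgroup.mem_map_of_mem f hy'P⟩)
      calc f (h * y * h⁻¹) = f (m : G) * (f n0 * f y * (f n0)⁻¹) * (f (m : G))⁻¹ := by
            rw [hh]; simp only [map_mul, map_inv]; group
        _ = f (m : G) * f y' * (f (m : G))⁻¹ := by rw [hfus]
        _ = f y' := by rw [hPbc, mul_inv_cancel_right]
    have hhP : h * y * h⁻¹ ∈ (P : Subgroup G) := (Subgroup.mem_normalizer_iff.mp hm' y).mp hy
    have hW : h * y * h⁻¹ ∈ Z ⊔ P1 := by
      have h1 : y'⁻¹ * (h * y * h⁻¹) ∈ P1 := by
        refine ⟨(P : Subgroup G).mul_mem ((P : Subgroup G).inv_mem hy'P) hhP, ?_⟩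
        show y'⁻¹ * (h * y * h⁻¹) ∈ N
        rw [← QuotientGroup.eq_one_iff, ← QuotientGroup.mk'_apply, map_mul, map_inv, hhy,
          inv_mul_cancel]
      have h2 := mul_mem (Subgroup.mem_sup_left (T := P1) (show y' ∈ Z from ⟨hy'P, hy'c⟩))
        (Subgroup.mem_sup_right (S := Z) h1)
      rwa [mul_inv_cancel_left] at h2
    have hinv : Z ⊔ P1 ≤ (Z ⊔ P1).comap (MulAut.conj h⁻¹).toMonoidHom := by
      have hn : h⁻¹ ∈ Subgroup.normalizer ((P : Subgroup G) : Set G) := inv_mem hm'
      refine sup_le ?_ ?_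
      · rintro z ⟨hzP, hzc⟩
        refine Subgroup.mem_sup_left ⟨(Subgroup.mem_normalizer_iff.mp hn z).mp hzP, ?_⟩
        show h⁻¹ * z * h⁻¹⁻¹ ∈ Subgroup.centralizer ((P : Subgroup G) : Set G)
        rw [Subgroup.mem_centralizer_iff]
        intro u hu
        have hu' := (Subgroup.mem_normalizer_iff.mp hm' u).mp hu
        have h3 := Subgroup.mem_centralizer_iff.mp hzc _ hu'
        calc u * (h⁻¹ * z * h⁻¹⁻¹) = h⁻¹ * ((h * u * h⁻¹) * z) * h := by group
          _ = h⁻¹ * (z * (h * u * h⁻¹)) * h := by rw [h3]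
          _ = _ := by group
      · rintro z ⟨hzP, hzN⟩
        exact Subgroup.mem_sup_right ⟨(Subgroup.mem_normalizer_iff.mp hn z).mp hzP,
          hN.conj_mem z hzN _⟩
    have := hinv hW
    simpa [mul_assoc] using this
  exact hP ⟨⟨fun a b => Subtype.ext (hWc _ (hall a a.2) _ (hall b b.2))⟩⟩

end Cfsg.Agent.S4354
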