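import Cfsg.Statements.S4364
import Cfsg.Agent.Lib.Kazarin.Main

set_option autoImplicit false
open Cfsg

namespace Cfsg.Agent.S4364

open Subgroup in
theorem mem_center_fitting {G : Type*} [Group G] [Finite G] {p a : ℕ} [Fact p.Prime]
    (hcore : Cfsg.pCore p G = ⊥) (x : G) (hx : (centralizer ({x} : Set G)).index = p ^ a) :
    x ∈ Cfsg.fittingSubgroup G ∧ x ∈ centralizer (Cfsg.fittingSubgroup G : Set G) := by
  have hFC : Cfsg.fittingSubgroup G ≤ centralizer ({x} : Set G) := by
    rw [Cfsg.Lib.Solv.fitting_eq_iSup_pCore]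
    refine iSup_le fun r => ?_
    haveI := Fact.mk r.2
    by_cases hrp : (r : ℕ) = p
    · rw [hrp, hcore]; exact bot_le
    · obtain ⟨R⟩ : Nonempty (Sylow r (centralizer ({x} : Set G))) := inferInstance
      have hR : IsPGroup r ((R : Subgroup (centralizer ({x} : Set G))).map
          (centralizer ({x} : Set G)).subtype) := R.isPGroup'.map _
      have hcard : Nat.card ((R : Subgroup (centralizer ({x} : Set G))).map
          (centralizer ({x} : Set G)).subtype) = (r : ℕ) ^ (Nat.card G).factorization r := by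
        rw [card_map_of_injective (subtype_injective _), Sylow.card_eq_multiplicity,
          ← (centralizer ({x} : Set G)).index_mul_card, hx,
          Nat.factorization_mul (pow_ne_zero _ (Fact.out : p.Prime).ne_zero) Nat.card_pos.ne',
          Finsupp.add_apply, Nat.factorization_eq_zero_of_not_dvd (fun h => hrp
            ((Nat.prime_dvd_prime_iff_eq r.2 Fact.out).mp (r.2.dvd_of_dvd_pow h))), zero_add]
      refine (Cfsg.Lib.Solv.pCore_le_sylow (r : ℕ) (Sylow.ofCard _ hcard)).trans ?_
      rw [Sylow.coe_ofCard]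
      exact map_subtype_le _
  have hxF : x ∈ centralizer (Cfsg.fittingSubgroup G : Set G) := by
    rw [mem_centralizer_iff]
    intro y hy
    exact mem_centralizer_singleton_iff.mp (hFC hy)
  exact ⟨Cfsg.Lib.Solv.centralizer_fitting_inf_le (normalClosure ({x} : Set G))
    (Cfsg.Lib.Kazarin.solvable_normalClosure_of_index_eq _ G rfl x a hx)
    ⟨hxF, subset_normalClosure (Set.mem_singleton x)⟩, hxF⟩

/-- Let G be a finite group, p a prime and x an element whose conjugacy class has p-power size. Then for any two conjugates y and z of x, the commutator y z y⁻¹ z⁻¹ lies in O_p(G), the largest normal p-subgroup of G. -/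
theorem result {G : Type*} [Group G] [Finite G] (p : ℕ) [Fact p.Prime]
    (x : G) (hx : ∃ a : ℕ, (Subgroup.centralizer ({x} : Set G)).index = p ^ a) (g h : G) :
    (g * x * g⁻¹) * (h * x * h⁻¹) * (g * x * g⁻¹)⁻¹ * (h * x * h⁻¹)⁻¹ ∈ Cfsg.pCore p G := by
  obtain ⟨a, ha⟩ := hx
  set f := QuotientGroup.mk' (Cfsg.pCore p G) with hf
  have hle : (Subgroup.centralizer ({x} : Set G)).map f ≤
      Subgroup.centralizer ({f x} : Set (G ⧸ Cfsg.pCore p G)) := by
    rintro _ ⟨c, hc, rfl⟩
    rw [Subgroup.mem_centralizer_singleton_iff, ← map_mul, ← map_mul,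
      Subgroup.mem_centralizer_singleton_iff.mp hc]
  obtain ⟨b, -, hb⟩ := (Nat.dvd_prime_pow (Fact.out : p.Prime)).mp
    (ha ▸ (Subgroup.index_dvd_of_le hle).trans
      (Subgroup.index_map_dvd _ (QuotientGroup.mk'_surjective _)))
  obtain ⟨h1, h2⟩ := mem_center_fitting (Cfsg.Lib.Solv.pCore_quotient_eq_bot p) (f x) hb
  have hn : (Subgroup.centralizer
      (Cfsg.fittingSubgroup (G ⧸ Cfsg.pCore p G) : Set (G ⧸ Cfsg.pCore p G))).Normal :=
    inferInstance
  have hy := (inferInstance : (Cfsg.fittingSubgroup (G ⧸ Cfsg.pCore p G)).Normal).conj_mem _ h1 (f g)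
  have hz := hn.conj_mem _ h2 (f h)
  have hc : (f g * f x * (f g)⁻¹) * (f h * f x * (f h)⁻¹) =
      (f h * f x * (f h)⁻¹) * (f g * f x * (f g)⁻¹) :=
    Subgroup.mem_centralizer_iff.mp hz _ hy
  rw [← QuotientGroup.eq_one_iff]
  show f _ = 1
  simp only [map_mul, map_inv]
  rw [hc]
  group

end Cfsg.Agent.S4364
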