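import Cfsg.Statements.S4370
import Mathlib
import Cfsg.Agent.Lib.Transfer.NilpotentHall
import Cfsg.Agent.Lib.ZStar.UniqueInvolution
import Cfsg.Agent.Lib.Solv.MinimalNonNilpotent
import Cfsg.Agent.Lib.Transfer.Action
-- import your own Cfsg.Agent.* helpers here

set_option autoImplicit false
open Cfsg

namespace Cfsg.Agent.S4370

open Subgroup

theorem mp_dir {G : Type*} [Group G] [Finite G] (hG : Group.IsNilpotent G) (hna : ∃ x y : G, x * y ≠ y * x)
    (hc : ∀ x : G, x ∉ center G → IsCyclic (centralizer ({x} : Set G))) :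
    ∃ (k m : ℕ), 1 ≤ k ∧ Odd m ∧ Nonempty (G ≃* QuaternionGroup (2 ^ k) × Multiplicative (ZMod m)) := by
  obtain ⟨x₀, y₀, hxy⟩ := hna
  obtain ⟨p, hp, u, v, ⟨i, hu⟩, ⟨j, hv⟩, huv⟩ : ∃ p : ℕ, p.Prime ∧ ∃ u v : G,
      (∃ i, orderOf u = p ^ i) ∧ (∃ j, orderOf v = p ^ j) ∧ u * v ≠ v * u := by
    by_contra hno
    push Not at hno
    refine hxy (mem_centralizer_iff.1 (Cfsg.Lib.Transfer.mem_centralizer_of_prime_parts (V := zpowers y₀) (g := x₀)
      fun r hr u hu hu' => ?_) y₀ (mem_zpowers y₀)).symm
    rw [mem_centralizer_iff]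
    rintro _ ⟨l, rfl⟩
    refine (Commute.zpow_left (show Commute y₀ u from ?_) l).eq
    refine (mem_centralizer_iff.1 (Cfsg.Lib.Transfer.mem_centralizer_of_prime_parts (V := zpowers u) (g := y₀)
      fun s hs v hv hv' => ?_) u (mem_zpowers u)).symm
    rw [mem_centralizer_iff]
    rintro _ ⟨l', rfl⟩
    refine (Commute.zpow_left (show Commute u v from ?_) l').eq
    obtain ⟨i, hi⟩ := hu'
    obtain ⟨j, hj⟩ := hv'
    rcases eq_or_ne r s with rfl | hne
    · exact hno r hr u v ⟨i, hi⟩ ⟨j, hj⟩
    · exact Cfsg.Lib.Solv.commute_of_nilpotent hr hs hne hi hj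
  haveI := Fact.mk hp
  obtain ⟨P, Q, hsup, hcard, hP, hQ, hcomm⟩ := Cfsg.Lib.Transfer.exists_nilpotent_split (p := p) (⊤ : Subgroup G)
    (Group.nilpotent_of_mulEquiv topEquiv.symm)
  rw [card_top] at hcard
  let f : P × Q →* G := MonoidHom.noncommCoprod P.subtype Q.subtype (fun a b => mem_centralizer_iff.1 (hcomm b.2) a a.2)
  have hinf : P ⊓ Q = ⊥ := inf_eq_bot_of_coprime (by
    obtain ⟨n, hn⟩ := IsPGroup.iff_card.1 hP; rw [hn]; exact (hQ.symm).pow_left n)
  have hinj : Function.Injective f := by
    intro ⟨a, b⟩ ⟨a', b'⟩ h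
    have h' : (a : G) * b = a' * b' := h
    have e : (a' : G)⁻¹ * a = b' * (b : G)⁻¹ := by
      calc (a' : G)⁻¹ * a = (a' : G)⁻¹ * ((a : G) * b) * (b : G)⁻¹ := by group
        _ = _ := by rw [h']; group
    have hm : (a' : G)⁻¹ * a ∈ P ⊓ Q := ⟨P.mul_mem (P.inv_mem a'.2) a.2, e ▸ Q.mul_mem b'.2 (Q.inv_mem b.2)⟩
    rw [hinf, mem_bot, inv_mul_eq_one] at hm
    have ha : a' = a := Subtype.ext hm
    subst ha
    exact Prod.ext rfl (Subtype.ext (mul_left_cancel h'))
  have hbij : Function.Bijective f := (Nat.bijective_iff_injective_and_card _).2 ⟨hinj, by rw [Nat.card_prod, hcard]⟩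
  have hmemP : ∀ w : G, (∃ i, orderOf w = p ^ i) → w ∈ P := by
    rintro w ⟨i, hi⟩
    obtain ⟨⟨a, b⟩, rfl⟩ := hbij.2 w
    have h1 : orderOf ((⟨a, b⟩ : P × Q)) = p ^ i := by rw [← hi, orderOf_injective f hinj]
    rw [Prod.orderOf] at h1
    have hb : orderOf b = 1 := Nat.eq_one_of_dvd_coprimes (hQ.pow_right i) (orderOf_dvd_natCard b) (h1 ▸ Nat.dvd_lcm_right _ _)
    rw [orderOf_eq_one_iff] at hb
    show (a : G) * (b : G) ∈ P
    rw [hb, OneMemClass.coe_one, mul_one]
    exact a.2
  have huP := hmemP u ⟨i, hu⟩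
  have hvP := hmemP v ⟨j, hv⟩
  haveI hQc : IsCyclic Q := by
    haveI := hc u (fun h => huv (mem_center_iff.1 h v).symm)
    have hle : Q ≤ centralizer ({u} : Set G) := fun q hq =>
      mem_centralizer_singleton_iff.2 (mem_centralizer_iff.1 (hcomm hq) u huP).symm
    exact isCyclic_of_injective (Subgroup.inclusion hle) (Subgroup.inclusion_injective hle)
  have hcP : ∀ w : P, w ∉ center P → IsCyclic (centralizer ({w} : Set P)) := by
    intro w hw
    haveI := hc (w : G) (fun h => hw (mem_center_iff.2 fun z => Subtype.ext (mem_center_iff.1 h z)))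
    let g : centralizer ({w} : Set P) →* centralizer ({(w : G)} : Set G) :=
      (P.subtype.comp (centralizer ({w} : Set P)).subtype).codRestrict _ fun z =>
        mem_centralizer_singleton_iff.2 (congrArg Subtype.val (mem_centralizer_singleton_iff.1 z.2))
    refine isCyclic_of_injective g fun a b h => Subtype.ext (Subtype.ext ?_)
    exact congrArg (fun z : centralizer ({(w : G)} : Set G) => (z : G)) h
  have hPnc : ¬ IsCyclic P := fun h => huv (congrArg Subtype.val (IsCyclic.commutative.is_comm.comm (⟨u, huP⟩ : P) ⟨v, hvP⟩))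
  have hcyc : ∀ C : Subgroup P, IsCyclic C → ∀ a ∈ C, ∀ b ∈ C, orderOf a = p → orderOf b = p → b ∈ zpowers a := by
    intro C hC a ha b hb hao hbo
    have hk : zpowers (⟨b, hb⟩ : C) = zpowers (⟨a, ha⟩ : C) := by
      classical
      haveI := Fintype.ofFinite C
      have key : ∀ e : C, orderOf e = p →
          ((zpowers e : Subgroup C) : Set C).toFinset = (Finset.univ.filter fun z : C => z ^ p = 1) := by
        intro e he
        refine Finset.eq_of_subset_of_card_le ?_ ?_
        · intro z hz
          rw [Set.mem_toFinset] at hz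
          simp only [Finset.mem_filter, Finset.mem_univ, true_and]
          exact orderOf_dvd_iff_pow_eq_one.1 (he ▸ orderOf_dvd_of_mem_zpowers hz)
        · refine (IsCyclic.card_pow_eq_one_le hp.pos).trans ?_
          rw [Set.toFinset_card, ← Nat.card_eq_fintype_card]
          exact (he ▸ (Nat.card_zpowers e)).ge
      refine SetLike.coe_injective (Set.toFinset_inj.1 ?_)
      rw [key _ (by rw [Subgroup.orderOf_mk, hbo]), key _ (by rw [Subgroup.orderOf_mk, hao])]
    obtain ⟨t, ht⟩ : (⟨b, hb⟩ : C) ∈ zpowers (⟨a, ha⟩ : C) := hk ▸ mem_zpowers _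
    exact ⟨t, congrArg Subtype.val ht⟩
  haveI : Nontrivial P := ⟨⟨⟨u, huP⟩, ⟨v, hvP⟩, fun e => huv (by have e' : u = v := congrArg Subtype.val e; rw [e'])⟩⟩
  have hw : (⟨u, huP⟩ : P) ∉ center P := fun h => huv (congrArg Subtype.val (mem_center_iff.1 h ⟨v, hvP⟩)).symm
  have hZle : ∀ w : P, center P ≤ centralizer ({w} : Set P) := fun w z hz =>
    mem_centralizer_singleton_iff.2 (mem_center_iff.1 hz w).symm
  have hcen : ∀ z : P, orderOf z = p → z ∈ center P := by
    intro z hz
    by_contra hzc
    haveI := hP.center_nontrivial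
    obtain ⟨n, hn0, hn⟩ := (hP.to_subgroup (center P)).nontrivial_iff_card.1 inferInstance
    obtain ⟨c, hco⟩ := exists_prime_orderOf_dvd_card' p (hn ▸ dvd_pow_self p hn0.ne' : p ∣ Nat.card (center P))
    have := hcyc _ (hcP z hzc) c (hZle z c.2) z (mem_centralizer_singleton_iff.2 rfl)
      (by rw [Subgroup.orderOf_coe]; exact hco) hz
    exact hzc ((zpowers_le.2 c.2) this)
  have huniq : ∀ a b : P, orderOf a = p → orderOf b = p → b ∈ zpowers a := fun a b ha hb =>
    hcyc _ (hcP _ hw) a (hZle _ (hcen a ha)) b (hZle _ (hcen b hb)) ha hb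
  rcases Cfsg.Lib.ZStar.isCyclic_or_inverted hP huniq with h | ⟨rfl, a, g, ha4, hidx, hg, hga, hg2⟩
  · exact absurd h hPnc
  obtain ⟨l, hl⟩ := IsPGroup.iff_orderOf.1 hP a
  have hl2 : 2 ≤ l := by
    by_contra h
    rw [hl] at ha4
    have := Nat.pow_le_pow_right (show 1 ≤ 2 by norm_num) (show l ≤ 1 by omega)
    omega
  have hln : orderOf a = 2 * 2 ^ (l - 1) := by rw [hl, ← pow_succ']; congr 1; omega
  obtain ⟨e1⟩ := Cfsg.Lib.ZStar.nonempty_quaternion_of_inverted (n := 2 ^ (l - 1)) (by positivity) hln hidx hg hga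
    (by rw [hg2, hln, Nat.mul_div_cancel_left _ two_pos])
  refine ⟨l - 1, Nat.card Q, by omega, Nat.not_even_iff_odd.1 fun he => ?_, ⟨(MulEquiv.ofBijective f hbij).symm.trans (MulEquiv.prodCongr e1 (mulEquivOfCyclicCardEq ?_))⟩⟩
  · exact absurd (Nat.eq_one_of_dvd_coprimes hQ (even_iff_two_dvd.1 he) dvd_rfl) (by norm_num)
  · rw [Nat.card_congr Multiplicative.toAdd, Nat.card_zmod]

theorem quat_centralizer (n : ℕ) [NeZero n] (q : QuaternionGroup n) (hq : q ∉ center (QuaternionGroup n)) :
    IsCyclic (centralizer ({q} : Set (QuaternionGroup n))) := by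
  have htwo : ∀ d : ZMod (2 * n), d + d = 0 → d = 0 ∨ d = (n : ZMod (2 * n)) := by
    intro d hd
    rw [← ZMod.natCast_zmod_val d, ← Nat.cast_add, ZMod.natCast_eq_zero_iff] at hd
    obtain ⟨c, hc⟩ := hd
    have hlt := ZMod.val_lt d
    have hc2 : c < 2 := by
      by_contra hc2
      have : 2 * n * 2 ≤ 2 * n * c := Nat.mul_le_mul_left _ (by omega)
      omega
    rw [← ZMod.natCast_zmod_val d]
    interval_cases c
    · exact Or.inl (by rw [show d.val = 0 by omega, Nat.cast_zero])
    · exact Or.inr (by rw [show d.val = n by omega])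
  rcases q with i | i
  · have hle : centralizer ({QuaternionGroup.a i} : Set (QuaternionGroup n)) ≤ zpowers (QuaternionGroup.a 1) := by
      intro z hz
      rw [mem_centralizer_singleton_iff] at hz
      rcases z with j | j
      · refine ⟨(j.val : ℤ), ?_⟩
        show QuaternionGroup.a 1 ^ (j.val : ℤ) = _
        rw [zpow_natCast, QuaternionGroup.a_one_pow, ZMod.natCast_zmod_val]
      · exfalso
        rw [QuaternionGroup.xa_mul_a, QuaternionGroup.a_mul_xa, QuaternionGroup.xa.injEq] at hz
        have hii : i + i = 0 := by linear_combination hz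
        refine hq (mem_center_iff.2 fun w => ?_)
        rcases w with w | w
        · rw [QuaternionGroup.a_mul_a, QuaternionGroup.a_mul_a, add_comm]
        · rw [QuaternionGroup.xa_mul_a, QuaternionGroup.a_mul_xa, QuaternionGroup.xa.injEq]
          linear_combination hii
    exact isCyclic_of_injective (Subgroup.inclusion hle) (Subgroup.inclusion_injective hle)
  · have hle : centralizer ({QuaternionGroup.xa i} : Set (QuaternionGroup n)) ≤ zpowers (QuaternionGroup.xa i) := by
      intro z hz
      rw [mem_centralizer_singleton_iff] at hz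
      have hsq : (QuaternionGroup.xa i) ^ 2 = QuaternionGroup.a (n : ZMod (2 * n)) := QuaternionGroup.xa_sq i
      rcases z with j | j
      · rw [QuaternionGroup.a_mul_xa, QuaternionGroup.xa_mul_a, QuaternionGroup.xa.injEq] at hz
        rcases htwo j (by linear_combination -hz) with rfl | rfl
        · rw [← QuaternionGroup.one_def]; exact one_mem _
        · rw [← hsq]; exact pow_mem (mem_zpowers _) 2
      · rw [QuaternionGroup.xa_mul_xa, QuaternionGroup.xa_mul_xa, QuaternionGroup.a.injEq] at hz
        rcases htwo (i - j) (by linear_combination hz) with h | h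
        · rw [sub_eq_zero] at h; rw [h]; exact mem_zpowers _
        · have : QuaternionGroup.xa j = (QuaternionGroup.xa i) ^ 3 := by
            rw [pow_succ, hsq, QuaternionGroup.a_mul_xa, ← h, sub_sub_cancel]
          rw [this]; exact pow_mem (mem_zpowers _) 3
    exact isCyclic_of_injective (Subgroup.inclusion hle) (Subgroup.inclusion_injective hle)

/-- Let G be a finite non-abelian nilpotent group. Then the centralizer of every non-central element of G is cyclic if and only if G is isomorphic to the direct product of a generalized quaternion group and a cyclic group of odd order. -/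
theorem result {G : Type*} [Group G] [Finite G] (hG : Group.IsNilpotent G)
    (hna : ¬ IsMulCommutative G) :
    (∀ x : G, x ∉ Subgroup.center G → IsCyclic (Subgroup.centralizer ({x} : Set G))) ↔
      ∃ (k m : ℕ), 1 ≤ k ∧ Odd m ∧ Nonempty (G ≃* QuaternionGroup (2 ^ k) × Multiplicative (ZMod m)) := by
  constructor
  · intro hc
    refine mp_dir hG ?_ hc
    by_contra h
    push Not at h
    exact hna ⟨⟨h⟩⟩
  · rintro ⟨k, m, hk, hm, ⟨e⟩⟩ x hx
    haveI : NeZero m := ⟨by rintro rfl; exact absurd hm (by decide)⟩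
    haveI : NeZero (2 ^ k) := ⟨by positivity⟩
    have hq : (e x).1 ∉ Subgroup.center (QuaternionGroup (2 ^ k)) := fun h => hx (Subgroup.mem_center_iff.2 fun y =>
      e.injective (by
        rw [map_mul, map_mul]
        exact Prod.ext (Subgroup.mem_center_iff.1 h (e y).1) (mul_comm _ _)))
    haveI := quat_centralizer (2 ^ k) (e x).1 hq
    have hcop : (Nat.card (Subgroup.centralizer ({(e x).1} : Set (QuaternionGroup (2 ^ k))))).Coprime (Nat.card (Multiplicative (ZMod m))) := by
      refine Nat.Coprime.coprime_dvd_left (Subgroup.card_subgroup_dvd_card _) ?_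
      rw [Nat.card_eq_fintype_card, QuaternionGroup.card, Nat.card_congr Multiplicative.toAdd, Nat.card_zmod,
        show 4 * 2 ^ k = 2 ^ (k + 2) by ring]
      exact Nat.Coprime.pow_left _ (Nat.prime_two.coprime_iff_not_dvd.2 fun h => (Nat.not_even_iff_odd.2 hm) (even_iff_two_dvd.2 h))
    haveI : IsCyclic (Subgroup.centralizer ({(e x).1} : Set (QuaternionGroup (2 ^ k))) × Multiplicative (ZMod m)) :=
      Group.isCyclic_prod_iff.2 ⟨inferInstance, inferInstance, hcop⟩
    let g : Subgroup.centralizer ({x} : Set G) →* Subgroup.centralizer ({(e x).1} : Set (QuaternionGroup (2 ^ k))) × Multiplicative (ZMod m) :=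
      MonoidHom.prod
        (((MonoidHom.fst _ _).comp (e.toMonoidHom.comp (Subgroup.centralizer ({x} : Set G)).subtype)).codRestrict _ fun z =>
          Subgroup.mem_centralizer_singleton_iff.2 (by
            have h := congrArg (fun w => (e w).1) (Subgroup.mem_centralizer_singleton_iff.1 z.2)
            simpa using h))
        ((MonoidHom.snd _ _).comp (e.toMonoidHom.comp (Subgroup.centralizer ({x} : Set G)).subtype))
    refine isCyclic_of_injective g fun a b h => Subtype.ext (e.injective (Prod.ext ?_ ?_))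
    · exact congrArg (fun w : Subgroup.centralizer ({(e x).1} : Set (QuaternionGroup (2 ^ k))) × Multiplicative (ZMod m) => (w.1 : QuaternionGroup (2 ^ k))) h
    · exact congrArg (fun w : Subgroup.centralizer ({(e x).1} : Set (QuaternionGroup (2 ^ k))) × Multiplicative (ZMod m) => w.2) h

end Cfsg.Agent.S4370
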