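import Cfsg.Statements.S4376
import Mathlib

set_option autoImplicit false
open Cfsg
open scoped BigOperators commutatorElement

namespace Cfsg.Agent.S4376

/-! Affine groups `R ⋊ ZMod k` and their numbers of solutions of `x ^ n = 1`. -/

/-- a finite ring block with a distinguished unit of exponent dividing `k` -/
structure Blk (k : ℕ) where
  R : Type
  [cr : CommRing R]
  [fin : Finite R]
  size : ℕ
  hsize : Nat.card R = size
  w : R
  hw : w ^ k = 1
  ann : ℕ → ℕ → ℕ
  hann : ∀ i n, k ∣ i * n → Nat.card {v : R // (∑ j ∈ Finset.range n, (w ^ i) ^ j) * v = 0} = ann i n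

attribute [instance] Blk.cr Blk.fin

def geomMod (m x : ℕ) : ℕ → ℕ
  | 0 => 0
  | n + 1 => (x * geomMod m x n + 1) % m

theorem cast_geomMod (m : ℕ) [NeZero m] (x n : ℕ) :
    (geomMod m x n : ZMod m) = ∑ j ∈ Finset.range n, (x : ZMod m) ^ j := by
  induction n with
  | zero => simp [geomMod]
  | succ n ih => rw [geomMod, ZMod.natCast_mod, geom_sum_succ, ← ih]; push_cast; ring

theorem card_ann_zmod (m : ℕ) [NeZero m] (s : ℕ) :
    Nat.card {v : ZMod m // (s : ZMod m) * v = 0} = Nat.gcd s m := by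
  have h := IsCyclic.card_powMonoidHom_ker (G := Multiplicative (ZMod m)) s
  rw [Nat.card_congr (Multiplicative.toAdd (α := ZMod m)), Nat.card_zmod, Nat.gcd_comm] at h
  rw [← h]
  refine Nat.card_congr (Equiv.subtypeEquiv Multiplicative.ofAdd fun v => ?_)
  simp [MonoidHom.mem_ker, ← ofAdd_nsmul, nsmul_eq_mul]

noncomputable def zBlk (k m r : ℕ) [NeZero m] (h : r ^ k % m = 1 % m) : Blk k where
  R := ZMod m
  size := m
  hsize := Nat.card_zmod m
  w := r
  hw := by
    rw [← Nat.cast_pow, ← Nat.cast_one, ZMod.natCast_eq_natCast_iff']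
    exact h
  ann i n := Nat.gcd (geomMod m (r ^ i % m) n) m
  hann i n _ := by
    rw [← card_ann_zmod, cast_geomMod, ZMod.natCast_mod, Nat.cast_pow]

noncomputable def fBlk (k p a o : ℕ) (hp : p.Prime) (ha : a ≠ 0) (ho : o ∣ p ^ a - 1) (hk : o ∣ k) : Blk k :=
  haveI := Fact.mk hp
  haveI : NeZero a := ⟨ha⟩
  have hcard : Nat.card (GaloisField p a) = p ^ a := GaloisField.card p a ha
  have hex : ∃ w : GaloisField p a, orderOf w = o := by
    haveI := Fintype.ofFinite (GaloisField p a)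
    obtain ⟨g, hg⟩ := IsCyclic.exists_ofOrder_eq_natCard (α := (GaloisField p a)ˣ)
    rw [Nat.card_units, hcard] at hg
    obtain ⟨c, hc⟩ := ho
    have hpos : p ^ a - 1 ≠ 0 := by
      have := Nat.one_lt_pow ha hp.one_lt
      omega
    refine ⟨((g ^ c : (GaloisField p a)ˣ) : GaloisField p a), ?_⟩
    rw [orderOf_units, orderOf_pow_of_dvd (fun e => hpos (by rw [hc, e, mul_zero])) (hg ▸ hc ▸ dvd_mul_left c o), hg, hc,
      Nat.mul_div_cancel _ (Nat.pos_of_ne_zero fun e => hpos (by rw [hc, e, mul_zero]))]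
  { R := GaloisField p a
    size := p ^ a
    hsize := hcard
    w := hex.choose
    hw := by
      obtain ⟨c, rfl⟩ := hk
      have h1 : hex.choose ^ o = 1 := orderOf_dvd_iff_pow_eq_one.1 (dvd_of_eq hex.choose_spec)
      rw [pow_mul, h1, one_pow]
    ann := fun i n => if ¬ o ∣ i ∨ p ∣ n then p ^ a else 1
    hann := fun i n hin => by
      set w := hex.choose with hwdef
      have hwo : orderOf w = o := hex.choose_spec
      by_cases hd : o ∣ i
      · have h1 : w ^ i = 1 := orderOf_dvd_iff_pow_eq_one.1 (hwo ▸ hd)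
        simp only [h1, one_pow, Finset.sum_const, Finset.card_range, nsmul_eq_mul, mul_one]
        by_cases hpn : p ∣ n
        · rw [if_pos (Or.inr hpn), ← hcard]
          have h0 : (n : GaloisField p a) = 0 := (CharP.cast_eq_zero_iff _ p n).2 hpn
          exact Nat.card_congr (Equiv.subtypeUnivEquiv fun v => by rw [h0, zero_mul])
        · rw [if_neg (by tauto)]
          have h0 : (n : GaloisField p a) ≠ 0 := fun e => hpn ((CharP.cast_eq_zero_iff _ p n).1 e)
          rw [Nat.card_eq_one_iff_unique]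
          exact ⟨⟨fun u v => Subtype.ext (((mul_eq_zero.1 u.2).resolve_left h0).trans ((mul_eq_zero.1 v.2).resolve_left h0).symm)⟩,
            ⟨⟨0, mul_zero _⟩⟩⟩
      · rw [if_pos (Or.inl hd), ← hcard]
        have h1 : w ^ i ≠ 1 := fun e => hd (hwo ▸ orderOf_dvd_of_pow_eq_one e)
        have h0 : (∑ j ∈ Finset.range n, (w ^ i) ^ j) = 0 := by
          have h2 : (w ^ i) ^ n = 1 := by
            rw [← pow_mul]
            exact orderOf_dvd_iff_pow_eq_one.1 (hwo ▸ hk.trans hin)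
          have h3 := geom_sum_mul (w ^ i) n
          rw [h2, sub_self] at h3
          exact (mul_eq_zero.1 h3).resolve_right (sub_ne_zero.2 h1)
        exact Nat.card_congr (Equiv.subtypeUnivEquiv fun v => by rw [h0, zero_mul]) }

/-- a list of blocks -/
structure Fac where
  k : ℕ
  bs : List (Blk k)

structure Item where
  fac : Fac
  mul : ℕ

/-- `R ⋊ ZMod k` -/
@[ext] structure Aff {R : Type} [CommRing R] (k : ℕ) (u : Rˣ) (hu : u ^ k = 1) where
  v : R
  t : ZMod k

section Aff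

variable {R : Type} [CommRing R] {k : ℕ} [NeZero k] {u : Rˣ} {hu : u ^ k = 1}

theorem pow_val_add (hu : u ^ k = 1) (s t : ZMod k) : u ^ (s + t).val = u ^ s.val * u ^ t.val := by
  rw [ZMod.val_add, ← pow_eq_pow_mod _ hu, pow_add]

instance : Mul (Aff k u hu) := ⟨fun a b => ⟨a.v + (u ^ a.t.val : Rˣ) * b.v, a.t + b.t⟩⟩
instance : One (Aff k u hu) := ⟨⟨0, 0⟩⟩
instance : Inv (Aff k u hu) := ⟨fun a => ⟨-((u ^ (-a.t).val : Rˣ) * a.v), -a.t⟩⟩

@[simp] theorem mul_v (a b : Aff k u hu) : (a * b).v = a.v + (u ^ a.t.val : Rˣ) * b.v := rfl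
@[simp] theorem mul_t (a b : Aff k u hu) : (a * b).t = a.t + b.t := rfl
@[simp] theorem one_v : (1 : Aff k u hu).v = 0 := rfl
@[simp] theorem one_t : (1 : Aff k u hu).t = 0 := rfl
@[simp] theorem inv_v (a : Aff k u hu) : a⁻¹.v = -((u ^ (-a.t).val : Rˣ) * a.v) := rfl
@[simp] theorem inv_t (a : Aff k u hu) : a⁻¹.t = -a.t := rfl

instance : Group (Aff k u hu) :=
  Group.ofLeftAxioms
    (fun a b c => by
      refine Aff.ext ?_ (add_assoc _ _ _)
      simp only [mul_v, mul_t, pow_val_add hu, Units.val_mul]; ring)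
    (fun a => by refine Aff.ext ?_ (zero_add _); simp)
    (fun a => by refine Aff.ext ?_ (neg_add_cancel _); simp)

instance [Finite R] : Finite (Aff k u hu) :=
  Finite.of_injective (fun a : Aff k u hu => (a.v, a.t)) fun a b h => Aff.ext (congrArg Prod.fst h) (congrArg Prod.snd h)

instance solvable : Group.IsSolvable (Aff k u hu) := by
  let f : Aff k u hu →* Multiplicative (ZMod k) := MonoidHom.mk' (fun a => Multiplicative.ofAdd a.t) (fun a b => rfl)
  let g : Multiplicative R →* Aff k u hu := MonoidHom.mk' (fun v => ⟨v.toAdd, 0⟩) fun a b => by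
    refine Aff.ext ?_ (add_zero 0).symm
    simp
  exact Group.isSolvable_of_ker_le_range g f fun a ha => ⟨Multiplicative.ofAdd a.v, Aff.ext rfl (by
    exact (congrArg Multiplicative.toAdd ha).symm)⟩

theorem pow_formula (a : Aff k u hu) (n : ℕ) :
    (a ^ n).v = (∑ j ∈ Finset.range n, ((u : R) ^ a.t.val) ^ j) * a.v ∧ (a ^ n).t = n * a.t := by
  induction n with
  | zero => simp
  | succ n ih =>
    rw [pow_succ', mul_v, mul_t, ih.1, ih.2, geom_sum_succ, Units.val_pow_eq_pow_val]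
    exact ⟨by ring, by push_cast; ring⟩

theorem card_pow_eq_one [Finite R] (n : ℕ) :
    Nat.card {a : Aff k u hu // a ^ n = 1} = ∑ i ∈ Finset.range k, if k ∣ i * n then
      Nat.card {v : R // (∑ j ∈ Finset.range n, ((u : R) ^ i) ^ j) * v = 0} else 0 := by
  haveI := Fintype.ofFinite R
  classical
  let e : {a : Aff k u hu // a ^ n = 1} ≃
      Σ t : ZMod k, {v : R // k ∣ t.val * n ∧ (∑ j ∈ Finset.range n, ((u : R) ^ t.val) ^ j) * v = 0} :=
    { toFun := fun a => ⟨a.1.t, a.1.v, by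
          have h := congrArg Aff.t a.2
          rw [(pow_formula _ n).2, one_t] at h
          rw [← ZMod.natCast_eq_zero_iff, Nat.cast_mul, ZMod.natCast_zmod_val, mul_comm]
          exact h, by
          have h := congrArg Aff.v a.2
          rwa [(pow_formula _ n).1, one_v] at h⟩
      invFun := fun s => ⟨⟨s.2.1, s.1⟩, Aff.ext (by rw [(pow_formula _ n).1, one_v]; exact s.2.2.2) (by
          rw [(pow_formula _ n).2, one_t]
          have h := s.2.2.1
          rw [← ZMod.natCast_eq_zero_iff, Nat.cast_mul, ZMod.natCast_zmod_val] at h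
          rw [mul_comm]; exact h)⟩
      left_inv := fun a => rfl
      right_inv := fun s => rfl }
  rw [Nat.card_congr e, Nat.card_sigma]
  have key : ∀ i : ℕ, Nat.card {v : R // k ∣ i * n ∧ (∑ j ∈ Finset.range n, ((u : R) ^ i) ^ j) * v = 0} =
      if k ∣ i * n then Nat.card {v : R // (∑ j ∈ Finset.range n, ((u : R) ^ i) ^ j) * v = 0} else 0 := by
    intro i
    by_cases h : k ∣ i * n
    · rw [if_pos h]; exact Nat.card_congr (Equiv.subtypeEquivRight fun v => and_iff_right h)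
    · rw [if_neg h]
      haveI : IsEmpty {v : R // k ∣ i * n ∧ (∑ j ∈ Finset.range n, ((u : R) ^ i) ^ j) * v = 0} := ⟨fun v => h v.2.1⟩
      exact Nat.card_of_isEmpty
  simp only [key]
  refine Finset.sum_bij' (fun t _ => t.val) (fun i _ => (i : ZMod k)) (fun t _ => Finset.mem_range.2 t.val_lt)
    (fun i _ => Finset.mem_univ _) (fun t _ => ZMod.natCast_zmod_val t) (fun i hi => ZMod.val_cast_of_lt (Finset.mem_range.1 hi))
    fun t _ => rfl

end Aff


/-! Factors. -/

abbrev Fac.R (F : Fac) : Type := ∀ j : Fin F.bs.length, (F.bs.get j).R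

theorem Fac.hu (F : Fac) (j : Fin F.bs.length) : (F.bs.get j).w ^ F.k = 1 := (F.bs.get j).hw

/-- the unit of a factor -/
noncomputable def Fac.u (F : Fac) [NeZero F.k] : F.Rˣ :=
  Units.ofPowEqOne (fun j => (F.bs.get j).w) F.k (funext fun j => F.hu j) (NeZero.ne F.k)

theorem Fac.u_pow (F : Fac) [NeZero F.k] : F.u ^ F.k = 1 := Units.ext (funext fun j => F.hu j)

instance (F : Fac) : NeZero (F.k + 1) := ⟨F.k.succ_ne_zero⟩

abbrev Fac.G (F : Fac) [NeZero F.k] : Type := Aff F.k F.u F.u_pow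

def Fac.f (F : Fac) (n : ℕ) : ℕ :=
  ∑ i ∈ Finset.range F.k, if F.k ∣ i * n then (F.bs.map fun b => b.ann i n).prod else 0

def Fac.size (F : Fac) : ℕ := F.k * (F.bs.map fun b => b.size).prod

theorem prod_map_eq {α : Type*} (l : List α) (g : α → ℕ) : (∏ j : Fin l.length, g (l.get j)) = (l.map g).prod := by
  rw [← List.prod_ofFn]
  congr 1
  exact (List.ofFn_getElem_eq_map l g)

theorem Fac.card_pow (F : Fac) [NeZero F.k] (n : ℕ) : Nat.card {a : F.G // a ^ n = 1} = F.f n := by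
  rw [card_pow_eq_one]
  refine Finset.sum_congr rfl fun i _ => ?_
  by_cases h : F.k ∣ i * n
  · rw [if_pos h, if_pos h, ← prod_map_eq]
    have e : {v : F.R // (∑ j ∈ Finset.range n, ((F.u : F.R) ^ i) ^ j) * v = 0} ≃
        ∀ j : Fin F.bs.length, {v : (F.bs.get j).R // (∑ l ∈ Finset.range n, ((F.bs.get j).w ^ i) ^ l) * v = 0} :=
      { toFun := fun v j => ⟨v.1 j, by
          have := congrFun v.2 j
          simpa [Fac.u, Finset.sum_apply, Pi.mul_apply, Pi.pow_apply] using this⟩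
        invFun := fun v => ⟨fun j => (v j).1, funext fun j => by
          simpa [Fac.u, Finset.sum_apply, Pi.mul_apply, Pi.pow_apply] using (v j).2⟩
        left_inv := fun v => rfl
        right_inv := fun v => rfl }
    rw [Nat.card_congr e, Nat.card_pi]
    exact Finset.prod_congr rfl fun j _ => (F.bs.get j).hann i n h
  · rw [if_neg h, if_neg h]

theorem Fac.card_G (F : Fac) [NeZero F.k] : Nat.card F.G = F.size := by
  let e : F.G ≃ F.R × ZMod F.k := ⟨fun a => (a.v, a.t), fun x => ⟨x.1, x.2⟩, fun a => rfl, fun x => rfl⟩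
  rw [Nat.card_congr e, Nat.card_prod, Nat.card_zmod, Nat.card_pi, Fac.size, ← prod_map_eq, mul_comm]
  exact congrArg _ (Finset.prod_congr rfl fun j _ => (F.bs.get j).hsize)

/-- a factor of an item list is shifted so that its top is nonzero -/
def Good (l : List Item) : Prop := ∀ j : Fin l.length, NeZero (l.get j).fac.k

abbrev Side (l : List Item) [hl : Fact (Good l)] : Type :=
  ∀ s : (Σ j : Fin l.length, Fin (l.get j).mul), haveI := hl.out s.1; (l.get s.1).fac.G

noncomputable instance sideGroup (l : List Item) [hl : Fact (Good l)] : Group (Side l) :=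
  @Pi.group _ _ fun s => by haveI := hl.out s.1; infer_instance

instance sideFinite (l : List Item) [hl : Fact (Good l)] : Finite (Side l) := by
  haveI : ∀ s : (Σ j : Fin l.length, Fin (l.get j).mul), Finite (haveI := hl.out s.1; (l.get s.1).fac.G) := fun s => by
    haveI := hl.out s.1; infer_instance
  exact Pi.finite

theorem card_pi_pow {ι : Type*} [Fintype ι] (K : ι → Type*) [∀ i, Group (K i)] (n : ℕ) :
    Nat.card {g : ∀ i, K i // g ^ n = 1} = ∏ i, Nat.card {g : K i // g ^ n = 1} := by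
  rw [← Nat.card_pi]
  exact Nat.card_congr
    { toFun := fun g i => ⟨g.1 i, congrFun g.2 i⟩
      invFun := fun g => ⟨fun i => (g i).1, funext fun i => (g i).2⟩
      left_inv := fun g => rfl
      right_inv := fun g => rfl }

def fSide (l : List Item) (n : ℕ) : ℕ := (l.map fun x => x.fac.f n ^ x.mul).prod

theorem Side.card_pow (l : List Item) [hl : Fact (Good l)] (n : ℕ) :
    Nat.card {g : Side l // g ^ n = 1} = fSide l n := by
  haveI : ∀ j, NeZero (l.get j).fac.k := hl.out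
  rw [card_pi_pow (fun s : (Σ j : Fin l.length, Fin (l.get j).mul) => (l.get s.1).fac.G) n, Fintype.prod_sigma,
    fSide, ← prod_map_eq]
  refine Finset.prod_congr rfl fun j _ => ?_
  simp only [Fac.card_pow, Finset.prod_const, Finset.card_univ, Fintype.card_fin]

theorem Side.pow_eighty_four (l : List Item) [hl : Fact (Good l)]
    (h : ∀ x ∈ l, x.fac.f 84 = x.fac.size) (g : Side l) : g ^ 84 = 1 := by
  haveI : ∀ j, NeZero (l.get j).fac.k := hl.out
  funext s
  have h1 : Nat.card {a : (l.get s.1).fac.G // a ^ 84 = 1} = Nat.card (l.get s.1).fac.G := by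
    rw [Fac.card_pow, Fac.card_G]; exact h _ (List.get_mem l s.1)
  have h2 : Function.Bijective (Subtype.val : {a : (l.get s.1).fac.G // a ^ 84 = 1} → _) :=
    (Nat.bijective_iff_injective_and_card _).2 ⟨Subtype.val_injective, h1⟩
  obtain ⟨a, ha⟩ := h2.2 (g s)
  show g s ^ 84 = 1
  rw [← ha]; exact a.2

theorem isSolvable_pi {ι : Type*} [Finite ι] (K : ι → Type*) [∀ i, Group (K i)] [∀ i, Group.IsSolvable (K i)] :
    Group.IsSolvable (∀ i, K i) := by
  haveI := Fintype.ofFinite ι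
  choose n hn using fun i => (Group.isSolvable_def (K i)).1 inferInstance
  refine (Group.isSolvable_def _).2 ⟨Finset.univ.sup n, eq_bot_iff.2 fun g hg => Subgroup.mem_bot.2 (funext fun i => ?_)⟩
  have h1 := map_derivedSeries_le_derivedSeries (Pi.evalMonoidHom K i) (Finset.univ.sup n) (Subgroup.mem_map_of_mem _ hg)
  have h2 := derivedSeries_antitone (G := K i) (Finset.le_sup (f := n) (Finset.mem_univ i)) h1
  rw [hn i] at h2
  exact h2

theorem Side.solvable (l : List Item) [hl : Fact (Good l)] : Group.IsSolvable (Side l) := by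
  haveI : ∀ j, NeZero (l.get j).fac.k := hl.out
  exact isSolvable_pi (fun s : (Σ j : Fin l.length, Fin (l.get j).mul) => (l.get s.1).fac.G)

/-! The group `GL(3,2)`. -/

abbrev M3 := Matrix (Fin 3) (Fin 3) (ZMod 2)
abbrev L := M3ˣ

theorem card_pow_units (n : ℕ) (hn : n ≠ 0) : Nat.card {g : L // g ^ n = 1} = Nat.card {A : M3 // A ^ n = 1} :=
  Nat.card_congr
    { toFun := fun g => ⟨g.1, by rw [← Units.val_pow_eq_pow_val, g.2, Units.val_one]⟩
      invFun := fun A => ⟨Units.ofPowEqOne A.1 n A.2 hn, Units.pow_ofPowEqOne _ _⟩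
      left_inv := fun g => Subtype.ext (Units.ext rfl)
      right_inv := fun A => rfl }

theorem card_L : Nat.card L = 168 := by
  rw [show Nat.card L = Nat.card (GL (Fin 3) (ZMod 2)) from rfl, Matrix.card_GL_field]
  decide +kernel

theorem c1 : Nat.card {g : L // g ^ 1 = 1} = 1 := by
  rw [card_pow_units 1 one_ne_zero, Nat.card_eq_fintype_card]
  decide +kernel

theorem c2 : Nat.card {g : L // g ^ 2 = 1} = 22 := by
  rw [card_pow_units 2 two_ne_zero, Nat.card_eq_fintype_card]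
  simp only [pow_two]
  decide +kernel

theorem c3 : Nat.card {g : L // g ^ 3 = 1} = 57 := by
  rw [card_pow_units 3 three_ne_zero, Nat.card_eq_fintype_card]
  simp only [show ∀ A : M3, A ^ 3 = A * A * A from fun A => by rw [pow_succ, pow_two]]
  decide +kernel

theorem c4 : Nat.card {g : L // g ^ 4 = 1} = 64 := by
  rw [card_pow_units 4 four_ne_zero, Nat.card_eq_fintype_card]
  simp only [show ∀ A : M3, A ^ 4 = (A * A) * (A * A) from fun A => by rw [← pow_two, ← pow_two, ← pow_mul]]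
  decide +kernel

theorem c7 : Nat.card {g : L // g ^ 7 = 1} = 49 := by
  rw [card_pow_units 7 (by norm_num), Nat.card_eq_fintype_card]
  simp only [show ∀ A : M3, A ^ 7 = (A * A * A) * (A * A * A) * A from fun A => by
    rw [show A * A * A = A ^ 3 from by rw [pow_succ, pow_two], ← pow_add, ← pow_succ]]
  decide +kernel

def cL : ℕ → ℕ
  | 1 => 1 | 2 => 22 | 3 => 57 | 4 => 64 | 7 => 49 | _ => 0

theorem card_cL {d : ℕ} (hd : d ∣ 3 ∨ d ∣ 4 ∨ d ∣ 7) : Nat.card {g : L // g ^ d = 1} = cL d := by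
  have hd' : d ∈ ({1, 2, 3, 4, 7} : Finset ℕ) := by
    rcases hd with h | h | h <;> have := Nat.le_of_dvd (by norm_num) h <;> interval_cases d <;> simp_all
  simp only [Finset.mem_insert, Finset.mem_singleton] at hd'
  rcases hd' with rfl | rfl | rfl | rfl | rfl
  · exact c1
  · exact c2
  · exact c3
  · exact c4
  · exact c7

def fL (n : ℕ) : ℕ := cL (n.gcd 3) + cL (n.gcd 4) + cL (n.gcd 7) - 2

theorem card_union {α : Type*} [Finite α] [One α] (A B C : Set α) (ha : A ∩ B = {1}) (hb : (A ∪ B) ∩ C = {1}) :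
    (A ∪ B ∪ C).ncard + 2 = A.ncard + B.ncard + C.ncard := by
  have h1 := Set.ncard_union_add_ncard_inter A B
  have h2 := Set.ncard_union_add_ncard_inter (A ∪ B) C
  rw [ha, Set.ncard_singleton] at h1
  rw [hb, Set.ncard_singleton] at h2
  omega

theorem eq_one_of_pow {g : L} {a b : ℕ} (ha : g ^ a = 1) (hb : g ^ b = 1) (h : a.Coprime b) : g = 1 := by
  have := pow_gcd_eq_one.2 ⟨ha, hb⟩
  rwa [h.gcd_eq_one, pow_one] at this

theorem inter_of {a b : ℕ} (h : a.Coprime b) : {g : L | g ^ a = 1} ∩ {g : L | g ^ b = 1} = {1} := by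
  ext g
  exact ⟨fun hg => eq_one_of_pow hg.1 hg.2 h, fun hg => by rw [Set.mem_singleton_iff.1 hg]; exact ⟨one_pow _, one_pow _⟩⟩

theorem card_three {a b c : ℕ} (ha : a ∣ 3) (hb : b ∣ 4) (hc : c ∣ 7) :
    ({g : L | g ^ a = 1} ∪ {g : L | g ^ b = 1} ∪ {g : L | g ^ c = 1}).ncard + 2 = cL a + cL b + cL c := by
  have e : ∀ d, {g : L | g ^ d = 1}.ncard = Nat.card {g : L // g ^ d = 1} := fun d => (Nat.card_coe_set_eq _).symm
  rw [card_union _ _ _ (inter_of (Nat.Coprime.coprime_dvd_right hb (Nat.Coprime.coprime_dvd_left ha (by norm_num)))), e, e, e,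
    card_cL (Or.inl ha), card_cL (Or.inr (Or.inl hb)), card_cL (Or.inr (Or.inr hc))]
  rw [Set.union_inter_distrib_right, inter_of (Nat.Coprime.coprime_dvd_right hc (Nat.Coprime.coprime_dvd_left ha (by norm_num))),
    inter_of (Nat.Coprime.coprime_dvd_right hc (Nat.Coprime.coprime_dvd_left hb (by norm_num))), Set.union_self]

theorem cover (g : L) : g ^ 3 = 1 ∨ g ^ 4 = 1 ∨ g ^ 7 = 1 := by
  have h : ({g : L | g ^ 3 = 1} ∪ {g : L | g ^ 4 = 1} ∪ {g : L | g ^ 7 = 1}) = Set.univ := by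
    refine Set.eq_of_subset_of_ncard_le (Set.subset_univ _) ?_
    have := card_three (dvd_refl 3) (dvd_refl 4) (dvd_refl 7)
    rw [Set.ncard_univ, card_L]
    simp only [cL] at this
    omega
  have := h.ge (Set.mem_univ g)
  simpa [or_assoc] using this

theorem card_pow_L (n : ℕ) : Nat.card {g : L // g ^ n = 1} = fL n := by
  have h : {g : L | g ^ n = 1} = {g : L | g ^ n.gcd 3 = 1} ∪ {g : L | g ^ n.gcd 4 = 1} ∪ {g : L | g ^ n.gcd 7 = 1} := by
    ext g
    constructor
    · intro hg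
      rcases cover g with e | e | e
      · exact Or.inl (Or.inl (pow_gcd_eq_one.2 ⟨hg, e⟩))
      · exact Or.inl (Or.inr (pow_gcd_eq_one.2 ⟨hg, e⟩))
      · exact Or.inr (pow_gcd_eq_one.2 ⟨hg, e⟩)
    · rintro ((hg | hg) | hg) <;>
      · obtain ⟨c, hc⟩ : _ ∣ n := Nat.gcd_dvd_left n _
        show g ^ n = 1
        rw [hc, pow_mul]
        exact (congrArg (· ^ c) hg).trans (one_pow c)
  have := card_three (Nat.gcd_dvd_right n 3) (Nat.gcd_dvd_right n 4) (Nat.gcd_dvd_right n 7)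
  rw [← h] at this
  show ({g : L | g ^ n = 1} : Set L).ncard = fL n
  simp only [fL]
  omega

theorem pow_L (g : L) : g ^ 84 = 1 := by
  rcases cover g with e | e | e
  · rw [show 84 = 3 * 28 from rfl, pow_mul, e, one_pow]
  · rw [show 84 = 4 * 21 from rfl, pow_mul, e, one_pow]
  · rw [show 84 = 7 * 12 from rfl, pow_mul, e, one_pow]

/-- elementary transvection -/
def tr (i j : Fin 3) : M3 := if i = j then 1 else 1 + Matrix.single i j 1

theorem tr_sq : ∀ i j : Fin 3, tr i j * tr i j = 1 := by decide +kernel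

def trU (i j : Fin 3) : L := ⟨tr i j, tr i j, tr_sq i j, tr_sq i j⟩

theorem tr_comm : ∀ i j k : Fin 3, i ≠ j → i ≠ k → j ≠ k →
    tr i k * tr k j * tr i k * tr k j = tr i j := by decide +kernel

theorem trU_mem (n : ℕ) : ∀ i j : Fin 3, i ≠ j → trU i j ∈ derivedSeries L n := by
  induction n with
  | zero => exact fun i j _ => Subgroup.mem_top _
  | succ n ih =>
    intro i j hij
    obtain ⟨k, hk1, hk2⟩ : ∃ k : Fin 3, i ≠ k ∧ j ≠ k := by revert i j; decide
    have e : trU i j = ⁅trU i k, trU k j⁆ := Units.ext (tr_comm i j k hij hk1 hk2).symm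
    rw [e, derivedSeries_succ]
    exact Subgroup.commutator_mem_commutator (ih i k hk1) (ih k j hk2.symm)

theorem not_solvable_L : ¬ Group.IsSolvable L := by
  refine not_isSolvable_of_mem_derivedSeries (g := trU 0 1) (fun h => ?_) fun n => trU_mem n 0 1 (by decide)
  have h1 : tr 0 1 = 1 := congrArg Units.val h
  exact (by decide +kernel : tr 0 1 ≠ 1) h1

/-! The data. -/

noncomputable def posList : List Item := [
  ⟨⟨1, [(zBlk 1 2 1 (by decide +kernel))]⟩, 9⟩,
  ⟨⟨2, [(zBlk 2 7 6 (by decide +kernel))]⟩, 9⟩,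
  ⟨⟨6, [(zBlk 6 3 2 (by decide +kernel)), (fBlk 6 2 2 3 (by norm_num) (by norm_num) (by norm_num) (by norm_num))]⟩, 6⟩,
  ⟨⟨1, [(zBlk 1 3 1 (by decide +kernel))]⟩, 24⟩,
  ⟨⟨2, [(zBlk 2 2 1 (by decide +kernel)), (zBlk 2 3 2 (by decide +kernel)), (zBlk 2 3 2 (by decide +kernel))]⟩, 24⟩,
  ⟨⟨6, [(fBlk 6 2 2 3 (by norm_num) (by norm_num) (by norm_num) (by norm_num)), (zBlk 6 7 6 (by decide +kernel)), (zBlk 6 7 2 (by decide +kernel)), (fBlk 6 7 2 6 (by norm_num) (by norm_num) (by norm_num) (by norm_num))]⟩, 6⟩,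
  ⟨⟨1, [(zBlk 1 4 1 (by decide +kernel))]⟩, 38⟩,
  ⟨⟨12, [(zBlk 12 3 2 (by decide +kernel)), (zBlk 12 7 3 (by decide +kernel))]⟩, 48⟩,
  ⟨⟨4, [(zBlk 4 2 1 (by decide +kernel)), (zBlk 4 7 1 (by decide +kernel)), (zBlk 4 7 6 (by decide +kernel))]⟩, 39⟩,
  ⟨⟨4, [(zBlk 4 3 2 (by decide +kernel)), (zBlk 4 7 6 (by decide +kernel)), (zBlk 4 7 6 (by decide +kernel))]⟩, 22⟩,
  ⟨⟨12, [(zBlk 12 4 1 (by decide +kernel)), (zBlk 12 7 3 (by decide +kernel)), (fBlk 12 7 2 4 (by norm_num) (by norm_num) (by norm_num) (by norm_num))]⟩, 6⟩,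
  ⟨⟨6, [(zBlk 6 7 3 (by decide +kernel)), (zBlk 6 7 3 (by decide +kernel))]⟩, 12⟩,
  ⟨⟨6, [(zBlk 6 2 1 (by decide +kernel)), (zBlk 6 4 3 (by decide +kernel)), (zBlk 6 4 3 (by decide +kernel)), (zBlk 6 84 83 (by decide +kernel))]⟩, 12⟩,
  ⟨⟨2, [(zBlk 2 4 3 (by decide +kernel)), (zBlk 2 7 1 (by decide +kernel)), (zBlk 2 7 6 (by decide +kernel))]⟩, 30⟩,
  ⟨⟨2, [(zBlk 2 3 1 (by decide +kernel)), (zBlk 2 3 2 (by decide +kernel)), (zBlk 2 4 3 (by decide +kernel)), (zBlk 2 28 27 (by decide +kernel))]⟩, 12⟩,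
  ⟨⟨6, [(zBlk 6 2 1 (by decide +kernel)), (zBlk 6 2 1 (by decide +kernel)), (zBlk 6 4 3 (by decide +kernel)), (zBlk 6 28 3 (by decide +kernel))]⟩, 12⟩,
  ⟨⟨4, [(zBlk 4 3 1 (by decide +kernel)), (zBlk 4 3 2 (by decide +kernel)), (zBlk 4 3 2 (by decide +kernel)), (zBlk 4 3 2 (by decide +kernel))]⟩, 12⟩,
  ⟨⟨4, [(zBlk 4 2 1 (by decide +kernel)), (zBlk 4 3 2 (by decide +kernel)), (zBlk 4 7 6 (by decide +kernel)), (zBlk 4 21 20 (by decide +kernel))]⟩, 12⟩,
  ⟨⟨21, [(zBlk 21 2 1 (by decide +kernel)), (fBlk 21 2 2 3 (by norm_num) (by norm_num) (by norm_num) (by norm_num)), (fBlk 21 2 6 21 (by norm_num) (by norm_num) (by norm_num) (by norm_num))]⟩, 6⟩,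
  ⟨⟨3, [(zBlk 3 4 1 (by decide +kernel)), (fBlk 3 2 2 3 (by norm_num) (by norm_num) (by norm_num) (by norm_num)), (fBlk 3 2 2 3 (by norm_num) (by norm_num) (by norm_num) (by norm_num)), (fBlk 3 7 2 3 (by norm_num) (by norm_num) (by norm_num) (by norm_num))]⟩, 6⟩,
  ⟨⟨3, [(zBlk 3 2 1 (by decide +kernel)), (fBlk 3 2 2 3 (by norm_num) (by norm_num) (by norm_num) (by norm_num)), (fBlk 3 2 2 3 (by norm_num) (by norm_num) (by norm_num) (by norm_num))]⟩, 6⟩]

noncomputable def negList : List Item := [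
  ⟨⟨3, [(zBlk 3 3 1 (by decide +kernel)), (fBlk 3 2 2 3 (by norm_num) (by norm_num) (by norm_num) (by norm_num)), (zBlk 3 7 2 (by decide +kernel))]⟩, 12⟩,
  ⟨⟨2, [(zBlk 2 7 6 (by decide +kernel)), (zBlk 2 7 6 (by decide +kernel))]⟩, 6⟩,
  ⟨⟨12, [(zBlk 12 7 6 (by decide +kernel)), (fBlk 12 7 2 12 (by norm_num) (by norm_num) (by norm_num) (by norm_num))]⟩, 6⟩,
  ⟨⟨3, [(zBlk 3 4 1 (by decide +kernel)), (zBlk 3 7 2 (by decide +kernel))]⟩, 20⟩,
  ⟨⟨12, [(zBlk 12 2 1 (by decide +kernel)), (zBlk 12 2 1 (by decide +kernel)), (zBlk 12 7 6 (by decide +kernel)), (zBlk 12 42 5 (by decide +kernel))]⟩, 16⟩,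
  ⟨⟨6, [(zBlk 6 7 6 (by decide +kernel)), (zBlk 6 7 3 (by decide +kernel))]⟩, 6⟩,
  ⟨⟨6, [(zBlk 6 4 1 (by decide +kernel)), (zBlk 6 7 3 (by decide +kernel))]⟩, 12⟩,
  ⟨⟨6, [(zBlk 6 3 1 (by decide +kernel)), (fBlk 6 2 2 3 (by norm_num) (by norm_num) (by norm_num) (by norm_num)), (zBlk 6 7 3 (by decide +kernel)), (fBlk 6 7 2 6 (by norm_num) (by norm_num) (by norm_num) (by norm_num))]⟩, 6⟩,
  ⟨⟨12, [(zBlk 12 2 1 (by decide +kernel)), (zBlk 12 7 3 (by decide +kernel)), (zBlk 12 7 3 (by decide +kernel))]⟩, 12⟩,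
  ⟨⟨6, [(zBlk 6 2 1 (by decide +kernel)), (zBlk 6 4 3 (by decide +kernel)), (zBlk 6 7 3 (by decide +kernel))]⟩, 12⟩,
  ⟨⟨6, [(zBlk 6 2 1 (by decide +kernel)), (fBlk 6 2 2 3 (by norm_num) (by norm_num) (by norm_num) (by norm_num)), (zBlk 6 21 20 (by decide +kernel)), (zBlk 6 21 20 (by decide +kernel))]⟩, 12⟩,
  ⟨⟨4, [(zBlk 4 2 1 (by decide +kernel)), (zBlk 4 4 1 (by decide +kernel)), (fBlk 4 3 2 4 (by norm_num) (by norm_num) (by norm_num) (by norm_num))]⟩, 12⟩,
  ⟨⟨2, [(zBlk 2 2 1 (by decide +kernel)), (zBlk 2 2 1 (by decide +kernel)), (zBlk 2 4 3 (by decide +kernel)), (zBlk 2 28 27 (by decide +kernel))]⟩, 12⟩,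
  ⟨⟨2, [(zBlk 2 3 2 (by decide +kernel)), (zBlk 2 4 3 (by decide +kernel)), (zBlk 2 4 3 (by decide +kernel))]⟩, 12⟩,
  ⟨⟨4, [(zBlk 4 3 1 (by decide +kernel)), (zBlk 4 3 2 (by decide +kernel)), (zBlk 4 7 1 (by decide +kernel)), (zBlk 4 21 20 (by decide +kernel))]⟩, 24⟩,
  ⟨⟨2, [(zBlk 2 3 2 (by decide +kernel)), (zBlk 2 4 3 (by decide +kernel)), (zBlk 2 4 3 (by decide +kernel)), (zBlk 2 4 3 (by decide +kernel))]⟩, 15⟩,
  ⟨⟨4, [(zBlk 4 3 2 (by decide +kernel)), (zBlk 4 7 6 (by decide +kernel))]⟩, 66⟩,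
  ⟨⟨2, [(zBlk 2 3 2 (by decide +kernel)), (zBlk 2 7 1 (by decide +kernel)), (zBlk 2 7 6 (by decide +kernel))]⟩, 6⟩,
  ⟨⟨1, [(zBlk 1 7 1 (by decide +kernel))]⟩, 31⟩,
  ⟨⟨7, [(fBlk 7 2 3 7 (by norm_num) (by norm_num) (by norm_num) (by norm_num)), (fBlk 7 2 3 7 (by norm_num) (by norm_num) (by norm_num) (by norm_num))]⟩, 6⟩,
  ⟨⟨7, [(fBlk 7 2 3 7 (by norm_num) (by norm_num) (by norm_num) (by norm_num))]⟩, 6⟩,
  ⟨⟨12, [(zBlk 12 3 1 (by decide +kernel)), (fBlk 12 2 2 3 (by norm_num) (by norm_num) (by norm_num) (by norm_num)), (fBlk 12 2 2 3 (by norm_num) (by norm_num) (by norm_num) (by norm_num)), (fBlk 12 7 2 12 (by norm_num) (by norm_num) (by norm_num) (by norm_num))]⟩, 6⟩,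
  ⟨⟨2, [(zBlk 2 4 3 (by decide +kernel))]⟩, 18⟩,
  ⟨⟨4, [(zBlk 4 3 2 (by decide +kernel))]⟩, 3⟩]

def mult : ℕ := 6

instance : Fact (Good posList) := ⟨fun j => ⟨by fin_cases j <;> (simp [posList])⟩⟩
instance : Fact (Good negList) := ⟨fun j => ⟨by fin_cases j <;> (simp [negList])⟩⟩

theorem pos_exp : ∀ x ∈ posList, x.fac.f 84 = x.fac.size := by
  have : (posList.map fun x => x.fac.f 84) = posList.map fun x => x.fac.size := by decide +kernel
  exact List.map_inj_left.1 this

theorem neg_exp : ∀ x ∈ negList, x.fac.f 84 = x.fac.size := by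
  have : (negList.map fun x => x.fac.f 84) = negList.map fun x => x.fac.size := by decide +kernel
  exact List.map_inj_left.1 this

theorem f_eq : ∀ d ∈ Nat.divisors 84, fSide negList d = fSide posList d * fL d ^ mult := by decide +kernel

theorem card_orderOf_eq {G H : Type*} [Group G] [Finite G] [Group H] [Finite H]
    (h : ∀ n : ℕ, 0 < n → Nat.card {g : G // g ^ n = 1} = Nat.card {x : H // x ^ n = 1}) (n : ℕ) :
    Nat.card {g : G // orderOf g = n} = Nat.card {x : H // orderOf x = n} := by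
  induction n using Nat.strong_induction_on with
  | _ n ih =>
  rcases Nat.eq_zero_or_pos n with rfl | hn
  · haveI : IsEmpty {g : G // orderOf g = 0} := ⟨fun g => (orderOf_pos g.1).ne' g.2⟩
    haveI : IsEmpty {x : H // orderOf x = 0} := ⟨fun g => (orderOf_pos g.1).ne' g.2⟩
    rw [Nat.card_of_isEmpty, Nat.card_of_isEmpty]
  classical
  haveI := Fintype.ofFinite G
  haveI := Fintype.ofFinite H
  have hG := sum_card_orderOf_eq_card_pow_eq_one (G := G) hn.ne'
  have hH := sum_card_orderOf_eq_card_pow_eq_one (G := H) hn.ne'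
  have h' := h n hn
  simp only [Nat.card_eq_fintype_card, Fintype.card_subtype] at h' ⊢
  rw [← hG, ← hH, ← Nat.cons_self_properDivisors hn.ne', Finset.sum_cons, Finset.sum_cons] at h'
  have : ∑ x ∈ n.properDivisors, Finset.card {g : G | orderOf g = x} = ∑ x ∈ n.properDivisors, Finset.card {g : H | orderOf g = x} := by
    refine Finset.sum_congr rfl fun d hd => ?_
    have := ih d (Nat.mem_properDivisors.1 hd).2
    simp only [Nat.card_eq_fintype_card, Fintype.card_subtype] at this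
    exact this
  omega

/-- There are finite groups G and H having the same number of elements of each order (the same order type) with G solvable and H not solvable. -/
theorem result :
    ∃ (G : Type) (_ : Group G) (_ : Finite G) (H : Type) (_ : Group H) (_ : Finite H),
      Group.IsSolvable G ∧ ¬ Group.IsSolvable H ∧ ∀ n : ℕ, Nat.card {g : G // orderOf g = n} = Nat.card {h : H // orderOf h = n} := by
  refine ⟨Side negList, inferInstance, inferInstance, Side posList × (Fin mult → L), inferInstance, inferInstance,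
    Side.solvable _, fun h => not_solvable_L ?_, card_orderOf_eq fun n hn => ?_⟩
  · exact Group.isSolvable_of_surjective
      (f := (Pi.evalMonoidHom (fun _ : Fin mult => L) ⟨0, by norm_num [mult]⟩).comp (MonoidHom.snd (Side posList) (Fin mult → L)))
      fun g => ⟨(1, fun _ => g), rfl⟩
  set d := Nat.gcd n 84
  have hd : d ∈ Nat.divisors 84 := Nat.mem_divisors.2 ⟨Nat.gcd_dvd_right _ _, by norm_num⟩
  have red : ∀ {K : Type} [Group K], (∀ g : K, g ^ 84 = 1) → Nat.card {g : K // g ^ n = 1} = Nat.card {g : K // g ^ d = 1} := by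
    intro K _ hK
    refine Nat.card_congr (Equiv.subtypeEquivRight fun g => ⟨fun hg => pow_gcd_eq_one.2 ⟨hg, hK g⟩, fun hg => ?_⟩)
    obtain ⟨c, hc⟩ : d ∣ n := Nat.gcd_dvd_left n 84
    rw [hc, pow_mul, hg, one_pow]
  have hH : ∀ g : Side posList × (Fin mult → L), g ^ 84 = 1 := fun g =>
    Prod.ext (Side.pow_eighty_four _ pos_exp g.1) (funext fun i => pow_L (g.2 i))
  rw [red (Side.pow_eighty_four _ neg_exp), red hH, Side.card_pow, f_eq d hd, ← Side.card_pow posList d]
  have e : {g : Side posList × (Fin mult → L) // g ^ d = 1} ≃ {g : Side posList // g ^ d = 1} × {g : Fin mult → L // g ^ d = 1} :=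
    { toFun := fun g => (⟨g.1.1, congrArg Prod.fst g.2⟩, ⟨g.1.2, congrArg Prod.snd g.2⟩)
      invFun := fun g => ⟨(g.1.1, g.2.1), Prod.ext g.1.2 g.2.2⟩
      left_inv := fun g => rfl
      right_inv := fun g => rfl }
  rw [Nat.card_congr e, Nat.card_prod, card_pi_pow (fun _ : Fin mult => L) d]
  simp only [card_pow_L, Finset.prod_const, Finset.card_univ, Fintype.card_fin]

end Cfsg.Agent.S4376
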