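import Cfsg.Statements.S4377
import Mathlib
-- import your own Cfsg.Agent.* helpers here

set_option autoImplicit false
open Cfsg

namespace Cfsg.Agent.S4377

/-- Two finite groups have the same number of elements of each order if and only if, for every n, they have the same number of elements g with gⁿ = 1. -/
theorem result {G H : Type*} [Group G] [Finite G] [Group H] [Finite H] :
    (∀ n : ℕ, Nat.card {g : G // orderOf g = n} = Nat.card {h : H // orderOf h = n}) ↔
      ∀ n : ℕ, Nat.card {g : G // g ^ n = 1} = Nat.card {h : H // h ^ n = 1} := by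
  classical
  constructor
  · intro h
    have hfib : ∀ d, Nonempty ({g : G // orderOf g = d} ≃ {x : H // orderOf x = d}) := fun d =>
      ⟨(Finite.card_eq.mp (h d)).some⟩
    let e : G ≃ H := Equiv.ofFiberEquiv (f := orderOf) (g := orderOf) fun d => (hfib d).some
    have he : ∀ g, orderOf (e g) = orderOf g := fun g => Equiv.ofFiberEquiv_map _ g
    intro n
    refine Nat.card_congr (e.subtypeEquiv fun g => ?_)
    rw [← orderOf_dvd_iff_pow_eq_one, ← orderOf_dvd_iff_pow_eq_one, he]
  · intro h n
    induction n using Nat.strong_induction_on with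
    | _ n ih =>
    rcases Nat.eq_zero_or_pos n with rfl | hn
    · have hG : IsEmpty {g : G // orderOf g = 0} := ⟨fun g => (orderOf_pos g.1).ne' g.2⟩
      have hH : IsEmpty {g : H // orderOf g = 0} := ⟨fun g => (orderOf_pos g.1).ne' g.2⟩
      rw [Nat.card_of_isEmpty, Nat.card_of_isEmpty]
    letI := Fintype.ofFinite G
    letI := Fintype.ofFinite H
    have h1 := h n
    rw [Nat.card_eq_fintype_card, Nat.card_eq_fintype_card, Fintype.card_subtype, Fintype.card_subtype] at h1
    have h1' : _ = _ := ((sum_card_orderOf_eq_card_pow_eq_one (G := G) hn.ne').trans (by convert h1)).trans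
      (sum_card_orderOf_eq_card_pow_eq_one (G := H) hn.ne').symm
    clear h1
    have hsum : ∀ d ∈ (Nat.divisors n).erase n,
        (Finset.univ.filter fun g : G => orderOf g = d).card = (Finset.univ.filter fun g : H => orderOf g = d).card := by
      intro d hd
      have hdn : d < n := lt_of_le_of_ne (Nat.divisor_le (Finset.mem_of_mem_erase hd)) (Finset.ne_of_mem_erase hd)
      have h2 := ih d hdn
      rwa [Nat.card_eq_fintype_card, Nat.card_eq_fintype_card, Fintype.card_subtype, Fintype.card_subtype] at h2
    rw [Nat.card_eq_fintype_card, Nat.card_eq_fintype_card, Fintype.card_subtype, Fintype.card_subtype]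
    have hmem : n ∈ Nat.divisors n := Nat.mem_divisors_self n hn.ne'
    rw [← Finset.add_sum_erase _ _ hmem, ← Finset.add_sum_erase _ _ hmem, Finset.sum_congr rfl hsum] at h1'
    exact Nat.add_right_cancel h1'

end Cfsg.Agent.S4377
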