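import Cfsg.Statements.S4381
import Cfsg.Agent.Lib.Solv.Coprime
import Cfsg.Agent.Lib.Solv.PGroupBasic

set_option autoImplicit false
open Pointwise
open Cfsg
open scoped commutatorElement Pointwise

namespace Cfsg.Agent.S4381

open Subgroup

theorem maschke {A V : Type*} [Group A] [Finite A] [CommGroup V] [Finite V] [MulDistribMulAction A V]
    {p : ℕ} [Fact p.Prime] (hexp : ∀ v : V, v ^ p = 1) (hcop : (Nat.card A).Coprime p)
    (W : Subgroup V) (hW : ∀ a : A, ∀ x ∈ W, a • x ∈ W) :
    ∃ W' : Subgroup V, (∀ a : A, ∀ x ∈ W', a • x ∈ W') ∧ W ⊓ W' = ⊥ ∧ W ⊔ W' = ⊤ := by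
  classical
  letI := Fintype.ofFinite A
  have hmod : ∀ x : Additive V, p • x = 0 := fun x => hexp (Additive.toMul x)
  haveI := AddCommGroup.zmodModule hmod
  let Ws : Submodule (ZMod p) (Additive V) := AddSubgroup.toZModSubmodule p W.toAddSubgroup
  obtain ⟨g, hg⟩ := LinearMap.exists_extend (LinearMap.id : Ws →ₗ[ZMod p] Ws)
  let π : V → V := fun v => Additive.toMul ((g (Additive.ofMul v) : Ws) : Additive V)
  have hπmul : ∀ u v, π (u * v) = π u * π v := fun u v => by
    show Additive.toMul ((g (Additive.ofMul u + Additive.ofMul v) : Ws) : Additive V) = _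
    rw [map_add]; rfl
  have hπW : ∀ v, π v ∈ W := fun v => (g (Additive.ofMul v)).2
  have hπid : ∀ v ∈ W, π v = v := fun v hv => by
    have := LinearMap.congr_fun hg ⟨Additive.ofMul v, hv⟩
    exact congrArg (fun x : Ws => Additive.toMul (x : Additive V)) this
  obtain ⟨m, -, hm⟩ := Nat.exists_mul_mod_eq_one_of_coprime hcop (Fact.out : p.Prime).one_lt
  let φ : V →* V :=
    { toFun := fun v => (∏ a : A, a • π (a⁻¹ • v)) ^ m
      map_one' := by
        have h1 : π 1 = 1 := hπid 1 W.one_mem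
        simp [h1]
      map_mul' := fun u v => by
        simp only [smul_mul', hπmul, Finset.prod_mul_distrib, mul_pow] }
  have hφW : ∀ v, φ v ∈ W := fun v => W.pow_mem (W.prod_mem fun a _ => hW a _ (hπW _)) m
  have hφid : ∀ v ∈ W, φ v = v := fun v hv => by
    show (∏ a : A, a • π (a⁻¹ • v)) ^ m = v
    rw [Finset.prod_congr rfl fun a _ => show a • π (a⁻¹ • v) = v by rw [hπid _ (hW _ v hv), smul_inv_smul],
      Finset.prod_const, Finset.card_univ, ← Nat.card_eq_fintype_card, ← pow_mul]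
    conv_rhs => rw [← pow_one v]
    rw [← Nat.div_add_mod (Nat.card A * m) p, hm, pow_add, pow_mul, hexp, one_pow, one_mul]
  have hφeq : ∀ (b : A) (v : V), φ (b • v) = b • φ v := fun b v => by
    show (∏ a : A, a • π (a⁻¹ • b • v)) ^ m = b • (∏ a : A, a • π (a⁻¹ • v)) ^ m
    rw [smul_pow', Finset.smul_prod']
    congr 1
    rw [← Equiv.prod_comp (Equiv.mulLeft b)]
    refine Finset.prod_congr rfl fun a _ => ?_
    rw [Equiv.coe_mulLeft, mul_smul, mul_inv_rev, mul_smul, inv_smul_smul]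
  refine ⟨φ.ker, fun b x hx => ?_, ?_, ?_⟩
  · rw [MonoidHom.mem_ker] at hx ⊢
    rw [hφeq, hx, smul_one]
  · rw [eq_bot_iff]
    rintro x ⟨hx, hk⟩
    rw [mem_bot, ← hφid x hx]
    exact hk
  · rw [eq_top_iff]
    intro v _
    have h1 : (φ v)⁻¹ * v ∈ φ.ker := by
      rw [MonoidHom.mem_ker, map_mul, map_inv, hφid _ (hφW v), inv_mul_cancel]
    have h2 := mul_mem (mem_sup_left (T := φ.ker) (hφW v)) (mem_sup_right (S := W) h1)
    rwa [mul_inv_cancel_left] at h2

variable {A G : Type*} [Group A] [Group G] [MulDistribMulAction A G]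

theorem inv_frattini (a : A) : ∀ x ∈ frattini G, a • x ∈ frattini G := fun x hx => by
  have h := (Subgroup.characteristic_iff_map_eq.1 (inferInstance : (frattini G).Characteristic))
    (MulDistribMulAction.toMulAut A G a)
  rw [← h]
  exact ⟨x, hx, rfl⟩

theorem exists_maxInv [Finite G] (L : Subgroup G) (hL : L ≠ ⊤) (hLA : ∀ a : A, ∀ x ∈ L, a • x ∈ L) :
    ∃ M : Subgroup G, L ≤ M ∧ (M ≠ ⊤ ∧ (∀ a : A, ∀ x ∈ M, a • x ∈ M) ∧
      ∀ K : Subgroup G, M < K → (∀ a : A, ∀ x ∈ K, a • x ∈ K) → K = ⊤) := by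
  obtain ⟨M, ⟨hLM, hM, hMA⟩, hmax⟩ := (Set.toFinite {M : Subgroup G | L ≤ M ∧ M ≠ ⊤ ∧
    ∀ a : A, ∀ x ∈ M, a • x ∈ M}).exists_maximal ⟨L, le_rfl, hL, hLA⟩
  exact ⟨M, hLM, hM, hMA, fun K hK hKA => by_contra fun hKt =>
    hK.not_ge (hmax ⟨hLM.trans hK.le, hKt, hKA⟩ hK.le)⟩

theorem sup_inv {K L : Subgroup G} (hK : ∀ a : A, ∀ x ∈ K, a • x ∈ K) (hL : ∀ a : A, ∀ x ∈ L, a • x ∈ L) :
    ∀ a : A, ∀ x ∈ K ⊔ L, a • x ∈ K ⊔ L := fun a x hx => by
  have h : (K ⊔ L).map (MulDistribMulAction.toMonoidHom G a) ≤ K ⊔ L := by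
    rw [Subgroup.map_sup]
    exact sup_le_sup (map_le_iff_le_comap.2 fun y hy => hK a y hy) (map_le_iff_le_comap.2 fun y hy => hL a y hy)
  exact h ⟨x, hx, rfl⟩

open Cfsg.Lib in
theorem exists_inv_sylow [Finite A] [Finite G] (hcop : (Nat.card A).Coprime (Nat.card G))
    (hsol : Group.IsSolvable A ∨ Group.IsSolvable G) (p : ℕ) [Fact p.Prime] :
    ∃ P : Sylow p G, ∀ a : A, ∀ x ∈ (P : Subgroup G), a • x ∈ (P : Subgroup G) := by
  let φ : A →* MulAut G := MulDistribMulAction.toMulAut A G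
  haveI : Finite (G ⋊[φ] A) := Finite.of_equiv (G × A) SemidirectProduct.equivProd.symm
  let ι : G →* G ⋊[φ] A := SemidirectProduct.inl
  have hι : Function.Injective ι := SemidirectProduct.inl_injective
  set H := ι.range
  set Q := (SemidirectProduct.inr : A →* G ⋊[φ] A).range
  have hQH : Q ≤ normalizer (H : Set (G ⋊[φ] A)) := by
    rintro _ ⟨a, rfl⟩
    apply Subgroup.mem_normalizer_fintype
    rintro _ ⟨g, rfl⟩
    exact ⟨φ a g, by rw [show ι (φ a g) = _ from SemidirectProduct.inl_aut a g, map_inv]⟩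
  let eH : G ≃* H := MonoidHom.ofInjective hι
  let eQ : A ≃* Q := MonoidHom.ofInjective SemidirectProduct.inr_injective
  have hco : (Nat.card Q).Coprime (Nat.card H) := by
    rwa [← Nat.card_congr eQ.toEquiv, ← Nat.card_congr eH.toEquiv]
  obtain ⟨P, hP⟩ := Solv.exists_invariant_sylow Q H hQH hco
    (hsol.imp (fun h => by haveI := h; exact Group.isSolvable_of_surjective (f := eQ.toMonoidHom) eQ.surjective)
      (fun h => by haveI := h; exact Group.isSolvable_of_surjective (f := eH.toMonoidHom) eH.surjective)) p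
  refine ⟨P.comapOfInjective eH.toMonoidHom eH.injective (by simp), fun a x hx => ?_⟩
  have h1 : ι x ∈ (P : Subgroup H).map H.subtype := ⟨eH x, hx, rfl⟩
  have h2 := (mem_normalizer_iff.1 (hP ⟨a, rfl⟩) _).1 h1
  have h3 : ι (a • x) ∈ (P : Subgroup H).map H.subtype := by
    rw [show ι (a • x) = _ from SemidirectProduct.inl_aut a x, map_inv]
    exact h2
  obtain ⟨y, hy, hyx⟩ := h3
  show eH (a • x) ∈ (P : Subgroup H)
  rwa [show eH (a • x) = y from Subtype.ext hyx.symm]


/-- Let the finite group A act by automorphisms on the finite group G with the orders of A and G coprime, and assume that A or G is solvable. Call a proper A-invariant subgroup of G maximal A-invariant when no A-invariant subgroup lies strictly between it and G. Then all maximal A-invariant subgroups of G are conjugate under elements of the fixed-point subgroup C_G(A) if and only if G is a p-group for some prime p and A leaves invariant no subgroup strictly between the Frattini subgroup of G and G. In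 that case, if G is nontrivial, the Frattini subgroup is the only maximal A-invariant subgroup (a trivial G has none). -/
theorem result {A G : Type*} [Group A] [Finite A]
    [Group G] [Finite G] [MulDistribMulAction A G] (hcop : (Nat.card A).Coprime (Nat.card G)) (hsol : Group.IsSolvable A ∨ Group.IsSolvable G) :
    ((∀ M N : Subgroup G, (M ≠ ⊤ ∧ (∀ a : A, ∀ x ∈ M, a • x ∈ M) ∧ ∀ L : Subgroup G, M < L → (∀ a : A, ∀ x ∈ L, a • x ∈ L) → L = ⊤) → (N ≠ ⊤ ∧ (∀ a : A, ∀ x ∈ N, a • x ∈ N) ∧ ∀ L : Subgroup G, N < L → (∀ a : A, ∀ x ∈ L, a • x ∈ L) → L = ⊤) →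
        ∃ c : G, (∀ a : A, a • c = c) ∧ N = MulAut.conj c • M) ↔
      ((∃ p : ℕ, p.Prime ∧ IsPGroup p G) ∧ ∀ L : Subgroup G, frattini G < L → (∀ a : A, ∀ x ∈ L, a • x ∈ L) → L = ⊤)) ∧
    (((∃ p : ℕ, p.Prime ∧ IsPGroup p G) ∧ ∀ L : Subgroup G, frattini G < L → (∀ a : A, ∀ x ∈ L, a • x ∈ L) → L = ⊤) →
      ∀ M : Subgroup G, (M ≠ ⊤ ∧ (∀ a : A, ∀ x ∈ M, a • x ∈ M) ∧ ∀ L : Subgroup G, M < L → (∀ a : A, ∀ x ∈ L, a • x ∈ L) → L = ⊤) ↔ (M = frattini G ∧ M ≠ ⊤)) := by
  have hchar : ((∃ p : ℕ, p.Prime ∧ IsPGroup p G) ∧ ∀ L : Subgroup G, frattini G < L → (∀ a : A, ∀ x ∈ L, a • x ∈ L) → L = ⊤) →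
      ∀ M : Subgroup G, (M ≠ ⊤ ∧ (∀ a : A, ∀ x ∈ M, a • x ∈ M) ∧ ∀ L : Subgroup G, M < L → (∀ a : A, ∀ x ∈ L, a • x ∈ L) → L = ⊤) ↔ (M = frattini G ∧ M ≠ ⊤) := by
    rintro ⟨-, hL⟩ M
    constructor
    · rintro ⟨hM, hMA, hMmax⟩
      refine ⟨?_, hM⟩
      have h1 : frattini G ≤ M := by
        by_contra hle
        have h2 := hMmax (M ⊔ frattini G) (left_lt_sup.2 hle) (sup_inv hMA inv_frattini)
        exact hM (frattini_nongenerating h2)
      exact (eq_or_lt_of_le h1).elim Eq.symm fun hlt => absurd (hL M hlt hMA) hM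
    · rintro ⟨rfl, hM⟩
      exact ⟨hM, inv_frattini, hL⟩
  refine ⟨⟨fun hconj => ?_, fun h M N hM hN => ⟨1, smul_one, ?_⟩⟩, hchar⟩
  · -- G is a p-group
    obtain ⟨p, hp, hpG⟩ : ∃ p : ℕ, p.Prime ∧ IsPGroup p G := by
      by_cases h1 : Nat.card G = 1
      · exact ⟨2, Nat.prime_two, IsPGroup.of_card (n := 0) (by simpa using h1)⟩
      obtain ⟨q, hq, hqd⟩ := Nat.exists_prime_and_dvd h1
      refine ⟨q, hq, ?_⟩
      by_contra hng
      haveI := Fact.mk hq
      have hproper : ∀ r : ℕ, (hr : r.Prime) → ∀ P : Sylow r G, (P : Subgroup G) ≠ ⊤ := by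
        intro r hr P e
        haveI := Fact.mk hr
        have h2 : IsPGroup r G := by
          have := P.isPGroup'
          rw [e] at this
          exact this.of_equiv Subgroup.topEquiv
        obtain ⟨k, hk⟩ := IsPGroup.iff_card.1 h2
        have h3 : q = r := (Nat.prime_dvd_prime_iff_eq hq hr).1 (hq.dvd_of_dvd_pow (hk ▸ hqd))
        exact hng (h3 ▸ h2)
      obtain ⟨P₀, hP₀⟩ := exists_inv_sylow hcop hsol q
      obtain ⟨M, -, hM⟩ := exists_maxInv _ (hproper q hq P₀) hP₀
      refine hM.1 (Subgroup.eq_top_of_card_eq M (Nat.dvd_antisymm (Subgroup.card_subgroup_dvd_card M) ?_))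
      rw [← Nat.factorization_le_iff_dvd Nat.card_pos.ne' Nat.card_pos.ne']
      intro r
      by_cases hr : r.Prime
      · haveI := Fact.mk hr
        obtain ⟨P, hP⟩ := exists_inv_sylow hcop hsol r
        obtain ⟨N, hPN, hN⟩ := exists_maxInv _ (hproper r hr P) hP
        obtain ⟨c, -, hNc⟩ := hconj M N hM hN
        have h2 : r ^ (Nat.card G).factorization r ∣ Nat.card M := by
          have h3 := Subgroup.card_dvd_of_le hPN
          rw [P.card_eq_multiplicity, hNc] at h3
          rwa [← Nat.card_congr (Subgroup.equivSMul (MulAut.conj c) M).toEquiv] at h3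
        exact (hr.pow_dvd_iff_le_factorization Nat.card_pos.ne').1 h2
      · simp [Nat.factorization_eq_zero_of_not_prime _ hr]
    refine ⟨⟨p, hp, hpG⟩, fun L hL hLA => ?_⟩
    by_contra hLt
    haveI := Fact.mk hp
    have hexp : ∀ v : G ⧸ frattini G, v ^ p = 1 := by
      intro v
      induction v using QuotientGroup.induction_on with
      | H g => rw [← QuotientGroup.mk_pow, QuotientGroup.eq_one_iff]; exact Cfsg.Lib.Solv.pow_mem_frattini hpG g
    haveI hcomm : IsMulCommutative (G ⧸ frattini G) := ⟨⟨fun u v => by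
      obtain ⟨x, rfl⟩ := QuotientGroup.mk'_surjective _ u
      obtain ⟨y, rfl⟩ := QuotientGroup.mk'_surjective _ v
      rw [← map_mul, ← map_mul]
      refine QuotientGroup.eq.2 ?_
      rw [show (x * y)⁻¹ * (y * x) = ⁅y⁻¹, x⁻¹⁆ by rw [commutatorElement_def]; group]
      exact Cfsg.Lib.Solv.commutator_le_frattini hpG (Subgroup.commutator_mem_commutator (mem_top _) (mem_top _))⟩⟩
    letI : CommGroup (G ⧸ frattini G) := { (inferInstance : Group (G ⧸ frattini G)) with mul_comm := fun u v => mul_comm' u v }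
    have hmap : ∀ a : A, frattini G ≤ (frattini G).comap (MulDistribMulAction.toMonoidHom G a) := fun a x hx => inv_frattini a x hx
    letI : MulDistribMulAction A (G ⧸ frattini G) :=
      { smul := fun a v => QuotientGroup.map _ _ (MulDistribMulAction.toMonoidHom G a) (hmap a) v
        one_smul := fun v => by
          induction v using QuotientGroup.induction_on with
          | H g => exact congrArg QuotientGroup.mk (one_smul A g)
        mul_smul := fun a b v => by
          induction v using QuotientGroup.induction_on with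
          | H g => exact congrArg QuotientGroup.mk (mul_smul a b g)
        smul_mul := fun a u v => map_mul (QuotientGroup.map _ _ (MulDistribMulAction.toMonoidHom G a) (hmap a)) u v
        smul_one := fun a => map_one (QuotientGroup.map _ _ (MulDistribMulAction.toMonoidHom G a) (hmap a)) }
    have hnt : Nontrivial G := by
      by_contra hc
      rw [not_nontrivial_iff_subsingleton] at hc
      exact hLt (Subsingleton.elim _ _)
    have hcopp : (Nat.card A).Coprime p := hcop.coprime_dvd_right (by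
      obtain ⟨k, hk⟩ := IsPGroup.iff_card.1 hpG
      have : k ≠ 0 := fun e => by have := Finite.one_lt_card (α := G); rw [hk, e] at this; simp at this
      rw [hk]; exact dvd_pow_self p this)
    set π := QuotientGroup.mk' (frattini G)
    obtain ⟨W, hWA, hdis, hsup⟩ := maschke hexp hcopp (L.map π) (by
      rintro a _ ⟨x, hx, rfl⟩; exact ⟨a • x, hLA a x hx, rfl⟩)
    have hker : π.ker = frattini G := QuotientGroup.ker_mk' _
    have hLc : (L.map π).comap π = L := Subgroup.comap_map_eq_self (hker.le.trans hL.le)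
    have hWt : W.comap π ≠ ⊤ := by
      intro e
      have h2 : W = ⊤ := by
        rw [← Subgroup.map_comap_eq_self_of_surjective (QuotientGroup.mk'_surjective _) W, e,
          ← MonoidHom.range_eq_map, MonoidHom.range_eq_top.2 (QuotientGroup.mk'_surjective _)]
      rw [h2, inf_top_eq] at hdis
      refine hL.ne ?_
      rw [← hLc, hdis, MonoidHom.comap_bot, hker]
    have hWcA : ∀ a : A, ∀ x ∈ W.comap π, a • x ∈ W.comap π := fun a x hx => hWA a (π x) hx
    obtain ⟨M, hLM, hM⟩ := exists_maxInv L hLt hLA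
    obtain ⟨N, hWN, hN⟩ := exists_maxInv _ hWt hWcA
    obtain ⟨c, -, hNc⟩ := hconj M N hM hN
    have hcM : commutator G ≤ M := ((Cfsg.Lib.Solv.commutator_le_frattini hpG).trans hL.le).trans hLM
    haveI hMn : M.Normal := ⟨fun m hm g => by
      rw [show g * m * g⁻¹ = ⁅g, m⁆ * m by rw [commutatorElement_def]; group]
      exact mul_mem (hcM (Subgroup.commutator_mem_commutator (mem_top _) (mem_top _))) hm⟩
    have hMN : M = N := by rw [hNc, Subgroup.Normal.conj_smul_eq_self]
    apply hM.1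
    rw [eq_top_iff]
    calc (⊤ : Subgroup G) = (L.map π ⊔ W).comap π := by rw [hsup, Subgroup.comap_top]
      _ = L ⊔ W.comap π := by
        rw [← Subgroup.comap_sup_eq _ _ _ (QuotientGroup.mk'_surjective _), hLc]
      _ ≤ M := sup_le hLM (hWN.trans hMN.ge)
  · rw [((hchar h M).1 hM).1, ((hchar h N).1 hN).1, map_one, one_smul]
end Cfsg.Agent.S4381
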