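import Cfsg.Statements.S4387
import Mathlib
import Cfsg.Agent.Lib.Solv.ConjCover
-- import your own Cfsg.Agent.* helpers here

set_option autoImplicit false
open Pointwise
open Cfsg
open scoped Pointwise

namespace Cfsg.Agent.S4387

/-- Let G be a non-trivial finite group in which any two maximal subgroups are conjugate. Then G is cyclic of prime-power order. -/
theorem result {G : Type*} [Group G] [Finite G] [Nontrivial G]
    (h : ∀ M N : Subgroup G, IsCoatom M → IsCoatom N → ∃ g : G, N = MulAut.conj g • M) :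
    IsCyclic G ∧ IsPrimePow (Nat.card G) := by
  classical
  by_cases hcyc : IsCyclic G
  · refine ⟨hcyc, ?_⟩
    obtain ⟨z, hz⟩ := IsCyclic.exists_generator (α := G)
    have h1 : Nat.card G ≠ 1 := Finite.one_lt_card.ne'
    obtain ⟨p, hp, hpd⟩ := Nat.exists_prime_and_dvd h1
    rw [isPrimePow_nat_iff]
    refine ⟨p, (Nat.card G).primeFactorsList.length, hp, ?_, ?_⟩
    · rcases Nat.eq_zero_or_pos (Nat.card G).primeFactorsList.length with h0 | h0
      · rw [List.length_eq_zero_iff, Nat.primeFactorsList_eq_nil] at h0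
        rcases h0 with h0 | h0
        · exact absurd h0 Nat.card_pos.ne'
        · exact absurd h0 h1
      · exact h0
    · refine (Nat.eq_prime_pow_of_unique_prime_dvd Nat.card_pos.ne' fun {q} hq hqd => ?_).symm
      by_contra hne
      have hord : orderOf z = Nat.card G := orderOf_eq_card_of_forall_mem_zpowers hz
      have hprop : ∀ r : ℕ, r.Prime → r ∣ Nat.card G → Subgroup.zpowers (z ^ r) ≠ ⊤ := by
        intro r hr hrd htop
        have := congrArg (fun K : Subgroup G => Nat.card K) htop
        simp only [Nat.card_zpowers, Subgroup.card_top] at this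
        rw [orderOf_pow_of_dvd hr.ne_zero (hord ▸ hrd), hord] at this
        exact (Nat.div_lt_self Nat.card_pos hr.one_lt).ne this
      obtain ⟨M, hM, hMp⟩ := (eq_top_or_exists_le_coatom _).resolve_left (hprop p hp hpd)
      obtain ⟨M', hM', hMq⟩ := (eq_top_or_exists_le_coatom _).resolve_left (hprop q hq hqd)
      obtain ⟨g, rfl⟩ := h M M' hM hM'
      have hcomm : ∀ a b : G, a * b = b * a := fun a b => by
        obtain ⟨i, rfl⟩ := hz a
        obtain ⟨j, rfl⟩ := hz b
        exact ((Commute.refl z).zpow_zpow i j).eq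
      have hq' : z ^ q ∈ M := by
        obtain ⟨m, hm, e⟩ := hMq (Subgroup.mem_zpowers _)
        have e' : g * m * g⁻¹ = z ^ q := e
        rw [hcomm g m, mul_inv_cancel_right] at e'
        exact e' ▸ hm
      have hp' : z ^ p ∈ M := hMp (Subgroup.mem_zpowers _)
      apply hM.1
      rw [eq_top_iff]
      intro x _
      refine Subgroup.zpowers_le.mpr ?_ (hz x)
      have hb : Int.gcd p q = 1 := by simpa using (Nat.coprime_primes hp hq).mpr (Ne.symm hne)
      have he : z = (z ^ p) ^ Int.gcdA p q * (z ^ q) ^ Int.gcdB p q := by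
        rw [← zpow_natCast z p, ← zpow_natCast z q, ← zpow_mul, ← zpow_mul, ← zpow_add, ← Int.gcd_eq_gcd_ab, hb]
        simp
      rw [he]
      exact mul_mem (zpow_mem hp' _) (zpow_mem hq' _)
  · exfalso
    obtain ⟨M, hM, -⟩ := (eq_top_or_exists_le_coatom (⊥ : Subgroup G)).resolve_left bot_ne_top
    apply hM.1
    refine Cfsg.Lib.Solv.eq_top_of_forall_conj_mem fun x => ?_
    have hx : Subgroup.zpowers x ≠ ⊤ := fun e => hcyc ⟨⟨x, fun y => by
      show y ∈ Subgroup.zpowers x
      rw [e]; trivial⟩⟩
    obtain ⟨N, hN, hxN⟩ := (eq_top_or_exists_le_coatom _).resolve_left hx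
    obtain ⟨g, rfl⟩ := h M N hM hN
    refine ⟨g, ?_⟩
    obtain ⟨m, hm, e⟩ := hxN (Subgroup.mem_zpowers x)
    have e' : g * m * g⁻¹ = x := e
    rw [← e', show g⁻¹ * (g * m * g⁻¹) * g = m by group]
    exact hm

end Cfsg.Agent.S4387
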