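import Cfsg.Statements.S4397
import Cfsg.Agent.Lib.Solv.PGroupBasic
import Cfsg.Agent.Lib.Transfer.PGroupNormal

set_option autoImplicit false
open Cfsg
open scoped Pointwise commutatorElement

namespace Cfsg.Agent.S4397

theorem sect_quot {S Q : Type*} [Group S] [Group Q] (hr : Cfsg.SectionalPRankLE 2 2 S) (q : S →* Q)
    (hq : Function.Surjective q) : Cfsg.SectionalPRankLE 2 2 Q := by
  intro H N hN A hA hexp
  let g : H.comap q →* H ⧸ N := (QuotientGroup.mk' N).comp (q.subgroupComap H)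
  have hg : Function.Surjective g :=
    (QuotientGroup.mk'_surjective N).comp (q.subgroupComap_surjective_of_surjective H hq)
  let e := QuotientGroup.quotientKerEquivOfSurjective g hg
  haveI := hA
  have h := hr (H.comap q) g.ker (A.map e.symm.toMonoidHom) inferInstance (by
    rintro _ ⟨a, ha, rfl⟩
    rw [← map_pow, hexp a ha, map_one])
  rwa [Subgroup.card_map_of_injective (f := e.symm.toMonoidHom) e.symm.injective] at h

theorem rank_le {S : Type*} [Group S] (hr : Cfsg.SectionalPRankLE 2 2 S) (A : Subgroup S) (hA : IsMulCommutative A)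
    (hexp : ∀ a ∈ A, a ^ 2 = 1) : Nat.card A ≤ 4 := by
  let f : S →* ((⊤ : Subgroup S) ⧸ (⊥ : Subgroup (⊤ : Subgroup S))) :=
    (QuotientGroup.mk' _).comp Subgroup.topEquiv.symm.toMonoidHom
  have hf : Function.Injective f := by
    refine (injective_iff_map_eq_one f).2 fun x hx => ?_
    have h1 : (Subgroup.topEquiv.symm x) ∈ (⊥ : Subgroup (⊤ : Subgroup S)) := (QuotientGroup.eq_one_iff _).1 hx
    exact congrArg Subtype.val (Subgroup.mem_bot.1 h1)
  haveI := hA
  have h := hr ⊤ ⊥ (A.map f) inferInstance (by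
    rintro _ ⟨a, ha, rfl⟩
    rw [← map_pow, hexp a ha, map_one])
  rwa [Subgroup.card_map_of_injective hf] at h

theorem no_eight {S : Type*} [Group S] [Finite S] (hr : Cfsg.SectionalPRankLE 2 2 S) (z a b : S) (hz : z * z = 1)
    (ha : a * a = 1) (hb : b * b = 1) (hza : z * a = a * z) (hzb : z * b = b * z) (hab : a * b = b * a)
    (hz1 : z ≠ 1) (ha1 : a ≠ 1) (haz : a ≠ z) : b = 1 ∨ b = z ∨ b = a ∨ b = z * a := by
  classical
  by_contra hb'
  simp only [not_or] at hb'
  obtain ⟨b1, b2, b3, b4⟩ := hb'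
  have hcomm : ∀ x ∈ ({z, a, b} : Set S), ∀ y ∈ ({z, a, b} : Set S), x * y = y * x := by
    rintro x (rfl | rfl | rfl) y (rfl | rfl | rfl)
    all_goals first | rfl | exact hza | exact hza.symm | exact hzb | exact hzb.symm | exact hab | exact hab.symm
  have hc' := Subgroup.isMulCommutative_closure hcomm
  have h4 := rank_le hr _ hc' fun x hx => by
    induction hx using Subgroup.closure_induction with
    | mem y hy => rcases hy with rfl | rfl | rfl <;> rw [pow_two] <;> assumption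
    | one => exact one_pow 2
    | mul u v hu hv iu iv =>
      have huv : u * v = v * u := congrArg Subtype.val (hc'.is_comm.comm ⟨u, hu⟩ ⟨v, hv⟩)
      rw [Commute.mul_pow huv, iu, iv, one_mul]
    | inv u _ iu => rw [inv_pow, iu, inv_one]
  have n1 : a ≠ z * a := fun e => hz1 (mul_eq_right.1 e.symm)
  have n2 : z ≠ z * a := fun e => ha1 (mul_eq_left.1 e.symm)
  have n3 : (1 : S) ≠ z * a := fun e => haz (by
    rw [← one_mul a, ← hz, mul_assoc, ← e, mul_one])
  have h5 : ({1, z, a, z * a, b} : Finset S).card = 5 := by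
    simp [Ne.symm b1, Ne.symm b2, Ne.symm b3, Ne.symm b4, hz1.symm, ha1.symm, haz.symm, n1, n2, n3]
  have h6 : ({1, z, a, z * a, b} : Finset S).card ≤ Nat.card (Subgroup.closure ({z, a, b} : Set S)) := by
    rw [← Set.ncard_coe_finset]
    refine (Set.ncard_le_ncard (t := ((Subgroup.closure ({z, a, b} : Set S) : Subgroup S) : Set S)) (fun y hy => ?_)
      (Set.toFinite _)).trans_eq (Nat.card_coe_set_eq _).symm
    simp only [Finset.coe_insert, Finset.coe_singleton, Set.mem_insert_iff, Set.mem_singleton_iff] at hy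
    have mz := Subgroup.subset_closure (k := ({z, a, b} : Set S)) (Or.inl rfl)
    have ma := Subgroup.subset_closure (k := ({z, a, b} : Set S)) (Or.inr (Or.inl rfl))
    rcases hy with rfl | rfl | rfl | rfl | rfl
    exacts [one_mem _, mz, ma, mul_mem mz ma, Subgroup.subset_closure (Or.inr (Or.inr rfl))]
  omega

theorem meta_of_gen {S : Type*} [Group S] (x y : S) (hgen : Subgroup.closure ({x, y} : Set S) = ⊤)
    (hN : (Subgroup.zpowers x).Normal) : Cfsg.IsMetacyclic S := by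
  refine ⟨Subgroup.zpowers x, hN, inferInstance, ⟨QuotientGroup.mk y, fun q => ?_⟩⟩
  obtain ⟨s, rfl⟩ := QuotientGroup.mk_surjective q
  have hle : Subgroup.closure ({x, y} : Set S) ≤ (Subgroup.zpowers (QuotientGroup.mk y : S ⧸ Subgroup.zpowers x)).comap (QuotientGroup.mk' _) := by
    rw [Subgroup.closure_le]
    rintro w (rfl | rfl)
    · show (QuotientGroup.mk w : S ⧸ Subgroup.zpowers w) ∈ Subgroup.zpowers _
      rw [(QuotientGroup.eq_one_iff w).2 (Subgroup.mem_zpowers w)]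
      exact one_mem _
    · exact Subgroup.mem_zpowers _
  exact hle (hgen ▸ Subgroup.mem_top s)

theorem two_gen {S : Type*} [Group S] [Finite S] (h2 : IsPGroup 2 S) (hr : Cfsg.SectionalPRankLE 2 2 S) :
    ∃ a b : S, Subgroup.closure ({a, b} : Set S) = ⊤ := by
  haveI := Fact.mk Nat.prime_two
  obtain ⟨Q, hQ⟩ : ∃ Q, Q = frattini S := ⟨_, rfl⟩
  haveI : Q.Normal := hQ ▸ inferInstance
  have h4 : Nat.card (S ⧸ Q) ≤ 4 := by
    have h := rank_le (sect_quot hr (QuotientGroup.mk' Q) (QuotientGroup.mk'_surjective Q)) ⊤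
      ⟨⟨fun u v => Subtype.ext ((Subgroup.Normal.quotient_commutative_iff_commutator_le.2 (hQ ▸ Cfsg.Lib.Solv.commutator_le_frattini h2)).is_comm.comm (u : S ⧸ Q) (v : S ⧸ Q))⟩⟩
      fun u _ => by
        obtain ⟨v, rfl⟩ := QuotientGroup.mk_surjective u
        rw [← QuotientGroup.mk_pow, QuotientGroup.eq_one_iff]
        exact hQ ▸ Cfsg.Lib.Solv.pow_mem_frattini h2 v
    rwa [Subgroup.card_top] at h
  have hgen : ∃ a b : S ⧸ Q, Subgroup.closure ({a, b} : Set (S ⧸ Q)) = ⊤ := by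
    by_cases hh : ∀ a : S ⧸ Q, a = 1
    · exact ⟨1, 1, top_le_iff.1 fun u _ => by rw [hh u]; exact one_mem _⟩
    push Not at hh
    obtain ⟨a, ha⟩ := hh
    by_cases hb : Subgroup.zpowers a = ⊤
    · exact ⟨a, a, top_le_iff.1 (hb ▸ Subgroup.zpowers_le.2 (Subgroup.subset_closure (Or.inl rfl)))⟩
    obtain ⟨b, -, hb⟩ := SetLike.exists_of_lt (lt_top_iff_ne_top.2 hb)
    refine ⟨a, b, Subgroup.eq_top_of_card_eq _ ?_⟩
    obtain ⟨K, hK⟩ : ∃ K, K = Subgroup.closure ({a, b} : Set (S ⧸ Q)) := ⟨_, rfl⟩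
    rw [← hK]
    have haK : Subgroup.zpowers a < K := lt_of_le_of_ne (hK ▸ Subgroup.zpowers_le.2 (Subgroup.subset_closure (Or.inl rfl)))
      fun e => hb (e ▸ hK ▸ Subgroup.subset_closure (Or.inr rfl))
    have h1 : 1 < Nat.card (Subgroup.zpowers a) := (Subgroup.one_lt_card_iff_ne_bot _).2 (by simpa using ha)
    have h3 : Nat.card (Subgroup.zpowers a) ∣ Nat.card K := Subgroup.card_dvd_of_le haK.le
    have h3' : Nat.card (Subgroup.zpowers a) < Nat.card K := by
      refine lt_of_le_of_ne (Nat.le_of_dvd Nat.card_pos h3) fun e => haK.ne (Subgroup.eq_of_le_of_card_ge haK.le e.ge)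
    have h5 := Subgroup.card_subgroup_dvd_card K
    obtain ⟨c, hc⟩ := h5
    have hpos : 0 < Nat.card (S ⧸ Q) := Nat.card_pos
    rcases c with _ | _ | c
    · simp [hc] at hpos
    · simpa using hc.symm
    · nlinarith
  obtain ⟨a, b, hab⟩ := hgen
  obtain ⟨a, rfl⟩ := QuotientGroup.mk_surjective a
  obtain ⟨b, rfl⟩ := QuotientGroup.mk_surjective b
  refine ⟨a, b, frattini_nongenerating (top_le_iff.1 fun s _ => ?_)⟩
  have h1 : (Subgroup.closure ({a, b} : Set S)).map (QuotientGroup.mk' Q) = ⊤ := by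
    rw [MonoidHom.map_closure, Set.image_pair]; exact hab
  obtain ⟨w, hw, hws⟩ : (QuotientGroup.mk' Q) s ∈ (Subgroup.closure ({a, b} : Set S)).map (QuotientGroup.mk' Q) :=
    h1 ▸ Subgroup.mem_top _
  have h6 : w⁻¹ * s ∈ Q := QuotientGroup.eq.1 hws
  rw [show s = w * (w⁻¹ * s) by group]
  exact Subgroup.mul_mem_sup hw (hQ ▸ h6)

theorem class_two {S : Type*} [Group S] [Finite S] (h2 : IsPGroup 2 S) (hr : Cfsg.SectionalPRankLE 2 2 S)
    (z : S) (hz : z * z = 1) (hz1 : z ≠ 1) (hzc : ∀ x, z * x = x * z) (hcom : ∀ x y : S, x * y = y * x ∨ y * x = x * y * z) :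
    Cfsg.IsMetacyclic S ∨ ∀ x y : S, x * y = y * x := by
  classical
  by_contra hno
  simp only [not_or, not_forall] at hno
  obtain ⟨hno, u, v, huv⟩ := hno
  have hgenz : ∀ x y : S, Subgroup.closure ({x, y} : Set S) = ⊤ → z ∉ Subgroup.zpowers x := fun x y hgen hx => by
    refine hno (meta_of_gen x y hgen ⟨fun n hn s => ?_⟩)
    rcases hcom n s with h | h
    · rwa [← h, mul_inv_cancel_right]
    · rw [h, mul_assoc n, ← hzc, ← mul_assoc, mul_inv_cancel_right]
      exact mul_mem hn hx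
  have hswap : ∀ x y : S, Subgroup.closure ({x, y} : Set S) = ⊤ → Subgroup.closure ({y, x} : Set S) = ⊤ := fun x y h => by
    rwa [Set.pair_comm]
  have hnc : ∀ x y : S, Subgroup.closure ({x, y} : Set S) = ⊤ → y * x = x * y * z := fun x y hgen => by
    refine (hcom x y).resolve_left fun h => huv ?_
    haveI := Subgroup.isMulCommutative_closure (k := ({x, y} : Set S)) (by
      rintro a (rfl | rfl) b (rfl | rfl) <;> first | rfl | exact h | exact h.symm)
    exact congrArg Subtype.val (IsMulCommutative.is_comm.comm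
      (⟨u, hgen ▸ Subgroup.mem_top u⟩ : Subgroup.closure ({x, y} : Set S)) ⟨v, hgen ▸ Subgroup.mem_top v⟩)
  have hsqc : ∀ x y : S, x * x * y = y * (x * x) := fun x y => by
    rcases hcom y x with h | h
    · rw [mul_assoc, ← h, ← mul_assoc, ← h, mul_assoc]
    · calc x * x * y = x * (x * y) := mul_assoc ..
        _ = x * (y * x * z) := by rw [h]
        _ = (x * y) * (x * z) := by simp only [mul_assoc]
        _ = (y * x * z) * (x * z) := by rw [h]
        _ = y * x * (x * (z * z)) := by rw [mul_assoc (y * x), ← mul_assoc z, hzc x, mul_assoc x z z]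
        _ = y * (x * x) := by rw [hz, mul_one, mul_assoc]
  have hex : ∃ m, ∃ x y : S, Subgroup.closure ({x, y} : Set S) = ⊤ ∧ orderOf x + orderOf y = m := by
    obtain ⟨a, b, hab⟩ := two_gen h2 hr
    exact ⟨_, a, b, hab, rfl⟩
  obtain ⟨a, b, hab, hm⟩ := Nat.find_spec hex
  have hmin : ∀ x y : S, Subgroup.closure ({x, y} : Set S) = ⊤ → orderOf a + orderOf b ≤ orderOf x + orderOf y :=
    fun x y h => hm ▸ Nat.find_min' hex ⟨x, y, h, rfl⟩
  clear hm
  wlog hle : orderOf b ≤ orderOf a generalizing a b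
  · exact this b a (hswap a b hab) (fun x y h => by rw [add_comm (orderOf b)]; exact hmin x y h) (le_of_not_ge hle)
  have hord : ∀ x y : S, Subgroup.closure ({x, y} : Set S) = ⊤ → ∃ k, orderOf x = 2 ^ (k + 1) := fun x y hgen => by
    obtain ⟨k, hk⟩ := IsPGroup.iff_orderOf.1 h2 x
    rcases k with _ | k
    · rw [pow_zero, orderOf_eq_one_iff] at hk
      have h9 := hnc x y hgen
      rw [hk, mul_one, one_mul] at h9
      exact absurd (mul_eq_left.1 h9.symm) hz1
    · exact ⟨k, hk⟩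
  obtain ⟨k, hk⟩ := hord a b hab
  obtain ⟨l, hl⟩ := hord b a (hswap a b hab)
  have hlk : l ≤ k := by
    rw [hk, hl] at hle
    exact Nat.succ_le_succ_iff.1 ((Nat.pow_le_pow_iff_right (le_refl 2)).1 hle)
  have hba := hnc a b hab
  have hanc : ∀ c : S, (∀ x, c * x = x * c) → a ≠ c ∧ b ≠ c := fun c hc => by
    constructor <;> rintro rfl
    · exact hz1 (mul_eq_left.1 ((hc b).trans hba).symm)
    · exact hz1 (mul_eq_left.1 (hba.symm.trans (hc a)))
  obtain ⟨t, ht⟩ : ∃ t, t = b ^ 2 ^ l := ⟨_, rfl⟩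
  have ht2 : t * t = 1 := by rw [ht, ← pow_add, ← two_mul, ← pow_succ', ← hl, pow_orderOf_eq_one]
  have ht1 : t ≠ 1 := fun h => by
    have h9 : orderOf b ≤ 2 ^ l := Nat.le_of_dvd (by positivity) (orderOf_dvd_of_pow_eq_one (ht ▸ h))
    rw [hl, pow_succ] at h9
    have : 0 < 2 ^ l := by positivity
    omega
  have htz : t ≠ z := fun h => hgenz b a (hswap a b hab) (h ▸ ht ▸ pow_mem (Subgroup.mem_zpowers b) _)
  rcases l with _ | l
  · -- `b` is an involution
    have hb2 : b * b = 1 := by rw [ht, pow_zero, pow_one] at ht2; exact ht2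
    rcases k with _ | k
    · have ha2 : a * a = 1 := by rw [← pow_two, show 2 = orderOf a from hk.symm, pow_orderOf_eq_one]
      have hgen' : Subgroup.closure ({a * b, b} : Set S) = ⊤ := by
        refine top_le_iff.1 (hab ▸ (Subgroup.closure_le _).2 ?_)
        have m1 := Subgroup.subset_closure (k := ({a * b, b} : Set S)) (Or.inl rfl)
        have m2 := Subgroup.subset_closure (k := ({a * b, b} : Set S)) (Or.inr rfl)
        rintro w (rfl | rfl)
        · have := mul_mem m1 (inv_mem m2); simpa using this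
        · exact m2
      refine hgenz (a * b) b hgen' ?_
      have : (a * b) ^ 2 = z := by
        rw [pow_two, show a * b * (a * b) = a * (b * a) * b by group, hba]
        calc a * (a * b * z) * b = (a * a) * b * (z * b) := by group
          _ = b * b * z := by rw [ha2, one_mul, hzc b, ← mul_assoc]
          _ = z := by rw [hb2, one_mul]
      exact this ▸ pow_mem (Subgroup.mem_zpowers _) 2
    · obtain ⟨s, hs⟩ : ∃ s, s = a ^ 2 ^ (k + 1) := ⟨_, rfl⟩
      have hs2 : s * s = 1 := by rw [hs, ← pow_add, ← two_mul, ← pow_succ', ← hk, pow_orderOf_eq_one]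
      have hsc : ∀ x, s * x = x * s := fun x => by
        rw [hs, pow_succ', pow_mul, pow_two]
        exact Commute.pow_left (hsqc a x) _
      have hs1 : s ≠ 1 := fun h => by
        have h9 : orderOf a ≤ 2 ^ (k + 1) := Nat.le_of_dvd (by positivity) (orderOf_dvd_of_pow_eq_one (hs ▸ h))
        rw [hk, pow_succ 2 (k + 1)] at h9
        have : 0 < 2 ^ (k + 1) := by positivity
        omega
      have hsz : s ≠ z := fun h => hgenz a b hab (h ▸ hs ▸ pow_mem (Subgroup.mem_zpowers a) _)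
      rcases no_eight hr z s b hz hs2 hb2 (hzc s) (hzc b) (hsc b) hz1 hs1 hsz with h | h | h | h
      · exact (hanc 1 fun x => by rw [one_mul, mul_one]).2 h
      · exact (hanc z hzc).2 h
      · exact (hanc s hsc).2 h
      · exact (hanc (z * s) fun x => by rw [mul_assoc, hsc, ← mul_assoc, hzc, mul_assoc]).2 h
  · obtain ⟨k, rfl⟩ : ∃ k', k = k' + 1 := ⟨k - 1, by omega⟩
    obtain ⟨s, hs⟩ : ∃ s, s = a ^ 2 ^ (k + 1) := ⟨_, rfl⟩
    have hs2 : s * s = 1 := by rw [hs, ← pow_add, ← two_mul, ← pow_succ', ← hk, pow_orderOf_eq_one]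
    have hs1 : s ≠ 1 := fun h => by
      have h9 : orderOf a ≤ 2 ^ (k + 1) := Nat.le_of_dvd (by positivity) (orderOf_dvd_of_pow_eq_one (hs ▸ h))
      rw [hk, pow_succ 2 (k + 1)] at h9
      have : 0 < 2 ^ (k + 1) := by positivity
      omega
    have hsz : s ≠ z := fun h => hgenz a b hab (h ▸ hs ▸ pow_mem (Subgroup.mem_zpowers a) _)
    have hsc : ∀ x, s * x = x * s := fun x => by
      rw [hs, pow_succ', pow_mul, pow_two]
      exact Commute.pow_left (hsqc a x) _
    have htc : ∀ x, t * x = x * t := fun x => by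
      rw [ht, pow_succ', pow_mul, pow_two]
      exact Commute.pow_left (hsqc b x) _
    have hst : s * t = 1 ∨ s * t = z := by
      rcases no_eight hr z s t hz hs2 ht2 (hzc s) (hzc t) (hsc t) hz1 hs1 hsz with h | h | h | h
      · exact absurd h ht1
      · exact absurd h htz
      · exact Or.inl (by rw [h, hs2])
      · exact Or.inr (by rw [h, ← mul_assoc, hsc z, mul_assoc, hs2, mul_one])
    obtain ⟨u', hu'⟩ : ∃ u', u' = a ^ 2 ^ (k - l) := ⟨_, rfl⟩
    have hgen' : Subgroup.closure ({a, u' * b} : Set S) = ⊤ := by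
      refine top_le_iff.1 (hab ▸ (Subgroup.closure_le _).2 ?_)
      have m1 := Subgroup.subset_closure (k := ({a, u' * b} : Set S)) (Or.inl rfl)
      have m2 := Subgroup.subset_closure (k := ({a, u' * b} : Set S)) (Or.inr rfl)
      rintro w (rfl | rfl)
      · exact m1
      · have := mul_mem (inv_mem (pow_mem m1 (2 ^ (k - l)))) m2
        rwa [← hu', inv_mul_cancel_left] at this
    obtain ⟨w, hw, hww⟩ : ∃ w, (w = 1 ∨ w = z) ∧ b * u' = u' * b * w := by
      rcases hcom u' b with h | h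
      · exact ⟨1, Or.inl rfl, by rw [mul_one, h]⟩
      · exact ⟨z, Or.inr rfl, h⟩
    have hwc : ∀ x, w * x = x * w := fun x => by rcases hw with h9 | h9 <;> subst h9 <;> first | rw [one_mul, mul_one] | exact hzc x
    have hpow : (u' * b) ^ 2 ^ (l + 1) = s * t * w ^ 2 ^ l := by
      have h1 : (u' * b) ^ 2 = u' ^ 2 * b ^ 2 * w := by
        rw [pow_two, show u' * b * (u' * b) = u' * (b * u') * b by group, hww]
        simp only [mul_assoc, hwc b, pow_two]
      have c1 : Commute (u' ^ 2) (b ^ 2) := by rw [pow_two]; exact hsqc u' (b ^ 2)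
      have c2 : Commute (u' ^ 2 * b ^ 2) w := (hwc _).symm
      rw [pow_succ', pow_mul, h1, c2.mul_pow, c1.mul_pow, ← pow_mul, ← pow_mul, hu', ← pow_mul, ← pow_succ', hs, ht, ← pow_add]
      congr 3
      congr 1
      omega
    have hmem : (u' * b) ^ 2 ^ (l + 1) = 1 ∨ (u' * b) ^ 2 ^ (l + 1) = z := by
      rw [hpow]
      have hwp : w ^ 2 ^ l = 1 ∨ w ^ 2 ^ l = z := by
        rcases hw with rfl | rfl
        · exact Or.inl (one_pow _)
        · rcases Nat.even_or_odd (2 ^ l) with ⟨j, hj⟩ | ⟨j, hj⟩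
          · exact Or.inl (by rw [hj, ← two_mul, pow_mul, pow_two, hz, one_pow])
          · exact Or.inr (by rw [hj, pow_succ, pow_mul, pow_two, hz, one_pow, one_mul])
      rcases hst with h | h <;> rcases hwp with h' | h' <;> simp [h, h', hz]
    rcases hmem with h | h
    · have h9 : orderOf (u' * b) ≤ 2 ^ (l + 1) := Nat.le_of_dvd (by positivity) (orderOf_dvd_of_pow_eq_one h)
      have h8 := hmin a (u' * b) hgen'
      rw [hl, pow_succ 2 (l + 1)] at h8
      have : 0 < 2 ^ (l + 1) := by positivity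
      omega
    · exact hgenz (u' * b) a (hswap _ _ hgen') (h ▸ pow_mem (Subgroup.mem_zpowers _) _)

universe v

theorem main : ∀ (n : ℕ) (S : Type v) [Group S] [Finite S], Nat.card S ≤ n → IsPGroup 2 S →
    Cfsg.SectionalPRankLE 2 2 S → Cfsg.IsMetacyclic S := by
  haveI := Fact.mk Nat.prime_two
  intro n
  induction n with
  | zero => intro S _ _ h; exact absurd Nat.card_pos (by omega : ¬ 0 < Nat.card S)
  | succ n ih =>
  intro S _ _ hn h2 hr
  classical
  obtain ⟨a, b, hab⟩ := two_gen h2 hr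
  by_cases hcomm : ∀ x y : S, x * y = y * x
  · exact meta_of_gen a b hab ⟨fun x hx s => by rwa [← hcomm x s, mul_inv_cancel_right]⟩
  have hDne : commutator S ≠ ⊥ := fun h => hcomm fun x y => commutatorElement_eq_one_iff_mul_comm.1
    (Subgroup.mem_bot.1 (h ▸ Subgroup.commutator_mem_commutator (Subgroup.mem_top x) (Subgroup.mem_top y)))
  obtain ⟨M, hM⟩ : ∃ M, M = Subgroup.normalClosure {x : S | ∃ d ∈ commutator S, x = d * d} ⊔ ⁅commutator S, (⊤ : Subgroup S)⁆ := ⟨_, rfl⟩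
  haveI hMn : M.Normal := hM ▸ inferInstance
  by_cases hMb : M = ⊥
  · have hDc : ∀ d ∈ commutator S, (∀ x, d * x = x * d) ∧ d * d = 1 := fun d hd => ⟨fun x => commutatorElement_eq_one_iff_mul_comm.1
      (Subgroup.mem_bot.1 (hMb ▸ hM ▸ Subgroup.mem_sup_right (Subgroup.commutator_mem_commutator hd (Subgroup.mem_top x)))),
      Subgroup.mem_bot.1 (hMb ▸ hM ▸ Subgroup.mem_sup_left (Subgroup.subset_normalClosure ⟨d, hd, rfl⟩))⟩
    obtain ⟨z, hz⟩ : ∃ z, z = ⁅b, a⁆ := ⟨_, rfl⟩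
    have hzD : z ∈ commutator S := hz ▸ Subgroup.commutator_mem_commutator (Subgroup.mem_top b) (Subgroup.mem_top a)
    obtain ⟨hzc, hzz⟩ := hDc z hzD
    haveI hZn : (Subgroup.zpowers z).Normal := ⟨fun x hx s => by
      obtain ⟨i, rfl⟩ := hx
      have : Commute s (z ^ i) := Commute.zpow_right (hzc s).symm i
      show s * z ^ i * s⁻¹ ∈ _
      rw [this.eq, mul_inv_cancel_right]
      exact Subgroup.zpow_mem_zpowers z i⟩
    have hgen : ∀ s : S, (QuotientGroup.mk s : S ⧸ Subgroup.zpowers z) ∈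
        Subgroup.closure ((QuotientGroup.mk' (Subgroup.zpowers z)) '' {a, b}) := fun s => by
      rw [← MonoidHom.map_closure, hab]
      exact ⟨s, Subgroup.mem_top s, rfl⟩
    haveI := Subgroup.isMulCommutative_closure (k := (QuotientGroup.mk' (Subgroup.zpowers z)) '' {a, b}) (by
      have hba : (QuotientGroup.mk' (Subgroup.zpowers z)) b * QuotientGroup.mk' _ a = QuotientGroup.mk' _ a * QuotientGroup.mk' _ b := by
        rw [← commutatorElement_eq_one_iff_mul_comm, ← map_commutatorElement, ← hz]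
        exact (QuotientGroup.eq_one_iff z).2 (Subgroup.mem_zpowers z)
      rintro _ ⟨u, rfl | rfl, rfl⟩ _ ⟨v, rfl | rfl, rfl⟩ <;> first | rfl | exact hba | exact hba.symm)
    have hcom : ∀ x y : S, x * y = y * x ∨ y * x = x * y * z := fun x y => by
      have h1 : (QuotientGroup.mk (x * y) : S ⧸ Subgroup.zpowers z) = QuotientGroup.mk (y * x) :=
        congrArg Subtype.val (IsMulCommutative.is_comm.comm
          (⟨_, hgen x⟩ : Subgroup.closure ((QuotientGroup.mk' (Subgroup.zpowers z)) '' {a, b})) ⟨_, hgen y⟩)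
      obtain ⟨i, hi : z ^ i = (x * y)⁻¹ * (y * x)⟩ := QuotientGroup.eq.1 h1
      have hyx : y * x = x * y * z ^ i := by rw [hi, mul_inv_cancel_left]
      rcases Int.even_or_odd i with ⟨j, rfl⟩ | ⟨j, rfl⟩
      · left; rw [hyx, ← two_mul, zpow_mul, zpow_two, hzz, one_zpow, mul_one]
      · right; rw [hyx, zpow_add, zpow_mul, zpow_two, hzz, one_zpow, one_mul, zpow_one]
    have hz1 : z ≠ 1 := fun h => hcomm fun x y => by
      rcases hcom x y with e | e
      · exact e
      · rw [e, h, mul_one]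
    exact (class_two h2 hr z hzz hz1 hzc hcom).resolve_right hcomm
  -- a central involution inside `M`
  have hMz : M ⊓ Subgroup.center S ≠ ⊥ := by
    haveI : Group.IsNilpotent S := h2.isNilpotent
    exact Cfsg.Lib.Transfer.inf_center_ne_bot h2 M hMb
  obtain ⟨⟨z₀, hz₀⟩, hz₀1⟩ := Subgroup.ne_bot_iff_exists_ne_one.1 hMz
  obtain ⟨j, hj⟩ := IsPGroup.iff_orderOf.1 h2 z₀
  obtain ⟨j, rfl⟩ : ∃ j', j = j' + 1 := by
    rcases j with _ | j
    · rw [pow_zero, orderOf_eq_one_iff] at hj; exact absurd (Subtype.ext hj) hz₀1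
    · exact ⟨j, rfl⟩
  obtain ⟨z, hz⟩ : ∃ z, z = z₀ ^ 2 ^ j := ⟨_, rfl⟩
  have hzz : z * z = 1 := by rw [hz, ← pow_add, ← two_mul, ← pow_succ', ← hj, pow_orderOf_eq_one]
  have hz1 : z ≠ 1 := fun h => by
    have h9 : orderOf z₀ ≤ 2 ^ j := Nat.le_of_dvd (by positivity) (orderOf_dvd_of_pow_eq_one (hz ▸ h))
    rw [hj, pow_succ] at h9
    have : 0 < 2 ^ j := by positivity
    omega
  have hzM : z ∈ M := hz ▸ pow_mem hz₀.1 _
  have hzc : ∀ x, x * z = z * x := fun x => Subgroup.mem_center_iff.1 (hz ▸ pow_mem hz₀.2 _) x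
  obtain ⟨Z, hZ⟩ : ∃ Z, Z = Subgroup.zpowers z := ⟨_, rfl⟩
  haveI hZn : Z.Normal := ⟨fun x hx s => by
    rw [hZ] at hx ⊢
    obtain ⟨i, rfl⟩ := hx
    show s * z ^ i * s⁻¹ ∈ _
    rw [((Commute.zpow_right (hzc s : Commute s z) i)).eq, mul_inv_cancel_right]
    exact Subgroup.zpow_mem_zpowers z i⟩
  have hlt : Nat.card (S ⧸ Z) ≤ n := by
    have h1 := Z.card_eq_card_quotient_mul_card_subgroup
    have h3 : 1 < Nat.card Z := (Subgroup.one_lt_card_iff_ne_bot Z).2 (by rw [hZ]; simpa using hz1)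
    have h4 : 0 < Nat.card (S ⧸ Z) := Nat.card_pos
    nlinarith
  obtain ⟨Nb, hNbn, hNbc, hNbq⟩ := ih (S ⧸ Z) hlt (h2.to_quotient Z) (sect_quot hr (QuotientGroup.mk' Z) (QuotientGroup.mk'_surjective Z))
  obtain ⟨A, hA⟩ : ∃ A, A = Nb.comap (QuotientGroup.mk' Z) := ⟨_, rfl⟩
  haveI hAn : A.Normal := hA ▸ Subgroup.Normal.comap hNbn _
  haveI hAq : IsCyclic (S ⧸ A) := by
    let f : S →* (S ⧸ Z) ⧸ Nb := (QuotientGroup.mk' Nb).comp (QuotientGroup.mk' Z)
    have hf : A = f.ker := by rw [hA]; ext x; simp [f]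
    exact isCyclic_of_injective ((QuotientGroup.kerLift f).comp (QuotientGroup.quotientMulEquivOfEq hf).toMonoidHom)
      ((QuotientGroup.kerLift_injective f).comp (QuotientGroup.quotientMulEquivOfEq hf).injective)
  by_cases hAc : IsCyclic A
  · exact ⟨A, hAn, hAc, hAq⟩
  exfalso
  obtain ⟨⟨c, hc⟩, hcg⟩ := hNbc.exists_generator
  obtain ⟨a₀, rfl⟩ := QuotientGroup.mk_surjective c
  have ha₀ : a₀ ∈ A := hA ▸ hc
  have hform : ∀ x ∈ A, ∃ i : ℤ, ∃ e : ℤ, x = a₀ ^ i * z ^ e := fun x hx => by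
    obtain ⟨i, hi : (⟨QuotientGroup.mk a₀, hc⟩ : Nb) ^ i = ⟨QuotientGroup.mk x, (hA ▸ hx : x ∈ Nb.comap (QuotientGroup.mk' Z))⟩⟩ := hcg _
    have hi' : (QuotientGroup.mk (a₀ ^ i) : S ⧸ Z) = QuotientGroup.mk x := congrArg Subtype.val hi
    have h1 := QuotientGroup.eq.1 hi'
    rw [hZ] at h1
    obtain ⟨e, he : z ^ e = _⟩ := h1
    exact ⟨i, e, by rw [he, mul_inv_cancel_left]⟩
  have hzA : z ∈ A := by
    rw [hA, Subgroup.mem_comap, QuotientGroup.mk'_apply, (QuotientGroup.eq_one_iff z).2 (hZ ▸ Subgroup.mem_zpowers z)]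
    exact one_mem _
  have hzn : z ∉ Subgroup.zpowers a₀ := fun h => hAc ⟨⟨a₀, ha₀⟩, fun x => by
    obtain ⟨i, e, hx⟩ := hform x x.2
    have hmem : (x : S) ∈ Subgroup.zpowers a₀ := hx ▸ mul_mem (Subgroup.zpow_mem_zpowers a₀ i) (zpow_mem h e)
    obtain ⟨r, hr'⟩ := hmem
    exact ⟨r, Subtype.ext hr'⟩⟩
  have hAcomm : ∀ x ∈ A, ∀ y ∈ A, x * y = y * x := fun x hx y hy => by
    obtain ⟨i, e, rfl⟩ := hform x hx
    obtain ⟨i', e', rfl⟩ := hform y hy
    have c1 : Commute z a₀ := (hzc a₀).symm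
    exact (((Commute.refl a₀).zpow_zpow i i').mul_right (c1.zpow_zpow e' i).symm).mul_left
      ((c1.zpow_zpow e i').mul_right ((Commute.refl z).zpow_zpow e e'))
  let A2 : Subgroup S :=
    { carrier := {x | ∃ y ∈ A, y * y = x}
      one_mem' := ⟨1, one_mem _, one_mul 1⟩
      mul_mem' := by
        rintro _ _ ⟨x, hx, rfl⟩ ⟨y, hy, rfl⟩
        exact ⟨x * y, mul_mem hx hy, by rw [mul_assoc x y, ← mul_assoc y x, ← hAcomm x hx y hy]; group⟩
      inv_mem' := by
        rintro _ ⟨x, hx, rfl⟩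
        exact ⟨x⁻¹, inv_mem hx, by group⟩ }
  haveI : A2.Normal := ⟨by
    rintro _ ⟨x, hx, rfl⟩ s
    exact ⟨s * x * s⁻¹, hAn.conj_mem x hx s, by group⟩⟩
  have hA2z : z ∉ A2 := by
    rintro ⟨y, hy, hyz⟩
    obtain ⟨i, e, rfl⟩ := hform y hy
    have h9 : (a₀ ^ i * z ^ e) * (a₀ ^ i * z ^ e) = a₀ ^ (i + i) := by
      have h10 : z ^ e * z ^ e = 1 := by rw [← zpow_add, ← two_mul, zpow_mul, zpow_two, hzz, one_zpow]
      have c : Commute (z ^ e) (a₀ ^ i) := (show Commute z a₀ from (hzc a₀).symm).zpow_zpow e i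
      rw [mul_assoc, ← mul_assoc (z ^ e), c.eq, mul_assoc, h10, mul_one, zpow_add]
    exact hzn (hyz ▸ h9 ▸ Subgroup.zpow_mem_zpowers a₀ (i + i))
  have hDA : commutator S ≤ A := Subgroup.Normal.quotient_commutative_iff_commutator_le.1 IsCyclic.isMulCommutative
  have hAD : a₀ ∉ commutator S := fun h => by
    obtain ⟨g, hg⟩ := IsCyclic.exists_generator (α := S ⧸ A)
    obtain ⟨g, rfl⟩ := QuotientGroup.mk_surjective g
    have hAΦ : A ≤ frattini S := fun x hx => by
      obtain ⟨i, e, rfl⟩ := hform x hx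
      refine mul_mem (zpow_mem (Cfsg.Lib.Solv.commutator_le_frattini h2 h) i) (zpow_mem ?_ e)
      refine Cfsg.Lib.Solv.commutator_le_frattini h2 ?_
      refine (hM ▸ sup_le (Subgroup.normalClosure_le_normal ?_) (Subgroup.commutator_le_left _ _) : M ≤ commutator S) hzM
      rintro _ ⟨d, hd, rfl⟩
      exact mul_mem hd hd
    have htop : Subgroup.zpowers g = ⊤ := frattini_nongenerating (top_le_iff.1 fun s _ => by
      obtain ⟨i, hi : (QuotientGroup.mk g : S ⧸ A) ^ i = QuotientGroup.mk s⟩ := hg (QuotientGroup.mk s)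
      rw [← QuotientGroup.mk_zpow, QuotientGroup.eq] at hi
      rw [show s = g ^ i * ((g ^ i)⁻¹ * s) by group]
      exact Subgroup.mul_mem_sup (Subgroup.zpow_mem_zpowers g i) (hAΦ hi))
    refine hcomm fun x y => ?_
    obtain ⟨i, rfl⟩ : x ∈ Subgroup.zpowers g := htop ▸ Subgroup.mem_top x
    obtain ⟨i', rfl⟩ : y ∈ Subgroup.zpowers g := htop ▸ Subgroup.mem_top y
    exact ((Commute.refl g).zpow_zpow i i').eq
  have hzD : z ∈ commutator S := by
    refine (hM ▸ sup_le (Subgroup.normalClosure_le_normal ?_) (Subgroup.commutator_le_left _ _) : M ≤ commutator S) hzM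
    rintro _ ⟨d, hd, rfl⟩
    exact mul_mem hd hd
  refine hA2z ((hM ▸ sup_le (Subgroup.normalClosure_le_normal ?_) (Subgroup.commutator_le.2 ?_) : M ≤ A2) hzM)
  · rintro _ ⟨d, hd, rfl⟩
    exact ⟨d, hDA hd, rfl⟩
  · intro d hd s _
    obtain ⟨i, e, rfl⟩ := hform d (hDA hd)
    rcases Int.even_or_odd i with ⟨r, rfl⟩ | ⟨r, rfl⟩
    · have hze : Commute s (z ^ e) := Commute.zpow_right (hzc s : Commute s z) e
      refine ⟨a₀ ^ r * (s * (a₀ ^ r)⁻¹ * s⁻¹), mul_mem (zpow_mem ha₀ r) (hAn.conj_mem _ (inv_mem (zpow_mem ha₀ r)) s), ?_⟩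
      obtain ⟨P, hP⟩ : ∃ P, P = s * (a₀ ^ r)⁻¹ * s⁻¹ := ⟨_, rfl⟩
      have hPA : P ∈ A := hP ▸ hAn.conj_mem _ (inv_mem (zpow_mem ha₀ r)) s
      rw [← hP, mul_assoc, ← mul_assoc P, ← hAcomm _ (zpow_mem ha₀ r) P hPA, hP, commutatorElement_def, mul_inv_rev]
      rw [show a₀ ^ (r + r) * z ^ e * s * ((z ^ e)⁻¹ * (a₀ ^ (r + r))⁻¹) = a₀ ^ (r + r) * (z ^ e * s * (z ^ e)⁻¹) * (a₀ ^ (r + r))⁻¹ by group,
        ← hze.eq, mul_inv_cancel_right, zpow_add, mul_inv_rev]
      group
    · exfalso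
      refine hAD ?_
      have h1 : a₀ ^ (2 * r + 1) ∈ commutator S := by
        have := mul_mem hd (inv_mem (zpow_mem hzD e))
        rwa [mul_inv_cancel_right] at this
      obtain ⟨m, hm⟩ := IsPGroup.iff_orderOf.1 h2 a₀
      have hcop : Int.gcd (2 * r + 1) ((2 ^ m : ℕ) : ℤ) = 1 := by
        rw [Int.gcd_def, Int.natAbs_natCast]
        refine Nat.Coprime.pow_right m ?_
        rw [Nat.coprime_two_right, Int.natAbs_odd]
        exact ⟨r, rfl⟩
      have h3 := Int.gcd_eq_gcd_ab (2 * r + 1) ((2 ^ m : ℕ) : ℤ)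
      rw [hcop] at h3
      have hord0 : a₀ ^ (2 ^ m) = 1 := by rw [← hm, pow_orderOf_eq_one]
      have h5 : a₀ = (a₀ ^ (2 * r + 1)) ^ (Int.gcdA (2 * r + 1) ((2 ^ m : ℕ) : ℤ)) := by
        conv_lhs => rw [← zpow_one a₀, show (1 : ℤ) = ((1 : ℕ) : ℤ) from rfl, h3, zpow_add, zpow_mul, zpow_mul, zpow_natCast, hord0, one_zpow, mul_one]
      rw [h5]
      exact zpow_mem h1 _


/-- A finite 2-group of sectional 2-rank at most 2 (every section has no elementary abelian subgroup of order 8) is metacyclic: it has a cyclic normal subgroup with cyclic quotient. -/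
theorem result {S : Type*} [Group S] [Finite S] (h2 : IsPGroup 2 S) (hr : Cfsg.SectionalPRankLE 2 2 S) : Cfsg.IsMetacyclic S := by
  exact main (Nat.card S) S le_rfl h2 hr

end Cfsg.Agent.S4397
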