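import Cfsg.Statements.S4400
import Mathlib
import Cfsg.Agent.Lib.Transfer.PGroupNormal
import Cfsg.Agent.Lib.Solv.PGroupBasic
-- import your own Cfsg.Agent.* helpers here

set_option autoImplicit false
open Cfsg
open scoped commutatorElement

namespace Cfsg.Agent.S4400

open Subgroup

theorem index_frattini_ge {S : Type*} [Group S] [Finite S] (h2 : IsPGroup 2 S) (P : Subgroup S) (hP : ¬ IsMulCommutative ↥P) :
    4 ≤ (frattini ↥P).index := by
  have hP2 : IsPGroup 2 ↥P := h2.to_subgroup P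
  obtain ⟨k, hk⟩ := hP2.index (frattini ↥P)
  rcases Nat.lt_or_ge k 2 with hk2 | hk2
  · exfalso
    apply hP
    have hgen : ∃ x : ↥P, Subgroup.zpowers x = ⊤ := by
      rcases eq_or_ne (frattini ↥P) ⊤ with e | e
      · exact ⟨1, frattini_nongenerating (by rw [e, sup_top_eq])⟩
      · obtain ⟨x, -, hx⟩ := SetLike.exists_of_lt (lt_top_iff_ne_top.2 e)
        refine ⟨x, frattini_nongenerating ?_⟩
        have hk1 : k = 1 := by
          rcases k with _ | k
          · rw [pow_zero, Subgroup.index_eq_one] at hk; exact absurd hk e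
          · omega
        rw [hk1, pow_one] at hk
        rw [eq_top_iff]
        intro y _
        by_cases hy : y ∈ frattini ↥P
        · exact mem_sup_right hy
        · have h3 : y * x ∈ frattini ↥P := (Subgroup.mul_mem_iff_of_index_two hk).2 (iff_of_false hy hx)
          have h4 := mul_mem (mem_sup_right (S := zpowers x) h3) (mem_sup_left (T := frattini ↥P) (inv_mem (mem_zpowers x)))
          rwa [mul_inv_cancel_right] at h4
    obtain ⟨x, hx⟩ := hgen
    refine ⟨⟨fun a b => ?_⟩⟩
    obtain ⟨i, rfl⟩ := mem_zpowers_iff.1 (hx ▸ mem_top a : a ∈ zpowers x)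
    obtain ⟨j, rfl⟩ := mem_zpowers_iff.1 (hx ▸ mem_top b : b ∈ zpowers x)
    rw [← zpow_add, ← zpow_add, add_comm]
  · rw [hk]; exact Nat.pow_le_pow_right (n := 2) (by norm_num) hk2

theorem center_le_frattini {S : Type*} [Group S] [Finite S] (h2 : IsPGroup 2 S) (P : Subgroup S) (hP : ¬ IsMulCommutative ↥P)
    (hZP : Nat.card ↥(Subgroup.center ↥P) = 2) : Subgroup.center ↥P ≤ frattini ↥P := by
  haveI : Fact (Nat.Prime 2) := ⟨Nat.prime_two⟩
  have hP2 : IsPGroup 2 ↥P := h2.to_subgroup P
  have h1 : commutator ↥P ≠ ⊥ := fun e => hP ⟨⟨fun a b => by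
    have h : ⁅a, b⁆ ∈ commutator ↥P := Subgroup.commutator_mem_commutator (mem_top a) (mem_top b)
    rw [e, mem_bot, commutatorElement_eq_one_iff_mul_comm] at h
    exact h⟩⟩
  have h3 := Cfsg.Lib.Transfer.inf_center_ne_bot hP2 _ h1
  have h4 : Nat.card ↥(commutator ↥P ⊓ Subgroup.center ↥P) = 2 := by
    have hd := Subgroup.card_dvd_of_le (inf_le_right (a := commutator ↥P) (b := Subgroup.center ↥P))
    rw [hZP] at hd
    exact ((Nat.dvd_prime Nat.prime_two).1 hd).resolve_left fun e => h3 (Subgroup.card_eq_one.1 e)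
  have h5 : commutator ↥P ⊓ Subgroup.center ↥P = Subgroup.center ↥P :=
    Subgroup.eq_of_le_of_card_ge inf_le_right (by rw [hZP, h4])
  exact h5.ge.trans (inf_le_left.trans (Cfsg.Lib.Solv.commutator_le_frattini hP2))

theorem card_mul_relIndex' {S : Type*} [Group S] {A B : Subgroup S} (h : A ≤ B) :
    Nat.card ↥A * A.relIndex B = Nat.card ↥B := by
  rw [← Subgroup.relIndex_bot_left, Subgroup.relIndex_mul_relIndex _ _ _ bot_le h, Subgroup.relIndex_bot_left]

theorem center_map_le {S : Type*} [Group S] [Finite S] (h2 : IsPGroup 2 S) (P : Subgroup S) [P.Normal]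
    (hZP : Nat.card ↥(Subgroup.center ↥P) = 2) (N : Subgroup S) [N.Normal] (hNP : N ≤ P) (hN : N ≠ ⊥) :
    (Subgroup.center ↥P).map P.subtype ≤ N := by
  haveI : Fact (Nat.Prime 2) := ⟨Nat.prime_two⟩
  have h1 := Cfsg.Lib.Transfer.inf_center_ne_bot h2 N hN
  have h3 : N ⊓ Subgroup.center S ≤ (Subgroup.center ↥P).map P.subtype := fun x hx =>
    ⟨⟨x, hNP hx.1⟩, Subgroup.mem_center_iff.2 fun y => Subtype.ext (Subgroup.mem_center_iff.1 hx.2 _), rfl⟩
  have h4 : Nat.card ↥((Subgroup.center ↥P).map P.subtype) = 2 := by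
    rw [Subgroup.card_map_of_injective P.subtype_injective, hZP]
  have hd := Subgroup.card_dvd_of_le h3
  rw [h4] at hd
  have h5 : Nat.card ↥(N ⊓ Subgroup.center S) = 2 :=
    ((Nat.dvd_prime Nat.prime_two).1 hd).resolve_left fun e => h1 (Subgroup.card_eq_one.1 e)
  rw [← Subgroup.eq_of_le_of_card_ge h3 (by rw [h4, h5])]
  exact inf_le_left

/-- Let S be a finite 2-group of sectional 2-rank at most 4, and let P and Q be normal non-abelian subgroups of S whose centres have order 2 and are different. Then P and Q commute elementwise and intersect trivially, and PQ contains its own centralizer in S. -/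
theorem result {S : Type*} [Group S] [Finite S] (h2 : IsPGroup 2 S) (hr : Cfsg.SectionalPRankLE 2 4 S)
    (P Q : Subgroup S) [P.Normal] [Q.Normal] (hP : ¬ IsMulCommutative ↥P) (hQ : ¬ IsMulCommutative ↥Q)
    (hZP : Nat.card ↥(Subgroup.center ↥P) = 2) (hZQ : Nat.card ↥(Subgroup.center ↥Q) = 2)
    (hne : (Subgroup.center ↥P).map P.subtype ≠ (Subgroup.center ↥Q).map Q.subtype) :
    ⁅P, Q⁆ = ⊥ ∧ P ⊓ Q = ⊥ ∧ Subgroup.centralizer ((P ⊔ Q : Subgroup S) : Set S) ≤ P ⊔ Q := by
  haveI : Fact (Nat.Prime 2) := ⟨Nat.prime_two⟩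
  have hinf : P ⊓ Q = ⊥ := by
    by_contra hne'
    have a := center_map_le h2 P hZP (P ⊓ Q) inf_le_left hne'
    have b := center_map_le h2 Q hZQ (P ⊓ Q) inf_le_right hne'
    have c1 : (Subgroup.center ↥P).map P.subtype ≤ (Subgroup.center ↥Q).map Q.subtype := fun x hx => by
      obtain ⟨y, hy, rfl⟩ := hx
      have hyQ : (y : S) ∈ Q := (a ⟨y, hy, rfl⟩).2
      refine ⟨⟨y, hyQ⟩, Subgroup.mem_center_iff.2 fun q => Subtype.ext ?_, rfl⟩
      have hcq : (q : S) * y * (q : S)⁻¹ = y := by
        have hM : ((Subgroup.center ↥P).map P.subtype).Normal :=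
          ConjAct.normal_of_characteristic_of_normal
        have h6 := hM.conj_mem _ ⟨y, hy, rfl⟩ (q : S)
        obtain ⟨z, hz, hzy⟩ := h6
        have h7 := Nat.card_eq_two_iff' (1 : ↥(Subgroup.center ↥P)) |>.1 hZP
        obtain ⟨w, hw, huniq⟩ := h7
        by_cases hy1 : y = 1
        · subst hy1; simp
        have hz1 : z ≠ 1 := fun e => hy1 (by
          rw [e] at hzy
          exact Subtype.ext (by simpa using (conj_eq_one_iff.1 hzy.symm)))
        have e1 := huniq ⟨y, hy⟩ (fun e => hy1 (congrArg Subtype.val e))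
        have e2 := huniq ⟨z, hz⟩ (fun e => hz1 (congrArg Subtype.val e))
        have hzy' : (z : S) = (q : S) * y * (q : S)⁻¹ := hzy
        rw [← hzy', show z = y from congrArg Subtype.val (e2.trans e1.symm)]
      exact mul_inv_eq_iff_eq_mul.1 hcq
    exact hne (Subgroup.eq_of_le_of_card_ge c1 (by
      rw [Subgroup.card_map_of_injective P.subtype_injective, Subgroup.card_map_of_injective Q.subtype_injective, hZP, hZQ]))
  have hcomm : ⁅P, Q⁆ = ⊥ := le_bot_iff.1 ((Subgroup.commutator_le_inf P Q).trans hinf.le)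
  refine ⟨hcomm, hinf, ?_⟩
  by_contra hnle
  obtain ⟨c₀, hc₀, hc₀'⟩ := SetLike.not_le_iff_exists.1 hnle
  -- a centralizing element outside whose square lies inside
  obtain ⟨c, hc, hcn, hc2⟩ : ∃ c, c ∈ Subgroup.centralizer ((P ⊔ Q : Subgroup S) : Set S) ∧ c ∉ P ⊔ Q ∧ c * c ∈ P ⊔ Q := by
    obtain ⟨n, hn⟩ := h2 c₀
    have : ∃ m, c₀ ^ 2 ^ m ∈ P ⊔ Q := ⟨n, by rw [hn]; exact one_mem _⟩
    classical
    have h0 : Nat.find this ≠ 0 := fun e => hc₀' (by simpa [e] using Nat.find_spec this)
    refine ⟨c₀ ^ 2 ^ (Nat.find this - 1), pow_mem hc₀ _, Nat.find_min this (by omega), ?_⟩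
    rw [← pow_add, ← two_mul, ← pow_succ', Nat.sub_add_cancel (Nat.one_le_iff_ne_zero.2 h0)]
    exact Nat.find_spec this
  have hPQc : ∀ a ∈ P, ∀ b ∈ Q, a * b = b * a := fun a ha b hb =>
    commutatorElement_eq_one_iff_mul_comm.1 ((mem_bot).1 (hcomm ▸ Subgroup.commutator_mem_commutator ha hb))
  set FP := (frattini ↥P).map P.subtype
  set FQ := (frattini ↥Q).map Q.subtype
  haveI : FP.Normal := ConjAct.normal_of_characteristic_of_normal
  haveI : FQ.Normal := ConjAct.normal_of_characteristic_of_normal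
  set K := FP ⊔ FQ
  haveI : K.Normal := Subgroup.sup_normal _ _
  set H := P ⊔ Q ⊔ Subgroup.zpowers c
  set π := QuotientGroup.mk' K
  have hK1 : ∀ x, x ∈ K → π x = 1 := fun x hx => (QuotientGroup.eq_one_iff x).2 hx
  -- the square of c
  have hcc : c * c ∈ K := by
    rw [← SetLike.mem_coe, Subgroup.normal_mul] at hc2
    obtain ⟨a, ha, b, hb, hab⟩ := hc2
    change a * b = c * c at hab
    rw [← hab]
    have hcent : a * b ∈ Subgroup.centralizer ((P ⊔ Q : Subgroup S) : Set S) := hab ▸ mul_mem hc hc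
    refine mul_mem (mem_sup_left ⟨⟨a, ha⟩, center_le_frattini h2 P hP hZP (Subgroup.mem_center_iff.2 fun y => Subtype.ext ?_), rfl⟩)
      (mem_sup_right ⟨⟨b, hb⟩, center_le_frattini h2 Q hQ hZQ (Subgroup.mem_center_iff.2 fun y => Subtype.ext ?_), rfl⟩)
    · show (y : S) * a = a * y
      have h1 := Subgroup.mem_centralizer_iff.1 hcent y (mem_sup_left y.2)
      rw [← mul_assoc, mul_assoc a b, ← hPQc y y.2 b hb, ← mul_assoc] at h1
      exact mul_right_cancel h1
    · show (y : S) * b = b * y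
      have h1 := Subgroup.mem_centralizer_iff.1 hcent y (mem_sup_right y.2)
      rw [← mul_assoc, ← hPQc a ha y y.2, mul_assoc, mul_assoc] at h1
      exact mul_left_cancel h1
  have hsqP : ∀ a ∈ P, π a ^ 2 = 1 := fun a ha => by
    rw [← map_pow]; exact hK1 _ (mem_sup_left ⟨_, Cfsg.Lib.Solv.pow_mem_frattini (h2.to_subgroup P) ⟨a, ha⟩, rfl⟩)
  have hsqQ : ∀ a ∈ Q, π a ^ 2 = 1 := fun a ha => by
    rw [← map_pow]; exact hK1 _ (mem_sup_right ⟨_, Cfsg.Lib.Solv.pow_mem_frattini (h2.to_subgroup Q) ⟨a, ha⟩, rfl⟩)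
  let G : Set S := (P : Set S) ∪ Q ∪ {c}
  have hgen : Subgroup.closure G = H := by
    simp only [G, H, Subgroup.closure_union, Subgroup.closure_eq, Subgroup.zpowers_eq_closure]
  have hGc : ∀ x ∈ G, ∀ y ∈ G, π x * π y = π y * π x := by
    intro x hx y hy
    rw [← map_mul, ← map_mul]
    rcases hx with (hx | hx) | hx <;> rcases hy with (hy | hy) | hy
    · refine QuotientGroup.eq.2 (mem_sup_left ⟨⁅(⟨y, hy⟩ : P)⁻¹, (⟨x, hx⟩ : P)⁻¹⁆,
        Cfsg.Lib.Solv.commutator_le_frattini (h2.to_subgroup P) (Subgroup.commutator_mem_commutator (mem_top _) (mem_top _)), ?_⟩)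
      simp [commutatorElement_def, mul_assoc]
    · rw [hPQc x hx y hy]
    · rw [Set.mem_singleton_iff.1 hy, ← Subgroup.mem_centralizer_iff.1 hc x (mem_sup_left hx)]
    · rw [hPQc y hy x hx]
    · refine QuotientGroup.eq.2 (mem_sup_right ⟨⁅(⟨y, hy⟩ : Q)⁻¹, (⟨x, hx⟩ : Q)⁻¹⁆,
        Cfsg.Lib.Solv.commutator_le_frattini (h2.to_subgroup Q) (Subgroup.commutator_mem_commutator (mem_top _) (mem_top _)), ?_⟩)
      simp [commutatorElement_def, mul_assoc]
    · rw [Set.mem_singleton_iff.1 hy, ← Subgroup.mem_centralizer_iff.1 hc x (mem_sup_right hx)]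
    · rw [Set.mem_singleton_iff.1 hx, Subgroup.mem_centralizer_iff.1 hc y (mem_sup_left hy)]
    · rw [Set.mem_singleton_iff.1 hx, Subgroup.mem_centralizer_iff.1 hc y (mem_sup_right hy)]
    · rw [Set.mem_singleton_iff.1 hx, Set.mem_singleton_iff.1 hy]
  have hHc : ∀ x ∈ H, ∀ y ∈ H, π x * π y = π y * π x := by
    intro x hx y hy
    rw [← hgen] at hx hy
    induction hx, hy using Subgroup.closure_induction₂ with
    | mem x y hx hy => exact hGc x hx y hy
    | one_left x _ => rw [map_one, one_mul, mul_one]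
    | one_right x _ => rw [map_one, one_mul, mul_one]
    | mul_left x y z _ _ _ a b =>
      rw [map_mul]; exact (Commute.mul_left (show Commute (π x) (π z) from a) (show Commute (π y) (π z) from b)).eq
    | mul_right y z x _ _ _ a b =>
      rw [map_mul]; exact (Commute.mul_right (show Commute (π x) (π y) from a) (show Commute (π x) (π z) from b)).eq
    | inv_left x y _ _ a => rw [map_inv]; exact (Commute.inv_left (show Commute (π x) (π y) from a)).eq
    | inv_right x y _ _ a => rw [map_inv]; exact (Commute.inv_right (show Commute (π x) (π y) from a)).eq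
  have hHs : ∀ x ∈ H, π x ^ 2 = 1 := by
    intro x hx
    rw [← hgen] at hx
    induction hx using Subgroup.closure_induction with
    | mem x hx =>
      rcases hx with (hx | hx) | hx
      · exact hsqP x hx
      · exact hsqQ x hx
      · rw [Set.mem_singleton_iff.1 hx, ← map_pow, sq]; exact hK1 _ hcc
    | one => rw [map_one, one_pow]
    | mul x y hx hy a b =>
      rw [map_mul, (show Commute (π x) (π y) from hHc x (hgen ▸ hx) y (hgen ▸ hy)).mul_pow, a, b, one_mul]
    | inv x _ a => rw [map_inv, inv_pow, a, inv_one]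
  -- counting
  have hKH : K ≤ H := le_trans (sup_le_sup (map_subtype_le _) (map_subtype_le _)) le_sup_left
  have hb := hr H (K.subgroupOf H) ⊤ ⟨⟨fun u v => by
    obtain ⟨u, -⟩ := u
    obtain ⟨v, -⟩ := v
    apply Subtype.ext
    show u * v = v * u
    induction u using QuotientGroup.induction_on with
    | H a =>
      induction v using QuotientGroup.induction_on with
      | H b =>
        refine QuotientGroup.eq.2 ?_
        rw [mem_subgroupOf]
        exact (QuotientGroup.eq (s := K)).1 (hHc a a.2 b b.2)⟩⟩ (fun u _ => by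
    induction u using QuotientGroup.induction_on with
    | H a =>
      rw [← QuotientGroup.mk_pow, QuotientGroup.eq_one_iff, mem_subgroupOf]
      exact (QuotientGroup.eq_one_iff _).1 ((map_pow π (a : S) 2).trans (hHs a a.2)))
  rw [Subgroup.card_top] at hb
  change (K.relIndex H) ≤ 2 ^ 4 at hb
  have hcardH : 2 * Nat.card ↥(P ⊔ Q) ≤ Nat.card ↥H := by
    have hle : P ⊔ Q ≤ H := le_sup_left
    obtain ⟨t, ht⟩ := Subgroup.card_dvd_of_le hle
    have ht1 : t ≠ 1 := fun e => hcn (by
      rw [Subgroup.eq_of_le_of_card_ge hle (by rw [ht, e, mul_one])]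
      exact mem_sup_right (mem_zpowers c))
    have ht0 : t ≠ 0 := fun e => by rw [e, mul_zero] at ht; exact Nat.card_pos.ne' ht
    rw [ht, mul_comm]; exact Nat.mul_le_mul_left _ (by omega)
  have hPQ : Nat.card ↥(P ⊔ Q) = Nat.card ↥P * Nat.card ↥Q := by
    rw [← card_mul_relIndex' (A := P) (B := P ⊔ Q) le_sup_left, sup_comm, Subgroup.relIndex_sup_right, ← Subgroup.inf_relIndex_right, hinf,
      Subgroup.relIndex_bot_left]
  have hKc : Nat.card ↥K = Nat.card ↥FP * Nat.card ↥FQ := by
    rw [← card_mul_relIndex' (A := FP) (B := K) le_sup_left, show K = FQ ⊔ FP from sup_comm _ _, Subgroup.relIndex_sup_right, ← Subgroup.inf_relIndex_right,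
      show FP ⊓ FQ = ⊥ from le_bot_iff.1 ((inf_le_inf (map_subtype_le _) (map_subtype_le _)).trans hinf.le),
      Subgroup.relIndex_bot_left]
  have hiP := index_frattini_ge h2 P hP
  have hiQ := index_frattini_ge h2 Q hQ
  have e1 := (frattini ↥P).index_mul_card
  have e2 := (frattini ↥Q).index_mul_card
  rw [← Subgroup.card_map_of_injective (K := frattini ↥P) P.subtype_injective] at e1
  rw [← Subgroup.card_map_of_injective (K := frattini ↥Q) Q.subtype_injective] at e2
  have e3 := card_mul_relIndex' hKH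
  rw [hKc] at e3
  rw [hPQ, ← e1, ← e2] at hcardH
  change 2 * ((frattini ↥P).index * Nat.card ↥FP * ((frattini ↥Q).index * Nat.card ↥FQ)) ≤ _ at hcardH
  have hpos : 0 < Nat.card ↥FP * Nat.card ↥FQ := Nat.mul_pos Nat.card_pos Nat.card_pos
  nlinarith [Nat.mul_le_mul hiP hiQ]

end Cfsg.Agent.S4400
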