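import Cfsg.Statements.S4401
import Mathlib
import Cfsg.Agent.Lib.Solv.PGroupBasic
import Cfsg.Agent.S4400
-- import your own Cfsg.Agent.* helpers here

set_option autoImplicit false
open Cfsg
open scoped commutatorElement

namespace Cfsg.Agent.S4401

open Subgroup

theorem prank_congr {X Y : Type*} [Group X] [Group Y] (e : X ≃* Y) {p k : ℕ} (h : Cfsg.PRankLE p k Y) :
    Cfsg.PRankLE p k X := by
  intro A hA hA2
  haveI := hA
  have h1 := h (A.map e.toMonoidHom) ⟨⟨fun u v => Subtype.ext (by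
    obtain ⟨_, a, ha, rfl⟩ := u
    obtain ⟨_, b, hb, rfl⟩ := v
    show e a * e b = e b * e a
    rw [← map_mul, ← map_mul, show a * b = b * a from congrArg Subtype.val (mul_comm' (⟨a, ha⟩ : A) ⟨b, hb⟩)])⟩⟩
    (by rintro _ ⟨a, ha, rfl⟩; show e a ^ p = 1; rw [← map_pow, hA2 a ha, map_one])
  rwa [Subgroup.card_map_of_injective (f := e.toMonoidHom) e.injective] at h1

theorem sectional_subgroup {S : Type*} [Group S] (T : Subgroup S) {p k : ℕ} (hr : Cfsg.SectionalPRankLE p k S) :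
    Cfsg.SectionalPRankLE p k ↥T := by
  intro H N _
  let e : ↥H ≃* ↥(H.map T.subtype) := H.equivMapOfInjective T.subtype T.subtype_injective
  haveI : (N.map e.toMonoidHom).Normal := Subgroup.Normal.map inferInstance _ e.surjective
  exact prank_congr (QuotientGroup.congr N (N.map e.toMonoidHom) e rfl) (hr _ _)

theorem card_mul_relIndex' {S : Type*} [Group S] {A B : Subgroup S} (h : A ≤ B) :
    Nat.card ↥A * A.relIndex B = Nat.card ↥B := by
  rw [← Subgroup.relIndex_bot_left, Subgroup.relIndex_mul_relIndex _ _ _ bot_le h, Subgroup.relIndex_bot_left]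

theorem card_sup_of_commute {S : Type*} [Group S] (A B : Subgroup S) (hc : ∀ a ∈ A, ∀ b ∈ B, Commute a b) (hd : A ⊓ B = ⊥) :
    Nat.card ↥(A ⊔ B) = Nat.card ↥A * Nat.card ↥B := by
  have hnm : A ≤ Subgroup.normalizer (B : Set S) := fun a ha => by
    rw [mem_normalizer_iff]
    intro b
    refine ⟨fun hb => by rw [(hc a ha b hb).eq, mul_inv_cancel_right]; exact hb, fun hb => ?_⟩
    have e : b = a * b * a⁻¹ := mul_left_cancel (a := a) (by rw [(hc a ha _ hb).eq, inv_mul_cancel_right])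
    rw [e]; exact hb
  let f : A × B → ↥(A ⊔ B) := fun x => ⟨(x.1 : S) * x.2, mul_mem (mem_sup_left x.1.2) (mem_sup_right x.2.2)⟩
  rw [← Nat.card_prod]
  refine (Nat.card_congr (Equiv.ofBijective f ⟨?_, ?_⟩)).symm
  · rintro ⟨a, b⟩ ⟨a', b'⟩ h
    have h' : (a : S) * b = a' * b' := congrArg Subtype.val h
    obtain ⟨h1, h2⟩ := Prod.mk.injEq _ _ _ _ ▸ (Subgroup.mul_injective_of_disjoint (disjoint_iff.2 hd) (a₁ := (a, b)) (a₂ := (a', b')) h')
    exact Prod.ext h1 h2
  · rintro ⟨y, hy⟩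
    rw [← SetLike.mem_coe, Subgroup.coe_mul_of_left_le_normalizer_right A B hnm] at hy
    obtain ⟨a, ha, b, hb, rfl⟩ := hy
    exact ⟨(⟨a, ha⟩, ⟨b, hb⟩), rfl⟩

/-- An elementary abelian section bounds. -/
theorem elem_section {S : Type*} [Group S] {k : ℕ} (hr : Cfsg.SectionalPRankLE 2 k S) (H N : Subgroup S) (hNH : N ≤ H)
    (hc : ∀ x ∈ H, ∀ y ∈ H, ⁅x, y⁆ ∈ N) (hs : ∀ x ∈ H, x ^ 2 ∈ N) : N.relIndex H ≤ 2 ^ k := by
  haveI : (N.subgroupOf H).Normal := ⟨fun n hn h => by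
    rw [mem_subgroupOf] at hn ⊢
    have := N.mul_mem (hc h h.2 n (hNH hn)) hn
    rwa [show ⁅(h : S), (n : S)⁆ * n = ((h * n * h⁻¹ : ↥H) : S) by simp [commutatorElement_def, mul_assoc]] at this⟩
  have hb := hr H (N.subgroupOf H) ⊤ ⟨⟨fun u v => by
    obtain ⟨u, -⟩ := u
    obtain ⟨v, -⟩ := v
    apply Subtype.ext
    show u * v = v * u
    induction u using QuotientGroup.induction_on with
    | H a =>
      induction v using QuotientGroup.induction_on with
      | H b =>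
        refine QuotientGroup.eq.2 ?_
        rw [mem_subgroupOf]
        have := hc _ (inv_mem b.2) _ (inv_mem a.2)
        simpa [commutatorElement_def, mul_assoc] using this⟩⟩ (fun u _ => by
    induction u using QuotientGroup.induction_on with
    | H a =>
      rw [← QuotientGroup.mk_pow, QuotientGroup.eq_one_iff, mem_subgroupOf]
      exact hs a a.2)
  rw [Subgroup.card_top] at hb
  exact hb

theorem map_conj_mem {S : Type*} [Group S] {P : Subgroup S} {g x : S} :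
    x ∈ P.map (MulAut.conj g).toMonoidHom ↔ g⁻¹ * x * g ∈ P := by
  rw [Subgroup.mem_map_equiv]; simp [MulAut.conj_symm_apply]

theorem center_card_congr {X Y : Type*} [Group X] [Group Y] (e : X ≃* Y) :
    Nat.card ↥(Subgroup.center X) = Nat.card ↥(Subgroup.center Y) := by
  refine Nat.card_congr (e.toEquiv.subtypeEquiv fun x => ?_)
  show x ∈ Subgroup.center X ↔ e x ∈ Subgroup.center Y
  rw [Subgroup.mem_center_iff, Subgroup.mem_center_iff]
  refine ⟨fun h y => ?_, fun h y => e.injective (by rw [map_mul, map_mul]; exact h (e y))⟩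
  obtain ⟨y, rfl⟩ := e.surjective y
  rw [← map_mul, ← map_mul, h]

/-- Let S be a finite 2-group of sectional 2-rank at most 4 and P a proper non-abelian subgroup whose centre has order 2. Let S₀ be the centralizer in S of Z(P) and suppose P is normal in S₀. Then either S₀ = S, or P has sectional 2-rank at most 2 and S₀ has index 2 in S. -/
theorem result {S : Type*} [Group S] [Finite S] (h2 : IsPGroup 2 S) (hr : Cfsg.SectionalPRankLE 2 4 S)
    (P : Subgroup S) (hPlt : P ≠ ⊤) (hP : ¬ IsMulCommutative ↥P) (hZP : Nat.card ↥(Subgroup.center ↥P) = 2)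
    (S₀ : Subgroup S) (hS₀ : S₀ = Subgroup.centralizer (((Subgroup.center ↥P).map P.subtype : Subgroup S) : Set S))
    (hPn : ∀ s ∈ S₀, ∀ x ∈ P, s * x * s⁻¹ ∈ P) :
    S₀ = ⊤ ∨ (Cfsg.SectionalPRankLE 2 2 ↥P ∧ S₀.index = 2) := by
  haveI : Fact (Nat.Prime 2) := ⟨Nat.prime_two⟩
  obtain ⟨⟨⟨z, hzP⟩, hzc⟩, hz1', hzu⟩ := (Nat.card_eq_two_iff' (1 : ↥(Subgroup.center ↥P))).1 hZP
  have hz1 : z ≠ 1 := fun e => hz1' (Subtype.ext (Subtype.ext e))
  have hzx : ∀ x ∈ P, x * z = z * x := fun x hx => congrArg Subtype.val (Subgroup.mem_center_iff.1 hzc ⟨x, hx⟩)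
  have hZ : ∀ w ∈ P, (∀ x ∈ P, x * w = w * x) → w = 1 ∨ w = z := fun w hw h => by
    by_cases hw1 : w = 1
    · exact Or.inl hw1
    · have := hzu ⟨⟨w, hw⟩, Subgroup.mem_center_iff.2 fun x => Subtype.ext (h x x.2)⟩
        (fun e => hw1 (congrArg (fun q : ↥(Subgroup.center ↥P) => ((q : ↥P) : S)) e))
      exact Or.inr (congrArg (fun q : ↥(Subgroup.center ↥P) => ((q : ↥P) : S)) this)
  have hS0 : ∀ x, x ∈ S₀ ↔ x * z = z * x := by
    intro x
    rw [hS₀, Subgroup.mem_centralizer_iff]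
    refine ⟨fun h => (h z ⟨⟨z, hzP⟩, hzc, rfl⟩).symm, ?_⟩
    rintro h _ ⟨y, hy, rfl⟩
    rcases hZ y y.2 (fun a ha => congrArg Subtype.val (Subgroup.mem_center_iff.1 hy ⟨a, ha⟩)) with e | e
    · show (y : S) * x = x * y; rw [e, one_mul, mul_one]
    · show (y : S) * x = x * y; rw [e, h]
  rcases eq_or_ne S₀ ⊤ with e | hS0t
  · exact Or.inl e
  refine Or.inr ?_
  have hPS : P ≤ S₀ := fun x hx => (hS0 x).2 (hzx x hx)
  have hzS : z ∈ S₀ := hPS hzP
  obtain ⟨g, hgN, hgS⟩ := SetLike.exists_of_lt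
    ((Group.normalizerCondition_of_isNilpotent (h := h2.isNilpotent)) S₀ (lt_top_iff_ne_top.2 hS0t))
  let cj : S → S := fun s => s * z * s⁻¹
  have hcj : ∀ s, (s ∈ S₀ ↔ cj s = z) := fun s => by rw [hS0]; exact mul_inv_eq_iff_eq_mul.symm
  have hcjm : ∀ a b, cj (a * b) = a * cj b * a⁻¹ := fun a b => by simp only [cj, mul_inv_rev, mul_assoc]
  have hconjS : ∀ h ∈ normalizer (S₀ : Set S), ∀ x ∈ S₀, h * x * h⁻¹ ∈ S₀ := fun h hh x hx => (mem_normalizer_iff.1 hh x).1 hx
  have hnormP : ∀ h, h ∈ normalizer (S₀ : Set S) → P.map (MulAut.conj h).toMonoidHom ≤ S₀ ∧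
      ∀ s ∈ S₀, ∀ x ∈ P.map (MulAut.conj h).toMonoidHom, s * x * s⁻¹ ∈ P.map (MulAut.conj h).toMonoidHom := by
    intro h hh
    refine ⟨?_, fun s hs x hx => ?_⟩
    · rintro _ ⟨x, hx, rfl⟩; exact hconjS h hh x (hPS hx)
    · rw [map_conj_mem] at hx ⊢
      have hs' : h⁻¹ * s * h ∈ S₀ := by simpa using hconjS h⁻¹ (inv_mem hh) s hs
      have := hPn _ hs' _ hx
      simpa [mul_assoc] using this
  -- two conjugates with different centres
  have pair : ∀ h₁ ∈ normalizer (S₀ : Set S), ∀ h₂ ∈ normalizer (S₀ : Set S), cj h₁ ≠ cj h₂ →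
      (∀ x ∈ P, ∀ y ∈ P, (h₁ * x * h₁⁻¹) * (h₂ * y * h₂⁻¹) = (h₂ * y * h₂⁻¹) * (h₁ * x * h₁⁻¹)) ∧
      (∀ w, w ∈ P.map (MulAut.conj h₁).toMonoidHom → w ∈ P.map (MulAut.conj h₂).toMonoidHom → w = 1) ∧
      (∀ c ∈ S₀, (∀ x ∈ P, Commute c (h₁ * x * h₁⁻¹)) → (∀ x ∈ P, Commute c (h₂ * x * h₂⁻¹)) →
        c = 1 ∨ c = cj h₁ ∨ c = cj h₂ ∨ c = cj h₁ * cj h₂) := by
    intro h₁ hh₁ h₂ hh₂ hne
    set A := P.map (MulAut.conj h₁).toMonoidHom
    set B := P.map (MulAut.conj h₂).toMonoidHom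
    haveI : (A.subgroupOf S₀).Normal := ⟨fun n hn s => (hnormP h₁ hh₁).2 s s.2 n hn⟩
    haveI : (B.subgroupOf S₀).Normal := ⟨fun n hn s => (hnormP h₂ hh₂).2 s s.2 n hn⟩
    have eA : ↥P ≃* ↥(A.subgroupOf S₀) :=
      (P.equivMapOfInjective (MulAut.conj h₁).toMonoidHom (MulAut.conj h₁).injective).trans (subgroupOfEquivOfLe (hnormP h₁ hh₁).1).symm
    have eB : ↥P ≃* ↥(B.subgroupOf S₀) :=
      (P.equivMapOfInjective (MulAut.conj h₂).toMonoidHom (MulAut.conj h₂).injective).trans (subgroupOfEquivOfLe (hnormP h₂ hh₂).1).symm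
    have hnc : ∀ {Y : Subgroup ↥S₀}, (↥P ≃* ↥Y) → ¬ IsMulCommutative ↥Y := fun e hY => hP ⟨⟨fun a b => e.injective (by
      haveI := hY; rw [map_mul, map_mul, mul_comm'])⟩⟩
    have hcen : ∀ h : S, ∀ w ∈ P.map (MulAut.conj h).toMonoidHom,
        (∀ x ∈ P, Commute w (h * x * h⁻¹)) → w = 1 ∨ w = cj h := by
      rintro h _ ⟨y, hy, rfl⟩ hc
      rcases hZ y hy (fun x hx => by
        have := (hc x hx).eq
        simp only [MulEquiv.toMonoidHom_eq_coe, MonoidHom.coe_coe, MulAut.conj_apply] at this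
        rw [show h * y * h⁻¹ * (h * x * h⁻¹) = h * (y * x) * h⁻¹ by group,
          show h * x * h⁻¹ * (h * y * h⁻¹) = h * (x * y) * h⁻¹ by group] at this
        exact (mul_left_cancel (mul_right_cancel this)).symm) with rfl | rfl
      · exact Or.inl (map_one _)
      · exact Or.inr rfl
    have hne' : (Subgroup.center ↥(A.subgroupOf S₀)).map (A.subgroupOf S₀).subtype ≠
        (Subgroup.center ↥(B.subgroupOf S₀)).map (B.subgroupOf S₀).subtype := by
      intro e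
      have hmem : (⟨cj h₁, hconjS h₁ hh₁ z hzS⟩ : ↥S₀) ∈ (Subgroup.center ↥(A.subgroupOf S₀)).map (A.subgroupOf S₀).subtype :=
        ⟨⟨⟨cj h₁, hconjS h₁ hh₁ z hzS⟩, ⟨z, hzP, rfl⟩⟩, Subgroup.mem_center_iff.2 fun y => by
          obtain ⟨x, hx, hxy⟩ := (mem_subgroupOf.1 y.2)
          refine Subtype.ext (Subtype.ext ?_)
          show ((y : ↥S₀) : S) * cj h₁ = cj h₁ * ((y : ↥S₀) : S)
          rw [← hxy]
          show h₁ * x * h₁⁻¹ * (h₁ * z * h₁⁻¹) = h₁ * z * h₁⁻¹ * (h₁ * x * h₁⁻¹)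
          rw [show h₁ * x * h₁⁻¹ * (h₁ * z * h₁⁻¹) = h₁ * (x * z) * h₁⁻¹ by group, hzx x hx]; group, rfl⟩
      rw [e] at hmem
      obtain ⟨w, hw, hwz⟩ := hmem
      have hwz' : ((w : ↥S₀) : S) = cj h₁ := congrArg Subtype.val hwz
      rcases hcen h₂ _ (mem_subgroupOf.1 w.2) (fun x hx => by
        have := Subgroup.mem_center_iff.1 hw ⟨⟨h₂ * x * h₂⁻¹, hconjS h₂ hh₂ x (hPS hx)⟩, ⟨x, hx, rfl⟩⟩
        exact (congrArg (fun q : ↥(B.subgroupOf S₀) => ((q : ↥S₀) : S)) this).symm) with h | h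
      · rw [hwz'] at h; exact hz1 (conj_eq_one_iff.1 h)
      · exact hne (hwz'.symm.trans h)
    obtain ⟨hc, hi, hC⟩ := Cfsg.Agent.S4400.result (h2.to_subgroup S₀) (sectional_subgroup S₀ hr)
      (A.subgroupOf S₀) (B.subgroupOf S₀) (hnc eA) (hnc eB)
      ((center_card_congr eA).symm.trans hZP) ((center_card_congr eB).symm.trans hZP) hne'
    have hdis : ∀ w, w ∈ A → w ∈ B → w = 1 := fun w hw hw' => by
      have : (⟨w, (hnormP h₁ hh₁).1 hw⟩ : ↥S₀) ∈ A.subgroupOf S₀ ⊓ B.subgroupOf S₀ := ⟨hw, hw'⟩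
      rw [hi, mem_bot] at this
      exact congrArg Subtype.val this
    have hcomm : ∀ x ∈ P, ∀ y ∈ P, (h₁ * x * h₁⁻¹) * (h₂ * y * h₂⁻¹) = (h₂ * y * h₂⁻¹) * (h₁ * x * h₁⁻¹) := by
      intro x hx y hy
      have := Subgroup.commutator_mem_commutator
        (show (⟨h₁ * x * h₁⁻¹, hconjS h₁ hh₁ x (hPS hx)⟩ : ↥S₀) ∈ A.subgroupOf S₀ from ⟨x, hx, rfl⟩)
        (show (⟨h₂ * y * h₂⁻¹, hconjS h₂ hh₂ y (hPS hy)⟩ : ↥S₀) ∈ B.subgroupOf S₀ from ⟨y, hy, rfl⟩)
      rw [hc, mem_bot, commutatorElement_eq_one_iff_mul_comm] at this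
      exact congrArg Subtype.val this
    refine ⟨hcomm, hdis, fun c hc0 hc1 hc2 => ?_⟩
    have hmem : (⟨c, hc0⟩ : ↥S₀) ∈ Subgroup.centralizer ((A.subgroupOf S₀ ⊔ B.subgroupOf S₀ : Subgroup ↥S₀) : Set ↥S₀) := by
      have hle : A.subgroupOf S₀ ⊔ B.subgroupOf S₀ ≤ Subgroup.centralizer ({(⟨c, hc0⟩ : ↥S₀)} : Set ↥S₀) := by
        refine sup_le ?_ ?_ <;> rintro ⟨y, hy⟩ hy' <;> obtain ⟨x, hx, hxy⟩ := mem_subgroupOf.1 hy' <;>
          rw [Subgroup.mem_centralizer_singleton_iff] <;> refine Subtype.ext ?_ <;> show y * c = c * y <;>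
          rw [← show _ = y from hxy]
        · exact (hc1 x hx).symm.eq
        · exact (hc2 x hx).symm.eq
      rw [Subgroup.mem_centralizer_iff]
      intro y hy
      exact Subgroup.mem_centralizer_singleton_iff.1 (hle hy)
    obtain ⟨a, ha, b, hb, hab⟩ : ∃ a ∈ A.subgroupOf S₀, ∃ b ∈ B.subgroupOf S₀, a * b = (⟨c, hc0⟩ : ↥S₀) := by
      have h3 := hC hmem
      rw [← SetLike.mem_coe, Subgroup.normal_mul] at h3
      exact h3
    have hab' : (a : S) * (b : S) = c := congrArg Subtype.val hab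
    obtain ⟨x₁, hx₁, ex₁⟩ := mem_subgroupOf.1 ha
    obtain ⟨x₂, hx₂, ex₂⟩ := mem_subgroupOf.1 hb
    have hA' : (a : S) = 1 ∨ (a : S) = cj h₁ := hcen h₁ _ (mem_subgroupOf.1 ha) (fun x hx => by
      have e1 := hc1 x hx
      have e2 : Commute (b : S) (h₁ * x * h₁⁻¹) := by
        rw [← ex₂]; exact (hcomm x hx x₂ hx₂).symm
      rw [show (a : S) = c * (b : S)⁻¹ by rw [← hab', mul_inv_cancel_right]]
      exact e1.mul_left e2.inv_left)
    have hB' : (b : S) = 1 ∨ (b : S) = cj h₂ := hcen h₂ _ (mem_subgroupOf.1 hb) (fun x hx => by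
      have e1 := hc2 x hx
      have e2 : Commute (a : S) (h₂ * x * h₂⁻¹) := by
        rw [← ex₁]; exact hcomm x₁ hx₁ x hx
      rw [show (b : S) = (a : S)⁻¹ * c by rw [← hab', inv_mul_cancel_left]]
      exact e2.inv_left.mul_left e1)
    rcases hA' with e | e <;> rcases hB' with e' | e' <;> rw [e, e'] at hab'
    · exact Or.inl (by rw [← hab', one_mul])
    · exact Or.inr (Or.inr (Or.inl (by rw [← hab', one_mul])))
    · exact Or.inr (Or.inl (by rw [← hab', mul_one]))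
    · exact Or.inr (Or.inr (Or.inr hab'.symm))
  set T0 := normalizer (S₀ : Set S)
  set z' := cj g
  have hzz' : z ≠ z' := fun e => hgS ((hcj g).2 e.symm)
  have hcj1 : cj 1 = z := by simp [cj]
  have h1N : (1 : S) ∈ T0 := one_mem _
  obtain ⟨hPQ, hdis, hC⟩ := pair 1 h1N g hgN (by rw [hcj1]; exact hzz')
  simp only [one_mul, inv_one, mul_one, hcj1] at hPQ hC
  have hconj1 : P.map (MulAut.conj (1 : S)).toMonoidHom = P := by ext x; rw [map_conj_mem]; simp
  rw [hconj1] at hdis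
  set Q := P.map (MulAut.conj g).toMonoidHom
  have himg : ∀ h ∈ T0, cj h = z ∨ cj h = z' := by
    intro h hh
    by_contra hc
    push Not at hc
    obtain ⟨hc1, hc2⟩ := hc
    obtain ⟨k1, -, -⟩ := pair 1 h1N h hh (by rw [hcj1]; exact Ne.symm hc1)
    obtain ⟨k2, -, -⟩ := pair g hgN h hh (Ne.symm hc2)
    simp only [one_mul, inv_one, mul_one] at k1
    have hcz : ∀ y ∈ P, h * y * h⁻¹ = 1 ∨ h * y * h⁻¹ = z ∨ h * y * h⁻¹ = z' ∨ h * y * h⁻¹ = z * z' := fun y hy =>
      hC _ (hconjS h hh y (hPS hy)) (fun x hx => (k1 x hx y hy).symm) (fun x hx => (k2 x hx y hy).symm)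
    have hzz : z * z' = z' * z := hPQ z hzP z hzP
    refine hP ⟨⟨fun a b => Subtype.ext ?_⟩⟩
    have key : Commute (h * (a : S) * h⁻¹) (h * (b : S) * h⁻¹) := by
      have hz' : ∀ y ∈ P, Commute z (h * y * h⁻¹) ∧ Commute z' (h * y * h⁻¹) := fun y hy =>
        ⟨k1 z hzP y hy, k2 z hzP y hy⟩
      rcases hcz a a.2 with e | e | e | e <;> rw [e]
      · exact Commute.one_left _
      · exact (hz' b b.2).1
      · exact (hz' b b.2).2
      · exact (hz' b b.2).1.mul_left (hz' b b.2).2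
    have k3 := key.eq
    rw [show h * (a : S) * h⁻¹ * (h * (b : S) * h⁻¹) = h * ((a : S) * b) * h⁻¹ by group,
      show h * (b : S) * h⁻¹ * (h * (a : S) * h⁻¹) = h * ((b : S) * a) * h⁻¹ by group] at k3
    exact mul_left_cancel (mul_right_cancel k3)
  have hgz' : g * z' * g⁻¹ = z := by
    have := himg (g * g) (mul_mem hgN hgN)
    rw [hcjm] at this
    refine this.resolve_right fun e => hzz' ?_
    exact (mul_left_cancel (mul_right_cancel (show g * z * g⁻¹ = g * z' * g⁻¹ from e.symm)))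
  have hg2 : g * g ∈ S₀ := (hcj _).2 (by rw [hcjm]; exact hgz')
  have hout : ∀ h ∈ T0, h ∉ S₀ → cj h = z' ∧ g⁻¹ * h ∈ S₀ := by
    intro h hh hn
    have e := (himg h hh).resolve_left fun e => hn ((hcj h).2 e)
    refine ⟨e, (hcj _).2 ?_⟩
    rw [hcjm, e]
    show g⁻¹ * (g * z * g⁻¹) * g⁻¹⁻¹ = z
    group
  have hswap : ∀ h ∈ T0, (h * z * h⁻¹ = z ∧ h * z' * h⁻¹ = z') ∨ (h * z * h⁻¹ = z' ∧ h * z' * h⁻¹ = z) := by
    intro h hh
    have e2 := himg (h * g) (mul_mem hh hgN)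
    rw [hcjm] at e2
    rcases himg h hh with e | e
    · exact Or.inl ⟨e, e2.resolve_left fun e' => hzz' (mul_left_cancel (mul_right_cancel (e.trans e'.symm)))⟩
    · exact Or.inr ⟨e, e2.resolve_right fun e' => hzz' (mul_left_cancel (mul_right_cancel (e.trans e'.symm)))⟩
  have hT0 : T0 = ⊤ := by
    by_contra hne
    obtain ⟨t, htN, htT⟩ := SetLike.exists_of_lt
      ((Group.normalizerCondition_of_isNilpotent (h := h2.isNilpotent)) T0 (lt_top_iff_ne_top.2 hne))
    set w := t * z * t⁻¹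
    have hw : w ∈ T0 := (mem_normalizer_iff.1 htN z).1 (le_normalizer hzS)
    -- the central involution is fixed
    have hu : ∀ s ∈ T0, Commute (z * z') s := by
      intro s hs
      have hzz : z * z' = z' * z := hPQ z hzP z hzP
      refine (mul_inv_eq_iff_eq_mul.1 ?_).symm
      rw [show s * (z * z') * s⁻¹ = (s * z * s⁻¹) * (s * z' * s⁻¹) by group]
      rcases hswap s hs with ⟨a, b⟩ | ⟨a, b⟩ <;> rw [a, b]
      exact hzz.symm
    have hu1 : z * z' ≠ z := fun e => hz1 (conj_eq_one_iff.1 (mul_eq_left.1 e))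
    have hu2 : z * z' ≠ z' := fun e => hz1 (mul_eq_right.1 e)
    have hwu : w ≠ z * z' := by
      intro e
      have hz'S : z' ∈ S₀ := hconjS g hgN z hzS
      have hts : t * (z * z') * t⁻¹ ∈ T0 := (mem_normalizer_iff.1 htN _).1 (le_normalizer (mul_mem hzS hz'S))
      have hcen : ∀ s ∈ T0, Commute (t * (z * z') * t⁻¹) s := fun s hs => by
        have hs' : t⁻¹ * s * t ∈ T0 := (mem_normalizer_iff''.1 htN s).1 hs
        have := (hu _ hs').map (MulAut.conj t).toMonoidHom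
        simpa [mul_assoc] using this
      have hS : t * (z * z') * t⁻¹ ∈ S₀ := (hS0 _).2 (hcen z (le_normalizer hzS)).eq
      rcases hC _ hS (fun x hx => hcen x (le_normalizer (hPS hx)))
          (fun x hx => hcen _ (le_normalizer (hconjS g hgN x (hPS hx)))) with f | f | f | f
      · exact hzz' (by
          have : z * z' = 1 := conj_eq_one_iff.1 f
          have hz2 : z * z = 1 := by
            rcases hZ (z * z) (mul_mem hzP hzP) (fun x hx => ((show Commute x z from hzx x hx).mul_right (hzx x hx)).eq) with q | q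
            · exact q
            · exact absurd (mul_eq_left.1 q) hz1
          exact (inv_eq_of_mul_eq_one_right hz2).symm.trans (inv_eq_of_mul_eq_one_right this))
      · have h1 : Commute z g := by
          have := hcen g hgN
          rwa [f] at this
        exact hgS ((hS0 g).2 h1.symm.eq)
      · have h1 : Commute z' g := by
          have := hcen g hgN
          rwa [f] at this
        exact hzz' (hgz'.symm.trans (mul_inv_eq_iff_eq_mul.2 h1.symm.eq))
      · exact hu1 (mul_left_cancel (mul_right_cancel (f.trans e.symm)))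
    have hzcom : ∀ a ∈ T0, ∀ b ∈ T0, Commute z ⁅a, b⁆ := by
      intro a ha b hb
      refine (mul_inv_eq_iff_eq_mul.1 ?_).symm
      have hfix : ∀ s ∈ T0, ∀ v, v = z ∨ v = z' → s * v * s⁻¹ = z ∨ s * v * s⁻¹ = z' := by
        rintro s hs v (rfl | rfl) <;> rcases hswap s hs with ⟨e1, e2⟩ | ⟨e1, e2⟩ <;> simp [e1, e2]
      rw [commutatorElement_def, show a * b * a⁻¹ * b⁻¹ * z * (a * b * a⁻¹ * b⁻¹)⁻¹ =
        a * (b * (a⁻¹ * (b⁻¹ * z * b⁻¹⁻¹) * a⁻¹⁻¹) * b⁻¹) * a⁻¹ by group]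
      have hinv : ∀ s : S, s * z * s⁻¹ = z' → s * z' * s⁻¹ = z → s⁻¹ * z * s⁻¹⁻¹ = z' ∧ s⁻¹ * z' * s⁻¹⁻¹ = z := by
        intro s e1 e2
        constructor
        · rw [← e2]; group
        · rw [← e1]; group
      have hinv' : ∀ s : S, s * z * s⁻¹ = z → s * z' * s⁻¹ = z' → s⁻¹ * z * s⁻¹⁻¹ = z ∧ s⁻¹ * z' * s⁻¹⁻¹ = z' := by
        intro s e1 e2
        constructor
        · conv_lhs => rw [← e1]
          group
        · conv_lhs => rw [← e2]
          group
      rcases hswap a ha with ⟨a1, a2⟩ | ⟨a1, a2⟩ <;> rcases hswap b hb with ⟨b1, b2⟩ | ⟨b1, b2⟩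
      · rw [(hinv' b b1 b2).1, (hinv' a a1 a2).1, b1, a1]
      · rw [(hinv b b1 b2).1, (hinv' a a1 a2).2, b2, a1]
      · rw [(hinv' b b1 b2).1, (hinv a a1 a2).1, b2, a2]
      · rw [(hinv b b1 b2).1, (hinv a a1 a2).2, b1, a2]
    have hwD : ∀ x ∈ P, Commute w (x⁻¹ * (g * x * g⁻¹)) := by
      intro x hx
      have ha : t⁻¹ * x⁻¹ * t ∈ T0 := (mem_normalizer_iff''.1 htN _).1 (inv_mem (le_normalizer (hPS hx)))
      have hb : t⁻¹ * g * t ∈ T0 := (mem_normalizer_iff''.1 htN _).1 hgN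
      have := (hzcom _ ha _ hb).map (MulAut.conj t).toMonoidHom
      rw [MulEquiv.toMonoidHom_eq_coe, MonoidHom.coe_coe, map_commutatorElement] at this
      simpa [w, commutatorElement_def, mul_assoc] using this
    by_cases hwS : w ∈ S₀
    · have hfix : ∀ x ∈ P, Commute w x ∧ Commute w (g * x * g⁻¹) := by
        intro x hx
        set y := g * x * g⁻¹
        have hp1 : w * x * w⁻¹ ∈ P := hPn w hwS x hx
        have hq1 : w * y * w⁻¹ ∈ Q := (hnormP g hgN).2 w hwS y ⟨x, hx, rfl⟩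
        have h3 : w * x⁻¹ * w⁻¹ * (w * y * w⁻¹) = x⁻¹ * y := by
          have := (hwD x hx).eq
          rw [show w * x⁻¹ * w⁻¹ * (w * y * w⁻¹) = w * (x⁻¹ * y) * w⁻¹ by group, this, mul_inv_cancel_right]
        have h4 : x * (w * x⁻¹ * w⁻¹) = y * (w * y * w⁻¹)⁻¹ := by
          rw [eq_mul_inv_iff_mul_eq, mul_assoc, h3, mul_inv_cancel_left]
        have hp2 : x * (w * x⁻¹ * w⁻¹) ∈ P := mul_mem hx (hPn w hwS _ (inv_mem hx))
        have h5 := hdis _ hp2 (h4 ▸ mul_mem (⟨x, hx, rfl⟩ : y ∈ Q) (inv_mem hq1))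
        have h6 : w * x * w⁻¹ = x := by
          have e := eq_inv_of_mul_eq_one_left h5
          calc w * x * w⁻¹ = (w * x⁻¹ * w⁻¹)⁻¹ := by group
            _ = x := e.symm
        refine ⟨mul_inv_eq_iff_eq_mul.1 h6, ?_⟩
        rw [h4] at h5
        exact mul_inv_eq_iff_eq_mul.1 (mul_inv_eq_one.1 h5).symm
      rcases hC w hwS (fun x hx => (hfix x hx).1) (fun x hx => (hfix x hx).2) with f | f | f | f
      · exact hz1 (conj_eq_one_iff.1 f)
      · exact htT (le_normalizer ((hcj t).2 f))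
      · have : g⁻¹ * t ∈ S₀ := (hcj _).2 (by
          rw [hcjm, show cj t = z' from f]
          show g⁻¹ * (g * z * g⁻¹) * g⁻¹⁻¹ = z
          group)
        exact htT (by simpa using mul_mem hgN (le_normalizer this))
      · exact hwu f
    · obtain ⟨-, hs⟩ := hout w hw hwS
      set s := g⁻¹ * w with hsdef
      have hwg : w = g * s := by rw [hsdef, mul_inv_cancel_left]
      have hQ1 : ∀ x ∈ P, w * x * w⁻¹ ∈ Q := fun x hx => ⟨s * x * s⁻¹, hPn s hs x hx, by
        show g * (s * x * s⁻¹) * g⁻¹ = _; rw [hwg]; group⟩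
      have hP1 : ∀ x ∈ P, w * (g * x * g⁻¹) * w⁻¹ ∈ P := fun x hx => by
        have h1 : s * (g * x * g⁻¹) * s⁻¹ ∈ Q := (hnormP g hgN).2 s hs _ ⟨x, hx, rfl⟩
        obtain ⟨x', hx', e⟩ := h1
        rw [show w * (g * x * g⁻¹) * w⁻¹ = g * (s * (g * x * g⁻¹) * s⁻¹) * g⁻¹ by rw [hwg]; group, ← e]
        have := hPn (g * g) hg2 x' hx'
        simpa [mul_assoc] using this
      have key : ∀ x ∈ P, g * x * g⁻¹ = w * x⁻¹ * w⁻¹ := by
        intro x hx
        set y := g * x * g⁻¹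
        set q := w * x⁻¹ * w⁻¹
        set r := w * y * w⁻¹
        have h3 : q * r = x⁻¹ * y := by
          have := (hwD x hx).eq
          rw [show q * r = w * (x⁻¹ * y) * w⁻¹ by simp only [q, r]; group, this, mul_inv_cancel_right]
        have hrP : r ∈ P := hP1 x hx
        have hqQ : q ∈ Q := hQ1 _ (inv_mem hx)
        obtain ⟨q', hq', eq'⟩ := hqQ
        have hrq : r * q = q * r := by rw [← eq']; exact hPQ r hrP q' hq'
        have h4 : x * r = y * q⁻¹ := by
          rw [eq_mul_inv_iff_mul_eq, mul_assoc, hrq, h3, mul_inv_cancel_left]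
        have h5 := hdis _ (mul_mem hx hrP) (h4 ▸ mul_mem (⟨x, hx, rfl⟩ : y ∈ Q) (inv_mem (hQ1 _ (inv_mem hx))))
        rw [h4] at h5
        exact mul_inv_eq_one.1 h5
      refine hP ⟨⟨fun a b => Subtype.ext ?_⟩⟩
      have e1 := key _ (mul_mem a.2 b.2)
      have e2 : g * ((b : S) * a) * g⁻¹ = w * ((a : S) * b)⁻¹ * w⁻¹ := by
        rw [show g * ((b : S) * a) * g⁻¹ = (g * b * g⁻¹) * (g * a * g⁻¹) by group, key a a.2, key b b.2]; group
      exact mul_left_cancel (mul_right_cancel (e1.trans e2.symm))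
  refine ⟨?_, ?_⟩
  · -- rank of P
    intro H N hN A hA hA2
    haveI := hN
    by_contra hbig
    set mkN := QuotientGroup.mk' N
    set H1 := ((A.comap mkN).map H.subtype).map P.subtype
    set N1 := (N.map H.subtype).map P.subtype
    set FQ := (frattini ↥Q).map Q.subtype
    have hH1P : H1 ≤ P := map_subtype_le _
    have hN1 : N1 ≤ H1 := map_mono (map_mono fun n hn => by
      rw [mem_comap, show mkN n = 1 from (QuotientGroup.eq_one_iff n).2 hn]; exact one_mem A)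
    have hFQ : FQ ≤ Q := map_subtype_le _
    have hQnc : ¬ IsMulCommutative ↥Q := fun hc => hP ⟨⟨fun a b => by
      haveI := hc
      exact (P.equivMapOfInjective (MulAut.conj g).toMonoidHom (MulAut.conj g).injective).injective (by rw [map_mul, map_mul, mul_comm'])⟩⟩
    have hcom : ∀ h ∈ H1, ∀ q ∈ Q, Commute h q := by
      rintro h hh q ⟨x, hx, rfl⟩
      exact hPQ h (hH1P hh) x hx
    have hprod : ∀ y ∈ H1 ⊔ Q, ∃ h ∈ H1, ∃ q ∈ Q, h * q = y := by
      intro y hy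
      have hnm : H1 ≤ Subgroup.normalizer (Q : Set S) := fun h hh =>
        mem_normalizer_iff.2 fun q => ⟨fun hq => by rw [(hcom h hh q hq).eq, mul_inv_cancel_right]; exact hq, fun hq => by
          have := (hcom h hh _ hq).eq
          have e : q = h * q * h⁻¹ := mul_left_cancel (a := h) (by rw [this, inv_mul_cancel_right])
          rw [e]; exact hq⟩
      rw [← SetLike.mem_coe, Subgroup.coe_mul_of_left_le_normalizer_right H1 Q hnm] at hy
      exact hy
    have hA' : ∀ h ∈ H1, ∃ a : ↥H, ((a : ↥P) : S) = h ∧ mkN a ∈ A := by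
      rintro h ⟨_, ⟨a, ha, rfl⟩, rfl⟩; exact ⟨a, rfl, ha⟩
    have hc1 : ∀ a ∈ H1, ∀ b ∈ H1, ⁅a, b⁆ ∈ N1 := by
      intro a ha b hb
      obtain ⟨a', rfl, ha'⟩ := hA' a ha
      obtain ⟨b', rfl, hb'⟩ := hA' b hb
      refine ⟨_, ⟨⁅a', b'⁆, ?_, rfl⟩, ?_⟩
      · rw [SetLike.mem_coe, ← QuotientGroup.eq_one_iff]
        show mkN ⁅a', b'⁆ = 1
        rw [map_commutatorElement, commutatorElement_eq_one_iff_mul_comm]
        haveI := hA
        exact congrArg Subtype.val (mul_comm' (⟨_, ha'⟩ : A) ⟨_, hb'⟩)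
      · simp [commutatorElement_def]
    have hQf : ∀ a b : ↥Q, ((⁅a, b⁆ : ↥Q) : S) ∈ FQ := fun a b => ⟨_, Cfsg.Lib.Solv.commutator_le_frattini (h2.to_subgroup Q)
      (Subgroup.commutator_mem_commutator (mem_top _) (mem_top _)), rfl⟩
    have hb := elem_section hr (H1 ⊔ Q) (N1 ⊔ FQ) (sup_le_sup hN1 hFQ) (fun u hu v hv => by
      obtain ⟨a, ha, q, hq, rfl⟩ := hprod u hu
      obtain ⟨b, hb, r, hr', rfl⟩ := hprod v hv
      have : ⁅a * q, b * r⁆ = ⁅a, b⁆ * ⁅q, r⁆ := by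
        have c1 := hcom a ha r hr'
        have c2 := hcom b hb q hq
        have c3 := hcom a ha q hq
        have c4 := hcom b hb r hr'
        have c5 : Commute (a⁻¹ * b⁻¹) (q * r) := ((c3.inv_left.mul_right c1.inv_left).mul_left (c2.inv_left.mul_right c4.inv_left))
        simp only [commutatorElement_def, mul_inv_rev]
        calc a * q * (b * r) * (q⁻¹ * a⁻¹) * (r⁻¹ * b⁻¹) = a * (q * b) * r * q⁻¹ * (a⁻¹ * r⁻¹) * b⁻¹ := by group
          _ = a * (b * q) * r * q⁻¹ * (r⁻¹ * a⁻¹) * b⁻¹ := by rw [← c2.eq, c1.inv_left.inv_right.eq]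
          _ = a * b * (q * r * q⁻¹ * r⁻¹ * (a⁻¹ * b⁻¹)) := by group
          _ = _ := by
            rw [((c5.mul_right ((c3.inv_left.inv_right).mul_left (c2.inv_left.inv_right))).mul_right
              ((c1.inv_left.inv_right).mul_left (c4.inv_left.inv_right))).symm.eq]
            group
      rw [this]
      exact mul_mem (mem_sup_left (hc1 a ha b hb)) (mem_sup_right (hQf ⟨q, hq⟩ ⟨r, hr'⟩)))
      (fun u hu => by
        obtain ⟨a, ha, q, hq, rfl⟩ := hprod u hu
        rw [(hcom a ha q hq).mul_pow]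
        refine mul_mem (mem_sup_left ?_) (mem_sup_right ⟨_, Cfsg.Lib.Solv.pow_mem_frattini (h2.to_subgroup Q) ⟨q, hq⟩, rfl⟩)
        obtain ⟨a', rfl, ha'⟩ := hA' a ha
        refine ⟨_, ⟨a' ^ 2, ?_, rfl⟩, rfl⟩
        rw [SetLike.mem_coe, ← QuotientGroup.eq_one_iff]
        exact (map_pow mkN a' 2).trans (hA2 _ ha'))
    have hdis' : P ⊓ Q = ⊥ := le_bot_iff.1 fun x hx => hdis x hx.1 hx.2
    have d1 : Nat.card ↥(H1 ⊔ Q) = Nat.card ↥H1 * Nat.card ↥Q :=
      card_sup_of_commute _ _ hcom (le_bot_iff.1 ((inf_le_inf_right _ hH1P).trans hdis'.le))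
    have d2 : Nat.card ↥(N1 ⊔ FQ) = Nat.card ↥N1 * Nat.card ↥FQ :=
      card_sup_of_commute _ _ (fun x hx y hy => hcom x (hN1 hx) y (hFQ hy))
        (le_bot_iff.1 ((inf_le_inf (hN1.trans hH1P) hFQ).trans hdis'.le))
    have d3 := card_mul_relIndex' (A := N1 ⊔ FQ) (B := H1 ⊔ Q) (sup_le_sup hN1 hFQ)
    rw [d1, d2] at d3
    have e1 : Nat.card ↥H1 = Nat.card ↥A * Nat.card ↥N := by
      rw [Subgroup.card_map_of_injective P.subtype_injective, Subgroup.card_map_of_injective H.subtype_injective,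
        ← card_mul_relIndex' (show N ≤ A.comap mkN from fun n hn => by
          rw [mem_comap, show mkN n = 1 from (QuotientGroup.eq_one_iff n).2 hn]; exact one_mem A), mul_comm]
      congr 1
      conv_lhs => arg 1; rw [← QuotientGroup.ker_mk' N, ← MonoidHom.comap_bot]
      rw [Subgroup.relIndex_comap, Subgroup.map_comap_eq_self_of_surjective (QuotientGroup.mk'_surjective N), Subgroup.relIndex_bot_left]
    have e2 : Nat.card ↥N1 = Nat.card ↥N := by
      rw [Subgroup.card_map_of_injective P.subtype_injective, Subgroup.card_map_of_injective H.subtype_injective]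
    have e3 : Nat.card ↥Q = (frattini ↥Q).index * Nat.card ↥FQ := by
      rw [Subgroup.card_map_of_injective Q.subtype_injective, Subgroup.index_mul_card]
    rw [e1, e2, e3] at d3
    have hiQ := Cfsg.Agent.S4400.index_frattini_ge h2 Q hQnc
    have hpos : 0 < Nat.card ↥N * Nat.card ↥FQ := Nat.mul_pos Nat.card_pos Nat.card_pos
    have h6 : (N1 ⊔ FQ).relIndex (H1 ⊔ Q) = Nat.card ↥A * (frattini ↥Q).index :=
      Nat.eq_of_mul_eq_mul_left hpos (by rw [d3]; ring)
    rw [h6] at hb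
    obtain ⟨k, hk⟩ := IsPGroup.iff_card.1 ((((h2.to_subgroup P).to_subgroup H).to_quotient N).to_subgroup A)
    rw [hk] at hb hbig
    have : 3 ≤ k := by
      by_contra hlt
      exact hbig (Nat.pow_le_pow_right (n := 2) (by norm_num) (by omega))
    have := Nat.pow_le_pow_right (n := 2) (by norm_num) this
    nlinarith
  · refine Subgroup.index_eq_two_iff.2 ⟨g⁻¹, fun b => ?_⟩
    have hb : b ∈ T0 := hT0 ▸ mem_top b
    by_cases hbS : b ∈ S₀
    · refine Or.inr ⟨hbS, fun h => hgS ?_⟩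
      have := inv_mem (mul_mem (inv_mem hbS) h)
      simpa using this
    · refine Or.inl ⟨?_, hbS⟩
      have := hconjS g hgN _ (hout b hb hbS).2
      simpa [mul_assoc] using this

end Cfsg.Agent.S4401
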