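import Cfsg.Statements.S4403
import Mathlib
import Cfsg.Agent.Lib.Comp.FStar
import Cfsg.Agent.Lib.Solv.PGroupBasic
import Cfsg.Agent.Lib.Solv.Subnormal
import Cfsg.Agent.Lib.Solv.Coprime2
import Cfsg.Agent.Lib.Transfer.Action
import Cfsg.Agent.Lib.Transfer.NormalPComplement
-- import your own Cfsg.Agent.* helpers here

set_option autoImplicit false
open Cfsg

namespace Cfsg.Agent.S4403

open Subgroup

variable {K : Type*} [Group K] [Finite K] {p : ℕ} [hp : Fact p.Prime]

theorem dvd_of_subnormal (hO : Cfsg.pPrimeCore p K = ⊥) {H : Subgroup K} (hH : H.IsSubnormal) (hne : H ≠ ⊥) :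
    p ∣ Nat.card H := by
  by_contra hd
  refine hne (le_bot_iff.1 (hO ▸ ?_))
  refine (Cfsg.Lib.Solv.subnormal_pi_le_piCore hH (π := {q | q ≠ p}) fun q _ hqd e => hd (by subst e; exact hqd)).trans ?_
  refine Cfsg.Lib.Solv.le_pPrimeCore inferInstance ?_
  rw [Nat.coprime_comm, hp.out.coprime_iff_not_dvd]
  intro h
  exact Cfsg.Lib.Solv.piCore_primes {q | q ≠ p} p hp.out h rfl

/-- every nontrivial subnormal subgroup contains the elements of order `p` of a cyclic Sylow subgroup -/
theorem mem_of_subnormal (hO : Cfsg.pPrimeCore p K = ⊥) (P : Sylow p K) (hP : IsCyclic (P : Subgroup K))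
    {H : Subgroup K} (hH : H.IsSubnormal) (hne : H ≠ ⊥) {w : K} (hw : w ∈ (P : Subgroup K)) (hwo : orderOf w = p) :
    w ∈ H := by
  obtain ⟨Q, hQ⟩ := Cfsg.Lib.Solv.sylow_inf_subnormal hH P
  have hd : p ∣ Nat.card (Q : Subgroup H) := Q.dvd_card_of_dvd_card (dvd_of_subnormal hO hH hne)
  obtain ⟨z, hz⟩ := exists_prime_orderOf_dvd_card' p hd
  have hzP : ((z : H) : K) ∈ (P : Subgroup K) := by
    have h2 : (z : H) ∈ (P : Subgroup K).subgroupOf H := hQ.le z.2
    exact h2
  have hzo : orderOf ((z : H) : K) = p := by rw [Subgroup.orderOf_coe, Subgroup.orderOf_coe, hz]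
  classical
  haveI := Fintype.ofFinite (P : Subgroup K)
  have key : ∀ e : (P : Subgroup K), orderOf e = p →
      ((zpowers e : Subgroup (P : Subgroup K)) : Set (P : Subgroup K)).toFinset = (Finset.univ.filter fun z : (P : Subgroup K) => z ^ p = 1) := by
    intro e he
    refine Finset.eq_of_subset_of_card_le ?_ ?_
    · intro z hz
      rw [Set.mem_toFinset] at hz
      simp only [Finset.mem_filter, Finset.mem_univ, true_and]
      exact orderOf_dvd_iff_pow_eq_one.1 ((orderOf_dvd_of_mem_zpowers hz).trans (dvd_of_eq he))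
    · refine (IsCyclic.card_pow_eq_one_le hp.out.pos).trans ?_
      rw [Set.toFinset_card, ← Nat.card_eq_fintype_card]
      exact ((Nat.card_zpowers e).trans he).ge
  have hk : zpowers (⟨w, hw⟩ : (P : Subgroup K)) = zpowers (⟨_, hzP⟩ : (P : Subgroup K)) := by
    refine SetLike.coe_injective (Set.toFinset_inj.1 ?_)
    rw [key _ (by rw [Subgroup.orderOf_mk, hwo]), key _ (by rw [Subgroup.orderOf_mk, hzo])]
  obtain ⟨t, ht⟩ : (⟨w, hw⟩ : (P : Subgroup K)) ∈ zpowers (⟨_, hzP⟩ : (P : Subgroup K)) := hk ▸ mem_zpowers _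
  have : ((z : H) : K) ^ t = w := congrArg Subtype.val ht
  rw [← this]
  exact H.zpow_mem (z : H).2 t

theorem inf_ne_bot (hp' : p ∣ Nat.card K) (hO : Cfsg.pPrimeCore p K = ⊥) (P : Sylow p K) (hP : IsCyclic (P : Subgroup K))
    {A B : Subgroup K} (hA : A.IsSubnormal) (hAne : A ≠ ⊥) (hB : B.IsSubnormal) (hBne : B ≠ ⊥) :
    A ⊓ B ≠ ⊥ := by
  obtain ⟨w, hw⟩ := exists_prime_orderOf_dvd_card' p (P.dvd_card_of_dvd_card hp')
  intro h
  have hwo : orderOf (w : K) = p := by rw [Subgroup.orderOf_coe, hw]
  have : (w : K) ∈ A ⊓ B := ⟨mem_of_subnormal hO P hP hA hAne w.2 hwo, mem_of_subnormal hO P hP hB hBne w.2 hwo⟩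
  rw [h, mem_bot] at this
  rw [this, orderOf_one] at hwo
  exact hp.out.ne_one hwo.symm

/-- Let K be a finite group, p a prime dividing its order with O_{p'}(K) = 1 (no nontrivial normal subgroup of order prime to p), and P a cyclic Sylow p-subgroup of K. Then either P is normal and self-centralizing in K with K/P cyclic of order dividing p − 1 (so K is the semidirect product of P by a group of automorphisms of P of order dividing p − 1), or the generalized Fitting subgroup F*(K) is a non-abelian simple group and p does not divide the index of F*(K) in K. -/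
theorem result {K : Type*} [Group K] [Finite K] (p : ℕ) [Fact p.Prime] (hp : p ∣ Nat.card K) (hO : Cfsg.pPrimeCore p K = ⊥)
    (P : Sylow p K) (hP : IsCyclic ↥(P : Subgroup K)) :
    ((P : Subgroup K).Normal ∧ Subgroup.centralizer ((P : Subgroup K) : Set K) = (P : Subgroup K) ∧
      (∀ (_ : (P : Subgroup K).Normal), IsCyclic (K ⧸ (P : Subgroup K))) ∧ (P : Subgroup K).index ∣ p - 1) ∨
    (IsSimpleGroup ↥(Cfsg.generalizedFittingSubgroup K) ∧ ¬ IsMulCommutative ↥(Cfsg.generalizedFittingSubgroup K) ∧
      ¬ p ∣ (Cfsg.generalizedFittingSubgroup K).index) := by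
  have hpp : p.Prime := Fact.out
  by_cases hlay : Cfsg.layer K = ⊥
  · left
    have hCF := Cfsg.Lib.Comp.centralizer_fitting_le_of_layer_eq_bot hlay
    set F := Cfsg.fittingSubgroup K with hF
    have hFP : F ≤ (P : Subgroup K) := by
      have hn : Group.IsNilpotent F := Cfsg.Lib.Solv.fitting_isNilpotent
      have hFp : IsPGroup p F := by
        intro x
        by_contra hx
        push Not at hx
        obtain ⟨q, hq, hqd, hqp⟩ : ∃ q, q.Prime ∧ q ∣ orderOf x ∧ q ≠ p := by
          by_contra h
          push Not at h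
          obtain ⟨k, hk⟩ : ∃ k, orderOf x = p ^ k :=
            ⟨_, Nat.eq_prime_pow_of_unique_prime_dvd (orderOf_pos x).ne' fun {d} hd hdd => h d hd hdd⟩
          exact hx k (hk ▸ pow_orderOf_eq_one x)
        haveI := Fact.mk hq
        obtain ⟨Q⟩ := (inferInstance : Nonempty (Sylow q F))
        haveI : (Q : Subgroup F).Normal := Sylow.normal_of_normalizerCondition Group.normalizerCondition_of_isNilpotent Q
        have hsn : ((Q : Subgroup F).map F.subtype).IsSubnormal := by
          refine Cfsg.Lib.Solv.isSubnormal_of_normal_le (Subgroup.map_subtype_le _) (Subgroup.Normal.isSubnormal inferInstance) ?_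
          have := Subgroup.le_normalizer_map (H := (Q : Subgroup F)) F.subtype
          rw [Subgroup.normalizer_eq_top] at this
          rwa [← MonoidHom.range_eq_map, Subgroup.range_subtype] at this
        have hQ1 : q ∣ Nat.card (Q : Subgroup F) := Q.dvd_card_of_dvd_card (hqd.trans (orderOf_dvd_natCard x))
        have hne : (Q : Subgroup F).map F.subtype ≠ ⊥ := fun e => by
          rw [Subgroup.map_eq_bot_iff_of_injective _ F.subtype_injective] at e
          rw [e, Subgroup.card_bot] at hQ1
          exact hq.not_dvd_one hQ1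
        have := dvd_of_subnormal hO hsn hne
        rw [Subgroup.card_map_of_injective F.subtype_injective] at this
        obtain ⟨j, hj⟩ := IsPGroup.iff_card.1 Q.isPGroup'
        rw [hj] at this
        exact hqp ((Nat.prime_dvd_prime_iff_eq hpp hq).1 (hpp.dvd_of_dvd_pow this)).symm
      exact IsPGroup.le_sylow_of_normal (h := hFp) P
    have hPC : (P : Subgroup K) ≤ Subgroup.centralizer (F : Set K) := fun a ha =>
      Subgroup.mem_centralizer_iff.2 fun b hb =>
        congrArg Subtype.val (hP.commutative.is_comm.comm (⟨b, hFP hb⟩ : (P : Subgroup K)) ⟨a, ha⟩)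
    have hPF : (P : Subgroup K) = F := le_antisymm (hPC.trans hCF) hFP
    have hPn : (P : Subgroup K).Normal := by rw [hPF]; infer_instance
    have hCP : Subgroup.centralizer ((P : Subgroup K) : Set K) = (P : Subgroup K) := by
      refine le_antisymm ?_ fun a ha => Subgroup.mem_centralizer_iff.2 fun b hb =>
        congrArg Subtype.val (hP.commutative.is_comm.comm (⟨b, hb⟩ : (P : Subgroup K)) ⟨a, ha⟩)
      rw [hPF]; exact hCF
    haveI := hPn
    let φ : K →* MulAut (P : Subgroup K) := MulAut.conjNormal
    have hker : φ.ker = (P : Subgroup K) := by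
      conv_rhs => rw [← hCP]
      ext k
      rw [MonoidHom.mem_ker, Subgroup.mem_centralizer_iff, MulEquiv.ext_iff]
      constructor
      · intro h b hb
        have := congrArg Subtype.val (h ⟨b, hb⟩)
        rw [MulAut.conjNormal_apply] at this
        exact (mul_inv_eq_iff_eq_mul.1 this).symm
      · intro h b
        refine Subtype.ext ?_
        rw [MulAut.conjNormal_apply]
        exact mul_inv_eq_iff_eq_mul.2 (h b b.2).symm
    let ψ : K →* (ZMod (Nat.card (P : Subgroup K)))ˣ := (IsCyclic.mulAutMulEquiv (h := hP)).toMonoidHom.comp φ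
    have hψ : ψ.ker = φ.ker := by
      ext k
      simp [ψ]
    let e : (K ⧸ (P : Subgroup K)) ≃* ψ.range :=
      (QuotientGroup.quotientMulEquivOfEq (hψ.trans hker).symm).trans (QuotientGroup.quotientKerEquivRange ψ)
    obtain ⟨n, hn⟩ := IsPGroup.iff_card.1 P.isPGroup'
    have hn1 : 1 ≤ n := by
      rcases Nat.eq_zero_or_pos n with rfl | h
      · have := P.dvd_card_of_dvd_card hp
        rw [hn, pow_zero] at this
        exact absurd this hpp.not_dvd_one
      · exact h
    have hidx : (P : Subgroup K).index ∣ p - 1 := by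
      have h1 : (P : Subgroup K).index ∣ Nat.card (ZMod (Nat.card (P : Subgroup K)))ˣ := by
        rw [Subgroup.index_eq_card, Nat.card_congr e.toEquiv]
        exact Subgroup.card_subgroup_dvd_card _
      haveI : NeZero (Nat.card (P : Subgroup K)) := ⟨Nat.card_pos.ne'⟩
      rw [Nat.card_eq_fintype_card, ZMod.card_units_eq_totient, hn, Nat.totient_prime_pow hpp hn1] at h1
      exact (Nat.Coprime.pow_right (n - 1) (hpp.coprime_iff_not_dvd.2 P.not_dvd_index).symm).dvd_of_dvd_mul_left h1
    refine ⟨hPn, hCP, fun _ => ?_, hidx⟩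
    rcases eq_or_ne p 2 with rfl | hp2
    · have : Nat.card (K ⧸ (P : Subgroup K)) = 1 := by
        rw [← Subgroup.index_eq_card]; exact Nat.dvd_one.1 hidx
      haveI := (Nat.card_eq_one_iff_unique.1 this).1
      infer_instance
    · haveI : IsCyclic (ZMod (Nat.card (P : Subgroup K)))ˣ := by rw [hn]; exact ZMod.isCyclic_units_of_prime_pow p hpp hp2 n
      exact isCyclic_of_injective (ψ.range.subtype.comp e.toMonoidHom) (ψ.range.subtype_injective.comp e.injective)
  · right
    obtain ⟨L, hL⟩ : ∃ L : Subgroup K, Cfsg.IsComponent L := by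
      by_contra h
      push Not at h
      exact hlay (le_bot_iff.1 (Cfsg.Lib.Comp.layer_le_iff.2 fun L hL => absurd hL (h L)))
    have hLne := Cfsg.Lib.Comp.component_ne_bot hL
    haveI hperf : Group.IsPerfect L := hL.2.1
    -- the centre of L is trivial
    have hZ : Subgroup.center L = ⊥ := by
      obtain ⟨Q, hQ⟩ := Cfsg.Lib.Solv.sylow_inf_subnormal hL.1 P
      haveI hQc : IsCyclic (Q : Subgroup L) := by
        let f : (Q : Subgroup L) →* (P : Subgroup K) :=
          (L.subtype.comp (Q : Subgroup L).subtype).codRestrict _ fun x => (hQ.le x.2 : (x : L) ∈ (P : Subgroup K).subgroupOf L)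
        refine isCyclic_of_injective f fun a b h => Subtype.ext (Subtype.ext ?_)
        exact congrArg (fun t : (P : Subgroup K) => (t : K)) h
      by_contra hne
      have hsn : ((Subgroup.center L).map L.subtype).IsSubnormal := by
        refine Cfsg.Lib.Solv.isSubnormal_of_normal_le (Subgroup.map_subtype_le _) hL.1 ?_
        have := Subgroup.le_normalizer_map (H := Subgroup.center L) L.subtype
        rw [Subgroup.normalizer_eq_top] at this
        rwa [← MonoidHom.range_eq_map, Subgroup.range_subtype] at this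
      have hd := dvd_of_subnormal hO hsn (fun e => hne ((Subgroup.map_eq_bot_iff_of_injective _ L.subtype_injective).1 e))
      rw [Subgroup.card_map_of_injective L.subtype_injective] at hd
      obtain ⟨z, hz⟩ := exists_prime_orderOf_dvd_card' p hd
      have hzQ : (z : L) ∈ (Q : Subgroup L) := by
        have hzp : IsPGroup p (Subgroup.zpowers (z : L)) :=
          IsPGroup.of_card (n := 1) (by rw [Nat.card_zpowers, Subgroup.orderOf_coe, hz, pow_one])
        have hzn : (Subgroup.zpowers (z : L)).Normal := ⟨fun y hy g => by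
          have : y ∈ Subgroup.center L := (Subgroup.zpowers_le.2 z.2) hy
          rw [Subgroup.mem_center_iff.1 this g, mul_inv_cancel_right]; exact hy⟩
        exact IsPGroup.le_sylow_of_normal (h := hzp) Q (Subgroup.mem_zpowers _)
      letI : CommGroup (Q : Subgroup L) := hQc.commGroup
      let τ : L →* (Q : Subgroup L) := MonoidHom.transfer (MonoidHom.id (Q : Subgroup L))
      have h1 : τ (z : L) = 1 := by
        have hc : commutator L ≤ τ.ker := Abelianization.commutator_subset_ker τ
        have := hc (show (z : L) ∈ commutator L by rw [hperf.commutator_eq_top]; trivial)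
        exact this
      have key : ∀ (k : ℕ) (g₀ : L), g₀⁻¹ * (z : L) ^ k * g₀ ∈ (Q : Subgroup L) → g₀⁻¹ * (z : L) ^ k * g₀ = (z : L) ^ k := by
        intro k g₀ _
        rw [mul_assoc, ← Subgroup.mem_center_iff.1 ((Subgroup.center L).pow_mem z.2 k) g₀, inv_mul_cancel_left]
      rw [show τ (z : L) = (MonoidHom.id (Q : Subgroup L)) ⟨_, MonoidHom.transfer_eq_pow_aux (z : L) key⟩ from
        MonoidHom.transfer_eq_pow _ _ key] at h1
      have h2 : (z : L) ^ (Q : Subgroup L).index = 1 := congrArg Subtype.val h1
      have h3 := orderOf_dvd_of_pow_eq_one h2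
      rw [Subgroup.orderOf_coe, hz] at h3
      exact Q.not_dvd_index h3
    have hsimple : IsSimpleGroup L := by
      haveI := hL.2.2
      haveI : Nontrivial L := Cfsg.Lib.Comp.isQuasisimple_nontrivial hL.2
      exact ⟨fun N hN => by
        rcases Cfsg.Lib.Comp.isQuasisimple_normal hL.2 N with h | h
        · exact Or.inr h
        · exact Or.inl (le_bot_iff.1 (hZ ▸ h))⟩
    have hna : ¬ IsMulCommutative L := fun h => by
      haveI := Cfsg.Lib.Comp.isQuasisimple_nontrivial hL.2
      exact not_subsingleton L Group.IsPerfect.subsingleton_of_isMulCommutative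
    have huniq : ∀ M : Subgroup K, Cfsg.IsComponent M → M = L := by
      intro M hM
      by_contra hne
      refine inf_ne_bot hp hO P hP hM.1 (Cfsg.Lib.Comp.component_ne_bot hM) hL.1 hLne ?_
      have hc := Cfsg.Lib.Comp.component_commute hM hL hne
      rw [Subgroup.commutator_eq_bot_iff_le_centralizer] at hc
      rw [eq_bot_iff]
      intro x hx
      have : (⟨x, hx.2⟩ : L) ∈ Subgroup.center L := Subgroup.mem_center_iff.2 fun g =>
        Subtype.ext (Subgroup.mem_centralizer_iff.1 (hc hx.1) g g.2)
      rw [hZ, Subgroup.mem_bot] at this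
      exact Subgroup.mem_bot.2 (congrArg Subtype.val this)
    have hlayL : Cfsg.layer K = L :=
      le_antisymm (Cfsg.Lib.Comp.layer_le_iff.2 fun M hM => (huniq M hM).le) (Cfsg.Lib.Comp.component_le_layer hL)
    haveI hLn : L.Normal := hlayL ▸ inferInstance
    have hFit : Cfsg.fittingSubgroup K = ⊥ := by
      by_contra hne
      refine inf_ne_bot hp hO P hP (Subgroup.Normal.isSubnormal inferInstance) hne hL.1 hLne ?_
      have h1 := Cfsg.Lib.Comp.layer_le_centralizer_fitting (G := K)
      rw [hlayL] at h1
      rw [eq_bot_iff]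
      intro x hx
      have : (⟨x, hx.2⟩ : L) ∈ Subgroup.center L := Subgroup.mem_center_iff.2 fun g =>
        Subtype.ext (Subgroup.mem_centralizer_iff.1 (h1 g.2) x hx.1).symm
      rw [hZ, Subgroup.mem_bot] at this
      exact Subgroup.mem_bot.2 (congrArg Subtype.val this)
    have hFstar : Cfsg.generalizedFittingSubgroup K = L := by
      rw [Cfsg.generalizedFittingSubgroup, hlayL, hFit, sup_bot_eq]
    rw [hFstar]
    refine ⟨hsimple, hna, fun hidx => ?_⟩
    have hPL : ¬ (P : Subgroup K) ≤ L := fun h => P.not_dvd_index (hidx.trans (Subgroup.index_dvd_of_le h))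
    set N := L ⊔ (P : Subgroup K) with hN
    set PN : Sylow p N := P.subtype le_sup_right with hPN
    haveI : (L.subgroupOf N).Normal := inferInstance
    have hburn : Cfsg.HasNormalPComplement p N := by
      refine Cfsg.Lib.Transfer.hasNormalPComplement_of_normalizer_le_centralizer PN fun g hg => ?_
      set V := (PN : Subgroup N) with hV
      haveI hVc : IsCyclic V := by
        haveI := hP
        exact (MulEquiv.isCyclic (Subgroup.subgroupOfEquivOfLe (le_sup_right : (P : Subgroup K) ≤ N))).2 hP
      -- split g into its p-part and p'-part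
      obtain ⟨a, b, hab, hap, hbp⟩ : ∃ a b : N, a * b = g ∧ (∃ k, a ^ p ^ k = 1 ∧ a ∈ Subgroup.zpowers g) ∧
          ((orderOf b).Coprime p ∧ b ∈ Subgroup.zpowers g) := by
        set m := orderOf g with hm
        obtain ⟨e, m', hm', heq⟩ := Nat.exists_eq_pow_mul_and_not_dvd (orderOf_pos g).ne' p hpp.ne_one
        have hc : Nat.Coprime (p ^ e) m' := Nat.Coprime.pow_left e (hpp.coprime_iff_not_dvd.2 hm')
        have hg1 := Nat.gcd_eq_gcd_ab (p ^ e) m'
        rw [hc.gcd_eq_one] at hg1
        refine ⟨g ^ ((m' : ℤ) * Nat.gcdB (p ^ e) m'), g ^ (((p ^ e : ℕ) : ℤ) * Nat.gcdA (p ^ e) m'), ?_,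
          ⟨e, ?_, Subgroup.zpow_mem _ (Subgroup.mem_zpowers g) _⟩, ?_, Subgroup.zpow_mem _ (Subgroup.mem_zpowers g) _⟩
        · rw [← zpow_add, add_comm, ← hg1, Nat.cast_one, zpow_one]
        · rw [← zpow_natCast, ← zpow_mul, show (m' : ℤ) * Nat.gcdB (p ^ e) m' * ((p ^ e : ℕ) : ℤ) = ((orderOf g : ℕ) : ℤ) * Nat.gcdB (p ^ e) m' by
            rw [heq]; push_cast; ring, zpow_mul, zpow_natCast, pow_orderOf_eq_one, one_zpow]
        · refine Nat.Coprime.coprime_dvd_left (?_ : _ ∣ m') (hpp.coprime_iff_not_dvd.2 hm').symm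
          refine orderOf_dvd_of_pow_eq_one ?_
          rw [← zpow_natCast, ← zpow_mul, show ((p ^ e : ℕ) : ℤ) * Nat.gcdA (p ^ e) m' * (m' : ℤ) = ((orderOf g : ℕ) : ℤ) * Nat.gcdA (p ^ e) m' by
            rw [heq]; push_cast; ring, zpow_mul, zpow_natCast, pow_orderOf_eq_one, one_zpow]
      obtain ⟨k, hak, haz⟩ := hap
      obtain ⟨hbo, hbz⟩ := hbp
      have hgn := Subgroup.zpowers_le.2 hg
      have haV : a ∈ V := by
        have han := hgn haz
        haveI : (V.subgroupOf (Subgroup.normalizer (V : Set N))).Normal := Subgroup.normal_in_normalizer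
        let PM : Sylow p (Subgroup.normalizer (V : Set N)) := PN.subtype Subgroup.le_normalizer
        have hPMn : (PM : Subgroup (Subgroup.normalizer (V : Set N))).Normal := by
          show (((PN.subtype Subgroup.le_normalizer : Sylow p (Subgroup.normalizer (V : Set N))) : Subgroup (Subgroup.normalizer (V : Set N)))).Normal
          rw [Sylow.coe_subtype]; exact Subgroup.normal_in_normalizer
        obtain ⟨j, -, hj⟩ := (Nat.dvd_prime_pow hpp).1 (orderOf_dvd_of_pow_eq_one hak)
        have hap' : IsPGroup p (Subgroup.zpowers (⟨a, han⟩ : Subgroup.normalizer (V : Set N))) :=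
          IsPGroup.of_card (n := j) (by rw [Nat.card_zpowers, Subgroup.orderOf_mk, hj])
        obtain ⟨Q, hQ⟩ := hap'.exists_le_sylow
        haveI := Sylow.unique_of_normal PM hPMn
        rw [Subsingleton.elim Q PM] at hQ
        exact hQ (Subgroup.mem_zpowers _)
      have hbC : b ∈ Subgroup.centralizer (V : Set N) := by
        have hbn := hgn hbz
        refine Cfsg.Lib.Solv.centralizes_of_frattini (Subgroup.zpowers b) V (Subgroup.zpowers_le.2 hbn) ?_ ?_ (Subgroup.mem_zpowers b)
        · obtain ⟨j, hj⟩ := IsPGroup.iff_card.1 (PN.isPGroup'.to_subgroup (frattini V))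
          rw [Nat.card_zpowers, hj]
          exact hbo.pow_right j
        · intro c hc x hx
          have hbL : ∀ c ∈ Subgroup.zpowers b, c ∈ L.subgroupOf N := by
            refine Subgroup.zpowers_le.2 ?_
            have hq : IsPGroup p (N ⧸ L.subgroupOf N) := by
              intro q
              induction q using QuotientGroup.induction_on with
              | H y =>
                obtain ⟨l, hl, s, hs, hls⟩ := Subgroup.mem_sup_of_normal_left.1 y.2
                obtain ⟨i, hi⟩ := P.isPGroup' ⟨s, hs⟩
                refine ⟨i, ?_⟩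
                have hy : (y : N ⧸ L.subgroupOf N) = ((⟨s, Subgroup.mem_sup_right hs⟩ : N) : N ⧸ L.subgroupOf N) := by
                  rw [QuotientGroup.eq_iff_div_mem, Subgroup.mem_subgroupOf]
                  show (y : K) / s ∈ L
                  rw [← hls, mul_div_cancel_right]; exact hl
                rw [hy, ← QuotientGroup.mk_pow, QuotientGroup.eq_one_iff, Subgroup.mem_subgroupOf]
                have : ((⟨s, Subgroup.mem_sup_right hs⟩ : N) ^ p ^ i : N) = (1 : N) := Subtype.ext (congrArg (fun t : (P : Subgroup K) => (t : K)) hi)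
                rw [this]; exact one_mem _
            obtain ⟨j, hj⟩ := IsPGroup.iff_orderOf.1 hq (b : N ⧸ L.subgroupOf N)
            have h1 : orderOf (b : N ⧸ L.subgroupOf N) = 1 := Nat.eq_one_of_dvd_coprimes (hbo.pow_right j)
              (orderOf_map_dvd (QuotientGroup.mk' (L.subgroupOf N)) b) (dvd_of_eq hj)
            rw [orderOf_eq_one_iff, QuotientGroup.eq_one_iff] at h1
            exact h1
          have hmL : c * x * c⁻¹ * x⁻¹ ∈ L.subgroupOf N := by
            rw [show c * x * c⁻¹ * x⁻¹ = c * (x * c⁻¹ * x⁻¹) by group]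
            exact mul_mem (hbL c hc) (Subgroup.Normal.conj_mem inferInstance _ (inv_mem (hbL c hc)) x)
          have hmV : c * x * c⁻¹ * x⁻¹ ∈ V :=
            V.mul_mem ((Subgroup.mem_normalizer_iff.1 ((Subgroup.zpowers_le.2 hbn) hc) x).1 hx) (V.inv_mem hx)
          refine ⟨⟨_, hmV⟩, ?_, rfl⟩
          set D := (L.subgroupOf N).subgroupOf V with hD
          have hDne : D ≠ ⊤ := fun e => hPL fun s hs => (Subgroup.subgroupOf_eq_top.1 e)
            (show (⟨s, Subgroup.mem_sup_right hs⟩ : N) ∈ V from hs)
          have hDf : D ≤ frattini V := by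
            intro d hd
            obtain ⟨v, hv⟩ := hVc.exists_generator
            obtain ⟨n, hn⟩ := Subgroup.mem_zpowers_iff.1 (hv d)
            by_cases hpn : (p : ℤ) ∣ n
            · obtain ⟨t, rfl⟩ := hpn
              rw [← hn, mul_comm, zpow_mul, zpow_natCast]
              exact Cfsg.Lib.Solv.pow_mem_frattini PN.isPGroup' _
            · exfalso
              refine hDne (eq_top_iff.2 fun w _ => ?_)
              obtain ⟨ev, hev⟩ := IsPGroup.iff_orderOf.1 PN.isPGroup' v
              have hcop : IsCoprime n ((p : ℤ) ^ ev) :=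
                ((Nat.prime_iff_prime_int.1 hpp).coprime_iff_not_dvd.2 hpn).symm.pow_right
              obtain ⟨a', b', hab'⟩ := hcop
              have hvd : v = d ^ a' := by
                conv_lhs => rw [← zpow_one v, ← hab', zpow_add, mul_comm b', zpow_mul v ((p : ℤ) ^ ev) b', ← Nat.cast_pow,
                  zpow_natCast, ← hev, pow_orderOf_eq_one, one_zpow, mul_one, mul_comm a' n, zpow_mul, hn]
              obtain ⟨m'', hm''⟩ := Subgroup.mem_zpowers_iff.1 (hv w)
              rw [← hm'', hvd]
              exact D.zpow_mem (D.zpow_mem hd a') m''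
          exact hDf hmL
      rw [← hab]
      exact Subgroup.mul_mem _ (Subgroup.mem_centralizer_iff.2 fun x hx =>
        congrArg Subtype.val (hVc.commutative.is_comm.comm (⟨x, hx⟩ : V) ⟨a, haV⟩)) hbC
    have hLc := Cfsg.Lib.Transfer.hasNormalPComplement_of_injective (p := p) (Subgroup.inclusion (le_sup_left : L ≤ N))
      (Subgroup.inclusion_injective _) hburn
    obtain ⟨Q, M, hMn, hMc⟩ := hLc
    obtain ⟨hMcop, j, hj⟩ := Cfsg.Lib.Transfer.coprime_card_of_isComplement' hMc
    rcases hsimple.eq_bot_or_eq_top_of_normal M hMn with h | h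
    · rw [h, Subgroup.index_bot] at hj
      have : Group.IsNilpotent L := (IsPGroup.of_card hj).isNilpotent
      exact Cfsg.Lib.Comp.component_not_solvable hL inferInstance
    · rw [h, Subgroup.card_top, Nat.coprime_comm, hpp.coprime_iff_not_dvd] at hMcop
      exact hMcop (dvd_of_subnormal hO hL.1 hLne)

end Cfsg.Agent.S4403
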