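import Cfsg.Statements.S4405
import Mathlib
import Cfsg.Agent.Lib.Transfer.ExtraspecialClass
import Cfsg.Agent.Lib.Transfer.Action
import Cfsg.Agent.Lib.Solv.Coprime2
import Cfsg.Agent.Lib.Solv.MinNormal
import Cfsg.Agent.Lib.Characters.Burnside
import Cfsg.Agent.Lib.Transfer.Basic
-- import your own Cfsg.Agent.* helpers here

set_option autoImplicit false
open Cfsg
open scoped commutatorElement

namespace Cfsg.Agent.S4405

set_option maxHeartbeats 1000000 in
/-- Let G be a finite group of order 320 = 64·5 whose largest normal 2-subgroup H = O₂(G) equals the Fitting subgroup F(G) and is extraspecial of order 32 containing no elementary abelian subgroup of order 8 (so H is the central product of a quaternion group and a dihedral group of order 8). If T is an involution of G outside H whose centralizer in H contains an elementary abelian subgroup of order 4, then C_H(T) itself is elementary abelian of order 4. -/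
theorem result {G : Type*} [Group G] [Finite G]
    (hG : Nat.card G = 320) (hHF : Cfsg.pCore 2 G = Cfsg.fittingSubgroup G)
    (hex : Cfsg.IsExtraspecial 2 ↥(Cfsg.pCore 2 G)) (h32 : Nat.card ↥(Cfsg.pCore 2 G) = 32)
    (hminus : ∀ A : Subgroup G, A ≤ Cfsg.pCore 2 G → Cfsg.IsElementaryAbelian 2 A → Nat.card ↥A ≤ 4)
    (T : G) (hT : orderOf T = 2) (hTH : T ∉ Cfsg.pCore 2 G)
    (V : Subgroup G) (hV : V ≤ Cfsg.pCore 2 G ⊓ Subgroup.centralizer ({T} : Set G)) (hV4 : Nat.card ↥V = 4) (hVe : Cfsg.IsElementaryAbelian 2 V) :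
    Nat.card ↥(Cfsg.pCore 2 G ⊓ Subgroup.centralizer ({T} : Set G)) = 4 ∧
      Cfsg.IsElementaryAbelian 2 (Cfsg.pCore 2 G ⊓ Subgroup.centralizer ({T} : Set G)) := by
  classical
  haveI := Fact.mk Nat.prime_two
  haveI := Fact.mk (show (5 : ℕ).Prime by norm_num)
  haveI := Cfsg.Lib.Transfer.pCore_normal (G := G) 2
  set Q := Cfsg.pCore 2 G with hQdef
  haveI : Group.IsSolvable G := Cfsg.Lib.Characters.isSolvable_of_card_eq_pow_mul_pow Nat.prime_two
    (show (5 : ℕ).Prime by norm_num) (Nat.card G) G rfl ⟨6, 1, by rw [hG]; norm_num⟩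
  have hCQ : Subgroup.centralizer (Q : Set G) ≤ Q := by
    rw [hHF]; exact Cfsg.Lib.Solv.centralizer_fitting_le
  have hes := Cfsg.Lib.Transfer.ExtraspecialClass.ES.of_extraspecial hex
  set Z := (Subgroup.center Q).map Q.subtype with hZdef
  have hZc : Nat.card Z = 2 := by rw [hZdef, Subgroup.card_map_of_injective Q.subtype_injective, hes.cardZ]
  have hZQ : Z ≤ Q := Subgroup.map_subtype_le _
  haveI hZn : Z.Normal := inferInstance
  have hZcom : ∀ z ∈ Z, ∀ a ∈ Q, a * z = z * a := by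
    rintro _ ⟨z, hz, rfl⟩ a ha
    exact congrArg Subtype.val (Subgroup.mem_center_iff.1 hz ⟨a, ha⟩)
  have hQcom : ∀ a ∈ Q, ∀ b ∈ Q, a * b * a⁻¹ * b⁻¹ ∈ Z := fun a ha b hb =>
    ⟨⁅(⟨a, ha⟩ : Q), ⟨b, hb⟩⁆, hes.comm _ _, rfl⟩
  -- every element of the centre of `Q` is centralised by `T`
  have hZg : ∀ g : G, ∀ z ∈ Z, g * z * g⁻¹ = z := by
    intro g z hz
    by_cases hz1 : z = 1
    · rw [hz1, mul_one, mul_inv_cancel]
    have hmem : g * z * g⁻¹ ∈ Z := hZn.conj_mem z hz g
    have hone : g * z * g⁻¹ ≠ 1 := fun e => hz1 (by simpa using e)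
    obtain ⟨w, -, hw⟩ := Nat.card_eq_two_iff' (1 : Z) |>.1 hZc
    have h1 := hw ⟨_, hmem⟩ (fun e => hone (congrArg Subtype.val e))
    have h2 := hw ⟨z, hz⟩ (fun e => hz1 (congrArg Subtype.val e))
    exact congrArg Subtype.val (h1.trans h2.symm)
  have hT2 : T * T = 1 := by rw [← pow_two, ← hT, pow_orderOf_eq_one]
  have hTinv : T⁻¹ = T := inv_eq_of_mul_eq_one_left hT2
  let Wk : G → Subgroup G := fun t =>
    { carrier := {q | q ∈ Q ∧ t * q * t⁻¹ * q⁻¹ ∈ Z}
      one_mem' := ⟨one_mem _, by simp⟩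
      mul_mem' := fun {a b} ha hb => ⟨mul_mem ha.1 hb.1, by
        have e : t * (a * b) * t⁻¹ * (a * b)⁻¹ = (t * a * t⁻¹ * a⁻¹) * (a * (t * b * t⁻¹ * b⁻¹) * a⁻¹) := by group
        rw [e]; exact mul_mem ha.2 (hZn.conj_mem _ hb.2 a)⟩
      inv_mem' := fun {a} ha => ⟨inv_mem ha.1, by
        have e : t * a⁻¹ * t⁻¹ * a⁻¹⁻¹ = a⁻¹ * (t * a * t⁻¹ * a⁻¹)⁻¹ * a⁻¹⁻¹ := by group
        rw [e]; exact hZn.conj_mem _ (inv_mem ha.2) _⟩ }
  set W := Wk T
  have hWQ : W ≤ Q := fun q hq => hq.1
  have hZW : Z ≤ W := fun z hz => ⟨hZQ hz, by rw [hZg T z hz, mul_inv_cancel]; exact one_mem _⟩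
  -- order of `W` is at most eight
  have hidxQ : Q.index = 10 := by
    have := Q.card_mul_index
    rw [h32, hG] at this; omega
  have hW8 : Nat.card W ≤ 8 := by
    by_contra hbig
    obtain ⟨s, hs⟩ := exists_prime_orderOf_dvd_card' (G := G) 5 (by rw [hG]; norm_num)
    set T' := s * T * s⁻¹ with hT'
    set W' := Wk T'
    have hW' : W' = W.map (MulAut.conj s).toMonoidHom := by
      ext q
      constructor
      · rintro ⟨hqQ, hq⟩
        refine ⟨s⁻¹ * q * s, ⟨?_, ?_⟩, by show s * (s⁻¹ * q * s) * s⁻¹ = q; group⟩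
        · simpa using (inferInstance : Q.Normal).conj_mem q hqQ s⁻¹
        · have := hZn.conj_mem _ hq s⁻¹
          rw [hT'] at this
          simpa [mul_assoc] using this
      · rintro ⟨w, ⟨hwQ, hw⟩, rfl⟩
        refine ⟨(inferInstance : Q.Normal).conj_mem w hwQ s, ?_⟩
        have := hZn.conj_mem _ hw s
        show s * T * s⁻¹ * (s * w * s⁻¹) * (s * T * s⁻¹)⁻¹ * (s * w * s⁻¹)⁻¹ ∈ Z
        simpa [mul_assoc] using this
    have hcW' : Nat.card W' = Nat.card W := by rw [hW']; exact Subgroup.card_map_of_injective (MulAut.conj s).injective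
    set U := W ⊓ W'
    have hU : 8 ≤ Nat.card U := by
      have h1 : Nat.card W ∣ 32 := h32 ▸ Subgroup.card_dvd_of_le hWQ
      have h2 : 16 ≤ Nat.card W := by
        obtain ⟨i, hi5, hi⟩ := (Nat.dvd_prime_pow Nat.prime_two).1 (show Nat.card W ∣ 2 ^ 5 from h1)
        rw [hi] at hbig ⊢
        revert hbig
        interval_cases i <;> norm_num
      have hne0 : W'.relIndex Q ≠ 0 := Subgroup.index_ne_zero_of_finite
      have h3 : W'.relIndex W ≤ W'.relIndex Q := Subgroup.relIndex_le_of_le_right hWQ hne0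
      have h4 : Nat.card W' * W'.relIndex Q = 32 := by
        rw [← h32, ← Nat.card_congr (Subgroup.subgroupOfEquivOfLe (show W' ≤ Q from fun q hq => hq.1)).toEquiv]
        exact Subgroup.card_mul_index _
      have h5 : Nat.card U * W'.relIndex W = Nat.card W := by
        show Nat.card ↥(W ⊓ W') * _ = _
        rw [← Subgroup.inf_relIndex_left, ← Nat.card_congr (Subgroup.subgroupOfEquivOfLe (inf_le_left : W ⊓ W' ≤ W)).toEquiv]
        exact Subgroup.card_mul_index _
      rw [hcW'] at h4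
      have : W'.relIndex Q ≤ 2 := by nlinarith
      nlinarith
    set y := T' * T
    have hUy : ∀ u ∈ U, y * u * y⁻¹ * u⁻¹ ∈ Z := by
      intro u hu
      have e : y * u * y⁻¹ * u⁻¹ = (T' * (T * u * T⁻¹ * u⁻¹) * T'⁻¹) * (T' * u * T'⁻¹ * u⁻¹) := by simp only [y]; group
      rw [e]; exact mul_mem (hZn.conj_mem _ hu.1.2 T') hu.2.2
    have hyQ : y ∉ Q := by
      intro hy
      let K := Q ⊔ Subgroup.zpowers T
      have hK2 : IsPGroup 2 K := (Cfsg.Lib.Transfer.pCore_isPGroup 2).to_sup_of_normal_left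
        (IsPGroup.of_card (n := 1) (by rw [Nat.card_zpowers, hT, pow_one]))
      have hidxK : K.index ∣ 5 := by
        have hlt : Q < K := lt_of_le_of_ne le_sup_left (fun e => hTH (e ▸ Subgroup.mem_sup_right (Subgroup.mem_zpowers T)))
        obtain ⟨k, hk⟩ := hK2.exists_card_eq
        have h1 := Subgroup.card_dvd_of_le hlt.le
        have h2 := K.card_mul_index
        rw [h32, hk] at h1
        rw [hk, hG] at h2
        have h5 : 5 < k := by
          by_contra h
          have : Nat.card K ≤ Nat.card Q := by rw [hk, h32]; exact Nat.pow_le_pow_right (n := 2) (by norm_num) (by omega : k ≤ 5)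
          exact hlt.ne (Subgroup.eq_of_le_of_card_ge hlt.le this)
        have h6 : 2 ^ 6 ∣ 2 ^ k := pow_dvd_pow 2 h5
        obtain ⟨c, hc⟩ := h6
        rw [hc, mul_assoc] at h2
        norm_num at h2
        exact ⟨c, by linarith⟩
      have hnorm : K.Normal := by
        rw [← Subgroup.normalizer_eq_top_iff]
        set Nn := Subgroup.normalizer (K : Set G)
        have hsN : s ∈ Nn := by
          have hsT : s * T * s⁻¹ ∈ K := by
            rw [show s * T * s⁻¹ = y * T⁻¹ by simp only [y, hT']; group]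
            exact mul_mem (Subgroup.mem_sup_left hy) (inv_mem (Subgroup.mem_sup_right (Subgroup.mem_zpowers T)))
          apply Subgroup.mem_normalizer_fintype
          intro g hg
          have : K.map (MulAut.conj s).toMonoidHom ≤ K := by
            rw [Subgroup.map_sup, MonoidHom.map_zpowers]
            exact sup_le ((show Q.map (MulAut.conj s).toMonoidHom ≤ Q by
              rintro _ ⟨q, hq, rfl⟩
              exact (inferInstance : Q.Normal).conj_mem q hq s).trans le_sup_left)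
              (Subgroup.zpowers_le.2 hsT)
          exact this ⟨g, hg, rfl⟩
        rw [← Subgroup.index_eq_one]
        have h1 : Nn.index ∣ 5 := (Subgroup.index_dvd_of_le Subgroup.le_normalizer).trans hidxK
        rcases (Nat.dvd_prime (show (5 : ℕ).Prime by norm_num)).1 h1 with e | e
        · exact e
        · exfalso
          have h2 := Nn.card_mul_index
          rw [e, hG] at h2
          have h5 : 5 ∣ Nat.card Nn := hs ▸ Subgroup.orderOf_dvd_natCard Nn hsN
          omega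
      have := Cfsg.Lib.Transfer.le_pCore hnorm hK2 (Subgroup.mem_sup_right (Subgroup.mem_zpowers T))
      exact hTH this
    -- an element of order five fixing `U` modulo `Z`
    obtain ⟨r, hr, hrU⟩ : ∃ r : G, orderOf r = 5 ∧ ∀ u ∈ U, r * u * r⁻¹ * u⁻¹ ∈ Z := by
      have hd : orderOf y ∣ 320 := hG ▸ orderOf_dvd_natCard y
      have hpow : ∀ n : ℕ, ∀ u ∈ U, y ^ n * u * (y ^ n)⁻¹ * u⁻¹ ∈ Z := by
        intro n u hu
        induction n with
        | zero => simp
        | succ n ih =>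
          have e : y ^ (n + 1) * u * (y ^ (n + 1))⁻¹ * u⁻¹ = (y ^ n * (y * u * y⁻¹ * u⁻¹) * (y ^ n)⁻¹) * (y ^ n * u * (y ^ n)⁻¹ * u⁻¹) := by
            rw [pow_succ]; group
          rw [e]; exact mul_mem (hZn.conj_mem _ (hUy u hu) _) ih
      refine ⟨y ^ 64, ?_, fun u hu => hpow 64 u hu⟩
      have h5 : (y ^ 64) ^ 5 = 1 := by rw [← pow_mul, show 64 * 5 = 320 from rfl, ← hG, pow_card_eq_one']
      refine orderOf_eq_prime h5 fun h1 => ?_
      -- then `y` would be a 2-element outside `Q`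
      obtain ⟨i, -, hi⟩ := (Nat.dvd_prime_pow Nat.prime_two).1 (show orderOf y ∣ 2 ^ 6 from orderOf_dvd_of_pow_eq_one h1)
      -- `y` inverts under `T`, so `⟨Q, y, T⟩` is a normal subgroup
      have hq10 : (QuotientGroup.mk' Q y) ^ 10 = 1 := by
        rw [← hidxQ, Subgroup.index_eq_card]; exact pow_card_eq_one'
      have hq2 : orderOf (QuotientGroup.mk' Q y) ∣ 2 := by
        have h64 : (QuotientGroup.mk' Q y) ^ 64 = 1 := by rw [← map_pow, h1, map_one]
        have := Nat.dvd_gcd (orderOf_dvd_of_pow_eq_one hq10) (orderOf_dvd_of_pow_eq_one h64)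
        exact this.trans (by norm_num)
      -- the image of `y` lies in the subgroup of order five
      obtain ⟨F5⟩ : Nonempty (Sylow 5 (G ⧸ Q)) := inferInstance
      have hcF : Nat.card (F5 : Subgroup (G ⧸ Q)) = 5 := by
        rw [F5.card_eq_multiplicity, ← Subgroup.index_eq_card, hidxQ, show (10 : ℕ) = 2 * 5 from rfl,
          Nat.factorization_mul (by norm_num) (by norm_num)]
        simp [Nat.Prime.factorization_self (show (5 : ℕ).Prime by norm_num), Nat.Prime.factorization Nat.prime_two]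
      have hFi : (F5 : Subgroup (G ⧸ Q)).index = 2 := by
        have := (F5 : Subgroup (G ⧸ Q)).card_mul_index
        rw [hcF, ← Subgroup.index_eq_card, hidxQ] at this
        omega
      have hyF : QuotientGroup.mk' Q y ∈ (F5 : Subgroup (G ⧸ Q)) := by
        simp only [y, hT', map_mul]
        rw [Subgroup.mul_mem_iff_of_index_two hFi, Subgroup.mul_mem_iff_of_index_two hFi, Subgroup.mul_mem_iff_of_index_two hFi,
          map_inv, inv_mem_iff]
        tauto
      have h5' : orderOf (QuotientGroup.mk' Q y) ∣ 5 := hcF ▸ Subgroup.orderOf_dvd_natCard _ hyF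
      have h1' : orderOf (QuotientGroup.mk' Q y) = 1 := Nat.eq_one_of_dvd_coprimes (by norm_num : Nat.Coprime 2 5) hq2 h5'
      exact hyQ ((QuotientGroup.eq_one_iff y).1 (orderOf_eq_one_iff.1 h1'))
    set B := Subgroup.zpowers r
    have hB : IsPGroup 5 B := IsPGroup.of_card (n := 1) (by rw [Nat.card_zpowers, hr, pow_one])
    set F := Q ⊓ Subgroup.centralizer (B : Set G)
    have hmod := Cfsg.Lib.Transfer.card_modEq_card_inf_centralizer Q B hB (by rw [Subgroup.normalizer_eq_top]; exact le_top)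
    rw [h32] at hmod
    change 32 ≡ Nat.card F [MOD 5] at hmod
    obtain ⟨k, hk5, hk⟩ := (Nat.dvd_prime_pow Nat.prime_two).1 (show Nat.card F ∣ 2 ^ 5 by
      rw [show (2 : ℕ) ^ 5 = 32 from rfl, ← h32]; exact Subgroup.card_dvd_of_le inf_le_left)
    rw [hk] at hmod
    have hk15 : k = 1 ∨ k = 5 := by
      have h' : 32 % 5 = 2 ^ k % 5 := hmod
      revert h'
      interval_cases k <;> norm_num
    have hpow' : ∀ b ∈ B, ∀ u ∈ U, b * u * b⁻¹ * u⁻¹ ∈ Z := by
      intro b hb u hu
      obtain ⟨n, rfl⟩ := (Submonoid.mem_powers_iff _ _).1 ((isOfFinOrder_of_finite r).mem_powers_iff_mem_zpowers.2 hb)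
      induction n with
      | zero => simp
      | succ n ih =>
        have e : r ^ (n + 1) * u * (r ^ (n + 1))⁻¹ * u⁻¹ = (r ^ n * (r * u * r⁻¹ * u⁻¹) * (r ^ n)⁻¹) * (r ^ n * u * (r ^ n)⁻¹ * u⁻¹) := by
          rw [pow_succ]; group
        rw [e]; exact mul_mem (hZn.conj_mem _ (hrU u hu) _) (ih (pow_mem (Subgroup.mem_zpowers r) n))
    rcases hk15 with rfl | rfl
    · have hZF : Z ≤ F := fun z hz => ⟨hZQ hz, Subgroup.mem_centralizer_iff.2 fun b _ => mul_inv_eq_iff_eq_mul.1 (hZg b z hz)⟩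
      have hFZ : F = Z := (Subgroup.eq_of_le_of_card_ge hZF (by rw [hk, hZc]; norm_num)).symm
      have hUZ : U ≤ Z := by
        intro u hu
        obtain ⟨c, hc, huc⟩ := Cfsg.Lib.Solv.exists_fixed_in_coset (B := B) (K := Q) (N := Z) hB hZQ
          (by rw [Subgroup.normalizer_eq_top]; exact le_top) (by rw [Subgroup.normalizer_eq_top]; exact le_top)
          (by rw [hZc]; norm_num) hu.1.1 (fun b hb => hpow' b hb u hu)
        have hcZ : c ∈ Z := hFZ ▸ hc
        rw [show u = c * (u⁻¹ * c)⁻¹ by group]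
        exact mul_mem hcZ (inv_mem huc)
      have := Subgroup.card_le_of_le hUZ
      omega
    · have hFQ : F = Q := Subgroup.eq_of_le_of_card_ge inf_le_left (by rw [hk, h32]; norm_num)
      have hr' : r ∈ Q := hCQ (Subgroup.mem_centralizer_iff.2 fun q hq =>
        ((Subgroup.mem_centralizer_iff.1 (hFQ.ge hq).2) r (Subgroup.mem_zpowers r)).symm)
      have := Subgroup.orderOf_dvd_natCard Q hr'
      rw [hr, h32] at this
      norm_num at this
  -- the commutator map
  haveI : (Z.subgroupOf Q).Normal := inferInstance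
  let δ : Q →* Q ⧸ Z.subgroupOf Q := MonoidHom.mk' (fun q => ((⟨(q : G)⁻¹ * (T * q * T⁻¹),
      mul_mem (inv_mem q.2) ((inferInstance : Q.Normal).conj_mem _ q.2 T)⟩ : Q) : Q ⧸ Z.subgroupOf Q)) (fun a b => by
    have hu : (a : G)⁻¹ * (T * a * T⁻¹) ∈ Q := mul_mem (inv_mem a.2) ((inferInstance : Q.Normal).conj_mem _ a.2 T)
    rw [← QuotientGroup.mk_mul, QuotientGroup.eq, Subgroup.mem_subgroupOf]
    have h1 := hQcom (b : G)⁻¹ (inv_mem b.2) _ (inv_mem hu)
    have e : (((a * b : Q) : G)⁻¹ * (T * ((a * b : Q) : G) * T⁻¹))⁻¹ * ((a : G)⁻¹ * (T * a * T⁻¹) * ((b : G)⁻¹ * (T * b * T⁻¹))) =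
        (T * (b : G) * T⁻¹)⁻¹ * (b : G) * (((b : G)⁻¹ * ((a : G)⁻¹ * (T * a * T⁻¹))⁻¹ * (b : G)⁻¹⁻¹ * ((a : G)⁻¹ * (T * a * T⁻¹))⁻¹⁻¹)⁻¹)⁻¹ * ((b : G)⁻¹ * (T * b * T⁻¹)) := by
      push_cast; group
    simp only [Subgroup.coe_mul, InvMemClass.coe_inv]
    rw [show (((a : G) * (b : G))⁻¹ * (T * ((a : G) * (b : G)) * T⁻¹))⁻¹ * ((a : G)⁻¹ * (T * a * T⁻¹) * ((b : G)⁻¹ * (T * b * T⁻¹))) =
        (T * (b : G) * T⁻¹)⁻¹ * (b : G) * (((b : G)⁻¹ * ((a : G)⁻¹ * (T * a * T⁻¹))⁻¹ * (b : G)⁻¹⁻¹ * ((a : G)⁻¹ * (T * a * T⁻¹))⁻¹⁻¹)⁻¹)⁻¹ * ((b : G)⁻¹ * (T * b * T⁻¹)) by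
      group]
    rw [show ∀ c d : G, c⁻¹ * (b : G) * d * ((b : G)⁻¹ * c) = (c⁻¹ * (b : G)) * d * (c⁻¹ * (b : G))⁻¹ from fun c d => by group]
    rw [inv_inv]
    exact hZn.conj_mem _ h1 _)
  have hker : δ.ker = W.subgroupOf Q := by
    ext q
    show ((_ : Q) : Q ⧸ Z.subgroupOf Q) = 1 ↔ _
    rw [QuotientGroup.eq_one_iff, Subgroup.mem_subgroupOf, Subgroup.mem_subgroupOf]
    constructor
    · intro h'
      refine ⟨q.2, ?_⟩
      have := hZn.conj_mem _ h' (q : G)
      simpa [mul_assoc] using this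
    · rintro ⟨-, h'⟩
      have := hZn.conj_mem _ h' (q : G)⁻¹
      simpa [mul_assoc] using this
  have hrange : δ.range ≤ (W.subgroupOf Q).map (QuotientGroup.mk' (Z.subgroupOf Q)) := by
    rintro _ ⟨q, rfl⟩
    refine ⟨⟨(q : G)⁻¹ * (T * q * T⁻¹), mul_mem (inv_mem q.2) ((inferInstance : Q.Normal).conj_mem _ q.2 T)⟩, ?_, rfl⟩
    refine ⟨mul_mem (inv_mem q.2) ((inferInstance : Q.Normal).conj_mem _ q.2 T), ?_⟩
    -- `T` inverts the commutator and its square is central
    set u := (q : G)⁻¹ * (T * q * T⁻¹) with hu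
    have hTu : T * u * T⁻¹ = u⁻¹ := by
      calc T * u * T⁻¹ = (T * (q : G)⁻¹ * T⁻¹) * ((T * T) * q * (T * T)⁻¹) := by rw [hu]; group
        _ = (T * (q : G)⁻¹ * T⁻¹) * q := by rw [hT2]; group
        _ = u⁻¹ := by rw [hu]; group
    show T * u * T⁻¹ * u⁻¹ ∈ Z
    rw [hTu]
    have h2 := inv_mem (hes.powc ⟨u, mul_mem (inv_mem q.2) ((inferInstance : Q.Normal).conj_mem _ q.2 T)⟩)
    refine ⟨_, h2, ?_⟩
    simp [pow_two]
  have hcardW : Nat.card W = 8 := by
    refine le_antisymm hW8 ?_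
    have h1 := δ.ker.card_mul_index
    rw [Subgroup.index_ker, h32, hker, Nat.card_congr (Subgroup.subgroupOfEquivOfLe hWQ).toEquiv] at h1
    have h3 : Nat.card ↥((W.subgroupOf Q).map (QuotientGroup.mk' (Z.subgroupOf Q))) * 2 = Nat.card W := by
      have hk := ((QuotientGroup.mk' (Z.subgroupOf Q)).comp (W.subgroupOf Q).subtype).ker.card_mul_index
      rw [Subgroup.index_ker, Nat.card_congr (Subgroup.subgroupOfEquivOfLe hWQ).toEquiv] at hk
      have hk2 : Nat.card ((QuotientGroup.mk' (Z.subgroupOf Q)).comp (W.subgroupOf Q).subtype).ker = 2 := by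
        rw [← MonoidHom.comap_ker, QuotientGroup.ker_mk']
        show Nat.card ↥((Z.subgroupOf Q).subgroupOf (W.subgroupOf Q)) = 2
        rw [Nat.card_congr (Subgroup.subgroupOfEquivOfLe (show Z.subgroupOf Q ≤ W.subgroupOf Q from fun z hz => hZW hz)).toEquiv,
          Nat.card_congr (Subgroup.subgroupOfEquivOfLe hZQ).toEquiv, hZc]
      rw [hk2, MonoidHom.range_comp, Subgroup.range_subtype, mul_comm] at hk
      exact hk
    have h4 := Subgroup.card_le_of_le hrange
    nlinarith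
  set CT := Q ⊓ Subgroup.centralizer ({T} : Set G)
  have hCW : CT ≤ W := by
    intro q hq
    refine ⟨hq.1, ?_⟩
    have : q * T = T * q := Subgroup.mem_centralizer_singleton_iff.1 hq.2
    rw [← this, mul_inv_cancel_right, mul_inv_cancel]
    exact one_mem _
  have h4 : 4 ≤ Nat.card CT := hV4 ▸ Subgroup.card_le_of_le hV
  have hne8 : CT ≠ W := by
    intro e
    have hinv : ∀ w ∈ W, w ^ 2 = 1 := by
      intro w hw
      have hrange' : δ.range = (W.subgroupOf Q).map (QuotientGroup.mk' (Z.subgroupOf Q)) := by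
        refine Subgroup.eq_of_le_of_card_ge hrange ?_
        have h1 := δ.ker.card_mul_index
        rw [Subgroup.index_ker, h32, hker, Nat.card_congr (Subgroup.subgroupOfEquivOfLe hWQ).toEquiv, hcardW] at h1
        have hle : Nat.card ↥((W.subgroupOf Q).map (QuotientGroup.mk' (Z.subgroupOf Q))) * 2 = Nat.card W := by
          have hk := ((QuotientGroup.mk' (Z.subgroupOf Q)).comp (W.subgroupOf Q).subtype).ker.card_mul_index
          rw [Subgroup.index_ker, Nat.card_congr (Subgroup.subgroupOfEquivOfLe hWQ).toEquiv] at hk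
          have hk2 : Nat.card ((QuotientGroup.mk' (Z.subgroupOf Q)).comp (W.subgroupOf Q).subtype).ker = 2 := by
            rw [← MonoidHom.comap_ker, QuotientGroup.ker_mk']
            show Nat.card ↥((Z.subgroupOf Q).subgroupOf (W.subgroupOf Q)) = 2
            rw [Nat.card_congr (Subgroup.subgroupOfEquivOfLe (show Z.subgroupOf Q ≤ W.subgroupOf Q from fun z hz => hZW hz)).toEquiv,
              Nat.card_congr (Subgroup.subgroupOfEquivOfLe hZQ).toEquiv, hZc]
          rw [hk2, MonoidHom.range_comp, Subgroup.range_subtype, mul_comm] at hk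
          exact hk
        omega
      have : QuotientGroup.mk' (Z.subgroupOf Q) ⟨w, hWQ hw⟩ ∈ δ.range := hrange' ▸ ⟨⟨w, hWQ hw⟩, hw, rfl⟩
      obtain ⟨q, hq⟩ := this
      set u := (q : G)⁻¹ * (T * q * T⁻¹) with hu
      have hz : u⁻¹ * w ∈ Z := Subgroup.mem_subgroupOf.1 (QuotientGroup.eq.1 hq)
      have huW : u ∈ W := by
        have : u = w * (u⁻¹ * w)⁻¹ := by group
        rw [this]; exact mul_mem hw (inv_mem (hZW hz))
      have huT : T * u = u * T := (Subgroup.mem_centralizer_singleton_iff.1 (e.ge huW).2).symm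
      have hTu : T * u * T⁻¹ = u⁻¹ := by
        calc T * u * T⁻¹ = (T * (q : G)⁻¹ * T⁻¹) * ((T * T) * q * (T * T)⁻¹) := by rw [hu]; group
          _ = (T * (q : G)⁻¹ * T⁻¹) * q := by rw [hT2]; group
          _ = u⁻¹ := by rw [hu]; group
      rw [huT, mul_inv_cancel_right, eq_inv_iff_mul_eq_one] at hTu
      have hz2 : (u⁻¹ * w) ^ 2 = 1 := by
        have := pow_card_eq_one' (x := (⟨_, hz⟩ : Z))
        rw [hZc] at this
        exact congrArg Subtype.val this
      have hcm : Commute u (u⁻¹ * w) := hZcom _ hz u (hWQ huW)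
      rw [show w = u * (u⁻¹ * w) by group, hcm.mul_pow, hz2, pow_two, hTu, one_mul]
    have hWe : Cfsg.IsElementaryAbelian 2 W := ⟨⟨⟨fun a b => Subtype.ext (by
      have h1 := inv_eq_of_mul_eq_one_left (show (a : G) * a = 1 by rw [← pow_two]; exact hinv _ a.2)
      have h2 := inv_eq_of_mul_eq_one_left (show (b : G) * b = 1 by rw [← pow_two]; exact hinv _ b.2)
      have h3 := inv_eq_of_mul_eq_one_left (show ((a : G) * b) * (a * b) = 1 by rw [← pow_two]; exact hinv _ (mul_mem a.2 b.2))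
      rw [mul_inv_rev, h1, h2] at h3
      exact h3.symm)⟩⟩, hinv⟩
    have := hminus W hWQ hWe
    omega
  have hC4 : Nat.card CT = 4 := by
    have hd := Subgroup.card_dvd_of_le hCW
    rw [hcardW] at hd
    have hle := Nat.le_of_dvd (by norm_num) hd
    have hne : Nat.card CT ≠ 8 := fun e => hne8 (Subgroup.eq_of_le_of_card_ge hCW (by rw [hcardW, e]))
    interval_cases (Nat.card CT) <;> omega
  refine ⟨hC4, ?_⟩
  rw [← Subgroup.eq_of_le_of_card_ge hV (by rw [hV4]; exact hC4.le)]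
  exact hVe

end Cfsg.Agent.S4405
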