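import Cfsg.Statements.S4406
import Mathlib
-- import your own Cfsg.Agent.* helpers here

set_option autoImplicit false
open Cfsg

namespace Cfsg.Agent.S4406

/-- The alternating group of degree four. -/
abbrev A := ↥(alternatingGroup (Fin 4))

/-- Its involutions. -/
abbrev W := {g : A // g * g = 1 ∧ g ≠ 1}

theorem cW : Fintype.card W = 3 := by decide +kernel
theorem cA : Fintype.card A = 12 := by decide +kernel
theorem sq_of_pow : ∀ g : A, g ^ 16 = 1 → g * g = 1 := by decide +kernel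
theorem cube_of_pow : ∀ g : A, g ^ 9 = 1 → g ^ 3 = 1 := by decide +kernel
theorem V_mul : ∀ g h : A, g * g = 1 → h * h = 1 → (g * h) * (g * h) = 1 := by decide +kernel
theorem fpf : ∀ q g : A, q ^ 3 = 1 → q ≠ 1 → g * g = 1 → g ≠ 1 → q * g * q⁻¹ ≠ g := by decide +kernel

theorem perm3' : ∀ a b : Equiv.Perm (Fin 3), (∀ i, a i ≠ i) → (∀ i, b i ≠ i) → a = b ∨ a = b⁻¹ := by
  decide +kernel

theorem perm3 (a b : Equiv.Perm W) (ha : ∀ i, a i ≠ i) (hb : ∀ i, b i ≠ i) : a = b ∨ a = b⁻¹ := by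
  let e := Fintype.equivFinOfCardEq cW
  rcases perm3' (e.permCongr a) (e.permCongr b) (fun i h => ha (e.symm i) (e.injective (by simpa [Equiv.permCongr_apply] using h)))
    (fun i h => hb (e.symm i) (e.injective (by simpa [Equiv.permCongr_apply] using h))) with h | h
  · exact Or.inl (e.permCongr.injective h)
  · refine Or.inr (e.permCongr.injective (h.trans ?_))
    ext i
    simp [Equiv.permCongr_apply, Equiv.Perm.inv_def]
    rfl

/-- Conjugation on the involutions. -/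
def conjW (q : A) : Equiv.Perm W where
  toFun w := ⟨q * w.1 * q⁻¹, by
    refine ⟨?_, fun h => w.2.2 (by simpa using h)⟩
    calc q * w.1 * q⁻¹ * (q * w.1 * q⁻¹) = q * (w.1 * w.1) * q⁻¹ := by group
      _ = 1 := by rw [w.2.1]; simp⟩
  invFun w := ⟨q⁻¹ * w.1 * q, by
    refine ⟨?_, fun h => w.2.2 ?_⟩
    · calc q⁻¹ * w.1 * q * (q⁻¹ * w.1 * q) = q⁻¹ * (w.1 * w.1) * q := by group
        _ = 1 := by rw [w.2.1]; simp
    · calc w.1 = q * (q⁻¹ * w.1 * q) * q⁻¹ := by group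
        _ = 1 := by rw [h]; simp⟩
  left_inv w := Subtype.ext (by group)
  right_inv w := Subtype.ext (by group)

/-- In the direct product P = A₄ × A₄, let X be the Sylow 2-subgroup, X₁ and X₂ its intersections with the two direct factors, Q a Sylow 3-subgroup and Q₁, Q₂ its intersections with the two factors. Then every subgroup B of X of order 4 either meets X₁ or X₂ nontrivially, or is normalized by one of the two subgroups of Q of order 3 other than Q₁ and Q₂. -/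
theorem result
    (X : Sylow 2 (↥(alternatingGroup (Fin 4)) × ↥(alternatingGroup (Fin 4))))
    (Q : Sylow 3 (↥(alternatingGroup (Fin 4)) × ↥(alternatingGroup (Fin 4))))
    (B : Subgroup (↥(alternatingGroup (Fin 4)) × ↥(alternatingGroup (Fin 4)))) (hBX : B ≤ (X : Subgroup _)) (hB4 : Nat.card ↥B = 4) :
    B ⊓ ((X : Subgroup _) ⊓ Subgroup.prod ⊤ ⊥) ≠ ⊥ ∨ B ⊓ ((X : Subgroup _) ⊓ Subgroup.prod ⊥ ⊤) ≠ ⊥ ∨
      ∃ R : Subgroup (↥(alternatingGroup (Fin 4)) × ↥(alternatingGroup (Fin 4))), R ≤ (Q : Subgroup _) ∧ Nat.card ↥R = 3 ∧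
        R ≠ (Q : Subgroup _) ⊓ Subgroup.prod ⊤ ⊥ ∧ R ≠ (Q : Subgroup _) ⊓ Subgroup.prod ⊥ ⊤ ∧ R ≤ Subgroup.normalizer (B : Set _) := by
  classical
  have hcP : Nat.card (A × A) = 144 := by rw [Nat.card_prod, Nat.card_eq_fintype_card, cA]
  have hXc : Nat.card (X : Subgroup (A × A)) = 16 := by
    rw [X.card_eq_multiplicity, hcP, show (144 : ℕ) = 2 ^ 4 * 3 ^ 2 by norm_num, Nat.factorization_mul (by norm_num) (by norm_num),
      Nat.Prime.factorization_pow Nat.prime_two, Nat.Prime.factorization_pow Nat.prime_three]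
    simp
  have hQc : Nat.card (Q : Subgroup (A × A)) = 9 := by
    rw [Q.card_eq_multiplicity, hcP, show (144 : ℕ) = 2 ^ 4 * 3 ^ 2 by norm_num, Nat.factorization_mul (by norm_num) (by norm_num),
      Nat.Prime.factorization_pow Nat.prime_two, Nat.Prime.factorization_pow Nat.prime_three]
    simp
  have hX2 : ∀ x ∈ (X : Subgroup (A × A)), x.1 * x.1 = 1 ∧ x.2 * x.2 = 1 := by
    intro x hx
    have h := congrArg Subtype.val (pow_card_eq_one' (x := (⟨x, hx⟩ : (X : Subgroup (A × A)))))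
    rw [hXc] at h
    exact ⟨sq_of_pow _ (congrArg Prod.fst h), sq_of_pow _ (congrArg Prod.snd h)⟩
  by_cases h1 : B ⊓ ((X : Subgroup _) ⊓ Subgroup.prod ⊤ ⊥) ≠ ⊥
  · exact Or.inl h1
  by_cases h2 : B ⊓ ((X : Subgroup _) ⊓ Subgroup.prod ⊥ ⊤) ≠ ⊥
  · exact Or.inr (Or.inl h2)
  push Not at h1 h2
  refine Or.inr (Or.inr ?_)
  have hB1 : ∀ b ∈ B, b.2 = 1 → b = 1 := by
    intro b hb e
    have : b ∈ B ⊓ ((X : Subgroup _) ⊓ Subgroup.prod ⊤ ⊥) :=
      Subgroup.mem_inf.2 ⟨hb, Subgroup.mem_inf.2 ⟨hBX hb, trivial, Subgroup.mem_bot.2 e⟩⟩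
    rwa [h1, Subgroup.mem_bot] at this
  have hB2 : ∀ b ∈ B, b.1 = 1 → b = 1 := by
    intro b hb e
    have : b ∈ B ⊓ ((X : Subgroup _) ⊓ Subgroup.prod ⊥ ⊤) :=
      Subgroup.mem_inf.2 ⟨hb, Subgroup.mem_inf.2 ⟨hBX hb, Subgroup.mem_bot.2 e, trivial⟩⟩
    rwa [h2, Subgroup.mem_bot] at this
  have hinj : ∀ b ∈ B, ∀ c ∈ B, b.1 = c.1 → b = c := fun b hb c hc e =>
    inv_mul_eq_one.1 (hB2 _ (mul_mem (inv_mem hb) hc) (by simp [e]))
  have hinj2 : ∀ b ∈ B, ∀ c ∈ B, b.2 = c.2 → b = c := fun b hb c hc e =>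
    inv_mul_eq_one.1 (hB1 _ (mul_mem (inv_mem hb) hc) (by simp [e]))
  have hcV : Fintype.card {g : A // g * g = 1} = 4 := by decide +kernel
  have hsurj : ∀ v : A, v * v = 1 → ∃ b ∈ B, b.1 = v := by
    have hbij : Function.Bijective (fun b : B => (⟨b.1.1, (hX2 _ (hBX b.2)).1⟩ : {g : A // g * g = 1})) := by
      rw [Nat.bijective_iff_injective_and_card]
      refine ⟨fun b c e => Subtype.ext (hinj _ b.2 _ c.2 (congrArg Subtype.val e)), ?_⟩
      rw [hB4, Nat.card_eq_fintype_card, hcV]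
    intro v hv
    obtain ⟨b, hb⟩ := hbij.2 ⟨v, hv⟩
    exact ⟨b.1, b.2, congrArg Subtype.val hb⟩
  choose β hβB hβ using hsurj
  let φ0 : W → W := fun w => ⟨(β w.1 w.2.1).2, (hX2 _ (hBX (hβB _ _))).2, fun e => w.2.2 (by
    rw [← hβ w.1 w.2.1, hB1 _ (hβB _ _) e]; rfl)⟩
  have hφ0 : Function.Injective φ0 := fun u w e => Subtype.ext (by
    rw [← hβ u.1 u.2.1, ← hβ w.1 w.2.1, hinj2 _ (hβB _ _) _ (hβB _ _) (congrArg Subtype.val e)])
  let φ : Equiv.Perm W := Equiv.ofBijective φ0 (Finite.injective_iff_bijective.1 hφ0)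
  have hQ3 : ∀ x ∈ (Q : Subgroup (A × A)), x.1 ^ 3 = 1 ∧ x.2 ^ 3 = 1 := by
    intro x hx
    have h := congrArg Subtype.val (pow_card_eq_one' (x := (⟨x, hx⟩ : (Q : Subgroup (A × A)))))
    rw [hQc] at h
    exact ⟨cube_of_pow _ (congrArg Prod.fst h), cube_of_pow _ (congrArg Prod.snd h)⟩
  set Q1 := (Q : Subgroup (A × A)).map (MonoidHom.fst A A) with hQ1
  set Q2 := (Q : Subgroup (A × A)).map (MonoidHom.snd A A) with hQ2
  have hd : ∀ S : Subgroup A, Nat.card S ∣ 9 → Nat.card S ∣ 3 := fun S hS => by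
    have h := S.card_subgroup_dvd_card
    rw [Nat.card_eq_fintype_card (α := A), cA] at h
    have := Nat.dvd_gcd hS h
    simpa using this
  have hd1 : Nat.card Q1 ∣ 3 := hd _ (hQc ▸ Subgroup.card_map_dvd _ _)
  have hd2 : Nat.card Q2 ∣ 3 := hd _ (hQc ▸ Subgroup.card_map_dvd _ _)
  have hle : (Q : Subgroup (A × A)) ≤ Q1.prod Q2 := fun x hx => ⟨⟨x, hx, rfl⟩, ⟨x, hx, rfl⟩⟩
  have hcp : Nat.card ↥(Q1.prod Q2) = Nat.card Q1 * Nat.card Q2 := by
    rw [Nat.card_congr (Subgroup.prodEquiv Q1 Q2).toEquiv, Nat.card_prod]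
  have h9 := Subgroup.card_le_of_le hle
  rw [hQc, hcp] at h9
  have hle1 := Nat.le_of_dvd (by norm_num) hd1
  have hle2 := Nat.le_of_dvd (by norm_num) hd2
  have e1 : Nat.card Q1 = 3 := by nlinarith
  have e2 : Nat.card Q2 = 3 := by nlinarith
  have heq : (Q : Subgroup (A × A)) = Q1.prod Q2 := Subgroup.eq_of_le_of_card_ge hle (by rw [hQc, hcp, e1, e2])
  obtain ⟨⟨a, ha⟩, ha1⟩ : ∃ a : Q1, a ≠ 1 := by
    haveI : Nontrivial Q1 := Finite.one_lt_card_iff_nontrivial.1 (by rw [e1]; norm_num)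
    exact exists_ne 1
  obtain ⟨⟨b, hb⟩, hb1⟩ : ∃ a : Q2, a ≠ 1 := by
    haveI : Nontrivial Q2 := Finite.one_lt_card_iff_nontrivial.1 (by rw [e2]; norm_num)
    exact exists_ne 1
  have ha' : a ≠ 1 := fun e => ha1 (Subtype.ext e)
  have hb' : b ≠ 1 := fun e => hb1 (Subtype.ext e)
  have hab : (a, b) ∈ (Q : Subgroup (A × A)) := by rw [heq]; exact ⟨ha, hb⟩
  have hψ : φ * conjW a * φ⁻¹ = conjW b ∨ φ * conjW a * φ⁻¹ = (conjW b)⁻¹ := by
    refine perm3 _ _ (fun w e => fpf a (φ⁻¹ w).1 (hQ3 _ hab).1 ha' (φ⁻¹ w).2.1 (φ⁻¹ w).2.2 ?_)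
      (fun w e => fpf b w.1 (hQ3 _ hab).2 hb' w.2.1 w.2.2 (congrArg Subtype.val e))
    have h' := congrArg (fun z => (φ⁻¹ z).1) e
    simpa [Equiv.Perm.mul_apply, conjW] using h'
  obtain ⟨s, hs, hsQ, hs1⟩ : ∃ s, φ * conjW a * φ⁻¹ = conjW s ∧ (a, s) ∈ (Q : Subgroup (A × A)) ∧ s ≠ 1 := by
    rcases hψ with h | h
    · exact ⟨b, h, hab, hb'⟩
    · refine ⟨b⁻¹, h.trans ?_, by rw [heq]; exact ⟨ha, Q2.inv_mem hb⟩, inv_ne_one.2 hb'⟩
      ext w : 1
      show (conjW b).symm w = conjW b⁻¹ w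
      apply Subtype.ext
      simp [conjW]
  have hn : (a, s) ∈ Subgroup.normalizer (B : Set (A × A)) := by
    apply Subgroup.mem_normalizer_fintype
    intro x hx
    by_cases hx1 : x.1 = 1
    · have := hB2 x hx hx1
      subst this
      rw [mul_one, mul_inv_cancel]
      exact one_mem B
    let w : W := ⟨x.1, (hX2 _ (hBX hx)).1, hx1⟩
    have hxw : β w.1 w.2.1 = x := hinj _ (hβB _ _) _ hx (hβ _ _)
    have hg := congrArg (fun p : Equiv.Perm W => (p (φ w)).1) hs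
    simp only [Equiv.Perm.mul_apply, Equiv.Perm.coe_inv, Equiv.symm_apply_apply] at hg
    have e : ((a, s) * x * (a, s)⁻¹ : A × A) = β (conjW a w).1 (conjW a w).2.1 := by
      refine Prod.ext ?_ ?_
      · rw [hβ]; rfl
      · have : s * (β w.1 w.2.1).2 * s⁻¹ = (β (conjW a w).1 (conjW a w).2.1).2 := hg.symm
        rw [hxw] at this
        exact this
    rw [e]
    exact hβB _ _
  refine ⟨Subgroup.zpowers (a, s), Subgroup.zpowers_le.2 hsQ, ?_, ?_, ?_, Subgroup.zpowers_le.2 hn⟩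
  · rw [Nat.card_zpowers]
    exact orderOf_eq_prime (Prod.ext (hQ3 _ hsQ).1 (hQ3 _ hsQ).2) (fun e => ha' (congrArg Prod.fst e))
  · intro e
    have := (Subgroup.mem_prod.1 (Subgroup.mem_inf.1 (e ▸ Subgroup.mem_zpowers (a, s))).2).2
    exact hs1 (Subgroup.mem_bot.1 this)
  · intro e
    have := (Subgroup.mem_prod.1 (Subgroup.mem_inf.1 (e ▸ Subgroup.mem_zpowers (a, s))).2).1
    exact ha' (Subgroup.mem_bot.1 this)

end Cfsg.Agent.S4406
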