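import Cfsg.Statements.S4407
import Mathlib
-- import your own Cfsg.Agent.* helpers here

set_option autoImplicit false
open Cfsg

namespace Cfsg.Agent.S4407

open Subgroup

theorem fix_exists {M : Type*} [AddCommGroup M] [Module (ZMod 2) M] (f : M →ₗ[ZMod 2] M) {v : M} (hv : v ≠ 0)
    (hf : ∀ x, f (f x) = x) (q : M → Prop) (hq : q v) (hadd : ∀ x y, q x → q y → q (x + y)) (hqf : ∀ x, q x → q (f x)) :
    ∃ w, w ≠ 0 ∧ q w ∧ f w = w := by
  by_cases h : f v = v
  · exact ⟨v, hv, hq, h⟩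
  · refine ⟨v + f v, fun e => h ?_, hadd _ _ hq (hqf _ hq), by rw [map_add, hf, add_comm]⟩
    rw [eq_neg_of_add_eq_zero_right e, ← neg_one_smul (ZMod 2), show (-1 : ZMod 2) = 1 from by decide, one_smul]

theorem two_eq_zero {M : Type*} [AddCommGroup M] [Module (ZMod 2) M] (x : M) : x + x = 0 := by
  rw [← two_smul (ZMod 2) x, show (2 : ZMod 2) = 0 from by decide, zero_smul]

/-- The relations used for the module computation. -/
structure Coord (S : Type*) [Group S] (a b r s : S) : Prop where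
  a3 : a ^ 3 = 1
  b3 : b ^ 3 = 1
  ab : a * b = b * a
  sa : s * a = a * s
  sb : s * b = b ^ 2 * s
  ra : r * a = b * r
  rb : r * b = a ^ 2 * r
  ss : s * s = 1
  r4 : r ^ 4 = 1
  rs : s * r = r ^ 3 * s
  a_ne : a ≠ 1
  b_ne : b ≠ 1

theorem coord_swap {S : Type*} [Group S] {a b r s : S} (h : Coord S a b r s) (hne : a * b ≠ 1) (hne' : a ^ 2 * b ≠ 1) :
    Coord S (a * b) (a ^ 2 * b) r (r * s) := by
  have hc : Commute a b := h.ab
  have ha2 : a⁻¹ = a ^ 2 := inv_eq_of_mul_eq_one_left (by rw [← pow_succ, h.a3])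
  have hb2 : b⁻¹ = b ^ 2 := inv_eq_of_mul_eq_one_left (by rw [← pow_succ, h.b3])
  have cra : r * a * r⁻¹ = b := by rw [h.ra]; group
  have crb : r * b * r⁻¹ = a⁻¹ := by rw [h.rb, ha2]; group
  have csa : s * a * s⁻¹ = a := by rw [h.sa]; group
  have csb : s * b * s⁻¹ = b⁻¹ := by rw [h.sb, hb2]; group
  have hsr : ∀ g : S, r * s * g * (r * s)⁻¹ = r * (s * g * s⁻¹) * r⁻¹ := fun g => by group
  have hmul : ∀ g x y : S, g * (x * y) * g⁻¹ = (g * x * g⁻¹) * (g * y * g⁻¹) := fun g x y => by group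
  have hpow : ∀ g x : S, g * x ^ 2 * g⁻¹ = (g * x * g⁻¹) ^ 2 := fun g x => conj_pow.symm
  have hab3 : (a * b) ^ 3 = 1 := by rw [hc.mul_pow, h.a3, h.b3, one_mul]
  have ha2b3 : (a ^ 2 * b) ^ 3 = 1 := by
    rw [(hc.pow_left 2).mul_pow, ← pow_mul, h.b3, mul_one, mul_comm, pow_mul, h.a3, one_pow]
  refine ⟨hab3, ha2b3, ?_, ?_, ?_, ?_, ?_, ?_, h.r4, ?_, hne, hne'⟩
  · exact (((Commute.refl a).pow_right 2).mul_right hc).mul_left ((hc.symm.pow_right 2).mul_right (Commute.refl b))
  · refine mul_inv_eq_iff_eq_mul.1 ?_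
    rw [hsr, hmul s, csa, csb, hmul r, cra, show r * b⁻¹ * r⁻¹ = (r * b * r⁻¹)⁻¹ by group, crb, inv_inv]
    exact hc.symm.eq
  · refine mul_inv_eq_iff_eq_mul.1 ?_
    rw [hsr, hmul s, hpow, csa, csb, hmul r, hpow, cra, show r * b⁻¹ * r⁻¹ = (r * b * r⁻¹)⁻¹ by group, crb, inv_inv,
      (hc.pow_left 2).mul_pow, ← pow_mul]
    rw [show a ^ (2 * 2) = a ^ 3 * a from pow_succ a 3, h.a3, one_mul]
    exact (hc.pow_right 2).symm.eq
  · refine mul_inv_eq_iff_eq_mul.1 ?_
    rw [hmul r, cra, crb, ha2]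
    exact (hc.pow_left 2).symm.eq
  · refine mul_inv_eq_iff_eq_mul.1 ?_
    rw [hmul r, hpow, cra, crb, hc.mul_pow, ha2]
    exact (hc.pow_pow 2 2).symm.eq
  · calc r * s * (r * s) = r * (s * r) * s := by group
      _ = r ^ 4 * (s * s) := by rw [h.rs]; group
      _ = 1 := by rw [h.r4, h.ss, one_mul]
  · calc r * s * r = r * (s * r) := by group
      _ = r ^ 3 * (r * s) := by rw [h.rs]; group

theorem coord_exists {S : Type*} [Group S] [Finite S] (A : Subgroup S) [A.Normal] (hA : Cfsg.IsElementaryAbelian 3 A)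
    (hA9 : Nat.card ↥A = 9) (hAC : Subgroup.centralizer (A : Set S) = A) (X : Subgroup S)
    (hX : Nonempty (↥X ≃* DihedralGroup 4)) (hAX : A ⊔ X = ⊤) :
    ∃ a b r s : S, Coord S a b r s ∧ a ∈ A ∧ b ∈ A ∧ A = closure {a, b} ∧ r ∈ X ∧ s ∈ X ∧ r ^ 2 ≠ 1 ∧
      (⊤ : Subgroup S) = closure {a, b, r, s} ∧
      (∀ x ∈ X, x ^ 2 = 1 → x = 1 ∨ x = r ^ 2 ∨ x = s ∨ x = r ^ 2 * s ∨ x = r * s ∨ x = r ^ 3 * s) := by
  obtain ⟨e⟩ := hX
  set f : DihedralGroup 4 →* S := X.subtype.comp e.symm.toMonoidHom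
  have hf : Function.Injective f := X.subtype_injective.comp e.symm.injective
  have hfX : ∀ x ∈ X, ∃ d, f d = x := fun x hx => ⟨e ⟨x, hx⟩, by simp [f]⟩
  set r := f (DihedralGroup.r 1)
  set s := f (DihedralGroup.sr 0)
  have hr : r ∈ X := (e.symm _).2
  have hs : s ∈ X := (e.symm _).2
  have hr4 : r ^ 4 = 1 := by rw [← map_pow, show (DihedralGroup.r 1 : DihedralGroup 4) ^ 4 = 1 by decide, map_one]
  have hss : s * s = 1 := by rw [← map_mul, show (DihedralGroup.sr 0 : DihedralGroup 4) * DihedralGroup.sr 0 = 1 by decide, map_one]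
  have hrs : s * r = r ^ 3 * s := by
    rw [← map_mul, ← map_pow, ← map_mul]; congr 1
  have hcop : (Nat.card A).Coprime (Nat.card X) := by
    rw [hA9, Nat.card_congr e.toEquiv, DihedralGroup.nat_card]; norm_num
  have hdisj : ∀ x ∈ X, x ∈ A → x = 1 := fun x hx hxA => Subgroup.mem_bot.1
    (Subgroup.inf_eq_bot_of_coprime hcop ▸ (⟨hxA, hx⟩ : x ∈ A ⊓ X))
  have hcA : ∀ x ∈ A, ∀ y ∈ A, x * y = y * x := fun x hx y hy =>
    congrArg Subtype.val (hA.1.is_comm.comm (⟨x, hx⟩ : A) ⟨y, hy⟩)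
  have hnm : ∀ x : S, ∀ y ∈ A, x * y * x⁻¹ ∈ A := fun x y hy => (inferInstance : A.Normal).conj_mem y hy x
  have hfaith : ∀ x ∈ X, x ≠ 1 → ∃ y ∈ A, x * y ≠ y * x := by
    intro x hx hne
    by_contra hc
    push Not at hc
    exact hne (hdisj x hx (hAC ▸ mem_centralizer_iff.2 fun y hy => (hc y hy).symm))
  set z := r ^ 2
  have hz1 : z ≠ 1 := by
    rw [show z = f (DihedralGroup.r 1 ^ 2) from (map_pow f _ _).symm, ← map_one f]
    exact hf.ne (by decide)
  have hz2 : z * z = 1 := by rw [← pow_add]; exact hr4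
  have hA3 : ∀ y ∈ A, y ^ 3 = 1 := hA.2
  -- involutions have fixed or inverted elements
  have hdec : ∀ x ∈ X, x * x = 1 → ∀ y ∈ A, (x * (y * (x * y * x⁻¹)) * x⁻¹ = y * (x * y * x⁻¹)) ∧
      (x * (y * (x * y * x⁻¹)⁻¹) * x⁻¹ = (y * (x * y * x⁻¹)⁻¹)⁻¹) := by
    intro x hx hxx y hy
    have hxi : x⁻¹ = x := inv_eq_of_mul_eq_one_left hxx
    refine ⟨?_, ?_⟩
    · calc x * (y * (x * y * x⁻¹)) * x⁻¹ = (x * y * x⁻¹) * ((x * x) * y * (x * x)⁻¹) := by group
        _ = (x * y * x⁻¹) * y := by rw [hxx]; simp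
        _ = _ := hcA _ (hnm x y hy) _ hy
    · calc x * (y * (x * y * x⁻¹)⁻¹) * x⁻¹ = (x * y * x⁻¹) * ((x * x) * y⁻¹ * (x * x)⁻¹) := by group
        _ = (x * y * x⁻¹) * y⁻¹ := by rw [hxx]; simp
        _ = _ := by rw [mul_inv_rev, inv_inv]
  -- the central involution inverts `A`
  have hcard2 : ∀ c ∈ A, c ≠ 1 → Nat.card (zpowers c) = 3 := fun c hc hne => by
    rw [Nat.card_zpowers]; exact orderOf_eq_prime (hA3 c hc) hne
  have hgen : ∀ c ∈ A, ∀ d ∈ A, c ≠ 1 → d ∉ zpowers c → A = closure {c, d} := by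
    intro c hc d hd hc1 hdc
    refine (Subgroup.eq_of_le_of_card_ge ((closure_le _).2 (by rintro _ (rfl | rfl) <;> assumption)) ?_).symm
    have h1 : zpowers c ≤ closure {c, d} := zpowers_le.2 (subset_closure (by simp))
    have h2 : Nat.card ↥(closure {c, d}) ∣ 3 ^ 2 := by
      rw [show 3 ^ 2 = Nat.card A from hA9.symm]
      exact card_dvd_of_le ((closure_le _).2 (by rintro _ (rfl | rfl) <;> assumption))
    obtain ⟨i, hi, hie⟩ := (Nat.dvd_prime_pow Nat.prime_three).1 h2
    have h3 : zpowers c < closure {c, d} := lt_of_le_of_ne h1 fun e => hdc (by rw [e]; exact subset_closure (by simp))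
    have h4 : Nat.card (zpowers c) < Nat.card ↥(closure {c, d}) := by
      rcases Nat.lt_or_ge (Nat.card (zpowers c)) (Nat.card ↥(closure {c, d})) with h | h
      · exact h
      · exact absurd (Subgroup.eq_of_le_of_card_ge h1 h) h3.ne
    rw [hcard2 c hc hc1, hie] at h4
    rw [hA9, hie]
    interval_cases i <;> omega
  have hzinv : ∀ y ∈ A, z * y * z⁻¹ = y⁻¹ := by
    by_contra hc
    push Not at hc
    obtain ⟨y, hy, hy1⟩ := hc
    obtain ⟨hd1, -⟩ := hdec z (pow_mem hr 2) hz2 y hy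
    set c := y * (z * y * z⁻¹)
    have hcA' : c ∈ A := mul_mem hy (hnm z y hy)
    have hc1 : c ≠ 1 := fun e => hy1 (eq_inv_of_mul_eq_one_right e)
    obtain ⟨y', hy', hy1'⟩ := hfaith z (pow_mem hr 2) hz1
    obtain ⟨-, hd2⟩ := hdec z (pow_mem hr 2) hz2 y' hy'
    set d := y' * (z * y' * z⁻¹)⁻¹
    have hdA : d ∈ A := mul_mem hy' (A.inv_mem (hnm z y' hy'))
    have hd1' : d ≠ 1 := fun e => hy1' (by
      have := mul_inv_eq_one.1 e
      conv_rhs => rw [this]
      group)
    -- `r` fixes the two eigenspaces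
    have hsq : ∀ e ∈ A, ∀ k : ℤ, r * e * r⁻¹ = e ^ k → z * e * z⁻¹ = e := by
      intro e he k hk
      have h1 : z * e * z⁻¹ = e ^ (k * k) := by
        calc z * e * z⁻¹ = r * (r * e * r⁻¹) * r⁻¹ := by simp [z, sq, mul_assoc]
          _ = (r * e * r⁻¹) ^ k := by rw [hk, ← conj_zpow, hk]
          _ = _ := by rw [hk, zpow_mul]
      rw [h1]
      by_cases he1 : e = 1
      · rw [he1, one_zpow]
      have hk3 : ¬ (3 : ℤ) ∣ k := by
        rintro ⟨t, rfl⟩
        refine he1 (mul_left_cancel (a := r) ?_)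
        have : r * e * r⁻¹ = 1 := by
          rw [hk, zpow_mul, show e ^ (3 : ℤ) = 1 by exact_mod_cast hA3 e he, one_zpow]
        rw [mul_one, ← mul_inv_eq_one, this]
      have : e ^ (k * k - 1) = 1 := by
        have h3 : (3 : ℤ) ∣ k * k - 1 := by
          rcases (by omega : k % 3 = 1 ∨ k % 3 = 2) with h | h <;>
            exact Int.dvd_of_emod_eq_zero (by rw [Int.sub_emod, Int.mul_emod, h]; rfl)
        obtain ⟨t, ht⟩ := h3
        rw [ht, zpow_mul, show e ^ (3 : ℤ) = 1 by exact_mod_cast hA3 e he, one_zpow]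
      calc e ^ (k * k) = e ^ (k * k - 1) * e := by rw [← zpow_add_one]; ring_nf
        _ = e := by rw [this, one_mul]
    have hinv3 : ∀ e ∈ A, z * e * z⁻¹ = e → z * e * z⁻¹ = e⁻¹ → e = 1 := fun e he h1 h2 => by
      have h3 : e = e⁻¹ := h1.symm.trans h2
      have h4 : e ^ 2 = 1 := by rw [sq]; nth_rewrite 1 [h3]; exact inv_mul_cancel e
      calc e = e ^ 3 * (e ^ 2)⁻¹ := by group
        _ = 1 := by rw [hA3 e he, h4, inv_one, one_mul]
    have hdz : d ∉ zpowers c := fun hm => by
      obtain ⟨i, hi⟩ := mem_zpowers_iff.1 hm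
      refine hd1' (hinv3 d hdA ?_ hd2)
      rw [← hi, ← conj_zpow, hd1]
    have hAcd := hgen c hcA' d hdA hc1 hdz
    have hr2 : r * z = z * r := ((Commute.refl r).pow_right 2).eq
    have hmem : r * d * r⁻¹ ∈ zpowers d := by
      have hrd : z * (r * d * r⁻¹) * z⁻¹ = (r * d * r⁻¹)⁻¹ := by
        calc z * (r * d * r⁻¹) * z⁻¹ = (z * r) * d * (z * r)⁻¹ := by group
          _ = r * (z * d * z⁻¹) * r⁻¹ := by rw [← hr2]; group
          _ = _ := by rw [hd2]; group
      by_contra hm
      have hA2 : A = closure {d, r * d * r⁻¹} := hgen d hdA _ (hnm r d hdA) hd1' hm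
      have hall : A ≤ Subgroup.closure {d, r * d * r⁻¹} := hA2.le
      refine hc1 (hinv3 c hcA' hd1 ?_)
      refine Subgroup.closure_induction (p := fun x _ => z * x * z⁻¹ = x⁻¹) ?_ (by simp) ?_ ?_ (hall hcA')
      · rintro x (rfl | rfl)
        · exact hd2
        · exact hrd
      · intro u v hu hv hu' hv'
        calc z * (u * v) * z⁻¹ = (z * u * z⁻¹) * (z * v * z⁻¹) := by group
          _ = u⁻¹ * v⁻¹ := by rw [hu', hv']
          _ = v⁻¹ * u⁻¹ := hcA _ (A.inv_mem (hA2.ge hu)) _ (A.inv_mem (hA2.ge hv))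
          _ = _ := (mul_inv_rev _ _).symm
      · intro u _ hu
        calc z * u⁻¹ * z⁻¹ = (z * u * z⁻¹)⁻¹ := by group
          _ = _ := by rw [hu]
    obtain ⟨k, hk⟩ := mem_zpowers_iff.1 hmem
    exact hd1' (hinv3 d hdA (hsq d hdA k hk.symm) hd2)
  -- a fixed element of `s`
  have hs1 : s ≠ 1 := by rw [← map_one f]; exact hf.ne (by decide)
  have hsz : s * z ≠ 1 := by
    rw [show s * z = f (DihedralGroup.sr 0 * DihedralGroup.r 1 ^ 2) by rw [map_mul, map_pow], ← map_one f]
    exact hf.ne (by decide)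
  obtain ⟨y, hy, hy1⟩ := hfaith (s * z) (mul_mem hs (pow_mem hr 2)) hsz
  obtain ⟨hd1, -⟩ := hdec s hs hss y hy
  set a := y * (s * y * s⁻¹)
  have haA : a ∈ A := mul_mem hy (hnm s y hy)
  have ha1 : a ≠ 1 := fun e => hy1 (by
    have h1 : s * y * s⁻¹ = y⁻¹ := eq_inv_of_mul_eq_one_right e
    have h2 : s * z * y * (s * z)⁻¹ = y := by
      calc s * z * y * (s * z)⁻¹ = s * (z * y * z⁻¹) * s⁻¹ := by group
        _ = (s * y * s⁻¹)⁻¹ := by rw [hzinv y hy]; group
        _ = y := by rw [h1, inv_inv]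
    exact mul_inv_eq_iff_eq_mul.1 h2)
  set b := r * a * r⁻¹
  have hbA : b ∈ A := hnm r a haA
  have hinv : s * b * s⁻¹ = b⁻¹ := by
    calc s * b * s⁻¹ = (s * r) * a * (s * r)⁻¹ := by simp only [b, mul_inv_rev, mul_assoc]
      _ = r ^ 3 * (s * a * s⁻¹) * (r ^ 3)⁻¹ := by rw [hrs]; group
      _ = r ^ 3 * a * (r ^ 3)⁻¹ := by rw [hd1]
      _ = r * (z * a * z⁻¹) * r⁻¹ := by simp only [z]; group
      _ = b⁻¹ := by rw [hzinv a haA]; simp only [b]; group
  have hb1 : b ≠ 1 := fun e => ha1 (by simpa [b] using e)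
  have hbz : b ∉ zpowers a := fun hm => by
    obtain ⟨i, hi⟩ := mem_zpowers_iff.1 hm
    have h1 : s * b * s⁻¹ = b := by rw [← hi, ← conj_zpow, hd1]
    have h3 : b = b⁻¹ := h1.symm.trans hinv
    refine hb1 ?_
    have h4 : b ^ 2 = 1 := by rw [sq]; nth_rewrite 1 [h3]; exact inv_mul_cancel b
    calc b = b ^ 3 * (b ^ 2)⁻¹ := by group
      _ = 1 := by rw [hA3 b hbA, h4, inv_one, one_mul]
  have hb2 : b⁻¹ = b ^ 2 := inv_eq_of_mul_eq_one_left (by rw [← pow_succ, hA3 b hbA])
  have ha2 : a⁻¹ = a ^ 2 := inv_eq_of_mul_eq_one_left (by rw [← pow_succ, hA3 a haA])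
  have hAab := hgen a haA b hbA ha1 hbz
  have hDgen : ∀ d : DihedralGroup 4, f d ∈ closure {a, b, r, s} := by
    intro d
    have : ∀ d : DihedralGroup 4, ∃ i : Fin 4, d = DihedralGroup.r 1 ^ (i : ℕ) ∨ d = DihedralGroup.r 1 ^ (i : ℕ) * DihedralGroup.sr 0 := by
      decide
    obtain ⟨i, h | h⟩ := this d
    · rw [h, map_pow]; exact pow_mem (subset_closure (by simp [r])) _
    · rw [h, map_mul, map_pow]; exact mul_mem (pow_mem (subset_closure (by simp [r])) _) (subset_closure (by simp [s]))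
  refine ⟨a, b, r, s, ⟨hA3 a haA, hA3 b hbA, hcA a haA b hbA, mul_inv_eq_iff_eq_mul.1 hd1, ?_, ?_, ?_, hss, hr4, hrs, ha1, hb1⟩,
    haA, hbA, hAab, hr, hs, hz1, ?_, ?_⟩
  · rw [← hb2]; exact mul_inv_eq_iff_eq_mul.1 hinv
  · simp [b, mul_assoc]
  · rw [← ha2]
    refine mul_inv_eq_iff_eq_mul.1 ?_
    calc r * b * r⁻¹ = z * a * z⁻¹ := by simp only [b, z, sq, mul_inv_rev, mul_assoc]
      _ = _ := hzinv a haA
  · refine le_antisymm ?_ le_top
    rw [← hAX]
    refine sup_le (hAab.le.trans (closure_mono (by simp [Set.insert_subset_iff]))) fun x hx => ?_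
    obtain ⟨d, rfl⟩ := hfX x hx
    exact hDgen d
  · intro x hx hx2
    obtain ⟨d, rfl⟩ := hfX x hx
    have hd : d ^ 2 = 1 := hf (by rw [map_pow, map_one]; exact hx2)
    have key : ∀ d : DihedralGroup 4, d ^ 2 = 1 → d = 1 ∨ d = DihedralGroup.r 1 ^ 2 ∨ d = DihedralGroup.sr 0 ∨
        d = DihedralGroup.r 1 ^ 2 * DihedralGroup.sr 0 ∨ d = DihedralGroup.r 1 * DihedralGroup.sr 0 ∨
        d = DihedralGroup.r 1 ^ 3 * DihedralGroup.sr 0 := by decide
    rcases key d hd with h | h | h | h | h | h <;> simp only [h, r, s, z, map_one, map_mul, map_pow, true_or, or_true]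

/-- Let S be a finite group with a normal elementary abelian subgroup A of order 9 that is self-centralizing (C_S(A) = A), and a dihedral subgroup X of order 8 with S = AX. Let M be a finite-dimensional module for S over the field with two elements that is faithful and irreducible. Then M has 16 elements, and X contains exactly one subgroup B of order 4 and exponent 2 whose fixed points on M form a subspace with exactly 2 elements (equivalently, M is free of rank one over the group algebra of B). -/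
theorem result {S : Type*} [Group S] [Finite S]
    (A : Subgroup S) [A.Normal] (hA : Cfsg.IsElementaryAbelian 3 A) (hA9 : Nat.card ↥A = 9)
    (hAC : Subgroup.centralizer (A : Set S) = A) (X : Subgroup S) (hX : Nonempty (↥X ≃* DihedralGroup 4)) (hAX : A ⊔ X = ⊤)
    {M : Type*} [AddCommGroup M] [Module (ZMod 2) M] [Finite M] (ρ : Representation (ZMod 2) S M)
    (hfaith : Function.Injective ρ)
    (hirr : ∀ N : Submodule (ZMod 2) M, (∀ s : S, ∀ m ∈ N, ρ s m ∈ N) → N = ⊥ ∨ N = ⊤) (hM : Nontrivial M) :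
    Nat.card M = 16 ∧
      ∃! B : Subgroup S, B ≤ X ∧ Nat.card ↥B = 4 ∧ (∀ b ∈ B, b ^ 2 = 1) ∧
        Nat.card {m : M // ∀ b ∈ B, ρ b m = m} = 2 := by
  classical
  obtain ⟨a, b, r, s, hc, haA, hbA, hAab, hrX, hsX, hz1, hgen, hinvol⟩ := coord_exists A hA hA9 hAC X hX hAX
  -- fixed points of `A` vanish
  have happ : ∀ (g h : S) (v : M), ρ g (ρ h v) = ρ (g * h) v := fun g h v => by rw [map_mul]; rfl
  have hone : ∀ v : M, ρ 1 v = v := fun v => by rw [map_one]; rfl
  have hfixA : ∀ v : M, ρ a v = v → ρ b v = v → v = 0 := by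
    intro v hva hvb
    let N : Submodule (ZMod 2) M :=
      { carrier := {w | ∀ x ∈ A, ρ x w = w}
        zero_mem' := fun x _ => map_zero _
        add_mem' := fun {u w} hu hw x hx => by rw [map_add, hu x hx, hw x hx]
        smul_mem' := fun c w hw x hx => by rw [map_smul, hw x hx] }
    have hN : ∀ g : S, ∀ w ∈ N, ρ g w ∈ N := by
      intro g w hw x hx
      have h1 := hw (g⁻¹ * x * g) (by simpa using (inferInstance : A.Normal).conj_mem x hx g⁻¹)
      rw [happ, show x * g = g * (g⁻¹ * x * g) by group, ← happ, h1]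
    rcases hirr N hN with h | h
    · have : v ∈ N := by
        intro x hx
        rw [hAab] at hx
        refine closure_induction (p := fun x _ => ρ x v = v) ?_ (hone v) ?_ ?_ hx
        · rintro x (rfl | rfl) <;> assumption
        · intro x y _ _ hx hy; rw [← happ, hy, hx]
        · intro x _ hx
          conv_lhs => rw [← hx]
          rw [happ, inv_mul_cancel, hone]
      rw [h] at this
      exact (Submodule.mem_bot _).1 this
    · exfalso
      refine hc.a_ne (hfaith ?_)
      refine LinearMap.ext fun w => ?_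
      rw [map_one]
      exact (show w ∈ N from h ▸ Submodule.mem_top) a haA
  -- choose coordinates with a nonzero fixed space
  obtain ⟨v0, hv0⟩ := exists_ne (0 : M)
  have hsum : ∀ (x : S) (w : M), x ^ 3 = 1 → ρ x (w + ρ x w + ρ x (ρ x w)) = w + ρ x w + ρ x (ρ x w) := by
    intro x w hx
    simp only [map_add, happ]
    rw [show x * (x * x) = 1 by rw [← hx]; simp only [pow_succ, pow_zero, one_mul, mul_assoc], hone]
    abel
  obtain ⟨a', b', s', hc', hs'X, hinvol', hgen', hAab', v, hv, hva⟩ : ∃ a' b' s', Coord S a' b' r s' ∧ s' ∈ X ∧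
      (∀ x ∈ X, x ^ 2 = 1 → x = 1 ∨ x = r ^ 2 ∨ x = s' ∨ x = r ^ 2 * s' ∨ x = r * s' ∨ x = r ^ 2 * (r * s')) ∧
      (⊤ : Subgroup S) = closure {a', b', r, s'} ∧ A = closure {a', b'} ∧ ∃ v : M, v ≠ 0 ∧ ρ a' v = v := by
    by_cases h : ∃ v : M, v ≠ 0 ∧ ρ a v = v
    · refine ⟨a, b, s, hc, hsX, fun x hx hx2 => ?_, hgen, hAab, h⟩
      rw [show r ^ 2 * (r * s) = r ^ 3 * s by group]
      exact hinvol x hx hx2
    push Not at h
    have hz : ∀ w, w + ρ a w + ρ a (ρ a w) = 0 := fun w => by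
      by_contra hne
      exact h _ hne (hsum a w hc.a3)
    have hab1 : a * b ≠ 1 := by
      intro e
      refine hv0 (hfixA v0 ?_ ?_)
      all_goals
        exfalso
        have hbe : b = a⁻¹ := eq_inv_of_mul_eq_one_right e
        have hle : A ≤ zpowers a := hAab.le.trans ((closure_le _).2 (by
          rintro x (hx | hx) <;> rw [hx]
          · exact mem_zpowers a
          · rw [hbe]; exact (zpowers a).inv_mem (mem_zpowers a)))
        have := Subgroup.card_le_of_le hle
        rw [hA9, Nat.card_zpowers, orderOf_eq_prime hc.a3 hc.a_ne] at this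
        omega
    have hab2 : a ^ 2 * b ≠ 1 := by
      intro e
      have hbe : b = a := by
        calc b = a ^ 3 * b := by rw [hc.a3, one_mul]
          _ = a * (a ^ 2 * b) := by group
          _ = a := by rw [e, mul_one]
      have hle : A ≤ zpowers a := hAab.le.trans ((closure_le _).2 (by
        rintro x (hx | hx) <;> rw [hx]
        · exact mem_zpowers a
        · rw [hbe]; exact mem_zpowers a))
      have := Subgroup.card_le_of_le hle
      rw [hA9, Nat.card_zpowers, orderOf_eq_prime hc.a3 hc.a_ne] at this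
      omega
    have h34 : r ^ 2 * (r * (r * s)) = s := by
      calc r ^ 2 * (r * (r * s)) = r ^ 4 * s := by group
        _ = s := by rw [hc.r4, one_mul]
    refine ⟨a * b, a ^ 2 * b, r * s, coord_swap hc hab1 hab2, mul_mem hrX hsX, fun x hx hx2 => ?_, ?_, ?_, ?_⟩
    · rw [h34, show r * (r * s) = r ^ 2 * s by simp only [sq, mul_assoc], show r ^ 2 * (r * s) = r ^ 3 * s by group]
      rcases hinvol x hx hx2 with h | h | h | h | h | h <;> simp [h]
    · refine le_antisymm ?_ le_top
      rw [hgen]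
      refine (closure_le _).2 ?_
      have m1 : a * b ∈ closure {a * b, a ^ 2 * b, r, r * s} := subset_closure (by simp)
      have m2 : a ^ 2 * b ∈ closure {a * b, a ^ 2 * b, r, r * s} := subset_closure (by simp)
      have m3 : r ∈ closure {a * b, a ^ 2 * b, r, r * s} := subset_closure (by simp)
      have m4 : r * s ∈ closure {a * b, a ^ 2 * b, r, r * s} := subset_closure (by simp)
      have ma : a ∈ closure {a * b, a ^ 2 * b, r, r * s} := by
        have he : (a ^ 2 * b) * (a * b)⁻¹ = a := by group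
        have h := mul_mem m2 (Subgroup.inv_mem _ m1)
        rwa [he] at h
      rintro _ (rfl | rfl | rfl | rfl)
      · exact ma
      · simpa using mul_mem (Subgroup.inv_mem _ ma) m1
      · exact m3
      · simpa using mul_mem (Subgroup.inv_mem _ m3) m4
    · rw [hAab]
      refine le_antisymm ((closure_le _).2 ?_) ((closure_le _).2 ?_)
      · have m1 : a * b ∈ closure {a * b, a ^ 2 * b} := subset_closure (by simp)
        have m2 : a ^ 2 * b ∈ closure {a * b, a ^ 2 * b} := subset_closure (by simp)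
        have ma : a ∈ closure {a * b, a ^ 2 * b} := by
          have he : (a ^ 2 * b) * (a * b)⁻¹ = a := by group
          have h := mul_mem m2 (Subgroup.inv_mem _ m1)
          rwa [he] at h
        rintro _ (rfl | rfl)
        · exact ma
        · simpa using mul_mem (Subgroup.inv_mem _ ma) m1
      · have ma : a ∈ closure {a, b} := subset_closure (by simp)
        have mb : b ∈ closure {a, b} := subset_closure (by simp)
        rintro _ (rfl | rfl)
        · exact mul_mem ma mb
        · exact mul_mem (pow_mem ma 2) mb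
    · by_contra hno
      push Not at hno
      have hw1 : ∀ w, w + ρ (a * b) w + ρ (a * b) (ρ (a * b) w) = 0 := fun w => by
        by_contra hne
        exact hno _ hne (hsum _ w (by rw [(show Commute a b from hc.ab).mul_pow, hc.a3, hc.b3, one_mul]))
      have hzb : ∀ w, w + ρ b w + ρ b (ρ b w) = 0 := fun w => by
        obtain ⟨u, rfl⟩ : ∃ u, ρ r u = w := ⟨ρ r⁻¹ w, by rw [happ, mul_inv_cancel, hone]⟩
        have hb : ∀ u, ρ b (ρ r u) = ρ r (ρ a u) := fun u => by rw [happ, happ, hc.ra]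
        rw [hb, hb, ← map_add, ← map_add, hz, map_zero]
      have hw2 : ∀ w, w + ρ (a ^ 2 * b) w + ρ (a ^ 2 * b) (ρ (a ^ 2 * b) w) = 0 := fun w => by
        obtain ⟨u, rfl⟩ : ∃ u, ρ r u = w := ⟨ρ r⁻¹ w, by rw [happ, mul_inv_cancel, hone]⟩
        have he : r * (a * b) = a ^ 2 * b * r := by
          calc r * (a * b) = (r * a) * b := by group
            _ = b * (r * b) := by rw [hc.ra]; group
            _ = b * a ^ 2 * r := by rw [hc.rb]; group
            _ = a ^ 2 * b * r := by rw [((show Commute a b from hc.ab).pow_left 2).eq]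
        have hb : ∀ u, ρ (a ^ 2 * b) (ρ r u) = ρ r (ρ (a * b) u) := fun u => by rw [happ, happ, he]
        rw [hb, hb, ← map_add, ← map_add, hw1, map_zero]
      have hall := hfixA
      set T := v0 + ρ a v0 + ρ a (ρ a v0) with hT
      set U := T + ρ b T + ρ b (ρ b T)
      refine hv0 ?_
      have e1 := hz v0; have e2 := hzb v0; have e3 := hw1 v0; have e4 := hw2 v0
      simp only [happ] at e1 e2 e3 e4
      have hca : Commute a b := hc.ab
      have q1 : a * b * (a * b) = a ^ 2 * b ^ 2 := by rw [← sq, hca.mul_pow]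
      have q2 : a ^ 2 * b * (a ^ 2 * b) = a * b ^ 2 := by
        rw [← sq, (hca.pow_left 2).mul_pow, ← pow_mul]
        rw [show a ^ (2 * 2) = a ^ 3 * a by group, hc.a3, one_mul]
      rw [q1] at e3; rw [q2] at e4
      have e5 := hzb (v0 + ρ a v0 + ρ a (ρ a v0))
      simp only [map_add, happ] at e5
      rw [← sq a] at e1
      rw [← sq b] at e2
      have h9 : ∀ x : M, x + x = 0 := two_eq_zero
      have e5' : v0 + ρ a v0 + ρ (a ^ 2) v0 + ρ b v0 + ρ (a * b) v0 + ρ (a ^ 2 * b) v0 + ρ (b ^ 2) v0 +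
          ρ (a * b ^ 2) v0 + ρ (a ^ 2 * b ^ 2) v0 = 0 := by
        have hb2 : b * b = b ^ 2 := (sq b).symm
        have ha2 : a * a = a ^ 2 := (sq a).symm
        have c1 : b * a = a * b := hc.ab.symm
        have c2 : b * (a * a) = a ^ 2 * b := by rw [ha2, (hca.pow_left 2).eq]
        have c3 : b * (b * a) = a * b ^ 2 := by rw [← mul_assoc, hb2, (hca.pow_right 2).eq]
        have c4 : b * (b * (a * a)) = a ^ 2 * b ^ 2 := by rw [← mul_assoc, hb2, ha2, (hca.pow_pow 2 2).eq]
        rw [c4, c3, c2, c1, hb2, ha2] at e5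
        rw [← e5]; abel
      calc v0 = (v0 + ρ a v0 + ρ (a ^ 2) v0) + (v0 + ρ b v0 + ρ (b ^ 2) v0)
            + (v0 + ρ (a * b) v0 + ρ (a ^ 2 * b ^ 2) v0) + (v0 + ρ (a ^ 2 * b) v0 + ρ (a * b ^ 2) v0)
            + (v0 + ρ a v0 + ρ (a ^ 2) v0 + ρ b v0 + ρ (a * b) v0 + ρ (a ^ 2 * b) v0 + ρ (b ^ 2) v0 +
              ρ (a * b ^ 2) v0 + ρ (a ^ 2 * b ^ 2) v0) := by
              have : ∀ t : M, t + t + t + t + t = t := fun t => by rw [h9 t, zero_add, h9 t, zero_add]
              calc v0 = (v0 + v0 + v0 + v0 + v0) + ((ρ a v0 + ρ a v0) + (ρ (a ^ 2) v0 + ρ (a ^ 2) v0) + (ρ b v0 + ρ b v0)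
                  + (ρ (b ^ 2) v0 + ρ (b ^ 2) v0) + (ρ (a * b) v0 + ρ (a * b) v0) + (ρ (a ^ 2 * b ^ 2) v0 + ρ (a ^ 2 * b ^ 2) v0)
                  + (ρ (a ^ 2 * b) v0 + ρ (a ^ 2 * b) v0) + (ρ (a * b ^ 2) v0 + ρ (a * b ^ 2) v0)) := by
                    rw [this]; simp only [h9, add_zero]
                _ = _ := by abel
        _ = 0 := by rw [e5', e1, e2, e3, e4]; simp
  clear hc hgen hAab hfixA
  rename' hc' => hc
  have hfixA : ∀ w : M, ρ a' w = w → ρ b' w = w → w = 0 := by
    intro w h1 h2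
    let N : Submodule (ZMod 2) M :=
      { carrier := {u | ∀ x ∈ A, ρ x u = u}
        zero_mem' := fun x _ => map_zero _
        add_mem' := fun {u u'} hu hu' x hx => by rw [map_add, hu x hx, hu' x hx]
        smul_mem' := fun c u hu x hx => by rw [map_smul, hu x hx] }
    have hN : ∀ g : S, ∀ u ∈ N, ρ g u ∈ N := by
      intro g u hu x hx
      have h1 := hu (g⁻¹ * x * g) (by simpa using (inferInstance : A.Normal).conj_mem x hx g⁻¹)
      rw [happ, show x * g = g * (g⁻¹ * x * g) by group, ← happ, h1]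
    have hw : w ∈ N := by
      intro x hx
      rw [hAab'] at hx
      refine closure_induction (p := fun x _ => ρ x w = w) ?_ (hone w) ?_ ?_ hx
      · rintro x (rfl | rfl) <;> assumption
      · intro x y _ _ hx hy; rw [← happ, hy, hx]
      · intro x _ hx
        conv_lhs => rw [← hx]
        rw [happ, inv_mul_cancel, hone]
    rcases hirr N hN with h | h
    · rw [h] at hw; exact (Submodule.mem_bot _).1 hw
    · exfalso
      refine hc.a_ne (hfaith (LinearMap.ext fun u => ?_))
      rw [map_one]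
      exact (show u ∈ N from h ▸ Submodule.mem_top) a' (hAab'.ge (subset_closure (by simp)))
  set z := r ^ 2
  have hza : z * a' = a' ^ 2 * z := by
    calc z * a' = r * (r * a') := by simp only [z, sq, mul_assoc]
      _ = (r * b') * r := by rw [hc.ra, mul_assoc]
      _ = _ := by rw [hc.rb]; simp only [z, sq, mul_assoc]
  have hzb : z * b' = b' ^ 2 * z := by
    calc z * b' = r * (r * b') := by simp only [z, sq, mul_assoc]
      _ = (r * a') * a' * r := by rw [hc.rb]; simp only [sq, mul_assoc]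
      _ = b' * (r * a') * r := by conv_lhs => rw [hc.ra]
                                  simp only [mul_assoc]
      _ = _ := by rw [hc.ra]; simp only [z, sq, mul_assoc]
  have hzz : z * z = 1 := by rw [← pow_add]; exact hc.r4
  have hsz : s' * z = z * s' := by
    calc s' * z = (s' * r) * r := by simp only [z, sq, mul_assoc]
      _ = r ^ 3 * (s' * r) := by
        conv_lhs => rw [hc.rs]
        rw [mul_assoc]
      _ = r ^ 4 * z * s' := by rw [hc.rs]; simp only [z, pow_succ, pow_zero, one_mul, mul_assoc]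
      _ = _ := by rw [hc.r4, one_mul]
  -- the fixed vector
  obtain ⟨v1, hv1, hv1a, hv1s⟩ := fix_exists (ρ s') hv (fun x => by rw [happ, hc.ss, hone]) (fun x => ρ a' x = x) hva
    (fun x y hx hy => by rw [map_add, hx, hy]) (fun x hx => by rw [happ, ← hc.sa, ← happ, hx])
  obtain ⟨u, hu, ⟨hua, hus⟩, huz⟩ := fix_exists (ρ z) hv1 (fun x => by rw [happ, hzz, hone])
    (fun x => ρ a' x = x ∧ ρ s' x = x) ⟨hv1a, hv1s⟩ (fun x y hx hy => ⟨by rw [map_add, hx.1, hy.1], by rw [map_add, hx.2, hy.2]⟩)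
    (fun x hx => ⟨by
      rw [happ, show a' * z = z * a' ^ 2 from ?_, ← happ, sq, ← happ, hx.1, hx.1]
      calc a' * z = (z * z) * a' * z := by rw [hzz, one_mul]
        _ = z * (z * a') * z := by group
        _ = z * a' ^ 2 * (z * z) := by rw [hza]; group
        _ = _ := by rw [hzz, mul_one], by rw [happ, hsz, ← happ, hx.2]⟩)
  set w := ρ b' u with hw
  have hb2u : ρ (b' ^ 2) u = u + w := by
    have h1 : u + w + ρ b' w = 0 := by
      refine hfixA _ ?_ (hsum b' u hc.b3)
      simp only [hw, map_add, happ]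
      rw [hua, show a' * b' = b' * a' from hc.ab, ← happ b' a', hua,
        show a' * (b' * b') = b' * b' * a' by rw [← mul_assoc, hc.ab, mul_assoc, hc.ab, mul_assoc], ← happ _ a', hua]
    rw [sq, ← happ, ← hw, eq_neg_of_add_eq_zero_right h1, ← neg_one_smul (ZMod 2),
      show (-1 : ZMod 2) = 1 from by decide, one_smul]
  set u' := ρ r u with hu'
  set w' := ρ r w with hw'
  have hwa : ρ a' w = w := by rw [hw, happ, hc.ab, ← happ, hua]
  have hbw : ρ b' w = u + w := by rw [hw, happ, ← sq]; exact hb2u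
  have hrs : ∀ x, ρ r (ρ r x) = ρ z x := fun x => by rw [happ]; simp [z, sq]
  have hau' : ρ a' u' = u' + w' := by
    rw [hu', hw', ← map_add, ← hb2u, happ, happ]
    congr 2
    calc a' * r = (a' ^ 3) * a' * r := by rw [hc.a3, one_mul]
      _ = a' ^ 2 * (a' ^ 2 * r) := by group
      _ = a' ^ 2 * (r * b') := by rw [hc.rb]
      _ = (a' ^ 2 * r) * b' := by group
      _ = r * b' ^ 2 := by rw [← hc.rb]; simp only [sq, mul_assoc]
  have haw' : ρ a' w' = u' := by
    rw [hu', hw', hw, happ, happ]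
    congr 2
    rw [mul_assoc]
    calc a' * (r * b') = a' * (a' ^ 2 * r) := by rw [hc.rb]
      _ = a' ^ 3 * r := by group
      _ = r := by rw [hc.a3, one_mul]
  have hbu' : ρ b' u' = u' := by rw [hu', happ, ← hc.ra, ← happ, hua]
  have hbw' : ρ b' w' = w' := by rw [hw', happ, ← hc.ra, ← happ, hwa]
  have hru' : ρ r u' = u := by rw [hu', hrs, huz]
  have hzw : ρ z w = u + w := by rw [hw, happ, hzb, ← happ, huz, hb2u]
  have hrw' : ρ r w' = u + w := by rw [hw', hrs, hzw]
  have hsu : ρ s' u = u := hus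
  have hsw : ρ s' w = u + w := by rw [hw, happ, hc.sb, ← happ, hus, hb2u]
  have hsr : ∀ x, ρ s' (ρ r x) = ρ r (ρ z (ρ s' x)) := fun x => by
    rw [happ, happ, happ, hc.rs]; congr 2; simp only [z]; group
  have hsu' : ρ s' u' = u' := by rw [hu', hsr, hus, huz]
  have hsw' : ρ s' w' = w' := by
    rw [hw', hsr, hsw, map_add, huz, hzw, show u + (u + w) = w by rw [← add_assoc, two_eq_zero, zero_add]]
  -- the coordinate map
  let Φ : (Fin 4 → ZMod 2) →ₗ[ZMod 2] M := Fintype.linearCombination (ZMod 2) ![u, w, u', w']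
  have hΦ : ∀ c, Φ c = c 0 • u + c 1 • w + c 2 • u' + c 3 • w' := fun c => by
    simp [Φ, Fintype.linearCombination_apply, Fin.sum_univ_four]
  have hin : ∀ y ∈ ({u, w, u', w'} : Set M), y ∈ LinearMap.range Φ := by
    rintro y (rfl | rfl | rfl | rfl)
    · exact ⟨![1, 0, 0, 0], by simp [hΦ]⟩
    · exact ⟨![0, 1, 0, 0], by simp [hΦ]⟩
    · exact ⟨![0, 0, 1, 0], by simp [hΦ]⟩
    · exact ⟨![0, 0, 0, 1], by simp [hΦ]⟩
  have hstab : ∀ g : S, ∀ y ∈ LinearMap.range Φ, ρ g y ∈ LinearMap.range Φ := by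
    have hb : ∀ g ∈ ({a', b', r, s'} : Set S), ∀ y ∈ LinearMap.range Φ, ρ g y ∈ LinearMap.range Φ := by
      rintro g hg _ ⟨c, rfl⟩
      have iu := hin u (by simp); have iw := hin w (by simp); have iu' := hin u' (by simp); have iw' := hin w' (by simp)
      rw [hΦ, map_add, map_add, map_add, map_smul, map_smul, map_smul, map_smul]
      refine add_mem (add_mem (add_mem ?_ ?_) ?_) ?_ <;> refine Submodule.smul_mem _ _ ?_
      all_goals rcases hg with rfl | rfl | rfl | rfl
      all_goals simp only [hua, hwa, hau', haw', hbw, hbu', hbw', hru', hrw', hsu, hsw, hsu', hsw', ← hu', ← hw', ← hw]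
      all_goals first | assumption | exact add_mem iu iw | exact add_mem iu' iw'
    intro g
    have hg : g ∈ closure ({a', b', r, s'} : Set S) := hgen' ▸ Subgroup.mem_top g
    refine closure_induction (p := fun g _ => ∀ y ∈ LinearMap.range Φ, ρ g y ∈ LinearMap.range Φ) hb
      (fun y hy => by rwa [hone]) (fun x x' _ _ hx hx' y hy => by rw [← happ]; exact hx _ (hx' y hy)) ?_ hg
    intro x _ hx y hy
    let fx : ↥(LinearMap.range Φ) → ↥(LinearMap.range Φ) := fun t => ⟨ρ x t, hx t t.2⟩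
    have hfx : Function.Injective fx := fun t t' h => by
      have h2 := congrArg (fun q : ↥(LinearMap.range Φ) => ρ x⁻¹ (q : M)) h
      simp only [fx, happ, inv_mul_cancel, hone] at h2
      exact Subtype.ext h2
    obtain ⟨t, ht⟩ := (Finite.injective_iff_surjective.1 hfx) ⟨y, hy⟩
    have : ρ x⁻¹ y = (t : M) := by
      have h2 : ρ x (t : M) = y := congrArg Subtype.val ht
      rw [← h2, happ, inv_mul_cancel, hone]
    rw [this]; exact t.2
  have hsurj : LinearMap.range Φ = ⊤ := (hirr _ hstab).resolve_left fun h => by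
    have := hin u (by simp)
    rw [h, Submodule.mem_bot] at this
    exact hu this
  have hwu : w ≠ u := fun e => hu (hfixA u hua e)
  have hw0 : w ≠ 0 := fun e => hu (by
    have := congrArg (ρ b'⁻¹) e
    rwa [hw, happ, inv_mul_cancel, hone, map_zero] at this)
  have huw0 : u + w ≠ 0 := fun e => hwu (by
    rw [eq_neg_of_add_eq_zero_right e, ← neg_one_smul (ZMod 2), show (-1 : ZMod 2) = 1 from by decide, one_smul])
  have hind2 : ∀ c0 c1 : ZMod 2, c0 • u + c1 • w = 0 → c0 = 0 ∧ c1 = 0 := by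
    intro c0 c1 h
    rcases (show ∀ t : ZMod 2, t = 0 ∨ t = 1 by decide) c0 with rfl | rfl <;>
      rcases (show ∀ t : ZMod 2, t = 0 ∨ t = 1 by decide) c1 with rfl | rfl
    · exact ⟨rfl, rfl⟩
    · rw [zero_smul, one_smul, zero_add] at h; exact absurd h hw0
    · rw [zero_smul, one_smul, add_zero] at h; exact absurd h hu
    · rw [one_smul, one_smul] at h; exact absurd h huw0
  have hinj : Function.Injective Φ := by
    rw [injective_iff_map_eq_zero]
    intro c hc0
    rw [hΦ] at hc0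
    set X1 := c 0 • u + c 1 • w
    set X2 := c 2 • u' + c 3 • w'
    have hX12 : X1 + X2 = 0 := by rw [← hc0]; simp only [X1, X2]; abel
    have hX : X1 = X2 := by
      rw [eq_neg_of_add_eq_zero_left hX12, ← neg_one_smul (ZMod 2), show (-1 : ZMod 2) = 1 from by decide, one_smul]
    have hX0 : X1 = 0 := hfixA _ (by simp [X1, hua, hwa]) (by rw [hX]; simp [X2, hbu', hbw'])
    obtain ⟨h0, h1⟩ := hind2 _ _ hX0
    have hX2 : ρ r (c 2 • u + c 3 • w) = ρ r 0 := by
      rw [map_zero, map_add, map_smul, map_smul, ← hu', ← hw', ← hX0, hX]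
    have := congrArg (ρ r⁻¹) hX2
    rw [happ, happ, inv_mul_cancel, hone, hone] at this
    obtain ⟨h2, h3⟩ := hind2 _ _ this
    funext i
    fin_cases i <;> assumption
  let E : (Fin 4 → ZMod 2) ≃ₗ[ZMod 2] M := LinearEquiv.ofBijective Φ ⟨hinj, LinearMap.range_eq_top.1 hsurj⟩
  have hEz : ∀ c, ρ z (E c) = E ![c 0 + c 1, c 1, c 2 + c 3, c 3] := fun c => by
    have hzu' : ρ z u' = u' := by
      rw [hu', happ, show z * r = r * z by simp only [z]; group, ← happ, huz]
    have hzw' : ρ z w' = u' + w' := by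
      rw [hw', happ, show z * r = r * z by simp only [z]; group, ← happ, hzw, map_add]
    show ρ z (Φ c) = Φ _
    simp only [hΦ, map_add, map_smul, huz, hzw, hzu', hzw', smul_add, add_smul, Matrix.cons_val_zero,
      Matrix.cons_val_one, Matrix.cons_val]
    abel
  have hEs : ∀ c, ρ s' (E c) = E ![c 0 + c 1, c 1, c 2, c 3] := fun c => by
    show ρ s' (Φ c) = Φ _
    simp only [hΦ, map_add, map_smul, hsu, hsw, hsu', hsw', smul_add, add_smul, Matrix.cons_val_zero,
      Matrix.cons_val_one, Matrix.cons_val]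
    abel
  have hErs : ∀ c, ρ (r * s') (E c) = E ![c 2 + c 3, c 3, c 0 + c 1, c 1] := fun c => by
    rw [← happ]
    show ρ r (ρ s' (Φ c)) = Φ _
    simp only [hΦ, map_add, map_smul, hsu, hsw, hsu', hsw', hru', hrw', ← hu', ← hw', smul_add, add_smul,
      Matrix.cons_val_zero, Matrix.cons_val_one, Matrix.cons_val]
    abel
  have hcardM : Nat.card M = 16 := by
    rw [← Nat.card_congr E.toEquiv, Nat.card_eq_fintype_card]; rfl
  refine ⟨hcardM, ?_⟩
  have key : ∀ (t : S) (q : (Fin 4 → ZMod 2) → (Fin 4 → ZMod 2)), (∀ c, ρ t (E c) = E (q c)) →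
      ∀ c, (ρ t (E c) = E c ↔ q c = c) := fun t q h c => by rw [h, E.injective.eq_iff]
  set B0 : Subgroup S := closure {z, r * s'}
  have hrsrs : r * s' * (r * s') = 1 := by
    calc r * s' * (r * s') = r * (s' * r) * s' := by group
      _ = r ^ 4 * (s' * s') := by rw [hc.rs]; group
      _ = 1 := by rw [hc.r4, hc.ss, one_mul]
  have hzrs : z * (r * s') = (r * s') * z := by
    rw [mul_assoc r s' z, hsz, ← mul_assoc, ← mul_assoc]
    congr 1; simp only [z]; group
  have hB0set : ∀ x ∈ B0, x = 1 ∨ x = z ∨ x = r * s' ∨ x = z * (r * s') := by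
    intro x hx
    refine closure_induction (p := fun x _ => x = 1 ∨ x = z ∨ x = r * s' ∨ x = z * (r * s')) ?_ (Or.inl rfl) ?_ ?_ hx
    · rintro x (rfl | rfl) <;> simp
    · intro x y _ _ hx hy
      generalize hT : r * s' = T at hx hy hzrs hrsrs ⊢
      have e1 : ∀ q, z * (z * q) = q := fun q => by rw [← mul_assoc, hzz, one_mul]
      have e2 : ∀ q, T * (z * q) = z * (T * q) := fun q => by rw [← mul_assoc, ← hzrs, mul_assoc]
      rcases hx with rfl | rfl | rfl | rfl <;> rcases hy with rfl | rfl | rfl | rfl <;>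
        simp only [one_mul, mul_one, mul_assoc, e1, e2, hzz, hrsrs, ← hzrs, true_or, or_true]
    · intro x _ hx
      rcases hx with rfl | rfl | rfl | rfl
      · simp
      · exact Or.inr (Or.inl (inv_eq_of_mul_eq_one_left hzz))
      · exact Or.inr (Or.inr (Or.inl (inv_eq_of_mul_eq_one_left hrsrs)))
      · refine Or.inr (Or.inr (Or.inr (inv_eq_of_mul_eq_one_left ?_)))
        rw [show z * (r * s') * (z * (r * s')) = z * ((r * s') * z) * (r * s') by group, ← hzrs,
          show z * (z * (r * s')) * (r * s') = (z * z) * ((r * s') * (r * s')) by group, hzz, hrsrs, one_mul]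
  have hzfix : ∀ m : M, (∀ x ∈ B0, ρ x m = m) ↔ ρ z m = m ∧ ρ (r * s') m = m := fun m =>
    ⟨fun h => ⟨h z (subset_closure (by simp)), h _ (subset_closure (by simp))⟩, fun h x hx => by
      rcases hB0set x hx with rfl | rfl | rfl | rfl
      · exact hone m
      · exact h.1
      · exact h.2
      · rw [← happ, h.2, h.1]⟩
  have hcnt : Nat.card {m : M // ∀ x ∈ B0, ρ x m = m} = 2 := by
    rw [← Nat.card_congr (E.toEquiv.subtypeEquiv (p := fun c : Fin 4 → ZMod 2 =>
      ![c 0 + c 1, c 1, c 2 + c 3, c 3] = c ∧ ![c 2 + c 3, c 3, c 0 + c 1, c 1] = c) fun c => by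
        rw [hzfix]; exact Iff.symm (and_congr (key z _ hEz c) (key _ _ hErs c))), Nat.card_eq_fintype_card]
    decide
  have hz_ne : z ≠ 1 := hz1
  have hd1 : r * s' ≠ 1 := fun e => by
    have h := key _ _ hErs ![1, 0, 0, 0]
    rw [e, hone] at h
    exact absurd (h.1 rfl) (by decide)
  have hd2 : z ≠ r * s' := fun e => by
    have h := key _ _ hErs ![1, 0, 0, 0]
    rw [← e, hEz] at h
    exact absurd (h.1 (by congr 1)) (by decide)
  have hB0card : Nat.card B0 = 4 := by
    have hle : (B0 : Set S) = {1, z, r * s', z * (r * s')} := by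
      ext x
      refine ⟨fun h => by simpa using hB0set x h, ?_⟩
      rintro (rfl | rfl | rfl | rfl)
      · exact one_mem _
      · exact subset_closure (by simp)
      · exact subset_closure (by simp)
      · exact mul_mem (subset_closure (by simp)) (subset_closure (by simp))
    have n1 : z * (r * s') ≠ 1 := fun e => hd2 (by rw [← mul_one z, ← hrsrs, ← mul_assoc, e, one_mul])
    have n2 : z * (r * s') ≠ z := fun e => hd1 (mul_left_cancel (e.trans (mul_one z).symm))
    have n3 : z * (r * s') ≠ r * s' := fun e => hz_ne (mul_eq_right.1 e)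
    rw [show Nat.card B0 = Nat.card (B0 : Set S) from rfl, hle, Nat.card_coe_set_eq, Set.ncard_eq_toFinset_card']
    simp [hz_ne.symm, hd1.symm, hd2, n1.symm, n2.symm, n3.symm]
  refine ⟨B0, ⟨(closure_le _).2 (by rintro _ (rfl | rfl); exacts [pow_mem hrX 2, mul_mem hrX hs'X]), hB0card,
    fun x hx => ?_, hcnt⟩, fun B hB => ?_⟩
  · rw [sq]
    rcases hB0set x hx with rfl | rfl | rfl | rfl
    · exact one_mul 1
    · exact hzz
    · exact hrsrs
    · rw [show z * (r * s') * (z * (r * s')) = z * ((r * s') * z) * (r * s') by group, ← hzrs,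
        show z * (z * (r * s')) * (r * s') = (z * z) * ((r * s') * (r * s')) by group, hzz, hrsrs, one_mul]
  obtain ⟨hBX, hB4, hB2, hBfix⟩ := hB
  haveI : Fintype B := Fintype.ofFinite _
  have hBsub : ∀ x ∈ B, x = 1 ∨ x = z ∨ x = s' ∨ x = z * s' ∨ x = r * s' ∨ x = z * (r * s') :=
    fun x hx => hinvol' x (hBX hx) (hB2 x hx)
  have hbad1 : s' * (z * s') = z := by rw [← mul_assoc, hsz, mul_assoc, hc.ss, mul_one]
  have hbad2 : (r * s') * (z * (r * s')) = z := by rw [← mul_assoc, ← hzrs, mul_assoc, hrsrs, mul_one]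
  have hzB : z ∈ B := by
    by_contra hzn
    have n1 : ¬ (s' ∈ B ∧ z * s' ∈ B) := fun h => hzn (hbad1 ▸ mul_mem h.1 h.2)
    have n2 : ¬ (r * s' ∈ B ∧ z * (r * s') ∈ B) := fun h => hzn (hbad2 ▸ mul_mem h.1 h.2)
    set p1 := if s' ∈ B then s' else z * s'
    set p2 := if r * s' ∈ B then r * s' else z * (r * s')
    have hsub : (B : Set S) ⊆ {1, p1, p2} := by
      intro x hx
      rcases hBsub x hx with h | h | h | h | h | h
      · exact Or.inl h
      · exact absurd (h ▸ hx) hzn
      · exact Or.inr (Or.inl (by rw [h]; exact (if_pos (h ▸ hx)).symm))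
      · exact Or.inr (Or.inl (by rw [h]; exact (if_neg fun h' => n1 ⟨h', h ▸ hx⟩).symm))
      · exact Or.inr (Or.inr (by rw [h]; exact (if_pos (h ▸ hx)).symm))
      · exact Or.inr (Or.inr (by rw [h]; exact (if_neg fun h' => n2 ⟨h', h ▸ hx⟩).symm))
    have h5 := Set.ncard_le_ncard hsub (Set.toFinite _)
    have h6 : ({1, p1, p2} : Set S).ncard ≤ 3 :=
      (Set.ncard_insert_le _ _).trans (Nat.succ_le_succ ((Set.ncard_insert_le _ _).trans (by rw [Set.ncard_singleton])))
    rw [← Nat.card_coe_set_eq] at h5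
    have h7 : Nat.card (B : Set S) = 4 := hB4
    omega
  have hsnot : s' ∉ B := by
    intro hs
    have hnor : ∀ x ∈ B, x = 1 ∨ x = z ∨ x = s' ∨ x = z * s' := by
      intro x hx
      have hbad : ∀ t, t ∈ B → t = r * s' → False := by
        intro t ht e
        have h1 : r ∈ B := by
          have h2 := mul_mem ht hs
          rwa [e, mul_assoc, hc.ss, mul_one] at h2
        exact hz1 (hB2 r h1)
      rcases hBsub x hx with h | h | h | h | h | h
      · exact Or.inl h
      · exact Or.inr (Or.inl h)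
      · exact Or.inr (Or.inr (Or.inl h))
      · exact Or.inr (Or.inr (Or.inr h))
      · exact (hbad x hx h).elim
      · exact (hbad (z * x) (mul_mem hzB hx) (by rw [h, ← mul_assoc, hzz, one_mul])).elim
    have hiff : ∀ m : M, (∀ x ∈ B, ρ x m = m) ↔ ρ z m = m ∧ ρ s' m = m := fun m =>
      ⟨fun h => ⟨h z hzB, h s' hs⟩, fun h x hx => by
        rcases hnor x hx with rfl | rfl | rfl | rfl
        · exact hone m
        · exact h.1
        · exact h.2
        · rw [← happ, h.2, h.1]⟩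
    rw [← Nat.card_congr (E.toEquiv.subtypeEquiv (p := fun c : Fin 4 → ZMod 2 =>
      ![c 0 + c 1, c 1, c 2 + c 3, c 3] = c ∧ ![c 0 + c 1, c 1, c 2, c 3] = c) fun c => by
        rw [hiff]; exact Iff.symm (and_congr (key z _ hEz c) (key _ _ hEs c))), Nat.card_eq_fintype_card] at hBfix
    revert hBfix
    decide
  have hle : B ≤ B0 := by
    intro x hx
    rcases hBsub x hx with rfl | rfl | rfl | rfl | rfl | rfl
    · exact one_mem _
    · exact subset_closure (by simp)
    · exact absurd hx hsnot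
    · exact absurd (by simpa [← mul_assoc, hzz] using mul_mem hzB hx) hsnot
    · exact subset_closure (by simp)
    · exact mul_mem (subset_closure (by simp)) (subset_closure (by simp))
  exact Subgroup.eq_of_le_of_card_ge hle (by rw [hB0card, hB4])

end Cfsg.Agent.S4407
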