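import Cfsg.Statements.S4408
import Mathlib
import Cfsg.Agent.Lib.Solv.Cores
import Cfsg.Agent.Lib.Solv.MinNormal
-- import your own Cfsg.Agent.* helpers here

set_option autoImplicit false
open Cfsg

namespace Cfsg.Agent.S4408

open Subgroup

variable {G : Type*} [Group G] [Finite G]

theorem conj_invol {t x : G} (ht : t * t = 1) : t * (t * x * t) * t = x := by
  rw [show t * (t * x * t) * t = (t * t) * x * (t * t) by group, ht, one_mul, mul_one]

theorem conj_mul {t : G} (ht : t * t = 1) (a b : G) : t * (a * b) * t = (t * a * t) * (t * b * t) := by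
  rw [show (t * a * t) * (t * b * t) = t * a * (t * t) * b * t by group, ht]; group

theorem conj_inv {t : G} (ht : t * t = 1) (a : G) : t * a⁻¹ * t = (t * a * t)⁻¹ := by
  have h : t⁻¹ = t := inv_eq_of_mul_eq_one_right ht
  rw [mul_inv_rev, mul_inv_rev, h, mul_assoc]

/-- The midpoint of two elements of a group of odd order. -/
theorem midpoint {K : Subgroup G} (hK : Odd (Nat.card K)) {x y : G} (hx : x ∈ K) (hy : y ∈ K) :
    ∃! z, z ∈ K ∧ z * x⁻¹ * z = y := by
  have hb := (powCoprime (G := K) (n := 2) hK.coprime_two_right).bijective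
  obtain ⟨s, hs⟩ := hb.2 ⟨x, hx⟩
  have hs' : (s : G) * s = x := by
    have := congrArg Subtype.val hs
    simpa [powCoprime, pow_two] using this
  set r : K := ⟨(s : G)⁻¹ * y * (s : G)⁻¹, K.mul_mem (K.mul_mem (K.inv_mem s.2) hy) (K.inv_mem s.2)⟩
  obtain ⟨u, hu⟩ := hb.2 r
  have hu' : (u : G) * u = (s : G)⁻¹ * y * (s : G)⁻¹ := by
    have := congrArg Subtype.val hu
    simpa [powCoprime, pow_two, r] using this
  refine ⟨(s : G) * u * s, ⟨K.mul_mem (K.mul_mem s.2 u.2) s.2, ?_⟩, ?_⟩
  · calc (s : G) * u * s * x⁻¹ * ((s : G) * u * s) = s * (u * u) * s := by rw [← hs']; group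
      _ = y := by rw [hu']; group
  · rintro z ⟨hz, hze⟩
    set w : K := ⟨(s : G)⁻¹ * z * (s : G)⁻¹, K.mul_mem (K.mul_mem (K.inv_mem s.2) hz) (K.inv_mem s.2)⟩
    have hw : (w : G) * w = (s : G)⁻¹ * y * (s : G)⁻¹ := by
      calc (w : G) * w = (s : G)⁻¹ * (z * x⁻¹ * z) * (s : G)⁻¹ := by simp only [w]; rw [← hs']; group
        _ = _ := by rw [hze]
    have hwu : w = u := hb.1 (Subtype.ext (by simp [powCoprime, pow_two, hu', hw]))
    rw [← hwu]; simp only [w]; group

/-- A joint eigenvector for a list of involutions. -/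
theorem exists_eigen {I K : Subgroup G} (hI : Cfsg.IsElementaryAbelian 2 I)
    (hK : Odd (Nat.card K)) (hIK : I ≤ normalizer (K : Set G)) {i : G} (hi : i ∈ I)
    (hne : i ∉ centralizer (K : Set G)) :
    ∀ l : List G, (∀ a ∈ l, a ∈ I) →
      ∃ x ∈ K, x ≠ 1 ∧ i * x * i = x⁻¹ ∧ ∀ a ∈ l, a * x * a = x ∨ a * x * a = x⁻¹ := by
  have hsq : ∀ a ∈ I, a * a = 1 := fun a ha => by rw [← pow_two]; exact hI.2 a ha
  have hinv : ∀ a ∈ I, a⁻¹ = a := fun a ha => inv_eq_of_mul_eq_one_right (hsq a ha)
  have hcomm : ∀ a ∈ I, ∀ b ∈ I, a * b = b * a := fun a ha b hb =>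
    congrArg Subtype.val (hI.1.1.comm ⟨a, ha⟩ ⟨b, hb⟩)
  have hmem : ∀ a ∈ I, ∀ x ∈ K, a * x * a ∈ K := fun a ha x hx => by
    have := (mem_normalizer_iff.1 (hIK ha) x).1 hx
    rwa [hinv a ha] at this
  intro l
  induction l with
  | nil =>
    intro _
    rw [mem_centralizer_iff] at hne
    push Not at hne
    obtain ⟨k, hk, hki⟩ := hne
    refine ⟨k⁻¹ * (i * k * i), K.mul_mem (K.inv_mem hk) (hmem i hi k hk), fun e => ?_, ?_, by simp⟩
    · apply hki
      rw [inv_mul_eq_one] at e
      have h2 := congrArg (fun t => t * i) e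
      simp only [mul_assoc, hsq i hi, mul_one] at h2
      exact h2
    · rw [conj_mul (hsq i hi), conj_inv (hsq i hi), conj_invol (hsq i hi), mul_inv_rev k⁻¹, inv_inv]
  | cons j l ih =>
    intro hl
    have hj : j ∈ I := hl j (List.mem_cons_self ..)
    have hl' : ∀ a ∈ l, a ∈ I := fun a ha => hl a (List.mem_cons_of_mem _ ha)
    obtain ⟨x, hx, hx1, hxi, hxl⟩ := ih hl'
    set y := j * x * j
    have hy : y ∈ K := hmem j hj x hx
    obtain ⟨z, ⟨hz, hze⟩, huniq⟩ := midpoint hK hx hy
    by_cases hz1 : z = 1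
    · refine ⟨x, hx, hx1, hxi, fun a ha => ?_⟩
      rcases List.mem_cons.1 ha with rfl | ha
      · refine Or.inr ?_
        rw [hz1, one_mul, mul_one] at hze
        exact hze.symm
      · exact hxl a ha
    have hfix : j * z * j = z := by
      refine huniq _ ⟨hmem j hj z hz, ?_⟩
      have h1 : (j * z * j) * y⁻¹ * (j * z * j) = x := by
        have : y⁻¹ = j * x⁻¹ * j := (conj_inv (hsq j hj) x).symm
        rw [this, ← conj_mul (hsq j hj), ← conj_mul (hsq j hj), hze, conj_invol (hsq j hj)]
      calc j * z * j * x⁻¹ * (j * z * j)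
          = j * z * j * (j * z * j * y⁻¹ * (j * z * j))⁻¹ * (j * z * j) := by rw [h1]
        _ = y := by group
    have hmove : ∀ a ∈ I, (a * x * a = x → a * z * a = z) ∧ (a * x * a = x⁻¹ → a * z * a = z⁻¹) := by
      intro a ha
      have hay : a * y * a = j * (a * x * a) * j := by
        simp only [y]
        rw [show a * (j * x * j) * a = (a * j) * x * (j * a) by group, hcomm a ha j hj, hcomm j hj a ha]
        rw [show j * (a * x * a) * j = (j * a) * x * (a * j) by group, hcomm j hj a ha]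
      have hmain : (a * z * a) * (a * x * a)⁻¹ * (a * z * a) = a * y * a := by
        rw [← conj_inv (hsq a ha), ← conj_mul (hsq a ha), ← conj_mul (hsq a ha), hze]
      refine ⟨fun e => huniq _ ⟨hmem a ha z hz, ?_⟩, fun e => ?_⟩
      · rw [e] at hmain hay
        rw [hmain, hay]
      · rw [e, inv_inv] at hmain
        rw [e, conj_inv (hsq j hj)] at hay
        have h2 : (a * z * a)⁻¹ = z := by
          refine huniq _ ⟨K.inv_mem (hmem a ha z hz), ?_⟩
          rw [hay] at hmain
          have := congrArg (fun t => t⁻¹) hmain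
          simpa [y, mul_assoc] using this
        exact inv_eq_iff_eq_inv.1 h2
    refine ⟨z, hz, hz1, (hmove i hi).2 hxi, fun a ha => ?_⟩
    rcases List.mem_cons.1 ha with rfl | ha
    · exact Or.inl hfix
    · exact (hxl a ha).imp (hmove a (hl' a ha)).1 (hmove a (hl' a ha)).2

/-- An involution of a nilpotent group of odd order centralizing the centralizer of its fixed
points is trivial. -/
theorem centralizes_of {K : Subgroup G} (hnil : Group.IsNilpotent K) (hK : Odd (Nat.card K))
    {j : G} (hj : j * j = 1) (hjK : ∀ x ∈ K, j * x * j ∈ K)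
    (h : ∀ x ∈ K, x ∈ centralizer ((K ⊓ centralizer ({j} : Set G) : Subgroup G) : Set G) → j * x = x * j) :
    j ∈ centralizer (K : Set G) := by
  set C := K ⊓ centralizer ({j} : Set G)
  by_contra hne
  have hlt : C.subgroupOf K ≠ ⊤ := fun e => hne (by
    rw [subgroupOf_eq_top] at e
    rw [mem_centralizer_iff]
    intro x hx
    exact ((mem_centralizer_iff.1 (e hx).2) j rfl).symm)
  obtain ⟨y, hy, hyn⟩ := SetLike.exists_of_lt
    (normalizerCondition_of_isNilpotent (G := K) (C.subgroupOf K) hlt.lt_top)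
  rw [mem_normalizer_iff] at hy
  apply hyn
  rw [mem_subgroupOf]
  refine ⟨y.2, ?_⟩
  have hcj : ∀ c ∈ C, j * c * j = c := fun c hc => by
    rw [mem_centralizer_iff.1 hc.2 j rfl, mul_assoc, hj, mul_one]
  set u := (y : G)⁻¹ * (j * y * j)
  have huK : u ∈ K := K.mul_mem (K.inv_mem y.2) (hjK _ y.2)
  have hu : u ∈ centralizer (C : Set G) := by
    rw [mem_centralizer_iff]
    intro c hc
    have h1 : (y : G) * c * (y : G)⁻¹ ∈ C := by
      have := (hy ⟨c, hc.1⟩).1 (mem_subgroupOf.2 hc)
      simpa [mem_subgroupOf] using this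
    have e1 := hcj _ h1
    rw [conj_mul hj, conj_mul hj, hcj c hc, conj_inv hj] at e1
    calc c * u = (y : G)⁻¹ * ((y : G) * c * (y : G)⁻¹) * (j * y * j) := by simp only [u]; group
      _ = (y : G)⁻¹ * (j * y * j * c * (j * y * j)⁻¹) * (j * y * j) := by rw [e1]
      _ = u * c := by simp only [u]; group
  have huj : j * u = u * j := h u huK hu
  have hu1 : u * u = 1 := by
    have e2 : j * u * j = u⁻¹ := by
      simp only [u]
      rw [conj_mul hj, conj_inv hj, conj_invol hj, mul_inv_rev (y : G)⁻¹, inv_inv]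
    rw [huj, mul_assoc, hj, mul_one] at e2
    exact mul_eq_one_iff_eq_inv.2 e2
  have hu2 : u = 1 := by
    have h1 : orderOf u ∣ 2 := orderOf_dvd_of_pow_eq_one (by rw [pow_two, hu1])
    exact orderOf_eq_one_iff.1 (Nat.eq_one_of_dvd_coprimes hK.coprime_two_right
      (Subgroup.orderOf_dvd_natCard _ huK) h1)
  show (y : G) ∈ centralizer _
  rw [mem_centralizer_iff]
  rintro _ rfl
  have e3 : _ * (y : G) * _ = (y : G) := (inv_mul_eq_one.1 hu2).symm
  calc _ * (y : G) = _ * (y : G) * (_ * _) := by rw [hj, mul_one]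
    _ = _ := by rw [← mul_assoc, e3]

theorem conj_map_eq_self {H : Subgroup G} {g : G}
    (hg : g ∈ normalizer (H : Set G)) : H.map (MulAut.conj g).toMonoidHom = H := by
  ext x
  constructor
  · rintro ⟨y, hy, rfl⟩
    exact (mem_normalizer_iff.1 hg y).1 hy
  · intro hx
    refine ⟨g⁻¹ * x * g, ?_, by simp [mul_assoc]⟩
    have := (mem_normalizer_iff.1 (inv_mem hg) x).1 hx
    rwa [inv_inv] at this

theorem mem_normalizer_of_conj_map {H : Subgroup G} {g : G}
    (hg : H.map (MulAut.conj g).toMonoidHom = H) : g ∈ normalizer (H : Set G) := by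
  rw [mem_normalizer_iff]
  intro y
  refine ⟨fun hy => ?_, fun hy => ?_⟩
  · rw [← hg]; exact ⟨y, hy, rfl⟩
  · rw [← hg] at hy
    obtain ⟨z, hz, he⟩ := hy
    rwa [← (MulAut.conj g).injective he]

theorem iSup_normalized {ι : Type*} (f : ι → Subgroup G) (a : G)
    (h : ∀ i, a ∈ normalizer ((f i) : Set G)) : a ∈ normalizer ((⨆ i, f i : Subgroup G) : Set G) := by
  refine mem_normalizer_of_conj_map ?_
  rw [Subgroup.map_iSup]
  exact iSup_congr fun i => conj_map_eq_self (h i)

theorem normalizer_le_normalizer_centralizer' (D : Subgroup G) :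
    normalizer (D : Set G) ≤ normalizer ((centralizer (D : Set G) : Subgroup G) : Set G) := by
  intro g hg
  rw [mem_normalizer_iff]
  intro x
  simp only [mem_centralizer_iff, SetLike.mem_coe]
  constructor
  · intro hx d hd
    have := hx _ ((mem_normalizer_iff.1 (inv_mem hg) d).1 hd)
    calc d * (g * x * g⁻¹) = g * ((g⁻¹ * d * g⁻¹⁻¹) * x) * g⁻¹ := by group
      _ = g * (x * (g⁻¹ * d * g⁻¹⁻¹)) * g⁻¹ := by rw [this]
      _ = g * x * g⁻¹ * d := by group
  · intro hx d hd
    have := hx _ ((mem_normalizer_iff.1 hg d).1 hd)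
    calc d * x = g⁻¹ * ((g * d * g⁻¹) * (g * x * g⁻¹)) * g := by group
      _ = g⁻¹ * ((g * x * g⁻¹) * (g * d * g⁻¹)) * g := by rw [this]
      _ = x * d := by group

theorem conj_zpowers_mem {a y : G} (ha : a * a = 1) (h : a * y * a ∈ zpowers y) :
    a ∈ normalizer ((zpowers y : Subgroup G) : Set G) := by
  refine mem_normalizer_of_conj_map ?_
  have hle : (zpowers y).map (MulAut.conj a).toMonoidHom ≤ zpowers y := by
    rw [MonoidHom.map_zpowers, zpowers_le]
    simpa [inv_eq_of_mul_eq_one_right ha] using h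
  exact Subgroup.eq_of_le_of_card_ge hle
    (le_of_eq (Nat.card_congr ((zpowers y).equivMapOfInjective _ (MulAut.conj a).injective).toEquiv))

theorem centralizer_sup' (D X : Subgroup G) :
    centralizer ((D ⊔ X : Subgroup G) : Set G) = centralizer (D : Set G) ⊓ centralizer (X : Set G) :=
  le_antisymm (le_inf (centralizer_le (SetLike.coe_subset_coe.2 le_sup_left)) (centralizer_le (SetLike.coe_subset_coe.2 le_sup_right)))
    (le_centralizer_iff.1 (sup_le (le_centralizer_iff.1 inf_le_left) (le_centralizer_iff.1 inf_le_right)))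

theorem card_sup_prime {D : Subgroup G} {y : G} {p : ℕ} (hp : p.Prime)
    (hy : Nat.card (zpowers y) = p) (hyD : y ∉ D) (hc : ∀ d ∈ D, ∀ z ∈ zpowers y, d * z = z * d) :
    Nat.card (D ⊔ zpowers y : Subgroup G) = Nat.card D * p := by
  let f : D × zpowers y →* G := MonoidHom.noncommCoprod D.subtype (zpowers y).subtype
    (fun d z => hc d d.2 z z.2)
  have hdis : D ⊓ zpowers y = ⊥ := by
    rcases ((D ⊓ zpowers y).subgroupOf (zpowers y)).eq_bot_or_eq_top_of_prime_card (hp := ⟨hy ▸ hp⟩)
      with h1 | h1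
    · rw [Subgroup.subgroupOf_eq_bot] at h1
      exact disjoint_self.1 (h1.mono_right inf_le_right)
    · rw [Subgroup.subgroupOf_eq_top] at h1
      exact absurd ((h1.trans inf_le_left) (mem_zpowers y)) hyD
  have hinj : Function.Injective f := by
    rw [injective_iff_map_eq_one]
    rintro ⟨w, c⟩ he
    have he' : (w : G) * c = 1 := he
    have hw : (w : G) ∈ D ⊓ zpowers y :=
      ⟨w.2, by rw [eq_inv_of_mul_eq_one_left he']; exact (zpowers y).inv_mem c.2⟩
    rw [hdis, mem_bot] at hw
    rw [hw, one_mul] at he'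
    exact Prod.ext (Subtype.ext hw) (Subtype.ext he')
  have hr : f.range = D ⊔ zpowers y := by
    rw [show f.range = D.subtype.range ⊔ (zpowers y).subtype.range from
      MonoidHom.noncommCoprod_range _ _ _, range_subtype, range_subtype]
  rw [← hr, ← hy, ← Nat.card_prod]
  exact (Nat.card_congr (MonoidHom.ofInjective hinj).toEquiv).symm

theorem comm_sup {D : Subgroup G} {y : G} (hD : IsMulCommutative D)
    (hc : ∀ d ∈ D, ∀ z ∈ zpowers y, d * z = z * d) : IsMulCommutative (D ⊔ zpowers y : Subgroup G) := by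
  haveI := hD
  have hX : zpowers y ≤ centralizer (zpowers y : Set G) := le_centralizer _
  have key : D ⊔ zpowers y ≤ centralizer ((D ⊔ zpowers y : Subgroup G) : Set G) := by
    have hDX : D ≤ centralizer (zpowers y : Set G) := fun d hd =>
      mem_centralizer_iff.2 fun z hz => (hc d hd z hz).symm
    rw [centralizer_sup']
    exact sup_le (le_inf (le_centralizer D) hDX) (le_inf (le_centralizer_iff.1 hDX) hX)
  exact ⟨⟨fun a b => Subtype.ext (mem_centralizer_iff.1 (key b.2) a a.2 :)⟩⟩

theorem kernel_step {J : Subgroup G} {y j : G} (hsq : ∀ a ∈ J, a * a = 1)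
    (hJ : ∀ a ∈ J, a * y * a = y ∨ a * y * a = y⁻¹) (hj : j ∈ J) (hjy : j * y * j = y⁻¹)
    (hy : y ≠ 1) (hodd : Odd (orderOf y)) :
    Nat.card (J ⊓ centralizer ((zpowers y : Subgroup G) : Set G) : Subgroup G) * 2 = Nat.card J := by
  have hyy : y⁻¹ ≠ y := fun e => by
    have h2 : orderOf y ∣ 2 := orderOf_dvd_of_pow_eq_one (by
      rw [pow_two]; nth_rw 1 [← e]; exact inv_mul_cancel y)
    exact hy (orderOf_eq_one_iff.1 (Nat.eq_one_of_dvd_coprimes hodd.coprime_two_right dvd_rfl h2))
  have hcent : ∀ a ∈ J, (a ∈ centralizer ((zpowers y : Subgroup G) : Set G) ↔ a * y * a = y) := by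
    intro a ha
    rw [← zpowers_le, le_centralizer_iff, zpowers_le, mem_centralizer_iff]
    constructor
    · intro h
      rw [h a (mem_zpowers a), mul_assoc, hsq a ha, mul_one]
    · intro h z hz
      have e : Commute a y := by
        show a * y = y * a
        calc a * y = a * y * (a * a) := by rw [hsq a ha, mul_one]
          _ = y * a := by rw [← mul_assoc, h]
      obtain ⟨k, rfl⟩ := mem_zpowers_iff.1 hz
      exact (e.zpow_left k).eq
  set M := (J ⊓ centralizer ((zpowers y : Subgroup G) : Set G)).subgroupOf J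
  have hM : M.index = 2 := by
    rw [index_eq_two_iff]
    refine ⟨⟨j, hj⟩, fun b => ?_⟩
    have hb := b.2
    simp only [M, mem_subgroupOf, Subgroup.coe_mul, mem_inf, hb, mul_mem hb hj, true_and,
      hcent _ hb, hcent _ (mul_mem hb hj)]
    have hjinv : j⁻¹ = j := inv_eq_of_mul_eq_one_right (hsq j hj)
    have hbj : (b : G) * j * y * ((b : G) * j) = (b : G) * (j * y * j⁻¹) * (j * (b : G) * j) := by
      rw [hjinv, show (b : G) * (j * y * j) * (j * (b : G) * j) = (b : G) * j * y * (j * j) * (b : G) * j by group, hsq j hj]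
      group
    have hcb : j * (b : G) * j = b := by
      have h := hsq _ (mul_mem hj hb)
      calc j * (b : G) * j = j * (b : G) * j * ((b : G) * b) := by rw [hsq _ hb, mul_one]
        _ = (j * (b : G) * (j * b)) * b := by group
        _ = b := by rw [h, one_mul]
    rw [hbj, hjinv, hjy, hcb, conj_inv (hsq _ hb)]
    rcases hJ _ hb with h | h
    · exact Or.inr ⟨h, by rw [h]; exact hyy⟩
    · exact Or.inl ⟨by rw [h, inv_inv], by rw [h]; exact hyy⟩
  rw [← M.card_mul_index, hM, Nat.card_congr (subgroupOfEquivOfLe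
    (inf_le_left : J ⊓ centralizer ((zpowers y : Subgroup G) : Set G) ≤ J)).toEquiv]

theorem build {I F : Subgroup G} (hI : Cfsg.IsElementaryAbelian 2 I) (hF : Odd (Nat.card F))
    (hFn : Group.IsNilpotent F) (hIF : I ≤ normalizer (F : Set G))
    (hfaith : I ⊓ centralizer (F : Set G) = ⊥) {n : ℕ} (hIn : Nat.card I = 2 ^ n) :
    ∀ m ≤ n, ∃ f : Fin m → Subgroup G, (∀ i, (Nat.card (f i)).Prime) ∧ (∀ i, f i ≤ F) ∧
      (∀ i, I ≤ normalizer ((f i) : Set G)) ∧
      (∀ i j, i ≠ j → ∀ a ∈ f i, ∀ b ∈ f j, a * b = b * a) ∧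
      Nat.card (⨆ i, f i : Subgroup G) = ∏ i, Nat.card (f i) ∧
      IsMulCommutative (⨆ i, f i : Subgroup G) ∧
      Nat.card (I ⊓ centralizer ((⨆ i, f i : Subgroup G) : Set G) : Subgroup G) * 2 ^ m = 2 ^ n := by
  intro m
  induction m with
  | zero =>
    intro _
    have hb : (⨆ i : Fin 0, (Fin.elim0 i : Subgroup G)) = ⊥ := iSup_of_empty _
    refine ⟨Fin.elim0, fun i => i.elim0, fun i => i.elim0, fun i => i.elim0, fun i => i.elim0, ?_, ?_, ?_⟩
    · rw [hb, card_bot]; simp
    · rw [hb]; infer_instance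
    · rw [hb, inf_eq_left.2 (le_centralizer_iff.1 bot_le), hIn, pow_zero, mul_one]
  | succ m ih =>
    intro hm
    obtain ⟨f, hp, hfF, hfn, hfc, hcard, hDc, hker⟩ := ih (Nat.le_of_succ_le hm)
    set D := ⨆ i, f i
    have hsq : ∀ a ∈ I, a * a = 1 := fun a ha => by rw [← pow_two]; exact hI.2 a ha
    have hDF : D ≤ F := iSup_le hfF
    have hID : I ≤ normalizer (D : Set G) := fun a ha => by
      exact iSup_normalized f a (fun i => hfn i ha)
    set J := I ⊓ centralizer (D : Set G)
    set K := F ⊓ centralizer (D : Set G)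
    have hDK : D ≤ K := le_inf hDF (le_centralizer D)
    have hJ1 : J ≠ ⊥ := fun e => by
      rw [e, card_bot, one_mul] at hker
      have := Nat.pow_right_injective le_rfl hker
      omega
    obtain ⟨j, hj, hj1⟩ := (bot_or_exists_ne_one J).resolve_left hJ1
    have hjK : j ∉ centralizer (K : Set G) := fun hjK => hj1 (by
      have : j ∈ I ⊓ centralizer (F : Set G) := ⟨hj.1, centralizes_of hFn hF (hsq j hj.1)
        (fun x hx => by
          have := (mem_normalizer_iff.1 (hIF hj.1) x).1 hx
          rwa [inv_eq_of_mul_eq_one_right (hsq j hj.1)] at this)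
        (fun x hx hxc => by
          refine (mem_centralizer_iff.1 hjK x ⟨hx, ?_⟩).symm
          refine centralizer_le ?_ hxc
          intro d hd
          refine ⟨hDF hd, mem_centralizer_iff.2 ?_⟩
          rintro _ rfl
          exact ((mem_centralizer_iff.1 hj.2) d hd).symm)⟩
      rwa [hfaith, mem_bot] at this)
    have hIK : I ≤ normalizer (K : Set G) :=
      (le_inf hIF (hID.trans (normalizer_le_normalizer_centralizer' D))).trans inf_normalizer_le_normalizer_inf
    have hKodd : Odd (Nat.card K) := hF.of_dvd_nat (card_dvd_of_le inf_le_left)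
    haveI := Fintype.ofFinite I
    obtain ⟨x, hx, hx1, hxj, hxI⟩ := exists_eigen hI hKodd hIK hj.1 hjK
      ((Finset.univ : Finset I).toList.map Subtype.val) (by simp)
    have hxI' : ∀ a ∈ I, a * x * a = x ∨ a * x * a = x⁻¹ := fun a ha => hxI a (by simp [ha])
    obtain ⟨p, hp', hpd⟩ := Nat.exists_prime_and_dvd (mt orderOf_eq_one_iff.1 hx1)
    set y := x ^ (orderOf x / p)
    have hy : orderOf y = p := orderOf_pow_orderOf_div (orderOf_pos x).ne' hpd
    have hyK : y ∈ K := pow_mem hx _
    have hpow : ∀ a ∈ I, ∀ k : ℕ, a * x ^ k * a = (a * x * a) ^ k := fun a ha k => by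
      induction k with
      | zero => simp [hsq a ha]
      | succ k ih => rw [pow_succ, conj_mul (hsq a ha), ih, pow_succ]
    have hyI : ∀ a ∈ I, a * y * a = y ∨ a * y * a = y⁻¹ := fun a ha => by
      rcases hxI' a ha with h | h <;> simp [y, hpow a ha, h, inv_pow]
    have hyj : j * y * j = y⁻¹ := by simp [y, hpow j hj.1, hxj, inv_pow]
    set X := zpowers y
    have hXp : Nat.card X = p := by rw [Nat.card_zpowers, hy]
    have hyD : y ∉ D := fun hyD => by
      have h1 : j * y = y * j := ((mem_centralizer_iff.1 hj.2) y hyD).symm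
      rw [h1, mul_assoc, hsq j hj.1, mul_one, ← mul_eq_one_iff_eq_inv] at hyj
      have h2 : orderOf y ∣ 2 := orderOf_dvd_of_pow_eq_one (by rw [pow_two, hyj])
      rw [hy] at h2
      have h3 : p ∣ Nat.card K := hy ▸ Subgroup.orderOf_dvd_natCard _ hyK
      exact hp'.ne_one (Nat.eq_one_of_dvd_coprimes hKodd.coprime_two_right h3 h2)
    have hXn : I ≤ normalizer (X : Set G) := fun a ha => by
      have hmem : a * y * a ∈ X := by
        rcases hyI a ha with h | h <;> rw [h]
        · exact mem_zpowers y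
        · exact inv_mem (mem_zpowers y)
      refine conj_zpowers_mem (hsq a ha) hmem
    have hXD : ∀ d ∈ D, ∀ z ∈ X, d * z = z * d := by
      intro d hd z hz
      exact (mem_centralizer_iff.1 ((zpowers_le.2 hyK.2) hz)) d hd
    have hsup : (⨆ i, Fin.snoc (α := fun _ => Subgroup G) f X i) = D ⊔ X := by
      refine le_antisymm (iSup_le fun i => ?_) (sup_le (iSup_le fun i => ?_) ?_)
      · refine Fin.lastCases ?_ (fun i => ?_) i
        · rw [Fin.snoc_last]; exact le_sup_right
        · rw [Fin.snoc_castSucc]; exact le_sup_of_le_left (le_iSup f i)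
      · exact le_iSup_of_le i.castSucc (by rw [Fin.snoc_castSucc])
      · exact le_iSup_of_le (Fin.last m) (by rw [Fin.snoc_last])
    refine ⟨Fin.snoc f X, fun i => ?_, fun i => ?_, fun i => ?_, ?_, ?_, ?_, ?_⟩
    · refine Fin.lastCases ?_ (fun i => ?_) i
      · rw [Fin.snoc_last, hXp]; exact hp'
      · rw [Fin.snoc_castSucc]; exact hp i
    · refine Fin.lastCases ?_ (fun i => ?_) i
      · rw [Fin.snoc_last]; exact zpowers_le.2 hyK.1
      · rw [Fin.snoc_castSucc]; exact hfF i
    · refine Fin.lastCases ?_ (fun i => ?_) i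
      · rw [Fin.snoc_last]; exact hXn
      · rw [Fin.snoc_castSucc]; exact hfn i
    · intro i k hik a ha b hb
      revert hik ha hb
      refine Fin.lastCases ?_ (fun i => ?_) i <;> refine Fin.lastCases ?_ (fun k => ?_) k <;>
        simp only [Fin.snoc_last, Fin.snoc_castSucc] <;> intro hik ha hb
      · exact absurd rfl hik
      · exact (hXD b (le_iSup f k hb) a ha).symm
      · exact hXD a (le_iSup f i ha) b hb
      · exact hfc i k (fun e => hik (by rw [e])) a ha b hb
    · rw [hsup, card_sup_prime hp' hXp hyD hXD, hcard, Fin.prod_univ_castSucc]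
      simp only [Fin.snoc_last, Fin.snoc_castSucc]
      rw [hXp]
    · rw [hsup]; exact comm_sup hDc hXD
    · rw [hsup, centralizer_sup', ← inf_assoc]
      have hidx := kernel_step (J := J) (y := y) (fun a ha => hsq a ha.1) (fun a ha => hyI a ha.1) hj hyj
        (fun e => hyD (by rw [e]; exact one_mem _)) (hKodd.of_dvd_nat (hy ▸ Subgroup.orderOf_dvd_natCard _ hyK))
      rw [← hker, ← hidx, pow_succ]
      ring

/-- Let S be a finite solvable group whose Fitting subgroup F(S) has odd order, and let I be an elementary abelian 2-subgroup of S of order 2ⁿ with n ≥ 1. Then F(S) contains subgroups A₁, …, Aₙ of prime order, each normalized by I, pairwise commuting and generating a subgroup A of order |A₁|⋯|Aₙ| (their internal direct product), such that no non-identity element of I centralizes A. -/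
theorem result {S : Type*} [Group S] [Finite S]
    [Group.IsSolvable S] (hF : Odd (Nat.card ↥(Cfsg.fittingSubgroup S)))
    (I : Subgroup S) (hI : Cfsg.IsElementaryAbelian 2 I) (n : ℕ) (hn : 1 ≤ n) (hIn : Nat.card ↥I = 2 ^ n) :
    ∃ f : Fin n → Subgroup S, (∀ i, (Nat.card ↥(f i)).Prime) ∧ (∀ i, f i ≤ Cfsg.fittingSubgroup S) ∧
      (∀ i, I ≤ Subgroup.normalizer ((f i) : Set S)) ∧ (∀ i j, i ≠ j → ∀ a ∈ f i, ∀ b ∈ f j, a * b = b * a) ∧
      Nat.card ↥(⨆ i, f i) = ∏ i, Nat.card ↥(f i) ∧ I ⊓ Subgroup.centralizer ((⨆ i, f i : Subgroup S) : Set S) = ⊥ := by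
  have hfn : (Cfsg.fittingSubgroup S).Normal := Cfsg.Lib.Solv.fitting_normal
  have hIF : I ≤ Subgroup.normalizer (Cfsg.fittingSubgroup S : Set S) := by
    rw [Subgroup.normalizer_eq_top]; exact le_top
  have hfaith : I ⊓ Subgroup.centralizer (Cfsg.fittingSubgroup S : Set S) = ⊥ := by
    refine le_bot_iff.1 ((inf_le_inf_left _ Cfsg.Lib.Solv.centralizer_fitting_le).trans (le_of_eq ?_))
    refine Subgroup.inf_eq_bot_of_coprime ?_
    rw [hIn]
    exact (hF.coprime_two_right.symm).pow_left n
  obtain ⟨f, h1, h2, h3, h4, h5, -, h6⟩ := build hI hF Cfsg.Lib.Solv.fitting_isNilpotent hIF hfaith hIn n le_rfl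
  refine ⟨f, h1, h2, h3, h4, h5, ?_⟩
  refine Subgroup.eq_bot_of_card_eq _ ?_
  exact Nat.eq_of_mul_eq_mul_right (Nat.two_pow_pos n) (h6.trans (one_mul _).symm)

end Cfsg.Agent.S4408
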