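import Cfsg.Statements.S4410
import Cfsg.Agent.Lib.Solv.MinNormal

set_option autoImplicit false
open Cfsg

namespace Cfsg.Agent.S4410

open Subgroup

variable {V : Type*} [AddCommGroup V] [Module (ZMod 2) V]

theorem end_add_self (X : Module.End (ZMod 2) V) : X + X = 0 := ZModModule.add_self X

/-- `U` acts as a transvection with centre `u`. -/
def Vec {G : Type*} [Group G] (ρ : G →* Module.End (ZMod 2) V) (U : G) (u : V) : Prop :=
  u ≠ 0 ∧ (∀ v, (ρ U - 1) v = 0 ∨ (ρ U - 1) v = u) ∧ (ρ U - 1) u = 0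

variable {G : Type*} [Group G] {ρ : G →* Module.End (ZMod 2) V}

theorem Vec.nsq {U : G} {u : V} (h : Vec ρ U u) : (ρ U - 1) * (ρ U - 1) = 0 := by
  refine LinearMap.ext fun v => ?_
  rw [Module.End.mul_apply, LinearMap.zero_apply]
  rcases h.2.1 v with e | e
  · rw [e, map_zero]
  · rw [e, h.2.2]

theorem Vec.sq (hρ : Function.Injective ρ) {U : G} {u : V} (h : Vec ρ U u) : U * U = 1 := by
  apply hρ
  rw [map_mul, map_one]
  have h1 : ρ U = 1 + (ρ U - 1) := (add_sub_cancel _ _).symm
  rw [h1, mul_add, add_mul, add_mul, h.nsq, one_mul, mul_one, one_mul, add_zero, add_assoc,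
    end_add_self, add_zero]

theorem Vec.conj {U : G} {u : V} (h : Vec ρ U u) (s : G) : Vec ρ (s * U * s⁻¹) (ρ s u) := by
  have hs : ∀ v, ρ s⁻¹ (ρ s v) = v := fun v => by
    rw [← Module.End.mul_apply, ← map_mul, inv_mul_cancel, map_one, Module.End.one_apply]
  have he : ρ (s * U * s⁻¹) - 1 = ρ s * (ρ U - 1) * ρ s⁻¹ := by
    rw [mul_sub, mul_one, sub_mul, ← map_mul ρ s s⁻¹, mul_inv_cancel, map_one, map_mul, map_mul]
  refine ⟨fun e => h.1 ?_, fun v => ?_, ?_⟩
  · rw [← hs u, e, map_zero]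
  · rw [he, Module.End.mul_apply, Module.End.mul_apply]
    rcases h.2.1 (ρ s⁻¹ v) with e | e
    · left; rw [e, map_zero]
    · right; rw [e]
  · rw [he, Module.End.mul_apply, Module.End.mul_apply, hs, h.2.2, map_zero]

/-- Two transvections with product of odd order coincide as soon as one fixes the centre of the other. -/
theorem eq_of_fix (hρ : Function.Injective ρ) {U W : G} {u w : V} (hU : Vec ρ U u) (hW : Vec ρ W w)
    (hodd : Odd (orderOf (U * W))) (h0 : (ρ U - 1) w = 0) : U = W := by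
  have hz : (ρ U - 1) * (ρ W - 1) = 0 := by
    refine LinearMap.ext fun v => ?_
    rw [Module.End.mul_apply, LinearMap.zero_apply]
    rcases hW.2.1 v with e | e
    · rw [e, map_zero]
    · rw [e, h0]
  have e1 := hU.nsq
  have e2 := hW.nsq
  have hx : ρ (U * W) = 1 + ((ρ U - 1) + (ρ W - 1)) := by
    rw [map_mul]
    linear_combination (norm := noncomm_ring) hz
  have hsq : ∀ X : Module.End (ZMod 2) V, (1 + X) * (1 + X) = 1 + X * X := fun X => by
    rw [mul_add, add_mul, add_mul, one_mul, one_mul, mul_one, add_assoc, ← add_assoc X X,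
      end_add_self, zero_add]
  have h4 : (U * W) ^ 4 = 1 := by
    apply hρ
    rw [map_one, show 4 = 2 * 2 from rfl, pow_mul, sq, sq, map_mul, map_mul, hx, hsq, hsq]
    generalize ρ U - 1 = A at e1 hz ⊢
    generalize ρ W - 1 = B at e2 hz ⊢
    have : (A + B) * (A + B) = B * A := by
      rw [mul_add, add_mul, add_mul, e1, e2, hz, zero_add, add_zero, add_zero]
    rw [this, mul_assoc, ← mul_assoc A B A, hz, zero_mul, mul_zero, add_zero]
  have h1 : orderOf (U * W) ∣ 4 := orderOf_dvd_of_pow_eq_one h4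
  have h2 : orderOf (U * W) = 1 :=
    Nat.Coprime.eq_one_of_dvd
      (Nat.Coprime.pow_right 2 (Nat.coprime_two_right.2 hodd)) (show orderOf (U * W) ∣ 2 ^ 2 from h1)
  rw [orderOf_eq_one_iff, mul_eq_one_iff_eq_inv] at h2
  rw [h2, inv_eq_of_mul_eq_one_right (hW.sq hρ)]

theorem pair_eq (hρ : Function.Injective ρ) {U W : G} {u w : V} (hU : Vec ρ U u) (hW : Vec ρ W w)
    (hodd : Odd (orderOf (U * W))) (hne : U ≠ W) : (ρ U - 1) w = u :=
  (hU.2.1 w).resolve_left fun h => hne (eq_of_fix hρ hU hW hodd h)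

theorem key [Finite G] [Group.IsSolvable G] (hρ : Function.Injective ρ) (hO2 : Cfsg.pCore 2 G = ⊥)
    (P : G) {a : V} (hT : Vec ρ (P ^ 2) a) (hP4 : orderOf P = 4) : False := by
  haveI : Fact (Nat.Prime 2) := ⟨Nat.prime_two⟩
  set T := P ^ 2 with hTd
  set F := Cfsg.fittingSubgroup G
  have hT1 : T ≠ 1 := fun e => by
    have h1 := orderOf_dvd_of_pow_eq_one e
    rw [hP4] at h1
    exact absurd h1 (by decide)
  have hFodd : Odd (Nat.card F) := by
    rw [← Nat.not_even_iff_odd, even_iff_two_dvd]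
    intro h2
    obtain ⟨x, hx⟩ := exists_prime_orderOf_dvd_card' 2 h2
    have h3 : IsPGroup 2 ↥(zpowers (x : G)) :=
      IsPGroup.of_card (n := 1) (by rw [Nat.card_zpowers, Subgroup.orderOf_coe, hx, pow_one])
    have h4 : zpowers (x : G) ≤ Cfsg.pCore 2 G :=
      Cfsg.Lib.Solv.le_pCore_of_le_fitting (zpowers_le.2 x.2) h3
    rw [hO2, zpowers_le, mem_bot] at h4
    rw [← Subgroup.orderOf_coe, h4, orderOf_one] at hx
    exact absurd hx (by decide)
  have hoddF : ∀ g ∈ F, Odd (orderOf g) := fun g hg =>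
    hFodd.of_dvd_nat (by rw [← Subgroup.orderOf_mk g hg]; exact orderOf_dvd_natCard _)
  have hTT : T * T = 1 := hT.sq hρ
  have hTi : T⁻¹ = T := inv_eq_of_mul_eq_one_right hTT
  have hN : F.Normal := inferInstance
  obtain ⟨x, hxF, hxT⟩ : ∃ x ∈ F, x * T * x⁻¹ ≠ T := by
    by_contra hc
    push Not at hc
    have h1 : T ∈ F := Cfsg.Lib.Solv.centralizer_fitting_le (fun x hx =>
      mul_inv_eq_iff_eq_mul.1 (hc x hx))
    have h2 := hoddF T h1
    have h3 : orderOf T = 2 := orderOf_eq_prime (by rw [sq, hTT]) hT1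
    rw [h3] at h2
    exact absurd h2 (by decide)
  -- products inside the class are odd
  have hprod : ∀ U W : G, U * T ∈ F → W * T ∈ F → Odd (orderOf (U * W)) := fun U W hU hW => hoddF _ (by
    have h1 : T * (W * T) * T⁻¹ ∈ F := hN.conj_mem _ hW T
    have h2 : U * W = (U * T) * (T * (W * T) * T⁻¹) := by
      rw [hTi]
      calc U * W = U * (T * T) * W * (T * T) := by rw [hTT, mul_one, mul_one]
        _ = _ := by group
    rw [h2]; exact mul_mem hU h1)
  have hTF : T * T ∈ F := by rw [hTT]; exact one_mem F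
  set U := x * T * x⁻¹ with hUd
  have hU : Vec ρ U (ρ x a) := hT.conj x
  have hUF : U * T ∈ F := by
    have h1 : U * T = x * (T * x⁻¹ * T⁻¹) := by rw [hUd, hTi]; group
    rw [h1]; exact mul_mem hxF (hN.conj_mem _ (inv_mem hxF) T)
  have hUU : U * U = 1 := hU.sq hρ
  have hUi : U⁻¹ = U := inv_eq_of_mul_eq_one_right hUU
  set u := ρ x a
  have hne : U ≠ T := hxT
  have e1 : (ρ U - 1) a = u := pair_eq hρ hU hT (hprod U T hUF hTF) hne
  have e2 : (ρ T - 1) u = a := pair_eq hρ hT hU (hprod T U hTF hUF) (Ne.symm hne)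
  have happ : ∀ (W : G) (v : V), ρ W v = v + (ρ W - 1) v := fun W v => by
    rw [LinearMap.sub_apply, Module.End.one_apply, add_sub_cancel]
  have hUTU : Vec ρ (U * T * U) (a + u) := by
    have := hT.conj U
    rwa [hUi, happ, e1] at this
  have hTUT : Vec ρ (T * U * T) (a + u) := by
    have := hU.conj T
    rwa [hTi, happ, e2, add_comm] at this
  have hUTUF : U * T * U * T ∈ F := by
    rw [mul_assoc (U * T)]; exact mul_mem hUF hUF
  have hTUTF : T * U * T * T ∈ F := by
    have h1 : T * U * T * T = T * (U * T) * T⁻¹ := by rw [hTi, mul_assoc T U T]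
    rw [h1]; exact hN.conj_mem _ hUF T
  have hconjN : ∀ v, (ρ (U * T * U) - 1) v = ρ U ((ρ T - 1) (ρ U v)) := fun v => by
    have hee : ρ U * ρ U = 1 := by rw [← map_mul, hUU, map_one]
    rw [LinearMap.sub_apply, LinearMap.sub_apply, map_sub, map_mul, map_mul, Module.End.mul_apply,
      Module.End.mul_apply, Module.End.one_apply, Module.End.one_apply, ← Module.End.mul_apply (f := ρ U) (g := ρ U), hee,
      Module.End.one_apply]
  have hbraid : U * T * U = T * U * T := by
    refine eq_of_fix hρ hUTU hTUT (hprod _ _ hUTUF hTUTF) ?_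
    rw [hconjN, happ U (a + u), map_add (ρ U - 1), e1, hU.2.2, add_zero, add_assoc, ZModModule.add_self, add_zero,
      hT.2.2, map_zero]
  set U' := P * U * P⁻¹ with hU'd
  have hU' : Vec ρ U' (ρ P u) := hU.conj P
  have hPT : P * T = T * P := by rw [hTd, ← pow_succ, ← pow_succ']
  have hU'F : U' * T ∈ F := by
    have h1 : U' * T = P * (U * T) * P⁻¹ := by
      rw [hU'd]
      calc P * U * P⁻¹ * T = P * U * P⁻¹ * (P * T * P⁻¹) := by rw [hPT, mul_inv_cancel_right]
        _ = _ := by group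
    rw [h1]; exact hN.conj_mem _ hUF P
  have hPP : P * U' * P⁻¹ = T * U * T := by
    rw [hU'd]; conv_rhs => arg 2; rw [← hTi]
    rw [hTd, sq]; group
  by_cases hA : U' = T
  · apply hne
    have h1 : U = P⁻¹ * U' * P := by rw [hU'd]; group
    rw [h1, hA, mul_assoc, ← hPT, inv_mul_cancel_left]
  by_cases hB : U' = U
  · have h1 : T * U * T = U := by rw [← hPP, hB, ← hU'd, hB]
    rw [← hbraid] at h1
    apply hne
    have h2 : T * U = 1 := by
      rw [mul_assoc] at h1
      exact mul_eq_left.1 h1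
    rw [← inv_eq_of_mul_eq_one_right h2, hTi]
  · have e3 : (ρ T - 1) (ρ P u) = a := pair_eq hρ hT hU' (hprod _ _ hTF hU'F) (Ne.symm hA)
    have e4 : (ρ U - 1) (ρ P u) = u := pair_eq hρ hU hU' (hprod _ _ hUF hU'F) (Ne.symm hB)
    have hC : U * T * U = U' := by
      refine eq_of_fix hρ hUTU hU' (hprod _ _ hUTUF hU'F) ?_
      rw [hconjN, happ U (ρ P u), e4, map_add (ρ T - 1), e3, e2, ZModModule.add_self, map_zero]
    have h5 : U' * T * U' = T * U * T := by
      rw [← hPP]; conv_rhs => rw [← hC]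
      rw [hU'd]
      calc P * U * P⁻¹ * T * (P * U * P⁻¹) = P * U * P⁻¹ * (P * T * P⁻¹) * (P * U * P⁻¹) := by
            rw [hPT, mul_inv_cancel_right]
        _ = _ := by group
    rw [← hC, hbraid] at h5
    apply hne
    have h6 : U * T = 1 := by
      have h7 : T * U * T * T * (T * U * T) = (T * U * T) * (U * T) := by
        calc T * U * T * T * (T * U * T) = T * U * (T * T) * T * (U * T) := by group
          _ = _ := by rw [hTT, mul_one]
      rw [h7] at h5
      exact mul_eq_left.1 h5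
    rw [← inv_eq_of_mul_eq_one_left h6, hTi]


/-- Let V be a finite-dimensional vector space over the field with two elements and S a solvable group of linear automorphisms of V with O₂(S) = 1. If P ∈ S has order 4 and (P − 1)³ = 0 on V, then the image of (P − 1)² has at least 4 elements; equivalently, in the decomposition of V into indecomposable modules for the cyclic group generated by P, at least two summands have dimension 3. -/
theorem result
    {V : Type*} [AddCommGroup V] [Module (ZMod 2) V] [Finite V]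
    (S : Subgroup (V ≃ₗ[ZMod 2] V)) (hS : Group.IsSolvable ↥S) (hO2 : Cfsg.pCore 2 ↥S = ⊥)
    (P : V ≃ₗ[ZMod 2] V) (hPS : P ∈ S) (hP4 : orderOf P = 4)
    (hcub : ((P : V →ₗ[ZMod 2] V) - LinearMap.id) ^ 3 = 0) :
    4 ≤ Nat.card ↥(LinearMap.range (((P : V →ₗ[ZMod 2] V) - LinearMap.id) ^ 2)) := by
  haveI : Finite (V ≃ₗ[ZMod 2] V) :=
    Finite.of_injective (fun f : V ≃ₗ[ZMod 2] V => (f : V → V)) DFunLike.coe_injective
  haveI : Group.IsSolvable ↥S := hS
  let ρ : ↥S →* Module.End (ZMod 2) V :=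
    { toFun := fun s => ((s : V ≃ₗ[ZMod 2] V) : V →ₗ[ZMod 2] V)
      map_one' := rfl
      map_mul' := fun _ _ => rfl }
  have hρ : Function.Injective ρ := fun s t e => Subtype.ext (LinearEquiv.toLinearMap_injective e)
  set P' : ↥S := ⟨P, hPS⟩
  set N := ((P : V →ₗ[ZMod 2] V) - LinearMap.id) ^ 2 with hN
  have hX : N = ρ (P' ^ 2) - 1 := by
    rw [hN, map_pow, sq, sq]
    change (ρ P' - 1) * (ρ P' - 1) = ρ P' * ρ P' - 1
    have h2 := end_add_self (ρ P')
    have h3 := end_add_self (1 : Module.End (ZMod 2) V)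
    linear_combination (norm := noncomm_ring) h3 - h2
  have hP1 : P' ^ 2 ≠ 1 := fun e => by
    have h1 : P ^ 2 = 1 := congrArg Subtype.val e
    have h2 := orderOf_dvd_of_pow_eq_one h1
    rw [hP4] at h2
    exact absurd h2 (by decide)
  by_contra hlt
  obtain ⟨k, hk⟩ : ∃ k, Nat.card ↥(LinearMap.range N) = 2 ^ k :=
    ⟨_, (Module.natCard_eq_pow_finrank (K := ZMod 2)).trans (by rw [Nat.card_zmod])⟩
  have hk0 : k ≠ 0 := by
    rintro rfl
    rw [pow_zero, Nat.card_eq_one_iff_unique] at hk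
    refine hP1 (hρ ?_)
    rw [map_one, ← sub_eq_zero, ← hX]
    refine LinearMap.ext fun v => ?_
    exact congrArg Subtype.val (@Subsingleton.elim _ hk.1 ⟨N v, v, rfl⟩ 0)
  have hk2 : k < 2 := by
    by_contra hh
    exact hlt (hk ▸ Nat.pow_le_pow_right (n := 2) (by norm_num) (Nat.not_lt.1 hh))
  obtain rfl : k = 1 := by omega
  rw [pow_one, Nat.card_eq_two_iff' (0 : ↥(LinearMap.range N))] at hk
  obtain ⟨⟨a, w, hw⟩, ha, huniq⟩ := hk
  have hN2 : N (N w) = 0 := by
    have h4 : N * N = 0 := by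
      rw [hN, ← pow_add, pow_succ, hcub, zero_mul]
    rw [← Module.End.mul_apply, h4, LinearMap.zero_apply]
  refine key hρ hO2 P' (a := a) ⟨fun e => ha (Subtype.ext e), fun v => ?_, ?_⟩
    (by rw [← Subgroup.orderOf_coe]; exact hP4)
  · rw [← hX]
    by_cases h : N v = 0
    · exact Or.inl h
    · exact Or.inr (congrArg Subtype.val (huniq ⟨N v, v, rfl⟩ fun e => h (congrArg Subtype.val e)))
  · rw [← hX, ← hw]; exact hN2
end Cfsg.Agent.S4410
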