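import Cfsg.Statements.S4412
import Cfsg.Agent.Lib.Solv.PGroupBasic

set_option autoImplicit false
open Cfsg
open scoped Pointwise commutatorElement

namespace Cfsg.Agent.S4412

set_option maxHeartbeats 1000000

theorem exists_fixed {P : Type*} [Group P] [Finite P] (hodd : ∀ x : P, Odd (orderOf x)) (S : MulAut P)
    (hS : S * S = 1) (N : Subgroup P) (v : P) (h : v⁻¹ * S v ∈ N) : ∃ n ∈ N, S (v * n) = v * n := by
  obtain ⟨u, hu⟩ : ∃ u, u = v⁻¹ * S v := ⟨_, rfl⟩
  have hSu : S u = u⁻¹ := by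
    rw [hu, map_mul, map_inv, mul_inv_rev, inv_inv, ← MulAut.mul_apply, hS, MulAut.one_apply]
  obtain ⟨k, hk⟩ := hodd u
  have hv : v * u = S v := by rw [hu, mul_inv_cancel_left]
  refine ⟨u ^ (k + 1), pow_mem (hu ▸ h) _, ?_⟩
  have h1 : u ^ (k + 1) * u ^ (k + 1) = u := by
    rw [← pow_add, show k + 1 + (k + 1) = orderOf u + 1 by omega, pow_succ, pow_orderOf_eq_one, one_mul]
  rw [map_mul, map_pow, hSu, ← hv, mul_assoc]
  congr 1
  rw [inv_pow]
  exact mul_inv_eq_of_eq_mul h1.symm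

theorem pm_of_cyclic {P : Type*} [Group P] {p : ℕ} (hp : p.Prime) (hp2 : p ≠ 2) (hP : IsPGroup p P) (T : MulAut P)
    (hT : T * T = 1) (g : P) (h : T g ∈ Subgroup.zpowers g) : T g = g ∨ T g = g⁻¹ := by
  obtain ⟨m, hm : g ^ m = T g⟩ := h
  have h2 : g ^ (m * m) = g := by
    rw [zpow_mul, hm, ← map_zpow, hm, ← MulAut.mul_apply, hT, MulAut.one_apply]
  obtain ⟨a, ha⟩ := hP g
  obtain ⟨j, -, hj⟩ := (Nat.dvd_prime_pow hp).1 (orderOf_dvd_of_pow_eq_one ha)
  have h3 : ((p : ℤ) ^ j) ∣ (m - 1) * (m + 1) := by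
    have h4 : g ^ (m * m - 1) = 1 := by rw [zpow_sub, h2, zpow_one, mul_inv_cancel]
    have h5 := orderOf_dvd_iff_zpow_eq_one.2 h4
    rw [hj, Nat.cast_pow] at h5
    rwa [show (m - 1) * (m + 1) = m * m - 1 by ring]
  by_cases hd : (p : ℤ) ∣ m - 1
  · have hd2 : ¬ (p : ℤ) ∣ m + 1 := fun hh => by
      have : (p : ℤ) ∣ 2 := by simpa using dvd_sub hh hd
      exact hp2 (Nat.prime_dvd_prime_iff_eq hp Nat.prime_two |>.1 (Int.natCast_dvd_natCast.1 (by exact_mod_cast this)))
    have h6 : (p : ℤ) ^ j ∣ m - 1 :=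
      (Nat.prime_iff_prime_int.1 hp).pow_dvd_of_dvd_mul_right j hd2 h3
    left
    have h7 : g ^ (m - 1) = 1 := orderOf_dvd_iff_zpow_eq_one.1 (by rw [hj, Nat.cast_pow]; exact h6)
    rw [← hm, show m = (m - 1) + 1 by ring, zpow_add, h7, one_mul, zpow_one]
  · have h6 : (p : ℤ) ^ j ∣ m + 1 :=
      (Nat.prime_iff_prime_int.1 hp).pow_dvd_of_dvd_mul_left j hd h3
    right
    have h7 : g ^ (m + 1) = 1 := orderOf_dvd_iff_zpow_eq_one.1 (by rw [hj, Nat.cast_pow]; exact h6)
    rw [← hm, show m = (m + 1) - 1 by ring, zpow_sub, h7, one_mul, zpow_one]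


/-- Let p be an odd prime, P a finite p-group and I an elementary abelian subgroup of order 8 of Aut(P). Call T ∈ I, T ≠ 1, broad when its fixed-point subgroup C_P(T) is not cyclic. Suppose I has a proper subgroup I₀ containing no broad element such that the product of any two broad elements lies in I₀. Then P is abelian of rank exactly 3 (generated by three elements but not by two), there are exactly three broad elements and they generate I, and I₀ is exactly the set of products of two broad elements. -/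
theorem result
    {P : Type*} [Group P] [Finite P] (p : ℕ) (hp : p.Prime) (hp2 : p ≠ 2) (hP : IsPGroup p P)
    (I : Subgroup (MulAut P)) (hI : Cfsg.IsElementaryAbelian 2 I) (hI8 : Nat.card ↥I = 8)
    (I₀ : Subgroup (MulAut P)) (hI₀ : I₀ < I)
    (hdisj : ∀ T ∈ I₀, T ≠ 1 → ∃ g : P, ∀ x : P, (T x = x ↔ x ∈ Subgroup.zpowers g))
    (hprod : ∀ T ∈ I, ∀ T' ∈ I, T ≠ 1 → T' ≠ 1 → (¬ ∃ g : P, ∀ x : P, (T x = x ↔ x ∈ Subgroup.zpowers g)) →
      (¬ ∃ g : P, ∀ x : P, (T' x = x ↔ x ∈ Subgroup.zpowers g)) → T * T' ∈ I₀) :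
    IsMulCommutative P ∧ (∃ a b c : P, Subgroup.closure {a, b, c} = ⊤) ∧ (¬ ∃ a b : P, Subgroup.closure {a, b} = ⊤) ∧
      Nat.card {T : MulAut P // T ∈ I ∧ T ≠ 1 ∧ ¬ ∃ g : P, ∀ x : P, (T x = x ↔ x ∈ Subgroup.zpowers g)} = 3 ∧
      Subgroup.closure {T : MulAut P | T ∈ I ∧ T ≠ 1 ∧ ¬ ∃ g : P, ∀ x : P, (T x = x ↔ x ∈ Subgroup.zpowers g)} = I ∧
      (I₀ : Set (MulAut P)) = {S : MulAut P | ∃ T T' : MulAut P, T ∈ I ∧ T' ∈ I ∧ T ≠ 1 ∧ T' ≠ 1 ∧
        (¬ ∃ g : P, ∀ x : P, (T x = x ↔ x ∈ Subgroup.zpowers g)) ∧ (¬ ∃ g : P, ∀ x : P, (T' x = x ↔ x ∈ Subgroup.zpowers g)) ∧ S = T * T'} := by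
  classical
  haveI := Fact.mk hp
  have hodd : ∀ x : P, Odd (orderOf x) := fun x => by
    obtain ⟨a, ha⟩ := hP x
    exact ((hp.odd_of_ne_two hp2).pow).of_dvd_nat (orderOf_dvd_of_pow_eq_one ha)
  have hsq : ∀ x : P, x⁻¹ = x → x = 1 := fun x hx => by
    obtain ⟨k, hk⟩ := hodd x
    have h2 : x ^ 2 = 1 := by rw [pow_two]; nth_rw 1 [← hx]; exact inv_mul_cancel x
    have := pow_orderOf_eq_one x
    rwa [hk, pow_succ, pow_mul, h2, one_pow, one_mul] at this
  haveI := hI.1
  have hcomm : ∀ S ∈ I, ∀ T ∈ I, ∀ x, S (T x) = T (S x) := fun S hS T hT x => by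
    have h : S * T = T * S := congrArg Subtype.val (hI.1.is_comm.comm (⟨S, hS⟩ : I) ⟨T, hT⟩)
    exact MulEquiv.congr_fun h x
  have hinv : ∀ T ∈ I, T * T = 1 := fun T hT => by rw [← pow_two]; exact hI.2 T hT
  -- a hyperplane without broad elements
  have hB : ∃ b ∈ I, b ∉ I₀ ∧ ∀ T ∈ I, T ≠ 1 → (¬ ∃ g : P, ∀ x : P, (T x = x ↔ x ∈ Subgroup.zpowers g)) → b * T ∈ I₀ := by
    by_cases hh : ∃ b ∈ I, b ≠ 1 ∧ ¬ ∃ g : P, ∀ x : P, (b x = x ↔ x ∈ Subgroup.zpowers g)
    · obtain ⟨b, hb, hb1, hbb⟩ := hh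
      exact ⟨b, hb, fun h => hbb (hdisj b h hb1), fun T hT hT1 hTb => hprod b hb T hT hb1 hT1 hbb hTb⟩
    · push Not at hh
      obtain ⟨b, hb, hb'⟩ := SetLike.exists_of_lt hI₀
      exact ⟨b, hb, hb', fun T hT hT1 hTb => absurd (hh T hT hT1) (fun hg => hTb hg)⟩
  obtain ⟨b, hb, hbI₀, hbB⟩ := hB
  obtain ⟨H, ⟨hIH, hHI, hbH⟩, hmax⟩ := (Set.toFinite {M : Subgroup (MulAut P) | I₀ ≤ M ∧ M ≤ I ∧ b ∉ M}).exists_maximal
    ⟨I₀, le_rfl, hI₀.le, hbI₀⟩
  have hsplit : ∀ x ∈ I, x ∈ H ∨ b * x ∈ H := fun x hx => by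
    by_cases hxH : x ∈ H
    · exact Or.inl hxH
    right
    obtain ⟨M, hM⟩ : ∃ M, M = H ⊔ Subgroup.zpowers x := ⟨_, rfl⟩
    have hbM : b ∈ M := by
      by_contra hbM
      have h1 : M ≤ H := hmax ⟨hIH.trans (hM ▸ le_sup_left), hM ▸ sup_le hHI (Subgroup.zpowers_le.2 hx), hbM⟩ (hM ▸ le_sup_left)
      exact hxH (h1 (hM ▸ Subgroup.mem_sup_right (Subgroup.mem_zpowers x)))
    have hxN : Subgroup.zpowers x ≤ Subgroup.normalizer (H : Set (MulAut P)) := by
      rw [Subgroup.zpowers_le, Subgroup.mem_normalizer_iff]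
      intro h
      have key : ∀ k ∈ I, x * k * x⁻¹ = k := fun k hk => by
        have h9 : x * k = k * x := congrArg Subtype.val (hI.1.is_comm.comm (⟨x, hx⟩ : I) ⟨k, hk⟩)
        rw [h9, mul_inv_cancel_right]
      constructor
      · intro hh; rw [key h (hHI hh)]; exact hh
      · intro hh
        have h9 := key _ (hHI hh)
        have : x * h * x⁻¹ = h := mul_left_cancel (a := x) (mul_right_cancel (b := x⁻¹) h9)
        rwa [this] at hh
    rw [hM, ← SetLike.mem_coe, Subgroup.coe_mul_of_left_le_normalizer_right _ _ ?_] at hbM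
    swap
    · intro h hh
      rw [Subgroup.mem_normalizer_iff]
      intro k
      have key : ∀ t ∈ I, h * t * h⁻¹ = t := fun t ht => by
        have h9 : h * t = t * h := congrArg Subtype.val (hI.1.is_comm.comm (⟨h, hHI hh⟩ : I) ⟨t, ht⟩)
        rw [h9, mul_inv_cancel_right]
      constructor
      · intro hk; rw [key k (Subgroup.zpowers_le.2 hx hk)]; exact hk
      · intro hk
        have h9 := key _ (Subgroup.zpowers_le.2 hx hk)
        have : h * k * h⁻¹ = k := mul_left_cancel (a := h) (mul_right_cancel (b := h⁻¹) h9)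
        rwa [this] at hk
    obtain ⟨h, hh, _, ⟨k, rfl⟩, hk⟩ := Set.mem_mul.1 hbM
    rcases Int.even_or_odd' k with ⟨l, rfl | rfl⟩
    · have : x ^ (2 * l) = 1 := by rw [zpow_mul, zpow_two, hinv x hx, one_zpow]
      simp only [this, mul_one] at hk
      exact absurd (hk ▸ hh) hbH
    · have : x ^ (2 * l + 1) = x := by rw [zpow_add, zpow_mul, zpow_two, hinv x hx, one_zpow, one_mul, zpow_one]
      simp only [this] at hk
      rw [← hk, mul_assoc, hinv x hx, mul_one]
      exact hh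
  have hH4 : Nat.card H = 4 := by
    let f : Bool × H → I := fun t => ⟨(if t.1 then b else 1) * t.2, mul_mem (by split <;> first | exact hb | exact one_mem _) (hHI t.2.2)⟩
    have hf : Function.Bijective f := by
      constructor
      · rintro ⟨i, h⟩ ⟨j, h'⟩ e
        have e' : (if i then b else 1) * (h : MulAut P) = (if j then b else 1) * h' := congrArg Subtype.val e
        cases i <;> cases j <;> simp at e' ⊢
        · exact e'
        · exact hbH (by rw [show b = (h : MulAut P) * (h' : MulAut P)⁻¹ by rw [e', mul_inv_cancel_right]]; exact mul_mem h.2 (inv_mem h'.2))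
        · exact hbH (by rw [show b = (h' : MulAut P) * (h : MulAut P)⁻¹ by rw [← e', mul_inv_cancel_right]]; exact mul_mem h'.2 (inv_mem h.2))
        · exact e'
      · rintro ⟨x, hx⟩
        rcases hsplit x hx with h | h
        · exact ⟨(false, ⟨x, h⟩), Subtype.ext (by simp [f])⟩
        · exact ⟨(true, ⟨_, h⟩), Subtype.ext (by simp [f, ← mul_assoc, hinv b hb])⟩
    have := Nat.card_congr (Equiv.ofBijective f hf)
    rw [Nat.card_prod, hI8, Nat.card_eq_fintype_card, Fintype.card_bool] at this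
    omega
  have hHnb : ∀ T ∈ H, T ≠ 1 → ∃ g : P, ∀ x : P, (T x = x ↔ x ∈ Subgroup.zpowers g) := fun T hT hT1 => by
    by_contra hh
    have := hIH (hbB T (hHI hT) hT1 hh)
    exact hbH (by rw [show b = b * T * T⁻¹ by group]; exact mul_mem this (inv_mem hT))
  -- the three involutions of `H`
  obtain ⟨⟨S1, hS1⟩, hS1ne⟩ : ∃ S : H, S ≠ 1 := by
    by_contra hh
    push Not at hh
    haveI : Subsingleton H := ⟨fun a c => (hh a).trans (hh c).symm⟩
    rw [Nat.card_of_subsingleton (1 : H)] at hH4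
    omega
  replace hS1ne : S1 ≠ 1 := fun e => hS1ne (Subtype.ext e)
  obtain ⟨⟨S2, hS2⟩, hS2a, hS2b⟩ : ∃ S : H, S ≠ 1 ∧ (S : MulAut P) ≠ S1 := by
    by_contra hh
    push Not at hh
    have : Nat.card H ≤ Nat.card Bool := Nat.card_le_card_of_surjective (fun c : Bool => if c then (⟨S1, hS1⟩ : H) else 1)
      fun S => by
        by_cases h : S = 1
        · exact ⟨false, h.symm⟩
        · exact ⟨true, Subtype.ext (hh S h).symm⟩
    rw [hH4, Nat.card_eq_fintype_card, Fintype.card_bool] at this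
    omega
  replace hS2a : S2 ≠ 1 := fun e => hS2a (Subtype.ext e)
  obtain ⟨S3, hS3d⟩ : ∃ S, S = S1 * S2 := ⟨_, rfl⟩
  have hS3 : S3 ∈ H := hS3d ▸ mul_mem hS1 hS2
  have hS3ne : S3 ≠ 1 := fun e => hS2b (by
    calc S2 = S1 * (S1 * S2) := by rw [← mul_assoc, hinv S1 (hHI hS1), one_mul]
      _ = S1 := by rw [← hS3d, e, mul_one])
  obtain ⟨S, hSdef⟩ : ∃ S : Fin 3 → MulAut P, S = ![S1, S2, S3] := ⟨_, rfl⟩
  have hSH : ∀ i, S i ∈ H := fun i => by subst hSdef; fin_cases i <;> assumption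
  have hS1' : ∀ i, S i ≠ 1 := fun i => by subst hSdef; fin_cases i <;> assumption
  have hg' : ∀ i, ∃ g : P, ∀ x : P, (S i x = x ↔ x ∈ Subgroup.zpowers g) := fun i => hHnb _ (hSH i) (hS1' i)
  choose g hg using hg'
  have hfix : ∀ i, S i (g i) = g i := fun i => (hg i _).2 (Subgroup.mem_zpowers _)
  have hpm : ∀ T ∈ I, ∀ i, T (g i) = g i ∨ T (g i) = (g i)⁻¹ := fun T hT i =>
    pm_of_cyclic hp hp2 hP T (hinv T hT) _ ((hg i _).1 (by rw [hcomm _ (hHI (hSH i)) T hT, hfix]))
  -- generation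
  obtain ⟨W, hW⟩ : ∃ W, W = Subgroup.closure (Set.range g) := ⟨_, rfl⟩
  have hWtop : W = ⊤ := by
    refine frattini_nongenerating (top_le_iff.1 fun x _ => ?_)
    obtain ⟨U, hU⟩ : ∃ U, U = W ⊔ frattini P := ⟨_, rfl⟩
    rw [← hU]
    letI : CommGroup (P ⧸ frattini P) := { (inferInstance : Group (P ⧸ frattini P)) with
      mul_comm := (Subgroup.Normal.quotient_commutative_iff_commutator_le.2 (Cfsg.Lib.Solv.commutator_le_frattini hP)).is_comm.comm }
    have hfixU : ∀ i v, (QuotientGroup.mk (S i v) : P ⧸ frattini P) = QuotientGroup.mk v → v ∈ U := fun i v h => by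
      obtain ⟨n, hn, hfx⟩ := exists_fixed hodd (S i) (hinv _ (hHI (hSH i))) (frattini P) v (QuotientGroup.eq.1 h.symm)
      have h1 : v * n ∈ U := by
        refine hU ▸ Subgroup.mem_sup_left (hW ▸ ?_)
        exact Subgroup.zpowers_le.2 (Subgroup.subset_closure ⟨i, rfl⟩ : g i ∈ Subgroup.closure (Set.range g)) ((hg i _).1 hfx)
      rw [show v = v * n * n⁻¹ by group]
      exact mul_mem h1 (inv_mem (hU ▸ Subgroup.mem_sup_right hn))
    have hxS : ∀ i, x * S i x ∈ U := fun i => hfixU i _ (by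
      rw [map_mul, ← MulAut.mul_apply, hinv _ (hHI (hSH i)), MulAut.one_apply, QuotientGroup.mk_mul, QuotientGroup.mk_mul]
      exact mul_comm _ _)
    have hN : x * S1 x * S2 x * S3 x ∈ U := hfixU 0 _ (by
      have e12 : S1 (S2 x) = S3 x := by rw [hS3d, MulAut.mul_apply]
      have e13 : S1 (S3 x) = S2 x := by rw [← e12, ← MulAut.mul_apply, hinv S1 (hHI hS1), MulAut.one_apply]
      have e11 : S1 (S1 x) = x := by rw [← MulAut.mul_apply, hinv S1 (hHI hS1), MulAut.one_apply]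
      subst hSdef
      show (QuotientGroup.mk (S1 _) : P ⧸ frattini P) = _
      simp only [map_mul, e11, e12, e13, QuotientGroup.mk_mul]
      simp only [mul_comm, mul_left_comm, mul_assoc])
    have h1 : (x * S 0 x) * (x * S 1 x) * (x * S 2 x) * (x * S1 x * S2 x * S3 x)⁻¹ ∈ U :=
      mul_mem (mul_mem (mul_mem (hxS 0) (hxS 1)) (hxS 2)) (inv_mem hN)
    have h2 : (x ^ 2)⁻¹ * ((x * S 0 x) * (x * S 1 x) * (x * S 2 x) * (x * S1 x * S2 x * S3 x)⁻¹) ∈ frattini P := by
      rw [← QuotientGroup.eq]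
      subst hSdef
      show (QuotientGroup.mk (x ^ 2) : P ⧸ frattini P) = QuotientGroup.mk ((x * S1 x) * (x * S2 x) * (x * S3 x) * (x * S1 x * S2 x * S3 x)⁻¹)
      simp only [QuotientGroup.mk_mul, QuotientGroup.mk_inv, QuotientGroup.mk_pow, pow_two]
      rw [eq_mul_inv_iff_mul_eq]
      simp only [mul_comm, mul_left_comm, mul_assoc]
    have h3 : x ^ 2 ∈ U := by
      have h4 := mul_mem h1 (inv_mem (hU ▸ Subgroup.mem_sup_right h2 : _ ∈ U))
      simpa [mul_assoc] using h4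
    obtain ⟨k, hk⟩ := hodd x
    have h5 := pow_mem h3 (k + 1)
    rwa [← pow_mul, show 2 * (k + 1) = orderOf x + 1 by omega, pow_succ, pow_orderOf_eq_one, one_mul] at h5
  have hext : ∀ T T' : MulAut P, (∀ i, T (g i) = T' (g i)) → T = T' := fun T T' h => MulEquiv.ext fun x =>
    MonoidHom.eqOn_closure (f := T.toMonoidHom) (g := T'.toMonoidHom) (by rintro _ ⟨i, rfl⟩; exact h i)
      (hW ▸ hWtop ▸ Subgroup.mem_top x : x ∈ Subgroup.closure (Set.range g))
  -- signs
  let σ : I → Fin 3 → Bool := fun T i => decide ((T : MulAut P) (g i) = g i)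
  have hσ : Function.Bijective σ := by
    refine (Nat.bijective_iff_injective_and_card σ).2 ⟨fun T T' h => Subtype.ext (hext _ _ fun i => ?_), ?_⟩
    · have h1 : (decide ((T : MulAut P) (g i) = g i)) = decide ((T' : MulAut P) (g i) = g i) := congrFun h i
      rw [decide_eq_decide] at h1
      rcases hpm T T.2 i with a | a <;> rcases hpm T' T'.2 i with c | c
      · rw [a, c]
      · exact a.trans (h1.1 a).symm
      · exact (h1.2 c).trans c.symm
      · rw [a, c]
    · rw [hI8, Nat.card_fun, Nat.card_eq_fintype_card, Fintype.card_bool, Nat.card_fin]; norm_num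
  have hget : ∀ s : Fin 3 → Bool, ∃ T ∈ I, ∀ i, (T (g i) = g i ↔ s i = true) ∧ (s i = false → T (g i) = (g i)⁻¹) := fun s => by
    obtain ⟨⟨T, hT⟩, hTs⟩ := hσ.2 s
    refine ⟨T, hT, fun i => ?_⟩
    have h1 : decide (T (g i) = g i) = s i := congrFun hTs i
    have h2 : T (g i) = g i ↔ s i = true := by rw [← h1, decide_eq_true_iff]
    exact ⟨h2, fun hs => (hpm T hT i).resolve_left fun h => by simp [h2.1 h] at hs⟩
  have hg1 : ∀ i, g i ≠ 1 := fun i e => by
    obtain ⟨T, -, hTs⟩ := hget fun _ => false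
    simpa [e] using (hTs i).1
  have hSj : ∀ i j, i ≠ j → S j (g i) = (g i)⁻¹ := fun i j hij => by
    refine (hpm _ (hHI (hSH j)) i).resolve_left fun h => ?_
    obtain ⟨T, hT, hTs⟩ := hget fun k => decide (k = j)
    obtain ⟨m, hm : g j ^ m = g i⟩ := (hg j _).1 h
    have h1 : T (g i) = g i := by rw [← hm, map_zpow, ((hTs j).1).2 (by simp)]
    exact hg1 i (hsq _ (((hTs i).2 (by simp [hij])).symm.trans h1))
  -- `P` is abelian
  obtain ⟨T0, hT0, hT0s⟩ := hget fun _ => false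
  have hT0g : ∀ i, T0 (g i) = (g i)⁻¹ := fun i => (hT0s i).2 rfl
  have hab : IsMulCommutative P := by
    obtain ⟨N, hNdef⟩ : ∃ N, N = ⁅commutator P, (⊤ : Subgroup P)⁆ := ⟨_, rfl⟩
    haveI hNc : N.Characteristic := hNdef ▸ inferInstance
    have hNmap : ∀ (T : MulAut P), ∀ n ∈ N, T n ∈ N := fun T n hn =>
      (Subgroup.characteristic_iff_map_le.1 hNc T) ⟨n, hn, rfl⟩
    have hq : ∀ i j, (QuotientGroup.mk (g i * g j) : P ⧸ N) = QuotientGroup.mk (g j * g i) := by
      intro i j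
      by_cases hij : i = j
      · rw [hij]
      obtain ⟨k, hki, hkj⟩ : ∃ k : Fin 3, k ≠ i ∧ k ≠ j := by revert i j; decide
      obtain ⟨c, hc⟩ : ∃ c, c = g i * g j * (g i)⁻¹ * (g j)⁻¹ := ⟨_, rfl⟩
      have hcD : c ∈ commutator P := hc ▸ Subgroup.commutator_mem_commutator (Subgroup.mem_top (g i)) (Subgroup.mem_top (g j))
      have hflip : ∀ T : MulAut P, T (g i) = (g i)⁻¹ → T (g j) = (g j)⁻¹ → c⁻¹ * T c ∈ N := fun T h1 h2 => by
        have h3 : T c = (g i * g j)⁻¹ * c * (g i * g j) := by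
          rw [hc, map_mul, map_mul, map_mul, map_inv, map_inv, h1, h2]; group
        rw [h3, show c⁻¹ * ((g i * g j)⁻¹ * c * (g i * g j)) = c⁻¹ * (g i * g j)⁻¹ * (c⁻¹)⁻¹ * ((g i * g j)⁻¹)⁻¹ by group]
        exact hNdef ▸ Subgroup.commutator_mem_commutator (inv_mem hcD) (Subgroup.mem_top _)
      obtain ⟨n, hn, hfx⟩ := exists_fixed hodd (S k) (hinv _ (hHI (hSH k))) N c (hflip _ (hSj i k (Ne.symm hki)) (hSj j k (Ne.symm hkj)))
      obtain ⟨m, hm : g k ^ m = c * n⟩ := (hg k _).1 hfx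
      have h1 : T0 (c * n) = (c * n)⁻¹ := by rw [← hm, map_zpow, hT0g, inv_zpow]
      have h2 : (QuotientGroup.mk (T0 (c * n)) : P ⧸ N) = QuotientGroup.mk c := by
        rw [map_mul, QuotientGroup.mk_mul, (QuotientGroup.eq_one_iff _).2 (hNmap T0 n hn), mul_one]
        exact (QuotientGroup.eq.2 (hflip T0 (hT0g i) (hT0g j))).symm
      rw [h1, QuotientGroup.mk_inv, QuotientGroup.mk_mul, (QuotientGroup.eq_one_iff _).2 hn, mul_one] at h2
      have h3 : (QuotientGroup.mk c : P ⧸ N) = 1 := by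
        obtain ⟨l, hl⟩ := hodd c
        have h4 : (QuotientGroup.mk c : P ⧸ N) ^ 2 = 1 := by rw [pow_two]; nth_rw 1 [← h2]; exact inv_mul_cancel _
        have h5 : (QuotientGroup.mk c : P ⧸ N) ^ orderOf c = 1 := by rw [← QuotientGroup.mk_pow, pow_orderOf_eq_one]; rfl
        rwa [hl, pow_succ, pow_mul, h4, one_pow, one_mul] at h5
      rw [hc, mul_assoc, ← mul_inv_rev, QuotientGroup.mk_mul, QuotientGroup.mk_inv, mul_inv_eq_one] at h3
      exact h3
    have hDN : commutator P ≤ N := by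
      rw [commutator_def, Subgroup.commutator_le]
      intro x _ y _
      rw [← QuotientGroup.eq_one_iff]
      have hgen : ∀ z : P, (QuotientGroup.mk z : P ⧸ N) ∈ Subgroup.closure (Set.range fun i => (QuotientGroup.mk (g i) : P ⧸ N)) := fun z => by
        have h9 : (QuotientGroup.mk' N) z ∈ (Subgroup.closure (Set.range g)).map (QuotientGroup.mk' N) :=
          ⟨z, (hW ▸ hWtop ▸ Subgroup.mem_top z : z ∈ Subgroup.closure (Set.range g)), rfl⟩
        rwa [MonoidHom.map_closure, ← Set.range_comp] at h9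
      haveI := Subgroup.isMulCommutative_closure (k := Set.range fun i => (QuotientGroup.mk (g i) : P ⧸ N)) (by
        rintro _ ⟨i, rfl⟩ _ ⟨j, rfl⟩
        exact hq i j)
      show (QuotientGroup.mk' N) ⁅x, y⁆ = 1
      rw [map_commutatorElement, commutatorElement_eq_one_iff_mul_comm]
      exact congrArg Subtype.val (IsMulCommutative.is_comm.comm (⟨_, hgen x⟩ : Subgroup.closure (Set.range fun i => (QuotientGroup.mk (g i) : P ⧸ N))) ⟨_, hgen y⟩)
    have hbot : commutator P = ⊥ := by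
      obtain ⟨n, hn⟩ := nilpotent_iff_lowerCentralSeries.1 hP.isNilpotent
      have hle : ∀ k, commutator P ≤ Subgroup.lowerCentralSeries (⊤ : Subgroup P) k := by
        intro k
        induction k with
        | zero => exact le_top
        | succ k ih => exact hDN.trans (hNdef ▸ Subgroup.commutator_mono ih le_rfl)
      exact le_bot_iff.1 (hn ▸ hle n)
    refine ⟨⟨fun x y => ?_⟩⟩
    rw [← commutatorElement_eq_one_iff_mul_comm, ← Subgroup.mem_bot, ← hbot]
    exact Subgroup.commutator_mem_commutator (Subgroup.mem_top x) (Subgroup.mem_top y)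
  letI : CommGroup P := { (inferInstance : Group P) with mul_comm := hab.is_comm.comm }
  have hT0all : ∀ x, T0 x = x⁻¹ := fun x =>
    MonoidHom.eqOn_closure (f := T0.toMonoidHom) (g := (MulEquiv.inv P).toMonoidHom) (by rintro _ ⟨i, rfl⟩; exact hT0g i)
      (hW ▸ hWtop ▸ Subgroup.mem_top x : x ∈ Subgroup.closure (Set.range g))
  -- broad elements
  obtain ⟨Bset, hBset⟩ : ∃ Bset : Set (MulAut P), Bset = {T : MulAut P | T ∈ I ∧ T ≠ 1 ∧ ¬ ∃ g : P, ∀ x : P, (T x = x ↔ x ∈ Subgroup.zpowers g)} := ⟨_, rfl⟩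
  have hbroad : ∀ T : I, (T : MulAut P) ∈ Bset ↔ ∃ k, σ T = fun i => decide (i ≠ k) := by
    intro T
    rw [hBset]
    constructor
    · rintro ⟨-, hT1, hTb⟩
      have hnf : σ T ≠ fun _ => false := fun h => by
        have e : (T : MulAut P) = T0 := hext _ _ fun i => by
          rw [hT0g]
          exact (hpm T T.2 i).resolve_left fun h' => by
            have := congrFun h i
            simp [σ, h'] at this
        exact hTb ⟨1, fun x => by
          rw [e, hT0all, Subgroup.zpowers_one_eq_bot, Subgroup.mem_bot]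
          exact ⟨hsq x, fun h => by rw [h, inv_one]⟩⟩
      have hnt : σ T ≠ fun _ => true := fun h => hT1 (hext _ _ fun i => by
        have := congrFun h i
        simpa [σ] using this)
      have hns : ∀ j, σ T ≠ fun i => decide (i = j) := fun j h => hTb (by
        have e : (T : MulAut P) = S j := hext _ _ fun i => by
          have := congrFun h i
          by_cases hij : i = j
          · subst hij; rw [hfix]; simpa [σ] using this
          · rw [hSj i j hij]
            exact (hpm T T.2 i).resolve_left fun h' => by simp [σ, h', hij] at this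
        rw [e]; exact ⟨g j, hg j⟩)
      have key : ∀ s : Fin 3 → Bool, s ≠ (fun _ => false) → s ≠ (fun _ => true) → (∀ j, s ≠ fun i => decide (i = j)) →
          ∃ k, s = fun i => decide (i ≠ k) := by decide
      exact key _ hnf hnt hns
    · rintro ⟨k, hk⟩
      have hTi : ∀ i, i ≠ k → (T : MulAut P) (g i) = g i := fun i hi => by
        have := congrFun hk i
        simpa [σ, hi] using this
      refine ⟨T.2, fun e => ?_, ?_⟩
      · have := congrFun hk k
        simp [σ, e] at this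
      · rintro ⟨c, hc⟩
        obtain ⟨i, j, hik, hjk, hij⟩ : ∃ i j : Fin 3, i ≠ k ∧ j ≠ k ∧ i ≠ j := by clear hk hTi; revert k; decide
        obtain ⟨a, ha : c ^ a = g i⟩ := (hc _).1 (hTi i hik)
        obtain ⟨a', ha' : c ^ a' = g j⟩ := (hc _).1 (hTi j hjk)
        have hcf : (T : MulAut P) c = c := (hc c).2 (Subgroup.mem_zpowers c)
        rcases pm_of_cyclic hp hp2 hP (S i) (hinv _ (hHI (hSH i))) c ((hc _).1 (by rw [hcomm _ T.2 _ (hHI (hSH i)), hcf])) with h | h
        · have h1 : S i (g j) = g j := by rw [← ha', map_zpow, h]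
          exact hg1 j (hsq _ ((hSj j i hij.symm).symm.trans h1))
        · have h1 : S i (g i) = (g i)⁻¹ := by rw [← ha, map_zpow, h, inv_zpow]
          exact hg1 i (hsq _ (h1.symm.trans (hfix i)))
  have hσmul : ∀ T T' : I, σ (T * T') = fun i => (σ T i == σ T' i) := fun T T' => funext fun i => by
    show decide ((T : MulAut P) ((T' : MulAut P) (g i)) = g i) = _
    have hne : (g i)⁻¹ ≠ g i := fun h => hg1 i (hsq _ h)
    rcases hpm T T.2 i with a | a <;> rcases hpm T' T'.2 i with c | c <;> simp [σ, a, c, hne, map_inv]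
  have hσS : ∀ j, σ ⟨S j, hHI (hSH j)⟩ = fun i => decide (i = j) := fun j => funext fun i => by
    by_cases hij : i = j
    · subst hij; simp [σ, hfix]
    · simp [σ, hij, hSj i j hij]
      exact fun h => hg1 i (hsq _ h)
  choose tk htk using fun k : Fin 3 => hσ.2 fun i => decide (i ≠ k)
  have htkB : ∀ k, (tk k : MulAut P) ∈ Bset := fun k => (hbroad _).2 ⟨k, htk k⟩
  have hcard : Nat.card {T : MulAut P // T ∈ Bset} = 3 := by
    have e : Nat.card (Fin 3) = Nat.card {T : MulAut P // T ∈ Bset} := Nat.card_congr (Equiv.ofBijective (fun k => ⟨tk k, htkB k⟩) ⟨fun k k' h => by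
      have h1 : tk k = tk k' := Subtype.ext (congrArg Subtype.val h :)
      have h2 := congrFun ((htk k).symm.trans ((congrArg σ h1).trans (htk k'))) k
      simpa using h2, fun ⟨T, hT⟩ => by
        have hTI : T ∈ I := by rw [hBset] at hT; exact hT.1
        obtain ⟨k, hk⟩ := (hbroad ⟨T, hTI⟩).1 hT
        have h1 : tk k = ⟨T, hTI⟩ := hσ.1 ((htk k).trans hk.symm)
        exact ⟨k, Subtype.ext (congrArg Subtype.val h1 :)⟩⟩)
    rw [← e, Nat.card_fin]
  have hclos : Subgroup.closure Bset = I := by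
    refine le_antisymm ((Subgroup.closure_le _).2 fun T hT => by rw [hBset] at hT; exact hT.1) fun T hT => ?_
    have key : ∀ s : Fin 3 → Bool, ∃ c0 c1 c2 : Bool, ∀ i, s i =
        (((c0 || decide (i ≠ 0)) == (c1 || decide (i ≠ 1))) == (c2 || decide (i ≠ 2))) := by decide
    obtain ⟨c0, c1, c2, hc⟩ := key (σ ⟨T, hT⟩)
    have hh : ∀ (c : Bool) (k : Fin 3), ∃ t : I, (t : MulAut P) ∈ Subgroup.closure Bset ∧ σ t = fun i => (c || decide (i ≠ k)) := by
      intro c k
      cases c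
      · exact ⟨tk k, Subgroup.subset_closure (htkB k), by simpa using htk k⟩
      · exact ⟨1, one_mem _, funext fun i => by simp [σ]⟩
    obtain ⟨t0, m0, e0⟩ := hh c0 0
    obtain ⟨t1, m1, e1⟩ := hh c1 1
    obtain ⟨t2, m2, e2⟩ := hh c2 2
    have : (⟨T, hT⟩ : I) = t0 * t1 * t2 := hσ.1 (by rw [hσmul, hσmul, e0, e1, e2]; exact funext hc)
    rw [show T = ((⟨T, hT⟩ : I) : MulAut P) from rfl, this]
    exact mul_mem (mul_mem m0 m1) m2
  have hmemH : ∀ T : I, (T : MulAut P) ∈ H → ∃ k k', σ T = fun i => (decide (i ≠ k) == decide (i ≠ k')) := by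
    intro T hT
    by_cases h1 : (T : MulAut P) = 1
    · exact ⟨0, 0, funext fun i => by simp [σ, h1]⟩
    · obtain ⟨j, hj⟩ : ∃ j, (T : MulAut P) = S j := by
        by_contra hno
        push Not at hno
        let f : Option (Option (Fin 3)) → H := fun o => match o with
          | none => 1
          | some none => ⟨T, hT⟩
          | some (some j) => ⟨S j, hSH j⟩
        have hf : Function.Injective f := by
          have hSinj : ∀ i j, S i = S j → i = j := fun i j h => by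
            have h9 := congrFun ((hσS i).symm.trans ((congrArg σ (Subtype.ext h : (⟨S i, hHI (hSH i)⟩ : I) = ⟨S j, hHI (hSH j)⟩)).trans (hσS j))) i
            simpa using h9
          rintro (_ | _ | i) (_ | _ | j) e <;> have e' := congrArg Subtype.val e <;> simp [f, -OneMemClass.coe_eq_one] at e'
          all_goals first
            | rfl
            | exact absurd e'.symm h1
            | exact absurd e' h1
            | exact absurd e'.symm (hS1' _)
            | exact absurd e' (hS1' _)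
            | exact absurd e' (hno _)
            | exact absurd e'.symm (hno _)
            | rw [hSinj _ _ e']
        have := Nat.card_le_card_of_injective f hf
        simp [hH4] at this
      have hT' : T = ⟨S j, hHI (hSH j)⟩ := Subtype.ext hj
      have key : ∀ j : Fin 3, ∃ k k' : Fin 3, (fun i => decide (i = j)) = fun i => (decide (i ≠ k) == decide (i ≠ k')) := by decide
      obtain ⟨k, k', hk⟩ := key j
      exact ⟨k, k', by rw [hT', hσS]; exact hk⟩
  have hset : (I₀ : Set (MulAut P)) = {S : MulAut P | ∃ T T' : MulAut P, T ∈ Bset ∧ T' ∈ Bset ∧ S = T * T'} := by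
    apply Set.Subset.antisymm
    · intro T hT
      obtain ⟨k, k', hk⟩ := hmemH ⟨T, hI₀.le hT⟩ (hIH hT)
      refine ⟨tk k, tk k', htkB k, htkB k', ?_⟩
      have : (⟨T, hI₀.le hT⟩ : I) = tk k * tk k' := hσ.1 (by rw [hσmul, htk, htk]; exact hk)
      exact congrArg Subtype.val this
    · rintro _ ⟨T, T', hT, hT', rfl⟩
      rw [hBset] at hT hT'
      exact hprod T hT.1 T' hT'.1 hT.2.1 hT'.2.1 hT.2.2 hT'.2.2
  -- rank three
  refine ⟨hab, ⟨g 0, g 1, g 2, ?_⟩, ?_, ?_, ?_, ?_⟩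
  · have : Set.range g = {g 0, g 1, g 2} := by
      ext x; constructor
      · rintro ⟨i, rfl⟩; fin_cases i <;> simp
      · rintro (rfl | rfl | rfl) <;> exact ⟨_, rfl⟩
    rw [← this, ← hW, hWtop]
  · rintro ⟨a, c, hac⟩
    obtain ⟨R, hR⟩ : ∃ R, R = (powMonoidHom p : P →* P).range := ⟨_, rfl⟩
    have hle : Nat.card (P ⧸ R) ≤ p * p := by
      let f : Fin p × Fin p → P ⧸ R := fun z => (QuotientGroup.mk a : P ⧸ R) ^ (z.1 : ℕ) * (QuotientGroup.mk c : P ⧸ R) ^ (z.2 : ℕ)
      have hf : Function.Surjective f := fun q => by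
        obtain ⟨x, rfl⟩ := QuotientGroup.mk_surjective q
        obtain ⟨m, n, rfl⟩ := Subgroup.mem_closure_pair.1 (hac.symm ▸ Subgroup.mem_top x : x ∈ Subgroup.closure {a, c})
        have hp' : ∀ y : P, (QuotientGroup.mk y : P ⧸ R) ^ (p : ℤ) = 1 := fun y => by
          rw [zpow_natCast, ← QuotientGroup.mk_pow, QuotientGroup.eq_one_iff, hR]; exact ⟨y, rfl⟩
        have hred : ∀ (y : P) (m : ℤ), ∃ r : Fin p, (QuotientGroup.mk y : P ⧸ R) ^ (r : ℕ) = (QuotientGroup.mk y) ^ m := fun y m => by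
          have h0 := Int.emod_nonneg m (show (p : ℤ) ≠ 0 by exact_mod_cast hp.ne_zero)
          refine ⟨⟨(m % p).toNat, by have := Int.emod_lt_of_pos m (show (0 : ℤ) < p by exact_mod_cast hp.pos); omega⟩, ?_⟩
          rw [← zpow_natCast]
          simp only [Int.toNat_of_nonneg h0]
          conv_rhs => rw [← Int.emod_add_mul_ediv m p, zpow_add, zpow_mul, hp', one_zpow, mul_one]
        obtain ⟨r, hr⟩ := hred a m
        obtain ⟨r', hr'⟩ := hred c n
        exact ⟨(r, r'), by simp only [f, hr, hr', QuotientGroup.mk_mul, QuotientGroup.mk_zpow]⟩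
      simpa [Nat.card_prod] using Nat.card_le_card_of_surjective f hf
    let F : (Fin 3 → Fin p) → P ⧸ R := fun v => QuotientGroup.mk (g 0 ^ (v 0 : ℕ) * g 1 ^ (v 1 : ℕ) * g 2 ^ (v 2 : ℕ))
    have hF : Function.Injective F := by
      intro v w h
      have h1 : (g 0 ^ (v 0 : ℕ) * g 1 ^ (v 1 : ℕ) * g 2 ^ (v 2 : ℕ))⁻¹ * (g 0 ^ (w 0 : ℕ) * g 1 ^ (w 1 : ℕ) * g 2 ^ (w 2 : ℕ)) ∈ R :=
        QuotientGroup.eq.1 h
      rw [hR] at h1
      obtain ⟨y, hy : y ^ p = _⟩ := h1
      have hy' : y ^ p = g 0 ^ (((w 0 : ℕ) : ℤ) - (v 0 : ℕ)) * g 1 ^ (((w 1 : ℕ) : ℤ) - (v 1 : ℕ)) * g 2 ^ (((w 2 : ℕ) : ℤ) - (v 2 : ℕ)) := by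
        rw [hy, zpow_sub, zpow_sub, zpow_sub, zpow_natCast, zpow_natCast, zpow_natCast, zpow_natCast, zpow_natCast, zpow_natCast,
          mul_inv, mul_inv]
        ac_rfl
      have h6 : ∀ a b c a' b' c' : P, a' * b' * c' * (a * b * c) = a' * a * (b' * b) * (c' * c) := fun a b c a' b' c' => by
        rw [mul_mul_mul_comm, mul_mul_mul_comm a' b']
      funext i
      have h2 : S i (y ^ p) * y ^ p = g i ^ (2 * ((w i : ℕ) : ℤ) - 2 * ((v i : ℕ) : ℤ)) := by
        rw [hy', map_mul, map_mul, map_zpow, map_zpow, map_zpow]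
        have hi : 2 * ((w i : ℕ) : ℤ) - 2 * ((v i : ℕ) : ℤ) = (((w i : ℕ) : ℤ) - (v i : ℕ)) + (((w i : ℕ) : ℤ) - (v i : ℕ)) := by ring
        rw [hi, zpow_add]
        obtain rfl | rfl | rfl : i = 0 ∨ i = 1 ∨ i = 2 := (by decide : ∀ i : Fin 3, i = 0 ∨ i = 1 ∨ i = 2) i
        · rw [hfix, hSj 1 0 (by decide), hSj 2 0 (by decide), inv_zpow, inv_zpow, h6, inv_mul_cancel, inv_mul_cancel, mul_one, mul_one]
        · rw [hfix, hSj 0 1 (by decide), hSj 2 1 (by decide), inv_zpow, inv_zpow, h6, inv_mul_cancel, inv_mul_cancel, mul_one, one_mul]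
        · rw [hfix, hSj 0 2 (by decide), hSj 1 2 (by decide), inv_zpow, inv_zpow, h6, inv_mul_cancel, inv_mul_cancel, one_mul, one_mul]
      obtain ⟨m, hm : g i ^ m = S i y * y⟩ := (hg i (S i y * y)).1 (by
        rw [map_mul, ← MulAut.mul_apply, hinv _ (hHI (hSH i)), MulAut.one_apply, mul_comm])
      rw [map_pow, ← mul_pow, ← hm, ← zpow_natCast, ← zpow_mul] at h2
      have h3 : g i ^ (2 * ((w i : ℕ) : ℤ) - 2 * ((v i : ℕ) : ℤ) - m * p) = 1 := by rw [zpow_sub, ← h2, mul_inv_cancel]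
      obtain ⟨e, he⟩ := hP (g i)
      obtain ⟨j, -, hj⟩ := (Nat.dvd_prime_pow hp).1 (orderOf_dvd_of_pow_eq_one he)
      have hj0 : j ≠ 0 := fun e => hg1 i (orderOf_eq_one_iff.1 (by rw [hj, e, pow_zero]))
      have h4 : (p : ℤ) ∣ 2 * ((w i : ℕ) : ℤ) - 2 * ((v i : ℕ) : ℤ) - m * p :=
        (Int.natCast_dvd_natCast.2 (hj ▸ dvd_pow_self p hj0)).trans (orderOf_dvd_iff_zpow_eq_one.2 h3)
      have h5 : (p : ℤ) ∣ 2 * (((w i : ℕ) : ℤ) - (v i : ℕ)) := by
        have := dvd_add h4 (dvd_mul_left (p : ℤ) m)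
        rwa [show 2 * ((w i : ℕ) : ℤ) - 2 * ((v i : ℕ) : ℤ) - m * p + m * p = 2 * (((w i : ℕ) : ℤ) - (v i : ℕ)) by ring] at this
      rcases (Nat.prime_iff_prime_int.1 hp).dvd_or_dvd h5 with h6 | h6
      · exact absurd (Nat.prime_dvd_prime_iff_eq hp Nat.prime_two |>.1 (Int.natCast_dvd_natCast.1 (by exact_mod_cast h6))) hp2
      · exact Fin.ext (Int.natCast_inj.1 (sub_eq_zero.1 (Int.eq_zero_of_abs_lt_dvd h6
          (by rw [abs_lt]; have := (v i).2; have := (w i).2; constructor <;> omega))).symm)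
    have hge := Nat.card_le_card_of_injective F hF
    rw [Nat.card_fun, Nat.card_fin, Nat.card_fin] at hge
    have h2 := hge.trans hle
    have h3 : p * p * p ≤ p * p * 1 := by
      rw [mul_one]
      calc p * p * p = p ^ 3 := by ring
        _ ≤ _ := h2
    have := hp.two_le
    exact absurd (Nat.le_of_mul_le_mul_left h3 (Nat.mul_pos hp.pos hp.pos)) (by omega)
  · rw [hBset] at hcard; exact hcard
  · rw [hBset] at hclos; exact hclos
  · rw [hset, hBset]
    ext x
    exact ⟨fun ⟨T, T', h, h', e⟩ => ⟨T, T', h.1, h'.1, h.2.1, h'.2.1, h.2.2, h'.2.2, e⟩,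
      fun ⟨T, T', a1, a2, a3, a4, a5, a6, e⟩ => ⟨T, T', ⟨a1, a3, a5⟩, ⟨a2, a4, a6⟩, e⟩⟩

end Cfsg.Agent.S4412
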