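import Cfsg.Statements.S4413
import Cfsg.Agent.Lib.Transfer.ExtraspecialClass

set_option autoImplicit false
open Cfsg

namespace Cfsg.Agent.S4413

/-- A model of the extraspecial group of order 32 of minus type on five coordinates. -/
structure Mdl where
  e : ZMod 2
  a : ZMod 2
  b : ZMod 2
  c : ZMod 2
  d : ZMod 2
deriving DecidableEq

namespace Mdl

def toProd : Mdl ≃ ZMod 2 × ZMod 2 × ZMod 2 × ZMod 2 × ZMod 2 where
  toFun x := (x.e, x.a, x.b, x.c, x.d)
  invFun x := ⟨x.1, x.2.1, x.2.2.1, x.2.2.2.1, x.2.2.2.2⟩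
  left_inv _ := rfl
  right_inv _ := rfl

instance : Fintype Mdl := Fintype.ofEquiv _ toProd.symm

theorem card : Nat.card Mdl = 32 := by
  rw [Nat.card_congr toProd]
  simp [Nat.card_prod]

instance : Mul Mdl := ⟨fun x y => ⟨x.e + y.e + (x.b * y.a + x.c * y.a + x.c * y.b + x.d * y.a + x.d * y.b + x.d * y.c),
  x.a + y.a, x.b + y.b, x.c + y.c, x.d + y.d⟩⟩
instance : One Mdl := ⟨⟨0, 0, 0, 0, 0⟩⟩
instance : Inv Mdl := ⟨fun x => ⟨-x.e + (x.b * x.a + x.c * x.a + x.c * x.b + x.d * x.a + x.d * x.b + x.d * x.c),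
  -x.a, -x.b, -x.c, -x.d⟩⟩

theorem mul_def (x y : Mdl) : x * y = ⟨x.e + y.e + (x.b * y.a + x.c * y.a + x.c * y.b + x.d * y.a + x.d * y.b + x.d * y.c),
  x.a + y.a, x.b + y.b, x.c + y.c, x.d + y.d⟩ := rfl
theorem inv_def (x : Mdl) : x⁻¹ = ⟨-x.e + (x.b * x.a + x.c * x.a + x.c * x.b + x.d * x.a + x.d * x.b + x.d * x.c),
  -x.a, -x.b, -x.c, -x.d⟩ := rfl
theorem one_def : (1 : Mdl) = ⟨0, 0, 0, 0, 0⟩ := rfl

instance : Group Mdl where
  mul_assoc x y w := by simp only [mul_def, mk.injEq]; refine ⟨?_, ?_, ?_, ?_, ?_⟩ <;> ring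
  one_mul x := by simp [mul_def, one_def]
  mul_one x := by simp [mul_def, one_def]
  inv_mul_cancel x := by simp only [mul_def, inv_def, one_def, mk.injEq]; refine ⟨?_, ?_, ?_, ?_, ?_⟩ <;> ring

def zM : Mdl := ⟨1, 0, 0, 0, 0⟩

def L : Fin 5 → Mdl := ![⟨0, 1, 0, 0, 0⟩, ⟨0, 0, 1, 0, 0⟩, ⟨0, 0, 0, 1, 0⟩, ⟨0, 0, 0, 0, 1⟩, ⟨0, 1, 1, 1, 1⟩]

def idx (m : Mdl) : Fin 5 :=
  if m.a = 1 ∧ m.b = 1 then 4 else if m.a = 1 then 0 else if m.b = 1 then 1 else if m.c = 1 then 2 else 3

theorem idx_L : ∀ i, idx (L i) = i := by decide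
theorem idx_z : ∀ m, idx (zM * m) = idx m := by decide
theorem center_iff : ∀ m : Mdl, (∀ g, g * m = m * g) → m = 1 ∨ m = zM := by decide
theorem zM_central : ∀ g : Mdl, g * zM = zM * g := by decide
theorem zM_ne : zM ≠ 1 := by decide
theorem involution_class : ∀ m : Mdl, m * m = 1 → m ≠ 1 → m ≠ zM → m = L (idx m) ∨ m = zM * L (idx m) := by decide
theorem L_sq : ∀ i, L i * L i = 1 := by decide
theorem L_ne : ∀ i, L i ≠ 1 ∧ L i ≠ zM := by decide
theorem L_comm : ∀ i j, i ≠ j → L j * L i = zM * (L i * L j) := by decide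
theorem nondeg : ∀ m : Mdl, m ≠ 1 → m = zM ∨ ∃ g, g * m = zM * (m * g) := by decide
theorem conj_signs : ∀ e0 e1 e2 e3 : Bool, ∃ m : Mdl, (m * L 0 * m⁻¹ = if e0 then zM * L 0 else L 0) ∧
    (m * L 1 * m⁻¹ = if e1 then zM * L 1 else L 1) ∧ (m * L 2 * m⁻¹ = if e2 then zM * L 2 else L 2) ∧
    (m * L 3 * m⁻¹ = if e3 then zM * L 3 else L 3) := by decide
theorem conj_idx : ∀ (m : Mdl) (i : Fin 5), idx (m * L i * m⁻¹) = i := by decide

end Mdl

open Mdl

/-- A power with exponent modulo two. -/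
def pw {P : Type*} [One P] (f : P) (a : ZMod 2) : P := if a = 0 then 1 else f

theorem zmod2_cases : ∀ a : ZMod 2, a = 0 ∨ a = 1 := by decide

/-- A central involution and four involutions, any two of which have it as commutator. -/
structure Quad (P : Type*) [Group P] where
  z : P
  f0 : P
  f1 : P
  f2 : P
  f3 : P
  zz : z * z = 1
  zc : ∀ x : P, x * z = z * x
  s0 : f0 * f0 = 1
  s1 : f1 * f1 = 1
  s2 : f2 * f2 = 1
  s3 : f3 * f3 = 1
  c10 : f1 * f0 = z * (f0 * f1)
  c20 : f2 * f0 = z * (f0 * f2)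
  c30 : f3 * f0 = z * (f0 * f3)
  c21 : f2 * f1 = z * (f1 * f2)
  c31 : f3 * f1 = z * (f1 * f3)
  c32 : f3 * f2 = z * (f2 * f3)

section

variable {P : Type*} [Group P]

theorem pw_merge {f : P} (h : f * f = 1) (a b : ZMod 2) (r : P) : pw f a * (pw f b * r) = pw f (a + b) * r := by
  rcases zmod2_cases a with rfl | rfl <;> rcases zmod2_cases b with rfl | rfl <;>
    simp [pw, ← mul_assoc, h, show (1 : ZMod 2) + 1 = 0 from by decide]

theorem pw_pull {z : P} (hz : ∀ x : P, x * z = z * x) (f : P) (a e : ZMod 2) (r : P) :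
    pw f a * (pw z e * r) = pw z e * (pw f a * r) := by
  rcases zmod2_cases e with rfl | rfl <;> simp [pw, ← mul_assoc, hz]

theorem pw_swap {z f g : P} (h : g * f = z * (f * g)) (a b : ZMod 2) (r : P) :
    pw g b * (pw f a * r) = pw z (a * b) * (pw f a * (pw g b * r)) := by
  rcases zmod2_cases a with rfl | rfl <;> rcases zmod2_cases b with rfl | rfl <;>
    simp [pw, ← mul_assoc, h]

def Quad.F (Q : Quad P) (m : Mdl) : P := pw Q.z m.e * (pw Q.f0 m.a * (pw Q.f1 m.b * (pw Q.f2 m.c * pw Q.f3 m.d)))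

theorem Quad.F_mul (Q : Quad P) (x y : Mdl) : Q.F (x * y) = Q.F x * Q.F y := by
  rw [← mul_one (Q.F x * Q.F y), ← mul_one (Q.F (x * y))]
  simp only [Quad.F, Mdl.mul_def, mul_assoc, pw_pull Q.zc Q.f0, pw_pull Q.zc Q.f1, pw_pull Q.zc Q.f2, pw_pull Q.zc Q.f3,
    pw_swap Q.c10, pw_swap Q.c20, pw_swap Q.c30, pw_swap Q.c21, pw_swap Q.c31, pw_swap Q.c32,
    pw_merge Q.zz, pw_merge Q.s0, pw_merge Q.s1, pw_merge Q.s2, pw_merge Q.s3]
  congr 2
  ring

def Quad.hom (Q : Quad P) : Mdl →* P := MonoidHom.mk' Q.F Q.F_mul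

theorem Quad.hom_gens (Q : Quad P) : Q.hom zM = Q.z ∧ Q.hom (L 0) = Q.f0 ∧ Q.hom (L 1) = Q.f1 ∧
    Q.hom (L 2) = Q.f2 ∧ Q.hom (L 3) = Q.f3 := by
  refine ⟨?_, ?_, ?_, ?_, ?_⟩ <;> simp [Quad.hom, Quad.F, pw, zM, L]

theorem Quad.bijective [Finite P] (Q : Quad P) (hz : Q.z ≠ 1) (hc : Nat.card P = 32) : Function.Bijective Q.hom := by
  refine (Nat.bijective_iff_injective_and_card _).2 ⟨(injective_iff_map_eq_one _).2 fun m hm => ?_, Mdl.card.trans hc.symm⟩
  by_contra hne
  rcases nondeg m hne with rfl | ⟨g, hg⟩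
  · exact hz (Q.hom_gens.1 ▸ hm)
  · have := congrArg Q.hom hg
    rw [map_mul, map_mul, map_mul, hm, Q.hom_gens.1] at this
    simp only [one_mul, mul_one] at this
    exact hz (mul_eq_right.1 this.symm)

end

/-! ### automorphisms of the model -/

theorem map_zM (φ : MulAut Mdl) : φ zM = zM := by
  rcases center_iff (φ zM) (fun g => by rw [← φ.apply_symm_apply g, ← map_mul, ← map_mul, zM_central]) with h | h
  · exact absurd (φ.injective (h.trans (map_one φ).symm)) zM_ne
  · exact h

theorem map_L (φ : MulAut Mdl) (i : Fin 5) : φ (L i) = L (idx (φ (L i))) ∨ φ (L i) = zM * L (idx (φ (L i))) :=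
  involution_class _ (by rw [← map_mul, L_sq, map_one])
    (fun h => (L_ne i).1 (φ.injective (h.trans (map_one φ).symm)))
    (fun h => (L_ne i).2 (φ.injective (h.trans (map_zM φ).symm)))

theorem idx_comp (φ ψ : MulAut Mdl) (i : Fin 5) : idx (φ (ψ (L i))) = idx (φ (L (idx (ψ (L i))))) := by
  rcases map_L ψ i with h | h
  · rw [← h]
  · conv_lhs => rw [h, map_mul, map_zM, idx_z]

def perm : MulAut Mdl →* Equiv.Perm (Fin 5) :=
  MonoidHom.mk'
    (fun φ =>
      { toFun := fun i => idx (φ (L i))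
        invFun := fun i => idx (φ⁻¹ (L i))
        left_inv := fun i => by
          show idx (φ⁻¹ (L (idx (φ (L i))))) = i
          rw [← idx_comp, ← MulAut.mul_apply, inv_mul_cancel, MulAut.one_apply, idx_L]
        right_inv := fun i => by
          show idx (φ (L (idx (φ⁻¹ (L i))))) = i
          rw [← idx_comp, ← MulAut.mul_apply, mul_inv_cancel, MulAut.one_apply, idx_L] })
    (fun φ ψ => Equiv.ext fun i => idx_comp φ ψ i)

def std : Quad Mdl where
  z := zM
  f0 := L 0
  f1 := L 1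
  f2 := L 2
  f3 := L 3
  zz := by decide
  zc := zM_central
  s0 := L_sq 0
  s1 := L_sq 1
  s2 := L_sq 2
  s3 := L_sq 3
  c10 := L_comm 0 1 (by decide)
  c20 := L_comm 0 2 (by decide)
  c30 := L_comm 0 3 (by decide)
  c21 := L_comm 1 2 (by decide)
  c31 := L_comm 1 3 (by decide)
  c32 := L_comm 2 3 (by decide)

theorem std_F : ∀ m : Mdl, std.F m = m := by decide

theorem aut_ext (φ ψ : MulAut Mdl) (h0 : φ (L 0) = ψ (L 0)) (h1 : φ (L 1) = ψ (L 1)) (h2 : φ (L 2) = ψ (L 2))
    (h3 : φ (L 3) = ψ (L 3)) : φ = ψ := by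
  refine MulEquiv.ext fun m => ?_
  have hp : ∀ (f : Mdl) (a : ZMod 2), φ f = ψ f → φ (pw f a) = ψ (pw f a) := fun f a h => by
    rcases zmod2_cases a with rfl | rfl <;> simp [pw, h]
  rw [← std_F m]
  simp only [Quad.F, map_mul, std, hp _ _ h0, hp _ _ h1, hp _ _ h2, hp _ _ h3,
    hp _ _ ((map_zM φ).trans (map_zM ψ).symm)]

theorem ker_perm : perm.ker = (MulAut.conj : Mdl →* MulAut Mdl).range := by
  refine le_antisymm (fun φ hφ => ?_) ?_
  · have hi : ∀ i, idx (φ (L i)) = i := fun i => congrArg (fun e : Equiv.Perm (Fin 5) => e i) hφ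
    have hb : ∀ i, ∃ e : Bool, φ (L i) = if e then zM * L i else L i := fun i => by
      rcases map_L φ i with h | h
      · exact ⟨false, by rw [h, hi]; rfl⟩
      · exact ⟨true, by rw [h, hi]; rfl⟩
    obtain ⟨e0, he0⟩ := hb 0
    obtain ⟨e1, he1⟩ := hb 1
    obtain ⟨e2, he2⟩ := hb 2
    obtain ⟨e3, he3⟩ := hb 3
    obtain ⟨m, g0, g1, g2, g3⟩ := conj_signs e0 e1 e2 e3
    exact ⟨m, aut_ext _ _ (g0.trans he0.symm) (g1.trans he1.symm) (g2.trans he2.symm) (g3.trans he3.symm)⟩
  · rintro _ ⟨m, rfl⟩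
    exact Equiv.ext fun i => conj_idx m i

theorem perm_surjective : Function.Surjective perm := by
  intro σ
  let Q : Quad Mdl :=
    { z := zM, f0 := L (σ 0), f1 := L (σ 1), f2 := L (σ 2), f3 := L (σ 3), zz := by decide, zc := zM_central,
      s0 := L_sq _, s1 := L_sq _, s2 := L_sq _, s3 := L_sq _,
      c10 := L_comm _ _ (σ.injective.ne (by decide)), c20 := L_comm _ _ (σ.injective.ne (by decide)),
      c30 := L_comm _ _ (σ.injective.ne (by decide)), c21 := L_comm _ _ (σ.injective.ne (by decide)),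
      c31 := L_comm _ _ (σ.injective.ne (by decide)), c32 := L_comm _ _ (σ.injective.ne (by decide)) }
  obtain ⟨-, g0, g1, g2, g3⟩ := Q.hom_gens
  let φ : MulAut Mdl := MulEquiv.ofBijective Q.hom (Q.bijective zM_ne Mdl.card)
  refine ⟨φ, ?_⟩
  have h : ∀ i : Fin 5, i ≠ 4 → perm φ i = σ i := by
    intro i hi
    fin_cases i
    · exact (congrArg idx g0).trans (idx_L _)
    · exact (congrArg idx g1).trans (idx_L _)
    · exact (congrArg idx g2).trans (idx_L _)
    · exact (congrArg idx g3).trans (idx_L _)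
    · exact absurd rfl hi
  refine Equiv.ext fun i => ?_
  by_cases hi : i = 4
  · subst hi
    by_contra hne
    obtain ⟨j, hj⟩ := (perm φ).surjective (σ 4)
    by_cases hj4 : j = 4
    · exact hne (hj4 ▸ hj)
    · exact hj4 (σ.injective ((h j hj4).symm.trans hj))
  · exact h i hi

/-- Every such group contains four involutions forming a frame. -/
theorem exists_quad {P : Type*} [Group P] [Finite P] (hex : Cfsg.IsExtraspecial 2 P) (h32 : Nat.card P = 32)
    (hminus : ∀ A : Subgroup P, Cfsg.IsElementaryAbelian 2 A → Nat.card ↥A ≤ 4) : ∃ Q : Quad P, Q.z ≠ 1 := by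
  classical
  obtain ⟨hZ, hcm, hpw⟩ := Cfsg.Lib.Transfer.ExtraspecialClass.ES.of_extraspecial hex
  obtain ⟨z₀, hz₀, hall⟩ := Nat.card_eq_two_iff' (1 : Subgroup.center P) |>.1 hZ
  obtain ⟨z, hzdef⟩ : ∃ z : P, z = (z₀ : P) := ⟨_, rfl⟩
  have hz1 : z ≠ 1 := fun h => hz₀ (Subtype.ext (hzdef ▸ h))
  have hzc : ∀ x : P, x * z = z * x := fun x => hzdef ▸ Subgroup.mem_center_iff.1 z₀.2 x
  have hcz : ∀ c ∈ Subgroup.center P, c = 1 ∨ c = z := fun c hc => by
    by_cases h : (⟨c, hc⟩ : Subgroup.center P) = 1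
    · exact Or.inl (congrArg Subtype.val h)
    · exact Or.inr (hzdef ▸ congrArg Subtype.val (hall _ h))
  have hzz : z * z = 1 := by
    rcases hcz (z * z) (mul_mem (hzdef ▸ z₀.2) (hzdef ▸ z₀.2)) with h | h
    · exact h
    · exact absurd (mul_eq_left.1 h) hz1
  have hzl : ∀ x r : P, x * (z * r) = z * (x * r) := fun x r => by rw [← mul_assoc, hzc, mul_assoc]
  have hzz' : ∀ r : P, z * (z * r) = r := fun r => by rw [← mul_assoc, hzz, one_mul]
  have hsq : ∀ x : P, x * x = 1 ∨ x * x = z := fun x => hcz _ (by rw [← pow_two]; exact hpw x)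
  have hco : ∀ x y : P, x * y = y * x ∨ y * x = z * (x * y) := fun x y => by
    rcases hcz _ (hcm y x) with h | h
    · exact Or.inl (commutatorElement_eq_one_iff_mul_comm.1 h).symm
    · exact Or.inr (by rw [← h]; simp [commutatorElement_def, mul_assoc])
  have hno : ∀ a b w : P, a * a = 1 → b * b = 1 → a * b = b * a → (∃ g, g * a ≠ a * g) → a * w = w * a →
      b * w ≠ w * b → False := by
    intro a b w ha hb hab ⟨g, hg⟩ haw hbw
    have hcomm : ∀ x ∈ ({z, a, b} : Set P), ∀ y ∈ ({z, a, b} : Set P), x * y = y * x := by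
      rintro x (rfl | rfl | rfl) y (rfl | rfl | rfl)
      all_goals first | rfl | exact hzc _ | exact (hzc _).symm | exact hab | exact hab.symm
    have hA : Cfsg.IsElementaryAbelian 2 (Subgroup.closure ({z, a, b} : Set P)) := by
      have hc' := Subgroup.isMulCommutative_closure hcomm
      refine ⟨hc', fun x hx => ?_⟩
      induction hx using Subgroup.closure_induction with
      | mem y hy => rcases hy with rfl | rfl | rfl <;> rw [pow_two] <;> assumption
      | one => exact one_pow 2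
      | mul u v hu hv iu iv =>
        have huv : u * v = v * u := congrArg Subtype.val (hc'.is_comm.comm ⟨u, hu⟩ ⟨v, hv⟩)
        rw [Commute.mul_pow huv, iu, iv, one_mul]
      | inv u _ iu => rw [inv_pow, iu, inv_one]
    have h4 := hminus _ hA
    have hza : (z * a) * w = w * (z * a) := by rw [hzl, mul_assoc, haw]
    have ha1 : a ≠ 1 := fun e => hg (by rw [e, mul_one, one_mul])
    have haz : a ≠ z := fun e => hg (by rw [e, hzc])
    have h5 : ({1, z, a, z * a, b} : Finset P).card = 5 := by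
      have hb' : ∀ y ∈ ({1, z, a, z * a} : Finset P), y * w = w * y := by
        simp only [Finset.mem_insert, Finset.mem_singleton]
        rintro y (rfl | rfl | rfl | rfl)
        exacts [by rw [one_mul, mul_one], (hzc w).symm, haw, hza]
      have hbn : b ∉ ({1, z, a, z * a} : Finset P) := fun h => hbw (hb' b h)
      simp only [Finset.mem_insert, Finset.mem_singleton, not_or] at hbn
      obtain ⟨b1, b2, b3, b4⟩ := hbn
      have n1 : a ≠ z * a := fun e => hz1 (mul_eq_right.1 e.symm)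
      have n2 : z ≠ z * a := fun e => ha1 (mul_eq_left.1 e.symm)
      have n3 : (1 : P) ≠ z * a := fun e => haz (by
        have := congrArg (fun t => z * t) e
        simpa [hzz'] using this.symm)
      simp [Ne.symm b1, Ne.symm b2, Ne.symm b3, Ne.symm b4, hz1.symm, ha1.symm, haz.symm, n1, n2, n3]
    have h6 : ({1, z, a, z * a, b} : Finset P).card ≤ Nat.card (Subgroup.closure ({z, a, b} : Set P)) := by
      rw [← Set.ncard_coe_finset]
      refine (Set.ncard_le_ncard (t := ((Subgroup.closure ({z, a, b} : Set P) : Subgroup P) : Set P)) (fun y hy => ?_)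
        (Set.toFinite _)).trans_eq (Nat.card_coe_set_eq _).symm
      simp only [Finset.coe_insert, Finset.coe_singleton, Set.mem_insert_iff, Set.mem_singleton_iff] at hy
      have mz := Subgroup.subset_closure (k := ({z, a, b} : Set P)) (Or.inl rfl)
      have ma := Subgroup.subset_closure (k := ({z, a, b} : Set P)) (Or.inr (Or.inl rfl))
      rcases hy with rfl | rfl | rfl | rfl | rfl
      exacts [one_mem _, mz, ma, mul_mem mz ma, Subgroup.subset_closure (Or.inr (Or.inr rfl))]
    omega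
  -- a symplectic frame
  have hnc : ∃ x y : P, y * x = z * (x * y) := by
    by_contra hh
    push Not at hh
    have : Subgroup.center P = ⊤ := top_le_iff.1 fun x _ => Subgroup.mem_center_iff.2 fun y =>
      ((hco y x).resolve_right (hh y x))
    rw [this, Subgroup.card_top, h32] at hZ
    omega
  obtain ⟨x, y, hxy⟩ := hnc
  have hxy' : ∀ r, y * (x * r) = z * (x * (y * r)) := fun r => by rw [← mul_assoc, hxy]; simp only [mul_assoc]
  have hadj : ∀ g : P, ∃ i j : Bool, (g * ((if i then x else 1) * (if j then y else 1))) * x = x * (g * ((if i then x else 1) * (if j then y else 1))) ∧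
      (g * ((if i then x else 1) * (if j then y else 1))) * y = y * (g * ((if i then x else 1) * (if j then y else 1))) := by
    intro g
    rcases hco x g with hgx | hgx <;> rcases hco y g with hgy | hgy
    · exact ⟨false, false, by simpa using hgx.symm, by simpa using hgy.symm⟩
    · refine ⟨true, false, ?_, ?_⟩
      · have e : ∀ r, g * (x * r) = x * (g * r) := fun r => by rw [← mul_assoc, ← hgx, mul_assoc]
        simp [mul_assoc, e]
      · have e : ∀ r, g * (y * r) = z * (y * (g * r)) := fun r => by rw [← mul_assoc, hgy]; simp only [mul_assoc]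
        have e' : ∀ r, g * (x * r) = x * (g * r) := fun r => by rw [← mul_assoc, ← hgx, mul_assoc]
        simp [mul_assoc, e, e', hxy', hzl, hzz', hgy, hgx.symm, hxy]
    · refine ⟨false, true, ?_, ?_⟩
      · have e : ∀ r, g * (x * r) = z * (x * (g * r)) := fun r => by rw [← mul_assoc, hgx]; simp only [mul_assoc]
        simp [mul_assoc, e, hxy', hzl, hzz', hgx, hxy]
      · have e : ∀ r, g * (y * r) = y * (g * r) := fun r => by rw [← mul_assoc, ← hgy, mul_assoc]
        simp [mul_assoc, e]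
    · refine ⟨true, true, ?_, ?_⟩
      · have e : ∀ r, g * (x * r) = z * (x * (g * r)) := fun r => by rw [← mul_assoc, hgx]; simp only [mul_assoc]
        simp [mul_assoc, e, hxy', hzl, hzz', hgx, hxy]
      · have e : ∀ r, g * (x * r) = z * (x * (g * r)) := fun r => by rw [← mul_assoc, hgx]; simp only [mul_assoc]
        have e' : ∀ r, g * (y * r) = z * (y * (g * r)) := fun r => by rw [← mul_assoc, hgy]; simp only [mul_assoc]
        simp [mul_assoc, e, e', hxy', hzl, hzz', hgx, hgy, hxy]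
  have hu : ∃ u : P, u * x = x * u ∧ u * y = y * u ∧ ∃ g, g * u ≠ u * g := by
    by_contra hh
    push Not at hh
    let F : Bool × Bool × Subgroup.center P → P := fun t => (t.2.2 : P) * (((if t.1 then x else 1) * (if t.2.1 then y else 1)))⁻¹
    have hF : Function.Surjective F := fun g => by
      obtain ⟨i, j, h1, h2⟩ := hadj g
      exact ⟨(i, j, ⟨_, Subgroup.mem_center_iff.2 fun k => hh _ h1 h2 k⟩), mul_inv_cancel_right g _⟩
    have := Nat.card_le_card_of_surjective F hF
    simp [Nat.card_prod, hZ, h32] at this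
  obtain ⟨u, hux, huy, g, hgu⟩ := hu
  obtain ⟨i, j, hvx, hvy⟩ := hadj g
  obtain ⟨v, hv⟩ : ∃ v, v = g * ((if i then x else 1) * (if j then y else 1)) := ⟨_, rfl⟩
  rw [← hv] at hvx hvy
  have huv : v * u = z * (u * v) := by
    refine (hco u v).resolve_left fun h => hgu ?_
    have hk : Commute u ((if i then x else 1) * (if j then y else 1)) :=
      Commute.mul_right (by split <;> first | exact hux | exact Commute.one_right u)
        (by split <;> first | exact huy | exact Commute.one_right u)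
    have h1 : Commute u g := by
      have := Commute.mul_right (h : Commute u v) hk.inv_right
      rwa [hv, mul_inv_cancel_right] at this
    exact h1.eq.symm
  -- normalise each pair
  have hpair : ∀ x y : P, y * x = z * (x * y) → ∃ a b : P, b * a = z * (a * b) ∧
      ((a * a = 1 ∧ b * b = 1) ∨ (a * a = z ∧ b * b = z)) ∧
      (∀ w, w * x = x * w → w * y = y * w → w * a = a * w ∧ w * b = b * w) := by
    intro x y hxy
    have e : ∀ r, y * (x * r) = z * (x * (y * r)) := fun r => by rw [← mul_assoc, hxy]; simp only [mul_assoc]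
    have hm : ∀ w, w * x = x * w → w * y = y * w → w * (x * y) = x * y * w := fun w h1 h2 =>
      (Commute.mul_right (h1 : Commute w x) (h2 : Commute w y)).eq
    rcases hsq x with hx | hx <;> rcases hsq y with hy | hy
    · exact ⟨x, y, hxy, Or.inl ⟨hx, hy⟩, fun w h1 h2 => ⟨h1, h2⟩⟩
    · refine ⟨x, x * y, ?_, Or.inl ⟨hx, ?_⟩, fun w h1 h2 => ⟨h1, hm w h1 h2⟩⟩
      · simp [mul_assoc, hxy, hzl]
      · have ex : ∀ r, x * (x * r) = r := fun r => by rw [← mul_assoc, hx, one_mul]
        simp [mul_assoc, e, hzl, hzz', ex, hy, hzz]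
    · refine ⟨x * y, y, ?_, Or.inl ⟨?_, hy⟩, fun w h1 h2 => ⟨hm w h1 h2, h2⟩⟩
      · simp [mul_assoc, e, hzl, hy]
      · have ex : ∀ r, x * (x * r) = z * r := fun r => by rw [← mul_assoc, hx]
        simp [mul_assoc, e, hzl, hzz', ex, hy, hzz, hx]
    · exact ⟨x, y, hxy, Or.inr ⟨hx, hy⟩, fun w h1 h2 => ⟨h1, h2⟩⟩
  have hne : ∀ a b : P, b * a = z * (a * b) → b * a ≠ a * b := fun a b h e => hz1 (by
    rw [e] at h; exact mul_eq_right.1 h.symm)
  obtain ⟨a, b, hab, htab, hcab⟩ := hpair x y hxy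
  obtain ⟨c, d, hcd, htcd, hccd⟩ := hpair u v huv
  have hxcd : c * x = x * c ∧ d * x = x * d := ⟨(hccd x hux.symm hvx.symm).1.symm, (hccd x hux.symm hvx.symm).2.symm⟩
  have hycd : c * y = y * c ∧ d * y = y * d := ⟨(hccd y huy.symm hvy.symm).1.symm, (hccd y huy.symm hvy.symm).2.symm⟩
  obtain ⟨hca, hcb⟩ := hcab c hxcd.1 hycd.1
  obtain ⟨hda, hdb⟩ := hcab d hxcd.2 hycd.2
  clear hxy hxy' hadj hvx hvy huv hux huy hgu hcab hccd hxcd hycd
  wlog hD : a * a = 1 ∧ b * b = 1 generalizing a b c d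
  · rcases htcd with h | h
    · exact this c d hcd (Or.inl h) a b hab htab hca.symm hda.symm hcb.symm hdb.symm h
    · -- two quaternion factors
      obtain ⟨ha, hb⟩ := htab.resolve_left hD
      obtain ⟨hc, hd⟩ := h
      exfalso
      refine hno (a * c) (b * d) a ?_ ?_ ?_ ⟨b, ?_⟩ ?_ ?_
      · rw [mul_assoc, ← mul_assoc c, hca, mul_assoc, hc, ← mul_assoc, ha, hzz]
      · rw [mul_assoc, ← mul_assoc d, hdb, mul_assoc, hd, ← mul_assoc, hb, hzz]
      · have e1 : ∀ r, b * (a * r) = z * (a * (b * r)) := fun r => by rw [← mul_assoc, hab]; simp only [mul_assoc]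
        have e2 : ∀ r, c * (b * r) = b * (c * r) := fun r => by rw [← mul_assoc, hcb, mul_assoc]
        have e3 : ∀ r, d * (a * r) = a * (d * r) := fun r => by rw [← mul_assoc, hda, mul_assoc]
        simp [mul_assoc, e1, e2, e3, hcd, hzl, hzz']
      · intro e
        refine hne a b hab (mul_right_cancel (b := c) ?_)
        rw [mul_assoc b, e, mul_assoc, mul_assoc, hcb]
      · rw [mul_assoc, hca]
      · intro e
        refine hne a b hab (mul_right_cancel (b := d) ?_)
        rw [mul_assoc b, ← hda, ← mul_assoc, e, mul_assoc]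
  obtain ⟨ha, hb⟩ := hD
  rcases htcd with ⟨hc, hd⟩ | ⟨hc, hd⟩
  · exact absurd (hno a c d ha hc hca.symm ⟨b, hne a b hab⟩ hda.symm fun e => hne c d hcd e.symm) id
  · have e1 : ∀ r, b * (a * r) = z * (a * (b * r)) := fun r => by rw [← mul_assoc, hab]; simp only [mul_assoc]
    have e2 : ∀ r, c * (a * r) = a * (c * r) := fun r => by rw [← mul_assoc, hca, mul_assoc]
    have e3 : ∀ r, c * (b * r) = b * (c * r) := fun r => by rw [← mul_assoc, hcb, mul_assoc]
    have e4 : ∀ r, d * (a * r) = a * (d * r) := fun r => by rw [← mul_assoc, hda, mul_assoc]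
    have e5 : ∀ r, d * (b * r) = b * (d * r) := fun r => by rw [← mul_assoc, hdb, mul_assoc]
    have e6 : ∀ r, d * (c * r) = z * (c * (d * r)) := fun r => by rw [← mul_assoc, hcd]; simp only [mul_assoc]
    have q1 : ∀ r, a * (a * r) = r := fun r => by rw [← mul_assoc, ha, one_mul]
    have q2 : ∀ r, b * (b * r) = r := fun r => by rw [← mul_assoc, hb, one_mul]
    have q3 : ∀ r, c * (c * r) = z * r := fun r => by rw [← mul_assoc, hc]
    have q4 : ∀ r, d * (d * r) = z * r := fun r => by rw [← mul_assoc, hd]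
    exact ⟨{ z := z, f0 := a, f1 := b, f2 := a * b * c, f3 := a * b * d, zz := hzz, zc := hzc, s0 := ha, s1 := hb,
             c10 := hab,
             s2 := by simp [mul_assoc, e1, e2, e3, q1, q2, q3, hzl, hzz', hc, hzz, hb]
             s3 := by simp [mul_assoc, e1, e4, e5, q1, q2, q4, hzl, hzz', hd, hzz, hb]
             c20 := by simp [mul_assoc, e1, hca, e2, q1, hzl, hzz']
             c30 := by simp [mul_assoc, e1, hda, e4, q1, hzl, hzz']
             c21 := by simp [mul_assoc, e1, hcb, e3, q1, q2, hzl, hzz']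
             c31 := by simp [mul_assoc, e1, hdb, e5, q1, q2, hzl, hzz']
             c32 := by simp [mul_assoc, e1, e2, e3, e4, e5, e6, hcd, q1, q2, hzl, hzz'] }, hz1⟩

/-- Let P be an extraspecial 2-group of order 32 with no elementary abelian subgroup of order 8 (the central product of a dihedral and a quaternion group of order 8). Then the inner automorphism group of P has order 16 and the outer automorphism group Aut(P)/Inn(P) is isomorphic to the symmetric group of degree 5; in particular Aut(P) has order 1920. -/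
theorem result {P : Type*} [Group P] [Finite P]
    (hex : Cfsg.IsExtraspecial 2 P) (h32 : Nat.card P = 32)
    (hminus : ∀ A : Subgroup P, Cfsg.IsElementaryAbelian 2 A → Nat.card ↥A ≤ 4)
    [(MulAut.conj : P →* MulAut P).range.Normal] :
    Nat.card ↥(MulAut.conj : P →* MulAut P).range = 16 ∧ Nat.card (MulAut P) = 1920 ∧
      Nonempty ((MulAut P ⧸ (MulAut.conj : P →* MulAut P).range) ≃* Equiv.Perm (Fin 5)) := by
  obtain ⟨Q, hQ⟩ := exists_quad hex h32 hminus
  let e : P ≃* Mdl := (MulEquiv.ofBijective Q.hom (Q.bijective hQ h32)).symm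
  let Φ : MulAut P →* Equiv.Perm (Fin 5) := perm.comp (MulAut.congr e).toMonoidHom
  have hsurj : Function.Surjective Φ := perm_surjective.comp (MulAut.congr e).surjective
  have hker : Φ.ker = (MulAut.conj : P →* MulAut P).range := by
    have hc : ∀ x : P, MulAut.congr e (MulAut.conj x) = MulAut.conj (e x) := fun x => MulEquiv.ext fun m => by
      show e (x * e.symm m * x⁻¹) = e x * m * (e x)⁻¹
      rw [map_mul, map_mul, map_inv, e.apply_symm_apply]
    ext φ
    show MulAut.congr e φ ∈ perm.ker ↔ _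
    rw [ker_perm]
    constructor
    · rintro ⟨m, hm⟩
      exact ⟨e.symm m, (MulAut.congr e).injective (by rw [hc, e.apply_symm_apply, hm])⟩
    · rintro ⟨x, rfl⟩
      exact ⟨e x, (hc x).symm⟩
  have hinn : Nat.card ↥(MulAut.conj : P →* MulAut P).range = 16 := by
    have hk : (MulAut.conj : P →* MulAut P).ker = Subgroup.center P := by
      ext x
      rw [MonoidHom.mem_ker, Subgroup.mem_center_iff, MulEquiv.ext_iff]
      refine forall_congr' fun g => ?_
      show x * g * x⁻¹ = g ↔ _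
      rw [mul_inv_eq_iff_eq_mul]
      exact eq_comm
    have h1 := Subgroup.card_eq_card_quotient_mul_card_subgroup (Subgroup.center P)
    have h2 : Nat.card (P ⧸ Subgroup.center P) = Nat.card ↥(MulAut.conj : P →* MulAut P).range :=
      Nat.card_congr ((QuotientGroup.quotientMulEquivOfEq hk.symm).trans (QuotientGroup.quotientKerEquivRange _)).toEquiv
    rw [h32, hex.2, h2] at h1
    omega
  have iso := (QuotientGroup.quotientMulEquivOfEq hker.symm).trans (QuotientGroup.quotientKerEquivOfSurjective Φ hsurj)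
  refine ⟨hinn, ?_, ⟨iso⟩⟩
  have h := Subgroup.card_eq_card_quotient_mul_card_subgroup (MulAut.conj : P →* MulAut P).range
  rw [Nat.card_congr iso.toEquiv, hinn, Nat.card_perm, Nat.card_fin] at h
  simpa [Nat.factorial] using h

end Cfsg.Agent.S4413
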