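import Cfsg.Statements.S4420
import Mathlib
-- import your own Cfsg.Agent.* helpers here

set_option autoImplicit false
open Cfsg

namespace Cfsg.Agent.S4420

theorem swap {H : Type*} [Group H] {A : Subgroup H} (hD : ∀ x : H, x ∉ A → x ^ 2 = 1) {x a : H} (hx : x ∉ A) (ha : a ∈ A) :
    x * a * x⁻¹ = a⁻¹ := by
  have h1 := hD x hx
  have h2 := hD (x * a) (fun h => hx (by have := mul_mem h (inv_mem ha); rwa [mul_inv_cancel_right] at this))
  rw [pow_two] at h1 h2
  rw [inv_eq_of_mul_eq_one_right h1]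
  exact eq_inv_of_mul_eq_one_left (by rw [← h2]; group)

/-- Structure of groups in which every element outside some proper subgroup has square 1. Let H be a finite group with a proper subgroup A such that every element outside A has square 1. Then H has an abelian normal subgroup B of index 2 such that every element outside B is an involution inverting every element of B; and if H is not an elementary abelian 2-group, B is the only abelian normal subgroup of index 2 with this property. -/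
theorem result {H : Type*} [Group H] [Finite H] (A : Subgroup H) (hA : A ≠ ⊤) (hD : ∀ x : H, x ∉ A → x ^ 2 = 1) :
    ∃ B : Subgroup H, B.Normal ∧ IsMulCommutative ↥B ∧ B.index = 2 ∧
      (∀ x : H, x ∉ B → x ^ 2 = 1 ∧ ∀ b ∈ B, x * b * x⁻¹ = b⁻¹) ∧
      (¬ (IsMulCommutative H ∧ ∀ x : H, x ^ 2 = 1) →
        ∀ B' : Subgroup H, B'.Normal → IsMulCommutative ↥B' → B'.index = 2 →
          (∀ x : H, x ∉ B' → x ^ 2 = 1 ∧ ∀ b ∈ B', x * b * x⁻¹ = b⁻¹) → B' = B) := by
  classical
  obtain ⟨x0, -, hx0⟩ := Set.not_subset.mp (show ¬ ((⊤ : Subgroup H) : Set H) ⊆ A from fun h => hA (top_le_iff.mp h))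
  have hcomm : ∀ a ∈ A, ∀ b ∈ A, a * b = b * a := by
    intro a ha b hb
    have h1 := swap hD hx0 (mul_mem ha hb)
    rw [show x0 * (a * b) * x0⁻¹ = (x0 * a * x0⁻¹) * (x0 * b * x0⁻¹) by group, swap hD hx0 ha, swap hD hx0 hb, mul_inv_rev] at h1
    have h2 := congrArg (·⁻¹) h1
    simpa using h2.symm
  -- elementary abelian case
  by_cases hel : ∀ a ∈ A, a ^ 2 = 1
  · have hexp : ∀ h : H, h ^ 2 = 1 := fun h => if hh : h ∈ A then hel h hh else hD h hh
    have hinv : ∀ h : H, h⁻¹ = h := fun h => inv_eq_of_mul_eq_one_right (by rw [← pow_two]; exact hexp h)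
    have hab : ∀ a b : H, a * b = b * a := fun a b => by
      calc a * b = (a * b)⁻¹ := (hinv _).symm
        _ = b * a := by rw [mul_inv_rev, hinv, hinv]
    have hH2 : IsPGroup 2 H := fun h => ⟨1, by simpa using hexp h⟩
    obtain ⟨B, hB, -⟩ := (eq_top_or_exists_le_coatom A).resolve_left hA
    haveI : B.Normal := ⟨fun n hn g => by rwa [hab g n, mul_inv_cancel_right]⟩
    refine ⟨B, inferInstance, ⟨⟨fun a b => Subtype.ext (hab a b)⟩⟩, ?_, fun x _ => ⟨hexp x, fun b _ => by rw [hab x b, mul_inv_cancel_right, hinv]⟩,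
      fun h => absurd ⟨⟨⟨hab⟩⟩, hexp⟩ h⟩
    obtain ⟨y, -, hy⟩ := Set.not_subset.mp (show ¬ ((⊤ : Subgroup H) : Set H) ⊆ B from fun h => hB.1 (top_le_iff.mp h))
    rw [Subgroup.index_eq_two_iff]
    refine ⟨y, fun b => ?_⟩
    have htop : B ⊔ Subgroup.zpowers y = ⊤ := hB.2 _ (lt_of_le_of_ne le_sup_left fun e => hy (e ▸ Subgroup.mem_sup_right (Subgroup.mem_zpowers y)))
    obtain ⟨u, hu, v, hv, rfl⟩ := Subgroup.mem_sup_of_normal_left.mp (htop ▸ Subgroup.mem_top b)
    obtain ⟨i, rfl⟩ := hv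
    have hyy : y * y = 1 := by rw [← pow_two]; exact hexp y
    simp only at *
    rcases Int.even_or_odd i with ⟨j, rfl⟩ | ⟨j, rfl⟩
    · refine Or.inr ⟨?_, ?_⟩
      · rw [← two_mul, zpow_mul, zpow_two, hyy, one_zpow, mul_one]; exact hu
      · rw [← two_mul, zpow_mul, zpow_two, hyy, one_zpow, mul_one]
        intro h
        have := mul_mem (inv_mem hu) h
        rw [inv_mul_cancel_left] at this
        exact hy this
    · refine Or.inl ⟨?_, ?_⟩
      · rw [zpow_add, zpow_mul, zpow_two, hyy, one_zpow, one_mul, zpow_one, mul_assoc, hyy, mul_one]; exact hu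
      · rw [zpow_add, zpow_mul, zpow_two, hyy, one_zpow, one_mul, zpow_one]
        intro h
        have := mul_mem (inv_mem hu) h
        rw [inv_mul_cancel_left] at this
        exact hy this
  push Not at hel
  obtain ⟨a, ha, ha2⟩ := hel
  have hidx : A.index = 2 := by
    rw [Subgroup.index_eq_two_iff]
    refine ⟨x0, fun b => ?_⟩
    by_cases hb : b ∈ A
    · refine Or.inr ⟨hb, fun h => hx0 ?_⟩
      have := mul_mem (inv_mem hb) h
      rwa [inv_mul_cancel_left] at this
    · refine Or.inl ⟨by_contra fun h => ha2 ?_, hb⟩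
      have h1 := swap hD h ha
      rw [show b * x0 * a * (b * x0)⁻¹ = b * (x0 * a * x0⁻¹) * b⁻¹ by group, swap hD hx0 ha, swap hD hb (inv_mem ha), inv_inv] at h1
      rw [pow_two]
      exact mul_eq_one_iff_eq_inv.mpr h1
  haveI : A.Normal := Subgroup.normal_of_index_eq_two hidx
  refine ⟨A, inferInstance, ⟨⟨fun u v => Subtype.ext (hcomm u u.2 v v.2)⟩⟩, hidx, fun x hx => ⟨hD x hx, fun b hb => swap hD hx hb⟩, ?_⟩
  intro _ B' _ hB'c hB'i hB'
  have haB : a ∈ B' := by_contra fun h => ha2 (hB' a h).1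
  have hle : B' ≤ A := by
    intro b hb
    by_contra hbA
    apply ha2
    have h1 := swap hD hbA ha
    have h2 : b * a = a * b := congrArg Subtype.val (hB'c.is_comm.comm (⟨b, hb⟩ : B') ⟨a, haB⟩)
    rw [h2, mul_inv_cancel_right] at h1
    rw [pow_two]
    exact mul_eq_one_iff_eq_inv.mpr h1
  refine Subgroup.eq_of_le_of_card_ge hle (le_of_eq ?_)
  have e1 := A.card_mul_index
  have e2 := B'.card_mul_index
  rw [hidx] at e1
  rw [hB'i] at e2
  omega

end Cfsg.Agent.S4420
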