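import Cfsg.Statements.S4513
import Mathlib
import Cfsg.Agent.Lib.Blocks.RegInner
import Cfsg.Agent.Lib.Blocks.Contribution
import Cfsg.Agent.Lib.Blocks.Induction
import Cfsg.Agent.Lib.Blocks.DefectZero
import Cfsg.Agent.Lib.Blocks.Rank

set_option autoImplicit false
open Cfsg

namespace Cfsg.Agent.S4513

open Finset
open scoped ComplexConjugate
open Cfsg.Lib.Blocks Cfsg.Lib.Characters

/-- A 2-block of defect one. -/
theorem defect_one {G : Type*} [Group G] [Fintype G] [Fact (Nat.Prime 2)] {M : Ideal Cfsg.AlgInt} [M.IsPrime] (hM : IsPModular 2 M)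
    {B : Set (IrrCharacter G)} (hB : IsPBlock M B) (hd : blockDefect 2 B = 1) :
    ∃ χ₀ χ₁ : IrrCharacter G, χ₀ ≠ χ₁ ∧ B = {χ₀, χ₁} ∧
      (∀ g : G, ¬ 2 ∣ orderOf g → (χ₁ : G → ℂ) g = (χ₀ : G → ℂ) g) ∧
      (∀ g : G, 2 ∣ orderOf g → (χ₁ : G → ℂ) g = -(χ₀ : G → ℂ) g) ∧
      ∑ g : G, (if 2 ∣ orderOf g then 0 else (χ₀ : G → ℂ) g * (χ₀ : G → ℂ) g⁻¹) = (Nat.card G : ℂ) / 2 := by
  classical
  obtain ⟨χ₀, hχ₀, hmin⟩ := exists_height_zero 2 (IsPBlock.nonempty hB)
  have hh0 : blockHeight 2 B (χ₀ : G → ℂ) = 0 := by rw [blockHeight, hmin, Nat.sub_self]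
  set S := univ.filter (· ∈ B) with hS
  have hrow : ∀ χ ∈ B, ∑ ψ ∈ S.erase χ, blockC 2 B χ ψ * blockC 2 B χ ψ
      = blockC 2 B χ χ * (2 - blockC 2 B χ χ) := by
    intro χ hχ
    have h := sum_blockC_mul hM hB hχ hχ
    rw [hd, ← Finset.add_sum_erase _ _ (Finset.mem_filter.mpr ⟨Finset.mem_univ χ, hχ⟩), pow_one] at h
    push_cast at h
    linear_combination h
  have hone : ∀ (χ : IrrCharacter G), χ ∈ B → ∀ ψ ∈ B, ψ ≠ χ → blockC 2 B χ ψ ≠ 0 →
      blockC 2 B χ χ = 1 ∧ blockC 2 B χ ψ * blockC 2 B χ ψ = 1 ∧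
        ∀ φ ∈ B, φ ≠ χ → φ ≠ ψ → blockC 2 B χ φ = 0 := by
    intro χ hχ ψ hψ hne hC
    have hmem : ψ ∈ S.erase χ := by simp [S, hψ, hne]
    have h1 : 1 ≤ blockC 2 B χ ψ * blockC 2 B χ ψ := by
      have := mul_self_pos.mpr hC; omega
    have h2 := hrow χ hχ
    rw [← Finset.add_sum_erase _ _ hmem] at h2
    have h3 : 0 ≤ ∑ φ ∈ (S.erase χ).erase ψ, blockC 2 B χ φ * blockC 2 B χ φ :=
      Finset.sum_nonneg fun φ _ => mul_self_nonneg _
    have h4 : blockC 2 B χ χ * (2 - blockC 2 B χ χ) ≤ 1 := by nlinarith [sq_nonneg (blockC 2 B χ χ - 1)]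
    have h5 : (blockC 2 B χ χ - 1) * (blockC 2 B χ χ - 1) = 0 := by nlinarith [mul_self_nonneg (blockC 2 B χ χ - 1)]
    refine ⟨by have := mul_self_eq_zero.mp h5; omega, by omega, fun φ hφ h6 h7 => ?_⟩
    have h8 : ∑ φ ∈ (S.erase χ).erase ψ, blockC 2 B χ φ * blockC 2 B χ φ = 0 := by omega
    exact mul_self_eq_zero.mp ((Finset.sum_eq_zero_iff_of_nonneg fun φ _ => mul_self_nonneg _).mp h8 φ
      (by simp [S, hφ, h6, h7]))
  obtain ⟨χ₁, hχ₁, hne⟩ : ∃ χ₁ ∈ B, χ₁ ≠ χ₀ := by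
    by_contra hall
    push Not at hall
    have hBeq : B = {χ₀} := Set.eq_singleton_iff_unique_mem.mpr ⟨hχ₀, hall⟩
    have hv : ∀ x : G, orderOf x = 2 → (χ₀ : G → ℂ) x = 0 := by
      intro x hx
      have h := kerB_eq_zero_of_regular hM hB (g := 1) (h := x⁻¹) (by simp) (by rw [orderOf_inv, hx])
      rw [kerB, Finset.sum_eq_single χ₀ (fun ψ _ hψ => if_neg fun h' => hψ (hall ψ h')) (by simp),
        if_pos hχ₀, inv_inv] at h
      exact (mul_eq_zero.mp h).resolve_left χ₀.2.one_ne_zero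
    have h := factorization_eq_of_vanish hM χ₀ hv
    rw [blockDefect, ← hmin, h, Nat.sub_self] at hd
    exact zero_ne_one hd
  obtain ⟨h00, h01, hz⟩ := hone χ₀ hχ₀ χ₁ hχ₁ hne ((blockC_dvd hM hB hχ₀ hχ₁).2.2 hh0)
  have hBeq : B = {χ₀, χ₁} := by
    ext φ
    refine ⟨fun hφ => ?_, fun hφ => ?_⟩
    · by_contra hn
      simp only [Set.mem_insert_iff, Set.mem_singleton_iff, not_or] at hn
      exact (blockC_dvd hM hB hχ₀ hφ).2.2 hh0 (hz φ hφ hn.1 hn.2)
    · rcases hφ with rfl | rfl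
      exacts [hχ₀, hχ₁]
  have h10 : blockC 2 B χ₁ χ₀ = blockC 2 B χ₀ χ₁ := blockC_comm B χ₁ χ₀
  obtain ⟨h11, -, -⟩ := hone χ₁ hχ₁ χ₀ hχ₀ hne.symm (h10 ▸ (blockC_dvd hM hB hχ₀ hχ₁).2.2 hh0)
  set ε := blockC 2 B χ₀ χ₁ with hε
  set m := sInf ((fun χ : IrrCharacter G => (charDegree (χ : G → ℂ)).factorization 2) '' B) with hm
  have hval : ∀ φ ∈ B, ∀ ψ : IrrCharacter G, regInner 2 (φ : G → ℂ) (ψ : G → ℂ)
      = (Nat.card G : ℂ) / 2 * (blockC 2 B φ ψ : ℂ) := by
    intro φ hφ ψ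
    rw [regN_spec, blockC_spec hM hB hφ ψ, ← hm]
    have ha : (Nat.card G).factorization 2 = m + 1 := by rw [blockDefect, ← hm] at hd; omega
    have hc := pPow_mul_ordCompl (G := G) (p := 2)
    rw [ha, pow_succ] at hc
    rw [ha, pow_succ, ← hc]
    push_cast
    ring
  have h00' := hval χ₀ hχ₀ χ₀
  have h01' := hval χ₀ hχ₀ χ₁
  have h10' := hval χ₁ hχ₁ χ₀
  have h11' := hval χ₁ hχ₁ χ₁
  rw [h00] at h00'
  rw [h11] at h11'
  rw [h10] at h10'
  have hreg : ∀ g : G, ¬ 2 ∣ orderOf g → (χ₀ : G → ℂ) g = (ε : ℂ) * (χ₁ : G → ℂ) g := by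
    have hsum : ∑ g : G, (if 2 ∣ orderOf g then (0 : ℝ) else
        Complex.normSq ((χ₀ : G → ℂ) g - (ε : ℂ) * (χ₁ : G → ℂ) g)) = 0 := by
      have : ((∑ g : G, (if 2 ∣ orderOf g then (0 : ℝ) else
          Complex.normSq ((χ₀ : G → ℂ) g - (ε : ℂ) * (χ₁ : G → ℂ) g)) : ℝ) : ℂ) = 0 := by
        have e : ∀ g : G, (((if 2 ∣ orderOf g then (0 : ℝ) else
            Complex.normSq ((χ₀ : G → ℂ) g - (ε : ℂ) * (χ₁ : G → ℂ) g)) : ℝ) : ℂ)
            = (if 2 ∣ orderOf g then 0 else (χ₀ : G → ℂ) g * (χ₀ : G → ℂ) g⁻¹)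
              - (ε : ℂ) * (if 2 ∣ orderOf g then 0 else (χ₁ : G → ℂ) g * (χ₀ : G → ℂ) g⁻¹)
              - (ε : ℂ) * (if 2 ∣ orderOf g then 0 else (χ₀ : G → ℂ) g * (χ₁ : G → ℂ) g⁻¹)
              + (ε : ℂ) * (ε : ℂ) * (if 2 ∣ orderOf g then 0 else (χ₁ : G → ℂ) g * (χ₁ : G → ℂ) g⁻¹) := by
          intro g
          split_ifs
          · simp
          · rw [← Complex.mul_conj, map_sub, map_mul, map_intCast,
              char_inv_eq_conj χ₀.2.isCharacter, char_inv_eq_conj χ₁.2.isCharacter]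
            ring
        simp only [Complex.ofReal_sum, e, Finset.sum_add_distrib, Finset.sum_sub_distrib, ← Finset.mul_sum]
        simp only [regInner] at h00' h01' h10' h11'
        rw [h00', h01', h10', h11']
        have : (ε : ℂ) * (ε : ℂ) = 1 := by exact_mod_cast h01
        push_cast
        linear_combination (-(Nat.card G : ℂ) / 2) * this
      exact_mod_cast this
    intro g hg
    have h := (Finset.sum_eq_zero_iff_of_nonneg (fun x _ => by
      split_ifs
      exacts [le_rfl, Complex.normSq_nonneg _])).mp hsum g (Finset.mem_univ _)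
    rw [if_neg hg, Complex.normSq_eq_zero, sub_eq_zero] at h
    exact h
  have hε1 : ε = 1 := by
    have h := hreg 1 (by simp)
    rw [← coe_charDegree, ← coe_charDegree] at h
    have h' : (charDegree (χ₀ : G → ℂ) : ℤ) = ε * (charDegree (χ₁ : G → ℂ) : ℤ) := by exact_mod_cast h
    have p0 := charDegree_pos χ₀
    have p1 := charDegree_pos χ₁
    rcases Int.eq_one_or_neg_one_of_mul_eq_one h01 with he | he
    · exact he
    · rw [he] at h'; omega
  have hreg' : ∀ g : G, ¬ 2 ∣ orderOf g → (χ₁ : G → ℂ) g = (χ₀ : G → ℂ) g := fun g hg => by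
    rw [hreg g hg, hε1, Int.cast_one, one_mul]
  refine ⟨χ₀, χ₁, hne.symm, hBeq, hreg', fun g hg => ?_, ?_⟩
  · have h := kerB_eq_zero_of_regular hM hB (g := 1) (h := g⁻¹) (by simp) (by rwa [orderOf_inv])
    rw [kerB_eq_filter, show univ.filter (· ∈ B) = {χ₀, χ₁} by ext φ; simp [hBeq],
      Finset.sum_pair hne.symm, inv_inv, hreg' 1 (by simp), ← mul_add] at h
    exact eq_neg_of_add_eq_zero_right ((mul_eq_zero.mp h).resolve_left χ₀.2.one_ne_zero)
  · simpa [regInner] using h00'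


/-- Blocks of defect one for p = 2. Let M be a maximal ideal of the algebraic integers containing 2, B a 2-block of the finite group G whose defect group is the subgroup generated by an involution x, C = C_G(x), b a block of C inducing B and θ a member of b taking the same value at x as at 1 (there is exactly one). Then B consists of exactly two irreducible characters, which agree on every element of odd order, and they can be labelled χ₁, χ₂ with signs ε₁, ε₂ = ±1, ε₁ε₂ = −1, such that χᵢ(x y) = εᵢ θ(y) for every element y of C of odd order. -/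
theorem result {G : Type*} [Group G] [Finite G] (M : Ideal Cfsg.AlgInt) (hM : Cfsg.IsPModular 2 M) (x : G) (hx : orderOf x = 2)
    (B : Set (Cfsg.IrrCharacter G)) (hB : Cfsg.IsPBlock M B) (hBD : Cfsg.IsDefectGroup 2 M B (Subgroup.zpowers x))
    (b : Set (Cfsg.IrrCharacter ↥(Subgroup.centralizer ({x} : Set G)))) (hb : Cfsg.IsInducedBlock M (Subgroup.centralizer ({x} : Set G)) b B)
    (θ : Cfsg.IrrCharacter ↥(Subgroup.centralizer ({x} : Set G))) (hθ : θ ∈ b)
    (hθx : ∀ z : ↥(Subgroup.centralizer ({x} : Set G)), (z : G) = x → (θ : ↥(Subgroup.centralizer ({x} : Set G)) → ℂ) z = (θ : ↥(Subgroup.centralizer ({x} : Set G)) → ℂ) 1) :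
    Nat.card B = 2 ∧ (∀ χ ∈ B, ∀ ψ ∈ B, ∀ g : G, ¬ 2 ∣ orderOf g → (χ : G → ℂ) g = (ψ : G → ℂ) g) ∧
      ∃ χ₁ ∈ B, ∃ χ₂ ∈ B, χ₁ ≠ χ₂ ∧ ∃ ε₁ ε₂ : ℤ, (ε₁ = 1 ∨ ε₁ = -1) ∧ (ε₂ = 1 ∨ ε₂ = -1) ∧ ε₁ * ε₂ = -1 ∧
        ∀ y : ↥(Subgroup.centralizer ({x} : Set G)), ¬ 2 ∣ orderOf y →
          (χ₁ : G → ℂ) (x * y) = (ε₁ : ℂ) * (θ : ↥(Subgroup.centralizer ({x} : Set G)) → ℂ) y ∧ (χ₂ : G → ℂ) (x * y) = (ε₂ : ℂ) * (θ : ↥(Subgroup.centralizer ({x} : Set G)) → ℂ) y := by
  haveI := hM.2.1.isPrime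
  haveI := Fintype.ofFinite G
  haveI : Fact (Nat.Prime 2) := ⟨Nat.prime_two⟩
  classical
  have hd : blockDefect 2 B = 1 := by
    have h := card_defectGroup hM hB hBD
    rw [Nat.card_zpowers, hx] at h
    exact ((Nat.pow_eq_self_iff (by norm_num)).mp h.symm)
  have hxC : x ∈ (Subgroup.centralizer ({x} : Set G)) := Subgroup.mem_centralizer_singleton_iff.mpr rfl
  have hDC : Subgroup.zpowers x ≤ (Subgroup.centralizer ({x} : Set G)) := Subgroup.zpowers_le.mpr hxC
  have hDp : IsPGroup 2 (Subgroup.zpowers x) := isPGroup_zpowers ⟨1, by rw [hx, pow_one]⟩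
  have hnormal : ((Subgroup.zpowers x).subgroupOf (Subgroup.centralizer ({x} : Set G))).Normal := ⟨fun n hn g => by
    have hg : g * n = n * g := by
      obtain ⟨i, hi⟩ := Subgroup.mem_subgroupOf.mp hn
      apply Subtype.ext
      rw [Subgroup.coe_mul, Subgroup.coe_mul, ← hi]
      exact ((show Commute x (g : G) from (Subgroup.mem_centralizer_singleton_iff.mp g.2).symm).zpow_left i).eq.symm
    rwa [hg, mul_inv_cancel_right]⟩
  have hdef : ∀ b' : Set (Cfsg.IrrCharacter (Subgroup.centralizer ({x} : Set G))), Cfsg.IsInducedBlock M (Subgroup.centralizer ({x} : Set G)) b' B →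
      Cfsg.IsPBlock M b' ∧ Cfsg.IsDefectGroup 2 M b' ((Subgroup.zpowers x).subgroupOf (Subgroup.centralizer ({x} : Set G))) := by
    intro b' hind
    obtain ⟨E, hE⟩ := exists_defectGroup hM hind.1
    haveI := hnormal
    have hle := normal_le_defectGroup hM hind.1 hE (P := (Subgroup.zpowers x).subgroupOf (Subgroup.centralizer ({x} : Set G)))
      (hDp.comap_of_injective (Subgroup.centralizer ({x} : Set G)).subtype (Subgroup.subtype_injective _))
    have hcard := card_map_subtype_le hM hind hE hBD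
    rw [← Nat.card_congr (Subgroup.subgroupOfEquivOfLe hDC).toEquiv] at hcard
    exact ⟨hind.1, by rwa [Subgroup.eq_of_le_of_card_ge hle hcard]⟩
  have hN : Subgroup.normalizer (Subgroup.zpowers x : Set G) = (Subgroup.centralizer ({x} : Set G)) := by
    refine le_antisymm (fun g hg => ?_) ?_
    · rw [Subgroup.mem_centralizer_singleton_iff]
      obtain ⟨i, hi⟩ := (Subgroup.mem_normalizer_iff.mp hg x).mp (Subgroup.mem_zpowers x)
      beta_reduce at hi
      rw [← zpow_mod_orderOf x i, hx] at hi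
      rcases Int.emod_two_eq_zero_or_one i with h2 | h2
      · simp only [Nat.cast_ofNat, h2, zpow_zero] at hi
        have hx1 : x = 1 := by
          have := congrArg (fun y => g⁻¹ * y * g) hi
          simpa [mul_assoc] using this.symm
        rw [hx1, orderOf_one] at hx
        exact absurd hx (by norm_num)
      · simp only [Nat.cast_ofNat, h2, zpow_one] at hi
        exact (eq_mul_inv_iff_mul_eq.mp hi).symm
    · rw [← centralizer_zpowers]
      exact Subgroup.centralizer_le_normalizer _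
  have key : ∀ H : Subgroup G, Subgroup.normalizer (Subgroup.zpowers x : Set G) = H →
      ∃! b' : Set (Cfsg.IrrCharacter H), Cfsg.IsPBlock M b' ∧
        Cfsg.IsDefectGroup 2 M b' ((Subgroup.zpowers x).subgroupOf H) ∧ Cfsg.IsInducedBlock M H b' B := by
    rintro H rfl
    exact first_main_backward hM hDp hB hBD
  have huniq : ∀ b', Cfsg.IsInducedBlock M (Subgroup.centralizer ({x} : Set G)) b' B → b' = b := fun b' hb' =>
    (key (Subgroup.centralizer ({x} : Set G)) hN).unique ⟨(hdef b' hb').1, (hdef b' hb').2, hb'⟩ ⟨(hdef b hb).1, (hdef b hb).2, hb⟩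
  obtain ⟨χ₀, χ₁, hne, hBeq, hreg, hsing, -⟩ := defect_one hM hB hd
  have hbd : blockDefect 2 b = 1 := by
    have h := card_defectGroup hM hb.1 (hdef b hb).2
    rw [Nat.card_congr (Subgroup.subgroupOfEquivOfLe hDC).toEquiv, Nat.card_zpowers, hx] at h
    exact ((Nat.pow_eq_self_iff (by norm_num)).mp h.symm)
  obtain ⟨θ₀, θ₁, htne, hbeq, htreg, -, htsum⟩ := defect_one hM hb.1 hbd
  have hθreg : ∀ y : (Subgroup.centralizer ({x} : Set G)), ¬ 2 ∣ orderOf y → (θ : (Subgroup.centralizer ({x} : Set G)) → ℂ) y = (θ₀ : (Subgroup.centralizer ({x} : Set G)) → ℂ) y := by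
    intro y hy
    rw [hbeq] at hθ
    rcases hθ with rfl | h
    · rfl
    · rw [Set.mem_singleton_iff] at h; subst h; exact htreg y hy
  have hxp : ∃ k : ℕ, orderOf x = 2 ^ k := ⟨1, by rw [hx, pow_one]⟩
  set ε : ℂ := secCoeff x (Subgroup.centralizer ({x} : Set G)) χ₀ θ₀ + secCoeff x (Subgroup.centralizer ({x} : Set G)) χ₀ θ₁ with hεdef
  have hsub : indHomSet M (Subgroup.centralizer ({x} : Set G)).subtype B ⊆ b := fun ξ hξ => by
    have h' : lam M ξ (resHom (Subgroup.centralizer ({x} : Set G)).subtype (bIdem M B)) = 1 := hξ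
    rw [resHom_subtype, resSub_bIdem hM hxp rfl hB,
      lam_redG_blockE (isBlockUnion_indSet (M := M) (Subgroup.centralizer ({x} : Set G)) B).blockE_mem] at h'
    have h'' : ξ ∈ indSet M (Subgroup.centralizer ({x} : Set G)) B := by
      by_contra hn
      rw [if_neg hn] at h'
      exact zero_ne_one h'
    rw [← huniq _ h'']
    exact mem_blockOf_self M ξ
  have hsec : ∀ y : (Subgroup.centralizer ({x} : Set G)), ¬ 2 ∣ orderOf y → (χ₀ : G → ℂ) (x * y) = ε * (θ₀ : (Subgroup.centralizer ({x} : Set G)) → ℂ) y := by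
    intro y hy
    have h1 := sectionPart_eq hM hB (show χ₀ ∈ B by simp [hBeq]) hxp
      (f := (Subgroup.centralizer ({x} : Set G)).subtype) (Subgroup.subtype_injective _)
      (Subgroup.range_subtype _) (A := b) (IsPBlock.isBlockUnion hb.1) hsub hy
    simp only [Subgroup.coe_subtype] at h1
    rw [← h1, blockPart_translate, show univ.filter (· ∈ b) = {θ₀, θ₁} by ext φ; simp [hbeq],
      Finset.sum_pair htne, htreg y hy, hεdef]
    ring
  have hreal : conj ε = ε := by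
    have hxinv : x⁻¹ = x := inv_eq_of_mul_eq_one_right (by rw [← pow_two, ← hx, pow_orderOf_eq_one])
    rw [hεdef, map_add, conj_secCoeff x (Subgroup.centralizer ({x} : Set G)) χ₀ θ₀ le_rfl, conj_secCoeff x (Subgroup.centralizer ({x} : Set G)) χ₀ θ₁ le_rfl, hxinv]
  have hxyord : ∀ y : (Subgroup.centralizer ({x} : Set G)), ¬ 2 ∣ orderOf y → 2 ∣ orderOf (x * (y : G)) := by
    intro y hy
    have hcomm : Commute x (y : G) := (Subgroup.mem_centralizer_singleton_iff.mp y.2).symm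
    rw [hcomm.orderOf_mul_eq_mul_orderOf_of_coprime (by
      rw [hx, Subgroup.orderOf_coe]; exact (Nat.Prime.coprime_iff_not_dvd Nat.prime_two).mpr hy), hx]
    exact dvd_mul_right 2 _
  have hsq : ε * ε = 1 := by
    have hfilter : (blocks (Subgroup.centralizer ({x} : Set G)) M).filter (fun b' => Cfsg.IsInducedBlock M (Subgroup.centralizer ({x} : Set G)) b' B) = {b} := by
      ext b'
      rw [Finset.mem_filter, Finset.mem_singleton, mem_blocks]
      exact ⟨fun h => huniq b' h.2, fun h => h ▸ ⟨hb.1, hb⟩⟩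
    have h := sum_section_kerB hM hB hxp
    rw [hfilter, Finset.sum_singleton, card_mul_blockRank hM hb.1] at h
    have e1 : ∀ y : (Subgroup.centralizer ({x} : Set G)), (if 2 ∣ orderOf y then 0 else kerB B (x * (y : G)) (x * (y : G)))
        = 2 * (ε * ε) * (if 2 ∣ orderOf y then 0 else (θ₀ : (Subgroup.centralizer ({x} : Set G)) → ℂ) y * (θ₀ : (Subgroup.centralizer ({x} : Set G)) → ℂ) y⁻¹) := by
      intro y
      split_ifs with hy
      · simp
      · rw [kerB_eq_filter, show univ.filter (· ∈ B) = {χ₀, χ₁} by ext φ; simp [hBeq], Finset.sum_pair hne,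
          char_inv_eq_conj χ₀.2.isCharacter, char_inv_eq_conj χ₁.2.isCharacter,
          hsing _ (hxyord y hy), hsec y hy, map_neg, map_mul, hreal,
          char_inv_eq_conj θ₀.2.isCharacter]
        ring
    have e2 : ∀ y : (Subgroup.centralizer ({x} : Set G)), (if 2 ∣ orderOf y then 0 else kerB b y y)
        = 2 * (if 2 ∣ orderOf y then 0 else (θ₀ : (Subgroup.centralizer ({x} : Set G)) → ℂ) y * (θ₀ : (Subgroup.centralizer ({x} : Set G)) → ℂ) y⁻¹) := by
      intro y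
      split_ifs with hy
      · simp
      · rw [kerB_eq_filter, show univ.filter (· ∈ b) = {θ₀, θ₁} by ext φ; simp [hbeq], Finset.sum_pair htne,
          htreg y hy, htreg y⁻¹ (by rwa [orderOf_inv])]
        ring
    rw [Finset.sum_congr rfl fun y _ => e1 y, Finset.sum_congr rfl fun y _ => e2 y,
      ← Finset.mul_sum, ← Finset.mul_sum, htsum] at h
    have hC0 : (Nat.card (Subgroup.centralizer ({x} : Set G)) : ℂ) ≠ 0 := Nat.cast_ne_zero.mpr Nat.card_pos.ne'
    refine mul_right_cancel₀ hC0 ?_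
    linear_combination h
  obtain ⟨e, he, hee⟩ : ∃ e : ℤ, (e = 1 ∨ e = -1) ∧ ε = (e : ℂ) := by
    rcases mul_self_eq_one_iff.mp hsq with h | h
    · exact ⟨1, Or.inl rfl, by rw [h]; simp⟩
    · exact ⟨-1, Or.inr rfl, by rw [h]; simp⟩
  refine ⟨?_, ?_, χ₀, by simp [hBeq], χ₁, by simp [hBeq], hne, e, -e, he, ?_, ?_, fun y hy => ⟨?_, ?_⟩⟩
  · rw [Nat.card_coe_set_eq, hBeq, Set.ncard_pair hne]
  · intro φ hφ ψ hψ g hg
    rw [hBeq] at hφ hψ
    rcases hφ with rfl | hφ <;> rcases hψ with rfl | hψ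
    · rfl
    · rw [Set.mem_singleton_iff.mp hψ, hreg g hg]
    · rw [Set.mem_singleton_iff.mp hφ, hreg g hg]
    · rw [Set.mem_singleton_iff.mp hφ, Set.mem_singleton_iff.mp hψ]
  · rcases he with rfl | rfl <;> simp
  · rcases he with rfl | rfl <;> norm_num
  · rw [hsec y hy, hee, hθreg y hy]
  · rw [hsing _ (hxyord y hy), hsec y hy, hee, hθreg y hy]
    push_cast
    ring

end Cfsg.Agent.S4513
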