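import Cfsg.Statements.S4517
import Mathlib
import Cfsg.Agent.Lib.Blocks.OddDegree

set_option autoImplicit false
open Cfsg

namespace Cfsg.Agent.S4517

/-- Let G be a finite group, M a maximal ideal of the algebraic integers containing 2, and k a natural number coprime to the order of G with g ^ k = g⁻¹ for every element g of odd order (so that g ↦ g ^ k induces a field automorphism of the character values inverting the roots of unity of odd order). If B is a 2-block of full defect (its defect equals the exponent of 2 in the order of G) that is stable under χ ↦ χ ∘ (· ^ k), then B is the principal 2-block. -/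
theorem result {G : Type*} [Group G] [Finite G] (M : Ideal Cfsg.AlgInt) (hM : Cfsg.IsPModular 2 M) (k : ℕ) (hk : Nat.Coprime k (Nat.card G)) (hk₂ : ∀ g : G, Odd (orderOf g) → g ^ k = g⁻¹) (B : Set (Cfsg.IrrCharacter G)) (hB : Cfsg.IsPBlock M B) (hdef : Cfsg.blockDefect 2 B = (Nat.card G).factorization 2) (hstab : ∀ χ ∈ B, ∃ ψ ∈ B, ∀ g : G, (ψ : G → ℂ) g = (χ : G → ℂ) (g ^ k)) : B = Cfsg.principalBlock M G := by
  haveI := hM.2.1.isPrime
  haveI := Fintype.ofFinite G
  classical
  obtain ⟨χ, hχ, hmin⟩ := Cfsg.Lib.Blocks.exists_height_zero 2 (Cfsg.Lib.Blocks.IsPBlock.nonempty hB)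
  refine Cfsg.Lib.Blocks.IsPBlock.eq_of_mem hB Cfsg.Lib.Blocks.isPBlock_principal hχ ?_
  refine Cfsg.Lib.Blocks.mem_principal_of_inv_invariant hM χ ?_ fun g hg => ?_
  · have hle := Cfsg.Lib.Blocks.charDegree_factorization_le (p := 2) χ
    unfold Cfsg.blockDefect at hdef
    rw [← hmin] at hdef
    have h0 : (Cfsg.charDegree (χ : G → ℂ)).factorization 2 = 0 := by omega
    rw [← Nat.not_even_iff_odd, even_iff_two_dvd]
    intro h2
    exact absurd (Nat.prime_two.factorization_pos_of_dvd (Cfsg.Lib.Blocks.charDegree_pos χ).ne' h2)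
      (by omega)
  · obtain ⟨ψ, hψ, hψv⟩ := hstab χ hχ
    rw [(Cfsg.Lib.Blocks.sameBlock_iff M χ ψ).mp (Cfsg.Lib.Blocks.IsPBlock.sameBlock hB hχ hψ) g,
      Cfsg.centralChar, Cfsg.centralChar, Cfsg.Lib.Blocks.centralizer_inv_singleton, hψv g, hψv 1,
      one_pow, hk₂ g (Nat.not_even_iff_odd.mp fun h => hg (even_iff_two_dvd.mp h))]

end Cfsg.Agent.S4517
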