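import Cfsg.Statements.S4518
import Mathlib
import Cfsg.Agent.Lib.Characters.Normal
import Cfsg.Agent.Lib.Characters.PowerConj

set_option autoImplicit false
open Cfsg

namespace Cfsg.Agent.S4518

/-- Let N be a normal subgroup of the finite group G whose index is not divisible by the prime p, and let k be coprime to the order of G with k ^ (p ^ e) ≡ 1 modulo the order of G for some e (so g ↦ g ^ k induces a field automorphism of p-power order on character values). If an irreducible character χ of G satisfies χ (g ^ k) = χ g for all g, then every irreducible constituent θ of the restriction of χ to N satisfies θ (n ^ k) = θ n for all n. -/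
theorem result {G : Type*} [Group G] [Fintype G] (p : ℕ) [Fact p.Prime] (N : Subgroup G) [N.Normal] [Fintype N] (hidx : ¬ p ∣ N.index) (k e : ℕ) (hk : Nat.Coprime k (Nat.card G)) (hke : k ^ (p ^ e) ≡ 1 [MOD Nat.card G]) (χ : Cfsg.IrrCharacter G) (hχ : ∀ g : G, (χ : G → ℂ) (g ^ k) = (χ : G → ℂ) g) (θ : Cfsg.IrrCharacter N) (hθ : Cfsg.classInner (fun n : N => (χ : G → ℂ) n) (θ : N → ℂ) ≠ 0) : ∀ n : N, (θ : N → ℂ) (n ^ k) = (θ : N → ℂ) n := by
  classical
  open Cfsg.Lib.Characters in
  have key : True := trivial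
  set S := Cfsg.Lib.Characters.orbitFinset N (θ : N → ℂ) with hS
  have hkN : (Nat.card N).Coprime k := (hk.symm).coprime_dvd_left (Subgroup.card_subgroup_dvd_card N)
  have hχclass := χ.2
  have hmem : ∀ ψ ∈ S, (fun n : N => ψ (n ^ k)) ∈ S := by
    intro ψ hψ
    obtain ⟨g, rfl⟩ := Cfsg.Lib.Characters.mem_orbitFinset.1 hψ
    have hirr := Cfsg.Lib.Characters.isIrrCharacter_conjFn θ.2 g
    have hne : classInner (fun n : N => (χ : G → ℂ) n) (Cfsg.Lib.Characters.conjFn N (θ : N → ℂ) g) ≠ 0 := by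
      rw [Cfsg.Lib.Characters.clifford χ.2 θ.2 hθ, Cfsg.Lib.Characters.classInner_smul_left,
        Cfsg.Lib.Characters.classInner_sum_left, Finset.sum_eq_single (Cfsg.Lib.Characters.conjFn N (θ : N → ℂ) g)]
      · rw [Cfsg.Lib.Characters.classInner_irr_self hirr, mul_one]; exact hθ
      · intro φ hφ hne
        obtain ⟨g', rfl⟩ := Cfsg.Lib.Characters.mem_orbitFinset.1 hφ
        exact Cfsg.Lib.Characters.classInner_irr_ne (Cfsg.Lib.Characters.isIrrCharacter_conjFn θ.2 g') hirr hne
      · intro h; exact absurd hψ h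
    have hne' : classInner (fun n : N => (χ : G → ℂ) n)
        (fun n : N => Cfsg.Lib.Characters.conjFn N (θ : N → ℂ) g (n ^ k)) ≠ 0 := by
      have e : classInner (fun n : N => (χ : G → ℂ) n)
          (fun n : N => Cfsg.Lib.Characters.conjFn N (θ : N → ℂ) g (n ^ k)) =
          classInner (fun n : N => (χ : G → ℂ) n) (Cfsg.Lib.Characters.conjFn N (θ : N → ℂ) g) := by
        simp only [classInner]
        congr 1
        refine Fintype.sum_equiv (powCoprime hkN) _ _ fun n => ?_
        rw [powCoprime_apply, show ((n ^ k : N) : G) = (n : G) ^ k from rfl, hχ]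
      rwa [e]
    obtain ⟨g', hg'⟩ := Cfsg.Lib.Characters.exists_conjFn_eq χ.2 θ.2
      (Cfsg.Lib.Characters.isIrrCharacter_comp_pow hirr hkN) hθ hne'
    exact Cfsg.Lib.Characters.mem_orbitFinset.2 ⟨g', hg'⟩
  have hinj : ∀ ψ φ : N → ℂ, (fun n : N => ψ (n ^ k)) = (fun n : N => φ (n ^ k)) → ψ = φ := by
    intro ψ φ h
    funext n
    obtain ⟨m, rfl⟩ := (powCoprime hkN).surjective n
    exact congrFun h m
  let f : S → S := fun ψ => ⟨_, hmem ψ.1 ψ.2⟩
  let σ : Equiv.Perm S := Equiv.ofBijective f (Finite.injective_iff_bijective.1 fun a b h =>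
    Subtype.ext (hinj _ _ (congrArg Subtype.val h)))
  have hpow : ∀ (j : ℕ) (ψ : S), ((σ ^ j) ψ).1 = fun n : N => ψ.1 (n ^ k ^ j) := by
    intro j
    induction j with
    | zero => intro ψ; simp
    | succ j ih =>
      intro ψ
      rw [pow_succ', Equiv.Perm.mul_apply]
      funext n
      show ((σ ^ j) ψ).1 (n ^ k) = _
      rw [ih]
      simp only [← pow_mul, ← pow_succ']
  have hσ : σ ^ p ^ e = 1 := by
    refine Equiv.ext fun ψ => Subtype.ext ?_
    rw [hpow]
    funext n
    show ψ.1 (n ^ k ^ p ^ e) = ψ.1 n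
    exact congrArg ψ.1 ((pow_eq_pow_iff_modEq.2
      (hke.of_dvd ((orderOf_dvd_natCard n).trans (Subgroup.card_subgroup_dvd_card N)))).trans (pow_one n))
  have hP : IsPGroup p (Subgroup.zpowers σ) := by
    obtain ⟨i, -, hi⟩ := (Nat.dvd_prime_pow (Fact.out : p.Prime)).1 (orderOf_dvd_of_pow_eq_one hσ)
    exact IsPGroup.of_card (n := i) (by rw [Nat.card_zpowers, hi])
  have hcard : ¬ p ∣ Nat.card S := by
    rw [Nat.card_eq_fintype_card, Fintype.card_coe]
    intro h
    refine hidx (h.trans ?_)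
    have h1 := Cfsg.Lib.Characters.card_stabilizer_mul_card_orbit (N := N) (θ : N → ℂ)
    rw [← Cfsg.Lib.Characters.card_inertia] at h1
    have h2 := Subgroup.card_mul_index (Cfsg.Lib.Characters.inertia N (θ : N → ℂ))
    have h3 : (Cfsg.Lib.Characters.inertia N (θ : N → ℂ)).index = S.card :=
      Nat.eq_of_mul_eq_mul_left Nat.card_pos (h2.trans h1.symm)
    rw [← h3]
    exact Subgroup.index_dvd_of_le (Cfsg.Lib.Characters.le_inertia θ.2.isClassFunction)
  obtain ⟨ψ₀, hψ₀⟩ := hP.nonempty_fixed_point_of_prime_not_dvd_card S hcard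
  have hfix : (fun n : N => ψ₀.1 (n ^ k)) = ψ₀.1 := by
    have := congrArg Subtype.val (hψ₀ ⟨σ, Subgroup.mem_zpowers σ⟩)
    exact this
  obtain ⟨g, hg⟩ := Cfsg.Lib.Characters.mem_orbitFinset.1 ψ₀.2
  intro n
  set m : N := ⟨g⁻¹ * n * g, by simpa using (inferInstance : N.Normal).conj_mem n n.2 g⁻¹⟩ with hm
  have h1 := congrFun hfix m
  simp only [hg, Cfsg.Lib.Characters.conjFn] at h1
  have e1 : (⟨g * ((m ^ k : N) : G) * g⁻¹, (inferInstance : N.Normal).conj_mem _ (m ^ k).2 g⟩ : N) = n ^ k := by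
    refine Subtype.ext ?_
    show g * ((m : G) ^ k) * g⁻¹ = (n : G) ^ k
    rw [← conj_pow, hm]
    congr 1
    group
  have e2 : (⟨g * (m : G) * g⁻¹, (inferInstance : N.Normal).conj_mem _ m.2 g⟩ : N) = n := by
    refine Subtype.ext ?_
    show g * (g⁻¹ * n * g) * g⁻¹ = n
    group
  rw [← e1, ← e2]
  exact h1

end Cfsg.Agent.S4518
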