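import Cfsg.Statements.S4519
import Cfsg.Agent.Lib.Blocks.GlaubermanNormalSylow
import Cfsg.Agent.Lib.Characters.OddReal
import Cfsg.Agent.Lib.Characters.PowerConj

set_option autoImplicit false
set_option linter.style.haveILetI false
open Cfsg

namespace Cfsg.Agent.S4519

open Cfsg.Lib.Characters Cfsg.Lib.Blocks Finset
open scoped Classical ComplexConjugate

universe u

/-- A real irreducible character of a group of odd order is trivial. -/
theorem real_odd_trivial {Q : Type*} [Group Q] [Fintype Q] (hodd : Odd (Nat.card Q))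
    (β : IrrCharacter Q) (hreal : ∀ q, (β : Q → ℂ) q⁻¹ = (β : Q → ℂ) q) :
    (β : Q → ℂ) = fun _ => 1 := by
  have h1 := fs_eq_one_of_odd β.2 (fun q => by rw [← char_inv_eq_conj β.2.isCharacter, hreal])
    (coe_charDegree β).symm (hodd.of_dvd_nat (charDegree_dvd_card β))
  have hsq : ∑ g : Q, (β : Q → ℂ) (g * g) = ∑ g : Q, (β : Q → ℂ) g :=
    Fintype.sum_equiv (powCoprime (n := 2) (Nat.coprime_two_right.mpr hodd)) _ _ fun g => by
      rw [powCoprime_apply, sq]
  by_contra hne
  have h0 := classInner_irr_ne β.2 isIrrCharacter_one hne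
  simp only [classInner, map_one, mul_one] at h0
  rw [hsq, h0] at h1
  exact zero_ne_one h1

variable {G : Type u} [Group G] [Fintype G] {N : Subgroup G} [N.Normal] {k : ℕ}

theorem pow_k_quot (hidx : Odd N.index) (hk₂ : ∀ g : G, Odd (orderOf g) → g ^ k = g⁻¹) (q : G ⧸ N) :
    q ^ k = q⁻¹ := by
  obtain ⟨g, rfl⟩ := QuotientGroup.mk_surjective q
  set a := 2 ^ (orderOf g).factorization 2
  have hodd : Odd (orderOf g / a) := by
    rw [← Nat.not_even_iff_odd, even_iff_two_dvd]
    exact Nat.not_dvd_ordCompl Nat.prime_two (orderOf_pos g).ne'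
  have ho : orderOf (g ^ a) = orderOf g / a := by
    rw [orderOf_pow, Nat.gcd_eq_right (Nat.ordProj_dvd _ 2)]
  have hcop : Nat.Coprime N.index a := Nat.Coprime.pow_right _ (Nat.coprime_two_right.mpr hidx)
  have h1 : ((g ^ a : G) : G ⧸ N) ^ k = ((g ^ a : G) : G ⧸ N)⁻¹ := by
    rw [← QuotientGroup.mk_pow, hk₂ _ (ho ▸ hodd), QuotientGroup.mk_inv]
  rw [Subgroup.index_eq_card] at hcop
  apply (powCoprime hcop).injective
  simp only [powCoprime_apply]
  rw [QuotientGroup.mk_pow] at h1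
  rw [inv_pow, ← pow_mul, mul_comm, pow_mul]
  exact h1

/-- Among the characters over an invariant fixed character with an extension, exactly one is fixed. -/
theorem unique_fixed (hidx : Odd N.index) (hk : Nat.Coprime k (Nat.card G))
    (hk₂ : ∀ g : G, Odd (orderOf g) → g ^ k = g⁻¹) {θ : N → ℂ} (hθ : IsIrrCharacter N θ)
    (hfix : ∀ n : N, θ (n ^ k) = θ n) (hinv : ∀ g, conjFn N θ g = θ) {χ₀ : G → ℂ}
    (hχ₀ : IsIrrCharacter G χ₀) (hext₀ : ∀ n : N, χ₀ n = θ n) :
    ∃ χ : IrrCharacter G, (∀ n : N, (χ : G → ℂ) n = θ n) ∧ (∀ g, (χ : G → ℂ) (g ^ k) = (χ : G → ℂ) g) ∧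
      ∀ ψ : IrrCharacter G, classInner (fun n : N => (ψ : G → ℂ) n) θ ≠ 0 →
        (∀ g, (ψ : G → ℂ) (g ^ k) = (ψ : G → ℂ) g) → ψ = χ := by
  have hirr : IsIrrCharacter N fun n : N => χ₀ n := by rw [funext hext₀]; exact hθ
  obtain ⟨μ, hμN, hμ⟩ := exists_linear_of_extensions hχ₀ (isIrrCharacter_comp_pow hχ₀ hk.symm)
    (fun n => by
      show χ₀ ((n : G) ^ k) = χ₀ n
      rw [← Subgroup.coe_pow, hext₀, hext₀, hfix]) hirr
  have hμi : ∀ g, μ g ^ N.index = 1 := fun g => by
    rw [← map_pow]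
    refine hμN _ ((QuotientGroup.eq_one_iff _).mp ?_)
    rw [QuotientGroup.mk_pow, Subgroup.index_eq_card]
    exact pow_card_eq_one'
  obtain ⟨r, hr⟩ := hidx
  set lam : G →* ℂˣ := (powMonoidHom (r + 1)).comp μ with hlam
  have hlamN : ∀ n ∈ N, lam n = 1 := fun n hn => by
    show μ n ^ (r + 1) = 1
    rw [hμN n hn, one_pow]
  have hlam2 : ∀ g, lam g * lam g = μ g := fun g => by
    show μ g ^ (r + 1) * μ g ^ (r + 1) = μ g
    rw [← pow_add, show r + 1 + (r + 1) = N.index + 1 by omega, pow_succ, hμi, one_mul]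
  have hlamk : ∀ g : G, lam (g ^ k) = (lam g)⁻¹ := fun g => by
    refine eq_inv_of_mul_eq_one_left ?_
    rw [← map_mul]
    refine hlamN _ ((QuotientGroup.eq_one_iff _).mp ?_)
    rw [QuotientGroup.mk_mul, QuotientGroup.mk_pow, pow_k_quot ⟨r, hr⟩ hk₂, inv_mul_cancel]
  have hres : (fun n : N => (lam (n : G) : ℂ) * χ₀ n) = θ := funext fun n => by
    rw [hlamN _ n.2, Units.val_one, one_mul, hext₀]
  set χ : IrrCharacter G := ⟨fun g => (lam g : ℂ) * χ₀ g, isIrrCharacter_of_comp N.subtype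
    (isCharacter_mul (isIrrCharacter_linear lam).isCharacter hχ₀.isCharacter)
    (by
      show IsIrrCharacter N fun n : N => (lam (n : G) : ℂ) * χ₀ n
      rw [hres]; exact hθ)⟩
  have hχfix : ∀ g, (χ : G → ℂ) (g ^ k) = (χ : G → ℂ) g := fun g => by
    show (lam (g ^ k) : ℂ) * χ₀ (g ^ k) = (lam g : ℂ) * χ₀ g
    rw [hlamk, ← hμ g, ← hlam2, Units.val_mul, Units.val_inv_eq_inv_val, mul_assoc,
      inv_mul_cancel_left₀ (lam g).ne_zero]
  refine ⟨χ, fun n => congrFun hres n, hχfix, fun ψ hψ hψfix => ?_⟩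
  obtain ⟨-, hinj, hsur⟩ := gallagher_quot hθ hinv χ.2 fun n => congrFun hres n
  obtain ⟨β, hβ⟩ := hsur _ ψ.2 hψ
  haveI : Fintype (G ⧸ N) := Fintype.ofFinite _
  have hkq : (Nat.card (G ⧸ N)).Coprime k :=
    hk.symm.coprime_dvd_left (by rw [← Subgroup.index_eq_card]; exact Subgroup.index_dvd_card N)
  have hβk : (⟨_, isIrrCharacter_comp_pow β.2 hkq⟩ : IrrCharacter (G ⧸ N)) = β := hinj _ _ fun g => by
    show (β : G ⧸ N → ℂ) ((g : G ⧸ N) ^ k) * (χ : G → ℂ) g = _
    rw [← QuotientGroup.mk_pow, hβ g, ← hχfix g, hβ, hψfix]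
  have hβ1 := real_odd_trivial (Q := G ⧸ N) (by rw [← Subgroup.index_eq_card]; exact ⟨r, hr⟩) β
    fun q => by
      rw [← pow_k_quot ⟨r, hr⟩ hk₂ q]
      exact congrArg (fun b : IrrCharacter (G ⧸ N) => (b : G ⧸ N → ℂ) q) hβk
  refine Subtype.ext (funext fun g => ?_)
  rw [← hβ g, hβ1, one_mul]

/-- A fixed invariant character extends. -/
theorem ext_exists (n : ℕ) : ∀ (G : Type u) [Group G] [Fintype G] (N : Subgroup G) [N.Normal],
    N.index = n → Odd N.index → ∀ k : ℕ, Nat.Coprime k (Nat.card G) →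
    (∀ g : G, Odd (orderOf g) → g ^ k = g⁻¹) → ∀ θ : N → ℂ, IsIrrCharacter N θ →
    (∀ m : N, θ (m ^ k) = θ m) → (∀ g, conjFn N θ g = θ) →
    ∃ χ : G → ℂ, IsIrrCharacter G χ ∧ ∀ m : N, χ m = θ m := by
  induction n using Nat.strong_induction_on with
  | _ n ih =>
    intro G _ _ N _ hn hodd k hk hk₂ θ hθ hfix hinv
    -- the induction hypothesis in a proper subgroup
    have sub : ∀ H : Subgroup G, ∀ hNH : N ≤ H, H ≠ ⊤ →
        ∃ χ : H → ℂ, IsIrrCharacter H χ ∧ ∀ m : N, χ ⟨(m : G), hNH m.2⟩ = θ m := by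
      intro H hNH hH
      haveI : Fintype H := Fintype.ofFinite H
      let e := Subgroup.subgroupOfEquivOfLe hNH
      have hlt : (N.subgroupOf H).index < n := by
        rw [← hn, ← Subgroup.relIndex_mul_index hNH]
        refine lt_mul_of_one_lt_right (Nat.pos_of_ne_zero Subgroup.index_ne_zero_of_finite) ?_
        exact Subgroup.one_lt_index_of_ne_top hH
      have ho : Odd (N.subgroupOf H).index :=
        hodd.of_dvd_nat (Dvd.intro _ (Subgroup.relIndex_mul_index hNH))
      obtain ⟨χ, hχ, hχ'⟩ := ih _ hlt H (N.subgroupOf H) rfl ho k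
        (hk.coprime_dvd_right (Subgroup.card_subgroup_dvd_card H))
        (fun g hg => Subtype.ext (by simpa using hk₂ (g : G) (by rwa [Subgroup.orderOf_coe])))
        (fun y => θ (e y)) (isIrrCharacter_mulEquiv hθ e)
        (fun m => by rw [map_pow]; exact hfix (e m)) (fun t => by
          funext y
          have h2 := congrFun (hinv (t : G)) (e y)
          rw [conjFn_apply] at h2 ⊢
          exact Eq.trans (congrArg θ (Subtype.ext rfl)) h2)
      exact ⟨χ, hχ, fun m => hχ' (e.symm m) |>.trans (congrArg θ (e.apply_symm_apply m))⟩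
    refine exists_extension_of_sylow hθ hinv fun p hp => ?_
    haveI : Fact p.Prime := ⟨hp⟩
    haveI : Fintype (G ⧸ N) := Fintype.ofFinite _
    obtain ⟨S⟩ : Nonempty (Sylow p (G ⧸ N)) := inferInstance
    set H := (S : Subgroup (G ⧸ N)).comap (QuotientGroup.mk' N) with hHdef
    have hNH : N ≤ H := fun x hx => by
      show QuotientGroup.mk' N x ∈ (S : Subgroup (G ⧸ N))
      rw [QuotientGroup.mk'_apply, (QuotientGroup.eq_one_iff x).mpr hx]; exact one_mem _
    have hHi : Nat.Coprime H.index p := by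
      rw [Subgroup.index_comap_of_surjective _ (QuotientGroup.mk'_surjective N)]
      exact (hp.coprime_iff_not_dvd.mpr S.not_dvd_index).symm
    by_cases hH : H = ⊤
    · -- the quotient is a `p`-group
      suffices ∃ χ : G → ℂ, IsIrrCharacter G χ ∧ ∀ m : N, χ m = θ m by
        obtain ⟨χ, hχ, hχ'⟩ := this
        exact ⟨⊤, le_top, fun x => χ x, by rw [Subgroup.index_top]; exact Nat.coprime_one_left p,
          isIrrCharacter_comp_surjective hχ (Subgroup.topEquiv (G := G)).toMonoidHom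
            (Subgroup.topEquiv (G := G)).surjective, hχ'⟩
      by_cases hN : N = ⊤
      · subst hN
        exact ⟨_, isIrrCharacter_mulEquiv hθ (Subgroup.topEquiv (G := G)).symm, fun m => rfl⟩
      have hS : (S : Subgroup (G ⧸ N)) = ⊤ := by
        rw [← Subgroup.map_comap_eq_self_of_surjective (QuotientGroup.mk'_surjective N) (S : Subgroup (G ⧸ N)),
          ← hHdef, hH, Subgroup.map_top_of_surjective _ (QuotientGroup.mk'_surjective N)]
      obtain ⟨a, ha⟩ := IsPGroup.iff_card.mp S.isPGroup'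
      rw [hS, Subgroup.card_top] at ha
      obtain ⟨b, rfl⟩ := Nat.exists_eq_succ_of_ne_zero (fun h0 : a = 0 => hN (by
        rw [h0, pow_zero, ← Subgroup.index_eq_card] at ha; exact Subgroup.index_eq_one.mp ha))
      obtain ⟨K, hK⟩ := Sylow.exists_subgroup_card_pow_prime p (n := b) (G := G ⧸ N)
        (by rw [ha]; exact pow_dvd_pow p b.le_succ)
      have hKi : K.index = p := by
        have := Subgroup.card_mul_index K
        rw [hK, ha, pow_succ] at this
        exact Nat.eq_of_mul_eq_mul_left (pow_pos hp.pos b) this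
      haveI : K.Normal := Subgroup.normal_of_index_eq_minFac_card (by
        rw [hKi, ha, Nat.pow_minFac b.succ_ne_zero, hp.minFac_eq])
      set L := K.comap (QuotientGroup.mk' N) with hL
      have hLi : L.index = p := by
        rw [Subgroup.index_comap_of_surjective _ (QuotientGroup.mk'_surjective N), hKi]
      have hNL : N ≤ L := fun x hx => by
        show QuotientGroup.mk' N x ∈ K
        rw [QuotientGroup.mk'_apply, (QuotientGroup.eq_one_iff x).mpr hx]; exact one_mem _
      obtain ⟨φ₀, hφ₀, hφ₀θ⟩ := sub L hNL fun h => hp.one_lt.ne' (by rw [← hLi, h, Subgroup.index_top])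
      haveI : Fintype L := Fintype.ofFinite L
      let e := Subgroup.subgroupOfEquivOfLe hNL
      have hkL := hk.coprime_dvd_right (Subgroup.card_subgroup_dvd_card L)
      have hk₂L : ∀ g : L, Odd (orderOf g) → g ^ k = g⁻¹ := fun g hg =>
        Subtype.ext (by simpa using hk₂ (g : G) (by rwa [Subgroup.orderOf_coe]))
      have hinvL : ∀ t : L, conjFn (N.subgroupOf L) (fun y => θ (e y)) t = fun y => θ (e y) := fun t => by
        funext y
        have h2 := congrFun (hinv (t : G)) (e y)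
        rw [conjFn_apply] at h2 ⊢
        exact Eq.trans (congrArg θ (Subtype.ext rfl)) h2
      obtain ⟨φ, hφθ, hφfix, hφu⟩ := unique_fixed (N := N.subgroupOf L) (k := k)
        (hodd.of_dvd_nat (Dvd.intro _ (Subgroup.relIndex_mul_index hNL))) hkL hk₂L
        (isIrrCharacter_mulEquiv hθ e) (fun m => by rw [map_pow]; exact hfix (e m)) hinvL hφ₀
        (fun y => hφ₀θ (e y))
      haveI : IsCyclic (G ⧸ L) := isCyclic_of_prime_card (p := p) (by rw [← Subgroup.index_eq_card, hLi])
      have hφinv : ∀ g, conjFn L (φ : L → ℂ) g = φ := by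
        intro g
        have hc : ∀ m : N.subgroupOf L, conjFn L (φ : L → ℂ) g (m : L) = θ (e m) := by
          intro m
          rw [conjFn_eq_comp]
          have hm' : g * ((m : L) : G) * g⁻¹ ∈ N :=
            (inferInstance : N.Normal).conj_mem _ (Subgroup.mem_subgroupOf.mp m.2) g
          have h1 := hφθ (⟨⟨_, hNL hm'⟩, Subgroup.mem_subgroupOf.mpr hm'⟩ : N.subgroupOf L)
          refine Eq.trans (congrArg _ (Subtype.ext ?_)) (h1.trans ?_)
          · simp [MulAut.conjNormal_apply]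
          · have h2 := congrFun (hinv g) (e m)
            rw [conjFn_apply] at h2
            refine Eq.trans (congrArg θ (Subtype.ext ?_)) h2
            rfl
        refine congrArg Subtype.val (hφu ⟨_, isIrrCharacter_conjFn φ.2 g⟩ ?_ fun y => ?_)
        · rw [show (fun m : N.subgroupOf L => conjFn L (φ : L → ℂ) g (m : L)) = fun m => θ (e m) from funext hc,
            classInner_irr_self (isIrrCharacter_mulEquiv hθ e)]
          exact one_ne_zero
        · show conjFn L (φ : L → ℂ) g (y ^ k) = conjFn L (φ : L → ℂ) g y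
          rw [conjFn_eq_comp]
          show (φ : L → ℂ) (MulAut.conjNormal g (y ^ k)) = (φ : L → ℂ) (MulAut.conjNormal g y)
          rw [map_pow, hφfix]
      obtain ⟨χ, hχ, hχφ⟩ := exists_extension_of_cyclic (N := L) inferInstance φ.2 hφinv
      exact ⟨χ, hχ, fun m => (hχφ ⟨(m : G), hNL m.2⟩).trans ((hφθ (e.symm m)).trans
        (congrArg θ (e.apply_symm_apply m)))⟩
    · obtain ⟨χ, hχ, hχ'⟩ := sub H hNH hH
      exact ⟨H, hNH, χ, hHi, hχ, hχ'⟩

/-- Let N be a normal subgroup of odd index in the finite group G, and let k be coprime to the order of G with k ^ (2 ^ e) ≡ 1 modulo the order of G for some e and g ^ k = g⁻¹ for every element g of odd order (so g ↦ g ^ k induces a field automorphism of 2-power order inverting the roots of unity of odd order). If an irreducible character θ of N satisfies θ (n ^ k) = θ n for all n, then there is exactly one irreducible character χ of G with θ a constituent of its restriction to N and χ (g ^ k) = χ g for all g; moreover,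 if θ is invariant under conjugation by G, that χ restricts to θ. -/
theorem result {G : Type*} [Group G] [Fintype G] (N : Subgroup G) [hN : N.Normal] [Fintype N] (hidx : Odd N.index) (k e : ℕ) (hk : Nat.Coprime k (Nat.card G)) (hke : k ^ (2 ^ e) ≡ 1 [MOD Nat.card G]) (hk₂ : ∀ g : G, Odd (orderOf g) → g ^ k = g⁻¹) (θ : Cfsg.IrrCharacter N) (hθ : ∀ n : N, (θ : N → ℂ) (n ^ k) = (θ : N → ℂ) n) : ∃ χ : Cfsg.IrrCharacter G, (Cfsg.classInner (fun n : N => (χ : G → ℂ) n) (θ : N → ℂ) ≠ 0 ∧ (∀ g : G, (χ : G → ℂ) (g ^ k) = (χ : G → ℂ) g) ∧ ((∀ g : G, ∀ n : N, (θ : N → ℂ) ⟨g * n * g⁻¹, hN.conj_mem n n.2 g⟩ = (θ : N → ℂ) n) → ∀ n : N, (χ : G → ℂ) n = (θ : N → ℂ) n)) ∧ ∀ χ' : Cfsg.IrrCharacter G, Cfsg.classInner (fun n : N => (χ' : G → ℂ) n) (θ : N → ℂ) ≠ 0 → (∀ g : G, (χ' : G → ℂ) (g ^ k) = (χ' : G → ℂ) g) → χ' = χ := by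
  set T := inertia N (θ : N → ℂ) with hT
  haveI : Fintype T := Fintype.ofFinite T
  have hNT : N ≤ T := le_inertia θ.2.isClassFunction
  let eM := Subgroup.subgroupOfEquivOfLe hNT
  have hθ' : IsIrrCharacter (N.subgroupOf T) (fun y => (θ : N → ℂ) (eM y)) := isIrrCharacter_mulEquiv θ.2 eM
  have hfix' : ∀ m : N.subgroupOf T, (θ : N → ℂ) (eM (m ^ k)) = (θ : N → ℂ) (eM m) := fun m => by
    rw [map_pow, hθ]
  have hinv : ∀ t : T, conjFn (N.subgroupOf T) (fun y => (θ : N → ℂ) (eM y)) t = fun y => (θ : N → ℂ) (eM y) := by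
    intro t
    have ht : conjFn N (θ : N → ℂ) (t : G) = θ := t.2
    funext y
    have h2 := congrFun ht (eM y)
    rw [conjFn_apply] at h2 ⊢
    exact Eq.trans (congrArg _ (Subtype.ext rfl)) h2
  have hidxT : Odd (N.subgroupOf T).index := hidx.of_dvd_nat (Dvd.intro _ (Subgroup.relIndex_mul_index hNT))
  have hkT := hk.coprime_dvd_right (Subgroup.card_subgroup_dvd_card T)
  have hk₂T : ∀ g : T, Odd (orderOf g) → g ^ k = g⁻¹ := fun g hg =>
    Subtype.ext (by simpa using hk₂ (g : G) (by rwa [Subgroup.orderOf_coe]))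
  obtain ⟨χ₀, hχ₀, hχ₀θ⟩ := ext_exists _ T (N.subgroupOf T) rfl hidxT k hkT hk₂T _ hθ' hfix' hinv
  obtain ⟨ψ, hψθ, hψfix, hψu⟩ := unique_fixed hidxT hkT hk₂T hθ' hfix' hinv hχ₀ hχ₀θ
  have hmult : ∀ φ : T → ℂ, classInner (fun n : N => φ ⟨(n : G), hNT n.2⟩) (θ : N → ℂ)
      = classInner (fun y : N.subgroupOf T => φ y) (fun y => (θ : N → ℂ) (eM y)) := fun φ => by
    rw [← classInner_comp_equiv eM (fun n : N => φ ⟨(n : G), hNT n.2⟩) (θ : N → ℂ)]
    rfl
  have hψne : classInner (fun n : N => (ψ : T → ℂ) ⟨(n : G), hNT n.2⟩) (θ : N → ℂ) ≠ 0 := by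
    rw [hmult, show (fun y : N.subgroupOf T => (ψ : T → ℂ) y) = fun y => (θ : N → ℂ) (eM y) from funext hψθ,
      classInner_irr_self hθ']
    exact one_ne_zero
  obtain ⟨hirr, huniq⟩ := indFun_of_mem_inertia θ.2 T rfl hNT ψ.2 hψne
  have hindk : ∀ (φ : T → ℂ) (g : G), indFun T φ (g ^ k) = indFun T (fun y => φ (y ^ k)) g := by
    intro φ g
    simp only [indFun]
    congr 1
    refine Finset.sum_congr rfl fun x _ => ?_
    have hx : x⁻¹ * g ^ k * x = (x⁻¹ * g * x) ^ k := by
      rw [show x⁻¹ * g * x = x⁻¹ * g * x⁻¹⁻¹ by rw [inv_inv], conj_pow, inv_inv]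
    rw [hx]
    by_cases hy : x⁻¹ * g * x ∈ T
    · rw [extendByZero_mem φ (T.pow_mem hy k), extendByZero_mem _ hy]; rfl
    · rw [extendByZero_not_mem φ (fun h => hy ((pow_mem_iff_of_coprime hk.symm T _).mp h)),
        extendByZero_not_mem _ hy]
  refine ⟨⟨_, hirr⟩, ⟨?_, fun g => ?_, fun hG n => ?_⟩, fun χ' hne hfix => ?_⟩
  · show classInner (fun n : N => indFun T (ψ : T → ℂ) n) (θ : N → ℂ) ≠ 0
    intro h0
    apply hψne
    obtain ⟨m, hm⟩ := exists_decomposition (isCharacter_restrict hirr.isCharacter T)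
    have hmψ : m ψ ≠ 0 := by
      have h1 : classInner (fun y : T => indFun T (ψ : T → ℂ) y) (ψ : T → ℂ) = 1 := by
        rw [← classInner_indFun_right T _ hirr.isClassFunction, classInner_irr_self hirr]
      intro h
      rw [hm, classInner_sum_irr, h] at h1
      simp at h1
    choose f hf using fun φ : IrrCharacter T =>
      classInner_nat (isCharacter_comp φ.2.isCharacter (Subgroup.inclusion hNT)) θ.2.isCharacter
    have h2 : (fun n : N => indFun T (ψ : T → ℂ) n)
        = ∑ φ : IrrCharacter T, (m φ : ℂ) • fun n : N => (φ : T → ℂ) (Subgroup.inclusion hNT n) := by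
      funext n
      simpa [Finset.sum_apply] using congrFun hm (Subgroup.inclusion hNT n)
    rw [h2, classInner_sum_left] at h0
    simp only [classInner_smul_left, hf] at h0
    have h3 : ∑ φ, m φ * f φ = 0 := by exact_mod_cast h0
    have h4 := (Finset.sum_eq_zero_iff.mp h3) ψ (Finset.mem_univ _)
    rw [Nat.mul_eq_zero] at h4
    have h5 : classInner (fun n : N => (ψ : T → ℂ) ⟨(n : G), hNT n.2⟩) (θ : N → ℂ) = (f ψ : ℂ) := hf ψ
    rw [h5, h4.resolve_left hmψ, Nat.cast_zero]
  · show indFun T (ψ : T → ℂ) (g ^ k) = indFun T (ψ : T → ℂ) g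
    rw [hindk, funext hψfix]
  · have hmem : ∀ g : G, g ∈ T := fun g => mem_inertia.mpr (funext fun m => by
      rw [conjFn_apply]; exact hG g m)
    show indFun T (ψ : T → ℂ) n = (θ : N → ℂ) n
    have hterm : ∀ x : G, extendByZero T (ψ : T → ℂ) (x⁻¹ * (n : G) * x) = (θ : N → ℂ) n := fun x => by
      have hm' : x⁻¹ * (n : G) * x ∈ N := by simpa using hN.conj_mem n n.2 x⁻¹
      rw [extendByZero_mem _ (hmem _)]
      refine ((hψθ (⟨⟨_, hmem _⟩, Subgroup.mem_subgroupOf.mpr hm'⟩ : N.subgroupOf T))).trans ?_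
      refine Eq.trans (congrArg _ (Subtype.ext ?_)) (hG x⁻¹ n)
      simp [eM]
    have hcard : Nat.card T = Nat.card G := Nat.card_congr (Equiv.subtypeUnivEquiv hmem)
    simp only [indFun, hterm, Finset.sum_const, Finset.card_univ, nsmul_eq_mul, hcard, ← Nat.card_eq_fintype_card]
    rw [← mul_assoc, inv_mul_cancel₀ (Nat.cast_ne_zero.mpr Nat.card_pos.ne'), one_mul]
  · obtain ⟨ψ', hψ', hind, hm⟩ := exists_indFun_eq θ.2 T rfl hNT χ'.2 hne
    have hψ'k : IsIrrCharacter T fun y => ψ' (y ^ k) := isIrrCharacter_comp_pow hψ' hkT.symm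
    have hne' : classInner (fun n : N => ψ' ⟨(n : G), hNT n.2⟩) (θ : N → ℂ) ≠ 0 := by rw [hm]; exact hne
    obtain ⟨-, hu'⟩ := indFun_of_mem_inertia θ.2 T rfl hNT hψ' hne'
    have hne'' : classInner (fun n : N => (fun y : T => ψ' (y ^ k)) ⟨(n : G), hNT n.2⟩) (θ : N → ℂ) ≠ 0 := by
      convert hne' using 1
      simp only [classInner]
      congr 1
      refine Fintype.sum_equiv (powCoprime (hk.symm.coprime_dvd_left (Subgroup.card_subgroup_dvd_card N))) _ _ fun n => ?_
      rw [powCoprime_apply, hθ]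
      rfl
    have heq := hu' _ hψ'k hne'' (by
      funext g
      rw [← hindk, hind, hfix])
    have h7 := hψu ⟨ψ', hψ'⟩ (by rw [← hmult]; exact hne') fun y => congrFun heq y
    refine Subtype.ext ?_
    show (χ' : G → ℂ) = indFun T (ψ : T → ℂ)
    rw [← hind, ← h7]

end Cfsg.Agent.S4519
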