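import Cfsg.Statements.S4520
import Mathlib
import Cfsg.Agent.Lib.Blocks.RealPrincipal
import Cfsg.Agent.Lib.Blocks.InflationBijection
import Cfsg.Agent.Lib.Blocks.Covering
import Cfsg.Agent.Lib.Blocks.PrincipalRestriction

set_option autoImplicit false
open Cfsg

namespace Cfsg.Agent.S4520

/-- Let N be a normal subgroup of odd index in the finite group G, M a maximal ideal of the algebraic integers containing 2, and k coprime to the order of G with k ^ (2 ^ e) ≡ 1 modulo the order of G for some e and g ^ k = g⁻¹ for every element g of odd order. Let θ be an irreducible character of N and χ an irreducible character of G over θ, both unchanged by composing with g ↦ g ^ k. Then χ lies in the principal 2-block of G if and only if θ lies in the principal 2-block of N. -/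
theorem result {G : Type*} [Group G] [Fintype G] (M : Ideal Cfsg.AlgInt) (hM : Cfsg.IsPModular 2 M) (N : Subgroup G) [N.Normal] [Fintype N] (hidx : Odd N.index) (k e : ℕ) (hk : Nat.Coprime k (Nat.card G)) (hke : k ^ (2 ^ e) ≡ 1 [MOD Nat.card G]) (hk₂ : ∀ g : G, Odd (orderOf g) → g ^ k = g⁻¹) (θ : Cfsg.IrrCharacter N) (hθ : ∀ n : N, (θ : N → ℂ) (n ^ k) = (θ : N → ℂ) n) (χ : Cfsg.IrrCharacter G) (hχ : ∀ g : G, (χ : G → ℂ) (g ^ k) = (χ : G → ℂ) g) (hover : Cfsg.classInner (fun n : N => (χ : G → ℂ) n) (θ : N → ℂ) ≠ 0) : χ ∈ Cfsg.principalBlock M G ↔ θ ∈ Cfsg.principalBlock M N := by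
  haveI := hM.2.1.isPrime
  haveI : Fact (Nat.Prime 2) := ⟨Nat.prime_two⟩
  haveI := Fintype.ofFinite (G ⧸ N)
  open Cfsg.Lib.Blocks Cfsg.Lib.Characters in
  open scoped ComplexConjugate in
  · classical
    -- regular sums of conjugates agree
    have hcj : ∀ (η : Cfsg.IrrCharacter N) (g : G),
        ∑ n : N, (if 2 ∣ orderOf n then 0 else (cjIrr η g : N → ℂ) n)
          = ∑ n : N, (if 2 ∣ orderOf n then 0 else (η : N → ℂ) n) := by
      intro η g
      refine Fintype.sum_equiv (MulAut.conjNormal g : N ≃* N).toEquiv _ _ fun n => ?_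
      simp only [MulEquiv.toEquiv_eq_coe, MulEquiv.coe_toEquiv, MulEquiv.orderOf_eq]
      split_ifs
      · rfl
      · rfl
    have hmem : ∀ (η : Cfsg.IrrCharacter N) (g : G), cjIrr η g ∈ Cfsg.principalBlock M N →
        η ∈ Cfsg.principalBlock M N := by
      intro η g h
      refine mem_principal_of_sum_ne (p := 2) hM ?_
      rw [← hcj η g]
      exact sum_regular_ne_zero hM h
    constructor
    · intro hχB
      have htriv : Cfsg.classInner (fun n : N => (trivChar G : G → ℂ) n) (trivChar N : N → ℂ) ≠ 0 := by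
        rw [show (fun n : N => (trivChar G : G → ℂ) n) = (trivChar N : N → ℂ) from rfl,
          classInner_irr_self (trivChar N).2]
        exact one_ne_zero
      obtain ⟨g, hg⟩ := covered_mem_cjUnion (isPBlock_principal (G := N) (M := M))
        (IsPBlock.sameBlock (isPBlock_principal (G := G) (M := M)) trivChar_mem_principal hχB)
        trivChar_mem_principal htriv hover
      exact hmem θ g hg
    · intro hθB
      -- the regular sum of `χ` over `N` does not vanish
      obtain ⟨m, hm⟩ := exists_decomposition (isCharacter_restrict χ.2.isCharacter N)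
      have hmc : ∀ η : Cfsg.IrrCharacter N, Cfsg.classInner (fun n : N => (χ : G → ℂ) n) (η : N → ℂ) = (m η : ℂ) := by
        intro η
        rw [hm]
        exact classInner_sum_irr (fun ψ => (m ψ : ℂ)) η
      have hS := sum_regular_ne_zero hM hθB
      set S : ℂ := ∑ n : N, (if 2 ∣ orderOf n then 0 else (θ : N → ℂ) n) with hSdef
      have hsumN : ∑ n : N, (if 2 ∣ orderOf n then 0 else (χ : G → ℂ) n) = ((∑ η, m η : ℕ) : ℂ) * S := by
        have hv : ∀ n : N, (χ : G → ℂ) n = ∑ η : Cfsg.IrrCharacter N, (m η : ℂ) * (η : N → ℂ) n := by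
          intro n
          have := congrFun hm n
          simpa [Finset.sum_apply, Pi.smul_apply] using this
        rw [Finset.sum_congr rfl (g := fun n : N => ∑ η : Cfsg.IrrCharacter N,
            (m η : ℂ) * (if 2 ∣ orderOf n then 0 else (η : N → ℂ) n)) fun n _ => by
          split_ifs
          · simp
          · exact hv n, Finset.sum_comm, Nat.cast_sum, Finset.sum_mul]
        refine Finset.sum_congr rfl fun η _ => ?_
        rw [← Finset.mul_sum]
        by_cases h0 : m η = 0
        · simp [h0]
        obtain ⟨g, hg⟩ := exists_cjIrr_of_constituents χ hover (ψ := η) (by rw [hmc]; exact_mod_cast h0)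
        rw [hg, hcj θ g]
      have hne : ∑ n : N, (if 2 ∣ orderOf n then 0 else (χ : G → ℂ) n) ≠ 0 := by
        rw [hsumN]
        refine mul_ne_zero (Nat.cast_ne_zero.mpr fun h0 => hover ?_) hS
        rw [hmc, (Finset.sum_eq_zero_iff.mp h0) θ (Finset.mem_univ _), Nat.cast_zero]
      -- a character of the quotient in the same block
      let infl : Cfsg.IrrCharacter (G ⧸ N) → Cfsg.IrrCharacter G := fun μ =>
        ⟨fun g => (μ : G ⧸ N → ℂ) (QuotientGroup.mk' N g),
          isIrrCharacter_comp_surjective μ.2 _ (QuotientGroup.mk'_surjective N)⟩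
      obtain ⟨μ, hμ⟩ : ∃ μ : Cfsg.IrrCharacter (G ⧸ N), SameBlock M (χ : G → ℂ) (infl μ : G → ℂ) := by
        by_contra hno
        push Not at hno
        apply hne
        have h0 : ∀ μ, regInner 2 (χ : G → ℂ) (infl μ : G → ℂ) = 0 := fun μ => regInner_eq_zero hM (hno μ)
        have h1 : ∑ μ : Cfsg.IrrCharacter (G ⧸ N), (μ : G ⧸ N → ℂ) 1 * regInner 2 (χ : G → ℂ) (infl μ : G → ℂ) = 0 :=
          Finset.sum_eq_zero fun μ _ => by rw [h0, mul_zero]
        have h2 : ∑ g : G, (if g ∈ N then (if 2 ∣ orderOf g then 0 else (χ : G → ℂ) g) else 0)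
            * (Nat.card (G ⧸ N) : ℂ) = 0 := by
          refine Eq.trans ?_ h1
          simp only [regInner, Finset.mul_sum]
          rw [Finset.sum_comm]
          refine Finset.sum_congr rfl fun g _ => ?_
          by_cases hr : 2 ∣ orderOf g
          · simp [hr]
          simp only [if_neg hr]
          rw [Finset.sum_congr rfl (g := fun μ : Cfsg.IrrCharacter (G ⧸ N) => (χ : G → ℂ) g *
            ((μ : G ⧸ N → ℂ) 1 * (μ : G ⧸ N → ℂ) (QuotientGroup.mk' N g⁻¹))) fun μ _ => by
              show _ * (_ * (μ : G ⧸ N → ℂ) (QuotientGroup.mk' N g⁻¹)) = _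
              ring,
            ← Finset.mul_sum, sum_degree_mul_irr, ite_mul, zero_mul, mul_ite, mul_zero]
          exact if_congr (by rw [map_inv, inv_eq_one, QuotientGroup.mk'_apply, QuotientGroup.eq_one_iff]) rfl rfl
        rw [← Finset.sum_mul, mul_eq_zero] at h2
        have h3 := h2.resolve_right (Nat.cast_ne_zero.mpr Nat.card_pos.ne')
        rw [← Finset.sum_filter, Finset.sum_subtype (p := (· ∈ N)) (Finset.univ.filter (· ∈ N)) (by simp)] at h3
        refine Eq.trans ?_ h3
        exact Finset.sum_congr rfl fun n _ => by rw [Subgroup.orderOf_coe]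
      -- the block is inversion invariant
      let χc : Cfsg.IrrCharacter G := ⟨fun h => conj ((χ : G → ℂ) h), isIrrCharacter_conj χ.2⟩
      have hsame : SameBlock M (χ : G → ℂ) (χc : G → ℂ) := by
        refine sameBlock_of_regular (p := 2) hM fun g hg => ?_
        have hg' : Odd (orderOf g) := Nat.not_even_iff_odd.mp fun h => hg (even_iff_two_dvd.mp h)
        show MemLocalIdeal M (Cfsg.centralChar (χ : G → ℂ) g - Cfsg.centralChar (fun h => conj ((χ : G → ℂ) h)) g)
        have hval : (χ : G → ℂ) g⁻¹ = (χ : G → ℂ) g := by rw [← hk₂ g hg', hχ g]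
        have : Cfsg.centralChar (fun h => conj ((χ : G → ℂ) h)) g = Cfsg.centralChar (χ : G → ℂ) g := by
          rw [Cfsg.Lib.Blocks.centralChar_conj]
          simp only [Cfsg.centralChar, centralizer_inv_singleton, hval]
        rw [this, sub_self]
        exact memLocalIdeal_iff.mpr ⟨zero_mem _, red_zero⟩
      have hinv : ∀ g : G, red M (Cfsg.centralChar (χ : G → ℂ) g⁻¹) = red M (Cfsg.centralChar (χ : G → ℂ) g) := by
        intro g
        rw [(sameBlock_iff M χ χc).mp hsame g]
        exact congrArg (red M) (Cfsg.Lib.Blocks.centralChar_conj χ g).symm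
      have hodd : Odd (Cfsg.charDegree (infl μ : G → ℂ)) := by
        have h1 : Cfsg.charDegree (infl μ : G → ℂ) = Cfsg.charDegree (μ : G ⧸ N → ℂ) :=
          charDegree_eq (by
            show (μ : G ⧸ N → ℂ) (QuotientGroup.mk' N 1) = _
            rw [map_one, coe_charDegree])
        rw [h1]
        refine Odd.of_dvd_nat ?_ (charDegree_dvd_card μ)
        exact hidx
      have hψ := mem_principal_of_real_odd hM hodd fun g => by
        rw [← (sameBlock_iff M χ (infl μ)).mp hμ, ← (sameBlock_iff M χ (infl μ)).mp hμ, hinv g]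
      exact IsPBlock.mem_of_sameBlock isPBlock_principal hψ (sameBlock_symm M hμ)

end Cfsg.Agent.S4520
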