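import Cfsg.Statements.S4521
import Cfsg.Agent.Lib.Blocks.PrincipalRestriction
import Cfsg.Agent.Lib.Blocks.Kernel
import Cfsg.Agent.Lib.Characters.Normal
-- import your own Cfsg.Agent.* helpers here

set_option autoImplicit false
open Cfsg Cfsg.Lib.Characters Cfsg.Lib.Blocks
open scoped ComplexConjugate

namespace Cfsg.Agent.S4521


/-- A subgroup generating with its centraliser is normal. -/
theorem normal_of_commute {G : Type*} [Group G] (U V : Subgroup G)
    (hcomm : ∀ u ∈ U, ∀ v ∈ V, u * v = v * u) (hgen : U ⊔ V = ⊤) : U.Normal := by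
  refine Subgroup.normalizer_eq_top_iff.mp (top_le_iff.mp (hgen ▸ sup_le Subgroup.le_normalizer ?_))
  intro v hv
  rw [Subgroup.mem_normalizer_iff]
  intro h
  refine ⟨fun hh => ?_, fun hh => ?_⟩
  · rw [← hcomm h hh v hv, mul_inv_cancel_right]; exact hh
  · have h1 := hcomm _ hh v hv
    rw [inv_mul_cancel_right] at h1
    rw [mul_left_cancel h1]
    exact hh

/-- The restriction of `χ` to one factor is a multiple of its constituent. -/
theorem res_factor {G : Type*} [Group G] [Fintype G] (U V : Subgroup G) [Fintype U]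
    (hcomm : ∀ u ∈ U, ∀ v ∈ V, u * v = v * u) (hgen : U ⊔ V = ⊤) (χ : IrrCharacter G)
    (ψ : IrrCharacter U) (h : classInner (fun u : U => (χ : G → ℂ) u) (ψ : U → ℂ) ≠ 0) :
    ∀ u : U, (χ : G → ℂ) u = classInner (fun u : U => (χ : G → ℂ) u) (ψ : U → ℂ) * (ψ : U → ℂ) u := by
  classical
  haveI := normal_of_commute U V hcomm hgen
  have horb : orbitFinset U ψ.1 = {ψ.1} := by
    ext f
    rw [mem_orbitFinset, Finset.mem_singleton]
    refine ⟨?_, fun e => ⟨1, by rw [conjFn_one, e]⟩⟩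
    rintro ⟨g, rfl⟩
    obtain ⟨a, ha, b, hb, rfl⟩ := Subgroup.mem_sup_of_normal_left.mp (hgen.symm ▸ Subgroup.mem_top g : g ∈ U ⊔ V)
    rw [conjFn_mul_mem ψ.2.isClassFunction ⟨a, ha⟩ b]
    funext n
    rw [conjFn_apply]
    exact congrArg ψ.1 (Subtype.ext (by
      show b * (n : G) * b⁻¹ = n
      rw [← hcomm n n.2 b hb, mul_inv_cancel_right]))
  intro u
  have := congrFun (clifford χ.2 ψ.2 h) u
  rw [horb, Finset.sum_singleton] at this
  exact this

/-- Let the finite group G be generated by subgroups U₁ and U₂ that commute elementwise and whose intersection is a p-group, and let M be a maximal ideal of the algebraic integers containing the prime p. If the irreducible character χ of G has the irreducible constituents ψ₁ on U₁ and ψ₂ on U₂, then χ lies in the principal block of G if and only if ψ₁ and ψ₂ lie in the principal blocks of U₁ and U₂. -/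
theorem result {G : Type*} [Group G] [Fintype G] (p : ℕ) [Fact p.Prime] (M : Ideal Cfsg.AlgInt) (hM : Cfsg.IsPModular p M) (U₁ U₂ : Subgroup G) [Fintype U₁] [Fintype U₂] (hcomm : ∀ u ∈ U₁, ∀ v ∈ U₂, u * v = v * u) (hgen : U₁ ⊔ U₂ = ⊤) (hZ : IsPGroup p ↥(U₁ ⊓ U₂)) (χ : Cfsg.IrrCharacter G) (ψ₁ : Cfsg.IrrCharacter U₁) (ψ₂ : Cfsg.IrrCharacter U₂) (h₁ : Cfsg.classInner (fun u : U₁ => (χ : G → ℂ) u) (ψ₁ : U₁ → ℂ) ≠ 0) (h₂ : Cfsg.classInner (fun u : U₂ => (χ : G → ℂ) u) (ψ₂ : U₂ → ℂ) ≠ 0) : χ ∈ Cfsg.principalBlock M G ↔ (ψ₁ ∈ Cfsg.principalBlock M U₁ ∧ ψ₂ ∈ Cfsg.principalBlock M U₂) := by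
  classical
  haveI := hM.2.1.isPrime
  have hp : p.Prime := Fact.out
  haveI := normal_of_commute U₁ U₂ hcomm hgen
  have hcomm' : ∀ v ∈ U₂, ∀ u ∈ U₁, v * u = u * v := fun v hv u hu => (hcomm u hu v hv).symm
  have hgen' : U₂ ⊔ U₁ = ⊤ := by rw [sup_comm, hgen]
  have r1 := res_factor U₁ U₂ hcomm hgen χ ψ₁ h₁
  have r2 := res_factor U₂ U₁ hcomm' hgen' χ ψ₂ h₂
  have hdec : ∀ g : G, ∃ a ∈ U₁, ∃ b ∈ U₂, a * b = g := fun g =>
    Subgroup.mem_sup_of_normal_left.mp (hgen.symm ▸ Subgroup.mem_top g : g ∈ U₁ ⊔ U₂)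
  have hmul : ∀ (a : U₁) (b : U₂), (χ : G → ℂ) ((a : G) * b)
      = (χ : G → ℂ) a * (χ : G → ℂ) b / (χ : G → ℂ) 1 := by
    intro a b
    have h := sum_conj_mul χ (a : G) (b : G)
    have hterm : ∀ z : G, (χ : G → ℂ) ((a : G) * (z * b * z⁻¹)) = (χ : G → ℂ) ((a : G) * b) := by
      intro z
      obtain ⟨z₁, hz₁, z₂, hz₂, rfl⟩ := hdec z
      have e1 : z₁ * z₂ * (b : G) * (z₁ * z₂)⁻¹ = z₂ * b * z₂⁻¹ := by
        have hm : z₂ * (b : G) * z₂⁻¹ ∈ U₂ := mul_mem (mul_mem hz₂ b.2) (inv_mem hz₂)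
        calc z₁ * z₂ * (b : G) * (z₁ * z₂)⁻¹ = z₁ * (z₂ * b * z₂⁻¹) * z₁⁻¹ := by group
          _ = z₂ * b * z₂⁻¹ := by rw [hcomm z₁ hz₁ _ hm, mul_inv_cancel_right]
      rw [e1, show (a : G) * (z₂ * b * z₂⁻¹) = z₂ * ((a : G) * b) * z₂⁻¹ by
        rw [← mul_assoc, ← mul_assoc, hcomm a a.2 z₂ hz₂, mul_assoc z₂ (a : G) (b : G)]]
      exact χ.2.isClassFunction _ _
    rw [Finset.sum_congr rfl fun z _ => hterm z, Finset.sum_const, Finset.card_univ,
      ← Nat.card_eq_fintype_card, nsmul_eq_mul, mul_div_assoc] at h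
    exact mul_left_cancel₀ (Nat.cast_ne_zero.mpr Nat.card_pos.ne') h
  set m₁ := classInner (fun u : U₁ => (χ : G → ℂ) u) (ψ₁ : U₁ → ℂ)
  set m₂ := classInner (fun u : U₂ => (χ : G → ℂ) u) (ψ₂ : U₂ → ℂ)
  have hreg : ∀ (a : U₁) (b : U₂), ¬ p ∣ orderOf a → ¬ p ∣ orderOf b → ¬ p ∣ orderOf ((a : G) * b) := by
    intro a b ha hb hd
    have hc : Commute (a : G) b := hcomm a a.2 b b.2
    rcases hp.dvd_mul.mp (hd.trans hc.orderOf_mul_dvd_mul_orderOf) with h | h
    · exact ha (Subgroup.orderOf_coe a ▸ h)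
    · exact hb (Subgroup.orderOf_coe b ▸ h)
  have hbij : ∑ x : G, (if p ∣ orderOf x then 0 else (χ : G → ℂ) x)
      = ∑ q : U₁ × U₂, (if p ∣ orderOf q.1 ∨ p ∣ orderOf q.2 then 0 else (χ : G → ℂ) ((q.1 : G) * q.2)) := by
    have e1 : ∑ x : G, (if p ∣ orderOf x then 0 else (χ : G → ℂ) x)
        = ∑ x ∈ Finset.univ.filter (fun x : G => ¬ p ∣ orderOf x), (χ : G → ℂ) x := by
      rw [Finset.sum_filter]; exact Finset.sum_congr rfl fun x _ => by rw [ite_not]
    have e2 : ∑ q : U₁ × U₂, (if p ∣ orderOf q.1 ∨ p ∣ orderOf q.2 then 0 else (χ : G → ℂ) ((q.1 : G) * q.2))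
        = ∑ q ∈ Finset.univ.filter (fun q : U₁ × U₂ => ¬ p ∣ orderOf q.1 ∧ ¬ p ∣ orderOf q.2),
            (χ : G → ℂ) ((q.1 : G) * q.2) := by
      rw [Finset.sum_filter]
      refine Finset.sum_congr rfl fun q _ => ?_
      by_cases h1 : p ∣ orderOf q.1 <;> by_cases h2 : p ∣ orderOf q.2 <;> simp [h1, h2]
    rw [e1, e2]
    symm
    refine Finset.sum_bij (fun q _ => (q.1 : G) * q.2) ?_ ?_ ?_ (fun _ _ => rfl)
    · intro q hq
      simp only [Finset.mem_filter, Finset.mem_univ, true_and] at hq ⊢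
      exact hreg q.1 q.2 hq.1 hq.2
    · intro q hq r hr e
      simp only [Finset.mem_filter, Finset.mem_univ, true_and] at hq hr
      have hz : ((r.1⁻¹ * q.1 : U₁) : G) = ((r.2 * q.2⁻¹ : U₂) : G) := by
        push_cast
        rw [inv_mul_eq_iff_eq_mul, ← mul_assoc, eq_mul_inv_iff_mul_eq]
        exact e
      have hzI : ((r.1⁻¹ * q.1 : U₁) : G) ∈ U₁ ⊓ U₂ := ⟨SetLike.coe_mem _, hz ▸ SetLike.coe_mem _⟩
      obtain ⟨k, hk⟩ := (IsPGroup.iff_orderOf.mp hZ) ⟨_, hzI⟩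
      rw [Subgroup.orderOf_mk] at hk
      have hc : Commute (r.1⁻¹ : U₁) q.1 := by
        have h2 : ∀ v : G, v ∈ U₂ → Commute ((q.1 : U₁) : G) v := fun v hv => hcomm _ q.1.2 v hv
        have h3 : Commute ((q.1 : U₁) : G) ((r.1⁻¹ * q.1 : U₁) : G) := h2 _ hzI.2
        refine Subtype.ext ?_
        push_cast at h3 ⊢
        have h4 := h3.mul_right (Commute.inv_right (Commute.refl ((q.1 : U₁) : G)))
        rw [mul_inv_cancel_right] at h4
        exact h4.symm.eq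
      have hnd : ¬ p ∣ orderOf ((r.1⁻¹ * q.1 : U₁) : G) := by
        rw [Subgroup.orderOf_coe]
        intro hd
        rcases hp.dvd_mul.mp (hd.trans hc.orderOf_mul_dvd_mul_orderOf) with h | h
        · rw [orderOf_inv] at h; exact hr.1 h
        · exact hq.1 h
      rcases Nat.eq_zero_or_pos k with rfl | hk0
      · rw [pow_zero, orderOf_eq_one_iff] at hk
        have h1 : q.1 = r.1 := (inv_mul_eq_one.mp (Subtype.ext hk : r.1⁻¹ * q.1 = 1)).symm
        refine Prod.ext h1 (Subtype.ext ?_)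
        rw [hk, eq_comm] at hz
        exact (mul_inv_eq_one.mp (by simpa using hz)).symm
      · exact absurd (hk ▸ dvd_pow_self p hk0.ne') hnd
    · intro g hg
      simp only [Finset.mem_filter, Finset.mem_univ, true_and] at hg
      obtain ⟨a, ha, b, hb, rfl⟩ := hdec g
      obtain ⟨a₁, a₂, ea, hca, ⟨i, hi⟩, hai⟩ := exists_pPart_commute (p := p) (⟨a, ha⟩ : U₁)
      obtain ⟨b₁, b₂, eb, hcb, ⟨j, hj⟩, hbj⟩ := exists_pPart_commute (p := p) (⟨b, hb⟩ : U₂)
      refine ⟨(a₂, b₂), Finset.mem_filter.mpr ⟨Finset.mem_univ _, hai, hbj⟩, ?_⟩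
      have hy := hreg a₂ b₂ hai hbj
      have hc12 : ∀ (u : U₁) (v : U₂), Commute (u : G) v := fun u v => hcomm u u.2 v v.2
      have heq : ((a₁ : G) * b₁) * ((a₂ : G) * b₂) = a * b := by
        rw [(hc12 a₂ b₁).symm.mul_mul_mul_comm, ← Subgroup.coe_mul, ← Subgroup.coe_mul, ea, eb]
      have hcomb : Commute ((a₁ : G) * b₁) ((a₂ : G) * b₂) := by
        have e1 : Commute (a₁ : G) a₂ := congrArg Subtype.val hca.eq
        have e2 : Commute (b₁ : G) b₂ := congrArg Subtype.val hcb.eq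
        exact ((e1.mul_right (hc12 a₁ b₂)).mul_left ((hc12 a₂ b₁).symm.mul_right e2))
      have hxp : ((a₁ : G) * b₁) ^ p ^ (i + j) = 1 := by
        rw [(hc12 a₁ b₁).mul_pow, orderOf_dvd_iff_pow_eq_one.mp (by
            rw [Subgroup.orderOf_coe, hi]; exact pow_dvd_pow p (Nat.le_add_right i j)),
          orderOf_dvd_iff_pow_eq_one.mp (by
            rw [Subgroup.orderOf_coe, hj]; exact pow_dvd_pow p (Nat.le_add_left j i)), one_mul]
      obtain ⟨l, -, hl⟩ := (Nat.dvd_prime_pow hp).mp (orderOf_dvd_of_pow_eq_one hxp)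
      have hcop : (orderOf ((a₁ : G) * b₁)).Coprime (orderOf ((a₂ : G) * b₂)) := by
        rw [hl]; exact (hp.coprime_iff_not_dvd.mpr hy).pow_left l
      have ho := hcomb.orderOf_mul_eq_mul_orderOf_of_coprime hcop
      rw [heq, hl] at ho
      rcases Nat.eq_zero_or_pos l with rfl | hl0
      · rw [pow_zero, orderOf_eq_one_iff] at hl
        rw [hl, one_mul] at heq
        exact heq
      · exact absurd (ho ▸ dvd_mul_of_dvd_left (dvd_pow_self p hl0.ne') _) hg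
  have hprod : ∑ x : G, (if p ∣ orderOf x then 0 else (χ : G → ℂ) x)
      = m₁ * m₂ / (χ : G → ℂ) 1 * ((∑ a : U₁, if p ∣ orderOf a then 0 else (ψ₁ : U₁ → ℂ) a)
        * ∑ b : U₂, if p ∣ orderOf b then 0 else (ψ₂ : U₂ → ℂ) b) := by
    rw [hbij, Finset.sum_mul_sum, Finset.mul_sum, Fintype.sum_prod_type]
    refine Finset.sum_congr rfl fun a _ => ?_
    rw [Finset.mul_sum]
    refine Finset.sum_congr rfl fun b _ => ?_
    by_cases h1 : p ∣ orderOf a
    · simp [h1]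
    by_cases h2 : p ∣ orderOf b
    · simp [h2]
    rw [if_neg (by tauto), if_neg h1, if_neg h2, hmul, r1, r2]
    ring
  have hc0 : m₁ * m₂ / (χ : G → ℂ) 1 ≠ 0 := div_ne_zero (mul_ne_zero h₁ h₂) χ.2.one_ne_zero
  constructor
  · intro h
    have h0 := sum_regular_ne_zero hM h
    rw [hprod] at h0
    exact ⟨mem_principal_of_sum_ne hM (left_ne_zero_of_mul (right_ne_zero_of_mul h0)),
      mem_principal_of_sum_ne hM (right_ne_zero_of_mul (right_ne_zero_of_mul h0))⟩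
  · rintro ⟨h1, h2⟩
    refine mem_principal_of_sum_ne hM ?_
    rw [hprod]
    exact mul_ne_zero hc0 (mul_ne_zero (sum_regular_ne_zero hM h1) (sum_regular_ne_zero hM h2))

end Cfsg.Agent.S4521
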