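import Cfsg.Statements.S4550
import Mathlib
import Cfsg.Agent.Lib.Blocks.SumSquares
import Cfsg.Agent.Lib.Blocks.Principal
import Cfsg.Agent.Lib.Characters.PowerConj

set_option autoImplicit false
open Cfsg

namespace Cfsg.Agent.S4550

/-- Let G be a finite group of even order and M a maximal ideal of the algebraic integers containing 2. Let k be a natural number with g ^ k = g ^ 3 for every 2-element g and g ^ k = g for every element g of odd order (such k exist); an irreducible character χ is unchanged by g ↦ g ^ k exactly when it is fixed by the field automorphism that cubes the 2-power roots of unity and fixes the roots of unity of odd order. Then the number of members χ of the principal 2-block of odd degree with χ (g ^ k) = χ g for all g is even. -/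
theorem result {G : Type*} [Group G] [Finite G] (M : Ideal Cfsg.AlgInt) (hM : Cfsg.IsPModular 2 M) (hev : Even (Nat.card G)) (k : ℕ) (hk₁ : ∀ g : G, (∃ j : ℕ, orderOf g = 2 ^ j) → g ^ k = g ^ 3) (hk₂ : ∀ g : G, Odd (orderOf g) → g ^ k = g) : Even (Nat.card {χ : Cfsg.IrrCharacter G // χ ∈ Cfsg.principalBlock M G ∧ Odd (Cfsg.charDegree (χ : G → ℂ)) ∧ ∀ g : G, (χ : G → ℂ) (g ^ k) = (χ : G → ℂ) g}) := by
  classical
  haveI := Fintype.ofFinite G
  haveI : Fact (2 : ℕ).Prime := ⟨Nat.prime_two⟩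
  haveI := hM.2.1.isPrime
  set a := (Nat.card G).factorization 2 with ha
  have ha1 : 1 ≤ a := Nat.prime_two.factorization_pos_of_dvd Nat.card_pos.ne' (even_iff_two_dvd.1 hev)
  have hk : (Nat.card G).Coprime k := by
    refine Nat.coprime_of_dvd fun q hq hqG hqk => ?_
    haveI : Fact q.Prime := ⟨hq⟩
    obtain ⟨x, hx⟩ := exists_prime_orderOf_dvd_card' (G := G) q hqG
    have h0 : x ^ k = 1 := by
      obtain ⟨c, rfl⟩ := hqk
      rw [pow_mul, ← hx, pow_orderOf_eq_one, one_pow]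
    rcases hq.eq_two_or_odd' with rfl | hodd
    · rw [hk₁ x ⟨1, hx⟩] at h0
      have := orderOf_dvd_of_pow_eq_one h0
      rw [hx] at this
      omega
    · rw [hk₂ x (hx ▸ hodd)] at h0
      rw [h0, orderOf_one] at hx
      exact hq.ne_one hx.symm
  let X := {χ : Cfsg.IrrCharacter G // χ ∈ Cfsg.principalBlock M G ∧ Odd (Cfsg.charDegree (χ : G → ℂ))}
  have hcent : ∀ g : G, Subgroup.centralizer ({g ^ k} : Set G) = Subgroup.centralizer ({g} : Set G) := by
    intro g
    ext y
    rw [Subgroup.mem_centralizer_singleton_iff, Subgroup.mem_centralizer_singleton_iff]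
    refine ⟨fun h => ?_, fun h => ((Commute.pow_left (h.symm : Commute g y) k).eq).symm⟩
    have := Cfsg.Lib.Characters.pow_mem_iff_of_coprime hk (Subgroup.centralizer ({y} : Set G)) g
    rw [Subgroup.mem_centralizer_singleton_iff, Subgroup.mem_centralizer_singleton_iff] at this
    exact (this.1 h.symm).symm
  let f : X → X := fun χ => ⟨⟨fun g => (χ.1 : G → ℂ) (g ^ k), Cfsg.Lib.Characters.isIrrCharacter_comp_pow χ.1.2 hk⟩, by
    refine ⟨?_, ?_⟩
    · have hin : SameBlock M (χ.1 : G → ℂ) (fun _ : G => (1 : ℂ)) ∨ SameBlock M (fun _ : G => (1 : ℂ)) (χ.1 : G → ℂ) := by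
        first
          | exact Or.inl χ.2.1
          | exact Or.inr χ.2.1
      have e : ∀ g, centralChar (fun g => (χ.1 : G → ℂ) (g ^ k)) g = centralChar (χ.1 : G → ℂ) (g ^ k) ∧
          centralChar (fun _ : G => (1 : ℂ)) g = centralChar (fun _ : G => (1 : ℂ)) (g ^ k) := fun g => by
        simp only [centralChar, hcent, one_pow, and_self]
      first
        | (intro g
           rw [(e g).1, (e g).2]
           exact χ.2.1 (g ^ k))
    · have h1 : Cfsg.charDegree (fun g => (χ.1 : G → ℂ) (g ^ k)) = Cfsg.charDegree (χ.1 : G → ℂ) := by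
        simp [Cfsg.charDegree]
      simpa [h1] using χ.2.2⟩
  have hfinj : Function.Injective f := fun χ ψ h => by
    refine Subtype.ext (Subtype.ext (funext fun g => ?_))
    obtain ⟨m, rfl⟩ := (powCoprime hk).surjective g
    exact congrFun (congrArg (fun z : X => (z.1 : G → ℂ)) h) m
  let σ : Equiv.Perm X := Equiv.ofBijective f (Finite.injective_iff_bijective.1 hfinj)
  have hpow : ∀ (j : ℕ) (χ : X), ((((σ ^ j) χ).1 : Cfsg.IrrCharacter G) : G → ℂ) = fun g => (χ.1 : G → ℂ) (g ^ k ^ j) := by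
    intro j
    induction j with
    | zero => intro χ; simp
    | succ j ih =>
      intro χ
      rw [pow_succ', Equiv.Perm.mul_apply]
      funext g
      show (((σ ^ j) χ).1 : G → ℂ) (g ^ k) = _
      rw [ih]
      simp only [← pow_mul, ← pow_succ']
  -- the order of `σ` is a power of two
  have hord : ∀ g : G, g ^ k ^ 2 ^ a = g := by
    intro g
    have hk2a : ∀ x : G, (∃ j : ℕ, orderOf x = 2 ^ j) → ∀ i, x ^ k ^ i = x ^ 3 ^ i := by
      intro x hx i
      induction i with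
      | zero => simp
      | succ i ih =>
        rw [pow_succ, pow_mul, ih, ← pow_mul, mul_comm, pow_mul]
        rw [show x ^ k = x ^ 3 from hk₁ x hx, ← pow_mul, mul_comm, ← pow_succ]
    have hk2o : ∀ x : G, Odd (orderOf x) → ∀ i, x ^ k ^ i = x := by
      intro x hx i
      induction i with
      | zero => simp
      | succ i ih => rw [pow_succ, pow_mul, ih, hk₂ x hx]
    obtain ⟨i, m, hm, hgo⟩ := Nat.exists_eq_pow_mul_and_not_dvd (orderOf_pos g).ne' 2 (by norm_num)
    obtain ⟨u, v, huv⟩ : ∃ u v : G, g = u * v ∧ (∃ j, orderOf u = 2 ^ j) ∧ Odd (orderOf v) ∧ Commute u v := by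
      have hcop : (2 ^ i).Coprime m := ((Nat.prime_two.coprime_iff_not_dvd.2 hm).pow_left i)
      obtain ⟨b, hb1, hb2⟩ := Nat.chineseRemainder hcop 1 0
      obtain ⟨c, hc1, hc2⟩ := Nat.chineseRemainder hcop 0 1
      refine ⟨g ^ b, g ^ c, ?_, ⟨?_, ?_, Commute.pow_pow_self g b c⟩⟩
      · rw [← pow_add]
        conv_lhs => rw [← pow_one g]
        refine pow_eq_pow_iff_modEq.2 ?_
        rw [hgo]
        exact ((Nat.modEq_and_modEq_iff_modEq_mul hcop).1 ⟨(hb1.add hc1).symm, (hb2.add hc2).symm⟩)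
      · obtain ⟨j, -, hj⟩ := (Nat.dvd_prime_pow Nat.prime_two).1 (orderOf_dvd_of_pow_eq_one (x := g ^ b) (n := 2 ^ i) (by
          rw [← pow_mul]; refine orderOf_dvd_iff_pow_eq_one.1 ?_
          rw [hgo, mul_comm b]; exact Nat.mul_dvd_mul_left _ (Nat.modEq_zero_iff_dvd.1 hb2)))
        exact ⟨j, hj⟩
      · refine Odd.of_dvd_nat (Nat.not_even_iff_odd.1 fun h => hm (even_iff_two_dvd.1 h)) (orderOf_dvd_of_pow_eq_one ?_)
        rw [← pow_mul]; refine orderOf_dvd_iff_pow_eq_one.1 ?_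
        rw [hgo]; exact Nat.mul_dvd_mul_right (Nat.modEq_zero_iff_dvd.1 hc1) _
    obtain ⟨rfl, ⟨j, hj⟩, hv, hc⟩ := huv
    rw [hc.mul_pow, hk2o v hv, hk2a u ⟨j, hj⟩]
    congr 1
    conv_rhs => rw [← pow_one u]
    refine pow_eq_pow_iff_modEq.2 ?_
    rw [hj]
    have hja : j ≤ a := by
      rw [ha]
      exact (Nat.prime_two.pow_dvd_iff_le_factorization Nat.card_pos.ne').1 (hj ▸ orderOf_dvd_natCard u)
    have h1 := Nat.ModEq.pow_totient (x := 3) (n := 2 ^ j) (Nat.Coprime.pow_right j (by norm_num))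
    obtain ⟨t, ht⟩ : Nat.totient (2 ^ j) ∣ 2 ^ a := by
      rcases Nat.eq_zero_or_pos j with rfl | hj0
      · simp
      · rw [Nat.totient_prime_pow Nat.prime_two hj0]
        simpa using pow_dvd_pow 2 (show j - 1 ≤ a by omega)
    rw [ht, pow_mul]
    have h2 := h1.pow t
    rwa [one_pow] at h2
  have hσ : σ ^ 2 ^ a = 1 := by
    refine Equiv.ext fun χ => Subtype.ext (Subtype.ext ?_)
    rw [hpow]
    funext g
    show (χ.1 : G → ℂ) (g ^ k ^ 2 ^ a) = _
    rw [hord]
    rfl
  have hP : IsPGroup 2 (Subgroup.zpowers σ) := by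
    obtain ⟨i, -, hi⟩ := (Nat.dvd_prime_pow Nat.prime_two).1 (orderOf_dvd_of_pow_eq_one hσ)
    exact IsPGroup.of_card (n := i) (by rw [Nat.card_zpowers, hi])
  have hX : Even (Nat.card X) := by
    have hB := Cfsg.Lib.Blocks.isPBlock_principal (M := M) (G := G)
    have hf := Cfsg.Lib.Blocks.factorization_sum_sq hM hB
    have hd : Cfsg.blockDefect 2 (Cfsg.principalBlock M G) ≤ a := Nat.sub_le _ _
    set S := Finset.univ.filter (· ∈ Cfsg.principalBlock M G) with hSdef
    have h2 : 2 ∣ ∑ χ ∈ S, Cfsg.charDegree (χ : G → ℂ) ^ 2 := by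
      refine Nat.dvd_of_factorization_pos ?_
      rw [hf]
      omega
    rw [← Finset.sum_filter_add_sum_filter_not S (fun χ : Cfsg.IrrCharacter G => Odd (Cfsg.charDegree (χ : G → ℂ)))] at h2
    have h3 : 2 ∣ ∑ χ ∈ S.filter (fun χ : Cfsg.IrrCharacter G => ¬ Odd (Cfsg.charDegree (χ : G → ℂ))), Cfsg.charDegree (χ : G → ℂ) ^ 2 :=
      Finset.dvd_sum fun χ hχ => even_iff_two_dvd.1 ((Nat.not_odd_iff_even.1 (Finset.mem_filter.1 hχ).2).pow_of_ne_zero two_ne_zero)
    have h4 : 2 ∣ ∑ χ ∈ S.filter (fun χ : Cfsg.IrrCharacter G => Odd (Cfsg.charDegree (χ : G → ℂ))), Cfsg.charDegree (χ : G → ℂ) ^ 2 :=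
      (Nat.dvd_add_left h3).1 h2
    rw [even_iff_two_dvd]
    rw [← even_iff_two_dvd, Finset.even_sum_iff_even_card_odd, Finset.filter_true_of_mem
      (fun χ hχ => (Finset.mem_filter.1 hχ).2.pow)] at h4
    rw [← even_iff_two_dvd, Nat.card_eq_fintype_card, Fintype.card_subtype]
    rwa [hSdef, Finset.filter_filter] at h4
  have hfix := hP.card_modEq_card_fixedPoints X
  have e : Nat.card (MulAction.fixedPoints (Subgroup.zpowers σ) X) = Nat.card {χ : Cfsg.IrrCharacter G //
      χ ∈ Cfsg.principalBlock M G ∧ Odd (Cfsg.charDegree (χ : G → ℂ)) ∧ ∀ g : G, (χ : G → ℂ) (g ^ k) = (χ : G → ℂ) g} := by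
    refine Nat.card_congr
      { toFun := fun χ => ⟨χ.1.1, χ.1.2.1, χ.1.2.2, fun g => ?_⟩
        invFun := fun χ => ⟨⟨χ.1, χ.2.1, χ.2.2.1⟩, ?_⟩
        left_inv := fun χ => rfl
        right_inv := fun χ => rfl }
    · exact congrFun (congrArg (fun z : X => (z.1 : G → ℂ)) (χ.2 ⟨σ, Subgroup.mem_zpowers σ⟩)) g
    · rintro ⟨τ, j, rfl⟩
      have hσfix : σ ⟨χ.1, χ.2.1, χ.2.2.1⟩ = ⟨χ.1, χ.2.1, χ.2.2.1⟩ :=
        Subtype.ext (Subtype.ext (funext χ.2.2.2))
      exact Equiv.Perm.zpow_apply_eq_self_of_apply_eq_self hσfix j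
  rw [← e, Nat.even_iff]
  rw [Nat.even_iff] at hX
  rw [Nat.ModEq] at hfix
  omega

end Cfsg.Agent.S4550
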