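import Cfsg.Statements.S4551
import Mathlib
import Cfsg.Agent.Lib.Blocks.PrincipalRestriction

set_option autoImplicit false
open Cfsg

namespace Cfsg.Agent.S4551

/-- Let N be a normal subgroup of the finite group G of index prime to p, P a Sylow p-subgroup of G with G = N·C_G(P), and M a maximal ideal of the algebraic integers containing p. Then restriction to N is a bijection from the principal p-block of G onto the principal p-block of N: every member of the principal block of G restricts to a member of the principal block of N, and every member of the principal block of N is the restriction of exactly one member of the principal block of G. -/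
theorem result {G : Type*} [Group G] [Finite G] (p : ℕ) [Fact p.Prime] (M : Ideal Cfsg.AlgInt) (hM : Cfsg.IsPModular p M) (N : Subgroup G) [N.Normal] (hidx : ¬ p ∣ N.index) (P : Sylow p G) (hsup : N ⊔ Subgroup.centralizer ((P : Subgroup G) : Set G) = ⊤) : (∀ χ ∈ Cfsg.principalBlock M G, ∃ θ ∈ Cfsg.principalBlock M ↥N, ∀ n : N, (χ : G → ℂ) n = (θ : N → ℂ) n) ∧ ∀ θ ∈ Cfsg.principalBlock M ↥N, ∃! χ : Cfsg.IrrCharacter G, χ ∈ Cfsg.principalBlock M G ∧ ∀ n : N, (χ : G → ℂ) n = (θ : N → ℂ) n := by
  haveI := hM.2.1.isPrime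
  haveI := Fintype.ofFinite G
  haveI := Fintype.ofFinite N
  classical
  open Cfsg.Lib.Blocks Cfsg.Lib.Characters in
  · have hiso := fun (χ χ' : Cfsg.IrrCharacter G) (hχ : χ ∈ Cfsg.principalBlock M G)
      (hχ' : χ' ∈ Cfsg.principalBlock M G) => classInner_res_principal hM N hidx P hsup hχ hχ'
    have hrep := cosetRep_of_sup N hidx P hsup
    have hirr : ∀ χ ∈ Cfsg.principalBlock M G, Cfsg.IsIrrCharacter N fun n : N => (χ : G → ℂ) n :=
      fun χ hχ => isIrrCharacter_of_classInner_eq_one (isCharacter_restrict χ.2.isCharacter N)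
        (by rw [hiso χ χ hχ hχ]; exact classInner_irr_self χ.2)
    have hsum : ∀ χ ∈ Cfsg.principalBlock M G,
        (∑ n : N, if p ∣ orderOf n then 0 else (χ : G → ℂ) n) = cosetSum p N (χ : G → ℂ) 1 := by
      intro χ _
      simp only [cosetSum, inv_one, one_mul, ite_and, ite_not, ← Subgroup.orderOf_coe]
      exact sum_subgroup_eq N fun g => if p ∣ orderOf g then 0 else (χ : G → ℂ) g
    refine ⟨fun χ hχ => ⟨⟨_, hirr χ hχ⟩, mem_principal_of_sum_ne hM ?_, fun n => rfl⟩, fun θ hθ => ?_⟩
    · show (∑ n : N, if p ∣ orderOf n then 0 else (χ : G → ℂ) n) ≠ 0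
      rw [hsum χ hχ]
      intro h0
      exact sum_regular_ne_zero hM hχ
        (by rw [sum_regular_eq_index_mul hM N hidx hrep hχ, h0, mul_zero])
    obtain ⟨m, hm⟩ := exists_decomposition (isCharacter_indFun N θ.2.isCharacter)
    have hlhs : ∑ g : G, (if p ∣ orderOf g then 0 else indFun N (θ : N → ℂ) g) ≠ 0 := by
      have hadj := classInner_indFun N (θ : N → ℂ)
        (χ := fun g : G => if p ∣ orderOf g then (0 : ℂ) else 1) (fun g a => by
          show (if p ∣ orderOf (a * g * a⁻¹) then (0 : ℂ) else 1) = _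
          rw [show orderOf (a * g * a⁻¹) = orderOf g from MulEquiv.orderOf_eq (MulAut.conj a) g])
      simp only [classInner, apply_ite (starRingEnd ℂ), map_zero, map_one, mul_ite, mul_one,
        mul_zero, Subgroup.orderOf_coe] at hadj
      intro h0
      rw [h0, mul_zero] at hadj
      exact sum_regular_ne_zero hM hθ
        ((mul_eq_zero.mp hadj.symm).resolve_left (inv_ne_zero (Nat.cast_ne_zero.mpr Nat.card_pos.ne')))
    have hex : ∃ χ : Cfsg.IrrCharacter G, m χ ≠ 0 ∧ χ ∈ Cfsg.principalBlock M G := by
      by_contra hc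
      push Not at hc
      refine hlhs ?_
      rw [hm]
      calc ∑ g : G, (if p ∣ orderOf g then 0 else (∑ χ : Cfsg.IrrCharacter G, (m χ : ℂ) • (χ : G → ℂ)) g)
          = ∑ χ : Cfsg.IrrCharacter G, (m χ : ℂ) *
            ∑ g : G, (if p ∣ orderOf g then 0 else (χ : G → ℂ) g) := by
            simp only [Finset.mul_sum]
            rw [Finset.sum_comm]
            refine Finset.sum_congr rfl fun g _ => ?_
            rw [Finset.sum_apply]
            split_ifs <;> simp
        _ = 0 := Finset.sum_eq_zero fun χ _ => by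
            by_cases h : m χ = 0
            · simp [h]
            · rw [by_contra fun hne => hc χ h (mem_principal_of_sum_ne hM hne), mul_zero]
    obtain ⟨χ, hmχ, hχ⟩ := hex
    have hres : ∀ n : N, (χ : G → ℂ) n = (θ : N → ℂ) n := by
      have h1 : classInner (θ : N → ℂ) (fun n : N => (χ : G → ℂ) n) ≠ 0 := by
        rw [← classInner_indFun N _ χ.2.isClassFunction, hm, classInner_sum_irr]
        exact_mod_cast hmχ
      by_contra hne
      exact h1 (classInner_irr_ne θ.2 (hirr χ hχ) fun e => hne fun n => (congrFun e n).symm)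
    refine ⟨χ, ⟨hχ, hres⟩, fun χ' hχ' => ?_⟩
    by_contra hne
    have h1 := hiso χ' χ hχ'.1 hχ
    have h2 : (fun n : N => (χ' : G → ℂ) n) = fun n : N => (χ : G → ℂ) n :=
      funext fun n => (hχ'.2 n).trans (hres n).symm
    rw [h2, classInner_irr_self (hirr χ hχ), classInner_irr_ne χ'.2 χ.2 fun e => hne (Subtype.ext e)] at h1
    exact one_ne_zero h1

end Cfsg.Agent.S4551
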