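import Cfsg.Statements.S4558
import Mathlib
import Cfsg.Agent.Lib.Blocks.Heights
import Cfsg.Agent.Lib.Blocks.Exists

set_option autoImplicit false
open Cfsg

namespace Cfsg.Agent.S4558

/-- Let χ be a character of the finite group G and g an element of p-power order for the prime p. If χ g = 0, then p divides the degree of χ. -/
theorem result {G : Type*} [Group G] [Finite G] (p : ℕ) [Fact p.Prime] (χ : G → ℂ) (hχ : Cfsg.IsCharacter G χ) (g : G) (hg : ∃ j : ℕ, orderOf g = p ^ j) (h0 : χ g = 0) : p ∣ Cfsg.charDegree χ := by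
  classical
  haveI := Fintype.ofFinite G
  obtain ⟨M, hM⟩ := Cfsg.Lib.Blocks.exists_isPModular p
  haveI := hM.2.1.isPrime
  obtain ⟨m, hm⟩ := Cfsg.Lib.Characters.exists_decomposition hχ
  obtain ⟨d, hd⟩ := Cfsg.Lib.Characters.exists_degree hχ
  have h1 : Cfsg.Lib.Blocks.red M (χ g) = Cfsg.Lib.Blocks.red M (χ 1) := by
    rw [hm]
    simp only [Finset.sum_apply, Pi.smul_apply, smul_eq_mul]
    rw [Cfsg.Lib.Blocks.red_sum _ fun ψ _ => mul_mem (natCast_mem _ _) (Cfsg.Lib.Blocks.char_mem_locRing M ψ g),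
      Cfsg.Lib.Blocks.red_sum _ fun ψ _ => mul_mem (natCast_mem _ _) (Cfsg.Lib.Blocks.char_mem_locRing M ψ 1)]
    refine Finset.sum_congr rfl fun ψ _ => ?_
    rw [Cfsg.Lib.Blocks.red_mul (natCast_mem _ _) (Cfsg.Lib.Blocks.char_mem_locRing M ψ g),
      Cfsg.Lib.Blocks.red_mul (natCast_mem _ _) (Cfsg.Lib.Blocks.char_mem_locRing M ψ 1)]
    congr 1
    have h := Cfsg.Lib.Blocks.red_char_mul_pPart hM ψ (Commute.one_right g) hg
      (by simpa using (Fact.out : p.Prime).ne_one)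
    rwa [mul_one] at h
  rw [h0, Cfsg.Lib.Blocks.red_zero, hd, Cfsg.Lib.Blocks.red_natCast] at h1
  rw [Cfsg.Lib.Blocks.charDegree_eq hd]
  exact (Cfsg.Lib.Blocks.natCast_resF_eq_zero hM d).mp h1.symm

end Cfsg.Agent.S4558
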