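import Cfsg.Agent.Lib.Blocks.CentralTypeEmbedding
import Cfsg.Agent.Lib.Blocks.DefectZero
import Cfsg.Statements.S4561
-- import your own Cfsg.Agent.* helpers here

set_option autoImplicit false
universe u
open Cfsg

namespace Cfsg.Agent.S4561

/-- For every finite solvable group G there is a finite group H with a faithful irreducible character χ whose degree squared equals the index of the centre Z(H) (so χ is fully ramified over the centre), such that G is isomorphic to a subgroup of H/Z(H), the primes dividing the orders of H, of Z(H) and of G are the same, and the order of Z(H) is squarefree. -/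
theorem result {G : Type u} [Group G] [Finite G] (hsolv : Group.IsSolvable G) : ∃ (H : Type u) (_ : Group H) (_ : Finite H) (χ : Cfsg.IrrCharacter H), (∀ h : H, (χ : H → ℂ) h = (χ : H → ℂ) 1 → h = 1) ∧ (Cfsg.charDegree (χ : H → ℂ)) ^ 2 = (Subgroup.center H).index ∧ (∃ f : G →* H ⧸ Subgroup.center H, Function.Injective f) ∧ (∀ p : ℕ, p.Prime → ((p ∣ Nat.card H ↔ p ∣ Nat.card G) ∧ (p ∣ Nat.card (Subgroup.center H) ↔ p ∣ Nat.card G))) ∧ Squarefree (Nat.card (Subgroup.center H)) := by
  set m := ∏ q ∈ (Nat.card G).primeFactors, q with hm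
  have hne : ∀ q ∈ (Nat.card G).primeFactors, q.Prime := fun q hq => Nat.prime_of_mem_primeFactors hq
  have hdvd : ∀ q : ℕ, q.Prime → (q ∣ m ↔ q ∣ Nat.card G) := by
    intro q hq
    rw [hm, (Nat.prime_iff.mp hq).dvd_finsetProd_iff]
    constructor
    · rintro ⟨r, hr, hqr⟩
      rw [(Nat.prime_dvd_prime_iff_eq hq (hne r hr)).mp hqr]
      exact Nat.dvd_of_mem_primeFactors hr
    · exact fun h => ⟨q, Nat.mem_primeFactors.mpr ⟨hq, h, Nat.card_pos.ne'⟩, dvd_rfl⟩
  have hsf : Squarefree m := by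
    refine Nat.squarefree_iff_prime_squarefree.mpr fun q hq hqq => ?_
    rw [hm] at hqq
    by_cases hqmem : q ∈ (Nat.card G).primeFactors
    · rw [← Finset.mul_prod_erase _ _ hqmem] at hqq
      have h1 := (Nat.mul_dvd_mul_iff_left hq.pos).mp hqq
      obtain ⟨r, hr, hqr⟩ := ((Nat.prime_iff.mp hq).dvd_finsetProd_iff _).mp h1
      exact Finset.ne_of_mem_erase hr
        ((Nat.prime_dvd_prime_iff_eq hq (hne r (Finset.mem_of_mem_erase hr))).mp hqr).symm
    · obtain ⟨r, hr, hqr⟩ := ((Nat.prime_iff.mp hq).dvd_finsetProd_iff _).mp ((dvd_mul_right q q).trans hqq)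
      exact hqmem ((Nat.prime_dvd_prime_iff_eq hq (hne r hr)).mp hqr ▸ hr)
  obtain ⟨H, hgrp, hfin, ⟨D⟩, f, hf⟩ :=
    Cfsg.Lib.Blocks.CentralType.exists_data _ G rfl hsolv m hsf fun q hq h => (hdvd q hq).mpr h
  refine ⟨H, hgrp, inferInstance, D.χ, D.faithful, ?_, ⟨f, hf⟩, fun p hp => ⟨⟨?_, ?_⟩, ?_⟩, ?_⟩
  · rw [Cfsg.Lib.Blocks.charDegree_eq D.deg_eq, D.sq]
  · exact fun h => (hdvd p hp).mp (D.primes p hp h)
  · intro h
    exact ((hdvd p hp).mpr h).trans (D.cardZ ▸ Subgroup.card_subgroup_dvd_card _)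
  · rw [D.cardZ]; exact hdvd p hp
  · rw [D.cardZ]; exact hsf

end Cfsg.Agent.S4561
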