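import Cfsg.Statements.S4565
import Cfsg.Agent.Lib.Characters.Gallagher

set_option autoImplicit false
set_option maxHeartbeats 1000000
open Cfsg Cfsg.Lib.Characters
open scoped ComplexConjugate

namespace Cfsg.Agent.S4565

/-- Let χ be an irreducible character of the finite group H that is fully ramified over the normal subgroup Z: the restriction of χ to Z is e times an irreducible character of Z with e ^ 2 equal to the index of Z. If Z ≠ H, then H/Z has no cyclic subgroup that is its own centralizer. -/
theorem result {H : Type*} [Group H] [Finite H] (Z : Subgroup H) [Z.Normal] (χ : Cfsg.IrrCharacter H) (hfr : ∃ (θ : Cfsg.IrrCharacter ↥Z) (e : ℕ), e ^ 2 = Z.index ∧ ∀ z : ↥Z, (χ : H → ℂ) z = (e : ℂ) * (θ : ↥Z → ℂ) z) (hZ : Z ≠ ⊤) (C : Subgroup (H ⧸ Z)) (hC : IsCyclic C) : Subgroup.centralizer (C : Set (H ⧸ Z)) ≠ C := by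
  classical
  haveI := Fintype.ofFinite H
  haveI := Fintype.ofFinite Z
  obtain ⟨θ, e, he, hres⟩ := hfr
  intro hcent
  have hne : C ≠ ⊥ := by
    rintro rfl
    apply hZ
    rw [eq_top_iff]
    intro h _
    rw [← QuotientGroup.eq_one_iff, ← Subgroup.mem_bot, ← hcent, Subgroup.mem_centralizer_iff]
    intro y hy
    rw [SetLike.mem_coe, Subgroup.mem_bot] at hy
    rw [hy, one_mul, mul_one]
  have he0 : e ≠ 0 := fun h0 => Subgroup.index_ne_zero_of_finite (H := Z) (by rw [← he, h0]; rfl)
  have heC : (e : ℂ) ≠ 0 := Nat.cast_ne_zero.mpr he0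
  have hinv : ∀ g, conjFn Z θ.1 g = θ.1 := fun g => by
    funext n
    refine mul_left_cancel₀ heC ?_
    rw [conjFn_apply, ← hres, ← hres]
    exact congrFun (res_conjFn χ.2.isClassFunction g (N := Z)) n
  -- vanishing outside `Z`
  have hself : classInner (fun z : Z => (χ : H → ℂ) z) (fun z : Z => (χ : H → ℂ) z) = (e : ℂ) ^ 2 := by
    rw [show (fun z : Z => (χ : H → ℂ) z) = (e : ℂ) • θ.1 from funext hres, classInner_smul_left,
      classInner_smul_right, classInner_irr_self θ.2, Complex.conj_natCast]
    ring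
  have hvan : ∀ g : H, g ∉ Z → (χ : H → ℂ) g = 0 := by
    have h1 := classInner_irr_self χ.2
    rw [classInner] at h1 hself
    rw [inv_mul_eq_iff_eq_mul₀ (Nat.cast_ne_zero.mpr Nat.card_pos.ne'), mul_one,
      ← Finset.sum_filter_add_sum_filter_not Finset.univ (fun g : H => g ∈ Z),
      Finset.sum_subtype (Finset.univ.filter fun g : H => g ∈ Z) (p := (· ∈ Z)) (by simp)] at h1
    rw [inv_mul_eq_iff_eq_mul₀ (Nat.cast_ne_zero.mpr Nat.card_pos.ne')] at hself
    have h2 : (Nat.card Z : ℂ) * (e : ℂ) ^ 2 = Nat.card H := by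
      rw [← Nat.cast_pow, he, ← Nat.cast_mul, Subgroup.card_mul_index]
    rw [hself, h2, add_eq_left] at h1
    intro g hg
    have h3 : ∑ x ∈ Finset.univ.filter (fun x : H => ¬ x ∈ Z), Complex.normSq ((χ : H → ℂ) x) = 0 := by
      have : ((∑ x ∈ Finset.univ.filter (fun x : H => ¬ x ∈ Z), Complex.normSq ((χ : H → ℂ) x) : ℝ) : ℂ) = 0 := by
        rw [Complex.ofReal_sum, ← h1]
        exact Finset.sum_congr rfl fun x _ => (Complex.mul_conj _).symm
      exact_mod_cast this
    exact Complex.normSq_eq_zero.mp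
      ((Finset.sum_eq_zero_iff_of_nonneg fun x _ => Complex.normSq_nonneg _).mp h3 g (by simp [hg]))
  -- the only character over `θ` is `χ`
  have hind : indFun Z θ.1 = (e : ℂ) • (χ : H → ℂ) := by
    refine sub_eq_zero.mp (classInner_self_eq_zero ?_)
    have h1 : classInner (indFun Z θ.1) (χ : H → ℂ) = e := by
      rw [classInner_indFun Z θ.1 χ.2.isClassFunction, show (fun z : Z => (χ : H → ℂ) z) = (e : ℂ) • θ.1
        from funext hres, classInner_smul_right, classInner_irr_self θ.2, Complex.conj_natCast, mul_one]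
    have h2 : classInner (χ : H → ℂ) (indFun Z θ.1) = e := by
      rw [← conj_classInner, h1, Complex.conj_natCast]
    rw [classInner_sub_left, classInner_sub_right, classInner_sub_right, classInner_smul_left,
      classInner_smul_right, classInner_smul_left, classInner_smul_right, classInner_irr_self χ.2, h1, h2,
      classInner_indFun_self_of_invariant θ.2 hinv, Complex.conj_natCast, ← he, Nat.cast_pow]
    ring
  -- the extension to the preimage of `C`
  let K : Subgroup H := C.comap (QuotientGroup.mk' Z)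
  have hZK : Z ≤ K := fun z hz => by
    show (z : H ⧸ Z) ∈ C
    rw [(QuotientGroup.eq_one_iff z).mpr hz]
    exact one_mem C
  haveI := Fintype.ofFinite K
  let Z' : Subgroup K := Z.subgroupOf K
  let π : K →* C :=
    { toFun := fun k => ⟨QuotientGroup.mk' Z (k : H), k.2⟩
      map_one' := Subtype.ext (map_one _)
      map_mul' := fun a b => Subtype.ext (map_mul _ _ _) }
  have hπ : Function.Surjective π := fun x => by
    obtain ⟨h, hh⟩ := QuotientGroup.mk'_surjective Z x.1
    exact ⟨⟨h, show QuotientGroup.mk' Z h ∈ C from hh.symm ▸ x.2⟩, Subtype.ext hh⟩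
  have hπker : π.ker = Z' := by
    ext k
    show (⟨_, k.2⟩ : C) = 1 ↔ (k : H) ∈ Z
    rw [Subtype.ext_iff]
    exact QuotientGroup.eq_one_iff _
  have hcyc : IsCyclic (K ⧸ Z') :=
    ((QuotientGroup.quotientMulEquivOfEq hπker.symm).trans
      (QuotientGroup.quotientKerEquivOfSurjective π hπ)).isCyclic.mpr hC
  let e' : Z' ≃* Z := Subgroup.subgroupOfEquivOfLe hZK
  have hθ' : IsIrrCharacter Z' (fun z => θ.1 (e' z)) :=
    isIrrCharacter_comp_surjective θ.2 e'.toMonoidHom e'.surjective
  have hinv' : ∀ k : K, conjFn Z' (fun z => θ.1 (e' z)) k = fun z => θ.1 (e' z) := fun k => funext fun z => by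
    rw [conjFn_apply]
    refine Eq.trans ?_ (congrFun (hinv (k : H)) (e' z))
    rw [conjFn_apply]
    exact congrArg θ.1 (Subtype.ext rfl)
  obtain ⟨μ, hμ, hμZ⟩ := exists_extension_of_cyclic hcyc hθ' hinv'
  -- linear characters of `C` and their products with `μ`
  haveI := Fintype.ofFinite C
  haveI : IsMulCommutative C := IsCyclic.isMulCommutative
  let β : IrrCharacter C → K → ℂ := fun l k => (l : C → ℂ) (π k)
  have hβ : ∀ l, IsIrrCharacter K (β l) := fun l => isIrrCharacter_comp_surjective l.2 π hπ
  haveI := Fintype.ofFinite Z'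
  have hβZ : ∀ (l : IrrCharacter C) (z : Z'), β l z = 1 := fun l z => by
    show (l : C → ℂ) (π z) = 1
    rw [show π (z : K) = 1 from MonoidHom.mem_ker.mp ((SetLike.ext_iff.mp hπker (z : K)).mpr z.2)]
    exact degree_one_of_isMulCommutative l.2
  have hβne : ∀ l, classInner (indFun Z' fun _ => (1 : ℂ)) (β l) ≠ 0 := fun l => by
    rw [classInner_indFun Z' _ (hβ l).isClassFunction, show (fun z : Z' => β l z) = fun _ => (1 : ℂ)
      from funext (hβZ l), classInner_irr_self isIrrCharacter_one]
    exact one_ne_zero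
  obtain ⟨hG1, hG2, -⟩ := gallagher (φ := fun _ : Z' => (1 : ℂ)) (θ := fun z => θ.1 (e' z))
    isIrrCharacter_one (fun k => funext fun z => by rw [conjFn_apply]) hinv'
    (by convert hθ' using 1; funext z; simp) hμ hμZ
  obtain ⟨c₀, hc₀⟩ := hC.exists_generator
  obtain ⟨c, hc⟩ := hπ c₀
  let f : K → ℂ := fun k => if π k = c₀ then μ k else 0
  have hfexp : f = (Nat.card C : ℂ)⁻¹ • ∑ l : IrrCharacter C, conj ((l : C → ℂ) c₀) • (β l * μ) := by
    funext k
    simp only [Pi.smul_apply, Finset.sum_apply, smul_eq_mul, Pi.mul_apply, f, β]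
    have h1 : ∑ l : IrrCharacter C, conj ((l : C → ℂ) c₀) * ((l : C → ℂ) (π k) * μ k)
        = (if π k = c₀ then (Nat.card C : ℂ) else 0) * μ k := by
      rw [show (if π k = c₀ then (Nat.card C : ℂ) else 0)
          = ∑ l : IrrCharacter C, (l : C → ℂ) (π k) * conj ((l : C → ℂ) c₀) by
        rw [column_orthogonality]
        by_cases hk : π k = c₀
        · rw [if_pos hk, if_pos (hk ▸ IsConj.refl c₀), show Subgroup.centralizer ({c₀} : Set C) = ⊤ from
            eq_top_iff.mpr fun x _ => Subgroup.mem_centralizer_iff.mpr fun y _ => mul_comm' y x,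
            Subgroup.card_top]
        · rw [if_neg hk, if_neg]
          intro h
          obtain ⟨x, hx⟩ := isConj_iff.mp h
          exact hk (by rw [← hx, mul_comm' x, mul_inv_cancel_right]), Finset.sum_mul]
      exact Finset.sum_congr rfl fun l _ => by ring
    rw [h1]
    split_ifs
    · rw [← mul_assoc, inv_mul_cancel₀ (Nat.cast_ne_zero.mpr Nat.card_pos.ne'), one_mul]
    · simp
  let incl : Z →* K := Subgroup.inclusion hZK
  have hover : ∀ (ψ : IrrCharacter H) (l : IrrCharacter C), ψ ≠ χ →
      classInner (β l * μ) (fun k : K => (ψ : H → ℂ) k) = 0 := by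
    intro ψ l hψ
    have hψZ : classInner (fun z : Z => (ψ : H → ℂ) z) θ.1 = 0 := by
      have h1 : classInner (indFun Z θ.1) (ψ : H → ℂ) = 0 := by
        rw [hind, classInner_smul_left, classInner_irr_ne χ.2 ψ.2 (fun h => hψ (Subtype.ext h.symm)), mul_zero]
      rw [classInner_indFun Z θ.1 ψ.2.isClassFunction] at h1
      rw [← conj_classInner, h1, map_zero]
    obtain ⟨m, hm⟩ := exists_decomposition (isCharacter_restrict ψ.2.isCharacter K)
    let ν : IrrCharacter K := ⟨β l * μ, (hG1 _ (hβ l) (hβne l)).1⟩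
    choose n hn using fun ρ : IrrCharacter K =>
      classInner_nat (isCharacter_comp ρ.2.isCharacter incl) θ.2.isCharacter
    have hsum : classInner (fun z : Z => (ψ : H → ℂ) z) θ.1 = ((∑ ρ, m ρ * n ρ : ℕ) : ℂ) := by
      rw [show (fun z : Z => (ψ : H → ℂ) z) = ∑ ρ : IrrCharacter K, (m ρ : ℂ) • (fun z => (ρ : K → ℂ) (incl z))
        from funext fun z => by simpa [incl] using congrFun hm (incl z), classInner_sum_left, Nat.cast_sum]
      exact Finset.sum_congr rfl fun ρ _ => by rw [classInner_smul_left, hn, Nat.cast_mul]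
    have hνn : n ν = 1 := by
      have h1 := hn ν
      rw [show (fun z => (ν : K → ℂ) (incl z)) = θ.1 from funext fun z => by
        show β l (incl z) * μ (incl z) = _
        have hm' : incl z ∈ Z' := z.2
        rw [hβZ l ⟨_, hm'⟩, one_mul, hμZ ⟨_, hm'⟩]
        exact congrArg θ.1 (Subtype.ext rfl), classInner_irr_self θ.2] at h1
      exact_mod_cast h1.symm
    rw [hψZ, eq_comm, Nat.cast_eq_zero, Finset.sum_eq_zero_iff] at hsum
    have h0 := hsum ν (Finset.mem_univ _)
    rw [hνn, mul_one] at h0
    rw [← conj_classInner, hm]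
    show conj (classInner _ (ν : K → ℂ)) = 0
    rw [classInner_sum_irr, h0, Nat.cast_zero, map_zero]
  have hzero : indFun K f = 0 := by
    refine eq_zero_of_forall_classInner (isClassFunction_indFun K f) fun ψ => ?_
    rw [classInner_indFun K f ψ.2.isClassFunction]
    by_cases hψ : ψ = χ
    · subst hψ
      rw [classInner]
      refine mul_eq_zero_of_right _ (Finset.sum_eq_zero fun k _ => ?_)
      by_cases hk : π k = c₀
      · rw [hvan k, map_zero, mul_zero]
        intro hkZ
        rw [(SetLike.ext_iff.mp hπker k).mpr hkZ] at hk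
        refine hne (eq_bot_iff.mpr fun x hx => ?_)
        obtain ⟨i, hi⟩ := Subgroup.mem_zpowers_iff.mp (hc₀ ⟨x, hx⟩)
        rw [← hk, one_zpow] at hi
        exact Subgroup.mem_bot.mpr (congrArg Subtype.val hi).symm
      · simp only [f, if_neg hk, zero_mul]
    · rw [hfexp, classInner_smul_left, classInner_sum_left, Finset.sum_eq_zero (fun l _ => by
        rw [classInner_smul_left, hover ψ l hψ, mul_zero]), mul_zero]
  have hμ0 : ∀ k : K, π k = c₀ → μ k = 0 := by
    intro k hk
    have h1 := congrFun hzero (k : H)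
    simp only [indFun, Pi.zero_apply] at h1
    have hterm : ∀ x : H, extendByZero K f (x⁻¹ * k * x) = if x ∈ K then μ k else 0 := by
      intro x
      by_cases hxK : x ∈ K
      · rw [if_pos hxK, extendByZero_mem f (mul_mem (mul_mem (inv_mem hxK) k.2) hxK)]
        have hconj : π ⟨x⁻¹ * k * x, mul_mem (mul_mem (inv_mem hxK) k.2) hxK⟩ = c₀ := by
          rw [← hk, show (⟨x⁻¹ * k * x, mul_mem (mul_mem (inv_mem hxK) k.2) hxK⟩ : K)
            = (⟨x, hxK⟩ : K)⁻¹ * k * ⟨x, hxK⟩ from rfl, map_mul, map_mul, mul_comm' _ (π ⟨x, hxK⟩),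
            map_inv, mul_inv_cancel_left]
        simp only [f, if_pos hconj]
        have := hμ.isClassFunction k (⟨x, hxK⟩ : K)⁻¹
        rw [inv_inv] at this
        exact this
      · rw [if_neg hxK]
        by_cases hy : x⁻¹ * k * x ∈ K
        · rw [extendByZero_mem f hy]
          simp only [f]
          rw [if_neg]
          intro h
          apply hxK
          show QuotientGroup.mk' Z x ∈ C
          rw [← hcent, Subgroup.mem_centralizer_iff]
          intro y hy'
          obtain ⟨i, hi⟩ := Subgroup.mem_zpowers_iff.mp (hc₀ ⟨y, hy'⟩)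
          have hcomm : Commute (QuotientGroup.mk' Z x) (c₀ : H ⧸ Z) := by
            have h2 : QuotientGroup.mk' Z (x⁻¹ * k * x) = (c₀ : H ⧸ Z) := congrArg Subtype.val h
            have h3 : QuotientGroup.mk' Z (k : H) = (c₀ : H ⧸ Z) := congrArg Subtype.val hk
            rw [map_mul, map_mul, map_inv, h3, mul_assoc, inv_mul_eq_iff_eq_mul] at h2
            exact h2.symm
          rw [← show ((c₀ ^ i : C) : H ⧸ Z) = y from congrArg Subtype.val hi, Subgroup.coe_zpow]
          exact (hcomm.zpow_right i).eq.symm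
        · exact extendByZero_not_mem f hy
    rw [Finset.sum_congr rfl fun x _ => hterm x, ← Finset.sum_filter, Finset.sum_const,
      nsmul_eq_mul] at h1
    rcases mul_eq_zero.mp h1 with h | h
    · exact absurd h (inv_ne_zero (Nat.cast_ne_zero.mpr Nat.card_pos.ne'))
    · rcases mul_eq_zero.mp h with h | h
      · rw [Nat.cast_eq_zero, Finset.card_eq_zero] at h
        exact absurd h (Finset.Nonempty.ne_empty ⟨1, by simp⟩)
      · exact h
  have hf0 : classInner f μ = 0 := by
    rw [classInner]
    refine mul_eq_zero_of_right _ (Finset.sum_eq_zero fun k _ => ?_)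
    by_cases hk : π k = c₀
    · simp only [f, if_pos hk, hμ0 k hk, zero_mul]
    · simp only [f, if_neg hk, zero_mul]
  let one : IrrCharacter C := ⟨fun _ => 1, isIrrCharacter_one⟩
  have hone : β one * μ = μ := by funext k; simp [β, one]
  rw [hfexp, classInner_smul_left, classInner_sum_left, Finset.sum_eq_single one (fun l _ hl => by
    rw [classInner_smul_left, classInner_irr_ne (hG1 _ (hβ l) (hβne l)).1 hμ, mul_zero]
    intro heq
    apply hl
    have := hG2 _ _ (hβ l) (hβ one) (hβne l) (hβne one) (heq.trans hone.symm)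
    refine Subtype.ext (funext fun x => ?_)
    obtain ⟨k, rfl⟩ := hπ x
    exact congrFun this k) (fun h => absurd (Finset.mem_univ _) h), classInner_smul_left, hone,
    classInner_irr_self hμ] at hf0
  simp [one, Nat.card_pos.ne'] at hf0

end Cfsg.Agent.S4565
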