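import Cfsg.Statements.S4566
import Mathlib
import Cfsg.Agent.Lib.Characters.Integrality

set_option autoImplicit false
open Cfsg

namespace Cfsg.Agent.S4566

/-- Let N be a central subgroup of the finite group G, ψ a faithful irreducible (hence degree-one) character of N, and χ an irreducible character of G whose restriction to N contains ψ. If g ∈ G and some x ∈ G has commutator x⁻¹ g⁻¹ x g in N but different from 1, then χ g = 0. -/
theorem result {G : Type*} [Group G] [Fintype G] (N : Subgroup G) [Fintype N] (hN : N ≤ Subgroup.center G) (ψ : Cfsg.IrrCharacter ↥N) (hfaith : ∀ n : ↥N, (ψ : ↥N → ℂ) n = (ψ : ↥N → ℂ) 1 → n = 1) (χ : Cfsg.IrrCharacter G) (hover : Cfsg.classInner (fun n : ↥N => (χ : G → ℂ) n) (ψ : ↥N → ℂ) ≠ 0) (g x : G) (hcomm : x⁻¹ * g⁻¹ * x * g ∈ N) (hne : x⁻¹ * g⁻¹ * x * g ≠ 1) : (χ : G → ℂ) g = 0 := by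
  classical
  haveI : IsMulCommutative N := ⟨⟨fun a b => Subtype.ext
    (Subgroup.mem_center_iff.mp (hN b.2) a)⟩⟩
  obtain ⟨lam, hlam⟩ := Cfsg.Lib.Characters.exists_hom_of_degree_one ψ.2.isCharacter
    (Cfsg.Lib.Characters.degree_one_of_isMulCommutative ψ.2)
  set m : N := ⟨x⁻¹ * g⁻¹ * x * g, hcomm⟩ with hm
  obtain ⟨χ, k, ρ, hρ, rfl⟩ := χ
  haveI := hρ
  obtain ⟨c, hc⟩ := Cfsg.Lib.Characters.schur_scalar ρ (ρ (m : G)) fun w => by
    rw [← map_mul, ← map_mul, Subgroup.mem_center_iff.mp (hN m.2) w]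
  have hscal : ∀ h : G, ρ.character ((m : G) * h) = c * ρ.character h := by
    intro h
    rw [Representation.character, map_mul, hc, ← Module.End.one_eq_id, smul_mul_assoc, one_mul,
      map_smul, smul_eq_mul]
    rfl
  have hc1 : c ≠ 1 := by
    intro h1
    apply hover
    have hkey : ∀ h : N, ρ.character ((m * h : N) : G) = ρ.character (h : G) := fun h => by
      rw [Subgroup.coe_mul, hscal, h1, one_mul]
    have hlam1 : (lam m : ℂ) ≠ 1 := fun hl => hne (by
      have := hfaith m (by rw [hlam]; simpa using hl)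
      exact congrArg Subtype.val this)
    set S := ∑ h : N, ρ.character (h : G) * (starRingEnd ℂ) ((lam h : ℂ)) with hS
    have hsum : S = (starRingEnd ℂ) (lam m : ℂ) * S := by
      rw [hS, Finset.mul_sum]
      refine (Fintype.sum_equiv (Equiv.mulLeft m) _ _ fun h => ?_).symm
      simp only [Equiv.coe_mulLeft, hkey, map_mul, Units.val_mul]
      ring
    have hS0 : S = 0 := by
      by_contra hne0
      apply hlam1
      have h2 : (starRingEnd ℂ) (lam m : ℂ) = 1 := mul_right_cancel₀ hne0 (by rw [one_mul, ← hsum])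
      simpa using congrArg (starRingEnd ℂ) h2
    show Cfsg.classInner (fun n : N => ρ.character (n : G)) (ψ : N → ℂ) = 0
    rw [Cfsg.classInner, hlam]
    exact mul_eq_zero_of_right _ hS0
  show ρ.character g = 0
  have h1 : ρ.character ((m : G) * g⁻¹) = ρ.character g⁻¹ := by
    have e : (m : G) * g⁻¹ = x⁻¹ * g⁻¹ * x := by simp [hm, mul_assoc]
    rw [e]
    have h := Cfsg.Lib.Characters.isClassFunction_of_isCharacter
      (Cfsg.Lib.Characters.isCharacter_character ρ) g⁻¹ x⁻¹
    rwa [inv_inv] at h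
  rw [hscal, Cfsg.Lib.Characters.char_inv_eq_conj (Cfsg.Lib.Characters.isCharacter_character ρ)] at h1
  by_contra h0
  exact hc1 ((mul_eq_right₀ (by simpa using h0)).mp h1)

end Cfsg.Agent.S4566
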