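import Cfsg.Statements.S4567
import Cfsg.Agent.Lib.Blocks.Kernel
import Cfsg.Agent.Lib.Characters.Normal
-- import your own Cfsg.Agent.* helpers here

set_option autoImplicit false
open Cfsg Cfsg.Lib.Characters Cfsg.Lib.Blocks
open scoped ComplexConjugate

namespace Cfsg.Agent.S4567

/-- Let N be a central subgroup of the finite group G and ψ a faithful irreducible (hence degree-one) character of N. Call a coset g N special when every x ∈ G whose commutator x⁻¹ g⁻¹ x g lies in N actually commutes with g (this depends only on the coset). Then the number of irreducible characters of G whose restriction to N contains ψ equals the number of conjugacy classes of G/N consisting of special cosets. -/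
theorem result {G : Type*} [Group G] [Fintype G] (N : Subgroup G) [N.Normal] [Fintype N] (hN : N ≤ Subgroup.center G) (ψ : Cfsg.IrrCharacter ↥N) (hfaith : ∀ n : ↥N, (ψ : ↥N → ℂ) n = (ψ : ↥N → ℂ) 1 → n = 1) : Nat.card {χ : Cfsg.IrrCharacter G // Cfsg.classInner (fun n : ↥N => (χ : G → ℂ) n) (ψ : ↥N → ℂ) ≠ 0} = Nat.card {C : ConjClasses (G ⧸ N) // ∃ g : G, ConjClasses.mk (g : G ⧸ N) = C ∧ ∀ x : G, x⁻¹ * g⁻¹ * x * g ∈ N → x * g = g * x} := by
  classical
  haveI : IsMulCommutative ↥N := ⟨⟨fun a b => Subtype.ext (Subgroup.mem_center_iff.mp (hN b.2) a)⟩⟩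
  have hψ1 : (ψ : N → ℂ) 1 = 1 := degree_one_of_isMulCommutative ψ.2
  obtain ⟨l, hl⟩ := exists_hom_of_degree_one ψ.2.isCharacter hψ1
  have hcomm : ∀ (g : G) (n : N), (n : G) * g = g * n := fun g n => (Subgroup.mem_center_iff.mp (hN n.2) g).symm
  have hcen : ∀ (χ : IrrCharacter G) (g : G) (n : N),
      (χ : G → ℂ) (g * n) = (χ : G → ℂ) g * (χ : G → ℂ) n / (χ : G → ℂ) 1 := by
    intro χ g n
    have h := sum_conj_mul χ g (n : G)
    rw [Finset.sum_congr rfl fun z _ => show (χ : G → ℂ) (g * (z * n * z⁻¹)) = (χ : G → ℂ) (g * n) by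
      rw [← hcomm z n, mul_inv_cancel_right], Finset.sum_const, Finset.card_univ, ← Nat.card_eq_fintype_card,
      nsmul_eq_mul, mul_div_assoc] at h
    exact mul_left_cancel₀ (Nat.cast_ne_zero.mpr Nat.card_pos.ne') h
  set S : Finset (IrrCharacter G) := Finset.univ.filter fun χ =>
    classInner (fun n : N => (χ : G → ℂ) n) (ψ : N → ℂ) ≠ 0 with hS
  have hproj : ∀ (χ : IrrCharacter G) (g : G),
      (Nat.card N : ℂ)⁻¹ * ∑ n : N, conj ((ψ : N → ℂ) n) * (χ : G → ℂ) (g * n)
        = if χ ∈ S then (χ : G → ℂ) g else 0 := by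
    intro χ g
    have h1 : (Nat.card N : ℂ)⁻¹ * ∑ n : N, conj ((ψ : N → ℂ) n) * (χ : G → ℂ) (g * n)
        = (χ : G → ℂ) g / (χ : G → ℂ) 1 * classInner (fun n : N => (χ : G → ℂ) n) (ψ : N → ℂ) := by
      rw [classInner, Finset.mul_sum, Finset.mul_sum, Finset.mul_sum]
      exact Finset.sum_congr rfl fun n _ => by rw [hcen]; ring
    rw [h1]
    by_cases hχ : χ ∈ S
    · rw [if_pos hχ]
      have hne := (Finset.mem_filter.mp hχ).2
      have h2 := congrFun (clifford χ.2 ψ.2 hne) 1
      have horb : orbitFinset N ψ.1 = {ψ.1} := by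
        ext f
        rw [mem_orbitFinset, Finset.mem_singleton]
        refine ⟨?_, fun e => ⟨1, by rw [conjFn_one, e]⟩⟩
        rintro ⟨x, rfl⟩
        funext n
        rw [conjFn_apply]
        exact congrArg ψ.1 (Subtype.ext (by
          show x * (n : G) * x⁻¹ = n
          rw [← hcomm x n, mul_inv_cancel_right]))
      rw [horb, Finset.sum_singleton, Pi.smul_apply, smul_eq_mul, hψ1, mul_one, OneMemClass.coe_one] at h2
      rw [← h2, div_mul_cancel₀ _ χ.2.one_ne_zero]
    · rw [if_neg hχ]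
      have : classInner (fun n : N => (χ : G → ℂ) n) (ψ : N → ℂ) = 0 := by
        by_contra h; exact hχ (Finset.mem_filter.mpr ⟨Finset.mem_univ _, h⟩)
      rw [this, mul_zero]
  let Sp : G → Prop := fun g => ∀ x : G, x⁻¹ * g⁻¹ * x * g ∈ N → x * g = g * x
  let C : G → Subgroup G := fun g => Subgroup.centralizer ({g} : Set G)
  have hT : ∀ g : G, ∑ χ ∈ S, (χ : G → ℂ) g * conj ((χ : G → ℂ) g)
      = if Sp g then (Nat.card N : ℂ)⁻¹ * Nat.card (C g) else 0 := by
    intro g
    have h1 : ∑ χ ∈ S, (χ : G → ℂ) g * conj ((χ : G → ℂ) g)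
        = (Nat.card N : ℂ)⁻¹ * ∑ n : N, conj ((ψ : N → ℂ) n) *
            (if IsConj (g * n) g then (Nat.card (C g) : ℂ) else 0) := by
      rw [show (∑ χ ∈ S, (χ : G → ℂ) g * conj ((χ : G → ℂ) g))
          = ∑ χ : IrrCharacter G, (if χ ∈ S then (χ : G → ℂ) g else 0) * conj ((χ : G → ℂ) g) by
        simp only [ite_mul, zero_mul, Finset.sum_ite_mem, Finset.univ_inter]]
      simp only [← hproj, Finset.mul_sum, Finset.sum_mul]
      rw [Finset.sum_comm]
      refine Finset.sum_congr rfl fun n _ => ?_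
      rw [← column_orthogonality (g * n) g, Finset.mul_sum, Finset.mul_sum]
      exact Finset.sum_congr rfl fun χ _ => by ring
    rw [h1]
    by_cases hg : Sp g
    · rw [if_pos hg, Finset.sum_eq_single (1 : N)]
      · rw [OneMemClass.coe_one, mul_one, if_pos (IsConj.refl g), hψ1, map_one, one_mul]
      · intro n _ hn
        rw [if_neg, mul_zero]
        intro hc
        obtain ⟨x, hx⟩ := isConj_iff.mp hc
        apply hn
        have he : x⁻¹ * g⁻¹ * x * g = ((n⁻¹ : N) : G) := by
          have h2 : g * (n : G) = x⁻¹ * g * x := by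
            calc g * (n : G) = x⁻¹ * (x * (g * n) * x⁻¹) * x := by group
              _ = x⁻¹ * g * x := by rw [hx]
          rw [show x⁻¹ * g⁻¹ * x = (x⁻¹ * g * x)⁻¹ by group, ← h2]
          push_cast
          group
        have h3 := hg x (he ▸ SetLike.coe_mem _)
        rw [show x⁻¹ * g⁻¹ * x * g = 1 by rw [mul_assoc _ x, h3]; group] at he
        exact inv_eq_one.mp (Subtype.ext he.symm)
      · simp
    · rw [if_neg hg]
      obtain ⟨x, hxN, hxne⟩ : ∃ x : G, x⁻¹ * g⁻¹ * x * g ∈ N ∧ x * g ≠ g * x := by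
        simpa [Sp, and_comm] using hg
      let n₀ : N := ⟨_, inv_mem hxN⟩
      have hn₀ : IsConj (g * n₀) g := isConj_iff.mpr ⟨x, by
        show x * (g * (x⁻¹ * g⁻¹ * x * g)⁻¹) * x⁻¹ = g
        group⟩
      have hn1 : n₀ ≠ 1 := by
        intro h
        apply hxne
        have h4 : (x⁻¹ * g⁻¹ * x * g)⁻¹ = 1 := congrArg Subtype.val h
        rw [inv_eq_one] at h4
        calc x * g = g * x * (x⁻¹ * g⁻¹ * x * g) := by group
          _ = g * x := by rw [h4, mul_one]
      have hl₀ : (l n₀ : ℂ) ≠ 1 := fun h => hn1 (hfaith n₀ (by rw [hψ1, hl]; exact h))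
      have hshift : ∀ n : N, IsConj (g * (n * n₀ : N)) g ↔ IsConj (g * n) g := by
        intro n
        obtain ⟨c, hc⟩ := isConj_iff.mp hn₀
        have : IsConj (g * (n * n₀ : N)) (g * n) := isConj_iff.mpr ⟨c, by
          rw [Subgroup.coe_mul, hcomm (n₀ : G) n, ← mul_assoc g, ← mul_assoc c]
          rw [mul_assoc _ (n : G), hcomm c⁻¹ n, ← mul_assoc, hc]⟩
        exact ⟨fun h => this.symm.trans h, fun h => this.trans h⟩
      set T := ∑ n : N, conj ((ψ : N → ℂ) n) * (if IsConj (g * n) g then (Nat.card (C g) : ℂ) else 0) with hTdef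
      have hT' : T = conj (l n₀ : ℂ) * T := by
        conv_lhs => rw [hTdef, ← Equiv.sum_comp (Equiv.mulRight n₀)]
        rw [hTdef, Finset.mul_sum]
        refine Finset.sum_congr rfl fun n _ => ?_
        simp only [Equiv.coe_mulRight, hshift, hl, map_mul, Units.val_mul]
        ring
      rcases eq_or_ne T 0 with h | h
      · rw [h, mul_zero]
      · exfalso
        apply hl₀
        have h5 : conj (l n₀ : ℂ) = 1 := mul_right_cancel₀ h (hT'.symm.trans (one_mul T).symm)
        simpa using congrArg conj h5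
  have hcount : (S.card : ℂ) * Nat.card G = ∑ g : G, if Sp g then (Nat.card N : ℂ)⁻¹ * Nat.card (C g) else 0 := by
    rw [← Finset.sum_congr rfl fun g _ => hT g, Finset.sum_comm, Finset.card_eq_sum_ones, Nat.cast_sum,
      Finset.sum_mul]
    refine Finset.sum_congr rfl fun χ _ => ?_
    have h := classInner_irr_self χ.2
    rw [classInner, inv_mul_eq_iff_eq_mul₀ (Nat.cast_ne_zero.mpr Nat.card_pos.ne')] at h
    rw [h, Nat.cast_one]
    ring
  -- classes of the quotient
  let Sq : G ⧸ N → Prop := fun q => ∃ g : G, (g : G ⧸ N) = q ∧ Sp g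
  have hcoset : ∀ (g : G) (n : N), Sp (g * n) ↔ Sp g := by
    intro g n
    have e : ∀ x : G, x⁻¹ * (g * n)⁻¹ * x * (g * n) = x⁻¹ * g⁻¹ * x * g := by
      intro x
      have hn' : ∀ y : G, ((n : G)⁻¹) * y = y * (n : G)⁻¹ := fun y => by
        have := hcomm y n⁻¹; simpa using this
      rw [mul_inv_rev, hn' g⁻¹, ← mul_assoc x⁻¹, mul_assoc _ (n : G)⁻¹ x, hn' x, ← mul_assoc,
        ← mul_assoc, mul_assoc _ (n : G)⁻¹ g, hn' g, ← mul_assoc, inv_mul_cancel_right]
    have e2 : ∀ x : G, x * (g * n) = g * n * x ↔ x * g = g * x := by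
      intro x
      rw [mul_assoc g, hcomm x n, ← mul_assoc, ← mul_assoc, mul_left_inj]
    simp only [Sp, e, e2]
  have hSq : ∀ g : G, Sq (g : G ⧸ N) ↔ Sp g := by
    refine fun g => ⟨?_, fun h => ⟨g, rfl, h⟩⟩
    rintro ⟨g', hg', h⟩
    have := (hcoset g' ⟨_, QuotientGroup.eq.mp hg'⟩).mpr h
    simpa using this
  haveI := Fintype.ofFinite (G ⧸ N)
  let D : G ⧸ N → Subgroup (G ⧸ N) := fun q => Subgroup.centralizer ({q} : Set (G ⧸ N))
  have hCD : ∀ g : G, Sp g → Nat.card (C g) = Nat.card (D (g : G ⧸ N)) * Nat.card N := by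
    intro g hg
    have hsub : (D (g : G ⧸ N)).comap (QuotientGroup.mk' N) = C g := by
      ext x
      simp only [D, C, Subgroup.mem_comap, Subgroup.mem_centralizer_singleton_iff, QuotientGroup.mk'_apply]
      rw [← QuotientGroup.mk_mul, ← QuotientGroup.mk_mul]
      refine ⟨fun h => ?_, fun h => by rw [h]⟩
      have h6 : x⁻¹ * g⁻¹ * x * g ∈ N := by
        rw [← QuotientGroup.eq_one_iff]
        simp only [QuotientGroup.mk_mul, QuotientGroup.mk_inv] at h ⊢
        rw [mul_assoc _ (x : G ⧸ N), h]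
        group
      exact hg x h6
    have h1 := Subgroup.card_mul_index (C g)
    rw [← hsub, Subgroup.index_comap_of_surjective _ (QuotientGroup.mk'_surjective N),
      Subgroup.card_eq_card_quotient_mul_card_subgroup N, ← Subgroup.card_mul_index (D (g : G ⧸ N))] at h1
    rw [← hsub]
    refine Nat.eq_of_mul_eq_mul_right (Nat.pos_of_ne_zero (Subgroup.index_ne_zero_of_finite (H := D (g : G ⧸ N)))) ?_
    rw [h1]
    ring
  have hquot : (∑ g : G, if Sp g then (Nat.card N : ℂ)⁻¹ * Nat.card (C g) else 0)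
      = (Nat.card N : ℂ) * ∑ q : G ⧸ N, if Sq q then (Nat.card (D q) : ℂ) else 0 := by
    have e1 : ∀ g : G, (if Sp g then (Nat.card N : ℂ)⁻¹ * Nat.card (C g) else 0)
        = if Sq (g : G ⧸ N) then (Nat.card (D (g : G ⧸ N)) : ℂ) else 0 := by
      intro g
      by_cases hg : Sp g
      · rw [if_pos hg, if_pos ((hSq g).mpr hg), hCD g hg, Nat.cast_mul, mul_comm (Nat.card (D _) : ℂ),
          inv_mul_cancel_left₀ (Nat.cast_ne_zero.mpr Nat.card_pos.ne')]
      · rw [if_neg hg, if_neg (fun h => hg ((hSq g).mp h))]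
    rw [Finset.sum_congr rfl fun g _ => e1 g]
    have hbij : Function.Bijective (fun qn : (G ⧸ N) × N => qn.1.out * (qn.2 : G)) := by
      refine ⟨fun a b h => ?_, fun g => ?_⟩
      · have h' : a.1.out * (a.2 : G) = b.1.out * (b.2 : G) := h
        have hq := congrArg (fun x : G => (x : G ⧸ N)) h'
        simp only [QuotientGroup.mk_mul, QuotientGroup.out_eq', (QuotientGroup.eq_one_iff _).mpr a.2.2,
          (QuotientGroup.eq_one_iff _).mpr b.2.2, mul_one] at hq
        rw [hq, mul_right_inj] at h'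
        exact Prod.ext hq (Subtype.ext h')
      · have hm : ((g : G ⧸ N).out)⁻¹ * g ∈ N := QuotientGroup.eq.mp (QuotientGroup.out_eq' _)
        exact ⟨((g : G ⧸ N), ⟨_, hm⟩), by simp⟩
    rw [← (Equiv.ofBijective _ hbij).sum_comp, Fintype.sum_prod_type, Finset.mul_sum]
    refine Finset.sum_congr rfl fun q _ => ?_
    rw [Finset.sum_congr rfl fun (n : N) _ => show _ = (if Sq q then (Nat.card (D q) : ℂ) else 0) by
      rw [Equiv.ofBijective_apply, QuotientGroup.mk_mul, QuotientGroup.out_eq',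
        (QuotientGroup.eq_one_iff _).mpr n.2, mul_one], Finset.sum_const, Finset.card_univ,
      ← Nat.card_eq_fintype_card, nsmul_eq_mul]
  have hclass : (∑ q : G ⧸ N, if Sq q then (Nat.card (D q) : ℂ) else 0)
      = (Nat.card {K : ConjClasses (G ⧸ N) // ∃ g : G, ConjClasses.mk (g : G ⧸ N) = K ∧ Sp g} : ℂ)
          * Nat.card (G ⧸ N) := by
    haveI := Fintype.ofFinite (ConjClasses (G ⧸ N))
    rw [← Finset.sum_fiberwise Finset.univ ConjClasses.mk, Nat.card_eq_fintype_card (α := {K : ConjClasses (G ⧸ N) // _}),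
      Fintype.card_subtype, Finset.card_eq_sum_ones, Nat.cast_sum, Finset.sum_mul, Finset.sum_filter]
    refine Finset.sum_congr rfl fun K _ => ?_
    induction K using Quotient.inductionOn with
    | h q =>
      have hinv : ∀ q' : G ⧸ N, IsConj q q' → (Sq q' ↔ Sq q) ∧ Nat.card (D q') = Nat.card (D q) := by
        intro q' hqq
        have hS1 : ∀ a b : G ⧸ N, IsConj a b → Sq a → Sq b := by
          rintro a b hab ⟨g, rfl, hg⟩
          obtain ⟨c, rfl⟩ := isConj_iff.mp hab
          obtain ⟨c, rfl⟩ := QuotientGroup.mk_surjective c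
          refine ⟨c * g * c⁻¹, by push_cast; rfl, fun x hx => ?_⟩
          have h' := hg (c⁻¹ * x * c) (by
            convert (inferInstance : N.Normal).conj_mem _ hx c⁻¹ using 1
            group)
          calc x * (c * g * c⁻¹) = c * (c⁻¹ * x * c * g) * c⁻¹ := by group
            _ = c * (g * (c⁻¹ * x * c)) * c⁻¹ := by rw [h']
            _ = _ := by group
        refine ⟨⟨hS1 _ _ hqq.symm, hS1 _ _ hqq⟩, ?_⟩
        have h1 := card_conj_mul_card_centralizer q
        have h2 := card_conj_mul_card_centralizer q'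
        rw [show Nat.card {x : G ⧸ N // IsConj q' x} = Nat.card {x : G ⧸ N // IsConj q x} from
          Nat.card_congr (Equiv.subtypeEquivRight fun x => ⟨fun h => hqq.trans h, fun h => hqq.symm.trans h⟩),
          ← h1] at h2
        haveI : Nonempty {x : G ⧸ N // IsConj q x} := ⟨⟨q, IsConj.refl q⟩⟩
        exact Nat.eq_of_mul_eq_mul_left Nat.card_pos h2
      have hk : (∃ g : G, ConjClasses.mk (g : G ⧸ N) = ConjClasses.mk q ∧ Sp g) ↔ Sq q := by
        refine ⟨fun ⟨g, hg, hs⟩ => (hinv _ (ConjClasses.mk_eq_mk_iff_isConj.mp hg).symm).1.mp ((hSq g).mpr hs),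
          fun ⟨g, hg, hs⟩ => ⟨g, by rw [hg], hs⟩⟩
      have hfib : ∀ q' ∈ Finset.univ.filter (fun x : G ⧸ N => ConjClasses.mk x = ConjClasses.mk q),
          (if Sq q' then (Nat.card (D q') : ℂ) else 0) = if Sq q then (Nat.card (D q) : ℂ) else 0 := by
        intro q' hq'
        obtain ⟨e1, e2⟩ := hinv q' (ConjClasses.mk_eq_mk_iff_isConj.mp (Finset.mem_filter.mp hq').2).symm
        by_cases h : Sq q
        · rw [if_pos (e1.mpr h), if_pos h, e2]
        · rw [if_neg (fun h' => h (e1.mp h')), if_neg h]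
      show (∑ x ∈ Finset.univ.filter (fun x : G ⧸ N => ConjClasses.mk x = ConjClasses.mk q), _) = if (∃ g : G, ConjClasses.mk (g : G ⧸ N) = ConjClasses.mk q ∧ Sp g) then _ else _
      rw [Finset.sum_congr rfl hfib, Finset.sum_const, nsmul_eq_mul]
      by_cases h : Sq q
      · rw [if_pos h, if_pos (hk.mpr h), ← Nat.cast_mul, Nat.cast_one, one_mul, Nat.cast_inj,
          ← card_conj_mul_card_centralizer q]
        congr 1
        rw [Nat.card_eq_fintype_card, Fintype.card_subtype]
        congr 1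
        ext x
        simp only [Finset.mem_filter, Finset.mem_univ, true_and, ConjClasses.mk_eq_mk_iff_isConj]
        exact ⟨fun h => h.symm, fun h => h.symm⟩
      · rw [if_neg h, if_neg (fun h' => h (hk.mp h')), mul_zero]
  rw [hquot, hclass, Subgroup.card_eq_card_quotient_mul_card_subgroup N, Nat.cast_mul] at hcount
  rw [Nat.card_eq_fintype_card, Fintype.card_subtype]
  have hcard : (S.card : ℂ) = (Nat.card {K : ConjClasses (G ⧸ N) // ∃ g : G, ConjClasses.mk (g : G ⧸ N) = K ∧ Sp g} : ℂ) := by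
    refine mul_right_cancel₀ (mul_ne_zero (Nat.cast_ne_zero.mpr (Nat.card_pos (α := G ⧸ N)).ne')
      (Nat.cast_ne_zero.mpr (Nat.card_pos (α := N)).ne')) (hcount.trans ?_)
    ring
  exact_mod_cast hcard

end Cfsg.Agent.S4567
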