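import Cfsg.Statements.S4571
import Mathlib
import Cfsg.Agent.Lib.Blocks.InflationBijection
import Cfsg.Agent.Lib.Blocks.Principal

set_option autoImplicit false
open Cfsg

namespace Cfsg.Agent.S4571

/-- Let Q be a normal p-subgroup of the finite group G with G = Q·C_G(Q), and M a maximal ideal of the algebraic integers containing p. Then the principal p-blocks of G and of G/Q have the same p-regular rank (the same number of irreducible Brauer characters). -/
theorem result {G : Type*} [Group G] [Finite G] (p : ℕ) [Fact p.Prime] (M : Ideal Cfsg.AlgInt) (hM : Cfsg.IsPModular p M) (Q : Subgroup G) [Q.Normal] (hQ : IsPGroup p Q) (hsup : Q ⊔ Subgroup.centralizer (Q : Set G) = ⊤) : Cfsg.blockRank p (Cfsg.principalBlock M G) = Cfsg.blockRank p (Cfsg.principalBlock M (G ⧸ Q)) := by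
  classical
  haveI := hM.2.1.isPrime
  haveI := Fintype.ofFinite G
  haveI := Fintype.ofFinite (G ⧸ Q)
  open Cfsg.Lib.Blocks Cfsg.Lib.Characters in
  · set C := Subgroup.centralizer (Q : Set G)
    have hC : ∃ k : ℕ, C.index = p ^ k := by
      obtain ⟨n, hn⟩ := IsPGroup.iff_card.mp hQ
      have h1 : C.index = C.relIndex Q := by
        rw [← Subgroup.relIndex_top_right, ← hsup, Subgroup.relIndex_sup_right]
      have h2 : C.relIndex Q ∣ p ^ n := hn ▸ Subgroup.relIndex_dvd_card C Q
      obtain ⟨k, -, hk⟩ := (Nat.dvd_prime_pow (Fact.out : p.Prime)).mp h2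
      exact ⟨k, h1.trans hk⟩
    have hi : ∀ φ : Cfsg.IrrCharacter (G ⧸ Q), Cfsg.IsIrrCharacter G ((φ : G ⧸ Q → ℂ) ∘ QuotientGroup.mk) :=
      fun φ => isIrrCharacter_comp_surjective φ.2 (QuotientGroup.mk' Q) (QuotientGroup.mk'_surjective Q)
    let inf : Cfsg.IrrCharacter (G ⧸ Q) → Cfsg.IrrCharacter G := fun φ => ⟨_, hi φ⟩
    have hmem : ∀ φ, inf φ ∈ Cfsg.principalBlock M G ↔ φ ∈ Cfsg.principalBlock M (G ⧸ Q) := by
      intro φ
      rw [principalBlock_eq, principalBlock_eq, mem_blockOf, mem_blockOf]
      exact (sameBlock_inflate_iff hM hQ hC (trivChar (G ⧸ Q)) φ).symm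
    -- pulling back along the regular elements
    let T : (G ⧸ Q → ℂ) →ₗ[ℂ] (G → ℂ) :=
      { toFun := fun f x => if p ∣ orderOf x then 0 else f (x : G ⧸ Q)
        map_add' := fun f f' => by funext x; simp only [Pi.add_apply]; split_ifs <;> simp
        map_smul' := fun c f => by funext x; simp only [Pi.smul_apply, RingHom.id_apply]; split_ifs <;> simp }
    have hT : ∀ (F : G → ℂ) (f : G ⧸ Q → ℂ), (∀ x, ¬ p ∣ orderOf x → F x = f (x : G ⧸ Q)) →
        Cfsg.pRegularPart p F = T (Cfsg.pRegularPart p f) := by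
      intro F f h
      funext x
      simp only [T, LinearMap.coe_mk, AddHom.coe_mk, pRegularPart_apply]
      by_cases hx : p ∣ orderOf x
      · rw [if_pos hx, if_pos hx]
      · rw [if_neg hx, if_neg hx, if_neg (not_dvd_orderOf_mk (P := Q) hx), h x hx]
    set Vbar := Submodule.span ℂ ((fun χ : Cfsg.IrrCharacter (G ⧸ Q) => Cfsg.pRegularPart p (χ : G ⧸ Q → ℂ)) '' Cfsg.principalBlock M (G ⧸ Q)) with hVbar
    set V := Submodule.span ℂ ((fun χ : Cfsg.IrrCharacter G => Cfsg.pRegularPart p (χ : G → ℂ)) '' Cfsg.principalBlock M G) with hV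
    have hzero : ∀ v ∈ Vbar, ∀ q, p ∣ orderOf q → v q = 0 := by
      intro v hv
      induction hv using Submodule.span_induction with
      | mem y hy => obtain ⟨φ, -, rfl⟩ := hy; intro q hq; simp only [pRegularPart_apply, if_pos hq]
      | zero => intro q _; rfl
      | add a b _ _ ha hb => intro q hq; rw [Pi.add_apply, ha q hq, hb q hq, add_zero]
      | smul c a _ ha => intro q hq; rw [Pi.smul_apply, ha q hq, smul_zero]
    have hsum : ∀ F : G ⧸ Q → ℂ, (∑ x : G, if p ∣ orderOf x then 0 else F (x : G ⧸ Q)) = ∑ q, if p ∣ orderOf q then 0 else F q := by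
      intro F
      have e : ∀ (c : Prop) [Decidable c] (a : ℂ), (if c then 0 else a) = if ¬ c then a else 0 := fun c _ a => (ite_not _ _ _).symm
      simp only [e, ← Finset.sum_filter]
      refine Finset.sum_bij (fun x _ => (x : G ⧸ Q)) (fun x hx => ?_) (fun a ha b hb e => ?_) (fun q hq => ?_) (fun x hx => rfl)
      · simp only [Finset.mem_filter, Finset.mem_univ, true_and] at hx ⊢
        exact not_dvd_orderOf_mk hx
      · simp only [Finset.mem_filter, Finset.mem_univ, true_and] at ha hb
        exact eq_of_mk_eq_of_regular hQ hC ha hb e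
      · simp only [Finset.mem_filter, Finset.mem_univ, true_and] at hq ⊢
        obtain ⟨x, hx, hx'⟩ := exists_regular_lift hq
        exact ⟨x, hx', hx⟩
    have hmap : Vbar.map T = V := by
      refine le_antisymm ?_ (Submodule.span_le.2 ?_)
      · rw [hVbar, Submodule.map_span, Submodule.span_le]
        rintro _ ⟨_, ⟨φ, hφ, rfl⟩, rfl⟩
        rw [SetLike.mem_coe, ← hT ((φ : G ⧸ Q → ℂ) ∘ QuotientGroup.mk) (φ : G ⧸ Q → ℂ) fun x _ => rfl]
        exact Submodule.subset_span ⟨inf φ, (hmem φ).2 hφ, rfl⟩
      · rintro _ ⟨χ, hχ, rfl⟩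
        -- the class function on the quotient carrying the regular part
        have hex : ∀ q : G ⧸ Q, ∃ z : ℂ, ∀ x : G, ¬ p ∣ orderOf x → (x : G ⧸ Q) = q → z = (χ : G → ℂ) x := by
          intro q
          by_cases h : ∃ x : G, ¬ p ∣ orderOf x ∧ (x : G ⧸ Q) = q
          · obtain ⟨x, hx, hxq⟩ := h
            exact ⟨(χ : G → ℂ) x, fun y hy hyq => by rw [eq_of_mk_eq_of_regular hQ hC hy hx (hyq.trans hxq.symm)]⟩
          · exact ⟨0, fun x hx hxq => absurd ⟨x, hx, hxq⟩ h⟩
        choose f hf using hex
        set g := Cfsg.pRegularPart p f with hg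
        have hgc : Cfsg.IsClassFunction (G ⧸ Q) g := by
          intro q a
          have hord : orderOf (a * q * a⁻¹) = orderOf q := MulEquiv.orderOf_eq (MulAut.conj a) q
          simp only [hg, pRegularPart_apply, hord]
          by_cases hq : p ∣ orderOf q
          · rw [if_pos hq, if_pos hq]
          · rw [if_neg hq, if_neg hq]
            obtain ⟨x, rfl, hx⟩ := exists_regular_lift hq
            obtain ⟨b, rfl⟩ := QuotientGroup.mk_surjective a
            rw [hf _ x hx rfl, hf _ (b * x * b⁻¹) (by rwa [show orderOf (b * x * b⁻¹) = orderOf x from MulEquiv.orderOf_eq (MulAut.conj b) x]) (by simp)]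
            exact χ.2.isClassFunction x b
        have hout : ∀ ν : Cfsg.IrrCharacter (G ⧸ Q), ν ∉ Cfsg.principalBlock M (G ⧸ Q) → Cfsg.classInner g (ν : G ⧸ Q → ℂ) = 0 := by
          intro ν hν
          have hns : ¬ Cfsg.SameBlock M (χ : G → ℂ) (inf ν : G → ℂ) := fun h =>
            hν ((hmem ν).1 (IsPBlock.mem_of_sameBlock isPBlock_principal hχ h))
          have h0 := regInner_eq_zero hM hns
          rw [Cfsg.classInner]
          refine mul_eq_zero_of_right _ (Eq.trans ?_ h0)
          rw [regInner]
          have e1 : ∀ x : G, (if p ∣ orderOf x then 0 else (χ : G → ℂ) x * (inf ν : G → ℂ) x⁻¹) =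
              (if p ∣ orderOf x then 0 else (fun q => f q * (ν : G ⧸ Q → ℂ) q⁻¹) (x : G ⧸ Q)) := by
            intro x
            split_ifs with hx
            · rfl
            · simp only [inf, Function.comp_apply, QuotientGroup.mk_inv, hf _ x hx rfl]
          rw [Finset.sum_congr rfl fun x _ => e1 x, hsum (fun q => f q * (ν : G ⧸ Q → ℂ) q⁻¹)]
          refine Finset.sum_congr rfl fun q _ => ?_
          rw [hg, pRegularPart_apply]
          split_ifs
          · rw [zero_mul]
          · rw [char_inv_eq_conj ν.2.isCharacter]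
        have hin : g ∈ Vbar := by
          have he := classFunction_expansion hgc
          have he' : g = Cfsg.pRegularPart p g := by
            funext q; simp only [hg, pRegularPart_apply]; split_ifs <;> rfl
          rw [he']
          rw [he]
          have hlin : Cfsg.pRegularPart p (∑ ν : Cfsg.IrrCharacter (G ⧸ Q), Cfsg.classInner g (ν : G ⧸ Q → ℂ) • (ν : G ⧸ Q → ℂ))
              = ∑ ν : Cfsg.IrrCharacter (G ⧸ Q), Cfsg.classInner g (ν : G ⧸ Q → ℂ) • Cfsg.pRegularPart p (ν : G ⧸ Q → ℂ) := by
            funext q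
            simp only [pRegularPart_apply, Finset.sum_apply, Pi.smul_apply, smul_eq_mul]
            split_ifs <;> simp
          rw [hlin]
          refine Submodule.sum_mem _ fun ν _ => ?_
          by_cases hν : ν ∈ Cfsg.principalBlock M (G ⧸ Q)
          · exact Submodule.smul_mem _ _ (Submodule.subset_span ⟨ν, hν, rfl⟩)
          · rw [hout ν hν, zero_smul]; exact zero_mem _
        refine ⟨g, hin, ?_⟩
        exact (hT (χ : G → ℂ) f fun x hx => (hf _ x hx rfl).symm).symm
    have hinj : ∀ v ∈ Vbar, T v = 0 → v = 0 := by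
      intro v hv h
      funext q
      by_cases hq : p ∣ orderOf q
      · exact hzero v hv q hq
      · obtain ⟨x, rfl, hx⟩ := exists_regular_lift hq
        have := congrFun h x
        simpa [T, hx] using this
    show Module.finrank ℂ V = Module.finrank ℂ Vbar
    rw [← hmap]
    exact (LinearEquiv.ofBijective (T.submoduleMap Vbar) ⟨by
      rw [← LinearMap.ker_eq_bot, LinearMap.ker_eq_bot']
      exact fun v hv => Subtype.ext (hinj v v.2 (congrArg Subtype.val hv)), T.submoduleMap_surjective Vbar⟩).finrank_eq.symm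

end Cfsg.Agent.S4571
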