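import Cfsg.Statements.S4574
import Mathlib
import Cfsg.Agent.Lib.Blocks.ZeroCount
import Cfsg.Agent.Lib.Blocks.DefectZero

set_option autoImplicit false
open Cfsg

namespace Cfsg.Agent.S4574

/-- Let χ be an irreducible character of the finite group G, of degree d, and let Z(χ) be the set of elements g with |χ g| = d (the centre of χ). Then χ vanishes on at least (d ^ 2 - 1) · |Z(χ)| elements of G, with equality when every value |χ g| is 0, 1 or d. -/
theorem result {G : Type*} [Group G] [Fintype G] [DecidableEq G] (χ : G → ℂ) (hχ : Cfsg.IsIrrCharacter G χ) : (Cfsg.charDegree χ ^ 2 - 1) * (Finset.univ.filter (fun g : G => ‖χ g‖ = (Cfsg.charDegree χ : ℝ))).card ≤ (Finset.univ.filter (fun g : G => χ g = 0)).card ∧ ((∀ g : G, ‖χ g‖ = 0 ∨ ‖χ g‖ = 1 ∨ ‖χ g‖ = (Cfsg.charDegree χ : ℝ)) → (Cfsg.charDegree χ ^ 2 - 1) * (Finset.univ.filter (fun g : G => ‖χ g‖ = (Cfsg.charDegree χ : ℝ))).card = (Finset.univ.filter (fun g : G => χ g = 0)).card) := by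
  classical
  obtain ⟨d, hd0, hd⟩ := hχ.exists_degree_pos
  rw [Cfsg.Lib.Blocks.charDegree_eq hd]
  set Z := Cfsg.Lib.Blocks.normKer hχ.isCharacter with hZ
  have hmem : ∀ g, g ∈ Z ↔ ‖χ g‖ = (d : ℝ) := fun g => by
    rw [hZ, Cfsg.Lib.Blocks.mem_normKer, hd, Complex.natCast_re]
  set A := Finset.univ.filter fun g : G => ‖χ g‖ = (d : ℝ) with hA
  set O := Finset.univ.filter fun g : G => χ g = 0 with hO
  set R := Finset.univ.filter fun g : G => g ∉ Z ∧ χ g ≠ 0 with hR
  have hAc : A.card = Nat.card Z := by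
    rw [Nat.card_eq_fintype_card, Fintype.card_subtype]
    congr 1; ext g; simp [hA, hmem]
  have hd0' : (0 : ℝ) < d := by exact_mod_cast hd0
  have hpart : A.card + O.card + R.card = Nat.card G := by
    rw [← Finset.card_union_of_disjoint, ← Finset.card_union_of_disjoint,
      Nat.card_eq_fintype_card, ← Finset.card_univ]
    · congr 1
      ext g
      simp only [hA, hO, hR, hmem, Finset.mem_union, Finset.mem_filter, Finset.mem_univ, true_and,
        iff_true]
      tauto
    · rw [Finset.disjoint_left]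
      intro g hg
      simp only [hA, hO, hR, hmem, Finset.mem_union, Finset.mem_filter, Finset.mem_univ, true_and] at hg ⊢
      tauto
    · rw [Finset.disjoint_left]
      intro g hg hg'
      simp only [hA, hO, Finset.mem_filter, Finset.mem_univ, true_and] at hg hg'
      rw [hg', norm_zero] at hg
      exact hd0'.ne hg
  obtain ⟨r, hr, hsum⟩ := Cfsg.Lib.Blocks.nonzero_outside_le Z hχ
  have hRc : Nat.card {g : G // g ∉ Z ∧ χ g ≠ 0} = R.card := by
    rw [Nat.card_eq_fintype_card, Fintype.card_subtype]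
  rw [hRc] at hr
  have hsumZ : ∑ᶠ h : Z, ‖χ h‖ ^ 2 = (Nat.card Z : ℝ) * (d : ℝ) ^ 2 := by
    rw [finsum_eq_sum_of_fintype, Finset.sum_congr rfl fun h _ => by rw [(hmem h).1 h.2]]
    simp [Nat.card_eq_fintype_card]
  rw [hsumZ, ← hAc] at hsum
  have hsum' : r + A.card * d ^ 2 = Nat.card G := by exact_mod_cast hsum
  constructor
  · rw [Nat.sub_mul, one_mul, mul_comm (d ^ 2)]
    omega
  · intro hval
    have hRone : ∀ g ∈ R, ‖χ g‖ ^ 2 = 1 := by
      intro g hg
      simp only [hR, hmem, Finset.mem_filter, Finset.mem_univ, true_and] at hg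
      rcases hval g with h | h | h
      · exact absurd (norm_eq_zero.1 h) hg.2
      · rw [h, one_pow]
      · exact absurd h hg.1
    have htot : ∑ g : G, ‖χ g‖ ^ 2 = (Nat.card G : ℝ) := by
      have h := Cfsg.Lib.Characters.classInner_irr_self hχ
      rw [classInner, inv_mul_eq_iff_eq_mul₀ (Nat.cast_ne_zero.2 Nat.card_pos.ne'), mul_one] at h
      have h2 : ((∑ g : G, ‖χ g‖ ^ 2 : ℝ) : ℂ) = ((Nat.card G : ℝ) : ℂ) := by
        push_cast
        rw [← h]
        exact Finset.sum_congr rfl fun g _ => (Complex.mul_conj' _).symm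
      exact_mod_cast h2
    have hdec : ∑ g : G, ‖χ g‖ ^ 2 = (A.card : ℝ) * (d : ℝ) ^ 2 + R.card := by
      have e : ∀ g : G, ‖χ g‖ ^ 2 = (if g ∈ A then (d : ℝ) ^ 2 else 0) + (if g ∈ R then 1 else 0) := by
        intro g
        by_cases h1 : g ∈ A
        · have h2 : g ∉ R := fun h => (Finset.mem_filter.1 h).2.1 ((hmem g).2 (Finset.mem_filter.1 h1).2)
          rw [if_pos h1, if_neg h2, (Finset.mem_filter.1 h1).2, add_zero]
        · by_cases h2 : g ∈ R
          · rw [if_neg h1, if_pos h2, hRone g h2, zero_add]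
          · rw [if_neg h1, if_neg h2]
            simp only [hA, hR, hmem, Finset.mem_filter, Finset.mem_univ, true_and] at h1 h2
            have : χ g = 0 := by tauto
            simp [this]
      rw [Finset.sum_congr rfl fun g _ => e g, Finset.sum_add_distrib, Finset.sum_ite_mem,
        Finset.sum_ite_mem]
      simp [mul_comm]
    rw [htot] at hdec
    have h2 : Nat.card G = A.card * d ^ 2 + R.card := by exact_mod_cast hdec
    rw [Nat.sub_mul, one_mul, mul_comm (d ^ 2)]
    omega

end Cfsg.Agent.S4574
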