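import Cfsg.Statements.S4575
import Mathlib
import Cfsg.Agent.Lib.Blocks.TwoBlockBounds

set_option autoImplicit false
open Cfsg

namespace Cfsg.Agent.S4575

/-- Let B be a 2-block of the finite group G (relative to a maximal ideal M of the algebraic integers containing 2) of defect d with defect group D. Let z be an element of D commuting with every element of D, and let b be a block of the centralizer of z with defect group D that induces B (a major subsection (z, b)). If the number of irreducible characters in B exceeds the 2-regular rank of b by at most three, then B contains at most 2 ^ d irreducible characters. -/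
theorem result {G : Type*} [Group G] [Finite G] (M : Ideal Cfsg.AlgInt) (hM : Cfsg.IsPModular 2 M) (B : Set (Cfsg.IrrCharacter G)) (hB : Cfsg.IsPBlock M B) (D : Subgroup G) (hD : Cfsg.IsDefectGroup 2 M B D) (z : G) (hzD : z ∈ D) (hzc : ∀ d ∈ D, d * z = z * d) (b : Set (Cfsg.IrrCharacter ↥(Subgroup.centralizer ({z} : Set G)))) (hb : Cfsg.IsInducedBlock M (Subgroup.centralizer ({z} : Set G)) b B) (hbD : Cfsg.IsDefectGroup 2 M b (D.subgroupOf (Subgroup.centralizer ({z} : Set G)))) (h : Nat.card B ≤ Cfsg.blockRank 2 b + 3) : Nat.card B ≤ 2 ^ Cfsg.blockDefect 2 B := by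
  haveI := Fintype.ofFinite G
  haveI := hM.2.1.isPrime
  haveI : Fact (Nat.Prime 2) := ⟨Nat.prime_two⟩
  haveI := Fintype.ofFinite (Subgroup.centralizer ({z} : Set G))
  open Cfsg.Lib.Blocks Cfsg.Lib.Characters in
  · have hDle : D ≤ Subgroup.centralizer ({z} : Set G) := fun d hd =>
      Subgroup.mem_centralizer_singleton_iff.mpr (hzc d hd)
    have hd : Cfsg.blockDefect 2 b = Cfsg.blockDefect 2 B := Nat.pow_right_injective le_rfl (by
      show 2 ^ Cfsg.blockDefect 2 b = 2 ^ Cfsg.blockDefect 2 B
      rw [← card_defectGroup hM hb.1 hbD, ← card_defectGroup hM hB hD,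
        Nat.card_congr (Subgroup.subgroupOfEquivOfLe hDle).toEquiv])
    have hz : ∃ j : ℕ, orderOf z = 2 ^ j := by
      obtain ⟨j, hj⟩ := (isPGroup_defectGroup hD).exists_card_eq
      obtain ⟨i, -, hi⟩ := (Nat.dvd_prime_pow Nat.prime_two).mp (hj ▸ D.orderOf_dvd_natCard hzD)
      exact ⟨i, hi⟩
    exact TwoPower.major_card_sub_rank_le_three hM hz rfl hb hd h

end Cfsg.Agent.S4575
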