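import Cfsg.Statements.S4582
import Cfsg.Agent.Lib.Characters.Extension
import Cfsg.Agent.Lib.Characters.Permutation
import Cfsg.Agent.Lib.Characters.CyclicTI2
import Cfsg.Agent.Lib.Blocks.GroupRing
import Cfsg.Agent.Lib.Blocks.DefectZero
import Cfsg.Agent.Lib.Characters.Gallagher

set_option autoImplicit false
set_option linter.style.haveILetI false
open Cfsg

namespace Cfsg.Agent.S4582

open Cfsg.Lib.Characters Cfsg.Lib.Blocks Finset
open scoped Classical ComplexConjugate

/-- The determinant of the conjugate character. -/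
theorem detChar_conj {G : Type*} [Group G] [Finite G] {χ : G → ℂ} (h : IsCharacter G χ) (g : G) :
    detChar (fun x => conj (χ x)) g = conj (detChar χ g) := by
  obtain ⟨n, σ, rfl⟩ := id h
  let τ : Representation ℂ G (Fin n → ℂ) :=
    { toFun := fun x => Matrix.toLin' ((LinearMap.toMatrix' (σ x)).map (starRingEnd ℂ))
      map_one' := by
        rw [map_one, Module.End.one_eq_id, LinearMap.toMatrix'_id, Matrix.map_one _ (map_zero _) (map_one _), Matrix.toLin'_one]
      map_mul' := fun x y => by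
        rw [map_mul, LinearMap.toMatrix'_mul, Matrix.map_mul, Matrix.toLin'_mul]
        rfl }
  have hτ : τ.character = fun x => conj (σ.character x) := by
    funext x
    show LinearMap.trace ℂ _ (Matrix.toLin' _) = conj (LinearMap.trace ℂ _ (σ x))
    rw [LinearMap.trace_eq_matrix_trace ℂ (Pi.basisFun ℂ (Fin n)), LinearMap.toMatrix_eq_toMatrix', LinearMap.toMatrix'_toLin',
      LinearMap.trace_eq_matrix_trace ℂ (Pi.basisFun ℂ (Fin n)) (σ x), LinearMap.toMatrix_eq_toMatrix']
    exact (AddMonoidHom.map_trace (starRingEnd ℂ).toAddMonoidHom _).symm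
  rw [detChar_eq τ hτ g, detChar_eq σ rfl g]
  show LinearMap.det (τ g) = _
  simp only [τ, MonoidHom.coe_mk, OneHom.coe_mk]
  rw [LinearMap.det_toLin', ← LinearMap.det_toMatrix', RingHom.map_det]
  rfl

/-- Sums over an involution reduce to the fixed points modulo two. -/
theorem sum_fixed_two {α : Type*} [Fintype α] (f : α → ZMod 2) (σ : α → α) (hσ : Function.Involutive σ)
    (hf : ∀ a, f (σ a) = f a) (h : ∀ a, σ a = a → f a = 0) : ∑ a, f a = 0 :=
  Finset.sum_involution (fun a _ => σ a) (fun a _ => by rw [hf, ← two_mul, show (2 : ZMod 2) = 0 from rfl, zero_mul])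
    (fun a _ hne he => hne (h a he)) (fun a _ => Finset.mem_univ _) fun a _ => hσ a

/-- A linear character of `P` has a real linear partner on `P ⊓ N`. -/
theorem exists_real_extension {G : Type*} [Group G] [Finite G] (N P : Subgroup G) [N.Normal]
    (htop : N ⊔ P = ⊤) (hP2 : IsPGroup 2 P) (hrel : ¬ 2 ∣ P.relIndex N)
    (hodd : Odd (Nat.card (Abelianization N))) (lam : P →* ℂˣ)
    (hlam : ∀ x : P, (x : G) ∈ N → lam x * lam x = 1) :
    ∃ μ : P →* ℂˣ, (∀ x, μ x * μ x = 1) ∧ ∀ x : P, (x : G) ∈ N → μ x = lam x := by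
  haveI : Fintype G := Fintype.ofFinite G
  haveI : Fintype N := Fintype.ofFinite N
  haveI : Fintype P := Fintype.ofFinite P
  haveI : Fact (Nat.Prime 2) := ⟨Nat.prime_two⟩
  haveI : Fintype (P.subgroupOf N) := Fintype.ofFinite _
  haveI : Fintype (N.subgroupOf P) := Fintype.ofFinite _
  let inc : P.subgroupOf N →* P :=
    { toFun := fun q => ⟨((q : N) : G), Subgroup.mem_subgroupOf.mp q.2⟩
      map_one' := rfl
      map_mul' := fun _ _ => rfl }
  set lq : P.subgroupOf N → ℂ := fun q => (lam (inc q) : ℂ) with hlq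
  have hlqirr : IsIrrCharacter (P.subgroupOf N) lq := isIrrCharacter_linear (lam.comp inc)
  have hlqreal : ∀ q, conj (lq q) = lq q := by
    intro q
    have h := hlam (inc q) (q : N).2
    have h1 : lq q * lq q = 1 := by rw [hlq, ← Units.val_mul, h, Units.val_one]
    rcases mul_self_eq_one_iff.mp h1 with h2 | h2 <;> simp [h2]
  set f := indFun (P.subgroupOf N) lq with hf
  have hfc : IsCharacter N f := isCharacter_indFun _ hlqirr.isCharacter
  choose m hm using fun θ : IrrCharacter N => classInner_nat hfc θ.2.isCharacter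
  have hfinv : ∀ s ∈ P, conjFn N f s = f := by
    intro s hs
    funext n
    rw [conjFn_apply, hf, indFun, indFun]
    congr 1
    refine Fintype.sum_equiv (MulAut.conjNormal (s⁻¹ : G) : N ≃* N).toEquiv _ _ fun x => ?_
    set y : N := x⁻¹ * ⟨s * n * s⁻¹, (inferInstance : N.Normal).conj_mem n n.2 s⟩ * x with hy
    have hy' : (MulAut.conjNormal (s⁻¹ : G) x)⁻¹ * n * MulAut.conjNormal (s⁻¹ : G) x = MulAut.conjNormal (s⁻¹ : G) y := by
      rw [hy]; apply Subtype.ext; simp [MulAut.conjNormal_apply, mul_assoc]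
    show extendByZero _ lq y = extendByZero _ lq ((MulAut.conjNormal (s⁻¹ : G) x)⁻¹ * n * MulAut.conjNormal (s⁻¹ : G) x)
    rw [hy']
    have hiff : MulAut.conjNormal (s⁻¹ : G) y ∈ P.subgroupOf N ↔ y ∈ P.subgroupOf N := by
      rw [Subgroup.mem_subgroupOf, Subgroup.mem_subgroupOf, MulAut.conjNormal_apply, inv_inv,
        P.mul_mem_cancel_right hs, P.mul_mem_cancel_left (P.inv_mem hs)]
    by_cases hyP : y ∈ P.subgroupOf N
    · rw [extendByZero_mem _ hyP, extendByZero_mem _ (hiff.mpr hyP)]
      show (lam (inc ⟨y, hyP⟩) : ℂ) = lam (inc ⟨_, hiff.mpr hyP⟩)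
      congr 1
      have e : inc ⟨_, hiff.mpr hyP⟩ = (⟨s, hs⟩ : P)⁻¹ * inc ⟨y, hyP⟩ * ⟨s, hs⟩ :=
        Subtype.ext (by simp [inc, MulAut.conjNormal_apply])
      rw [e, map_mul, map_mul, map_inv, mul_comm, mul_inv_cancel_left]
    · rw [extendByZero_not_mem _ hyP, extendByZero_not_mem _ (fun h => hyP (hiff.mp h))]
  -- the parity of the degree
  set a : IrrCharacter N → ZMod 2 := fun θ => ((m θ * charDegree (θ : N → ℂ) : ℕ) : ZMod 2) with ha
  have hasum : ∑ θ, a θ = 1 := by
    have h := congrFun (classFunction_expansion (isClassFunction_of_isCharacter hfc)) 1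
    simp only [Finset.sum_apply, Pi.smul_apply, smul_eq_mul, hm] at h
    have h2 : P.relIndex N = ∑ θ, m θ * charDegree (θ : N → ℂ) := by
      rw [← Nat.cast_inj (R := ℂ)]
      push_cast
      simp only [coe_charDegree]
      rw [← h, hf, indFun_one_apply, hlq]
      simp [Subgroup.relIndex]
    rw [ha, ← Nat.cast_sum, ← h2]
    have hodd' : P.relIndex N % 2 = 1 := Nat.two_dvd_ne_zero.mp hrel
    exact (ZMod.natCast_eq_one_iff_odd).mpr (Nat.odd_iff.mpr hodd')
  letI : MulAction P (IrrCharacter N) :=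
    { smul := fun s θ => ⟨_, isIrrCharacter_conjFn θ.2 (s : G)⁻¹⟩
      one_smul := fun θ => Subtype.ext (by show conjFn N _ ((1 : P) : G)⁻¹ = _; simp)
      mul_smul := fun s t θ => Subtype.ext (by
        show conjFn N _ ((s * t : P) : G)⁻¹ = conjFn N (conjFn N _ (t : G)⁻¹) (s : G)⁻¹
        rw [conjFn_conjFn, Subgroup.coe_mul, mul_inv_rev]) }
  have hainv : ∀ (s : P) θ, a (s • θ) = a θ := by
    intro s θ
    have h1 : m (s • θ) = m θ := by
      rw [← Nat.cast_inj (R := ℂ), ← hm, ← hm]
      conv_lhs => rw [← hfinv (s : G)⁻¹ (P.inv_mem s.2)]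
      exact classInner_conjFn _ _ _
    have h2 : charDegree ((s • θ : IrrCharacter N) : N → ℂ) = charDegree (θ : N → ℂ) := charDegree_eq (by
      show conjFn N (θ : N → ℂ) (s : G)⁻¹ 1 = _
      rw [conjFn_apply, coe_charDegree]
      exact congrArg _ (Subtype.ext (by simp)))
    simp only [ha, h1, h2]
  rw [sum_eq_sum_fixed hP2 (R := ZMod 2) (by decide) a hainv] at hasum
  obtain ⟨θ, hθfix, hθreal, haθ⟩ : ∃ θ : IrrCharacter N, (∀ s : P, s • θ = θ) ∧
      (∀ n, conj ((θ : N → ℂ) n) = (θ : N → ℂ) n) ∧ a θ ≠ 0 := by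
    by_contra hcon
    push Not at hcon
    let bar : IrrCharacter N → IrrCharacter N := fun θ => ⟨_, isIrrCharacter_conj θ.2⟩
    have hbar : Function.Involutive bar := fun θ => Subtype.ext (funext fun n => Complex.conj_conj _)
    have hcomm : ∀ (s : P) θ, s • bar θ = bar (s • θ) := fun s θ => Subtype.ext rfl
    have habar : ∀ θ, a (bar θ) = a θ := by
      intro θ
      have h1 : m (bar θ) = m θ := by
        have h := hm (bar θ)
        have hreal : ∀ n, conj (f n) = f n := by
          intro n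
          rw [hf, indFun, map_mul, map_inv₀, map_natCast, map_sum]
          congr 1
          refine Finset.sum_congr rfl fun x _ => ?_
          by_cases hx : x⁻¹ * n * x ∈ P.subgroupOf N
          · rw [extendByZero_mem _ hx, hlqreal]
          · rw [extendByZero_not_mem _ hx, map_zero]
        have h' : classInner f (bar θ : N → ℂ) = conj (classInner f (θ : N → ℂ)) := by
          simp only [classInner, map_mul, map_inv₀, map_natCast, map_sum, hreal, bar]
        rw [h', hm, Complex.conj_natCast, Nat.cast_inj] at h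
        exact h.symm
      have h2 : charDegree (bar θ : N → ℂ) = charDegree (θ : N → ℂ) := charDegree_eq (by
        show conj ((θ : N → ℂ) 1) = _
        rw [← coe_charDegree θ, map_natCast])
      simp only [ha, h1, h2]
    rw [Finset.sum_filter] at hasum
    rw [sum_fixed_two (fun θ => if ∀ s : P, s • θ = θ then a θ else 0) bar hbar (fun θ => ?_) (fun θ hθ => ?_)] at hasum
    · exact zero_ne_one hasum
    · rw [habar]
      refine if_congr ⟨fun h s => ?_, fun h s => by rw [hcomm, h]⟩ rfl rfl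
      exact hbar.injective (by rw [← hcomm, h s])
    · split_ifs with hs
      · exact hcon θ hs fun n => congrFun (congrArg Subtype.val hθ) n
      · rfl
  have hmodd : Odd (m θ) ∧ Odd (charDegree (θ : N → ℂ)) := by
    rw [← Nat.odd_mul]
    by_contra h
    exact haθ (ZMod.natCast_eq_zero_iff_even.mpr (Nat.not_odd_iff_even.mp h))
  -- the invariant real character extends to a real one
  have hinvP : ∀ s ∈ P, conjFn N (θ : N → ℂ) s = θ := fun s hs => by
    have h : conjFn N (θ : N → ℂ) (((⟨s, hs⟩ : P)⁻¹ : P) : G)⁻¹ = θ := congrArg Subtype.val (hθfix (⟨s, hs⟩ : P)⁻¹)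
    simpa using h
  have hinv : ∀ g, conjFn N (θ : N → ℂ) g = θ := by
    intro g
    obtain ⟨n, hn, s, hs, rfl⟩ := Subgroup.mem_sup_of_normal_left.mp (htop.symm ▸ Subgroup.mem_top g : g ∈ N ⊔ P)
    rw [← show ((⟨n, hn⟩ : N) : G) = n from rfl, conjFn_mul_mem θ.2.isClassFunction, hinvP s hs]
  obtain ⟨k, hk⟩ : ∃ k, N.index = 2 ^ k := by
    obtain ⟨j, hj⟩ := IsPGroup.iff_card.mp hP2
    have h1 : N.index ∣ Nat.card P := by
      rw [← Subgroup.relIndex_top_right, ← htop, sup_comm, Subgroup.relIndex_sup_right]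
      exact Subgroup.relIndex_dvd_card _ _
    obtain ⟨k, -, hk⟩ := (Nat.dvd_prime_pow Nat.prime_two).mp (hj ▸ h1)
    exact ⟨k, hk⟩
  set d := charDegree (θ : N → ℂ) with hd
  set e := Nat.card (Abelianization N) with he
  have hθpow : ∀ (D : N →* ℂˣ) (n : N), D n ^ e = 1 := fun D n => by
    have := congrArg (Abelianization.lift D) (pow_card_eq_one' (G := Abelianization N) (x := Abelianization.of n))
    rwa [map_pow, map_one, Abelianization.lift_apply_of] at this
  have hcop : Nat.Coprime N.index (d * e) := by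
    rw [hk]
    exact (Nat.coprime_two_left.mpr (Nat.odd_mul.mpr ⟨hmodd.2, hodd⟩)).pow_left k
  obtain ⟨χ, hχ, hext⟩ := exists_extension_of_coprime θ.2 hinv (coe_charDegree θ).symm (m := e) (fun n => by
    obtain ⟨D, hD, -⟩ := exists_detHom θ.2.isCharacter
    rw [← hD, ← Units.val_pow_eq_pow_val, hθpow D n, Units.val_one]) hcop
  obtain ⟨D, hD, -⟩ := exists_detHom hχ.isCharacter
  obtain ⟨u, hu⟩ : ∃ u, (d * e * u + 1) % N.index = 0 := by
    haveI : NeZero N.index := ⟨Subgroup.index_ne_zero_of_finite⟩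
    refine ⟨((-((ZMod.unitOfCoprime (d * e) hcop.symm)⁻¹ : (ZMod N.index)ˣ) : ZMod N.index)).val, ?_⟩
    rw [← Nat.dvd_iff_mod_eq_zero, ← ZMod.natCast_eq_zero_iff, Nat.cast_add, Nat.cast_mul, ZMod.natCast_zmod_val, Nat.cast_one,
      mul_neg, ← ZMod.coe_unitOfCoprime (d * e) hcop.symm, Units.mul_inv, neg_add_cancel]
  have hDN : ∀ g : G, (D g ^ e) ^ N.index = 1 := fun g => by
    rw [← pow_mul, mul_comm, pow_mul, ← map_pow]
    exact hθpow (D.comp N.subtype) ⟨_, Subgroup.pow_index_mem N g⟩
  set ρ : G →* ℂˣ := (D ^ e) ^ u with hρ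
  set χ' : G → ℂ := fun g => (ρ g : ℂ) * χ g with hχ'
  have hρN : ∀ n ∈ N, ρ n = 1 := fun n hn => by
    rw [hρ, MonoidHom.pow_apply, MonoidHom.pow_apply]
    have h1 : D n ^ e = 1 := hθpow (D.comp N.subtype) ⟨n, hn⟩
    rw [h1, one_pow]
  have hres : (fun n : N => χ' n) = (θ : N → ℂ) := funext fun n => by
    show (ρ (n : G) : ℂ) * χ n = _
    rw [hρN n n.2, Units.val_one, one_mul, hext]
  have hχ'irr : IsIrrCharacter G χ' := isIrrCharacter_of_comp N.subtype
    (isCharacter_mul (isIrrCharacter_linear ρ).isCharacter hχ.isCharacter) (by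
      show IsIrrCharacter N (fun n : N => χ' n)
      rw [hres]; exact θ.2)
  have hχ1 : χ 1 = (d : ℂ) := (hext 1).trans (coe_charDegree θ).symm
  have hdet : ∀ g, detChar χ' g ^ e = 1 := fun g => by
    rw [hχ', detChar_linear_mul hχ.isCharacter hχ1, ← hD, mul_pow, ← pow_mul, ← Units.val_pow_eq_pow_val,
      ← Units.val_pow_eq_pow_val, ← Units.val_mul, hρ, MonoidHom.pow_apply, MonoidHom.pow_apply, ← pow_mul, ← pow_mul, ← pow_add]
    obtain ⟨c, hc⟩ := Nat.dvd_of_mod_eq_zero hu
    rw [show e * (u * (d * e)) + e = e * (N.index * c) by rw [← hc]; ring, pow_mul, pow_mul, hDN, one_pow, Units.val_one]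
  have hreal' : ∀ g, conj (χ' g) = χ' g := by
    obtain ⟨ν, hνN, hν⟩ := exists_linear_of_extensions (M := N) hχ'irr (isIrrCharacter_conj hχ'irr)
      (fun n => by
        show conj (χ' n) = χ' n
        rw [congrFun hres n, hθreal])
      (by rw [hres]; exact θ.2)
    intro g
    have h1 : ν g ^ N.index = 1 := by
      rw [← map_pow]; exact hνN _ (Subgroup.pow_index_mem N g)
    have h2 : ν g ^ (d * e) = 1 := by
      have h3 := hdet g
      have h4 : detChar (fun x => (ν x : ℂ) * χ' x) g ^ e = 1 := by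
        rw [show (fun x => (ν x : ℂ) * χ' x) = fun x => conj (χ' x) from funext hν,
          detChar_conj hχ'irr.isCharacter, ← map_pow, h3, map_one]
      rw [detChar_linear_mul hχ'irr.isCharacter (d := d) (by show (ρ 1 : ℂ) * χ 1 = _; rw [map_one, Units.val_one, one_mul, hχ1]),
        mul_pow, h3, mul_one, ← pow_mul] at h4
      exact Units.ext (by rw [Units.val_pow_eq_pow_val, h4, Units.val_one])
    have hν1 : ν g = 1 := by
      have := pow_gcd_eq_one.mpr ⟨h1, h2⟩
      rwa [hcop.gcd_eq_one, pow_one] at this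
    rw [← hν g, hν1, Units.val_one, one_mul]
  -- the restriction to `P`
  set r : P → ℂ := fun x => χ' x with hr
  have hrc : IsCharacter P r := isCharacter_restrict hχ'irr.isCharacter P
  choose c hc using fun ψ : IrrCharacter P => classInner_nat hrc ψ.2.isCharacter
  set lp : N.subgroupOf P → ℂ := fun q => (lam (q : P) : ℂ) with hlp
  have hlpirr : IsIrrCharacter (N.subgroupOf P) lp := isIrrCharacter_linear (lam.comp (N.subgroupOf P).subtype)
  choose q hq using fun ψ : IrrCharacter P =>
    classInner_nat (isCharacter_restrict ψ.2.isCharacter (N.subgroupOf P)) hlpirr.isCharacter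
  have hsumq : m θ = ∑ ψ, c ψ * q ψ := by
    rw [← Nat.cast_inj (R := ℂ)]
    push_cast
    simp only [← hc, ← hq]
    have e1 : (m θ : ℂ) = classInner (fun x : N.subgroupOf P => r x) lp := by
      let eQ : P.subgroupOf N ≃* N.subgroupOf P :=
        { toFun := fun y => ⟨inc y, (y : N).2⟩
          invFun := fun y => ⟨⟨((y : P) : G), y.2⟩, (y : P).2⟩
          left_inv := fun _ => rfl
          right_inv := fun _ => rfl
          map_mul' := fun _ _ => rfl }
      rw [← classInner_comp_equiv eQ]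
      have e2 : classInner (fun y : P.subgroupOf N => (θ : N → ℂ) y) lq = (m θ : ℂ) := by
        rw [← conj_classInner, ← classInner_indFun (P.subgroupOf N) lq θ.2.isClassFunction, ← hf, hm, Complex.conj_natCast]
      rw [← e2]
      congr 1
      funext y
      exact (congrFun hres (y : N)).symm
    rw [e1]
    conv_lhs => arg 1; ext x; rw [congrFun (classFunction_expansion (isClassFunction_of_isCharacter hrc)) (x : P)]
    rw [show (fun x : N.subgroupOf P => (∑ ψ : IrrCharacter P, classInner r (ψ : P → ℂ) • (ψ : P → ℂ)) (x : P)) =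
      ∑ ψ : IrrCharacter P, classInner r (ψ : P → ℂ) • fun x : N.subgroupOf P => (ψ : P → ℂ) x from by
        funext x; simp [Finset.sum_apply], classInner_sum_left]
    exact Finset.sum_congr rfl fun ψ _ => classInner_smul_left _ _ _
  have hbig : ∀ ψ : IrrCharacter P, charDegree (ψ : P → ℂ) ≠ 1 → (q ψ : ZMod 2) = 0 := by
    intro ψ hψ
    by_cases hq0 : q ψ = 0
    · rw [hq0, Nat.cast_zero]
    have hne : classInner (fun x : N.subgroupOf P => (ψ : P → ℂ) x) lp ≠ 0 := by
      rw [hq]; exact Nat.cast_ne_zero.mpr hq0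
    have horb : orbitFinset (N.subgroupOf P) lp = {lp} := by
      ext z
      rw [mem_orbitFinset, Finset.mem_singleton]
      have hi : ∀ x : P, conjFn (N.subgroupOf P) lp x = lp := fun x => funext fun y => by
        rw [conjFn_apply, hlp]
        show (lam (x * (y : P) * x⁻¹) : ℂ) = _
        rw [map_mul, map_mul, map_inv, mul_comm (lam x), mul_inv_cancel_right]
      exact ⟨fun ⟨x, hx⟩ => hx.trans (hi x), fun h => ⟨1, h.trans (hi 1).symm⟩⟩
    have h1 := congrFun (clifford ψ.2 hlpirr hne) 1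
    simp only [Pi.smul_apply, horb, Finset.sum_singleton, smul_eq_mul, hq, OneMemClass.coe_one] at h1
    rw [show lp 1 = 1 by simp [hlp], mul_one, ← coe_charDegree, Nat.cast_inj] at h1
    obtain ⟨j, hj⟩ := IsPGroup.iff_card.mp hP2
    obtain ⟨i, -, hi⟩ := (Nat.dvd_prime_pow Nat.prime_two).mp (hj ▸ charDegree_dvd_card ψ)
    rw [hi] at hψ h1
    rw [ZMod.natCast_eq_zero_iff, ← h1]
    exact dvd_pow_self 2 fun h => hψ (by rw [h, pow_zero])
  obtain ⟨ψ, hψ1, hψreal, hψq⟩ : ∃ ψ : IrrCharacter P, charDegree (ψ : P → ℂ) = 1 ∧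
      (∀ x, conj ((ψ : P → ℂ) x) = (ψ : P → ℂ) x) ∧ q ψ ≠ 0 := by
    by_contra hcon
    push Not at hcon
    let bar : IrrCharacter P → IrrCharacter P := fun ψ => ⟨_, isIrrCharacter_conj ψ.2⟩
    have hbar : Function.Involutive bar := fun ψ => Subtype.ext (funext fun n => Complex.conj_conj _)
    have hbq : ∀ ψ, q (bar ψ) = q ψ ∧ c (bar ψ) = c ψ := by
      intro ψ
      have hlpreal : ∀ y, conj (lp y) = lp y := fun y => by
        have h := hlam (y : P) y.2
        have h1 : lp y * lp y = 1 := by rw [hlp, ← Units.val_mul, h, Units.val_one]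
        rcases mul_self_eq_one_iff.mp h1 with h2 | h2 <;> simp [h2]
      constructor
      · have h := hq (bar ψ)
        have h' : classInner (fun x : N.subgroupOf P => (bar ψ : P → ℂ) x) lp =
            conj (classInner (fun x : N.subgroupOf P => (ψ : P → ℂ) x) lp) := by
          simp only [classInner, map_mul, map_inv₀, map_natCast, map_sum, hlpreal, bar]
        rw [h', hq, Complex.conj_natCast, Nat.cast_inj] at h
        exact h.symm
      · have h := hc (bar ψ)
        have h' : classInner r (bar ψ : P → ℂ) = conj (classInner r (ψ : P → ℂ)) := by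
          simp only [classInner, map_mul, map_inv₀, map_natCast, map_sum, hr, hreal', bar]
        rw [h', hc, Complex.conj_natCast, Nat.cast_inj] at h
        exact h.symm
    have h0 : ((m θ : ℕ) : ZMod 2) = 0 := by
      rw [hsumq, Nat.cast_sum]
      refine sum_fixed_two _ bar hbar (fun ψ => by rw [(hbq ψ).1, (hbq ψ).2]) fun ψ hψ => ?_
      rw [Nat.cast_mul]
      by_cases h1 : charDegree (ψ : P → ℂ) = 1
      · rw [hcon ψ h1 fun x => congrFun (congrArg Subtype.val hψ) x, Nat.cast_zero, mul_zero]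
      · rw [hbig ψ h1, mul_zero]
    exact Nat.not_even_iff_odd.mpr hmodd.1 (ZMod.natCast_eq_zero_iff_even.mp h0)
  obtain ⟨μ, hμ⟩ := exists_hom_of_degree_one ψ.2.isCharacter (by rw [← coe_charDegree ψ, hψ1, Nat.cast_one])
  refine ⟨μ, fun x => ?_, fun x hx => ?_⟩
  · have h := hψreal x
    rw [hμ, ← char_inv_eq_conj (isIrrCharacter_linear μ).isCharacter x] at h
    have h2 : μ x⁻¹ = μ x := Units.ext h
    conv_lhs => arg 1; rw [← h2]
    rw [map_inv, inv_mul_cancel]
  · have hne : classInner (fun y : N.subgroupOf P => (μ (y : P) : ℂ)) lp ≠ 0 := by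
      have e : (fun y : N.subgroupOf P => (μ (y : P) : ℂ)) = fun y : N.subgroupOf P => (ψ : P → ℂ) y :=
        funext fun y => (congrFun hμ (y : P)).symm
      rw [e, hq]; exact Nat.cast_ne_zero.mpr hψq
    have heq : (fun y : N.subgroupOf P => (μ (y : P) : ℂ)) = lp := by
      by_contra hd
      exact hne (classInner_irr_ne (isIrrCharacter_linear (μ.comp (N.subgroupOf P).subtype)) hlpirr hd)
    exact Units.ext (congrFun heq ⟨x, hx⟩)

/-- Let N be a normal subgroup of the finite group G, P a Sylow 2-subgroup of G and Q = P ∩ N. Suppose that P/QP' and Q/Q' are elementary abelian (every square of an element of P lies in the subgroup generated by Q and the derived subgroup of P, and every square of an element of Q lies in the derived subgroup of Q), and that the commutator factor group N/N' has odd order. Then P/P' is elementary abelian. -/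
theorem result {G : Type*} [Group G] [Finite G] (N : Subgroup G) [N.Normal] (P : Sylow 2 G)
    (hP : ∀ x ∈ (P : Subgroup G), x ^ 2 ∈ ((P : Subgroup G) ⊓ N) ⊔ ⁅(P : Subgroup G), (P : Subgroup G)⁆)
    (hQ : ∀ x ∈ (P : Subgroup G) ⊓ N, x ^ 2 ∈ ⁅(P : Subgroup G) ⊓ N, (P : Subgroup G) ⊓ N⁆)
    (hodd : Odd (Nat.card (Abelianization N))) :
    ∀ x ∈ (P : Subgroup G), x ^ 2 ∈ ⁅(P : Subgroup G), (P : Subgroup G)⁆ := by
  intro x hx
  by_contra hcon
  have hxc : (⟨x, hx⟩ : (P : Subgroup G)) ^ 2 ∉ commutator (P : Subgroup G) := by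
    intro h
    apply hcon
    rw [← Subgroup.map_subtype_commutator]
    exact ⟨_, h, rfl⟩
  obtain ⟨l, hl⟩ := exists_hom_ne_one (X := Abelianization (P : Subgroup G))
    (x := Abelianization.of ((⟨x, hx⟩ : (P : Subgroup G)) ^ 2)) (fun h => hxc (by
      rwa [← MonoidHom.mem_ker, Abelianization.ker_of] at h))
  set lam : (P : Subgroup G) →* ℂˣ := l.comp Abelianization.of with hlamdef
  set S := N ⊔ (P : Subgroup G) with hS
  have hNS : N ≤ S := le_sup_left
  have hPS : (P : Subgroup G) ≤ S := le_sup_right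
  have hker : ∀ (μ : (P : Subgroup G) →* ℂˣ) (y : G) (hy : y ∈ ⁅(P : Subgroup G), (P : Subgroup G)⁆) (hyP : y ∈ (P : Subgroup G)),
      μ ⟨y, hyP⟩ = 1 := by
    intro μ y hy hyP
    rw [← Subgroup.map_subtype_commutator] at hy
    obtain ⟨w, hw, rfl⟩ := hy
    exact Abelianization.commutator_subset_ker μ hw
  have hlam2 : ∀ y : (P : Subgroup G), (y : G) ∈ N → lam y * lam y = 1 := by
    intro y hy
    rw [← map_mul]
    have h1 : (y : G) ^ 2 ∈ ⁅(P : Subgroup G), (P : Subgroup G)⁆ :=
      Subgroup.commutator_mono inf_le_left inf_le_left (hQ _ ⟨y.2, hy⟩)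
    refine Eq.trans (congrArg lam (Subtype.ext ?_)) (hker lam _ h1 (Subgroup.pow_mem _ y.2 2))
    simp [sq]
  have hrelN : ¬ 2 ∣ (P : Subgroup G).relIndex N := by
    haveI : Fact (Nat.Prime 2) := ⟨Nat.prime_two⟩
    have h1 : (P : Subgroup G).relIndex N = (P : Subgroup G).relIndex S := by
      have a1 : Nat.card N * N.relIndex (P : Subgroup G) = Nat.card S := by
        rw [← Subgroup.relIndex_bot_left N, ← Subgroup.relIndex_sup_left (H := (P : Subgroup G)) (K := N),
          Subgroup.relIndex_mul_relIndex ⊥ N S bot_le hNS, Subgroup.relIndex_bot_left]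
      have a2 : Nat.card ↥((P : Subgroup G) ⊓ N) * (P : Subgroup G).relIndex N = Nat.card N := by
        rw [← Subgroup.inf_relIndex_right, ← Subgroup.relIndex_bot_left, Subgroup.relIndex_mul_relIndex _ _ _ bot_le inf_le_right,
          Subgroup.relIndex_bot_left]
      have a3 : Nat.card ↥((P : Subgroup G) ⊓ N) * N.relIndex (P : Subgroup G) = Nat.card (P : Subgroup G) := by
        rw [← Subgroup.inf_relIndex_left, ← Subgroup.relIndex_bot_left, Subgroup.relIndex_mul_relIndex _ _ _ bot_le inf_le_left,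
          Subgroup.relIndex_bot_left]
      have a4 : Nat.card (P : Subgroup G) * (P : Subgroup G).relIndex S = Nat.card S := by
        rw [← Subgroup.relIndex_bot_left, Subgroup.relIndex_mul_relIndex _ _ _ bot_le hPS, Subgroup.relIndex_bot_left]
      refine Nat.eq_of_mul_eq_mul_left (Nat.card_pos (α := (P : Subgroup G))) ?_
      rw [a4, ← a1, ← a2, ← a3]; ring
    rw [h1]
    exact fun hd => P.not_dvd_index (hd.trans (Dvd.intro _ (Subgroup.relIndex_mul_index hPS)))
  haveI : (N.subgroupOf S).Normal := Subgroup.normal_subgroupOf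
  let eP := Subgroup.subgroupOfEquivOfLe hPS
  obtain ⟨μ, hμ2, hμ⟩ := exists_real_extension (N.subgroupOf S) ((P : Subgroup G).subgroupOf S)
    (by
      rw [eq_top_iff]
      rintro ⟨s, hs⟩ -
      obtain ⟨n, hn, y, hy, rfl⟩ := Subgroup.mem_sup_of_normal_left.mp hs
      exact Subgroup.mul_mem_sup (x := (⟨n, hNS hn⟩ : S)) (y := ⟨y, hPS hy⟩) hn hy)
    (P.2.of_equiv eP.symm) (by rw [Subgroup.relIndex_subgroupOf hNS]; exact hrelN)
    (by rw [Nat.card_congr (Subgroup.subgroupOfEquivOfLe hNS).abelianizationCongr.toEquiv]; exact hodd)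
    (lam.comp eP.toMonoidHom) (fun y hy => hlam2 _ hy)
  set ν : (P : Subgroup G) →* ℂˣ := lam * (μ.comp eP.symm.toMonoidHom)⁻¹ with hν
  have hνQ : ∀ y : (P : Subgroup G), (y : G) ∈ N → ν y = 1 := by
    intro y hy
    have h1 : μ (eP.symm y) = lam (eP (eP.symm y)) := hμ (eP.symm y) hy
    rw [MulEquiv.apply_symm_apply] at h1
    rw [hν, MonoidHom.mul_apply, MonoidHom.inv_apply]
    show lam y * (μ (eP.symm y))⁻¹ = 1
    rw [h1, mul_inv_cancel]
  have hle : (((P : Subgroup G) ⊓ N) ⊔ ⁅(P : Subgroup G), (P : Subgroup G)⁆) ≤ ν.ker.map (P : Subgroup G).subtype := by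
    refine sup_le (fun y hy => ⟨⟨y, hy.1⟩, hνQ _ hy.2, rfl⟩) ?_
    rw [← Subgroup.map_subtype_commutator]
    exact Subgroup.map_mono (Abelianization.commutator_subset_ker ν)
  obtain ⟨w, hw, hwx⟩ := hle (hP x hx)
  have hw' : w = (⟨x, hx⟩ : (P : Subgroup G)) ^ 2 := Subtype.ext hwx
  rw [hw', SetLike.mem_coe, MonoidHom.mem_ker, hν, MonoidHom.mul_apply, MonoidHom.inv_apply, mul_inv_eq_one] at hw
  apply hl
  show lam _ = 1
  rw [hw, map_pow, sq]
  exact hμ2 _

end Cfsg.Agent.S4582
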