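import Cfsg.Statements.S4583
import Cfsg.Agent.Lib.Blocks.Principal
import Cfsg.Agent.Lib.Blocks.Covering
import Cfsg.Agent.Lib.Blocks.FongReynolds

set_option autoImplicit false
open Cfsg

namespace Cfsg.Agent.S4583

/-- Let N be a normal subgroup of the finite group G, p a prime, M a maximal ideal of the algebraic integers containing p, and P a Sylow p-subgroup of G. Let θ be an irreducible character of N of degree prime to p lying in the principal p-block of N, and suppose θ extends to the subgroup NP (some irreducible character of NP restricts to θ). Then some irreducible character χ of G of degree prime to p in the principal p-block of G lies over θ (θ is a constituent of the restriction of χ to N). -/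
theorem result {G : Type*} [Group G] [Finite G] (N : Subgroup G) [N.Normal] (p : ℕ) [Fact p.Prime] (M : Ideal Cfsg.AlgInt) (hM : Cfsg.IsPModular p M) (P : Sylow p G)
    (θ : Cfsg.IrrCharacter N) (hθ : θ ∈ Cfsg.principalBlock M N) (hdeg : ¬ p ∣ Cfsg.charDegree (θ : N → ℂ))
    (hext : ∃ η : Cfsg.IrrCharacter ↥(N ⊔ (P : Subgroup G)), ∀ n : N, (η : ↥(N ⊔ (P : Subgroup G)) → ℂ) (Subgroup.inclusion le_sup_left n) = (θ : N → ℂ) n) :
    ∃ χ : Cfsg.IrrCharacter G, χ ∈ Cfsg.principalBlock M G ∧ ¬ p ∣ Cfsg.charDegree (χ : G → ℂ) ∧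
      haveI := Fintype.ofFinite N; Cfsg.classInner (fun n : N => (χ : G → ℂ) n) (θ : N → ℂ) ≠ 0 := by
  haveI : Fintype G := Fintype.ofFinite G
  haveI := hM.2.1.isPrime
  letI : Fintype N := Fintype.ofFinite N
  classical
  open Cfsg.Lib.Blocks Cfsg.Lib.Characters in
  · have hp : p.Prime := Fact.out
    obtain ⟨η, hη⟩ := hext
    suffices key : ∀ (H : Subgroup G) (η : IrrCharacter H) (hNH : N ≤ H), (P : Subgroup G) ≤ H → N ⊔ (P : Subgroup G) = H →
        (∀ (n : G) (hn : n ∈ N), (η : H → ℂ) ⟨n, hNH hn⟩ = (θ : N → ℂ) ⟨n, hn⟩) →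
        ∃ χ : IrrCharacter G, χ ∈ principalBlock M G ∧ ¬ p ∣ charDegree (χ : G → ℂ) ∧
          classInner (fun n : N => (χ : G → ℂ) n) (θ : N → ℂ) ≠ 0 from
      key _ η le_sup_left le_sup_right rfl fun n hn => hη ⟨n, hn⟩
    clear hη η
    intro H η hNH hPH hH hη'
    have hreg : ∀ h : H, ¬ p ∣ orderOf h → (h : G) ∈ N := by
      intro h hh
      rw [← QuotientGroup.eq_one_iff]
      have hmem : ((h : G) : G ⧸ N) ∈ (P : Subgroup G).map (QuotientGroup.mk' N) := by
        have h1 : ((h : G) : G ⧸ N) ∈ H.map (QuotientGroup.mk' N) := ⟨h, h.2, rfl⟩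
        rw [show H.map (QuotientGroup.mk' N) = (P : Subgroup G).map (QuotientGroup.mk' N) by
          rw [← hH, Subgroup.map_sup, QuotientGroup.map_mk'_self, bot_sup_eq]] at h1
        exact h1
      obtain ⟨k, hk⟩ := IsPGroup.iff_orderOf.mp (P.isPGroup'.map (QuotientGroup.mk' N)) ⟨_, hmem⟩
      rw [Subgroup.orderOf_mk] at hk
      refine eq_one_of_pPow_regular hk fun hd => hh ?_
      rw [← Subgroup.orderOf_coe]
      exact hd.trans (orderOf_map_dvd (QuotientGroup.mk' N) (h : G))
    -- the regular sum against the induced character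
    set z := regSum ℂ p G
    have hz := regSum_mem_locCenter (M := M) (p := p) (G := G)
    have hzN := regSum_mem_locCenter (M := M) (p := p) (G := N)
    have hsum : ∑ g, z.coeff g * indFun H (η : H → ℂ) g
        = (H.index : ℂ) * ((θ : N → ℂ) 1 * omega θ (regSum ℂ p N)) := by
      rw [Finset.sum_congr rfl fun g _ => mul_comm (z.coeff g) _,
        sum_indFun_mul H (η : H → ℂ) (F := fun g => z.coeff g) fun g x => hz.1 x g, omega,
        mul_div_cancel₀ _ θ.2.one_ne_zero]
      congr 1
      rw [← Finset.sum_subset (Finset.subset_univ (Finset.univ.filter fun h : H => (h : G) ∈ N))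
        fun h _ hh => by
          rw [coeff_regSum, if_pos, mul_zero]
          by_contra hd
          rw [Subgroup.orderOf_coe] at hd
          exact hh (Finset.mem_filter.mpr ⟨Finset.mem_univ _, hreg h hd⟩)]
      refine Finset.sum_bij' (fun h hh => ⟨(h : G), (Finset.mem_filter.mp hh).2⟩)
        (fun n _ => ⟨(n : G), hNH n.2⟩) (fun _ _ => Finset.mem_univ _)
        (fun n _ => Finset.mem_filter.mpr ⟨Finset.mem_univ _, n.2⟩) (fun _ _ => rfl) (fun _ _ => rfl) ?_
      intro h hh
      rw [hη' (h : G) (Finset.mem_filter.mp hh).2, coeff_regSum, coeff_regSum,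
        ← Subgroup.orderOf_coe (⟨(h : G), (Finset.mem_filter.mp hh).2⟩ : N)]
      ring
    obtain ⟨m, hm⟩ := exists_decomposition (isCharacter_indFun H η.2.isCharacter)
    have hsum2 : ∑ g, z.coeff g * indFun H (η : H → ℂ) g
        = ∑ χ : IrrCharacter G, (m χ : ℂ) * ((χ : G → ℂ) 1 * omega χ z) := by
      rw [hm]
      simp only [Finset.sum_apply, Pi.smul_apply, smul_eq_mul, Finset.mul_sum, omega]
      rw [Finset.sum_comm]
      refine Finset.sum_congr rfl fun χ _ => ?_
      rw [mul_div_cancel₀ _ χ.2.one_ne_zero, Finset.mul_sum]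
      exact Finset.sum_congr rfl fun g _ => by ring
    have hidx : ¬ p ∣ H.index := fun hd =>
      P.not_dvd_index (hd.trans (Subgroup.index_dvd_of_le hPH))
    have hne : red M (∑ χ : IrrCharacter G, (m χ : ℂ) * ((χ : G → ℂ) 1 * omega χ z)) ≠ 0 := by
      rw [← hsum2, hsum, ← coe_charDegree θ,
        red_mul (natCast_mem _ _) (mul_mem (natCast_mem _ _) (omega_mem_locRing M θ hzN)),
        red_mul (natCast_mem _ _) (omega_mem_locRing M θ hzN), red_natCast, red_natCast]
      refine mul_ne_zero (fun h => hidx ((natCast_resF_eq_zero hM _).mp h))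
        (mul_ne_zero (fun h => hdeg ((natCast_resF_eq_zero hM _).mp h)) ?_)
      rw [← lam_redG M θ hzN, redG_regSum]
      exact (mem_principal_iff_lam_regSum hM θ).mp hθ
    have hmem : ∀ χ : IrrCharacter G, (χ : G → ℂ) 1 * omega χ z ∈ locRing M := fun χ =>
      mul_mem (char_mem_locRing M χ 1) (omega_mem_locRing M χ hz)
    rw [red_sum _ fun χ _ => mul_mem (natCast_mem _ _) (hmem χ)] at hne
    obtain ⟨χ, -, hχ⟩ := Finset.exists_ne_zero_of_sum_ne_zero hne
    rw [red_mul (natCast_mem _ _) (hmem χ), red_mul (char_mem_locRing M χ 1) (omega_mem_locRing M χ hz),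
      ← coe_charDegree χ, red_natCast, red_natCast, ← lam_redG M χ hz, redG_regSum] at hχ
    refine ⟨χ, (mem_principal_iff_lam_regSum hM χ).mpr (right_ne_zero_of_mul (right_ne_zero_of_mul hχ)),
      fun hd => left_ne_zero_of_mul (right_ne_zero_of_mul hχ) ((natCast_resF_eq_zero hM _).mpr hd), ?_⟩
    have hm0 : m χ ≠ 0 := fun h0 => left_ne_zero_of_mul hχ (by rw [h0, Nat.cast_zero])
    haveI : Fintype H := Fintype.ofFinite H
    obtain ⟨r, hr⟩ := exists_decomposition (isCharacter_comp χ.2.isCharacter H.subtype)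
    have hrη : r η ≠ 0 := by
      intro h0
      have h1 : classInner (indFun H (η : H → ℂ)) (χ : G → ℂ) = (m χ : ℂ) := by
        rw [hm]; exact classInner_sum_irr (fun ψ => (m ψ : ℂ)) χ
      have h2 : classInner (fun h : H => (χ : G → ℂ) h) (η : H → ℂ) = (r η : ℂ) := by
        rw [show (fun h : H => (χ : G → ℂ) h) = ∑ ψ : IrrCharacter H, (r ψ : ℂ) • (ψ : H → ℂ) from hr]
        exact classInner_sum_irr (fun ψ => (r ψ : ℂ)) η
      have h3 := congrArg (starRingEnd ℂ) ((classInner_indFun H (η : H → ℂ) χ.2.isClassFunction).symm.trans h1)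
      rw [conj_classInner, map_natCast, h2, h0, Nat.cast_zero] at h3
      exact hm0 (by exact_mod_cast h3.symm)
    obtain ⟨q, hq⟩ := exists_decomposition (isCharacter_comp χ.2.isCharacter N.subtype)
    show classInner (fun n : N => (χ : G → ℂ) n) (θ : N → ℂ) ≠ 0
    have hres : (fun n : N => (χ : G → ℂ) n)
        = ∑ ψ : IrrCharacter H, (r ψ : ℂ) • fun n : N => (ψ : H → ℂ) (Subgroup.inclusion hNH n) := by
      funext n
      have h := congrFun hr (Subgroup.inclusion hNH n)
      simpa using h
    rw [hres, classInner_sum_left]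
    obtain ⟨w, hw⟩ : ∃ w : IrrCharacter H → ℕ, ∀ ψ : IrrCharacter H,
        classInner (fun n : N => (ψ : H → ℂ) (Subgroup.inclusion hNH n)) (θ : N → ℂ) = (w ψ : ℂ) := by
      choose d hd using fun ψ : IrrCharacter H =>
        exists_decomposition (isCharacter_comp ψ.2.isCharacter (Subgroup.inclusion hNH))
      exact ⟨fun ψ => d ψ θ, fun ψ => by
        rw [show (fun n : N => (ψ : H → ℂ) (Subgroup.inclusion hNH n))
          = ∑ φ : IrrCharacter N, (d ψ φ : ℂ) • (φ : N → ℂ) from hd ψ]
        exact classInner_sum_irr (fun φ => (d ψ φ : ℂ)) θ⟩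
    rw [Finset.sum_congr rfl (g := fun ψ => ((r ψ * w ψ : ℕ) : ℂ)) fun ψ _ => by
      rw [classInner_smul_left, hw, Nat.cast_mul], ← Nat.cast_sum, ne_eq, Nat.cast_eq_zero]
    intro h0
    have h1 := Finset.sum_eq_zero_iff.mp h0 η (Finset.mem_univ _)
    rcases Nat.mul_eq_zero.mp h1 with h2 | h2
    · exact hrη h2
    · have h3 := hw η
      rw [show (fun n : N => (η : H → ℂ) (Subgroup.inclusion hNH n)) = (θ : N → ℂ) from
        funext fun n => hη' n n.2, classInner_irr_self θ.2, h2, Nat.cast_zero] at h3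
      exact one_ne_zero h3

end Cfsg.Agent.S4583
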