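import Cfsg.Statements.S4586
import Mathlib
-- import your own Cfsg.Agent.* helpers here

set_option autoImplicit false
open Cfsg

namespace Cfsg.Agent.S4586


/-- The order of the commutator factor group above a maximal subgroup. -/
theorem index_commutator_mul {P : Type*} [Group P] [Finite P] {p : ℕ} (hp : p.Prime) (N : Subgroup P) [N.Normal]
    (hN : N.index = p) {x : P} (hx : x ∉ N) :
    (commutator P).index * Nat.card (commutator N) =
      p * Nat.card {n : N // x * n * x⁻¹ * (n : P)⁻¹ ∈ (commutator N).map N.subtype} := by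
  haveI : Fact p.Prime := ⟨hp⟩
  have htop : N ⊔ Subgroup.zpowers x = ⊤ := by
    have hd : (N ⊔ Subgroup.zpowers x).index ∣ p := hN ▸ Subgroup.index_dvd_of_le le_sup_left
    rcases (Nat.dvd_prime hp).mp hd with h | h
    · exact Subgroup.index_eq_one.mp h
    · exfalso
      have h1 := Subgroup.relIndex_mul_index (le_sup_left : N ≤ N ⊔ Subgroup.zpowers x)
      rw [h, hN, Nat.mul_eq_right hp.ne_zero, Subgroup.relIndex_eq_one] at h1
      exact hx (h1 (Subgroup.mem_sup_right (Subgroup.mem_zpowers x)))
  have hPN : commutator P ≤ N := by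
    haveI : IsCyclic (P ⧸ N) := isCyclic_of_prime_card (p := p) (by rw [← Subgroup.index_eq_card, hN])
    letI := IsCyclic.commGroup (α := P ⧸ N)
    have := Abelianization.commutator_subset_ker (QuotientGroup.mk' N)
    rwa [QuotientGroup.ker_mk'] at this
  let F : N → N := fun n => ⟨x * n * x⁻¹ * (n : P)⁻¹, mul_mem (‹N.Normal›.conj_mem _ n.2 x) (inv_mem n.2)⟩
  have hab : ∀ u v : N ⧸ commutator N, u * v = v * u := fun u v => by
    induction u using QuotientGroup.induction_on with
    | H u =>
      induction v using QuotientGroup.induction_on with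
      | H v =>
        rw [← QuotientGroup.mk_mul, ← QuotientGroup.mk_mul, QuotientGroup.eq]
        have h := Subgroup.commutator_mem_commutator (Subgroup.mem_top v⁻¹) (Subgroup.mem_top u⁻¹)
        rw [commutatorElement_def, ← commutator_def] at h
        convert h using 1
        group
  let f : N →* N ⧸ commutator N := MonoidHom.mk' (fun n => QuotientGroup.mk (F n)) fun a b => by
    have e : F (a * b) = MulAut.conjNormal x a * F b * a⁻¹ := Subtype.ext (by
      simp only [F, Subgroup.coe_mul, Subgroup.coe_inv, MulAut.conjNormal_apply]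
      group)
    have e2 : F a = MulAut.conjNormal x a * a⁻¹ := Subtype.ext (by
      simp only [F, Subgroup.coe_mul, Subgroup.coe_inv, MulAut.conjNormal_apply])
    show (QuotientGroup.mk (F (a * b)) : N ⧸ commutator N) = QuotientGroup.mk (F a) * QuotientGroup.mk (F b)
    rw [e, e2]
    simp only [QuotientGroup.mk_mul]
    rw [mul_assoc, hab (QuotientGroup.mk (F b)), ← mul_assoc]
  have hker : Nat.card {n : N // x * n * x⁻¹ * (n : P)⁻¹ ∈ (commutator N).map N.subtype} = Nat.card f.ker := by
    refine Nat.card_congr (Equiv.subtypeEquivRight fun n => ?_)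
    rw [MonoidHom.mem_ker]
    show _ ↔ (QuotientGroup.mk (F n) : N ⧸ commutator N) = 1
    rw [QuotientGroup.eq_one_iff]
    exact ⟨fun ⟨m, hm, e⟩ => by rwa [show F n = m from Subtype.ext e.symm], fun h => ⟨F n, h, rfl⟩⟩
  let M' : Subgroup N := f.range.comap (QuotientGroup.mk' (commutator N))
  let M : Subgroup P := M'.map N.subtype
  have hCM : (commutator N).map N.subtype ≤ M := Subgroup.map_mono fun z hz => by
    show (QuotientGroup.mk z : N ⧸ commutator N) ∈ f.range
    rw [(QuotientGroup.eq_one_iff z).mpr hz]
    exact one_mem _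
  have hFM : ∀ n : N, x * n * x⁻¹ * (n : P)⁻¹ ∈ M := fun n => ⟨F n, ⟨n, rfl⟩, rfl⟩
  have hMN : M ≤ N := Subgroup.map_subtype_le _
  have hNM : ∀ a ∈ N, ∀ b ∈ N, a * b * a⁻¹ * b⁻¹ ∈ M := fun a ha b hb =>
    hCM ⟨_, Subgroup.commutator_mem_commutator (Subgroup.mem_top (⟨a, ha⟩ : N)) (Subgroup.mem_top (⟨b, hb⟩ : N)), rfl⟩
  have hPM : commutator P ≤ M := by
    haveI hMn : M.Normal := by
      refine Subgroup.normalizer_eq_top_iff.mp (top_le_iff.mp (htop ▸ sup_le ?_ ?_))
      · intro a ha
        rw [Subgroup.mem_normalizer_iff]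
        intro h
        constructor
        · intro hh
          have := mul_mem (hNM a ha h (hMN hh)) hh
          rwa [inv_mul_cancel_right] at this
        · intro hh
          have hh' := hMN hh
          have h2 := mul_mem (hNM a⁻¹ (inv_mem ha) _ hh') hh
          rw [inv_mul_cancel_right, inv_inv] at h2
          convert h2 using 1
          group
      · rw [Subgroup.zpowers_le, Subgroup.mem_normalizer_iff]
        intro h
        constructor
        · intro hh
          have := mul_mem (hFM ⟨h, hMN hh⟩) hh
          simpa using this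
        · intro hh
          have hhN : h ∈ N := by
            have h0 := ‹N.Normal›.conj_mem _ (hMN hh) x⁻¹
            convert h0 using 1
            group
          have := mul_mem (inv_mem (hFM ⟨h, hhN⟩)) hh
          convert this using 1
          group
    let Q := P ⧸ M
    have hc : ∀ a b : P, (a : Q) * b = b * a := by
      have hrel : ∀ a b : P, a * b * a⁻¹ * b⁻¹ ∈ M → (a : Q) * b = b * a := fun a b h => by
        have h2 := (QuotientGroup.eq_one_iff (N := M) _).mpr h
        simp only [QuotientGroup.mk_mul, QuotientGroup.mk_inv] at h2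
        calc (a : Q) * b = ((a : Q) * b * (a : Q)⁻¹ * (b : Q)⁻¹) * ((b : Q) * a) := by group
          _ = _ := by rw [h2, one_mul]
      have hx' : ∀ a ∈ N, (x : Q) * a = a * x := fun a ha => hrel x a (hFM ⟨a, ha⟩)
      have hcen : ∀ a ∈ N ⊔ Subgroup.zpowers x, (∀ n ∈ N, (a : Q) * n = n * a) ∧ (a : Q) * x = x * a := by
        have key : N ⊔ Subgroup.zpowers x ≤ (Subgroup.centralizer
            ((QuotientGroup.mk' M) '' (insert x (N : Set P)) : Set Q)).comap (QuotientGroup.mk' M) := by
          refine sup_le ?_ ?_
          · intro a ha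
            show (a : Q) ∈ Subgroup.centralizer _
            rw [Subgroup.mem_centralizer_iff]
            rintro _ ⟨b, hb, rfl⟩
            rcases Set.mem_insert_iff.mp hb with rfl | hb
            · exact hx' a ha
            · exact hrel b a (hNM b hb a ha)
          · rw [Subgroup.zpowers_le]
            show (x : Q) ∈ Subgroup.centralizer _
            rw [Subgroup.mem_centralizer_iff]
            rintro _ ⟨b, hb, rfl⟩
            rcases Set.mem_insert_iff.mp hb with rfl | hb
            · rfl
            · exact (hx' b hb).symm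
        intro a ha
        have h := Subgroup.mem_centralizer_iff.mp (key ha)
        exact ⟨fun n hn => (h _ ⟨n, Or.inr hn, rfl⟩).symm, (h _ ⟨x, Or.inl rfl, rfl⟩).symm⟩
      intro a b
      have hb : b ∈ N ⊔ Subgroup.zpowers x := htop ▸ Subgroup.mem_top b
      obtain ⟨n, hn, y, hy, rfl⟩ := Subgroup.mem_sup_of_normal_left.mp hb
      obtain ⟨i, rfl⟩ := Subgroup.mem_zpowers_iff.mp hy
      obtain ⟨h1, h2⟩ := hcen a (htop ▸ Subgroup.mem_top a)
      rw [QuotientGroup.mk_mul, QuotientGroup.mk_zpow]
      exact ((show Commute (a : Q) n from h1 n hn).mul_right ((show Commute (a : Q) x from h2).zpow_right i)).eq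
    rw [commutator_def, Subgroup.commutator_le]
    intro a _ b _
    rw [← QuotientGroup.eq_one_iff, commutatorElement_def]
    simp only [QuotientGroup.mk_mul, QuotientGroup.mk_inv]
    rw [hc a b, mul_inv_cancel_right, mul_inv_cancel]
  have hMP : M ≤ commutator P := by
    rintro _ ⟨m, ⟨n, hn⟩, rfl⟩
    have hm : (QuotientGroup.mk (F n) : N ⧸ commutator N) = QuotientGroup.mk m := hn
    rw [QuotientGroup.eq] at hm
    have h1 : ((F n : N) : P) ∈ commutator P := by
      have := Subgroup.commutator_mem_commutator (Subgroup.mem_top x) (Subgroup.mem_top (n : P))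
      rw [commutatorElement_def] at this
      exact this
    have h2 : (((F n)⁻¹ * m : N) : P) ∈ commutator P := by
      have h3 : ((commutator N).map N.subtype) ≤ commutator P := by
        rw [Subgroup.map_subtype_commutator]
        exact Subgroup.commutator_mono le_top le_top
      exact h3 ⟨_, hm, rfl⟩
    have := mul_mem h1 h2
    rw [← Subgroup.coe_mul, mul_inv_cancel_left] at this
    exact this
  have heq : commutator P = M := le_antisymm hPM hMP
  have hMcard : Nat.card M = Nat.card M' := Subgroup.card_map_of_injective N.subtype_injective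
  have hidx : M'.index = f.range.index :=
    Subgroup.index_comap_of_surjective _ (QuotientGroup.mk'_surjective _)
  have hP := Subgroup.card_mul_index (commutator P)
  rw [← N.card_mul_index, hN, heq, hMcard, ← f.ker.card_mul_index, Subgroup.index_ker] at hP
  have hM' := M'.card_mul_index
  rw [hidx, Subgroup.card_eq_card_quotient_mul_card_subgroup (commutator N), ← f.range.card_mul_index] at hM'
  have hri : 0 < f.range.index := Nat.pos_of_ne_zero Subgroup.index_ne_zero_of_finite
  have hM2 : Nat.card M' = Nat.card f.range * Nat.card (commutator N) :=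
    Nat.eq_of_mul_eq_mul_right hri (hM'.trans (by ring))
  rw [hker, heq]
  rw [hM2] at hP
  refine Nat.eq_of_mul_eq_mul_left (Nat.card_pos (α := f.range)) ?_
  rw [← mul_assoc, mul_right_comm, hP]
  ring

/-- Let p be a prime, P a finite p-group and N a normal subgroup of P of index p. For x ∈ P write c(x) for the number of elements n of N whose commutator x n x⁻¹ n⁻¹ lies in the derived subgroup N' (so c(x)/#N' is the order of the centralizer of x acting on N/N'). Then [P : P'] = p² if and only if c(x) = p·#N' for every x ∈ P outside N, and also if and only if c(x) = p·#N' for some x ∈ P outside N. -/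
theorem result {P : Type*} [Group P] [Finite P] (p : ℕ) [Fact p.Prime] (hP : IsPGroup p P) (N : Subgroup P) [N.Normal] (hN : N.index = p) :
    ((commutator P).index = p ^ 2 ↔ ∀ x : P, x ∉ N →
        Nat.card {n : N // x * n * x⁻¹ * (n : P)⁻¹ ∈ (commutator N).map N.subtype} = p * Nat.card (commutator N)) ∧
    ((commutator P).index = p ^ 2 ↔ ∃ x : P, x ∉ N ∧
        Nat.card {n : N // x * n * x⁻¹ * (n : P)⁻¹ ∈ (commutator N).map N.subtype} = p * Nat.card (commutator N)) := by
  have hp : p.Prime := Fact.out
  have key : ∀ x : P, x ∉ N → ((commutator P).index = p ^ 2 ↔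
      Nat.card {n : N // x * n * x⁻¹ * (n : P)⁻¹ ∈ (commutator N).map N.subtype} = p * Nat.card (commutator N)) := by
    intro x hx
    have h := index_commutator_mul hp N hN hx
    constructor
    · intro h2
      rw [h2, pow_two, mul_assoc] at h
      exact (Nat.eq_of_mul_eq_mul_left hp.pos h).symm
    · intro h2
      rw [h2, ← mul_assoc, ← pow_two] at h
      exact Nat.eq_of_mul_eq_mul_right Nat.card_pos h
  obtain ⟨x₀, hx₀⟩ : ∃ x : P, x ∉ N := by
    by_contra hh
    push Not at hh
    rw [show N = ⊤ from eq_top_iff.mpr fun x _ => hh x, Subgroup.index_top] at hN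
    exact hp.ne_one hN.symm
  exact ⟨⟨fun h x hx => (key x hx).mp h, fun h => (key x₀ hx₀).mpr (h x₀ hx₀)⟩,
    ⟨fun h => ⟨x₀, hx₀, (key x₀ hx₀).mp h⟩, fun ⟨x, hx, h⟩ => (key x hx).mpr h⟩⟩

end Cfsg.Agent.S4586
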