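import Cfsg.Statements.S4584
import Mathlib
import Cfsg.Agent.S4586
-- import your own Cfsg.Agent.* helpers here

set_option autoImplicit false
open Cfsg

namespace Cfsg.Agent.S4584

theorem abelian_index_p {P : Type*} [Group P] [Finite P] {p : ℕ} (hp : p.Prime) (hP : Nat.card P = p ^ 4)
    (hne : Subgroup.center P ≠ ⊤) (A : Subgroup P) (hA : A.index = p) (hab : ∀ a ∈ A, ∀ b ∈ A, a * b = b * a) :
    Nat.card (commutator P) * Nat.card (Subgroup.center P) = p ^ 3 := by
  haveI : A.Normal := Subgroup.normal_of_index_eq_minFac_card (by rw [hA, hP, Nat.Prime.pow_minFac hp (by norm_num)])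
  obtain ⟨x, hx⟩ : ∃ x : P, x ∉ A := by
    by_contra hh
    push Not at hh
    rw [show A = ⊤ from eq_top_iff.mpr fun x _ => hh x, Subgroup.index_top] at hA
    exact hp.ne_one hA.symm
  have htop : ∀ H : Subgroup P, A ≤ H → (∃ y ∈ H, y ∉ A) → H = ⊤ := by
    intro H hle ⟨y, hy, hyA⟩
    rcases (Nat.dvd_prime hp).mp (hA ▸ Subgroup.index_dvd_of_le hle) with h | h
    · exact Subgroup.index_eq_one.mp h
    · exfalso
      have h1 := Subgroup.relIndex_mul_index hle
      rw [h, hA, Nat.mul_eq_right hp.ne_zero, Subgroup.relIndex_eq_one] at h1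
      exact hyA (h1 hy)
  have hZA : Subgroup.center P ≤ A := by
    intro z hz
    by_contra hzA
    apply hne
    have hcz : ∀ a ∈ A, a ∈ Subgroup.center P := fun a ha => by
      have : Subgroup.centralizer ({a} : Set P) = ⊤ := htop _
        (fun b hb => Subgroup.mem_centralizer_singleton_iff.mpr (hab a ha b hb).symm)
        ⟨z, Subgroup.mem_centralizer_singleton_iff.mpr (Subgroup.mem_center_iff.mp hz a).symm, hzA⟩
      rw [Subgroup.mem_center_iff]
      intro g
      exact Subgroup.mem_centralizer_singleton_iff.mp (this ▸ Subgroup.mem_top g)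
    exact htop _ hcz ⟨z, hz, hzA⟩
  have hcA : commutator A = ⊥ := by
    rw [eq_bot_iff, commutator_def, Subgroup.commutator_le]
    intro a _ b _
    rw [Subgroup.mem_bot, commutatorElement_eq_one_iff_mul_comm]
    exact Subtype.ext (hab _ a.2 _ b.2)
  have h := Cfsg.Agent.S4586.index_commutator_mul hp A hA hx
  rw [hcA, Subgroup.card_bot, mul_one] at h
  have e : Nat.card {n : A // x * n * x⁻¹ * (n : P)⁻¹ ∈ (⊥ : Subgroup A).map A.subtype} =
      Nat.card (Subgroup.center P) := by
    refine Nat.card_congr (Equiv.ofBijective (fun n => ⟨((n.1 : A) : P), ?_⟩) ⟨?_, ?_⟩)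
    · have hn : x * ((n.1 : A) : P) * x⁻¹ * ((n.1 : A) : P)⁻¹ = 1 := by
        have := n.2
        simpa only [Subgroup.map_bot, Subgroup.mem_bot] using this
      rw [mul_inv_eq_one, mul_inv_eq_iff_eq_mul] at hn
      have : Subgroup.centralizer ({((n.1 : A) : P)} : Set P) = ⊤ := htop _
        (fun b hb => Subgroup.mem_centralizer_singleton_iff.mpr (hab _ n.1.2 b hb).symm)
        ⟨x, Subgroup.mem_centralizer_singleton_iff.mpr hn, hx⟩
      rw [Subgroup.mem_center_iff]
      intro g
      exact Subgroup.mem_centralizer_singleton_iff.mp (this ▸ Subgroup.mem_top g)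
    · intro a b hab'
      exact Subtype.ext (Subtype.ext (congrArg (fun z : Subgroup.center P => (z : P)) hab'))
    · intro z
      refine ⟨⟨⟨z, hZA z.2⟩, ?_⟩, rfl⟩
      simp [Subgroup.mem_center_iff.mp z.2 x]
  rw [e] at h
  have h2 := Subgroup.card_mul_index (commutator P)
  rw [h, hP] at h2
  refine Nat.eq_of_mul_eq_mul_left hp.pos ?_
  rw [mul_left_comm, h2]
  ring

theorem center_card_dvd {P : Type*} [Group P] [Finite P] {p : ℕ} (hp : p.Prime) (hP : Nat.card P = p ^ 4)
    (hne : Subgroup.center P ≠ ⊤) : (Subgroup.center P).index ≠ p := by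
  intro h
  haveI : Fact p.Prime := ⟨hp⟩
  haveI : IsCyclic (P ⧸ Subgroup.center P) := isCyclic_of_prime_card (p := p) (by rw [← Subgroup.index_eq_card, h])
  apply hne
  rw [eq_top_iff]
  intro a _
  rw [Subgroup.mem_center_iff]
  intro g
  exact commutative_of_cyclic_center_quotient (QuotientGroup.mk' (Subgroup.center P))
    (by rw [QuotientGroup.ker_mk']) g a


/-- Let p be a prime and P a group of order p^4. Then the derived subgroup P' has order p if and only if the centre Z(P) has index p^2 in P. -/
theorem result {P : Type*} [Group P] [Finite P] (p : ℕ) [Fact p.Prime] (hP : Nat.card P = p ^ 4) :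
    Nat.card (commutator P) = p ↔ (Subgroup.center P).index = p ^ 2 := by
  have hp : p.Prime := Fact.out
  by_cases hne : Subgroup.center P = ⊤
  · have h1 : commutator P = ⊥ := by
      rw [eq_bot_iff, commutator_def, Subgroup.commutator_le]
      intro a _ b _
      rw [Subgroup.mem_bot, commutatorElement_eq_one_iff_mul_comm]
      exact Subgroup.mem_center_iff.mp (hne ▸ Subgroup.mem_top b) a
    rw [h1, Subgroup.card_bot, hne, Subgroup.index_top]
    exact ⟨fun h => absurd h.symm hp.ne_one, fun h => absurd h (Nat.one_lt_pow (by norm_num) hp.one_lt).ne⟩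
  have hdvd : ∀ H : Subgroup P, ∃ k ≤ 4, Nat.card H = p ^ k := fun H =>
    (Nat.dvd_prime_pow hp).mp (hP ▸ H.card_subgroup_dvd_card)
  have hZ4 : ∀ H : Subgroup P, Nat.card H = p ^ 4 → H = ⊤ := fun H h => Subgroup.eq_top_of_card_eq H (h.trans hP.symm)
  obtain ⟨a, ha⟩ : ∃ a, a ∉ Subgroup.center P := by
    by_contra hh
    push Not at hh
    exact hne (eq_top_iff.mpr fun x _ => hh x)
  obtain ⟨k, hk, hkc⟩ := hdvd (Subgroup.center P)
  have hk1 : k ≠ 0 := by
    rintro rfl
    haveI : Nontrivial P := Finite.one_lt_card_iff_nontrivial.mp (hP ▸ Nat.one_lt_pow (by norm_num) hp.one_lt)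
    have := (IsPGroup.of_card hP).center_nontrivial
    rw [← Finite.one_lt_card_iff_nontrivial, hkc] at this
    simp at this
  have hk3 : k ≤ 2 := by
    rcases Nat.lt_or_ge k 3 with h | h
    · omega
    · exfalso
      rcases Nat.lt_or_ge k 4 with h' | h'
      · obtain rfl : k = 3 := by omega
        apply center_card_dvd hp hP hne
        have := Subgroup.card_mul_index (Subgroup.center P)
        rw [hkc, hP, show p ^ 4 = p ^ 3 * p by ring] at this
        exact Nat.eq_of_mul_eq_mul_left (pow_pos hp.pos _) this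
      · exact hne (hZ4 _ (by rw [hkc, show k = 4 by omega]))
  have hidx : (Subgroup.center P).index = p ^ (4 - k) := by
    have := Subgroup.card_mul_index (Subgroup.center P)
    rw [hkc, hP, ← Nat.add_sub_cancel' hk, pow_add] at this
    exact (Nat.eq_of_mul_eq_mul_left (pow_pos hp.pos _) this).trans (by simp)
  have hind : ∀ A : Subgroup P, Nat.card A = p ^ 3 → A.index = p := fun A h => by
    have := A.card_mul_index
    rw [h, hP, show p ^ 4 = p ^ 3 * p by ring] at this
    exact Nat.eq_of_mul_eq_mul_left (pow_pos hp.pos _) this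
  constructor
  · intro hd
    rw [hidx]
    suffices k = 2 by rw [this]
    by_contra hk2
    obtain rfl : k = 1 := by omega
    set C := Subgroup.centralizer ({a} : Set P) with hC
    have hCidx : C.index = p := by
      have hle : C.index ≤ p := by
        rw [← hd, Subgroup.index_eq_card]
        refine Nat.card_le_card_of_injective
          (fun q => (⟨q.out * a * q.out⁻¹ * a⁻¹, by
            have := Subgroup.commutator_mem_commutator (Subgroup.mem_top q.out) (Subgroup.mem_top a)
            rwa [commutatorElement_def] at this⟩ : commutator P)) ?_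
        intro q r h
        have h1 : q.out * a * q.out⁻¹ * a⁻¹ = r.out * a * r.out⁻¹ * a⁻¹ := congrArg Subtype.val h
        rw [← q.out_eq', ← r.out_eq', QuotientGroup.eq]
        show _ ∈ Subgroup.centralizer ({a} : Set P)
        rw [Subgroup.mem_centralizer_singleton_iff]
        calc q.out⁻¹ * r.out * a = q.out⁻¹ * ((r.out * a * r.out⁻¹ * a⁻¹) * a) * r.out := by group
          _ = _ := by rw [← h1]; group
      have hne1 : C.index ≠ 1 := fun h => ha (Subgroup.mem_center_iff.mpr fun g =>
        Subgroup.mem_centralizer_singleton_iff.mp (by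
          show g ∈ C
          rw [Subgroup.index_eq_one.mp h]
          exact Subgroup.mem_top g))
      obtain ⟨j, hj, hjc⟩ := (Nat.dvd_prime_pow hp).mp (hP ▸ C.index_dvd_card)
      rw [hjc] at hle hne1 ⊢
      rcases j with _ | _ | j
      · simp at hne1
      · simp
      · exfalso
        exact absurd hle (not_le.mpr (lt_self_pow₀ hp.one_lt (by omega)))
    have hCc : Nat.card C = p ^ 3 := by
      have := C.card_mul_index
      rw [hCidx, hP, show p ^ 4 = p ^ 3 * p by ring] at this
      exact Nat.eq_of_mul_eq_mul_right hp.pos this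
    have haC : a ∈ C := Subgroup.mem_centralizer_singleton_iff.mpr rfl
    have hCab : ∀ u ∈ C, ∀ v ∈ C, u * v = v * u := by
      let K : Subgroup P := (Subgroup.center C).map C.subtype
      have haK : a ∈ K := ⟨⟨a, haC⟩, Subgroup.mem_center_iff.mpr fun g =>
        Subtype.ext (Subgroup.mem_centralizer_singleton_iff.mp g.2), rfl⟩
      have hZK : Subgroup.center P ≤ K := fun z hz => ⟨⟨z, Subgroup.center_le_centralizer _ hz⟩,
        Subgroup.mem_center_iff.mpr fun g => Subtype.ext (Subgroup.mem_center_iff.mp hz g), rfl⟩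
      have hK : Nat.card K = Nat.card (Subgroup.center C) := Subgroup.card_map_of_injective C.subtype_injective
      obtain ⟨m, hm, hmc⟩ := hdvd K
      have hm2 : 2 ≤ m := by
        by_contra hm2
        have hle : Nat.card K ≤ Nat.card (Subgroup.center P) := by
          rw [hmc, hkc]
          exact Nat.pow_le_pow_right hp.pos (by omega)
        have := Subgroup.eq_of_le_of_card_ge hZK hle
        exact ha (this ▸ haK)
      haveI : IsCyclic (C ⧸ Subgroup.center C) := by
        have hh := (Subgroup.center C).card_mul_index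
        rw [← hK, hmc, hCc] at hh
        have hd1 : (Subgroup.center C).index ∣ p := by
          rw [show p ^ 3 = p ^ 2 * p by ring] at hh
          have h2 : p ^ 2 * (Subgroup.center C).index ∣ p ^ 2 * p :=
            hh ▸ Nat.mul_dvd_mul_right (pow_dvd_pow p hm2) _
          exact Nat.dvd_of_mul_dvd_mul_left (pow_pos hp.pos _) h2
        rcases (Nat.dvd_prime hp).mp hd1 with h | h
        · haveI : Subsingleton (C ⧸ Subgroup.center C) :=
            (Nat.card_eq_one_iff_unique.mp (by rw [← Subgroup.index_eq_card, h])).1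
          exact isCyclic_of_subsingleton
        · haveI : Fact p.Prime := ⟨hp⟩
          exact isCyclic_of_prime_card (p := p) (by rw [← Subgroup.index_eq_card, h])
      intro u hu v hv
      exact congrArg Subtype.val (commutative_of_cyclic_center_quotient (QuotientGroup.mk' (Subgroup.center C))
        (by rw [QuotientGroup.ker_mk']) ⟨u, hu⟩ ⟨v, hv⟩)
    have := abelian_index_p hp hP hne C hCidx hCab
    rw [hd, hkc, show p ^ 3 = p * p * p by ring, pow_one] at this
    exact hp.one_lt.ne' (Nat.mul_eq_left (Nat.mul_ne_zero hp.ne_zero hp.ne_zero) |>.mp this.symm)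
  · intro hi
    rw [hidx] at hi
    obtain rfl : k = 2 := by
      have := Nat.pow_right_injective hp.two_le hi
      omega
    let A := Subgroup.center P ⊔ Subgroup.zpowers a
    have hAab : ∀ u ∈ A, ∀ v ∈ A, u * v = v * u := by
      intro u hu v hv
      obtain ⟨z, hz, y, hy, rfl⟩ := Subgroup.mem_sup_of_normal_left.mp hu
      obtain ⟨z', hz', y', hy', rfl⟩ := Subgroup.mem_sup_of_normal_left.mp hv
      obtain ⟨i, rfl⟩ := Subgroup.mem_zpowers_iff.mp hy
      obtain ⟨j, rfl⟩ := Subgroup.mem_zpowers_iff.mp hy'
      have c1 : ∀ g, Commute z g := fun g => (Subgroup.mem_center_iff.mp hz g).symm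
      have c2 : ∀ g, Commute z' g := fun g => (Subgroup.mem_center_iff.mp hz' g).symm
      exact ((c1 _).mul_left ((c2 (a ^ i)).symm.mul_right (Commute.zpow_zpow (Commute.refl a) i j))).eq
    obtain ⟨m, hm, hmc⟩ := hdvd A
    have hm2 : 2 < m := by
      by_contra hm2
      have hle : Nat.card A ≤ Nat.card (Subgroup.center P) := by
        rw [hmc, hkc]
        exact Nat.pow_le_pow_right hp.pos (by omega)
      have := Subgroup.eq_of_le_of_card_ge (le_sup_left : Subgroup.center P ≤ A) hle
      exact ha (this ▸ (le_sup_right : _ ≤ A) (Subgroup.mem_zpowers a))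
    have hm4 : m ≠ 4 := by
      rintro rfl
      apply hne
      rw [eq_top_iff]
      intro g _
      rw [Subgroup.mem_center_iff]
      have hT := hZ4 A hmc
      exact fun b => hAab b (hT ▸ Subgroup.mem_top b) g (hT ▸ Subgroup.mem_top g)
    obtain rfl : m = 3 := by omega
    have := abelian_index_p hp hP hne A (hind A hmc) hAab
    rw [hkc, show p ^ 3 = p * p ^ 2 by ring] at this
    exact Nat.eq_of_mul_eq_mul_right (pow_pos hp.pos _) this

end Cfsg.Agent.S4584
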