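import Cfsg.Statements.S4585
import Mathlib
import Cfsg.Agent.S4584
import Cfsg.Agent.Lib.Transfer.PGroupFrattini
import Cfsg.Agent.Lib.Transfer.PGroupNormal
-- import your own Cfsg.Agent.* helpers here

set_option autoImplicit false
open Cfsg

namespace Cfsg.Agent.S4585

theorem class_bound (n : ℕ) : ∀ {Q : Type*} [Group Q] [Finite Q] (p : ℕ) [Fact p.Prime], Nat.card Q = p ^ n →
    Group.nilpotencyClass Q ≤ max 1 (n - 1) := by
  induction n using Nat.strong_induction_on with
  | _ n ih =>
    intro Q _ _ p hp hQ
    have hpG : IsPGroup p Q := IsPGroup.of_card hQ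
    haveI := hpG.isNilpotent
    rcases Nat.lt_or_ge n 3 with hn | hn
    · refine le_trans ?_ (le_max_left _ _)
      rw [Group.IsNilpotent.nilpotencyClass_le_one_iff]
      rcases n with _ | _ | _ | n
      · haveI : Subsingleton Q := (Nat.card_eq_one_iff_unique.mp (by simpa using hQ)).1
        exact ⟨⟨fun a b => Subsingleton.elim _ _⟩⟩
      · haveI : IsCyclic Q := isCyclic_of_prime_card (p := p) (by simpa using hQ)
        letI := IsCyclic.commGroup (α := Q)
        exact ⟨⟨fun a b => mul_comm a b⟩⟩
      · exact ⟨⟨IsPGroup.commutative_of_card_eq_prime_sq (by simpa using hQ)⟩⟩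
      · omega
    · haveI : Nontrivial Q := Finite.one_lt_card_iff_nontrivial.mp
        (hQ ▸ Nat.one_lt_pow (by omega) hp.out.one_lt)
      rw [Group.nilpotencyClass_eq_quotient_center_plus_one]
      obtain ⟨j, hj, hjc⟩ := (Nat.dvd_prime_pow hp.out).mp (hQ ▸ (Subgroup.center Q).index_dvd_card)
      have hlt : j < n := by
        rcases hj.lt_or_eq with h | rfl
        · exact h
        · exfalso
          have hc := (Subgroup.center Q).card_mul_index
          rw [hjc, hQ, Nat.mul_eq_right (pow_ne_zero _ hp.out.ne_zero)] at hc
          haveI := hpG.center_nontrivial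
          exact absurd hc (Finite.one_lt_card_iff_nontrivial.mpr this).ne'
      have h1 : Nat.card (Q ⧸ Subgroup.center Q) = p ^ j := (Subgroup.index_eq_card _).symm.trans hjc
      have h2 := ih j hlt p h1
      omega


/-- Let p be a prime and P a group of order p^4. Then P' has index p^2 in P if and only if P has maximal nilpotency class, that is, nilpotency class exactly 3. -/
theorem result {P : Type*} [Group P] [Finite P] (p : ℕ) [Fact p.Prime] (hP : Nat.card P = p ^ 4) :
    (commutator P).index = p ^ 2 ↔ Group.nilpotencyClass P = 3 := by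
  have hp : p.Prime := Fact.out
  have hpG : IsPGroup p P := IsPGroup.of_card hP
  haveI := hpG.isNilpotent
  haveI : Nontrivial P := Finite.one_lt_card_iff_nontrivial.mp (hP ▸ Nat.one_lt_pow (by norm_num) hp.one_lt)
  have h3 : Group.nilpotencyClass P ≤ 3 := (class_bound 4 p hP).trans (by norm_num)
  have h84 := Cfsg.Agent.S4584.result p hP
  have hci := Subgroup.card_mul_index (commutator P)
  rw [hP] at hci
  obtain ⟨j, hj, hjc⟩ := (Nat.dvd_prime_pow hp).mp (hP ▸ (commutator P).card_subgroup_dvd_card)
  obtain ⟨i, hi, hic⟩ := (Nat.dvd_prime_pow hp).mp (hP ▸ (commutator P).index_dvd_card)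
  have hij : j + i = 4 := by
    rw [hjc, hic, ← pow_add] at hci
    exact Nat.pow_right_injective hp.two_le hci
  obtain ⟨k, hk, hkc⟩ := (Nat.dvd_prime_pow hp).mp (hP ▸ (Subgroup.center P).card_subgroup_dvd_card)
  constructor
  · intro h
    by_contra h2
    have h22 : Group.nilpotencyClass P ≤ 2 := by omega
    have hi2 : i = 2 := by
      rw [hic] at h
      exact Nat.pow_right_injective hp.two_le h
    have hle : commutator P ≤ Subgroup.center P := by
      have h4 : (⊤ : Subgroup P).lowerCentralSeries 2 = ⊥ := lowerCentralSeries_eq_bot_iff_nilpotencyClass_le.mpr h22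
      rw [show (2 : ℕ) = 1 + 1 from rfl, Subgroup.lowerCentralSeries_succ, Subgroup.top_lowerCentralSeries_one,
        Subgroup.commutator_eq_bot_iff_le_centralizer, Subgroup.coe_top, Subgroup.centralizer_univ] at h4
      exact h4
    have hjk : j ≤ k := by
      have := Subgroup.card_le_of_le hle
      rw [hjc, hkc] at this
      exact (Nat.pow_le_pow_iff_right hp.one_lt).mp this
    have hk4 : k ≠ 4 := by
      rintro rfl
      have htop := Subgroup.eq_top_of_card_eq _ (hkc.trans hP.symm)
      have : commutator P = ⊥ := by
        rw [eq_bot_iff, commutator_def, Subgroup.commutator_le]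
        intro a _ b _
        rw [Subgroup.mem_bot, commutatorElement_eq_one_iff_mul_comm]
        exact Subgroup.mem_center_iff.mp (htop ▸ Subgroup.mem_top b) a
      rw [this, Subgroup.card_bot] at hjc
      have := Nat.pow_right_injective hp.two_le (hjc.symm.trans (pow_zero p).symm)
      omega
    have hci2 := Subgroup.card_mul_index (Subgroup.center P)
    rw [hP, hkc, show (4 : ℕ) = k + (4 - k) by omega, pow_add] at hci2
    have hcidx := Nat.eq_of_mul_eq_mul_left (pow_pos hp.pos _) hci2
    have hk3 : k ≠ 3 := by
      rintro rfl
      exact Cfsg.Agent.S4584.center_card_dvd hp hP (fun htop => by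
        rw [htop, Subgroup.card_top, hP] at hkc
        exact absurd (Nat.pow_right_injective hp.two_le hkc) (by norm_num)) (by simpa using hcidx)
    have hk2 : k = 2 := by omega
    subst hk2
    have := h84.mpr (by simpa using hcidx)
    rw [hjc] at this
    have := Nat.pow_right_injective hp.two_le (this.trans (pow_one p).symm)
    omega
  · intro h
    rw [hic]
    suffices j = 2 by rw [show i = 2 by omega]
    have hcl : ¬ commutator P ≤ Subgroup.center P := by
      intro hle
      have : Group.nilpotencyClass P ≤ 2 := by
        rw [← lowerCentralSeries_eq_bot_iff_nilpotencyClass_le, show (2 : ℕ) = 1 + 1 from rfl,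
          Subgroup.lowerCentralSeries_succ, Subgroup.top_lowerCentralSeries_one,
          Subgroup.commutator_eq_bot_iff_le_centralizer, Subgroup.coe_top, Subgroup.centralizer_univ]
        exact hle
      omega
    have hj0 : j ≠ 0 := by
      rintro rfl
      exact hcl (Subgroup.eq_bot_of_card_eq _ (hjc.trans (pow_zero p)) ▸ bot_le)
    have hj1 : j ≠ 1 := by
      rintro rfl
      apply hcl
      intro c hc
      have hnt : Nontrivial ↥(commutator P ⊓ Subgroup.center P) := by
        by_contra hh
        rw [not_nontrivial_iff_subsingleton] at hh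
        have hbot : commutator P ⊓ Subgroup.center P = ⊥ := Subgroup.eq_bot_of_subsingleton _
        have := Cfsg.Lib.Transfer.inf_center_ne_bot hpG (commutator P) (by
          intro hb
          rw [hb, Subgroup.card_bot] at hjc
          simp at hjc
          exact hp.ne_one hjc.symm)
        exact this hbot
      have hd := Subgroup.card_dvd_of_le (inf_le_left : commutator P ⊓ Subgroup.center P ≤ _)
      rw [hjc, pow_one] at hd
      rcases (Nat.dvd_prime hp).mp hd with h1 | h1
      · exact absurd h1 (Finite.one_lt_card_iff_nontrivial.mpr hnt).ne'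
      · have := Subgroup.eq_of_le_of_card_ge (inf_le_left : commutator P ⊓ Subgroup.center P ≤ _)
          (by rw [h1, hjc, pow_one])
        rw [← this] at hc
        exact hc.2
    have hi1 : 2 ≤ i := by
      by_contra hi1
      apply hcl
      intro c _
      rw [Subgroup.mem_center_iff]
      intro d
      by_contra hcd
      have hfr := Cfsg.Lib.Transfer.commutator_le_frattini hpG
      obtain ⟨g, hg⟩ : ∃ g : P, g ∉ commutator P := by
        by_contra hh
        push Not at hh
        obtain hM | ⟨M, hM, -⟩ := IsCoatomic.eq_top_or_exists_le_coatom (⊥ : Subgroup P)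
        · exact bot_ne_top hM
        · exact hM.1 (eq_top_iff.mpr fun x _ => frattini_le_coatom hM (hfr (hh x)))
      obtain hM | ⟨M, hM, hgM⟩ := IsCoatomic.eq_top_or_exists_le_coatom (Subgroup.zpowers g)
      · have hcy : ∀ u : P, u ∈ Subgroup.zpowers g := fun u => hM ▸ Subgroup.mem_top u
        obtain ⟨u, rfl⟩ := hcy c
        obtain ⟨v, rfl⟩ := hcy d
        exact hcd (zpow_mul_comm g v u)
      · have hle : commutator P ≤ M := hfr.trans (frattini_le_coatom hM)
        have hd : M.index ∣ p ^ i := hic ▸ Subgroup.index_dvd_of_le hle
        have h1 := Subgroup.relIndex_mul_index hle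
        have hi' : i = 1 := by
          rcases i with _ | _ | i
          · exact absurd ((Subgroup.index_eq_one.mp (hic.trans (pow_zero p))) ▸ Subgroup.mem_top g) hg
          · rfl
          · omega
        rw [hi', pow_one] at hd
        rcases (Nat.dvd_prime hp).mp hd with h2 | h2
        · exact hM.1 (Subgroup.index_eq_one.mp h2)
        · rw [h2, hic, hi', pow_one, Nat.mul_eq_right hp.ne_zero, Subgroup.relIndex_eq_one] at h1
          exact hg (h1 (hgM (Subgroup.mem_zpowers g)))
    omega

end Cfsg.Agent.S4585
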