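import Cfsg.Statements.S4591
import Mathlib
import Cfsg.Agent.Lib.Blocks.PrimeDegreeKernel
import Cfsg.Agent.Lib.Transfer.Tate
import Cfsg.Agent.Lib.Transfer.PGroupFrattini

set_option autoImplicit false
open Cfsg

namespace Cfsg.Agent.S4591

/-- Let G be a finite group, p a prime and P a Sylow p-subgroup, and let N be the largest normal subgroup of G in which P has trivial centralizer (N is normal with C_N(P) = 1 and contains every normal subgroup with that property). Then the intersection of the kernels of the irreducible characters of G of degree prime to p is the normal core in G of the subgroup N·P' (P' the derived subgroup of P). In particular, when G has no nontrivial normal subgroup of order prime to p, that intersection is the normal core of P'. -/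
theorem result {G : Type*} [Group G] [Finite G] (p : ℕ) [Fact p.Prime] (P : Sylow p G) (N : Subgroup G) [N.Normal]
    (hN : N ⊓ Subgroup.centralizer ((P : Subgroup G) : Set G) = ⊥)
    (hmax : ∀ L : Subgroup G, L.Normal → L ⊓ Subgroup.centralizer ((P : Subgroup G) : Set G) = ⊥ → L ≤ N) :
    {g : G | ∀ χ : Cfsg.IrrCharacter G, ¬ p ∣ Cfsg.charDegree (χ : G → ℂ) → (χ : G → ℂ) g = (χ : G → ℂ) 1} =
      ((N ⊔ ⁅(P : Subgroup G), (P : Subgroup G)⁆).normalCore : Set G) := by
  classical
  haveI := Fintype.ofFinite G
  have hp := (Fact.out : p.Prime)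
  open Cfsg.Lib.Blocks Cfsg.Lib.Characters in
  open scoped Pointwise in
  · set D : Subgroup G := ⁅(P : Subgroup G), (P : Subgroup G)⁆ with hD
    have hDc : D = (commutator ↥(P : Subgroup G)).map (P : Subgroup G).subtype := by
      rw [hD, commutator_def, Subgroup.map_commutator, ← MonoidHom.range_eq_map, Subgroup.range_subtype]
    have hDP : D ≤ (P : Subgroup G) := by
      rw [hDc]; rintro _ ⟨x, -, rfl⟩; exact x.2
    -- the common kernel
    let K : Subgroup G := ⨅ χ : {χ : Cfsg.IrrCharacter G // ¬ p ∣ Cfsg.charDegree (χ : G → ℂ)}, charKer χ.1.2.isCharacter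
    have hmemK : ∀ g, g ∈ K ↔ ∀ χ : Cfsg.IrrCharacter G, ¬ p ∣ Cfsg.charDegree (χ : G → ℂ) → (χ : G → ℂ) g = (χ : G → ℂ) 1 := by
      intro g
      simp only [K, Subgroup.mem_iInf]
      exact ⟨fun h χ hχ => (mem_charKer χ.2.isCharacter).1 (h ⟨χ, hχ⟩), fun h χ => (mem_charKer χ.1.2.isCharacter).2 (h χ.1 χ.2)⟩
    haveI : K.Normal := ⟨fun k hk g => by
      rw [hmemK] at hk ⊢
      intro χ hχ
      rw [χ.2.isClassFunction k g]
      exact hk χ hχ⟩
    suffices h : K = (N ⊔ D).normalCore by
      ext g
      rw [Set.mem_setOf_eq, ← hmemK, h]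
      rfl
    refine le_antisymm (Subgroup.normal_le_normalCore.2 ?_) fun g hg => ?_
    · -- the kernel lies in the product
      have hKP : K ⊓ (P : Subgroup G) ≤ D := by
        rintro u ⟨hu, huP⟩
        rw [hDc]
        exact ⟨⟨u, huP⟩, mem_commutator_of_kernel (p := p) (P : Subgroup G) P.not_dvd_index
          (u := ⟨u, huP⟩) ((hmemK u).1 hu), rfl⟩
      have htate := Cfsg.Lib.Transfer.tate P K (hKP.trans (by
        rw [hDc]; exact Subgroup.map_mono (Cfsg.Lib.Transfer.commutator_le_frattini P.2)))
      rw [Cfsg.Lib.Transfer.hasNormalPComplement_iff_pResidual] at htate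
      haveI := Cfsg.Lib.Transfer.pResidual_characteristic (G := K) p
      set K0 : Subgroup G := (Cfsg.pResidual p K).map K.subtype
      haveI hK0n : K0.Normal := ConjAct.normal_of_characteristic_of_normal
      have hK0 : K0 ⊓ Subgroup.centralizer ((P : Subgroup G) : Set G) = ⊥ := by
        rw [eq_bot_iff]
        rintro c ⟨hcK0, hcC⟩
        rw [Subgroup.mem_bot]
        set H : Subgroup G := Subgroup.zpowers c ⊔ (P : Subgroup G)
        have hcH : c ∈ H := le_sup_left (b := (P : Subgroup G)) (Subgroup.mem_zpowers c)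
        have hidx : ¬ p ∣ H.index := fun hd => P.not_dvd_index (hd.trans (Subgroup.index_dvd_of_le le_sup_right))
        obtain ⟨w, hw, hwc⟩ := hcK0
        have hcK : c ∈ K := hwc ▸ w.2
        have hcomm := mem_commutator_of_kernel (p := p) H hidx (u := ⟨c, hcH⟩) ((hmemK c).1 hcK)
        have hle : ⁅H, H⁆ ≤ (P : Subgroup G) := by
          have hnorm : Subgroup.zpowers c ≤ Subgroup.normalizer ((P : Subgroup G) : Set G) := by
            rw [Subgroup.zpowers_le, Subgroup.mem_normalizer_iff]
            intro x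
            constructor
            · intro hx
              rw [← (Subgroup.mem_centralizer_iff.1 hcC) x hx, mul_inv_cancel_right]
              exact hx
            · intro hx
              have h := (Subgroup.mem_centralizer_iff.1 hcC) _ hx
              have e : c * x * c⁻¹ = x := by
                have h2 : c * x = c * (c * x * c⁻¹) := by rw [← h]; group
                exact (mul_left_cancel h2).symm
              rwa [e] at hx
          have hform : ∀ a ∈ H, ∃ i : ℤ, ∃ u ∈ (P : Subgroup G), a = c ^ i * u := by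
            intro a ha
            have : a ∈ ((Subgroup.zpowers c : Subgroup G) : Set G) * ((P : Subgroup G) : Set G) := by
              rw [← Subgroup.coe_mul_of_left_le_normalizer_right _ _ hnorm]; exact ha
            obtain ⟨b, hb, u, hu, rfl⟩ := Set.mem_mul.1 this
            obtain ⟨i, rfl⟩ := Subgroup.mem_zpowers_iff.1 hb
            exact ⟨i, u, hu, rfl⟩
          rw [Subgroup.commutator_le]
          intro a ha b hb
          obtain ⟨i, u, hu, rfl⟩ := hform a ha
          obtain ⟨j, v, hv, rfl⟩ := hform b hb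
          have e : ∀ (n : ℤ) (w : G), w ∈ (P : Subgroup G) → Commute (c ^ n) w := fun n w hw =>
            (Commute.zpow_right ((Subgroup.mem_centralizer_iff.1 hcC) w hw) n).symm
          have h1 := e i v hv
          have h2 := e j u hu
          have h3 : Commute (c ^ i) (c ^ j) := Commute.zpow_zpow_self c i j
          have h4 := e j v hv
          have h5 := e i u hu
          have e2 : c ^ i * u * (c ^ j * v) * (c ^ i * u)⁻¹ * (c ^ j * v)⁻¹ = u * v * u⁻¹ * v⁻¹ := by
            calc c ^ i * u * (c ^ j * v) * (c ^ i * u)⁻¹ * (c ^ j * v)⁻¹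
                = c ^ i * (u * c ^ j) * v * u⁻¹ * (c ^ i)⁻¹ * v⁻¹ * (c ^ j)⁻¹ := by group
              _ = (c ^ i * c ^ j) * (u * v * u⁻¹) * (c ^ i)⁻¹ * v⁻¹ * (c ^ j)⁻¹ := by rw [← h2.eq]; group
              _ = (c ^ j * c ^ i) * (u * v * u⁻¹) * (c ^ i)⁻¹ * v⁻¹ * (c ^ j)⁻¹ := by rw [h3.eq]
              _ = c ^ j * ((c ^ i * (u * v * u⁻¹)) * (c ^ i)⁻¹) * v⁻¹ * (c ^ j)⁻¹ := by group
              _ = c ^ j * (u * v * u⁻¹) * v⁻¹ * (c ^ j)⁻¹ := by
                  rw [(e i _ (mul_mem (mul_mem hu hv) (inv_mem hu))).eq, mul_inv_cancel_right]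
              _ = (c ^ j * (u * v * u⁻¹ * v⁻¹)) * (c ^ j)⁻¹ := by group
              _ = u * v * u⁻¹ * v⁻¹ := by
                  rw [(e j _ (mul_mem (mul_mem (mul_mem hu hv) (inv_mem hu)) (inv_mem hv))).eq, mul_inv_cancel_right]
          rw [commutatorElement_def, e2]
          exact mul_mem (mul_mem (mul_mem hu hv) (inv_mem hu)) (inv_mem hv)
        have hcP : c ∈ (P : Subgroup G) := hle (by
          have : (⟨c, hcH⟩ : H).1 ∈ (commutator H).map H.subtype := ⟨_, hcomm, rfl⟩
          rwa [commutator_def, Subgroup.map_commutator, ← MonoidHom.range_eq_map, Subgroup.range_subtype] at this)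
        obtain ⟨k, hk⟩ := P.2.exists_orderOf_eq_pow ⟨c, hcP⟩
        have hk' : orderOf c = p ^ k := by rw [← hk, ← Subgroup.orderOf_coe]
        have hcop : (orderOf c).Coprime p := by
          have hdvd := Subgroup.orderOf_dvd_natCard _ hw
          rw [← hwc]
          exact Nat.Coprime.coprime_dvd_left (by rw [Subgroup.coe_subtype, Subgroup.orderOf_coe]; exact hdvd) htate
        rcases Nat.eq_zero_or_pos k with rfl | hk0
        · exact orderOf_eq_one_iff.1 (by rw [hk', pow_zero])
        · rw [hk', Nat.coprime_pow_left_iff hk0, Nat.coprime_self] at hcop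
          exact absurd hcop hp.ne_one
      have hK0N : K0 ≤ N := hmax K0 hK0n hK0
      intro x hx
      -- every element is a product of an element of the complement and one of P
      haveI : (Cfsg.pResidual p K).Normal := Cfsg.Lib.Transfer.pResidual_normal (G := K) p
      set Q : Sylow p K := (default : Sylow p K)
      have htop := Cfsg.Lib.Transfer.pResidual_sup_sylow (G := K) Q
      obtain ⟨P', hQP'⟩ := (Q.2.map K.subtype).exists_le_sylow
      obtain ⟨g, rfl⟩ := MulAction.exists_smul_eq G P' P
      have hxmem : g⁻¹ * x * g ∈ K := by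
        simpa using (inferInstance : K.Normal).conj_mem x hx g⁻¹
      have : (⟨g⁻¹ * x * g, hxmem⟩ : K) ∈ Cfsg.pResidual p K ⊔ (Q : Subgroup K) := by rw [htop]; exact Subgroup.mem_top _
      obtain ⟨a, ha, b, hb, hab⟩ := Subgroup.mem_sup_of_normal_left.1 this
      have e : x = (g * (a : G) * g⁻¹) * (g * (b : G) * g⁻¹) := by
        have h := congrArg (fun z : K => (z : G)) hab
        simp only [Subgroup.coe_mul] at h
        calc x = g * (g⁻¹ * x * g) * g⁻¹ := by group
          _ = g * ((a : G) * b) * g⁻¹ := by rw [h]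
          _ = _ := by group
      rw [e]
      refine mul_mem (Subgroup.mem_sup_left (hK0N (hK0n.conj_mem _ ⟨a, ha, rfl⟩ g))) (Subgroup.mem_sup_right (hKP ⟨?_, ?_⟩))
      · exact (inferInstance : K.Normal).conj_mem _ b.2 g
      · change g * (b : G) * g⁻¹ ∈ MulAut.conj g • (P' : Subgroup G)
        rw [Subgroup.mem_pointwise_smul_iff_inv_smul_mem, MulAut.smul_def, MulAut.inv_apply,
          MulAut.conj_symm_apply]
        have : (b : G) ∈ (P' : Subgroup G) := hQP' ⟨b, hb, rfl⟩
        simpa [mul_assoc] using this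
    · -- the product's core is killed
      rw [hmemK]
      intro χ hχ
      have hNk := kernel_of_fixedPointFree P N hN χ hχ
      set L := (N ⊔ D).normalCore
      haveI := Fintype.ofFinite L
      haveI := Fintype.ofFinite (P : Subgroup G)
      obtain ⟨θ, hθ, hθχ⟩ := exists_constituent_not_dvd (p := p) (isCharacter_restrict χ.2.isCharacter (P : Subgroup G))
        (d := Cfsg.charDegree (χ : G → ℂ)) (coe_charDegree χ).symm hχ
      have hθ1 : (θ : ↥(P : Subgroup G) → ℂ) 1 = 1 := by
        have hd := charDegree_dvd_card θ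
        obtain ⟨n, hn⟩ := IsPGroup.iff_card.1 P.2
        rw [hn] at hd
        obtain ⟨i, -, hi⟩ := (Nat.dvd_prime_pow hp).1 hd
        rcases Nat.eq_zero_or_pos i with rfl | hi0
        · rw [← coe_charDegree, hi, pow_zero, Nat.cast_one]
        · exact absurd (hi ▸ dvd_pow_self p hi0.ne') hθ
      obtain ⟨lam, hlam⟩ := exists_hom_of_degree_one θ.2.isCharacter hθ1
      have hker : ∀ u : ↥(P : Subgroup G), u ∈ commutator ↥(P : Subgroup G) → (θ : ↥(P : Subgroup G) → ℂ) u = 1 := by
        intro u hu
        have : lam u = 1 := by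
          have h := Abelianization.commutator_subset_ker lam hu
          exact h
        rw [hlam]; simp [this]
      have hNL : N ≤ L := Subgroup.normal_le_normalCore.2 le_sup_left
      refine kernel_of_sum_ne χ L ?_ g hg
      set U : Subgroup ↥(P : Subgroup G) := L.subgroupOf (P : Subgroup G) ⊓ commutator ↥(P : Subgroup G)
      have hdec : ∀ l : L, ∃ u : U, (l : G) * ((u : ↥(P : Subgroup G)) : G)⁻¹ ∈ N := by
        intro l
        have hl : (l : G) ∈ N ⊔ D := Subgroup.normalCore_le _ l.2
        obtain ⟨n, hn, u, hu, he⟩ := Subgroup.mem_sup_of_normal_left.1 hl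
        have huL : u ∈ L := by
          have : u = n⁻¹ * (l : G) := by rw [← he]; group
          rw [this]; exact mul_mem (inv_mem (hNL hn)) l.2
        rw [hDc] at hu
        obtain ⟨v, hv, rfl⟩ := hu
        exact ⟨⟨v, huL, hv⟩, by rw [← he]; simpa using hn⟩
      choose u hu using hdec
      have hfix : ∀ l : L, (χ : G → ℂ) l = (χ : G → ℂ) ((u l : ↥(P : Subgroup G)) : G) := fun l => by
        have h := char_mul_ker χ.2.isCharacter (hNk _ (hu l)) ((u l : ↥(P : Subgroup G)) : G)
        rwa [inv_mul_cancel_right] at h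
      -- pairing with the linear constituent
      have hsum : ∑ l : L, (χ : G → ℂ) l = ∑ l : L, ∑ ψ : Cfsg.IrrCharacter ↥(P : Subgroup G),
          Cfsg.classInner (fun w : ↥(P : Subgroup G) => (χ : G → ℂ) w) (ψ : ↥(P : Subgroup G) → ℂ) * (ψ : ↥(P : Subgroup G) → ℂ) (u l) := by
        refine Finset.sum_congr rfl fun l _ => ?_
        rw [hfix]
        have := congrFun (classFunction_expansion (isClassFunction_of_isCharacter (isCharacter_restrict χ.2.isCharacter (P : Subgroup G)))) (u l : ↥(P : Subgroup G))
        simpa [Finset.sum_apply] using this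
      rw [hsum, Finset.sum_comm]
      haveI := Fintype.ofFinite U
      -- fibres of the projection
      have hfib : ∀ F : ↥(P : Subgroup G) → ℂ, (∀ a b : U, ((a : ↥(P : Subgroup G)) : G) * ((b : ↥(P : Subgroup G)) : G)⁻¹ ∈ N → F a = F b) →
          (Nat.card U : ℂ) * ∑ l : L, F (u l) = (Nat.card L : ℂ) * ∑ w : U, F w := by
        intro F hF
        have e : ∀ l : L, ∀ w : U, F (u l * w : U) = F (u (⟨(l : G) * ((w : ↥(P : Subgroup G)) : G), mul_mem l.2 w.2.1⟩ : L)) := by
          intro l w
          refine hF _ _ ?_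
          set l' : L := ⟨(l : G) * ((w : ↥(P : Subgroup G)) : G), mul_mem l.2 w.2.1⟩
          have h1 := hu l
          have h2 := hu l'
          have : ((u l * w : U) : ↥(P : Subgroup G)).1 * ((u l' : ↥(P : Subgroup G)) : G)⁻¹ =
              ((l : G) * ((u l : ↥(P : Subgroup G)) : G)⁻¹)⁻¹ * ((l' : G) * ((u l' : ↥(P : Subgroup G)) : G)⁻¹) := by
            simp only [l', Subgroup.coe_mul]; group
          rw [this]
          exact mul_mem (inv_mem h1) h2
        calc (Nat.card U : ℂ) * ∑ l : L, F (u l) = ∑ w : U, ∑ l : L, F (u (⟨(l : G) * ((w : ↥(P : Subgroup G)) : G), mul_mem l.2 w.2.1⟩ : L)) := by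
              rw [Finset.sum_congr rfl fun (w : U) _ => show (∑ l : L, F (u (⟨(l : G) * ((w : ↥(P : Subgroup G)) : G), mul_mem l.2 w.2.1⟩ : L))) = ∑ l : L, F (u l) from
                Fintype.sum_equiv (Equiv.mulRight (⟨((w : ↥(P : Subgroup G)) : G), w.2.1⟩ : L)) _ _ fun l => rfl,
                Finset.sum_const, Finset.card_univ, ← Nat.card_eq_fintype_card, nsmul_eq_mul]
          _ = ∑ l : L, ∑ w : U, F (u l * w : U) := by
              rw [Finset.sum_comm]; exact Finset.sum_congr rfl fun l _ => Finset.sum_congr rfl fun w _ => (e l w).symm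
          _ = _ := by
              rw [Finset.sum_congr rfl fun (l : L) _ => show (∑ w : U, F (u l * w : U)) = ∑ w : U, F w from
                Fintype.sum_equiv (Equiv.mulLeft (u l)) _ _ fun w => rfl,
                Finset.sum_const, Finset.card_univ, ← Nat.card_eq_fintype_card, nsmul_eq_mul]
      intro h0
      -- the character restricted to U has a trivial constituent
      obtain ⟨m, hm⟩ := classInner_nat (isCharacter_restrict (isCharacter_restrict χ.2.isCharacter (P : Subgroup G)) U) (isCharacter_one (G := U))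
      rw [Finset.sum_comm, ← hsum, Finset.sum_congr rfl fun l _ => hfix l] at h0
      have h3 := hfib (fun w => (χ : G → ℂ) w) (fun a b hab => by
        have h := char_mul_ker χ.2.isCharacter (hNk _ hab) ((b : ↥(P : Subgroup G)) : G)
        rwa [inv_mul_cancel_right] at h)
      rw [h0, mul_zero, zero_eq_mul] at h3
      have h4 : ∑ w : U, (χ : G → ℂ) ((w : ↥(P : Subgroup G)) : G) = 0 := h3.resolve_left (Nat.cast_ne_zero.2 Nat.card_pos.ne')
      obtain ⟨mm, hmm⟩ := exists_decomposition (isCharacter_restrict χ.2.isCharacter (P : Subgroup G))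
      have hmθ : mm θ ≠ 0 := by
        intro h
        apply hθχ
        rw [hmm, classInner_sum_irr, h, Nat.cast_zero]
      have hper : ∀ ψ : Cfsg.IrrCharacter ↥(P : Subgroup G), ∃ r : ℕ, ∑ w : U, (ψ : ↥(P : Subgroup G) → ℂ) w = (Nat.card U : ℂ) * r := by
        intro ψ
        obtain ⟨r, hr⟩ := classInner_nat (isCharacter_restrict ψ.2.isCharacter U) (isCharacter_one (G := U))
        refine ⟨r, ?_⟩
        rw [← hr, Cfsg.classInner, ← mul_assoc, mul_inv_cancel₀ (Nat.cast_ne_zero.2 Nat.card_pos.ne'), one_mul]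
        simp
      choose r hr using hper
      have hrθ : r θ = 1 := by
        have h := hr θ
        rw [Finset.sum_congr rfl fun (w : U) _ => hker w w.2.2, Finset.sum_const, Finset.card_univ, ← Nat.card_eq_fintype_card,
          nsmul_eq_mul, mul_one] at h
        exact_mod_cast ((mul_eq_left₀ (Nat.cast_ne_zero.2 Nat.card_pos.ne')).1 h.symm)
      have h5 : ((∑ ψ, mm ψ * r ψ : ℕ) : ℂ) * (Nat.card U : ℂ) = 0 := by
        rw [← h4, Nat.cast_sum, Finset.sum_mul]
        have e : ∀ w : U, (χ : G → ℂ) ((w : ↥(P : Subgroup G)) : G) = ∑ ψ : Cfsg.IrrCharacter ↥(P : Subgroup G), (mm ψ : ℂ) * (ψ : ↥(P : Subgroup G) → ℂ) w := fun w => by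
          have := congrFun hmm (w : ↥(P : Subgroup G))
          simpa [Finset.sum_apply] using this
        rw [Finset.sum_congr rfl fun w _ => e w, Finset.sum_comm]
        refine Finset.sum_congr rfl fun ψ _ => ?_
        rw [← Finset.mul_sum, hr ψ, Nat.cast_mul]; ring
      rw [mul_eq_zero, Nat.cast_eq_zero] at h5
      have h6 := Finset.sum_eq_zero_iff.1 (h5.resolve_right (Nat.cast_ne_zero.2 Nat.card_pos.ne')) θ (Finset.mem_univ _)
      rw [hrθ, mul_one] at h6
      exact hmθ h6

end Cfsg.Agent.S4591
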