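import Cfsg.Statements.S4602
import Cfsg.Agent.Lib.Blocks.GlaubermanNormalSylow
import Cfsg.Agent.Lib.PLocal.Constraint
import Cfsg.Agent.Lib.Solv.Cores

set_option autoImplicit false
open Cfsg Cfsg.Lib.Blocks
open scoped Classical Pointwise

namespace Cfsg.Agent.S4602

universe u

/-- Subgroups of the right order inside a subgroup are its Sylow subgroups. -/
theorem card_sylows_le {G : Type u} [Group G] [Finite G] (M : Subgroup G) (q : ℕ) [Fact q.Prime] :
    Nat.card {Q : Subgroup G // Q ≤ M ∧ Nat.card Q = q ^ (Nat.card M).factorization q} = Nat.card (Sylow q M) := by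
  symm
  refine Nat.card_congr
    { toFun := fun S => ⟨(S : Subgroup M).map M.subtype, Subgroup.map_subtype_le _, by
        rw [Nat.card_congr ((S : Subgroup M).equivMapOfInjective _ M.subtype_injective).toEquiv.symm,
          S.card_eq_multiplicity]⟩
      invFun := fun Q => Sylow.ofCard (Q.1.subgroupOf M) (by
        rw [Nat.card_congr (Subgroup.subgroupOfEquivOfLe Q.2.1).toEquiv, Q.2.2])
      left_inv := fun S => Sylow.ext (by
        rw [Sylow.coe_ofCard]
        exact Subgroup.comap_map_eq_self_of_injective M.subtype_injective _)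
      right_inv := fun Q => Subtype.ext (by
        simp only [Sylow.coe_ofCard]
        rw [Subgroup.subgroupOf_map_subtype, inf_of_le_left Q.2.1]) }

/-- A `p`-group normalizing `M` normalizes a Sylow `q`-subgroup of `M` when their number is prime
to `p`. -/
theorem exists_invariant_sylow {G : Type u} [Group G] [Finite G] {p q : ℕ} [Fact p.Prime] [Fact q.Prime]
    (P M : Subgroup G) (hP : IsPGroup p P) (hPM : P ≤ Subgroup.normalizer (M : Set G))
    (hcard : ¬ p ∣ Nat.card (Sylow q M)) :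
    ∃ Q : Subgroup G, Q ≤ M ∧ Nat.card Q = q ^ (Nat.card M).factorization q ∧
      P ≤ Subgroup.normalizer (Q : Set G) := by
  haveI := Fintype.ofFinite (Subgroup G)
  let a : P →* Equiv.Perm (Subgroup G) :=
    ((MulAction.toPermHom (MulAut G) (Subgroup G)).comp MulAut.conj).comp P.subtype
  have ha : ∀ (s : P) (Q : Subgroup G), a s Q = MulAut.conj (s : G) • Q := fun s Q => rfl
  let S : Finset (Subgroup G) := Finset.univ.filter fun Q =>
    Q ≤ M ∧ Nat.card Q = q ^ (Nat.card M).factorization q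
  have hS : ¬ p ∣ S.card := by
    rwa [← Fintype.card_subtype, ← Nat.card_eq_fintype_card, card_sylows_le]
  obtain ⟨Q, hQ, hfix⟩ := exists_fixed_mem hP a S (fun s Q hQ => by
    obtain ⟨-, hle, hc⟩ := Finset.mem_filter.mp hQ
    refine Finset.mem_filter.mpr ⟨Finset.mem_univ _, ?_, ?_⟩
    · rw [ha]
      intro x hx
      rw [Subgroup.mem_pointwise_smul_iff_inv_smul_mem] at hx
      have h1 := hle hx
      simp only [MulAut.smul_def, MulAut.conj_inv_apply] at h1
      have h2 := (Subgroup.mem_normalizer_iff.mp (hPM s.2) _).mp h1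
      simpa [mul_assoc] using h2
    · rw [ha, ← hc]
      exact (Nat.card_congr (Subgroup.equivSMul (MulAut.conj (s : G)) Q).toEquiv).symm) hS
  refine ⟨Q, (Finset.mem_filter.mp hQ).2.1, (Finset.mem_filter.mp hQ).2.2, fun x hx => ?_⟩
  rw [Subgroup.mem_normalizer_iff]
  intro y
  have h1 := hfix ⟨x, hx⟩
  rw [ha] at h1
  constructor
  · intro hy
    rw [← h1]
    exact ⟨y, hy, rfl⟩
  · intro hy
    rw [← h1] at hy
    obtain ⟨z, hz, hzy⟩ := hy
    simp only [MulDistribMulAction.toMonoidEnd_apply, MulDistribMulAction.toMonoidHom_apply, MulAut.smul_def,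
      MulAut.conj_apply, mul_left_inj, mul_right_inj] at hzy
    exact hzy ▸ hz

/-- A subgroup of index prime to `p` contains a Sylow `p`-subgroup. -/
theorem exists_sylow_le {G : Type u} [Group G] [Finite G] {p : ℕ} [Fact p.Prime] (H : Subgroup G)
    (hH : ¬ p ∣ H.index) : ∃ P : Sylow p G, (P : Subgroup G) ≤ H := by
  obtain ⟨R⟩ : Nonempty (Sylow p H) := inferInstance
  refine ⟨Sylow.ofCard ((R : Subgroup H).map H.subtype) ?_, ?_⟩
  · rw [Nat.card_congr ((R : Subgroup H).equivMapOfInjective _ H.subtype_injective).toEquiv.symm,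
      R.card_eq_multiplicity]
    congr 1
    rw [← H.card_mul_index, Nat.factorization_mul Nat.card_pos.ne' Subgroup.index_ne_zero_of_finite,
      Finsupp.add_apply, Nat.factorization_eq_zero_of_not_dvd hH, add_zero]
  · rw [Sylow.coe_ofCard]
    exact Subgroup.map_subtype_le _

/-- Normalizing a Sylow `q`-subgroup inside a `p'`-core. -/
theorem exists_pair_of_core {G : Type u} [Group G] [Finite G] (p q : ℕ) [Fact p.Prime] [Fact q.Prime]
    (hq : ¬ q ∣ (Cfsg.pPrimeCore p G).index) :
    ∃ (P : Sylow p G) (Q : Sylow q G), (P : Subgroup G) ≤ Subgroup.normalizer ((Q : Subgroup G) : Set G) := by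
  haveI := Cfsg.Lib.Transfer.pPrimeCore_normal (G := G) p
  obtain ⟨P⟩ : Nonempty (Sylow p G) := inferInstance
  have hn : Subgroup.normalizer ((Cfsg.pPrimeCore p G : Subgroup G) : Set G) = ⊤ := Subgroup.normalizer_eq_top _
  have hcard : ¬ p ∣ Nat.card (Sylow q (Cfsg.pPrimeCore p G)) := by
    intro h
    obtain ⟨S⟩ : Nonempty (Sylow q (Cfsg.pPrimeCore p G)) := inferInstance
    exact (Fact.out : p.Prime).ne_one (Nat.eq_one_of_dvd_coprimes
      (Cfsg.Lib.Transfer.coprime_card_pPrimeCore (G := G) p)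
      ((h.trans S.card_dvd_index).trans (Subgroup.index_dvd_card _)) dvd_rfl)
  obtain ⟨Q, -, hQc, hPQ⟩ := exists_invariant_sylow (p := p) (q := q) (P : Subgroup G) (Cfsg.pPrimeCore p G)
    P.isPGroup' (by rw [hn]; exact le_top) hcard
  refine ⟨P, Sylow.ofCard Q ?_, by rwa [Sylow.coe_ofCard]⟩
  rw [hQc]
  congr 1
  conv_rhs => rw [← (Cfsg.pPrimeCore p G).card_mul_index]
  rw [Nat.factorization_mul Nat.card_pos.ne' Subgroup.index_ne_zero_of_finite,
    Finsupp.add_apply, Nat.factorization_eq_zero_of_not_dvd hq, add_zero]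


/-- Let G be a finite p-solvable group and q a prime different from p. Some Sylow p-subgroup of G normalizes some Sylow q-subgroup of G if and only if q does not divide the order of G/O_{p'}(G), the quotient by the largest normal subgroup of order prime to p. -/
theorem result {G : Type*} [Group G] [Finite G] (p q : ℕ) [Fact p.Prime] [Fact q.Prime] (hpq : p ≠ q) (hsolv : Cfsg.IsPSolvable p G) :
    (∃ (P : Sylow p G) (Q : Sylow q G), (P : Subgroup G) ≤ Subgroup.normalizer ((Q : Subgroup G) : Set G)) ↔ ¬ q ∣ (Cfsg.pPrimeCore p G).index := by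
  classical
  refine ⟨?_, exists_pair_of_core p q⟩
  rintro ⟨P, Q, hPQ⟩ hdvd
  haveI := Cfsg.Lib.Transfer.pPrimeCore_normal (G := G) p
  set π := QuotientGroup.mk' (Cfsg.pPrimeCore p G)
  have hsurj : Function.Surjective π := QuotientGroup.mk'_surjective _
  set P' := P.mapSurjective hsurj
  set Q' := Q.mapSurjective hsurj
  have hsc := Cfsg.Lib.PLocal.selfCentralizingCore_of_pSolvable
    (Cfsg.Lib.PLocal.IsPSolvable.of_surjective π hsurj hsolv) (Cfsg.Lib.Solv.pPrimeCore_quotient_eq_bot p)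
  have hle := Cfsg.Lib.Transfer.pCore_le_sylow P'
  haveI := Cfsg.Lib.Transfer.pCore_normal (G := G ⧸ Cfsg.pPrimeCore p G) p
  have hPQ' : (P' : Subgroup (G ⧸ Cfsg.pPrimeCore p G)) ≤ Subgroup.normalizer ((Q' : Subgroup (G ⧸ Cfsg.pPrimeCore p G)) : Set (G ⧸ Cfsg.pPrimeCore p G)) := by
    rw [Sylow.coe_mapSurjective, Sylow.coe_mapSurjective]
    exact (Subgroup.map_mono hPQ).trans (Subgroup.le_normalizer_map π)
  have hsmall : ∀ x ∈ (P' : Subgroup (G ⧸ Cfsg.pPrimeCore p G)), x ∈ (Q' : Subgroup _) → x = 1 := by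
    intro x hxp hxq
    obtain ⟨a, ha⟩ := IsPGroup.iff_card.mp P'.isPGroup'
    obtain ⟨b, hb⟩ := IsPGroup.iff_card.mp Q'.isPGroup'
    exact orderOf_eq_one_iff.mp (Nat.eq_one_of_dvd_coprimes
      (((Nat.coprime_primes Fact.out Fact.out).mpr hpq).pow a b)
      (ha ▸ (Subgroup.orderOf_mk x hxp).symm ▸ orderOf_dvd_natCard _)
      (hb ▸ (Subgroup.orderOf_mk x hxq).symm ▸ orderOf_dvd_natCard _))
  have hQp : ∀ y ∈ (Q' : Subgroup (G ⧸ Cfsg.pPrimeCore p G)), y = 1 := by
    intro y hy
    refine hsmall y (hle (hsc (Subgroup.mem_centralizer_iff.mpr fun x hx => ?_))) hy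
    have h1 : x * y * x⁻¹ * y⁻¹ ∈ Cfsg.pCore p (G ⧸ Cfsg.pPrimeCore p G) := by
      have h2 := mul_mem hx (Subgroup.Normal.conj_mem inferInstance _ (inv_mem hx) y)
      simpa [mul_assoc] using h2
    have h2 : x * y * x⁻¹ * y⁻¹ ∈ (Q' : Subgroup (G ⧸ Cfsg.pPrimeCore p G)) :=
      mul_mem ((Subgroup.mem_normalizer_iff.mp (hPQ' (hle hx)) y).mp hy) (inv_mem hy)
    have h3 := hsmall _ (hle h1) h2
    calc x * y = (x * y * x⁻¹ * y⁻¹) * (y * x) := by group
      _ = y * x := by rw [h3, one_mul]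
  rw [Subgroup.index_eq_card] at hdvd
  have h := Q'.dvd_card_of_dvd_card hdvd
  rw [Subgroup.card_eq_one.mpr (eq_bot_iff.mpr fun y hy => Subgroup.mem_bot.mpr (hQp y hy))] at h
  exact (Fact.out : q.Prime).not_dvd_one h

end Cfsg.Agent.S4602
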