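import Cfsg.Statements.S4601
import Cfsg.Agent.S4602
import Cfsg.Agent.Lib.Solv.PComplement

set_option autoImplicit false
open Cfsg Cfsg.Lib.Blocks Cfsg.Agent.S4602
open scoped Classical Pointwise

namespace Cfsg.Agent.S4601

universe u

/-- The hypothesis passes to quotients. -/
theorem quotient_hyp {G : Type u} [Group G] [Finite G] {p q : ℕ} [Fact p.Prime] [Fact q.Prime]
    (N : Subgroup G) [N.Normal]
    (h : ∀ y : G, (∃ k : ℕ, orderOf y = q ^ k) → ¬ p ∣ (Subgroup.centralizer ({y} : Set G)).index) :
    ∀ y : G ⧸ N, (∃ k : ℕ, orderOf y = q ^ k) → ¬ p ∣ (Subgroup.centralizer ({y} : Set (G ⧸ N))).index := by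
  rintro y ⟨k, hk⟩
  obtain ⟨x, rfl⟩ := QuotientGroup.mk_surjective y
  set m := orderOf x / q ^ (orderOf x).factorization q with hm
  have hmo : q ^ (orderOf x).factorization q * m = orderOf x := Nat.ordProj_mul_ordCompl_eq_self _ _
  have hcop : Nat.Coprime (q ^ k) m :=
    ((Fact.out : q.Prime).coprime_iff_not_dvd.mpr (Nat.not_dvd_ordCompl Fact.out (orderOf_pos x).ne')).pow_left k
  have h1 : ∃ a : ℕ, orderOf (x ^ m) = q ^ a := by
    refine ⟨(orderOf x).factorization q, ?_⟩
    have hm0 : m ≠ 0 := fun h0 => (orderOf_pos x).ne' (by rw [← hmo, h0, mul_zero])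
    rw [orderOf_pow' x hm0, Nat.gcd_eq_right ⟨_, hmo.symm.trans (mul_comm _ _)⟩]
    exact Nat.div_eq_of_eq_mul_left (Nat.pos_of_ne_zero hm0) hmo.symm
  intro hdvd
  refine h _ h1 (hdvd.trans ?_)
  refine (Subgroup.index_dvd_of_le ?_).trans (Subgroup.index_map_dvd _ (QuotientGroup.mk'_surjective N))
  rintro _ ⟨z, hz, rfl⟩
  rw [Subgroup.mem_centralizer_singleton_iff]
  have h2 : Commute ((QuotientGroup.mk' N) z) ((x : G ⧸ N) ^ m) := by
    have h3 : Commute z (x ^ m) := Subgroup.mem_centralizer_singleton_iff.mp hz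
    exact h3.map (QuotientGroup.mk' N)
  obtain ⟨j, hj⟩ := exists_pow_eq_self_of_coprime (x := (x : G ⧸ N)) (n := m) (by rw [hk]; exact hcop.symm)
  exact hj ▸ h2.pow_right j

/-- The two-prime case for `p`-solvable groups. -/
theorem pair_of_pSolvable {G : Type u} [Group G] [Finite G] {p q : ℕ} [Fact p.Prime] [Fact q.Prime]
    (hpq : p ≠ q) (hsolv : Cfsg.IsPSolvable p G)
    (h : ∀ y : G, (∃ k : ℕ, orderOf y = q ^ k) → ¬ p ∣ (Subgroup.centralizer ({y} : Set G)).index) :
    ∃ (P : Sylow p G) (Q : Sylow q G), (P : Subgroup G) ≤ Subgroup.normalizer ((Q : Subgroup G) : Set G) := by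
  refine exists_pair_of_core p q fun hdvd => ?_
  haveI := Cfsg.Lib.Transfer.pPrimeCore_normal (G := G) p
  have hsc := Cfsg.Lib.PLocal.selfCentralizingCore_of_pSolvable
    (Cfsg.Lib.PLocal.IsPSolvable.of_surjective _ (QuotientGroup.mk'_surjective (Cfsg.pPrimeCore p G)) hsolv)
    (Cfsg.Lib.Solv.pPrimeCore_quotient_eq_bot p)
  rw [Subgroup.index_eq_card] at hdvd
  obtain ⟨y, hy⟩ := exists_prime_orderOf_dvd_card' q hdvd
  obtain ⟨P', hP'⟩ := exists_sylow_le _ (quotient_hyp (Cfsg.pPrimeCore p G) h y ⟨1, by rw [hy, pow_one]⟩)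
  have hmem : y ∈ Cfsg.pCore p (G ⧸ Cfsg.pPrimeCore p G) := hsc (Subgroup.mem_centralizer_iff.mpr fun x hx =>
    Subgroup.mem_centralizer_singleton_iff.mp (hP' (Cfsg.Lib.Transfer.pCore_le_sylow P' hx)))
  obtain ⟨a, ha⟩ := IsPGroup.iff_card.mp P'.isPGroup'
  have h1 : q ∣ p ^ a := by
    rw [← hy, ← ha, ← Subgroup.orderOf_mk y (Cfsg.Lib.Transfer.pCore_le_sylow P' hmem)]
    exact orderOf_dvd_natCard _
  exact hpq ((Nat.prime_dvd_prime_iff_eq Fact.out Fact.out).mp ((Fact.out : q.Prime).dvd_of_dvd_pow h1)).symm

/-- The two-prime case for `q`-solvable groups. -/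
theorem pair_of_qSolvable {p q : ℕ} [Fact p.Prime] [Fact q.Prime] (hpq : p ≠ q) :
    ∀ (n : ℕ) (G : Type u) [Group G] [Finite G], Nat.card G ≤ n → Cfsg.IsPSolvable q G →
    (∀ y : G, (∃ k : ℕ, orderOf y = q ^ k) → ¬ p ∣ (Subgroup.centralizer ({y} : Set G)).index) →
    ∃ (P : Sylow p G) (Q : Sylow q G), (P : Subgroup G) ≤ Subgroup.normalizer ((Q : Subgroup G) : Set G) := by
  intro n
  induction n with
  | zero => intro G _ _ hn; exact absurd hn (by have := Nat.card_pos (α := G); omega)
  | succ n ih =>
    intro G _ _ hn hsolv h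
    by_cases hG : Nat.card G = 1
    · haveI := (Nat.card_eq_one_iff_unique.mp hG).1
      obtain ⟨P⟩ : Nonempty (Sylow p G) := inferInstance
      obtain ⟨Q⟩ : Nonempty (Sylow q G) := inferInstance
      exact ⟨P, Q, fun x _ => by rw [Subsingleton.elim x 1]; exact one_mem _⟩
    obtain ⟨N, hNn, hNne, hN⟩ := Cfsg.Lib.Solv.exists_normal_p_or_coprime hsolv hG
    haveI := hNn
    set π := QuotientGroup.mk' N with hπ
    have hsurj : Function.Surjective π := QuotientGroup.mk'_surjective N
    have hcard : Nat.card (G ⧸ N) ≤ n := by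
      have h1 : Nat.card N * Nat.card (G ⧸ N) = Nat.card G := by
        rw [← Subgroup.index_eq_card, Subgroup.card_mul_index]
      have h2 : 2 ≤ Nat.card N := by
        by_contra h2
        exact hNne (Subgroup.card_eq_one.mp (by have := Nat.card_pos (α := N); omega))
      have := Nat.card_pos (α := G ⧸ N)
      nlinarith
    obtain ⟨P1, Q1, hPQ⟩ := ih (G ⧸ N) hcard (Cfsg.Lib.PLocal.IsPSolvable.of_surjective π hsurj hsolv)
      (quotient_hyp N h)
    obtain ⟨P, rfl⟩ := Sylow.mapSurjective_surjective hsurj p P1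
    obtain ⟨Q, rfl⟩ := Sylow.mapSurjective_surjective hsurj q Q1
    rw [Sylow.coe_mapSurjective, Sylow.coe_mapSurjective] at hPQ
    set M := (Q : Subgroup G) ⊔ N with hM
    have hMcomap : ((Q : Subgroup G).map π).comap π = M := by
      rw [Subgroup.comap_map_eq, QuotientGroup.ker_mk']
    have hPM : (P : Subgroup G) ≤ Subgroup.normalizer (M : Set G) := by
      intro x hx
      rw [Subgroup.mem_normalizer_iff]
      intro y
      have h1 := Subgroup.mem_normalizer_iff.mp (hPQ ⟨x, hx, rfl⟩) (π y)
      rw [← map_inv, ← map_mul, ← map_mul] at h1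
      rw [← hMcomap, Subgroup.mem_comap, Subgroup.mem_comap]
      exact h1
    have hQM : ∀ Q' : Subgroup G, Nat.card Q' = q ^ (Nat.card M).factorization q →
        Nat.card Q' = q ^ (Nat.card G).factorization q := by
      intro Q' hQ'
      rw [hQ']
      congr 1
      conv_rhs => rw [← M.card_mul_index]
      rw [Nat.factorization_mul Nat.card_pos.ne' Subgroup.index_ne_zero_of_finite, Finsupp.add_apply,
        Nat.factorization_eq_zero_of_not_dvd (fun hd => Q.not_dvd_index
          (hd.trans (Subgroup.index_dvd_of_le le_sup_left))), add_zero]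
    suffices hcardS : ¬ p ∣ Nat.card (Sylow q M) by
      obtain ⟨Q', -, hQc, hPQ'⟩ := exists_invariant_sylow (p := p) (q := q) (P : Subgroup G) M P.isPGroup' hPM hcardS
      exact ⟨P, Sylow.ofCard Q' (hQM Q' hQc), by rwa [Sylow.coe_ofCard]⟩
    rcases hN with hNq | hNcop
    · have hMQ : M = (Q : Subgroup G) :=
        Q.is_maximal' (Q.isPGroup'.to_sup_of_normal_right hNq) le_sup_left
      intro hd
      obtain ⟨S⟩ : Nonempty (Sylow q M) := inferInstance
      have h1 := (hd.trans S.card_dvd_index).trans (Subgroup.index_dvd_card _)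
      obtain ⟨a, ha⟩ := IsPGroup.iff_card.mp Q.isPGroup'
      rw [hMQ, ha] at h1
      exact hpq ((Nat.prime_dvd_prime_iff_eq Fact.out Fact.out).mp ((Fact.out : p.Prime).dvd_of_dvd_pow h1))
    -- a Sylow subgroup of `N` centralized by `Q`
    have hQn : (Q : Subgroup G) ≤ Subgroup.normalizer (N : Set G) := by
      rw [Subgroup.normalizer_eq_top N]; exact le_top
    obtain ⟨R, hRN, hRc, hQR⟩ := exists_invariant_sylow (p := q) (q := p) (Q : Subgroup G) N Q.isPGroup' hQn (by
      intro hd
      obtain ⟨S⟩ : Nonempty (Sylow p N) := inferInstance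
      exact (Fact.out : q.Prime).ne_one (Nat.eq_one_of_dvd_coprimes hNcop
        ((hd.trans S.card_dvd_index).trans (Subgroup.index_dvd_card _)) dvd_rfl))
    have hRQ : ∀ x ∈ (Q : Subgroup G), R ≤ Subgroup.centralizer ({x} : Set G) := by
      intro x hx
      obtain ⟨a, ha⟩ := IsPGroup.iff_card.mp Q.isPGroup'
      obtain ⟨P', hP'⟩ := exists_sylow_le _ (h x (by
        obtain ⟨k, -, hk⟩ := (Nat.dvd_prime_pow Fact.out).mp
          (ha ▸ (Subgroup.orderOf_mk x hx).symm ▸ orderOf_dvd_natCard (⟨x, hx⟩ : (Q : Subgroup G)))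
        exact ⟨k, hk⟩))
      set R' := (P' : Subgroup G) ⊓ N with hR'
      -- `R'` is a Sylow subgroup of `N`
      have hR'c : Nat.card R' = p ^ (Nat.card N).factorization p := by
        obtain ⟨b, hb⟩ := IsPGroup.iff_card.mp (P'.isPGroup'.to_le (inf_le_left : R' ≤ (P' : Subgroup G)))
        rw [hb]
        congr 1
        have hidx : ¬ p ∣ R'.relIndex N := by
          rw [hR', Subgroup.inf_relIndex_right]
          have e1 : (P' : Subgroup G).relIndex N = (P' : Subgroup G).relIndex (N ⊔ P') := by
            have e2 : (P' : Subgroup G).relIndex N * N.relIndex (N ⊔ P') = N.relIndex P' * (P' : Subgroup G).relIndex (N ⊔ P') := by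
              rw [← Subgroup.inf_relIndex_left N (P' : Subgroup G), ← Subgroup.inf_relIndex_right N (P' : Subgroup G),
                Subgroup.relIndex_mul_relIndex _ _ _ inf_le_left le_sup_left,
                Subgroup.relIndex_mul_relIndex _ _ _ inf_le_right le_sup_right]
            rw [Subgroup.relIndex_sup_left, mul_comm] at e2
            exact mul_left_cancel₀ (show N.relIndex (P' : Subgroup G) ≠ 0 from Subgroup.index_ne_zero_of_finite) e2
          rw [e1]
          exact fun hd => P'.not_dvd_index (hd.trans ⟨_, (Subgroup.relIndex_mul_index le_sup_right).symm⟩)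
        have hmul : Nat.card R' * R'.relIndex N = Nat.card N := by
          rw [← Subgroup.card_mul_index (R'.subgroupOf N),
            Nat.card_congr (Subgroup.subgroupOfEquivOfLe (inf_le_right : R' ≤ N)).toEquiv]
          rfl
        rw [← hmul, Nat.factorization_mul Nat.card_pos.ne' (show R'.relIndex N ≠ 0 from Subgroup.index_ne_zero_of_finite), Finsupp.add_apply,
          Nat.factorization_eq_zero_of_not_dvd hidx, add_zero, hb,
          Nat.Prime.factorization_pow Fact.out, Finsupp.single_eq_same]
      haveI := Fintype.ofFinite G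
      let S : Finset G := Finset.univ.filter fun c => c ∈ N ∧ MulAut.conj c • R = R'
      have hS : ¬ q ∣ S.card := by
        have hconj : ∃ c ∈ N, MulAut.conj c • R = R' := by
          let R1 : Sylow p N := Sylow.ofCard (R.subgroupOf N) (by
            rw [Nat.card_congr (Subgroup.subgroupOfEquivOfLe hRN).toEquiv, hRc])
          let R2 : Sylow p N := Sylow.ofCard (R'.subgroupOf N) (by
            rw [Nat.card_congr (Subgroup.subgroupOfEquivOfLe (inf_le_right : R' ≤ N)).toEquiv, hR'c])
          obtain ⟨c, hc⟩ := MulAction.exists_smul_eq N R1 R2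
          refine ⟨c, c.2, ?_⟩
          have h2 := congrArg (fun T : Sylow p N => ((T : Subgroup N).map N.subtype)) hc
          simp only [Sylow.coe_subgroup_smul, R1, R2, Sylow.coe_ofCard, Subgroup.subgroupOf_map_subtype,
            inf_of_le_left (inf_le_right : R' ≤ N)] at h2
          refine Eq.trans ?_ (h2.trans (inf_of_le_left (inf_le_right : R' ≤ N)))
          ext y
          constructor
          · rintro ⟨z, hz, rfl⟩
            exact ⟨c * ⟨z, hRN hz⟩ * c⁻¹, ⟨⟨z, hRN hz⟩, hz, rfl⟩, rfl⟩
          · rintro ⟨w, ⟨z, hz, rfl⟩, rfl⟩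
            exact ⟨(z : G), hz, rfl⟩
        obtain ⟨c₀, hc₀N, hc₀⟩ := hconj
        intro hd
        let K : Subgroup G := N ⊓ Subgroup.normalizer (R : Set G)
        have hbij : S.card = Nat.card K := by
          rw [← Fintype.card_subtype, ← Nat.card_eq_fintype_card]
          refine Nat.card_congr ((Equiv.mulLeft c₀⁻¹).subtypeEquiv fun c => ?_)
          rw [Equiv.coe_mulLeft, Subgroup.mem_inf]
          constructor
          · rintro ⟨hcN, hc⟩
            refine ⟨mul_mem (inv_mem hc₀N) hcN, ?_⟩
            rw [Subgroup.mem_normalizer_iff]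
            intro y
            have h3 : MulAut.conj (c₀⁻¹ * c) • R = R := by
              rw [map_mul, mul_smul, hc, ← hc₀, ← mul_smul, ← map_mul, inv_mul_cancel, map_one, one_smul]
            conv_rhs => rw [← h3]
            exact (Subgroup.smul_mem_pointwise_smul_iff).symm
          · rintro ⟨hcN, hc⟩
            refine ⟨by simpa using mul_mem hc₀N hcN, ?_⟩
            have h3 : MulAut.conj (c₀⁻¹ * c) • R = R := by
              ext y
              rw [Subgroup.mem_pointwise_smul_iff_inv_smul_mem, MulAut.smul_def, MulAut.conj_inv_apply]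
              refine (Subgroup.mem_normalizer_iff.mp hc _).trans ?_
              simp [mul_assoc]
            calc MulAut.conj c • R = MulAut.conj c₀ • (MulAut.conj (c₀⁻¹ * c) • R) := by
                  rw [← mul_smul, ← map_mul, mul_inv_cancel_left]
              _ = R' := by rw [h3, hc₀]
        rw [hbij] at hd
        exact (Fact.out : q.Prime).ne_one (Nat.eq_one_of_dvd_coprimes hNcop
          (hd.trans (Subgroup.card_dvd_of_le inf_le_left)) dvd_rfl)
      have hxR : MulAut.conj x • R = R := by
        ext y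
        rw [Subgroup.mem_pointwise_smul_iff_inv_smul_mem, MulAut.smul_def, MulAut.conj_inv_apply]
        refine (Subgroup.mem_normalizer_iff.mp (hQR hx) _).trans ?_
        simp [mul_assoc]
      let a : Subgroup.zpowers x →* Equiv.Perm G :=
        ((MulAction.toPermHom (MulAut G) G).comp MulAut.conj).comp (Subgroup.zpowers x).subtype
      have hzR : ∀ z ∈ Subgroup.zpowers x, MulAut.conj z • R = R := by
        intro z hz
        exact (Subgroup.zpowers_le.mpr (show x ∈ (MulAction.stabilizer (MulAut G) R).comap MulAut.conj from hxR)) hz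
      obtain ⟨c, hcS, hcfix⟩ := exists_fixed_mem
        (Q.isPGroup'.to_le (Subgroup.zpowers_le.mpr hx)) a S (fun z c hc => by
          obtain ⟨-, hcN, hcR⟩ := Finset.mem_filter.mp hc
          refine Finset.mem_filter.mpr ⟨Finset.mem_univ _, hNn.conj_mem c hcN _, ?_⟩
          show MulAut.conj ((z : G) * c * (z : G)⁻¹) • R = R'
          have hz' : MulAut.conj ((z : G)⁻¹) • R = R := hzR _ (inv_mem z.2)
          rw [map_mul, map_mul, mul_smul, mul_smul, hz', hcR]
          ext y
          rw [Subgroup.mem_pointwise_smul_iff_inv_smul_mem, MulAut.smul_def, MulAut.conj_inv_apply]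
          have hzP : (z : G) ∈ Subgroup.centralizer ((P' : Subgroup G) : Set G) := by
            refine Subgroup.zpowers_le.mpr (Subgroup.mem_centralizer_iff.mpr fun y hy => ?_) z.2
            exact Subgroup.mem_centralizer_singleton_iff.mp (hP' hy)
          constructor
          · intro hy
            have := Subgroup.mem_centralizer_iff.mp hzP _ ((inf_le_left : R' ≤ (P' : Subgroup G)) hy : (z : G)⁻¹ * y * z ∈ (P' : Subgroup G))
            have hyy : y = (z : G)⁻¹ * y * z := by
              calc y = (z : G) * ((z : G)⁻¹ * y * z) * (z : G)⁻¹ := by group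
                _ = ((z : G)⁻¹ * y * z) * z * (z : G)⁻¹ := by rw [← this]
                _ = _ := by group
            rw [hyy]; exact hy
          · intro hy
            have := Subgroup.mem_centralizer_iff.mp hzP _ ((inf_le_left : R' ≤ (P' : Subgroup G)) hy)
            have hyy : (z : G)⁻¹ * y * z = y := by rw [mul_assoc, this]; group
            rw [hyy]; exact hy) hS
      obtain ⟨-, hcN, hcR⟩ := Finset.mem_filter.mp hcS
      have hcx : x * c * x⁻¹ = c := hcfix ⟨x, Subgroup.mem_zpowers x⟩
      intro y hy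
      rw [Subgroup.mem_centralizer_singleton_iff]
      have hy' : c * y * c⁻¹ ∈ R' := hcR ▸ Subgroup.smul_mem_pointwise_smul y (MulAut.conj c) R hy
      have h4 : c * y * c⁻¹ * x = x * (c * y * c⁻¹) :=
        Subgroup.mem_centralizer_singleton_iff.mp (hP' ((inf_le_left : R' ≤ (P' : Subgroup G)) hy'))
      have h5 : x * c = c * x := mul_inv_eq_iff_eq_mul.mp hcx
      have h7 : c⁻¹ * x = x * c⁻¹ := by
        calc c⁻¹ * x = c⁻¹ * (x * c) * c⁻¹ := by group
          _ = c⁻¹ * (c * x) * c⁻¹ := by rw [h5]
          _ = _ := by group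
      calc y * x = c⁻¹ * (c * y * c⁻¹ * x) * c := by rw [mul_assoc (c⁻¹), mul_assoc (c * y * c⁻¹) x c, h5]; group
        _ = c⁻¹ * (x * (c * y * c⁻¹)) * c := by rw [h4]
        _ = (c⁻¹ * x) * c * y := by group
        _ = x * y := by rw [h7]; group
    intro hd
    obtain ⟨S⟩ : Nonempty (Sylow q M) := inferInstance
    let QM : Sylow q M := Sylow.ofCard ((Q : Subgroup G).subgroupOf M) (by
      rw [Nat.card_congr (Subgroup.subgroupOfEquivOfLe (le_sup_left : (Q : Subgroup G) ≤ M)).toEquiv,
        Q.card_eq_multiplicity]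
      congr 1
      conv_lhs => rw [← M.card_mul_index]
      rw [Nat.factorization_mul Nat.card_pos.ne' Subgroup.index_ne_zero_of_finite, Finsupp.add_apply,
        Nat.factorization_eq_zero_of_not_dvd (fun hd => Q.not_dvd_index
          (hd.trans (Subgroup.index_dvd_of_le le_sup_left))), add_zero])
    rw [QM.card_eq_index_normalizer] at hd
    have hle : R.subgroupOf M ≤ Subgroup.normalizer ((QM : Subgroup M) : Set M) := by
      intro r hr
      rw [Subgroup.mem_normalizer_iff]
      intro y
      simp only [QM, Sylow.coe_ofCard, Subgroup.mem_subgroupOf, Subgroup.coe_mul, Subgroup.coe_inv]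
      have key : ∀ z ∈ (Q : Subgroup G), (r : G) * z * (r : G)⁻¹ = z := by
        intro z hz
        have h9 : (r : G) * z = z * (r : G) := Subgroup.mem_centralizer_singleton_iff.mp (hRQ z hz hr)
        rw [h9, mul_inv_cancel_right]
      constructor
      · intro hy; rw [key _ hy]; exact hy
      · intro hy
        have h3 := key _ hy
        rw [show (y : G) = (r : G) * y * (r : G)⁻¹ from by
          have := congrArg (fun w => (r : G)⁻¹ * w * r) h3
          simpa [mul_assoc] using this.symm]
        exact hy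
    have hidx : ¬ p ∣ (R.subgroupOf M).index := by
      intro hdp
      have h1 : Nat.card R * (R.subgroupOf M).index = Nat.card M := by
        rw [← Subgroup.card_mul_index (R.subgroupOf M),
          Nat.card_congr (Subgroup.subgroupOfEquivOfLe (hRN.trans le_sup_right : R ≤ M)).toEquiv]
      have h2 : (Nat.card M).factorization p = (Nat.card N).factorization p := by
        have h3 : Nat.card N * N.relIndex M = Nat.card M := by
          rw [← Subgroup.card_mul_index (N.subgroupOf M),
            Nat.card_congr (Subgroup.subgroupOfEquivOfLe (le_sup_right : N ≤ M)).toEquiv]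
          rfl
        rw [← h3, Nat.factorization_mul Nat.card_pos.ne' (show N.relIndex M ≠ 0 from Subgroup.index_ne_zero_of_finite), Finsupp.add_apply]
        have h4 : N.relIndex M ∣ Nat.card (Q : Subgroup G) := by
          rw [hM, Subgroup.relIndex_sup_right]
          exact Subgroup.relIndex_dvd_card _ _
        obtain ⟨b, hb⟩ := IsPGroup.iff_card.mp Q.isPGroup'
        rw [hb] at h4
        rw [Nat.factorization_eq_zero_of_not_dvd (fun hd : p ∣ N.relIndex M => hpq ((Nat.prime_dvd_prime_iff_eq Fact.out Fact.out).mp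
          ((Fact.out : p.Prime).dvd_of_dvd_pow (hd.trans h4)))), add_zero]
      have hlt := Nat.Prime.factorization_pos_of_dvd Fact.out Subgroup.index_ne_zero_of_finite hdp
      rw [← h1, hRc, Nat.factorization_mul (pow_ne_zero _ (Fact.out : p.Prime).ne_zero) Subgroup.index_ne_zero_of_finite,
        Finsupp.add_apply, Nat.Prime.factorization_pow Fact.out, Finsupp.single_eq_same] at h2
      omega
    exact hidx (hd.trans (Subgroup.index_dvd_of_le hle))


/-- Let p and q be primes and G a finite group that is p-solvable or q-solvable, in which no q-element has conjugacy class size divisible by p. Then some Sylow p-subgroup of G normalizes some Sylow q-subgroup of G. -/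
theorem result {G : Type*} [Group G] [Finite G] (p q : ℕ) [Fact p.Prime] [Fact q.Prime] (hsolv : Cfsg.IsPSolvable p G ∨ Cfsg.IsPSolvable q G)
    (h : ∀ y : G, (∃ k : ℕ, orderOf y = q ^ k) → ¬ p ∣ (Subgroup.centralizer ({y} : Set G)).index) :
    ∃ (P : Sylow p G) (Q : Sylow q G), (P : Subgroup G) ≤ Subgroup.normalizer ((Q : Subgroup G) : Set G) := by
  classical
  by_cases hpq : p = q
  · subst hpq
    obtain ⟨P⟩ : Nonempty (Sylow p G) := inferInstance
    exact ⟨P, P, Subgroup.le_normalizer⟩
  rcases hsolv with hs | hs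
  · exact pair_of_pSolvable hpq hs h
  · exact pair_of_qSolvable hpq _ G le_rfl hs h

end Cfsg.Agent.S4601
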