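import Cfsg.Statements.S4604
import Cfsg.Agent.Lib.Characters.Integrality

set_option autoImplicit false
open Cfsg Cfsg.Lib.Characters
open scoped ComplexConjugate

namespace Cfsg.Agent.S4604

variable {G : Type*} [Group G] [Finite G]

/-- `(a + b) ^ p ^ n` and `a ^ p ^ n + b ^ p ^ n` agree modulo `p`, for finite sums. -/
theorem sum_pow_modEq {R : Type*} [CommRing R] {p : ℕ} (hp : p.Prime) (n : ℕ) {ι : Type*} (s : Finset ι)
    (f : ι → R) : (p : R) ∣ (∑ i ∈ s, f i) ^ p ^ n - ∑ i ∈ s, f i ^ p ^ n := by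
  classical
  induction s using Finset.induction_on with
  | empty => simp [hp.ne_zero]
  | insert a s ha ih =>
    obtain ⟨r, hr⟩ := exists_add_pow_prime_pow_eq hp (f a) (∑ i ∈ s, f i) n
    obtain ⟨t, ht⟩ := ih
    rw [Finset.sum_insert ha, Finset.sum_insert ha, hr]
    exact ⟨f a * (∑ i ∈ s, f i) * r + t, by linear_combination ht⟩

/-- Character values: the `q`-th power is congruent to the value at the `q`-th power. -/
theorem char_pow_modEq {p : ℕ} (hp : p.Prime) (n : ℕ) (χ : IrrCharacter G) (g : G) :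
    ∃ γ : AlgInt, (χ : G → ℂ) g ^ p ^ n - (χ : G → ℂ) (g ^ p ^ n) = (p : ℂ) * (γ : ℂ) := by
  obtain ⟨χ, m, ρ, hρ, rfl⟩ := χ
  obtain ⟨μ, hμ, -, hk, -⟩ := exists_eigenvalues ρ g
  let μ' : Fin _ → AlgInt := fun i =>
    ⟨μ i, IsIntegral.of_pow (orderOf_pos g) (by rw [hμ i]; exact isIntegral_one)⟩
  obtain ⟨γ, hγ⟩ := sum_pow_modEq hp n Finset.univ μ'
  refine ⟨γ, ?_⟩
  have h := congrArg (Subtype.val : AlgInt → ℂ) hγ
  push_cast at h
  have h1 := hk 1
  simp only [pow_one] at h1
  show ρ.character g ^ p ^ n - ρ.character (g ^ p ^ n) = _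
  rw [h1, hk (p ^ n)]
  exact h

/-- Averaging a character over a `p`-subgroup centralised by `u`. -/
theorem isIntegral_average [Fintype G] (χ : IrrCharacter G) (u : G) (P : Subgroup G) [Fintype P]
    (hP : ∀ z ∈ P, Commute u z) :
    IsIntegral ℤ ((Nat.card P : ℂ)⁻¹ * ∑ z : P, (χ : G → ℂ) (u * z)) := by
  classical
  let f : Subgroup.zpowers u × P →* G := (Subgroup.zpowers u).subtype.noncommCoprod P.subtype
    (fun a z => by
      obtain ⟨i, hi⟩ := Subgroup.mem_zpowers_iff.mp a.2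
      show Commute (a : G) (z : G)
      rw [← hi]
      exact (hP _ z.2).zpow_left i)
  haveI := Fintype.ofFinite (Subgroup.zpowers u)
  obtain ⟨m, hm⟩ := exists_decomposition (isCharacter_comp χ.2.isCharacter f)
  let u' : Subgroup.zpowers u × P := (⟨u, Subgroup.mem_zpowers u⟩, 1)
  have e : ∀ z : P, (χ : G → ℂ) (u * z) = (fun x => (χ : G → ℂ) (f x)) (u' * (1, z)) := fun z => by
    simp [f, u', MonoidHom.noncommCoprod_apply]
  rw [Finset.sum_congr rfl fun z _ => (e z).trans (congrFun hm _)]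
  simp only [Finset.sum_apply, Pi.smul_apply, smul_eq_mul]
  rw [Finset.sum_comm, Finset.mul_sum]
  refine IsIntegral.sum _ fun ν _ => ?_
  rw [← Finset.mul_sum, mul_left_comm]
  refine IsIntegral.mul (isIntegral_algebraMap (R := ℤ) (A := ℂ) (x := (m ν : ℤ)) |> fun h => by simpa using h) ?_
  obtain ⟨ν, k, σ, hσ, rfl⟩ := ν
  haveI := hσ
  have hcomm : ∀ x, σ u' * σ x = σ x * σ u' := fun x => by
    rw [← map_mul, ← map_mul]
    congr 1
    obtain ⟨a, z⟩ := x
    refine Prod.ext (Subtype.ext ?_) (by simp [u'])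
    obtain ⟨i, hi⟩ := Subgroup.mem_zpowers_iff.mp a.2
    show u * (a : G) = a * u
    rw [← hi]
    exact ((Commute.refl u).zpow_right i).eq
  obtain ⟨w, hw⟩ := schur_scalar σ (σ u') hcomm
  have hw1 : IsIntegral ℤ w := by
    have h1 : σ u' ^ orderOf u' = 1 := by rw [← map_pow, pow_orderOf_eq_one, map_one]
    rw [hw, smul_pow, ← Module.End.one_eq_id, one_pow] at h1
    refine IsIntegral.of_pow (orderOf_pos u') ?_
    have hk0 : (k : ℂ) ≠ 0 := by
      have := IsIrrCharacter.one_ne_zero ⟨k, σ, hσ, rfl⟩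
      simpa [Representation.char_one] using this
    have h2 := congrArg (LinearMap.trace ℂ (Fin k → ℂ)) h1
    rw [map_smul, smul_eq_mul, Module.End.one_eq_id, LinearMap.trace_id, Module.finrank_fin_fun] at h2
    rw [mul_eq_right₀ hk0 |>.mp h2]
    exact isIntegral_one
  have hterm : ∀ z : P, σ.character (u' * (1, z)) = w * σ.character (MonoidHom.inr _ P z) := fun z => by
    simp only [Representation.character, map_mul, hw, smul_mul_assoc, ← Module.End.one_eq_id, one_mul,
      map_smul, smul_eq_mul]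
    rfl
  show IsIntegral ℤ ((Nat.card P : ℂ)⁻¹ * ∑ z : P, σ.character (u' * (1, z)))
  rw [Finset.sum_congr rfl fun z _ => hterm z, ← Finset.mul_sum, mul_left_comm]
  refine IsIntegral.mul hw1 ?_
  obtain ⟨j, hj⟩ := classInner_nat
    (isCharacter_comp (isCharacter_character σ) (MonoidHom.inr (Subgroup.zpowers u) P)) (isCharacter_one (G := P))
  have hj' : (Nat.card P : ℂ)⁻¹ * ∑ z : P, σ.character (MonoidHom.inr _ P z) = j := by
    rw [← hj, classInner]
    simp
  rw [hj']
  simpa using isIntegral_algebraMap (R := ℤ) (A := ℂ) (x := (j : ℤ))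

/-- Column congruences separate `p`-regular classes. -/
theorem regular_separation {p : ℕ} [hp : Fact p.Prime] {u v : G} (hu : ¬ p ∣ orderOf u) (hv : ¬ p ∣ orderOf v)
    (h : ∀ χ : IrrCharacter G, ∃ γ : AlgInt, (χ : G → ℂ) u - (χ : G → ℂ) v = (p : ℂ) * (γ : ℂ)) :
    IsConj u v := by
  classical
  haveI := Fintype.ofFinite G
  by_contra hne
  set C := Subgroup.centralizer ({u} : Set G)
  let S : Sylow p C := default
  let P : Subgroup G := (S : Subgroup C).map C.subtype
  haveI := Fintype.ofFinite P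
  have hPC : ∀ z ∈ P, Commute u z := fun z hz => by
    obtain ⟨w, -, rfl⟩ := hz
    exact ((Subgroup.mem_centralizer_iff.mp w.2) u rfl)
  have hPp : IsPGroup p P := S.isPGroup'.map C.subtype
  have hcardP : Nat.card P = p ^ (Nat.card C).factorization p := by
    rw [← S.card_eq_multiplicity]
    exact Subgroup.card_map_of_injective C.subtype_injective
  let n : IrrCharacter G → ℂ := fun χ => conj ((Nat.card P : ℂ)⁻¹ * ∑ z : P, (χ : G → ℂ) (u * z))
  have hn : ∀ χ, IsIntegral ℤ (n χ) := fun χ => isIntegral_conj (isIntegral_average χ u P hPC)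
  have hval : ∀ g : G, ¬ p ∣ orderOf g → ∑ χ : IrrCharacter G, n χ * (χ : G → ℂ) g
      = (Nat.card P : ℂ)⁻¹ * (if IsConj g u then (Nat.card C : ℂ) else 0) := by
    intro g hg
    simp only [n, map_mul, map_inv₀, Complex.conj_natCast, map_sum, Finset.mul_sum, Finset.sum_mul]
    rw [Finset.sum_comm]
    refine (Finset.sum_congr rfl fun (z : P) _ => show
      ∑ χ : IrrCharacter G, (Nat.card P : ℂ)⁻¹ * conj ((χ : G → ℂ) (u * (z : G))) * (χ : G → ℂ) g
        = (Nat.card P : ℂ)⁻¹ * (if IsConj g (u * (z : G)) then (Nat.card (Subgroup.centralizer ({u * (z : G)} : Set G)) : ℂ) else 0) by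
      rw [← column_orthogonality, Finset.mul_sum]
      exact Finset.sum_congr rfl fun χ _ => by ring).trans ?_
    rw [Finset.sum_eq_single (1 : P)]
    · simp [C]
    · intro z _ hz
      rw [if_neg, mul_zero]
      intro hc
      apply hz
      obtain ⟨k, hk⟩ := hPp.exists_card_eq
      obtain ⟨i, -, hi⟩ := (Nat.dvd_prime_pow hp.out).mp
        (hk ▸ orderOf_dvd_natCard z : orderOf z ∣ p ^ k)
      have hi' : orderOf (z : G) = p ^ i := by rw [Subgroup.orderOf_coe, hi]
      have hcop : (orderOf u).Coprime (orderOf (z : G)) := by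
        rw [hi']; exact ((hp.out.coprime_iff_not_dvd.mpr hu).symm).pow_right i
      have ho : orderOf (u * (z : G)) = orderOf g := by
        obtain ⟨x, hx⟩ := isConj_iff.mp hc
        rw [← hx]
        exact orderOf_injective (MulAut.conj x).toMonoidHom (MulAut.conj x).injective g
      rw [(hPC _ z.2).orderOf_mul_eq_mul_orderOf_of_coprime hcop, hi'] at ho
      rcases Nat.eq_zero_or_pos i with rfl | hipos
      · exact orderOf_eq_one_iff.mp (by rw [hi, pow_zero])
      · exact absurd (ho ▸ dvd_mul_of_dvd_right (dvd_pow_self p hipos.ne') _) hg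
    · simp
  choose γ hγ using h
  have hdiff : ∑ χ : IrrCharacter G, n χ * ((χ : G → ℂ) u - (χ : G → ℂ) v)
      = (p : ℂ) * ∑ χ : IrrCharacter G, n χ * (γ χ : ℂ) := by
    rw [Finset.mul_sum]
    exact Finset.sum_congr rfl fun χ _ => by rw [hγ]; ring
  rw [Finset.sum_congr rfl fun χ _ => mul_sub (n χ) _ _, Finset.sum_sub_distrib, hval u hu, hval v hv,
    if_pos (IsConj.refl u), if_neg (fun e => hne e.symm), mul_zero, sub_zero] at hdiff
  have hint : IsIntegral ℤ (∑ χ : IrrCharacter G, n χ * (γ χ : ℂ)) :=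
    IsIntegral.sum _ fun χ _ => (hn χ).mul (γ χ).2
  have hdiv : ((p * Nat.card P : ℕ) : ℕ) ∣ Nat.card C := by
    refine dvd_of_isIntegral_div (Nat.mul_ne_zero hp.out.ne_zero Nat.card_pos.ne') ?_
    convert hint using 1
    rw [Nat.cast_mul, div_eq_iff (mul_ne_zero (Nat.cast_ne_zero.mpr hp.out.ne_zero) (Nat.cast_ne_zero.mpr Nat.card_pos.ne')),
      ← mul_assoc, mul_comm _ (p : ℂ), ← hdiff]
    field_simp
  rw [hcardP, ← pow_succ'] at hdiv
  exact Nat.pow_succ_factorization_not_dvd Nat.card_pos.ne' hp.out hdiv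

/-- Let G be a finite group, p a prime and p^a the p-part of the order of G. Let x, y ∈ G and let x′, y′ be their p-regular parts: x′ has order prime to p, commutes with x·x′⁻¹, and x·x′⁻¹ has p-power order (likewise for y). Then x′ and y′ are conjugate in G if and only if for every irreducible character χ of G the algebraic integer χ(x)^(p^a) − χ(y)^(p^a) is p times an algebraic integer. -/
theorem result {G : Type*} [Group G] [Finite G] (p : ℕ) [Fact p.Prime] (x y x' y' : G)
    (hx : (∃ k : ℕ, orderOf (x * x'⁻¹) = p ^ k) ∧ Commute (x * x'⁻¹) x' ∧ ¬ p ∣ orderOf x')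
    (hy : (∃ k : ℕ, orderOf (y * y'⁻¹) = p ^ k) ∧ Commute (y * y'⁻¹) y' ∧ ¬ p ∣ orderOf y') :
    IsConj x' y' ↔ ∀ χ : Cfsg.IrrCharacter G, ∃ γ : Cfsg.AlgInt,
      (χ : G → ℂ) x ^ (p ^ (Nat.card G).factorization p) - (χ : G → ℂ) y ^ (p ^ (Nat.card G).factorization p) = (p : ℂ) * (γ : ℂ) := by
  have hp : p.Prime := Fact.out
  set q := p ^ (Nat.card G).factorization p
  have hpow : ∀ g g' : G, ((∃ k : ℕ, orderOf (g * g'⁻¹) = p ^ k) ∧ Commute (g * g'⁻¹) g' ∧ ¬ p ∣ orderOf g') →
      g ^ q = g' ^ q := by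
    rintro g g' ⟨⟨k, hk⟩, hc, -⟩
    conv_lhs => rw [← inv_mul_cancel_right g g']
    rw [hc.mul_pow]
    have hle : k ≤ (Nat.card G).factorization p :=
      (hp.pow_dvd_iff_le_factorization Nat.card_pos.ne').mp (hk ▸ orderOf_dvd_natCard _)
    rw [orderOf_dvd_iff_pow_eq_one.mp (hk ▸ pow_dvd_pow p hle : orderOf (g * g'⁻¹) ∣ q), one_mul]
  have key : ∀ χ : IrrCharacter G, ∀ g g' : G, g ^ q = g' ^ q → ∃ γ : AlgInt,
      (χ : G → ℂ) g ^ q - (χ : G → ℂ) (g' ^ q) = (p : ℂ) * (γ : ℂ) := fun χ g g' e => by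
    rw [← e]; exact char_pow_modEq hp _ χ g
  have hreg : ∀ g : G, ¬ p ∣ orderOf g → (orderOf g).Coprime q := fun g hg =>
    ((hp.coprime_iff_not_dvd.mpr hg).symm).pow_right _
  constructor
  · intro hxy χ
    obtain ⟨a, ha⟩ := key χ x x' (hpow x x' hx)
    obtain ⟨b, hb⟩ := key χ y y' (hpow y y' hy)
    refine ⟨a - b, ?_⟩
    have : (χ : G → ℂ) (x' ^ q) = (χ : G → ℂ) (y' ^ q) := by
      obtain ⟨c, rfl⟩ := isConj_iff.mp hxy
      rw [conj_pow]
      exact (χ.2.isClassFunction _ _).symm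
    push_cast
    linear_combination ha - hb + this
  · intro h
    have hsep : IsConj (x' ^ q) (y' ^ q) := by
      refine regular_separation (p := p) ?_ ?_ fun χ => ?_
      · rw [(hreg x' hx.2.2).orderOf_pow]; exact hx.2.2
      · rw [(hreg y' hy.2.2).orderOf_pow]; exact hy.2.2
      · obtain ⟨a, ha⟩ := key χ x x' (hpow x x' hx)
        obtain ⟨b, hb⟩ := key χ y y' (hpow y y' hy)
        obtain ⟨c, hc⟩ := h χ
        refine ⟨c - a + b, ?_⟩
        push_cast
        linear_combination hc - ha + hb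
    obtain ⟨c, hc⟩ := isConj_iff.mp hsep
    have ho : orderOf y' = orderOf x' := by
      rw [← (hreg x' hx.2.2).orderOf_pow, ← (hreg y' hy.2.2).orderOf_pow, ← hc]
      exact orderOf_injective (MulAut.conj c).toMonoidHom (MulAut.conj c).injective _
    obtain ⟨i, hi⟩ := exists_pow_eq_self_of_coprime (hreg x' hx.2.2).symm
    obtain ⟨j, hj⟩ := exists_pow_eq_self_of_coprime (hreg y' hy.2.2).symm
    refine isConj_iff.mpr ⟨c, ?_⟩
    have hji : (y' ^ q) ^ i = y' := by
      obtain ⟨r, hr⟩ : ∃ r, r = q := ⟨q, rfl⟩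
      rw [← pow_mul]
      conv_rhs => rw [← pow_one y']
      rw [pow_eq_pow_iff_modEq, ho, ← pow_eq_pow_iff_modEq, pow_one, pow_mul, hi]
    rw [← hi, ← conj_pow, hc, hji]

end Cfsg.Agent.S4604
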