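import Cfsg.Agent.Lib.Blocks.TwoCharacters
import Cfsg.Agent.S4513
import Cfsg.Statements.S4607
-- import your own Cfsg.Agent.* helpers here

set_option autoImplicit false
open Cfsg

namespace Cfsg.Agent.S4607

/-- Let G be a finite group, p a prime, M a maximal ideal of the algebraic integers containing p, and B a p-block of G with defect group D. Then B contains exactly two irreducible characters if and only if D has order 2. -/
theorem result {G : Type*} [Group G] [Finite G] (p : ℕ) [Fact p.Prime] (M : Ideal Cfsg.AlgInt) (hM : Cfsg.IsPModular p M) (B : Set (Cfsg.IrrCharacter G)) (hB : Cfsg.IsPBlock M B) (D : Subgroup G) (hD : Cfsg.IsDefectGroup p M B D) : Nat.card B = 2 ↔ Nat.card D = 2 := by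
  haveI : Fintype G := Fintype.ofFinite G
  haveI := hM.2.1.isPrime
  refine ⟨fun hk => Cfsg.Lib.Blocks.TwoChar.card_defect_two hM hB hD hk, fun h2 => ?_⟩
  have hp : p.Prime := Fact.out
  have hcard := Cfsg.Lib.Blocks.card_defectGroup hM hB hD
  rw [h2] at hcard
  have hd0 : blockDefect p B ≠ 0 := fun h => by rw [h, pow_zero] at hcard; omega
  have hpd : p ∣ 2 := hcard ▸ dvd_pow_self p hd0
  obtain rfl : p = 2 := (Nat.prime_dvd_prime_iff_eq hp Nat.prime_two).mp hpd
  have hd : blockDefect 2 B = 1 := by
    have := Nat.pow_right_injective le_rfl (hcard.symm.trans (pow_one 2).symm)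
    exact this
  obtain ⟨χ₀, χ₁, hne, hBeq, -⟩ := Cfsg.Agent.S4513.defect_one hM hB hd
  subst hBeq
  rw [Nat.card_coe_set_eq, Set.ncard_pair hne]

end Cfsg.Agent.S4607
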