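import Mathlib
import Cfsg.Agent.Lib.Blocks.PrincipalTypeCore
import Cfsg.Agent.Lib.Blocks.Principal
import Cfsg.Agent.Lib.Blocks.NormalPInflation
import Cfsg.Agent.Lib.Blocks.SolvablePSolvable
import Cfsg.Statements.S4611
-- import your own Cfsg.Agent.* helpers here

set_option autoImplicit false
open Cfsg

namespace Cfsg.Agent.S4611

open Cfsg.Lib.Blocks Cfsg.Lib.Characters
open scoped Classical ComplexConjugate

/-- Let G be a finite solvable group and π a nonempty set of primes, each dividing the order of G; fix for each p in π a maximal ideal M p of the algebraic integers containing p. Then the only irreducible character lying in the principal p-block for every p in π is the principal character if and only if G is generated by the subgroups O_{p'}(G), p in π (the largest normal subgroups of order prime to p). -/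
theorem result {G : Type*} [Group G] [Finite G] [Group.IsSolvable G] (π : Set ℕ) (hπ : ∀ p ∈ π, p.Prime ∧ p ∣ Nat.card G) (hne : π.Nonempty) (M : ℕ → Ideal Cfsg.AlgInt) (hM : ∀ p ∈ π, Cfsg.IsPModular p (M p)) :
    (∀ χ : Cfsg.IrrCharacter G, (∀ p ∈ π, χ ∈ Cfsg.principalBlock (M p) G) → (χ : G → ℂ) = fun _ => 1) ↔
      ⨆ p ∈ π, Cfsg.pPrimeCore p G = ⊤ := by
  haveI : Fintype G := Fintype.ofFinite G
  have hprin : ∀ p ∈ π, ∀ χ : Cfsg.IrrCharacter G, χ ∈ Cfsg.principalBlock (M p) G ↔
      ∀ n ∈ Cfsg.pPrimeCore p G, (χ : G → ℂ) n = (χ : G → ℂ) 1 := by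
    intro p hp χ
    haveI := Fact.mk (hπ p hp).1
    haveI : (M p).IsPrime := (hM p hp).2.1.isPrime
    haveI := Cfsg.Lib.Transfer.pPrimeCore_normal (G := G) p
    haveI : Fintype (Cfsg.pPrimeCore p G) := Fintype.ofFinite _
    refine ⟨fun h => principal_ker (hM p hp) _ (Cfsg.Lib.Solv.not_dvd_card_pPrimeCore p) h, fun h => ?_⟩
    obtain ⟨B, hB, hiff, -⟩ := constrained_block (hM p hp)
      (isPConstrained_of_pSolvable (isPSolvable_of_isSolvable p G)) rfl
      (θ := trivChar (Cfsg.pPrimeCore p G)) (fun g => Subtype.ext (funext fun k => rfl))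
    have ht : trivChar G ∈ B := (hiff _).mpr (by
      show Cfsg.classInner (trivChar (Cfsg.pPrimeCore p G) : Cfsg.pPrimeCore p G → ℂ) _ ≠ 0
      rw [classInner_irr_self (trivChar _).2]; exact one_ne_zero)
    obtain ⟨d, hd0, hd⟩ := χ.2.exists_degree_pos
    have hc : χ ∈ B := (hiff _).mpr (by
      rw [show (fun k : Cfsg.pPrimeCore p G => (χ : G → ℂ) k) = (d : ℂ) •
        (trivChar (Cfsg.pPrimeCore p G) : Cfsg.pPrimeCore p G → ℂ) from funext fun k => by
          simp [h k k.2, hd], classInner_smul_left, classInner_irr_self (trivChar _).2, mul_one]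
      exact Nat.cast_ne_zero.mpr hd0.ne')
    rw [principalBlock_eq, ← Cfsg.Lib.Blocks.IsPBlock.eq_blockOf hB ht]
    exact hc
  set N := ⨆ p ∈ π, Cfsg.pPrimeCore p G with hN
  haveI : N.Normal := by
    have : ∀ p, (⨆ _ : p ∈ π, Cfsg.pPrimeCore p G).Normal := fun p => by
      haveI := Cfsg.Lib.Transfer.pPrimeCore_normal (G := G) p
      by_cases hp : p ∈ π
      · rw [iSup_pos hp]; infer_instance
      · rw [iSup_neg hp]; infer_instance
    exact @Subgroup.iSup_normal _ _ _ _ this
  constructor
  · intro h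
    by_contra hne'
    haveI : Fintype (G ⧸ N) := Fintype.ofFinite _
    haveI : Nontrivial (G ⧸ N) := QuotientGroup.nontrivial_iff.mpr hne'
    obtain ⟨φ, hφ⟩ : ∃ φ : Cfsg.IrrCharacter (G ⧸ N), φ ≠ trivChar (G ⧸ N) := by
      by_contra hall
      push Not at hall
      obtain ⟨x, hx⟩ := exists_ne (1 : G ⧸ N)
      haveI : Subsingleton (ConjClasses (G ⧸ N)) := by
        rw [← Finite.card_le_one_iff_subsingleton, ← card_irr_eq_card_conjClasses,
          Finite.card_le_one_iff_subsingleton]
        exact ⟨fun a b => (hall a).trans (hall b).symm⟩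
      exact hx (ConjClasses.mk_eq_mk_iff_isConj.mp (Subsingleton.elim (ConjClasses.mk x) (ConjClasses.mk 1)) |>
        fun hc => isConj_one_left.mp hc)
    refine hφ (inflIrr_injective (P := N) ?_)
    have h1 := h (inflIrr N φ) fun p hp => (hprin p hp _).mpr fun n hn => by
      rw [coe_inflIrr, Function.comp_apply, Function.comp_apply,
        (QuotientGroup.eq_one_iff n).mpr (show n ∈ N from le_iSup₂_of_le (f := fun p (_ : p ∈ π) => Cfsg.pPrimeCore p G) p hp le_rfl hn),
        QuotientGroup.mk_one]
    refine Subtype.ext (h1.trans ?_)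
    funext g
    simp [coe_inflIrr]
  · intro htop χ hχ
    have hker : ∀ g : G, (χ : G → ℂ) g = (χ : G → ℂ) 1 := by
      intro g
      have hle : N ≤ charKer χ.2.isCharacter := iSup₂_le fun p hp n hn =>
        (mem_charKer _).mpr ((hprin p hp χ).mp (hχ p hp) n hn)
      exact (mem_charKer _).mp (hle (htop ▸ Subgroup.mem_top g))
    obtain ⟨d, hd0, hd⟩ := χ.2.exists_degree_pos
    have h1 := classInner_irr_self χ.2
    rw [show (χ : G → ℂ) = (d : ℂ) • (trivChar G : G → ℂ) from funext fun g => by simp [hker g, hd],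
      classInner_smul_left, classInner_smul_right, classInner_irr_self (trivChar G).2] at h1
    have hd1 : d = 1 := by
      have : ((d * d : ℕ) : ℂ) = 1 := by push_cast; simpa using h1
      exact Nat.eq_one_of_mul_eq_one_right (m := d) (by exact_mod_cast this)
    funext g
    rw [hker g, hd, hd1, Nat.cast_one]

end Cfsg.Agent.S4611
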