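import Cfsg.Statements.S4619
import Mathlib
import Cfsg.Agent.Lib.Blocks.DefectZero

set_option autoImplicit false
open scoped Pointwise
open Cfsg

namespace Cfsg.Agent.S4619

/-- Let P be a Sylow p-subgroup of the finite group G that is a trivial-intersection set: P meets each conjugate g P g⁻¹ with g outside N_G(P) trivially. Then for every nontrivial subgroup Q of P the normalizer of Q lies in the normalizer of P, and any g ∈ G conjugating Q into P lies in N_G(P). -/
theorem result {G : Type*} [Group G] [Finite G] (p : ℕ) [Fact p.Prime] (P : Sylow p G) (hTI : (∀ g : G, g ∉ Subgroup.normalizer ((P : Subgroup G) : Set G) → (P : Subgroup G) ⊓ (MulAut.conj g • (P : Subgroup G)) = ⊥)) (Q : Subgroup G) (hQ : Q ≤ (P : Subgroup G)) (hQ1 : Q ≠ ⊥) :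
    Subgroup.normalizer (Q : Set G) ≤ Subgroup.normalizer ((P : Subgroup G) : Set G) ∧
      ∀ g : G, MulAut.conj g • Q ≤ (P : Subgroup G) → g ∈ Subgroup.normalizer ((P : Subgroup G) : Set G) := by
  have key : ∀ g : G, MulAut.conj g • Q ≤ (P : Subgroup G) → g ∈ Subgroup.normalizer ((P : Subgroup G) : Set G) := by
    intro g hg
    by_contra hn
    have h1 : MulAut.conj g • Q ≤ (P : Subgroup G) ⊓ MulAut.conj g • (P : Subgroup G) :=
      le_inf hg (Subgroup.pointwise_smul_le_pointwise_smul_iff.2 hQ)
    rw [hTI g hn, le_bot_iff] at h1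
    apply hQ1
    rw [← inv_smul_smul (MulAut.conj g) Q, h1, Subgroup.smul_bot]
  refine ⟨fun n hn => key n ?_, key⟩
  refine le_trans (le_of_eq ?_) hQ
  ext y
  rw [Subgroup.mem_pointwise_smul_iff_inv_smul_mem, MulAut.smul_def, MulAut.inv_apply, MulAut.conj_symm_apply]
  rw [← Subgroup.inv_mem_iff, Subgroup.mem_normalizer_iff] at hn
  have h := hn y
  rw [inv_inv] at h
  exact h.symm

end Cfsg.Agent.S4619
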