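import Cfsg.Statements.S4620
import Cfsg.Agent.Lib.PLocal.Constraint
import Cfsg.Agent.Lib.Solv.Cores

set_option autoImplicit false
open scoped Pointwise
open Cfsg
open scoped Classical Pointwise

namespace Cfsg.Agent.S4620

universe u

/-- Trivial cores pass to normal subgroups. -/
theorem cores_normal {H : Type u} [Group H] [Finite H] (p : ℕ) [Fact p.Prime] (hOp : Cfsg.pCore p H = ⊥)
    (hOp' : Cfsg.pPrimeCore p H = ⊥) (N : Subgroup H) [N.Normal] :
    Cfsg.pCore p N = ⊥ ∧ Cfsg.pPrimeCore p N = ⊥ := by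
  haveI : (Cfsg.pCore p N).Characteristic :=
    Subgroup.characteristic_iff_map_eq.mpr fun e => Cfsg.Lib.PLocal.map_pCore_equiv e
  haveI : (Cfsg.pPrimeCore p N).Characteristic :=
    Subgroup.characteristic_iff_map_eq.mpr fun e => Cfsg.Lib.PLocal.map_pPrimeCore_equiv e
  constructor
  · rw [← Subgroup.map_eq_bot_iff_of_injective _ N.subtype_injective, eq_bot_iff, ← hOp]
    exact Cfsg.Lib.Transfer.le_pCore inferInstance ((Cfsg.Lib.Transfer.pCore_isPGroup (G := N) p).map _)
  · rw [← Subgroup.map_eq_bot_iff_of_injective _ N.subtype_injective, eq_bot_iff, ← hOp']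
    refine Cfsg.Lib.Transfer.le_pPrimeCore inferInstance ?_
    rw [Subgroup.card_map_of_injective N.subtype_injective]
    exact Cfsg.Lib.Transfer.coprime_card_pPrimeCore (G := N) p

/-- A nontrivial group with trivial `p'`-core has order divisible by `p`. -/
theorem dvd_card_of_core {M : Type u} [Group M] [Finite M] (p : ℕ) [Fact p.Prime]
    (hOp' : Cfsg.pPrimeCore p M = ⊥) (hM : Nat.card M ≠ 1) : p ∣ Nat.card M := by
  by_contra h
  have h1 : (⊤ : Subgroup M) ≤ Cfsg.pPrimeCore p M := Cfsg.Lib.Transfer.le_pPrimeCore inferInstance (by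
    rw [Subgroup.card_top]; exact ((Fact.out : p.Prime).coprime_iff_not_dvd.mpr h).symm)
  rw [hOp', top_le_iff] at h1
  apply hM
  rw [← Subgroup.card_top (G := M), ← h1, Subgroup.card_bot]

/-- A minimal subgroup with a property below a given one. -/
theorem exists_min_below {H : Type u} [Group H] [Finite H] (q : Subgroup H → Prop) (K : Subgroup H) (hK : q K) :
    ∃ N, q N ∧ N ≤ K ∧ ∀ K', q K' → K' ≤ N → K' = N := by
  haveI : Nonempty {L : Subgroup H // q L ∧ L ≤ K} := ⟨⟨K, hK, le_rfl⟩⟩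
  obtain ⟨L, hL⟩ := Finite.exists_min fun L : {L : Subgroup H // q L ∧ L ≤ K} => Nat.card L.1
  exact ⟨L.1, L.2.1, L.2.2, fun K' hq hle => Subgroup.eq_of_le_of_card_ge hle (hL ⟨K', hq, hle.trans L.2.2⟩)⟩

/-- Two commuting subgroups cannot both have order divisible by `p`. -/
theorem no_commuting {H : Type u} [Group H] [Finite H] (p : ℕ) [Fact p.Prime] (P : Sylow p H)
    (hTI : ∀ (R : Sylow p H) (g : H), ∀ x ∈ (R : Subgroup H), x ≠ 1 → g * x * g⁻¹ ∈ (R : Subgroup H) →
      g ∈ Subgroup.normalizer ((R : Subgroup H) : Set H))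
    (M1 M2 : Subgroup H) (h1 : p ∣ Nat.card M1) (h2 : p ∣ Nat.card M2) (hO : Cfsg.pCore p M2 = ⊥)
    (hc : ∀ a ∈ M1, ∀ b ∈ M2, a * b = b * a) : False := by
  obtain ⟨x, hx⟩ := exists_prime_orderOf_dvd_card' p h1
  obtain ⟨y, hy⟩ := exists_prime_orderOf_dvd_card' p h2
  have hxp : IsPGroup p (Subgroup.zpowers (x : H)) := IsPGroup.of_card (n := 1) (by
    rw [Nat.card_zpowers, Subgroup.orderOf_coe, hx, pow_one])
  obtain ⟨R, hR⟩ := hxp.exists_le_sylow
  have hxR : (x : H) ∈ (R : Subgroup H) := hR (Subgroup.mem_zpowers _)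
  have hx1 : (x : H) ≠ 1 := by
    intro h
    have h' := congrArg orderOf h
    rw [Subgroup.orderOf_coe, hx, orderOf_one] at h'
    exact (Fact.out : p.Prime).ne_one h'
  have hM2 : M2 ≤ Subgroup.normalizer ((R : Subgroup H) : Set H) := fun b hb => hTI R b x hxR hx1 (by
    rw [← hc x x.2 b hb, mul_inv_cancel_right]; exact hxR)
  have hyR : (y : H) ∈ (R : Subgroup H) := by
    have hyp : IsPGroup p (Subgroup.zpowers (y : H)) := IsPGroup.of_card (n := 1) (by
      rw [Nat.card_zpowers, Subgroup.orderOf_coe, hy, pow_one])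
    have hle : (R : Subgroup H) ⊔ Subgroup.zpowers (y : H) = (R : Subgroup H) :=
      R.is_maximal' (R.isPGroup'.to_sup_of_normal_left' hyp (Subgroup.zpowers_le.mpr (hM2 y.2))) le_sup_left
    exact hle ▸ Subgroup.mem_sup_right (Subgroup.mem_zpowers _)
  have hn : ((R : Subgroup H).subgroupOf M2).Normal := ⟨fun a ha b =>
    (Subgroup.mem_normalizer_iff.mp (hM2 b.2) (a : H)).mp ha⟩
  have hle : (R : Subgroup H).subgroupOf M2 ≤ ⊥ := hO ▸ Cfsg.Lib.Transfer.le_pCore hn
    ((R.isPGroup').comap_of_injective M2.subtype M2.subtype_injective)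
  have hy1 := Subgroup.mem_bot.mp (hle (show y ∈ (R : Subgroup H).subgroupOf M2 from hyR))
  rw [hy1, orderOf_one] at hy
  exact (Fact.out : p.Prime).ne_one hy.symm


/-- Let H be a finite group with no nontrivial normal p-subgroup and no nontrivial normal subgroup of order prime to p, whose Sylow p-subgroup P is nontrivial and a trivial-intersection set (P meets its conjugates by elements outside N_H(P) trivially). Then H has a unique minimal normal subgroup N; N is non-abelian simple with trivial centralizer in H (so H embeds in Aut(N)), and a Sylow p-subgroup of N is again a nontrivial trivial-intersection set in N. -/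
theorem result {H : Type*} [Group H] [Finite H] (p : ℕ) [Fact p.Prime] (hOp : Cfsg.pCore p H = ⊥) (hOp' : Cfsg.pPrimeCore p H = ⊥) (P : Sylow p H) (hP1 : (P : Subgroup H) ≠ ⊥)
    (hTI : ∀ g : H, g ∉ Subgroup.normalizer ((P : Subgroup H) : Set H) → (P : Subgroup H) ⊓ (MulAut.conj g • (P : Subgroup H)) = ⊥) :
    ∃ N : Subgroup H, N.Normal ∧ N ≠ ⊥ ∧ (∀ K : Subgroup H, K.Normal → K ≠ ⊥ → N ≤ K) ∧
      IsSimpleGroup N ∧ ¬ IsMulCommutative N ∧ Subgroup.centralizer (N : Set H) = ⊥ ∧
      ∀ Q : Sylow p N, (Q : Subgroup N) ≠ ⊥ ∧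
        ∀ n : N, n ∉ Subgroup.normalizer ((Q : Subgroup N) : Set N) → (Q : Subgroup N) ⊓ (MulAut.conj n • (Q : Subgroup N)) = ⊥ := by
  classical
  have hTI' : ∀ (R : Sylow p H) (g : H), ∀ x ∈ (R : Subgroup H), x ≠ 1 → g * x * g⁻¹ ∈ (R : Subgroup H) →
      g ∈ Subgroup.normalizer ((R : Subgroup H) : Set H) := by
    intro R g x hxR hx1 hgx
    obtain ⟨a, ha⟩ := MulAction.exists_smul_eq H P R
    have hR : ∀ z, z ∈ (R : Subgroup H) ↔ a⁻¹ * z * a ∈ (P : Subgroup H) := by
      intro z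
      rw [← ha, Sylow.coe_subgroup_smul, Subgroup.mem_pointwise_smul_iff_inv_smul_mem, MulAut.smul_def,
        MulAut.conj_inv_apply]
    have hg : a⁻¹ * g * a ∈ Subgroup.normalizer ((P : Subgroup H) : Set H) := by
      by_contra hcon
      have h := hTI _ hcon
      have hx' : a⁻¹ * (g * x * g⁻¹) * a ∈ (P : Subgroup H) ⊓ (MulAut.conj (a⁻¹ * g * a) • (P : Subgroup H)) := by
        refine ⟨(hR _).mp hgx, ⟨a⁻¹ * x * a, (hR _).mp hxR, ?_⟩⟩
        simp [mul_assoc]
      rw [h, Subgroup.mem_bot] at hx'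
      exact hx1 (by
        calc x = (g⁻¹ * a) * (a⁻¹ * (g * x * g⁻¹) * a) * (g⁻¹ * a)⁻¹ := by group
          _ = 1 := by rw [hx']; group)
    rw [Subgroup.mem_normalizer_iff] at hg ⊢
    intro z
    rw [hR, hR, hg (a⁻¹ * z * a)]
    simp [mul_assoc]
  haveI := Fintype.ofFinite H
  obtain ⟨N, ⟨hNn, hNne⟩, hNmin⟩ : ∃ N : Subgroup H, (N.Normal ∧ N ≠ ⊥) ∧
      ∀ K : Subgroup H, K.Normal ∧ K ≠ ⊥ → K ≤ N → K = N := by
    have htop : (⊤ : Subgroup H).Normal ∧ (⊤ : Subgroup H) ≠ ⊥ :=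
      ⟨inferInstance, fun h => hP1 (le_bot_iff.mp (h ▸ le_top))⟩
    obtain ⟨N, hN, -, hmin⟩ := exists_min_below (fun K : Subgroup H => K.Normal ∧ K ≠ ⊥) ⊤ htop
    exact ⟨N, hN, hmin⟩
  haveI := hNn
  have hcard1 : ∀ (K : Subgroup H), K ≠ ⊥ → Nat.card K ≠ 1 := fun K hK h => hK (Subgroup.card_eq_one.mp h)
  obtain ⟨hNO, hNO'⟩ := cores_normal p hOp hOp' N
  have hpN : p ∣ Nat.card N := dvd_card_of_core p hNO' (hcard1 N hNne)
  have key : ∀ K : Subgroup H, K.Normal → K ≠ ⊥ → (∀ a ∈ K, ∀ b ∈ N, a * b = b * a) → False :=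
    fun K hK hKne hc => no_commuting p P hTI' K N (dvd_card_of_core p (cores_normal p hOp hOp' K).2 (hcard1 K hKne))
      hpN hNO hc
  have huniq : ∀ K : Subgroup H, K.Normal → K ≠ ⊥ → N ≤ K := by
    intro K hK hKne
    haveI := hK
    by_contra hle
    have hinf : K ⊓ N = ⊥ := by
      by_contra hne
      exact hle (hNmin _ ⟨inferInstance, hne⟩ inf_le_right ▸ inf_le_left)
    refine key K hK hKne fun a ha b hb => ?_
    exact Subgroup.commute_of_normal_of_disjoint K N hK hNn (disjoint_iff.mpr hinf) a b ha hb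
  have hcent : Subgroup.centralizer (N : Set H) = ⊥ := by
    by_contra hne
    exact key _ inferInstance hne fun a ha b hb => (Subgroup.mem_centralizer_iff.mp ha b hb).symm
  have hnab : ¬ IsMulCommutative N := by
    intro hab
    exact key N hNn hNne fun a ha b hb => congrArg Subtype.val (mul_comm' (⟨a, ha⟩ : N) ⟨b, hb⟩)
  refine ⟨N, hNn, hNne, huniq, ?_, hnab, hcent, fun Q => ⟨?_, ?_⟩⟩
  · haveI : Nontrivial N := (Subgroup.nontrivial_iff_ne_bot N).mpr hNne
    refine ⟨fun M hM => ?_⟩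
    by_contra hcon
    rw [not_or] at hcon
    obtain ⟨M0, ⟨hM0n, hM0ne⟩, hM0M, hM0min⟩ := exists_min_below (fun K : Subgroup N => K.Normal ∧ K ≠ ⊥) M ⟨hM, hcon.1⟩
    haveI := hM0n
    obtain ⟨hO1, hO2⟩ := cores_normal p hNO hNO' M0
    have hp0 : p ∣ Nat.card M0 := dvd_card_of_core p hO2 fun h => hM0ne (Subgroup.card_eq_one.mp h)
    -- every conjugate of `M0` equals it
    have hconj : ∀ g : H, M0.map ((MulAut.conjNormal g : MulAut N) : N ≃* N).toMonoidHom = M0 := by
      intro g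
      set M1 := M0.map ((MulAut.conjNormal g : MulAut N) : N ≃* N).toMonoidHom with hM1
      haveI hM1n : M1.Normal := hM0n.map _ (MulAut.conjNormal g : MulAut N).surjective
      have hM1ne : M1 ≠ ⊥ := fun h => hM0ne
        ((Subgroup.map_eq_bot_iff_of_injective _ (MulAut.conjNormal g : MulAut N).injective).mp h)
      by_cases hinf : M1 ⊓ M0 = ⊥
      · exfalso
        have hcore := cores_normal p hNO hNO' M1
        have hp1 : p ∣ Nat.card M1 := dvd_card_of_core p hcore.2 fun h => hM1ne (Subgroup.card_eq_one.mp h)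
        have e0 : M0 ≃* ↥(M0.map N.subtype) := M0.equivMapOfInjective _ N.subtype_injective
        refine no_commuting p P hTI' (M1.map N.subtype) (M0.map N.subtype) ?_ ?_ ?_ ?_
        · rwa [Subgroup.card_map_of_injective N.subtype_injective]
        · rwa [Subgroup.card_map_of_injective N.subtype_injective]
        · rw [← Cfsg.Lib.PLocal.map_pCore_equiv e0, hO1, Subgroup.map_bot]
        · rintro _ ⟨a, ha, rfl⟩ _ ⟨b, hb, rfl⟩
          rw [← map_mul, ← map_mul]
          exact congrArg N.subtype (Subgroup.commute_of_normal_of_disjoint M1 M0 hM1n hM0n (disjoint_iff.mpr hinf) a b ha hb)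
      · have h := hM0min _ ⟨inferInstance, hinf⟩ inf_le_right
        have hle : M0 ≤ M1 := h ▸ inf_le_left
        exact (Subgroup.eq_of_le_of_card_ge hle (by
          exact le_of_eq (Subgroup.card_map_of_injective (MulAut.conjNormal g : MulAut N).injective))).symm
    have hMn : (M0.map N.subtype).Normal := ⟨fun x hx g => by
      obtain ⟨m, hm, rfl⟩ := hx
      exact ⟨MulAut.conjNormal g m, (hconj g) ▸ Subgroup.mem_map_of_mem _ hm, by simp [MulAut.conjNormal_apply]⟩⟩
    have hne : M0.map N.subtype ≠ ⊥ := fun h =>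
      hM0ne ((Subgroup.map_eq_bot_iff_of_injective _ N.subtype_injective).mp h)
    have h := huniq _ hMn hne
    refine hcon.2 (top_le_iff.mp fun x _ => hM0M ?_)
    obtain ⟨m, hm, hmx⟩ := h x.2
    rwa [← Subtype.ext hmx]
  · intro hQ
    have h := Q.dvd_card_of_dvd_card hpN
    rw [hQ, Subgroup.card_bot] at h
    exact (Fact.out : p.Prime).not_dvd_one h
  · intro n hn
    by_contra hne
    obtain ⟨x, hx, hx1⟩ := (Subgroup.ne_bot_iff_exists_ne_one.mp hne |>.elim fun x h =>
      (⟨x.1, x.2, fun e => h (Subtype.ext e)⟩ : ∃ x : N, x ∈ (Q : Subgroup N) ⊓ (MulAut.conj n • (Q : Subgroup N)) ∧ x ≠ 1))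
    obtain ⟨hxQ, y, hy, hyx⟩ := hx
    obtain ⟨R, hR⟩ := (Q.isPGroup'.map N.subtype).exists_le_sylow
    have hQR : (R : Subgroup H).subgroupOf N = (Q : Subgroup N) :=
      Q.is_maximal' (R.isPGroup'.comap_of_injective N.subtype N.subtype_injective)
        (fun a ha => hR ⟨a, ha, rfl⟩)
    have hy1 : (y : H) ≠ 1 := fun h => hx1 (by
      rw [← hyx, show y = 1 from Subtype.ext h]; simp)
    have hmem : (n : H) ∈ Subgroup.normalizer ((R : Subgroup H) : Set H) := by
      refine hTI' R n (y : H) (hR ⟨y, hy, rfl⟩) hy1 ?_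
      have : (x : H) = (n : H) * y * (n : H)⁻¹ := by rw [← hyx]; rfl
      rw [← this]
      exact hR ⟨x, hxQ, rfl⟩
    apply hn
    rw [← hQR, Subgroup.mem_normalizer_iff]
    intro z
    exact Subgroup.mem_normalizer_iff.mp hmem (z : H)

end Cfsg.Agent.S4620
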