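import Cfsg.Statements.S4623
import Mathlib

set_option autoImplicit false
open Cfsg

namespace Cfsg.Agent.S4623

open Equiv
open scoped Pointwise

variable {p : ℕ}

/-- Generated by elements killed by `p`. -/
def PGen (p : ℕ) {G : Type*} [Group G] (H : Subgroup G) : Prop :=
  Subgroup.closure {x | x ∈ H ∧ x ^ p = 1} = H

theorem pGen_map {G K : Type*} [Group G] [Group K] (f : G →* K) {H : Subgroup G} (h : PGen p H) : PGen p (H.map f) := by
  refine le_antisymm ((Subgroup.closure_le _).mpr fun x hx => hx.1) ?_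
  conv_lhs => rw [← h, MonoidHom.map_closure]
  refine Subgroup.closure_mono ?_
  rintro _ ⟨x, ⟨hx, hxp⟩, rfl⟩
  exact ⟨Subgroup.mem_map_of_mem f hx, by rw [← map_pow, hxp, map_one]⟩

theorem pow_mem_commutator {G : Type*} [Group G] (H : Subgroup G) (h : PGen p H) (x : H) : x ^ p ∈ commutator H := by
  have hx : (x : G) ∈ Subgroup.closure {y | y ∈ H ∧ y ^ p = 1} := h.symm ▸ x.2
  suffices key : ∀ y (hy : y ∈ Subgroup.closure {y | y ∈ H ∧ y ^ p = 1}),
      ∃ hyH : y ∈ H, (Abelianization.of (⟨y, hyH⟩ : H)) ^ p = 1 by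
    obtain ⟨_, h1⟩ := key x hx
    rw [← Abelianization.ker_of, MonoidHom.mem_ker, map_pow]
    exact h1
  intro y hy
  induction hy using Subgroup.closure_induction with
  | mem z hz => exact ⟨hz.1, by rw [← map_pow, show (⟨z, hz.1⟩ : H) ^ p = 1 from Subtype.ext hz.2, map_one]⟩
  | one => exact ⟨H.one_mem, by rw [show (⟨1, H.one_mem⟩ : H) = 1 from rfl, map_one, one_pow]⟩
  | mul a b _ _ ha hb =>
    obtain ⟨ha, ha'⟩ := ha
    obtain ⟨hb, hb'⟩ := hb
    exact ⟨H.mul_mem ha hb, by rw [show (⟨a * b, H.mul_mem ha hb⟩ : H) = ⟨a, ha⟩ * ⟨b, hb⟩ from rfl, map_mul, mul_pow, ha', hb', one_mul]⟩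
  | inv a _ ha =>
    obtain ⟨ha, ha'⟩ := ha
    exact ⟨H.inv_mem ha, by rw [show (⟨a⁻¹, H.inv_mem ha⟩ : H) = ⟨a, ha⟩⁻¹ from rfl, map_inv, inv_pow, ha', inv_one]⟩

/-- A Sylow subgroup of the symmetric group generated in this way, also inside the alternating group. -/
def Good (p : ℕ) (α : Type) [Fintype α] [DecidableEq α] : Prop :=
  ∃ Q : Subgroup (Perm α), Nat.card Q = p ^ ((Fintype.card α).factorial.factorization p) ∧ PGen p Q ∧
    PGen p (Q ⊓ alternatingGroup α)

theorem good_congr {α β : Type} [Fintype α] [DecidableEq α] [Fintype β] [DecidableEq β] (e : α ≃ β)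
    (h : Good p α) : Good p β := by
  obtain ⟨Q, hQ, hg, hga⟩ := h
  set f : Perm α →* Perm β := e.permCongrHom.toMonoidHom with hf
  have hinj : Function.Injective f := e.permCongrHom.injective
  refine ⟨Q.map f, ?_, pGen_map f hg, ?_⟩
  · rw [Subgroup.card_map_of_injective hinj, hQ, Fintype.card_congr e]
  · have : Q.map f ⊓ alternatingGroup β = (Q ⊓ alternatingGroup α).map f := by
      ext y
      simp only [Subgroup.mem_inf, Subgroup.mem_map, Perm.mem_alternatingGroup]
      constructor
      · rintro ⟨⟨x, hx, rfl⟩, hs⟩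
        exact ⟨x, ⟨hx, by rw [← hs]; exact (Perm.sign_permCongr e x).symm⟩, rfl⟩
      · rintro ⟨x, ⟨hx, hs⟩, rfl⟩
        exact ⟨⟨x, hx, rfl⟩, (Perm.sign_permCongr e x).trans hs⟩
    rw [this]
    exact pGen_map f hga

/-- One step of the wreath construction. -/
theorem good_step (hp : p.Prime) (m r : ℕ) (hr : r < p) (h : Good p (Fin m)) : Good p (Fin (p * m + r)) := by
  haveI : NeZero p := ⟨hp.ne_zero⟩
  haveI : Fact p.Prime := ⟨hp⟩
  obtain ⟨Q, hQ, hg, -⟩ := h
  let Z := Fin m × ZMod p
  let lift : Perm (Fin m) →* Perm (Z ⊕ Fin r) :=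
    { toFun := fun π => Equiv.sumCongr (Equiv.prodCongrLeft fun _ : ZMod p => π) (Equiv.refl _)
      map_one' := by ext x; rcases x with x | x <;> rfl
      map_mul' := fun a b => by ext x; rcases x with x | x <;> rfl }
  let T : (Fin m → ZMod p) → Perm (Z ⊕ Fin r) := fun f =>
    Equiv.sumCongr (Equiv.prodCongrRight fun i => Equiv.addLeft (f i)) (Equiv.refl _)
  have hlift : ∀ π i x, lift π (Sum.inl (i, x)) = Sum.inl (π i, x) := fun _ _ _ => rfl
  have hT : ∀ f i x, T f (Sum.inl (i, x)) = Sum.inl (i, f i + x) := fun _ _ _ => rfl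
  have hliftr : ∀ π y, lift π (Sum.inr y) = Sum.inr y := fun _ _ => rfl
  have hTr : ∀ f y, T f (Sum.inr y) = Sum.inr y := fun _ _ => rfl
  have hTadd : ∀ f f', T (f + f') = T f * T f' := fun f f' => by
    ext x; rcases x with ⟨i, x⟩ | y
    · rw [Perm.mul_apply, hT, hT, hT, Pi.add_apply, add_assoc]
    · rw [Perm.mul_apply, hTr, hTr, hTr]
  have hT0 : T 0 = 1 := by
    ext x; rcases x with ⟨i, x⟩ | y
    · rw [hT, Pi.zero_apply, zero_add]; rfl
    · rw [hTr]; rfl
  have hcomm : ∀ π f, T f * lift π = lift π * T (fun i => f (π i)) := fun π f => by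
    ext x; rcases x with ⟨i, x⟩ | y
    · rw [Perm.mul_apply, Perm.mul_apply, hlift, hT, hT, hlift]
    · rw [Perm.mul_apply, Perm.mul_apply, hliftr, hTr, hTr, hliftr]
  let Φ : Q × (Fin m → ZMod p) → Perm (Z ⊕ Fin r) := fun z => lift z.1 * T z.2
  let W : Subgroup (Perm (Z ⊕ Fin r)) :=
    { carrier := Set.range Φ
      one_mem' := ⟨(1, 0), by simp only [Φ, OneMemClass.coe_one, map_one, hT0, one_mul]⟩
      mul_mem' := by
        rintro _ _ ⟨⟨a, f⟩, rfl⟩ ⟨⟨b, g⟩, rfl⟩
        refine ⟨(a * b, (fun i => f ((b : Perm (Fin m)) i)) + g), ?_⟩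
        simp only [Φ, Subgroup.coe_mul, map_mul, hTadd]
        rw [mul_assoc (lift (a : Perm (Fin m))), ← mul_assoc (lift (b : Perm (Fin m))), ← hcomm, mul_assoc, mul_assoc]
      inv_mem' := by
        rintro _ ⟨⟨a, f⟩, rfl⟩
        refine ⟨(a⁻¹, fun i => -f ((a⁻¹ : Q).1 i)), ?_⟩
        have hTinv : T (fun i => -f i) = (T f)⁻¹ := eq_inv_of_mul_eq_one_left (by
          rw [← hTadd, show (fun i => -f i) + f = 0 from funext fun i => neg_add_cancel _, hT0])
        simp only [Φ, mul_inv_rev, InvMemClass.coe_inv, map_inv]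
        rw [← map_inv, ← hcomm (a : Perm (Fin m))⁻¹ (fun i => -f i), hTinv, map_inv] }
  have hinj : Function.Injective Φ := by
    rintro ⟨a, f⟩ ⟨b, g⟩ h
    have h1 : ∀ i, (a : Perm (Fin m)) i = (b : Perm (Fin m)) i ∧ f i = g i := fun i => by
      have := congrArg (fun σ : Perm (Z ⊕ Fin r) => σ (Sum.inl (i, 0))) h
      simp only [Φ, Perm.mul_apply, hT, hlift, Sum.inl.injEq, Prod.mk.injEq, add_zero] at this
      exact this
    exact Prod.ext (Subtype.ext (Equiv.ext fun i => (h1 i).1)) (funext fun i => (h1 i).2)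
  have hTp : ∀ f, T f ^ p = 1 := by
    intro f
    have hk : ∀ k : ℕ, T f ^ k = T (k • f) := by
      intro k
      induction k with
      | zero => rw [pow_zero, zero_nsmul, hT0]
      | succ k ih => rw [pow_succ, ih, ← hTadd, succ_nsmul]
    rw [hk, show p • f = 0 from funext fun i => by simp, hT0]
  have hTW : ∀ f, T f ∈ W := fun f => ⟨(1, f), by simp only [Φ, OneMemClass.coe_one, map_one, one_mul]⟩
  have hsignlift : ∀ π, π ∈ Q → Perm.sign (lift π) = 1 := by
    intro π hπ
    have h1 : Perm.sign (lift π) = Perm.sign π ^ p := by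
      show Perm.sign (Equiv.sumCongr _ _) = _
      rw [Perm.sign_sumCongr, Perm.sign_prodCongrLeft, Perm.sign_refl, mul_one, Finset.prod_const, Finset.card_univ, ZMod.card]
    rw [h1]
    rcases hp.eq_two_or_odd' with rfl | hodd
    · exact Int.units_sq _
    · have h2 := orderOf_dvd_natCard (⟨π, hπ⟩ : Q)
      rw [Subgroup.orderOf_mk, hQ] at h2
      have h3 : Perm.sign π ^ (p ^ ((Fintype.card (Fin m)).factorial.factorization p)) = 1 := by
        rw [← map_pow, orderOf_dvd_iff_pow_eq_one.mp h2, map_one]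
      have h4 : Perm.sign π = 1 := by
        rcases Int.units_eq_one_or (Perm.sign π) with h | h
        · exact h
        · rw [h, (hodd.pow).neg_one_pow] at h3; exact absurd h3 (by decide)
      rw [h4, one_pow]
  have hliftgen : ∀ π ∈ Q, ∀ H : Subgroup (Perm (Z ⊕ Fin r)), W ⊓ alternatingGroup _ ≤ H →
      lift π ∈ Subgroup.closure {x | x ∈ H ∧ x ^ p = 1} := by
    intro π hπ H hH
    rw [← hg] at hπ
    induction hπ using Subgroup.closure_induction with
    | mem z hz =>
      refine Subgroup.subset_closure ⟨hH ⟨⟨(⟨z, hz.1⟩, 0), by simp only [Φ, hT0, mul_one]⟩, ?_⟩, by rw [← map_pow, hz.2, map_one]⟩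
      exact Perm.mem_alternatingGroup.mpr (hsignlift z hz.1)
    | one => rw [map_one]; exact Subgroup.one_mem _
    | mul a b _ _ ha hb => rw [map_mul]; exact Subgroup.mul_mem _ ha hb
    | inv a _ ha => rw [map_inv]; exact Subgroup.inv_mem _ ha
  refine good_congr (α := Z ⊕ Fin r) (Fintype.equivFinOfCardEq (by simp [Z, mul_comm])) ⟨W, ?_, ?_, ?_⟩
  · have hc : Nat.card W = Nat.card Q * p ^ m := by
      have : Nat.card (Set.range Φ) = Nat.card (Q × (Fin m → ZMod p)) :=
        Nat.card_range_of_injective hinj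
      rw [Nat.card_prod, Nat.card_fun, Nat.card_zmod, Nat.card_fin] at this
      exact this
    rw [hc, hQ, ← pow_add]
    congr 1
    simp only [Fintype.card_fin, Fintype.card_sum, Fintype.card_prod, ZMod.card, Z]
    rw [mul_comm m p, Nat.factorization_def _ hp, Nat.factorization_def _ hp, padicValNat_factorial_mul_add _ hr,
      padicValNat_factorial_mul]
  · refine le_antisymm ((Subgroup.closure_le _).mpr fun x hx => hx.1) ?_
    rintro _ ⟨⟨a, f⟩, rfl⟩
    exact Subgroup.mul_mem _ (hliftgen a a.2 W inf_le_left) (Subgroup.subset_closure ⟨hTW f, hTp f⟩)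
  · refine le_antisymm ((Subgroup.closure_le _).mpr fun x hx => hx.1) ?_
    rintro _ ⟨⟨⟨a, f⟩, rfl⟩, hs⟩
    have hs' : Perm.sign (T f) = 1 := by
      have := Perm.mem_alternatingGroup.mp hs
      rwa [map_mul, hsignlift a a.2, one_mul] at this
    exact Subgroup.mul_mem _ (hliftgen a a.2 _ le_rfl)
      (Subgroup.subset_closure ⟨⟨hTW f, Perm.mem_alternatingGroup.mpr hs'⟩, hTp f⟩)

theorem good_fin (hp : p.Prime) : ∀ n, Good p (Fin n) := by
  intro n
  induction n using Nat.strong_induction_on with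
  | _ n ih =>
    by_cases hn : n < p
    · refine ⟨⊥, ?_, ?_, ?_⟩
      · rw [Subgroup.card_bot, Fintype.card_fin, Nat.factorization_eq_zero_of_not_dvd, pow_zero]
        rw [hp.dvd_factorial]
        omega
      · exact le_antisymm ((Subgroup.closure_le _).mpr fun x hx => hx.1) bot_le
      · rw [bot_inf_eq]; exact le_antisymm ((Subgroup.closure_le _).mpr fun x hx => hx.1) bot_le
    · rw [← Nat.div_add_mod n p]
      exact good_step hp _ _ (Nat.mod_lt _ hp.pos) (ih _ (Nat.div_lt_self (by have := hp.pos; omega) hp.one_lt))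

/-- For every prime p and every n, a Sylow p-subgroup P of the symmetric group on n letters has P/P' elementary abelian (the p-th power of every element of P lies in the derived subgroup of P), and the same holds for a Sylow p-subgroup of the alternating group on n letters. -/
theorem result (p : ℕ) [Fact p.Prime] (n : ℕ) (P : Sylow p (Equiv.Perm (Fin n))) (Q : Sylow p (alternatingGroup (Fin n))) :
    (∀ x : (P : Subgroup (Equiv.Perm (Fin n))), x ^ p ∈ commutator (P : Subgroup (Equiv.Perm (Fin n)))) ∧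
    (∀ x : (Q : Subgroup (alternatingGroup (Fin n))), x ^ p ∈ commutator (Q : Subgroup (alternatingGroup (Fin n)))) := by
  have hp : p.Prime := Fact.out
  obtain ⟨Q₀, hQ₀, hg, hga⟩ := good_fin hp n
  let P₀ : Sylow p (Perm (Fin n)) := Sylow.ofCard Q₀ (by
    rw [hQ₀, Nat.card_eq_fintype_card (α := Perm (Fin n)), Fintype.card_perm])
  refine ⟨?_, ?_⟩
  · obtain ⟨g, hgP⟩ := MulAction.exists_smul_eq (Perm (Fin n)) P₀ P
    refine pow_mem_commutator _ ?_
    rw [← hgP, Sylow.coe_subgroup_smul]
    exact pGen_map _ hg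
  · obtain ⟨P₁, hP₁⟩ := (Q.2.map (alternatingGroup (Fin n)).subtype).exists_le_sylow
    obtain ⟨g, hgP⟩ := MulAction.exists_smul_eq (Perm (Fin n)) P₀ P₁
    have heq : (Q : Subgroup (alternatingGroup (Fin n))).map (alternatingGroup (Fin n)).subtype = (P₁ : Subgroup (Perm (Fin n))) ⊓ (alternatingGroup (Fin n)) := by
      refine le_antisymm (le_inf hP₁ ?_) fun x hx => ⟨⟨x, hx.2⟩, ?_, rfl⟩
      · rintro _ ⟨x, -, rfl⟩; exact x.2
      · have hle : (Q : Subgroup (alternatingGroup (Fin n))) ≤ (P₁ : Subgroup (Perm (Fin n))).subgroupOf (alternatingGroup (Fin n)) := fun y hy =>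
          Subgroup.mem_subgroupOf.mpr (hP₁ ⟨y, hy, rfl⟩)
        have hpg : IsPGroup p ((P₁ : Subgroup (Perm (Fin n))).subgroupOf (alternatingGroup (Fin n))) :=
          P₁.2.comap_of_injective _ (alternatingGroup (Fin n)).subtype_injective
        rw [← Q.3 hpg hle]
        exact Subgroup.mem_subgroupOf.mpr hx.1
    intro x
    have hgen : PGen p ((Q : Subgroup (alternatingGroup (Fin n))).map (alternatingGroup (Fin n)).subtype) := by
      rw [heq, ← hgP, Sylow.coe_subgroup_smul]
      have hmap : (Q₀ ⊓ (alternatingGroup (Fin n))).map (MulAut.conj g).toMonoidHom = MulAut.conj g • Q₀ ⊓ (alternatingGroup (Fin n)) := by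
        rw [Subgroup.map_inf _ _ _ (MulAut.conj g).injective]
        congr 1
        ext y
        rw [Subgroup.mem_map]
        constructor
        · rintro ⟨z, hz, rfl⟩
          exact (inferInstance : (alternatingGroup (Fin n)).Normal).conj_mem z hz g
        · intro hy
          exact ⟨g⁻¹ * y * g, by simpa using (inferInstance : (alternatingGroup (Fin n)).Normal).conj_mem y hy g⁻¹, by simp [mul_assoc]⟩
      show PGen p (MulAut.conj g • Q₀ ⊓ (alternatingGroup (Fin n)))
      rw [← hmap]
      exact pGen_map _ hga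
    have h := pow_mem_commutator _ hgen ⟨_, Subgroup.mem_map_of_mem (alternatingGroup (Fin n)).subtype x.2⟩
    let e := (Q : Subgroup (alternatingGroup (Fin n))).equivMapOfInjective (alternatingGroup (Fin n)).subtype (alternatingGroup (Fin n)).subtype_injective
    have h2 : e (x ^ p) ∈ commutator ((Q : Subgroup (alternatingGroup (Fin n))).map (alternatingGroup (Fin n)).subtype) := by rw [map_pow]; exact h
    have h3 : (commutator (Q : Subgroup (alternatingGroup (Fin n)))).map e.toMonoidHom = commutator ((Q : Subgroup (alternatingGroup (Fin n))).map (alternatingGroup (Fin n)).subtype) := by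
      rw [commutator_def, commutator_def, Subgroup.map_commutator, Subgroup.map_top_of_surjective _ e.surjective]
    rw [← h3] at h2
    obtain ⟨y, hy, hye⟩ := h2
    exact e.injective hye ▸ hy

end Cfsg.Agent.S4623
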