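import Cfsg.Statements.S4713
import Cfsg.Agent.Lib.Solv.PComplement
import Cfsg.Agent.Lib.Solv.ConjCover
import Cfsg.Agent.Lib.Blocks.Glauberman
import Cfsg.Agent.Lib.Characters.FixedChars
import Cfsg.Agent.Lib.Characters.Gallagher
import Cfsg.Agent.Lib.Characters.Degree

set_option autoImplicit false
open Cfsg Cfsg.Lib.Characters Cfsg.Lib.Blocks
open scoped Classical

namespace Cfsg.Agent.S4713

universe u

/-- A finite group all of whose irreducible characters are linear is commutative. -/
theorem isMulCommutative_of_linear {G : Type u} [Group G] [Fintype G]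
    (h : ∀ χ : IrrCharacter G, (χ : G → ℂ) 1 = 1) : IsMulCommutative G := by
  have h1 : Nat.card (IrrCharacter G) = Nat.card G := by
    have := sum_sq_degree (G := G)
    simp only [h, one_pow, Finset.sum_const, nsmul_eq_mul, mul_one] at this
    rw [Nat.card_eq_fintype_card]
    exact_mod_cast this
  rw [card_irr_eq_card_conjClasses] at h1
  haveI : Fintype (ConjClasses G) := Fintype.ofFinite _
  have hinj : Function.Injective (ConjClasses.mk (α := G)) :=
    ((Fintype.bijective_iff_surjective_and_card _).mpr ⟨ConjClasses.mk_surjective,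
      by rw [← Nat.card_eq_fintype_card, ← Nat.card_eq_fintype_card, h1]⟩).1
  refine ⟨⟨fun a b => ?_⟩⟩
  have h2 : ConjClasses.mk (a * b * a⁻¹) = ConjClasses.mk b :=
    ConjClasses.mk_eq_mk_iff_isConj.mpr (isConj_iff.mpr ⟨a⁻¹, by group⟩)
  calc a * b = (a * b * a⁻¹) * a := by group
    _ = b * a := by rw [hinj h2]

theorem normal_of_degrees (p : ℕ) [Fact p.Prime] : ∀ (n : ℕ) (G : Type u) [Group G] [Finite G],
    Nat.card G ≤ n → Cfsg.IsPSolvable p G →
    (∀ χ : Cfsg.IrrCharacter G, ¬ p ∣ Cfsg.charDegree (χ : G → ℂ)) →
    ∀ P : Sylow p G, (P : Subgroup G).Normal := by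
  intro n
  induction n with
  | zero => intro G _ _ hn; exact absurd hn (by have := Nat.card_pos (α := G); omega)
  | succ n ih =>
    intro G _ _ hn hsolv hdeg P
    haveI := Fintype.ofFinite G
    by_cases hG : Nat.card G = 1
    · haveI := (Nat.card_eq_one_iff_unique.mp hG).1
      exact ⟨fun x hx g => (Subsingleton.elim x (g * x * g⁻¹)) ▸ hx⟩
    obtain ⟨N, hNn, hNne, hN⟩ := Cfsg.Lib.Solv.exists_normal_p_or_coprime hsolv hG
    haveI := hNn
    set π := QuotientGroup.mk' N with hπ
    have hsurj : Function.Surjective π := QuotientGroup.mk'_surjective N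
    have hcard : Nat.card (G ⧸ N) ≤ n := by
      have h1 : Nat.card N * Nat.card (G ⧸ N) = Nat.card G := by
        rw [← Subgroup.index_eq_card, Subgroup.card_mul_index]
      have h2 : 2 ≤ Nat.card N := by
        by_contra h2
        exact hNne (Subgroup.card_eq_one.mp (by have := Nat.card_pos (α := N); omega))
      have := Nat.card_pos (α := G ⧸ N)
      nlinarith
    have hdegq : ∀ χ : Cfsg.IrrCharacter (G ⧸ N), ¬ p ∣ Cfsg.charDegree (χ : G ⧸ N → ℂ) := by
      intro χ
      have h := hdeg ⟨_, isIrrCharacter_comp_surjective χ.2 π hsurj⟩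
      rwa [charDegree_eq (χ := fun x => (χ : G ⧸ N → ℂ) (π x)) (d := Cfsg.charDegree (χ : G ⧸ N → ℂ))
        (by rw [map_one, coe_charDegree])] at h
    have hPq : ((P.mapSurjective hsurj : Sylow p (G ⧸ N)) : Subgroup (G ⧸ N)).Normal :=
      ih (G ⧸ N) hcard (Cfsg.Lib.PLocal.IsPSolvable.of_surjective π hsurj hsolv) hdegq _
    have hM : ((P : Subgroup G) ⊔ N).Normal := by
      have h1 := hPq.comap π
      rwa [Sylow.coe_mapSurjective, Subgroup.comap_map_eq, QuotientGroup.ker_mk'] at h1
    rcases hN with hNp | hNcop
    · have hPN : (P : Subgroup G) ⊔ N = P :=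
        P.is_maximal' (P.isPGroup'.to_sup_of_normal_right hNp) le_sup_left
      rwa [hPN] at hM
    · have hNp' : ¬ p ∣ Nat.card N := (Fact.out : p.Prime).coprime_iff_not_dvd.mp hNcop.symm
      haveI := hM
      -- every character of `N` is fixed by `P`
      have hfix : ∀ θ : IrrCharacter N, ∀ x ∈ (P : Subgroup G), conjFn N (θ : N → ℂ) x = (θ : N → ℂ) := by
        intro θ
        haveI := Fintype.ofFinite N
        obtain ⟨χ, hχ, hne⟩ := exists_constituent (isCharacter_indFun N θ.2.isCharacter)
          (by rw [indFun_one_apply]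
              exact mul_ne_zero (Nat.cast_ne_zero.mpr Subgroup.index_ne_zero_of_finite) θ.2.one_ne_zero)
        have hne' : classInner (fun x : N => χ x) (θ : N → ℂ) ≠ 0 := by
          rw [classInner_indFun N _ hχ.isClassFunction] at hne
          intro h; apply hne
          rw [← conj_classInner, h, map_zero]
        set T := inertia N (θ : N → ℂ)
        haveI := Fintype.ofFinite T
        obtain ⟨ψ, hψ, hind, -⟩ := exists_indFun_eq θ.2 T rfl (le_inertia θ.2.isClassFunction) hχ hne'
        have hidx : ¬ p ∣ T.index := by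
          intro hd
          obtain ⟨e, he⟩ := exists_degree hψ.isCharacter
          apply hdeg ⟨χ, hχ⟩
          rw [charDegree_eq (χ := χ) (d := T.index * e) (by
            rw [← hind, indFun_one_apply, he]; push_cast; ring)]
          exact dvd_mul_of_dvd_left hd e
        have hMT : (P : Subgroup G) ⊔ N ≤ T := by
          rw [← Subgroup.relIndex_eq_one]
          have h1 : T.relIndex ((P : Subgroup G) ⊔ N) ∣ T.index := by
            set M := (P : Subgroup G) ⊔ N
            have e1 : T.relIndex M * M.relIndex (M ⊔ T) = M.relIndex T * T.relIndex (M ⊔ T) := by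
              rw [← Subgroup.inf_relIndex_left M T, ← Subgroup.inf_relIndex_right M T,
                Subgroup.relIndex_mul_relIndex _ _ _ inf_le_left le_sup_left,
                Subgroup.relIndex_mul_relIndex _ _ _ inf_le_right le_sup_right]
            rw [Subgroup.relIndex_sup_left, mul_comm] at e1
            have h0 : M.relIndex T ≠ 0 := Subgroup.index_ne_zero_of_finite
            rw [mul_left_cancel₀ h0 e1]
            exact ⟨_, (Subgroup.relIndex_mul_index le_sup_right).symm⟩
          have h2 : T.relIndex ((P : Subgroup G) ⊔ N) ∣ N.relIndex ((P : Subgroup G) ⊔ N) :=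
            Subgroup.relIndex_dvd_of_le_left _ (le_inertia θ.2.isClassFunction)
          rw [Subgroup.relIndex_sup_right] at h2
          obtain ⟨k, hk⟩ := IsPGroup.iff_card.mp P.isPGroup'
          have h3 : T.relIndex ((P : Subgroup G) ⊔ N) ∣ p ^ k :=
            h2.trans (hk ▸ Subgroup.relIndex_dvd_card _ _)
          obtain ⟨j, -, hj⟩ := (Nat.dvd_prime_pow Fact.out).mp h3
          rcases j with - | j
          · simpa using hj
          · exact absurd ((hj ▸ dvd_pow_self p (Nat.succ_ne_zero j)).trans h1) hidx
        exact fun x hx => hMT (Subgroup.mem_sup_left hx)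
      -- so `P` fixes every class of `N`
      have hnorm : ∀ s ∈ (P : Subgroup G), ∀ g ∈ N, s * g * s⁻¹ ∈ N := fun s _ g hg => hNn.conj_mem g hg s
      set φ := conjAct N (P : Subgroup G) hnorm
      have hcls : ∀ (s : (P : Subgroup G)) (g : N), IsConj g (φ s g) := by
        intro s g
        haveI : Finite (ConjClasses N) := inferInstance
        have h1 := card_fixed_conjFn N (s : G)
        rw [Nat.card_congr (Equiv.subtypeUnivEquiv fun θ : IrrCharacter N => hfix θ s s.2),
          card_irr_eq_card_conjClasses] at h1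
        have h2 : ConjClasses.map ((MulAut.conjNormal (s : G) : MulAut N) : N ≃* N).toMonoidHom
            (ConjClasses.mk g) = ConjClasses.mk g := by
          by_contra hne
          exact absurd h1.symm (Nat.ne_of_lt (Finite.card_subtype_lt (x := ConjClasses.mk g) hne))
        have h3 : φ s g = MulAut.conjNormal (s : G) g := Subtype.ext (by simp [φ])
        rw [h3]
        exact (ConjClasses.mk_eq_mk_iff_isConj.mp h2).symm
      let C : Subgroup N := (Subgroup.centralizer ((P : Subgroup G) : Set G)).subgroupOf N
      have hfixC : ∀ g : N, (∀ s, φ s g = g) ↔ g ∈ Set.range C.subtype := by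
        intro g
        rw [Subgroup.coe_subtype, Subtype.range_coe]
        constructor
        · intro h s hs
          have h1 := congrArg Subtype.val (h ⟨s, hs⟩)
          simp only [φ, coe_conjAct] at h1
          exact mul_inv_eq_iff_eq_mul.mp h1
        · intro h s
          refine Subtype.ext ?_
          simp only [φ, coe_conjAct]
          have h2 : (s : G) * (g : G) = (g : G) * s := h s s.2
          rw [h2, mul_inv_cancel_right]
      obtain ⟨M, hMod⟩ := exists_isPModular p
      haveI := hMod.2.1.isPrime
      have hCtop : C = ⊤ := by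
        refine Cfsg.Lib.Solv.eq_top_of_forall_conj_mem fun g => ?_
        obtain ⟨c, hc⟩ := exists_fixed_conj φ C.subtype P.isPGroup' C.subtype_injective hfixC hMod hNp' g
          (fun s => hcls s g)
        obtain ⟨x, hx⟩ := isConj_iff.mp hc
        exact ⟨x⁻¹, by rw [inv_inv, hx]; exact c.2⟩
      have hNC : N ≤ Subgroup.centralizer ((P : Subgroup G) : Set G) := fun x hx => by
        have : (⟨x, hx⟩ : N) ∈ C := hCtop ▸ Subgroup.mem_top _
        exact this
      have hNnorm : N ≤ Subgroup.normalizer ((P : Subgroup G) : Set G) :=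
        hNC.trans (Subgroup.centralizer_le_normalizer _)
      have hle : (P : Subgroup G) ⊔ N ≤ Subgroup.normalizer ((P : Subgroup G) : Set G) :=
        sup_le Subgroup.le_normalizer hNnorm
      refine Subgroup.normalizer_eq_top_iff.mp ?_
      rw [← top_le_iff, ← Sylow.normalizer_sup_eq_top' P (N := (P : Subgroup G) ⊔ N) le_sup_left]
      exact sup_le le_rfl hle


/-- Let p be a prime and G a finite p-solvable group. Then G has a normal abelian Sylow p-subgroup if and only if the degree of every irreducible character of G is prime to p. -/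
theorem result {G : Type*} [Group G] [Finite G] (p : ℕ) [Fact p.Prime] (hsolv : Cfsg.IsPSolvable p G) (P : Sylow p G) : ((P : Subgroup G).Normal ∧ IsMulCommutative P) ↔ ∀ χ : Cfsg.IrrCharacter G, ¬ p ∣ Cfsg.charDegree (χ : G → ℂ) := by
  classical
  haveI := Fintype.ofFinite G
  constructor
  · rintro ⟨hPn, hab⟩ χ hd
    haveI := hPn
    haveI := hab
    exact P.not_dvd_index (hd.trans (degree_dvd_index_of_abelian χ.2 (P : Subgroup G) (coe_charDegree χ).symm))
  · intro hdeg
    have hPn := normal_of_degrees p _ G le_rfl hsolv hdeg P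
    haveI := hPn
    refine ⟨hPn, ?_⟩
    haveI := Fintype.ofFinite (P : Subgroup G)
    refine isMulCommutative_of_linear fun θ => ?_
    obtain ⟨χ, hχ, hne⟩ := exists_constituent (isCharacter_indFun (P : Subgroup G) θ.2.isCharacter)
      (by rw [indFun_one_apply]
          exact mul_ne_zero (Nat.cast_ne_zero.mpr Subgroup.index_ne_zero_of_finite) θ.2.one_ne_zero)
    have hne' : classInner (fun x : (P : Subgroup G) => χ x) (θ : ↥(P : Subgroup G) → ℂ) ≠ 0 := by
      rw [classInner_indFun (P : Subgroup G) _ hχ.isClassFunction] at hne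
      intro h; apply hne
      rw [← conj_classInner, h, map_zero]
    have h1 := (degree_dvd_of_normal θ.2 hχ hne' (coe_charDegree ⟨χ, hχ⟩).symm (coe_charDegree θ).symm).1
    obtain ⟨k, hk⟩ := IsPGroup.iff_card.mp P.isPGroup'
    obtain ⟨j, -, hj⟩ := (Nat.dvd_prime_pow Fact.out).mp (hk ▸ charDegree_dvd_card θ)
    rw [← coe_charDegree θ, hj]
    rcases j with - | j
    · simp
    · exact absurd ((hj ▸ dvd_pow_self p (Nat.succ_ne_zero j)).trans h1) (hdeg ⟨χ, hχ⟩)

end Cfsg.Agent.S4713
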