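import Cfsg.Statements.S4742
import Mathlib
import Cfsg.Agent.Lib.Blocks.InvolutionPairs

set_option autoImplicit false
open Cfsg

namespace Cfsg.Agent.S4742

/-- Let p ≠ q be primes dividing the order of the finite group G, and suppose the centralizer of every non-identity p-element of G has order prime to q. Then either G has an irreducible character of p-defect zero, or for every non-identity q-element z of G there are conjugates g, h of z such that g h⁻¹ is a non-identity p-element. -/
theorem result {G : Type*} [Group G] [Finite G] (p q : ℕ) [Fact p.Prime] [Fact q.Prime] (hppq : p ≠ q) (hpG : p ∣ Nat.card G) (hqG : q ∣ Nat.card G) (hC : ∀ g : G, g ≠ 1 → (∃ k : ℕ, orderOf g = p ^ k) → ¬ q ∣ Nat.card ↥(Subgroup.centralizer ({g} : Set G))) : (∃ χ : Cfsg.IrrCharacter G, (Cfsg.charDegree (χ : G → ℂ)).factorization p = (Nat.card G).factorization p) ∨ ∀ z : G, z ≠ 1 → (∃ k : ℕ, orderOf z = q ^ k) → ∃ g h : G, IsConj z g ∧ IsConj z h ∧ g * h⁻¹ ≠ 1 ∧ ∃ k : ℕ, orderOf (g * h⁻¹) = p ^ k := by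
  classical
  by_cases hno : ∃ χ : Cfsg.IrrCharacter G, (Cfsg.charDegree (χ : G → ℂ)).factorization p = (Nat.card G).factorization p
  · exact Or.inl hno
  right
  intro z hz1 hzq
  refine Cfsg.Lib.Blocks.exists_pair hno z fun hd => ?_
  obtain ⟨y, hy⟩ := exists_prime_orderOf_dvd_card' p hd
  have hyG : orderOf (y : G) = p := (Subgroup.orderOf_coe y).trans hy
  apply hC (y : G) (fun e => (Fact.out : p.Prime).ne_one (by rw [← hyG, e, orderOf_one])) ⟨1, by rw [hyG, pow_one]⟩
  obtain ⟨k, hk⟩ := hzq
  have hk0 : k ≠ 0 := fun e => hz1 (orderOf_eq_one_iff.1 (by rw [hk, e, pow_zero]))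
  refine (dvd_pow_self q hk0).trans ?_
  rw [← hk, ← Subgroup.orderOf_mk z (Subgroup.mem_centralizer_singleton_iff.2 (Subgroup.mem_centralizer_singleton_iff.1 y.2).symm)]
  exact orderOf_dvd_natCard _

end Cfsg.Agent.S4742
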