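import Cfsg.Statements.S4743
import Cfsg.Agent.S4742
-- import your own Cfsg.Agent.* helpers here

set_option autoImplicit false
open Cfsg

namespace Cfsg.Agent.S4743

/-- Let p ≠ q be primes dividing the order of the finite group G, suppose the centralizer of every non-identity p-element has order prime to q, and suppose G is p-solvable or q-solvable. Then G has an irreducible character of p-defect zero or an irreducible character of q-defect zero. -/
theorem result {G : Type*} [Group G] [Finite G] (p q : ℕ) [Fact p.Prime] [Fact q.Prime] (hppq : p ≠ q) (hpG : p ∣ Nat.card G) (hqG : q ∣ Nat.card G) (hC : ∀ g : G, g ≠ 1 → (∃ k : ℕ, orderOf g = p ^ k) → ¬ q ∣ Nat.card ↥(Subgroup.centralizer ({g} : Set G))) (hsolv : Cfsg.IsPSolvable p G ∨ Cfsg.IsPSolvable q G) : (∃ χ : Cfsg.IrrCharacter G, (Cfsg.charDegree (χ : G → ℂ)).factorization p = (Nat.card G).factorization p) ∨ (∃ χ : Cfsg.IrrCharacter G, (Cfsg.charDegree (χ : G → ℂ)).factorization q = (Nat.card G).factorization q) := by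
  classical
  by_contra hno
  rw [not_or] at hno
  obtain ⟨hnp, hnq⟩ := hno
  have hC' : ∀ g : G, g ≠ 1 → (∃ k : ℕ, orderOf g = q ^ k) → ¬ p ∣ Nat.card ↥(Subgroup.centralizer ({g} : Set G)) := by
    intro z hz1 ⟨k, hk⟩ hd
    obtain ⟨y, hy⟩ := exists_prime_orderOf_dvd_card' p hd
    have hyG : orderOf (y : G) = p := (Subgroup.orderOf_coe y).trans hy
    apply hC (y : G) (fun e => (Fact.out : p.Prime).ne_one (by rw [← hyG, e, orderOf_one])) ⟨1, by rw [hyG, pow_one]⟩
    refine (dvd_pow_self q (show k ≠ 0 from fun e => hz1 (orderOf_eq_one_iff.1 (by rw [hk, e, pow_zero])))).trans ?_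
    rw [← hk, ← Subgroup.orderOf_mk z (Subgroup.mem_centralizer_singleton_iff.2 (Subgroup.mem_centralizer_singleton_iff.1 y.2).symm)]
    exact orderOf_dvd_natCard _
  have key : ∀ (r s : ℕ) [Fact r.Prime] [Fact s.Prime], r ≠ s → r ∣ Nat.card G → s ∣ Nat.card G →
      (∀ g : G, g ≠ 1 → (∃ k : ℕ, orderOf g = r ^ k) → ¬ s ∣ Nat.card ↥(Subgroup.centralizer ({g} : Set G))) →
      (¬ ∃ χ : Cfsg.IrrCharacter G, (Cfsg.charDegree (χ : G → ℂ)).factorization r = (Nat.card G).factorization r) →
      ∀ L : Subgroup G, L.Normal → s ∣ Nat.card L → r ∣ Nat.card L := by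
    intro r s hr hs hrs hrG hsG hC0 hn0 L hL hsL
    obtain ⟨z, hz⟩ := exists_prime_orderOf_dvd_card' s hsL
    have hzG : orderOf (z : G) = s := (Subgroup.orderOf_coe z).trans hz
    obtain ⟨g, h, hg, hh, hne, k, hk⟩ := (S4742.result r s hrs hrG hsG hC0).resolve_left hn0 (z : G)
      (fun e => hs.out.ne_one (by rw [← hzG, e, orderOf_one])) ⟨1, by rw [hzG, pow_one]⟩
    obtain ⟨u, rfl⟩ := isConj_iff.1 hg
    obtain ⟨v, rfl⟩ := isConj_iff.1 hh
    have hm := L.mul_mem (hL.conj_mem _ z.2 u) (L.inv_mem (hL.conj_mem _ z.2 v))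
    refine (dvd_pow_self r (show k ≠ 0 from fun e => hne (orderOf_eq_one_iff.1 (by rw [hk, e, pow_zero])))).trans ?_
    rw [← hk, ← Subgroup.orderOf_mk _ hm]
    exact orderOf_dvd_natCard _
  have chain : ∀ (r s : ℕ), r.Prime → s.Prime → r ≠ s → r ∣ Nat.card G → Cfsg.IsPSolvable r G →
      (∀ L : Subgroup G, L.Normal → (r ∣ Nat.card L ↔ s ∣ Nat.card L)) → False := by
    intro r s hr hs hrs hrG ⟨n, H, h0, hlast, hmono, hnorm, hstep⟩ hiff
    have hall : ∀ i : Fin (n + 1), ¬ r ∣ Nat.card (H i) := by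
      intro i
      induction i using Fin.induction with
      | zero => rw [h0, Subgroup.card_bot]; exact hr.not_dvd_one
      | succ i ih =>
        intro hd
        have hd' := (hiff _ (hnorm _)).1 hd
        have ih' : ¬ s ∣ Nat.card (H i.castSucc) := fun h => ih ((hiff _ (hnorm _)).2 h)
        have hc : Nat.card (H i.castSucc) * (H i.castSucc).relIndex (H i.succ) = Nat.card (H i.succ) := by
          rw [← Subgroup.relIndex_bot_left, ← Subgroup.relIndex_bot_left (H i.succ)]
          exact Subgroup.relIndex_mul_relIndex _ _ _ bot_le (hmono (Fin.castSucc_le_succ i))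
        rw [← hc] at hd hd'
        have e1 := (hr.dvd_mul.1 hd).resolve_left ih
        have e2 := (hs.dvd_mul.1 hd').resolve_left ih'
        rcases hstep i with ⟨m, hm⟩ | hcp
        · rw [hm] at e2
          exact hrs ((Nat.prime_dvd_prime_iff_eq hs hr).1 (hs.dvd_of_dvd_pow e2)).symm
        · exact hr.coprime_iff_not_dvd.1 hcp.symm e1
    exact hall (Fin.last n) (by rw [hlast, Subgroup.card_top]; exact hrG)
  have h1 := key p q hppq hpG hqG hC hnp
  have h2 := key q p hppq.symm hqG hpG hC' hnq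
  rcases hsolv with h | h
  · exact chain p q Fact.out Fact.out hppq hpG h fun L hL => ⟨h2 L hL, h1 L hL⟩
  · exact chain q p Fact.out Fact.out hppq.symm hqG h fun L hL => ⟨h1 L hL, h2 L hL⟩

end Cfsg.Agent.S4743
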