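import Cfsg.Statements.S4744
import Mathlib
import Cfsg.Agent.Lib.Blocks.InvolutionPairs

set_option autoImplicit false
open Cfsg

namespace Cfsg.Agent.S4744

/-- Let p be an odd prime and G a finite group of even order divisible by p in which the centralizer of every non-identity p-element has odd order. Then either G has an irreducible character of p-defect zero, or the normalizer of every Sylow p-subgroup P of G has even order and P is abelian. -/
theorem result {G : Type*} [Group G] [Finite G] (p : ℕ) [Fact p.Prime] (hp2 : p ≠ 2) (hpG : p ∣ Nat.card G) (h2G : 2 ∣ Nat.card G) (hC : ∀ g : G, g ≠ 1 → (∃ k : ℕ, orderOf g = p ^ k) → Odd (Nat.card ↥(Subgroup.centralizer ({g} : Set G)))) : (∃ χ : Cfsg.IrrCharacter G, (Cfsg.charDegree (χ : G → ℂ)).factorization p = (Nat.card G).factorization p) ∨ ∀ P : Sylow p G, Even (Nat.card ↥(Subgroup.normalizer ((P : Subgroup G) : Set G))) ∧ IsMulCommutative ↥(P : Subgroup G) := by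
  classical
  open Cfsg.Lib.Blocks in
  · by_cases hno : ∃ χ : Cfsg.IrrCharacter G, (Cfsg.charDegree (χ : G → ℂ)).factorization p = (Nat.card G).factorization p
    · exact Or.inl hno
    right
    intro P
    obtain ⟨t, ht⟩ := exists_prime_orderOf_dvd_card' (G := G) 2 h2G
    obtain ⟨P₀, hP₀⟩ := exists_inverted_sylow_of_involution hC hno ht
    obtain ⟨g, rfl⟩ := MulAction.exists_smul_eq G P₀ P
    set a := g * t * g⁻¹
    have ha : ∀ x ∈ ((g • P₀ : Sylow p G) : Subgroup G), a * x * a⁻¹ = x⁻¹ := by
      intro x hx
      simp only [Sylow.coe_subgroup_smul, Subgroup.mem_pointwise_smul_iff_inv_smul_mem, MulAut.smul_def,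
        MulAut.inv_apply, MulAut.conj_symm_apply] at hx
      have h1 := hP₀ _ hx
      calc a * x * a⁻¹ = g * (t * (g⁻¹ * x * g) * t⁻¹) * g⁻¹ := by simp only [a]; group
        _ = x⁻¹ := by rw [h1]; group
    refine ⟨?_, ⟨⟨fun u v => Subtype.ext (comm_of_inverted ha _ u.2 _ v.2)⟩⟩⟩
    have hmem : a ∈ Subgroup.normalizer (((g • P₀ : Sylow p G) : Subgroup G) : Set G) := by
      rw [Subgroup.mem_normalizer_iff]
      intro x
      constructor
      · intro hx; rw [ha x hx]; exact inv_mem hx
      · intro hx
        have h := ha _ hx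
        have : a * (a * x * a⁻¹) * a⁻¹ = x := by
          have htt : t * t = 1 := by rw [← pow_two, ← ht, pow_orderOf_eq_one]
          rw [show a * (a * x * a⁻¹) * a⁻¹ = (g * (t * t) * g⁻¹) * x * (g * (t * t) * g⁻¹)⁻¹ by simp only [a]; group, htt]
          group
        rw [this] at h
        rw [h]; exact inv_mem hx
    rw [even_iff_two_dvd, ← show orderOf a = 2 from (orderOf_injective (MulAut.conj g).toMonoidHom (MulAut.conj g).injective t).trans ht,
      ← Subgroup.orderOf_mk a hmem]
    exact orderOf_dvd_natCard _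

end Cfsg.Agent.S4744
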