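import Cfsg.Statements.S4746
import Mathlib
import Cfsg.Agent.Lib.Blocks.InvolutionPairs
import Cfsg.Agent.Lib.Characters.FSValues

set_option autoImplicit false
open Cfsg

namespace Cfsg.Agent.S4746

/-- Let p be an odd prime and G a finite group of even order divisible by p in which the centralizer of every non-identity p-element has odd order. Then G has an irreducible character of p-defect zero or an irreducible character of even degree. -/
theorem result {G : Type*} [Group G] [Finite G] (p : ℕ) [Fact p.Prime] (hp2 : p ≠ 2) (hpG : p ∣ Nat.card G) (h2G : 2 ∣ Nat.card G) (hC : ∀ g : G, g ≠ 1 → (∃ k : ℕ, orderOf g = p ^ k) → Odd (Nat.card ↥(Subgroup.centralizer ({g} : Set G)))) : (∃ χ : Cfsg.IrrCharacter G, (Cfsg.charDegree (χ : G → ℂ)).factorization p = (Nat.card G).factorization p) ∨ ∃ χ : Cfsg.IrrCharacter G, Even (Cfsg.charDegree (χ : G → ℂ)) := by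
  classical
  haveI := Fintype.ofFinite G
  by_cases hno : ∃ χ : Cfsg.IrrCharacter G, (Cfsg.charDegree (χ : G → ℂ)).factorization p = (Nat.card G).factorization p
  · exact Or.inl hno
  right
  by_contra hcon
  open Cfsg.Lib.Blocks Cfsg.Lib.Characters in
  · obtain ⟨t, ht⟩ := exists_prime_orderOf_dvd_card' (G := G) 2 h2G
    obtain ⟨P, hP⟩ := exists_inverted_sylow_of_involution hC hno ht
    obtain ⟨y, hy⟩ := exists_prime_orderOf_dvd_card' (G := (P : Subgroup G)) p (by
      rw [P.card_eq_multiplicity]
      exact dvd_pow_self p ((Fact.out : p.Prime).factorization_pos_of_dvd Nat.card_pos.ne' hpG).ne')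
    have hyG : orderOf (y : G) = p := (Subgroup.orderOf_coe y).trans hy
    have hy1 : (y : G) ≠ 1 := fun e => (Fact.out : p.Prime).ne_one (by rw [← hyG, e, orderOf_one])
    have hodd := hC (y : G) hy1 ⟨1, by rw [hyG, pow_one]⟩
    have hreal : IsConj (y : G) (y : G)⁻¹ := isConj_iff.2 ⟨t, hP _ y.2⟩
    haveI : Fact (Nat.Prime 2) := ⟨Nat.prime_two⟩
    obtain ⟨M, hM⟩ := exists_isPModular 2
    haveI := hM.2.1.isPrime
    have h2 : ((2 : ℕ) : ResF M) = 0 := (natCast_resF_eq_zero hM 2).2 dvd_rfl
    have hsq : (Finset.univ.filter fun x : G => x * x = (y : G)).card = 1 := by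
      set C := Subgroup.centralizer ({(y : G)} : Set G)
      have hcop : (Nat.card C).Coprime 2 := Nat.coprime_two_right.2 hodd
      have hyC : (y : G) ∈ C := Subgroup.mem_centralizer_singleton_iff.2 rfl
      rw [Finset.card_eq_one]
      set r := (powCoprime hcop).symm ⟨(y : G), hyC⟩
      have hr : (r : G) * r = (y : G) := by
        have h := (powCoprime hcop).apply_symm_apply ⟨(y : G), hyC⟩
        have h' := congrArg Subtype.val h
        rw [← pow_two]
        exact h'
      refine ⟨r, Finset.ext fun x => ?_⟩
      simp only [Finset.mem_filter, Finset.mem_univ, true_and, Finset.mem_singleton]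
      refine ⟨fun hx => ?_, fun hx => hx ▸ hr⟩
      have hxC : x ∈ C := Subgroup.mem_centralizer_singleton_iff.2 (by rw [← hx, mul_assoc])
      have e : powCoprime hcop ⟨x, hxC⟩ = ⟨(y : G), hyC⟩ := Subtype.ext (by simp [powCoprime, pow_two, hx])
      exact (congrArg Subtype.val ((powCoprime hcop).eq_symm_apply.2 e) : _)
    set v := fun χ : Cfsg.IrrCharacter G => red M ((χ : G → ℂ) (y : G))
    set real := fun χ : Cfsg.IrrCharacter G => ∀ g : G, (starRingEnd ℂ) ((χ : G → ℂ) g) = (χ : G → ℂ) g
    set c := fun χ : Cfsg.IrrCharacter G => (Nat.card G : ℂ)⁻¹ * ∑ x, (starRingEnd ℂ) ((χ : G → ℂ) (x * x))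
    have hc : ∀ χ, c χ ∈ locRing M ∧ red M (c χ) = if real χ then 1 else 0 := by
      intro χ
      have e : c χ = (starRingEnd ℂ) ((Nat.card G : ℂ)⁻¹ * ∑ x, (χ : G → ℂ) (x * x)) := by
        simp only [c, map_mul, map_inv₀, map_natCast, map_sum]
      by_cases hr : real χ
      · rw [if_pos hr]
        rcases fs_sign_of_real χ.2 hr with h | h <;> rw [e, h]
        · rw [map_one]; exact ⟨one_mem _, red_one⟩
        · rw [map_neg, map_one]
          refine ⟨neg_mem (one_mem _), ?_⟩
          rw [red_neg (one_mem _), red_one]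
          have : (1 : ResF M) + 1 = 0 := by rw [← h2]; norm_num
          linear_combination -this
      · rw [if_neg hr, e, fs_zero_of_nonreal χ.2 (not_forall.1 hr), map_zero]
        exact ⟨zero_mem _, by simp⟩
    have h1 : (1 : ResF M) = ∑ χ : Cfsg.IrrCharacter G, if real χ then v χ else 0 := by
      have h := card_sqrt_eq_sum (y : G)
      rw [hsq] at h
      have h' := congrArg (red M) h
      rw [red_natCast, Nat.cast_one, red_sum _ fun χ _ => mul_mem (hc χ).1 (char_mem_locRing M χ _)] at h'
      rw [h']
      refine Finset.sum_congr rfl fun χ _ => ?_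
      rw [red_mul (hc χ).1 (char_mem_locRing M χ _), (hc χ).2]
      split_ifs <;> simp [v]
    have h0 : (0 : ResF M) = ∑ χ : Cfsg.IrrCharacter G, v χ := by
      have h := sum_degree_mul_irr (G := G) (y : G)
      rw [if_neg hy1] at h
      have h' := congrArg (red M) h
      rw [red_sum _ fun χ _ => mul_mem (char_mem_locRing M χ _) (char_mem_locRing M χ _), red_zero] at h'
      rw [← h']
      refine Finset.sum_congr rfl fun χ _ => ?_
      rw [red_mul (char_mem_locRing M χ _) (char_mem_locRing M χ _), ← coe_charDegree, red_natCast]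
      have hodd' : Odd (Cfsg.charDegree (χ : G → ℂ)) := Nat.not_even_iff_odd.1 fun he => hcon ⟨χ, he⟩
      obtain ⟨m, hm⟩ := hodd'
      rw [hm]
      push_cast at h2 ⊢
      rw [h2]; simp [v]
    have hpair : ∑ χ : Cfsg.IrrCharacter G, (if real χ then 0 else v χ) = 0 := by
      let inv : Cfsg.IrrCharacter G → Cfsg.IrrCharacter G := fun χ => ⟨_, isIrrCharacter_conjVal χ.2⟩
      refine Finset.sum_involution (fun χ _ => inv χ) (fun χ _ => ?_) (fun χ _ hne he => ?_) (fun χ _ => Finset.mem_univ _) (fun χ _ => ?_)
      · have hri : real (inv χ) ↔ real χ :=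
          forall_congr' fun g => ⟨fun h => by simpa [inv] using h.symm, fun h => by simp [inv, h]⟩
        have hv : v (inv χ) = v χ := by
          simp only [v, inv]
          rw [← char_inv_eq_conj χ.2.isCharacter]
          exact congrArg (red M) (isClassFunction_iff_isConj.mp χ.2.isClassFunction _ _ hreal).symm
        simp only [hri, hv]
        split_ifs
        · simp
        · rw [← two_mul]; push_cast at h2; rw [h2, zero_mul]
      · apply hne
        rw [if_pos]
        exact fun g => congrFun (congrArg Subtype.val he) g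
      · exact Subtype.ext (funext fun g => by simp [inv])
    have : ∑ χ : Cfsg.IrrCharacter G, v χ = 1 := by
      calc ∑ χ : Cfsg.IrrCharacter G, v χ = (∑ χ : Cfsg.IrrCharacter G, if real χ then v χ else 0) + ∑ χ : Cfsg.IrrCharacter G, (if real χ then 0 else v χ) := by
            rw [← Finset.sum_add_distrib]
            exact Finset.sum_congr rfl fun χ _ => by split_ifs <;> simp
        _ = 1 := by rw [hpair, add_zero, ← h1]
    exact zero_ne_one (h0.trans this)

end Cfsg.Agent.S4746
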