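import Cfsg.Statements.S4750
import Cfsg.Agent.Lib.Characters.Basic
import Cfsg.Agent.Lib.Characters.SmallFixed
-- import your own Cfsg.Agent.* helpers here

set_option autoImplicit false
open scoped Pointwise
open Cfsg

namespace Cfsg.Agent.S4750

/-- Endomorphisms commuting with an overgroup of the normalizer commute with the whole group. -/
theorem commute_all {G : Type*} [Group G] [Fintype G] {p : ℕ} [Fact p.Prime] (P : Subgroup G) (hP : IsPGroup p P)
    (H : Subgroup G) (hfree : ∀ (g : G) (u : G), u ∈ P → g ∉ H → g⁻¹ * u * g ∈ H → u = 1) (hPH : P ≤ H)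
    {V : Type*} [AddCommGroup V] [Module ℂ V] [FiniteDimensional ℂ V] (ρ : Representation ℂ G V)
    (hdim : Module.finrank ℂ V ^ 2 ≤ Nat.card P) (f : Module.End ℂ V) (hf : ∀ h ∈ H, ρ h * f = f * ρ h) (g : G) :
    ρ g * f = f * ρ g := by
  let T := LinearMap.trace ℂ V
  let W := LinearMap.ker T
  have hρ : ∀ x y : G, ρ x * ρ y = ρ (x * y) := fun x y => (map_mul ρ x y).symm
  have hinv : ∀ x : G, ρ x⁻¹ * ρ x = 1 := fun x => by rw [hρ, inv_mul_cancel, map_one]
  have htr : ∀ (x : G) (a : Module.End ℂ V), T (ρ x * a * ρ x⁻¹) = T a := by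
    intro x a
    show LinearMap.trace ℂ V _ = LinearMap.trace ℂ V a
    rw [LinearMap.trace_mul_comm, ← mul_assoc, hinv, one_mul]
  let c : G →* Module.End ℂ (Module.End ℂ V) :=
    { toFun := fun x => (LinearMap.mulLeft ℂ (ρ x)).comp (LinearMap.mulRight ℂ (ρ x⁻¹))
      map_one' := by ext a v; simp
      map_mul' := fun x y => by
        ext a v
        simp only [LinearMap.comp_apply, LinearMap.mulLeft_apply, LinearMap.mulRight_apply, Module.End.mul_apply, mul_inv_rev,
          map_mul] }
  have hc : ∀ x a, c x a = ρ x * a * ρ x⁻¹ := fun x a => by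
    show ρ x * (a * ρ x⁻¹) = _
    rw [mul_assoc]
  have hcW : ∀ x, ∀ a ∈ W, c x a ∈ W := fun x a ha => by
    rw [LinearMap.mem_ker, hc, htr]
    exact ha
  let cW : Representation ℂ G W :=
    { toFun := fun x => (c x).restrict (hcW x)
      map_one' := by
        refine LinearMap.ext fun a => Subtype.ext ?_
        show c 1 (a : Module.End ℂ V) = a
        rw [map_one]
        rfl
      map_mul' := fun x y => by
        refine LinearMap.ext fun a => Subtype.ext ?_
        show c (x * y) (a : Module.End ℂ V) = c x (c y a)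
        rw [map_mul]
        rfl }
  have hW : Module.finrank ℂ W < Nat.card P := by
    rcases Nat.eq_zero_or_pos (Module.finrank ℂ V) with h | h
    · have h1 : Module.finrank ℂ W ≤ Module.finrank ℂ (Module.End ℂ V) := Submodule.finrank_le W
      rw [Module.finrank_linearMap, h] at h1
      have := Nat.card_pos (α := P)
      omega
    · have h1 : W ≠ ⊤ := by
        intro e
        have h2 : (1 : Module.End ℂ V) ∈ W := e ▸ Submodule.mem_top
        rw [LinearMap.mem_ker] at h2
        rw [show T 1 = (Module.finrank ℂ V : ℂ) from LinearMap.trace_one ℂ V] at h2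
        exact h.ne' (Nat.cast_eq_zero.mp h2)
      have h2 := Submodule.finrank_lt h1
      rw [Module.finrank_linearMap] at h2
      exact h2.trans_le ((sq _).symm.trans_le hdim)
  let f₀ : Module.End ℂ V := (Fintype.card G : ℂ)⁻¹ • ∑ x : G, c x f
  have hn : (Fintype.card G : ℂ) ≠ 0 := Nat.cast_ne_zero.mpr Fintype.card_ne_zero
  have hf₀ : ∀ x, c x f₀ = f₀ := by
    intro x
    simp only [f₀, map_smul, map_sum]
    congr 1
    rw [← Equiv.sum_comp (Equiv.mulLeft x) (fun y => c y f)]
    exact Finset.sum_congr rfl fun y _ => by rw [Equiv.coe_mulLeft, map_mul]; rfl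
  have htf : T f₀ = T f := by
    simp only [f₀, map_smul, map_sum, hc, htr, Finset.sum_const, Finset.card_univ, ← Nat.cast_smul_eq_nsmul ℂ,
      smul_eq_mul]
    rw [← mul_assoc, inv_mul_cancel₀ hn, one_mul]
  have hmem : f - f₀ ∈ W := by rw [LinearMap.mem_ker, map_sub, htf, sub_self]
  have hfix : ∀ h ∈ H, cW h ⟨f - f₀, hmem⟩ = ⟨f - f₀, hmem⟩ := by
    intro h hh
    refine Subtype.ext ?_
    show c h (f - f₀) = f - f₀
    rw [map_sub, hf₀, hc, hf h hh, mul_assoc, hρ, mul_inv_cancel, map_one, mul_one]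
  have hsum : ∑ x : G, cW x ⟨f - f₀, hmem⟩ = 0 := by
    refine Subtype.ext ?_
    rw [Submodule.coe_sum]
    show ∑ x : G, c x (f - f₀) = 0
    simp only [map_sub, hf₀, Finset.sum_sub_distrib, Finset.sum_const, Finset.card_univ, f₀,
      ← Nat.cast_smul_eq_nsmul ℂ, smul_smul, mul_inv_cancel₀ hn, one_smul, sub_self]
  have hz := Cfsg.Lib.Characters.SmallFixed.fixed_eq_fixed P hP H hfree hPH cW hW _ hfix hsum
  have he : f = f₀ := sub_eq_zero.mp (congrArg Subtype.val hz)
  have h1 := hf₀ g
  rw [← he, hc] at h1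
  calc ρ g * f = (ρ g * f * ρ g⁻¹) * ρ g := by rw [mul_assoc _ (ρ g⁻¹), hinv, mul_one]
    _ = f * ρ g := by rw [h1]

/-- Let P be a Sylow p-subgroup of the finite group G that meets each conjugate g P g⁻¹ with g outside N_G(P) trivially, χ a character of G with χ(1)² ≤ |P|, and H a subgroup of G containing N_G(P). Then the inner product of χ with itself over G equals the inner product over H of the restriction of χ to H. -/
theorem result {G : Type*} [Group G] [Fintype G] [DecidableEq G] (p : ℕ) [Fact p.Prime] (P : Sylow p G) (hTI : ∀ g : G, g ∉ Subgroup.normalizer ((P : Subgroup G) : Set G) → (P : Subgroup G) ⊓ (MulAut.conj g • (P : Subgroup G)) = ⊥) (χ : G → ℂ) (hχ : Cfsg.IsCharacter G χ) (hdeg : Cfsg.charDegree χ ^ 2 ≤ Nat.card ↥(P : Subgroup G)) (H : Subgroup G) [Fintype ↥H] (hH : Subgroup.normalizer ((P : Subgroup G) : Set G) ≤ H) : Cfsg.classInner χ χ = Cfsg.classInner (fun h : ↥H => χ h) (fun h : ↥H => χ h) := by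
  classical
  obtain ⟨n, ρ, rfl⟩ := hχ
  have hPH : (P : Subgroup G) ≤ H := Subgroup.le_normalizer.trans hH
  have hdeg' : Module.finrank ℂ (Fin n → ℂ) ^ 2 ≤ Nat.card ↥(P : Subgroup G) := by
    refine le_of_eq_of_le ?_ hdeg
    rw [Cfsg.charDegree, Representation.char_one, Complex.natCast_re, Nat.floor_natCast]
  have hfree : ∀ (g : G) (u : G), u ∈ (P : Subgroup G) → g ∉ H → g⁻¹ * u * g ∈ H → u = 1 := by
    intro g u hu hg hgu
    by_contra hu1
    have hpg : IsPGroup p (Subgroup.zpowers (⟨_, hgu⟩ : H)) := by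
      intro x
      obtain ⟨k, hk⟩ := P.isPGroup' ⟨u, hu⟩
      refine ⟨k, ?_⟩
      obtain ⟨i, hi⟩ := Subgroup.mem_zpowers_iff.mp x.2
      refine Subtype.ext ?_
      rw [Subgroup.coe_pow, ← hi, ← zpow_natCast, ← zpow_mul, mul_comm, zpow_mul, zpow_natCast, Subgroup.coe_one]
      have : (⟨_, hgu⟩ : H) ^ (p ^ k) = 1 := by
        refine Subtype.ext ?_
        rw [Subgroup.coe_pow, Subgroup.coe_one]
        show (g⁻¹ * u * g) ^ (p ^ k) = 1
        have hu' : u ^ (p ^ k) = 1 := by simpa using congrArg Subtype.val hk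
        have h3 : (g⁻¹ * u * g⁻¹⁻¹) ^ (p ^ k) = 1 := by rw [conj_pow, hu', mul_one, mul_inv_cancel]
        rwa [inv_inv] at h3
      rw [this, one_zpow]
    obtain ⟨R, hR⟩ := hpg.exists_le_sylow
    obtain ⟨h, hh⟩ := MulAction.exists_smul_eq H (P.subtype hPH) R
    have hmem : (⟨_, hgu⟩ : H) ∈ ((h • P.subtype hPH : Sylow p H) : Subgroup H) := by
      rw [hh]; exact hR (Subgroup.mem_zpowers _)
    rw [Sylow.smul_def, Sylow.pointwise_smul_def] at hmem
    rw [Subgroup.mem_pointwise_smul_iff_inv_smul_mem] at hmem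
    have hmem' : (h : G)⁻¹ * (g⁻¹ * u * g) * h ∈ (P : Subgroup G) := by
      rw [Sylow.coe_subtype, Subgroup.mem_subgroupOf] at hmem
      simpa using hmem
    refine hu1 ?_
    have hgh : g * (h : G) ∉ Subgroup.normalizer ((P : Subgroup G) : Set G) := fun hn => hg (by
      have := H.mul_mem (hH hn) (H.inv_mem h.2)
      rwa [mul_inv_cancel_right] at this)
    have h2 : u ∈ ((P : Subgroup G) ⊓ MulAut.conj (g * (h : G)) • (P : Subgroup G) : Subgroup G) := by
      refine ⟨hu, ?_⟩
      show u ∈ MulAut.conj (g * (h : G)) • (P : Subgroup G); rw [Subgroup.mem_pointwise_smul_iff_inv_smul_mem]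
      convert hmem' using 1
      simp [mul_assoc]
    rw [hTI _ hgh] at h2
    exact Subgroup.mem_bot.mp h2
  have key : ∀ f : Module.End ℂ (Fin n → ℂ), (∀ h ∈ H, ρ h * f = f * ρ h) → ∀ g, ρ g * f = f * ρ g :=
    fun f hf g => commute_all (P : Subgroup G) P.isPGroup' H hfree hPH ρ hdeg' f hf g
  rw [show (fun h : ↥H => ρ.character h) = Representation.character (ρ.comp H.subtype) from rfl,
    Cfsg.Lib.Characters.classInner_character, Cfsg.Lib.Characters.classInner_character]
  congr 1
  let Φ : Representation.IntertwiningMap ρ ρ →ₗ[ℂ] Representation.IntertwiningMap (ρ.comp H.subtype) (ρ.comp H.subtype) :=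
    { toFun := fun f => ⟨f.toLinearMap, fun h => f.isIntertwining' (h : G)⟩
      map_add' := fun f f' => rfl
      map_smul' := fun a f => rfl }
  refine LinearEquiv.finrank_eq (LinearEquiv.ofBijective Φ ⟨fun f f' h => ?_, fun f => ?_⟩)
  · exact Representation.IntertwiningMap.ext (congrArg (fun x => x.toLinearMap) h)
  · have hf := key f.toLinearMap (fun h hh => (f.isIntertwining' ⟨h, hh⟩).symm)
    exact ⟨⟨f.toLinearMap, fun g => (hf g).symm⟩, rfl⟩

end Cfsg.Agent.S4750
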