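import Cfsg.Statements.S4754
import Mathlib
import Cfsg.Agent.Lib.Characters.Integrality

set_option autoImplicit false
open Cfsg

namespace Cfsg.Agent.S4754

/-- For elements x, y of a finite group G, the conjugacy class of x y equals the set of all products of a conjugate of x with a conjugate of y if and only if χ(1) χ(a x a⁻¹ b y b⁻¹) = χ(x) χ(y) for all a, b ∈ G and every irreducible character χ. -/
theorem result {G : Type*} [Group G] [Finite G] (x y : G) : (∀ z : G, IsConj (x * y) z ↔ ∃ a b : G, z = a * x * a⁻¹ * (b * y * b⁻¹)) ↔ ∀ (a b : G) (χ : Cfsg.IrrCharacter G), (χ : G → ℂ) 1 * (χ : G → ℂ) (a * x * a⁻¹ * (b * y * b⁻¹)) = (χ : G → ℂ) x * (χ : G → ℂ) y := by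
  classical
  haveI := Fintype.ofFinite G
  have hsum : ∀ (χ : Cfsg.IrrCharacter G) (z : G),
      (χ : G → ℂ) 1 * ∑ a : G, (χ : G → ℂ) (a * x * a⁻¹ * z) =
        (Nat.card G : ℂ) * (χ : G → ℂ) x * (χ : G → ℂ) z := by
    intro χ z
    obtain ⟨n, ρ, hirr, hρ⟩ := χ.2
    let S : (Fin n → ℂ) →ₗ[ℂ] (Fin n → ℂ) := ∑ a : G, ρ (a * x * a⁻¹)
    have hcomm : ∀ g : G, S * ρ g = ρ g * S := by
      intro g
      simp only [S, Finset.sum_mul, Finset.mul_sum, ← map_mul]
      refine Fintype.sum_equiv (Equiv.mulLeft g⁻¹) _ _ fun a => ?_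
      congr 1
      simp only [Equiv.coe_mulLeft]
      group
    obtain ⟨c, hc⟩ := Cfsg.Lib.Characters.schur_scalar ρ S hcomm
    have htr : ∀ z : G, ∑ a : G, (χ : G → ℂ) (a * x * a⁻¹ * z) = c * (χ : G → ℂ) z := by
      intro z
      have h1 : LinearMap.trace ℂ _ (S * ρ z) = c * ρ.character z := by
        rw [hc, show (LinearMap.id : (Fin n → ℂ) →ₗ[ℂ] _) = 1 from rfl, smul_mul_assoc, one_mul,
          map_smul, smul_eq_mul]
        rfl
      rw [← hρ, ← h1]
      simp only [S, Finset.sum_mul, map_sum, ← map_mul]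
      rfl
    have h1 := htr 1
    have hconst : ∀ a : G, (χ : G → ℂ) (a * x * a⁻¹ * 1) = (χ : G → ℂ) x := fun a => by
      rw [mul_one]; exact χ.2.isClassFunction x a
    rw [Finset.sum_congr rfl fun a _ => hconst a, Finset.sum_const, Finset.card_univ,
      ← Nat.card_eq_fintype_card, nsmul_eq_mul] at h1
    rw [htr z, h1]
    ring
  have hconjy : ∀ (χ : Cfsg.IrrCharacter G) (b : G), (χ : G → ℂ) (b * y * b⁻¹) = (χ : G → ℂ) y :=
    fun χ b => χ.2.isClassFunction y b
  constructor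
  · intro h a b χ
    have hcls : ∀ a b : G, (χ : G → ℂ) (a * x * a⁻¹ * (b * y * b⁻¹)) = (χ : G → ℂ) (x * y) := fun a b =>
      (Cfsg.Lib.Characters.isClassFunction_iff_isConj.mp χ.2.isClassFunction _ _ ((h _).2 ⟨a, b, rfl⟩)).symm
    have h1 := hsum χ (b * y * b⁻¹)
    rw [Finset.sum_congr rfl fun a _ => hcls a b, Finset.sum_const, Finset.card_univ,
      ← Nat.card_eq_fintype_card, nsmul_eq_mul, hconjy] at h1
    rw [hcls]
    refine mul_left_cancel₀ (Nat.cast_ne_zero.2 Nat.card_pos.ne' : (Nat.card G : ℂ) ≠ 0) ?_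
    linear_combination h1
  · intro h z
    constructor
    · intro hz
      obtain ⟨c, rfl⟩ := isConj_iff.1 hz
      exact ⟨c, c, by group⟩
    · rintro ⟨a, b, rfl⟩
      rw [Cfsg.Lib.Characters.isConj_iff_forall_irr]
      intro χ
      have h1 := h 1 1 χ
      simp only [one_mul, inv_one, mul_one] at h1
      exact mul_left_cancel₀ χ.2.one_ne_zero (h1.trans (h a b χ).symm)

end Cfsg.Agent.S4754
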