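import Cfsg.Statements.S4755
import Cfsg.Agent.Lib.Blocks.Kernel
-- import your own Cfsg.Agent.* helpers here

set_option autoImplicit false
open Cfsg Cfsg.Lib.Characters Cfsg.Lib.Blocks
open scoped ComplexConjugate commutatorElement

namespace Cfsg.Agent.S4755

/-- Let x, y be non-identity elements of the finite group G such that χ(x' y') = χ(x') χ(y') for all conjugates x' of x, y' of y and every irreducible character χ. Then the conjugacy class of x y is the set of all products of a conjugate of x with a conjugate of y; every irreducible character of degree greater than 1 vanishes at x y; and the conjugacy class of x y is the coset of the commutator subgroup containing x y. -/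
theorem result {G : Type*} [Group G] [Finite G] (x y : G) (hx : x ≠ 1) (hy : y ≠ 1) (h : ∀ (a b : G) (χ : Cfsg.IrrCharacter G), (χ : G → ℂ) (a * x * a⁻¹ * (b * y * b⁻¹)) = (χ : G → ℂ) (a * x * a⁻¹) * (χ : G → ℂ) (b * y * b⁻¹)) : (∀ z : G, IsConj (x * y) z ↔ ∃ a b : G, z = a * x * a⁻¹ * (b * y * b⁻¹)) ∧ (∀ χ : Cfsg.IrrCharacter G, (χ : G → ℂ) 1 ≠ 1 → (χ : G → ℂ) (x * y) = 0) ∧ (∀ z : G, IsConj (x * y) z ↔ (x * y)⁻¹ * z ∈ commutator G) := by
  classical
  haveI := Fintype.ofFinite G
  have hcl : ∀ (χ : IrrCharacter G) (a g : G), (χ : G → ℂ) (a * g * a⁻¹) = (χ : G → ℂ) g :=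
    fun χ a g => χ.2.isClassFunction g a
  have hval : ∀ (a b : G) (χ : IrrCharacter G), (χ : G → ℂ) (a * x * a⁻¹ * (b * y * b⁻¹))
      = (χ : G → ℂ) x * (χ : G → ℂ) y := fun a b χ => by rw [h, hcl, hcl]
  have hxy : ∀ χ : IrrCharacter G, (χ : G → ℂ) (x * y) = (χ : G → ℂ) x * (χ : G → ℂ) y := fun χ => by
    simpa using hval 1 1 χ
  have hvan : ∀ χ : IrrCharacter G, (χ : G → ℂ) 1 ≠ 1 → (χ : G → ℂ) (x * y) = 0 := by
    intro χ hχ
    have h1 := sum_conj_mul χ x y
    rw [Finset.sum_congr rfl fun z _ => show (χ : G → ℂ) (x * (z * y * z⁻¹))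
        = (χ : G → ℂ) x * (χ : G → ℂ) y by simpa using hval 1 z χ, Finset.sum_const,
      Finset.card_univ, ← Nat.card_eq_fintype_card, nsmul_eq_mul, eq_div_iff χ.2.one_ne_zero] at h1
    rw [hxy]
    by_contra h0
    have h2 : (Nat.card G : ℂ) * ((χ : G → ℂ) x * (χ : G → ℂ) y) ≠ 0 :=
      mul_ne_zero (Nat.cast_ne_zero.mpr Nat.card_pos.ne') h0
    exact hχ (mul_left_cancel₀ h2 (h1.trans (mul_one _).symm))
  have hprod : ∀ a b : G, IsConj (x * y) (a * x * a⁻¹ * (b * y * b⁻¹)) := fun a b =>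
    (isConj_iff_forall_irr _ _).mpr fun χ => by rw [hval, hxy]
  refine ⟨fun z => ⟨fun hz => ?_, fun ⟨a, b, e⟩ => e ▸ hprod a b⟩, hvan, fun z => ⟨fun hz => ?_, fun hz => ?_⟩⟩
  · obtain ⟨g, rfl⟩ := isConj_iff.mp hz
    exact ⟨g, g, by group⟩
  · obtain ⟨g, rfl⟩ := isConj_iff.mp hz
    rw [show (x * y)⁻¹ * (g * (x * y) * g⁻¹) = ⁅(x * y)⁻¹, g⁆ by rw [commutatorElement_def]; group]
    exact Subgroup.commutator_mem_commutator (Subgroup.mem_top _) (Subgroup.mem_top _)
  · by_contra hn
    have h0 := column_orthogonality z (x * y)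
    rw [if_neg fun e => hn e.symm] at h0
    have hterm : ∀ χ : IrrCharacter G, (χ : G → ℂ) z * conj ((χ : G → ℂ) (x * y))
        = if (χ : G → ℂ) 1 = 1 then 1 else 0 := by
      intro χ
      split_ifs with h1
      · obtain ⟨l, hl⟩ := exists_hom_of_degree_one χ.2.isCharacter h1
        have hk : l ((x * y)⁻¹ * z) = 1 :=
          MonoidHom.mem_ker.mp (Abelianization.commutator_subset_ker l hz)
        have hlz : l z = l (x * y) := by
          rw [map_mul, map_inv, inv_mul_eq_one] at hk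
          exact hk.symm
        rw [← char_inv_eq_conj χ.2.isCharacter, hl]
        simp only [hlz, map_inv, Units.val_inv_eq_inv_val]
        exact mul_inv_cancel₀ (Units.ne_zero _)
      · rw [hvan χ h1, map_zero, mul_zero]
    rw [Finset.sum_congr rfl fun χ _ => hterm χ, Finset.sum_boole, Nat.cast_eq_zero,
      Finset.card_eq_zero] at h0
    have h3 : (⟨fun _ => (1 : ℂ), isIrrCharacter_one⟩ : IrrCharacter G) ∈
        Finset.univ.filter fun χ : IrrCharacter G => (χ : G → ℂ) 1 = 1 :=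
      Finset.mem_filter.mpr ⟨Finset.mem_univ _, rfl⟩
    rw [h0] at h3
    exact Finset.notMem_empty _ h3

end Cfsg.Agent.S4755
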