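import Cfsg.Statements.S4757
import Cfsg.Agent.Lib.Blocks.DefectZero
import Cfsg.Agent.Lib.Solv.Cores
import Cfsg.Agent.Lib.Characters.Induction
import Cfsg.Agent.Lib.Characters.Thompson

set_option autoImplicit false
set_option linter.style.haveILetI false
open Cfsg

namespace Cfsg.Agent.S4757

open Cfsg.Lib.Characters Cfsg.Lib.Blocks Finset
open scoped Classical ComplexConjugate

/-- Let u ≠ 1 be an element of the finite group G and c a complex number such that every non-principal irreducible character χ satisfies χ(1) − χ(u) = c or χ(u) = 0. Then the following are equivalent: (a) u has order 2, G is generated by u together with O(G), the largest normal subgroup of G of odd order, and the centralizer of u is {1, u}; (b) G is not perfect; (c) c = 2. -/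
theorem result {G : Type*} [Group G] [Finite G] (u : G) (hu : u ≠ 1) (c : ℂ) (hyp : ∀ χ : Cfsg.IrrCharacter G, (χ : G → ℂ) ≠ (fun _ => (1 : ℂ)) → ((χ : G → ℂ) 1 - (χ : G → ℂ) u = c ∨ (χ : G → ℂ) u = 0)) : ((orderOf u = 2 ∧ Subgroup.zpowers u ⊔ Cfsg.oddCore G = ⊤ ∧ Subgroup.centralizer ({u} : Set G) = Subgroup.zpowers u) ↔ commutator G ≠ ⊤) ∧ (commutator G ≠ ⊤ ↔ c = 2) := by
  haveI : Fintype G := Fintype.ofFinite G
  haveI : Fact (Nat.Prime 2) := ⟨Nat.prime_two⟩
  have hsum : ∑ χ : IrrCharacter G, (χ : G → ℂ) 1 * (χ : G → ℂ) u = 0 := by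
    rw [sum_degree_mul_irr, if_neg hu]
  let triv : IrrCharacter G := ⟨fun _ => 1, isIrrCharacter_one⟩
  -- (b) implies (c)
  have hbc : commutator G ≠ ⊤ → c = 2 := by
    intro hnp
    haveI : Finite (G →* ℂˣ) := Nat.finite_of_card_ne_zero (by rw [card_hom_units]; exact Subgroup.index_ne_zero_of_finite)
    haveI : Fintype (G →* ℂˣ) := Fintype.ofFinite _
    have hlin : ∀ l : G →* ℂˣ, l ≠ 1 → (l u : ℂ) = 1 - c := by
      intro l hl
      rcases hyp ⟨_, isIrrCharacter_linear l⟩ (fun h => hl (MonoidHom.ext fun g => Units.ext (by simpa using congrFun h g))) with h | h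
      · simp only [map_one, Units.val_one] at h
        linear_combination -h
      · exact absurd h (l u).ne_zero
    have hc0 : c ≠ 0 := by
      intro hc
      have hall : ∀ χ : IrrCharacter G, ∃ r : ℝ, 0 ≤ r ∧ (χ : G → ℂ) 1 * (χ : G → ℂ) u = r := by
        intro χ
        by_cases h1 : (χ : G → ℂ) = fun _ => 1
        · exact ⟨1, zero_le_one, by simp [h1]⟩
        rcases hyp χ h1 with h | h
        · refine ⟨((charDegree (χ : G → ℂ) : ℝ)) ^ 2, sq_nonneg _, ?_⟩
          rw [hc, sub_eq_zero] at h
          rw [← h, ← coe_charDegree]; push_cast; ring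
        · exact ⟨0, le_rfl, by simp [h]⟩
      choose r hr0 hr using hall
      rw [Finset.sum_congr rfl fun χ _ => hr χ, ← Complex.ofReal_sum, Complex.ofReal_eq_zero] at hsum
      have h2 := (Finset.sum_eq_zero_iff_of_nonneg fun χ _ => hr0 χ).mp hsum triv (Finset.mem_univ _)
      have h3 := hr triv
      rw [h2] at h3
      simp [triv] at h3
    have hcard : 1 < Fintype.card (G →* ℂˣ) := by
      rw [← Nat.card_eq_fintype_card, card_hom_units]
      have h1 : (commutator G).index ≠ 1 := fun h => hnp (Subgroup.index_eq_one.mp h)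
      have h2 := Subgroup.index_ne_zero_of_finite (H := commutator G)
      omega
    obtain ⟨l, hl⟩ := Fintype.exists_ne_of_one_lt_card hcard (1 : G →* ℂˣ)
    by_cases hll : l * l = 1
    · have h : (l u : ℂ) * l u = 1 := by
        rw [← Units.val_mul, ← MonoidHom.mul_apply, hll]; simp
      rw [hlin l hl] at h
      rcases mul_self_eq_one_iff.mp h with h' | h'
      · exact absurd (by linear_combination -h' : c = 0) hc0
      · linear_combination -h'
    · exfalso
      have h := hlin (l * l) hll
      rw [MonoidHom.mul_apply, Units.val_mul, hlin l hl] at h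
      have : (1 - c) * c = 0 := by linear_combination -h
      rcases mul_eq_zero.mp this with h' | h'
      · exact (l u).ne_zero (by rw [hlin l hl]; exact h')
      · exact hc0 h'
  -- (c) implies (a)
  have hca : c = 2 → orderOf u = 2 ∧ Subgroup.zpowers u ⊔ oddCore G = ⊤ ∧
      Subgroup.centralizer ({u} : Set G) = Subgroup.zpowers u := by
    intro hc
    set d : IrrCharacter G → ℤ := fun χ => (charDegree (χ : G → ℂ) : ℤ) with hd
    set S := univ.filter (fun χ : IrrCharacter G => χ ≠ triv ∧ (χ : G → ℂ) u ≠ 0) with hS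
    have hSval : ∀ χ ∈ S, (χ : G → ℂ) u = (d χ : ℂ) - 2 := by
      intro χ hχ
      obtain ⟨h1, h2⟩ := (Finset.mem_filter.mp hχ).2
      rcases hyp χ (fun h => h1 (Subtype.ext h)) with h | h
      · rw [hd]; push_cast; rw [coe_charDegree]; linear_combination -h - hc
      · exact absurd h h2
    have hzero : 1 + ∑ χ ∈ S, d χ * (d χ - 2) = 0 := by
      rw [← Int.cast_inj (α := ℂ)]
      push_cast
      rw [← hsum, ← Finset.add_sum_erase univ (fun χ : IrrCharacter G => (χ : G → ℂ) 1 * (χ : G → ℂ) u) (Finset.mem_univ triv)]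
      congr 1
      · simp [triv]
      · refine (Finset.sum_congr rfl fun χ hχ => ?_).trans (Finset.sum_subset (fun χ hχ => ?_) fun χ h1 h2 => ?_)
        · rw [hSval χ hχ, hd]; push_cast; rw [coe_charDegree]
        · exact Finset.mem_erase.mpr ⟨(Finset.mem_filter.mp hχ).2.1, Finset.mem_univ _⟩
        · have : (χ : G → ℂ) u = 0 := by
            by_contra h; exact h2 (Finset.mem_filter.mpr ⟨Finset.mem_univ _, (Finset.mem_erase.mp h1).1, h⟩)
          rw [this, mul_zero]
    obtain ⟨l, hlS, hl1⟩ : ∃ χ ∈ S, d χ = 1 := by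
      by_contra hno
      push Not at hno
      have : 0 ≤ ∑ χ ∈ S, d χ * (d χ - 2) := Finset.sum_nonneg fun χ hχ => by
        have h1 : 1 ≤ d χ := by have := charDegree_pos χ; simp only [hd]; exact_mod_cast this
        have h2 := hno χ hχ
        exact mul_nonneg (by omega) (by omega)
      omega
    have hSeq : ∀ χ ∈ S, χ = l := by
      intro χ hχ
      by_contra hne
      have h1 : ∀ ψ : IrrCharacter G, 1 ≤ d ψ := fun ψ => by have := charDegree_pos ψ; simp only [hd]; exact_mod_cast this
      have hdχ : d χ ≠ 2 := fun h => by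
        have := hSval χ hχ
        rw [h] at this
        exact (Finset.mem_filter.mp hχ).2.2 (by rw [this]; norm_num)
      have hmem : χ ∈ S.erase l := Finset.mem_erase.mpr ⟨hne, hχ⟩
      have hlval : ((l : G → ℂ) u) = -1 := by rw [hSval l hlS, hl1]; norm_num
      rw [← Finset.add_sum_erase S _ hlS, hl1] at hzero
      have hrest : ∑ ψ ∈ S.erase l, d ψ * (d ψ - 2) = 0 := by linarith
      -- a second linear character would take the value `-1` as well
      have hlin2 : ∀ ψ ∈ S.erase l, d ψ ≠ 1 := by
        intro ψ hψ hψ1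
        obtain ⟨a, ha⟩ := exists_hom_of_degree_one l.2.isCharacter (by simp only [hd] at hl1; rw [← coe_charDegree]; exact_mod_cast hl1)
        obtain ⟨b, hb⟩ := exists_hom_of_degree_one ψ.2.isCharacter (by simp only [hd] at hψ1; rw [← coe_charDegree]; exact_mod_cast hψ1)
        have hbu : (b u : ℂ) = -1 := by
          rw [← congrFun hb u, hSval ψ (Finset.mem_erase.mp hψ).2, hψ1]; norm_num
        have hau : (a u : ℂ) = -1 := by rw [← congrFun ha u, hlval]
        have hne' : a * b⁻¹ ≠ 1 := fun h => (Finset.mem_erase.mp hψ).1 (Subtype.ext (hb.trans ((congrArg (fun z : G →* ℂˣ => fun g => (z g : ℂ)) (mul_inv_eq_one.mp h).symm).trans ha.symm)))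
        have hu1 : ((a * b⁻¹) u : ℂ) = 1 := by
          rw [MonoidHom.mul_apply, MonoidHom.inv_apply, Units.val_mul, Units.val_inv_eq_inv_val, hau, hbu]; norm_num
        rcases hyp ⟨_, isIrrCharacter_linear (a * b⁻¹)⟩ (fun h => hne' (MonoidHom.ext fun g => Units.ext (by simpa using congrFun h g))) with h | h
        · simp only [map_one, Units.val_one, hu1, hc] at h
          norm_num at h
        · exact ((a * b⁻¹) u).ne_zero h
      have hpos : ∀ ψ ∈ S.erase l, 0 ≤ d ψ * (d ψ - 2) := fun ψ hψ =>
        mul_nonneg (by have := h1 ψ; omega) (by have := h1 ψ; have := hlin2 ψ hψ; omega)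
      have := (Finset.sum_eq_zero_iff_of_nonneg hpos).mp hrest χ hmem
      rcases mul_eq_zero.mp this with h | h
      · have := h1 χ; omega
      · omega
    obtain ⟨a, ha⟩ := exists_hom_of_degree_one l.2.isCharacter (by simp only [hd] at hl1; rw [← coe_charDegree]; exact_mod_cast hl1)
    have hau : (a u : ℂ) = -1 := by rw [← congrFun ha u, hSval l hlS, hl1]; norm_num
    have hlne : l ≠ triv := (Finset.mem_filter.mp hlS).2.1
    set C := Subgroup.centralizer ({u} : Set G) with hC
    have hcard : Nat.card C = 2 := by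
      have h := column_orthogonality u u
      rw [if_pos (IsConj.refl u), ← Finset.add_sum_erase univ _ (Finset.mem_univ triv),
        Finset.sum_eq_single l] at h
      · rw [congrFun ha u, hau] at h
        simp [triv] at h
        rw [Nat.card_eq_fintype_card]; exact_mod_cast h.symm.trans one_add_one_eq_two
      · intro χ hχ hne
        have : (χ : G → ℂ) u = 0 := by
          by_contra hh; exact hne (hSeq χ (Finset.mem_filter.mpr ⟨Finset.mem_univ _, (Finset.mem_erase.mp hχ).1, hh⟩))
        rw [this, zero_mul]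
      · exact fun h' => absurd (Finset.mem_erase.mpr ⟨hlne, Finset.mem_univ _⟩) h'
    have huC : u ∈ C := Subgroup.mem_centralizer_singleton_iff.mpr rfl
    have hord : orderOf u = 2 := by
      have h1 := orderOf_dvd_natCard (⟨u, huC⟩ : C)
      rw [Subgroup.orderOf_mk, hcard] at h1
      exact ((Nat.dvd_prime Nat.prime_two).mp h1).resolve_left fun h => hu (orderOf_eq_one_iff.mp h)
    refine ⟨hord, ?_, ?_⟩
    · have ha2 : ∀ g, a g = 1 ∨ a g = a u := by
        have huniq : ∀ b : G →* ℂˣ, b = 1 ∨ b = a := by
          intro b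
          by_contra hb
          push Not at hb
          have hmem : (⟨_, isIrrCharacter_linear b⟩ : IrrCharacter G) ∈ S :=
            Finset.mem_filter.mpr ⟨Finset.mem_univ _, fun h => hb.1 (MonoidHom.ext fun g => Units.ext
              (by simpa [triv] using congrFun (congrArg Subtype.val h) g)), Units.ne_zero _⟩
          exact hb.2 (MonoidHom.ext fun g => Units.ext ((congrFun (congrArg Subtype.val (hSeq _ hmem)) g).trans (congrFun ha g)))
        intro g
        rcases huniq (a * a) with h | h
        · have h1 : a g * a g = 1 := DFunLike.congr_fun h g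
          have h1' : (a g : ℂ) * a g = 1 := by rw [← Units.val_mul, h1, Units.val_one]
          rcases mul_self_eq_one_iff.mp h1' with h2 | h2
          · exact Or.inl (Units.ext h2)
          · exact Or.inr (Units.ext (h2.trans hau.symm))
        · have : a = 1 := mul_left_cancel (h.trans (mul_one a).symm)
          rw [this] at hau; norm_num at hau
      have hodd : a.ker ≤ oddCore G := by
        refine Cfsg.Lib.Solv.le_pPrimeCore a.normal_ker ?_
        rw [Nat.coprime_comm, Nat.Prime.coprime_iff_not_dvd Nat.prime_two]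
        intro h2
        -- an involution in the kernel commutes with a conjugate of `u`
        obtain ⟨P, hP⟩ := IsPGroup.exists_le_sylow (show IsPGroup 2 (Subgroup.zpowers u) from
          IsPGroup.of_card (n := 1) (by rw [Nat.card_zpowers, hord, pow_one]))
        haveI : Nontrivial (P : Subgroup G) := ⟨⟨⟨u, hP (Subgroup.mem_zpowers u)⟩, 1, fun h => hu (congrArg Subtype.val h)⟩⟩
        haveI := IsPGroup.center_nontrivial P.2
        obtain ⟨⟨z, hz⟩, hz1⟩ := exists_ne (1 : Subgroup.center (P : Subgroup G))
        have hzu : (z : G) = u := by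
          have hzC : (z : G) ∈ C := Subgroup.mem_centralizer_singleton_iff.mpr
            (congrArg Subtype.val (Subgroup.mem_center_iff.mp hz ⟨u, hP (Subgroup.mem_zpowers u)⟩)).symm
          have hz1' : (⟨(z : G), hzC⟩ : C) ≠ 1 := fun h => hz1 (Subtype.ext (Subtype.ext (congrArg Subtype.val h :)))
          have hu1' : (⟨u, huC⟩ : C) ≠ 1 := fun h => hu (congrArg Subtype.val h)
          have := (Nat.card_eq_two_iff' (1 : C)).mp hcard
          exact congrArg Subtype.val (this.unique hz1' hu1')
        have hPC : (P : Subgroup G) ≤ C := fun x hx => Subgroup.mem_centralizer_singleton_iff.mpr (by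
          rw [← hzu]; exact congrArg Subtype.val (Subgroup.mem_center_iff.mp hz ⟨x, hx⟩))
        have hP2 : Nat.card (P : Subgroup G) ∣ 2 := (Subgroup.card_dvd_of_le hPC).trans hcard.dvd
        rw [P.card_eq_multiplicity] at hP2
        have h4 : 4 ∣ Nat.card G := by
          rw [← Subgroup.card_mul_index a.ker, show (4 : ℕ) = 2 * 2 from rfl]
          refine mul_dvd_mul h2 ?_
          rw [Subgroup.index_ker]
          have := orderOf_map_dvd a u
          have hne1 : orderOf (a u) ≠ 1 := fun h => by
            rw [orderOf_eq_one_iff] at h; rw [h] at hau; norm_num at hau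
          have heq : orderOf (a u) = 2 := ((Nat.dvd_prime Nat.prime_two).mp (hord ▸ this)).resolve_left hne1
          rw [← heq, ← Subgroup.orderOf_mk (H := a.range) (a u) ⟨u, rfl⟩]
          exact orderOf_dvd_natCard _
        have h5 : 2 ≤ (Nat.card G).factorization 2 :=
          (Nat.prime_two.pow_dvd_iff_le_factorization Nat.card_pos.ne').mp h4
        have h6 : 2 ^ 2 ∣ 2 := (pow_dvd_pow 2 h5).trans hP2
        norm_num at h6
      rw [eq_top_iff]
      intro g _
      rcases ha2 g with h | h
      · exact Subgroup.mem_sup_right (hodd h)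
      · have : g = u * (u⁻¹ * g) := by group
        rw [this]
        refine Subgroup.mul_mem_sup (Subgroup.mem_zpowers u) (hodd ?_)
        rw [MonoidHom.mem_ker, map_mul, map_inv, h, inv_mul_cancel]
    · refine (Subgroup.eq_of_le_of_card_ge (Subgroup.zpowers_le.mpr huC) ?_).symm
      rw [Nat.card_zpowers, hord, hcard]
  -- (a) implies (b)
  have hab : orderOf u = 2 ∧ Subgroup.zpowers u ⊔ oddCore G = ⊤ ∧
      Subgroup.centralizer ({u} : Set G) = Subgroup.zpowers u → commutator G ≠ ⊤ := by
    rintro ⟨hord, htop, -⟩ hperf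
    haveI : (oddCore G).Normal := inferInstance
    have hne : oddCore G ≠ ⊤ := by
      intro h
      have h1 : ¬ 2 ∣ Nat.card (oddCore G) := Cfsg.Lib.Solv.not_dvd_card_pPrimeCore 2
      rw [h, Subgroup.card_top] at h1
      exact h1 (hord ▸ orderOf_dvd_natCard u)
    apply hne
    rw [eq_top_iff, ← hperf]
    have hcomm : ∀ x : G ⧸ oddCore G, x ∈ Subgroup.zpowers ((u : G) : G ⧸ oddCore G) := by
      intro x
      obtain ⟨g, rfl⟩ := QuotientGroup.mk_surjective x
      obtain ⟨a, ha, b, hb, rfl⟩ := Subgroup.mem_sup_of_normal_right.mp (htop.symm ▸ Subgroup.mem_top g :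
        g ∈ Subgroup.zpowers u ⊔ oddCore G)
      obtain ⟨i, rfl⟩ := Subgroup.mem_zpowers_iff.mp ha
      exact ⟨i, by simp [(QuotientGroup.eq_one_iff b).mpr hb]⟩
    rw [commutator_def, Subgroup.commutator_le]
    intro x _ y _
    rw [commutatorElement_def, ← QuotientGroup.eq_one_iff, QuotientGroup.mk_mul, QuotientGroup.mk_mul,
      QuotientGroup.mk_mul, QuotientGroup.mk_inv, QuotientGroup.mk_inv]
    obtain ⟨i, hi⟩ := hcomm (x : G ⧸ oddCore G)
    obtain ⟨j, hj⟩ := hcomm (y : G ⧸ oddCore G)
    rw [← hi, ← hj]
    group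
  exact ⟨⟨hab, fun h => hca (hbc h)⟩, hbc, fun h => hab (hca h)⟩

end Cfsg.Agent.S4757
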