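import Cfsg.Statements.S4762
import Cfsg.Agent.Lib.Characters.AbelianInertia
import Cfsg.Agent.Lib.Characters.Degree
import Cfsg.Agent.Lib.Blocks.PrimeDegreeKernel
import Cfsg.Agent.Lib.Blocks.DefectZero
import Cfsg.Agent.Lib.Blocks.InflationBijection
import Cfsg.Agent.Lib.Solv.MinimalNonNilpotent
import Cfsg.Agent.Lib.Transfer.Critical
import Cfsg.Agent.Lib.Transfer.PGroupFrattini
-- import your own Cfsg.Agent.* helpers here

set_option autoImplicit false
open Cfsg

namespace Cfsg.Agent.S4762

open scoped ComplexConjugate commutatorElement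
open Cfsg.Lib.Characters Cfsg.Lib.Blocks

variable {G : Type*} [Group G] [Finite G]

theorem mul_linear_fixed {p : ℕ} (χ : Cfsg.IrrCharacter G)
    (huniq : ∀ ψ : Cfsg.IrrCharacter G, p ∣ Cfsg.charDegree (ψ : G → ℂ) → ψ = χ)
    (hdiv : p ∣ Cfsg.charDegree (χ : G → ℂ)) (l : G →* ℂˣ) (g : G) :
    (l g : ℂ) * (χ : G → ℂ) g = (χ : G → ℂ) g := by
  haveI := Fintype.ofFinite G
  have h := isIrrCharacter_mul_linear χ.2 (β := fun g => (l g : ℂ)) (isIrrCharacter_linear l).isCharacter (by simp)
  obtain ⟨d, hd⟩ := exists_degree χ.2.isCharacter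
  have h1 := huniq ⟨_, h⟩ (by
    rw [charDegree_eq hd] at hdiv
    rwa [charDegree_eq (d := d) (by simp [hd])])
  exact congr_fun (congrArg Subtype.val h1) g

theorem isPGroup_of_unique [Group.IsNilpotent G] (p : ℕ) [Fact p.Prime] (χ : Cfsg.IrrCharacter G)
    (huniq : ∀ ψ : Cfsg.IrrCharacter G, p ∣ Cfsg.charDegree (ψ : G → ℂ) → ψ = χ)
    (hdiv : p ∣ Cfsg.charDegree (χ : G → ℂ)) : IsPGroup p G := by
  classical
  haveI := Fintype.ofFinite G
  have hp : p.Prime := Fact.out
  obtain ⟨P, N, hN, hc⟩ := Cfsg.Lib.Solv.hasNormalPComplement_of_nilpotent (G := G) p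
  haveI := hN
  rcases eq_or_ne N ⊥ with rfl | hN1
  · have hP : (P : Subgroup G) = ⊤ := Subgroup.isComplement'_bot_left.1 hc
    intro g
    obtain ⟨k, hk⟩ := P.2 ⟨g, hP ▸ Subgroup.mem_top g⟩
    exact ⟨k, congrArg Subtype.val hk⟩
  exfalso
  haveI : (P : Subgroup G).Normal :=
    Sylow.normal_of_normalizerCondition Group.normalizerCondition_of_isNilpotent P
  haveI := Fintype.ofFinite N
  obtain ⟨d, hd⟩ := exists_degree χ.2.isCharacter
  rw [charDegree_eq hd] at hdiv
  -- some linear character is non-trivial on the complement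
  obtain ⟨u, hu, huc⟩ : ∃ u ∈ N, u ∉ commutator G ⊔ (P : Subgroup G) := by
    by_contra h
    push Not at h
    have htop : commutator G ⊔ (P : Subgroup G) = ⊤ := by
      rw [eq_top_iff, ← hc.sup_eq_top]
      exact sup_le h le_sup_right
    have h1 : (commutator G).map (QuotientGroup.mk' (P : Subgroup G)) = ⊤ := by
      have := congrArg (Subgroup.map (QuotientGroup.mk' (P : Subgroup G))) htop
      rwa [Subgroup.map_sup, QuotientGroup.map_mk'_self, sup_bot_eq,
        Subgroup.map_top_of_surjective _ (QuotientGroup.mk'_surjective _)] at this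
    rw [commutator_def, Subgroup.map_commutator,
      Subgroup.map_top_of_surjective _ (QuotientGroup.mk'_surjective _)] at h1
    haveI : Nontrivial (G ⧸ (P : Subgroup G)) := QuotientGroup.nontrivial_iff.2 fun h => by
      have h2 := hc.card_mul_card
      rw [h, Subgroup.card_top] at h2
      exact hN1 (Subgroup.eq_bot_of_card_eq _ ((Nat.mul_eq_right Nat.card_pos.ne').1 h2))
    exact (Group.IsSolvable.commutator_lt_top_of_nontrivial (G ⧸ (P : Subgroup G))).ne (by rw [commutator_def]; exact h1)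
  let f := QuotientGroup.mk' (P : Subgroup G)
  have hfu : f u ∉ commutator (G ⧸ (P : Subgroup G)) := by
    intro h
    apply huc
    rw [commutator_def, ← Subgroup.map_top_of_surjective f (QuotientGroup.mk'_surjective _),
      ← Subgroup.map_commutator, ← commutator_def] at h
    obtain ⟨c, hcm, hcu⟩ := h
    have hcu' : (c : G ⧸ (P : Subgroup G)) = u := hcu
    have := QuotientGroup.eq.1 hcu'
    rw [show u = c * (c⁻¹ * u) by group]
    exact Subgroup.mul_mem_sup hcm this
  obtain ⟨μ, hμ⟩ := Cfsg.Lib.Blocks.exists_linear_ne_one hfu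
  -- the character is trivial on the complement
  have hker : (χ : G → ℂ) u = (χ : G → ℂ) 1 := by
    obtain ⟨θ, hθ, hθχ⟩ := classInner_res_ne_zero (N := N) χ.2
    by_cases habel : IsMulCommutative (P : Subgroup G)
    · exfalso
      haveI := habel
      have h1 := degree_dvd_index_of_abelian χ.2 (P : Subgroup G) hd
      exact P.not_dvd_index (hdiv.trans h1)
    · -- a non-linear character of the quotient by the complement
      obtain ⟨ψ, hψ⟩ : ∃ ψ : Cfsg.IrrCharacter (G ⧸ N), (ψ : G ⧸ N → ℂ) 1 ≠ 1 := by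
        by_contra h
        push Not at h
        apply habel
        have hcomm : commutator (G ⧸ N) = ⊥ := by
          rw [Subgroup.eq_bot_iff_forall]
          intro c hc'
          refine isConj_one_left.1 ((isConj_iff_forall_irr _ _).2 fun φ => ?_)
          obtain ⟨l, hl⟩ := exists_hom_of_degree_one φ.2.isCharacter (h φ)
          have := Abelianization.commutator_subset_ker l hc'
          rw [MonoidHom.mem_ker] at this
          rw [hl]
          simp [this]
        refine ⟨⟨fun a b => Subtype.ext ?_⟩⟩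
        have h1 : ⁅(a : G), (b : G)⁆ ∈ N := by
          rw [← QuotientGroup.eq_one_iff, ← Subgroup.mem_bot, ← hcomm]
          have := Subgroup.commutator_mem_commutator (Subgroup.mem_top ((a : G) : G ⧸ N)) (Subgroup.mem_top ((b : G) : G ⧸ N))
          rw [← commutator_def] at this
          simpa only [commutatorElement_def, QuotientGroup.mk_mul, QuotientGroup.mk_inv] using this
        have h2 : ⁅(a : G), (b : G)⁆ ∈ (P : Subgroup G) := by
          rw [commutatorElement_def]
          exact mul_mem (mul_mem (mul_mem a.2 b.2) (inv_mem a.2)) (inv_mem b.2)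
        exact commutatorElement_eq_one_iff_mul_comm.1 (Subgroup.disjoint_def.1 hc.disjoint h1 h2)
      obtain ⟨e, he0, he⟩ := ψ.2.exists_degree_pos
      have hpe : p ∣ e := by
        have h1 := degree_dvd_card ψ.2 he
        rw [← Subgroup.index_eq_card, hc.symm.index_eq_card] at h1
        obtain ⟨k, hk⟩ := IsPGroup.iff_card.1 P.2
        rw [hk] at h1
        obtain ⟨j, -, rfl⟩ := (Nat.dvd_prime_pow hp).1 h1
        refine dvd_pow_self p fun hj => hψ ?_
        rw [he, hj, pow_zero, Nat.cast_one]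
      have h2 := huniq ⟨fun g => (ψ : G ⧸ N → ℂ) (QuotientGroup.mk' N g),
        isIrrCharacter_comp_surjective ψ.2 _ (QuotientGroup.mk'_surjective N)⟩ (by
          rw [charDegree_eq (d := e) (by simpa using he)]
          exact hpe)
      rw [← h2]
      show (ψ : G ⧸ N → ℂ) (QuotientGroup.mk' N u) = (ψ : G ⧸ N → ℂ) (QuotientGroup.mk' N 1)
      rw [show QuotientGroup.mk' N u = 1 from (QuotientGroup.eq_one_iff u).2 hu, map_one]
  have h := mul_linear_fixed χ huniq (by rwa [charDegree_eq hd]) (μ.comp f) u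
  rw [hker] at h
  exact hμ (Units.ext (mul_right_cancel₀ χ.2.one_ne_zero (h.trans (one_mul _).symm)))

/-- Forward direction. -/
theorem extraspecial_of_unique (p : ℕ) [Fact p.Prime] (hG : IsPGroup p G) (χ : Cfsg.IrrCharacter G)
    (huniq : ∀ ψ : Cfsg.IrrCharacter G, p ∣ Cfsg.charDegree (ψ : G → ℂ) → ψ = χ)
    (hdiv : p ∣ Cfsg.charDegree (χ : G → ℂ)) : p = 2 ∧ Cfsg.IsExtraspecial 2 G := by
  classical
  haveI := Fintype.ofFinite G
  have hp : p.Prime := Fact.out
  obtain ⟨n, hn⟩ := IsPGroup.iff_card.1 hG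
  obtain ⟨d, hd0, hd⟩ := χ.2.exists_degree_pos
  rw [charDegree_eq hd] at hdiv
  have hd1 : d ≠ 1 := fun h => hp.not_dvd_one (h ▸ hdiv)
  have hlin : ∀ ψ : Cfsg.IrrCharacter G, ψ ≠ χ → (ψ : G → ℂ) 1 = 1 := by
    intro ψ hne
    obtain ⟨e, he0, he⟩ := ψ.2.exists_degree_pos
    obtain ⟨j, -, rfl⟩ := (Nat.dvd_prime_pow hp).1 (hn ▸ degree_dvd_card ψ.2 he)
    rcases j with _ | j
    · simpa using he
    · exact absurd (huniq ψ (by rw [charDegree_eq he]; exact dvd_pow_self p (Nat.succ_ne_zero j))) hne
  have hfilter : Finset.univ.erase χ = Finset.univ.filter (fun ψ : Cfsg.IrrCharacter G => (ψ : G → ℂ) 1 = 1) := by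
    ext ψ
    simp only [Finset.mem_erase, Finset.mem_univ, and_true, Finset.mem_filter, true_and]
    refine ⟨hlin ψ, fun h e => hd1 ?_⟩
    rw [e, hd] at h
    exact_mod_cast h
  have hsum : Nat.card G = (commutator G).index + d ^ 2 := by
    have h := sum_sq_degree (G := G)
    rw [← Finset.add_sum_erase _ _ (Finset.mem_univ χ), hd, hfilter,
      Finset.sum_congr rfl (g := fun _ => (1 : ℂ)) (fun ψ hψ => by rw [(Finset.mem_filter.1 hψ).2, one_pow]),
      Finset.sum_const, nsmul_eq_mul, mul_one, ← Fintype.card_subtype, ← Nat.card_eq_fintype_card,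
      card_linear_irr] at h
    have h' : ((d ^ 2 + (commutator G).index : ℕ) : ℂ) = ((Nat.card G : ℕ) : ℂ) := by push_cast; exact h
    rw [← Nat.cast_inj.1 h', add_comm]
  have hmul := (commutator G).card_mul_index
  obtain ⟨i, -, hi⟩ := (Nat.dvd_prime_pow hp).1 (hn ▸ (commutator G).index_dvd_card)
  obtain ⟨j, -, hj⟩ := (Nat.dvd_prime_pow hp).1 (hn ▸ (commutator G).card_subgroup_dvd_card)
  have hd2 : d ^ 2 = p ^ i * (p ^ j - 1) := by
    rw [hi, hj] at hmul
    rw [hi] at hsum
    rw [Nat.mul_sub, mul_one, mul_comm, hmul, hsum, Nat.add_sub_cancel_left]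
  have hpj : p ^ j - 1 = 1 := by
    by_contra h
    obtain ⟨r, hr, hrd⟩ := Nat.exists_prime_and_dvd h
    obtain ⟨a, -, ha⟩ := (Nat.dvd_prime_pow hp).1 (hn ▸ degree_dvd_card χ.2 hd)
    have hrp : r = p := (Nat.prime_dvd_prime_iff_eq hr hp).1
      (hr.dvd_of_dvd_pow (n := a) (ha ▸ hr.dvd_of_dvd_pow (hd2 ▸ dvd_mul_of_dvd_right hrd _)))
    rcases Nat.eq_zero_or_pos j with rfl | hj0
    · rw [pow_zero, Nat.sub_self, mul_zero] at hd2
      exact hd0.ne' (pow_eq_zero_iff two_ne_zero |>.1 hd2)
    · subst hrp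
      have h2 := Nat.dvd_sub (dvd_pow_self r hj0.ne') hrd
      rw [Nat.sub_sub_self (Nat.one_le_pow _ _ hr.pos)] at h2
      exact hr.not_dvd_one h2
  have hpj' : p ^ j = 2 := by omega
  have hp2 : p = 2 := by
    rcases Nat.eq_zero_or_pos j with rfl | hj0
    · simp at hpj'
    · exact ((Nat.prime_dvd_prime_iff_eq hp Nat.prime_two).1 (hpj' ▸ dvd_pow_self p hj0.ne'))
  subst hp2
  have hC2 : Nat.card (commutator G) = 2 := hj.trans hpj'
  -- the derived subgroup is central
  have hCc : commutator G ≤ Subgroup.center G := by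
    intro c hc
    rw [Subgroup.mem_center_iff]
    intro g
    rcases eq_or_ne c 1 with rfl | hc1
    · simp
    obtain ⟨a, b, hab, hall⟩ := Nat.card_eq_two_iff.1 hC2
    have key : ∀ z : commutator G, z = 1 ∨ z = ⟨c, hc⟩ := fun z => by
      have e1 : ∀ w : commutator G, w = a ∨ w = b := fun w => by
        have := hall.ge (Set.mem_univ w)
        simpa using this
      have hne : (1 : commutator G) ≠ ⟨c, hc⟩ := fun h => hc1 (congrArg Subtype.val h).symm
      rcases e1 z with rfl | rfl <;> rcases e1 1 with h | h <;> rcases e1 ⟨c, hc⟩ with h' | h' <;>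
        first | (left; exact h.symm) | (right; exact h'.symm) | exact absurd (h.trans h'.symm) hne
    have hcn : g * c * g⁻¹ ∈ commutator G := (inferInstance : (commutator G).Normal).conj_mem c hc g
    rcases key ⟨_, hcn⟩ with h | h
    · exact absurd (conj_eq_one_iff.1 (congrArg Subtype.val h)) hc1
    · exact mul_inv_eq_iff_eq_mul.1 (congrArg Subtype.val h)
  have hvan : ∀ g : G, g ∉ commutator G → (χ : G → ℂ) g = 0 := by
    intro g hg
    obtain ⟨l, hl⟩ := Cfsg.Lib.Blocks.exists_linear_ne_one hg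
    have h := mul_linear_fixed χ huniq (by rwa [charDegree_eq hd]) l g
    by_contra h0
    exact hl (Units.ext (mul_right_cancel₀ h0 (h.trans (one_mul _).symm)))
  have hZ : Subgroup.center G = commutator G := by
    refine le_antisymm (fun z hz => ?_) hCc
    by_contra hzc
    have := norm_eq_of_mem_center χ.2 hd hz
    rw [hvan z hzc, norm_zero] at this
    exact hd0.ne' (by exact_mod_cast this.symm)
  have hsq : ∀ x : G, x ^ 2 ∈ Subgroup.center G := by
    intro x
    rw [Subgroup.mem_center_iff]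
    intro y
    set c := x * y * x⁻¹ * y⁻¹ with hcdef
    have hc : c ∈ commutator G := by
      have := Subgroup.commutator_mem_commutator (Subgroup.mem_top x) (Subgroup.mem_top y)
      rwa [← commutator_def, commutatorElement_def] at this
    have hc2 : c ^ 2 = 1 := by
      have := congrArg Subtype.val (pow_card_eq_one' (x := (⟨c, hc⟩ : commutator G)))
      rwa [hC2] at this
    have hcx := Subgroup.mem_center_iff.1 (hCc hc) x
    symm
    calc x ^ 2 * y = x * (c * y * x) := by rw [hcdef, pow_two]; group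
      _ = x * c * (y * x) := by group
      _ = c * x * (y * x) := by rw [hcx]
      _ = c * (c * y * x) * x := by rw [hcdef]; group
      _ = c ^ 2 * y * x ^ 2 := by simp only [pow_two, mul_assoc]
      _ = y * x ^ 2 := by rw [hc2, one_mul]
  refine ⟨rfl, ⟨hG, le_antisymm (Cfsg.Lib.Transfer.frattini_le_of_quotient (p := 2) hCc hsq) ?_, hZ.symm⟩, hZ ▸ hC2⟩
  rw [hZ]
  exact Cfsg.Lib.Transfer.commutator_le_frattini hG

/-- Backward direction. -/
theorem card_of_extraspecial (hE : Cfsg.IsExtraspecial 2 G) :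
    Nat.card {χ : Cfsg.IrrCharacter G // 2 ∣ Cfsg.charDegree (χ : G → ℂ)} = 1 := by
  classical
  haveI := Fintype.ofFinite G
  haveI : Fact (Nat.Prime 2) := ⟨Nat.prime_two⟩
  obtain ⟨⟨hG, -, hZ⟩, hc2⟩ := hE
  rw [← hZ] at hc2
  obtain ⟨z, hz, hz1⟩ := (Subgroup.bot_or_exists_ne_one (commutator G)).resolve_left fun h => by
    rw [h, Subgroup.card_bot] at hc2
    omega
  have hzpow : ∀ c ∈ commutator G, c = 1 ∨ c = z := by
    intro c hc
    obtain ⟨a, b, hab, hall⟩ := Nat.card_eq_two_iff.1 hc2
    have e1 : ∀ w : commutator G, w = a ∨ w = b := fun w => by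
      have := hall.ge (Set.mem_univ w)
      simpa using this
    have hne : (1 : commutator G) ≠ ⟨z, hz⟩ := fun h => hz1 (congrArg Subtype.val h).symm
    suffices (⟨c, hc⟩ : commutator G) = 1 ∨ (⟨c, hc⟩ : commutator G) = ⟨z, hz⟩ from
      this.imp (congrArg Subtype.val) (congrArg Subtype.val)
    rcases e1 ⟨c, hc⟩ with h0 | h0 <;> rcases e1 1 with h | h <;> rcases e1 ⟨z, hz⟩ with h' | h' <;>
      first | (left; exact h0.trans h.symm) | (right; exact h0.trans h'.symm) | exact absurd (h.trans h'.symm) hne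
  obtain ⟨n, hn⟩ := IsPGroup.iff_card.1 hG
  have hcard : Nat.card G = 2 * (commutator G).index := by rw [← hc2, Subgroup.card_mul_index]
  -- non-linear characters vanish off the derived subgroup
  have hnon : ∀ ψ : Cfsg.IrrCharacter G, ∀ e : ℕ, (ψ : G → ℂ) 1 = e → e ≠ 1 → e ^ 2 = (commutator G).index := by
    intro ψ e he he1
    obtain ⟨m, ρ, hirr, hρ⟩ := ψ.2
    have hzc : z ∈ Subgroup.center G := hZ ▸ hz
    obtain ⟨ω, hω⟩ := schur_scalar ρ (ρ z) fun q => by
      rw [← map_mul, ← map_mul, Subgroup.mem_center_iff.1 hzc q]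
    have htrans : ∀ q, (ψ : G → ℂ) (z * q) = ω * (ψ : G → ℂ) q := by
      intro q
      rw [← hρ, Representation.character, Representation.character, map_mul, hω, smul_mul_assoc,
        Module.End.mul_eq_comp, LinearMap.id_comp, map_smul, smul_eq_mul]
    have hz2 : z * z = 1 := by
      have := congrArg Subtype.val (pow_card_eq_one' (x := (⟨z, hz⟩ : commutator G)))
      rw [hc2] at this
      rw [← pow_two]
      exact this
    have hω2 : ω ^ 2 = 1 := by
      have h1 := htrans z
      have h2 := htrans 1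
      rw [hz2] at h1
      rw [mul_one] at h2
      rw [h2, ← mul_assoc, ← pow_two] at h1
      exact (mul_right_cancel₀ ψ.2.one_ne_zero ((one_mul _).trans h1)).symm
    have hω : ω = -1 := by
      refine (sq_eq_one_iff.1 hω2).resolve_left fun h => he1 ?_
      have hzk : (ψ : G → ℂ) z = (ψ : G → ℂ) 1 := by simpa [h] using htrans 1
      have hle : commutator G ≤ charKer ψ.2.isCharacter := fun c hc => by
        rcases hzpow c hc with hcc | hcc <;> rw [hcc]
        · exact one_mem _
        · exact (mem_charKer _).2 hzk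
      obtain ⟨φ, hφ⟩ := Cfsg.Lib.Blocks.exists_descend (P := commutator G) ψ.2 fun c hc => (mem_charKer _).1 (hle hc)
      haveI : IsMulCommutative (G ⧸ commutator G) := Subgroup.Normal.quotient_commutative_iff_commutator_le.2 le_rfl
      have h3 := degree_one_of_isMulCommutative φ.2
      have h4 : (ψ : G → ℂ) 1 = 1 := by rw [hφ]; exact h3
      rw [he] at h4
      exact_mod_cast h4
    have hvan : ∀ x : G, x ∉ commutator G → (ψ : G → ℂ) x = 0 := by
      intro x hx
      rw [hZ, Subgroup.mem_center_iff] at hx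
      push Not at hx
      obtain ⟨y, hy⟩ := hx
      have hc : y * x * y⁻¹ * x⁻¹ ∈ commutator G := by
        have := Subgroup.commutator_mem_commutator (Subgroup.mem_top y) (Subgroup.mem_top x)
        rwa [← commutator_def, commutatorElement_def] at this
      rcases hzpow _ hc with h | h
      · exact absurd (by rw [mul_inv_eq_one, mul_inv_eq_iff_eq_mul] at h; exact h) hy
      · have h1 := isClassFunction_of_isCharacter ψ.2.isCharacter x y
        rw [mul_inv_eq_iff_eq_mul] at h
        rw [h, htrans, hω] at h1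
        linear_combination (-(1 : ℂ) / 2) * h1
    have hnorm := classInner_irr_self ψ.2
    rw [classInner, inv_mul_eq_iff_eq_mul₀ (Nat.cast_ne_zero.2 Nat.card_pos.ne'), mul_one,
      ← Finset.sum_filter_add_sum_filter_not Finset.univ (fun g => g ∈ commutator G),
      Finset.sum_eq_zero (s := Finset.univ.filter fun g => ¬ g ∈ commutator G)
        (fun g hg => by rw [hvan g (Finset.mem_filter.1 hg).2, zero_mul]), add_zero,
      Finset.sum_congr rfl (g := fun _ => ((e : ℂ) * e)) (fun g hg => by
        rcases hzpow g (Finset.mem_filter.1 hg).2 with hgc | hgc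
        · rw [hgc, he, map_natCast]
        · have h1 := htrans 1
          rw [mul_one, hω, he] at h1
          rw [hgc, h1, map_mul, map_neg, map_one, map_natCast]
          ring),
      Finset.sum_const, nsmul_eq_mul, ← Fintype.card_subtype, ← Nat.card_eq_fintype_card] at hnorm
    have h' : ((2 * (e * e) : ℕ) : ℂ) = ((2 * (commutator G).index : ℕ) : ℂ) := by
      rw [← hcard, ← hnorm, Nat.cast_mul, Nat.cast_mul, ← hc2]
    have := Nat.cast_inj.1 h'
    rw [pow_two]
    omega
  choose e he using fun ψ : Cfsg.IrrCharacter G => exists_degree ψ.2.isCharacter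
  have heven : ∀ ψ, 2 ∣ e ψ ↔ ¬ (ψ : G → ℂ) 1 = 1 := by
    intro ψ
    constructor
    · intro h h1
      rw [he, Nat.cast_eq_one] at h1
      omega
    · intro h
      obtain ⟨j, -, hj⟩ := (Nat.dvd_prime_pow Nat.prime_two).1 (hn ▸ degree_dvd_card ψ.2 (he ψ))
      rcases j with _ | j
      · exact absurd (by rw [he, hj]; simp) h
      · exact hj ▸ dvd_pow_self 2 (Nat.succ_ne_zero j)
  have h := sum_sq_degree (G := G)
  rw [← Finset.sum_filter_add_sum_filter_not Finset.univ (fun ψ : Cfsg.IrrCharacter G => (ψ : G → ℂ) 1 = 1),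
    Finset.sum_congr rfl (g := fun _ => (1 : ℂ)) (fun ψ hψ => by rw [(Finset.mem_filter.1 hψ).2, one_pow]),
    Finset.sum_congr rfl (s₁ := Finset.univ.filter fun ψ : Cfsg.IrrCharacter G => ¬ (ψ : G → ℂ) 1 = 1)
      (g := fun _ => ((commutator G).index : ℂ)) (fun ψ hψ => by
        rw [← hnon ψ (e ψ) (he ψ) (fun h1 => (Finset.mem_filter.1 hψ).2 (by rw [he, h1, Nat.cast_one])), he,
          Nat.cast_pow]),
    Finset.sum_const, Finset.sum_const, nsmul_eq_mul, nsmul_eq_mul, mul_one,
    ← Fintype.card_subtype, ← Fintype.card_subtype, ← Nat.card_eq_fintype_card, ← Nat.card_eq_fintype_card,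
    card_linear_irr, hcard] at h
  rw [Nat.card_congr (Equiv.subtypeEquivRight (q := fun ψ : Cfsg.IrrCharacter G => ¬ (ψ : G → ℂ) 1 = 1)
    fun ψ => by rw [charDegree_eq (he ψ)]; exact heven ψ)]
  have h' := h
  push_cast at h'
  have hi : ((commutator G).index : ℂ) ≠ 0 := Nat.cast_ne_zero.2 Subgroup.index_ne_zero_of_finite
  have h2 : (Nat.card {ψ : Cfsg.IrrCharacter G // ¬ (ψ : G → ℂ) 1 = 1} : ℂ) = 1 :=
    mul_right_cancel₀ hi (by linear_combination h')
  exact_mod_cast h2


/-- Let p be a prime and G a finite nilpotent group. Then G has exactly one irreducible complex character of degree divisible by p if and only if p = 2 and G is an extraspecial 2-group. -/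
theorem result {G : Type*} [Group G] [Finite G] [Group.IsNilpotent G] (p : ℕ) [Fact p.Prime] : Nat.card {χ : Cfsg.IrrCharacter G // p ∣ Cfsg.charDegree (χ : G → ℂ)} = 1 ↔ (p = 2 ∧ Cfsg.IsExtraspecial 2 G) := by
  classical
  constructor
  · intro h
    obtain ⟨hs, ⟨χ, hχ⟩⟩ := Nat.card_eq_one_iff_unique.1 h
    have huniq : ∀ ψ : Cfsg.IrrCharacter G, p ∣ Cfsg.charDegree (ψ : G → ℂ) → ψ = χ := fun ψ hψ =>
      congrArg Subtype.val (hs.elim ⟨ψ, hψ⟩ ⟨χ, hχ⟩)
    exact extraspecial_of_unique p (isPGroup_of_unique p χ huniq hχ) χ huniq hχ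
  · rintro ⟨rfl, hE⟩
    exact card_of_extraspecial hE

end Cfsg.Agent.S4762
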