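import Cfsg.Statements.S4763
import Cfsg.Agent.Lib.Blocks.Glauberman
import Cfsg.Agent.Lib.Blocks.GlaubermanNormalSylow
import Cfsg.Agent.Lib.Characters.Permutation
import Cfsg.Agent.Lib.Characters.AbelianInertia
import Cfsg.Agent.Lib.Characters.Thompson
import Cfsg.Agent.Lib.Characters.CoprimeCoset
import Cfsg.Agent.Lib.Solv.RegularClasses

set_option autoImplicit false
set_option linter.style.haveILetI false
open Cfsg

namespace Cfsg.Agent.S4763

open Cfsg.Lib.Characters Cfsg.Lib.Blocks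
open scoped Classical ComplexConjugate

variable {G : Type*} [Group G] [Fintype G] (N : Subgroup G) [N.Normal]

/-- The degree of a character over `θ` is a multiple of the index of the inertia group. -/
theorem inertia_index_dvd [Fintype N] {θ : N → ℂ} (hθ : IsIrrCharacter N θ) (χ : IrrCharacter G)
    (hne : classInner (fun n : N => (χ : G → ℂ) n) θ ≠ 0) :
    (inertia N θ).index ∣ charDegree (χ : G → ℂ) := by
  obtain ⟨m, hm⟩ := classInner_nat (isCharacter_restrict χ.2.isCharacter N) hθ.isCharacter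
  obtain ⟨d, -, hd⟩ := hθ.exists_degree_pos
  have horb : (inertia N θ).index = (orbitFinset N θ).card := by
    have h1 := card_stabilizer_mul_card_orbit (N := N) θ
    rw [← card_inertia, ← Subgroup.card_mul_index (inertia N θ)] at h1
    exact (Nat.eq_of_mul_eq_mul_left Nat.card_pos h1).symm
  have hcl := congrFun (clifford χ.2 hθ hne) 1
  simp only [Pi.smul_apply, Finset.sum_apply, smul_eq_mul, OneMemClass.coe_one] at hcl
  rw [hm] at hcl
  have hval : ∀ φ ∈ orbitFinset N θ, φ 1 = θ 1 := by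
    intro φ hφ
    obtain ⟨g, rfl⟩ := mem_orbitFinset.mp hφ
    rw [conjFn_apply]
    exact congrArg θ (Subtype.ext (by simp))
  rw [Finset.sum_congr rfl hval, Finset.sum_const, ← horb, hd, nsmul_eq_mul, ← coe_charDegree χ] at hcl
  refine ⟨m * d, ?_⟩
  rw [← Nat.cast_inj (R := ℂ), hcl]
  push_cast
  ring

/-- Every irreducible character of a normal subgroup lies under one of the group. -/
theorem exists_over [Fintype N] {θ : N → ℂ} (hθ : IsIrrCharacter N θ) :
    ∃ χ : IrrCharacter G, classInner (fun n : N => (χ : G → ℂ) n) θ ≠ 0 := by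
  obtain ⟨χ, hχ, hne⟩ := exists_constituent (isCharacter_indFun N hθ.isCharacter) (by
    rw [indFun_one_apply]
    exact mul_ne_zero (Nat.cast_ne_zero.mpr Subgroup.index_ne_zero_of_finite) hθ.one_ne_zero)
  refine ⟨⟨χ, hχ⟩, fun h0 => hne ?_⟩
  rw [classInner_indFun N θ hχ.isClassFunction, ← conj_classInner]
  show conj (classInner (fun h : N => χ h) θ) = 0
  rw [h0, map_zero]

variable {p : ℕ} [Fact p.Prime]

/-- The fixed classes of a coprime `p`-group of operators. -/
theorem fixed_data (P : Subgroup G) (hP : IsPGroup p P) (hp : ¬ p ∣ Nat.card N) :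
    (∀ k : N, (∀ x ∈ P, IsConj k (MulAut.conjNormal x k)) →
      ∃ d : N, (∀ x ∈ P, x * (d : G) = (d : G) * x) ∧ IsConj k d) ∧
    (∀ c d : N, (∀ x ∈ P, x * (c : G) = (c : G) * x) → (∀ x ∈ P, x * (d : G) = (d : G) * x) → IsConj c d →
      ∃ a ∈ N, (∀ x ∈ P, x * a = a * x) ∧ a * (c : G) * a⁻¹ = d) ∧
    Nat.card {c : ConjClasses N // ∀ x ∈ P, ConjClasses.map (MulAut.conjNormal x).toMonoidHom c = c} =
      Nat.card {θ : IrrCharacter N // ∀ x ∈ P, conjFn N (θ : N → ℂ) x = (θ : N → ℂ)} := by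
  haveI := Fintype.ofFinite N
  have hnorm : ∀ s ∈ P, ∀ k ∈ N, s * k * s⁻¹ ∈ N := fun s _ k hk => (inferInstance : N.Normal).conj_mem k hk s
  set φ := conjAct N P hnorm with hφ
  have hφn : ∀ (s : P) (k : N), φ s k = MulAut.conjNormal (s : G) k := fun s k =>
    Subtype.ext (by simp [hφ, MulAut.conjNormal_apply])
  set C := N ⊓ Subgroup.centralizer (P : Set G) with hC
  haveI : Fintype C := Fintype.ofFinite C
  set ι : C →* N := Subgroup.inclusion inf_le_left with hιdef
  have hι : Function.Injective ι := Subgroup.inclusion_injective inf_le_left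
  have hfix : ∀ k : N, (∀ s, φ s k = k) ↔ k ∈ Set.range ι := by
    intro k
    constructor
    · intro h
      refine ⟨⟨(k : G), k.2, Subgroup.mem_centralizer_iff.mpr fun s hs => ?_⟩, Subtype.ext rfl⟩
      exact mul_inv_eq_iff_eq_mul.mp (congrArg Subtype.val (h ⟨s, hs⟩))
    · rintro ⟨c, rfl⟩ s
      refine Subtype.ext ?_
      show (s : G) * (c : G) * (s : G)⁻¹ = c
      rw [Subgroup.mem_centralizer_iff.mp c.2.2 (s : G) s.2, mul_inv_cancel_right]
  obtain ⟨M, hM⟩ := exists_isPModular p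
  haveI : M.IsPrime := hM.2.1.isPrime
  have hcls : ∀ k : N, (∀ x ∈ P, IsConj k (MulAut.conjNormal x k)) →
      ∃ d : N, (∀ x ∈ P, x * (d : G) = (d : G) * x) ∧ IsConj k d := by
    intro k hk
    obtain ⟨c, hc⟩ := exists_fixed_conj φ ι hP hι hfix hM hp k fun s => hφn s k ▸ hk s s.2
    exact ⟨ι c, fun x hx => Subgroup.mem_centralizer_iff.mp c.2.2 x hx, hc⟩
  refine ⟨hcls, fun c d hc hd hcd => ?_, ?_⟩
  · obtain ⟨a, ha⟩ := isConj_iff.mp (isConj_of_fixed φ ι hP hι hfix hM hp
      (c := ⟨c, c.2, Subgroup.mem_centralizer_iff.mpr hc⟩) (c' := ⟨d, d.2, Subgroup.mem_centralizer_iff.mpr hd⟩) hcd)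
    exact ⟨a, a.2.1, fun x hx => Subgroup.mem_centralizer_iff.mp a.2.2 x hx, congrArg Subtype.val ha⟩
  · obtain ⟨Φ, hΦ, -, -⟩ := glauberman φ ι hP hι hfix hp
    have e : {θ : IrrCharacter N // ∀ x ∈ P, conjFn N (θ : N → ℂ) x = (θ : N → ℂ)} ≃
        {θ : IrrCharacter N // IsInv φ (θ : N → ℂ)} :=
      Equiv.subtypeEquivRight fun θ => ⟨fun h s k => congrFun (h s s.2) k, fun h x hx => funext (h ⟨x, hx⟩)⟩
    rw [Nat.card_congr e, Nat.card_eq_of_bijective Φ hΦ, card_irr_eq_card_conjClasses]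
    let F : ConjClasses C → {c : ConjClasses N // ∀ x ∈ P, ConjClasses.map (MulAut.conjNormal x).toMonoidHom c = c} :=
      fun Q => ⟨ConjClasses.map ι Q, fun x hx => ?_⟩
    refine (Nat.card_eq_of_bijective F ⟨?_, ?_⟩).symm
    rotate_left 2
    · obtain ⟨c, rfl⟩ := ConjClasses.mk_surjective Q
      show ConjClasses.mk (MulAut.conjNormal x (ι c)) = ConjClasses.mk (ι c)
      rw [← hφn ⟨x, hx⟩, (hfix (ι c)).mpr ⟨c, rfl⟩]
    · intro a b hab
      obtain ⟨c, rfl⟩ := ConjClasses.mk_surjective a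
      obtain ⟨d, rfl⟩ := ConjClasses.mk_surjective b
      exact ConjClasses.mk_eq_mk_iff_isConj.mpr (isConj_of_fixed φ ι hP hι hfix hM hp
        (ConjClasses.mk_eq_mk_iff_isConj.mp (congrArg Subtype.val hab)))
    · rintro ⟨q, hq⟩
      obtain ⟨k, rfl⟩ := ConjClasses.mk_surjective q
      obtain ⟨d, hd, hkd⟩ := hcls k fun x hx => (ConjClasses.mk_eq_mk_iff_isConj.mp (hq x hx)).symm
      exact ⟨ConjClasses.mk ⟨d, d.2, Subgroup.mem_centralizer_iff.mpr hd⟩,
        Subtype.ext (ConjClasses.mk_eq_mk_iff_isConj.mpr hkd.symm)⟩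

omit [Fintype G] in
/-- Let p be a prime and G a finite group that is not nilpotent and has a normal p-complement (a normal subgroup of order prime to p and index a power of p). If G has exactly one irreducible complex character of degree divisible by p, then G has exactly one conjugacy class whose size is divisible by p. -/
theorem result {G : Type*} [Group G] [Finite G] (p : ℕ) [Fact p.Prime] (hnil : ¬ Group.IsNilpotent G) (N : Subgroup G) [N.Normal] (hN : (Nat.card N).Coprime p) (hidx : ∃ k : ℕ, N.index = p ^ k) (hone : Nat.card {χ : Cfsg.IrrCharacter G // p ∣ Cfsg.charDegree (χ : G → ℂ)} = 1) : Nat.card {C : ConjClasses G // p ∣ Nat.card C.carrier} = 1 := by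
  haveI : Fintype G := Fintype.ofFinite G
  haveI : Fintype N := Fintype.ofFinite N
  have hpr : p.Prime := Fact.out
  obtain ⟨k, hk⟩ := hidx
  have hpN : ¬ p ∣ Nat.card N := fun h => hpr.not_dvd_one (hN ▸ Nat.dvd_gcd h dvd_rfl)
  have hpdvd : ∀ m : ℕ, m ∣ p ^ k → m ≠ 1 → p ∣ m := fun m hm hm1 => by
    obtain ⟨j, -, rfl⟩ := (Nat.dvd_prime_pow hpr).mp hm
    exact dvd_pow_self p fun hj => hm1 (by rw [hj, pow_zero])
  have hθdeg : ∀ θ : IrrCharacter N, ¬ p ∣ charDegree (θ : N → ℂ) := fun θ h =>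
    hpN (h.trans (degree_dvd_card θ.2 (coe_charDegree θ).symm))
  obtain ⟨hsub, ⟨⟨χs, hχs⟩⟩⟩ := Nat.card_eq_one_iff_unique.mp hone
  haveI := hsub
  have huniq : ∀ χ : IrrCharacter G, p ∣ charDegree (χ : G → ℂ) → χ = χs := fun χ hχ =>
    congrArg Subtype.val (Subsingleton.elim (α := {χ : IrrCharacter G // p ∣ charDegree (χ : G → ℂ)}) ⟨χ, hχ⟩ ⟨χs, hχs⟩)
  have hover : ∀ θ : IrrCharacter N, inertia N (θ : N → ℂ) ≠ ⊤ → ∀ χ : IrrCharacter G,
      classInner (fun n : N => (χ : G → ℂ) n) (θ : N → ℂ) ≠ 0 → χ = χs := by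
    intro θ hθ χ hne
    refine huniq χ (dvd_trans (hpdvd _ ?_ fun h => hθ (Subgroup.index_eq_one.mp h)) (inertia_index_dvd N θ.2 χ hne))
    rw [← hk]
    exact Subgroup.index_dvd_of_le (le_inertia θ.2.isClassFunction)
  -- the quotient is abelian
  have hab : ∀ x y : G, x * y * x⁻¹ * y⁻¹ ∈ N := by
    by_contra hcon
    push Not at hcon
    obtain ⟨x, y, hxy⟩ := hcon
    obtain ⟨β, hβ⟩ : ∃ β : IrrCharacter (G ⧸ N), (β : G ⧸ N → ℂ) 1 ≠ 1 := by
      by_contra hall
      push Not at hall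
      refine hxy ((QuotientGroup.eq_one_iff _).mp ?_)
      rw [QuotientGroup.mk_mul, QuotientGroup.mk_mul, QuotientGroup.mk_mul, QuotientGroup.mk_inv,
        QuotientGroup.mk_inv, comm_of_linear hall (x : G ⧸ N) y, mul_inv_cancel_right, mul_inv_cancel]
    haveI : Fintype (G ⧸ N) := Fintype.ofFinite _
    have hβp : p ∣ charDegree (β : G ⧸ N → ℂ) := by
      refine hpdvd _ ?_ fun h => hβ (by rw [← coe_charDegree β, h, Nat.cast_one])
      rw [← hk, Subgroup.index_eq_card]
      exact degree_dvd_card β.2 (coe_charDegree β).symm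
    have hχ1 : IsIrrCharacter G (fun g : G => (β : G ⧸ N → ℂ) g) :=
      isIrrCharacter_comp_surjective β.2 (QuotientGroup.mk' N) (QuotientGroup.mk'_surjective N)
    have hs : (χs : G → ℂ) = fun g : G => (β : G ⧸ N → ℂ) g := by
      rw [← huniq ⟨_, hχ1⟩ (by rw [charDegree_eq (χ := fun g : G => (β : G ⧸ N → ℂ) g)
        (by rw [QuotientGroup.mk_one]; exact (coe_charDegree β).symm)]; exact hβp)]
    have hones : ∀ θ : IrrCharacter N, classInner (fun n : N => (χs : G → ℂ) n) (θ : N → ℂ) ≠ 0 →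
        (θ : N → ℂ) = fun _ => 1 := by
      intro θ hne
      by_contra hθ1
      apply hne
      have e : (fun n : N => (χs : G → ℂ) n) = ((β : G ⧸ N → ℂ) 1) • fun _ : N => (1 : ℂ) := by
        funext n
        rw [hs, Pi.smul_apply, smul_eq_mul, mul_one]
        show (β : G ⧸ N → ℂ) ((n : G) : G ⧸ N) = _
        rw [(QuotientGroup.eq_one_iff (n : G)).mpr n.2]
      rw [e, classInner_smul_left, classInner_irr isIrrCharacter_one θ.2, if_neg (Ne.symm hθ1), mul_zero]
    have hfix : ∀ θ : IrrCharacter N, ∀ g, conjFn N (θ : N → ℂ) g = (θ : N → ℂ) := by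
      intro θ g
      by_contra hg
      have hI : inertia N (θ : N → ℂ) ≠ ⊤ := fun h => hg (mem_inertia.mp (h ▸ Subgroup.mem_top g))
      obtain ⟨χ, hχ⟩ := exists_over N θ.2
      rw [hover θ hI χ hχ] at hχ
      apply hg
      rw [hones θ hχ]
      rfl
    have hN1 : ∀ θ : IrrCharacter N, (θ : N → ℂ) = fun _ => 1 := by
      intro θ
      obtain ⟨D, hD, -⟩ := exists_detHom θ.2.isCharacter
      obtain ⟨χ, hχ, hext⟩ := exists_extension_of_coprime θ.2 (hfix θ) (coe_charDegree θ).symm (m := Nat.card N)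
        (fun n => by rw [← hD, ← Units.val_pow_eq_pow_val, ← map_pow, pow_card_eq_one', map_one, Units.val_one])
        (by
          rw [hk]
          exact Nat.Coprime.mul_right (((Nat.Prime.coprime_iff_not_dvd hpr).mpr (hθdeg θ)).pow_left k)
            (((Nat.Prime.coprime_iff_not_dvd hpr).mpr hpN).pow_left k))
      obtain ⟨hirr, hne⟩ := (gallagher_quot θ.2 (hfix θ) hχ hext).1 β
      refine hones θ ?_
      rw [← huniq ⟨_, hirr⟩ (by
        rw [charDegree_eq (χ := fun g : G => (β : G ⧸ N → ℂ) g * χ g)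
          (d := charDegree (β : G ⧸ N → ℂ) * charDegree (θ : N → ℂ)) (by
            rw [QuotientGroup.mk_one, Nat.cast_mul, coe_charDegree, coe_charDegree, ← hext 1]; rfl)]
        exact hβp.mul_right _)]
      convert hne
    haveI : Subsingleton (IrrCharacter N) := ⟨fun a b => Subtype.ext ((hN1 a).trans (hN1 b).symm)⟩
    have hcl1 : Nat.card (ConjClasses N) ≤ 1 := by
      rw [← card_irr_eq_card_conjClasses]
      exact Finite.card_le_one_iff_subsingleton.mpr inferInstance
    haveI := Finite.card_le_one_iff_subsingleton.mp hcl1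
    have hNbot : N = ⊥ := (Subgroup.eq_bot_iff_forall N).mpr fun n hn => by
      have := ConjClasses.mk_eq_mk_iff_isConj.mp (Subsingleton.elim (ConjClasses.mk (1 : N)) (ConjClasses.mk ⟨n, hn⟩))
      rw [isConj_one_right] at this
      exact (congrArg Subtype.val this :)
    rw [hNbot, Subgroup.index_bot] at hk
    exact hnil (IsPGroup.isNilpotent (IsPGroup.of_card hk))
  -- constituents over an invariant or a moved character
  have hrel : ∀ θ : IrrCharacter N, ∀ χ : IrrCharacter G, classInner (fun n : N => (χ : G → ℂ) n) (θ : N → ℂ) ≠ 0 →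
      charDegree (χ : G → ℂ) = (inertia N (θ : N → ℂ)).index * charDegree (θ : N → ℂ) ∧
      (inertia N (θ : N → ℂ) ≠ ⊤ → inertia N (θ : N → ℂ) = N) := by
    intro θ χ hne
    set T := inertia N (θ : N → ℂ) with hT
    obtain ⟨e, C, he, hC, hcard, hind, hdeg, he1⟩ := indFun_abelian_inertia N T θ.2 hT fun x _ y _ => hab x y
    have hcop : Nat.Coprime (Nat.card N) (N.relIndex T) :=
      Nat.Coprime.coprime_dvd_right (Subgroup.relIndex_dvd_index_of_normal N T) (hk.symm ▸ hN.pow_right k)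
    obtain rfl : e = 1 := he1 hcop
    have hmem : (χ : G → ℂ) ∈ C := by
      by_contra h
      apply hne
      have h1 : classInner (indFun N (θ : N → ℂ)) (χ : G → ℂ) = 0 := by
        rw [hind, Nat.cast_one, one_smul, classInner_sum_left]
        exact Finset.sum_eq_zero fun ψ hψ => classInner_irr_ne (hC ψ hψ) χ.2 fun he => h (he ▸ hψ)
      rw [classInner_indFun N _ χ.2.isClassFunction, ← conj_classInner, map_eq_zero] at h1
      exact h1
    refine ⟨charDegree_eq ?_, fun hTtop => ?_⟩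
    · rw [hdeg _ hmem, Nat.cast_one, mul_one, Nat.cast_mul, coe_charDegree]
    · have hsub : C ⊆ {(χs : G → ℂ)} := by
        intro ψ hψ
        refine Finset.mem_singleton.mpr (congrArg Subtype.val (huniq ⟨ψ, hC ψ hψ⟩ ?_) :)
        rw [charDegree_eq (χ := ψ) (d := T.index * charDegree (θ : N → ℂ)) (by
          rw [hdeg _ hψ, Nat.cast_one, mul_one, Nat.cast_mul, coe_charDegree])]
        refine Dvd.dvd.mul_right (hpdvd _ ?_ fun h => hTtop (Subgroup.index_eq_one.mp h)) _
        rw [← hk]; exact Subgroup.index_dvd_of_le (le_inertia θ.2.isClassFunction)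
      have h1 : C.card = 1 := le_antisymm ((Finset.card_le_card hsub).trans (Finset.card_singleton _).le)
        (Finset.card_pos.mpr ⟨_, hmem⟩)
      rw [h1, one_pow, one_mul] at hcard
      exact le_antisymm (Subgroup.relIndex_eq_one.mp hcard.symm) (le_inertia θ.2.isClassFunction)
  -- the moved characters form one regular orbit
  obtain ⟨θ₀', hθ₀', hθ₀⟩ := classInner_res_ne_zero (N := N) χs.2
  let θ₀ : IrrCharacter N := ⟨θ₀', hθ₀'⟩
  have hmov₀ : inertia N (θ₀ : N → ℂ) ≠ ⊤ := by
    intro h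
    have := (hrel θ₀ χs hθ₀).1
    rw [h, Subgroup.index_top, one_mul] at this
    exact hθdeg θ₀ (this ▸ hχs)
  have hT₀ := (hrel θ₀ χs hθ₀).2 hmov₀
  have hNtop : N ≠ ⊤ := fun h => hmov₀ (by rw [hT₀, h])
  have hmov : ∀ θ : IrrCharacter N, inertia N (θ : N → ℂ) ≠ ⊤ →
      inertia N (θ : N → ℂ) = N ∧ ∃ g : G, (θ : N → ℂ) = conjFn N (θ₀ : N → ℂ) g := by
    intro θ hθ
    obtain ⟨χ, hχ⟩ := exists_over N θ.2
    refine ⟨(hrel θ χ hχ).2 hθ, ?_⟩
    rw [hover θ hθ χ hχ] at hχ
    exact exists_conjFn_eq χs.2 θ₀.2 θ.2 hθ₀ hχ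
  have hmovcard : Nat.card {θ : IrrCharacter N // ¬ inertia N (θ : N → ℂ) = ⊤} = N.index := by
    have hconj : ∀ a b : G, conjFn N (θ₀ : N → ℂ) a = conjFn N (θ₀ : N → ℂ) b ↔ a * b⁻¹ ∈ N := by
      intro a b
      conv_rhs => rw [← hT₀, mem_inertia, ← conjFn_conjFn]
      constructor
      · intro h; rw [h, conjFn_conjFn, mul_inv_cancel, conjFn_one]
      · intro h
        conv_rhs => rw [← h]
        rw [conjFn_conjFn, inv_mul_cancel, conjFn_conjFn, ← mul_one (conjFn N (θ₀ : N → ℂ) a)] <;> simp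
    have hnf : ∀ g, ¬ inertia N (conjFn N (θ₀ : N → ℂ) g) = ⊤ := fun g h => hmov₀ (by
      refine (Subgroup.eq_top_iff' _).mpr fun x => mem_inertia.mpr ?_
      have h1 := mem_inertia.mp (h.symm ▸ Subgroup.mem_top (g⁻¹ * x * g) : (g⁻¹ * x * g) ∈ inertia N (conjFn N (θ₀ : N → ℂ) g))
      rw [conjFn_conjFn] at h1
      have h2 := congrArg (fun f => conjFn N f g⁻¹) h1
      simp only [conjFn_conjFn] at h2
      rw [show g * (g⁻¹ * x * g) * g⁻¹ = x by group, mul_inv_cancel, conjFn_one] at h2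
      exact h2)
    rw [Subgroup.index_eq_card]
    refine (Nat.card_eq_of_bijective (fun q : G ⧸ N =>
      (⟨⟨_, isIrrCharacter_conjFn θ₀.2 q.out⟩, hnf _⟩ : {θ : IrrCharacter N // ¬ inertia N (θ : N → ℂ) = ⊤})) ⟨?_, ?_⟩).symm
    · intro q r h
      have h1 := (hconj q.out r.out).mp (congrArg (fun z => ((z.1 : IrrCharacter N) : N → ℂ)) h)
      rw [← QuotientGroup.eq_one_iff, QuotientGroup.mk_mul, QuotientGroup.mk_inv, QuotientGroup.out_eq',
        QuotientGroup.out_eq', mul_inv_eq_one] at h1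
      exact h1
    · rintro ⟨θ, hθ⟩
      obtain ⟨g, hg⟩ := (hmov θ hθ).2
      refine ⟨(g : G ⧸ N), Subtype.ext (Subtype.ext ?_)⟩
      rw [hg]
      refine (hconj _ _).mpr ?_
      rw [← QuotientGroup.eq_one_iff, QuotientGroup.mk_mul, QuotientGroup.mk_inv, QuotientGroup.out_eq', mul_inv_cancel]
  -- the classes of the normal subgroup
  obtain ⟨P, hP⟩ := Subgroup.exists_right_complement'_of_coprime (N := N) (hk.symm ▸ hN.pow_right k)
  have hPp : IsPGroup p P := IsPGroup.of_card (hP.symm.index_eq_card.symm.trans hk)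
  obtain ⟨hfx, hconjfix, hcount⟩ := fixed_data N P hPp hpN
  have hgen : ∀ g : G, ∃ n : N, ∃ y ∈ P, g = (n : G) * y := fun g => by
    obtain ⟨⟨n, y⟩, h⟩ := (Subgroup.isComplement'_def.mp hP).2 g
    exact ⟨n, y, y.2, h.symm⟩
  set act : G → ConjClasses N → ConjClasses N := fun x => ConjClasses.map (MulAut.conjNormal x).toMonoidHom with hact
  have hactmk : ∀ (x : G) (n : N), act x (ConjClasses.mk n) = ConjClasses.mk (MulAut.conjNormal x n) := fun _ _ => rfl
  have hactmul : ∀ (x y : G) (c : ConjClasses N), act (x * y) c = act x (act y c) := by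
    intro x y c
    obtain ⟨n, rfl⟩ := ConjClasses.mk_surjective c
    simp only [hactmk, map_mul, MulAut.mul_apply]
  have hactN : ∀ (m : N) (c : ConjClasses N), act m c = c := by
    intro m c
    obtain ⟨n, rfl⟩ := ConjClasses.mk_surjective c
    rw [hactmk, ConjClasses.mk_eq_mk_iff_isConj]
    exact (isConj_iff.mpr ⟨m, Subtype.ext (by simp [MulAut.conjNormal_apply])⟩).symm
  have hact1 : ∀ c, act 1 c = c := fun c => by simpa using hactN 1 c
  have hallP : ∀ c, (∀ x ∈ P, act x c = c) → ∀ g, act g c = c := by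
    intro c hc g
    obtain ⟨n, y, hy, rfl⟩ := hgen g
    rw [hactmul, hc y hy, hactN]
  have hfixcard : Nat.card {c : ConjClasses N // ∀ g, act g c = c} =
      Nat.card {θ : IrrCharacter N // inertia N (θ : N → ℂ) = ⊤} := by
    refine ((Nat.card_congr (Equiv.subtypeEquivRight fun c => ?_)).trans hcount).trans
      (Nat.card_congr (Equiv.subtypeEquivRight fun θ => ?_))
    · exact ⟨fun h x _ => h x, hallP c⟩
    · constructor
      · intro h
        refine (Subgroup.eq_top_iff' _).mpr fun g => ?_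
        obtain ⟨n, y, hy, rfl⟩ := hgen g
        rw [mem_inertia, conjFn_mul_mem θ.2.isClassFunction]
        exact h y hy
      · exact fun h x _ => mem_inertia.mp (h ▸ Subgroup.mem_top x)
  have hfree : ∀ x : G, x ∉ N → ∀ c, act x c = c → ∀ g, act g c = c := by
    intro x hx
    let σ : IrrCharacter N ≃ IrrCharacter N :=
      { toFun := fun θ => ⟨_, isIrrCharacter_conjFn θ.2 x⁻¹⟩
        invFun := fun θ => ⟨_, isIrrCharacter_conjFn θ.2 x⟩
        left_inv := fun θ => Subtype.ext (by simp [conjFn_conjFn])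
        right_inv := fun θ => Subtype.ext (by simp [conjFn_conjFn]) }
    let τ : ConjClasses N ≃ ConjClasses N :=
      { toFun := act x
        invFun := act x⁻¹
        left_inv := fun c => by rw [← hactmul, inv_mul_cancel]; exact hact1 c
        right_inv := fun c => by rw [← hactmul, mul_inv_cancel]; exact hact1 c }
    have key := card_fixed_irr_eq σ τ fun θ g g' hg => by
      show conjFn N (θ : N → ℂ) x⁻¹ g' = _
      have h1 := ConjClasses.mk_eq_mk_iff_isConj.mp hg
      rw [conjFn_eq_comp]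
      refine (isClassFunction_iff_isConj.mp θ.2.isClassFunction) _ _ ?_
      have h2 := (MulAut.conjNormal x⁻¹).toMonoidHom.map_isConj h1
      simpa [MulAut.conjNormal_apply, mul_assoc] using h2
    have hl : Nat.card {θ : IrrCharacter N // σ θ = θ} = Nat.card {θ : IrrCharacter N // inertia N (θ : N → ℂ) = ⊤} := by
      refine Nat.card_congr (Equiv.subtypeEquivRight fun θ => ⟨fun h => ?_, fun h => ?_⟩)
      · by_contra hne
        have hx' : x⁻¹ ∈ inertia N (θ : N → ℂ) := mem_inertia.mpr (congrArg Subtype.val h)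
        rw [(hmov θ hne).1] at hx'
        exact hx (inv_mem_iff.mp hx')
      · exact Subtype.ext (mem_inertia.mp (h ▸ Subgroup.mem_top x⁻¹))
    rw [hl, ← hfixcard] at key
    have hbij := (Nat.bijective_iff_injective_and_card
      (fun c : {c : ConjClasses N // ∀ g, act g c = c} => (⟨c.1, c.2 x⟩ : {c : ConjClasses N // τ c = c}))).mpr
      ⟨fun a b h => Subtype.ext (congrArg Subtype.val h :), key⟩
    intro c hc
    obtain ⟨d, hd⟩ := hbij.2 ⟨c, hc⟩
    have he : d.1 = c := congrArg Subtype.val hd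
    exact he ▸ d.2
  have hmovcls : Nat.card {c : ConjClasses N // ¬ ∀ g, act g c = c} = N.index := by
    haveI := Fintype.ofFinite (ConjClasses N)
    haveI := Fintype.ofFinite (IrrCharacter N)
    rw [Nat.card_eq_fintype_card, Fintype.card_subtype_compl, ← Nat.card_eq_fintype_card,
      ← Nat.card_eq_fintype_card, hfixcard, ← card_irr_eq_card_conjClasses, ← hmovcard,
      Nat.card_eq_fintype_card (α := {θ : IrrCharacter N // ¬ inertia N (θ : N → ℂ) = ⊤}),
      Fintype.card_subtype_compl, ← Nat.card_eq_fintype_card, ← Nat.card_eq_fintype_card]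
  obtain ⟨⟨c₀, hc₀⟩⟩ : Nonempty {c : ConjClasses N // ¬ ∀ g, act g c = c} := by
    refine (Nat.card_pos_iff.mp ?_).1
    rw [hmovcls]; exact Nat.pos_of_ne_zero Subgroup.index_ne_zero_of_finite
  obtain ⟨k₀, rfl⟩ := ConjClasses.mk_surjective c₀
  have hcent : ∀ n : N, (¬ ∀ g, act g (ConjClasses.mk n) = ConjClasses.mk n) →
      Subgroup.centralizer ({(n : G)} : Set G) ≤ N := by
    intro n hn y hy
    by_contra hyN
    refine hn (hfree y hyN _ ?_)
    rw [hactmk]
    congr 1
    refine Subtype.ext ?_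
    rw [MulAut.conjNormal_apply, Subgroup.mem_centralizer_singleton_iff.mp hy, mul_inv_cancel_right]
  have horbit : ∀ n : N, (¬ ∀ g, act g (ConjClasses.mk n) = ConjClasses.mk n) → IsConj (k₀ : G) (n : G) := by
    intro n hn
    have hne : ∀ a, ¬ ∀ g, act g (act a (ConjClasses.mk k₀)) = act a (ConjClasses.mk k₀) := fun a h => hc₀ fun g => by
      have h1 := h (a * g * a⁻¹)
      rw [← hactmul, show a * g * a⁻¹ * a = a * g by group, hactmul] at h1
      have h2 := congrArg (act a⁻¹) h1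
      rwa [← hactmul, ← hactmul, ← hactmul, inv_mul_cancel, one_mul, hact1] at h2
    have hbij := (Nat.bijective_iff_injective_and_card
      (fun q : G ⧸ N => (⟨act q.out (ConjClasses.mk k₀), hne _⟩ : {c : ConjClasses N // ¬ ∀ g, act g c = c}))).mpr
      ⟨fun q r h => by
        have h1 := congrArg (act r.out⁻¹) (congrArg Subtype.val h)
        simp only [← hactmul, inv_mul_cancel] at h1
        rw [hact1] at h1
        by_contra hqr
        refine hc₀ (hfree (r.out⁻¹ * q.out) (fun hmem => hqr ?_) _ h1)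
        rw [← QuotientGroup.eq_one_iff, QuotientGroup.mk_mul, QuotientGroup.mk_inv, QuotientGroup.out_eq',
          QuotientGroup.out_eq', inv_mul_eq_one] at hmem
        exact hmem.symm, by rw [hmovcls, Subgroup.index_eq_card]⟩
    obtain ⟨q, hq⟩ := hbij.2 ⟨_, hn⟩
    have h1 := ConjClasses.mk_eq_mk_iff_isConj.mp (congrArg Subtype.val hq)
    refine IsConj.trans ?_ (N.subtype.map_isConj h1)
    exact isConj_iff.mpr ⟨q.out, by simp [MulAut.conjNormal_apply]⟩
  -- the classes of the group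
  have hsize : ∀ g : G, Nat.card (ConjClasses.mk g).carrier = (Subgroup.centralizer ({g} : Set G)).index := fun g => by
    rw [Nat.card_coe_set_eq, Cfsg.Lib.Solv.carrier_ncard_eq_index]
  have hsmall : ∀ g : G, (∃ w, IsConj g w ∧ P ≤ Subgroup.centralizer ({w} : Set G)) →
      ¬ p ∣ Nat.card (ConjClasses.mk g).carrier := by
    rintro g ⟨w, hw, hle⟩ hd
    rw [ConjClasses.mk_eq_mk_iff_isConj.mpr hw, hsize] at hd
    exact hpN (hd.trans ((Subgroup.index_dvd_of_le hle).trans (dvd_of_eq hP.index_eq_card)))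
  rw [Nat.card_eq_one_iff_unique]
  refine ⟨⟨fun a b => Subtype.ext ?_⟩, ⟨⟨ConjClasses.mk (k₀ : G), ?_⟩⟩⟩
  · suffices h : ∀ c : ConjClasses G, p ∣ Nat.card c.carrier → c = ConjClasses.mk (k₀ : G) from
      (h _ a.2).trans (h _ b.2).symm
    intro c hc
    obtain ⟨g, rfl⟩ := ConjClasses.mk_surjective c
    obtain ⟨n, y, hy, rfl⟩ := hgen g
    by_cases hy1 : y = 1
    · subst hy1
      rw [mul_one] at hc ⊢
      refine ConjClasses.mk_eq_mk_iff_isConj.mpr (IsConj.symm (horbit n fun hall => ?_))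
      obtain ⟨d, hd, hnd⟩ := hfx n fun x _ => (ConjClasses.mk_eq_mk_iff_isConj.mp (hall x)).symm
      exact hsmall _ ⟨d, N.subtype.map_isConj hnd, fun x hx => Subgroup.mem_centralizer_singleton_iff.mpr (hd x hx)⟩ hc
    · exfalso
      have hyN : y ∉ N := fun h => hy1 (Subgroup.mem_bot.mp (hP.disjoint.eq_bot ▸ ⟨h, hy⟩ : y ∈ (⊥ : Subgroup G)))
      have hyo : Nat.Coprime (orderOf y) (Nat.card N) := by
        obtain ⟨j, hj⟩ := IsPGroup.iff_orderOf.mp hPp ⟨y, hy⟩
        rw [Subgroup.orderOf_mk] at hj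
        rw [hj]; exact hN.symm.pow_left j
      obtain ⟨m, hm, c, hc', hcy, heq, -⟩ := exists_conj_coprime_coset (x := y)
        (by rw [Subgroup.normalizer_eq_top]; exact Subgroup.mem_top y) hyo n.2
      -- the class of `c` is fixed
      have hcfix := hfree y hyN (ConjClasses.mk (⟨c, hc'⟩ : N)) (by
        rw [hactmk]; congr 1; refine Subtype.ext ?_
        rw [MulAut.conjNormal_apply, ← hcy, mul_inv_cancel_right])
      obtain ⟨d, hd, hcd⟩ := hfx ⟨c, hc'⟩ fun x _ => (ConjClasses.mk_eq_mk_iff_isConj.mp (hcfix x)).symm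
      have hzp : IsPGroup p (Subgroup.zpowers y) := hPp.to_le (Subgroup.zpowers_le.mpr hy)
      obtain ⟨a, -, hay, had⟩ := (fixed_data N (Subgroup.zpowers y) hzp hpN).2.1 ⟨c, hc'⟩ d
        (fun x hx => by
          obtain ⟨i, rfl⟩ := Subgroup.mem_zpowers_iff.mp hx
          exact (Commute.zpow_left (show Commute y c from hcy.symm) i).eq)
        (fun x hx => hd x (Subgroup.zpowers_le.mpr hy hx)) hcd
      refine hsmall _ ⟨(d : G) * y, ?_, fun x hx => Subgroup.mem_centralizer_singleton_iff.mpr ?_⟩ hc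
      · refine (isConj_iff.mpr ⟨m, heq⟩).trans (isConj_iff.mpr ⟨a, ?_⟩)
        have hay' := hay y (Subgroup.mem_zpowers y)
        calc a * (c * y) * a⁻¹ = a * c * (y * a⁻¹) := by group
          _ = a * c * (a⁻¹ * y) := by rw [(show Commute a⁻¹ y from (Commute.inv_left hay'.symm)).eq]
          _ = (d : G) * y := by rw [← had]; group
      · have hxy : x * y = y * x := by
          have h1 : x * y * x⁻¹ * y⁻¹ = 1 := Subgroup.mem_bot.mp (hP.disjoint.eq_bot ▸
            ⟨hab x y, P.mul_mem (P.mul_mem (P.mul_mem hx hy) (P.inv_mem hx)) (P.inv_mem hy)⟩ : _ ∈ (⊥ : Subgroup G))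
          exact mul_inv_eq_iff_eq_mul.mp (mul_inv_eq_one.mp h1)
        rw [← mul_assoc, hd x hx, mul_assoc, hxy, mul_assoc]
  · rw [hsize]
    refine dvd_trans ?_ (Subgroup.index_dvd_of_le (hcent k₀ hc₀))
    rw [hk]
    exact hpdvd _ dvd_rfl fun h => hNtop (Subgroup.index_eq_one.mp (hk.trans h))

end Cfsg.Agent.S4763
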