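import Cfsg.Statements.S4784
import Cfsg.Agent.Lib.Characters.FSValues
import Cfsg.Agent.Lib.Characters.Gallagher
-- import your own Cfsg.Agent.* helpers here

set_option autoImplicit false
open Cfsg Cfsg.Lib.Characters
open scoped ComplexConjugate

namespace Cfsg.Agent.S4784


/-- A real character trivial on a normal subgroup of odd index is trivial. -/
theorem eq_one_of_real {G : Type*} [Group G] [Fintype G] (K : Subgroup G) [K.Normal] (hodd : Odd K.index)
    (χ : IrrCharacter G) (hreal : ∀ g, conj ((χ : G → ℂ) g) = (χ : G → ℂ) g)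
    (hker : ∀ (g : G) (k : K), (χ : G → ℂ) (g * k) = (χ : G → ℂ) g) : (χ : G → ℂ) = fun _ => 1 := by
  classical
  haveI := Fintype.ofFinite K
  haveI := Fintype.ofFinite (G ⧸ K)
  by_contra hne
  obtain ⟨d, hd⟩ := exists_degree χ.2.isCharacter
  have hK1 : ∀ k : K, (χ : G → ℂ) k = d := fun k => by rw [← one_mul (k : G), hker, hd]
  have hone : IsIrrCharacter K (fun _ : K => (1 : ℂ)) := isIrrCharacter_one
  have hne0 : classInner (fun k : K => (χ : G → ℂ) k) (fun _ : K => (1 : ℂ)) ≠ 0 := by
    rw [show (fun k : K => (χ : G → ℂ) k) = (d : ℂ) • (fun _ : K => (1 : ℂ)) from funext fun k => by simp [hK1],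
      classInner_smul_left, classInner_irr_self hone, mul_one, ← hd]
    exact χ.2.one_ne_zero
  have hdiv := (degree_dvd_of_normal hone χ.2 hne0 hd (by simp : (fun _ : K => (1 : ℂ)) 1 = ((1 : ℕ) : ℂ))).2
  rw [Nat.div_one] at hdiv
  have hdodd : Odd d := hodd.of_dvd_nat hdiv
  have hsum : ∑ g : G, (χ : G → ℂ) g = 0 := by
    have h := classInner_irr_ne χ.2 isIrrCharacter_one hne
    rw [classInner] at h
    simpa using h
  have hquot : ∑ q : G ⧸ K, (χ : G → ℂ) q.out = 0 := by
    have hbij : Function.Bijective (fun qn : (G ⧸ K) × K => qn.1.out * (qn.2 : G)) := by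
      refine ⟨fun a b h => ?_, fun g => ?_⟩
      · have h' : a.1.out * (a.2 : G) = b.1.out * (b.2 : G) := h
        have hq := congrArg (fun x : G => (x : G ⧸ K)) h'
        simp only [QuotientGroup.mk_mul, QuotientGroup.out_eq', (QuotientGroup.eq_one_iff _).mpr a.2.2,
          (QuotientGroup.eq_one_iff _).mpr b.2.2, mul_one] at hq
        rw [hq, mul_right_inj] at h'
        exact Prod.ext hq (Subtype.ext h')
      · exact ⟨((g : G ⧸ K), ⟨(g : G ⧸ K).out⁻¹ * g, QuotientGroup.eq.mp (QuotientGroup.out_eq' _)⟩), by simp⟩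
    rw [← (Equiv.ofBijective _ hbij).sum_comp, Fintype.sum_prod_type] at hsum
    simp only [Equiv.ofBijective_apply, hker, Finset.sum_const, Finset.card_univ, nsmul_eq_mul,
      ← Finset.mul_sum] at hsum
    exact (mul_eq_zero.mp hsum).resolve_left (Nat.cast_ne_zero.mpr Fintype.card_ne_zero)
  have hval : ∀ g g' : G, (g : G ⧸ K) = g' → (χ : G → ℂ) g = (χ : G → ℂ) g' := fun g g' h => by
    rw [show g' = g * ((⟨_, QuotientGroup.eq.mp h⟩ : K) : G) by simp, hker]
  let f : G ⧸ K → AlgInt := fun q => ⟨(χ : G → ℂ) q.out, char_isIntegral χ.2.isCharacter _⟩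
  let π := Ideal.Quotient.mk (Ideal.span {(2 : AlgInt)})
  have hf : ∀ q, f q⁻¹ = f q := fun q => Subtype.ext (by
    show (χ : G → ℂ) (q⁻¹).out = (χ : G → ℂ) q.out
    rw [hval _ (q.out)⁻¹ (by simp), char_inv_eq_conj χ.2.isCharacter, hreal])
  have h2 : π (f 1) = 0 := by
    have h0 : π (∑ q, f q) = 0 := by
      rw [show (∑ q, f q) = 0 from Subtype.ext (by push_cast; exact hquot), map_zero]
    rw [← Finset.add_sum_erase _ _ (Finset.mem_univ (1 : G ⧸ K)), map_add, map_sum] at h0
    rwa [Finset.sum_involution (fun q _ => q⁻¹), add_zero] at h0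
    · intro q _
      rw [hf, ← map_add, ← two_mul, map_mul, show π 2 = 0 from
        Ideal.Quotient.eq_zero_iff_mem.mpr (Ideal.subset_span rfl), zero_mul]
    · intro q hq _ h
      apply (Finset.mem_erase.mp hq).1
      have h3 : q ^ 2 = 1 := by
        rw [sq]
        nth_rewrite 1 [← h]
        rw [inv_mul_cancel]
      have h4 : q ^ Nat.card (G ⧸ K) = 1 := pow_card_eq_one'
      have h5 := pow_gcd_eq_one.mpr ⟨h3, h4⟩
      rwa [← Subgroup.index_eq_card, (Nat.coprime_two_left.mpr hodd).gcd_eq_one, pow_one] at h5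
    · intro q hq
      exact Finset.mem_erase.mpr ⟨inv_ne_one.mpr (Finset.mem_erase.mp hq).1, Finset.mem_univ _⟩
    · intro q _; exact inv_inv q
  obtain ⟨b, hb⟩ := Ideal.mem_span_singleton.mp (Ideal.Quotient.eq_zero_iff_mem.mp h2)
  have hb' := congrArg (Subtype.val : AlgInt → ℂ) hb
  push_cast at hb'
  have h1 : (f 1 : ℂ) = d := by
    show (χ : G → ℂ) (1 : G ⧸ K).out = d
    rw [hval _ 1 (by simp), hd]
  rw [h1] at hb'
  have h3 : 2 ∣ d := dvd_of_isIntegral_div two_ne_zero (by
    have hb2 : (d : ℂ) = 2 * (b : ℂ) := hb'.trans rfl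
    rw [hb2, Nat.cast_ofNat, mul_div_cancel_left₀ _ two_ne_zero]
    exact b.2)
  exact (Nat.not_even_iff_odd.mpr hdodd) (even_iff_two_dvd.mpr h3)

/-- Let H be a subgroup of the finite group G and consider the permutation character of G on the cosets of H (the function induced from the principal character of H). Then exactly one irreducible constituent of it is real-valued with Frobenius–Schur indicator +1 (namely the principal character) if and only if the normal core of H has odd index in G. -/
theorem result {G : Type*} [Group G] [Fintype G] (H : Subgroup G) : Nat.card {χ : Cfsg.IrrCharacter G // Cfsg.classInner (Cfsg.indFun H (fun _ : H => (1 : ℂ))) (χ : G → ℂ) ≠ 0 ∧ (∀ g : G, (starRingEnd ℂ) ((χ : G → ℂ) g) = (χ : G → ℂ) g) ∧ (Nat.card G : ℂ)⁻¹ * ∑ g : G, (χ : G → ℂ) (g * g) = 1} = 1 ↔ Odd H.normalCore.index := by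
  classical
  haveI := Fintype.ofFinite H
  set one : IrrCharacter G := ⟨fun _ => 1, isIrrCharacter_one⟩ with hone
  choose m hm using fun χ : IrrCharacter G =>
    classInner_nat (isCharacter_indFun H (isCharacter_one (G := H))) χ.2.isCharacter
  have hm' : ∀ χ : IrrCharacter G, ∑ h : H, (χ : G → ℂ) h = (Nat.card H : ℂ) * m χ := by
    intro χ
    have h1 := hm χ
    rw [classInner_indFun H _ χ.2.isClassFunction, classInner, inv_mul_eq_iff_eq_mul₀
      (Nat.cast_ne_zero.mpr Nat.card_pos.ne')] at h1
    have h2 := congrArg conj h1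
    simpa using h2
  have hm1 : m one = 1 := by
    have h := hm' one
    simp only [one, Finset.sum_const, Finset.card_univ, nsmul_eq_mul, mul_one, ← Nat.card_eq_fintype_card] at h
    have h2 : (1 : ℂ) = (m one : ℂ) := mul_left_cancel₀ (Nat.cast_ne_zero.mpr (Nat.card_pos (α := H)).ne') (by rw [mul_one]; exact h)
    exact_mod_cast h2.symm
  have hν1 : (Nat.card G : ℂ)⁻¹ * ∑ g : G, (one : G → ℂ) (g * g) = 1 := by
    simp only [one, Finset.sum_const, Finset.card_univ, nsmul_eq_mul, mul_one, ← Nat.card_eq_fintype_card]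
    exact inv_mul_cancel₀ (Nat.cast_ne_zero.mpr Nat.card_pos.ne')
  let P : IrrCharacter G → Prop := fun χ =>
    classInner (indFun H (fun _ : H => (1 : ℂ))) (χ : G → ℂ) ≠ 0 ∧
      (∀ g : G, conj ((χ : G → ℂ) g) = (χ : G → ℂ) g) ∧ (Nat.card G : ℂ)⁻¹ * ∑ g : G, (χ : G → ℂ) (g * g) = 1
  have hPone : P one := ⟨by rw [hm, hm1]; norm_num, fun g => map_one _, hν1⟩
  haveI : Nonempty {χ // P χ} := ⟨⟨one, hPone⟩⟩
  show Nat.card {χ // P χ} = 1 ↔ _
  set K := H.normalCore with hK
  constructor
  · intro hcard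
    have huniq : ∀ χ, P χ → χ = one := fun χ hχ => congrArg Subtype.val
      ((Nat.card_eq_one_iff_unique.mp hcard).1.elim (⟨χ, hχ⟩ : {χ // P χ}) ⟨one, hPone⟩)
    let sq : Finset G := Finset.univ.filter fun x => x * x ∈ H
    have hsq : (sq.card : ℂ) = (Nat.card H : ℂ) *
        ∑ χ : IrrCharacter G, ((Nat.card G : ℂ)⁻¹ * ∑ x, conj ((χ : G → ℂ) (x * x))) * m χ := by
      have h1 : (sq.card : ℂ) = ∑ h : H, ((Finset.univ.filter fun x : G => x * x = h).card : ℂ) := by
        rw [← Nat.cast_sum, Nat.cast_inj, Finset.card_eq_sum_card_fiberwise (f := fun x => x * x)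
          (t := Finset.univ.filter fun g : G => g ∈ H) (fun x hx => by simpa [sq] using hx),
          Finset.sum_subtype _ (p := (· ∈ H)) (by simp)]
        refine Finset.sum_congr rfl fun h _ => congrArg _ ?_
        ext x
        simp only [sq, Finset.mem_filter, Finset.mem_univ, true_and]
        exact ⟨fun hx => hx.2, fun hx => ⟨hx ▸ h.2, hx⟩⟩
      rw [h1, Finset.sum_congr rfl fun (h : H) _ => card_sqrt_eq_sum (h : G), Finset.sum_comm, Finset.mul_sum]
      refine Finset.sum_congr rfl fun χ _ => ?_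
      rw [← Finset.mul_sum, hm']
      ring
    have hle : sq.card ≤ Nat.card H := by
      have hre := congrArg Complex.re hsq
      rw [Complex.natCast_re, Complex.mul_re, Complex.natCast_im, zero_mul, sub_zero, Complex.natCast_re,
        Complex.re_sum, ← Finset.add_sum_erase _ _ (Finset.mem_univ one)] at hre
      have hterm : ∀ χ ∈ Finset.univ.erase one,
          (((Nat.card G : ℂ)⁻¹ * ∑ x, conj ((χ : G → ℂ) (x * x))) * m χ).re ≤ 0 := by
        intro χ hχ
        rcases eq_or_ne (m χ) 0 with h0 | h0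
        · simp [h0]
        have hc : (Nat.card G : ℂ)⁻¹ * ∑ x, conj ((χ : G → ℂ) (x * x))
            = conj ((Nat.card G : ℂ)⁻¹ * ∑ x, (χ : G → ℂ) (x * x)) := by
          rw [map_mul, map_inv₀, map_natCast, map_sum]
        by_cases hr : ∀ g, conj ((χ : G → ℂ) g) = (χ : G → ℂ) g
        · rcases fs_sign_of_real χ.2 hr with h | h
          · exact absurd (huniq χ ⟨by rw [hm]; exact Nat.cast_ne_zero.mpr h0, hr, h⟩) (Finset.mem_erase.mp hχ).1
          · rw [hc, h]
            simp
        · push Not at hr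
          rw [hc, fs_zero_of_nonreal χ.2 hr]
          simp
      have h1 : (((Nat.card G : ℂ)⁻¹ * ∑ x, conj ((one : G → ℂ) (x * x))) * m one).re = 1 := by
        rw [hm1, Nat.cast_one, mul_one, show (∑ x, conj ((one : G → ℂ) (x * x))) = ∑ x, (one : G → ℂ) (x * x) from
          Finset.sum_congr rfl fun x _ => map_one _, hν1, Complex.one_re]
      have h2 := Finset.sum_nonpos hterm
      have h3 : (sq.card : ℝ) ≤ Nat.card H := by
        rw [hre, h1]
        nlinarith [(Nat.cast_nonneg (Nat.card H) : (0 : ℝ) ≤ _)]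
      exact_mod_cast h3
    have hsub : (Finset.univ.filter fun g : G => g ∈ H) ⊆ sq := fun x hx => by
      simp only [sq, Finset.mem_filter, Finset.mem_univ, true_and] at hx ⊢
      exact mul_mem hx hx
    have heq := Finset.eq_of_subset_of_card_le hsub (hle.trans (le_of_eq (by
      rw [Nat.card_eq_fintype_card, Fintype.card_subtype])))
    have hroot : ∀ x : G, x * x ∈ H → x ∈ H := fun x hx => by
      have h4 : x ∈ sq := Finset.mem_filter.mpr ⟨Finset.mem_univ _, hx⟩
      rw [← heq] at h4
      exact (Finset.mem_filter.mp h4).2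
    rw [← Nat.not_even_iff_odd, even_iff_two_dvd, Subgroup.index_eq_card]
    intro hev
    haveI : Fact (Nat.Prime 2) := ⟨Nat.prime_two⟩
    obtain ⟨q, hq⟩ := exists_prime_orderOf_dvd_card' 2 hev
    obtain ⟨x, rfl⟩ := QuotientGroup.mk_surjective q
    have hxx : x * x ∈ K := by
      rw [← QuotientGroup.eq_one_iff, QuotientGroup.mk_mul, ← pow_two, ← hq, pow_orderOf_eq_one]
    have hxK : x ∈ K := fun b => by
      refine hroot _ ?_
      have := H.normalCore_le (H.normalCore_normal.conj_mem _ hxx b)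
      convert this using 1
      group
    rw [(QuotientGroup.eq_one_iff x).mpr hxK, orderOf_one] at hq
    exact absurd hq (by norm_num)
  · intro hodd
    refine Nat.card_eq_one_iff_unique.mpr ⟨⟨fun a b => Subtype.ext ?_⟩, inferInstance⟩
    suffices h : ∀ χ, P χ → χ = one by rw [h _ a.2, h _ b.2]
    rintro χ ⟨hne, hreal, -⟩
    haveI := Fintype.ofFinite K
    rw [hm, Nat.cast_ne_zero] at hne
    have hKne : classInner (fun k : K => (χ : G → ℂ) k) (fun _ : K => (1 : ℂ)) ≠ 0 := by
      intro h0
      apply hne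
      obtain ⟨a, ha⟩ := exists_decomposition (isCharacter_restrict χ.2.isCharacter H)
      choose n hn using fun ν : IrrCharacter H =>
        classInner_nat (isCharacter_comp ν.2.isCharacter (Subgroup.inclusion H.normalCore_le)) (isCharacter_one (G := K))
      have hsum : classInner (fun k : K => (χ : G → ℂ) k) (fun _ : K => (1 : ℂ)) = ((∑ ν, a ν * n ν : ℕ) : ℂ) := by
        rw [show (fun k : K => (χ : G → ℂ) k) = ∑ ν : IrrCharacter H, (a ν : ℂ) •
            (fun k => (ν : H → ℂ) (Subgroup.inclusion H.normalCore_le k))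
          from funext fun k => by simpa using congrFun ha (Subgroup.inclusion H.normalCore_le k),
          classInner_sum_left, Nat.cast_sum]
        exact Finset.sum_congr rfl fun ν _ => by rw [classInner_smul_left, hn, Nat.cast_mul]
      let oneH : IrrCharacter H := ⟨fun _ => 1, isIrrCharacter_one⟩
      rw [h0, eq_comm, Nat.cast_eq_zero, Finset.sum_eq_zero_iff] at hsum
      have hn1 : n oneH = 1 := by
        have h1 := hn oneH
        have h2 : classInner (fun _ : K => (1 : ℂ)) (fun _ : K => (1 : ℂ)) = 1 := classInner_irr_self isIrrCharacter_one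
        exact_mod_cast (h1.symm.trans h2)
      have h3 := hsum oneH (Finset.mem_univ _)
      rw [hn1, mul_one] at h3
      have h4 : classInner (fun h : H => (χ : G → ℂ) h) (oneH : H → ℂ) = (a oneH : ℂ) := by
        rw [ha]; exact classInner_sum_irr _ _
      have h5 := hm χ
      rw [classInner_indFun H _ χ.2.isClassFunction, ← conj_classInner,
        show classInner (fun h : H => (χ : G → ℂ) h) (fun _ : H => (1 : ℂ)) = (a oneH : ℂ) from h4, h3,
        Nat.cast_zero, map_zero] at h5
      exact_mod_cast h5.symm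
    have horb : orbitFinset K (fun _ : K => (1 : ℂ)) = {fun _ : K => (1 : ℂ)} := by
      ext f
      rw [mem_orbitFinset, Finset.mem_singleton]
      exact ⟨fun ⟨g, hg⟩ => hg, fun h => ⟨1, by rw [conjFn_one, h]⟩⟩
    have hres := congrFun (clifford χ.2 isIrrCharacter_one hKne)
    refine Subtype.ext (eq_one_of_real K hodd χ hreal fun g k => ?_)
    rw [show g * (k : G) = (g * k * g⁻¹) * g by group]
    refine char_mul_ker χ.2.isCharacter ?_ g
    have e1 := hres ⟨g * k * g⁻¹, H.normalCore_normal.conj_mem _ k.2 g⟩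
    have e2 := hres 1
    rw [horb, Finset.sum_singleton] at e1 e2
    simp only [Pi.smul_apply, smul_eq_mul, mul_one, OneMemClass.coe_one] at e1 e2
    rw [e1, e2]

end Cfsg.Agent.S4784
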