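import Cfsg.Statements.S4796
import Mathlib
import Cfsg.Agent.Lib.Blocks.Codegree
import Cfsg.Agent.Lib.Solv.Frobenius

set_option autoImplicit false
open Cfsg

namespace Cfsg.Agent.S4796

/-- Let G be a finite group with a faithful irreducible complex character χ whose codegree #G / χ(1) is a prime p (for a faithful character the kernel is trivial, so the codegree is #G / χ(1)). Then either G is cyclic of order p, or G is a Frobenius group whose Frobenius kernel has order p: some proper non-trivial subgroup H satisfies H ∩ gHg⁻¹ = 1 for every element g outside H, and the set of elements lying in no conjugate of H, together with the identity, has exactly p elements. -/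
theorem result {G : Type*} [Group G] [Finite G] (χ : Cfsg.IrrCharacter G) (hfaith : ∀ g : G, (χ : G → ℂ) g = (χ : G → ℂ) 1 → g = 1) (p : ℕ) (hp : p.Prime) (hcod : Nat.card G = p * Cfsg.charDegree (χ : G → ℂ)) : (IsCyclic G ∧ Nat.card G = p) ∨ ∃ H : Subgroup G, Cfsg.IsFrobeniusComplement H ∧ Nat.card ↥(Cfsg.frobeniusKernel H) = p := by
  classical
  haveI := Fintype.ofFinite G
  haveI : Fact p.Prime := ⟨hp⟩
  obtain ⟨d, hd0, hd⟩ := χ.2.exists_degree_pos
  rw [Cfsg.Lib.Blocks.charDegree_eq hd] at hcod
  rcases eq_or_ne d 1 with rfl | hd1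
  · rw [mul_one] at hcod
    exact Or.inl ⟨isCyclic_of_prime_card hcod, hcod⟩
  right
  obtain ⟨P, hP, hPn, hdp⟩ := Cfsg.Lib.Blocks.sylow_normal_of_prime_codegree χ.2 hd hd1 hcod
  haveI := hPn
  obtain ⟨H, hH⟩ := Subgroup.exists_right_complement'_of_coprime P.card_coprime_index
  have hHc : Nat.card H = d := by
    rw [← hH.symm.index_eq_card]
    have := Subgroup.card_mul_index (P : Subgroup G)
    rw [hP, hcod] at this
    exact Nat.eq_of_mul_eq_mul_left hp.pos this
  haveI : IsCyclic (P : Subgroup G) := isCyclic_of_prime_card hP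
  set C := Subgroup.centralizer ((P : Subgroup G) : Set G) with hC
  have hPC : (P : Subgroup G) ≤ C := fun a ha => Subgroup.mem_centralizer_iff.2 fun b hb => by
    have h1 : (⟨b, hb⟩ : (P : Subgroup G)) * ⟨a, ha⟩ = ⟨a, ha⟩ * ⟨b, hb⟩ := by
      letI : CommGroup (P : Subgroup G) := IsCyclic.commGroup
      exact mul_comm _ _
    exact congrArg Subtype.val h1
  -- `C = P` by comparing degrees
  have hCidx : C.index * Nat.card (C.subgroupOf C) = Nat.card G := by
    rw [Nat.card_congr (Subgroup.subgroupOfEquivOfLe (le_refl C)).toEquiv, mul_comm, Subgroup.card_mul_index]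
  have hCP : Nat.card C = p := by
    obtain ⟨k, hk⟩ := Cfsg.Lib.Characters.exists_decomposition
      (Cfsg.Lib.Characters.isCharacter_restrict χ.2.isCharacter C)
    have hne : ∃ μ, k μ ≠ 0 := by
      by_contra h
      push Not at h
      have := congrFun hk 1
      simp [h, χ.2.one_ne_zero] at this
    obtain ⟨μ, hμ⟩ := hne
    obtain ⟨j, -, hj⟩ := μ.2.exists_degree_pos
    have hle : d ≤ C.index * j := by
      by_contra hlt
      push Not at hlt
      have hind1 : indFun C (μ : C → ℂ) 1 = ((C.index * j : ℕ) : ℂ) := by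
        rw [Cfsg.Lib.Characters.indFun_one_apply, hj]; push_cast; rfl
      have h1 := Cfsg.Lib.Blocks.eq_of_constituent_degree_le
        (Cfsg.Lib.Characters.isCharacter_indFun C μ.2.isCharacter) χ.2 (by
          rw [Cfsg.Lib.Characters.classInner_indFun _ _ χ.2.isClassFunction, hk,
            Cfsg.Lib.Characters.classInner_sum_right, Finset.sum_eq_single μ]
          · rw [Cfsg.Lib.Characters.classInner_smul_right, Cfsg.Lib.Characters.classInner_irr_self μ.2,
              map_natCast, mul_one]
            exact Nat.cast_ne_zero.2 hμ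
          · intro ν _ hne
            rw [Cfsg.Lib.Characters.classInner_smul_right,
              Cfsg.Lib.Characters.classInner_irr_ne μ.2 ν.2 (fun h => hne (Subtype.ext h.symm)), mul_zero]
          · intro h; exact absurd (Finset.mem_univ _) h) hd hind1 hlt.le
      have h2 : ((C.index * j : ℕ) : ℂ) = (d : ℂ) := by rw [← hind1, h1, hd]
      exact hlt.ne (by exact_mod_cast h2)
    have hsq := Cfsg.Lib.Blocks.degree_sq_le μ.2 hj ((P : Subgroup G).subgroupOf C) fun z hz =>
      Cfsg.Lib.Characters.norm_eq_of_mem_center μ.2 hj (Subgroup.mem_center_iff.2 fun c =>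
        Subtype.ext ((Subgroup.mem_centralizer_iff.1 c.2) z hz).symm)
    rw [Nat.card_congr (Subgroup.subgroupOfEquivOfLe hPC).toEquiv, hP] at hsq
    obtain ⟨a, ha⟩ : p ∣ Nat.card C := hP ▸ Subgroup.card_dvd_of_le hPC
    have hidx : C.index * a = d := by
      refine Nat.eq_of_mul_eq_mul_left hp.pos ?_
      rw [← hcod, ← Subgroup.card_mul_index C, ha]; ring
    rw [← hidx] at hle
    have hidx0 : 0 < C.index := Nat.pos_of_ne_zero Subgroup.index_ne_zero_of_finite
    have h1 : a ≤ j := Nat.le_of_mul_le_mul_left hle hidx0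
    rw [ha] at hsq
    have h2 : j ^ 2 ≤ a := Nat.le_of_mul_le_mul_left hsq hp.pos
    have h3 : a = 1 := by
      have h4 : a * a ≤ a * 1 := by rw [mul_one]; exact (Nat.mul_le_mul h1 h1).trans (by rwa [← pow_two])
      have ha0 : 0 < a := Nat.pos_of_ne_zero fun h0 => by
        rw [h0, mul_zero] at ha; exact Nat.card_pos.ne' ha
      have := Nat.le_of_mul_le_mul_left h4 ha0
      omega
    rw [ha, h3, mul_one]
  have hCeq : (P : Subgroup G) = C := Subgroup.eq_of_le_of_card_ge hPC (by rw [hCP, hP])
  have hHne : H ≠ ⊥ := fun h => hd1 (by rw [← hHc, h, Subgroup.card_bot])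
  have hPne : (P : Subgroup G) ≠ ⊥ := fun h => hp.ne_one (by rw [← hP, h, Subgroup.card_bot])
  have hF := Cfsg.Lib.Solv.isFrobeniusComplement_of_fpf hH hPne hHne fun h hh h1 => by
    rw [Subgroup.eq_bot_iff_forall]
    intro v hv
    by_contra hv1
    have hz : Subgroup.zpowers v = (P : Subgroup G) := Subgroup.eq_of_le_of_card_ge
      (Subgroup.zpowers_le.2 hv.1) (by
        rw [hP, Nat.card_zpowers]
        exact Nat.le_of_dvd (orderOf_pos v) (by
          rcases (Nat.dvd_prime hp).1 (hP ▸ Subgroup.orderOf_dvd_natCard _ hv.1) with h2 | h2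
          · exact absurd (orderOf_eq_one_iff.1 h2) hv1
          · rw [h2]))
    have hhC : h ∈ C := by
      rw [hC, ← hz, Subgroup.mem_centralizer_iff]
      intro w hw
      obtain ⟨i, rfl⟩ := hw
      have hc : Commute v h := (Subgroup.mem_centralizer_singleton_iff.1 hv.2)
      exact (hc.zpow_left i).eq
    exact h1 (Subgroup.disjoint_def.1 hH.disjoint (hCeq ▸ hhC) hh)
  refine ⟨H, hF, ?_⟩
  rw [Cfsg.Lib.Solv.card_frobeniusKernel hF, hH.index_eq_card, hP]

end Cfsg.Agent.S4796
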