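import Cfsg.Statements.S4797
import Mathlib
import Cfsg.Agent.Lib.Blocks.Codegree
import Cfsg.Agent.Lib.Characters.Integrality

set_option autoImplicit false
open Cfsg

namespace Cfsg.Agent.S4797

/-- The codegree of an irreducible complex character χ of a finite group G is [G : ker χ] / χ(1), where ker χ is the set of elements at which χ takes the value χ(1). A non-trivial finite group is perfect if and only if no irreducible complex character of it has prime codegree. -/
theorem result {G : Type*} [Group G] [Finite G] [Nontrivial G] : commutator G = ⊤ ↔ ∀ χ : Cfsg.IrrCharacter G, ¬ ((Nat.card G / (Nat.card {g : G // (χ : G → ℂ) g = (χ : G → ℂ) 1} * Cfsg.charDegree (χ : G → ℂ)))).Prime := by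
  classical
  haveI := Fintype.ofFinite G
  constructor
  · intro hperf χ hprime
    obtain ⟨d, hd0, hd⟩ := χ.2.exists_degree_pos
    rw [Cfsg.Lib.Blocks.charDegree_eq hd] at hprime
    set K := Cfsg.Lib.Characters.charKer χ.2.isCharacter with hK
    haveI : K.Normal := Cfsg.Lib.Characters.charKer_normal _
    obtain ⟨ψ, -, hψi, hψ⟩ := Cfsg.Lib.Characters.exists_of_quotient χ.2.isCharacter
      (fun k (hk : k ∈ K) => (Cfsg.Lib.Characters.mem_charKer _).1 hk)
    have hψd : ψ 1 = (d : ℂ) := by rw [← QuotientGroup.mk_one, hψ, hd]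
    have hcard : Nat.card {g : G // (χ : G → ℂ) g = (χ : G → ℂ) 1} = Nat.card K := rfl
    rw [hcard, ← Nat.div_div_eq_div_mul, Subgroup.card_eq_card_quotient_mul_card_subgroup K,
      Nat.mul_div_cancel _ Nat.card_pos] at hprime
    obtain ⟨q, hq⟩ := Cfsg.Lib.Characters.degree_dvd_card (hψi χ.2) hψd
    rw [hq, Nat.mul_div_cancel_left _ hd0] at hprime
    haveI : Fact q.Prime := ⟨hprime⟩
    have hperfQ : commutator (G ⧸ K) = ⊤ := by
      rw [commutator_def, ← Subgroup.map_top_of_surjective (QuotientGroup.mk' K) (QuotientGroup.mk'_surjective K),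
        ← Subgroup.map_commutator, ← commutator_def, hperf]
    have hno : ∀ (N : Subgroup (G ⧸ K)) [N.Normal], N ≠ ⊤ → ¬ (∀ a b : (G ⧸ K) ⧸ N, a * b = b * a) := by
      intro N _ hne hab
      apply hne
      rw [eq_top_iff, ← hperfQ, commutator_def, Subgroup.commutator_le]
      intro a _ b _
      rw [← QuotientGroup.eq_one_iff, commutatorElement_def, QuotientGroup.mk_mul, QuotientGroup.mk_mul,
        QuotientGroup.mk_mul, QuotientGroup.mk_inv, QuotientGroup.mk_inv,
        hab (QuotientGroup.mk a) (QuotientGroup.mk b), mul_inv_cancel_right, mul_inv_cancel]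
    have hd1 : d ≠ 1 := by
      intro h1
      obtain ⟨lam, hlam⟩ := Cfsg.Lib.Characters.exists_hom_of_degree_one (hψi χ.2).isCharacter
        (by rw [hψd, h1, Nat.cast_one])
      have hker : lam.ker = ⊤ := by
        rw [eq_top_iff, ← hperfQ, commutator_def, Subgroup.commutator_le]
        intro a _ b _
        rw [MonoidHom.mem_ker, map_commutatorElement, commutatorElement_eq_one_iff_mul_comm]
        exact mul_comm _ _
      have hall : ∀ g : G, g ∈ K := fun g => by
        rw [Cfsg.Lib.Characters.mem_charKer, hd, h1, Nat.cast_one, ← hψ g, hlam]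
        simp [MonoidHom.mem_ker.1 (hker.ge (Subgroup.mem_top (g : G ⧸ K)))]
      have : Nat.card (G ⧸ K) = 1 := by
        rw [Nat.card_eq_one_iff_unique]
        refine ⟨⟨fun a b => ?_⟩, ⟨1⟩⟩
        obtain ⟨a, rfl⟩ := QuotientGroup.mk_surjective a
        obtain ⟨b, rfl⟩ := QuotientGroup.mk_surjective b
        rw [(QuotientGroup.eq_one_iff a).2 (hall a), (QuotientGroup.eq_one_iff b).2 (hall b)]
      rw [hq, h1, one_mul] at this
      exact hprime.ne_one this
    obtain ⟨P, hP, hPn, hdq⟩ := Cfsg.Lib.Blocks.sylow_normal_of_prime_codegree (p := q) (hψi χ.2) hψd hd1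
      (by rw [hq, mul_comm])
    haveI := hPn
    -- `P` is central, hence a direct factor
    have hcen : (P : Subgroup (G ⧸ K)) ≤ Subgroup.center (G ⧸ K) := by
      haveI : IsCyclic (P : Subgroup (G ⧸ K)) := isCyclic_of_prime_card hP
      let f := MulAut.conjNormal (H := (P : Subgroup (G ⧸ K)))
      have hker : f.ker = ⊤ := by
        by_contra hne
        refine hno f.ker hne fun a b => ?_
        obtain ⟨a, rfl⟩ := QuotientGroup.mk_surjective a
        obtain ⟨b, rfl⟩ := QuotientGroup.mk_surjective b
        rw [← QuotientGroup.mk_mul, ← QuotientGroup.mk_mul, QuotientGroup.eq, MonoidHom.mem_ker,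
          map_mul, map_inv, map_mul, map_mul]
        have hc : f a * f b = f b * f a :=
          (IsCyclic.mulAutMulEquiv (P : Subgroup (G ⧸ K))).injective (by rw [map_mul, map_mul, mul_comm])
        rw [hc, inv_mul_cancel]
      intro v hv
      rw [Subgroup.mem_center_iff]
      intro g
      have h1 := congrArg (fun φ : MulAut _ => ((φ ⟨v, hv⟩ : (P : Subgroup (G ⧸ K))) : G ⧸ K))
        (MonoidHom.mem_ker.1 (hker.ge (Subgroup.mem_top g)))
      simp only [f, MulAut.conjNormal_apply, MulAut.one_apply] at h1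
      exact mul_inv_eq_iff_eq_mul.1 h1
    obtain ⟨H, hH⟩ := Subgroup.exists_right_complement'_of_coprime P.card_coprime_index
    haveI hHn : H.Normal := by
      refine ⟨fun h hh g => ?_⟩
      obtain ⟨⟨v, k⟩, rfl⟩ := hH.2 g
      have hc : ∀ w : G ⧸ K, w * (v : G ⧸ K) = (v : G ⧸ K) * w := fun w =>
        Subgroup.mem_center_iff.1 (hcen v.2) w
      have e : (v : G ⧸ K) * k * h * ((v : G ⧸ K) * k)⁻¹ = (k : G ⧸ K) * h * (k : G ⧸ K)⁻¹ := by
        rw [mul_inv_rev, mul_assoc (v : G ⧸ K), ← hc, mul_assoc, mul_assoc]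
        rw [← mul_assoc (v : G ⧸ K), ← hc, mul_assoc, mul_inv_cancel, mul_one, ← mul_assoc]
      show (v : G ⧸ K) * k * h * ((v : G ⧸ K) * k)⁻¹ ∈ H
      rw [e]
      exact H.mul_mem (H.mul_mem k.2 hh) (H.inv_mem k.2)
    have hidx : H.index = q := by rw [hH.index_eq_card, hP]
    haveI : IsMulCommutative ((G ⧸ K) ⧸ H) := by
      haveI : IsCyclic ((G ⧸ K) ⧸ H) := isCyclic_of_prime_card (by rw [← Subgroup.index_eq_card, hidx])
      infer_instance
    refine hno H (fun h => ?_) fun a b => mul_comm' a b
    rw [h, Subgroup.index_top] at hidx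
    exact hprime.ne_one hidx.symm
  · intro h
    by_contra hne
    obtain ⟨x, hx⟩ : ∃ x : G, x ∉ commutator G := by
      by_contra h2
      push Not at h2
      exact hne (eq_top_iff.2 fun x _ => h2 x)
    have hx1 : (Abelianization.of x) ≠ 1 := fun h1 =>
      hx (by rw [← Abelianization.ker_of G]; exact MonoidHom.mem_ker.2 h1)
    obtain ⟨φ, hφ⟩ := CommGroup.exists_apply_ne_one_of_hasEnoughRootsOfUnity (Abelianization G) ℂ hx1
    obtain ⟨q, hq, hqd⟩ := Nat.exists_prime_and_dvd (n := orderOf (φ.comp Abelianization.of))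
      (fun h1 => hφ (by
        have := DFunLike.congr_fun (orderOf_eq_one_iff.1 h1) x
        simpa using this))
    set lam := φ.comp Abelianization.of ^ (orderOf (φ.comp Abelianization.of) / q) with hlamdef
    have hfin : IsOfFinOrder (φ.comp (Abelianization.of (G := G))) := by
      refine isOfFinOrder_iff_pow_eq_one.2 ⟨Nat.card G, Nat.card_pos, MonoidHom.ext fun g => ?_⟩
      rw [MonoidHom.pow_apply, ← map_pow, pow_card_eq_one', map_one]; rfl
    have hord : orderOf lam = q := orderOf_pow_orderOf_div hfin.orderOf_pos.ne' hqd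
    let χ : Cfsg.IrrCharacter G := ⟨_, Cfsg.Lib.Characters.isIrrCharacter_linear lam⟩
    refine h χ ?_
    have hd : Cfsg.charDegree (χ : G → ℂ) = 1 := Cfsg.Lib.Blocks.charDegree_eq (by simp [χ])
    have hker : Nat.card {g : G // (χ : G → ℂ) g = (χ : G → ℂ) 1} = Nat.card lam.ker :=
      Nat.card_congr (Equiv.subtypeEquivRight fun g => by simp [χ, MonoidHom.mem_ker])
    have hrange : Nat.card lam.range = q := by
      haveI : Fact q.Prime := ⟨hq⟩
      haveI : Finite lam.range := Finite.of_surjective _ lam.rangeRestrict_surjective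
      have hcyc : IsCyclic lam.range := isCyclic_subgroup_units _
      obtain ⟨g, hg⟩ := hcyc.exists_ofOrder_eq_natCard
      obtain ⟨a, rfl⟩ := lam.rangeRestrict_surjective g
      have h1 : orderOf (lam.rangeRestrict a) ∣ q := orderOf_dvd_of_pow_eq_one (Subtype.ext (by
        show lam a ^ q = 1
        rw [← MonoidHom.pow_apply, ← hord, pow_orderOf_eq_one]; rfl))
      rcases (Nat.dvd_prime hq).1 h1 with h2 | h2
      · exfalso
        haveI : Subsingleton lam.range := (Nat.card_eq_one_iff_unique.1 (hg ▸ h2)).1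
        have h3 : lam = 1 := MonoidHom.ext fun y =>
          congrArg Subtype.val (Subsingleton.elim (lam.rangeRestrict y) 1)
        rw [h3, orderOf_one] at hord
        exact hq.ne_one hord.symm
      · rw [← hg, h2]
    rw [hd, hker, mul_one, ← Subgroup.card_mul_index lam.ker, Nat.mul_div_cancel_left _ Nat.card_pos,
      Subgroup.index_ker, hrange]
    exact hq

end Cfsg.Agent.S4797
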