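import Cfsg.Statements.S4798
import Mathlib
import Cfsg.Agent.Lib.Blocks.Codegree

set_option autoImplicit false
open Cfsg

namespace Cfsg.Agent.S4798

/-- Let p be a prime and χ a faithful irreducible complex character of the finite group G (χ(g) = χ(1) only for g = 1), so that its codegree is #G / χ(1). Then #G / χ(1) is a power of p if and only if χ is induced from a character of a Sylow p-subgroup of G. -/
theorem result {G : Type*} [Group G] [Fintype G] (p : ℕ) [Fact p.Prime] (χ : Cfsg.IrrCharacter G) (hfaith : ∀ g : G, (χ : G → ℂ) g = (χ : G → ℂ) 1 → g = 1) : (∃ k : ℕ, Nat.card G = p ^ k * Cfsg.charDegree (χ : G → ℂ)) ↔ ∃ (P : Sylow p G) (θ : ↥(P : Subgroup G) → ℂ), Cfsg.IsCharacter ↥(P : Subgroup G) θ ∧ (χ : G → ℂ) = Cfsg.indFun (P : Subgroup G) θ := by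
  classical
  obtain ⟨d, hd0, hd⟩ := χ.2.exists_degree_pos
  rw [Cfsg.Lib.Blocks.charDegree_eq hd]
  constructor
  · rintro ⟨k, hk⟩
    obtain ⟨P⟩ : Nonempty (Sylow p G) := inferInstance
    obtain ⟨θ, hθ⟩ := Cfsg.Lib.Blocks.exists_induced_of_codegree P χ.2 hd hk
    exact ⟨P, θ, θ.2.isCharacter, hθ.symm⟩
  · rintro ⟨P, θ, hθ, hind⟩
    obtain ⟨μ, j, hμ, hχd⟩ := Cfsg.Lib.Blocks.exists_irr_of_indFun_irr _ hθ χ.2 hind.symm
    obtain ⟨a, ha⟩ := IsPGroup.iff_card.1 P.2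
    obtain ⟨i, hia, rfl⟩ := (Nat.dvd_prime_pow (Fact.out : p.Prime)).1
      (ha ▸ Cfsg.Lib.Characters.degree_dvd_card μ.2 hμ)
    refine ⟨a - i, ?_⟩
    have h1 : d = (P : Subgroup G).index * p ^ i := by exact_mod_cast hd.symm.trans hχd
    rw [h1, ← Subgroup.card_mul_index (P : Subgroup G), ha]
    obtain ⟨c, rfl⟩ := Nat.exists_eq_add_of_le hia
    rw [Nat.add_sub_cancel_left, pow_add]
    ring

end Cfsg.Agent.S4798
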