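import Cfsg.Statements.S4801
import Mathlib
import Cfsg.Agent.Lib.Blocks.DefectZero
import Cfsg.Agent.Lib.Characters.Induction

set_option autoImplicit false
open Cfsg

namespace Cfsg.Agent.S4801

/-- The codegree of an irreducible complex character χ of a finite group G is [G : ker χ] / χ(1), where ker χ is the set of elements at which χ takes the value χ(1). Let S be a finite simple group and G a finite group such that every codegree of an irreducible character of S is a codegree of an irreducible character of G. Then the order of S divides the order of G. -/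
theorem result {S : Type*} [Group S] [Finite S] (hS : IsSimpleGroup S) {G : Type*} [Group G] [Finite G] (hsub : ∀ χ : Cfsg.IrrCharacter S, ∃ ψ : Cfsg.IrrCharacter G, (Nat.card S / (Nat.card {g : S // (χ : S → ℂ) g = (χ : S → ℂ) 1} * Cfsg.charDegree (χ : S → ℂ))) = (Nat.card G / (Nat.card {g : G // (ψ : G → ℂ) g = (ψ : G → ℂ) 1} * Cfsg.charDegree (ψ : G → ℂ)))) : Nat.card S ∣ Nat.card G := by
  classical
  haveI := hS
  haveI := Fintype.ofFinite S
  haveI := Fintype.ofFinite G
  refine (Nat.factorization_le_iff_dvd Nat.card_pos.ne' Nat.card_pos.ne').mp fun q => ?_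
  by_cases hq : q.Prime
  swap
  · simp [Nat.factorization_eq_zero_of_not_prime _ hq]
  by_cases hqS : q ∣ Nat.card S
  swap
  · rw [Nat.factorization_eq_zero_of_not_dvd hqS]; exact Nat.zero_le _
  haveI : Fact q.Prime := ⟨hq⟩
  let one : Cfsg.IrrCharacter S := ⟨_, Cfsg.Lib.Characters.isIrrCharacter_one⟩
  obtain ⟨χ, hχ1, hqχ⟩ : ∃ χ : Cfsg.IrrCharacter S, χ ≠ one ∧ ¬ q ∣ Cfsg.charDegree (χ : S → ℂ) := by
    refine Classical.byContradiction fun hh => ?_
    simp only [not_exists, not_and, not_not] at hh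
    have hsum : ∑ χ : Cfsg.IrrCharacter S, Cfsg.charDegree (χ : S → ℂ) ^ 2 = Nat.card S := by
      apply Nat.cast_injective (R := ℂ)
      push_cast
      simp only [Cfsg.Lib.Blocks.coe_charDegree]
      exact Cfsg.Lib.Characters.sum_sq_degree
    rw [← Finset.add_sum_erase _ _ (Finset.mem_univ one),
      Cfsg.Lib.Blocks.charDegree_eq (χ := (one : S → ℂ)) (d := 1) (by simp [one]), one_pow] at hsum
    have hd : q ∣ ∑ χ ∈ Finset.univ.erase one, Cfsg.charDegree (χ : S → ℂ) ^ 2 :=
      Finset.dvd_sum fun χ hχ => dvd_pow (hh χ (Finset.mem_erase.mp hχ).1) two_ne_zero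
    exact hq.not_dvd_one ((Nat.dvd_add_left hd).mp (hsum ▸ hqS))
  obtain ⟨ψ, hψ⟩ := hsub χ
  have hbot : Nat.card {g : S // (χ : S → ℂ) g = (χ : S → ℂ) 1} = 1 := by
    rcases (Cfsg.Lib.Characters.charKer_normal χ.2.isCharacter).eq_bot_or_eq_top with h | h
    · show Nat.card (Cfsg.Lib.Characters.charKer χ.2.isCharacter) = 1
      rw [h, Subgroup.card_bot]
    · exfalso
      have hconst : ∀ g : S, (χ : S → ℂ) g = (χ : S → ℂ) 1 := fun g => by
        rw [← Cfsg.Lib.Characters.mem_charKer χ.2.isCharacter, h]; exact Subgroup.mem_top g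
      have h1 : Cfsg.classInner (χ : S → ℂ) (one : S → ℂ) ≠ 0 := by
        rw [Cfsg.classInner, Finset.sum_congr rfl (g := fun _ => (χ : S → ℂ) 1) fun g _ => by
          simp [one, hconst g]]
        simp [Finset.card_univ, χ.2.one_ne_zero]
      refine h1 ?_
      rw [Cfsg.Lib.Characters.classInner_irr_ne χ.2 one.2]
      exact fun h' => hχ1 (Subtype.ext h')
  rw [hbot, one_mul] at hψ
  set K := Cfsg.Lib.Characters.charKer ψ.2.isCharacter
  haveI := Cfsg.Lib.Characters.charKer_normal ψ.2.isCharacter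
  have hdd : Nat.card {g : G // (ψ : G → ℂ) g = (ψ : G → ℂ) 1} * Cfsg.charDegree (ψ : G → ℂ) ∣ Nat.card G := by
    obtain ⟨θ, -, hθ, hθv⟩ := Cfsg.Lib.Characters.exists_of_quotient ψ.2.isCharacter (N := K) fun n hn => hn
    have h := Cfsg.Lib.Blocks.charDegree_dvd_card (⟨θ, hθ ψ.2⟩ : Cfsg.IrrCharacter (G ⧸ K))
    have he : Cfsg.charDegree θ = Cfsg.charDegree (ψ : G → ℂ) :=
      congrArg (fun z : ℂ => ⌊z.re⌋₊) (hθv 1)
    show Nat.card K * _ ∣ _
    rw [← K.card_mul_index, ← he]
    exact mul_dvd_mul_left _ h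
  have hv : (Nat.card S).factorization q
      = (Nat.card S / Cfsg.charDegree (χ : S → ℂ)).factorization q := by
    rw [Nat.factorization_div (Cfsg.Lib.Blocks.charDegree_dvd_card χ), Finsupp.tsub_apply,
      Nat.factorization_eq_zero_of_not_dvd hqχ, Nat.sub_zero]
  rw [hv, hψ]
  refine (Nat.factorization_le_iff_dvd ?_ Nat.card_pos.ne').mpr (Nat.div_dvd_of_dvd hdd) q
  exact (Nat.div_pos (Nat.le_of_dvd Nat.card_pos hdd) (Nat.pos_of_dvd_of_pos hdd Nat.card_pos)).ne'

end Cfsg.Agent.S4801
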