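import Cfsg.Statements.S4802
import Mathlib
import Cfsg.Agent.Lib.Characters.Integrality

set_option autoImplicit false
open Cfsg

namespace Cfsg.Agent.S4802

/-- Let N < M be normal subgroups of the finite group G and g ∈ M ∖ N. Then the conjugacy class of g is exactly M ∖ N if and only if every irreducible complex character of G whose kernel contains N takes the same value at all elements of M ∖ N, and every irreducible complex character of G whose kernel does not contain N vanishes at g. -/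
theorem result {G : Type*} [Group G] [Finite G] (N M : Subgroup G) [N.Normal] [M.Normal] (hNM : N < M) (g : G) (hgM : g ∈ M) (hgN : g ∉ N) : {h : G | IsConj g h} = (M : Set G) \ (N : Set G) ↔ ((∀ χ : Cfsg.IrrCharacter G, (∀ x ∈ N, (χ : G → ℂ) x = (χ : G → ℂ) 1) → ∀ x ∈ M, x ∉ N → ∀ y ∈ M, y ∉ N → (χ : G → ℂ) x = (χ : G → ℂ) y) ∧ (∀ χ : Cfsg.IrrCharacter G, (∃ x ∈ N, (χ : G → ℂ) x ≠ (χ : G → ℂ) 1) → (χ : G → ℂ) g = 0)) := by
  classical
  haveI := Fintype.ofFinite G
  have key : ∀ (h : G) (χ : Cfsg.IrrCharacter G), IsConj g h → (χ : G → ℂ) h = (χ : G → ℂ) g :=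
    fun h χ hc => (Cfsg.Lib.Characters.isClassFunction_iff_isConj.mp χ.2.isClassFunction g h hc).symm
  have hNle := hNM.le
  constructor
  · intro hset
    have hmem : ∀ h : G, IsConj g h ↔ h ∈ M ∧ h ∉ N := fun h => (Set.ext_iff.1 hset h)
    refine ⟨fun χ _ x hxM hxN y hyM hyN => by
      rw [key x χ ((hmem x).2 ⟨hxM, hxN⟩), key y χ ((hmem y).2 ⟨hyM, hyN⟩)], fun χ ⟨n, hn, hne⟩ => ?_⟩
    obtain ⟨k, ρ, hirr, hρ⟩ := χ.2
    by_contra hg0
    -- averaging over the coset `g N`
    have hconst : ∀ a ∈ N, (χ : G → ℂ) (g * a) = (χ : G → ℂ) g := fun a ha =>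
      key _ χ ((hmem _).2 ⟨M.mul_mem hgM (hNle ha), fun h => hgN ((N.mul_mem_cancel_right ha).1 h)⟩)
    let P : (Fin k → ℂ) →ₗ[ℂ] (Fin k → ℂ) := ∑ a : N, ρ (a : G)
    have hcomm : ∀ x : G, P * ρ x = ρ x * P := by
      intro x
      simp only [P, Finset.sum_mul, Finset.mul_sum, ← map_mul]
      refine Fintype.sum_equiv ((MulAut.conjNormal x⁻¹ : MulAut N).toEquiv) _ _ fun a => ?_
      congr 1
      show (a : G) * x = x * ((MulAut.conjNormal x⁻¹ a : N) : G)
      rw [MulAut.conjNormal_apply, inv_inv]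
      simp only [mul_assoc, mul_inv_cancel_left]
    obtain ⟨z, hz⟩ := Cfsg.Lib.Characters.schur_scalar ρ P hcomm
    have hPn : ∀ m ∈ N, ρ m * P = P := by
      intro m hm
      simp only [P, Finset.mul_sum, ← map_mul]
      exact Fintype.sum_equiv (Equiv.mulLeft (⟨m, hm⟩ : N)) _ _ fun a => rfl
    have hz0 : z = 0 := by
      by_contra hz0
      apply hne
      have h1 := hPn n hn
      rw [hz, mul_smul_comm] at h1
      have h2 := smul_right_injective _ hz0 h1
      rw [show (LinearMap.id : (Fin k → ℂ) →ₗ[ℂ] _) = 1 from rfl, mul_one] at h2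
      rw [← hρ]; simp [Representation.character, h2]
    have htr : ∑ a : N, (χ : G → ℂ) (g * a) = LinearMap.trace ℂ _ (ρ g * P) := by
      simp only [P, Finset.mul_sum, map_sum, ← map_mul, ← hρ]
      rfl
    have hcs : ∑ a : N, (χ : G → ℂ) (g * a) = ∑ _a : N, (χ : G → ℂ) g :=
      Finset.sum_congr rfl fun a _ => hconst a.1 a.2
    rw [hcs, hz, hz0, zero_smul, mul_zero, map_zero, Finset.sum_const, nsmul_eq_mul, mul_eq_zero] at htr
    exact htr.elim (fun h => (Finset.card_ne_zero.2 ⟨(1 : N), Finset.mem_univ _⟩) (Nat.cast_eq_zero.1 h)) hg0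
  · rintro ⟨h1, h2⟩
    ext h
    constructor
    · intro hc
      obtain ⟨c, rfl⟩ := isConj_iff.1 hc
      refine ⟨(inferInstance : M.Normal).conj_mem g hgM c, fun hN => hgN ?_⟩
      have := (inferInstance : N.Normal).conj_mem _ hN c⁻¹
      simpa [mul_assoc] using this
    · rintro ⟨hhM, hhN⟩
      show IsConj g h
      rw [Cfsg.Lib.Characters.isConj_iff_forall_irr]
      intro χ
      by_cases hker : ∀ x ∈ N, (χ : G → ℂ) x = (χ : G → ℂ) 1
      · exact h1 χ hker g hgM hgN h hhM hhN
      · push Not at hker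
        rw [h2 χ hker]
        by_contra hne
        -- `∑ χ(h) conj χ(g)` only sees the characters of `G ⧸ N`
        exfalso
        have hcol := Cfsg.Lib.Characters.column_orthogonality g g
        have hcol' := Cfsg.Lib.Characters.column_orthogonality h g
        rw [if_pos (IsConj.refl g)] at hcol
        have hnc : ¬ IsConj h g := fun hc => hne (by
          rw [Cfsg.Lib.Characters.isClassFunction_iff_isConj.mp χ.2.isClassFunction h g hc, h2 χ hker])
        rw [if_neg hnc] at hcol'
        have heq : ∀ ψ : Cfsg.IrrCharacter G, (ψ : G → ℂ) g * starRingEnd ℂ ((ψ : G → ℂ) g) =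
            (ψ : G → ℂ) h * starRingEnd ℂ ((ψ : G → ℂ) g) := by
          intro ψ
          by_cases hkψ : ∀ x ∈ N, (ψ : G → ℂ) x = (ψ : G → ℂ) 1
          · rw [h1 ψ hkψ g hgM hgN h hhM hhN]
          · push Not at hkψ
            rw [h2 ψ hkψ, map_zero, mul_zero, mul_zero]
        rw [Finset.sum_congr rfl fun ψ _ => heq ψ, hcol'] at hcol
        exact Nat.cast_ne_zero.2 Nat.card_pos.ne' hcol.symm

end Cfsg.Agent.S4802
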