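import Cfsg.Statements.S4808
import Mathlib
import Cfsg.Agent.Lib.Blocks.DefectZero
import Cfsg.Agent.Lib.Characters.Induction

set_option autoImplicit false
open Cfsg

namespace Cfsg.Agent.S4808

/-- The codegree of an irreducible complex character χ of a finite group G is [G : ker χ] / χ(1), where ker χ is the set of elements at which χ takes the value χ(1). A prime divides the order of G if and only if it divides the codegree of some irreducible complex character of G. -/
theorem result {G : Type*} [Group G] [Finite G] (p : ℕ) (hp : p.Prime) : p ∣ Nat.card G ↔ ∃ χ : Cfsg.IrrCharacter G, p ∣ (Nat.card G / (Nat.card {g : G // (χ : G → ℂ) g = (χ : G → ℂ) 1} * Cfsg.charDegree (χ : G → ℂ))) := by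
  classical
  haveI := Fintype.ofFinite G
  haveI : Fact p.Prime := ⟨hp⟩
  have hker : ∀ χ : Cfsg.IrrCharacter G, Nat.card {g : G // (χ : G → ℂ) g = (χ : G → ℂ) 1}
      = Nat.card (Cfsg.Lib.Characters.charKer χ.2.isCharacter) := fun χ => rfl
  -- the degree divides the index of the kernel
  have hdvd : ∀ χ : Cfsg.IrrCharacter G, Cfsg.charDegree (χ : G → ℂ)
      ∣ (Cfsg.Lib.Characters.charKer χ.2.isCharacter).index := by
    intro χ
    haveI := Cfsg.Lib.Characters.charKer_normal χ.2.isCharacter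
    obtain ⟨ψ, -, hψ, hψv⟩ := Cfsg.Lib.Characters.exists_of_quotient χ.2.isCharacter
      (N := Cfsg.Lib.Characters.charKer χ.2.isCharacter) fun n hn => hn
    have h := Cfsg.Lib.Blocks.charDegree_dvd_card (⟨ψ, hψ χ.2⟩ : Cfsg.IrrCharacter _)
    have he : Cfsg.charDegree ψ = Cfsg.charDegree (χ : G → ℂ) :=
      congrArg (fun z : ℂ => ⌊z.re⌋₊) (hψv 1)
    rw [← he]
    exact h
  have hcod : ∀ χ : Cfsg.IrrCharacter G,
      Nat.card G / (Nat.card {g : G // (χ : G → ℂ) g = (χ : G → ℂ) 1} * Cfsg.charDegree (χ : G → ℂ))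
        = (Cfsg.Lib.Characters.charKer χ.2.isCharacter).index / Cfsg.charDegree (χ : G → ℂ) := by
    intro χ
    rw [hker, ← (Cfsg.Lib.Characters.charKer χ.2.isCharacter).card_mul_index,
      Nat.mul_div_mul_left _ _ Nat.card_pos]
  have hsq : ∀ K : Subgroup G, K.Normal →
      ∑ χ ∈ Finset.univ.filter (fun χ : Cfsg.IrrCharacter G => ∀ k ∈ K, (χ : G → ℂ) k = (χ : G → ℂ) 1),
        Cfsg.charDegree (χ : G → ℂ) ^ 2 = K.index := by
    intro K hK
    haveI := hK
    haveI := Fintype.ofFinite (G ⧸ K)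
    apply Nat.cast_injective (R := ℂ)
    push_cast
    rw [Subgroup.index, ← Cfsg.Lib.Characters.sum_sq_degree (G := G ⧸ K)]
    refine (Finset.sum_bij (s := (Finset.univ : Finset (Cfsg.IrrCharacter (G ⧸ K))))
      (fun φ _ => (⟨fun g => (φ : G ⧸ K → ℂ) (QuotientGroup.mk' K g),
      Cfsg.Lib.Characters.isIrrCharacter_comp_surjective φ.2 _ (QuotientGroup.mk'_surjective K)⟩ :
        Cfsg.IrrCharacter G)) ?_ ?_ ?_ ?_).symm
    · intro φ _
      refine Finset.mem_filter.mpr ⟨Finset.mem_univ _, fun k hk => ?_⟩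
      show (φ : G ⧸ K → ℂ) (QuotientGroup.mk' K k) = (φ : G ⧸ K → ℂ) (QuotientGroup.mk' K 1)
      rw [(QuotientGroup.eq_one_iff k).mpr hk |> (show QuotientGroup.mk' K k = 1 from ·), map_one]
    · intro a _ b _ hab
      refine Subtype.ext (funext fun q => ?_)
      obtain ⟨g, rfl⟩ := QuotientGroup.mk_surjective q
      exact congrFun (congrArg Subtype.val hab) g
    · intro χ hχ
      obtain ⟨ψ, -, hψ, hψv⟩ := Cfsg.Lib.Characters.exists_of_quotient χ.2.isCharacter
        (Finset.mem_filter.mp hχ).2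
      exact ⟨⟨ψ, hψ χ.2⟩, Finset.mem_univ _, Subtype.ext (funext hψv)⟩
    · intro φ _
      rw [Cfsg.Lib.Blocks.coe_charDegree]
      simp
  constructor
  · intro hpG
    -- `K₀` maximal normal with `p` dividing its index
    obtain ⟨K₀, ⟨hK₀, hpK₀⟩, hmax⟩ := Set.Finite.exists_maximal
      (Set.toFinite {K : Subgroup G | K.Normal ∧ p ∣ K.index})
      ⟨⊥, inferInstance, by rwa [Subgroup.index_bot]⟩
    have hne : K₀ ≠ ⊤ := fun h => hp.not_dvd_one (by simpa [h] using hpK₀)
    obtain ⟨N, ⟨hN, hlt⟩, hmin⟩ := Set.Finite.exists_minimal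
      (Set.toFinite {N : Subgroup G | N.Normal ∧ K₀ < N})
      ⟨⊤, inferInstance, lt_top_iff_ne_top.mpr hne⟩
    have hpN : ¬ p ∣ N.index := fun h => hlt.not_ge (hmax ⟨hN, h⟩ hlt.le)
    have h1 := hsq K₀ hK₀
    rw [← Finset.sum_filter_add_sum_filter_not _ (fun χ : Cfsg.IrrCharacter G =>
      ∀ k ∈ N, (χ : G → ℂ) k = (χ : G → ℂ) 1), Finset.filter_filter,
      Finset.filter_congr (q := fun χ : Cfsg.IrrCharacter G => ∀ k ∈ N, (χ : G → ℂ) k = (χ : G → ℂ) 1)
        fun χ _ => ⟨fun h => h.2, fun h => ⟨fun k hk => h k (hlt.le hk), h⟩⟩, hsq N hN] at h1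
    obtain ⟨χ, hχ, hpχ⟩ : ∃ χ ∈ (Finset.univ.filter (fun χ : Cfsg.IrrCharacter G =>
        ∀ k ∈ K₀, (χ : G → ℂ) k = (χ : G → ℂ) 1)).filter
        (fun χ : Cfsg.IrrCharacter G => ¬ ∀ k ∈ N, (χ : G → ℂ) k = (χ : G → ℂ) 1),
        ¬ p ∣ Cfsg.charDegree (χ : G → ℂ) := by
      refine Classical.byContradiction fun hh => ?_
      simp only [not_exists, not_and, not_not] at hh
      refine hpN ((Nat.dvd_add_left (Finset.dvd_sum fun χ hχ => ?_)).mp (h1.symm ▸ hpK₀))
      exact dvd_pow (hh χ hχ) two_ne_zero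
    simp only [Finset.mem_filter, Finset.mem_univ, true_and] at hχ
    refine ⟨χ, ?_⟩
    rw [hcod]
    set K := Cfsg.Lib.Characters.charKer χ.2.isCharacter with hKdef
    have hKn : K.Normal := Cfsg.Lib.Characters.charKer_normal χ.2.isCharacter
    have hK₀K : K₀ ≤ K := hχ.1
    have hpK : p ∣ K.index := by
      by_contra hnd
      have hinf : K ⊓ N = K₀ := by
        by_contra hneq
        have hle : N ≤ K ⊓ N := hmin ⟨Subgroup.normal_inf_normal K N,
          lt_of_le_of_ne (le_inf hK₀K hlt.le) (Ne.symm hneq)⟩ inf_le_right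
        exact hχ.2 fun k hk => (hle hk).1
      have h2 : K₀.index ∣ K.index * N.index := by
        rw [← hinf, ← Subgroup.relIndex_mul_index (inf_le_right : K ⊓ N ≤ N), Subgroup.inf_relIndex_right]
        haveI := hKn
        exact mul_dvd_mul_right (Subgroup.relIndex_dvd_index_of_normal K N) _
      exact (hp.dvd_mul.mp (hpK₀.trans h2)).elim hnd hpN
    obtain ⟨m, hm⟩ := hdvd χ
    rw [← hKdef] at hm
    rw [hm] at hpK ⊢
    rw [Nat.mul_div_cancel_left _ (Cfsg.Lib.Blocks.charDegree_pos χ)]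
    exact (hp.dvd_mul.mp hpK).resolve_left hpχ
  · rintro ⟨χ, h⟩
    rw [hcod] at h
    exact (h.trans (Nat.div_dvd_of_dvd (hdvd χ))).trans
      (Subgroup.index_dvd_card _)

end Cfsg.Agent.S4808
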