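import Cfsg.Statements.S4812
import Mathlib
import Cfsg.Agent.S2300
import Cfsg.Agent.Lib.Blocks.DefectZero

set_option autoImplicit false
open Cfsg

namespace Cfsg.Agent.S4812

theorem charDegrees_eq {G H : Type*} [Group G] [Group H] (e : G ≃* H) : Cfsg.charDegrees G = Cfsg.charDegrees H := by
  ext d
  constructor
  · rintro ⟨χ, hχ⟩
    refine ⟨⟨_, Cfsg.Lib.Characters.isIrrCharacter_comp_surjective χ.2 e.symm.toMonoidHom e.symm.surjective⟩, ?_⟩
    rw [← hχ]
    simp [Cfsg.charDegree]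
  · rintro ⟨χ, hχ⟩
    refine ⟨⟨_, Cfsg.Lib.Characters.isIrrCharacter_comp_surjective χ.2 e.toMonoidHom e.surjective⟩, ?_⟩
    rw [← hχ]
    simp [Cfsg.charDegree]

/-- Let F be a finite field of characteristic 2 with q ≥ 4 elements and let S be isomorphic to PSL(2,F) or to SL(2,F). Then the vertices of the character degree graph of S are the primes dividing q(q²−1), and two distinct primes are adjacent exactly when both divide q + 1 or both divide q − 1; so the graph has the three connected components {2}, the primes dividing q + 1 and the primes dividing q − 1, each complete. -/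
theorem result (F : Type*) [Field F] [Fintype F] [CharP F 2] (q : ℕ) (hq : Fintype.card F = q) (h4 : 4 ≤ q) {S : Type*} [Group S] [Finite S] (hS : Nonempty (S ≃* Matrix.ProjectiveSpecialLinearGroup (Fin 2) F) ∨ Nonempty (S ≃* Matrix.SpecialLinearGroup (Fin 2) F)) : Cfsg.degreePrimes S = {r : ℕ | r.Prime ∧ r ∣ q * (q ^ 2 - 1)} ∧ ∀ r s : ℕ, (Cfsg.degreeGraph S).Adj r s ↔ (r ≠ s ∧ r.Prime ∧ s.Prime ∧ ((r ∣ q + 1 ∧ s ∣ q + 1) ∨ (r ∣ q - 1 ∧ s ∣ q - 1))) := by
  classical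
  have hp2 : ∀ r : ℕ, r.Prime → r ∣ q → r = 2 := by
    intro r hr hd
    obtain ⟨e, -, he⟩ := FiniteField.card F 2
    rw [← hq, he] at hd
    exact (Nat.prime_dvd_prime_iff_eq hr Nat.prime_two).mp (hr.dvd_of_dvd_pow hd)
  have h2q : 2 ∣ q := by
    obtain ⟨e, -, he⟩ := FiniteField.card F 2
    rw [← hq, he]; exact dvd_pow_self 2 e.ne_zero
  -- the group is isomorphic to the special linear group
  obtain ⟨e⟩ : Nonempty (S ≃* Matrix.SpecialLinearGroup (Fin 2) F) := by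
    rcases hS with h | h
    · obtain ⟨e⟩ := h
      refine ⟨e.trans (MulEquiv.ofBijective (QuotientGroup.mk' (Subgroup.center (Matrix.SpecialLinearGroup (Fin 2) F)))
        ⟨?_, QuotientGroup.mk'_surjective _⟩).symm⟩
      refine (MonoidHom.ker_eq_bot_iff _).mp ?_
      rw [QuotientGroup.ker_mk', eq_bot_iff]
      intro z hz
      obtain ⟨c, hc2, hc⟩ := Matrix.SpecialLinearGroup.mem_center_iff.mp hz
      rw [Fintype.card_fin, sq_eq_one_iff, CharTwo.neg_eq, or_self] at hc2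
      subst hc2
      exact Subtype.ext (by rw [← hc]; simp)
    · exact h
  obtain ⟨hall, hcount⟩ := Cfsg.Agent.S2300.result (F := F)
  obtain ⟨h1, hqq, hp, hm⟩ := hcount (hq ▸ h4)
  rw [hq] at hqq hp hm
  have hpick : ∀ {c : ℂ} {d m : ℕ}, Nat.card {χ : Cfsg.IrrCharacter (Matrix.SpecialLinearGroup (Fin 2) F) //
      (χ : Matrix.SpecialLinearGroup (Fin 2) F → ℂ) 1 = c} = m → m ≠ 0 → c = d →
      d ∈ Cfsg.charDegrees (Matrix.SpecialLinearGroup (Fin 2) F) := by
    intro c d m h hm hc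
    obtain ⟨⟨χ, hχ⟩⟩ := (Nat.card_ne_zero.mp (h ▸ hm)).1
    exact ⟨χ, Cfsg.Lib.Blocks.charDegree_eq (hχ.trans hc)⟩
  have hdeg : ∀ d : ℕ, d ∈ Cfsg.charDegrees S ↔ d = 1 ∨ d = q - 1 ∨ d = q ∨ d = q + 1 := by
    intro d
    rw [charDegrees_eq e]
    constructor
    · rintro ⟨χ, hχ⟩
      obtain ⟨d', -, hd'⟩ := χ.2.exists_degree_pos
      rw [Cfsg.Lib.Blocks.charDegree_eq hd'] at hχ
      subst hχ
      have h := hall _ χ.2
      rw [hd', hq, show (q : ℂ) - 1 = ((q - 1 : ℕ) : ℂ) by rw [Nat.cast_sub (by omega), Nat.cast_one],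
        show (q : ℂ) + 1 = ((q + 1 : ℕ) : ℂ) by rw [Nat.cast_add, Nat.cast_one], Nat.cast_inj, Nat.cast_inj, Nat.cast_inj, Nat.cast_eq_one] at h
      exact h
    · rintro (rfl | rfl | rfl | rfl)
      · exact hpick h1 one_ne_zero (by simp)
      · exact hpick hm (by omega) (by rw [Nat.cast_sub (by omega), Nat.cast_one])
      · exact hpick hqq one_ne_zero rfl
      · exact hpick hp (by omega) (by rw [Nat.cast_add, Nat.cast_one])
  have hfac : q ^ 2 - 1 = (q + 1) * (q - 1) := by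
    simpa using Nat.sq_sub_sq q 1
  refine ⟨Set.ext fun r => ⟨?_, ?_⟩, fun r s => ⟨?_, ?_⟩⟩
  · rintro ⟨hr, d, hd, hrd⟩
    refine ⟨hr, ?_⟩
    rw [hfac]
    rcases (hdeg d).mp hd with rfl | rfl | rfl | rfl
    · exact absurd hrd hr.not_dvd_one
    · exact (hrd.mul_left (q + 1)).mul_left q
    · exact hrd.mul_right _
    · exact (hrd.mul_right (q - 1)).mul_left q
  · rintro ⟨hr, hrd⟩
    rw [hfac] at hrd
    refine ⟨hr, ?_⟩
    rcases hr.dvd_mul.mp hrd with h | h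
    · exact ⟨q, (hdeg q).mpr (by omega), h⟩
    rcases hr.dvd_mul.mp h with h | h
    · exact ⟨q + 1, (hdeg _).mpr (by omega), h⟩
    · exact ⟨q - 1, (hdeg _).mpr (by omega), h⟩
  · rintro ⟨hrs, hr, hs, d, hd, hrd⟩
    refine ⟨hrs, hr, hs, ?_⟩
    rcases (hdeg d).mp hd with rfl | rfl | rfl | rfl
    · exact absurd (dvd_of_mul_right_dvd hrd) hr.not_dvd_one
    · exact Or.inr ⟨dvd_of_mul_right_dvd hrd, dvd_of_mul_left_dvd hrd⟩
    · exact absurd ((hp2 r hr (dvd_of_mul_right_dvd hrd)).trans (hp2 s hs (dvd_of_mul_left_dvd hrd)).symm) hrs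
    · exact Or.inl ⟨dvd_of_mul_right_dvd hrd, dvd_of_mul_left_dvd hrd⟩
  · rintro ⟨hrs, hr, hs, h⟩
    refine ⟨hrs, hr, hs, ?_⟩
    rcases h with ⟨a, b⟩ | ⟨a, b⟩
    · exact ⟨q + 1, (hdeg _).mpr (by omega), ((Nat.coprime_primes hr hs).mpr hrs).mul_dvd_of_dvd_of_dvd a b⟩
    · exact ⟨q - 1, (hdeg _).mpr (by omega), ((Nat.coprime_primes hr hs).mpr hrs).mul_dvd_of_dvd_of_dvd a b⟩

end Cfsg.Agent.S4812
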