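import Cfsg.Statements.S4814
import Cfsg.Agent.Lib.Blocks.Kernel
import Cfsg.Agent.Lib.Blocks.Glauberman
-- import your own Cfsg.Agent.* helpers here

set_option autoImplicit false
open Cfsg Cfsg.Lib.Characters Cfsg.Lib.Blocks
open scoped ComplexConjugate

namespace Cfsg.Agent.S4814


/-- Averaging a character over commutators. -/
theorem sum_commutator {G : Type*} [Group G] [Fintype G] (χ : IrrCharacter G) (u : G) :
    ∑ a : G, ∑ b : G, (χ : G → ℂ) (u * (a * b * a⁻¹ * b⁻¹))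
      = (Nat.card G : ℂ) ^ 2 * (χ : G → ℂ) u / (χ : G → ℂ) 1 ^ 2 := by
  classical
  have h1 : ∀ a : G, ∑ b : G, (χ : G → ℂ) (u * (a * b * a⁻¹ * b⁻¹))
      = (Nat.card G : ℂ) * ((χ : G → ℂ) (u * a) * (χ : G → ℂ) a⁻¹) / (χ : G → ℂ) 1 := fun a => by
    rw [← sum_conj_mul χ (u * a) a⁻¹]
    exact Finset.sum_congr rfl fun b _ => congrArg _ (by group)
  have h2 := sum_mul_inv_mul χ χ u
  rw [if_pos rfl] at h2
  rw [Finset.sum_congr rfl fun a _ => h1 a, ← Finset.sum_div, ← Finset.mul_sum,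
    ← Equiv.sum_comp (Equiv.inv G)]
  rw [Finset.sum_congr rfl fun a _ => show
      (χ : G → ℂ) (u * (Equiv.inv G a)) * (χ : G → ℂ) ((Equiv.inv G a)⁻¹)
        = (χ : G → ℂ) a * (χ : G → ℂ) (a⁻¹ * u) by
    simp only [Equiv.inv_apply, inv_inv]
    rw [mul_comm]
    congr 1
    conv_lhs => rw [show u * a⁻¹ = a * (a⁻¹ * u) * a⁻¹ by group]
    exact χ.2.isClassFunction _ _, h2]
  have := χ.2.one_ne_zero
  field_simp

/-- Let G be a finite group such that the sum, over the irreducible complex characters χ of G, of 1/χ(1)² is less than 2. Then every element of G is a product of two commutators. -/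
theorem result {G : Type*} [Group G] [Finite G]
    (h : ∑ᶠ χ : Cfsg.IrrCharacter G, 1 / ‖(χ : G → ℂ) 1‖ ^ 2 < (2 : ℝ)) (g : G) :
    ∃ a b c d : G, (a * b * a⁻¹ * b⁻¹) * (c * d * c⁻¹ * d⁻¹) = g := by
  classical
  haveI := Fintype.ofFinite G
  rw [finsum_eq_sum_of_fintype] at h
  have hd : ∀ χ : IrrCharacter G, 0 < ‖(χ : G → ℂ) 1‖ := fun χ => norm_pos_iff.mpr χ.2.one_ne_zero
  let one : IrrCharacter G := ⟨fun _ => 1, isIrrCharacter_one⟩
  have hrest : ∑ χ ∈ Finset.univ.erase one, 1 / ‖(χ : G → ℂ) 1‖ ^ 2 < (1 : ℝ) := by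
    rw [← Finset.add_sum_erase _ _ (Finset.mem_univ one)] at h
    simp only [one, norm_one, one_pow, div_one] at h ⊢
    linarith
  by_contra hcon
  push Not at hcon
  -- counting the products
  have hzero : ∑ χ : IrrCharacter G, conj ((χ : G → ℂ) g) * ((Nat.card G : ℂ) ^ 4 * (χ : G → ℂ) 1 / (χ : G → ℂ) 1 ^ 4) = 0 := by
    have e : ∀ χ : IrrCharacter G, (Nat.card G : ℂ) ^ 4 * (χ : G → ℂ) 1 / (χ : G → ℂ) 1 ^ 4
        = ∑ a : G, ∑ b : G, ∑ c : G, ∑ d : G, (χ : G → ℂ) ((a * b * a⁻¹ * b⁻¹) * (c * d * c⁻¹ * d⁻¹)) := by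
      intro χ
      rw [Finset.sum_congr rfl fun a _ => Finset.sum_congr rfl fun b _ => sum_commutator χ (a * b * a⁻¹ * b⁻¹)]
      simp only [← Finset.mul_sum, ← Finset.sum_div]
      have h1 := sum_commutator χ 1
      simp only [one_mul] at h1
      rw [h1]
      have := χ.2.one_ne_zero
      field_simp
    simp only [e, Finset.mul_sum]
    rw [Finset.sum_comm, Finset.sum_eq_zero]
    intro a _
    rw [Finset.sum_comm, Finset.sum_eq_zero]
    intro b _
    rw [Finset.sum_comm, Finset.sum_eq_zero]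
    intro c _
    rw [Finset.sum_comm, Finset.sum_eq_zero]
    intro d _
    have h1 := column_orthogonality ((a * b * a⁻¹ * b⁻¹) * (c * d * c⁻¹ * d⁻¹)) g
    rw [if_neg] at h1
    · rw [← h1]; exact Finset.sum_congr rfl fun χ _ => mul_comm _ _
    · intro hc
      obtain ⟨t, ht⟩ := isConj_iff.mp hc
      apply hcon (t * a * t⁻¹) (t * b * t⁻¹) (t * c * t⁻¹) (t * d * t⁻¹)
      rw [← ht]
      group
  rw [← Finset.add_sum_erase _ _ (Finset.mem_univ one)] at hzero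
  have hN : (Nat.card G : ℂ) ^ 4 ≠ 0 := pow_ne_zero _ (Nat.cast_ne_zero.mpr Nat.card_pos.ne')
  have h2 : (1 : ℂ) + ∑ χ ∈ Finset.univ.erase one, conj ((χ : G → ℂ) g) * (χ : G → ℂ) 1 / (χ : G → ℂ) 1 ^ 4 = 0 := by
    refine mul_left_cancel₀ hN ?_
    rw [mul_zero, ← hzero, mul_add, Finset.mul_sum]
    congr 1
    · simp [one]
    · exact Finset.sum_congr rfl fun χ _ => by ring
  have h3 : ‖∑ χ ∈ Finset.univ.erase one, conj ((χ : G → ℂ) g) * (χ : G → ℂ) 1 / (χ : G → ℂ) 1 ^ 4‖ < 1 := by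
    refine lt_of_le_of_lt ((norm_sum_le _ _).trans (Finset.sum_le_sum fun χ _ => ?_)) hrest
    obtain ⟨d, hd'⟩ := exists_degree χ.2.isCharacter
    have hg : ‖(χ : G → ℂ) g‖ ≤ ‖(χ : G → ℂ) 1‖ := by
      refine (char_norm_le_degree χ.2.isCharacter g).trans ?_
      exact Complex.re_le_norm _
    rw [norm_div, norm_mul, norm_pow, Complex.norm_conj, div_le_div_iff₀ (pow_pos (hd χ) 4) (pow_pos (hd χ) 2)]
    have h4 := hd χ
    have h5 : 1 ≤ ‖(χ : G → ℂ) 1‖ := by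
      rw [hd', Complex.norm_natCast]
      have : d ≠ 0 := fun h0 => χ.2.one_ne_zero (by rw [hd', h0, Nat.cast_zero])
      exact_mod_cast Nat.one_le_iff_ne_zero.mpr this
    nlinarith [mul_le_mul_of_nonneg_right hg (pow_nonneg h4.le 3)]
  rw [eq_neg_of_add_eq_zero_right h2, norm_neg, norm_one] at h3
  exact lt_irrefl _ h3

end Cfsg.Agent.S4814
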