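import Cfsg.Statements.S4825
import Cfsg.Agent.Lib.Blocks.Columns
import Cfsg.Agent.Lib.Blocks.Covering
import Cfsg.Agent.Lib.Blocks.Heights

set_option autoImplicit false
open Cfsg

namespace Cfsg.Agent.S4825

/-- Let p be a prime, G a finite group with Sylow p-subgroup P, M a maximal ideal of the algebraic integers containing p, and B a p-block of G with defect group P. Let N be a normal subgroup of G not containing P and θ an irreducible character of N. Then the number of irreducible characters in B of degree prime to p lying over θ (having θ as a constituent on restriction to N) is either 0 or at least 2, and when p ≤ 3 it is divisible by p. -/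
theorem result {G : Type*} [Group G] [Fintype G] (p : ℕ) [Fact p.Prime] (P : Sylow p G) (M : Ideal Cfsg.AlgInt) (hM : Cfsg.IsPModular p M) (B : Set (Cfsg.IrrCharacter G)) (hB : Cfsg.IsPBlock M B) (hBP : Cfsg.IsDefectGroup p M B P) (N : Subgroup G) [N.Normal] [Fintype N] (hPN : ¬ (P : Subgroup G) ≤ N) (θ : Cfsg.IrrCharacter N) :
    (Nat.card {χ : Cfsg.IrrCharacter G // χ ∈ B ∧ ¬ p ∣ Cfsg.charDegree (χ : G → ℂ) ∧ Cfsg.classInner (fun n : N => (χ : G → ℂ) n) (θ : N → ℂ) ≠ 0} = 0 ∨
      2 ≤ Nat.card {χ : Cfsg.IrrCharacter G // χ ∈ B ∧ ¬ p ∣ Cfsg.charDegree (χ : G → ℂ) ∧ Cfsg.classInner (fun n : N => (χ : G → ℂ) n) (θ : N → ℂ) ≠ 0}) ∧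
    (p ≤ 3 → p ∣ Nat.card {χ : Cfsg.IrrCharacter G // χ ∈ B ∧ ¬ p ∣ Cfsg.charDegree (χ : G → ℂ) ∧ Cfsg.classInner (fun n : N => (χ : G → ℂ) n) (θ : N → ℂ) ≠ 0}) := by
  haveI := hM.2.1.isPrime
  classical
  open Cfsg.Lib.Blocks Cfsg.Lib.Characters in
  · have hp : p.Prime := Fact.out
    obtain ⟨x, hxP, hxN⟩ := SetLike.not_le_iff_exists.mp hPN
    obtain ⟨k, hk⟩ := IsPGroup.iff_orderOf.mp P.2 ⟨x, hxP⟩
    rw [Subgroup.orderOf_mk] at hk
    set U : Set (IrrCharacter N) := {φ | ∃ g : G, φ = cjIrr θ g} with hUdef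
    have hU : CjStable U := by
      rintro g _ ⟨a, rfl⟩
      exact ⟨a * g, cjIrr_cjIrr θ a g⟩
    set z := incSub N (blockE U) with hzdef
    have hz0 : ∀ g : G, z.coeff g ≠ 0 → ∀ y : G, IsPPart p g⁻¹ y → ¬ IsConj x y := by
      intro g hg y hy hc
      have hgN : g ∈ N := by
        by_contra h
        exact hg (coeff_incSub_notMem _ _ h)
      apply hxN
      obtain ⟨a, hyab, hcomm, ⟨i, hi⟩, ha⟩ := hy
      have hyN : y ∈ N := by
        rw [← QuotientGroup.eq_one_iff]
        have h1 : (y : G ⧸ N) * (a : G ⧸ N) = 1 := by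
          rw [← QuotientGroup.mk_mul, QuotientGroup.eq_one_iff, hyab]
          exact inv_mem hgN
        have h2 : orderOf (y : G ⧸ N) ∣ p ^ i := hi ▸ orderOf_map_dvd (QuotientGroup.mk' N) y
        have h3 : orderOf (y : G ⧸ N) ∣ orderOf a := by
          rw [eq_inv_of_mul_eq_one_left h1, orderOf_inv]
          exact orderOf_map_dvd (QuotientGroup.mk' N) a
        obtain ⟨j, -, hj⟩ := (Nat.dvd_prime_pow hp).mp h2
        exact eq_one_of_pPow_regular hj fun hd => ha (hd.trans h3)
      obtain ⟨c, hc'⟩ := isConj_iff.mp hc.symm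
      rw [← hc']
      exact Subgroup.Normal.conj_mem inferInstance y hyN c
    have h0 := sum_block_omega_mul_eq_zero hM hB (u := x) ⟨k, hk⟩ z hz0
    have hω : ∀ χ : IrrCharacter G, omega χ z
        = if classInner (fun n : N => (χ : G → ℂ) n) (θ : N → ℂ) ≠ 0 then 1 else 0 := by
      intro χ
      obtain ⟨ψ, hψ⟩ := exists_res_constituent (N := N) χ
      rw [hzdef, omega_incSub_blockE hU χ ψ hψ]
      by_cases h : ψ ∈ U
      · rw [if_pos h, if_pos]
        obtain ⟨g, rfl⟩ := h
        rwa [classInner_res_cjIrr] at hψ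
      · rw [if_neg h, if_neg fun hc => h ?_]
        obtain ⟨g, hg⟩ := exists_cjIrr_of_constituents χ hc hψ
        exact ⟨g, hg⟩
    simp only [hω] at h0
    generalize hS : (Finset.univ.filter fun χ : IrrCharacter G => χ ∈ B ∧ ¬ p ∣ charDegree (χ : G → ℂ) ∧
      classInner (fun n : N => (χ : G → ℂ) n) (θ : N → ℂ) ≠ 0) = S
    have hcard : Nat.card {χ : IrrCharacter G // χ ∈ B ∧ ¬ p ∣ charDegree (χ : G → ℂ) ∧
      classInner (fun n : N => (χ : G → ℂ) n) (θ : N → ℂ) ≠ 0} = S.card := by
      rw [← hS, Nat.card_eq_fintype_card, Fintype.card_subtype]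
    rw [hcard]
    have hval : ∀ χ : IrrCharacter G, red M ((χ : G → ℂ) x) = (charDegree (χ : G → ℂ) : ResF M) := fun χ => by
      have h := red_char_mul_pPart hM χ (Commute.one_right x) ⟨k, hk⟩
        (show ¬ p ∣ orderOf (1 : G) by simpa using hp.one_lt.ne')
      rw [mul_one] at h
      rw [h, ← coe_charDegree, red_natCast]
    have hsum : ((∑ χ ∈ S, charDegree (χ : G → ℂ) ^ 2 : ℕ) : ResF M) = 0 := by
      have h1 := congrArg (red M) h0
      rw [red_zero, red_sum _ fun χ _ => ?_] at h1
      · rw [← h1, Nat.cast_sum, ← hS, Finset.sum_filter]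
        refine Finset.sum_congr rfl fun χ _ => ?_
        by_cases hB' : χ ∈ B
        · by_cases hθ : classInner (fun n : N => (χ : G → ℂ) n) (θ : N → ℂ) ≠ 0
          · rw [if_pos hB', if_pos hθ, one_mul, red_mul (char_mem_locRing M χ x) (char_mem_locRing M χ 1), hval,
              ← coe_charDegree, red_natCast]
            by_cases hd : p ∣ charDegree (χ : G → ℂ)
            · rw [if_neg fun h => h.2.1 hd, (natCast_resF_eq_zero hM _).mpr hd, mul_zero]
            · rw [if_pos ⟨hB', hd, hθ⟩, Nat.cast_pow, pow_two]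
          · rw [if_pos hB', if_neg hθ, if_neg fun h => hθ h.2.2]
            simp
        · rw [if_neg hB', if_neg fun h => hB' h.1, red_zero]
      · split_ifs
        · exact mul_mem (char_mem_locRing M χ x) (mul_mem (one_mem _) (char_mem_locRing M χ 1))
        · exact mul_mem (char_mem_locRing M χ x) (mul_mem (zero_mem _) (char_mem_locRing M χ 1))
        · exact zero_mem _
    have hdvd := (natCast_resF_eq_zero hM _).mp hsum
    have hmem : ∀ χ ∈ S, ¬ p ∣ charDegree (χ : G → ℂ) := fun χ hχ => by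
      rw [← hS] at hχ; exact (Finset.mem_filter.mp hχ).2.2.1
    refine ⟨?_, fun hp3 => ?_⟩
    · by_contra h
      push_neg at h
      have h1 : S.card = 1 := by omega
      obtain ⟨χ, rfl⟩ := Finset.card_eq_one.mp h1
      rw [Finset.sum_singleton] at hdvd
      exact hmem χ (Finset.mem_singleton_self χ) (hp.dvd_of_dvd_pow hdvd)
    · haveI := charP_resF hM
      refine (natCast_resF_eq_zero hM _).mp ?_
      rw [← hsum, Nat.cast_sum, Finset.card_eq_sum_ones, Nat.cast_sum]
      refine Finset.sum_congr rfl fun χ hχ => ?_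
      have hd := hmem χ hχ
      have h1 : charDegree (χ : G → ℂ) ^ 2 % p = 1 % p := by
        have hlt := Nat.mod_lt (charDegree (χ : G → ℂ)) hp.pos
        have hne : charDegree (χ : G → ℂ) % p ≠ 0 := fun h => hd (Nat.dvd_of_mod_eq_zero h)
        rw [Nat.pow_mod]
        have := hp.two_le
        interval_cases p <;> interval_cases (charDegree (χ : G → ℂ) % _) <;> omega
      exact ((CharP.natCast_eq_natCast (ResF M) p).mpr h1).symm

end Cfsg.Agent.S4825
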