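import Cfsg.Statements.S4828
import Mathlib
import Cfsg.Agent.Lib.Blocks.BlockFusion
import Cfsg.Agent.Lib.Blocks.CentralDefect

set_option autoImplicit false
open Cfsg

namespace Cfsg.Agent.S4828

/-- Let p be a prime, M a maximal ideal of the algebraic integers containing p, and (Q, e) a Brauer pair of the finite group G (Q a p-subgroup, e a block of C_G(Q)). Then (Q, e) is a maximal Brauer pair of some block of G if and only if e contains an irreducible character θ such that θ takes the value θ(1) at every element of Z(Q) = Q ∩ C_G(Q), the p-part of θ(1) times the p-part of the order of Z(Q) equals the p-part of the order of C_G(Q) (θ has defect zero as a character of C_G(Q)/Z(Q)), and every element of N_G(Q) of p-power order that stabilizes e lies in Q·C_G(Q) (the stabilizer of e in N_G(Q) has index prime to p over Q·C_G(Q)). -/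
theorem result {G : Type*} [Group G] [Finite G] (p : ℕ) [Fact p.Prime] (M : Ideal Cfsg.AlgInt) (hM : Cfsg.IsPModular p M) (Q : Subgroup G) (e : Set (Cfsg.IrrCharacter (Subgroup.centralizer (Q : Set G)))) (he : Cfsg.IsBrauerPair p M Q e) :
    (∃ B : Set (Cfsg.IrrCharacter G), Cfsg.IsMaximalBrauerPair p M B Q e) ↔
      ∃ θ ∈ e, (∀ z : Subgroup.centralizer (Q : Set G), (z : G) ∈ Q → (θ : Subgroup.centralizer (Q : Set G) → ℂ) z = (θ : Subgroup.centralizer (Q : Set G) → ℂ) 1) ∧
        (Cfsg.charDegree (θ : Subgroup.centralizer (Q : Set G) → ℂ)).factorization p + (Nat.card ↥(Q ⊓ Subgroup.centralizer (Q : Set G))).factorization p = (Nat.card (Subgroup.centralizer (Q : Set G))).factorization p ∧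
        (∀ g : G, g ∈ Subgroup.normalizer (Q : Set G) → Cfsg.StabilizesBlock (Subgroup.centralizer (Q : Set G)) e g → (∃ k : ℕ, orderOf g = p ^ k) → g ∈ Q ⊔ Subgroup.centralizer (Q : Set G)) := by
  haveI := hM.2.1.isPrime
  haveI := Fintype.ofFinite G
  classical
  open Cfsg.Lib.Blocks in
  · have hQp := he.1
    set Z := (Q ⊓ (Subgroup.centralizer (Q : Set G))).subgroupOf (Subgroup.centralizer (Q : Set G)) with hZ
    have hZc : Z ≤ Subgroup.center (Subgroup.centralizer (Q : Set G)) := fun z hz => Subgroup.mem_center_iff.mpr fun c =>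
      Subtype.ext (Subgroup.mem_centralizer_iff.mp c.2 (z : G) hz.1).symm
    have hZp : IsPGroup p Z := (hQp.to_le inf_le_left).comap_of_injective _ (Subgroup.centralizer (Q : Set G)).subtype_injective
    have hmemZ : ∀ z : (Subgroup.centralizer (Q : Set G)), z ∈ Z ↔ (z : G) ∈ Q := fun z =>
      ⟨fun h => h.1, fun h => ⟨h, z.2⟩⟩
    have hcardZ : Nat.card Z = Nat.card ↥(Q ⊓ (Subgroup.centralizer (Q : Set G))) := card_subgroupOf inf_le_right
    constructor
    · rintro ⟨B, hmax⟩
      have hmi := isMaxIn_of_maximal hM hmax ⊤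
      have hstab : ∀ R : Subgroup G, Q ≤ R → IsPGroup p R → R ≤ pairStab M ⊤ Q e →
          BrNe R (subE M Q e) → R = Q := fun R h1 h2 h3 h4 => hmi R h2 h1 h3 h4
      obtain ⟨DC, hDC⟩ := exists_isBrMax_centralizer (p := p) hM he.2
      have hDQ : DC ≤ Q := by
        obtain ⟨g, hg⟩ := exists_pair_above_sup hM he hDC.1
          (hDC.2.1.trans (centralizer_le_pairStab Q e)) hDC.2.2.1
        have := hstab (Q ⊔ DC) le_sup_left hg.2.1.1
          (sup_le (le_pairStab_self le_top e) (hDC.2.1.trans (centralizer_le_pairStab Q e)))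
          (brNe_of_normalSubpair hM hg)
        exact le_sup_right.trans this.le
      have hbrZ : BrNe (Q ⊓ (Subgroup.centralizer (Q : Set G)) : Subgroup G) (subE M Q e) := by
        obtain ⟨η, hη⟩ := IsPBlock.nonempty he.2
        obtain ⟨c, hc⟩ : ∃ c : (Subgroup.centralizer (Q : Set G)), (bIdem M e).coeff c ≠ 0 := by
          by_contra hh
          push Not at hh
          have h1 := lam_bIdem he.2 η
          rw [if_pos hη, lam_eq_zero_of_support η fun g hg => absurd (hh g) hg] at h1
          exact zero_ne_one h1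
        refine ⟨(c : G), Subgroup.mem_centralizer_iff.mpr fun q hq => ?_, by rwa [← bIdem_eq_subE]⟩
        exact Subgroup.mem_centralizer_iff.mp c.2 q hq.1
      have hZmax : IsBrMax p (Subgroup.centralizer (Q : Set G)) (subE M Q e) (Q ⊓ (Subgroup.centralizer (Q : Set G))) := ⟨hQp.to_le inf_le_left, inf_le_right, hbrZ,
        fun S hS hSC hbr => (hDC.2.2.2 S hS hSC hbr).trans (Subgroup.card_le_of_le (le_inf hDQ hDC.2.1))⟩
      obtain ⟨θ, hθ, hker, hdeg⟩ := exists_char_of_central_defect hM hZc he.2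
        ((isDefectGroup_centralizer_iff hM he.2 inf_le_right).mpr hZmax)
      refine ⟨θ, hθ, fun z hz => hker z ((hmemZ z).mpr hz), by rw [← hcardZ]; exact hdeg, fun g hgN hgs ⟨k, hk⟩ => ?_⟩
      have hgT : g ∈ pairStab M ⊤ Q e := ⟨trivial, hgN, (stabilizesBlock_iff_cjE he.2 hgN).mp hgs⟩
      obtain ⟨D, hD, hQD⟩ := exists_isBrMax_stab (p := p) hM he
      obtain rfl : D = Q := hstab D hQD hD.1 hD.2.1 hD.2.2.1
      have hcard := card_autInd_brMax hM he hD
      set S := D ⊔ Subgroup.zpowers g
      have hSp : IsPGroup p S := hQp.to_sup_of_normal_left'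
        (IsPGroup.of_card (n := k) (by rw [Nat.card_zpowers, hk])) (by rwa [Subgroup.zpowers_le])
      have hle := card_autInd_le (p := p) (Q := D) hSp (sup_le hD.2.1 (by rwa [Subgroup.zpowers_le]) : S ≤ pairStab M ⊤ D e)
      rw [← hcard] at hle
      have heq := Subgroup.eq_of_le_of_card_ge (Cfsg.Lib.Fusion.autInducedBy_mono (le_sup_left : D ≤ S)) hle
      have hα : Cfsg.Lib.Fusion.conjAut S D ⟨g, Subgroup.mem_inf.mpr ⟨le_sup_right (a := D) (Subgroup.mem_zpowers g), hgN⟩⟩
          ∈ Cfsg.autInducedBy D D := by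
        rw [heq, ← Cfsg.Lib.Fusion.range_conjAut]; exact ⟨_, rfl⟩
      obtain ⟨q, hq, hqe⟩ := Cfsg.Lib.Fusion.mem_autInducedBy_iff.mp hα
      have hc : q⁻¹ * g ∈ (Subgroup.centralizer (D : Set G)) := by
        refine Subgroup.mem_centralizer_iff.mpr fun u hu => ?_
        have h1 := hqe u hu
        rw [Cfsg.Lib.Fusion.autFun_conjAut _ hu] at h1
        calc u * (q⁻¹ * g) = q⁻¹ * (q * u * q⁻¹) * g := by group
          _ = q⁻¹ * (g * u * g⁻¹) * g := by rw [h1]
          _ = q⁻¹ * g * u := by group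
      have := mul_mem (Subgroup.mem_sup_left (T := Subgroup.centralizer (D : Set G)) hq) (Subgroup.mem_sup_right (S := D) hc)
      rwa [mul_inv_cancel_left] at this
    · rintro ⟨θ, hθ, hker, hdeg, hel⟩
      obtain ⟨B, hB⟩ := inducedBlockDefined_centralizer hM hQp he.2
      refine ⟨B, maximal_of_isMaxIn hM ((isBrauerPairOf_iff hM).mpr ⟨hQp, hB⟩) fun R hR hQR hRT hbr => ?_⟩
      obtain ⟨D, hD⟩ := exists_defectGroup hM he.2
      have hDle := card_defect_le_of_central hM hZc hZp he.2 hθ (fun z hz => hker z ((hmemZ z).mp hz))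
        (by rw [hcardZ]; exact hdeg) hD
      have hRC : R ⊓ (Subgroup.centralizer (Q : Set G)) = Q ⊓ (Subgroup.centralizer (Q : Set G)) := by
        refine (Subgroup.eq_of_le_of_card_ge (inf_le_inf_right _ hQR) ?_).symm
        obtain ⟨x, hx⟩ := (brNe_bIdem_iff hM he.2 hD
          ((hR.to_le inf_le_left).comap_of_injective _ (Subgroup.centralizer (Q : Set G)).subtype_injective)).mp
          ((brNe_subgroupOf_iff (inf_le_right : R ⊓ (Subgroup.centralizer (Q : Set G)) ≤ (Subgroup.centralizer (Q : Set G))) (fun _ hg => coeff_subE_notMem Q e hg)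
            (bIdem_eq_subE Q e)).mpr (hbr.mono inf_le_left))
        have h1 := Subgroup.card_le_of_le hx
        rw [card_conjSub] at h1
        replace h1 : Nat.card ((R ⊓ (Subgroup.centralizer (Q : Set G))).subgroupOf (Subgroup.centralizer (Q : Set G))) ≤ Nat.card D := h1
        rw [card_subgroupOf inf_le_right] at h1
        rw [← hcardZ]
        exact h1.trans hDle
      refine le_antisymm (fun r hr => ?_) hQR
      obtain ⟨k, hk⟩ := IsPGroup.iff_orderOf.mp hR ⟨r, hr⟩
      rw [Subgroup.orderOf_mk] at hk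
      have hrT := hRT hr
      have hmem := hel r hrT.2.1 ((stabilizesBlock_iff_cjE he.2 hrT.2.1).mpr hrT.2.2) ⟨k, hk⟩
      rw [← SetLike.mem_coe, sup_comm, Subgroup.coe_mul_of_left_le_normalizer_right (Subgroup.centralizer (Q : Set G)) Q
        (le_normalizer_centralizer_self Q)] at hmem
      obtain ⟨c, hc, q, hq, rfl⟩ := Set.mem_mul.mp hmem
      have hcR : c ∈ R := by
        have := R.mul_mem hr (R.inv_mem (hQR hq))
        rwa [mul_inv_cancel_right] at this
      have : c ∈ R ⊓ (Subgroup.centralizer (Q : Set G)) := ⟨hcR, hc⟩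
      rw [hRC] at this
      exact Q.mul_mem this.1 hq

end Cfsg.Agent.S4828
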