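import Cfsg.Statements.S4836
import Cfsg.Agent.Lib.Blocks.TwoClassesBasic
-- import your own Cfsg.Agent.* helpers here

set_option autoImplicit false
open Cfsg

namespace Cfsg.Agent.S4836

/-- Let G be a finite group of order greater than 2 with an irreducible character χ that is nonzero on exactly two conjugacy classes. Then χ is faithful (it takes the value χ(1) only at the identity), it is the only faithful irreducible character of G, and it is the only irreducible character of G that is nonzero on exactly two conjugacy classes. -/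
theorem result {G : Type*} [Group G] [Finite G] (hG : 2 < Nat.card G) (χ : Cfsg.IrrCharacter G) (hχ : Nat.card {C : ConjClasses G // ∃ g ∈ C.carrier, (χ : G → ℂ) g ≠ 0} = 2) :
    (∀ g : G, (χ : G → ℂ) g = (χ : G → ℂ) 1 → g = 1) ∧
      (∀ ψ : Cfsg.IrrCharacter G, (∀ g : G, (ψ : G → ℂ) g = (ψ : G → ℂ) 1 → g = 1) → ψ = χ) ∧
      (∀ ψ : Cfsg.IrrCharacter G, Nat.card {C : ConjClasses G // ∃ g ∈ C.carrier, (ψ : G → ℂ) g ≠ 0} = 2 → ψ = χ) := by
  obtain ⟨N, hT⟩ := Cfsg.Lib.Blocks.exists_twoClassData hG χ hχ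
  obtain ⟨x, hx, hx1⟩ := (Subgroup.bot_or_exists_ne_one N).resolve_left hT.ne_bot
  refine ⟨hT.faithful, fun ψ hψ => ?_, fun ψ hψ => ?_⟩
  · by_contra h
    exact hx1 (hψ x (hT.ker ψ h x hx))
  · by_contra h
    obtain ⟨M, hS⟩ := Cfsg.Lib.Blocks.exists_twoClassData hG ψ hψ
    have hxM : x ∈ M := (hS.mem_iff x).2 (by rw [hT.ker ψ h x hx]; exact ψ.2.one_ne_zero)
    exact hx1 (hT.faithful x (hS.ker χ (fun e => h e.symm) x hxM))

end Cfsg.Agent.S4836
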