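import Cfsg.Statements.S4837
import Cfsg.Agent.Lib.Blocks.TwoClassesBasic
-- import your own Cfsg.Agent.* helpers here

set_option autoImplicit false
open Cfsg

namespace Cfsg.Agent.S4837

/-- Let G be a finite group of order greater than 2 with an irreducible character χ nonzero on exactly two conjugacy classes, and let N be the set of elements where χ is nonzero, given as a nontrivial normal p-subgroup of G for the prime p. Then for every nonidentity x in N the centralizer C_G(x) is a Sylow p-subgroup of G, and for every irreducible character λ ≠ 1 of N the stabilizer of λ in G (its inertia group) is a Sylow p-subgroup of G. -/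
theorem result {G : Type*} [Group G] [Finite G] (hG : 2 < Nat.card G) (χ : Cfsg.IrrCharacter G) (hχ : Nat.card {C : ConjClasses G // ∃ g ∈ C.carrier, (χ : G → ℂ) g ≠ 0} = 2) (p : ℕ) [Fact p.Prime] (N : Subgroup G) [N.Normal] (hN : ∀ g : G, g ∈ N ↔ (χ : G → ℂ) g ≠ 0) (hNp : IsPGroup p N) (hN1 : N ≠ ⊥) :
    (∀ x ∈ N, x ≠ 1 → ∃ P : Sylow p G, Subgroup.centralizer ({x} : Set G) = P) ∧
      (∀ μ : Cfsg.IrrCharacter N, (μ : N → ℂ) ≠ (fun _ => (1 : ℂ)) → ∃ P : Sylow p G, ∀ g : G, g ∈ (P : Subgroup G) ↔ ∀ n n' : N, (n' : G) = g * n * g⁻¹ → (μ : N → ℂ) n' = (μ : N → ℂ) n) := by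
  classical
  haveI := Fintype.ofFinite G
  haveI := Fintype.ofFinite N
  obtain ⟨m, hD⟩ := Cfsg.Lib.Blocks.exists_gagolaData hG χ hχ p N hN hNp hN1
  have hn := hD.two_le
  obtain ⟨k, hk, hk0⟩ := hD.exists_card_pow
  have hcop : ¬ p ∣ Nat.card N - 1 := fun h => by
    have h2 : p ∣ Nat.card N := hk ▸ dvd_pow_self p hk0.ne'
    have := Nat.dvd_sub h2 h
    rw [show Nat.card N - (Nat.card N - 1) = 1 by omega] at this
    exact (Fact.out : p.Prime).one_lt.ne' (Nat.dvd_one.1 this)
  have hsyl : ∀ C : Subgroup G, Nat.card C = Nat.card N * m ^ 2 → ∃ P : Sylow p G, C = (P : Subgroup G) := by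
    intro C hC
    obtain ⟨x, hxN, hx1⟩ := (Subgroup.bot_or_exists_ne_one N).resolve_left hN1
    obtain ⟨j, hj⟩ := IsPGroup.iff_card.1 (hD.isPGroup_centralizer hxN hx1)
    rw [hD.card_centralizer hxN hx1] at hj
    have hCp : IsPGroup p C := IsPGroup.of_card (hC.trans hj)
    have hidx : C.index = Nat.card N - 1 := by
      have h := Subgroup.card_mul_index C
      rw [hC, hD.card_eq] at h
      have h2 : Nat.card N * m ^ 2 * C.index = Nat.card N * m ^ 2 * (Nat.card N - 1) := h.trans (by ring)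
      exact Nat.eq_of_mul_eq_mul_left (Nat.mul_pos Nat.card_pos (pow_pos hD.m_pos 2)) h2
    exact ⟨hCp.toSylow (hidx ▸ hcop), rfl⟩
  refine ⟨fun x hx hx1 => ?_, fun μ hμ => ?_⟩
  · obtain ⟨P, hP⟩ := hsyl _ (hD.card_centralizer hx hx1)
    exact ⟨P, hP⟩
  · haveI : IsMulCommutative N := ⟨⟨fun a b => Subtype.ext (hD.commute a.2 b.2)⟩⟩
    have hin : ∀ ν : Cfsg.IrrCharacter N, (ν : N → ℂ) ≠ (fun _ => (1 : ℂ)) →
        classInner (fun n : N => (χ : G → ℂ) n) (ν : N → ℂ) ≠ 0 := by
      intro ν hν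
      have h0 := Cfsg.Lib.Characters.classInner_irr_ne (Cfsg.Lib.Characters.isIrrCharacter_one (G := N)) ν.2
        fun e => hν e.symm
      rw [classInner, mul_eq_zero, inv_eq_zero, or_iff_right (Nat.cast_ne_zero.2 Nat.card_pos.ne')] at h0
      simp only [one_mul] at h0
      rw [classInner, hD.sum_eq (ν : N → ℂ), Finset.filter_true_of_mem (fun s _ => s.2), h0, mul_zero, sub_zero]
      refine mul_ne_zero (inv_ne_zero (Nat.cast_ne_zero.2 Nat.card_pos.ne')) (mul_ne_zero (mul_ne_zero ?_ ?_) ?_)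
      · exact Nat.cast_ne_zero.2 hD.m_pos.ne'
      · exact Nat.cast_ne_zero.2 Nat.card_pos.ne'
      · exact (map_ne_zero _).2 ν.2.one_ne_zero
    have horb : (Cfsg.Lib.Characters.orbitFinset N (μ : N → ℂ)) =
        Finset.image (fun ν : Cfsg.IrrCharacter N => (ν : N → ℂ))
          (Finset.univ.filter fun ν : Cfsg.IrrCharacter N => (ν : N → ℂ) ≠ fun _ => (1 : ℂ)) := by
      ext f
      rw [Cfsg.Lib.Characters.mem_orbitFinset, Finset.mem_image]
      constructor
      · rintro ⟨g, rfl⟩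
        refine ⟨⟨_, Cfsg.Lib.Characters.isIrrCharacter_conjFn μ.2 g⟩, Finset.mem_filter.2 ⟨Finset.mem_univ _, ?_⟩, rfl⟩
        intro e
        apply hμ
        have h2 := congrArg (fun f => Cfsg.Lib.Characters.conjFn N f g⁻¹) e
        simp only [Cfsg.Lib.Characters.conjFn_conjFn, mul_inv_cancel, Cfsg.Lib.Characters.conjFn_one] at h2
        rw [h2]
        funext n
        simp [Cfsg.Lib.Characters.conjFn]
      · rintro ⟨ν, hν, rfl⟩
        exact Cfsg.Lib.Characters.exists_conjFn_eq χ.2 μ.2 ν.2 (hin μ hμ) (hin ν (Finset.mem_filter.1 hν).2)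
    have hcard : (Cfsg.Lib.Characters.orbitFinset N (μ : N → ℂ)).card = Nat.card N - 1 := by
      rw [horb, Finset.card_image_of_injective _ Subtype.val_injective,
        ← Fintype.card_subtype, Fintype.card_subtype_compl]
      have e1 : Fintype.card (Cfsg.IrrCharacter N) = Nat.card N := by
        rw [← Nat.card_eq_fintype_card, Cfsg.Lib.Characters.card_irr_eq_card_conjClasses]
        refine (Nat.card_congr (Equiv.ofBijective ConjClasses.mk ⟨fun a b h => ?_, fun c => ?_⟩)).symm
        · obtain ⟨g, hg⟩ := isConj_iff.1 (ConjClasses.mk_eq_mk_iff_isConj.1 h)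
          rw [← hg, mul_comm' g a, mul_inv_cancel_right]
        · exact ConjClasses.exists_rep c
      have e2 : Fintype.card {ν : Cfsg.IrrCharacter N // (ν : N → ℂ) = fun _ => (1 : ℂ)} = 1 :=
        Fintype.card_eq_one_iff.2 ⟨⟨⟨_, Cfsg.Lib.Characters.isIrrCharacter_one⟩, rfl⟩,
          fun ν => Subtype.ext (Subtype.ext ν.2)⟩
      rw [e1, e2]
    have hst := Cfsg.Lib.Characters.card_stabilizer_mul_card_orbit (N := N) (μ : N → ℂ)
    rw [hcard, ← Cfsg.Lib.Characters.card_inertia, hD.card_eq] at hst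
    have hI : Nat.card (Cfsg.Lib.Characters.inertia N (μ : N → ℂ)) = Nat.card N * m ^ 2 :=
      Nat.eq_of_mul_eq_mul_right (show 0 < Nat.card N - 1 by omega) (hst.trans (by ring))
    obtain ⟨P, hP⟩ := hsyl _ hI
    refine ⟨P, fun g => ?_⟩
    rw [← hP, Cfsg.Lib.Characters.mem_inertia]
    constructor
    · intro h n n' hn
      have := congr_fun h n
      rwa [Cfsg.Lib.Characters.conjFn_apply, show (⟨_, _⟩ : N) = n' from Subtype.ext hn.symm] at this
    · intro h
      funext n
      rw [Cfsg.Lib.Characters.conjFn_apply]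
      exact h n _ rfl

end Cfsg.Agent.S4837
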