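import Cfsg.Statements.S4838
import Cfsg.Agent.Lib.Blocks.TwoClassesBasic
-- import your own Cfsg.Agent.* helpers here

set_option autoImplicit false
open scoped commutatorElement
open Cfsg

namespace Cfsg.Agent.S4838

open Cfsg.Lib.Characters Cfsg.Lib.Blocks in
/-- Centralisers outside the support keep their order in the quotient. -/
theorem centralizer_quotient {G : Type*} [Group G] [Finite G] {χ : Cfsg.IrrCharacter G} {N : Subgroup G}
    [N.Normal] (hT : TwoClassData χ N) {x : G} (hx : x ∉ N) :
    Nat.card (Subgroup.centralizer ({x} : Set G)) =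
      Nat.card (Subgroup.centralizer ({(x : G ⧸ N)} : Set (G ⧸ N))) := by
  classical
  haveI := Fintype.ofFinite G
  have h1 := column_orthogonality x x
  have h2 := column_orthogonality (x : G ⧸ N) (x : G ⧸ N)
  rw [if_pos (IsConj.refl _)] at h1 h2
  have hx0 : (χ : G → ℂ) x = 0 := not_not.1 fun h => hx ((hT.mem_iff x).2 h)
  rw [← Finset.add_sum_erase _ _ (Finset.mem_univ χ), hx0, zero_mul, zero_add] at h1
  let inf : Cfsg.IrrCharacter (G ⧸ N) → Cfsg.IrrCharacter G := fun φ =>
    ⟨fun g => (φ : G ⧸ N → ℂ) (QuotientGroup.mk' N g),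
      isIrrCharacter_comp_surjective φ.2 _ (QuotientGroup.mk'_surjective N)⟩
  have hinj : Function.Injective inf := fun a b h => by
    apply Subtype.ext
    funext q
    obtain ⟨g, rfl⟩ := QuotientGroup.mk'_surjective N q
    exact congr_fun (congrArg Subtype.val h) g
  have hne : ∀ φ, inf φ ≠ χ := by
    intro φ e
    obtain ⟨n, hn, hn1⟩ := (Subgroup.bot_or_exists_ne_one N).resolve_left hT.ne_bot
    apply hn1
    apply hT.faithful
    rw [← e]
    show (φ : G ⧸ N → ℂ) (QuotientGroup.mk' N n) = (φ : G ⧸ N → ℂ) (QuotientGroup.mk' N 1)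
    rw [map_one, show QuotientGroup.mk' N n = 1 from (QuotientGroup.eq_one_iff n).2 hn]
  have hsum : ∑ φ : Cfsg.IrrCharacter (G ⧸ N), (φ : G ⧸ N → ℂ) (x : G ⧸ N) * (starRingEnd ℂ) ((φ : G ⧸ N → ℂ) (x : G ⧸ N)) =
      ∑ ψ ∈ Finset.univ.erase χ, (ψ : G → ℂ) x * (starRingEnd ℂ) ((ψ : G → ℂ) x) := by
    refine Finset.sum_bij (fun φ _ => inf φ) (fun φ _ => Finset.mem_erase.2 ⟨hne φ, Finset.mem_univ _⟩)
      (fun a _ b _ h => hinj h) (fun ψ hψ => ?_) (fun φ _ => rfl)
    obtain ⟨φ, hφ⟩ := exists_descend (P := N) ψ.2 (fun z hz => hT.ker ψ (Finset.ne_of_mem_erase hψ) z hz)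
    exact ⟨φ, Finset.mem_univ _, Subtype.ext hφ.symm⟩
  rw [hsum, h1] at h2
  exact_mod_cast h2


/-- Let G be a finite group of order greater than 2 with an irreducible character χ nonzero on exactly two conjugacy classes, N the normal p-subgroup of elements where χ is nonzero, and P a Sylow p-subgroup of G. Then (a) for every x outside N the centralizer of x in G has the same order as the centralizer of xN in G/N; (b) the centre of P lies in N, and equals N exactly when P is normal in G; (c) N, viewed inside P, is a term of the upper central series of P. -/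
theorem result {G : Type*} [Group G] [Finite G] (hG : 2 < Nat.card G) (χ : Cfsg.IrrCharacter G) (hχ : Nat.card {C : ConjClasses G // ∃ g ∈ C.carrier, (χ : G → ℂ) g ≠ 0} = 2) (p : ℕ) [Fact p.Prime] (N : Subgroup G) [N.Normal] (hN : ∀ g : G, g ∈ N ↔ (χ : G → ℂ) g ≠ 0) (hNp : IsPGroup p N) (hN1 : N ≠ ⊥) (P : Sylow p G) :
    (∀ x : G, x ∉ N → Nat.card (Subgroup.centralizer ({x} : Set G)) = Nat.card (Subgroup.centralizer ({(x : G ⧸ N)} : Set (G ⧸ N)))) ∧
      ((Subgroup.center ↥(P : Subgroup G)).map (P : Subgroup G).subtype ≤ N ∧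
        ((Subgroup.center ↥(P : Subgroup G)).map (P : Subgroup G).subtype = N ↔ (P : Subgroup G).Normal)) ∧
      (∃ i : ℕ, Subgroup.upperCentralSeries ↥(P : Subgroup G) i = N.subgroupOf (P : Subgroup G)) := by
  classical
  haveI := Fintype.ofFinite G
  have hp : p.Prime := Fact.out
  obtain ⟨N', hT'⟩ := Cfsg.Lib.Blocks.exists_twoClassData hG χ hχ
  obtain rfl : N' = N := Subgroup.ext fun g => (hT'.mem_iff g).trans (hN g).symm
  obtain ⟨m, hD⟩ := Cfsg.Lib.Blocks.exists_gagolaData hG χ hχ p N' hN hNp hN1
  obtain ⟨k, hk, hk0⟩ := hD.exists_card_pow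
  have hNP : N' ≤ (P : Subgroup G) :=
    (Cfsg.Lib.Solv.le_pCore inferInstance hNp).trans (Cfsg.Lib.Solv.pCore_le_sylow p P)
  have small : ∀ x : G, x ∉ N' → ∀ Q : Subgroup G, IsPGroup p Q → Q ≤ Subgroup.centralizer ({x} : Set G) →
      Nat.card Q * Nat.card N' ≤ Nat.card (P : Subgroup G) := by
    intro x hx Q hQ hle
    obtain ⟨a, ha⟩ := IsPGroup.iff_card.1 hQ
    have h1 := Subgroup.card_dvd_of_le hle
    rw [centralizer_quotient hT' hx] at h1
    have h2 := h1.trans (Subgroup.card_subgroup_dvd_card _)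
    rw [← Subgroup.index_eq_card] at h2
    have h3 : p ^ (a + k) ∣ Nat.card G := by
      rw [pow_add, ← ha, ← hk, ← N'.card_mul_index, mul_comm (Nat.card N')]
      exact Nat.mul_dvd_mul_right h2 _
    rw [ha, hk, ← pow_add, P.card_eq_multiplicity]
    exact Nat.pow_le_pow_right hp.pos ((hp.pow_dvd_iff_le_factorization Nat.card_pos.ne').1 h3)
  have step : ∀ i, Subgroup.upperCentralSeries (P : Subgroup G) i < N'.subgroupOf (P : Subgroup G) →
      Subgroup.upperCentralSeries (P : Subgroup G) (i + 1) ≤ N'.subgroupOf (P : Subgroup G) := by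
    intro i hi z hz
    rw [Subgroup.mem_subgroupOf]
    by_contra hzN
    set Z := Subgroup.upperCentralSeries (P : Subgroup G) i
    set C := Subgroup.centralizer ({z} : Set (P : Subgroup G))
    have hle : C.index ≤ Nat.card Z := by
      rw [Subgroup.index_eq_card]
      refine Nat.card_le_card_of_injective (fun q => (⟨⁅z, q.out⁆, hz q.out⟩ : Z)) ?_
      intro q r h
      have h1 : z * q.out * z⁻¹ * q.out⁻¹ = z * r.out * z⁻¹ * r.out⁻¹ := by
        have := congrArg Subtype.val h
        simpa only [commutatorElement_def] using this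
      rw [← q.out_eq', ← r.out_eq', QuotientGroup.eq]
      show _ ∈ Subgroup.centralizer ({z} : Set (P : Subgroup G))
      rw [Subgroup.mem_centralizer_singleton_iff]
      calc q.out⁻¹ * r.out * z = q.out⁻¹ * (z * r.out * z⁻¹ * r.out⁻¹)⁻¹ * z * r.out := by group
        _ = _ := by rw [← h1]; group
    have hlt : Nat.card Z < Nat.card N' := by
      rw [← Nat.card_congr (Subgroup.subgroupOfEquivOfLe hNP).toEquiv]
      exact Set.ncard_lt_ncard hi (Set.toFinite _)
    have hs := small (z : G) hzN (C.map (P : Subgroup G).subtype) ((P.2.to_subgroup C).map _) (by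
      rintro _ ⟨c, hc, rfl⟩
      exact Subgroup.mem_centralizer_singleton_iff.2
        (congrArg Subtype.val (Subgroup.mem_centralizer_singleton_iff.1 hc)))
    rw [Subgroup.card_map_of_injective (P : Subgroup G).subtype_injective, ← C.card_mul_index] at hs
    have := Nat.le_of_mul_le_mul_left hs Nat.card_pos
    omega
  have hbot : (⊥ : Subgroup (P : Subgroup G)) < N'.subgroupOf (P : Subgroup G) := by
    refine bot_lt_iff_ne_bot.2 fun h => hN1 ?_
    rw [← Subgroup.map_subgroupOf_eq_of_le hNP, h, Subgroup.map_bot]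
  have hZ : (Subgroup.center (P : Subgroup G)).map (P : Subgroup G).subtype ≤ N' := by
    have h := step 0 (by rwa [Subgroup.upperCentralSeries_zero])
    rw [zero_add, Subgroup.upperCentralSeries_one] at h
    exact (Subgroup.map_mono h).trans (Subgroup.map_subgroupOf_eq_of_le hNP).le
  refine ⟨fun x hx => centralizer_quotient hT' hx, ⟨hZ, ?_, ?_⟩, ?_⟩
  · intro hZN
    have hsyl : ∀ g ∈ N', g ≠ 1 → Subgroup.centralizer ({g} : Set G) = (P : Subgroup G) := by
      intro g hg hg1
      apply P.is_maximal' (hD.isPGroup_centralizer hg hg1)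
      intro y hy
      rw [Subgroup.mem_centralizer_singleton_iff]
      obtain ⟨w, hw, rfl⟩ := hZN.ge hg
      exact congrArg Subtype.val (Subgroup.mem_center_iff.1 hw ⟨y, hy⟩)
    have hPc : (P : Subgroup G) = Subgroup.centralizer (N' : Set G) := by
      refine le_antisymm (fun y hy => Subgroup.mem_centralizer_iff.2 fun g hg => ?_) (fun y hy => ?_)
      · rcases eq_or_ne g 1 with rfl | hg1
        · simp
        · exact (Subgroup.mem_centralizer_singleton_iff.1 ((hsyl g hg hg1).ge hy)).symm
      · obtain ⟨g, hg, hg1⟩ := (Subgroup.bot_or_exists_ne_one N').resolve_left hN1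
        exact (hsyl g hg hg1).le (Subgroup.mem_centralizer_singleton_iff.2 (Subgroup.mem_centralizer_iff.1 hy g hg).symm)
    rw [hPc]
    infer_instance
  · intro hPn
    refine le_antisymm hZ (hT'.le_normal _ ?_ ?_)
    · haveI := hPn
      infer_instance
    · haveI : Nontrivial (P : Subgroup G) :=
        (Subgroup.nontrivial_iff_ne_bot _).2 fun h => hN1 (le_bot_iff.1 (h ▸ hNP))
      haveI := P.2.center_nontrivial
      intro h
      rw [Subgroup.map_eq_bot_iff_of_injective _ (P : Subgroup G).subtype_injective] at h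
      exact (Subgroup.nontrivial_iff_ne_bot _).1 this h
  · by_contra hne
    push Not at hne
    haveI : Group.IsNilpotent (P : Subgroup G) := P.2.isNilpotent
    have hall : ∀ i, Subgroup.upperCentralSeries (P : Subgroup G) i < N'.subgroupOf (P : Subgroup G) := by
      intro i
      induction i with
      | zero => rwa [Subgroup.upperCentralSeries_zero]
      | succ i ih => exact lt_of_le_of_ne (step i ih) (hne (i + 1))
    have h := hall (Group.nilpotencyClass (P : Subgroup G))
    rw [Subgroup.upperCentralSeries_nilpotencyClass] at h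
    exact not_top_lt h

end Cfsg.Agent.S4838
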