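import Cfsg.Statements.S4843
import Cfsg.Agent.Lib.Characters.Integrality
import Cfsg.Agent.Lib.Characters.PowerConj
import Cfsg.Agent.Lib.Solv.Cores

set_option autoImplicit false
open Cfsg

namespace Cfsg.Agent.S4843

open Cfsg.Lib.Characters
open scoped ComplexConjugate Classical

/-- A commuting operator on a tensor square with irreducible diagonal character is scalar. -/
theorem scalar_on_pair {G : Type*} [Group G] [Fintype G] {d e : ℕ} (ρ : Representation ℂ G (Fin d → ℂ))
    (σ : Representation ℂ G (Fin e → ℂ)) (hirr : IsIrrCharacter G fun g => ρ.character g * σ.character g)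
    {ι : Type*} [Fintype ι] (a : ι → G) (b : ι → G)
    (hst : ∀ g : G, ∃ τ : Equiv.Perm ι, ∀ i, g * a i * g⁻¹ = a (τ i) ∧ g * b i * g⁻¹ = b (τ i)) :
    ∃ s : ℂ, ∀ x y : G, ∑ i, ρ.character (a i * x) * σ.character (b i * y) = s * (ρ.character x * σ.character y) := by
  let R : Representation ℂ (G × G) (TensorProduct ℂ (Fin d → ℂ) (Fin e → ℂ)) :=
    Representation.tprod (ρ.comp (MonoidHom.fst G G)) (σ.comp (MonoidHom.snd G G))
  have hR : ∀ x y : G, R.character (x, y) = ρ.character x * σ.character y := fun x y => by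
    simp only [R, Representation.char_tensor, Pi.mul_apply]
    rfl
  let D : Representation ℂ G (TensorProduct ℂ (Fin d → ℂ) (Fin e → ℂ)) :=
    R.comp ((MonoidHom.id G).prod (MonoidHom.id G))
  have hD : ∀ g, D.character g = ρ.character g * σ.character g := fun g => hR g g
  haveI : Invertible (Nat.card G : ℂ) := invertibleOfNonzero (Nat.cast_ne_zero.mpr Nat.card_pos.ne')
  have hfin : Module.finrank ℂ (Representation.IntertwiningMap D D) = 1 := by
    have h := Representation.card_inv_mul_sum_char_mul_char_eq_finrank D D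
    simp only [hD] at h
    have h2 := classInner_irr_self hirr
    rw [classInner] at h2
    rw [Finset.sum_congr rfl (g := fun g => (ρ.character g * σ.character g) * conj (ρ.character g * σ.character g))
      fun g _ => by rw [← char_inv_eq_conj hirr.isCharacter], h2] at h
    exact_mod_cast h.symm
  set U := ∑ i, R (a i, b i) with hU
  have hcomm : ∀ g, U * D g = D g * U := by
    intro g
    obtain ⟨τ, hτ⟩ := hst g
    rw [hU, Finset.sum_mul, Finset.mul_sum]
    refine (Fintype.sum_equiv τ _ _ fun i => ?_).symm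
    show R (g, g) * R (a i, b i) = R (a (τ i), b (τ i)) * R (g, g)
    rw [← map_mul, ← map_mul, ← (hτ i).1, ← (hτ i).2, Prod.mk_mul_mk, Prod.mk_mul_mk, inv_mul_cancel_right,
      inv_mul_cancel_right]
  let T : Representation.IntertwiningMap D D := ⟨U, hcomm⟩
  let I : Representation.IntertwiningMap D D := ⟨LinearMap.id, fun _ => rfl⟩
  have hI : I ≠ 0 := by
    intro h0
    have h1 : (LinearMap.id : TensorProduct ℂ (Fin d → ℂ) (Fin e → ℂ) →ₗ[ℂ] _) = 0 :=
      congrArg (fun f : Representation.IntertwiningMap D D => f.toLinearMap) h0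
    have h2 := congrArg (LinearMap.trace ℂ _) h1
    rw [LinearMap.trace_id, map_zero, ← Representation.char_one D, hD] at h2
    exact hirr.one_ne_zero h2
  obtain ⟨s, hs⟩ := (finrank_eq_one_iff_of_nonzero' I hI).mp hfin T
  have hs' : U = s • LinearMap.id :=
    (congrArg (fun f : Representation.IntertwiningMap D D => f.toLinearMap) hs).symm
  refine ⟨s, fun x y => ?_⟩
  have h := congrArg (fun V => LinearMap.trace ℂ _ (V * R (x, y))) hs'
  simp only [hU, Finset.sum_mul, map_sum, ← map_mul, Prod.mk_mul_mk] at h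
  rw [← hR]
  refine Eq.trans (Finset.sum_congr rfl fun i _ => (hR _ _).symm) (h.trans ?_)
  rw [← Module.End.one_eq_id, smul_mul_assoc, one_mul, map_smul, smul_eq_mul]
  rfl

/-- Let G be a finite group with a faithful irreducible character χ (taking the value χ(1) only at the identity) and let k be prime to the order of G, so that g ↦ χ(g^k) is a Galois conjugate of χ. If the pointwise product g ↦ χ(g)·χ(g^k) is again an irreducible character, then the Fitting subgroup of G equals its centre. -/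
theorem result {G : Type*} [Group G] [Finite G] (χ : Cfsg.IrrCharacter G) (hfaith : ∀ g : G, (χ : G → ℂ) g = (χ : G → ℂ) 1 → g = 1) (k : ℕ) (hk : Nat.Coprime k (Nat.card G)) (hirr : Cfsg.IsIrrCharacter G (fun g => (χ : G → ℂ) g * (χ : G → ℂ) (g ^ k))) : Cfsg.fittingSubgroup G = Subgroup.center G := by
  haveI : Fintype G := Fintype.ofFinite G
  obtain ⟨d, ρ, hρ, hρχ⟩ := id χ.2
  haveI := hρ
  have hχv : ∀ g, (χ : G → ℂ) g = ρ.character g := fun g => (congrFun hρχ g).symm
  have hd : ρ.character 1 = (d : ℂ) := by rw [Representation.char_one, Module.finrank_fin_fun]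
  have hd0 : (d : ℂ) ≠ 0 := by rw [← hd, ← hχv]; exact χ.2.one_ne_zero
  have hinj : ∀ g, ρ g = 1 → g = 1 := fun g hg => hfaith g (by
    rw [hχv, hχv]; exact (char_eq_one_iff ρ g).mpr hg)
  obtain ⟨e, σ, hσ⟩ := isCharacter_comp_pow χ.2.isCharacter (Nat.Coprime.symm hk)
  have hσv : ∀ g, σ.character g = ρ.character (g ^ k) := fun g => by rw [congrFun hσ g, hχv]
  have hirr' : IsIrrCharacter G fun g => ρ.character g * σ.character g := by
    simpa only [hσv, ← hχv] using hirr
  -- an exponent undoing the twist up to inversion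
  obtain ⟨j, hj⟩ : ∃ j : ℕ, ∀ g : G, (g ^ j) ^ k = g⁻¹ := by
    refine ⟨k ^ (Nat.totient (Nat.card G) - 1) * (Nat.card G - 1), fun g => ?_⟩
    have h1 : g ^ (k ^ Nat.totient (Nat.card G)) = g := by
      conv_rhs => rw [← pow_one g]
      rw [← pow_mod_natCard g, (Nat.ModEq.pow_totient hk : _ % _ = 1 % _), pow_mod_natCard]
    have htot : k ^ (Nat.totient (Nat.card G) - 1) * k = k ^ Nat.totient (Nat.card G) := by
      rw [← pow_succ, Nat.sub_add_cancel (Nat.totient_pos.mpr Nat.card_pos)]
    rw [← pow_mul, show k ^ (Nat.totient (Nat.card G) - 1) * (Nat.card G - 1) * k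
      = k ^ Nat.totient (Nat.card G) * (Nat.card G - 1) by rw [← htot]; ring, pow_mul, h1]
    refine eq_inv_of_mul_eq_one_left ?_
    rw [← pow_succ, Nat.sub_add_cancel Nat.card_pos, pow_card_eq_one']
  have hfam : ∀ (N : Subgroup G) [N.Normal] [Fintype N], ∃ s : ℂ, ∀ x y : G,
      ∑ n : N, ρ.character ((n : G) * x) * σ.character ((n : G) ^ j * y) = s * (ρ.character x * σ.character y) := by
    intro N _ _
    refine scalar_on_pair ρ σ hirr' (fun n : N => (n : G)) (fun n : N => (n : G) ^ j) fun g =>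
      ⟨(MulAut.conjNormal g : N ≃* N).toEquiv, fun n => ⟨(MulAut.conjNormal_apply g n).symm, ?_⟩⟩
    show g * (n : G) ^ j * g⁻¹ = (((MulAut.conjNormal g : N ≃* N) n : N) : G) ^ j
    rw [MulAut.conjNormal_apply, conj_pow]
  have hnorm : ∀ g, ρ.character g * σ.character (g ^ j) = (Complex.normSq (ρ.character g) : ℂ) := fun g => by
    rw [hσv, hj, char_inv_eq_conj (isCharacter_character ρ), Complex.mul_conj]
  have hscalar : ∀ a : G, (∃ ω : ℂ, ρ a = ω • LinearMap.id) → a ∈ Subgroup.center G := by
    rintro a ⟨ω, hω⟩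
    rw [Subgroup.mem_center_iff]
    intro g
    have h : ρ (g * a * (a * g)⁻¹) = 1 := by
      have h1 : ρ (g * a) = ρ (a * g) := by
        rw [map_mul, map_mul, hω, ← Module.End.one_eq_id, mul_smul_comm, smul_mul_assoc, mul_one, one_mul]
      rw [map_mul, h1, ← map_mul, mul_inv_cancel, map_one]
    exact mul_inv_eq_one.mp (hinj _ h)
  -- abelian normal subgroups are central
  have habel : ∀ (A : Subgroup G), A.Normal → (∀ x ∈ A, ∀ y ∈ A, x * y = y * x) → A ≤ Subgroup.center G := by
    intro A hAn hA a ha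
    haveI := hAn
    haveI : Fintype A := Fintype.ofFinite A
    obtain ⟨s, hs⟩ := hfam A
    have h1 := hs 1 1
    simp only [mul_one, hnorm] at h1
    have h2 : ∀ m : A, ∑ n : A, ρ.character ((n : G) * (m : G)) * σ.character ((n : G) ^ j * (m : G) ^ j)
        = s * (Complex.normSq (ρ.character (m : G)) : ℂ) := fun m => by rw [hs, hnorm]
    have h3 : ∀ m : A, ∑ n : A, ρ.character ((n : G) * (m : G)) * σ.character ((n : G) ^ j * (m : G) ^ j)
        = ∑ n : A, (Complex.normSq (ρ.character (n : G)) : ℂ) := fun m => by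
      refine Fintype.sum_equiv (Equiv.mulRight m) _ _ fun n => ?_
      rw [← (show Commute (n : G) (m : G) from hA _ n.2 _ m.2).mul_pow, hnorm]
      rfl
    set S : ℝ := ∑ n : A, Complex.normSq (ρ.character (n : G)) with hS
    have hcast : ∑ n : A, (Complex.normSq (ρ.character (n : G)) : ℂ) = (S : ℂ) := by rw [hS, Complex.ofReal_sum]
    have hS0 : 0 < S := Finset.sum_pos' (fun n _ => Complex.normSq_nonneg _) ⟨1, Finset.mem_univ _, by
      simpa [hd] using Complex.normSq_pos.mpr hd0⟩
    have hσ1 : σ.character 1 = (d : ℂ) := by rw [hσv, one_pow, hd]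
    rw [hcast, hd, hσ1] at h1
    have h4 : (Fintype.card A : ℂ) * (S : ℂ) = s * (S : ℂ) := by
      rw [← hcast]
      calc (Fintype.card A : ℂ) * ∑ n : A, (Complex.normSq (ρ.character (n : G)) : ℂ)
          = ∑ m : A, ∑ n : A, ρ.character ((n : G) * (m : G)) * σ.character ((n : G) ^ j * (m : G) ^ j) := by
            rw [Finset.sum_congr rfl fun m _ => h3 m, Finset.sum_const, Finset.card_univ, nsmul_eq_mul]
        _ = ∑ m : A, s * (Complex.normSq (ρ.character (m : G)) : ℂ) := Finset.sum_congr rfl fun m _ => h2 m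
        _ = _ := by rw [Finset.mul_sum]
    have h5 : (Fintype.card A : ℂ) = s := mul_right_cancel₀ (Complex.ofReal_ne_zero.mpr hS0.ne') h4
    rw [← h5] at h1
    have h6 : S = (Fintype.card A : ℝ) * ((d : ℝ) * d) := by exact_mod_cast h1
    have hle : ∀ g : G, ‖ρ.character g‖ ≤ d := by
      intro g
      obtain ⟨μ, hμ, -, hk', -⟩ := exists_eigenvalues ρ g
      rw [show ρ.character g = ∑ i, μ i by simpa using hk' 1]
      refine (norm_sum_le _ _).trans (le_of_eq ?_)
      simp [Complex.norm_eq_one_of_pow_eq_one (hμ _) (orderOf_pos g).ne']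
    have h7 : ∑ n : A, ((d : ℝ) * d - Complex.normSq (ρ.character (n : G))) = 0 := by
      rw [Finset.sum_sub_distrib, Finset.sum_const, Finset.card_univ, nsmul_eq_mul, ← hS, ← h6, sub_self]
    have h8 := (Finset.sum_eq_zero_iff_of_nonneg fun n _ => sub_nonneg.mpr (by
      rw [Complex.normSq_eq_norm_sq, pow_two]
      exact mul_self_le_mul_self (norm_nonneg _) (hle _))).mp h7 ⟨a, ha⟩ (Finset.mem_univ _)
    rw [sub_eq_zero, Complex.normSq_eq_norm_sq, pow_two, eq_comm,
      mul_self_inj (norm_nonneg _) (Nat.cast_nonneg d)] at h8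
    exact hscalar a (exists_scalar_of_norm_eq ρ a (by rwa [Module.finrank_fin_fun]))
  refine le_antisymm ?_ (Cfsg.Lib.Solv.le_fitting inferInstance ⟨1, by
    rw [Subgroup.upperCentralSeries_one, eq_top_iff]
    exact fun a _ => Subgroup.mem_center_iff.mpr fun b => Subtype.ext (Subgroup.mem_center_iff.mp a.2 b)⟩)
  by_contra hnot
  -- a minimal noncentral normal subgroup inside the Fitting subgroup
  set F := Cfsg.fittingSubgroup G with hF
  haveI hFn : F.Normal := Cfsg.Lib.Solv.fitting_normal
  haveI hFnil : Group.IsNilpotent F := Cfsg.Lib.Solv.fitting_isNilpotent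
  obtain ⟨N, ⟨hNn, hNF, hNZ⟩, hmin⟩ :=
    WellFounded.has_min (wellFounded_lt : WellFounded ((· < ·) : Subgroup G → Subgroup G → Prop))
      {N : Subgroup G | N.Normal ∧ N ≤ F ∧ ¬ N ≤ Subgroup.center G} ⟨F, hFn, le_rfl, hnot⟩
  haveI := hNn
  have hcle : ⁅N, F⁆ ≤ N := Subgroup.commutator_le_left N F
  have hcZ : ⁅N, F⁆ ≤ Subgroup.center G := by
    by_contra hc
    have heq : ⁅N, F⁆ = N := by
      by_contra hne
      exact hmin ⁅N, F⁆ ⟨inferInstance, hcle.trans hNF, hc⟩ (lt_of_le_of_ne hcle hne)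
    obtain ⟨n, hn⟩ := (Subgroup.isNilpotent_iff_lowerCentralSeries F).mp hFnil
    have hall : ∀ i, N ≤ F.lowerCentralSeries i := by
      intro i
      induction i with
      | zero => exact hNF
      | succ i ih => exact heq.ge.trans (Subgroup.commutator_mono ih le_rfl)
    have h := hall n
    rw [hn] at h
    exact hNZ (h.trans bot_le)
  haveI : Fintype N := Fintype.ofFinite N
  have hvan : ∀ x ∈ N, x ∉ Subgroup.center G → ρ.character x = 0 := by
    intro x hx hxZ
    obtain ⟨y, hy, hxy⟩ : ∃ y ∈ N, x * y ≠ y * x := by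
      by_contra h
      push_neg at h
      refine hxZ (habel ((Subgroup.center N).map N.subtype) inferInstance ?_ ⟨⟨x, hx⟩, ?_, rfl⟩)
      · rintro _ ⟨u, hu, rfl⟩ _ ⟨v, hv, rfl⟩
        exact congrArg N.subtype (Subgroup.mem_center_iff.mp hv u)
      · exact Subgroup.mem_center_iff.mpr fun v => Subtype.ext (h v v.2).symm
    have hz : y * x * y⁻¹ * x⁻¹ ∈ Subgroup.center G :=
      hcZ (Subgroup.commutator_comm N F ▸ Subgroup.commutator_mem_commutator (hNF hy) hx)
    obtain ⟨ω, hω⟩ := schur_scalar ρ (ρ (y * x * y⁻¹ * x⁻¹)) fun g => by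
      rw [← map_mul, ← map_mul, Subgroup.mem_center_iff.mp hz g]
    have h1 : ρ.character x = ω * ρ.character x := by
      conv_lhs => rw [← ρ.char_conj x y]
      rw [show y * x * y⁻¹ = (y * x * y⁻¹ * x⁻¹) * x by group, Representation.character,
        map_mul, hω, ← Module.End.one_eq_id, smul_mul_assoc, one_mul, map_smul, smul_eq_mul]
      rfl
    by_contra h0
    have hω1 : ω = 1 := (mul_right_cancel₀ h0 ((one_mul _).trans h1)).symm
    rw [hω1, one_smul, ← Module.End.one_eq_id] at hω
    refine hxy ?_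
    have := hinj _ hω
    rw [mul_inv_eq_one, mul_inv_eq_iff_eq_mul] at this
    exact this.symm
  obtain ⟨x, hx, hxZ⟩ := SetLike.not_le_iff_exists.mp hNZ
  obtain ⟨s, hs⟩ := hfam N
  have h := hs x⁻¹ ((x ^ j)⁻¹)
  rw [hvan x⁻¹ (inv_mem hx) (fun h => hxZ (by simpa using inv_mem h)), zero_mul, mul_zero] at h
  have hterm : ∀ n : N, ρ.character ((n : G) * x⁻¹) * σ.character ((n : G) ^ j * (x ^ j)⁻¹)
      = if (n : G) * x⁻¹ ∈ Subgroup.center G then (Complex.normSq (ρ.character ((n : G) * x⁻¹)) : ℂ) else 0 := by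
    intro n
    split_ifs with hc
    · have hcm : Commute ((n : G) * x⁻¹) x := (Subgroup.mem_center_iff.mp hc x).symm
      rw [show (n : G) ^ j * (x ^ j)⁻¹ = ((n : G) * x⁻¹) ^ j from by
        conv_lhs => rw [show (n : G) = (n : G) * x⁻¹ * x by group, hcm.mul_pow]
        group, hnorm]
    · rw [hvan _ (N.mul_mem n.2 (inv_mem hx)) hc, zero_mul]
  rw [Finset.sum_congr rfl fun n _ => hterm n] at h
  have h' : ∑ n : N, (if (n : G) * x⁻¹ ∈ Subgroup.center G then Complex.normSq (ρ.character ((n : G) * x⁻¹)) else 0) = 0 := by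
    rw [← Complex.ofReal_eq_zero, Complex.ofReal_sum, ← h]
    exact Finset.sum_congr rfl fun n _ => by split_ifs <;> simp
  have h2 := (Finset.sum_eq_zero_iff_of_nonneg fun n _ => by
    split_ifs <;> first | exact Complex.normSq_nonneg _ | exact le_rfl).mp h' ⟨x, hx⟩ (Finset.mem_univ _)
  rw [show x * x⁻¹ = 1 from mul_inv_cancel x, if_pos (one_mem _), hd, Complex.normSq_eq_zero] at h2
  exact hd0 h2

end Cfsg.Agent.S4843
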