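import Cfsg.Statements.S4845
import Cfsg.Agent.Lib.Blocks.GaloisConjDegrees
import Cfsg.Agent.Lib.Blocks.Codegree
import Cfsg.Agent.Lib.Blocks.DefectZero
-- import your own Cfsg.Agent.* helpers here

set_option autoImplicit false
open Cfsg

namespace Cfsg.Agent.S4845

open Cfsg.Lib.Characters Cfsg.Lib.Blocks Cfsg.Lib.Blocks.GaloisConj
open scoped Classical commutatorElement

universe u

variable {U : Type u} [Group U] [Finite U] {p : ℕ} [Fact p.Prime]

/-- No group with the property has a derived subgroup of order p squared. -/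
theorem no_two (hP : IsPGroup p U) (h : Hyp U) (hc : Nat.card (commutator U) = p ^ 2) (N : Subgroup U) [N.Normal]
    (hle : N ≤ commutator U) (hN : Nat.card N = p) : False := by
  haveI : Fintype U := Fintype.ofFinite U
  have pr := (Fact.out : p.Prime)
  have hcq : ∀ (M : Subgroup U) [M.Normal], M ≤ commutator U → Nat.card M = p →
      Nat.card (commutator (U ⧸ M)) = p := fun M _ hM hMc => by
    have := card_map_mul M _ hM
    rw [map_commutator_quotient, hMc, hc, sq] at this
    exact Nat.eq_of_mul_eq_mul_right pr.pos this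
  have huniq : ∀ (M : Subgroup U), M.Normal → M ≤ commutator U → Nat.card M = p → M = N := fun M hMn hM hMc => by
    haveI := hMn
    exact unique_normal hP h hM hle (hcq M hM hMc) (hcq N hle hN)
  have hNZ := le_center_of_card hP N hN
  have hQ := hP.to_quotient N
  have hQc := hcq N hle hN
  haveI hcyc := center_isCyclic hQ hQc (h.quotient N)
  obtain ⟨w, hw⟩ := IsCyclic.exists_monoid_generator (α := Subgroup.center (U ⧸ N))
  have hgen : ∀ {z : U}, QuotientGroup.mk' N z ∈ Subgroup.center (U ⧸ N) →
      ∃ i : ℕ, QuotientGroup.mk' N z = (w : U ⧸ N) ^ i := fun {z} hz => by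
    obtain ⟨i, hi⟩ := Submonoid.mem_powers_iff _ _ |>.1 (hw ⟨_, hz⟩)
    exact ⟨i, by simpa using (congrArg Subtype.val hi).symm⟩
  have hcom : ∀ a b : U, ⁅a, b⁆ ∈ commutator U := fun a b =>
    Subgroup.commutator_mem_commutator (Subgroup.mem_top a) (Subgroup.mem_top b)
  have hcomQ : ∀ c ∈ commutator U, QuotientGroup.mk' N c ∈ Subgroup.center (U ⧸ N) := fun c hc' => by
    refine le_center_of_card hQ _ hQc ?_
    rw [← map_commutator_quotient]
    exact Subgroup.mem_map_of_mem _ hc'
  by_cases hcen : commutator U ≤ Subgroup.center U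
  · -- class two
    have hexp : ∀ x y : U, ⁅x, y⁆ ^ p = 1 := by
      intro x y
      have hz := Subgroup.mem_center_iff.1 (hcen (hcom x y))
      have h1 : x * y * x⁻¹ = ⁅x, y⁆ * y := by rw [commutatorElement_def, inv_mul_cancel_right]
      have h2 : x * y ^ p * x⁻¹ = ⁅x, y⁆ ^ p * y ^ p := by
        rw [← conj_pow, h1]
        exact Commute.mul_pow (show Commute ⁅x, y⁆ y from (hz y).symm) p
      have h3 : y * x * y⁻¹ = ⁅x, y⁆⁻¹ * x := by
        rw [commutatorElement_inv, commutatorElement_def, inv_mul_cancel_right]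
      have h4 : y * x ^ p * y⁻¹ = ⁅x, y⁆⁻¹ ^ p * x ^ p := by
        rw [← conj_pow, h3]
        exact Commute.mul_pow (show Commute ⁅x, y⁆ x from (hz x).symm).inv_left p
      obtain ⟨i, hi⟩ := hgen (z := x ^ p) (by rw [map_pow]; exact pow_mem_center hQ hQc _)
      obtain ⟨j, hj⟩ := hgen (z := y ^ p) (by rw [map_pow]; exact pow_mem_center hQ hQc _)
      -- one of the two powers commutes with the other generator
      have key : Commute x (y ^ p) ∨ Commute y (x ^ p) := by
        have hdiv : ∀ (a b : U) (n : ℕ), QuotientGroup.mk' N b = QuotientGroup.mk' N (a ^ n) → Commute a b := by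
          intro a b n hab
          have : (a ^ n)⁻¹ * b ∈ N := QuotientGroup.eq.1 hab.symm
          have h5 : Commute a ((a ^ n)⁻¹ * b) := Subgroup.mem_center_iff.1 (hNZ this) a
          simpa using ((Commute.refl a).pow_right n).mul_right h5
        set W : U ⧸ N := (w : U ⧸ N)
        obtain ⟨k, hk⟩ := IsPGroup.iff_orderOf.1 hQ W
        -- the exponents compare by their p-parts
        obtain ⟨ei, ui, hui, hiu⟩ : ∃ e u : ℕ, Nat.Coprime u p ∧ W ^ i = W ^ (p ^ e * u) := by
          rcases eq_or_ne i 0 with h0 | h0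
          · exact ⟨k, 1, Nat.coprime_one_left p, by rw [h0, mul_one, pow_zero, ← hk, pow_orderOf_eq_one]⟩
          · obtain ⟨e, u, hu, rfl⟩ := Nat.exists_eq_pow_mul_and_not_dvd h0 p pr.ne_one
            exact ⟨e, u, (pr.coprime_iff_not_dvd.2 hu).symm, rfl⟩
        obtain ⟨ej, uj, huj, hju⟩ : ∃ e u : ℕ, Nat.Coprime u p ∧ W ^ j = W ^ (p ^ e * u) := by
          rcases eq_or_ne j 0 with h0 | h0
          · exact ⟨k, 1, Nat.coprime_one_left p, by rw [h0, mul_one, pow_zero, ← hk, pow_orderOf_eq_one]⟩
          · obtain ⟨e, u, hu, rfl⟩ := Nat.exists_eq_pow_mul_and_not_dvd h0 p pr.ne_one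
            exact ⟨e, u, (pr.coprime_iff_not_dvd.2 hu).symm, rfl⟩
        have aux : ∀ (e f u v : ℕ), e ≤ f → Nat.Coprime u p → ∃ n, W ^ (p ^ f * v) = (W ^ (p ^ e * u)) ^ n := by
          intro e f u v hef hu
          have hcop : Nat.Coprime u (orderOf (W ^ p ^ e)) := by
            refine Nat.Coprime.coprime_dvd_right ?_ (hu.pow_right k)
            rw [← hk]
            exact orderOf_pow_dvd _
          obtain ⟨t, ht⟩ := exists_pow_eq_self_of_coprime hcop
          refine ⟨t * (p ^ (f - e) * v), ?_⟩
          rw [pow_mul (W ^ (p ^ e * u)), pow_mul W (p ^ e) u, ht, ← pow_mul, ← mul_assoc, ← pow_add, Nat.add_sub_cancel' hef]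
        rcases le_total ei ej with hle' | hle'
        · obtain ⟨n, hn⟩ := aux ei ej ui uj hle' hui
          refine Or.inl (hdiv x _ (p * n) ?_)
          rw [hj, hju, hn, ← hiu, ← hi, ← map_pow, ← pow_mul]
        · obtain ⟨n, hn⟩ := aux ej ei uj ui hle' huj
          refine Or.inr (hdiv y _ (p * n) ?_)
          rw [hi, hiu, hn, ← hju, ← hj, ← map_pow, ← pow_mul]
      rcases key with hk | hk
      · rw [hk.eq, mul_inv_cancel_right] at h2
        exact right_eq_mul.1 h2
      · rw [hk.eq, mul_inv_cancel_right] at h4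
        rw [← inv_eq_one, ← inv_pow]
        exact right_eq_mul.1 h4
    have hexp' : ∀ c ∈ commutator U, c ^ p = 1 := by
      intro c hc'
      rw [commutator_eq_closure] at hc'
      have hz : ∀ d ∈ Subgroup.closure (commutatorSet U), d ∈ Subgroup.center U := fun d hd =>
        hcen (by rwa [commutator_eq_closure])
      induction hc' using Subgroup.closure_induction with
      | mem x hx => obtain ⟨a, b, rfl⟩ := hx; exact hexp a b
      | one => exact one_pow p
      | mul a b ha hb iha ihb => rw [Commute.mul_pow (show Commute a b from (Subgroup.mem_center_iff.1 (hz a ha) b).symm), iha, ihb, mul_one]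
      | inv a _ iha => rw [inv_pow, iha, inv_one]
    obtain ⟨c, hc', hcN⟩ : ∃ c ∈ commutator U, c ∉ N := by
      refine SetLike.not_le_iff_exists.1 fun hle' => ?_
      have h2 := Nat.le_of_dvd Nat.card_pos (Subgroup.card_dvd_of_le hle')
      rw [hc, hN] at h2
      nlinarith [pr.two_le]
    have hc1 : c ≠ 1 := fun e => hcN (e ▸ N.one_mem)
    have hnorm : (Subgroup.zpowers c).Normal := ⟨fun n hn g => by
      rw [Subgroup.mem_center_iff.1 (hcen (Subgroup.zpowers_le.2 hc' hn)) g, mul_inv_cancel_right]
      exact hn⟩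
    have hcard : Nat.card (Subgroup.zpowers c) = p := by
      rw [Nat.card_zpowers]
      exact orderOf_eq_prime (hexp' c hc') hc1
    exact hcN (huniq _ hnorm (Subgroup.zpowers_le.2 hc') hcard ▸ Subgroup.mem_zpowers c)
  · -- class three
    have hCN : commutator U ⊓ Subgroup.center U = N := by
      have hle' : N ≤ commutator U ⊓ Subgroup.center U := le_inf hle hNZ
      refine (Subgroup.eq_of_le_of_card_ge hle' ?_).symm
      have h1 := Subgroup.card_dvd_of_le (inf_le_left : commutator U ⊓ Subgroup.center U ≤ commutator U)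
      rw [hc] at h1
      obtain ⟨i, hi, hi'⟩ := (Nat.dvd_prime_pow pr).1 h1
      rw [hi', hN]
      interval_cases i
      · simpa using pr.one_le
      · simp
      · exact absurd (inf_eq_left.1 (Subgroup.eq_of_le_of_card_ge inf_le_left (by rw [hi', hc]))) hcen
    set Zt := (Subgroup.center (U ⧸ N)).comap (QuotientGroup.mk' N) with hZt
    -- elements central modulo N centralize the derived subgroup
    have hfix : ∀ g ∈ Zt, ∀ c ∈ commutator U, c * g = g * c := by
      intro g hg
      have hmem : ∀ x : U, x * g * x⁻¹ * g⁻¹ ∈ N := fun x => by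
        rw [← QuotientGroup.eq_one_iff]
        have := Subgroup.mem_center_iff.1 hg (QuotientGroup.mk' N x)
        rw [QuotientGroup.mk'_apply, QuotientGroup.mk'_apply] at this
        rw [QuotientGroup.mk_mul, QuotientGroup.mk_mul, QuotientGroup.mk_mul, this, QuotientGroup.mk_inv, QuotientGroup.mk_inv]
        group
      haveI : IsMulCommutative N := ⟨⟨fun a b => Subtype.ext (Subgroup.mem_center_iff.1 (hNZ b.2) a)⟩⟩
      letI : CommGroup N := { (inferInstance : Group N) with mul_comm := fun a b => Subtype.ext (Subgroup.mem_center_iff.1 (hNZ b.2) a) }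
      let φ : U →* N := MonoidHom.mk' (fun x => ⟨_, hmem x⟩) fun x y => Subtype.ext (by
        have hn := Subgroup.mem_center_iff.1 (hNZ (hmem y)) x
        show x * y * g * (x * y)⁻¹ * g⁻¹ = (x * g * x⁻¹ * g⁻¹) * (y * g * y⁻¹ * g⁻¹)
        rw [Subgroup.mem_center_iff.1 (hNZ (hmem y)) (x * g * x⁻¹ * g⁻¹)]
        calc x * y * g * (x * y)⁻¹ * g⁻¹ = (x * (y * g * y⁻¹ * g⁻¹)) * (g * x⁻¹ * g⁻¹) := by group
          _ = ((y * g * y⁻¹ * g⁻¹) * x) * (g * x⁻¹ * g⁻¹) := by rw [hn]
          _ = _ := by group)
      intro c hc'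
      have h1 : φ c = 1 := Abelianization.commutator_subset_ker φ hc'
      have h2 : c * g * c⁻¹ * g⁻¹ = 1 := congrArg Subtype.val h1
      exact mul_inv_eq_iff_eq_mul.1 (mul_inv_eq_one.1 h2)
    obtain ⟨c, hc', hcZ⟩ := SetLike.not_le_iff_exists.1 hcen
    -- the centre modulo N is the derived subgroup
    have hZeq : Zt = commutator U := by
      refine le_antisymm ?_ hcomQ
      obtain ⟨j, hj⟩ := hgen (hcomQ c hc')
      obtain ⟨w', hw'⟩ := QuotientGroup.mk'_surjective N (w : U ⧸ N)
      have hwZ : w' ∈ Zt := by rw [hZt, Subgroup.mem_comap, hw']; exact w.2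
      have hjp : ¬ p ∣ j := by
        rintro ⟨i, rfl⟩
        refine hcZ (Subgroup.mem_center_iff.2 fun x => ?_)
        have hn : (w' ^ (p * i))⁻¹ * c ∈ N := by
          refine QuotientGroup.eq.1 ?_
          rw [QuotientGroup.mk_pow]
          exact ((congrArg (· ^ (p * i)) hw').trans hj.symm)
        have hwp : w' ^ p ∈ Subgroup.center U := by
          refine Subgroup.mem_center_iff.2 fun y => ?_
          have hm : y * w' * y⁻¹ * w'⁻¹ ∈ N := by
            rw [← QuotientGroup.eq_one_iff]
            have := Subgroup.mem_center_iff.1 hwZ (QuotientGroup.mk' N y)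
            rw [QuotientGroup.mk'_apply, QuotientGroup.mk'_apply] at this
            rw [QuotientGroup.mk_mul, QuotientGroup.mk_mul, QuotientGroup.mk_mul, this, QuotientGroup.mk_inv, QuotientGroup.mk_inv]
            group
          have hnp : (y * w' * y⁻¹ * w'⁻¹) ^ p = 1 := by
            have h3 : (⟨_, hm⟩ : N) ^ p = 1 := hN ▸ pow_card_eq_one'
            simpa using congrArg Subtype.val h3
          have h3 : (y * w' * y⁻¹) ^ p = w' ^ p := by
            conv_lhs => rw [show y * w' * y⁻¹ = (y * w' * y⁻¹ * w'⁻¹) * w' by group]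
            rw [Commute.mul_pow (show Commute _ w' from (Subgroup.mem_center_iff.1 (hNZ hm) w').symm), hnp, one_mul]
          rw [conj_pow] at h3
          exact mul_inv_eq_iff_eq_mul.1 h3
        have hc2 : c = w' ^ (p * i) * ((w' ^ (p * i))⁻¹ * c) := by group
        have hcc : c ∈ Subgroup.center U := by
          rw [hc2, pow_mul]
          exact mul_mem (pow_mem hwp i) (by rw [← pow_mul]; exact hNZ hn)
        exact Subgroup.mem_center_iff.1 hcc x
      intro z hz
      obtain ⟨i, hi⟩ := hgen hz
      obtain ⟨k, hk⟩ := IsPGroup.iff_orderOf.1 hQ (w : U ⧸ N)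
      obtain ⟨t, ht⟩ := exists_pow_eq_self_of_coprime (n := j) (x := (w : U ⧸ N))
        (hk ▸ (pr.coprime_iff_not_dvd.2 hjp).symm.pow_right k)
      have : QuotientGroup.mk' N z = QuotientGroup.mk' N (c ^ (t * i)) := by
        rw [hi, map_pow, hj, pow_mul ((w : U ⧸ N) ^ j), ht]
      have hn : (c ^ (t * i))⁻¹ * z ∈ N := QuotientGroup.eq.1 this.symm
      rw [show z = c ^ (t * i) * ((c ^ (t * i))⁻¹ * z) by group]
      exact mul_mem (pow_mem hc' _) (hle hn)
    -- the derived subgroup has index at most p^2
    set C := Subgroup.centralizer (commutator U : Set U) with hC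
    have hCC : ∀ a ∈ C, ∀ b ∈ C, ⁅a, b⁆ ∈ N := fun a ha b hb => by
      rw [← hCN]
      exact ⟨hcom a b, commutator_centralizer_commutator_le_center U (Subgroup.commutator_mem_commutator ha hb)⟩
    have hidx : ∀ (V : Type u) [Group V] [Finite V], Nat.card (commutator V) = p → ∀ v : V,
        (Subgroup.centralizer ({v} : Set V)).index ≤ p := fun V _ _ hV v => by
      rw [Subgroup.index_eq_card, ← hV]
      refine Nat.card_le_card_of_injective
        (fun q => (⟨⁅q.out, v⁆, Subgroup.commutator_mem_commutator (Subgroup.mem_top _) (Subgroup.mem_top _)⟩ : commutator V)) ?_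
      intro a b hab
      have he := congrArg Subtype.val hab
      simp only [commutatorElement_def, mul_left_inj] at he
      rw [← a.out_eq', ← b.out_eq', QuotientGroup.eq, Subgroup.mem_centralizer_singleton_iff]
      calc a.out⁻¹ * b.out * v = a.out⁻¹ * (b.out * v * b.out⁻¹) * b.out := by group
        _ = a.out⁻¹ * (a.out * v * a.out⁻¹) * b.out := by rw [he]
        _ = _ := by group
    have hCidx : C.index ≤ p := by
      -- C is the centralizer of c
      have hceq : Subgroup.centralizer ({c} : Set U) ≤ C := by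
        intro x hx d hd
        rw [Subgroup.mem_centralizer_singleton_iff] at hx
        let S := commutator U ⊓ Subgroup.centralizer ({x} : Set U)
        have hNS : N ≤ S := le_inf hle fun n hn => by
          rw [Subgroup.mem_centralizer_singleton_iff]
          exact ((Subgroup.mem_center_iff.1 (hNZ hn)) x).symm
        have hcS : c ∈ S := ⟨hc', Subgroup.mem_centralizer_singleton_iff.2 hx.symm⟩
        have hS : S = commutator U := by
          refine Subgroup.eq_of_le_of_card_ge inf_le_left ?_
          have h1 := Subgroup.card_dvd_of_le (inf_le_left : S ≤ commutator U)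
          rw [hc] at h1 ⊢
          obtain ⟨i, hi, hi'⟩ := (Nat.dvd_prime_pow pr).1 h1
          have hlt : Nat.card N < Nat.card S := by
            refine lt_of_le_of_ne (Subgroup.card_le_of_le hNS) fun he => ?_
            have hcN' : c ∈ N := (Subgroup.eq_of_le_of_card_ge hNS he.ge).symm ▸ hcS
            exact hcZ (hNZ hcN')
          rw [hN, hi'] at hlt
          rw [hi']
          refine Nat.pow_le_pow_right pr.pos ?_
          by_contra hi2
          have := Nat.pow_le_pow_right pr.pos (show i ≤ 1 by omega)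
          rw [pow_one] at this
          omega
        have hd' : d ∈ S := hS.symm ▸ hd
        exact (Subgroup.mem_centralizer_singleton_iff.1 hd'.2)
      refine (Nat.le_of_dvd (Nat.pos_of_ne_zero Subgroup.index_ne_zero_of_finite) (Subgroup.index_dvd_of_le hceq)).trans ?_
      rw [Subgroup.index_eq_card]
      have hn : ∀ x : U, x * c * x⁻¹ * c⁻¹ ∈ N := fun x => by
        rw [← QuotientGroup.eq_one_iff]
        have := Subgroup.mem_center_iff.1 (hcomQ c hc') (QuotientGroup.mk' N x)
        rw [QuotientGroup.mk'_apply, QuotientGroup.mk'_apply] at this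
        rw [QuotientGroup.mk_mul, QuotientGroup.mk_mul, QuotientGroup.mk_mul, this, QuotientGroup.mk_inv, QuotientGroup.mk_inv]
        group
      rw [← hN]
      refine Nat.card_le_card_of_injective (fun q => (⟨_, hn q.out⟩ : N)) ?_
      intro a b hab
      have he := congrArg Subtype.val hab
      simp only [mul_left_inj] at he
      rw [← a.out_eq', ← b.out_eq', QuotientGroup.eq, Subgroup.mem_centralizer_singleton_iff]
      calc a.out⁻¹ * b.out * c = a.out⁻¹ * (b.out * c * b.out⁻¹) * b.out := by group
        _ = a.out⁻¹ * (a.out * c * a.out⁻¹) * b.out := by rw [he]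
        _ = _ := by group
    have hUidx : (commutator U).index ≤ p ^ 2 := by
      rcases eq_or_ne C ⊤ with hCt | hCt
      · exact absurd (fun d hd => Subgroup.mem_center_iff.2 fun x =>
          ((hCt.symm ▸ Subgroup.mem_top x : x ∈ C) d hd).symm) hcen
      obtain ⟨x, hx⟩ : ∃ x, x ∉ C := by
        by_contra! hall
        exact hCt (eq_top_iff.2 fun x _ => hall x)
      set R := (Subgroup.centralizer ({(x : U ⧸ N)} : Set (U ⧸ N))).comap (QuotientGroup.mk' N) with hR
      have hRidx : R.index ≤ p := by
        rw [hR, Subgroup.index_comap_of_surjective _ (QuotientGroup.mk'_surjective N)]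
        exact hidx _ hQc _
      have hle' : C ⊓ R ≤ Zt := by
        rintro y ⟨hyC, hyR⟩
        let T : Subgroup U := (Subgroup.centralizer ({(y : U ⧸ N)} : Set (U ⧸ N))).comap (QuotientGroup.mk' N)
        have hCT : C ≤ T := fun a ha => by
          show (a : U ⧸ N) ∈ Subgroup.centralizer _
          rw [Subgroup.mem_centralizer_singleton_iff]
          have := (QuotientGroup.eq_one_iff _).2 (hCC a ha y hyC)
          rw [commutatorElement_def, QuotientGroup.mk_mul, QuotientGroup.mk_mul, QuotientGroup.mk_mul,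
            QuotientGroup.mk_inv, QuotientGroup.mk_inv, mul_inv_eq_one, mul_inv_eq_iff_eq_mul] at this
          exact this
        have hxT : x ∈ T := by
          show (x : U ⧸ N) ∈ Subgroup.centralizer _
          rw [Subgroup.mem_centralizer_singleton_iff]
          exact (Subgroup.mem_centralizer_singleton_iff.1 hyR).symm
        have hT : T = ⊤ := by
          rw [← Subgroup.index_eq_one]
          have hne : T ≠ C := fun e => hx (e ▸ hxT)
          have h1 : C.relIndex T ≠ 1 := fun e => hne (le_antisymm (Subgroup.relIndex_eq_one.1 e) hCT)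
          have h2 := Subgroup.relIndex_mul_index hCT
          obtain ⟨a, ha⟩ := hP.index C
          have hap : C.index = p := by
            rcases a with _ | _ | a
            · rw [pow_zero] at ha; exact absurd (Subgroup.index_eq_one.1 ha) hCt
            · rw [ha, pow_one]
            · exfalso
              rw [ha] at hCidx
              have : p ^ 1 < p ^ (a + 1 + 1) := Nat.pow_lt_pow_right pr.one_lt (by omega)
              rw [pow_one] at this
              omega
          rw [hap] at h2
          rcases (Nat.dvd_prime pr).1 (Dvd.intro _ h2) with h3 | h3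
          · exact absurd h3 h1
          · rw [h3] at h2
            exact Nat.eq_of_mul_eq_mul_left pr.pos (h2.trans (mul_one p).symm)
        rw [hZt, Subgroup.mem_comap, Subgroup.mem_center_iff]
        intro q
        obtain ⟨g, rfl⟩ := QuotientGroup.mk'_surjective N q
        exact Subgroup.mem_centralizer_singleton_iff.1 (show g ∈ T from hT ▸ Subgroup.mem_top g)
      calc (commutator U).index ≤ (C ⊓ R).index := by
            rw [← hZeq]
            exact Nat.le_of_dvd (Nat.pos_of_ne_zero Subgroup.index_ne_zero_of_finite) (Subgroup.index_dvd_of_le hle')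
        _ ≤ C.index * R.index := Subgroup.index_inf_le
        _ ≤ p ^ 2 := by rw [sq]; exact Nat.mul_le_mul hCidx hRidx
    -- all nonlinear degrees equal p
    have hUcard : Nat.card U ≤ p ^ 4 := by
      rw [← Subgroup.card_mul_index (commutator U), hc, show p ^ 4 = p ^ 2 * p ^ 2 by ring]
      exact Nat.mul_le_mul_left _ hUidx
    have hdeg : ∀ θ : IrrCharacter U, charDegree (θ : U → ℂ) ≠ 1 → charDegree (θ : U → ℂ) = p := by
      intro θ hθ
      have h1 := degree_sq_le θ.2 (deg_spec θ.2.isCharacter) N fun z hz => norm_central θ (hNZ hz)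
      rw [hN] at h1
      obtain ⟨a, ha⟩ := IsPGroup.iff_card.1 hP
      obtain ⟨i, -, hi⟩ := (Nat.dvd_prime_pow pr).1 (ha ▸ Cfsg.Lib.Blocks.charDegree_dvd_card θ)
      rw [hi] at h1 hθ ⊢
      rcases i with _ | _ | i
      · simp at hθ
      · rw [pow_one]
      · exfalso
        have h2 : p * (p ^ 2) ^ 2 ≤ p ^ 4 :=
          le_trans (Nat.mul_le_mul_left p (Nat.pow_le_pow_left (Nat.pow_le_pow_right pr.pos (by omega)) 2))
            (h1.trans hUcard)
        rw [← pow_mul, ← pow_succ'] at h2
        exact absurd ((Nat.pow_le_pow_iff_right pr.one_lt).1 h2) (by norm_num)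
    obtain ⟨n, hn, hn1⟩ := (Subgroup.bot_or_exists_ne_one N).resolve_left (fun e => by
      rw [e, Subgroup.card_bot] at hN; exact pr.ne_one hN.symm)
    obtain ⟨θ, hθ⟩ := exists_irr_ne hn1
    have hθ1 : charDegree (θ : U → ℂ) ≠ 1 := fun e => hθ (apply_commutator_of_linear e (hle hn))
    obtain ⟨χ, hχ⟩ := exists_nonlinear (P := U ⧸ N) (fun e => by
      rw [e, Subgroup.card_bot] at hQc; exact pr.ne_one hQc.symm)
    let χ' : IrrCharacter U := ⟨fun g => (χ : U ⧸ N → ℂ) g,
      isIrrCharacter_comp_surjective χ.2 (QuotientGroup.mk' N) (QuotientGroup.mk'_surjective N)⟩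
    have hχ' : charDegree (χ' : U → ℂ) ≠ 1 := hχ
    refine hθ (h.ker_le hχ' ((hdeg χ' hχ').trans (hdeg θ hθ1).symm) ?_)
    show (χ : U ⧸ N → ℂ) n = (χ : U ⧸ N → ℂ) (1 : U)
    rw [(QuotientGroup.eq_one_iff n).2 hn]
    rfl

/-- A nontrivial normal subgroup of a p-group contains a normal subgroup of index p in it. -/
theorem exists_index_prime (hP : IsPGroup p U) (M : Subgroup U) [M.Normal] (hM : M ≠ ⊥) :
    ∃ N : Subgroup U, N.Normal ∧ N ≤ M ∧ p * Nat.card N = Nat.card M := by
  obtain ⟨N, ⟨hNn, hNM⟩, hmax⟩ := WellFounded.has_min (wellFounded_gt : WellFounded ((· > ·) : Subgroup U → Subgroup U → Prop))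
    {N : Subgroup U | N.Normal ∧ N < M} ⟨⊥, inferInstance, bot_lt_iff_ne_bot.2 hM⟩
  haveI := hNn
  refine ⟨N, hNn, hNM.le, ?_⟩
  set M' := M.map (QuotientGroup.mk' N) with hM'
  haveI : M'.Normal := Subgroup.Normal.map inferInstance _ (QuotientGroup.mk'_surjective N)
  have hQ := hP.to_quotient N
  have hcard := card_map_mul N M hNM.le
  have hmin : ∀ K : Subgroup (U ⧸ N), K.Normal → K < M' → K = ⊥ := by
    intro K hK hKM
    by_contra hK0
    haveI := hK
    have hlt : K.comap (QuotientGroup.mk' N) < M := by
      have h1 : M'.comap (QuotientGroup.mk' N) = M := Subgroup.comap_map_eq_self (by rw [QuotientGroup.ker_mk']; exact hNM.le)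
      rw [← h1]
      exact (Subgroup.comap_lt_comap_of_surjective (QuotientGroup.mk'_surjective N)).2 hKM
    refine hmax _ ⟨inferInstance, hlt⟩ (lt_of_le_of_ne ?_ fun he => hK0 ?_)
    · intro n hn
      rw [Subgroup.mem_comap, QuotientGroup.mk'_apply, (QuotientGroup.eq_one_iff n).2 hn]
      exact K.one_mem
    · rw [← Subgroup.map_comap_eq_self_of_surjective (QuotientGroup.mk'_surjective N) K, ← he,
        Subgroup.map_eq_bot_iff, QuotientGroup.ker_mk']
  have hcen := le_center_of_minimal hQ M' hmin
  have hM'ne : Nat.card M' ≠ 1 := fun e => hNM.ne (Subgroup.eq_of_le_of_card_ge hNM.le (by rw [← hcard, ← hM', e, one_mul]))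
  obtain ⟨a, ha⟩ := IsPGroup.iff_card.1 (hQ.to_subgroup M')
  obtain ⟨x, hx⟩ := exists_prime_orderOf_dvd_card' (G := M') p (by
    rw [ha]
    exact dvd_pow_self p (fun e => hM'ne (by rw [ha, e, pow_zero])))
  have hK : (Subgroup.zpowers (x : U ⧸ N)).Normal := ⟨fun n hn g => by
    rw [Subgroup.mem_center_iff.1 (hcen (Subgroup.zpowers_le.2 x.2 hn)) g, mul_inv_cancel_right]
    exact hn⟩
  have heq : Subgroup.zpowers (x : U ⧸ N) = M' := by
    by_contra hne
    have h0 := hmin _ hK (lt_of_le_of_ne (Subgroup.zpowers_le.2 x.2) hne)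
    have h1 := congrArg (fun K : Subgroup (U ⧸ N) => Nat.card K) h0
    simp only [Nat.card_zpowers, Subgroup.orderOf_coe, hx, Subgroup.card_bot] at h1
    exact (Fact.out : p.Prime).ne_one h1
  rw [← hcard, ← hM', ← heq, Nat.card_zpowers, Subgroup.orderOf_coe, hx]

/-- Let p be a prime and P a finite non-commutative p-group. Then every two irreducible characters of P of the same degree greater than 1 are Galois conjugate (one is obtained from the other by composing with g ↦ g^k for some k prime to the order of P) if and only if the centre of P is cyclic and the derived subgroup of P has order p. -/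
theorem result {P : Type*} [Group P] [Finite P] (p : ℕ) [Fact p.Prime] (hP : IsPGroup p P) (hna : ¬ IsMulCommutative P) :
    (∀ χ ψ : Cfsg.IrrCharacter P, Cfsg.charDegree (χ : P → ℂ) ≠ 1 → Cfsg.charDegree (χ : P → ℂ) = Cfsg.charDegree (ψ : P → ℂ) → ∃ k : ℕ, Nat.Coprime k (Nat.card P) ∧ ∀ g : P, (ψ : P → ℂ) g = (χ : P → ℂ) (g ^ k)) ↔
      (IsCyclic (Subgroup.center P) ∧ Nat.card (commutator P) = p) := by
  have pr := (Fact.out : p.Prime)
  have hne : commutator P ≠ ⊥ := fun e => hna ((commutator_eq_bot_iff P).1 e)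
  constructor
  · intro h
    have hc : Nat.card (commutator P) = p := by
      obtain ⟨N, hNn, hle, hN⟩ := exists_index_prime hP (commutator P) hne
      rcases eq_or_ne N ⊥ with hN0 | hN0
      · rw [← hN, hN0, Subgroup.card_bot, mul_one]
      exfalso
      obtain ⟨L, hLn, hLN, hL⟩ := exists_index_prime hP N hN0
      haveI := hNn
      haveI := hLn
      haveI : (N.map (QuotientGroup.mk' L)).Normal := Subgroup.Normal.map inferInstance _ (QuotientGroup.mk'_surjective L)
      have hpos : 0 < Nat.card L := Nat.card_pos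
      refine no_two (hP.to_quotient L) (Hyp.quotient h L) ?_ (N.map (QuotientGroup.mk' L))
        ((Subgroup.map_mono hle).trans (map_commutator_quotient L).le) ?_
      · rw [← map_commutator_quotient]
        refine Nat.eq_of_mul_eq_mul_right hpos ?_
        rw [card_map_mul L _ (hLN.trans hle), ← hN, ← hL]
        ring
      · refine Nat.eq_of_mul_eq_mul_right hpos ?_
        rw [card_map_mul L _ hLN, hL]
    exact ⟨center_isCyclic hP hc h, hc⟩
  · rintro ⟨hcyc, hc⟩ χ ψ hχ hd
    haveI : Fintype P := Fintype.ofFinite P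
    haveI := hcyc
    have hψ : charDegree (ψ : P → ℂ) ≠ 1 := hd ▸ hχ
    have hcl := le_center_of_card hP _ hc
    obtain ⟨z, hz⟩ := IsCyclic.exists_monoid_generator (α := Subgroup.center P)
    -- the kernel is trivial on the centre
    have hfaith : ∀ θ : IrrCharacter P, charDegree (θ : P → ℂ) ≠ 1 → ∀ a ∈ Subgroup.center P,
        (θ : P → ℂ) a = (θ : P → ℂ) 1 → a = 1 := by
      intro θ hθ a ha hker
      by_contra ha1
      rcases le_or_inf_eq_bot hc (B := Subgroup.zpowers a) with hle | hbot
      · exact hθ (linear_of_le_ker fun x hx =>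
          (Subgroup.zpowers_le.2 (show a ∈ charKer θ.2.isCharacter from hker) : Subgroup.zpowers a ≤ _) (hle hx))
      · -- a cyclic p-group has one subgroup of order p
        obtain ⟨b, hb⟩ : ∃ b : Subgroup.zpowers a, orderOf b = p := by
          obtain ⟨k, hk⟩ := IsPGroup.iff_card.1 (hP.to_subgroup (Subgroup.zpowers a))
          refine exists_prime_orderOf_dvd_card' p ?_
          rw [hk]
          refine dvd_pow_self p fun e => ha1 ?_
          rw [e, pow_zero, Nat.card_zpowers, orderOf_eq_one_iff] at hk
          exact hk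
        have hsub : ∀ H : Subgroup P, H ≤ Subgroup.center P → Nat.card H = p → ∀ y ∈ Subgroup.center P, y ^ p = 1 → y ∈ H := by
          intro H hH hHc y hy hyp
          have hset : (Finset.univ.filter fun u : Subgroup.center P => u ^ p = 1).card ≤ p :=
            IsCyclic.card_pow_eq_one_le pr.pos
          by_contra hyH
          have hsub' : (Finset.univ.filter fun u : Subgroup.center P => (u : P) ∈ H) ⊆
              Finset.univ.filter fun u : Subgroup.center P => u ^ p = 1 := by
            intro u hu
            rw [Finset.mem_filter] at hu ⊢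
            refine ⟨hu.1, Subtype.ext ?_⟩
            have h3 : (⟨(u : P), hu.2⟩ : H) ^ p = 1 := hHc ▸ pow_card_eq_one'
            simpa using congrArg Subtype.val h3
          have hlt : (Finset.univ.filter fun u : Subgroup.center P => (u : P) ∈ H).card < p :=
            lt_of_lt_of_le (Finset.card_lt_card (Finset.ssubset_iff_of_subset hsub' |>.2
              ⟨⟨y, hy⟩, Finset.mem_filter.2 ⟨Finset.mem_univ _, Subtype.ext (by simpa using hyp)⟩,
                fun hm => hyH (Finset.mem_filter.1 hm).2⟩)) hset
          rw [← Fintype.card_subtype, ← Nat.card_eq_fintype_card] at hlt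
          refine hlt.ne ((Nat.card_congr ?_).trans hHc)
          exact ⟨fun u => ⟨u.1.1, u.2⟩, fun u => ⟨⟨u.1, hH u.2⟩, u.2⟩, fun u => rfl, fun u => rfl⟩
        have hbC : (b : P) ∈ commutator P := hsub _ hcl hc _
          (Subgroup.zpowers_le.2 ha b.2) (by rw [← SubgroupClass.coe_pow, ← hb, pow_orderOf_eq_one, OneMemClass.coe_one])
        have : (b : P) ∈ commutator P ⊓ Subgroup.zpowers a := ⟨hbC, b.2⟩
        rw [hbot, Subgroup.mem_bot, OneMemClass.coe_eq_one] at this
        rw [this, orderOf_one] at hb
        exact pr.ne_one hb.symm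
    -- the values at a generator of the centre
    obtain ⟨ω, -, hω⟩ := central_value χ z.2
    obtain ⟨μ, -, hμ⟩ := central_value ψ z.2
    have hpow : ∀ (θ : IrrCharacter P) (c : ℂ), (∀ g, (θ : P → ℂ) ((z : P) * g) = c * (θ : P → ℂ) g) →
        ∀ n : ℕ, (θ : P → ℂ) ((z : P) ^ n) = c ^ n * (θ : P → ℂ) 1 := by
      intro θ c hcθ n
      induction n with
      | zero => simp
      | succ n ih => rw [pow_succ', hcθ, ih, pow_succ']; ring
    set m := orderOf (z : P) with hm
    have hprim : ∀ (θ : IrrCharacter P) (c : ℂ), charDegree (θ : P → ℂ) ≠ 1 →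
        (∀ g, (θ : P → ℂ) ((z : P) * g) = c * (θ : P → ℂ) g) → IsPrimitiveRoot c m := by
      intro θ c hθ hcθ
      refine ⟨mul_right_cancel₀ θ.2.one_ne_zero ?_, fun l hl => ?_⟩
      · rw [← hpow θ c hcθ, hm, pow_orderOf_eq_one, one_mul]
      · refine orderOf_dvd_of_pow_eq_one (hfaith θ hθ _ (pow_mem z.2 l) ?_)
        rw [hpow θ c hcθ, hl, one_mul]
    have hm0 : 0 < m := orderOf_pos _
    have hω' := hprim χ ω hχ hω
    obtain ⟨k, hk, hkcop, hkμ⟩ := (haveI : NeZero m := ⟨hm0.ne'⟩; hω'.isPrimitiveRoot_iff.1 (hprim ψ μ hψ hμ))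
    have hm1 : m ≠ 1 := by
      intro e
      rw [hm, orderOf_eq_one_iff, OneMemClass.coe_eq_one] at e
      obtain ⟨x, hx, hx1⟩ := (Subgroup.bot_or_exists_ne_one (commutator P)).resolve_left hne
      obtain ⟨i, hi⟩ := (Submonoid.mem_powers_iff _ _).1 (hz ⟨x, hcl hx⟩)
      refine hx1 ?_
      have := congrArg Subtype.val hi
      simpa [e] using this.symm
    obtain ⟨a, ha⟩ := IsPGroup.iff_card.1 hP
    obtain ⟨i, -, hi⟩ := (Nat.dvd_prime_pow pr).1 (ha ▸ (orderOf_dvd_natCard (z : P)) : m ∣ p ^ a)
    have hkP : Nat.Coprime k (Nat.card P) := by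
      rw [ha]
      refine Nat.Coprime.pow_right a (hkcop.coprime_dvd_right ?_)
      rw [hi]
      exact dvd_pow_self p fun e => hm1 (by rw [hi, e, pow_zero])
    refine ⟨k, hkP, fun g => ?_⟩
    by_cases hg : g ∈ Subgroup.center P
    · obtain ⟨n, hn⟩ := (Submonoid.mem_powers_iff _ _).1 (hz ⟨g, hg⟩)
      have hgn : g = (z : P) ^ n := by simpa using (congrArg Subtype.val hn).symm
      rw [hgn, ← pow_mul, hpow ψ μ hμ, hpow χ ω hω, ← hkμ, ← pow_mul, mul_comm n k,
        deg_spec ψ.2.isCharacter, deg_spec χ.2.isCharacter, hd]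
    · have hgk : g ^ k ∉ Subgroup.center P := fun hmem => hg (by
        obtain ⟨t, ht⟩ := exists_pow_eq_self_of_coprime (x := g) (n := k)
          (hkP.coprime_dvd_right (orderOf_dvd_natCard g))
        rw [← ht]
        exact pow_mem hmem t)
      rw [vanish hP hc ψ hψ hg, vanish hP hc χ hχ hgk]

end Cfsg.Agent.S4845
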