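import Cfsg.Statements.S4856
import Mathlib
import Cfsg.Agent.Lib.Blocks.Kernel

set_option autoImplicit false
open Cfsg

namespace Cfsg.Agent.S4856

/-- For an element z of a finite group G, the number of pairs (x, y) of elements with x y x⁻¹ y⁻¹ = z equals the order of G times the sum over the irreducible characters χ of χ(z)/χ(1). -/
theorem result {G : Type*} [Group G] [Finite G] (z : G) : (Nat.card {xy : G × G // xy.1 * xy.2 * xy.1⁻¹ * xy.2⁻¹ = z} : ℂ) = (Nat.card G : ℂ) * ∑ᶠ χ : Cfsg.IrrCharacter G, (χ : G → ℂ) z / (χ : G → ℂ) 1 := by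
  haveI := Fintype.ofFinite G
  classical
  rw [Nat.card_eq_fintype_card, finsum_eq_sum_of_fintype, Fintype.card_subtype]
  have h1 : ∀ y : G, ((Finset.univ.filter fun x : G => x * y * x⁻¹ * y⁻¹ = z).card : ℂ)
      = ∑ χ : Cfsg.IrrCharacter G, (χ : G → ℂ) (z * y) * (starRingEnd ℂ) ((χ : G → ℂ) y) := by
    intro y
    rw [Cfsg.Lib.Characters.column_orthogonality]
    have hiff : ∀ x : G, x * y * x⁻¹ * y⁻¹ = z ↔ x * y * x⁻¹ = z * y := fun x => mul_inv_eq_iff_eq_mul
    simp only [hiff]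
    split_ifs with hc
    · obtain ⟨a, ha⟩ := isConj_iff.mp hc.symm
      rw [Nat.card_eq_fintype_card, Nat.cast_inj]
      rw [← Fintype.card_subtype]
      have hmem : ∀ x : G, x * y * x⁻¹ = z * y →
          a⁻¹ * x ∈ Subgroup.centralizer ({y} : Set G) := fun x hx =>
        Subgroup.mem_centralizer_singleton_iff.mpr (mul_inv_eq_iff_eq_mul.mp (by
          calc a⁻¹ * x * y * (a⁻¹ * x)⁻¹ = a⁻¹ * (x * y * x⁻¹) * a := by group
            _ = y := by rw [hx, ← ha]; group))
      refine Fintype.card_congr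
        { toFun := fun x => ⟨a⁻¹ * x.1, hmem _ x.2⟩
          invFun := fun c => ⟨a * c.1, by
            calc a * c.1 * y * (a * c.1)⁻¹ = a * (c.1 * y * c.1⁻¹) * a⁻¹ := by group
              _ = z * y := by
                rw [Subgroup.mem_centralizer_singleton_iff.mp c.2, mul_inv_cancel_right, ha]⟩
          left_inv := fun x => by simp
          right_inv := fun c => by simp }
    · rw [Finset.filter_eq_empty_iff.mpr fun x _ hx => hc (isConj_iff.mpr ⟨x, hx⟩).symm]
      simp
  have h2 : ∀ χ : Cfsg.IrrCharacter G, ∑ y : G, (χ : G → ℂ) (z * y) * (starRingEnd ℂ) ((χ : G → ℂ) y)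
      = (Nat.card G : ℂ) * ((χ : G → ℂ) z / (χ : G → ℂ) 1) := by
    intro χ
    have hG : (Nat.card G : ℂ) ≠ 0 := Nat.cast_ne_zero.mpr Nat.card_pos.ne'
    apply mul_left_cancel₀ hG
    have hw : ∀ w : G, ∑ y : G, (χ : G → ℂ) (z * y) * (starRingEnd ℂ) ((χ : G → ℂ) y)
        = ∑ y : G, (χ : G → ℂ) (z * (w * y * w⁻¹)) * (starRingEnd ℂ) ((χ : G → ℂ) y) := by
      intro w
      refine (Fintype.sum_equiv (MulAut.conj w).toEquiv _ _ fun y => ?_).symm
      simp only [MulEquiv.toEquiv_eq_coe, EquivLike.coe_coe, MulAut.conj_apply]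
      rw [χ.2.isClassFunction y w]
    rw [Nat.card_eq_fintype_card, ← nsmul_eq_mul, ← Finset.card_univ, ← Finset.sum_const,
      Finset.sum_congr rfl fun w _ => hw w, Finset.sum_comm,
      Finset.sum_congr rfl fun y _ => (Finset.sum_mul ..).symm,
      Finset.sum_congr rfl fun y _ => congrArg (· * (starRingEnd ℂ) ((χ : G → ℂ) y))
        (Cfsg.Lib.Blocks.sum_conj_mul χ z y)]
    have h := Cfsg.Lib.Characters.classInner_irr_self χ.2
    rw [Cfsg.classInner, inv_mul_eq_iff_eq_mul₀ hG, mul_one] at h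
    rw [Finset.card_univ, ← Nat.card_eq_fintype_card]
    rw [Finset.sum_congr rfl (g := fun y => ((Nat.card G : ℂ) * ((χ : G → ℂ) z / (χ : G → ℂ) 1)) *
      ((χ : G → ℂ) y * (starRingEnd ℂ) ((χ : G → ℂ) y))) fun y _ => by ring, ← Finset.mul_sum, h]
    ring
  rw [Finset.mul_sum, ← Finset.sum_congr rfl fun χ _ => h2 χ, Finset.sum_comm,
    ← Finset.sum_congr rfl fun y _ => h1 y, ← Nat.cast_sum, Nat.cast_inj,
    Finset.card_filter, Fintype.sum_prod_type, Finset.sum_comm]
  exact Finset.sum_congr rfl fun y _ => (Finset.card_filter _ _).symm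

end Cfsg.Agent.S4856
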