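import Cfsg.Statements.S4870
import Cfsg.Agent.Lib.Characters.Correspondence
import Cfsg.Agent.Lib.Blocks.GlaubermanNormalSylow

set_option autoImplicit false
set_option linter.style.haveILetI false
open Cfsg

namespace Cfsg.Agent.S4870

open Cfsg.Lib.Characters Cfsg.Lib.Blocks Finset
open scoped Classical ComplexConjugate

/-- Homomorphisms to the units trivial on a subgroup are at most as many as its index. -/
theorem card_hom_le {G : Type*} [Group G] [Finite G] (I : Subgroup G) {ι : Type*} [Fintype ι]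
    (f : ι → (G →* ℂˣ)) (hf : Function.Injective f) (h : ∀ i, ∀ x ∈ I, f i x = 1) :
    Fintype.card ι ≤ I.index := by
  haveI : Fintype G := Fintype.ofFinite G
  haveI : Fintype (G ⧸ I) := Fintype.ofFinite _
  have hconst : ∀ (i : ι) (g : G), f i ((g : G ⧸ I).out) = f i g := fun i g => by
    obtain ⟨a, ha⟩ := QuotientGroup.mk_out_eq_mul I g
    rw [ha, map_mul, h i _ a.2, mul_one]
  have hli : LinearIndependent ℂ fun i : ι => fun q : G ⧸ I => (f i q.out : ℂ) := by
    rw [Fintype.linearIndependent_iff]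
    intro c hc
    have hM : LinearIndependent ℂ fun i : ι => fun g : G => (f i g : ℂ) :=
      (linearIndependent_monoidHom G ℂ).comp (fun i => (Units.coeHom ℂ).comp (f i)) fun i j hij =>
        hf (MonoidHom.ext fun g => Units.ext (DFunLike.congr_fun hij g))
    refine Fintype.linearIndependent_iff.mp hM c (funext fun g => ?_)
    have := congrFun hc (g : G ⧸ I)
    simp only [Finset.sum_apply, Pi.smul_apply, hconst, Pi.zero_apply] at this ⊢
    exact this
  have := hli.fintype_card_le_finrank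
  rwa [Module.finrank_pi, ← Nat.card_eq_fintype_card (α := G ⧸ I), ← Subgroup.index_eq_card] at this

/-- Let G be a finite group with a non-abelian minimal normal subgroup N, and let φ be an irreducible complex character of N with stabilizer I in G (the elements g with φ(g n g⁻¹) = φ(n) for all n ∈ N) such that φ extends to an irreducible character of I. Put d = φ(1)·[G : I]. Then the number of linear characters of G is at most [G : I] times the number of irreducible characters of G of degree d. -/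
theorem result {G : Type*} [Group G] [Finite G] (N : Subgroup G) (hN : N.Normal) (hN1 : N ≠ ⊥) (hmin : ∀ M : Subgroup G, M.Normal → M ≤ N → M = ⊥ ∨ M = N) (hna : ¬ IsMulCommutative ↥N) (φ : Cfsg.IrrCharacter ↥N) (I : Subgroup G) (hI : ∀ g : G, g ∈ I ↔ ∀ n n' : ↥N, (n' : G) = g * (n : G) * g⁻¹ → (φ : ↥N → ℂ) n' = (φ : ↥N → ℂ) n) (hNI : N ≤ I) (hext : ∃ ψ : Cfsg.IrrCharacter ↥I, ∀ n : ↥N, (ψ : ↥I → ℂ) (Subgroup.inclusion hNI n) = (φ : ↥N → ℂ) n) : Nat.card {χ : Cfsg.IrrCharacter G // Cfsg.charDegree (χ : G → ℂ) = 1} ≤ I.index * Nat.card {χ : Cfsg.IrrCharacter G // Cfsg.charDegree (χ : G → ℂ) = Cfsg.charDegree (φ : ↥N → ℂ) * I.index} := by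
  haveI : Fintype G := Fintype.ofFinite G
  haveI := hN
  haveI : Fintype I := Fintype.ofFinite I
  obtain ⟨ψ, hψφ⟩ := hext
  have hT : I = inertia N (φ : N → ℂ) := by
    ext g
    rw [hI, mem_inertia, funext_iff]
    constructor
    · intro h m; rw [conjFn_apply]; exact h m _ rfl
    · intro h m m' hm
      have := h m
      rw [conjFn_apply] at this
      rw [← this]
      exact congrArg _ (Subtype.ext hm)
  -- `N` is perfect
  have hperf : ⁅N, N⁆ = N := by
    refine (hmin _ (Subgroup.commutator_normal N N) (Subgroup.commutator_le_left N N)).resolve_left fun h => hna ?_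
    exact ⟨⟨fun a b => Subtype.ext
      ((Subgroup.commutator_eq_bot_iff_le_centralizer.mp h) b.2 a a.2)⟩⟩
  have hNlin : ∀ (μ : G →* ℂˣ), ∀ n ∈ N, μ n = 1 := fun μ n hn => by
    have : N ≤ μ.ker := by
      rw [← hperf]
      exact (Subgroup.commutator_mono le_top le_top).trans (Abelianization.commutator_subset_ker μ)
    exact MonoidHom.mem_ker.mp (this hn)
  have hψne : classInner (fun n : N => (ψ : I → ℂ) ⟨(n : G), hNI n.2⟩) (φ : N → ℂ) ≠ 0 := by
    rw [show (fun n : N => (ψ : I → ℂ) ⟨(n : G), hNI n.2⟩) = (φ : N → ℂ) from funext hψφ, classInner_irr_self φ.2]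
    exact one_ne_zero
  obtain ⟨hirr, huniq⟩ := indFun_of_mem_inertia φ.2 I hT hNI ψ.2 hψne
  set χ₀ := indFun I (ψ : I → ℂ) with hχ₀
  choose μ hμ using fun L : {χ : IrrCharacter G // charDegree (χ : G → ℂ) = 1} =>
    exists_hom_of_degree_one L.1.2.isCharacter (by rw [← coe_charDegree L.1, L.2, Nat.cast_one])
  have hμinj : Function.Injective μ := fun a b h => Subtype.ext (Subtype.ext (by rw [hμ a, hμ b, h]))
  have hindmul : ∀ (ν : G →* ℂˣ), indFun I (fun y : I => (ν (y : G) : ℂ) * (ψ : I → ℂ) y) = fun g => (ν g : ℂ) * χ₀ g := by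
    intro ν
    funext g
    rw [hχ₀, indFun, indFun]
    simp only [Finset.mul_sum]
    refine Finset.sum_congr rfl fun x _ => ?_
    rw [mul_left_comm (ν g : ℂ)]
    congr 1
    by_cases hx : x⁻¹ * g * x ∈ I
    · rw [extendByZero_mem _ hx, extendByZero_mem _ hx]
      congr 2
      rw [map_mul, map_mul, map_inv, mul_comm _ (ν x), mul_inv_cancel_left]
    · rw [extendByZero_not_mem _ hx, extendByZero_not_mem _ hx, mul_zero]
  have hirrmul : ∀ (ν : G →* ℂˣ), IsIrrCharacter I (fun y : I => (ν (y : G) : ℂ) * (ψ : I → ℂ) y) := fun ν =>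
    isIrrCharacter_of_comp (Subgroup.inclusion hNI)
      (isCharacter_mul (isIrrCharacter_linear (ν.comp I.subtype)).isCharacter ψ.2.isCharacter) (by
      rw [show (fun n : N => (ν ((Subgroup.inclusion hNI n : I) : G) : ℂ) * (ψ : I → ℂ) (Subgroup.inclusion hNI n))
        = (φ : N → ℂ) from funext fun n => by
          show (ν (n : G) : ℂ) * _ = _
          rw [hNlin ν _ n.2, Units.val_one, one_mul, hψφ]]
      exact φ.2)
  have hne : ∀ (ν : G →* ℂˣ), classInner (fun n : N => (fun y : I => (ν (y : G) : ℂ) * (ψ : I → ℂ) y) ⟨(n : G), hNI n.2⟩)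
      (φ : N → ℂ) ≠ 0 := fun ν => by
    rw [show (fun n : N => (fun y : I => (ν (y : G) : ℂ) * (ψ : I → ℂ) y) ⟨(n : G), hNI n.2⟩) = (φ : N → ℂ) from
      funext fun n => by
        show (ν (n : G) : ℂ) * _ = _
        rw [hNlin ν _ n.2, Units.val_one, one_mul]; exact hψφ n, classInner_irr_self φ.2]
    exact one_ne_zero
  have hmap : ∀ L, IsIrrCharacter G (fun g => (μ L g : ℂ) * χ₀ g) := fun L => by
    rw [← hindmul]
    exact (indFun_of_mem_inertia φ.2 I hT hNI (hirrmul _) (hne _)).1
  have hdeg : ∀ L, charDegree (fun g => (μ L g : ℂ) * χ₀ g) = charDegree (φ : N → ℂ) * I.index := fun L => by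
    refine charDegree_eq ?_
    rw [map_one, Units.val_one, one_mul, hχ₀, indFun_one_apply, Nat.cast_mul, coe_charDegree, mul_comm]
    congr 1
    exact hψφ 1
  let F : {χ : IrrCharacter G // charDegree (χ : G → ℂ) = 1} →
      {χ : IrrCharacter G // charDegree (χ : G → ℂ) = charDegree (φ : N → ℂ) * I.index} :=
    fun L => ⟨⟨_, hmap L⟩, hdeg L⟩
  rw [Nat.card_eq_fintype_card, Nat.card_eq_fintype_card, ← Finset.card_univ, ← Finset.card_univ]
  refine Finset.card_le_mul_card_image_of_maps_to (f := F) (fun L _ => Finset.mem_univ _) I.index fun c _ => ?_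
  by_cases hempty : (univ.filter fun L => F L = c).Nonempty
  · obtain ⟨L₀, hL₀⟩ := hempty
    rw [← Fintype.card_coe]
    refine card_hom_le I (fun L : {x // x ∈ univ.filter fun L => F L = c} => μ L.1 * (μ L₀)⁻¹)
      (fun a b h => Subtype.ext (hμinj (mul_right_cancel h))) fun L x hx => ?_
    obtain ⟨L, hL⟩ := L
    have heq : F L = F L₀ := (Finset.mem_filter.mp hL).2.trans (Finset.mem_filter.mp hL₀).2.symm
    have h1 := congrArg (fun z : {χ : IrrCharacter G // charDegree (χ : G → ℂ) = charDegree (φ : N → ℂ) * I.index} => (z.1 : G → ℂ)) heq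
    simp only [F] at h1
    rw [← hindmul, ← hindmul] at h1
    have h2 := (indFun_of_mem_inertia φ.2 I hT hNI (hirrmul (μ L₀)) (hne _)).2 _ (hirrmul (μ L)) (hne _) h1
    -- cancel the extension
    set ν := (μ L * (μ L₀)⁻¹).comp I.subtype with hν
    have h3 : ∀ y : I, (ν y : ℂ) * (ψ : I → ℂ) y = (ψ : I → ℂ) y := by
      intro y
      have := congrFun h2 y
      simp only [hν, MonoidHom.comp_apply, Subgroup.coe_subtype, MonoidHom.mul_apply, MonoidHom.inv_apply,
        Units.val_mul, Units.val_inv_eq_inv_val]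
      rw [mul_right_comm, this, mul_right_comm, mul_inv_cancel₀ (μ L₀ (y : G)).ne_zero, one_mul]
    let eN := Subgroup.subgroupOfEquivOfLe hNI
    have hinvN : ∀ t : I, conjFn (N.subgroupOf I) (fun y => (φ : N → ℂ) (eN y)) t = fun y => (φ : N → ℂ) (eN y) := by
      intro t
      have ht : conjFn N (φ : N → ℂ) (t : G) = φ := by
        exact mem_inertia.mp (hT.le t.2)
      funext y
      have h4 := congrFun ht (eN y)
      rw [conjFn_apply] at h4 ⊢
      exact Eq.trans (congrArg _ (Subtype.ext rfl)) h4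
    obtain ⟨-, hinj, -⟩ := gallagher_quot (isIrrCharacter_mulEquiv φ.2 eN) hinvN ψ.2 fun y => hψφ (eN y)
    have hker : N.subgroupOf I ≤ ν.ker := fun y hy => MonoidHom.mem_ker.mpr (by
      simp only [hν, MonoidHom.comp_apply, Subgroup.coe_subtype, MonoidHom.mul_apply, MonoidHom.inv_apply,
        hNlin _ _ (Subgroup.mem_subgroupOf.mp hy), inv_one, mul_one])
    have h5 := hinj ⟨_, isIrrCharacter_linear (QuotientGroup.lift (N.subgroupOf I) ν hker)⟩
      ⟨fun _ => 1, isIrrCharacter_one⟩ fun y => by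
        show ((QuotientGroup.lift (N.subgroupOf I) ν hker) (y : I ⧸ N.subgroupOf I) : ℂ) * _ = 1 * _
        rw [QuotientGroup.lift_mk, one_mul, h3]
    have h6 := congrArg (fun b : IrrCharacter (I ⧸ N.subgroupOf I) => (b : I ⧸ N.subgroupOf I → ℂ) ((⟨x, hx⟩ : I) : I ⧸ N.subgroupOf I)) h5
    exact Units.ext h6
  · rw [Finset.not_nonempty_iff_eq_empty.mp hempty, Finset.card_empty]
    exact Nat.zero_le _

end Cfsg.Agent.S4870
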