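import Cfsg.Statements.S4871
import Cfsg.Agent.Lib.Characters.CyclicTI2
import Cfsg.Agent.S4870

set_option autoImplicit false
set_option linter.style.haveILetI false
open Cfsg

namespace Cfsg.Agent.S4871

open Cfsg.Lib.Characters Cfsg.Lib.Blocks Finset
open Cfsg.Agent.S4870 (card_hom_le)
open scoped Classical ComplexConjugate

/-- The square sum of a linear character of a subgroup induced to the whole group. -/
theorem fs_indFun_eq {G : Type*} [Group G] [Fintype G] (I : Subgroup G) (f : I → ℂ) :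
    (Nat.card G : ℂ)⁻¹ * ∑ g, indFun I f (g * g) = (Nat.card I : ℂ)⁻¹ * ∑ g, extendByZero I f (g * g) := by
  simp only [indFun]
  rw [← Finset.mul_sum, Finset.sum_comm]
  have h : ∀ x : G, ∑ g : G, extendByZero I f (x⁻¹ * (g * g) * x) = ∑ g : G, extendByZero I f (g * g) := fun x =>
    Fintype.sum_equiv (MulAut.conj x⁻¹).toEquiv _ _ fun g => by
      simp only [MulEquiv.toEquiv_eq_coe, MulEquiv.coe_toEquiv, MulAut.conj_apply, inv_inv]
      congr 1; group
  rw [Finset.sum_congr rfl fun x _ => h x, Finset.sum_const, Finset.card_univ, nsmul_eq_mul,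
    Nat.card_eq_fintype_card, mul_left_comm, inv_mul_cancel_left₀ (Nat.cast_ne_zero.mpr Fintype.card_ne_zero)]

/-- Let G be a finite group that is the semidirect product of a normal elementary abelian subgroup N of odd order by a non-trivial 2-subgroup P, with N the unique minimal normal subgroup of G. Consider the strongly real irreducible complex characters of G (Frobenius–Schur indicator +1) whose degree is 1 or even. Then their average degree is at least 4/3: four times their number is at most three times the sum of their degrees. -/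
theorem result {G : Type*} [Group G] [Finite G] (N P : Subgroup G) (hN : N.Normal) (q : ℕ) [Fact q.Prime] (hq : q ≠ 2) (hNel : Cfsg.IsElementaryAbelian q N) (hP : IsPGroup 2 ↥P) (hP1 : P ≠ ⊥) (hdisj : N ⊓ P = ⊥) (hprod : N ⊔ P = ⊤) (hmin : N ≠ ⊥ ∧ ∀ M : Subgroup G, M.Normal → M ≠ ⊥ → N ≤ M) : 4 * Nat.card {χ : Cfsg.IrrCharacter G // (Cfsg.charDegree (χ : G → ℂ) = 1 ∨ 2 ∣ Cfsg.charDegree (χ : G → ℂ)) ∧ (Nat.card G : ℂ)⁻¹ * ∑ᶠ g : G, (χ : G → ℂ) (g * g) = 1} ≤ 3 * (∑ᶠ χ : {χ : Cfsg.IrrCharacter G // (Cfsg.charDegree (χ : G → ℂ) = 1 ∨ 2 ∣ Cfsg.charDegree (χ : G → ℂ)) ∧ (Nat.card G : ℂ)⁻¹ * ∑ᶠ g : G, (χ : G → ℂ) (g * g) = 1}, Cfsg.charDegree (χ.1 : G → ℂ)) := by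
  haveI : Fintype G := Fintype.ofFinite G
  haveI : Fintype N := Fintype.ofFinite N
  haveI : Fintype P := Fintype.ofFinite P
  haveI : Fact (Nat.Prime 2) := ⟨Nat.prime_two⟩
  haveI := hN
  obtain ⟨hNc, hNq⟩ := hNel
  obtain ⟨hNne, hmin⟩ := hmin
  have hqodd : Odd q := (Fact.out : q.Prime).odd_of_ne_two hq
  have hNcomm : ∀ a ∈ N, ∀ b ∈ N, a * b = b * a := fun a ha b hb =>
    congrArg Subtype.val (hNc.is_comm.comm (⟨a, ha⟩ : N) ⟨b, hb⟩)
  have hgen : ∀ g : G, ∃ n ∈ N, ∃ y ∈ P, g = n * y := fun g => by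
    obtain ⟨n, hn, y, hy, h⟩ := Subgroup.mem_sup_of_normal_left.mp (hprod.symm ▸ Subgroup.mem_top g : g ∈ N ⊔ P)
    exact ⟨n, hn, y, hy, h.symm⟩
  have huniq : ∀ n ∈ N, ∀ n' ∈ N, ∀ y ∈ P, ∀ y' ∈ P, n * y = n' * y' → n = n' ∧ y = y' := by
    intro n hn n' hn' y hy y' hy' h
    have h1 : n'⁻¹ * n = y' * y⁻¹ := by
      rw [eq_mul_inv_iff_mul_eq, mul_assoc, h, inv_mul_cancel_left]
    have h2 : n'⁻¹ * n ∈ N ⊓ P := ⟨N.mul_mem (N.inv_mem hn') hn, h1 ▸ P.mul_mem hy' (P.inv_mem hy)⟩
    rw [hdisj, Subgroup.mem_bot] at h2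
    exact ⟨(inv_mul_eq_one.mp h2).symm, (mul_inv_eq_one.mp (h1.symm.trans h2)).symm⟩
  -- a central involution of `P` inverts `N`
  obtain ⟨z, hzP, hz2, hz1, hzc⟩ : ∃ z ∈ P, z * z = 1 ∧ z ≠ 1 ∧ ∀ y ∈ P, z * y = y * z := by
    haveI : Nontrivial P := (Subgroup.nontrivial_iff_ne_bot P).mpr hP1
    haveI := IsPGroup.center_nontrivial hP
    have hne : Nat.card (Subgroup.center P) ≠ 1 := fun h => by
      have := (Nat.card_eq_one_iff_unique.mp h).1
      exact not_subsingleton (Subgroup.center P) this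
    obtain ⟨k, hk⟩ := IsPGroup.iff_card.mp (hP.to_subgroup (Subgroup.center P))
    obtain ⟨c, hc⟩ := exists_prime_orderOf_dvd_card' 2 (G := Subgroup.center P)
      (hk ▸ dvd_pow_self 2 fun h => hne (by rw [hk, h, pow_zero]))
    refine ⟨((c : P) : G), (c : P).2, ?_, fun h => ?_, fun y hy => ?_⟩
    · have := pow_orderOf_eq_one c
      rw [hc, sq] at this
      exact congrArg (fun w : Subgroup.center P => ((w : P) : G)) this
    · rw [show c = 1 from Subtype.ext (Subtype.ext h), orderOf_one] at hc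
      omega
    · exact (congrArg Subtype.val (Subgroup.mem_center_iff.mp c.2 ⟨y, hy⟩)).symm
  have hzn : ∀ n ∈ N, z * n * z = n⁻¹ := by
    have hzinv : z⁻¹ = z := inv_eq_of_mul_eq_one_right hz2
    set F := N ⊓ Subgroup.centralizer ({z} : Set G) with hF
    have hFn : F.Normal := by
      refine ⟨fun x hx g => ⟨hN.conj_mem x hx.1 g, Subgroup.mem_centralizer_singleton_iff.mpr ?_⟩⟩
      obtain ⟨n, hn, y, hy, rfl⟩ := hgen g
      have hxz := Subgroup.mem_centralizer_singleton_iff.mp hx.2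
      have hyx : y * x * y⁻¹ ∈ N := hN.conj_mem x hx.1 y
      have e : n * y * x * (n * y)⁻¹ = y * x * y⁻¹ := by
        rw [show n * y * x * (n * y)⁻¹ = n * (y * x * y⁻¹) * n⁻¹ by group, hNcomm n hn _ hyx, mul_inv_cancel_right]
      rw [e]
      calc y * x * y⁻¹ * z = y * x * (y⁻¹ * z) := by group
        _ = y * x * (z * y⁻¹) := by rw [hzc _ (P.inv_mem hy)]
        _ = y * (x * z) * y⁻¹ := by group
        _ = y * (z * x) * y⁻¹ := by rw [hxz]
        _ = (y * z) * x * y⁻¹ := by group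
        _ = (z * y) * x * y⁻¹ := by rw [hzc y hy]
        _ = z * (y * x * y⁻¹) := by group
    have hFbot : F = ⊥ := by
      by_contra hne
      have hNF := hmin F hFn hne
      -- then the centralizer of `N` in `P` is a nontrivial normal subgroup
      let C : Subgroup G := P ⊓ Subgroup.centralizer (N : Set G)
      have hCn : C.Normal := by
        refine ⟨fun x hx g => ?_⟩
        obtain ⟨n, hn, y, hy, rfl⟩ := hgen g
        have hxy : y * x * y⁻¹ ∈ Subgroup.centralizer (N : Set G) := by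
          rw [Subgroup.mem_centralizer_iff]
          intro m hm
          have h1 := Subgroup.mem_centralizer_iff.mp hx.2 (y⁻¹ * m * y) (by simpa using hN.conj_mem m hm y⁻¹)
          calc m * (y * x * y⁻¹) = y * ((y⁻¹ * m * y) * x) * y⁻¹ := by group
            _ = y * (x * (y⁻¹ * m * y)) * y⁻¹ := by rw [h1]
            _ = y * x * y⁻¹ * m := by group
        have e : n * y * x * (n * y)⁻¹ = y * x * y⁻¹ := by
          rw [show n * y * x * (n * y)⁻¹ = n * (y * x * y⁻¹) * n⁻¹ by group,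
            Subgroup.mem_centralizer_iff.mp hxy n hn, mul_inv_cancel_right]
        rw [e]
        exact ⟨P.mul_mem (P.mul_mem hy hx.1) (P.inv_mem hy), hxy⟩
      have hzC : z ∈ C := ⟨hzP, Subgroup.mem_centralizer_iff.mpr fun m hm =>
        Subgroup.mem_centralizer_singleton_iff.mp (hNF hm).2⟩
      have hNC := hmin C hCn fun h => hz1 (by rwa [h, Subgroup.mem_bot] at hzC)
      exact hNne (eq_bot_iff.mpr (hdisj ▸ le_inf le_rfl (hNC.trans inf_le_left)))
    intro n hn
    have hm : z * n * z ∈ N := by simpa [hzinv] using hN.conj_mem n hn z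
    have h : n * (z * n * z) ∈ F := ⟨N.mul_mem hn hm, Subgroup.mem_centralizer_singleton_iff.mpr (by
      calc n * (z * n * z) * z = n * z * n * (z * z) := by group
        _ = n * z * n := by rw [hz2, mul_one]
        _ = z * ((z * n * z) * n) := by
          rw [show z * ((z * n * z) * n) = (z * z) * n * z * n by group, hz2, one_mul]
        _ = z * (n * (z * n * z)) := by rw [hNcomm _ hm n hn])⟩
    rw [hFbot, Subgroup.mem_bot] at h
    exact eq_inv_of_mul_eq_one_right h
  -- a nontrivial linear character of `N`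
  haveI : IsMulCommutative N := hNc
  haveI : Nontrivial N := (Subgroup.nontrivial_iff_ne_bot N).mpr hNne
  obtain ⟨n₀, hn₀⟩ := exists_ne (1 : N)
  obtain ⟨lam, hlam⟩ := exists_hom_ne_one hn₀
  set lf : N → ℂ := fun n => (lam n : ℂ) with hlf
  have hlirr : IsIrrCharacter N lf := isIrrCharacter_linear lam
  set I := inertia N lf with hI
  have hNI : N ≤ I := le_inertia hlirr.isClassFunction
  haveI : Fintype I := Fintype.ofFinite I
  let cj : G → N → N := fun y n => ⟨y * n * y⁻¹, hN.conj_mem n n.2 y⟩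
  have hmemI : ∀ g, g ∈ I ↔ ∀ n : N, lam (cj g n) = lam n := fun g =>
    ⟨fun h n => Units.ext (congrFun h n), fun h => funext fun n => congrArg Units.val (h n)⟩
  have hzI : ∀ n : N, lam (cj z n) = (lam n)⁻¹ := fun n => by
    rw [← map_inv]; congr 1
    exact Subtype.ext ((by rw [inv_eq_of_mul_eq_one_right hz2] : z * (n : G) * z⁻¹ = z * n * z).trans (hzn n n.2))
  have hzI' : z ∉ I := fun h => by
    have h1 := (hmemI z).mp h n₀
    rw [hzI] at h1
    have h2 : lam n₀ * lam n₀ = 1 := by nth_rewrite 1 [← h1]; exact inv_mul_cancel _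
    have h3 : lam n₀ ^ q = 1 := by
      rw [← map_pow, show n₀ ^ q = 1 from Subtype.ext (hNq n₀ n₀.2), map_one]
    have h4 := pow_gcd_eq_one.mpr ⟨(sq (lam n₀)).trans h2, h3⟩
    rw [(Nat.coprime_two_left.mpr hqodd).gcd_eq_one, pow_one] at h4
    exact hlam h4
  -- the extension to the inertia group
  choose nn hnn yy hyy hny using hgen
  have hnn_eq : ∀ n ∈ N, ∀ y ∈ P, nn (n * y) = n ∧ yy (n * y) = y := fun n hn y hy =>
    huniq _ (hnn _) n hn _ (hyy _) y hy (hny _).symm
  let π : G → N := fun g => ⟨nn g, hnn g⟩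
  have hyI : ∀ g ∈ I, yy g ∈ I := fun g hg => by
    have := I.mul_mem (I.inv_mem (hNI (hnn g))) hg
    rwa [show (nn g)⁻¹ * g = yy g by rw [inv_mul_eq_iff_eq_mul]; exact hny g] at this
  have hπmul : ∀ a ∈ I, ∀ b : G, lam (π (a * b)) = lam (π a) * lam (π b) := by
    intro a ha b
    have e : a * b = (nn a * (yy a * nn b * (yy a)⁻¹)) * (yy a * yy b) := by
      conv_lhs => rw [hny a, hny b]
      group
    have h1 := (hnn_eq _ (N.mul_mem (hnn a) (hN.conj_mem _ (hnn b) (yy a))) _ (P.mul_mem (hyy a) (hyy b))).1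
    rw [← e] at h1
    have h2 : π (a * b) = π a * cj (yy a) (π b) := Subtype.ext h1
    rw [h2, map_mul, (hmemI _).mp (hyI a ha)]
  have hπN : ∀ n : N, π (n : G) = n := fun n => by
    refine Subtype.ext ?_
    show nn (n : G) = n
    have := (hnn_eq _ n.2 1 P.one_mem).1
    rwa [mul_one] at this
  let lhat : I →* ℂˣ :=
    { toFun := fun g => lam (π (g : G))
      map_one' := by
        rw [show ((1 : I) : G) = ((1 : N) : G) from rfl, hπN, map_one]
      map_mul' := fun a b => hπmul a a.2 b }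
  -- the sign characters
  haveI : Finite (G →* ℂˣ) := Nat.finite_of_card_ne_zero (by rw [card_hom_units]; exact Subgroup.index_ne_zero_of_finite)
  haveI : Fintype (G →* ℂˣ) := Fintype.ofFinite _
  set K := univ.filter (fun μ : G →* ℂˣ => μ * μ = 1) with hK
  have hKsq : ∀ μ ∈ K, ∀ g, μ g * μ g = 1 := fun μ hμ g => DFunLike.congr_fun (Finset.mem_filter.mp hμ).2 g
  have hKN : ∀ μ ∈ K, ∀ n : N, μ (n : G) = 1 := fun μ hμ n => by
    have h2 := hKsq μ hμ n
    have h3 : μ (n : G) ^ q = 1 := by rw [← map_pow, hNq n n.2, map_one]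
    have h4 := pow_gcd_eq_one.mpr ⟨(sq (μ (n : G))).trans h2, h3⟩
    rwa [(Nat.coprime_two_left.mpr hqodd).gcd_eq_one, pow_one] at h4
  set d := I.index with hd
  have hψ : ∀ μ ∈ K, IsIrrCharacter I (fun x : I => (((μ.comp I.subtype) * lhat) x : ℂ)) ∧
      classInner (fun n : N => (fun x : I => (((μ.comp I.subtype) * lhat) x : ℂ)) ⟨(n : G), hNI n.2⟩) lf ≠ 0 := by
    intro μ hμ
    refine ⟨isIrrCharacter_linear _, ?_⟩
    rw [show (fun n : N => (fun x : I => (((μ.comp I.subtype) * lhat) x : ℂ)) ⟨(n : G), hNI n.2⟩) = lf from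
      funext fun n => by
        show ((μ (n : G) * lam (π (n : G)) : ℂˣ) : ℂ) = _
        rw [hKN μ hμ, hπN, one_mul], classInner_irr_self hlirr]
    exact one_ne_zero
  let Ψ : (G →* ℂˣ) → (G → ℂ) := fun μ => indFun I (fun x : I => (((μ.comp I.subtype) * lhat) x : ℂ))
  have hΨirr : ∀ μ ∈ K, IsIrrCharacter G (Ψ μ) := fun μ hμ =>
    (indFun_of_mem_inertia hlirr I hI hNI (hψ μ hμ).1 (hψ μ hμ).2).1
  have hΨdeg : ∀ μ, charDegree (Ψ μ) = d := fun μ => charDegree_eq (by
    show indFun I _ 1 = _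
    rw [indFun_one_apply]; simp [hd])
  have hd2 : 2 ≤ d ∧ 2 ∣ d := by
    have hne : d ≠ 1 := fun h => hzI' (by rw [show I = ⊤ from Subgroup.index_eq_one.mp h]; exact Subgroup.mem_top z)
    obtain ⟨j, hj⟩ := IsPGroup.iff_card.mp hP
    have hdvd : d ∣ 2 ^ j := by
      rw [← hj]
      refine (Subgroup.index_dvd_of_le hNI).trans ?_
      rw [← Subgroup.relIndex_top_right, ← hprod, sup_comm, Subgroup.relIndex_sup_right]
      exact Subgroup.relIndex_dvd_card _ _
    obtain ⟨i, -, hi⟩ := (Nat.dvd_prime_pow Nat.prime_two).mp hdvd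
    rcases i with _ | i
    · exact absurd hi hne
    · rw [hi, pow_succ]; exact ⟨Nat.le_mul_of_pos_left 2 (by positivity), Dvd.intro_left _ rfl⟩
  -- the indicator
  have hΨfs : ∀ μ ∈ K, (Nat.card G : ℂ)⁻¹ * ∑ᶠ g : G, Ψ μ (g * g) = 1 := by
    intro μ hμ
    rw [finsum_eq_sum_of_fintype, fs_indFun_eq]
    set e : I → ℂ := fun x => (((μ.comp I.subtype) * lhat) x : ℂ) with he
    have hval : ∀ (n : N) (y : P), extendByZero I e ((n : G) * y * ((n : G) * y)) =
        if (y : G) * (y : G) ∈ I then (lam n : ℂ) * lam (cj (y : G) n) else 0 := by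
      intro n y
      have e1 : (n : G) * y * ((n : G) * y) = ((n * cj (y : G) n : N) : G) * ((y : G) * y) := by
        show _ = (n : G) * ((y : G) * n * (y : G)⁻¹) * ((y : G) * y)
        group
      by_cases hy2 : (y : G) * (y : G) ∈ I
      · rw [if_pos hy2, e1, extendByZero_mem _ (I.mul_mem (hNI (n * cj (y : G) n).2) hy2)]
        show ((μ _ * lam (π _) : ℂˣ) : ℂ) = _
        have h1 : μ (((n * cj (y : G) n : N) : G) * ((y : G) * y)) = 1 := by
          rw [map_mul, hKN μ hμ, map_mul, hKsq μ hμ, one_mul]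
        have h2 : π (((n * cj (y : G) n : N) : G) * ((y : G) * y)) = n * cj (y : G) n :=
          Subtype.ext (hnn_eq _ (n * cj (y : G) n).2 _ (P.mul_mem y.2 y.2)).1
        simp only [Subgroup.coe_subtype]
        rw [h1, h2, one_mul, map_mul, Units.val_mul]
      · rw [if_neg hy2, e1, extendByZero_not_mem _ fun h => hy2 ?_]
        have := I.mul_mem (I.inv_mem (hNI (n * cj (y : G) n).2)) h
        rwa [inv_mul_cancel_left] at this
    have hcz : ∀ (y : G) (n : N), cj y (cj z n) = cj (y * z) n := fun y n => Subtype.ext (by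
      show y * (z * (n : G) * z⁻¹) * y⁻¹ = y * z * n * (y * z)⁻¹; group)
    have hiff : ∀ y : P, ((y : G) * z ∈ I ↔ ∀ n : N, lam n * lam (cj (y : G) n) = 1) := by
      intro y
      rw [hmemI]
      constructor
      · intro h n
        have h1 := h (cj z n)
        rw [show cj ((y : G) * z) (cj z n) = cj (y : G) n from Subtype.ext (by
          show (y : G) * z * (z * (n : G) * z⁻¹) * ((y : G) * z)⁻¹ = (y : G) * n * (y : G)⁻¹
          calc (y : G) * z * (z * (n : G) * z⁻¹) * ((y : G) * z)⁻¹ = (y : G) * (z * z) * n * (z * z)⁻¹ * (y : G)⁻¹ := by group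
            _ = _ := by rw [hz2]; group), hzI] at h1
        rw [h1, mul_inv_cancel]
      · intro h n
        have h1 := h (cj z n)
        rw [hcz, hzI, inv_mul_eq_one] at h1
        exact h1.symm
    have hinner : ∀ y : P, ∑ n : N, (if (y : G) * (y : G) ∈ I then (lam n : ℂ) * lam (cj (y : G) n) else 0) =
        if (y : G) * z ∈ I then (Nat.card N : ℂ) else 0 := by
      intro y
      by_cases hyz : (y : G) * z ∈ I
      · have h1 := (hiff y).mp hyz
        have hy2 : (y : G) * (y : G) ∈ I := by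
          have h2 := I.mul_mem hyz hyz
          rwa [show (y : G) * z * ((y : G) * z) = (y : G) * y * (z * z) by
            rw [show (y : G) * z * ((y : G) * z) = (y : G) * (z * y) * z by group, hzc y y.2]; group, hz2, mul_one] at h2
        simp only [if_pos hy2, if_pos hyz]
        rw [Finset.sum_congr rfl fun n _ => by rw [← Units.val_mul, h1 n, Units.val_one], Finset.sum_const, Finset.card_univ,
          nsmul_eq_mul, mul_one, Nat.card_eq_fintype_card]
      · rw [if_neg hyz]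
        by_cases hy2 : (y : G) * (y : G) ∈ I
        · simp only [if_pos hy2]
          let ν : N →* ℂˣ :=
            { toFun := fun n => lam n * lam (cj (y : G) n)
              map_one' := by rw [map_one, show cj (y : G) 1 = 1 from Subtype.ext (by simp [cj]), map_one, one_mul]
              map_mul' := fun a b => by
                rw [map_mul, show cj (y : G) (a * b) = cj (y : G) a * cj (y : G) b from Subtype.ext (by simp [cj, mul_assoc]),
                  map_mul, mul_mul_mul_comm] }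
          have h := classInner_irr_ne (isIrrCharacter_linear ν) (isIrrCharacter_one (G := N)) fun h =>
            hyz ((hiff y).mpr fun n => Units.ext (congrFun h n))
          rw [classInner] at h
          simpa [ν, Nat.card_pos.ne'] using h
        · simp [if_neg hy2]
    have hsplit : ∑ g, extendByZero I e (g * g) = ∑ y : P, ∑ n : N, extendByZero I e ((n : G) * y * ((n : G) * y)) := by
      rw [Finset.sum_comm, ← Finset.sum_product']
      refine (Fintype.sum_equiv (Equiv.ofBijective (fun p : N × P => (p.1 : G) * p.2) ⟨?_, ?_⟩) _ _ fun p => rfl).symm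
      · rintro ⟨a, b⟩ ⟨c, e⟩ h
        obtain ⟨h1, h2⟩ := huniq _ a.2 _ c.2 _ b.2 _ e.2 h
        exact Prod.ext (Subtype.ext h1) (Subtype.ext h2)
      · exact fun g => ⟨(π g, ⟨yy g, hyy g⟩), (hny g).symm⟩
    have hcard : Nat.card I = Nat.card N * Nat.card {y : P // (y : G) * z ∈ I} := by
      rw [← Nat.card_prod]
      refine (Nat.card_eq_of_bijective (fun p : N × {y : P // (y : G) * z ∈ I} =>
        (⟨(p.1 : G) * ((p.2.1 : G) * z), I.mul_mem (hNI p.1.2) p.2.2⟩ : I)) ⟨?_, ?_⟩).symm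
      · rintro ⟨a, b⟩ ⟨c, e⟩ h
        obtain ⟨h1, h2⟩ := huniq _ a.2 _ c.2 _ (P.mul_mem b.1.2 hzP) _ (P.mul_mem e.1.2 hzP) (congrArg Subtype.val h)
        exact Prod.ext (Subtype.ext h1) (Subtype.ext (Subtype.ext (mul_right_cancel h2)))
      · intro g
        refine ⟨(π g, ⟨⟨yy g * z, P.mul_mem (hyy g) hzP⟩, ?_⟩), Subtype.ext ?_⟩
        · show yy (g : G) * z * z ∈ I
          rw [mul_assoc, hz2, mul_one]; exact hyI g g.2
        · show nn (g : G) * (yy (g : G) * z * z) = g
          rw [mul_assoc (yy (g : G)), hz2, mul_one]; exact (hny g).symm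
    rw [hsplit, Finset.sum_congr rfl fun y _ => (Finset.sum_congr rfl fun n _ => hval n y).trans (hinner y),
      ← Finset.sum_filter, Finset.sum_const, ← Fintype.card_subtype, nsmul_eq_mul, hcard, Nat.cast_mul,
      ← Nat.card_eq_fintype_card, mul_comm (Nat.card N : ℂ), inv_mul_cancel₀]
    refine mul_ne_zero (Nat.cast_ne_zero.mpr ?_) (Nat.cast_ne_zero.mpr Nat.card_pos.ne')
    intro h0
    rw [h0, mul_zero] at hcard
    exact Nat.card_pos.ne' hcard
  -- counting
  set S := univ.filter (fun χ : IrrCharacter G => (charDegree (χ : G → ℂ) = 1 ∨ 2 ∣ charDegree (χ : G → ℂ)) ∧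
    (Nat.card G : ℂ)⁻¹ * ∑ᶠ g : G, (χ : G → ℂ) (g * g) = 1) with hS
  set A := S.filter (fun χ : IrrCharacter G => charDegree (χ : G → ℂ) = 1) with hA
  set E := S.filter (fun χ : IrrCharacter G => ¬ charDegree (χ : G → ℂ) = 1) with hE
  have hAK : A.card ≤ K.card := by
    let ι : IrrCharacter G → (G →* ℂˣ) := fun χ =>
      if h : (χ : G → ℂ) 1 = 1 then (exists_hom_of_degree_one χ.2.isCharacter h).choose else 1
    have hι : ∀ χ ∈ A, (χ : G → ℂ) = fun g => (ι χ g : ℂ) := fun χ hχ => by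
      have h1 : (χ : G → ℂ) 1 = 1 := by rw [← coe_charDegree χ, (Finset.mem_filter.mp hχ).2, Nat.cast_one]
      simp only [ι, dif_pos h1]
      exact (exists_hom_of_degree_one χ.2.isCharacter h1).choose_spec
    refine Finset.card_le_card_of_injOn ι (fun χ hχ => ?_) fun a ha b hb h => Subtype.ext (by rw [hι a ha, hι b hb, h])
    refine Finset.mem_coe.mpr (Finset.mem_filter.mpr ⟨Finset.mem_univ _, ?_⟩)
    have hν := (Finset.mem_filter.mp (Finset.mem_filter.mp (Finset.mem_coe.mp hχ)).1).2.2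
    rw [finsum_eq_sum_of_fintype, hι χ (Finset.mem_coe.mp hχ)] at hν
    by_contra hne
    have h2 := classInner_irr_ne (isIrrCharacter_linear (ι χ * ι χ)) (isIrrCharacter_one (G := G))
      (fun h => hne (MonoidHom.ext fun g => Units.ext (congrFun h g)))
    rw [classInner] at h2
    simp only [map_one, mul_one, MonoidHom.mul_apply] at h2
    simp only [map_mul] at hν
    rw [hν] at h2
    exact one_ne_zero h2
  let Φ : (G →* ℂˣ) → IrrCharacter G := fun μ => if h : μ ∈ K then ⟨Ψ μ, hΨirr μ h⟩ else ⟨_, isIrrCharacter_one⟩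
  have hΦ : ∀ μ (h : μ ∈ K), Φ μ = ⟨Ψ μ, hΨirr μ h⟩ := fun μ h => dif_pos h
  have hKimg : K.card ≤ d * (K.image Φ).card := by
    refine Finset.card_le_mul_card_image _ _ fun χ hχ => ?_
    obtain ⟨μ₀, hμ₀, rfl⟩ := Finset.mem_image.mp hχ
    rw [← Fintype.card_coe]
    refine card_hom_le I (fun μ : {x // x ∈ K.filter fun μ => Φ μ = Φ μ₀} => μ.1 * μ₀⁻¹)
      (fun a b h => Subtype.ext (mul_right_cancel h)) fun μ x hx => ?_
    obtain ⟨μ, hμ⟩ := μ
    obtain ⟨hμK, heq⟩ := Finset.mem_filter.mp hμ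
    rw [hΦ μ hμK, hΦ μ₀ hμ₀] at heq
    have h2 := (indFun_of_mem_inertia hlirr I hI hNI (hψ μ₀ hμ₀).1 (hψ μ₀ hμ₀).2).2 _ (hψ μ hμK).1 (hψ μ hμK).2
      (congrArg Subtype.val heq)
    have h3 : μ x * lhat ⟨x, hx⟩ = μ₀ x * lhat ⟨x, hx⟩ := Units.ext (congrFun h2 ⟨x, hx⟩)
    rw [MonoidHom.mul_apply, MonoidHom.inv_apply, mul_right_cancel h3, mul_inv_cancel]
  have himgE : K.image Φ ⊆ E := by
    intro χ hχ
    obtain ⟨μ, hμ, rfl⟩ := Finset.mem_image.mp hχ
    rw [hΦ μ hμ]
    refine Finset.mem_filter.mpr ⟨Finset.mem_filter.mpr ⟨Finset.mem_univ _, Or.inr ?_, hΨfs μ hμ⟩, ?_⟩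
    · rw [hΨdeg]; exact hd2.2
    · rw [hΨdeg]; omega
  have hsumE : (K.image Φ).card * (3 * d - 4) ≤ ∑ χ ∈ E, (3 * charDegree (χ : G → ℂ) - 4) := by
    refine le_trans (le_of_eq ?_) (Finset.sum_le_sum_of_subset himgE)
    rw [Finset.sum_congr rfl (g := fun _ => 3 * d - 4) fun χ hχ => ?_, Finset.sum_const, smul_eq_mul]
    obtain ⟨μ, hμ, rfl⟩ := Finset.mem_image.mp hχ
    rw [hΦ μ hμ, hΨdeg]
  have hEdeg : ∀ χ ∈ E, 2 ≤ charDegree (χ : G → ℂ) := fun χ hχ => by
    have h1 := (Finset.mem_filter.mp hχ).2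
    have h2 := charDegree_pos χ
    omega
  have hsum3 : ∑ χ ∈ E, (3 * charDegree (χ : G → ℂ) - 4) + 4 * E.card = 3 * ∑ χ ∈ E, charDegree (χ : G → ℂ) := by
    rw [mul_comm 4, ← smul_eq_mul E.card, ← Finset.sum_const, ← Finset.sum_add_distrib, Finset.mul_sum]
    exact Finset.sum_congr rfl fun χ hχ => by have := hEdeg χ hχ; omega
  rw [finsum_eq_sum_of_fintype, ← Finset.sum_subtype S (fun χ => by simp [hS]) (fun χ : IrrCharacter G => charDegree (χ : G → ℂ)),
    Nat.card_eq_fintype_card, Fintype.card_of_subtype S (fun χ => by simp [hS]),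
    ← Finset.sum_filter_add_sum_filter_not S (fun χ : IrrCharacter G => charDegree (χ : G → ℂ) = 1),
    ← Finset.card_filter_add_card_filter_not (s := S) (fun χ : IrrCharacter G => charDegree (χ : G → ℂ) = 1), ← hA, ← hE,
    Finset.sum_congr rfl fun χ hχ => (Finset.mem_filter.mp hχ).2, Finset.sum_const, smul_eq_mul, mul_one]
  have h34 : d ≤ 3 * d - 4 := by omega
  have := Nat.mul_le_mul_left (K.image Φ).card h34
  have hKd : K.card ≤ (K.image Φ).card * (3 * d - 4) := by rw [mul_comm d] at hKimg; omega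
  have hAeq : (Finset.filter (fun χ : IrrCharacter G => charDegree (χ : G → ℂ) = 1) S).card = A.card := by
    rw [hA]
  omega

end Cfsg.Agent.S4871
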