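import Cfsg.Statements.S4885
import Cfsg.Agent.Lib.Blocks.PrincipalTypeCore
import Cfsg.Agent.Lib.Blocks.PrimeDegreeKernel
import Cfsg.Agent.Lib.Transfer.Tate
import Cfsg.Agent.Lib.Transfer.PGroupFrattini
-- import your own Cfsg.Agent.* helpers here

set_option autoImplicit false
open Cfsg

namespace Cfsg.Agent.S4885

open Cfsg.Lib.Characters Cfsg.Lib.Blocks
open scoped Classical

universe u

variable {G : Type u} [Group G] [Fintype G] {p : ℕ} [Fact p.Prime]

/-- The characters of the principal block of a p-solvable group are those trivial on the p'-core. -/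
theorem mem_principal_iff (hps : IsPSolvable p G) {M : Ideal AlgInt} (hM : IsPModular p M) (χ : IrrCharacter G) :
    χ ∈ principalBlock M G ↔ ∀ a ∈ pPrimeCore p G, (χ : G → ℂ) a = (χ : G → ℂ) 1 := by
  haveI := hM.2.1.isPrime
  haveI := Cfsg.Lib.Transfer.pPrimeCore_normal (G := G) p
  haveI : Fintype (pPrimeCore p G) := Fintype.ofFinite _
  obtain ⟨B, hB, hiff, -⟩ := constrained_block hM (isPConstrained_of_pSolvable hps) rfl
    (θ := trivChar (pPrimeCore p G)) (fun g => Subtype.ext (funext fun n => by simp [cjIrr, conjFn]))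
  have hsum : ∀ ψ : IrrCharacter G, ψ ∈ B ↔ ∑ k : pPrimeCore p G, (ψ : G → ℂ) k ≠ 0 := fun ψ => by
    rw [hiff, classInner]
    simp
  have hBP : B = principalBlock M G := by
    rw [principalBlock_eq]
    exact IsPBlock.eq_blockOf hB ((hsum _).2 (by simp))
  rw [← hBP, hsum]
  refine ⟨fun h => kernel_of_sum_ne χ _ h, fun h => ?_⟩
  rw [Finset.sum_congr rfl fun k _ => h _ k.2, Finset.sum_const, nsmul_eq_mul]
  exact mul_ne_zero (by simp) χ.2.one_ne_zero

/-- If the characters of degree prime to p trivial on the p'-core A are trivial on B, then a normal subgroup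
over A and B of index prime to p over their join meets a Sylow p-subgroup inside its Frattini subgroup,
and is a p-group over A. -/
theorem core_step (B : Subgroup G) [B.Normal]
    (hB : ∀ χ : IrrCharacter G, (∀ a ∈ pPrimeCore p G, (χ : G → ℂ) a = (χ : G → ℂ) 1) →
      ¬ p ∣ charDegree (χ : G → ℂ) → ∀ b ∈ B, (χ : G → ℂ) b = (χ : G → ℂ) 1)
    (P : Sylow p G) (L : Subgroup G) [L.Normal] (hL : pPrimeCore p G ⊔ B ≤ L)
    (hidx : ((pPrimeCore p G ⊔ B).relIndex L).Coprime p) :
    L ⊓ (P : Subgroup G) ≤ (frattini P).map (P : Subgroup G).subtype ∧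
      ∃ k, (pPrimeCore p G).relIndex L = p ^ k := by
  haveI hAn := Cfsg.Lib.Transfer.pPrimeCore_normal (G := G) p
  set A := pPrimeCore p G with hA
  set K := A ⊔ B with hK
  have h1 : K ⊓ (P : Subgroup G) ≤ (frattini P).map (P : Subgroup G).subtype := by
    rintro u ⟨huK, huP⟩
    refine ⟨⟨u, huP⟩, Cfsg.Lib.Transfer.commutator_le_frattini P.isPGroup' ?_, rfl⟩
    haveI : Fintype (G ⧸ A) := Fintype.ofFinite _
    let f := QuotientGroup.mk' A
    have hinj : Function.Injective (f.subgroupMap (P : Subgroup G)) := by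
      refine (injective_iff_map_eq_one _).2 fun x hx => ?_
      have hxA : (x : G) ∈ A := (QuotientGroup.eq_one_iff _).1 (congrArg Subtype.val hx)
      obtain ⟨k, hk⟩ := P.isPGroup' x
      rw [← orderOf_eq_one_iff]
      refine Nat.eq_one_of_dvd_coprimes ((Cfsg.Lib.Transfer.coprime_card_pPrimeCore (G := G) p).pow_right k) ?_
        (orderOf_dvd_of_pow_eq_one hk)
      rw [← Subgroup.orderOf_coe]
      exact Subgroup.orderOf_dvd_natCard A hxA
    have hidx' : ¬ p ∣ ((P : Subgroup G).map f).index := by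
      rw [← Sylow.coe_mapSurjective (QuotientGroup.mk'_surjective A)]
      exact Sylow.not_dvd_index _
    have hmem := mem_commutator_of_kernel (p := p) ((P : Subgroup G).map f) hidx'
      (u := f.subgroupMap _ ⟨u, huP⟩) fun χ hχ => by
        let χ' : IrrCharacter G := ⟨fun g => (χ : G ⧸ A → ℂ) (f g),
          isIrrCharacter_comp_surjective χ.2 f (QuotientGroup.mk'_surjective A)⟩
        have hd : ¬ p ∣ charDegree (χ' : G → ℂ) := by
          simpa [charDegree, χ', map_one] using hχ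
        have htA : ∀ a ∈ A, (χ' : G → ℂ) a = (χ' : G → ℂ) 1 := fun a ha => by
          show (χ : G ⧸ A → ℂ) (f a) = (χ : G ⧸ A → ℂ) (f 1)
          rw [show f a = f 1 from ((QuotientGroup.eq_one_iff a).2 ha).trans f.map_one.symm]
        have hle : K ≤ charKer χ'.2.isCharacter := sup_le htA (hB χ' htA hd)
        have h := hle huK
        rw [mem_charKer] at h
        simpa [χ', map_one] using h
    have htop : (⊤ : Subgroup ((P : Subgroup G).map f)) = (⊤ : Subgroup (P : Subgroup G)).map (f.subgroupMap _) :=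
      (Subgroup.map_top_of_surjective _ (f.subgroupMap_surjective _)).symm
    rw [commutator_def, htop, ← Subgroup.map_commutator, Subgroup.mem_map_iff_mem hinj] at hmem
    exact hmem
  have h2 : L ⊓ (P : Subgroup G) ≤ K := by
    rintro u ⟨huL, huP⟩
    haveI : (K.subgroupOf L).Normal := inferInstance
    obtain ⟨k, hk⟩ := P.isPGroup' ⟨u, huP⟩
    have h1 : ((⟨u, huL⟩ : L) : L ⧸ K.subgroupOf L) ^ (p ^ k) = 1 := by
      rw [← QuotientGroup.mk_pow, show (⟨u, huL⟩ : L) ^ (p ^ k) = 1 from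
        Subtype.ext (by simpa using congrArg Subtype.val hk)]
      rfl
    have h2 : ((⟨u, huL⟩ : L) : L ⧸ K.subgroupOf L) = 1 := orderOf_eq_one_iff.1
      (Nat.eq_one_of_dvd_coprimes (hidx.pow_right k) (orderOf_dvd_natCard _) (orderOf_dvd_of_pow_eq_one h1))
    exact (QuotientGroup.eq_one_iff (⟨u, huL⟩ : L)).1 h2
  have h3 : L ⊓ (P : Subgroup G) ≤ (frattini P).map (P : Subgroup G).subtype :=
    fun x hx => h1 ⟨h2 hx, hx.2⟩
  refine ⟨h3, ?_⟩
  have hc := Cfsg.Lib.Transfer.hasNormalPComplement_iff_pResidual.1 (Cfsg.Lib.Transfer.tate P L h3)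
  haveI := Cfsg.Lib.Transfer.pResidual_characteristic (G := L) p
  obtain ⟨k, hk⟩ := Cfsg.Lib.Transfer.exists_index_pResidual_eq_pow (G := L) (p := p)
  have hle : (pResidual p L).map L.subtype ≤ A := Cfsg.Lib.Transfer.le_pPrimeCore
    ConjAct.normal_of_characteristic_of_normal (by rwa [Subgroup.card_map_of_injective L.subtype_injective])
  have hle2 : pResidual p L ≤ A.subgroupOf L := fun x hx => hle ⟨x, hx, rfl⟩
  obtain ⟨i, -, hi⟩ := (Nat.dvd_prime_pow Fact.out).1 (hk ▸ Subgroup.index_dvd_of_le hle2)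
  exact ⟨i, hi⟩

/-- The quotient by the join of the two cores has trivial p'-core. -/
theorem core_quotient_bot (B K : Subgroup G) [B.Normal] [K.Normal] (hK : K = pPrimeCore p G ⊔ B)
    (hB : ∀ χ : IrrCharacter G, (∀ a ∈ pPrimeCore p G, (χ : G → ℂ) a = (χ : G → ℂ) 1) →
      ¬ p ∣ charDegree (χ : G → ℂ) → ∀ b ∈ B, (χ : G → ℂ) b = (χ : G → ℂ) 1) :
    pPrimeCore p (G ⧸ K) = ⊥ := by
  obtain ⟨P⟩ : Nonempty (Sylow p G) := inferInstance
  haveI := Cfsg.Lib.Transfer.pPrimeCore_normal (G := G ⧸ K) p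
  set C := pPrimeCore p (G ⧸ K) with hC
  set L := C.comap (QuotientGroup.mk' K) with hLdef
  have hKL : K ≤ L := fun x hx => by
    rw [hLdef, Subgroup.mem_comap, QuotientGroup.mk'_apply, (QuotientGroup.eq_one_iff x).2 hx]
    exact C.one_mem
  have hrel : K.relIndex L = Nat.card C := by
    have hKc : (⊥ : Subgroup (G ⧸ K)).comap (QuotientGroup.mk' K) = K :=
      (MonoidHom.comap_bot _).trans (QuotientGroup.ker_mk' K)
    refine (congrArg (fun X => X.relIndex L) hKc).symm.trans ?_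
    rw [hLdef, Subgroup.relIndex_comap, Subgroup.map_comap_eq_self_of_surjective (QuotientGroup.mk'_surjective _),
      Subgroup.relIndex_bot_left]
  have hcop : (K.relIndex L).Coprime p := hrel ▸ Cfsg.Lib.Transfer.coprime_card_pPrimeCore p
  obtain ⟨-, k, hk⟩ := core_step B hB P L (hK ▸ hKL) (by rw [← hK]; exact hcop)
  have hd : K.relIndex L ∣ p ^ k := hk ▸ Dvd.intro_left _ (Subgroup.relIndex_mul_relIndex (pPrimeCore p G) K L (hK ▸ le_sup_left) hKL)
  have h1 : Nat.card C = 1 := hrel ▸ Nat.eq_one_of_dvd_coprimes (hcop.pow_right k) dvd_rfl hd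
  exact Subgroup.eq_bot_of_card_eq _ h1

/-- Let p and q be primes dividing the order of the finite group G, and suppose G is p-solvable and q-solvable. Fix maximal ideals of the algebraic integers containing p and q, defining the principal p-block and the principal q-block. If the irreducible characters of degree prime to p in the principal p-block are exactly the irreducible characters of degree prime to q in the principal q-block, then p = q. -/
theorem result {G : Type*} [Group G] [Finite G] (p q : ℕ) [Fact p.Prime] [Fact q.Prime] (hp : p ∣ Nat.card G) (hq : q ∣ Nat.card G) (hps : Cfsg.IsPSolvable p G) (hqs : Cfsg.IsPSolvable q G) (Mp Mq : Ideal Cfsg.AlgInt) (hMp : Cfsg.IsPModular p Mp) (hMq : Cfsg.IsPModular q Mq) (h : ∀ χ : Cfsg.IrrCharacter G, (χ ∈ Cfsg.principalBlock Mp G ∧ ¬ p ∣ Cfsg.charDegree (χ : G → ℂ)) ↔ (χ ∈ Cfsg.principalBlock Mq G ∧ ¬ q ∣ Cfsg.charDegree (χ : G → ℂ))) : p = q := by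
  haveI : Fintype G := Fintype.ofFinite G
  by_contra hpq
  haveI hAn := Cfsg.Lib.Transfer.pPrimeCore_normal (G := G) p
  haveI hBn := Cfsg.Lib.Transfer.pPrimeCore_normal (G := G) q
  have hSp : ∀ χ : IrrCharacter G, (∀ a ∈ pPrimeCore p G, (χ : G → ℂ) a = (χ : G → ℂ) 1) →
      ¬ p ∣ charDegree (χ : G → ℂ) → ∀ b ∈ pPrimeCore q G, (χ : G → ℂ) b = (χ : G → ℂ) 1 := fun χ h1 h2 =>
    (mem_principal_iff hqs hMq χ).1 ((h χ).1 ⟨(mem_principal_iff hps hMp χ).2 h1, h2⟩).1
  have hSq : ∀ χ : IrrCharacter G, (∀ a ∈ pPrimeCore q G, (χ : G → ℂ) a = (χ : G → ℂ) 1) →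
      ¬ q ∣ charDegree (χ : G → ℂ) → ∀ b ∈ pPrimeCore p G, (χ : G → ℂ) b = (χ : G → ℂ) 1 := fun χ h1 h2 =>
    (mem_principal_iff hps hMp χ).1 ((h χ).2 ⟨(mem_principal_iff hqs hMq χ).2 h1, h2⟩).1
  set K := pPrimeCore p G ⊔ pPrimeCore q G with hK
  have hP0 := core_quotient_bot (pPrimeCore q G) K hK hSp
  have hQ0 := core_quotient_bot (pPrimeCore p G) K (hK.trans (sup_comm _ _)) hSq
  have hsc := Cfsg.Lib.PLocal.selfCentralizingCore_of_pSolvable
    (Cfsg.Lib.PLocal.IsPSolvable.of_surjective _ (QuotientGroup.mk'_surjective K) hps) hP0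
  have hO : pCore p (G ⧸ K) = ⊥ := by
    refine le_bot_iff.1 (hQ0 ▸ Cfsg.Lib.Transfer.le_pPrimeCore (Cfsg.Lib.Transfer.pCore_normal p) ?_)
    obtain ⟨k, hk⟩ := IsPGroup.iff_card.1 (Cfsg.Lib.Transfer.pCore_isPGroup (G := G ⧸ K) p)
    rw [hk]
    exact Nat.Coprime.pow_left _ ((Nat.coprime_primes Fact.out Fact.out).2 hpq)
  have htop : K = ⊤ := by
    rw [Cfsg.Lib.PLocal.SelfCentralizingCore, hO] at hsc
    refine eq_top_iff.2 fun g _ => ?_
    have hg : (g : G ⧸ K) ∈ (⊥ : Subgroup (G ⧸ K)) := hsc (Subgroup.mem_centralizer_iff.2 fun z hz => by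
      rw [Subgroup.coe_bot, Set.mem_singleton_iff] at hz
      rw [hz, one_mul, mul_one])
    exact (QuotientGroup.eq_one_iff g).1 (Subgroup.mem_bot.1 hg)
  obtain ⟨P⟩ : Nonempty (Sylow p G) := inferInstance
  have hP := (core_step (pPrimeCore q G) hSp P ⊤ le_top (by rw [← hK, htop, Subgroup.relIndex_self]; exact Nat.coprime_one_left p)).1
  have hF : frattini P = ⊤ := eq_top_iff.2 fun x _ => by
    obtain ⟨y, hy, hyx⟩ := hP ⟨Subgroup.mem_top _, x.2⟩
    rwa [← Subtype.ext (show (y : G) = x from hyx)]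
  have hbot : (⊥ : Subgroup P) = ⊤ := frattini_nongenerating (by rw [hF, sup_top_eq])
  have hcard : Nat.card P = 1 := by
    rw [← Subgroup.card_top (G := P), ← hbot, Subgroup.card_bot]
  exact P.ne_bot_of_dvd_card hp (Subgroup.eq_bot_of_card_eq _ hcard)

end Cfsg.Agent.S4885
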