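import Cfsg.Statements.S4911
import Cfsg.Agent.Lib.Blocks.Glauberman
import Cfsg.Agent.Lib.Characters.Permutation

set_option autoImplicit false
set_option linter.style.haveILetI false
open Cfsg

namespace Cfsg.Agent.S4911

open Cfsg.Lib.Characters Cfsg.Lib.Blocks
open scoped Classical ComplexConjugate

/-- Let P and K be subgroups of a finite group with P a p-group normalizing K and K of order prime to p. Then the number of P-invariant real-valued irreducible complex characters of K equals the number of conjugacy classes of K that are real (closed under inversion) and P-invariant. Moreover, if every real-valued irreducible character of K is P-invariant, then every real element of K (one conjugate in K to its inverse) is conjugate in K to an element centralized by P. -/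
theorem result {G : Type*} [Group G] [Finite G] (p : ℕ) [Fact p.Prime] (P K : Subgroup G) (hP : IsPGroup p ↥P) (hK : ¬ p ∣ Nat.card ↥K) (hPK : P ≤ Subgroup.normalizer (K : Set G)) : Nat.card {θ : Cfsg.IrrCharacter ↥K // (∀ k : ↥K, ((θ : ↥K → ℂ) k).im = 0) ∧ (∀ x ∈ P, ∀ k k' : ↥K, (k' : G) = x * (k : G) * x⁻¹ → (θ : ↥K → ℂ) k' = (θ : ↥K → ℂ) k)} = Nat.card {c : ConjClasses ↥K // (∀ k : ↥K, ConjClasses.mk k = c → IsConj k k⁻¹) ∧ ∀ k : ↥K, ConjClasses.mk k = c → ∀ x ∈ P, ∀ k' : ↥K, (k' : G) = x * (k : G) * x⁻¹ → ConjClasses.mk k' = c} ∧ ((∀ θ : Cfsg.IrrCharacter ↥K, (∀ k : ↥K, ((θ : ↥K → ℂ) k).im = 0) → (∀ x ∈ P, ∀ k k' : ↥K, (k' : G) = x * (k : G) * x⁻¹ → (θ : ↥K → ℂ) k' = (θ : ↥K → ℂ) k)) → ∀ k : ↥K, IsConj k k⁻¹ → ∃ k' : ↥K, IsConj k k' ∧ ∀ x ∈ P, x * (k' : G) * x⁻¹ = (k' : G)) := by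
  haveI : Fintype K := Fintype.ofFinite K
  have hnorm : ∀ s ∈ P, ∀ k ∈ K, s * k * s⁻¹ ∈ K := fun s hs k hk =>
    (Subgroup.mem_normalizer_iff.mp (hPK hs) k).mp hk
  set φ := conjAct K P hnorm with hφ
  set C := K ⊓ Subgroup.centralizer (P : Set G) with hC
  haveI : Fintype C := Fintype.ofFinite C
  set ι : C →* K := Subgroup.inclusion inf_le_left with hιdef
  have hι : Function.Injective ι := Subgroup.inclusion_injective inf_le_left
  have hfix : ∀ k : K, (∀ s, φ s k = k) ↔ k ∈ Set.range ι := by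
    intro k
    constructor
    · intro h
      refine ⟨⟨(k : G), k.2, Subgroup.mem_centralizer_iff.mpr fun s hs => ?_⟩, Subtype.ext rfl⟩
      exact mul_inv_eq_iff_eq_mul.mp (congrArg Subtype.val (h ⟨s, hs⟩))
    · rintro ⟨c, rfl⟩ s
      refine Subtype.ext ?_
      show (s : G) * (c : G) * (s : G)⁻¹ = c
      rw [Subgroup.mem_centralizer_iff.mp c.2.2 (s : G) s.2, mul_inv_cancel_right]
  obtain ⟨M, hM⟩ := exists_isPModular p
  haveI : M.IsPrime := hM.2.1.isPrime
  obtain ⟨Φ, hΦ, hmult, -⟩ := glauberman φ ι hP hι hfix hK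
  -- complex conjugation
  let bar : IrrCharacter K → IrrCharacter K := fun χ => ⟨_, isIrrCharacter_conj χ.2⟩
  let barC : IrrCharacter C → IrrCharacter C := fun χ => ⟨_, isIrrCharacter_conj χ.2⟩
  have hbarinv : ∀ χ : {χ : IrrCharacter K // IsInv φ (χ : K → ℂ)}, IsInv φ (bar χ.1 : K → ℂ) :=
    fun χ s g => congrArg (starRingEnd ℂ) (χ.2 s g)
  have hcomm : ∀ χ, Φ ⟨bar χ.1, hbarinv χ⟩ = barC (Φ χ) := by
    intro χ
    refine ((hmult ⟨bar χ.1, hbarinv χ⟩ (barC (Φ χ))).mp ?_).symm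
    have h1 := gMult_spec ι χ.1 (Φ χ)
    have h2 := gMult_spec ι (bar χ.1) (barC (Φ χ))
    have h3 : classInner (fun c => (bar χ.1 : K → ℂ) (ι c)) (barC (Φ χ) : C → ℂ)
        = conj (classInner (fun c => (χ.1 : K → ℂ) (ι c)) (Φ χ : C → ℂ)) := by
      simp only [classInner, map_mul, map_inv₀, map_natCast, map_sum, bar, barC]
    rw [h1, h2, Complex.conj_natCast, Nat.cast_inj] at h3
    rw [h3]
    exact (hmult χ _).mpr rfl
  have hreal : ∀ χ, (∀ k, ((χ.1 : K → ℂ) k).im = 0) ↔ ∀ c, ((Φ χ : C → ℂ) c).im = 0 := by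
    intro χ
    constructor
    · intro h c
      have e : (⟨bar χ.1, hbarinv χ⟩ : {χ : IrrCharacter K // IsInv φ (χ : K → ℂ)}) = χ :=
        Subtype.ext (Subtype.ext (funext fun k => Complex.conj_eq_iff_im.mpr (h k)))
      have := hcomm χ
      rw [e] at this
      exact Complex.conj_eq_iff_im.mp (congrFun (congrArg Subtype.val this.symm) c)
    · intro h k
      have e : barC (Φ χ) = Φ χ := Subtype.ext (funext fun c => Complex.conj_eq_iff_im.mpr (h c))
      have := hΦ.1 ((hcomm χ).trans e)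
      exact Complex.conj_eq_iff_im.mp (congrFun (congrArg (fun z => ((z.1 : IrrCharacter K) : K → ℂ)) this) k)
  -- the classes
  have hclass : ∀ k : K, (∀ s, IsConj k (φ s k)) → ∃ c, IsConj k (ι c) := fun k hk =>
    exists_fixed_conj φ ι hP hι hfix hM hK k hk
  have hcls : Nat.card {c : ConjClasses C // ∀ g : C, ConjClasses.mk g = c → IsConj g g⁻¹} =
      Nat.card {c : ConjClasses K // (∀ k : K, ConjClasses.mk k = c → IsConj k k⁻¹) ∧
        ∀ k : K, ConjClasses.mk k = c → ∀ x ∈ P, ∀ k' : K, (k' : G) = x * (k : G) * x⁻¹ → ConjClasses.mk k' = c} := by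
    have hmk : ∀ d : C, ∀ k : K, ConjClasses.mk k = ConjClasses.mk (ι d) → IsConj k (ι d) := fun d k h =>
      ConjClasses.mk_eq_mk_iff_isConj.mp h
    refine Nat.card_eq_of_bijective (fun c => ⟨ConjClasses.map ι c.1, ?_⟩) ⟨?_, ?_⟩
    · obtain ⟨d, hd⟩ := ConjClasses.mk_surjective c.1
      have hdd := c.2 d hd
      rw [← hd]
      constructor
      · intro k hk
        obtain ⟨a, ha⟩ := isConj_iff.mp (hmk d k hk)
        have h2 : IsConj k⁻¹ (ι d)⁻¹ := isConj_iff.mpr ⟨a, by rw [← ha]; group⟩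
        refine (hmk d k hk).trans (((ι.map_isConj hdd).trans ?_).trans h2.symm)
        rw [map_inv]
      · intro k hk x hx k' hk'
        refine ConjClasses.mk_eq_mk_iff_isConj.mpr ?_
        have e : k' = φ ⟨x, hx⟩ k := Subtype.ext hk'
        have h1 := (φ ⟨x, hx⟩).toMonoidHom.map_isConj (hmk d k hk)
        rw [e]
        refine h1.trans ?_
        show IsConj (φ ⟨x, hx⟩ (ι d)) (ι d)
        rw [(hfix (ι d)).mpr ⟨d, rfl⟩]
    · intro a b hab
      obtain ⟨d, hd⟩ := ConjClasses.mk_surjective a.1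
      obtain ⟨e, he⟩ := ConjClasses.mk_surjective b.1
      refine Subtype.ext ?_
      have := congrArg Subtype.val hab
      simp only [← hd, ← he] at this
      rw [← hd, ← he]
      exact ConjClasses.mk_eq_mk_iff_isConj.mpr
        (isConj_of_fixed φ ι hP hι hfix hM hK (ConjClasses.mk_eq_mk_iff_isConj.mp this))
    · rintro ⟨c, hc1, hc2⟩
      obtain ⟨k, rfl⟩ := ConjClasses.mk_surjective c
      obtain ⟨d, hd⟩ := hclass k fun s =>
        (ConjClasses.mk_eq_mk_iff_isConj.mp (hc2 k rfl s s.2 (φ s k) rfl)).symm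
      refine ⟨⟨ConjClasses.mk d, fun g hg => ?_⟩, Subtype.ext (ConjClasses.mk_eq_mk_iff_isConj.mpr hd.symm)⟩
      refine isConj_of_fixed φ ι hP hι hfix hM hK ?_
      rw [map_inv]
      refine hc1 (ι g) (ConjClasses.mk_eq_mk_iff_isConj.mpr ?_)
      exact (ι.map_isConj (ConjClasses.mk_eq_mk_iff_isConj.mp hg)).trans hd.symm
  have hcount : Nat.card {θ : IrrCharacter K // (∀ k : K, ((θ : K → ℂ) k).im = 0) ∧
      (∀ x ∈ P, ∀ k k' : K, (k' : G) = x * (k : G) * x⁻¹ → (θ : K → ℂ) k' = (θ : K → ℂ) k)} =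
      Nat.card {β : IrrCharacter C // ∀ c : C, ((β : C → ℂ) c).im = 0} := by
    refine Nat.card_eq_of_bijective (fun θ => ⟨Φ ⟨θ.1, (isInv_conjAct_iff K P hnorm _).mpr θ.2.2⟩,
      (hreal _).mp θ.2.1⟩) ⟨fun a b h => ?_, fun β => ?_⟩
    · exact Subtype.ext (congrArg Subtype.val (hΦ.1 (congrArg Subtype.val h)) :)
    · obtain ⟨χ, hχ⟩ := hΦ.2 β.1
      refine ⟨⟨χ.1, (hreal χ).mpr (hχ ▸ β.2), (isInv_conjAct_iff K P hnorm _).mp χ.2⟩, Subtype.ext ?_⟩
      exact hχ
  refine ⟨hcount.trans (card_real_irr_eq.trans hcls), fun hall k hk => ?_⟩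
  have heq : Nat.card {θ : IrrCharacter K // ∀ k : K, ((θ : K → ℂ) k).im = 0} =
      Nat.card {θ : IrrCharacter K // (∀ k : K, ((θ : K → ℂ) k).im = 0) ∧
      (∀ x ∈ P, ∀ k k' : K, (k' : G) = x * (k : G) * x⁻¹ → (θ : K → ℂ) k' = (θ : K → ℂ) k)} :=
    Nat.card_congr (Equiv.subtypeEquivRight fun θ => ⟨fun h => ⟨h, hall θ h⟩, And.left⟩)
  rw [card_real_irr_eq, hcount.trans (card_real_irr_eq.trans hcls)] at heq
  have hsurj : Function.Bijective (fun c : {c : ConjClasses K // (∀ k : K, ConjClasses.mk k = c → IsConj k k⁻¹) ∧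
      ∀ k : K, ConjClasses.mk k = c → ∀ x ∈ P, ∀ k' : K, (k' : G) = x * (k : G) * x⁻¹ → ConjClasses.mk k' = c} =>
      (⟨c.1, c.2.1⟩ : {c : ConjClasses K // ∀ k : K, ConjClasses.mk k = c → IsConj k k⁻¹})) := by
    haveI : Finite (ConjClasses K) := inferInstance
    exact (Nat.bijective_iff_injective_and_card _).mpr
      ⟨fun a b h => Subtype.ext (congrArg Subtype.val h :), heq.symm⟩
  obtain ⟨c, hc⟩ := hsurj.2 ⟨ConjClasses.mk k, fun l hl => by
    have h1 := ConjClasses.mk_eq_mk_iff_isConj.mp hl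
    obtain ⟨a, ha⟩ := isConj_iff.mp h1
    exact (h1.trans hk).trans ((isConj_iff.mpr ⟨a, by rw [← ha]; group⟩ : IsConj l⁻¹ k⁻¹).symm)⟩
  have hck : c.1 = ConjClasses.mk k := congrArg Subtype.val hc
  obtain ⟨d, hd⟩ := hclass k fun s =>
    ((ConjClasses.mk_eq_mk_iff_isConj.mp ((c.2.2 k hck.symm s s.2 (φ s k) rfl).trans hck))).symm
  refine ⟨ι d, hd, fun x hx => ?_⟩
  exact congrArg Subtype.val ((hfix (ι d)).mpr ⟨d, rfl⟩ ⟨x, hx⟩)

end Cfsg.Agent.S4911
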