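import Cfsg.Statements.S4914
import Cfsg.Agent.Lib.Blocks.GlaubermanNormalSylow

set_option autoImplicit false
open Cfsg Cfsg.Lib.Characters Cfsg.Lib.Blocks
open scoped Classical

namespace Cfsg.Agent.S4914

/-- Let P and K be subgroups of a finite group G with P a p-group normalizing K, and suppose K has a normal Sylow p-subgroup Q. Let C be the subgroup of those k ∈ K whose commutator with every element of P lies in Q (so that C/Q is the fixed-point subgroup of P on K/Q). Then there is a bijection f from the P-invariant irreducible complex characters of K onto the P-invariant irreducible complex characters of C such that, for every P-invariant irreducible character χ of K, the multiplicity of f(χ) in the restriction of χ to C is a natural number congruent to 1 or to −1 modulo p, every other P-invariant irreducible character of C occurs in that restriction with multiplicity divisible by p, and the degrees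 of χ and f(χ) are congruent modulo p up to sign. -/
theorem result {G : Type*} [Group G] [Finite G] (p : ℕ) [Fact p.Prime] (P K Q C : Subgroup G) (hP : IsPGroup p ↥P) (hPK : P ≤ Subgroup.normalizer (K : Set G)) (hQK : Q ≤ K) (hQn : ∀ k ∈ K, ∀ q ∈ Q, k * q * k⁻¹ ∈ Q) (hQp : ∃ a : ℕ, Nat.card ↥Q = p ^ a) (hQsyl : ¬ p ∣ Q.relIndex K) (hCK : C ≤ K) (hC : ∀ k : G, k ∈ C ↔ (k ∈ K ∧ ∀ x ∈ P, x * k * x⁻¹ * k⁻¹ ∈ Q)) : ∃ f : {χ : Cfsg.IrrCharacter ↥K // (∀ x ∈ P, ∀ k k' : ↥K, (k' : G) = x * (k : G) * x⁻¹ → (χ : ↥K → ℂ) k' = (χ : ↥K → ℂ) k)} → {ξ : Cfsg.IrrCharacter ↥C // (∀ x ∈ P, ∀ k k' : ↥C, (k' : G) = x * (k : G) * x⁻¹ → (ξ : ↥C → ℂ) k' = (ξ : ↥C → ℂ) k)}, Function.Bijective f ∧ ∀ χ, (∀ ξ : {ξ : Cfsg.IrrCharacter ↥C // (∀ x ∈ P, ∀ k k' : ↥C, (k' : G) = x * (k : G) * x⁻¹ → (ξ : ↥C → ℂ) k' = (ξ : ↥C → ℂ) k)}, ∃ m : ℕ, (Nat.card ↥C : ℂ)⁻¹ * ∑ᶠ c : ↥C, (χ.1 : ↥K → ℂ) (Subgroup.inclusion hCK c) * (starRingEnd ℂ)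 ((ξ.1 : ↥C → ℂ) c) = (m : ℂ) ∧ (ξ = f χ → ((m : ZMod p) = 1 ∨ (m : ZMod p) = -1)) ∧ (ξ ≠ f χ → p ∣ m)) ∧ ((Cfsg.charDegree ((f χ).1 : ↥C → ℂ) : ZMod p) = (Cfsg.charDegree (χ.1 : ↥K → ℂ) : ZMod p) ∨ (Cfsg.charDegree ((f χ).1 : ↥C → ℂ) : ZMod p) = -(Cfsg.charDegree (χ.1 : ↥K → ℂ) : ZMod p)) := by
  haveI := Fintype.ofFinite G
  have hnorm : ∀ s ∈ P, ∀ g ∈ K, s * g * s⁻¹ ∈ K := fun s hs g hg =>
    (Subgroup.mem_normalizer_iff.mp (hPK hs) g).mp hg
  set φ := conjAct K P hnorm with hφ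
  haveI : (Q.subgroupOf K).Normal := ⟨fun q hq k => hQn k k.2 q hq⟩
  -- the operators preserve the normal Sylow subgroup, which is unique
  have hQinv : ∀ s, ∀ q ∈ Q.subgroupOf K, φ s q ∈ Q.subgroupOf K := by
    intro s q hq
    obtain ⟨a, ha⟩ := hQp
    have hp' : IsPGroup p (Q.subgroupOf K) :=
      (IsPGroup.of_card ha).of_equiv (Subgroup.subgroupOfEquivOfLe hQK).symm
    obtain ⟨b, hb⟩ := hp' ⟨q, hq⟩
    rw [← QuotientGroup.eq_one_iff]
    set x : K ⧸ Q.subgroupOf K := ((φ s q : K) : K ⧸ Q.subgroupOf K)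
    have h1 : x ^ p ^ b = 1 := by
      show (((φ s q) ^ p ^ b : K) : K ⧸ Q.subgroupOf K) = 1
      rw [← map_pow]
      rw [show q ^ p ^ b = 1 from congrArg Subtype.val hb, map_one]
      rfl
    have h2 : x ^ Q.relIndex K = 1 := by rw [Subgroup.relIndex, Subgroup.index_eq_card, pow_card_eq_one']
    have h3 := pow_gcd_eq_one.mpr ⟨h1, h2⟩
    rwa [Nat.Coprime.gcd_eq_one (((Fact.out : p.Prime).coprime_iff_not_dvd.mpr hQsyl).pow_left b), pow_one] at h3
  have hQp' : IsPGroup p (Q.subgroupOf K) := by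
    obtain ⟨a, ha⟩ := hQp
    exact (IsPGroup.of_card ha).of_equiv (Subgroup.subgroupOfEquivOfLe hQK).symm
  have hCs : ∀ k : K, k ∈ C.subgroupOf K ↔ ∀ s, φ s k * k⁻¹ ∈ Q.subgroupOf K := fun k =>
    ⟨fun h s => ((hC _).mp h).2 s s.2, fun h => (hC _).mpr ⟨k.2, fun x hx => h ⟨x, hx⟩⟩⟩
  have hCst : ∀ s, ∀ x ∈ C.subgroupOf K, φ s x ∈ C.subgroupOf K := by
    intro s x hx
    refine (hCs _).mpr fun t => ?_
    have h1 := (hCs x).mp hx
    have e : φ t (φ s x) * (φ s x)⁻¹ = (φ (t * s) x * x⁻¹) * (φ s x * x⁻¹)⁻¹ := by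
      rw [map_mul, MulAut.mul_apply]; group
    rw [e]
    exact mul_mem (h1 _) (inv_mem (h1 s))
  obtain ⟨f, hf, hfm⟩ := glauberman_normal_sylow (φ := φ) (Q := Q.subgroupOf K) hP hQinv hQp'
    hQsyl (C.subgroupOf K) hCs hCst
  let e : C.subgroupOf K ≃* C := Subgroup.subgroupOfEquivOfLe hCK
  let A : {χ : IrrCharacter K // ∀ x ∈ P, ∀ k k' : K, (k' : G) = x * (k : G) * x⁻¹ → (χ : K → ℂ) k' = (χ : K → ℂ) k}
      ≃ {χ : IrrCharacter K // IsInv φ (χ : K → ℂ)} :=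
    Equiv.subtypeEquivRight fun χ => (isInv_conjAct_iff K P hnorm _).symm
  let E : IrrCharacter (C.subgroupOf K) ≃ IrrCharacter C :=
    { toFun := fun ξ => ⟨fun c => (ξ : C.subgroupOf K → ℂ) (e.symm c), isIrrCharacter_mulEquiv ξ.2 e.symm⟩
      invFun := fun ξ => ⟨fun c => (ξ : C → ℂ) (e c), isIrrCharacter_mulEquiv ξ.2 e⟩
      left_inv := fun ξ => Subtype.ext (funext fun c => by simp)
      right_inv := fun ξ => Subtype.ext (funext fun c => by simp) }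
  let B : {ξ : IrrCharacter (C.subgroupOf K) // IsInv (restrictAut φ (C.subgroupOf K) hCst) (ξ : C.subgroupOf K → ℂ)}
      ≃ {ξ : IrrCharacter C // ∀ x ∈ P, ∀ k k' : C, (k' : G) = x * (k : G) * x⁻¹ → (ξ : C → ℂ) k' = (ξ : C → ℂ) k} :=
    E.subtypeEquiv fun ξ => by
      constructor
      · intro h x hx k k' hk
        show (ξ : C.subgroupOf K → ℂ) (e.symm k') = (ξ : C.subgroupOf K → ℂ) (e.symm k)
        rw [← h ⟨x, hx⟩ (e.symm k)]
        exact congrArg _ (Subtype.ext (Subtype.ext hk))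
      · intro h s c
        have h1 : (ξ : C.subgroupOf K → ℂ) (e.symm (e (restrictAut φ (C.subgroupOf K) hCst s c)))
            = (ξ : C.subgroupOf K → ℂ) (e.symm (e c)) := h s s.2 (e c) _ rfl
        simpa only [MulEquiv.symm_apply_apply] using h1
  refine ⟨fun χ => B (f (A χ)), B.bijective.comp (hf.comp A.bijective), fun χ => ⟨fun ξ => ?_, ?_⟩⟩
  · obtain ⟨ξ', rfl⟩ := B.surjective ξ
    obtain ⟨m, hm, h1, h2⟩ := (hfm (A χ)).1 ξ'
    refine ⟨m, ?_, fun h => h1 (B.injective h), fun h => h2 fun h' => h (congrArg B h')⟩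
    rw [← hm, classInner, finsum_eq_sum_of_fintype, ← Nat.card_congr e.toEquiv]
    congr 1
    symm
    refine Fintype.sum_equiv e.toEquiv _ _ fun c => ?_
    show (χ.1 : K → ℂ) (c : K) * (starRingEnd ℂ) ((ξ'.1 : C.subgroupOf K → ℂ) c)
      = (χ.1 : K → ℂ) (Subgroup.inclusion hCK (e c)) * (starRingEnd ℂ) ((ξ'.1 : C.subgroupOf K → ℂ) (e.symm (e c)))
    rw [e.symm_apply_apply]
    rfl
  · have hd : Cfsg.charDegree ((B (f (A χ))).1 : C → ℂ) = Cfsg.charDegree ((f (A χ)).1 : C.subgroupOf K → ℂ) := by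
      refine charDegree_eq ?_
      show ((f (A χ)).1 : C.subgroupOf K → ℂ) (e.symm 1) = _
      rw [map_one, coe_charDegree]
    rw [hd]
    exact (hfm (A χ)).2

end Cfsg.Agent.S4914
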