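import Cfsg.Statements.S4916
import Mathlib
import Cfsg.Agent.Lib.Blocks.Heights
import Cfsg.Agent.Lib.Blocks.Principal

set_option autoImplicit false
open Cfsg

namespace Cfsg.Agent.S4916

/-- Let G be a finite group, p a prime and M a maximal ideal of the algebraic integers containing p. Then the principal character is the only irreducible character of degree prime to p in the principal p-block of G if and only if p does not divide the order of G. -/
theorem result {G : Type*} [Group G] [Finite G] (p : ℕ) [Fact p.Prime] (M : Ideal Cfsg.AlgInt) (hM : Cfsg.IsPModular p M) : (∀ χ : Cfsg.IrrCharacter G, χ ∈ Cfsg.principalBlock M G → ¬ p ∣ Cfsg.charDegree (χ : G → ℂ) → (χ : G → ℂ) = fun _ => (1 : ℂ)) ↔ ¬ p ∣ Nat.card G := by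
  haveI := hM.2.1.isPrime
  haveI := Fintype.ofFinite G
  classical
  open Cfsg.Lib.Blocks in
  constructor
  · intro h hpG
    obtain ⟨u, hu⟩ := exists_prime_orderOf_dvd_card' p hpG
    set F := Finset.univ.filter (fun χ : Cfsg.IrrCharacter G => χ ∈ Cfsg.principalBlock M G) with hF
    have hker := kerB_eq_zero_of_regular hM (isPBlock_principal (M := M))
      (g := (1 : G)) (h := u⁻¹) (by simpa using (Fact.out : p.Prime).ne_one) (by rw [orderOf_inv, hu])
    rw [kerB_eq_filter] at hker
    simp only [inv_inv] at hker
    have hsum : ∑ χ ∈ F, red M ((χ : G → ℂ) 1) * red M ((χ : G → ℂ) 1) = 0 := by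
      rw [← red_zero (M := M), ← hker, red_sum _ fun χ _ =>
        mul_mem (char_mem_locRing M χ 1) (char_mem_locRing M χ u)]
      refine Finset.sum_congr rfl fun χ _ => ?_
      rw [red_mul (char_mem_locRing M χ 1) (char_mem_locRing M χ u)]
      congr 1
      have e := red_char_mul_pPart hM χ (Commute.one_right u) ⟨1, by rw [hu, pow_one]⟩
        (by simpa using (Fact.out : p.Prime).ne_one)
      rw [mul_one] at e
      exact e.symm
    have hmem : trivChar G ∈ F := Finset.mem_filter.mpr ⟨Finset.mem_univ _, trivChar_mem_principal⟩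
    rw [← Finset.add_sum_erase _ _ hmem, Finset.sum_eq_zero fun χ hχ => ?_] at hsum
    · simp [trivChar] at hsum
    · obtain ⟨hne, hχB⟩ := Finset.mem_erase.mp hχ
      by_cases hd : p ∣ Cfsg.charDegree (χ : G → ℂ)
      · rw [← coe_charDegree χ, red_natCast, (natCast_resF_eq_zero hM _).mpr hd, mul_zero]
      · exact absurd (Subtype.ext (h χ (Finset.mem_filter.mp hχB).2 hd)) hne
  · intro hpG χ hχ _
    have h0 : (Nat.card G).factorization p = 0 := Nat.factorization_eq_zero_of_not_dvd hpG
    have hs := blockOf_eq_singleton hM (trivChar G) (by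
      rw [charDegree_eq (χ := (trivChar G : G → ℂ)) (d := 1) (by simp [trivChar]), h0]
      simp)
    rw [principalBlock_eq, hs, Set.mem_singleton_iff] at hχ
    rw [hχ]; rfl

end Cfsg.Agent.S4916
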