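import Cfsg.Statements.S4923
import Cfsg.Agent.Lib.Characters.Galois
import Cfsg.Agent.Lib.Transfer.MaximalClass
import Cfsg.Agent.Lib.Transfer.TwoMaxClass

set_option autoImplicit false
open Cfsg

namespace Cfsg.Agent.S4923

open Cfsg.Lib.Characters
open scoped IntermediateField ComplexConjugate Classical commutatorElement
open IntermediateField

variable {G : Type*} [Group G] [Finite G] {N : ℕ} [NeZero N] {ζ : ℂ}

theorem root_pow_iff (hζ : IsPrimitiveRoot ζ N) {i j : ℕ} : ζ ^ i = ζ ^ j ↔ i ≡ j [MOD N] := by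
  rw [hζ.eq_orderOf]
  exact (hζ.isOfFinOrder (NeZero.ne N)).pow_eq_pow_iff_modEq

/-- Every element of the cyclotomic field is `u + v ζ` over the field of `ζ + ε ζ⁻¹`. -/
theorem decomp (hζ : IsPrimitiveRoot ζ N) (ε : ℚ) (z : ℚ⟮ζ⟯) :
    ∃ u v : ℚ⟮ζ + (ε : ℂ) * ζ⁻¹⟯, (z : ℂ) = u + v * ζ := by
  set F := ℚ⟮ζ + (ε : ℂ) * ζ⁻¹⟯
  have hs : ζ + (ε : ℂ) * ζ⁻¹ ∈ F := mem_adjoin_simple_self ℚ _
  have hε : (ε : ℂ) ∈ F := by simpa using F.algebraMap_mem ε
  have hζ0 : ζ ≠ 0 := hζ.ne_zero (NeZero.ne N)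
  have halg : IsAlgebraic ℚ ζ := ((hζ.isIntegral (NeZero.pos N)).tower_top (A := ℚ)).isAlgebraic
  have hz : (z : ℂ) ∈ ℚ⟮ζ⟯.toSubalgebra := z.2
  rw [adjoin_simple_toSubalgebra_of_isAlgebraic halg] at hz
  generalize (z : ℂ) = x at hz ⊢
  induction hz using Algebra.adjoin_induction with
  | mem x hx => exact ⟨0, 1, by simp [Set.mem_singleton_iff.mp hx]⟩
  | algebraMap q => exact ⟨⟨_, F.algebraMap_mem q⟩, 0, by simp⟩
  | add x y _ _ hx hy =>
    obtain ⟨u, v, rfl⟩ := hx; obtain ⟨u', v', rfl⟩ := hy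
    exact ⟨u + u', v + v', by push_cast; ring⟩
  | mul x y _ _ hx hy =>
    obtain ⟨u, v, rfl⟩ := hx; obtain ⟨u', v', rfl⟩ := hy
    refine ⟨u * u' - v * v' * ⟨_, hε⟩, u * v' + v * u' + v * v' * ⟨_, hs⟩, ?_⟩
    push_cast
    linear_combination (-((v : ℂ) * v' * ε)) * (inv_mul_cancel₀ hζ0)

/-- Values fixed by the powering lie in the field of `ζ + ε ζ⁻¹`. -/
theorem value_mem (hζ : IsPrimitiveRoot ζ N) {ε : ℚ} {k : ℕ} (hk : k.Coprime N)
    (hkk : ζ ^ k = (ε : ℂ) * ζ⁻¹) (hne : ζ ^ k ≠ ζ) (hε : ε = 1 ∨ ε = -1)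
    {χ : G → ℂ} (hχ : IsCharacter G χ) {g : G} (hg : g ^ N = 1) :
    (χ (g ^ k) = χ g → χ g ∈ ℚ⟮ζ + (ε : ℂ) * ζ⁻¹⟯) ∧
      (χ g ∈ ℚ⟮ζ + (ε : ℂ) * ζ⁻¹⟯ → χ (g ^ k) = χ g) := by
  obtain ⟨φ, hφ⟩ := exists_galois_hom hζ hk
  obtain ⟨z, hz, hzφ⟩ := char_galois hζ hχ hg
  set F := ℚ⟮ζ + (ε : ℂ) * ζ⁻¹⟯
  have hsL : ζ + (ε : ℂ) * ζ⁻¹ ∈ ℚ⟮ζ⟯ :=
    add_mem (mem_adjoin_simple_self ℚ ζ) (mul_mem (by simpa using ℚ⟮ζ⟯.algebraMap_mem ε)
      (inv_mem (mem_adjoin_simple_self ℚ ζ)))
  have hFL : F ≤ ℚ⟮ζ⟯ := adjoin_simple_le_iff.mpr hsL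
  have hζ0 : ζ ≠ 0 := hζ.ne_zero (NeZero.ne N)
  have hfix : ∀ u : F, φ (inclusion hFL u) = u := by
    intro u
    have h := IntermediateField.adjoin_algHom_ext (φ₁ := φ.comp (inclusion hFL)) (φ₂ := F.val) ℚ ?_
    · exact DFunLike.congr_fun h u
    · intro x hx
      obtain rfl := Set.mem_singleton_iff.mp hx
      show φ ⟨_, _⟩ = _
      have h1 : (⟨ζ + (ε : ℂ) * ζ⁻¹, hsL⟩ : ℚ⟮ζ⟯) = AdjoinSimple.gen ℚ ζ + (ε : ℚ⟮ζ⟯) * (AdjoinSimple.gen ℚ ζ)⁻¹ :=
        Subtype.ext (by simp)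
      refine (congrArg φ h1).trans ?_
      rw [map_add, map_mul, map_ratCast, map_inv₀, hφ, hkk]
      show (ε : ℂ) * ζ⁻¹ + ε * (ε * ζ⁻¹)⁻¹ = ζ + ε * ζ⁻¹
      rcases hε with rfl | rfl <;> simp [add_comm]
  constructor
  · intro heq
    obtain ⟨u, v, huv⟩ := decomp hζ ε z
    have hz2 : z = inclusion hFL u + inclusion hFL v * AdjoinSimple.gen ℚ ζ := Subtype.ext (by simpa using huv)
    have h2 := hzφ φ k hφ
    rw [hz2, map_add, map_mul, hfix, hfix, hφ, heq, ← hz, huv] at h2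
    have hv : (v : ℂ) = 0 := by
      by_contra hv
      exact hne (mul_left_cancel₀ hv (add_left_cancel h2))
    rw [← hz, huv, hv, zero_mul, add_zero]
    exact u.2
  · intro hmem
    have hz2 : z = inclusion hFL ⟨χ g, hmem⟩ := Subtype.ext hz
    rw [← hzφ φ k hφ, hz2, hfix]

/-- The combination of character values which picks out the powers conjugate to `g`. -/
theorem conj_sum_mem (hζ : IsPrimitiveRoot ζ N) {g : G} (hg : g ^ N = 1) {K : IntermediateField ℚ ℂ}
    (hK : ∀ χ : Cfsg.IrrCharacter G, (χ : G → ℂ) g ∈ K) :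
    ∑ j ∈ (Finset.range N).filter (fun j => IsConj g (g ^ j)), ζ ^ j ∈ K := by
  have hnat : ∀ χ : Cfsg.IrrCharacter G, ∃ m : ℕ, ∑ j ∈ Finset.range N, conj ((χ : G → ℂ) (g ^ j)) * ζ ^ j = m := by
    intro χ
    obtain ⟨d, ρ, hρ⟩ := χ.2.isCharacter
    obtain ⟨μ, hμ, hn, hk, -⟩ := exists_eigenvalues ρ g
    have hμN : ∀ i, μ i ^ N = 1 := fun i => by
      obtain ⟨c, hc⟩ := orderOf_dvd_of_pow_eq_one hg
      rw [hc, pow_mul, hμ i, one_pow]
    refine ⟨∑ i, if conj (μ i) * ζ = 1 then N else 0, ?_⟩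
    have h1 : ∀ j, (χ : G → ℂ) (g ^ j) = ∑ i, μ i ^ j := fun j => by rw [← hk j, hρ]
    simp only [h1, map_sum, map_pow, Finset.sum_mul, ← mul_pow]
    rw [Finset.sum_comm, Nat.cast_sum]
    refine Finset.sum_congr rfl fun i _ => ?_
    split_ifs with h
    · rw [h]; simp
    · rw [geom_sum_eq h, mul_pow, ← map_pow, hμN i, hζ.pow_eq_one, map_one, one_mul, sub_self, zero_div, Nat.cast_zero]
  choose m hm using hnat
  set S := (Finset.range N).filter (fun j => IsConj g (g ^ j))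
  have key : ∑ χ : Cfsg.IrrCharacter G, (χ : G → ℂ) g * (m χ : ℂ)
      = (Nat.card (Subgroup.centralizer ({g} : Set G)) : ℂ) * ∑ j ∈ S, ζ ^ j := by
    simp only [← hm, Finset.mul_sum, ← mul_assoc]
    rw [Finset.sum_comm]
    simp only [← Finset.sum_mul, column_orthogonality, S, Finset.sum_filter]
    refine Finset.sum_congr rfl fun j _ => ?_
    split_ifs with h
    · congr 2
      obtain ⟨c, hc⟩ := isConj_iff.mp h
      rw [← hc]
      exact (Nat.card_congr
        (((MulAut.conj c).toEquiv.subtypeEquiv (fun y => by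
          simp only [Subgroup.mem_centralizer_singleton_iff, MulEquiv.toEquiv_eq_coe, MulEquiv.coe_toEquiv,
            MulAut.conj_apply]
          constructor
          · intro hy
            calc c * y * c⁻¹ * (c * g * c⁻¹) = c * (y * g) * c⁻¹ := by group
              _ = c * (g * y) * c⁻¹ := by rw [hy]
              _ = _ := by group
          · intro hy
            have := congrArg (fun w => c⁻¹ * w * c) hy
            simpa [mul_assoc] using this)))).symm
    · rw [zero_mul]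
  have hne : (Nat.card (Subgroup.centralizer ({g} : Set G)) : ℂ) ≠ 0 := Nat.cast_ne_zero.mpr Nat.card_pos.ne'
  rw [← mul_div_cancel_left₀ (∑ j ∈ S, ζ ^ j) hne, ← key]
  exact div_mem (sum_mem fun χ _ => mul_mem (hK χ) (_root_.natCast_mem K _)) (_root_.natCast_mem K _)

/-- A non-commutative 2-group has derived index at least four. -/
theorem four_le_index {X : Type*} [Group X] [Finite X] (hX : IsPGroup 2 X)
    (hnc : ¬ ∀ a b : X, a * b = b * a) : 4 ≤ (commutator X).index := by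
  haveI := Fact.mk Nat.prime_two
  obtain ⟨k, hk⟩ := hX.index (commutator X)
  rw [hk]
  by_contra hlt
  have hk2 : k ≤ 1 := by
    by_contra h; exact hlt (le_trans (by norm_num) (Nat.pow_le_pow_right two_pos (show 2 ≤ k by omega)))
  have hgen : ∃ x : X, Subgroup.zpowers x ⊔ commutator X = ⊤ := by
    by_cases hall : ∀ x : X, x ∈ commutator X
    · exact ⟨1, eq_top_iff.mpr fun x _ => Subgroup.mem_sup_right (hall x)⟩
    · push Not at hall
      obtain ⟨x, hx⟩ := hall
      refine ⟨x, ?_⟩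
      have h2 : (commutator X).index = 2 := by
        interval_cases k
        · exact absurd (Subgroup.index_eq_one.mp (by simpa using hk) ▸ Subgroup.mem_top x) hx
        · simpa using hk
      refine eq_top_iff.mpr fun y _ => ?_
      by_cases hy : y ∈ commutator X
      · exact Subgroup.mem_sup_right hy
      · have hxy : x⁻¹ * y ∈ commutator X :=
          (Subgroup.mul_mem_iff_of_index_two h2).mpr ⟨fun h => absurd (inv_mem_iff.mp h) hx, fun h => absurd h hy⟩
        rw [← mul_inv_cancel_left x y]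
        exact Subgroup.mul_mem_sup (Subgroup.mem_zpowers x) hxy
  obtain ⟨x, hx⟩ := hgen
  have htop : Subgroup.zpowers x = ⊤ := frattini_nongenerating (eq_top_iff.mpr (hx ▸ sup_le_sup_left
    (Cfsg.Lib.Transfer.commutator_le_frattini hX) _))
  refine hnc fun a b => ?_
  obtain ⟨i, rfl⟩ := Subgroup.mem_zpowers_iff.mp (htop ▸ Subgroup.mem_top a)
  obtain ⟨j, rfl⟩ := Subgroup.mem_zpowers_iff.mp (htop ▸ Subgroup.mem_top b)
  exact zpow_mul_comm x i j

theorem conj_pow_iterate {g y : G} {k : ℕ} (h : y * g * y⁻¹ = g ^ k) (h2 : g ^ (k * k) = g) :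
    ∀ m, Odd m → y ^ m * g * (y ^ m)⁻¹ = g ^ k := by
  rintro m ⟨i, rfl⟩
  induction i with
  | zero => simpa using h
  | succ i ih =>
    rw [show 2 * (i + 1) + 1 = (2 * i + 1) + 2 by ring, pow_add]
    have hy2 : y ^ 2 * g * (y ^ 2)⁻¹ = g := by
      calc y ^ 2 * g * (y ^ 2)⁻¹ = y * (y * g * y⁻¹) * y⁻¹ := by rw [pow_two]; group
        _ = y * g ^ k * y⁻¹ := by rw [h]
        _ = (y * g * y⁻¹) ^ k := conj_pow.symm
        _ = g := by rw [h, ← pow_mul, h2]
    calc _ = y ^ (2 * i + 1) * (y ^ 2 * g * (y ^ 2)⁻¹) * (y ^ (2 * i + 1))⁻¹ := by group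
      _ = _ := by rw [hy2, ih]


/-- Let G be a finite group with Sylow 2-subgroup P of order 2^n ≥ 8, and let ζ be a primitive 2^(n−1)-th root of unity in ℂ. Then the commutator subgroup of P has index 4 in P if and only if there is an element g of P whose conjugacy class in G has even size and such that the field generated over ℚ by the values at g of all irreducible complex characters of G equals ℚ(ζ + ζ⁻¹) or ℚ(ζ − ζ⁻¹). -/
theorem result {G : Type*} [Group G] [Finite G] (P : Sylow 2 G) (n : ℕ) (hn : 3 ≤ n) (hP : Nat.card P = 2 ^ n) (ζ : ℂ) (hζ : IsPrimitiveRoot ζ (2 ^ (n - 1))) :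
    (commutator ↥P).index = 4 ↔
      ∃ g : G, g ∈ (P : Subgroup G) ∧ 2 ∣ (Subgroup.centralizer ({g} : Set G)).index ∧
        (IntermediateField.adjoin ℚ {z : ℂ | ∃ χ : Cfsg.IrrCharacter G, (χ : G → ℂ) g = z} = IntermediateField.adjoin ℚ ({ζ + ζ⁻¹} : Set ℂ) ∨
          IntermediateField.adjoin ℚ {z : ℂ | ∃ χ : Cfsg.IrrCharacter G, (χ : G → ℂ) g = z} = IntermediateField.adjoin ℚ ({ζ - ζ⁻¹} : Set ℂ)) := by
  haveI := Fact.mk Nat.prime_two
  obtain ⟨r, rfl⟩ : ∃ r, n = r + 3 := ⟨n - 3, by omega⟩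
  rw [show r + 3 - 1 = r + 2 by omega] at hζ
  haveI : NeZero (2 ^ (r + 2)) := ⟨by positivity⟩
  set N := 2 ^ (r + 2) with hN
  have hζ0 : ζ ≠ 0 := hζ.ne_zero (NeZero.ne N)
  have hhalf : ζ ^ (2 ^ (r + 1)) = -1 :=
    (hζ.pow (NeZero.pos N) (by rw [hN, show r + 2 = (r + 1) + 1 by omega, pow_succ])).eq_neg_one_of_two_right
  -- the two exponents
  have hexp : ∀ ε : ℚ, ε = 1 ∨ ε = -1 → ∃ k : ℕ, k.Coprime N ∧ ζ ^ k = (ε : ℂ) * ζ⁻¹ := by
    rintro ε (rfl | rfl)
    · refine ⟨N - 1, ?_, ?_⟩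
      · exact ((Nat.coprime_self_sub_right (show 1 ≤ N from NeZero.pos N)).mpr (Nat.coprime_one_right N)).symm
      · rw [Rat.cast_one, one_mul]
        refine eq_inv_of_mul_eq_one_left ?_
        rw [← pow_succ, Nat.sub_add_cancel (show 1 ≤ N from NeZero.pos N), hζ.pow_eq_one]
    · refine ⟨2 ^ (r + 1) - 1, ?_, ?_⟩
      · rw [hN]
        refine Nat.Coprime.pow_right _ (Nat.coprime_two_right.mpr ?_)
        exact Nat.Even.sub_odd Nat.one_le_two_pow (even_two.pow_of_ne_zero (by omega)) odd_one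
      · rw [Rat.cast_neg, Rat.cast_one, eq_mul_inv_iff_mul_eq₀ hζ0, ← pow_succ, Nat.sub_add_cancel Nat.one_le_two_pow, hhalf]
  have hPle : ∀ H : Subgroup G, ∀ a : ℕ, 2 ^ a ∣ Nat.card H → a ≤ r + 3 := by
    intro H a ha
    have h1 : 2 ^ a ∣ Nat.card G := ha.trans H.card_subgroup_dvd_card
    rw [← (P : Subgroup G).card_mul_index, hP] at h1
    exact Nat.pow_dvd_pow_iff_le_right (by norm_num) |>.mp
      ((Nat.Coprime.pow_left a (Nat.prime_two.coprime_iff_not_dvd.mpr P.not_dvd_index)).dvd_of_dvd_mul_right h1)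
  have hset1 : ({ζ + ζ⁻¹} : Set ℂ) = {ζ + ((1 : ℚ) : ℂ) * ζ⁻¹} := by simp
  have hset2 : ({ζ - ζ⁻¹} : Set ℂ) = {ζ + ((-1 : ℚ) : ℂ) * ζ⁻¹} := by simp [sub_eq_add_neg]
  constructor
  · intro h4
    obtain ⟨a, t, ha, ht, hZ, hZc, -, hta, -⟩ := Cfsg.Lib.Transfer.four_structure (n := r + 3) (by omega) hP h4
    rw [show r + 3 - 1 = r + 2 by omega] at ha
    rw [show r + 3 - 2 = r + 1 by omega] at hZ
    have haG : orderOf (a : G) = N := by rw [Subgroup.orderOf_coe]; exact ha
    have hgN : (a : G) ^ N = 1 := by rw [← haG]; exact pow_orderOf_eq_one _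
    -- conjugation by t
    have hzz : (a ^ 2 ^ (r + 1)) ^ 2 = 1 := by
      rw [← pow_mul, ← pow_succ]; exact ha ▸ pow_orderOf_eq_one a
    obtain ⟨ε, hε, k, hk, hkk, hconj⟩ : ∃ ε : ℚ, (ε = 1 ∨ ε = -1) ∧ ∃ k : ℕ, k.Coprime N ∧
        ζ ^ k = (ε : ℂ) * ζ⁻¹ ∧ t * a * t⁻¹ = a ^ k := by
      rw [hZ] at hta
      obtain ⟨i, hi⟩ := Subgroup.mem_zpowers_iff.mp hta
      rcases Int.even_or_odd' i with ⟨j, rfl | rfl⟩
      · rw [zpow_mul, zpow_ofNat, hzz, one_zpow] at hi
        refine ⟨1, Or.inl rfl, N - 1, ?_, ?_, ?_⟩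
        · exact ((Nat.coprime_self_sub_right (show 1 ≤ N from NeZero.pos N)).mpr (Nat.coprime_one_right N)).symm
        · rw [Rat.cast_one, one_mul]
          refine eq_inv_of_mul_eq_one_left ?_
          rw [← pow_succ, Nat.sub_add_cancel (show 1 ≤ N from NeZero.pos N), hζ.pow_eq_one]
        · apply mul_right_cancel (b := a)
          rw [← hi, ← pow_succ, Nat.sub_add_cancel (show 1 ≤ N from NeZero.pos N), hN, ← ha, pow_orderOf_eq_one]
      · rw [zpow_add, zpow_mul, zpow_ofNat, hzz, one_zpow, one_mul, zpow_one] at hi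
        obtain ⟨k, hk, hkk⟩ := hexp (-1) (Or.inr rfl)
        refine ⟨-1, Or.inr rfl, 2 ^ (r + 1) - 1, ?_, ?_, ?_⟩
        · rw [hN]
          refine Nat.Coprime.pow_right _ (Nat.coprime_two_right.mpr ?_)
          exact Nat.Even.sub_odd Nat.one_le_two_pow (even_two.pow_of_ne_zero (by omega)) odd_one
        · rw [Rat.cast_neg, Rat.cast_one, eq_mul_inv_iff_mul_eq₀ hζ0, ← pow_succ, Nat.sub_add_cancel Nat.one_le_two_pow, hhalf]
        · apply mul_right_cancel (b := a)
          rw [← hi, ← pow_succ, Nat.sub_add_cancel Nat.one_le_two_pow]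
    have hnc : t * a * t⁻¹ ≠ a := by
      intro hc
      have hac : a ∈ Subgroup.center P := by
        rw [Subgroup.mem_center_iff]
        intro y
        have hidx : (Subgroup.zpowers a).index = 2 := by
          have h2 := (Subgroup.zpowers a).card_mul_index
          rw [Nat.card_zpowers, ha, hP, pow_succ 2 (r + 2)] at h2
          exact Nat.eq_of_mul_eq_mul_left (pow_pos two_pos _) h2
        by_cases hy : y ∈ Subgroup.zpowers a
        · obtain ⟨j, rfl⟩ := Subgroup.mem_zpowers_iff.mp hy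
          exact zpow_mul_comm a j 1 |> fun h => by simpa using h
        · obtain ⟨j, hj⟩ := Subgroup.mem_zpowers_iff.mp
            ((Subgroup.mul_mem_iff_of_index_two hidx).mpr ⟨fun h => absurd (inv_mem_iff.mp h) ht, fun h => absurd h hy⟩ :
              t⁻¹ * y ∈ Subgroup.zpowers a)
          rw [show y = t * a ^ j by rw [hj]; group]
          calc t * a ^ j * a = (t * a * t⁻¹) * (t * a ^ j) := by group
            _ = _ := by rw [hc]
      have hle : Subgroup.zpowers a ≤ Subgroup.center P := Subgroup.zpowers_le.mpr hac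
      have := Subgroup.card_le_of_le hle
      rw [Nat.card_zpowers, ha, hZc] at this
      have : 2 ^ 2 ≤ 2 := le_trans (Nat.pow_le_pow_right two_pos (by omega)) this
      norm_num at this
    have hconjG : (t : G) * a * (t : G)⁻¹ = (a : G) ^ k := by exact_mod_cast congrArg Subtype.val hconj
    have hne : ζ ^ k ≠ ζ := by
      intro hc
      apply hnc
      rw [hconj]
      nth_rw 2 [← pow_one a]
      rw [pow_eq_pow_iff_modEq, ha, ← root_pow_iff hζ, pow_one, hc]
    -- the normalizer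
    set Ng := Subgroup.normalizer ((Subgroup.zpowers (a : G) : Subgroup G) : Set G)
    set C := Subgroup.centralizer ({(a : G)} : Set G)
    have hCN : C ≤ Ng := by
      intro x hx
      rw [Subgroup.mem_normalizer_iff]
      intro y
      have hfix : x * (a : G) * x⁻¹ = a := by
        rw [mul_inv_eq_iff_eq_mul]; exact Subgroup.mem_centralizer_singleton_iff.mp hx
      have hmap : (Subgroup.zpowers (a : G)).map (MulAut.conj x).toMonoidHom = Subgroup.zpowers (a : G) := by
        rw [MonoidHom.map_zpowers]; exact congrArg _ hfix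
      conv_rhs => rw [← hmap]
      exact (Subgroup.mem_map_iff_mem (f := (MulAut.conj x).toMonoidHom) (MulAut.conj x).injective).symm
    have hmemN : ∀ (x : G) (j : ℕ), x * (a : G) * x⁻¹ = (a : G) ^ j → x ∈ Ng := by
      intro x j hx
      rw [Subgroup.mem_normalizer_iff]
      intro y
      have hmap : (Subgroup.zpowers (a : G)).map (MulAut.conj x).toMonoidHom = Subgroup.zpowers (a : G) := by
        refine Subgroup.eq_of_le_of_card_ge ?_ ?_
        · rw [MonoidHom.map_zpowers, Subgroup.zpowers_le]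
          show x * (a : G) * x⁻¹ ∈ _
          rw [hx]
          exact Subgroup.pow_mem _ (Subgroup.mem_zpowers _) j
        · rw [Subgroup.card_map_of_injective (MulAut.conj x).injective]
      conv_rhs => rw [← hmap]
      exact (Subgroup.mem_map_iff_mem (f := (MulAut.conj x).toMonoidHom) (MulAut.conj x).injective).symm
    have hdvdC : 2 ^ (r + 2) ∣ Nat.card C := by
      rw [← hN, ← haG, ← Nat.card_zpowers]
      refine Subgroup.card_dvd_of_le (Subgroup.zpowers_le.mpr ?_)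
      exact Subgroup.mem_centralizer_singleton_iff.mpr rfl
    -- N/C embeds in the automorphisms of the cyclic group
    have hrel : C.relIndex Ng ∣ Nat.totient N := by
      let f : Ng →* MulAut (Subgroup.zpowers (a : G)) := Subgroup.normalizerMonoidHom _
      have hker : f.ker = C.subgroupOf Ng := by
        refine (Subgroup.normalizerMonoidHom_ker _).trans ?_
        refine congrArg (fun D : Subgroup G => D.subgroupOf Ng) ?_
        rw [Subgroup.zpowers_eq_closure, Subgroup.centralizer_closure]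
      rw [Subgroup.relIndex, ← hker, Subgroup.index_ker]
      refine (Subgroup.card_subgroup_dvd_card f.range).trans ?_
      rw [IsCyclic.card_mulAut, Nat.card_zpowers, haG]
    rw [hN, Nat.totient_prime_pow Nat.prime_two (by omega)] at hrel
    obtain ⟨i, -, hi⟩ := (Nat.dvd_prime_pow Nat.prime_two).mp (by simpa using hrel : C.relIndex Ng ∣ 2 ^ (r + 2 - 1))
    have hcard : Nat.card C * C.relIndex Ng = Nat.card Ng := by
      rw [Subgroup.relIndex, ← Nat.card_congr (Subgroup.subgroupOfEquivOfLe hCN).toEquiv, Subgroup.card_mul_index]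
    have hi1 : i ≤ 1 := by
      have := hPle Ng (r + 2 + i) (by rw [pow_add, ← hcard, hi]; exact Nat.mul_dvd_mul hdvdC dvd_rfl)
      omega
    have htC : (t : G) ∉ C := fun h => hnc (Subtype.ext (by
      show (t : G) * a * (t : G)⁻¹ = a
      rw [mul_inv_eq_iff_eq_mul]; exact Subgroup.mem_centralizer_singleton_iff.mp h))
    have htN : (t : G) ∈ Ng := hmemN _ k hconjG
    have hrel2 : C.relIndex Ng = 2 := by
      rw [hi]
      rcases Nat.le_one_iff_eq_zero_or_eq_one.mp hi1 with rfl | rfl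
      · exact absurd (Subgroup.relIndex_eq_one.mp (by simpa using hi) htN) htC
      · rfl
    refine ⟨a, a.2, ?_, ?_⟩
    · by_contra hodd
      have h1 : 2 ^ (r + 3) ∣ Nat.card C := by
        have h2 : 2 ^ (r + 3) ∣ Nat.card G := hP ▸ (P : Subgroup G).card_subgroup_dvd_card
        rw [← C.card_mul_index] at h2
        exact (Nat.Coprime.pow_left _ (Nat.prime_two.coprime_iff_not_dvd.mpr hodd)).dvd_of_dvd_mul_right h2
      have := hPle Ng (r + 4) (by rw [← hcard, hrel2, pow_succ]; exact Nat.mul_dvd_mul h1 dvd_rfl)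
      omega
    · set V := {z : ℂ | ∃ χ : Cfsg.IrrCharacter G, (χ : G → ℂ) (a : G) = z}
      have hVK : ∀ χ : Cfsg.IrrCharacter G, (χ : G → ℂ) (a : G) ∈ IntermediateField.adjoin ℚ V :=
        fun χ => subset_adjoin ℚ _ ⟨χ, rfl⟩
      have hS : (Finset.range N).filter (fun j => IsConj (a : G) ((a : G) ^ j)) = {1, k % N} := by
        have h1N : 1 < N := Nat.one_lt_two_pow (by omega)
        ext j
        simp only [Finset.mem_filter, Finset.mem_range, Finset.mem_insert, Finset.mem_singleton]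
        constructor
        · rintro ⟨hj, hc⟩
          obtain ⟨x, hx⟩ := isConj_iff.mp hc
          by_cases hxC : x ∈ C
          · left
            have h1 : (a : G) ^ j = (a : G) ^ 1 := by
              rw [pow_one, ← hx, mul_inv_eq_iff_eq_mul]; exact Subgroup.mem_centralizer_singleton_iff.mp hxC
            rw [pow_eq_pow_iff_modEq, haG] at h1
            exact Nat.ModEq.eq_of_lt_of_lt h1 hj h1N
          · right
            have hxt : (t : G)⁻¹ * x ∈ C := by
              have h3 := (Subgroup.mul_mem_iff_of_index_two (H := C.subgroupOf Ng) hrel2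
                (a := ⟨(t : G)⁻¹, inv_mem htN⟩) (b := ⟨x, hmemN x j hx⟩)).mpr
                ⟨fun h => absurd (inv_mem_iff.mp (Subgroup.mem_subgroupOf.mp h)) htC,
                  fun h => absurd (Subgroup.mem_subgroupOf.mp h) hxC⟩
              exact Subgroup.mem_subgroupOf.mp h3
            have h1 : (a : G) ^ j = (a : G) ^ (k % N) := by
              rw [← haG, pow_mod_orderOf, ← hx, ← hconjG]
              have h4 : (t : G)⁻¹ * x * a = a * ((t : G)⁻¹ * x) := Subgroup.mem_centralizer_singleton_iff.mp hxt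
              calc x * a * x⁻¹ = t * ((t : G)⁻¹ * x * a) * x⁻¹ := by group
                _ = _ := by rw [h4]; group
            rw [pow_eq_pow_iff_modEq, haG] at h1
            exact Nat.ModEq.eq_of_lt_of_lt h1 hj (Nat.mod_lt _ (NeZero.pos N))
        · rintro (rfl | rfl)
          · exact ⟨h1N, by rw [pow_one]⟩
          · refine ⟨Nat.mod_lt _ (NeZero.pos N), isConj_iff.mpr ⟨(t : G), ?_⟩⟩
            rw [← haG, pow_mod_orderOf, hconjG]
      have hmem := conj_sum_mem hζ hgN hVK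
      have h1k : (1 : ℕ) ≠ k % N := by
        intro h1
        apply hne
        rw [← Nat.mod_add_div k N, pow_add, pow_mul, hζ.pow_eq_one, one_pow, mul_one, ← h1, pow_one]
      rw [hS, Finset.sum_pair h1k, pow_one,
        show ζ ^ (k % N) = ζ ^ k by rw [hζ.eq_orderOf, pow_mod_orderOf], hkk] at hmem
      have heq : IntermediateField.adjoin ℚ V = ℚ⟮ζ + (ε : ℂ) * ζ⁻¹⟯ := by
        refine le_antisymm (adjoin_le_iff.mpr ?_) (adjoin_simple_le_iff.mpr hmem)
        rintro z ⟨χ, rfl⟩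
        refine (value_mem hζ hk hkk hne hε χ.2.isCharacter hgN).1 ?_
        rw [← hconjG]
        exact isClassFunction_iff_isConj.mp χ.2.isClassFunction _ _
          (isConj_iff.mpr ⟨(t : G)⁻¹, by group⟩)
      rcases hε with rfl | rfl
      · exact Or.inl (by rw [heq, hset1])
      · exact Or.inr (by rw [heq, hset2])
  · rintro ⟨g, hgP, heven, hfield⟩
    have hnc : ∀ Q : Sylow 2 G, g ∈ Q → ¬ ∀ a b : ↥(Q : Subgroup G), a * b = b * a := by
      intro Q hgQ hab
      refine Q.not_dvd_index (heven.trans (Subgroup.index_dvd_of_le fun y hy => ?_))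
      exact Subgroup.mem_centralizer_singleton_iff.mpr (congrArg Subtype.val (hab ⟨y, hy⟩ ⟨g, hgQ⟩))
    have h4 := four_le_index P.isPGroup' (hnc P hgP)
    obtain ⟨i, hi⟩ := P.isPGroup'.index (commutator ↥(P : Subgroup G))
    have hmul := (commutator ↥(P : Subgroup G)).card_mul_index
    rw [hP] at hmul
    suffices hcomm : 2 ^ (r + 1) ≤ Nat.card (commutator ↥(P : Subgroup G)) by
      refine le_antisymm ?_ h4
      have : 2 ^ (r + 1) * (commutator ↥(P : Subgroup G)).index ≤ 2 ^ (r + 1) * 4 :=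
        le_trans (Nat.mul_le_mul_right _ hcomm) (le_of_eq (hmul.trans (by ring)))
      exact Nat.le_of_mul_le_mul_left this (by positivity)
    rcases Nat.eq_zero_or_pos r with rfl | hr
    · have hne : commutator ↥(P : Subgroup G) ≠ ⊥ := fun h => hnc P hgP fun a b =>
        commutatorElement_eq_one_iff_mul_comm.mp
          (Subgroup.mem_bot.mp (h ▸ Subgroup.commutator_mem_commutator (Subgroup.mem_top a) (Subgroup.mem_top b)))
      have := (Subgroup.one_lt_card_iff_ne_bot _).mpr hne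
      show 2 ^ 1 ≤ _
      omega
    obtain ⟨ε, hε, hfield⟩ : ∃ ε : ℚ, (ε = 1 ∨ ε = -1) ∧
        IntermediateField.adjoin ℚ {z : ℂ | ∃ χ : Cfsg.IrrCharacter G, (χ : G → ℂ) g = z} = ℚ⟮ζ + (ε : ℂ) * ζ⁻¹⟯ := by
      rcases hfield with h | h
      · exact ⟨1, Or.inl rfl, by rw [h, hset1]⟩
      · exact ⟨-1, Or.inr rfl, by rw [h, hset2]⟩
    obtain ⟨m, hm⟩ := IsPGroup.iff_orderOf.mp P.isPGroup' ⟨g, hgP⟩
    rw [Subgroup.orderOf_mk] at hm
    have hmle : m ≤ r + 2 := by
      by_contra hlt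
      refine hnc P hgP fun a b => ?_
      have htop : Subgroup.zpowers g = (P : Subgroup G) := by
        refine Subgroup.eq_of_le_of_card_ge (Subgroup.zpowers_le.mpr hgP) ?_
        rw [Nat.card_zpowers, hm, hP]
        exact Nat.pow_le_pow_right two_pos (by omega)
      obtain ⟨i, hi⟩ := Subgroup.mem_zpowers_iff.mp (htop.symm ▸ a.2 : (a : G) ∈ Subgroup.zpowers g)
      obtain ⟨j, hj⟩ := Subgroup.mem_zpowers_iff.mp (htop.symm ▸ b.2 : (b : G) ∈ Subgroup.zpowers g)
      exact Subtype.ext (by show (a : G) * b = b * a; rw [← hi, ← hj]; exact zpow_mul_comm g i j)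
    have hgN : g ^ N = 1 := orderOf_dvd_iff_pow_eq_one.mp (hm ▸ pow_dvd_pow 2 hmle)
    have hmeq : m = r + 2 := by
      by_contra hlt
      set q := 1 + 2 ^ (r + 1)
      have hq : q.Coprime N := Nat.Coprime.pow_right _ (Nat.coprime_two_right.mpr
        (odd_one.add_even (even_two.pow_of_ne_zero (by omega))))
      obtain ⟨φ, hφ⟩ := exists_galois_hom hζ hq
      have hgq : g ^ q = g := by
        rw [pow_add, pow_one, orderOf_dvd_iff_pow_eq_one.mp (hm ▸ pow_dvd_pow 2 (show m ≤ r + 1 by omega)), mul_one]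
      set K := IntermediateField.adjoin ℚ {z : ℂ | ∃ χ : Cfsg.IrrCharacter G, (χ : G → ℂ) g = z}
      have hKL : K ≤ ℚ⟮ζ⟯ := adjoin_le_iff.mpr (by
        rintro z ⟨χ, rfl⟩
        obtain ⟨w, hw, -⟩ := char_galois hζ χ.2.isCharacter hgN
        exact hw ▸ w.2)
      have hfix := IntermediateField.adjoin_algHom_ext (φ₁ := φ.comp (inclusion hKL)) (φ₂ := K.val) ℚ (by
        intro x hx'
        obtain ⟨χ, rfl⟩ := hx'
        obtain ⟨w, hw, hwφ⟩ := char_galois hζ χ.2.isCharacter hgN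
        show φ ⟨_, _⟩ = (χ : G → ℂ) g
        rw [show (⟨(χ : G → ℂ) g, hKL (subset_adjoin ℚ _ ⟨χ, rfl⟩)⟩ : ℚ⟮ζ⟯) = w from Subtype.ext hw.symm, hwφ φ q hφ, hgq])
      have hsK : ζ + (ε : ℂ) * ζ⁻¹ ∈ K := hfield ▸ mem_adjoin_simple_self ℚ _
      have h := DFunLike.congr_fun hfix ⟨_, hsK⟩
      have h1 : inclusion hKL ⟨_, hsK⟩ = AdjoinSimple.gen ℚ ζ + (ε : ℚ⟮ζ⟯) * (AdjoinSimple.gen ℚ ζ)⁻¹ :=
        Subtype.ext (by simp)
      change φ (inclusion hKL ⟨_, hsK⟩) = _ at h
      rw [h1, map_add, map_mul, map_ratCast, map_inv₀, hφ, IntermediateField.val_mk,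
        pow_add, pow_one, hhalf, mul_neg_one, inv_neg, mul_neg] at h
      have h0 : ζ * ζ = -(ε : ℂ) := by
        have h2 : ζ + (ε : ℂ) * ζ⁻¹ = 0 := by linear_combination (-1 / 2 : ℂ) * h
        linear_combination ζ * h2 - (ε : ℂ) * mul_inv_cancel₀ hζ0
      have h4 : ζ ^ 4 = 1 := by
        rw [show ζ ^ 4 = (ζ * ζ) * (ζ * ζ) by ring, h0]
        rcases hε with rfl | rfl <;> simp
      have := Nat.le_of_dvd (by norm_num) (hζ.dvd_of_pow_eq_one 4 h4)
      have h8 : 2 ^ 3 ≤ N := Nat.pow_le_pow_right two_pos (by omega)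
      omega
    rw [hmeq] at hm
    obtain ⟨k, hk, hkk⟩ := hexp ε hε
    have hne2 : ζ ^ k * ζ⁻¹ ≠ 1 ∧ (ζ ^ k * ζ⁻¹) ^ 2 ^ r = -1 := by
      have h1 : (ζ ^ k * ζ⁻¹) ^ 2 ^ r = -1 := by
        rw [hkk, mul_assoc, ← mul_inv, mul_pow, inv_pow, ← pow_two, ← pow_mul, ← pow_succ', hhalf]
        rcases hε with rfl | rfl
        · norm_num
        · rw [Rat.cast_neg, Rat.cast_one, (even_two.pow_of_ne_zero (by omega)).neg_one_pow]; norm_num
      exact ⟨fun h => by rw [h, one_pow] at h1; norm_num at h1, h1⟩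
    have hne : ζ ^ k ≠ ζ := fun h => hne2.1 (by rw [h, mul_inv_cancel₀ hζ0])
    have hk1 : 1 ≤ k := by
      rcases Nat.eq_zero_or_pos k with rfl | h
      · rw [Nat.coprime_zero_left] at hk
        exact absurd hk (Nat.one_lt_two_pow (by omega)).ne'
      · exact h
    obtain ⟨x, hx⟩ := isConj_iff.mp ((isConj_iff_forall_irr g (g ^ k)).mpr fun χ =>
      ((value_mem hζ hk hkk hne hε χ.2.isCharacter hgN).2 (hfield ▸ subset_adjoin ℚ _ ⟨χ, rfl⟩)).symm)
    have hkk2 : g ^ (k * k) = g := by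
      nth_rw 2 [← pow_one g]
      rw [pow_eq_pow_iff_modEq, hm, ← root_pow_iff hζ, pow_one, pow_mul, hkk, mul_pow,
        inv_pow, hkk]
      rcases hε with rfl | rfl
      · simp
      · rw [Rat.cast_neg, Rat.cast_one, Odd.neg_one_pow (Nat.coprime_two_right.mp ((Nat.coprime_pow_right_iff (by omega) k 2).mp hk))]
        simp
    obtain ⟨e, o, ho, hxo⟩ := Nat.exists_eq_two_pow_mul_odd (orderOf_pos x).ne'
    set y := x ^ o
    have hyg : y * g * y⁻¹ = g ^ k := conj_pow_iterate hx hkk2 o ho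
    have hy : IsPGroup 2 (Subgroup.zpowers y) := by
      refine IsPGroup.of_card (n := e) ?_
      rw [Nat.card_zpowers, orderOf_pow' x ho.pos.ne', hxo, Nat.gcd_mul_left_left, Nat.mul_div_cancel _ ho.pos]
    have hnorm : Subgroup.zpowers y ≤ Subgroup.normalizer ((Subgroup.zpowers g : Subgroup G) : Set G) := by
      rw [Subgroup.zpowers_le, Subgroup.mem_normalizer_iff]
      intro z
      have hmap : (Subgroup.zpowers g).map (MulAut.conj y).toMonoidHom = Subgroup.zpowers g := by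
        refine Subgroup.eq_of_le_of_card_ge ?_ ?_
        · rw [MonoidHom.map_zpowers, Subgroup.zpowers_le]
          show y * g * y⁻¹ ∈ _
          rw [hyg]; exact Subgroup.pow_mem _ (Subgroup.mem_zpowers g) k
        · rw [Subgroup.card_map_of_injective (MulAut.conj y).injective]
      conv_rhs => rw [← hmap]
      exact (Subgroup.mem_map_iff_mem (f := (MulAut.conj y).toMonoidHom) (MulAut.conj y).injective).symm
    have hgp : IsPGroup 2 (Subgroup.zpowers g) := IsPGroup.of_card (n := r + 2) (by rw [Nat.card_zpowers, hm])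
    have hR : IsPGroup 2 ↥(Subgroup.zpowers g ⊔ Subgroup.zpowers y) := hgp.to_sup_of_normal_left' hy hnorm
    obtain ⟨Q, hQ⟩ := hR.exists_le_sylow
    have hgQ : g ∈ (Q : Subgroup G) := hQ (Subgroup.mem_sup_left (Subgroup.mem_zpowers g))
    have hyQ : y ∈ (Q : Subgroup G) := hQ (Subgroup.mem_sup_right (Subgroup.mem_zpowers y))
    have hc : ⁅(⟨y, hyQ⟩ : (Q : Subgroup G)), ⟨g, hgQ⟩⁆ ∈ commutator (Q : Subgroup G) :=
      Subgroup.commutator_mem_commutator (Subgroup.mem_top _) (Subgroup.mem_top _)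
    have hval : ((⁅(⟨y, hyQ⟩ : (Q : Subgroup G)), ⟨g, hgQ⟩⁆ : (Q : Subgroup G)) : G) = g ^ (k - 1) := by
      show y * g * y⁻¹ * g⁻¹ = _
      rw [hyg, mul_inv_eq_iff_eq_mul, ← pow_succ, Nat.sub_add_cancel hk1]
    have hge : 2 ^ (r + 1) ≤ Nat.card (commutator (Q : Subgroup G)) := by
      refine le_trans ?_ (Subgroup.card_le_of_le (Subgroup.zpowers_le.mpr hc))
      rw [Nat.card_zpowers, ← Subgroup.orderOf_coe, hval]
      obtain ⟨j, -, hj⟩ := (Nat.dvd_prime_pow Nat.prime_two).mp (hm ▸ orderOf_pow_dvd (k - 1) : orderOf (g ^ (k - 1)) ∣ 2 ^ (r + 2))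
      rw [hj]
      refine Nat.pow_le_pow_right two_pos ?_
      by_contra hlt
      have h1 : (g ^ (k - 1)) ^ 2 ^ r = g ^ 0 := by
        rw [pow_zero]; exact orderOf_dvd_iff_pow_eq_one.mp (hj ▸ pow_dvd_pow 2 (by omega))
      rw [← pow_mul, pow_eq_pow_iff_modEq, hm, ← root_pow_iff hζ, pow_zero, pow_mul,
        pow_sub₀ ζ hζ0 hk1, pow_one, hne2.2] at h1
      norm_num at h1
    refine hge.trans_eq ?_
    let f := Q.equiv P
    rw [← Subgroup.card_map_of_injective (K := commutator ↥(Q : Subgroup G)) (show Function.Injective f.toMonoidHom from f.injective),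
      Cfsg.Lib.Transfer.map_commutator_of_surjective f.toMonoidHom f.surjective]

end Cfsg.Agent.S4923
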