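import Cfsg.Statements.S4931
import Cfsg.Agent.Lib.Blocks.GaloisConjDegrees
import Cfsg.Agent.Lib.Blocks.Covering
import Cfsg.Agent.Lib.Characters.Degree
import Cfsg.Agent.Lib.Transfer.Action
import Cfsg.Agent.Lib.Transfer.Tate
import Cfsg.Agent.Lib.Transfer.PGroupFrattini
import Cfsg.Agent.Lib.Solv.Cores

set_option autoImplicit false
set_option maxHeartbeats 1600000
open Cfsg

namespace Cfsg.Agent.S4931

open Cfsg.Lib.Characters Cfsg.Lib.Blocks Cfsg.Lib.Blocks.GaloisConj
open scoped Classical commutatorElement Pointwise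

universe u

/-- A character of `p'`-degree kills the commutator subgroup of a normal `p`-subgroup. -/
theorem kills_commutator {N : Type u} [Group N] [Fintype N] {p : ℕ} [Fact p.Prime] (Q : Subgroup N) [Q.Normal] [Fintype Q]
    (hQ : IsPGroup p Q) (θ : IrrCharacter N) (hθ : ¬ p ∣ charDegree (θ : N → ℂ)) {x : Q} (hx : x ∈ commutator Q) :
    (θ : N → ℂ) x = (θ : N → ℂ) 1 := by
  obtain ⟨m, hm⟩ := exists_decomposition (isCharacter_restrict θ.2.isCharacter Q)
  have hmc : ∀ φ : IrrCharacter Q, classInner (fun y : Q => (θ : N → ℂ) y) (φ : Q → ℂ) = m φ := fun φ => by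
    rw [show (fun y : Q => (θ : N → ℂ) y) = ∑ φ, (m φ : ℂ) • (φ : Q → ℂ) from hm, classInner_sum_irr]
  have hval : ∀ y : Q, (θ : N → ℂ) y = ∑ φ, (m φ : ℂ) * (φ : Q → ℂ) y := fun y => by
    have := congrFun hm y
    simpa [Finset.sum_apply] using this
  obtain ⟨φ₀, hφ₀, hlin⟩ : ∃ φ₀, m φ₀ ≠ 0 ∧ charDegree (φ₀ : Q → ℂ) = 1 := by
    by_contra! hno
    refine hθ ?_
    have h1 := hval 1
    simp only [OneMemClass.coe_one, deg_spec θ.2.isCharacter, deg_spec (IsIrrCharacter.isCharacter (Subtype.prop _))] at h1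
    have h2 : charDegree (θ : N → ℂ) = ∑ φ, m φ * charDegree (φ : Q → ℂ) := by exact_mod_cast h1
    rw [h2]
    refine Finset.dvd_sum fun φ _ => ?_
    rcases eq_or_ne (m φ) 0 with h0 | h0
    · rw [h0, zero_mul]; exact dvd_zero p
    refine Dvd.dvd.mul_left ?_ _
    obtain ⟨k, hk⟩ := IsPGroup.iff_card.1 hQ
    obtain ⟨i, -, hi⟩ := (Nat.dvd_prime_pow Fact.out).1 (hk ▸ charDegree_dvd_card φ)
    rcases i with _ | i
    · exact absurd hi (hno φ h0)
    · exact hi ▸ dvd_pow_self p i.succ_ne_zero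
  rw [hval x, ← OneMemClass.coe_one Q, hval 1]
  refine Finset.sum_congr rfl fun φ _ => ?_
  rcases eq_or_ne (m φ) 0 with h0 | h0
  · rw [h0, Nat.cast_zero, zero_mul, zero_mul]
  congr 1
  obtain ⟨g, hg⟩ := exists_cjIrr_of_constituents θ (θ := φ₀) (ψ := φ) (by rw [hmc]; exact_mod_cast hφ₀) (by rw [hmc]; exact_mod_cast h0)
  refine apply_commutator_of_linear ?_ hx
  rw [← hlin, hg, charDegree, charDegree, coe_cjIrr, conjFn_apply]
  congr 3
  exact congrArg (φ₀ : Q → ℂ) (Subtype.ext (by simp))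

/-- Outside an abelian-by-`p'` kernel some irreducible character of `p'`-degree is nontrivial. -/
theorem exists_ne {N : Type u} [Group N] [Fintype N] {p : ℕ} [Fact p.Prime] (Q D : Subgroup N) [Q.Normal] [D.Normal]
    (hDQ : D ≤ Q) (hidx : ¬ p ∣ Q.index) (hcomm : ∀ a ∈ Q, ∀ b ∈ Q, ⁅a, b⁆ ∈ D) {x : N} (hx : x ∉ D) :
    ∃ θ : IrrCharacter N, ¬ p ∣ charDegree (θ : N → ℂ) ∧ (∀ d ∈ D, (θ : N → ℂ) d = (θ : N → ℂ) 1) ∧ (θ : N → ℂ) x ≠ (θ : N → ℂ) 1 := by
  haveI : Fintype (N ⧸ D) := Fintype.ofFinite _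
  let π := QuotientGroup.mk' D
  obtain ⟨ψ, hψ⟩ := exists_irr_ne (fun e => hx ((QuotientGroup.eq_one_iff x).1 e) : (x : N ⧸ D) ≠ 1)
  refine ⟨⟨fun n => (ψ : N ⧸ D → ℂ) (π n), isIrrCharacter_comp_surjective ψ.2 π (QuotientGroup.mk'_surjective D)⟩, ?_, fun d hd => ?_, ?_⟩
  · haveI : (Q.map π).Normal := (inferInstance : Q.Normal).map π (QuotientGroup.mk'_surjective D)
    haveI : IsMulCommutative (Q.map π) := ⟨⟨by
      rintro ⟨_, a, ha, rfl⟩ ⟨_, b, hb, rfl⟩
      apply Subtype.ext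
      show π a * π b = π b * π a
      rw [← commutatorElement_eq_one_iff_mul_comm, ← map_commutatorElement]
      exact (QuotientGroup.eq_one_iff _).2 (hcomm a ha b hb)⟩⟩
    intro hd
    have h1 := degree_dvd_index_of_abelian ψ.2 (Q.map π) (deg_spec ψ.2.isCharacter)
    refine hidx (dvd_trans ?_ (h1.trans (Subgroup.index_map_dvd (H := Q) (QuotientGroup.mk'_surjective D))))
    simpa [charDegree] using hd
  · show (ψ : N ⧸ D → ℂ) (π d) = (ψ : N ⧸ D → ℂ) (π 1)
    rw [map_one, show π d = 1 from (QuotientGroup.eq_one_iff d).2 hd]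
  · show (ψ : N ⧸ D → ℂ) (π x) ≠ (ψ : N ⧸ D → ℂ) (π 1)
    rwa [map_one]

/-- Let G be a finite group, p a prime and P a Sylow p-subgroup of G with normalizer N. Then every irreducible complex character of N of degree not divisible by p is the restriction of an irreducible character of G if and only if there is a normal subgroup K of G with KN = G and K ∩ N = 1. -/
theorem result {G : Type*} [Group G] [Finite G] (p : ℕ) [Fact p.Prime] (P : Sylow p G) :
    (∀ θ : Cfsg.IrrCharacter ↥(Subgroup.normalizer ((P : Subgroup G) : Set G)), ¬ p ∣ Cfsg.charDegree (θ : ↥(Subgroup.normalizer ((P : Subgroup G) : Set G)) → ℂ) →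
        ∃ χ : Cfsg.IrrCharacter G, ∀ x : ↥(Subgroup.normalizer ((P : Subgroup G) : Set G)), (χ : G → ℂ) x = (θ : ↥(Subgroup.normalizer ((P : Subgroup G) : Set G)) → ℂ) x) ↔
      ∃ K : Subgroup G, K.Normal ∧ K ⊔ Subgroup.normalizer ((P : Subgroup G) : Set G) = ⊤ ∧ K ⊓ Subgroup.normalizer ((P : Subgroup G) : Set G) = ⊥ := by
  haveI : Fintype G := Fintype.ofFinite G
  set N := Subgroup.normalizer ((P : Subgroup G) : Set G) with hN
  haveI : Fintype N := Fintype.ofFinite _
  constructor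
  · intro hext
    have hPN : (P : Subgroup G) ≤ N := Subgroup.le_normalizer
    set Q := (P : Subgroup G).subgroupOf N with hQ
    haveI : Q.Normal := Subgroup.normal_in_normalizer
    haveI : Fintype Q := Fintype.ofFinite _
    have hQp : IsPGroup p Q := (P.subtype hPN).isPGroup'
    have hQi : ¬ p ∣ Q.index := (P.subtype hPN).not_dvd_index
    set D := (commutator Q).map Q.subtype with hD
    haveI : D.Normal := ConjAct.normal_of_characteristic_of_normal
    have hcomm : ∀ a ∈ Q, ∀ b ∈ Q, ⁅a, b⁆ ∈ D := fun a ha b hb =>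
      ⟨⁅(⟨a, ha⟩ : Q), (⟨b, hb⟩ : Q)⁆, Subgroup.commutator_mem_commutator (Subgroup.mem_top _) (Subgroup.mem_top _), map_commutatorElement Q.subtype _ _⟩
    choose χ hχ using hext
    have hnorm : ∀ (θ : IrrCharacter N) (hθ : ¬ p ∣ charDegree (θ : N → ℂ)), (charKer (χ θ hθ).2.isCharacter).Normal :=
      fun θ hθ => charKer_normal _
    let K : Subgroup G := ⨅ θ : {θ : IrrCharacter N // ¬ p ∣ charDegree (θ : N → ℂ)}, charKer (χ θ.1 θ.2).2.isCharacter
    haveI hKn : K.Normal := Subgroup.normal_iInf_normal fun θ => hnorm θ.1 θ.2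
    have hone : ∀ θ hθ, (χ θ hθ : G → ℂ) 1 = (θ : N → ℂ) 1 := fun θ hθ => hχ θ hθ 1
    have hKN : ∀ x : N, (x : G) ∈ K → x ∈ D := by
      intro x hx
      by_contra hxD
      obtain ⟨θ, hθ, -, hne⟩ := exists_ne (p := p) Q D (Subgroup.map_subtype_le _) hQi hcomm hxD
      refine hne ?_
      rw [← hχ θ hθ x, ← hone θ hθ]
      exact (Subgroup.mem_iInf.1 hx ⟨θ, hθ⟩ : (x : G) ∈ charKer (χ θ hθ).2.isCharacter)
    have hDK : ∀ x : N, x ∈ D → (x : G) ∈ K := by
      rintro _ ⟨y, hy, rfl⟩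
      refine Subgroup.mem_iInf.2 fun θ => ?_
      show (χ θ.1 θ.2 : G → ℂ) _ = (χ θ.1 θ.2 : G → ℂ) 1
      rw [hχ θ.1 θ.2, hone θ.1 θ.2]
      exact kills_commutator Q hQp θ.1 θ.2 hy
    set L := Subgroup.normalClosure ((P : Subgroup G) : Set G) ⊔ K with hL
    haveI : (Subgroup.normalClosure ((P : Subgroup G) : Set G)).Normal := Subgroup.normalClosure_normal
    haveI hLn : L.Normal := Subgroup.sup_normal _ _
    have hPL : (P : Subgroup G) ≤ L := Subgroup.le_normalClosure.trans le_sup_left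
    have hLN : ∀ x : N, (x : G) ∈ L → x ∈ Q := by
      intro x hx
      by_contra hxQ
      obtain ⟨θ, hθ, hQθ, hne⟩ := exists_ne (p := p) Q Q le_rfl hQi (fun a ha b hb => by
        rw [commutatorElement_def]; exact mul_mem (mul_mem (mul_mem ha hb) (inv_mem ha)) (inv_mem hb)) hxQ
      refine hne ?_
      rw [← hχ θ hθ x, ← hone θ hθ]
      haveI := hnorm θ hθ
      have hle : L ≤ charKer (χ θ hθ).2.isCharacter := sup_le (Subgroup.normalClosure_le_normal fun y hy => by
        show (χ θ hθ : G → ℂ) y = (χ θ hθ : G → ℂ) 1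
        rw [hone θ hθ, hχ θ hθ ⟨y, hPN hy⟩]
        exact hQθ _ hy) (iInf_le (fun θ : {θ : IrrCharacter N // ¬ p ∣ charDegree (θ : N → ℂ)} => charKer (χ θ.1 θ.2).2.isCharacter) ⟨θ, hθ⟩)
      exact hle hx
    -- the quotient of L by K
    let PL : Sylow p L := P.subtype hPL
    let q := QuotientGroup.mk' (K.subgroupOf L)
    let Pb : Sylow p (L ⧸ K.subgroupOf L) := PL.mapSurjective (QuotientGroup.mk'_surjective _)
    have hPb : (Pb : Subgroup (L ⧸ K.subgroupOf L)) = (PL : Subgroup L).map q := Sylow.coe_mapSurjective (QuotientGroup.mk'_surjective _) PL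
    have hburn : Cfsg.HasNormalPComplement p (L ⧸ K.subgroupOf L) := by
      refine Cfsg.Lib.Transfer.hasNormalPComplement_of_normalizer_le_centralizer Pb fun y hy => ?_
      obtain ⟨g, rfl⟩ := QuotientGroup.mk'_surjective _ y
      have hT : g ∈ Subgroup.normalizer (((PL : Subgroup L) ⊔ K.subgroupOf L : Subgroup L) : Set L) := by
        rw [← QuotientGroup.ker_mk' (K.subgroupOf L), ← Subgroup.comap_map_eq, ← hPb]
        rw [Subgroup.mem_normalizer_iff] at hy ⊢
        intro z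
        rw [Subgroup.mem_comap, Subgroup.mem_comap, map_mul, map_mul, map_inv]
        exact hy (q z)
      set T := (PL : Subgroup L) ⊔ K.subgroupOf L
      have hgT : ((g • PL : Sylow p L) : Subgroup L) ≤ T := by
        intro z hz
        rw [Sylow.coe_subgroup_smul] at hz
        obtain ⟨w, hw, rfl⟩ := hz
        exact (Subgroup.mem_normalizer_iff.1 hT w).1 (Subgroup.mem_sup_left hw)
      obtain ⟨t, ht⟩ := MulAction.exists_smul_eq T (PL.subtype le_sup_left) ((g • PL).subtype hgT)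
      rw [Sylow.smul_subtype] at ht
      have ht' : (t : L) • PL = g • PL := Sylow.subtype_injective ht
      have h1 : ((t : L)⁻¹ * g) • PL = PL := by rw [mul_smul, ← ht', inv_smul_smul]
      have h2 : (t : L)⁻¹ * g ∈ Subgroup.normalizer ((PL : Subgroup L) : Set L) := Sylow.smul_eq_iff_mem_normalizer.1 h1
      have h3 : (t : L)⁻¹ * g ∈ (PL : Subgroup L) := by
        have hn : (((t : L)⁻¹ * g : L) : G) ∈ N := by
          rw [hN, Subgroup.mem_normalizer_iff]
          intro z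
          constructor
          · intro hz; exact (Subgroup.mem_normalizer_iff.1 h2 ⟨z, hPL hz⟩).1 hz
          · intro hz
            have hzL : z ∈ L := by
              have := hLn.conj_mem _ (hPL hz) (((t : L)⁻¹ * g : L) : G)⁻¹
              simpa [mul_assoc] using this
            exact (Subgroup.mem_normalizer_iff.1 h2 ⟨z, hzL⟩).2 hz
        exact hLN ⟨_, hn⟩ ((t : L)⁻¹ * g).2
      have hgmem : q g ∈ (Pb : Subgroup (L ⧸ K.subgroupOf L)) := by
        have hg' : g ∈ T := by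
          have := mul_mem t.2 (Subgroup.mem_sup_left h3 : (t : L)⁻¹ * g ∈ T)
          rwa [mul_inv_cancel_left] at this
        rw [hPb]
        have := Subgroup.mem_map_of_mem q hg'
        rwa [Subgroup.map_sup, show (K.subgroupOf L).map q = ⊥ from (Subgroup.map_eq_bot_iff _).2 (by rw [QuotientGroup.ker_mk']), sup_bot_eq] at this
      rw [Subgroup.mem_centralizer_iff]
      intro z hz
      replace hz : z ∈ (Pb : Subgroup (L ⧸ K.subgroupOf L)) := hz
      rw [hPb] at hz hgmem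
      obtain ⟨a, ha, rfl⟩ := hz
      obtain ⟨b, hb, hbe⟩ := hgmem
      rw [← hbe, ← commutatorElement_eq_one_iff_mul_comm, ← map_commutatorElement]
      refine (QuotientGroup.eq_one_iff _).2 ?_
      exact hDK _ (hcomm ⟨(a : G), hPN ha⟩ ha ⟨(b : G), hPN hb⟩ hb)
    obtain ⟨Q₁, W₁, hW₁n, hW₁⟩ := hburn
    obtain ⟨hW₁c, k, hW₁k⟩ := Cfsg.Lib.Transfer.coprime_card_of_isComplement' hW₁
    haveI := hW₁n
    set W₀ := W₁.comap q with hW₀
    have hW₀P : W₀ ⊓ (PL : Subgroup L) ≤ (frattini PL).map (PL : Subgroup L).subtype := by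
      rintro z ⟨hz0, hzP⟩
      have h1 : q z ∈ W₁ ⊓ (Pb : Subgroup (L ⧸ K.subgroupOf L)) := ⟨hz0, hPb ▸ Subgroup.mem_map_of_mem q hzP⟩
      have h2 : W₁ ⊓ (Pb : Subgroup (L ⧸ K.subgroupOf L)) = ⊥ := by
        refine Subgroup.inf_eq_bot_of_coprime ?_
        obtain ⟨j, hj⟩ := IsPGroup.iff_card.1 Pb.isPGroup'
        rw [hj]; exact hW₁c.pow_right j
      rw [h2, Subgroup.mem_bot] at h1
      have hzK : ((z : L) : G) ∈ K := (QuotientGroup.eq_one_iff z).1 h1
      obtain ⟨w, hw, hwe⟩ := hKN ⟨(z : G), hPN hzP⟩ hzK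
      let ι : Q →* (PL : Subgroup L) := MonoidHom.mk' (fun w => ⟨⟨((w : N) : G), hPL w.2⟩, w.2⟩) fun _ _ => rfl
      refine ⟨ι w, Cfsg.Lib.Transfer.commutator_le_frattini PL.isPGroup' ?_, Subtype.ext (congrArg Subtype.val hwe : _)⟩
      have h3 : (commutator Q).map ι ≤ commutator (PL : Subgroup L) := by
        rw [commutator_def, Subgroup.map_commutator, commutator_def]
        exact Subgroup.commutator_mono le_top le_top
      exact h3 (Subgroup.mem_map_of_mem ι hw)
    obtain ⟨Q₂, V, hVn, hV⟩ := Cfsg.Lib.Transfer.tate PL W₀ hW₀P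
    obtain ⟨hVc, j, hVj⟩ := Cfsg.Lib.Transfer.coprime_card_of_isComplement' hV
    set C := pPrimeCore p L with hC
    have hVC : (V.map W₀.subtype).index ∣ p ^ j * p ^ k := by
      rw [Subgroup.index_map_subtype, hVj, hW₀, Subgroup.index_comap_of_surjective _ (QuotientGroup.mk'_surjective _), hW₁k]
    haveI : (pPrimeCore p W₀).Characteristic := Cfsg.Lib.Solv.pPrimeCore_characteristic p
    haveI : ((pPrimeCore p W₀).map W₀.subtype).Normal := ConjAct.normal_of_characteristic_of_normal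
    have hle : V.map W₀.subtype ≤ C := (Subgroup.map_mono (Cfsg.Lib.Solv.le_pPrimeCore hVn hVc)).trans
      (Cfsg.Lib.Solv.le_pPrimeCore inferInstance (by
        rw [Subgroup.card_map_of_injective W₀.subtype_injective]
        exact Cfsg.Lib.Solv.coprime_pPrimeCore p))
    have hCP : C ⊔ (PL : Subgroup L) = ⊤ := by
      rw [← Subgroup.index_eq_one]
      exact Nat.eq_one_of_dvd_coprimes (Nat.Coprime.pow_left (j + k) ((Fact.out : p.Prime).coprime_iff_not_dvd.2 PL.not_dvd_index))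
        ((pow_add p j k).symm ▸ (Subgroup.index_dvd_of_le (hle.trans le_sup_left)).trans hVC)
        (Subgroup.index_dvd_of_le le_sup_right)
    refine ⟨C.map L.subtype, ConjAct.normal_of_characteristic_of_normal, ?_, ?_⟩
    · have h1 : L ≤ C.map L.subtype ⊔ N := fun x hx => by
        have h2 : x ∈ (C ⊔ (PL : Subgroup L)).map L.subtype := ⟨⟨x, hx⟩, hCP ▸ Subgroup.mem_top _, rfl⟩
        rw [Subgroup.map_sup] at h2
        exact (sup_le le_sup_left ((show (PL : Subgroup L).map L.subtype ≤ N from Subgroup.map_le_iff_le_comap.2 fun z hz => hPN hz).trans le_sup_right)) h2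
      have h3 := P.normalizer_sup_eq_top' hPL
      exact eq_top_iff.2 (h3.ge.trans (sup_le le_sup_right h1))
    · rw [eq_bot_iff]
      rintro x ⟨⟨z, hz, rfl⟩, hxN⟩
      have hzP : (z : G) ∈ (P : Subgroup G) := hLN ⟨_, hxN⟩ z.2
      have h2 : C ⊓ (PL : Subgroup L) = ⊥ := by
        refine Subgroup.inf_eq_bot_of_coprime ?_
        obtain ⟨i, hi⟩ := IsPGroup.iff_card.1 PL.isPGroup'
        rw [hi]; exact (Cfsg.Lib.Solv.coprime_pPrimeCore p).pow_right i
      have h4 : z ∈ C ⊓ (PL : Subgroup L) := ⟨hz, hzP⟩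
      rw [h2, Subgroup.mem_bot] at h4
      rw [Subgroup.mem_bot, h4]
      rfl
  · rintro ⟨K, hKn, hsup, hinf⟩ θ hθ
    haveI := hKn
    have hc : K.IsComplement' N := Subgroup.isComplement'_of_disjoint_and_mul_eq_univ (disjoint_iff.2 hinf) (by
      rw [← Subgroup.normal_mul, hsup, Subgroup.coe_top])
    let π : G →* N := hc.symm.QuotientMulEquiv.toMonoidHom.comp (QuotientGroup.mk' K)
    refine ⟨⟨fun g => (θ : N → ℂ) (π g), isIrrCharacter_comp_surjective θ.2 π (hc.symm.QuotientMulEquiv.surjective.comp (QuotientGroup.mk'_surjective K))⟩, fun x => ?_⟩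
    show (θ : N → ℂ) (π x) = _
    exact congrArg (θ : N → ℂ) (hc.symm.QuotientMulEquiv.apply_symm_apply x)

end Cfsg.Agent.S4931
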