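import Cfsg.Statements.S4930
import Cfsg.Agent.S4931
import Cfsg.Agent.Lib.Blocks.CoprimeDegree
import Cfsg.Agent.Lib.Blocks.CentralInvariant

set_option autoImplicit false
open Cfsg

namespace Cfsg.Agent.S4930

open Cfsg.Lib.Characters Cfsg.Lib.Blocks Cfsg.Lib.Blocks.GaloisConj
open scoped Classical ComplexConjugate commutatorElement

set_option maxHeartbeats 1600000

universe u

/-- The decomposition of a restriction, with the degree identity. -/
theorem res_mult {G : Type u} [Group G] [Fintype G] (H : Subgroup G) [Fintype H] (χ : IrrCharacter G) :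
    ∃ m : IrrCharacter H → ℕ, (∀ h : H, (χ : G → ℂ) h = ∑ φ, (m φ : ℂ) * (φ : H → ℂ) h) ∧
      (∀ φ : IrrCharacter H, classInner (fun h : H => (χ : G → ℂ) h) (φ : H → ℂ) = m φ) ∧
      charDegree (χ : G → ℂ) = ∑ φ, m φ * charDegree (φ : H → ℂ) := by
  obtain ⟨m, hm⟩ := exists_decomposition (isCharacter_restrict χ.2.isCharacter H)
  have hval : ∀ h : H, (χ : G → ℂ) h = ∑ φ, (m φ : ℂ) * (φ : H → ℂ) h := fun h => by
    have := congrFun hm h
    simpa [Finset.sum_apply] using this
  refine ⟨m, hval, fun φ => ?_, ?_⟩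
  · rw [show (fun h : H => (χ : G → ℂ) h) = ∑ φ, (m φ : ℂ) • (φ : H → ℂ) from hm, classInner_sum_irr]
  · have h1 := hval 1
    simp only [OneMemClass.coe_one, deg_spec (IsIrrCharacter.isCharacter (Subtype.prop _))] at h1
    exact_mod_cast h1

/-- A constituent of full degree is the whole restriction. -/
theorem res_eq_of_degree {G : Type u} [Group G] [Fintype G] (H : Subgroup G) [Fintype H] (χ : IrrCharacter G) {θ : IrrCharacter H}
    (hne : classInner (fun h : H => (χ : G → ℂ) h) (θ : H → ℂ) ≠ 0) (hle : charDegree (χ : G → ℂ) ≤ charDegree (θ : H → ℂ))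
    (h : H) : (χ : G → ℂ) h = (θ : H → ℂ) h := by
  obtain ⟨m, hm, hmc, hd⟩ := res_mult H χ
  rw [hmc, Nat.cast_ne_zero] at hne
  rw [hd, ← Finset.add_sum_erase _ _ (Finset.mem_univ θ)] at hle
  have h0 := charDegree_pos θ
  have h1 : m θ = 1 := by
    have := Nat.le_of_mul_le_mul_right (show m θ * charDegree (θ : H → ℂ) ≤ 1 * charDegree (θ : H → ℂ) by omega) h0
    omega
  rw [h1, one_mul] at hle
  have h2 : ∑ x ∈ Finset.univ.erase θ, m x * charDegree (x : H → ℂ) = 0 := by omega
  rw [hm, ← Finset.add_sum_erase _ _ (Finset.mem_univ θ), h1, Nat.cast_one, one_mul, Finset.sum_eq_zero, add_zero]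
  intro x hx
  rw [(Nat.mul_eq_zero.1 (Finset.sum_eq_zero_iff.1 h2 x hx)).resolve_right (charDegree_pos x).ne', Nat.cast_zero, zero_mul]

/-- An irreducible character with a fixed vector of a normal subgroup is trivial on it. -/
theorem trivial_of_fixed {N : Type u} [Group N] [Fintype N] (P : Subgroup N) [P.Normal] [Fintype P] (η : IrrCharacter N)
    (h : classInner (fun x : P => (η : N → ℂ) x) (fun _ : P => (1 : ℂ)) ≠ 0) (x : P) :
    (η : N → ℂ) x = (η : N → ℂ) 1 := by
  obtain ⟨m, hm, hmc, -⟩ := res_mult P η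
  have hsupp : ∀ φ, m φ ≠ 0 → ∀ y, (φ : P → ℂ) y = 1 := fun φ hφ y => by
    obtain ⟨g, hg⟩ := exists_cjIrr_of_constituents η (θ := ⟨fun _ => 1, isIrrCharacter_one⟩) (ψ := φ) h (by rw [hmc]; exact_mod_cast hφ)
    rw [hg, coe_cjIrr, conjFn_apply]
  rw [hm, ← OneMemClass.coe_one P, hm 1]
  refine Finset.sum_congr rfl fun φ _ => ?_
  rcases eq_or_ne (m φ) 0 with h0 | h0
  · rw [h0, Nat.cast_zero, zero_mul, zero_mul]
  · rw [hsupp φ h0, hsupp φ h0]

/-- The degrees of the characters trivial on a normal subgroup. -/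
theorem card_eq_sum_trivial {N : Type u} [Group N] [Fintype N] (D : Subgroup N) [D.Normal] :
    Nat.card N = Nat.card D * ∑ θ : IrrCharacter N, if (∀ d ∈ D, (θ : N → ℂ) d = (θ : N → ℂ) 1) then charDegree (θ : N → ℂ) ^ 2 else 0 := by
  haveI : Fintype D := Fintype.ofFinite _
  have key : ∀ θ : IrrCharacter N, conj ((θ : N → ℂ) 1) * ∑ d : D, (θ : N → ℂ) d =
      ((if (∀ d ∈ D, (θ : N → ℂ) d = (θ : N → ℂ) 1) then Nat.card D * charDegree (θ : N → ℂ) ^ 2 else 0 : ℕ) : ℂ) := fun θ => by
    split_ifs with h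
    · rw [Finset.sum_congr rfl fun (d : D) _ => h d d.2, Finset.sum_const, nsmul_eq_mul, Finset.card_univ,
        ← Nat.card_eq_fintype_card, deg_spec θ.2.isCharacter, map_natCast]
      push_cast; ring
    · rw [Nat.cast_zero, mul_eq_zero]
      right
      by_contra hne
      refine h fun d hd => trivial_of_fixed D θ ?_ ⟨d, hd⟩
      simp only [classInner, map_one, mul_one]
      exact mul_ne_zero (inv_ne_zero (Nat.cast_ne_zero.2 Nat.card_pos.ne')) hne
  have hsum : ∑ θ : IrrCharacter N, conj ((θ : N → ℂ) 1) * ∑ d : D, (θ : N → ℂ) d = (Nat.card N : ℂ) := by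
    simp only [Finset.mul_sum]
    rw [Finset.sum_comm, Finset.sum_eq_single (1 : D)]
    · simp only [OneMemClass.coe_one, mul_comm (conj _), column_orthogonality, if_pos (IsConj.refl (1 : N))]
      norm_cast
      exact Nat.card_congr ((Equiv.setCongr (by ext g; simp [Subgroup.mem_centralizer_iff])).trans (Equiv.Set.univ N))
    · intro d _ hd
      simp only [mul_comm (conj _), column_orthogonality]
      rw [if_neg]
      exact fun h => hd (Subtype.ext (isConj_one_left.1 h))
    · exact fun h => absurd (Finset.mem_univ _) h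
  simp only [key] at hsum
  have h2 : ∑ θ : IrrCharacter N, (if (∀ d ∈ D, (θ : N → ℂ) d = (θ : N → ℂ) 1) then Nat.card D * charDegree (θ : N → ℂ) ^ 2 else 0) = Nat.card N := by
    exact_mod_cast hsum
  rw [← h2, Finset.mul_sum]
  exact Finset.sum_congr rfl fun θ _ => by split_ifs <;> simp

/-- Let G be a finite group, P a Sylow 2-subgroup of G with normalizer N, and P′ the commutator subgroup of P. Then the sum of the squares of the degrees of the irreducible complex characters of G of odd degree is at least the index of P′ in N (the order of N divided by the order of P′), and equality holds if and only if N has a normal complement in G: a normal subgroup K of G with K ∩ N = 1 and KN = G. -/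
theorem result {G : Type*} [Group G] [Finite G] (P : Sylow 2 G) :
    Nat.card (Subgroup.normalizer ((P : Subgroup G) : Set G)) ≤ Nat.card (commutator ↥P) * (∑ᶠ χ : {χ : Cfsg.IrrCharacter G // ¬ 2 ∣ Cfsg.charDegree (χ : G → ℂ)}, Cfsg.charDegree (χ.1 : G → ℂ) ^ 2) ∧
    (Nat.card (Subgroup.normalizer ((P : Subgroup G) : Set G)) = Nat.card (commutator ↥P) * (∑ᶠ χ : {χ : Cfsg.IrrCharacter G // ¬ 2 ∣ Cfsg.charDegree (χ : G → ℂ)}, Cfsg.charDegree (χ.1 : G → ℂ) ^ 2) ↔
      ∃ K : Subgroup G, K.Normal ∧ K ⊓ Subgroup.normalizer ((P : Subgroup G) : Set G) = ⊥ ∧ K ⊔ Subgroup.normalizer ((P : Subgroup G) : Set G) = ⊤) := by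
  haveI : Fintype G := Fintype.ofFinite G
  set N := Subgroup.normalizer ((P : Subgroup G) : Set G) with hN
  haveI : Fintype N := Fintype.ofFinite _
  have hPN : (P : Subgroup G) ≤ N := Subgroup.le_normalizer
  set Q := (P : Subgroup G).subgroupOf N with hQ
  haveI : Q.Normal := Subgroup.normal_in_normalizer
  haveI : Fintype Q := Fintype.ofFinite _
  have hQp : IsPGroup 2 Q := (P.subtype hPN).isPGroup'
  have hQi : ¬ 2 ∣ Q.index := (P.subtype hPN).not_dvd_index
  set D := (commutator Q).map Q.subtype with hD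
  haveI : D.Normal := ConjAct.normal_of_characteristic_of_normal
  have hDcard : Nat.card D = Nat.card (commutator ↥P) := by
    let e : Q ≃* ↥(P : Subgroup G) := Subgroup.subgroupOfEquivOfLe hPN
    have he : (commutator Q).map e.toMonoidHom = commutator ↥(P : Subgroup G) := by
      rw [commutator_def, Subgroup.map_commutator, Subgroup.map_top_of_surjective _ e.surjective, commutator_def]
    rw [hD, Subgroup.card_map_of_injective Q.subtype_injective]
    exact (Subgroup.card_map_of_injective (f := e.toMonoidHom) e.injective).symm.trans (by rw [he]; rfl)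
  -- the characters of odd degree of the normaliser
  have hchar : ∀ θ : IrrCharacter N, (∀ d ∈ D, (θ : N → ℂ) d = (θ : N → ℂ) 1) ↔ ¬ 2 ∣ charDegree (θ : N → ℂ) := by
    intro θ
    constructor
    · intro h
      obtain ⟨F, hF⟩ := exists_descend_surjective (QuotientGroup.mk'_surjective D) θ.2 (fun k hk => h k (by rwa [QuotientGroup.ker_mk'] at hk))
      haveI : Fintype (N ⧸ D) := Fintype.ofFinite _
      haveI : (Q.map (QuotientGroup.mk' D)).Normal := (inferInstance : Q.Normal).map _ (QuotientGroup.mk'_surjective D)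
      haveI : IsMulCommutative (Q.map (QuotientGroup.mk' D)) := ⟨⟨by
        rintro ⟨_, a, ha, rfl⟩ ⟨_, b, hb, rfl⟩
        apply Subtype.ext
        show QuotientGroup.mk' D a * QuotientGroup.mk' D b = QuotientGroup.mk' D b * QuotientGroup.mk' D a
        rw [← commutatorElement_eq_one_iff_mul_comm, ← map_commutatorElement]
        exact (QuotientGroup.eq_one_iff _).2 ⟨⁅(⟨a, ha⟩ : Q), (⟨b, hb⟩ : Q)⁆, Subgroup.commutator_mem_commutator (Subgroup.mem_top _) (Subgroup.mem_top _), map_commutatorElement Q.subtype _ _⟩⟩⟩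
      intro hd
      have h1 := degree_dvd_index_of_abelian F.2 (Q.map (QuotientGroup.mk' D)) (deg_spec F.2.isCharacter)
      have e : charDegree (F : N ⧸ D → ℂ) = charDegree (θ : N → ℂ) := by
        simp only [charDegree]
        rw [← hF 1, map_one]
      exact hQi ((hd.trans (dvd_of_eq e.symm)).trans (h1.trans (Subgroup.index_map_dvd (H := Q) (QuotientGroup.mk'_surjective D))))
    · rintro h _ ⟨y, hy, rfl⟩
      exact Cfsg.Agent.S4931.kills_commutator Q hQp θ h hy
  have hT : Nat.card N = Nat.card (commutator ↥P) * ∑ θ ∈ Finset.univ.filter (fun θ : IrrCharacter N => ¬ 2 ∣ charDegree (θ : N → ℂ)), charDegree (θ : N → ℂ) ^ 2 := by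
    rw [card_eq_sum_trivial D, hDcard, Finset.sum_filter]
    exact congrArg _ (Finset.sum_congr rfl fun θ _ => if_congr (hchar θ) rfl rfl)
  set A := Finset.univ.filter (fun θ : IrrCharacter N => ¬ 2 ∣ charDegree (θ : N → ℂ)) with hA
  set B := Finset.univ.filter (fun χ : IrrCharacter G => ¬ 2 ∣ charDegree (χ : G → ℂ)) with hB
  have hfin : (∑ᶠ χ : {χ : IrrCharacter G // ¬ 2 ∣ charDegree (χ : G → ℂ)}, charDegree (χ.1 : G → ℂ) ^ 2) = ∑ χ ∈ B, charDegree (χ : G → ℂ) ^ 2 := by
    rw [finsum_eq_sum_of_fintype]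
    exact (Finset.sum_subtype B (fun χ => by simp [hB]) (fun χ : IrrCharacter G => charDegree (χ : G → ℂ) ^ 2)).symm
  rw [hfin, hT]
  choose m hm hmc hmd using fun χ : IrrCharacter G => res_mult N χ
  -- a character of odd degree above every character of odd degree
  have hover : ∀ θ ∈ A, ∃ χ ∈ B, m χ θ ≠ 0 := by
    intro θ hθ
    obtain ⟨c, hc⟩ := exists_decomposition (isCharacter_indFun N θ.2.isCharacter)
    by_contra! hno
    have h1 := congrFun hc 1
    rw [indFun_one_apply] at h1
    simp only [Finset.sum_apply, Pi.smul_apply, smul_eq_mul, deg_spec (IsIrrCharacter.isCharacter (Subtype.prop _))] at h1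
    have h2 : N.index * charDegree (θ : N → ℂ) = ∑ χ, c χ * charDegree (χ : G → ℂ) := by exact_mod_cast h1
    have h3 : 2 ∣ N.index * charDegree (θ : N → ℂ) := h2 ▸ Finset.dvd_sum fun χ _ => by
      by_cases hχ : 2 ∣ charDegree (χ : G → ℂ)
      · exact hχ.mul_left _
      have hc0 : c χ = 0 := by
        have h4 := classInner_indFun N (θ : N → ℂ) χ.2.isClassFunction
        rw [hc, classInner_sum_irr] at h4
        have h5 : classInner (θ : N → ℂ) (fun h : N => (χ : G → ℂ) h) = 0 := by
          rw [← conj_classInner, hmc, hno χ (Finset.mem_filter.2 ⟨Finset.mem_univ _, hχ⟩), Nat.cast_zero, map_zero]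
        exact_mod_cast h4.trans h5
      rw [hc0, zero_mul]
      exact dvd_zero 2
    rcases Nat.prime_two.dvd_mul.1 h3 with h6 | h6
    · exact P.not_dvd_index (h6.trans (Subgroup.index_dvd_of_le hPN))
    · exact (Finset.mem_filter.1 hθ).2 h6
  haveI : Nonempty (IrrCharacter G) := ⟨⟨fun _ => 1, isIrrCharacter_one⟩⟩
  choose! f hfB hfm using hover
  have hdeg : ∀ χ ∈ B, ∑ θ ∈ A.filter (fun θ => f θ = χ), charDegree (θ : N → ℂ) ≤ charDegree (χ : G → ℂ) := fun χ _ => by
    rw [hmd χ]
    refine le_trans (Finset.sum_le_sum fun θ hθ => ?_) (Finset.sum_le_sum_of_subset (Finset.subset_univ _))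
    obtain ⟨hθA, hfθ⟩ := Finset.mem_filter.1 hθ
    exact Nat.le_mul_of_pos_left _ (Nat.pos_of_ne_zero (hfθ ▸ hfm θ hθA))
  have hfib : ∀ χ ∈ B, ∑ θ ∈ A.filter (fun θ => f θ = χ), charDegree (θ : N → ℂ) ^ 2 ≤ charDegree (χ : G → ℂ) ^ 2 := fun χ hχ =>
    (Finset.sum_sq_le_sq_sum_of_nonneg fun θ _ => Nat.zero_le _).trans (Nat.pow_le_pow_left (hdeg χ hχ) 2)
  have hAsum : ∑ χ ∈ B, ∑ θ ∈ A.filter (fun θ => f θ = χ), charDegree (θ : N → ℂ) ^ 2 = ∑ θ ∈ A, charDegree (θ : N → ℂ) ^ 2 :=
    Finset.sum_fiberwise_of_maps_to (fun θ hθ => hfB θ hθ) _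
  refine ⟨Nat.mul_le_mul_left _ (hAsum ▸ Finset.sum_le_sum hfib), ?_, ?_⟩
  · intro heq
    have hsum := Nat.eq_of_mul_eq_mul_left Nat.card_pos heq
    rw [← hAsum] at hsum
    have hall := (Finset.sum_eq_sum_iff_of_le hfib).1 hsum
    obtain ⟨K, hK1, hK2, hK3⟩ := (Cfsg.Agent.S4931.result 2 P).1 fun θ hθ => by
      have hθA : θ ∈ A := Finset.mem_filter.2 ⟨Finset.mem_univ _, hθ⟩
      have h1 := hall (f θ) (hfB θ hθA)
      have hsingle : A.filter (fun x => f x = f θ) = {θ} := by
        refine Finset.eq_singleton_iff_unique_mem.2 ⟨Finset.mem_filter.2 ⟨hθA, rfl⟩, fun x hx => ?_⟩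
        by_contra hne
        have hθ' : θ ∈ (A.filter (fun x => f x = f θ)).erase x := Finset.mem_erase.2 ⟨fun e => hne e.symm, Finset.mem_filter.2 ⟨hθA, rfl⟩⟩
        have h2 := hdeg (f θ) (hfB θ hθA)
        rw [← Finset.add_sum_erase _ _ hx] at h1 h2
        have h3 : ∑ y ∈ (A.filter (fun x => f x = f θ)).erase x, charDegree (y : N → ℂ) ^ 2 ≤ (∑ y ∈ (A.filter (fun x => f x = f θ)).erase x, charDegree (y : N → ℂ)) ^ 2 :=
          Finset.sum_sq_le_sq_sum_of_nonneg fun θ _ => Nat.zero_le _
        have h4 := Finset.single_le_sum (f := fun y : IrrCharacter N => charDegree (y : N → ℂ)) (fun _ _ => Nat.zero_le _) hθ'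
        have h6 := charDegree_pos x
        have h7 := charDegree_pos θ
        have h8 := Nat.pow_le_pow_left h2 2
        nlinarith
      rw [hsingle, Finset.sum_singleton] at h1
      refine ⟨f θ, fun x => res_eq_of_degree N (f θ) ?_ (Nat.pow_left_injective two_ne_zero h1.symm).le x⟩
      rw [hmc]
      exact_mod_cast hfm θ hθA
    exact ⟨K, hK1, hK3, hK2⟩
  · rintro ⟨K, hKn, hinf, hsup⟩
    haveI := hKn
    haveI : Fintype K := Fintype.ofFinite _
    have hc : K.IsComplement' N := Subgroup.isComplement'_of_disjoint_and_mul_eq_univ (disjoint_iff.2 hinf) (by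
      rw [← Subgroup.normal_mul, hsup, Subgroup.coe_top])
    have hKodd : ¬ 2 ∣ Nat.card K := fun hd =>
      P.not_dvd_index ((hc.index_eq_card ▸ hd : 2 ∣ N.index).trans (Subgroup.index_dvd_of_le hPN))
    let π : G →* N := hc.symm.QuotientMulEquiv.toMonoidHom.comp (QuotientGroup.mk' K)
    have hπs : Function.Surjective π := hc.symm.QuotientMulEquiv.surjective.comp (QuotientGroup.mk'_surjective K)
    have hker : ∀ χ ∈ B, ∀ k ∈ K, (χ : G → ℂ) k = (χ : G → ℂ) 1 := by
      intro χ hχ
      set S := K ⊔ (P : Subgroup G) with hS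
      haveI : Fintype S := Fintype.ofFinite _
      obtain ⟨mS, hmS, hmSc, hmSd⟩ := res_mult S χ
      obtain ⟨ψ, hψ0, hψ⟩ : ∃ ψ, mS ψ ≠ 0 ∧ ¬ 2 ∣ charDegree (ψ : S → ℂ) := by
        by_contra! hno
        refine (Finset.mem_filter.1 hχ).2 (hmSd ▸ Finset.dvd_sum fun ψ _ => ?_)
        rcases eq_or_ne (mS ψ) 0 with h0 | h0
        · rw [h0, zero_mul]; exact dvd_zero 2
        · exact (hno ψ h0).mul_left _
      set KS := K.subgroupOf S
      set PS := (P : Subgroup G).subgroupOf S
      haveI : Fintype KS := Fintype.ofFinite _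
      have hKP : K ⊓ (P : Subgroup G) = ⊥ := le_bot_iff.1 (hinf ▸ inf_le_inf_left K hPN)
      have hcompl : KS.IsComplement' PS := by
        refine Subgroup.isComplement'_of_disjoint_and_mul_eq_univ ?_ ?_
        · rw [disjoint_iff, eq_bot_iff]
          intro x hx
          have : (x : G) ∈ K ⊓ (P : Subgroup G) := hx
          rw [hKP, Subgroup.mem_bot] at this
          exact Subgroup.mem_bot.2 (Subtype.ext this)
        · rw [← Subgroup.normal_mul, ← Subgroup.subgroupOf_sup le_sup_left le_sup_right, Subgroup.subgroupOf_self, Subgroup.coe_top]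
      obtain ⟨e, he⟩ := IsPGroup.iff_card.1 (P.subtype (le_sup_right : _ ≤ S)).isPGroup'
      have hcop : (Nat.card KS).Coprime (Nat.card PS) := by
        rw [show Nat.card PS = 2 ^ e from he]
        refine Nat.Coprime.pow_right e ((Nat.prime_two.coprime_iff_not_dvd.2 ?_).symm)
        rw [Nat.card_congr (Subgroup.subgroupOfEquivOfLe (le_sup_left : K ≤ S)).toEquiv]
        exact hKodd
      have hfix : Nat.card {θ : IrrCharacter KS // ∀ g : S, conjFn KS (θ : KS → ℂ) g = (θ : KS → ℂ)} = 1 := by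
        rw [card_inv_irr_complement KS PS hcompl hcop (by haveI : Group.IsNilpotent PS := ((P.subtype (le_sup_right : _ ≤ S)).isPGroup').isNilpotent; infer_instance)]
        have hsub : KS ⊓ Subgroup.centralizer (PS : Set S) = ⊥ := by
          rw [eq_bot_iff]
          intro x ⟨hx1, hx2⟩
          have hxN : (x : G) ∈ N := by
            refine Subgroup.centralizer_le_normalizer _ (Subgroup.mem_centralizer_iff.2 fun y hy => ?_)
            exact congrArg Subtype.val (Subgroup.mem_centralizer_iff.1 hx2 ⟨y, le_sup_right (a := K) hy⟩ hy)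
          have : (x : G) ∈ K ⊓ N := ⟨hx1, hxN⟩
          rw [hinf, Subgroup.mem_bot] at this
          exact Subgroup.mem_bot.2 (Subtype.ext this)
        rw [hsub]
        exact Nat.card_eq_one_iff_unique.2 ⟨⟨fun a b => by
          obtain ⟨a, rfl⟩ := ConjClasses.mk_surjective a
          obtain ⟨b, rfl⟩ := ConjClasses.mk_surjective b
          rw [Subsingleton.elim a b]⟩, ⟨ConjClasses.mk 1⟩⟩
      obtain ⟨θ, hθ, hne⟩ := classInner_res_ne_zero (N := KS) ψ.2
      obtain ⟨c, hcψ⟩ := exists_degree ψ.2.isCharacter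
      obtain ⟨d, hdθ⟩ := exists_degree hθ.isCharacter
      obtain ⟨hdc, hi⟩ := degree_dvd_of_normal hθ ψ.2 hne hcψ hdθ
      rw [charDegree_eq hcψ] at hψ
      have hcd : c = d := by
        rw [hcompl.symm.index_eq_card, show Nat.card PS = 2 ^ e from he] at hi
        have h1 : c / d = 1 := Nat.eq_one_of_dvd_coprimes (Nat.Coprime.pow_right e (Nat.prime_two.coprime_iff_not_dvd.2 hψ).symm) (Nat.div_dvd_of_dvd hdc) hi
        exact (Nat.eq_of_dvd_of_div_eq_one hdc h1).symm
      have hresθ := res_eq_of_degree KS ψ (θ := ⟨θ, hθ⟩) hne (by rw [charDegree_eq hcψ, charDegree_eq hdθ, hcd])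
      have hinv : ∀ g : S, conjFn KS θ g = θ := fun g => by
        rw [show θ = fun k : KS => (ψ : S → ℂ) k from funext fun k => (hresθ k).symm]
        exact res_conjFn ψ.2.isClassFunction g
      have htriv : θ = fun _ => (1 : ℂ) := by
        obtain ⟨hss, -⟩ := Nat.card_eq_one_iff_unique.1 hfix
        exact congrArg (fun z => ((z.1 : IrrCharacter KS) : KS → ℂ)) (hss.elim ⟨⟨θ, hθ⟩, hinv⟩
          ⟨⟨fun _ => 1, isIrrCharacter_one⟩, fun g => funext fun k => by rw [conjFn_apply]⟩)
      obtain ⟨mK, hmK, hmKc, -⟩ := res_mult K χ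
      intro k hk
      refine trivial_of_fixed K χ ?_ ⟨k, hk⟩
      let eK : KS ≃* K := Subgroup.subgroupOfEquivOfLe (le_sup_left : K ≤ S)
      choose kk hkk using fun φ : IrrCharacter S => classInner_nat (isCharacter_restrict φ.2.isCharacter KS) (isIrrCharacter_one (G := KS)).isCharacter
      have hval : classInner (fun x : K => (χ : G → ℂ) x) (fun _ : K => (1 : ℂ)) = ((∑ φ, mS φ * kk φ : ℕ) : ℂ) := by
        push_cast
        simp only [← hkk, classInner, map_one, mul_one, Finset.mul_sum]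
        rw [Finset.sum_comm]
        refine (Fintype.sum_equiv eK.toEquiv _ _ fun x => ?_).symm
        rw [← Nat.card_congr eK.toEquiv]
        show _ = _ * (χ : G → ℂ) ((x : S) : G)
        rw [hmS, Finset.mul_sum]
        exact Finset.sum_congr rfl fun φ _ => by ring
      rw [hval, Nat.cast_ne_zero]
      intro h0
      rcases Nat.mul_eq_zero.1 (Finset.sum_eq_zero_iff.1 h0 ψ (Finset.mem_univ _)) with h1 | h1
      · exact hψ0 h1
      · apply hne
        rw [htriv, ← Nat.cast_zero, ← h1]
        exact hkk ψ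
    have hinfl : ∀ θ : IrrCharacter N, IsIrrCharacter G (fun g => (θ : N → ℂ) (π g)) := fun θ => isIrrCharacter_comp_surjective θ.2 π hπs
    congr 1
    refine Finset.sum_bij (fun θ _ => ⟨_, hinfl θ⟩) (fun θ hθ => ?_) (fun a _ b _ hab => ?_) (fun χ hχ => ?_) (fun θ _ => ?_)
    · refine Finset.mem_filter.2 ⟨Finset.mem_univ _, ?_⟩
      simpa [charDegree] using (Finset.mem_filter.1 hθ).2
    · refine Subtype.ext (funext fun n => ?_)
      obtain ⟨g, rfl⟩ := hπs n
      exact congrFun (congrArg Subtype.val hab) g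
    · obtain ⟨F, hF⟩ := exists_descend_surjective hπs χ.2 fun k hk => hker χ hχ k (by
        rw [MonoidHom.mem_ker] at hk
        exact (QuotientGroup.eq_one_iff k).1 (hc.symm.QuotientMulEquiv.map_eq_one_iff.1 hk))
      refine ⟨F, Finset.mem_filter.2 ⟨Finset.mem_univ _, ?_⟩, Subtype.ext (funext hF)⟩
      have h1 := (Finset.mem_filter.1 hχ).2
      have e : charDegree (F : N → ℂ) = charDegree (χ : G → ℂ) := by
        simp only [charDegree]
        rw [← hF 1, map_one]
      rwa [e]
    · simp [charDegree]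

end Cfsg.Agent.S4930
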