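import Cfsg.Statements.S4937
import Cfsg.Agent.Lib.Blocks.PrincipalRestriction
import Cfsg.Agent.Lib.Blocks.Covering

set_option autoImplicit false
set_option maxHeartbeats 1000000
open Cfsg

namespace Cfsg.Agent.S4937

open Cfsg.Lib.Characters Cfsg.Lib.Blocks
open scoped ComplexConjugate Classical

universe u v w

section

variable {G : Type u} [Group G] [Fintype G] {N : Subgroup G} [Fintype N]

/-- A family of elements stable under conjugation by `N`. -/
def Stab (N : Subgroup G) {ι : Type v} (e : ι → G) : Prop :=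
  ∀ n : N, ∃ σ : Equiv.Perm ι, ∀ i, (n : G) * e i * (n : G)⁻¹ = e (σ i)

/-- The scalar of a stable family. -/
noncomputable def sca (θ : IrrCharacter N) (ψ : G → ℂ) {ι : Type v} [Fintype ι] (e : ι → G) : ℂ :=
  (∑ i, ψ (e i)) / (θ : N → ℂ) 1

theorem Stab.mul {ι : Type v} {κ : Type w} {e : ι → G} {f : κ → G} (he : Stab N e) (hf : Stab N f) :
    Stab N fun q : ι × κ => e q.1 * f q.2 := by
  intro n
  obtain ⟨σ, hσ⟩ := he n
  obtain ⟨τ, hτ⟩ := hf n
  refine ⟨σ.prodCongr τ, fun q => ?_⟩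
  show _ = e (σ q.1) * f (τ q.2)
  rw [← hσ, ← hτ]
  group

variable (θ : IrrCharacter N) {d : ℕ} (ρ : Representation ℂ G (Fin d → ℂ))

theorem scalar (hres : ∀ n : N, ρ.character n = (θ : N → ℂ) n) {ι : Type v} [Fintype ι] {e : ι → G}
    (he : Stab N e) : ∑ i, ρ (e i) = sca θ ρ.character e • LinearMap.id := by
  set ρN : Representation ℂ N (Fin d → ℂ) := ρ.comp N.subtype
  have hcomm : ∀ n : N, (∑ i, ρ (e i)) * ρN n = ρN n * ∑ i, ρ (e i) := by
    intro n
    obtain ⟨σ, hσ⟩ := he n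
    rw [Finset.sum_mul, Finset.mul_sum]
    refine (Fintype.sum_equiv σ _ _ fun i => ?_).symm
    show ρ (n : G) * ρ (e i) = ρ (e (σ i)) * ρ (n : G)
    rw [← map_mul, ← map_mul, ← hσ, inv_mul_cancel_right]
  haveI : Invertible (Nat.card N : ℂ) := invertibleOfNonzero (Nat.cast_ne_zero.mpr Nat.card_pos.ne')
  have hρN : ∀ n : N, ρN.character n = (θ : N → ℂ) n := hres
  have hfin : Module.finrank ℂ (Representation.IntertwiningMap ρN ρN) = 1 := by
    have h := Representation.card_inv_mul_sum_char_mul_char_eq_finrank ρN ρN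
    simp only [hρN, char_inv_eq_conj θ.2.isCharacter] at h
    have h2 := classInner_irr_self θ.2
    rw [classInner, h] at h2
    exact_mod_cast h2
  have hd : (θ : N → ℂ) 1 = (d : ℂ) := by
    rw [← hρN, Representation.char_one, Module.finrank_fin_fun]
  let T : Representation.IntertwiningMap ρN ρN := ⟨∑ i, ρ (e i), hcomm⟩
  let I : Representation.IntertwiningMap ρN ρN := ⟨LinearMap.id, fun n => rfl⟩
  have hI : I ≠ 0 := by
    intro h0
    have h1 : (LinearMap.id : (Fin d → ℂ) →ₗ[ℂ] (Fin d → ℂ)) = 0 := congrArg (fun f : Representation.IntertwiningMap ρN ρN => f.toLinearMap) h0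
    have h2 := congrArg (LinearMap.trace ℂ (Fin d → ℂ)) h1
    rw [LinearMap.trace_id, map_zero, Module.finrank_fin_fun, ← hd] at h2
    exact θ.2.one_ne_zero h2
  obtain ⟨t, ht⟩ := (finrank_eq_one_iff_of_nonzero' I hI).mp hfin T
  have ht' : ∑ i, ρ (e i) = t • LinearMap.id := (congrArg (fun f : Representation.IntertwiningMap ρN ρN => f.toLinearMap) ht).symm
  have htr := congrArg (LinearMap.trace ℂ (Fin d → ℂ)) ht'
  rw [map_sum, map_smul, LinearMap.trace_id, smul_eq_mul, Module.finrank_fin_fun, ← hd] at htr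
  rw [ht']
  congr 1
  rw [sca, eq_div_iff θ.2.one_ne_zero]
  exact htr.symm

theorem sca_mul (hres : ∀ n : N, ρ.character n = (θ : N → ℂ) n) {ι : Type v} {κ : Type w} [Fintype ι] [Fintype κ]
    {e : ι → G} {f : κ → G} (he : Stab N e) (hf : Stab N f) :
    sca θ ρ.character (fun q : ι × κ => e q.1 * f q.2) = sca θ ρ.character e * sca θ ρ.character f := by
  have hd : (θ : N → ℂ) 1 = (d : ℂ) := by
    rw [← hres]; show ρ.character 1 = _; rw [Representation.char_one, Module.finrank_fin_fun]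
  have h : (∑ q : ι × κ, ρ (e q.1 * f q.2)) = (∑ i, ρ (e i)) * ∑ k, ρ (f k) := by
    rw [Fintype.sum_prod_type, Finset.sum_mul_sum]
    exact Finset.sum_congr rfl fun i _ => Finset.sum_congr rfl fun k _ => map_mul ρ _ _
  rw [scalar θ ρ hres he, scalar θ ρ hres hf, scalar θ ρ hres (he.mul hf)] at h
  have htr := congrArg (LinearMap.trace ℂ (Fin d → ℂ)) h
  rw [← Module.End.one_eq_id, smul_mul_smul_comm, mul_one, map_smul, map_smul, LinearMap.trace_one,
    Module.finrank_fin_fun, smul_eq_mul, smul_eq_mul, ← hd] at htr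
  exact mul_right_cancel₀ θ.2.one_ne_zero htr

theorem sca_isIntegral (hres : ∀ n : N, ρ.character n = (θ : N → ℂ) n) {ι : Type v} [Fintype ι] {e : ι → G}
    (he : Stab N e) : IsIntegral ℤ (sca θ ρ.character e) := by
  have hd : (θ : N → ℂ) 1 = (d : ℂ) := by
    rw [← hres]; show ρ.character 1 = _; rw [Representation.char_one, Module.finrank_fin_fun]
  have h1 : IsIntegral ℤ (∑ i, MonoidAlgebra.of ℤ G (e i)) := IsIntegral.of_finite ℤ _
  have h2 := h1.map (MonoidAlgebra.lift ℤ (Module.End ℂ (Fin d → ℂ)) G ρ)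
  simp only [map_sum, MonoidAlgebra.lift_of] at h2
  rw [scalar θ ρ hres he, ← Module.End.one_eq_id, ← Algebra.algebraMap_eq_smul_one] at h2
  haveI : Nontrivial (Fin d → ℂ) := by
    have : d ≠ 0 := fun h0 => θ.2.one_ne_zero (by rw [hd, h0, Nat.cast_zero])
    haveI : Nonempty (Fin d) := ⟨⟨0, Nat.pos_of_ne_zero this⟩⟩
    infer_instance
  exact (isIntegral_algebraMap_iff (algebraMap ℂ (Module.End ℂ (Fin d → ℂ))).injective).mp h2

variable {p : ℕ} [Fact p.Prime] {M : Ideal Cfsg.AlgInt} [M.IsPrime]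

theorem red_sca_of_mem (hθ : θ ∈ principalBlock M N) {ψ : G → ℂ} (hres : ∀ n : N, ψ n = (θ : N → ℂ) n)
    {ι : Type v} [Fintype ι] {e : ι → G} (he : Stab N e) (hN : ∀ i, e i ∈ N) :
    red M (sca θ ψ e) = (Fintype.card ι : ResF M) := by
  set z : MonoidAlgebra ℂ N := gOfFun fun x =>
    ((Finset.univ.filter fun i => e i = (x : G)).card : ℂ) with hz
  have hcoeff : ∀ x : N, z.coeff x = ((Finset.univ.filter fun i => e i = (x : G)).card : ℂ) := fun x => by
    simp [hz]
  have hzloc : z ∈ locCenter N M := by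
    refine ⟨fun n x => ?_, fun x => by rw [hcoeff]; exact natCast_mem _ _⟩
    obtain ⟨σ, hσ⟩ := he n
    rw [hcoeff, hcoeff, Nat.cast_inj]
    refine (Finset.card_equiv σ fun i => ?_).symm
    simp only [Finset.mem_filter, Finset.mem_univ, true_and, Subgroup.coe_mul, Subgroup.coe_inv, ← hσ]
    constructor
    · intro h; rw [h]
    · intro h; exact mul_left_cancel (mul_right_cancel h)
  have hω : ∀ φ : IrrCharacter N, omega φ z = (∑ i, (φ : N → ℂ) ⟨e i, hN i⟩) / (φ : N → ℂ) 1 := by
    intro φ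
    rw [omega]
    congr 1
    rw [← Finset.sum_fiberwise Finset.univ (fun i => (⟨e i, hN i⟩ : N)) fun i => (φ : N → ℂ) ⟨e i, hN i⟩]
    refine Finset.sum_congr rfl fun x _ => ?_
    rw [Finset.sum_congr rfl (g := fun _ => (φ : N → ℂ) x) fun i hi => by rw [(Finset.mem_filter.mp hi).2],
      Finset.sum_const, nsmul_eq_mul, hcoeff]
    congr 2
    refine congrArg Finset.card (Finset.ext fun i => ?_)
    simp [Subtype.ext_iff]
  have h1 := lam_eq_of_sameBlock M (show SameBlock M (trivChar N : N → ℂ) (θ : N → ℂ) from hθ) (redG M z)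
  rw [lam_redG M _ hzloc, lam_redG M _ hzloc, hω, hω] at h1
  simp only [trivChar_apply, Finset.sum_const, Finset.card_univ, nsmul_eq_mul, mul_one, div_one,
    red_natCast] at h1
  rw [h1, sca]
  exact congrArg (red M) (congrArg (· / (θ : N → ℂ) 1) (Finset.sum_congr rfl fun i _ => hres ⟨e i, hN i⟩))

theorem triple {φ : IrrCharacter G} (hθ : θ ∈ principalBlock M N) (hφ : ∀ n : N, (φ : G → ℂ) n = (θ : N → ℂ) n)
    {α : Type*} {β : Type*} {γ : Type*} [Fintype α] [Fintype β] [Fintype γ] (f : α → G) (g : β → G) (h : γ → G)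
    (hf : Stab N f) (hg : Stab N g) (hh : Stab N h) (hN : ∀ a b c, f a * g b * h c ∈ N) :
    red M (sca θ (φ : G → ℂ) f) * red M (sca θ (φ : G → ℂ) g) * red M (sca θ (φ : G → ℂ) h)
      = (Fintype.card α : ResF M) * Fintype.card β * Fintype.card γ := by
  obtain ⟨d, ρ, hρ, hρφ⟩ := id φ.2
  rw [show (φ : G → ℂ) = ρ.character from hρφ.symm] at hφ ⊢
  have h1 := isIntegral_mem_locRing M (sca_isIntegral θ ρ hφ hf)
  have h2 := isIntegral_mem_locRing M (sca_isIntegral θ ρ hφ hg)
  have h3 := isIntegral_mem_locRing M (sca_isIntegral θ ρ hφ hh)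
  have h4 := isIntegral_mem_locRing M (sca_isIntegral θ ρ hφ (hf.mul hg))
  rw [← red_mul h1 h2, ← sca_mul θ ρ hφ hf hg, ← red_mul h4 h3, ← sca_mul θ ρ hφ (hf.mul hg) hh,
    red_sca_of_mem θ hθ hφ ((hf.mul hg).mul hh) fun q => hN q.1.1 q.1.2 q.2]
  simp [Fintype.card_prod]

end

/-- Let G be a finite group, p a prime, M a maximal ideal of the algebraic integers containing p, N a normal subgroup of G and P a Sylow p-subgroup of N such that G = N·C_G(P). Let θ be an irreducible character in the principal p-block of N that is the restriction of some irreducible character of G. Then θ is the restriction of an irreducible character χ of G lying in the principal p-block of G such that, for every subgroup J of G containing N, the restriction of χ to J is an irreducible character of J lying in the principal p-block of J. -/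
theorem result {G : Type*} [Group G] [Finite G] (p : ℕ) [Fact p.Prime] (M : Ideal Cfsg.AlgInt) (hM : Cfsg.IsPModular p M) (N : Subgroup G) [N.Normal] (P : Sylow p ↥N)
    (hcov : N ⊔ Subgroup.centralizer (((P : Subgroup ↥N).map N.subtype : Subgroup G) : Set G) = ⊤)
    (θ : Cfsg.IrrCharacter ↥N) (hθ : θ ∈ Cfsg.principalBlock M ↥N)
    (hext : ∃ ψ : Cfsg.IrrCharacter G, ∀ x : ↥N, (ψ : G → ℂ) x = (θ : ↥N → ℂ) x) :
    ∃ χ : Cfsg.IrrCharacter G, χ ∈ Cfsg.principalBlock M G ∧ (∀ x : ↥N, (χ : G → ℂ) x = (θ : ↥N → ℂ) x) ∧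
      ∀ J : Subgroup G, N ≤ J → ∃ ξ : Cfsg.IrrCharacter ↥J, ξ ∈ Cfsg.principalBlock M ↥J ∧ ∀ y : ↥J, (ξ : ↥J → ℂ) y = (χ : G → ℂ) y := by
  haveI : Fintype G := Fintype.ofFinite G
  haveI := hM.2.1.isPrime
  haveI : Fintype N := Fintype.ofFinite N
  haveI := charP_resF hM
  have hp : p.Prime := Fact.out
  obtain ⟨ψ, hψ⟩ := hext
  set PG := (P : Subgroup N).map N.subtype with hPG
  set C := Subgroup.centralizer (PG : Set G) with hC
  set I : ℕ := (P : Subgroup N).index
  haveI : Fintype (↥N ⧸ (P : Subgroup N)) := Fintype.ofFinite _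
  have hI : (I : ResF M) ≠ 0 := fun h => P.not_dvd_index ((natCast_resF_eq_zero hM _).mp h)
  have hIc : Fintype.card (↥N ⧸ (P : Subgroup N)) = I := by
    rw [← Nat.card_eq_fintype_card]; exact (Subgroup.index_eq_card _).symm
  let e : G → (↥N ⧸ (P : Subgroup N)) → G := fun c q => (q.out : G) * c * (q.out : G)⁻¹
  have he : ∀ c ∈ C, Stab N (e c) := by
    intro c hc n
    refine ⟨MulAction.toPerm n, fun q => ?_⟩
    show (n : G) * ((q.out : G) * c * (q.out : G)⁻¹) * (n : G)⁻¹
      = ((n • q).out : G) * c * ((n • q).out : G)⁻¹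
    have h1 : (((n • q).out : N) : ↥N ⧸ (P : Subgroup N)) = ((n * q.out : N) : ↥N ⧸ (P : Subgroup N)) := by
      rw [QuotientGroup.out_eq']
      conv_lhs => rw [← QuotientGroup.out_eq' q]
      rfl
    rw [QuotientGroup.eq] at h1
    have h2 := Subgroup.mem_centralizer_iff.mp hc _ (Subgroup.mem_map_of_mem N.subtype h1)
    simp only [Subgroup.coe_subtype, Subgroup.coe_mul, Subgroup.coe_inv] at h2
    have h3 : ((n : G) * (q.out : G)) = ((n • q).out : G) * ((((n • q).out : G))⁻¹ * ((n : G) * (q.out : G))) := by group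
    calc (n : G) * ((q.out : G) * c * (q.out : G)⁻¹) * (n : G)⁻¹
        = ((n • q).out : G) * (((((n • q).out : G))⁻¹ * ((n : G) * (q.out : G))) * c)
            * ((((n • q).out : G))⁻¹ * ((n : G) * (q.out : G)))⁻¹ * (((n • q).out : G))⁻¹ := by group
      _ = _ := by rw [h2]; group
  have hmk : ∀ (c : G) (q : ↥N ⧸ (P : Subgroup N)), ((e c q : G) : G ⧸ N) = (c : G ⧸ N) := by
    intro c q
    show (((q.out : G) * c * (q.out : G)⁻¹ : G) : G ⧸ N) = _
    rw [QuotientGroup.mk_mul, QuotientGroup.mk_mul, (QuotientGroup.eq_one_iff _).mpr q.out.2,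
      (QuotientGroup.eq_one_iff _).mpr (inv_mem q.out.2), one_mul, mul_one]
  -- scalars of the families
  have hsca : ∀ (φ : IrrCharacter G) (c : G), sca θ (φ : G → ℂ) (e c) = (I : ℂ) * (φ : G → ℂ) c / (θ : N → ℂ) 1 := by
    intro φ c
    rw [sca, Finset.sum_congr rfl (g := fun _ => (φ : G → ℂ) c) fun q _ => φ.2.isClassFunction c (q.out : G),
      Finset.sum_const, Finset.card_univ, hIc, nsmul_eq_mul]
  let κ : IrrCharacter G → G → ResF M := fun φ c => red M (sca θ (φ : G → ℂ) (e c)) * ((I : ResF M))⁻¹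
  have hκ3 : ∀ (φ : IrrCharacter G), (∀ n : N, (φ : G → ℂ) n = (θ : N → ℂ) n) → ∀ a ∈ C, ∀ b ∈ C, ∀ c ∈ C,
      a * b * c ∈ N → κ φ a * κ φ b * κ φ c = 1 := by
    intro φ hφ a ha b hb c hc habc
    have h := triple θ hθ hφ (e a) (e b) (e c) (he a ha) (he b hb) (he c hc) fun i j k => by
      rw [← QuotientGroup.eq_one_iff, QuotientGroup.mk_mul, QuotientGroup.mk_mul, hmk, hmk, hmk,
        ← QuotientGroup.mk_mul, ← QuotientGroup.mk_mul, QuotientGroup.eq_one_iff]
      exact habc
    rw [hIc] at h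
    show red M _ * _ * (red M _ * _) * (red M _ * _) = 1
    field_simp
    linear_combination h
  have hκ1 : ∀ φ : IrrCharacter G, (∀ n : N, (φ : G → ℂ) n = (θ : N → ℂ) n) → κ φ 1 = 1 := by
    intro φ hφ
    show red M _ * _ = 1
    have h1 : (φ : G → ℂ) 1 = (θ : N → ℂ) 1 := hφ 1
    rw [hsca, h1, mul_div_assoc, div_self θ.2.one_ne_zero, mul_one, red_natCast, mul_inv_cancel₀ hI]
  -- the linear character
  have hsup : ∀ g : G, ∃ c ∈ C, (c : G ⧸ N) = (g : G ⧸ N) := by
    intro g
    obtain ⟨n, hn, c, hc, rfl⟩ := Subgroup.mem_sup_of_normal_left.mp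
      (show g ∈ N ⊔ C from hcov ▸ Subgroup.mem_top g)
    exact ⟨c, hc, by rw [QuotientGroup.mk_mul, (QuotientGroup.eq_one_iff n).mpr hn, one_mul]⟩
  choose r hrC hr using hsup
  have hwd : ∀ φ : IrrCharacter G, (∀ n : N, (φ : G → ℂ) n = (θ : N → ℂ) n) → ∀ a ∈ C, ∀ b ∈ C,
      (a : G ⧸ N) = (b : G ⧸ N) → κ φ a = κ φ b := by
    intro φ hφ a ha b hb hab
    have h1 := hκ3 φ hφ a ha b⁻¹ (inv_mem hb) 1 (one_mem C) (by
      rw [mul_one, ← QuotientGroup.eq_one_iff, QuotientGroup.mk_mul, QuotientGroup.mk_inv, hab, mul_inv_cancel])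
    have h2 := hκ3 φ hφ b hb b⁻¹ (inv_mem hb) 1 (one_mem C) (by simp)
    rw [hκ1 φ hφ, mul_one] at h1 h2
    exact mul_right_cancel₀ (right_ne_zero_of_mul (by rw [h2]; exact one_ne_zero)) (h1.trans h2.symm)
  let F : G → ResF M := fun g => κ ψ (r g)
  have hFmul : ∀ a b : G, F (a * b) = F a * F b := by
    intro a b
    have h1 := hκ3 ψ hψ (r a) (hrC a) (r b) (hrC b) (r (a * b))⁻¹ (inv_mem (hrC _)) (by
      rw [← QuotientGroup.eq_one_iff, QuotientGroup.mk_mul, QuotientGroup.mk_mul, QuotientGroup.mk_inv,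
        hr, hr, hr, QuotientGroup.mk_mul, mul_inv_cancel])
    have h2 := hκ3 ψ hψ (r (a * b)) (hrC _) (r (a * b))⁻¹ (inv_mem (hrC _)) 1 (one_mem C) (by simp)
    rw [hκ1 ψ hψ, mul_one] at h2
    exact mul_right_cancel₀ (right_ne_zero_of_mul (by rw [h2]; exact one_ne_zero)) (h2.trans h1.symm)
  have hFN : ∀ g : G, g ∈ N → F g = 1 := by
    intro g hg
    show κ ψ (r g) = 1
    rw [← hκ1 ψ hψ]
    exact hwd ψ hψ _ (hrC g) 1 (one_mem C) (by
      rw [hr, (QuotientGroup.eq_one_iff g).mpr hg, QuotientGroup.mk_one])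
  set m := Nat.card G / p ^ (Nat.card G).factorization p with hm
  have hpm : ¬ p ∣ m := Nat.not_dvd_ordCompl hp Nat.card_pos.ne'
  have hm0 : 0 < m := Nat.pos_of_ne_zero fun h => hpm (h ▸ dvd_zero p)
  have hFm : ∀ g, F g ^ m = 1 := by
    intro g
    have h1 : ∀ k : ℕ, F (g ^ k) = F g ^ k := by
      intro k
      induction k with
      | zero => simpa using hFN 1 N.one_mem
      | succ k ih => rw [pow_succ, hFmul, ih, pow_succ]
    have h2 : (F g ^ m) ^ p ^ (Nat.card G).factorization p = 1 := by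
      rw [← pow_mul, ← h1, mul_comm, hm, Nat.ordProj_mul_ordCompl_eq_self, pow_card_eq_one', hFN 1 N.one_mem]
    have h3 : (F g ^ m - 1) ^ p ^ (Nat.card G).factorization p = 0 := by
      rw [sub_pow_char_pow, h2, one_pow, sub_self]
    exact sub_eq_zero.mp (eq_zero_of_pow_eq_zero h3)
  have hlift : ∀ x : ResF M, x ^ m = 1 → ∃ ε : ℂ, ε ^ m = 1 ∧ red M ε = x := by
    intro x hx
    have hsub : (Polynomial.nthRootsFinset m (1 : ℂ)).image (red M) ⊆ Polynomial.nthRootsFinset m (1 : ResF M) := by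
      intro y hy
      obtain ⟨ε, hε, rfl⟩ := Finset.mem_image.mp hy
      rw [Polynomial.mem_nthRootsFinset hm0] at hε ⊢
      rw [← red_pow (root_mem_locRing hm0 hε), hε, red_one]
    have hcard : (Polynomial.nthRootsFinset m (1 : ResF M)).card
        ≤ ((Polynomial.nthRootsFinset m (1 : ℂ)).image (red M)).card := by
      rw [Finset.card_image_of_injOn fun a ha b hb h => red_root_inj hM hpm
        ((Polynomial.mem_nthRootsFinset hm0 1).mp ha) ((Polynomial.mem_nthRootsFinset hm0 1).mp hb) h,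
        (Complex.isPrimitiveRoot_exp m hm0.ne').card_nthRootsFinset, Polynomial.nthRootsFinset_def]
      exact (Multiset.toFinset_card_le _).trans (Polynomial.card_nthRoots _ _)
    have := (Finset.eq_of_subset_of_card_le hsub hcard).symm ▸ (Polynomial.mem_nthRootsFinset hm0 1).mpr hx
    obtain ⟨ε, hε, he'⟩ := Finset.mem_image.mp this
    exact ⟨ε, (Polynomial.mem_nthRootsFinset hm0 1).mp hε, he'⟩
  choose ε hεm hεred using fun g => hlift (F g) (hFm g)
  have hεl : ∀ g, ε g ∈ locRing M := fun g => root_mem_locRing hm0 (hεm g)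
  have hεmul : ∀ a b, ε (a * b) = ε a * ε b := fun a b =>
    red_root_inj hM hpm (hεm _) (by rw [mul_pow, hεm, hεm, one_mul])
      (by rw [red_mul (hεl a) (hεl b), hεred, hεred, hεred, hFmul])
  have hεN : ∀ g ∈ N, ε g = 1 := fun g hg =>
    red_root_inj hM hpm (hεm g) (one_pow _) (by rw [hεred, hFN g hg, red_one])
  have hε0 : ∀ g, ε g ≠ 0 := fun g h => by
    have := hεm g; rw [h, zero_pow hm0.ne'] at this; exact zero_ne_one this
  let lam : G →* ℂˣ := MonoidHom.mk' (fun g => Units.mk0 (ε g⁻¹) (hε0 _)) fun a b => Units.ext (by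
    show ε (a * b)⁻¹ = ε a⁻¹ * ε b⁻¹
    rw [mul_inv_rev, hεmul, mul_comm])
  set χ : IrrCharacter G := ⟨_, isIrrCharacter_linear_mul lam ψ.2⟩ with hχdef
  have hχval : ∀ g, (χ : G → ℂ) g = ε g⁻¹ * (ψ : G → ℂ) g := fun g => rfl
  have hχN : ∀ n : N, (χ : G → ℂ) n = (θ : N → ℂ) n := fun n => by
    rw [hχval, hεN _ (inv_mem n.2), one_mul, hψ]
  obtain ⟨d, ρ, hρ, hρψ⟩ := id ψ.2
  have hχκ : ∀ c ∈ C, red M (sca θ (χ : G → ℂ) (e c)) = (I : ResF M) := by
    intro c hc
    have hl : sca θ (ψ : G → ℂ) (e c) ∈ locRing M := by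
      rw [show (ψ : G → ℂ) = ρ.character from hρψ.symm]
      exact isIntegral_mem_locRing M (sca_isIntegral θ ρ (fun n => (congrFun hρψ n).trans (hψ n)) (he c hc))
    rw [show sca θ (χ : G → ℂ) (e c) = ε c⁻¹ * sca θ (ψ : G → ℂ) (e c) by rw [hsca, hsca, hχval]; ring,
      red_mul (hεl _) hl, hεred]
    have h2 : F c⁻¹ * F c = 1 := by rw [← hFmul, inv_mul_cancel, hFN 1 N.one_mem]
    have h3 : F c = red M (sca θ (ψ : G → ℂ) (e c)) * ((I : ResF M))⁻¹ :=
      hwd ψ hψ _ (hrC c) c hc (hr c)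
    rw [h3, ← mul_assoc] at h2
    exact (mul_inv_eq_one₀ hI).mp h2
  have key : ∀ J : Subgroup G, N ≤ J → ∃ ξ : IrrCharacter J, ξ ∈ principalBlock M J ∧
      ∀ y : J, (ξ : J → ℂ) y = (χ : G → ℂ) y := by
    intro J hNJ
    haveI : Fintype J := Fintype.ofFinite J
    have hξ : IsIrrCharacter J fun y : J => (χ : G → ℂ) y := by
      obtain ⟨k, hk⟩ := exists_decomposition (isCharacter_comp χ.2.isCharacter J.subtype)
      have hsum : (fun n : N => (θ : N → ℂ) n)
          = ∑ ξ : IrrCharacter J, (k ξ : ℂ) • fun n : N => (ξ : J → ℂ) (Subgroup.inclusion hNJ n) := by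
        funext n
        have h := congrFun hk (Subgroup.inclusion hNJ n)
        rw [← hχN]
        simpa using h
      have hex : ∀ ξ : IrrCharacter J, ∃ w : ℕ,
          classInner (fun n : N => (ξ : J → ℂ) (Subgroup.inclusion hNJ n)) (θ : N → ℂ) = (w : ℂ) := fun ξ =>
        classInner_nat (isCharacter_comp ξ.2.isCharacter (Subgroup.inclusion hNJ)) θ.2.isCharacter
      choose w hw using hex
      have h1 : (1 : ℕ) = ∑ ξ : IrrCharacter J, k ξ * w ξ := by
        have h := classInner_irr_self θ.2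
        conv at h => lhs; arg 1; rw [show (θ : N → ℂ) = fun n : N => (θ : N → ℂ) n from rfl, hsum]
        rw [classInner_sum_left] at h
        simp only [classInner_smul_left, hw, ← Nat.cast_mul, ← Nat.cast_sum] at h
        exact_mod_cast h.symm
      obtain ⟨ξ, -, hξ⟩ := Finset.exists_ne_zero_of_sum_ne_zero (h1 ▸ one_ne_zero)
      have hdeg : ∑ η : IrrCharacter J, k η * charDegree (η : J → ℂ) = charDegree (θ : N → ℂ) := by
        rw [← Nat.cast_inj (R := ℂ), Nat.cast_sum, coe_charDegree]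
        have h := congrFun hsum 1
        simp only [Finset.sum_apply, Pi.smul_apply, smul_eq_mul, map_one] at h
        rw [h]
        exact Finset.sum_congr rfl fun η _ => by rw [Nat.cast_mul, coe_charDegree]
      have hge : charDegree (θ : N → ℂ) ≤ charDegree (ξ : J → ℂ) := by
        obtain ⟨l, hl⟩ := exists_decomposition (isCharacter_comp ξ.2.isCharacter (Subgroup.inclusion hNJ))
        have hlθ : l θ = w ξ := by
          rw [← Nat.cast_inj (R := ℂ), ← hw ξ, show (fun n : N => (ξ : J → ℂ) (Subgroup.inclusion hNJ n))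
            = ∑ φ : IrrCharacter N, (l φ : ℂ) • (φ : N → ℂ) from hl]
          exact (classInner_sum_irr (fun φ => (l φ : ℂ)) θ).symm
        have hd : charDegree (ξ : J → ℂ) = ∑ φ : IrrCharacter N, l φ * charDegree (φ : N → ℂ) := by
          rw [← Nat.cast_inj (R := ℂ), Nat.cast_sum, coe_charDegree]
          have h := congrFun hl 1
          simp only [Finset.sum_apply, Pi.smul_apply, smul_eq_mul, map_one] at h
          rw [h]
          exact Finset.sum_congr rfl fun φ _ => by rw [Nat.cast_mul, coe_charDegree]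
        rw [hd]
        refine le_trans ?_ (Finset.single_le_sum (fun φ _ => Nat.zero_le _) (Finset.mem_univ θ))
        exact Nat.le_mul_of_pos_left _ (Nat.pos_of_ne_zero (hlθ ▸ right_ne_zero_of_mul hξ))
      have hsplit := Finset.add_sum_erase Finset.univ (fun η => k η * charDegree (η : J → ℂ)) (Finset.mem_univ ξ)
      simp only [hdeg] at hsplit
      have hk1 : k ξ = 1 := by
        by_contra h
        have h2 : 2 ≤ k ξ := by have := left_ne_zero_of_mul hξ; omega
        have := Nat.mul_le_mul_right (charDegree (ξ : J → ℂ)) h2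
        have := charDegree_pos ξ
        omega
      have hrest : ∀ η, η ≠ ξ → k η = 0 := fun η hne => by
        rw [hk1, one_mul] at hsplit
        have h0 : ∑ x ∈ Finset.univ.erase ξ, k x * charDegree (x : J → ℂ) = 0 := by omega
        exact (Nat.mul_eq_zero.mp (Finset.sum_eq_zero_iff.mp h0 η (by simp [hne]))).resolve_right (charDegree_pos η).ne'
      rw [show (fun y : J => (χ : G → ℂ) y) = (ξ : J → ℂ) by
        funext y
        have h := congrFun hk y
        rw [Finset.sum_apply, Finset.sum_eq_single ξ (fun η _ hne => by simp [hrest η hne]) (by simp)] at h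
        simpa [hk1] using h]
      exact ξ.2
    refine ⟨⟨_, hξ⟩, ?_, fun y => rfl⟩
    show SameBlock M (trivChar J : J → ℂ) (fun y : J => (χ : G → ℂ) y)
    refine (sameBlock_iff M (trivChar J) ⟨_, hξ⟩).mpr fun j => ?_
    rw [← omega_classSum, ← omega_classSum, omega_classSum, omega_classSum]
    set S := Finset.univ.filter fun x : J => IsConj j x
    have hS : (Subgroup.centralizer ({j} : Set J)).index = S.card := by
      rw [← card_filter_isConj]
      refine congrArg Finset.card (Finset.ext fun x => ?_)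
      simp [S]
    let π : J → Finset G := fun x => Finset.univ.filter fun y => ∃ n : N, (n : G) * (x : G) * (n : G)⁻¹ = y
    have hblock : ∀ x : J, red M (sca θ (χ : G → ℂ) (fun y : ↥(π x) => (y : G))) = ((π x).card : ResF M) := by
      intro x
      have hst : Stab N (fun y : ↥(π x) => (y : G)) := by
        intro n
        have hmem : ∀ (a : N) (y : G), y ∈ π x → (a : G) * y * (a : G)⁻¹ ∈ π x := by
          intro a y hy
          obtain ⟨b, hb⟩ := (Finset.mem_filter.mp hy).2
          refine Finset.mem_filter.mpr ⟨Finset.mem_univ _, a * b, ?_⟩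
          rw [← hb, Subgroup.coe_mul]
          group
        refine ⟨⟨fun y => ⟨_, hmem n y y.2⟩, fun y => ⟨_, hmem n⁻¹ y y.2⟩, fun y => Subtype.ext ?_,
          fun y => Subtype.ext ?_⟩, fun y => rfl⟩
        · show (n⁻¹ : N).1 * ((n : G) * y * (n : G)⁻¹) * ((n⁻¹ : N).1)⁻¹ = y
          simp [mul_assoc]
        · show (n : G) * ((n⁻¹ : N).1 * y * ((n⁻¹ : N).1)⁻¹) * (n : G)⁻¹ = y
          simp [mul_assoc]
      obtain ⟨c, hc, hcx⟩ := (show ∃ c ∈ C, (c : G ⧸ N) = ((x : G) : G ⧸ N) from ⟨r x, hrC x, hr x⟩)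
      have h := triple θ hθ hχN (fun y : ↥(π x) => (y : G)) (e c⁻¹) (e 1) hst (he _ (inv_mem hc)) (he 1 (one_mem C))
        fun y i k => by
          obtain ⟨b, hb⟩ := (Finset.mem_filter.mp y.2).2
          rw [← QuotientGroup.eq_one_iff, QuotientGroup.mk_mul, QuotientGroup.mk_mul, hmk, hmk, ← hb,
            QuotientGroup.mk_mul, QuotientGroup.mk_mul, (QuotientGroup.eq_one_iff _).mpr b.2,
            (QuotientGroup.eq_one_iff _).mpr (inv_mem b.2), QuotientGroup.mk_inv, hcx, QuotientGroup.mk_one]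
          simp
      rw [hχκ _ (inv_mem hc), hχκ _ (one_mem C), hIc, Fintype.card_coe] at h
      exact mul_right_cancel₀ hI (mul_right_cancel₀ hI h)
    have hloc : ∀ x : J, sca θ (χ : G → ℂ) (fun y : ↥(π x) => (y : G)) ∈ locRing M := by
      intro x
      obtain ⟨d', ρ', -, hρ'⟩ := id χ.2
      rw [show (χ : G → ℂ) = ρ'.character from hρ'.symm]
      refine isIntegral_mem_locRing M (sca_isIntegral θ ρ' (fun n => (congrFun hρ' n).trans (hχN n)) ?_)
      intro n
      have hmem : ∀ (a : N) (y : G), y ∈ π x → (a : G) * y * (a : G)⁻¹ ∈ π x := by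
        intro a y hy
        obtain ⟨b, hb⟩ := (Finset.mem_filter.mp hy).2
        refine Finset.mem_filter.mpr ⟨Finset.mem_univ _, a * b, ?_⟩
        rw [← hb, Subgroup.coe_mul]
        group
      refine ⟨⟨fun y => ⟨_, hmem n y y.2⟩, fun y => ⟨_, hmem n⁻¹ y y.2⟩, fun y => Subtype.ext ?_,
        fun y => Subtype.ext ?_⟩, fun y => rfl⟩
      · show (n⁻¹ : N).1 * ((n : G) * y * (n : G)⁻¹) * ((n⁻¹ : N).1)⁻¹ = y
        simp [mul_assoc]
      · show (n : G) * ((n⁻¹ : N).1 * y * ((n⁻¹ : N).1)⁻¹) * (n : G)⁻¹ = y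
        simp [mul_assoc]
    -- split the class into classes of `N`
    have hfib : ∀ x ∈ S, (S.filter fun x' => π x' = π x).map (Function.Embedding.subtype (· ∈ J)) = π x := by
      intro x hx
      ext y
      simp only [Finset.mem_map, Finset.mem_filter, Function.Embedding.coe_subtype]
      constructor
      · rintro ⟨x', ⟨-, hx'⟩, rfl⟩
        rw [← hx']
        exact Finset.mem_filter.mpr ⟨Finset.mem_univ _, 1, by simp⟩
      · intro hy
        obtain ⟨b, hb⟩ := (Finset.mem_filter.mp hy).2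
        refine ⟨⟨y, hb ▸ J.mul_mem (J.mul_mem (hNJ b.2) x.2) (J.inv_mem (hNJ b.2))⟩, ⟨?_, ?_⟩, rfl⟩
        · refine Finset.mem_filter.mpr ⟨Finset.mem_univ _, ((Finset.mem_filter.mp hx).2).trans ?_⟩
          exact isConj_iff.mpr ⟨⟨b, hNJ b.2⟩, Subtype.ext hb⟩
        · ext z
          simp only [π, Finset.mem_filter, Finset.mem_univ, true_and]
          constructor
          · rintro ⟨a, ha⟩
            exact ⟨a * b, by rw [← ha, ← hb, Subgroup.coe_mul]; group⟩
          · rintro ⟨a, ha⟩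
            exact ⟨a * b⁻¹, by rw [← ha, ← hb, Subgroup.coe_mul, Subgroup.coe_inv]; group⟩
    have hω : centralChar (fun y : J => (χ : G → ℂ) y) j
        = ∑ O ∈ S.image π, (∑ y ∈ O, (χ : G → ℂ) y) / (θ : N → ℂ) 1 := by
      rw [centralChar, hS, ← Finset.sum_div, show (χ : G → ℂ) ((1 : J) : G) = (θ : N → ℂ) 1 from hχN 1]
      congr 1
      rw [show ((S.card : ℕ) : ℂ) * (χ : G → ℂ) (j : G) = ∑ x ∈ S, (χ : G → ℂ) x by
        rw [Finset.sum_congr rfl (g := fun _ => (χ : G → ℂ) (j : G)) fun x hx => by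
          obtain ⟨a, ha⟩ := isConj_iff.mp (Finset.mem_filter.mp hx).2
          rw [← ha]
          exact χ.2.isClassFunction (j : G) (a : G)]
        rw [Finset.sum_const, nsmul_eq_mul],
        ← Finset.sum_fiberwise_of_maps_to (g := π) fun x hx => Finset.mem_image_of_mem π hx]
      refine Finset.sum_congr rfl fun O hO => ?_
      obtain ⟨x, hx, rfl⟩ := Finset.mem_image.mp hO
      conv_rhs => rw [← hfib x hx, Finset.sum_map]
      rfl
    have hcardS : S.card = ∑ O ∈ S.image π, O.card := by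
      rw [Finset.card_eq_sum_card_image π S]
      refine Finset.sum_congr rfl fun O hO => ?_
      obtain ⟨x, hx, rfl⟩ := Finset.mem_image.mp hO
      conv_rhs => rw [← hfib x hx, Finset.card_map]
    have hterm : ∀ x : J, (∑ y ∈ π x, (χ : G → ℂ) y) / (θ : N → ℂ) 1
        = sca θ (χ : G → ℂ) (fun y : ↥(π x) => (y : G)) := fun x => by
      rw [sca, ← Finset.sum_coe_sort]
    rw [hω, red_sum _ fun O hO => by
      obtain ⟨x, -, rfl⟩ := Finset.mem_image.mp hO
      rw [hterm]; exact hloc x]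
    rw [centralChar, trivChar_apply, trivChar_apply, mul_one, div_one, hS, red_natCast, hcardS, Nat.cast_sum]
    refine Finset.sum_congr rfl fun O hO => ?_
    obtain ⟨x, -, rfl⟩ := Finset.mem_image.mp hO
    rw [hterm, hblock]
  refine ⟨χ, ?_, hχN, key⟩
  obtain ⟨ξ, hξ, hξv⟩ := key ⊤ le_top
  let f : G ≃* (⊤ : Subgroup G) := Subgroup.topEquiv.symm
  have h1 := (sameBlock_pull (M := M) f (trivChar (⊤ : Subgroup G) : (⊤ : Subgroup G) → ℂ) (ξ : (⊤ : Subgroup G) → ℂ)).mpr hξ
  show SameBlock M (trivChar G : G → ℂ) (χ : G → ℂ)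
  rw [show (fun a => (ξ : (⊤ : Subgroup G) → ℂ) (f a)) = (χ : G → ℂ) from funext fun a => hξv (f a)] at h1
  exact h1

end Cfsg.Agent.S4937
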