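import Cfsg.Statements.S4969
import Mathlib
import Cfsg.Agent.Lib.Characters.Integrality

set_option autoImplicit false
open Cfsg

namespace Cfsg.Agent.S4969

/-- Let G be a finite group with k conjugacy classes, g ∈ G, and N > 0. Then the sum over the irreducible complex characters χ of G with χ(1) ≥ N of |χ(g)|/χ(1) is at most √(k · #C_G(g)) / N. -/
theorem result {G : Type*} [Group G] [Finite G] (g : G) (N : ℝ) (hN : 0 < N) :
    ∑ᶠ χ : Cfsg.IrrCharacter G, (if N ≤ ‖(χ : G → ℂ) 1‖ then ‖(χ : G → ℂ) g‖ / ‖(χ : G → ℂ) 1‖ else 0) ≤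
      Real.sqrt ((Nat.card (ConjClasses G) : ℝ) * (Nat.card ↥(Subgroup.centralizer ({g} : Set G)) : ℝ)) / N := by
  classical
  haveI := Fintype.ofFinite G
  rw [finsum_eq_sum_of_fintype, le_div_iff₀ hN, Finset.sum_mul]
  calc ∑ χ : Cfsg.IrrCharacter G,
        (if N ≤ ‖(χ : G → ℂ) 1‖ then ‖(χ : G → ℂ) g‖ / ‖(χ : G → ℂ) 1‖ else 0) * N
      ≤ ∑ χ : Cfsg.IrrCharacter G, ‖(χ : G → ℂ) g‖ := by
        refine Finset.sum_le_sum fun χ _ => ?_
        split_ifs with h
        · rw [div_mul_eq_mul_div, div_le_iff₀ (lt_of_lt_of_le hN h)]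
          exact mul_le_mul_of_nonneg_left h (norm_nonneg _)
        · rw [zero_mul]; exact norm_nonneg _
    _ ≤ _ := by
        refine Real.le_sqrt_of_sq_le ?_
        refine (sq_sum_le_card_mul_sum_sq (s := Finset.univ)
          (f := fun χ : Cfsg.IrrCharacter G => ‖(χ : G → ℂ) g‖)).trans (le_of_eq ?_)
        rw [Finset.card_univ, ← Nat.card_eq_fintype_card,
          Cfsg.Lib.Characters.card_irr_eq_card_conjClasses]
        congr 1
        have h := Cfsg.Lib.Characters.column_orthogonality g g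
        rw [if_pos (IsConj.refl g)] at h
        have h2 : ((∑ χ : Cfsg.IrrCharacter G, ‖(χ : G → ℂ) g‖ ^ 2 : ℝ) : ℂ) =
            ((Nat.card (Subgroup.centralizer ({g} : Set G)) : ℝ) : ℂ) := by
          push_cast
          rw [← h]
          exact Finset.sum_congr rfl fun χ _ => (Complex.mul_conj' _).symm
        exact_mod_cast h2

end Cfsg.Agent.S4969
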