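import Cfsg.Statements.S4989
import Mathlib
import Cfsg.Agent.Lib.Blocks.ZeroCount

set_option autoImplicit false
open Cfsg

namespace Cfsg.Agent.S4989

/-- Let H be a subgroup of the finite group G and χ an irreducible complex character of G. Then the inner product of the restriction of χ to H with itself, (1/#H)·Σ_{h ∈ H} |χ(h)|², is at most 1 + #(Z ∖ H)/#H, where Z is the set of zeros of χ in G. -/
theorem result {G : Type*} [Group G] [Finite G] (H : Subgroup G) (χ : Cfsg.IrrCharacter G) : (Nat.card ↥H : ℝ)⁻¹ * ∑ᶠ h : ↥H, ‖(χ : G → ℂ) h‖ ^ 2 ≤ 1 + (Set.ncard ({x : G | (χ : G → ℂ) x = 0} \ (H : Set G)) : ℝ) / (Nat.card ↥H : ℝ) := by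
  classical
  haveI := Fintype.ofFinite G
  obtain ⟨r, hr, hsum⟩ := Cfsg.Lib.Blocks.nonzero_outside_le H χ.2
  have h1 : Nat.card G = Nat.card H + Set.ncard ({x : G | (χ : G → ℂ) x = 0} \ (H : Set G)) +
      Nat.card {g : G // g ∉ H ∧ (χ : G → ℂ) g ≠ 0} := by
    have e1 := Set.ncard_add_ncard_compl (H : Set G)
    have e2 := Set.ncard_union_eq (s := ({x : G | (χ : G → ℂ) x = 0} \ (H : Set G)))
      (t := {g : G | g ∉ H ∧ (χ : G → ℂ) g ≠ 0}) (Set.disjoint_left.2 fun g h h' => h'.2 h.1)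
      (Set.toFinite _) (Set.toFinite _)
    have e3 : ({x : G | (χ : G → ℂ) x = 0} \ (H : Set G)) ∪ {g : G | g ∉ H ∧ (χ : G → ℂ) g ≠ 0}
        = (H : Set G)ᶜ := by
      ext g
      simp only [Set.mem_union, Set.mem_sdiff, Set.mem_setOf_eq, Set.mem_compl_iff, SetLike.mem_coe]
      tauto
    rw [e3] at e2
    have e4 : Nat.card {g : G // g ∉ H ∧ (χ : G → ℂ) g ≠ 0} =
        Set.ncard {g : G | g ∉ H ∧ (χ : G → ℂ) g ≠ 0} := Nat.card_coe_set_eq _
    have e5 : Set.ncard (H : Set G) = Nat.card H := (Nat.card_coe_set_eq _).symm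
    omega
  have hH : (0 : ℝ) < Nat.card H := by exact_mod_cast Nat.card_pos
  rw [inv_mul_le_iff₀ hH, mul_add, mul_one, mul_div_cancel₀ _ hH.ne']
  have h1' : (Nat.card G : ℝ) = Nat.card H + Set.ncard ({x : G | (χ : G → ℂ) x = 0} \ (H : Set G)) +
      Nat.card {g : G // g ∉ H ∧ (χ : G → ℂ) g ≠ 0} := by exact_mod_cast h1
  have hr' : (Nat.card {g : G // g ∉ H ∧ (χ : G → ℂ) g ≠ 0} : ℝ) ≤ r := by exact_mod_cast hr
  linarith

end Cfsg.Agent.S4989
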