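import Cfsg.Statements.S4996
import Mathlib
import Cfsg.Agent.Lib.Blocks.CosetAverage

set_option autoImplicit false
open Cfsg

namespace Cfsg.Agent.S4996

/-- Let N be a normal subgroup of the finite group G and χ an irreducible complex character of G. Then the restriction of χ to N is not irreducible if and only if χ vanishes on some whole coset Nx of N in G. -/
theorem result {G : Type*} [Group G] [Finite G] (N : Subgroup G) [N.Normal] (χ : Cfsg.IrrCharacter G) : ¬ Cfsg.IsIrrCharacter ↥N (fun n : ↥N => (χ : G → ℂ) n) ↔ ∃ x : G, ∀ n : ↥N, (χ : G → ℂ) ((n : G) * x) = 0 := by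
  classical
  haveI := Fintype.ofFinite G
  have hres : Cfsg.IsCharacter ↥N (fun n : ↥N => (χ : G → ℂ) n) :=
    Cfsg.Lib.Characters.isCharacter_restrict χ.2.isCharacter N
  have hN0 : (Nat.card N : ℂ) ≠ 0 := Nat.cast_ne_zero.2 Nat.card_pos.ne'
  have hNpos : (0 : ℝ) < Nat.card N := Nat.cast_pos.2 Nat.card_pos
  obtain ⟨k, hk⟩ := Cfsg.Lib.Characters.classInner_nat hres hres
  have hnorm : ∑ n : N, ‖(χ : G → ℂ) n‖ ^ 2 = (Nat.card N : ℝ) * k := by
    rw [Cfsg.classInner, inv_mul_eq_iff_eq_mul₀ hN0] at hk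
    apply Complex.ofReal_injective
    push_cast
    rw [← hk]
    exact Finset.sum_congr rfl fun n _ => (Complex.mul_conj' _).symm
  constructor
  · intro hirr
    have hk2 : 2 ≤ k := by
      rcases Nat.lt_or_ge k 2 with h | h
      · exfalso
        interval_cases k
        · rw [Nat.cast_zero, mul_zero, Finset.sum_eq_zero_iff_of_nonneg fun n _ => sq_nonneg _] at hnorm
          have h1 := hnorm 1 (Finset.mem_univ _)
          rw [pow_eq_zero_iff two_ne_zero, norm_eq_zero] at h1
          exact χ.2.one_ne_zero h1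
        · exact hirr (Cfsg.Lib.Characters.isIrrCharacter_of_classInner_eq_one hres (by simpa using hk))
      · exact h
    set ψ : G → ℂ := (χ : G → ℂ) * fun g => (starRingEnd ℂ) ((χ : G → ℂ) g) with hψ
    have hψc : Cfsg.IsCharacter G ψ :=
      Cfsg.Lib.Characters.isCharacter_mul χ.2.isCharacter (Cfsg.Lib.Characters.isCharacter_conj χ.2.isCharacter)
    set r : G → ℝ := fun x => (Nat.card N : ℝ)⁻¹ * ∑ n : N, ‖(χ : G → ℂ) ((n : G) * x)‖ ^ 2 with hr
    have hfr : ∀ x, Cfsg.Lib.Blocks.cosetAvg N ψ x = (r x : ℂ) := by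
      intro x
      simp only [Cfsg.Lib.Blocks.cosetAvg, hψ, hr, Pi.mul_apply, Complex.mul_conj']
      push_cast
      rfl
    have hr0 : ∀ x, 0 ≤ r x := fun x => by positivity
    have htot : ∑ x : G, r x = Nat.card G := by
      simp only [hr]
      rw [← Finset.mul_sum, Finset.sum_comm,
        Finset.sum_congr rfl fun (n : N) _ => show (∑ g : G, ‖(χ : G → ℂ) ((n : G) * g)‖ ^ 2) = ∑ g : G, ‖(χ : G → ℂ) g‖ ^ 2 from Fintype.sum_equiv (Equiv.mulLeft (n : G)) _ _ fun g => rfl,
        Finset.sum_const, Finset.card_univ, ← Nat.card_eq_fintype_card, nsmul_eq_mul, inv_mul_cancel_left₀ hNpos.ne']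
      have h := Cfsg.Lib.Characters.classInner_irr_self χ.2
      rw [Cfsg.classInner, inv_mul_eq_iff_eq_mul₀ (Nat.cast_ne_zero.2 Nat.card_pos.ne'), mul_one] at h
      apply Complex.ofReal_injective
      push_cast
      rw [← h]
      exact Finset.sum_congr rfl fun g _ => (Complex.mul_conj' _).symm
    set S := Finset.univ.filter fun x : G => x ∉ N with hS
    set T := Finset.univ.filter fun x : G => x ∈ N with hT
    have hin : ∑ x ∈ T, r x = (Nat.card N : ℝ) * k := by
      rw [hT, Finset.sum_subtype _ (p := fun x => x ∈ N) (fun x => by simp)]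
      rw [Finset.sum_congr rfl fun (x : N) _ => show r x = k from ?_, Finset.sum_const, Finset.card_univ,
        ← Nat.card_eq_fintype_card, nsmul_eq_mul]
      simp only [hr]
      rw [show (∑ n : N, ‖(χ : G → ℂ) ((n : G) * x)‖ ^ 2) = ∑ n : N, ‖(χ : G → ℂ) n‖ ^ 2 from Fintype.sum_equiv (Equiv.mulRight x) _ _ (fun n => rfl), hnorm,
        inv_mul_cancel_left₀ hNpos.ne']
    have hsplit : ∑ x ∈ T, r x + ∑ x ∈ S, r x = Nat.card G := by
      rw [← htot]; exact Finset.sum_filter_add_sum_filter_not _ _ _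
    have hcard : (T.card : ℝ) + S.card = Nat.card G := by
      rw [← Nat.cast_add, hT, hS, Finset.card_filter_add_card_filter_not, Finset.card_univ, Nat.card_eq_fintype_card]
    have hTc : (T.card : ℝ) = Nat.card N := by
      rw [hT, Nat.card_eq_fintype_card, Fintype.card_subtype]
    have hlt : ∑ x ∈ S, r x < S.card := by
      have : (2 : ℝ) ≤ k := by exact_mod_cast hk2
      nlinarith
    obtain ⟨x, -, hx⟩ := Cfsg.Lib.Blocks.exists_zero_of_sum_lt (Cfsg.Lib.Blocks.isCharacter_cosetAvg N hψc) S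
      (fun k hk x => by simp [hS, Cfsg.Lib.Characters.pow_mem_iff_of_coprime hk.symm N x]) r
      (fun x _ => ⟨hfr x, hr0 x⟩) hlt
    refine ⟨x, fun n => ?_⟩
    rw [hfr, Complex.ofReal_eq_zero] at hx
    simp only [hr, mul_eq_zero, inv_eq_zero, hNpos.ne', false_or] at hx
    rw [Finset.sum_eq_zero_iff_of_nonneg fun n _ => sq_nonneg _] at hx
    have := hx n (Finset.mem_univ _)
    rwa [pow_eq_zero_iff two_ne_zero, norm_eq_zero] at this
  · rintro ⟨x, hx⟩ hirr
    have hN1 : Cfsg.classInner (fun n : ↥N => (χ : G → ℂ) n) (fun n : ↥N => (χ : G → ℂ) n) = 1 :=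
      Cfsg.Lib.Characters.classInner_irr_self hirr
    rw [hN1] at hk
    have hk1 : k = 1 := by exact_mod_cast hk.symm
    set ψ : G → ℂ := (χ : G → ℂ) * fun g => (starRingEnd ℂ) ((χ : G → ℂ) g) with hψ
    have hψc : Cfsg.IsCharacter G ψ :=
      Cfsg.Lib.Characters.isCharacter_mul χ.2.isCharacter (Cfsg.Lib.Characters.isCharacter_conj χ.2.isCharacter)
    have hone : Cfsg.Lib.Blocks.cosetAvg N ψ 1 = 1 := by
      simp only [Cfsg.Lib.Blocks.cosetAvg, hψ, Pi.mul_apply, mul_one]
      exact hN1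
    have hzero : Cfsg.Lib.Blocks.cosetAvg N ψ x = 0 := by
      simp [Cfsg.Lib.Blocks.cosetAvg, hψ, hx]
    obtain ⟨ρ, hρ⟩ := Cfsg.Lib.Characters.exists_hom_of_degree_one (Cfsg.Lib.Blocks.isCharacter_cosetAvg N hψc) hone
    rw [hρ] at hzero
    exact (ρ x).ne_zero hzero

end Cfsg.Agent.S4996
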