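import Cfsg.Statements.S5001
import Mathlib
import Cfsg.Agent.Lib.Blocks.Heights
import Cfsg.Agent.Lib.Characters.Degree

set_option autoImplicit false
open Cfsg

namespace Cfsg.Agent.S5001

/-- Let p be a prime, G a finite group and B a p-block of G (relative to a maximal ideal M of the algebraic integers containing p) with defect group D. Let Z be a central p-subgroup of G contained in D and λ a linear character of Z (a homomorphism to the nonzero complex numbers). Say an irreducible character χ of G lies over λ when χ(z) = χ(1)λ(z) for all z ∈ Z. If some irreducible character in B lying over λ has height zero, then λ extends to a linear character of D. -/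
theorem result {G : Type*} [Group G] [Finite G] (p : ℕ) [Fact p.Prime] (M : Ideal Cfsg.AlgInt) (hM : Cfsg.IsPModular p M) (B : Set (Cfsg.IrrCharacter G)) (hB : Cfsg.IsPBlock M B) (D : Subgroup G) (hD : Cfsg.IsDefectGroup p M B D) (Z : Subgroup G) (hZc : Z ≤ Subgroup.center G) (hZp : IsPGroup p ↥Z) (hZD : Z ≤ D) (lam : ↥Z →* ℂˣ) (χ : Cfsg.IrrCharacter G) (hχ : χ ∈ B) (hover : (∀ z : ↥Z, (χ : G → ℂ) z = (χ : G → ℂ) 1 * (lam z : ℂ))) (h0 : Cfsg.blockHeight p B (χ : G → ℂ) = 0) : (∃ μ : ↥D →* ℂˣ, ∀ z : ↥Z, μ ⟨(z : G), hZD z.2⟩ = lam z) := by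
  haveI := hM.2.1.isPrime
  haveI := Fintype.ofFinite G
  classical
  open Cfsg.Lib.Blocks Cfsg.Lib.Characters in
  · obtain ⟨y, hy, hP⟩ := isDefectGroup_iff.mp hD
    have hne := red_value_defect_ne hM hB hy hP (one_mem D) hχ h0
    rw [one_mul] at hne
    obtain ⟨hy1, hy2, -⟩ := exists_defectClass_data hy
    have hcomm : ∀ (d : D) (c : Subgroup.zpowers y), Commute (D.subtype d) ((Subgroup.zpowers y).subtype c) := by
      intro d c
      obtain ⟨n, hn⟩ := Subgroup.mem_zpowers_iff.mp c.2
      have h1 : Commute (d : G) y := Subgroup.mem_centralizer_singleton_iff.mp (hP.le d.2)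
      show Commute (d : G) (c : G)
      rw [← hn]; exact h1.zpow_right n
    set f : ↥D × ↥(Subgroup.zpowers y) →* G :=
      MonoidHom.noncommCoprod D.subtype (Subgroup.zpowers y).subtype hcomm with hf
    have hchar : IsCharacter (↥D × ↥(Subgroup.zpowers y)) fun k => (χ : G → ℂ) (f k) :=
      isCharacter_comp χ.2.isCharacter f
    obtain ⟨m, hm⟩ := exists_decomposition hchar
    have hdec : ∀ k, (χ : G → ℂ) (f k) = ∑ ψ : IrrCharacter _, (m ψ : ℂ) * (ψ : ↥D × ↥(Subgroup.zpowers y) → ℂ) k := by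
      intro k; have := congrFun hm k; simpa [Finset.sum_apply] using this
    have hfy : f (1, ⟨y, Subgroup.mem_zpowers y⟩) = y := by simp [hf]
    obtain ⟨ψ, hmψ, hψ⟩ : ∃ ψ : IrrCharacter (↥D × ↥(Subgroup.zpowers y)),
        m ψ ≠ 0 ∧ ¬ p ∣ charDegree (ψ : ↥D × ↥(Subgroup.zpowers y) → ℂ) := by
      by_contra hcon
      simp only [not_exists, not_and, not_not] at hcon
      apply hne
      rw [← hfy, hdec, red_sum]
      · refine Finset.sum_eq_zero fun ψ _ => ?_
        rcases eq_or_ne (m ψ) 0 with hz | hz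
        · simp [hz]
        have hv := char_isIntegral ψ.2.isCharacter (1, (⟨y, Subgroup.mem_zpowers y⟩ : Subgroup.zpowers y))
        rw [red_mul (natCast_mem (locRing M) _) (isIntegral_mem_locRing M hv)]
        obtain ⟨n, ρ, hirr, hρ⟩ := ψ.2
        have hd : (ψ : ↥D × ↥(Subgroup.zpowers y) → ℂ) 1 = (charDegree (ψ : ↥D × ↥(Subgroup.zpowers y) → ℂ) : ℂ) := (coe_charDegree ψ).symm
        have hsc : ‖(ψ : ↥D × ↥(Subgroup.zpowers y) → ℂ) (1, (⟨y, Subgroup.mem_zpowers y⟩ : Subgroup.zpowers y))‖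
            = (charDegree (ψ : ↥D × ↥(Subgroup.zpowers y) → ℂ) : ℝ) := by
          refine norm_eq_of_mem_center ψ.2 hd ?_
          rw [Subgroup.mem_center_iff]
          intro k
          exact Prod.ext (by simp) (mul_comm' _ _)
        obtain ⟨ω, hω⟩ := exists_scalar_of_norm_eq ρ _ (by
          rw [hρ, hsc]
          have hn : (charDegree (ψ : ↥D × ↥(Subgroup.zpowers y) → ℂ) : ℂ)
              = (Module.finrank ℂ (Fin n → ℂ) : ℂ) := by
            rw [← hd, ← hρ, Representation.char_one]
          exact_mod_cast hn)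
        have hval : (ψ : ↥D × ↥(Subgroup.zpowers y) → ℂ) (1, (⟨y, Subgroup.mem_zpowers y⟩ : Subgroup.zpowers y))
            = ω * (charDegree (ψ : ↥D × ↥(Subgroup.zpowers y) → ℂ) : ℂ) := by
          rw [← hd, ← hρ, Representation.char_one]
          simp [Representation.character, hω]
        obtain ⟨c, hc⟩ := hcon ψ hz
        have hωint : ω ∈ locRing M := by
          have h1 : ω ^ orderOf (((1 : ↥D), (⟨y, Subgroup.mem_zpowers y⟩ : Subgroup.zpowers y))) = 1 := by
            set k : ↥D × ↥(Subgroup.zpowers y) := (1, ⟨y, Subgroup.mem_zpowers y⟩) with hk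
            have h2 : ρ k ^ orderOf k = 1 := by rw [← map_pow, pow_orderOf_eq_one, map_one]
            rw [hω, smul_pow, ← Module.End.one_eq_id, one_pow] at h2
            have hn1 : 0 < n := by
              have h3 := charDegree_pos ψ
              have hn : (charDegree (ψ : ↥D × ↥(Subgroup.zpowers y) → ℂ) : ℂ) = (n : ℂ) := by
                rw [← hd, ← hρ, Representation.char_one]; simp
              have := Nat.cast_injective hn
              omega
            haveI : Nonempty (Fin n) := ⟨⟨0, hn1⟩⟩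
            haveI : Nontrivial (Fin n → ℂ) := Function.nontrivial
            exact smul_left_injective ℂ (one_ne_zero (α := Module.End ℂ (Fin n → ℂ)))
              (h2.trans (one_smul _ _).symm)
          exact root_mem_locRing (orderOf_pos _) h1
        rw [hval, red_mul hωint (natCast_mem (locRing M) _), hc,
          Nat.cast_mul, red_mul (natCast_mem (locRing M) _)
            (natCast_mem (locRing M) _), red_natCast p, red_p hM]
        simp
      · exact fun ψ _ => mul_mem (natCast_mem (locRing M) _)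
          (isIntegral_mem_locRing M (char_isIntegral ψ.2.isCharacter _))
    have hd : (ψ : ↥D × ↥(Subgroup.zpowers y) → ℂ) 1 = (charDegree (ψ : ↥D × ↥(Subgroup.zpowers y) → ℂ) : ℂ) := (coe_charDegree ψ).symm
    have hdeg : charDegree (ψ : ↥D × ↥(Subgroup.zpowers y) → ℂ) = 1 := by
      have h1 := degree_dvd_center_index ψ.2 hd
      have hle : (Subgroup.prod (⊥ : Subgroup ↥D) (⊤ : Subgroup ↥(Subgroup.zpowers y)))
          ≤ Subgroup.center _ := by
        rintro ⟨a, b⟩ ⟨ha, -⟩
        simp only [Subgroup.coe_bot, Set.mem_singleton_iff] at ha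
        subst ha
        rw [Subgroup.mem_center_iff]
        intro k
        exact Prod.ext (by simp) (mul_comm' _ _)
      have h2 := h1.trans (Subgroup.index_dvd_of_le hle)
      rw [Subgroup.index_prod, Subgroup.index_bot, Subgroup.index_top, mul_one] at h2
      obtain ⟨j, hj⟩ := (IsPGroup.iff_card.mp hP.isPGroup)
      rw [hj] at h2
      obtain ⟨i, -, hi⟩ := (Nat.dvd_prime_pow Fact.out).mp h2
      rcases i with _ | i
      · simpa using hi
      · exact absurd (by rw [hi, pow_succ]; exact dvd_mul_left p _) hψ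
    obtain ⟨L, hL⟩ := exists_hom_of_degree_one ψ.2.isCharacter (by rw [hd, hdeg, Nat.cast_one])
    refine ⟨L.comp (MonoidHom.inl _ _), fun z => Units.ext ?_⟩
    have hfz : f (⟨(z : G), hZD z.2⟩, 1) = (z : G) := by simp [hf]
    have hl1 : ‖((lam z : ℂˣ) : ℂ)‖ = 1 := by
      refine Complex.norm_eq_one_of_pow_eq_one (n := orderOf z) ?_ (orderOf_pos z).ne'
      rw [← Units.val_pow_eq_pow_val, ← map_pow, pow_orderOf_eq_one, map_one, Units.val_one]
    set k : ↥D × ↥(Subgroup.zpowers y) := (⟨(z : G), hZD z.2⟩, 1) with hk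
    set l : ℂ := ((lam z : ℂˣ) : ℂ) with hl
    have hl0 : l ≠ 0 := Units.ne_zero _
    have hsum1 : (χ : G → ℂ) 1 = ∑ φ : IrrCharacter _, (m φ : ℂ) * (φ : ↥D × ↥(Subgroup.zpowers y) → ℂ) (1 : ↥D × ↥(Subgroup.zpowers y)) := by
      rw [← hdec, map_one]
    have hsumz : (χ : G → ℂ) 1 = ∑ φ : IrrCharacter _, (m φ : ℂ) * ((φ : ↥D × ↥(Subgroup.zpowers y) → ℂ) k * l⁻¹) := by
      calc (χ : G → ℂ) 1 = (χ : G → ℂ) (f k) * l⁻¹ := by rw [hfz, hover z, ← hl]; field_simp
        _ = _ := by rw [hdec, Finset.sum_mul]; simp [mul_assoc]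
    have hle : ∀ φ : IrrCharacter (↥D × ↥(Subgroup.zpowers y)),
        ((φ : ↥D × ↥(Subgroup.zpowers y) → ℂ) k * l⁻¹).re ≤ ((φ : ↥D × ↥(Subgroup.zpowers y) → ℂ) 1).re := fun φ => by
      refine (Complex.re_le_norm _).trans ?_
      rw [norm_mul, norm_inv, hl1, inv_one, mul_one]
      exact char_norm_le_degree φ.2.isCharacter k
    have hzero : ∑ φ : IrrCharacter (↥D × ↥(Subgroup.zpowers y)),
        (m φ : ℝ) * (((φ : ↥D × ↥(Subgroup.zpowers y) → ℂ) 1).re - ((φ : ↥D × ↥(Subgroup.zpowers y) → ℂ) k * l⁻¹).re) = 0 := by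
      have := congrArg Complex.re (hsum1.symm.trans hsumz)
      simp only [Complex.re_sum] at this
      simp only [mul_sub, Finset.sum_sub_distrib]
      simp only [Complex.mul_re, Complex.natCast_re, Complex.natCast_im, zero_mul, sub_zero] at this ⊢
      linarith
    have h := (Finset.sum_eq_zero_iff_of_nonneg (fun φ _ =>
      mul_nonneg (Nat.cast_nonneg _) (sub_nonneg.mpr (hle φ)))).mp hzero ψ (Finset.mem_univ _)
    rcases mul_eq_zero.mp h with h | h
    · exact absurd (Nat.cast_eq_zero.mp h) hmψ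
    rw [hd, hdeg, Nat.cast_one, Complex.one_re, sub_eq_zero] at h
    have hn : ‖(ψ : ↥D × ↥(Subgroup.zpowers y) → ℂ) k * l⁻¹‖ ≤ 1 := by
      rw [norm_mul, norm_inv, hl1, inv_one, mul_one]
      have := char_norm_le_degree ψ.2.isCharacter k
      rwa [hd, hdeg, Nat.cast_one, Complex.one_re] at this
    have him : ((ψ : ↥D × ↥(Subgroup.zpowers y) → ℂ) k * l⁻¹).im = 0 := by
      have h5 := Complex.sq_norm ((ψ : ↥D × ↥(Subgroup.zpowers y) → ℂ) k * l⁻¹)
      rw [Complex.normSq_apply, ← h] at h5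
      nlinarith [norm_nonneg ((ψ : ↥D × ↥(Subgroup.zpowers y) → ℂ) k * l⁻¹)]
    have heq : (ψ : ↥D × ↥(Subgroup.zpowers y) → ℂ) k * l⁻¹ = 1 := Complex.ext (by simpa using h.symm) (by simpa using him)
    rw [hL] at heq
    field_simp at heq
    show ((L (⟨(z : G), hZD z.2⟩, 1) : ℂˣ) : ℂ) = l
    exact heq

end Cfsg.Agent.S5001
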