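import Cfsg.Statements.S5011
import Mathlib
import Cfsg.Agent.Lib.Blocks.DefectZero

set_option autoImplicit false
open Cfsg

namespace Cfsg.Agent.S5011

/-- Let G be a finite non-abelian simple group and ρ an irreducible complex representation of G on a space of dimension greater than one (irreducible in the sense that the only subspaces invariant under every ρ(x) are 0 and the whole space). Then for every non-identity element g of G, the centralizer of g does not act irreducibly: there is a non-zero proper subspace invariant under ρ(c) for every c commuting with g. -/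
theorem result {G : Type*} [Group G] [Finite G] [IsSimpleGroup G]
    (hG : ¬ IsMulCommutative G) {V : Type*} [AddCommGroup V] [Module ℂ V] [FiniteDimensional ℂ V]
    (ρ : Representation ℂ G V)
    (hirr : ∀ W : Submodule ℂ V, (∀ x : G, ∀ v ∈ W, ρ x v ∈ W) → W = ⊥ ∨ W = ⊤)
    (hdim : 1 < Module.finrank ℂ V) (g : G) (hg : g ≠ 1) :
    ∃ W : Submodule ℂ V, W ≠ ⊥ ∧ W ≠ ⊤ ∧ ∀ c ∈ Subgroup.centralizer ({g} : Set G), ∀ v ∈ W, ρ c v ∈ W := by
  classical
  haveI : Nontrivial V := Module.nontrivial_of_finrank_pos (R := ℂ) (lt_trans zero_lt_one hdim)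
  have eig : ∀ (x : G), (∀ y : G, ρ x * ρ y = ρ y * ρ x) → ∃ μ : ℂ, ∀ v, ρ x v = μ • v := by
    intro x hx
    obtain ⟨μ, hμ⟩ := Module.End.exists_eigenvalue (ρ x)
    rcases hirr (Module.End.eigenspace (ρ x) μ) (fun y v hv => by
      rw [Module.End.mem_eigenspace_iff] at hv ⊢
      rw [← Module.End.mul_apply, hx y, Module.End.mul_apply, hv, map_smul]) with h | h
    · exact absurd h hμ
    · exact ⟨μ, fun v => Module.End.mem_eigenspace_iff.1 (h ▸ Submodule.mem_top)⟩
  by_contra hcon
  push_neg at hcon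
  obtain ⟨μ, hμ⟩ := Module.End.exists_eigenvalue (ρ g)
  have htop : Module.End.eigenspace (ρ g) μ = ⊤ := by
    by_contra h
    obtain ⟨c, hc, v, hv, hnv⟩ := hcon _ hμ h
    apply hnv
    rw [Module.End.mem_eigenspace_iff] at hv ⊢
    rw [← Module.End.mul_apply, ← map_mul, (Subgroup.mem_centralizer_singleton_iff.1 hc).symm, map_mul,
      Module.End.mul_apply, hv, map_smul]
  have hgs : ∀ v, ρ g v = μ • v := fun v => Module.End.mem_eigenspace_iff.1 (htop ▸ Submodule.mem_top)
  let N : Subgroup G :=
    { carrier := {x | ∀ y, ρ x * ρ y = ρ y * ρ x}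
      one_mem' := fun y => by rw [map_one, one_mul, mul_one]
      mul_mem' := fun {a b} ha hb y => by rw [map_mul, mul_assoc, hb, ← mul_assoc, ha, mul_assoc]
      inv_mem' := fun {a} ha y => by
        calc ρ a⁻¹ * ρ y = ρ a⁻¹ * (ρ y * ρ a) * ρ a⁻¹ := by
              rw [mul_assoc, mul_assoc, ← map_mul, ← map_mul, ← map_mul, ← map_mul]; group
          _ = ρ a⁻¹ * (ρ a * ρ y) * ρ a⁻¹ := by rw [ha]
          _ = ρ y * ρ a⁻¹ := by simp only [← map_mul]; group }
  haveI : N.Normal := ⟨fun x hx z y => by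
    obtain ⟨m, hm⟩ := eig x hx
    have : ∀ v, ρ (z * x * z⁻¹) v = m • v := fun v => by
      rw [map_mul, map_mul, Module.End.mul_apply, Module.End.mul_apply, hm, map_smul, ← Module.End.mul_apply, ← map_mul]
      simp
    ext v
    rw [Module.End.mul_apply, Module.End.mul_apply, this, this, map_smul]⟩
  have hgN : g ∈ N := fun y => by ext v; simp [hgs, map_smul]
  have hNtop : N = ⊤ := (IsSimpleGroup.eq_bot_or_eq_top_of_normal N inferInstance).resolve_left
    (fun h => hg (Subgroup.mem_bot.1 (h ▸ hgN)))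
  obtain ⟨v, hv⟩ := exists_ne (0 : V)
  rcases hirr (ℂ ∙ v) (fun x w hw => by
    obtain ⟨m, hm⟩ := eig x (show x ∈ N from hNtop ▸ Subgroup.mem_top x)
    rw [hm]; exact Submodule.smul_mem _ _ hw) with h | h
  · exact hv (Submodule.span_singleton_eq_bot.1 h)
  · have := finrank_span_singleton (K := ℂ) hv
    rw [h, finrank_top] at this
    omega

end Cfsg.Agent.S5011
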