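import Cfsg.Statements.S5045
import Mathlib
import Cfsg.Agent.Lib.ThreeT.Cores
import Cfsg.Agent.Lib.Transfer.Basic
-- import your own Cfsg.Agent.* helpers here

set_option autoImplicit false
open Cfsg

namespace Cfsg.Agent.S5045

open Relation

variable {G : Type*} [Group G] {D : Set G}

theorem sq_one (hD : Cfsg.IsRootInvolutionSet D) {d : G} (hd : d ∈ D) : d * d = 1 := by
  rw [← pow_two, ← hD.orderOf_eq d hd, pow_orderOf_eq_one]

theorem inv_self (hD : Cfsg.IsRootInvolutionSet D) {d : G} (hd : d ∈ D) : d⁻¹ = d :=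
  inv_eq_of_mul_eq_one_right (sq_one hD hd)

theorem ne_one (hD : Cfsg.IsRootInvolutionSet D) {d : G} (hd : d ∈ D) : d ≠ 1 := fun e => by
  have := hD.orderOf_eq d hd
  rw [e, orderOf_one] at this
  omega

theorem order_swap (a b : G) : orderOf (b * a) = orderOf (a * b) := by
  rw [show b * a = MulAut.conj b (a * b) by rw [MulAut.conj_apply]; group, MulEquiv.orderOf_eq]

theorem adj_symm {a b : G} (h : Cfsg.OddAdj D a b) : Cfsg.OddAdj D b a :=
  ⟨h.2.1, h.1, h.2.2.1.symm, by rw [order_swap]; exact h.2.2.2⟩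

theorem adj_conj (hD : Cfsg.IsRootInvolutionSet D) {a b : G} (h : Cfsg.OddAdj D a b) (g : G) :
    Cfsg.OddAdj D (g * a * g⁻¹) (g * b * g⁻¹) := by
  refine ⟨hD.conj_mem a h.1 g, hD.conj_mem b h.2.1 g, fun e => h.2.2.1 (by simpa using e), ?_⟩
  rw [show g * a * g⁻¹ * (g * b * g⁻¹) = MulAut.conj g (a * b) by rw [MulAut.conj_apply]; group, MulEquiv.orderOf_eq]
  exact h.2.2.2

theorem odd_not_two {z : G} (h : Odd (orderOf z)) (h2 : z ^ 2 = 1) : z = 1 := by
  rcases (Nat.dvd_prime Nat.prime_two).1 (orderOf_dvd_of_pow_eq_one h2) with e | e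
  · exact orderOf_eq_one_iff.1 e
  · rw [e] at h; exact absurd h (by decide)

theorem eq_of_mul_eq_one (hD : Cfsg.IsRootInvolutionSet D) {a b : G} (hb : b ∈ D) (e : a * b = 1) : a = b := by
  rw [eq_inv_of_mul_eq_one_left e, inv_self hD hb]

/-- Partners are not centralised by odd neighbours. -/
theorem not_commute_partner (hD : Cfsg.IsRootInvolutionSet D) {a b x : G} (ha : a ∈ D) (hb : b ∈ D) (hab : a * b = b * a)
    (habD : a * b ∈ D) (hx : Cfsg.OddAdj D a x) : x * b ≠ b * x := by
  intro hxb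
  have haa := sq_one hD ha
  have hxx := sq_one hD hx.2.1
  have hax : Commute (a * x) b := (show Commute a b from hab).mul_left hxb
  obtain ⟨k, hk⟩ := hx.2.2.2
  have hm : (a * x) ^ (2 * k + 1) = 1 := by rw [← hk, pow_orderOf_eq_one]
  set g := (a * x) ^ k
  have hinv : a * (a * x) * a⁻¹ = (a * x)⁻¹ := by
    rw [_root_.mul_inv_rev, inv_self hD ha, inv_self hD hx.2.1, ← mul_assoc, haa, one_mul]
  have hag : a * g⁻¹ = g * a := by
    have : a * g * a⁻¹ = g⁻¹ := by rw [← conj_pow, hinv, inv_pow]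
    rw [← this, inv_self hD ha]
    simp only [← mul_assoc, haa, one_mul]
  have hgx : g * a * g⁻¹ = x := by
    rw [mul_assoc, hag, ← mul_assoc, ← pow_add, show k + k = 2 * k by ring]
    have : (a * x) ^ (2 * k) = (a * x)⁻¹ := eq_inv_of_mul_eq_one_left (by rw [← pow_succ]; exact hm)
    rw [this, _root_.mul_inv_rev, inv_self hD ha, inv_self hD hx.2.1, mul_assoc, haa, mul_one]
  have hgb : g * b * g⁻¹ = b := by rw [(hax.pow_left k).eq, mul_inv_cancel_right]
  have hxbD : x * b ∈ D := by
    have := hD.conj_mem _ habD g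
    rwa [show g * (a * b) * g⁻¹ = (g * a * g⁻¹) * (g * b * g⁻¹) by group, hgx, hgb] at this
  have hne : a * x ≠ 1 := fun e => hx.2.2.1 (eq_of_mul_eq_one hD hx.2.1 e)
  rcases hD.pair a ha (x * b) hxbD with h | h | ⟨h, -⟩
  · refine hne (odd_not_two hx.2.2.2 ?_)
    have e1 : (a * (x * b)) ^ 2 = 1 := by
      rw [Commute.mul_pow (show Commute a (x * b) from h), pow_two, haa, pow_two, sq_one hD hxbD, one_mul]
    rwa [← mul_assoc, hax.mul_pow, pow_two b, sq_one hD hb, mul_one] at e1
  · rw [← mul_assoc] at h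
    obtain ⟨n, hn⟩ : ∃ n, orderOf (a * x * b) = n := ⟨_, rfl⟩
    have e1 : (a * x) ^ n * b ^ n = 1 := by rw [← hax.mul_pow, ← hn, pow_orderOf_eq_one]
    have e2 : b ^ (n * orderOf (a * x)) = 1 := by
      rw [pow_mul, eq_inv_of_mul_eq_one_right e1, inv_pow, ← pow_mul, mul_comm, pow_mul, pow_orderOf_eq_one, one_pow, inv_one]
    have hodd : Odd (n * orderOf (a * x)) := (hn ▸ h).mul hx.2.2.2
    refine ne_one hD hb (odd_not_two ?_ (by rw [pow_two]; exact sq_one hD hb))
    exact hodd.of_dvd_nat (orderOf_dvd_of_pow_eq_one e2)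
  · have e1 : (a * x * b) ^ 4 = 1 := by rw [mul_assoc, ← h, pow_orderOf_eq_one]
    rw [hax.mul_pow, show b ^ 4 = (b * b) * (b * b) by simp [pow_succ, mul_assoc], sq_one hD hb, one_mul, mul_one] at e1
    have h1 := odd_not_two (hx.2.2.2.of_dvd_nat (orderOf_dvd_of_pow_eq_one (show ((a * x) ^ 2) ^ orderOf (a * x) = 1 by
      rw [← pow_mul, mul_comm, pow_mul, pow_orderOf_eq_one, one_pow]))) (by rw [← pow_mul]; exact e1)
    exact hne (odd_not_two hx.2.2.2 h1)

/-- One of two partners is adjacent to every neighbour. -/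
theorem partner_adj (hD : Cfsg.IsRootInvolutionSet D) {a b x : G} (ha : a ∈ D) (hb : b ∈ D) (hab : a * b = b * a)
    (habD : a * b ∈ D) (hx : Cfsg.OddAdj D a x) : (x = b ∨ Cfsg.OddAdj D b x) ∨ (x = a * b ∨ Cfsg.OddAdj D (a * b) x) := by
  by_cases hbx : x = b ∨ Cfsg.OddAdj D b x
  · exact Or.inl hbx
  by_cases hcx : x = a * b ∨ Cfsg.OddAdj D (a * b) x
  · exact Or.inr hcx
  exfalso
  rw [not_or] at hbx hcx
  have haa := sq_one hD ha
  have hxD := hx.2.1
  have hb' := not_commute_partner hD ha hb hab habD hx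
  have hacD : a * (a * b) ∈ D := by rwa [← mul_assoc, haa, one_mul]
  have hc' := not_commute_partner hD ha habD (by rw [mul_assoc, ← hab]) hacD hx
  have four : ∀ d ∈ D, x * d ≠ d * x → (x ≠ d ∧ ¬ Cfsg.OddAdj D d x) → x * (d * x * d) ∈ D ∧ Commute x (d * x * d) := by
    intro d hd hne hn
    rcases hD.pair x hxD d hd with h | h | ⟨h4, ht⟩
    · exact absurd h hne
    · exact absurd ⟨hd, hxD, hn.1.symm, by rw [order_swap]; exact h⟩ hn.2
    · have e : (x * d) ^ 2 = x * (d * x * d) := by simp only [pow_two, mul_assoc]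
      refine ⟨e ▸ ht, ?_⟩
      have h1 : (x * (d * x * d)) * (x * (d * x * d)) = 1 := by
        rw [← e, ← pow_add]; show (x * d) ^ 4 = 1; rw [← h4, pow_orderOf_eq_one]
      have h2 := eq_inv_of_mul_eq_one_left h1
      rw [_root_.mul_inv_rev, inv_self hD hxD, _root_.mul_inv_rev, _root_.mul_inv_rev, inv_self hD hd, inv_self hD hxD] at h2
      show x * (d * x * d) = d * x * d * x
      rw [h2]; simp only [mul_assoc]
  obtain ⟨heD, hxe⟩ := four b hb hb' hbx
  obtain ⟨-, hxf⟩ := four (a * b) habD hc' hcx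
  have he : b * x * b ∈ D := by
    have := hD.conj_mem x hxD b
    rwa [inv_self hD hb] at this
  have hgadj : Cfsg.OddAdj D x (a * x * a) := by
    have hm : orderOf ((x * a) ^ 2) ∣ orderOf (x * a) := orderOf_dvd_of_pow_eq_one (by rw [← pow_mul, mul_comm, pow_mul, pow_orderOf_eq_one, one_pow])
    have hodd : Odd (orderOf (x * a)) := (adj_symm hx).2.2.2
    have e : x * (a * x * a) = (x * a) ^ 2 := by simp only [pow_two, mul_assoc]
    refine ⟨hxD, by have := hD.conj_mem x hxD a; rwa [inv_self hD ha] at this, fun e' => ?_, by rw [e]; exact hodd.of_dvd_nat hm⟩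
    have h1 : (x * a) ^ 2 = 1 := by rw [← e, ← e', sq_one hD hxD]
    exact hx.2.2.1 (eq_of_mul_eq_one hD ha (odd_not_two hodd h1)).symm
  refine not_commute_partner hD hxD he hxe heD hgadj ?_
  have := hxf.map (MulAut.conj a).toMonoidHom
  simp only [MulEquiv.coe_toMonoidHom, MulAut.conj_apply, inv_self hD ha] at this
  rw [show a * (a * b * x * (a * b)) * a = b * x * b by
    rw [show a * (a * b * x * (a * b)) * a = (a * a) * b * x * (a * b * a) by simp only [mul_assoc], haa, one_mul, hab, mul_assoc b a a, haa, mul_one]] at this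
  exact this.eq

theorem comp_symm {a b : G} (h : ReflTransGen (Cfsg.OddAdj D) a b) : ReflTransGen (Cfsg.OddAdj D) b a := by
  induction h with
  | refl => exact ReflTransGen.refl
  | tail _ h2 ih => exact ReflTransGen.head (adj_symm h2) ih

theorem exists_adj {a : G} (h : ∃ a' ∈ Cfsg.elemComponentOf (Cfsg.OddAdj D) D a, a' ≠ a) : ∃ y, Cfsg.OddAdj D a y := by
  obtain ⟨a', ⟨-, h⟩, hne⟩ := h
  rcases h.cases_head with e | ⟨y, hy, -⟩
  · exact absurd e.symm hne
  · exact ⟨y, hy⟩

theorem partners_sub (hD : Cfsg.IsRootInvolutionSet D) {a b y : G} (ha : a ∈ D) (hy : Cfsg.OddAdj D a y) (hb : b ∈ D)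
    (hab : a * b = b * a) (habD : a * b ∈ D) :
    ReflTransGen (Cfsg.OddAdj D) a b ∨ Cfsg.IsIsolatedElem (Cfsg.OddAdj D) D b := by
  by_cases hW : ∃ z, Cfsg.OddAdj D b z
  swap
  · exact Or.inr ⟨hb, fun z => ⟨fun h => hW ⟨z, h⟩, fun h => hW ⟨z, adj_symm h⟩⟩⟩
  left
  obtain ⟨z, hz⟩ := hW
  rcases partner_adj hD ha hb hab habD hy with (rfl | h) | h
  · exact ReflTransGen.single hy
  · exact (ReflTransGen.single hy).trans (ReflTransGen.single (adj_symm h))
  have hac : ReflTransGen (Cfsg.OddAdj D) a (a * b) := by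
    rcases h with rfl | h
    · exact ReflTransGen.single hy
    · exact (ReflTransGen.single hy).trans (ReflTransGen.single (adj_symm h))
  rcases partner_adj hD hb ha hab.symm (hab ▸ habD) hz with (rfl | h') | h'
  · exact ReflTransGen.single (adj_symm hz)
  · exact (ReflTransGen.single h').trans (ReflTransGen.single (adj_symm hz))
  · rw [← hab] at h'
    refine hac.trans ?_
    rcases h' with rfl | h'
    · exact ReflTransGen.single (adj_symm hz)
    · exact (ReflTransGen.single h').trans (ReflTransGen.single (adj_symm hz))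

/-- Let G be a finite group generated by a set D of root involutions, and W the set of members of D whose product with every other member of D has even order or is trivial (the isolated vertices of the odd-order-product graph on D). Then W is conjugation-invariant and generates a normal 2-subgroup of G meeting D in exactly W; the commutator of two members of D lying in different connected components of that graph, each with more than one member, lies in the subgroup generated by W; and for a in such a component, every member of D commuting with a, different from a and with product with a in D, lies in that component or in W. -/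
theorem result {G : Type*} [Group G] [Finite G] {D : Set G} (hD : Cfsg.IsRootInvolutionSet D) :
    (∀ w ∈ {w | Cfsg.IsIsolatedElem (Cfsg.OddAdj D) D w}, ∀ g : G, g * w * g⁻¹ ∈ {w | Cfsg.IsIsolatedElem (Cfsg.OddAdj D) D w}) ∧
    (Subgroup.closure {w | Cfsg.IsIsolatedElem (Cfsg.OddAdj D) D w}).Normal ∧
    IsPGroup 2 ↥(Subgroup.closure {w | Cfsg.IsIsolatedElem (Cfsg.OddAdj D) D w}) ∧
    (Subgroup.closure {w | Cfsg.IsIsolatedElem (Cfsg.OddAdj D) D w} : Set G) ∩ D = {w | Cfsg.IsIsolatedElem (Cfsg.OddAdj D) D w} ∧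
    (∀ a ∈ D, ∀ b ∈ D, (∃ a' ∈ Cfsg.elemComponentOf (Cfsg.OddAdj D) D a, a' ≠ a) →
      (∃ b' ∈ Cfsg.elemComponentOf (Cfsg.OddAdj D) D b, b' ≠ b) →
      Cfsg.elemComponentOf (Cfsg.OddAdj D) D a ≠ Cfsg.elemComponentOf (Cfsg.OddAdj D) D b →
        a * b * a⁻¹ * b⁻¹ ∈ Subgroup.closure {w | Cfsg.IsIsolatedElem (Cfsg.OddAdj D) D w}) ∧
    (∀ a ∈ D, (∃ a' ∈ Cfsg.elemComponentOf (Cfsg.OddAdj D) D a, a' ≠ a) →
      Cfsg.productPartners D a ⊆ Cfsg.elemComponentOf (Cfsg.OddAdj D) D a ∪ {w | Cfsg.IsIsolatedElem (Cfsg.OddAdj D) D w}) := by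
  haveI : Fact (Nat.Prime 2) := ⟨Nat.prime_two⟩
  set W := {w | Cfsg.IsIsolatedElem (Cfsg.OddAdj D) D w}
  have hconj : ∀ w ∈ W, ∀ g : G, g * w * g⁻¹ ∈ W := by
    intro w hw g
    refine ⟨hD.conj_mem w hw.1 g, fun b => ⟨fun h => ?_, fun h => ?_⟩⟩ <;>
    · have h' := adj_conj hD h g⁻¹
      rw [show g⁻¹ * (g * w * g⁻¹) * g⁻¹⁻¹ = w by group] at h'
      first | exact (hw.2 _).1 h' | exact (hw.2 _).2 h'
  have hn : (Subgroup.closure W).Normal := ⟨fun n hn g => by
    have hle : (Subgroup.closure W).map (MulAut.conj g).toMonoidHom ≤ Subgroup.closure W := by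
      rw [MonoidHom.map_closure]
      refine Subgroup.closure_mono ?_
      rintro _ ⟨w, hw, rfl⟩
      exact hconj w hw g
    exact hle ⟨n, hn, rfl⟩⟩
  have hnc : ∀ w ∈ W, ∀ v ∈ D, w = v ∨ (w * v) ^ 2 ^ 2 = 1 := fun w hw v hv => by
    rcases hD.pair w hw.1 v hv with h | h | ⟨h, -⟩
    · right
      rw [Commute.mul_pow (show Commute w v from h), show w ^ 2 ^ 2 = (w * w) * (w * w) by norm_num [pow_succ, mul_assoc], show v ^ 2 ^ 2 = (v * v) * (v * v) by norm_num [pow_succ, mul_assoc],
        sq_one hD hw.1, sq_one hD hv]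
      simp
    · left
      by_contra hne
      exact (hw.2 v).1 ⟨hw.1, hv, hne, h⟩
    · right
      show (w * v) ^ 4 = 1
      rw [← h, pow_orderOf_eq_one]
  have hcore : Subgroup.closure W ≤ Cfsg.pCore 2 G := (Subgroup.closure_le _).2 fun w hw =>
    Cfsg.Lib.ThreeT.baerSuzuki fun g => by
      refine Cfsg.Lib.ThreeT.isPGroup_closure_pair (sq_one hD hw.1) (sq_one hD (hD.conj_mem w hw.1 g)) (k := 2) ?_
      rcases hnc w hw _ (hD.conj_mem w hw.1 g) with e | e
      · rw [← e, sq_one hD hw.1, one_pow]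
      · exact e
  have hP : IsPGroup 2 (Subgroup.closure W) := (Cfsg.Lib.Transfer.pCore_isPGroup 2).to_le hcore
  refine ⟨hconj, hn, hP, ?_, ?_, ?_⟩
  · refine Set.Subset.antisymm (fun a ⟨haW, haD⟩ => ?_) (fun w hw => ⟨Subgroup.subset_closure hw, hw.1⟩)
    have key : ∀ b, ¬ Cfsg.OddAdj D a b := fun b h => by
      have hbb := sq_one hD h.2.1
      have hS : IsPGroup 2 ↥(Subgroup.closure W ⊔ Subgroup.zpowers b) := by
        haveI := hn
        exact IsPGroup.to_sup_of_normal_left hP (IsPGroup.of_card (n := 1) (by rw [Nat.card_zpowers, hD.orderOf_eq b h.2.1, pow_one]))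
      obtain ⟨j, hj⟩ := hS ⟨a * b, mul_mem (Subgroup.mem_sup_left haW) (Subgroup.mem_sup_right (Subgroup.mem_zpowers b))⟩
      have e : (a * b) ^ 2 ^ j = 1 := congrArg Subtype.val hj
      have hcop : Nat.Coprime (orderOf (a * b)) (2 ^ j) := (Nat.coprime_two_right.2 h.2.2.2).pow_right j
      have := Nat.eq_one_of_dvd_coprimes hcop dvd_rfl (orderOf_dvd_of_pow_eq_one e)
      exact h.2.2.1 (eq_of_mul_eq_one hD h.2.1 (orderOf_eq_one_iff.1 this))
    exact ⟨haD, fun b => ⟨key b, fun h => key b (adj_symm h)⟩⟩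
  · intro a ha b hb hna hnb hne
    obtain ⟨y, hy⟩ := exists_adj hna
    obtain ⟨z, hz⟩ := exists_adj hnb
    have hR : ¬ ReflTransGen (Cfsg.OddAdj D) a b := fun h => hne (Set.ext fun c =>
      ⟨fun hc => ⟨hc.1, (comp_symm h).trans hc.2⟩, fun hc => ⟨hc.1, h.trans hc.2⟩⟩)
    rw [inv_self hD ha, inv_self hD hb]
    rcases hD.pair a ha b hb with h | h | ⟨h4, ht⟩
    · rw [show a * b * a * b = (a * b) * (a * b) by simp only [mul_assoc]]
      nth_rw 2 [h]
      rw [show a * b * (b * a) = a * (b * b) * a by simp only [mul_assoc], sq_one hD hb, mul_one, sq_one hD ha]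
      exact one_mem _
    · exact absurd (ReflTransGen.single ⟨ha, hb, fun e => hR (e ▸ ReflTransGen.refl), h⟩) hR
    · rw [pow_two] at ht
      rw [show a * b * a * b = a * b * (a * b) by simp only [mul_assoc]]
      set t := a * b * (a * b) with htd
      have ht1 : t * t = 1 := sq_one hD ht
      have hca : ∀ u, u ∈ D → u * t * u = t⁻¹ → u * t = t * u := fun u hu e => by
        rw [inv_self hD ht] at e
        calc u * t = u * t * (u * u) := by rw [sq_one hD hu, mul_one]
          _ = (u * t * u) * u := by simp only [mul_assoc]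
          _ = t * u := by rw [e]
      have hat : a * t = t * a := hca a ha (by
        rw [htd, _root_.mul_inv_rev, _root_.mul_inv_rev, inv_self hD ha, inv_self hD hb]
        rw [show a * (a * b * (a * b)) * a = (a * a) * b * a * b * a by simp only [mul_assoc], sq_one hD ha, one_mul]; simp only [mul_assoc])
      have hbt : b * t = t * b := hca b hb (by
        rw [htd, _root_.mul_inv_rev, _root_.mul_inv_rev, inv_self hD ha, inv_self hD hb]
        rw [show b * (a * b * (a * b)) * b = b * a * b * a * (b * b) by simp only [mul_assoc], sq_one hD hb, mul_one]; simp only [mul_assoc])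
      have h1 : a * t ∈ D := by
        rw [htd, show a * (a * b * (a * b)) = (a * a) * b * a * b⁻¹ by rw [inv_self hD hb]; simp only [mul_assoc], sq_one hD ha, one_mul]
        exact hD.conj_mem a ha b
      have h2 : b * t ∈ D := by
        rw [hbt, htd, show a * b * (a * b) * b = a * b * a * (b * b) by simp only [mul_assoc], sq_one hD hb, mul_one]
        have := hD.conj_mem b hb a
        rwa [inv_self hD ha] at this
      rcases partners_sub hD ha hy ht hat h1 with e1 | e1
      · rcases partners_sub hD hb hz ht hbt h2 with e2 | e2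
        · exact absurd (e1.trans (comp_symm e2)) hR
        · exact Subgroup.subset_closure e2
      · exact Subgroup.subset_closure e1
  · intro a ha hna e he
    obtain ⟨y, hy⟩ := exists_adj hna
    obtain ⟨⟨heD, hea, -⟩, heaD⟩ := he
    rcases partners_sub hD ha hy heD hea.symm (hea ▸ heaD) with h | h
    · exact Or.inl ⟨heD, h⟩
    · exact Or.inr h

end Cfsg.Agent.S5045
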