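import Cfsg.Statements.S5126
import Mathlib
import Cfsg.Agent.Lib.Fusion.Realized
import Cfsg.Agent.Lib.Fusion.LocalSystem
import Cfsg.Agent.Lib.Fusion.ChainCriterion
-- import your own Cfsg.Agent.* helpers here

set_option autoImplicit false
open Cfsg

namespace Cfsg.Agent.S5126

open Cfsg.FusionSystem Cfsg.Lib.Fusion

/-- In a saturated fusion system over a finite p-group S, the normalizer system of a fully normalized, centric, radical subgroup R is constrained, and in every model of that normalizer system the largest normal p-subgroup is the image of R. -/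
theorem result {Ω : Type*} [Group Ω] {S : Subgroup Ω} [Finite S] (p : ℕ) [Fact p.Prime] (hS : IsPGroup p S) (F : Cfsg.FusionSystem S) (hF : F.IsSaturated p) (R : Subgroup Ω) (hRn : F.IsFullyNormalized R) (hRc : F.IsCentric R) (hRr : F.IsRadical p R) (E : Cfsg.FusionSystem (Cfsg.FusionSystem.normalizerIn S R)) (hE : F.IsNormalizerSystem R E) {G : Type*} [Group G] (ι : ↥(Cfsg.FusionSystem.normalizerIn S R) →* G) : E.IsConstrained p ∧ (E.IsModel p G ι → (Cfsg.pCore p G : Subgroup G) = (R.subgroupOf (Cfsg.FusionSystem.normalizerIn S R)).map ι) := by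
  have hRS := hRn.1
  have hRN : R ≤ normalizerIn S R := le_normalizerIn hRS
  have hEs := saturated_normalizerSystem hS hF hRn hE
  have hmE := mor_of_isNormalizerSystem hE hRS
  have hRnE : E.IsNormal R := isNormal_iff.2 ⟨hRN, fun P f hf => by
    obtain ⟨hP, hfN, k, hk, hke, hkR⟩ := (hmE P f).1 hf
    refine ⟨k, (hmE _ _).2 ⟨sup_le hP hRN, ?_, k, hk.source_congr ?_, fun _ _ => rfl, hkR⟩, hke, hkR⟩
    · intro x hx
      have h1 : img (P ⊔ R) k ≤ normalizerIn S R := by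
        rw [hk.img_sup le_sup_left le_sup_right, hkR]
        exact sup_le (img_le fun y hy => hke y hy ▸ hfN y hy) hRN
      exact h1 (mem_img_of_mem hx)
    · exact (sup_eq_left.2 le_sup_right).symm⟩
  refine ⟨⟨hEs, R, hRnE, hRN, fun Q hQ => ?_⟩, fun hG => ?_⟩
  · obtain ⟨f, hf, hfi⟩ := isConj_iff.1 hQ
    have hfR : img R f = R := by
      obtain ⟨-, -, k, hk, hke, hkR⟩ := (hmE R f).1 hf
      rw [← img_congr hke, hkR]
    rw [← hfi, hfR]
    intro c hc
    obtain ⟨hcN, hcc⟩ := mem_centralizerIn_iff.1 hc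
    exact hRc.2 R (isConj_refl hRS) (mem_centralizerIn_iff.2 ⟨normalizerIn_le hcN, hcc⟩)
  obtain ⟨hfin, hι, ⟨T, hT⟩, hC⟩ := hG
  obtain ⟨Q, hQ, hQe⟩ := exists_iotaImg_eq (ι := ι) (hT ▸ Cfsg.Lib.Transfer.pCore_le_sylow T)
  have hQn : (iotaImg ι Q).Normal := hQe ▸ Cfsg.Lib.Transfer.pCore_normal p
  have hCQ : Subgroup.centralizer (iotaImg ι Q : Set G) ≤ iotaImg ι Q := by rwa [hQe]
  have hconj : ∀ (g : G) (x : Ω), x ∈ R → ∃ y ∈ R, g * iotaFun ι x * g⁻¹ = iotaFun ι y := by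
    intro g x hx
    obtain ⟨f, hf, hfe⟩ := exists_mor_of_conj_mem hι hQ g fun z hz =>
      iotaImg_le_range Q (hQn.conj_mem _ (iotaFun_mem_iotaImg hQ hz) g)
    obtain ⟨k, hk, hke, hkR⟩ := (isNormal_iff.1 hRnE).2 Q f hf
    obtain ⟨g', hg'⟩ := exists_conj_of_mor hι hk
    have hc : g'⁻¹ * g ∈ iotaImg ι Q := by
      refine hCQ (Subgroup.mem_centralizer_iff.2 fun y hy => ?_)
      obtain ⟨z, hz, rfl⟩ := (mem_iotaImg hQ).1 hy
      have h1 := hg' z (Subgroup.mem_sup_left hz)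
      rw [hke z hz, hfe z hz] at h1
      calc iotaFun ι z * (g'⁻¹ * g) = g'⁻¹ * (g' * iotaFun ι z * g'⁻¹) * g := by group
        _ = g'⁻¹ * g * iotaFun ι z := by rw [← h1]; group
    obtain ⟨t, ht, hte⟩ := (mem_iotaImg hQ).1 hc
    have htN := hQ ht
    have hy : t * x * t⁻¹ ∈ R := conj_mem_of_mem_normalizerIn htN hx
    refine ⟨k (t * x * t⁻¹), hkR.le (mem_img_of_mem hy), ?_⟩
    rw [hg' _ (Subgroup.mem_sup_right hy), iotaFun_conj ι htN (hRN hx), hte]
    group
  have hRnG : (iotaImg ι R).Normal := ⟨fun y hy g => by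
    obtain ⟨x, hx, rfl⟩ := (mem_iotaImg hRN).1 hy
    obtain ⟨z, hz, hze⟩ := hconj g x hx
    rw [hze]
    exact iotaFun_mem_iotaImg hRN hz⟩
  show _ = iotaImg ι R
  refine le_antisymm ?_ ?_
  swap
  · exact le_sSup (s := {R : Subgroup G | R.Normal ∧ IsPGroup p R})
      ⟨hRnG, (T.2.to_le (hT ▸ iotaImg_le_range R))⟩
  rw [← hQe]
  refine Subgroup.map_mono (Subgroup.comap_mono fun c hcQ => ?_)
  have hcN : c ∈ normalizerIn S R := hQ hcQ
  refine mem_of_conjAut_mem hRc hRr hcN (K := autInducedBy Q R)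
    ((autInducedBy_mono (hQ.trans normalizerIn_le)).trans (autInducedBy_le_autGroup hRS)) ?_ ?_
    (mem_autInducedBy_iff.2 ⟨c, hcQ, fun x hx => autFun_conjAut _ hx⟩)
  · intro δ hδ γ hγ
    obtain ⟨u, hu, hue⟩ := mem_autInducedBy_iff.1 hγ
    have hδm := (mem_autGroup_iff hRS).1 hδ
    have hδE : Mor E R (autFun δ) := (hmE _ _).2 ⟨hRN, fun x hx => hRN (autFun_mem δ hx),
      autFun δ, hδm.source_congr (sup_idem R).symm, fun _ _ => rfl, img_autFun δ⟩
    obtain ⟨g, hg⟩ := exists_conj_of_mor hι hδE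
    obtain ⟨v, hv, hve⟩ := (mem_iotaImg hQ).1 (hQn.conj_mem _ (iotaFun_mem_iotaImg hQ hu) g)
    refine mem_autInducedBy_iff.2 ⟨v, hv, fun x hx => ?_⟩
    have hx' := autFun_mem δ⁻¹ hx
    have hxe : autFun δ (autFun δ⁻¹ x) = x := by
      rw [← autFun_mul _ _ hx, mul_inv_cancel, autFun_apply (1 : MulAut R) hx]; rfl
    rw [autFun_mul _ _ hx, autFun_mul _ _ hx']
    refine iotaFun_injOn hι (hRN (autFun_mem δ (autFun_mem γ hx')))
      (Subgroup.mul_mem _ (Subgroup.mul_mem _ (hQ hv) (hRN hx)) (Subgroup.inv_mem _ (hQ hv))) ?_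
    conv_rhs => rw [← hxe]
    rw [hg _ (autFun_mem γ hx'), hue _ hx', iotaFun_conj ι (hQ hu) (hRN hx'),
      iotaFun_conj ι (hQ hv) (hRN (autFun_mem δ hx')), hg _ hx', hve]
    group
  · exact isPGroup_autInducedBy (isPGroup_of_le hS (hQ.trans normalizerIn_le))

end Cfsg.Agent.S5126
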