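import Cfsg.Statements.S5135
import Mathlib
import Cfsg.Agent.Lib.Fusion.FactorSystem
import Cfsg.Agent.Lib.Fusion.GroupSystem
-- import your own Cfsg.Agent.* helpers here

set_option autoImplicit false
open Cfsg

namespace Cfsg.Agent.S5135

open Cfsg.FusionSystem Cfsg.Lib.Fusion

/-- Let G be a finite group, S a Sylow p-subgroup and H a normal subgroup of G. Then the fusion system of G/H on the image SH/H of S is the factor system of the fusion system of G on S modulo S ∩ H, read through the quotient map restricted to S: for each subgroup P' of SH/H, the conjugation maps by elements of G/H defined on P' with values in SH/H are exactly the homomorphisms induced by the conjugation maps by elements of G defined on the full preimage of P' in S with values in S. -/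
theorem result {G : Type*} [Group G] [Finite G] (p : ℕ) [Fact p.Prime] (S : Sylow p G) (H : Subgroup G) [H.Normal] : (Cfsg.groupFusionSystem (S : Subgroup G)).IsFactorSystem ((S : Subgroup G) ⊓ H) ((QuotientGroup.mk' H).comp (S : Subgroup G).subtype) (Cfsg.groupFusionSystem ((S : Subgroup G).map (QuotientGroup.mk' H))) := by
  set q := QuotientGroup.mk' H with hqdef
  set Sb := (S : Subgroup G).map q with hSb
  set θ := q.comp (S : Subgroup G).subtype with hθ
  have hker : ∀ s : (S : Subgroup G), θ s = 1 ↔ (s : G) ∈ (S : Subgroup G) ⊓ H := fun s => by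
    show (QuotientGroup.mk' H) (s : G) = 1 ↔ _
    rw [QuotientGroup.mk'_apply, QuotientGroup.eq_one_iff]
    exact ⟨fun h => ⟨s.2, h⟩, fun h => h.2⟩
  have hrange : θ.range = Sb := by rw [hθ, MonoidHom.range_comp, Subgroup.range_subtype]
  refine ⟨inf_le_left, hker, hrange, fun P' φ' => ⟨?_, ?_⟩⟩
  · rintro ⟨hle, hφS, c, hc⟩
    obtain ⟨g, rfl⟩ := QuotientGroup.mk'_surjective H c
    refine ⟨hle, ?_⟩
    set R := preimageAlong θ P' with hR
    have hRS : R ≤ (S : Subgroup G) := preimageAlong_le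
    have hθq : ∀ x ∈ (S : Subgroup G), iotaFun θ x = q x := fun x hx => by rw [iotaFun_apply θ hx]; rfl
    set M := (S : Subgroup G) ⊔ H with hM
    have hgR : ∀ x ∈ R, g * x * g⁻¹ ∈ M := fun x hx => by
      obtain ⟨hxS, hxP⟩ := mem_preimageAlong.1 hx
      have h1 := hφS ⟨_, hxP⟩
      rw [hc ⟨_, hxP⟩] at h1
      have h1' : q g * q x * (q g)⁻¹ ∈ Sb := by rw [← hθq x hxS]; exact h1
      rw [← map_mul, ← map_inv, ← map_mul] at h1'
      have h2 : g * x * g⁻¹ ∈ ((S : Subgroup G).map q).comap q := h1'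
      rwa [Subgroup.comap_map_eq, hqdef, QuotientGroup.ker_mk', ← hM] at h2
    have hle' : R.map (MulAut.conj g).toMonoidHom ≤ M := by
      rintro _ ⟨x, hx, rfl⟩
      exact hgR x hx
    obtain ⟨U, hU⟩ := (((isPGroup_of_le S.2 hRS).map _).of_equiv
      (Subgroup.subgroupOfEquivOfLe hle').symm).exists_le_sylow
    obtain ⟨m, hm⟩ := MulAction.exists_smul_eq M U (S.subtype (le_sup_left : (S : Subgroup G) ≤ M))
    obtain ⟨s, hs, h, hh, hsh⟩ : ∃ s ∈ (S : Subgroup G), ∃ h ∈ H, s * h = (m : G) := by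
      have h2 : (m : G) ∈ (((S : Subgroup G) ⊔ H : Subgroup G) : Set G) := m.2
      rw [Subgroup.mul_normal] at h2
      exact h2
    have hconj : ∀ x ∈ R, h * g * x * (h * g)⁻¹ ∈ (S : Subgroup G) := fun x hx => by
      have h1 : m * ⟨g * x * g⁻¹, hgR x hx⟩ * m⁻¹ ∈ ((S.subtype (le_sup_left : (S : Subgroup G) ≤ M) : Sylow p M) : Subgroup M) := by
        rw [← hm, Sylow.coe_subgroup_smul]
        exact ⟨_, hU (Subgroup.mem_subgroupOf.2 ⟨x, hx, rfl⟩), rfl⟩
      rw [Sylow.coe_subtype, Subgroup.mem_subgroupOf] at h1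
      have h1' : (m : G) * (g * x * g⁻¹) * (m : G)⁻¹ ∈ (S : Subgroup G) := h1
      rw [← hsh] at h1'
      have h2 := (S : Subgroup G).mul_mem ((S : Subgroup G).mul_mem ((S : Subgroup G).inv_mem hs) h1') hs
      simpa [mul_assoc] using h2
    refine ⟨conjHom R (h * g), ⟨hRS, fun x => hconj x x.2, h * g, fun _ => rfl⟩,
      (inducedAlong_iff (f := fun x => h * g * x * (h * g)⁻¹) hRS (fun _ => rfl) hconj).2 fun x hx => ?_⟩
    have hP := (mem_preimageAlong.1 hx).2
    refine ⟨hP, ?_⟩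
    rw [extFun_apply φ' hP, hc ⟨_, hP⟩, hθq _ (hconj x hx)]
    show q g * iotaFun θ x * (q g)⁻¹ = _
    rw [hθq x (hRS hx)]
    have hq1 : q h = 1 := by rw [hqdef, QuotientGroup.mk'_apply, QuotientGroup.eq_one_iff]; exact hh
    simp only [map_mul, map_inv, hq1, one_mul]
  · rintro ⟨hle, φ, ⟨hRS, hφS, c, hc⟩, hRle, hφS', hP', hind⟩
    have hmem : ∀ y : P', ∃ x : preimageAlong θ P', θ ⟨x, hRle x.2⟩ = (y : G ⧸ H) := fun y => by
      obtain ⟨⟨x, hx⟩, hxe⟩ := (hrange ▸ hle : P' ≤ θ.range) y.2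
      exact ⟨⟨x, mem_preimageAlong.2 ⟨hx, by rw [iotaFun_apply θ hx, hxe]; exact y.2⟩⟩, hxe⟩
    have key : ∀ y : P', φ' y = q c * (y : G ⧸ H) * (q c)⁻¹ ∧ φ' y ∈ Sb := fun y => by
      obtain ⟨x, hxe⟩ := hmem y
      have h1 := hind x
      have h2 : (⟨θ ⟨x, hRle x.2⟩, hP' x⟩ : P') = y := Subtype.ext hxe
      rw [h2] at h1
      refine ⟨?_, h1 ▸ hrange ▸ ⟨_, rfl⟩⟩
      rw [h1, ← hxe]
      show q (φ x) = q c * q x * (q c)⁻¹
      rw [hc, map_mul, map_mul, map_inv]
    exact ⟨hle, fun y => (key y).2, q c, fun y => (key y).1⟩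

end Cfsg.Agent.S5135
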