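import Cfsg.Statements.S5153
import Mathlib
import Cfsg.Agent.Lib.Fusion.NormalCriteria
-- import your own Cfsg.Agent.* helpers here

set_option autoImplicit false
open Cfsg

namespace Cfsg.Agent.S5153

open Cfsg.FusionSystem Cfsg.Lib.Fusion

/-- Let F be a saturated fusion system over a finite p-group S and E a subnormal subsystem of F over T. Then every subgroup of T that is fully normalized in F is fully normalized in E. -/
theorem result {Ω : Type*} [Group Ω] {S : Subgroup Ω} [Finite S] (p : ℕ) [Fact p.Prime] (hS : IsPGroup p S) (F : Cfsg.FusionSystem S) (hF : F.IsSaturated p) {T : Subgroup Ω} (E : Cfsg.FusionSystem T) (hE : E.IsSubnormalIn F p) (P : Subgroup Ω) (hPT : P ≤ T) (hP : F.IsFullyNormalized P) : E.IsFullyNormalized P := by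
  revert hS hF hP
  rename_i hΩ hfin hp
  revert hfin hp
  induction hE with
  | refl F p => intro _ _ _ _ hP; exact hP
  | step _ hDF ih =>
    intro hfin hp hS hF hP
    obtain ⟨⟨hDs, -, hsub, hT, -⟩, -⟩ := hDF
    have := finite_of_le hT.1
    refine ih (isPGroup_of_le hS hT.1) hDs ?_
    rename_i U0 S0 E0 D0 F0 q hsn
    have hEsub : ∀ {A B : Subgroup Ω} {X : Cfsg.FusionSystem A} {Y : Cfsg.FusionSystem B} {m : ℕ},
        X.IsSubnormalIn Y m → A ≤ B := by
      intro A B X Y m h
      induction h with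
      | refl => exact le_rfl
      | step _ h2 ih2 => exact ih2.trans h2.1.2.2.2.1.1
    have hPU := hPT.trans (hEsub hsn)
    refine ⟨hPU, fun Q hQ => ?_⟩
    obtain ⟨f, hf, hfi⟩ := isConj_iff.1 hQ
    have hQ' : F0.IsConj P Q := isConj_iff.2 ⟨f, hf.of_subsystem hsub, hfi⟩
    obtain ⟨k, hk, hkm, -⟩ := exists_normalizerIn_map_of_fullyNormalized hS hF hP (isConj_symm hQ')
    have hle : normalizerIn U0 Q ≤ normalizerIn _ Q := inf_le_inf_right _ hT.1
    refine (hk.restrict hle).card_le_of_maps (normalizerIn_le.trans hT.1) fun c hc => ?_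
    exact ⟨StronglyClosed.mem hT hk (hle hc) (normalizerIn_le hc), (hkm c (hle hc)).2⟩

end Cfsg.Agent.S5153
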