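import Cfsg.Statements.S5193
import Cfsg.Agent.Lib.Fusion.CenterJ

set_option autoImplicit false
set_option linter.style.haveILetI false
open Cfsg Cfsg.FusionSystem Cfsg.Lib.Fusion

namespace Cfsg.Agent.S5193

/-- Glauberman's Theorem for fusion systems. Let F be a saturated fusion system over a finite p-group S, let J(S) be the subgroup generated by the abelian subgroups of S of largest order, and let N be the normalizer fusion system of J(S) in F (a fusion system over N_S(J(S)) = S). Then every p-th power of an element of Z(S) that lies in the centre of N lies in the centre of F; and if p is odd, or if the symmetric group of degree 4 is not involved in any model of the normalizer system of a fully normalized F-centric subgroup (F is S₄-free), then the centre of N equals the centre of F. -/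
theorem result {Ω : Type*} [Group Ω] {S : Subgroup Ω} [Finite S] (p : ℕ) [Fact p.Prime] (hS : IsPGroup p S) (F : Cfsg.FusionSystem S) (hF : F.IsSaturated p) (N : Cfsg.FusionSystem (Cfsg.FusionSystem.normalizerIn S (Cfsg.thompsonSubgroupAOf S))) (hN : F.IsNormalizerSystem (Cfsg.thompsonSubgroupAOf S) N) : Subgroup.closure ((fun z : Ω => z ^ p) '' ((S ⊓ Subgroup.centralizer (S : Set Ω) : Subgroup Ω) : Set Ω)) ⊓ N.center ≤ F.center ∧ (p ≠ 2 ∨ F.IsSectionFree p (Equiv.Perm (Fin 4)) → N.center = F.center) := by
  classical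
  have hJe : wSub fJ S = Cfsg.thompsonSubgroupAOf S := fJ_map_subtype' S
  have hJS : Cfsg.thompsonSubgroupAOf S ≤ S := Subgroup.map_subtype_le _
  have hNS : normalizerIn S (Cfsg.thompsonSubgroupAOf S) = S := by
    refine le_antisymm normalizerIn_le (le_trans (le_normalizerIn le_rfl) ?_)
    have h := fJ_invariant hS (le_rfl : S ≤ S)
    rwa [hJe] at h
  have hZN : ∀ x ∈ N.center, x ∈ S ∧ ∀ y ∈ S, y * x = x * y := fun x hx => by
    have := finite_of_le (normalizerIn_le : normalizerIn S (Cfsg.thompsonSubgroupAOf S) ≤ S)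
    exact ⟨normalizerIn_le ((isCentral_center N).1 hx),
      fun y hy => commute_of_mem_center hx y (hNS.ge hy)⟩
  have hfix : ∀ x ∈ N.center, FixAt F (wSub fJ S) x := fun x hx =>
    hJe ▸ fixAt_of_mem_center_normalizer hJS hN hx
  refine ⟨fun x hx => ?_, fun h => le_antisymm (fun x hx => ?_)
    (center_le_center_normalizer hJS hN hNS)⟩
  · obtain ⟨hxp, hxN⟩ := hx
    obtain ⟨hxS, hxc⟩ := hZN x hxN
    refine mem_center_of_fixAll hS hF hxS hxc
      (fixAll_of_fixAt hS hF hxS hxc (Or.inl ?_) (hfix x hxN))
    have hxp' : x ∈ Subgroup.closure ((fun z : Ω => z ^ p) ''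
        ((S ⊓ Subgroup.centralizer (S : Set Ω) : Subgroup Ω) : Set Ω)) := hxp
    clear hxp hxN hxS hxc
    induction hxp' using Subgroup.closure_induction with
    | mem y hy =>
      obtain ⟨z, hz, rfl⟩ := hy
      exact ⟨z, hz.1, fun w hw => Subgroup.mem_centralizer_iff.1 hz.2 w hw, rfl⟩
    | one => exact ⟨1, S.one_mem, fun w _ => by simp, one_pow _⟩
    | mul a b _ _ ha hb =>
      obtain ⟨u, hu, huc, rfl⟩ := ha
      obtain ⟨v, hv, hvc, rfl⟩ := hb
      exact ⟨u * v, S.mul_mem hu hv, fun w hw => by rw [← mul_assoc, huc w hw, mul_assoc, hvc w hw, ← mul_assoc],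
        (show Commute u v from hvc u hu).mul_pow p⟩
    | inv a _ ha =>
      obtain ⟨u, hu, huc, rfl⟩ := ha
      exact ⟨u⁻¹, S.inv_mem hu, fun w hw => ((show Commute w u from huc w hw).inv_right).eq, inv_pow _ _⟩
  · obtain ⟨hxS, hxc⟩ := hZN x hx
    exact mem_center_of_fixAll hS hF hxS hxc (fixAll_of_fixAt hS hF hxS hxc
      (Or.inr (h.imp id (locModels_of_free hS hF))) (hfix x hx))

end Cfsg.Agent.S5193
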