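import Cfsg.Statements.S5194
import Cfsg.Agent.Lib.Fusion.InnerThompson

set_option autoImplicit false
open Cfsg Cfsg.FusionSystem Cfsg.Lib.Fusion

namespace Cfsg.Agent.S5194

/-- Thompson's normal p-complement Theorem for fusion systems. Let F be a saturated fusion system over a finite p-group S such that p is odd or F is S₄-free (the symmetric group of degree 4 is not involved in any model of the normalizer system of a fully normalized F-centric subgroup), and let J(S) be the subgroup generated by the abelian subgroups of S of largest order. If the centralizer fusion system of Z(S) in F is the inner fusion system of C_S(Z(S)) = S and the normalizer fusion system of J(S) in F is the inner fusion system of N_S(J(S)) = S, then F is the inner fusion system of S. -/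
theorem result {Ω : Type*} [Group Ω] {S : Subgroup Ω} [Finite S] (p : ℕ) [Fact p.Prime] (hS : IsPGroup p S) (F : Cfsg.FusionSystem S) (hF : F.IsSaturated p) (hp : p ≠ 2 ∨ F.IsSectionFree p (Equiv.Perm (Fin 4))) (hC : ∀ C : Cfsg.FusionSystem (Cfsg.FusionSystem.centralizerIn S (S ⊓ Subgroup.centralizer (S : Set Ω))), F.IsCentralizerSystem (S ⊓ Subgroup.centralizer (S : Set Ω)) C → ∀ P : Subgroup Ω, C.Hom P = (Cfsg.innerFusionSystem (Cfsg.FusionSystem.centralizerIn S (S ⊓ Subgroup.centralizer (S : Set Ω)))).Hom P) (hN : ∀ N : Cfsg.FusionSystem (Cfsg.FusionSystem.normalizerIn S (Cfsg.thompsonSubgroupAOf S)), F.IsNormalizerSystem (Cfsg.thompsonSubgroupAOf S) N → ∀ P : Subgroup Ω, N.Hom P = (Cfsg.innerFusionSystem (Cfsg.FusionSystem.normalizerIn S (Cfsg.thompsonSubgroupAOf S))).Hom P) : ∀ P : Subgroup Ω, F.Hom P = (Cfsg.innerFusionSystem S).Hom P := by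
  classical
  set Z := S ⊓ Subgroup.centralizer (S : Set Ω) with hZdef
  set J := Cfsg.thompsonSubgroupAOf S with hJdef
  have hbot : ((⊥ : Subgroup Ω).subgroupOf S).Characteristic := by
    rw [Subgroup.bot_subgroupOf]; infer_instance
  have hJe : wQuot fJ S ⊥ = J := by
    rw [wQuot_bot fJ (p := p) (fun Q R _ _ _ => fJ_map Q R) hS, wSub, fJ_map_subtype']
  have hZe : wQuot fZ S ⊥ = Z := by
    rw [wQuot_bot fZ (p := p) (fun Q R _ _ _ => fZ_map Q R) hS, wSub, fZ_map_subtype]
  have hJc : (J.subgroupOf S).Characteristic :=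
    hJe ▸ wQuot_aut fJ (fun Q R _ _ _ => fJ_map Q R) hS hbot
  have hJS : J ≤ S := hJe ▸ wQuot_le fJ S ⊥
  have hJn : (J.subgroupOf S).Normal := inferInstance
  have hSJ : S ≤ normalizerIn S J :=
    le_inf le_rfl ((Subgroup.normal_subgroupOf_iff_le_normalizer hJS).1 hJn)
  have hJA : AutPAt F p J := by
    have hE := autP_of_innerSys (isPGroup_of_le hS normalizerIn_le)
      (innerSys_iff.2 (hN _ (isNormalizerSystem_normalizerExt (F := F) (Q := J) hJS)))
    intro R f hJR hR hf hfR hfJ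
    exact hE R f (mor_normalizerExt_of_invariant hJS le_rfl hJR hR hf hfR hfJ) hfR
  have hZS : Z ≤ S := inf_le_left
  have hSZ : centralizerIn S Z = S := le_antisymm centralizerIn_le
    (le_inf le_rfl (Subgroup.le_centralizer_iff.1 inf_le_right))
  have hSNZ : normalizerIn S Z = S := le_antisymm normalizerIn_le fun c hc =>
    mem_normalizerIn_of_conj hZS hc fun x hx => by
      rwa [Subgroup.mem_centralizer_iff.1 hx.2 c hc, mul_inv_cancel_right]
  have hCA := autP_of_innerSys (isPGroup_of_le hS centralizerIn_le)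
    (innerSys_iff.2 (hC _ (isCentralizerSystem_centralizerExt (F := F) (Q := Z) hZS)))
  refine (autP_iff_hom hS hF).1 (autP_of_thompson hS hF hp isNormal_bot pAct_bot (hJe ▸ hJA) ?_)
  rw [hZe]
  intro R f hZR hR hf hfR hfZ
  -- a power of `p` fixes `Z`
  have hZfn : F.IsFullyNormalized Z := ⟨hZS, fun R _ => by
    rw [hSNZ]
    exact Nat.card_le_card_of_injective _ (Subgroup.inclusion_injective normalizerIn_le)⟩
  obtain ⟨γ, hγ, hγe⟩ :=
    (isReceptive_iff.1 (receptive_of_fullyNormalized hS hF hZfn)).2 Z f (hf.restrict hZR) hfZ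
  have hγS : Cfsg.Lib.Fusion.Mor F S γ :=
    hγ.restrict (hSZ.symm.le.trans centralizerIn_le_extN)
  have hγi : img S γ = S := hγS.img_eq_of_card_le le_rfl (fun x hx => hγS.mem hx) le_rfl
  obtain ⟨α, -, hαe⟩ := hγS.exists_aut hγi
  have hγJ : img J γ = J := by
    refine (hγS.restrict hJS).img_eq_of_card_le hJS (fun x hx => ?_) le_rfl
    have h1 : α ⟨x, hJS hx⟩ ∈ J.subgroupOf S :=
      Subgroup.characteristic_iff_map_le.1 hJc α ⟨⟨x, hJS hx⟩, hx, rfl⟩
    rw [← hαe x (hJS hx), autFun_apply α (hJS hx)]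
    exact h1
  obtain ⟨a, ha⟩ := hJA S γ hJS hSJ hγS hγi hγJ
  have hfa : ∀ x ∈ Z, f^[p ^ a] x = x := fun x hx => by
    rw [← (iterate_congr (fun y hy => hfZ ▸ mem_img_of_mem hy) hγe _ x hx).1]
    exact ha x (hZS hx)
  obtain ⟨hfa1, hfa2⟩ := mor_iterate hf hfR (p ^ a)
  obtain ⟨φ, hφ, he⟩ := hfa1.exists_hom
  have hM : Cfsg.Lib.Fusion.Mor (centralizerExt F Z (centralizerIn S Z) hZS le_rfl) R f^[p ^ a] :=
    ⟨φ, ⟨hSZ.symm ▸ hf.le, fun x => hSZ.symm ▸ (he x ▸ hfa1.mem x.2), f^[p ^ a],
      hfa1.source_congr (sup_eq_left.2 hZR).symm, he, hfa⟩, he⟩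
  obtain ⟨b, hb⟩ := hCA R _ hM hfa2
  refine ⟨a + b, fun x hx => ?_⟩
  rw [pow_add, Function.iterate_mul]
  exact hb x hx

end Cfsg.Agent.S5194
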