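import Cfsg.Statements.S5195
import Cfsg.Agent.Lib.Fusion.InnerThompson

set_option autoImplicit false
open Cfsg Cfsg.FusionSystem Cfsg.Lib.Fusion

namespace Cfsg.Agent.S5195

/-- A strengthened Frobenius normal p-complement criterion for fusion systems. Let F be a saturated fusion system over a finite p-group S such that p is odd or F is S₄-free (the symmetric group of degree 4 is not involved in any model of the normalizer system of a fully normalized F-centric subgroup). If Aut_F(Q) is a p-group for every nontrivial characteristic subgroup Q of S, then F is the inner fusion system of S. -/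
theorem result {Ω : Type*} [Group Ω] {S : Subgroup Ω} [Finite S] (p : ℕ) [Fact p.Prime] (hS : IsPGroup p S) (F : Cfsg.FusionSystem S) (hF : F.IsSaturated p) (hp : p ≠ 2 ∨ F.IsSectionFree p (Equiv.Perm (Fin 4))) (h : ∀ Q : Subgroup Ω, Q ≤ S → Q ≠ ⊥ → (Q.subgroupOf S).Characteristic → IsPGroup p (F.autGroup Q)) : ∀ P : Subgroup Ω, F.Hom P = (Cfsg.innerFusionSystem S).Hom P := by
  classical
  have hAut : ∀ Q R f, Cfsg.Lib.Fusion.Mor F R f → Q = R → img R f = R →
      (Q.subgroupOf S).Characteristic → ∃ a : ℕ, ∀ x ∈ R, f^[p ^ a] x = x := by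
    rintro Q R f hf rfl hfR hchar
    by_cases hQ : Q = ⊥
    · refine ⟨0, fun x hx => ?_⟩
      rw [hQ, Subgroup.mem_bot] at hx
      subst hx
      simpa using hf.map_one
    · exact pGroup_aut_periodic (h Q hf.le hQ hchar) hf hfR
  suffices hall : ∀ X, X ≤ S → (X.subgroupOf S).Characteristic → AutPAt F p X by
    refine (autP_iff_hom hS hF).1 fun R f hf hfR => ?_
    refine hall ⊥ bot_le ?_ R f bot_le ?_ hf hfR ?_
    · rw [Subgroup.bot_subgroupOf]; infer_instance
    · exact fun c hc => mem_normalizerIn_of_conj bot_le (hf.le hc) fun x hx => by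
        rw [Subgroup.mem_bot] at hx; subst hx; simp
    · refine le_antisymm (img_le fun x hx => ?_) bot_le
      rw [Subgroup.mem_bot] at hx
      subst hx
      simpa using hf.map_one
  intro X
  induction' hm : Nat.card S - Nat.card X using Nat.strong_induction_on with m ih generalizing X
  intro hXS hchar
  by_cases hXe : X = S
  · intro R f hXR hR hf hfR _
    have hRS : R = S := le_antisymm hf.le (hXe ▸ hXR)
    exact hAut X R f hf (hXe.trans hRS.symm) hfR hchar
  have hN : (X.subgroupOf S).Normal := inferInstance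
  have hSX : S ≤ normalizerIn S X :=
    le_inf le_rfl ((Subgroup.normal_subgroupOf_iff_le_normalizer hXS).1 hN)
  obtain ⟨hE, hXn, hsub, hat⟩ := normalizerExt_over hS hF hXS hSX
  refine hat (thompsonClaim hS hF hp _ S _ le_rfl hE hsub ?_ rfl X hXn ?_ ?_ ?_)
  · intro U hU hEU
    have hfn : F.IsFullyNormalized X := ⟨hXS, fun R _ => by
      rw [le_antisymm normalizerIn_le hSX]
      exact Nat.card_le_card_of_injective _ (Subgroup.inclusion_injective normalizerIn_le)⟩
    have hd : LocalData F (normalizerExt F X S hXS hSX) X (fun _ => True) :=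
      ⟨hXS, fun c => by simp [le_antisymm normalizerIn_le hSX],
        fun P f => by rw [mor_normalizerExt_iff]; simp, fun g hg => by
          obtain ⟨D, m, hm, h1, h2, h3, h4⟩ := (localData_normalizerExt hS hF hfn).back g hg
          exact ⟨D, m, hm, h1, h2, h3, h4⟩⟩
    exact hd.centric_lift (qCond_true X) ((le_sSup (a := X) hXn).trans hEU) hU
  · intro f hf
    obtain ⟨k, -, -, hkX⟩ := (isNormal_iff.1 hXn).2 X f hf
    have hfX : img X f = X := hf.img_eq_of_card_le hXS
      (fun x hx => StronglyClosed.mem (stronglyClosed_of_isNormal hXn) hf hx hx) le_rfl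
    exact hAut X X f (hsub X f hf) rfl hfX hchar
  all_goals
    intro R f hWR hR hf hfR hfW
    refine ih _ ?_ _ rfl (wQuot_le _ S X) ?_ R f hWR hR (hsub R f hf) hfR hfW
  · have h1 := lt_wQuot fJ (p := p) (fun Q _ _ => fJ_ne_bot Q) hS (lt_of_le_of_ne hXS hXe)
      ((Subgroup.normal_subgroupOf_iff_le_normalizer hXS).1 hN)
    have h2 := card_lt_of_lt (wQuot_le fJ S X) h1
    have h3 := card_le_of_le le_rfl (wQuot_le fJ S X)
    omega
  · exact wQuot_aut fJ (fun Q R _ _ _ => fJ_map Q R) hS hchar
  · have h1 := lt_wQuot fZ (p := p) (fun Q _ _ => fZ_ne_bot Q) hS (lt_of_le_of_ne hXS hXe)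
      ((Subgroup.normal_subgroupOf_iff_le_normalizer hXS).1 hN)
    have h2 := card_lt_of_lt (wQuot_le fZ S X) h1
    have h3 := card_le_of_le le_rfl (wQuot_le fZ S X)
    omega
  · exact wQuot_aut fZ (fun Q R _ _ _ => fZ_map Q R) hS hchar

end Cfsg.Agent.S5195
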