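import Cfsg.Statements.S5196
import Mathlib
import Cfsg.Agent.Lib.Fusion.WeakControl
-- import your own Cfsg.Agent.* helpers here

set_option autoImplicit false
universe u
open Cfsg Cfsg.FusionSystem Cfsg.Lib.Fusion

namespace Cfsg.Agent.S5196

/-- Let p be an odd prime and W a positive characteristic p-functor: W assigns to every finite p-group Q (in a fixed universe) a subgroup W(Q), nontrivial when Q is, carried to W(R) by every isomorphism Q ≅ R; assume also Z(Q) ≤ W(Q) for every finite p-group Q. Suppose W satisfies the local condition: for every finite group G with Sylow p-subgroup P, O_p(G) ∩ Z(G) = O_p(G) ∩ Z(N_G(W(P))). Then W controls weak closure of elements in every saturated fusion system F over a finite p-group S: the centre of the normalizer fusion system of W(S) in F equals the centre of F. (For p = 2 no functor satisfies the local condition, so p is taken odd.) -/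
theorem result {p : ℕ} [Fact p.Prime] (hp : p ≠ 2) (W : ∀ (Q : Type u) [Group Q], Subgroup Q) (hW1 : ∀ (Q : Type u) [Group Q] [Finite Q], IsPGroup p Q → Nontrivial Q → W Q ≠ ⊥) (hW2 : ∀ (Q R : Type u) [Group Q] [Group R] [Finite Q], IsPGroup p Q → ∀ φ : Q ≃* R, (W Q).map φ.toMonoidHom = W R) (hWZ : ∀ (Q : Type u) [Group Q] [Finite Q], IsPGroup p Q → Subgroup.center Q ≤ W Q) (hC : ∀ (G : Type u) [Group G] [Finite G] (P : Sylow p G), Cfsg.pCore p G ⊓ Subgroup.center G = Cfsg.pCore p G ⊓ (Subgroup.center ↥(Subgroup.normalizer (((W ↥(P : Subgroup G)).map (P : Subgroup G).subtype : Subgroup G) : Set G))).map (Subgroup.normalizer (((W ↥(P : Subgroup G)).map (P : Subgroup G).subtype : Subgroup G) : Set G)).subtype) {Ω : Type u} [Group Ω] {S : Subgroup Ω} [Finite S] (hS : IsPGroup p S) (F : Cfsg.FusionSystem S) (hF : F.IsSaturated p) (N : Cfsg.FusionSystem (Cfsg.FusionSystem.normalizerIn S ((W ↥S).map S.subtype))) (hN : F.IsNormalizerSystem ((W ↥S).map S.subtype) N) : N.center = F.center := by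
  have hWS : S ≤ normalizerIn S (wSub W S) := by
    have h1 := normalizerIn_le_normalizerIn_wSub W hW2 hS (le_rfl : S ≤ S)
    rwa [normalizerIn_self] at h1
  refine le_antisymm (fun x hx => ?_)
    (Cfsg.Lib.Fusion.center_le_normalizer_center (Cfsg.Lib.Fusion.wSub_le W S) hWS hN)
  obtain ⟨hxS, hxc, hxg⟩ :=
    Cfsg.Lib.Fusion.fix_of_mem_normalizer_center (Cfsg.Lib.Fusion.wSub_le W S) hWS hN hx
  have hG : Cfsg.Lib.Fusion.GroupControl p W 1 := by
    intro L _ _ P z hcore hzP hzc hzN g
    rw [pow_one] at hzN ⊢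
    have hzO : z ∈ Cfsg.pCore p L := hcore (Subgroup.mem_centralizer_iff.2 fun t ht =>
      mul_inv_eq_iff_eq_mul.1 (hzc t (Cfsg.Lib.Solv.pCore_le_sylow p P ht)))
    set V := (W ↥(P : Subgroup L)).map (P : Subgroup L).subtype
    have hzN' : z ∈ Subgroup.normalizer (V : Set L) := by
      refine Subgroup.mem_normalizer_iff.2 fun y => ?_
      constructor
      · intro hy
        have h1 := hzc y (Subgroup.map_subtype_le _ hy)
        rw [mul_inv_eq_iff_eq_mul] at h1
        rwa [← h1, mul_inv_cancel_right]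
      · intro hy
        have h1 := hzc _ (Subgroup.map_subtype_le _ hy)
        have h2 : z * y * z⁻¹ * z = z * (z * y * z⁻¹) := by
          rwa [mul_inv_eq_iff_eq_mul] at h1
        have h3 : z * y * z⁻¹ = y := by
          rw [inv_mul_cancel_right] at h2
          exact (mul_left_cancel h2).symm
        rwa [h3] at hy
    have hzZ : z ∈ (Subgroup.center ↥(Subgroup.normalizer (V : Set L))).map
        (Subgroup.normalizer (V : Set L)).subtype :=
      ⟨⟨z, hzN'⟩, Subgroup.mem_center_iff.2 fun t =>
        Subtype.ext (mul_inv_eq_iff_eq_mul.1 (hzN t t.2)), rfl⟩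
    have h4 : z ∈ Cfsg.pCore p L ⊓ Subgroup.center L := by
      rw [hC L P]
      exact ⟨hzO, hzZ⟩
    rw [mul_inv_eq_iff_eq_mul]
    exact Subgroup.mem_center_iff.1 h4.2 g
  have hxW : x ∈ Cfsg.Lib.Fusion.wSub W S := Cfsg.Lib.Fusion.mem_wSub W hWZ hS hxS hxc
  have h := Cfsg.Lib.Fusion.mem_center_of_control W hW2 hWZ hG hS hF hxS hxc
    (fun g hg hgi => by rw [pow_one]; exact hxg g hg hgi hxW)
  rwa [pow_one] at h

end Cfsg.Agent.S5196
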