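import Cfsg.Statements.S5198
import Cfsg.Agent.Lib.Fusion.ModClosed
import Cfsg.Agent.Lib.Fusion.Hyperfocal

set_option autoImplicit false
open Cfsg
open scoped commutatorElement

namespace Cfsg.Agent.S5198

/-- Let F be a saturated fusion system over a finite p-group S and T a subgroup of S strongly closed in F (so T is normal in S). Then every element x of the hyperfocal subgroup of F acts on T by conjugation as an element of O^p(Aut_F(T))·Inn(T): there is an automorphism of T in the subgroup generated by the elements of Aut_F(T) of order prime to p together with the inner automorphisms of T that agrees with conjugation by x. -/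
theorem result {Ω : Type*} [Group Ω] {S : Subgroup Ω} [Finite S] (p : ℕ) [Fact p.Prime] (hS : IsPGroup p S) (F : Cfsg.FusionSystem S) (hF : F.IsSaturated p) (T : Subgroup Ω) (hT : F.StronglyClosed T) : ∀ x ∈ F.hyperfocalSubgroup p, ∃ α ∈ ((Cfsg.pResidual p ↥(F.autGroup T)).map (F.autGroup T).subtype ⊔ Cfsg.Inn ↥T : Subgroup (MulAut ↥T)), ∀ t : ↥T, ((α t : ↥T) : Ω) = x * (t : Ω) * x⁻¹ := by
  have hTS : T ≤ S := hT.1
  have := Cfsg.Lib.Fusion.finite_mulAut_of_le hTS
  classical
  let A := F.autGroup T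
  let R : Subgroup A := Cfsg.pResidual p A
  let I : Subgroup A := (Cfsg.Inn T).subgroupOf A
  haveI : R.Normal := Cfsg.Lib.Transfer.pResidual_normal (G := A) p
  haveI : I.Normal := ⟨fun a ha g => Cfsg.Lib.Fusion.conj_mem_inn (α := (g : MulAut T)) ha⟩
  let N : Subgroup A := R ⊔ I
  haveI : N.Normal := Subgroup.sup_normal R I
  let Q := A ⧸ N
  have hQ : IsPGroup p Q := by
    intro q
    obtain ⟨a, rfl⟩ := QuotientGroup.mk'_surjective N q
    set k := (orderOf a).factorization p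
    refine ⟨k, ?_⟩
    rw [← map_pow]
    refine (QuotientGroup.eq_one_iff _).2 (Subgroup.mem_sup_left (Subgroup.subset_closure ?_))
    show Nat.Coprime (orderOf (a ^ p ^ k)) p
    rw [orderOf_pow, Nat.gcd_eq_right (Nat.ordProj_dvd _ p)]
    exact (Nat.coprime_ordCompl Fact.out (orderOf_pos a).ne').symm
  have hSn : ∀ s ∈ S, s ∈ Cfsg.FusionSystem.normalizerIn S T := fun s hs =>
    Cfsg.Lib.Fusion.mem_normalizerIn_of_conj hTS hs
      fun x hx => Cfsg.Lib.Fusion.StronglyClosed.conj_mem hT hs hx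
  let ψ : ↥S →* A :=
    (((Cfsg.Lib.Fusion.conjAut S T).comp (Subgroup.inclusion hSn)).codRestrict A fun s =>
      Cfsg.Lib.Fusion.autInducedBy_le_autGroup hTS (Cfsg.Lib.Fusion.range_conjAut S T ▸ ⟨_, rfl⟩))
  let π : ↥S →* Q := (QuotientGroup.mk' N).comp ψ
  let g : Ω → Q := fun x => if h : x ∈ S then π ⟨x, h⟩ else 1
  have hg : ∀ x (h : x ∈ S), g x = π ⟨x, h⟩ := fun x h => dif_pos h
  have hgmul : ∀ x ∈ S, ∀ y ∈ S, g (x * y) = g x * g y := fun x hx y hy => by
    rw [hg x hx, hg y hy, hg _ (S.mul_mem hx hy), ← map_mul]; rfl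
  have hψ : ∀ (s : Ω) (hs : s ∈ S), ∀ t ∈ T,
      Cfsg.Lib.Fusion.autFun ((ψ ⟨s, hs⟩ : A) : MulAut T) t = s * t * s⁻¹ :=
    fun s hs t ht => Cfsg.Lib.Fusion.autFun_conjAut (K := S) ⟨s, hSn s hs⟩ ht
  have hgT : ∀ t ∈ T, g t = 1 := fun t ht => by
    rw [hg t (hTS ht)]
    refine (QuotientGroup.eq_one_iff _).2 (Subgroup.mem_sup_right ?_)
    show ((ψ ⟨t, hTS ht⟩ : A) : MulAut T) ∈ Cfsg.Inn T
    rw [Cfsg.Lib.Fusion.inn_eq_autInducedBy, Cfsg.Lib.Fusion.mem_autInducedBy_iff]
    exact ⟨t, ht, hψ t (hTS ht)⟩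
  -- a map moves images inside their conjugacy class
  have hconj : ∀ (P : Subgroup Ω) (f : Ω → Ω), Cfsg.Lib.Fusion.Mor F P f → ∀ x ∈ P,
      ∃ b : Q, g (f x) = b * g x * b⁻¹ := by
    intro P f hf x hx
    obtain ⟨-, k, hk, hke⟩ := Cfsg.Lib.Fusion.goodMod_of_mor hS hF hT P f hf
    have hi : Cfsg.Lib.Fusion.img T k = T := (hk.restrict le_sup_right).img_eq_of_card_le hTS
      (fun y hy => Cfsg.Lib.Fusion.StronglyClosed.mem hT hk (Subgroup.mem_sup_right hy) hy) le_rfl
    obtain ⟨β, hβ, hβe⟩ := (hk.restrict (le_sup_right : T ≤ P ⊔ T)).exists_aut hi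
    have hxS : x ∈ S := hf.le hx
    have hxPT : x ∈ P ⊔ T := Subgroup.mem_sup_left hx
    have hkS : k x ∈ S := hk.mem hxPT
    have h1 : g (f x) = g (k x) := by
      have := hgmul (k x) hkS _ (hTS (hke x hx))
      rwa [mul_inv_cancel_left, hgT _ (hke x hx), mul_one] at this
    refine ⟨QuotientGroup.mk' N ⟨β, hβ⟩, ?_⟩
    rw [h1, hg _ hkS, hg _ hxS]
    show QuotientGroup.mk' N (ψ ⟨k x, hkS⟩) = _ * QuotientGroup.mk' N (ψ ⟨x, hxS⟩) * _
    rw [← map_inv, ← map_mul, ← map_mul]
    congr 1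
    rw [eq_mul_inv_iff_mul_eq]
    refine Subtype.ext (Cfsg.Lib.Fusion.aut_ext fun t ht => ?_)
    rw [Subgroup.coe_mul, Subgroup.coe_mul, Cfsg.Lib.Fusion.autFun_mul _ _ ht,
      Cfsg.Lib.Fusion.autFun_mul _ _ ht, hψ x hxS t ht,
      hψ (k x) hkS _ (Cfsg.Lib.Fusion.autFun_mem β ht), hβe t ht,
      hβe _ (Cfsg.Lib.Fusion.StronglyClosed.conj_mem hT hxS ht),
      hk.map_conj hxPT (Subgroup.mem_sup_right ht)]
  -- automorphisms of order prime to `p` fix the images
  have hfix : ∀ (P : Subgroup Ω), P ≤ S → ∀ γ ∈ Cfsg.pResidual p (F.autGroup P), ∀ x ∈ P,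
      g (Cfsg.Lib.Fusion.autFun (γ : MulAut P) x) = g x := by
    intro P hP γ hγ
    induction hγ using Subgroup.closure_induction with
    | mem a ha =>
      haveI : Finite Q := inferInstance
      haveI : Group.IsNilpotent Q := hQ.isNilpotent
      obtain ⟨m, hm⟩ := Subgroup.nilpotent_iff_lowerCentralSeries.1 (inferInstance : Group.IsNilpotent Q)
      suffices key : ∀ i, ∀ x ∈ P, (g x)⁻¹ * g (Cfsg.Lib.Fusion.autFun (a : MulAut P) x) ∈
          (⊤ : Subgroup Q).lowerCentralSeries i by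
        intro x hx
        have := key m x hx
        rw [hm, Subgroup.mem_bot, inv_mul_eq_one] at this
        exact this.symm
      intro i
      induction i with
      | zero => intro x _; rw [Subgroup.lowerCentralSeries_zero]; exact Subgroup.mem_top _
      | succ i ih =>
        intro x hx
        set L := (⊤ : Subgroup Q).lowerCentralSeries (i + 1)
        have hn : ∀ γ : F.autGroup P, ∀ z ∈ P, g z ∈ (⊤ : Subgroup Q).lowerCentralSeries i →
            (QuotientGroup.mk' L) (g (Cfsg.Lib.Fusion.autFun (γ : MulAut P) z)) =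
              QuotientGroup.mk' L (g z) := by
          intro γ z hz hzi
          obtain ⟨b, hb⟩ := hconj P _ ((Cfsg.Lib.Fusion.mem_autGroup_iff hP).1 γ.2) z hz
          rw [hb]
          refine QuotientGroup.eq.2 ?_
          have h3 : (b * g z * b⁻¹)⁻¹ * g z =
              b * ⁅(g z)⁻¹, b⁻¹⁆ * b⁻¹ := by
            rw [commutatorElement_def]; group
          rw [h3]
          refine (inferInstance : L.Normal).conj_mem _ ?_ b
          exact Subgroup.commutator_mem_commutator
            (Subgroup.inv_mem _ hzi) (Subgroup.mem_top _)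
        set y := x⁻¹ * Cfsg.Lib.Fusion.autFun (a : MulAut P) x with hy
        have hyP : y ∈ P := P.mul_mem (P.inv_mem hx) (Cfsg.Lib.Fusion.autFun_mem _ hx)
        have hginv : g x⁻¹ = (g x)⁻¹ := by
          rw [hg _ (hP (P.inv_mem hx)), hg _ (hP hx), ← map_inv]; rfl
        have hgy : g y = (g x)⁻¹ * g (Cfsg.Lib.Fusion.autFun (a : MulAut P) x) := by
          rw [hy, hgmul _ (hP (P.inv_mem hx)) _ (hP (Cfsg.Lib.Fusion.autFun_mem _ hx)), hginv]
        have hit : ∀ n : ℕ,
            QuotientGroup.mk' L (g (Cfsg.Lib.Fusion.autFun ((a ^ n : F.autGroup P) : MulAut P) x)) =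
              QuotientGroup.mk' L (g x) * QuotientGroup.mk' L (g y) ^ n := by
          intro n
          induction n with
          | zero => rw [pow_zero, pow_zero, mul_one, Subgroup.coe_one,
              Cfsg.Lib.Fusion.autFun_apply (1 : MulAut P) hx]; rfl
          | succ n ihn =>
            have e1 : Cfsg.Lib.Fusion.autFun ((a ^ (n + 1) : F.autGroup P) : MulAut P) x =
                Cfsg.Lib.Fusion.autFun ((a ^ n : F.autGroup P) : MulAut P) x *
                  Cfsg.Lib.Fusion.autFun ((a ^ n : F.autGroup P) : MulAut P) y := by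
              have hm' := (Cfsg.Lib.Fusion.mem_autGroup_iff hP).1 (a ^ n).2
              rw [← hm'.map_mul hx hyP, hy, mul_inv_cancel_left, pow_succ, Subgroup.coe_mul,
                Cfsg.Lib.Fusion.autFun_mul _ _ hx]
            rw [e1, hgmul _ (hP (Cfsg.Lib.Fusion.autFun_mem _ hx))
              _ (hP (Cfsg.Lib.Fusion.autFun_mem _ hyP)), map_mul, ihn,
              hn _ y hyP (hgy ▸ ih x hx), mul_assoc, ← pow_succ]
        have h1 := hit (orderOf a)
        rw [pow_orderOf_eq_one, Subgroup.coe_one, Cfsg.Lib.Fusion.autFun_apply (1 : MulAut P) hx] at h1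
        have h2 : QuotientGroup.mk' L (g y) ^ orderOf a = 1 := mul_eq_left.1 h1.symm
        obtain ⟨e, he⟩ := hQ (g y)
        have h3 : orderOf (QuotientGroup.mk' L (g y)) = 1 :=
          Nat.eq_one_of_dvd_coprimes (Nat.Coprime.pow_right e ha) (orderOf_dvd_of_pow_eq_one h2)
            (orderOf_dvd_of_pow_eq_one (by rw [← map_pow, he, map_one]))
        rw [orderOf_eq_one_iff] at h3
        rw [← hgy]
        exact (QuotientGroup.eq_one_iff _).1 h3
    | one => intro x hx; rw [Subgroup.coe_one, Cfsg.Lib.Fusion.autFun_apply (1 : MulAut P) hx]; rfl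
    | mul a b _ _ ha hb =>
      intro x hx
      rw [Subgroup.coe_mul, Cfsg.Lib.Fusion.autFun_mul _ _ hx,
        ha _ (Cfsg.Lib.Fusion.autFun_mem _ hx), hb x hx]
    | inv a _ ha =>
      intro x hx
      have h1 := ha _ (Cfsg.Lib.Fusion.autFun_mem ((a : MulAut P)⁻¹) hx)
      rw [← Cfsg.Lib.Fusion.autFun_mul _ _ hx, mul_inv_cancel,
        Cfsg.Lib.Fusion.autFun_apply (1 : MulAut P) hx] at h1
      rw [Subgroup.coe_inv]
      exact h1.symm
  have hker : ∀ x ∈ F.hyperfocalSubgroup p, ∃ hx : x ∈ S, π ⟨x, hx⟩ = 1 := by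
    intro x hx
    induction hx using Subgroup.closure_induction with
    | mem z hz =>
      obtain ⟨P, α, u, hP, hα, rfl⟩ := hz
      have hu : (u : Ω)⁻¹ ∈ S := S.inv_mem (hP u.2)
      have hau : (((α : MulAut P) u : P) : Ω) ∈ S := hP ((α : MulAut P) u).2
      refine ⟨S.mul_mem hu hau, ?_⟩
      have h1 := hfix P hP α hα u u.2
      rw [Cfsg.Lib.Fusion.autFun_coe] at h1
      rw [← hg _ (S.mul_mem hu hau), hgmul _ hu _ hau, h1, ← hgmul _ hu _ (hP u.2), inv_mul_cancel,
        hg _ S.one_mem]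
      exact map_one π
    | one => exact ⟨S.one_mem, map_one π⟩
    | mul a b _ _ ha hb =>
      obtain ⟨haS, ha⟩ := ha
      obtain ⟨hbS, hb⟩ := hb
      refine ⟨S.mul_mem haS hbS, ?_⟩
      have := map_mul π ⟨a, haS⟩ ⟨b, hbS⟩
      rw [ha, hb, mul_one] at this
      exact this
    | inv a _ ha =>
      obtain ⟨haS, ha⟩ := ha
      refine ⟨S.inv_mem haS, ?_⟩
      have := map_inv π ⟨a, haS⟩
      rw [ha, inv_one] at this
      exact this
  intro x hx
  obtain ⟨hxS, hx1⟩ := hker x hx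
  refine ⟨((ψ ⟨x, hxS⟩ : A) : MulAut T), ?_, fun t => ?_⟩
  · have h1 : ψ ⟨x, hxS⟩ ∈ N := (QuotientGroup.eq_one_iff _).1 hx1
    have h2 : N.map A.subtype ≤ (Cfsg.pResidual p A).map A.subtype ⊔ Cfsg.Inn T := by
      rw [Subgroup.map_sup]
      exact sup_le_sup_left (Subgroup.map_subgroupOf_eq_of_le
        (Cfsg.Lib.Fusion.inn_le_autGroup hTS)).le _
    exact h2 ⟨_, h1, rfl⟩
  · have h1 := hψ x hxS t t.2
    rwa [Cfsg.Lib.Fusion.autFun_coe] at h1

end Cfsg.Agent.S5198
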