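import Cfsg.Statements.S5221
import Cfsg.Agent.Lib.Fusion.InnerThompson

set_option autoImplicit false
open Cfsg Cfsg.FusionSystem Cfsg.Lib.Fusion

namespace Cfsg.Agent.S5221

/-- Let F be a sparse fusion system over a finite p-group S: a saturated fusion system, not the inner fusion system of S, whose only saturated fusion systems over S contained in it are F itself and the inner one. If p is odd, or F is S₄-free (the symmetric group of degree 4 is not involved in any model of the normalizer system of a fully normalized F-centric subgroup), then F is constrained. -/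
theorem result {Ω : Type*} [Group Ω] {S : Subgroup Ω} [Finite S] (p : ℕ) [Fact p.Prime] (hS : IsPGroup p S) (F : Cfsg.FusionSystem S) (hF : F.IsSaturated p) (hsp : ¬ (∀ P : Subgroup Ω, F.Hom P = (Cfsg.innerFusionSystem S).Hom P) ∧ ∀ E : Cfsg.FusionSystem S, E.IsSaturated p → E.IsSubsystemOf F → (∀ P : Subgroup Ω, E.Hom P = F.Hom P) ∨ (∀ P : Subgroup Ω, E.Hom P = (Cfsg.innerFusionSystem S).Hom P)) (hp : p ≠ 2 ∨ F.IsSectionFree p (Equiv.Perm (Fin 4))) : F.IsConstrained p := by
  classical
  by_contra hcon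
  obtain ⟨hnI, hmax⟩ := hsp
  have hYn : F.IsNormal F.core := isNormal_core F
  set Y := F.core with hYdef
  have hc : ¬ F.IsCentric Y := fun hc => hcon ⟨hF, Y, hYn, hc⟩
  have hover : ∀ U, U ≤ S → S ≤ normalizerIn S U → ¬ F.IsNormal U → AutPAt F p U := by
    intro U hUS hSU hUn
    obtain ⟨hE, hEn, hsub, hat⟩ := normalizerExt_over hS hF hUS hSU
    rcases hmax _ hE (fun P φ hφ => mem_hom_iff_mor.2 (hsub P _ (mor_extFun hφ))) with heq | heq
    · refine absurd (isNormal_iff.2 ⟨hUS, fun P f hf => ?_⟩) hUn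
      obtain ⟨k, hk, hke, hki⟩ := (isNormal_iff.1 hEn).2 P f ((hom_eq_iff.1 (heq P) f).2 hf)
      exact ⟨k, hsub _ k hk, hke, hki⟩
    · exact hat ((autP_iff_hom hS hE).2 heq)
  obtain ⟨hUT, hTU, hUC, hUP⟩ := exists_ext_centralizer hS hF hYn
  have hpY : PAct F p Y := hUP (hover _ hUT hTU fun hn => hc (centric_of_le
    (centric_of_isNormal hn hUC) (le_sSup (a := Y ⊔ centralizerIn S Y) hn) hYn.1))
  have hSY : S ≤ Subgroup.normalizer (Y : Set Ω) :=
    StronglyClosed.le_normalizer (stronglyClosed_of_isNormal hYn)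
  have hYS : Y < S := lt_of_le_of_ne hYn.1 fun e =>
    hc (centric_of_isNormal hYn (e ▸ centralizerIn_le))
  refine hnI ((autP_iff_hom hS hF).1 (autP_of_thompson hS hF hp hYn hpY ?_ ?_))
  · have hlt := lt_wQuot fJ (p := p) (fun Q _ _ => fJ_ne_bot Q) hS hYS hSY
    have h1 := normalizerIn_le_normalizerIn_wQuot fJ (p := p) (fun Q R _ _ _ => fJ_map Q R) hS
      (le_rfl : S ≤ S) hYn.1 hSY
    rw [normalizerIn_self] at h1
    exact hover _ (wQuot_le fJ S Y) h1 fun hn => hlt.not_ge (le_sSup hn)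
  · have hlt := lt_wQuot fZ (p := p) (fun Q _ _ => fZ_ne_bot Q) hS hYS hSY
    have h1 := normalizerIn_le_normalizerIn_wQuot fZ (p := p) (fun Q R _ _ _ => fZ_map Q R) hS
      (le_rfl : S ≤ S) hYn.1 hSY
    rw [normalizerIn_self] at h1
    exact hover _ (wQuot_le fZ S Y) h1 fun hn => hlt.not_ge (le_sSup hn)

end Cfsg.Agent.S5221
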