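import Cfsg.Statements.S5222
import Mathlib
import Cfsg.Agent.Lib.Fusion.LocalSystem
import Cfsg.Agent.Lib.Fusion.LocalModel
-- import your own Cfsg.Agent.* helpers here

set_option autoImplicit false

open scoped commutatorElement
open Cfsg Cfsg.FusionSystem Cfsg.Lib.Fusion

namespace Cfsg.Agent.S5222

/-- Let F be a saturated fusion system over a finite p-group S whose normalizer fusion system of S is the inner fusion system of S (Aut_F(S) is a p-group). Then for every subgroup Q of S with [S, S] ≤ Q ≤ Φ(S), the normalizer fusion system of Q in F is the inner fusion system of N_S(Q) = S. -/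
theorem result {Ω : Type*} [Group Ω] {S : Subgroup Ω} [Finite S] (p : ℕ) [Fact p.Prime] (hS : IsPGroup p S) (F : Cfsg.FusionSystem S) (hF : F.IsSaturated p) (hN : ∀ N : Cfsg.FusionSystem (Cfsg.FusionSystem.normalizerIn S S), F.IsNormalizerSystem S N → ∀ P : Subgroup Ω, N.Hom P = (Cfsg.innerFusionSystem (Cfsg.FusionSystem.normalizerIn S S)).Hom P) (Q : Subgroup Ω) (h1 : (commutator ↥S).map S.subtype ≤ Q) (h2 : Q ≤ (frattini ↥S).map S.subtype) : ∀ N : Cfsg.FusionSystem (Cfsg.FusionSystem.normalizerIn S Q), F.IsNormalizerSystem Q N → ∀ P : Subgroup Ω, N.Hom P = (Cfsg.innerFusionSystem (Cfsg.FusionSystem.normalizerIn S Q)).Hom P := by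
  intro N hNQ
  have hQS : Q ≤ S := h2.trans (Subgroup.map_subtype_le _)
  have hcomm : ∀ a ∈ S, ∀ x ∈ S, x⁻¹ * (a * x * a⁻¹) ∈ Q := fun a ha x hx => by
    refine h1 ⟨_, Subgroup.commutator_mem_commutator
      (Subgroup.mem_top (⟨x, hx⟩⁻¹ : S)) (Subgroup.mem_top (⟨a, ha⟩ : S)), ?_⟩
    simp [commutatorElement_def, mul_assoc]
  have hTS : normalizerIn S Q = S := by
    refine le_antisymm normalizerIn_le fun c hc => mem_normalizerIn_of_conj hQS hc fun x hx => ?_
    simpa using Q.mul_mem hx (hcomm c hc x (hQS hx))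
  have hQfn : F.IsFullyNormalized Q :=
    ⟨hQS, fun R _ => by
      rw [hTS]
      exact Nat.card_le_card_of_injective _ (Subgroup.inclusion_injective normalizerIn_le)⟩
  have hsat := saturated_normalizerSystem hS hF hQfn hNQ
  have hmor := mor_of_isNormalizerSystem hNQ hQS
  have hQn : N.IsNormal Q := by
    refine isNormal_iff.2 ⟨hTS.symm ▸ hQS, fun P f hf => ?_⟩
    obtain ⟨hP, hfT, k, hk, hke, hkQ⟩ := (hmor P f).1 hf
    refine ⟨k, (hmor _ k).2 ⟨hTS.symm ▸ hk.le, fun x hx => hTS.symm ▸ hk.mem hx, k,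
      hk.source_congr (sup_eq_left.2 le_sup_right).symm, fun x _ => rfl, hkQ⟩, hke, hkQ⟩
  have htop : ∀ f, Mor N (normalizerIn S Q) f →
      ∃ c ∈ normalizerIn S Q, ∀ x ∈ normalizerIn S Q, f x = c * x * c⁻¹ := by
    intro f hf
    obtain ⟨-, hfT, k, hk, hke, hkQ⟩ := (hmor _ f).1 hf
    have hk' : Mor F S k := hk.restrict (hTS.symm ▸ le_sup_left)
    have hSS : S ≤ normalizerIn S S := normalizerIn_self.ge
    have hext : Mor (normalizerExt F S (normalizerIn S S) le_rfl le_rfl) S k :=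
      mor_normalizerExt_iff.2 ⟨hSS, fun x hx => hSS (hk'.mem hx), k,
        hk'.source_congr (sup_idem S).symm, fun x _ => rfl,
        hk'.img_eq_of_card_le le_rfl (fun x hx => hk'.mem hx) le_rfl⟩
    obtain ⟨φ, hφ, he⟩ := hext.exists_hom
    have h3 := hN (normalizerExt F S (normalizerIn S S) le_rfl le_rfl)
      (isNormalizerSystem_normalizerExt le_rfl) S
    rw [h3] at hφ
    obtain ⟨-, c, hc, hce⟩ := hφ
    refine ⟨c, hTS.symm ▸ normalizerIn_le hc, fun x hx => ?_⟩
    rw [← hke x hx, ← he ⟨x, normalizerIn_le hx⟩]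
    exact hce ⟨x, normalizerIn_le hx⟩
  refine fun P => Set.Subset.antisymm (fun φ hφ => ?_) fun φ hφ => ?_
  · have : Finite (normalizerIn S Q) := finite_of_le normalizerIn_le
    have hST : Q ≤ (frattini ↥(normalizerIn S Q)).map (normalizerIn S Q).subtype := hTS.symm ▸ h2
    obtain ⟨c, hc, hce⟩ := inner_of_normal_between (isPGroup_of_le hS normalizerIn_le) hsat hQn
      (fun a ha x hx => hcomm a (normalizerIn_le ha) x (normalizerIn_le hx)) hST htop
      (mor_extFun hφ)
    exact ⟨(N.le_of_mem hφ).1, c, hc, fun x => (extFun_coe φ x).symm.trans (hce x x.2)⟩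
  · obtain ⟨hP, c, hc, hce⟩ := hφ
    exact (mor_conj hP hc).mem_hom hce

end Cfsg.Agent.S5222
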