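import Cfsg.Statements.S5223
import Mathlib
import Cfsg.Agent.Lib.Fusion.ChainCriterion
import Cfsg.Agent.Lib.Fusion.InnerCriteria
-- import your own Cfsg.Agent.* helpers here

set_option autoImplicit false
open Cfsg

namespace Cfsg.Agent.S5223

/-- Let F be a saturated fusion system over a finite p-group S. Suppose there are subgroups Q₀ = S, Q₁, …, Qₙ = 1 (not required to be nested) such that for each i < n the focal subgroup of Qᵢ (generated by the elements x⁻¹φ(x), x ∈ Qᵢ, φ a map of F defined on the cyclic group generated by x) lies in Qᵢ₊₁. Then F is the inner fusion system of S. -/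
theorem result {Ω : Type*} [Group Ω] {S : Subgroup Ω} [Finite S] (p : ℕ) [Fact p.Prime] (hS : IsPGroup p S) (F : Cfsg.FusionSystem S) (hF : F.IsSaturated p) (n : ℕ) (Q : Fin (n + 1) → Subgroup Ω) (hQ0 : Q 0 = S) (hQn : Q (Fin.last n) = ⊥) (hstep : ∀ i : Fin n, Subgroup.closure {y : Ω | ∃ x ∈ Q i.castSucc, ∃ φ ∈ F.Hom (Subgroup.zpowers x), y = x⁻¹ * φ ⟨x, Subgroup.mem_zpowers x⟩} ≤ Q i.succ) : ∀ P : Subgroup Ω, F.Hom P = (Cfsg.innerFusionSystem S).Hom P := by
  have hstep' : ∀ i : Fin n, ∀ x ∈ Q i.castSucc, ∀ φ ∈ F.Hom (Subgroup.zpowers x),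
      x⁻¹ * φ ⟨x, Subgroup.mem_zpowers x⟩ ∈ Q i.succ := fun i x hx φ hφ =>
    hstep i (Subgroup.subset_closure ⟨x, hx, φ, hφ, rfl⟩)
  let W : ℕ → Subgroup Ω := fun m => ⨅ (j : Fin (n + 1)) (_ : (j : ℕ) ≤ n - m), Q j
  refine (Cfsg.Lib.Fusion.autP_iff_hom hS hF).1 fun R f hf hfi => ?_
  have hR : R ≤ S := hf.le
  have hW0 : W 0 = ⊥ := eq_bot_iff.2 ((iInf₂_le (Fin.last n) (by simp)).trans hQn.le)
  have hWn : ∀ x ∈ R, x ∈ W n := fun x hx => by
    simp only [W, Subgroup.mem_iInf, Nat.sub_self, Nat.le_zero]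
    intro j hj
    rw [show j = 0 from Fin.ext hj, hQ0]
    exact hR hx
  have hA : IsPGroup p (F.autGroup R) := by
    refine Cfsg.Lib.Fusion.isPGroup_of_stabilizes hS hR W n hW0 hWn fun γ hγ i hi x hx hxW => ?_
    have hm := (Cfsg.Lib.Fusion.mem_autGroup_iff hR).1 hγ
    obtain ⟨φ, hφ, he⟩ := (hm.restrict (Subgroup.zpowers_le.2 hx)).exists_hom
    simp only [W, Subgroup.mem_iInf] at hxW ⊢
    intro j hj
    rcases Fin.eq_zero_or_eq_succ j with rfl | ⟨k, rfl⟩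
    · rw [hQ0]
      exact S.mul_mem (S.inv_mem (hR hx)) (hm.mem hx)
    · have := hstep' k x (hxW k.castSucc (by simp at hj ⊢; omega)) φ hφ
      rwa [he ⟨x, Subgroup.mem_zpowers x⟩] at this
  obtain ⟨α, hα, hαe⟩ := hf.exists_aut hfi
  obtain ⟨a, ha⟩ := hA ⟨α, hα⟩
  refine ⟨a, fun x hx => ?_⟩
  have hit : ∀ m, ∀ y ∈ R, f^[m] y = (Cfsg.Lib.Fusion.autFun α)^[m] y := fun m => by
    induction m with
    | zero => intro y _; rfl
    | succ m ih =>
      intro y hy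
      rw [Function.iterate_succ_apply, Function.iterate_succ_apply,
        ih _ (hfi ▸ Cfsg.Lib.Fusion.mem_img_of_mem hy), hαe y hy]
  rw [hit _ x hx, Cfsg.Lib.Fusion.iterate_autFun α _ x hx,
    show α ^ p ^ a = 1 from congrArg Subtype.val ha, Cfsg.Lib.Fusion.autFun_apply (1 : MulAut R) hx]
  rfl

end Cfsg.Agent.S5223
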