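import Cfsg.Statements.S5226
import Mathlib
import Cfsg.Agent.Lib.Fusion.ChainCriterion
-- import your own Cfsg.Agent.* helpers here

set_option autoImplicit false
open Cfsg

namespace Cfsg.Agent.S5226

/-- Let F be a saturated fusion system over a finite p-group S and Q a subgroup of S. Then Q is normal in F (F equals the normalizer system of Q) if and only if Q is strongly closed in F and admits a central series 1 = Q₀ ≤ Q₁ ≤ ⋯ ≤ Qₙ = Q ([Qᵢ₊₁, Q] ≤ Qᵢ) all of whose proper terms are weakly closed in F. -/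
theorem result {Ω : Type*} [Group Ω] {S : Subgroup Ω} [Finite S] (p : ℕ) [Fact p.Prime] (hS : IsPGroup p S) (F : Cfsg.FusionSystem S) (hF : F.IsSaturated p) (Q : Subgroup Ω) : F.IsNormal Q ↔ F.StronglyClosed Q ∧ ∃ (n : ℕ) (C : Fin (n + 1) → Subgroup Ω), C 0 = ⊥ ∧ C (Fin.last n) = Q ∧ Monotone C ∧ (∀ i : Fin n, ⁅C i.succ, Q⁆ ≤ C i.castSucc) ∧ ∀ i : Fin n, F.WeaklyClosed (C i.castSucc) := by
  constructor
  · intro hQn
    refine ⟨Cfsg.Lib.Fusion.stronglyClosed_of_isNormal hQn, ?_⟩
    obtain ⟨n, hn⟩ := Cfsg.Lib.Fusion.exists_lowerCentralSeries_eq_bot hS hQn.1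
    refine ⟨n, fun i => Q.lowerCentralSeries (n - i), by simpa using hn, by simp, ?_, ?_, ?_⟩
    · suffices hanti : Antitone fun k => Q.lowerCentralSeries k from
        fun i j hij => hanti (Nat.sub_le_sub_left (Fin.le_def.1 hij) n)
      refine antitone_nat_of_succ_le fun k => ?_
      rw [Subgroup.lowerCentralSeries_succ]
      induction k with
      | zero => simpa using Q.commutator_le_self
      | succ k ih => rw [Subgroup.lowerCentralSeries_succ]; exact Subgroup.commutator_mono ih le_rfl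
    · intro i
      show ⁅Q.lowerCentralSeries (n - (i.succ : ℕ)), Q⁆ ≤ Q.lowerCentralSeries (n - (i.castSucc : ℕ))
      rw [show n - ((i.castSucc : Fin (n + 1)) : ℕ) = (n - ((i.succ : Fin (n + 1)) : ℕ)) + 1 by
        simp only [Fin.val_castSucc, Fin.val_succ]; omega, Subgroup.lowerCentralSeries_succ]
    · intro i
      have hsc := Cfsg.Lib.Fusion.stronglyClosed_of_isNormal
        (Cfsg.Lib.Fusion.isNormal_lowerCentralSeries hQn (n - (i.castSucc : ℕ)))
      refine ⟨hsc.1, fun φ hφ => ?_⟩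
      haveI := Cfsg.Lib.Fusion.finite_of_le hsc.1
      refine Subgroup.eq_of_le_of_card_ge (fun y ⟨x, hx⟩ => hx ▸ hsc.2 _ le_rfl φ hφ x) ?_
      exact le_of_eq (Nat.card_congr (MonoidHom.ofInjective (F.injective_of_mem hφ)).toEquiv)
  · rintro ⟨hQ, n, C, hC0, hCn, hmono, hcomm, hW⟩
    refine Cfsg.Lib.Fusion.isNormal_of_weak_series hS hF hQ (fun i => C ⟨min i n, by omega⟩) n ?_ ?_ ?_ ?_ ?_ ?_
    · simpa using hC0
    · simpa [Fin.last] using hCn
    · intro i hi
      exact hCn ▸ hmono (Fin.le_last _)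
    · intro i j hij hj
      exact hmono (Fin.mk_le_mk.2 (min_le_min_right n hij))
    · intro i hi
      have := hW ⟨i, hi⟩
      simpa [min_eq_left hi.le] using this
    · intro i hi a ha x hx
      have h1 : x ∈ C (⟨i, hi⟩ : Fin n).succ := by simpa [min_eq_left (Nat.succ_le_of_lt hi)] using hx
      have h2 := hcomm ⟨i, hi⟩ (Subgroup.commutator_mem_commutator ((C _).inv_mem h1) ha)
      simpa [commutatorElement_def, mul_assoc, min_eq_left hi.le] using h2

end Cfsg.Agent.S5226
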