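import Cfsg.Statements.S5236
import Mathlib
import Cfsg.Agent.Lib.Fusion.ChainCriterion
-- import your own Cfsg.Agent.* helpers here

set_option autoImplicit false
open Cfsg

namespace Cfsg.Agent.S5236

/-- Let p be an odd prime, F a saturated fusion system over a finite p-group S and P a subgroup of S strongly closed in F. Then P is normal in F if and only if Ω₁(P) (the subgroup generated by the elements of order p of P) has a chain of subgroups 1 = Q₀ ≤ Q₁ ≤ ⋯ ≤ Qₙ = Ω₁(P), each strongly closed in F, with [Qᵢ₊₁, P] ≤ Qᵢ for all i. -/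
theorem result {Ω : Type*} [Group Ω] {S : Subgroup Ω} [Finite S] (p : ℕ) [Fact p.Prime] (hS : IsPGroup p S) (F : Cfsg.FusionSystem S) (hF : F.IsSaturated p) (hp : p ≠ 2) (P : Subgroup Ω) (hP : F.StronglyClosed P) : F.IsNormal P ↔ ∃ (n : ℕ) (Q : Fin (n + 1) → Subgroup Ω), Q 0 = ⊥ ∧ Q (Fin.last n) = Cfsg.omegaOne p P ∧ Monotone Q ∧ (∀ i : Fin (n + 1), F.StronglyClosed (Q i)) ∧ ∀ i : Fin n, ⁅Q i.succ, P⁆ ≤ Q i.castSucc := by
  set Ω₁ := Cfsg.omegaOne p P
  have hΩP : Ω₁ ≤ P := (Subgroup.closure_le _).2 fun x hx => hx.1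
  have hsc_inf : ∀ A B : Subgroup Ω, F.StronglyClosed A → F.StronglyClosed B → F.StronglyClosed (A ⊓ B) :=
    fun A B hA hB => ⟨inf_le_left.trans hA.1, fun R hR φ hφ x =>
      ⟨hA.2 R (hR.trans inf_le_left) φ hφ x, hB.2 R (hR.trans inf_le_right) φ hφ x⟩⟩
  constructor
  · intro hPn
    obtain ⟨n, hn⟩ := Cfsg.Lib.Fusion.exists_lowerCentralSeries_eq_bot hS hPn.1
    have hΩn : F.IsNormal Ω₁ := by
      refine Cfsg.Lib.Fusion.isNormal_of_characteristic hPn hΩP (Subgroup.characteristic_iff_le_comap.2 fun e => ?_)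
      rintro ⟨x, hxP⟩ hx
      suffices h : ∀ y (hy : y ∈ Ω₁), ((e ⟨y, hΩP hy⟩ : P) : Ω) ∈ Ω₁ from h x hx
      intro y hy
      refine Subgroup.closure_induction (p := fun z hz => ((e ⟨z, hΩP hz⟩ : P) : Ω) ∈ Ω₁) ?_ ?_ ?_ ?_ hy
      · rintro z ⟨hzP, hzp⟩
        refine Subgroup.subset_closure ⟨(e _).2, ?_⟩
        have h1 : (⟨z, hzP⟩ : P) ^ p = 1 := Subtype.ext hzp
        have h2 : (e ⟨z, hzP⟩) ^ p = 1 := by rw [← map_pow, h1, map_one]
        exact congrArg Subtype.val h2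
      · have : e (⟨1, hΩP Ω₁.one_mem⟩ : P) = 1 := map_one e
        show ((e ⟨1, _⟩ : P) : Ω) ∈ Ω₁
        rw [this]; exact Ω₁.one_mem
      · intro a b ha hb iha ihb
        show ((e (⟨a, hΩP ha⟩ * ⟨b, hΩP hb⟩) : P) : Ω) ∈ Ω₁
        rw [map_mul]; exact Ω₁.mul_mem iha ihb
      · intro a ha iha
        show ((e (⟨a, hΩP ha⟩⁻¹) : P) : Ω) ∈ Ω₁
        rw [map_inv]; exact Ω₁.inv_mem iha
    refine ⟨n, fun i => Ω₁ ⊓ P.lowerCentralSeries (n - i), ?_, ?_, ?_, fun i => ?_, fun i => ?_⟩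
    · simp [hn]
    · simpa using inf_eq_left.2 hΩP
    · intro i j hij
      refine inf_le_inf_left _ ?_
      suffices hanti : Antitone fun k => P.lowerCentralSeries k from hanti (Nat.sub_le_sub_left (Fin.le_def.1 hij) n)
      refine antitone_nat_of_succ_le fun k => ?_
      rw [Subgroup.lowerCentralSeries_succ]
      induction k with
      | zero => simpa using P.commutator_le_self
      | succ k ih => rw [Subgroup.lowerCentralSeries_succ]; exact Subgroup.commutator_mono ih le_rfl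
    · exact hsc_inf _ _ (Cfsg.Lib.Fusion.stronglyClosed_of_isNormal hΩn)
        (Cfsg.Lib.Fusion.stronglyClosed_of_isNormal (Cfsg.Lib.Fusion.isNormal_lowerCentralSeries hPn _))
    · refine le_inf ((Subgroup.commutator_mono inf_le_left le_rfl).trans ?_) ((Subgroup.commutator_mono inf_le_right le_rfl).trans ?_)
      · refine Subgroup.commutator_le.2 fun a ha b hb => ?_
        have hb' := Cfsg.Lib.Fusion.StronglyClosed.le_normalizer (Cfsg.Lib.Fusion.stronglyClosed_of_isNormal hΩn) (hP.1 hb)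
        rw [commutatorElement_def, mul_assoc, mul_assoc, ← mul_assoc b]
        exact Ω₁.mul_mem ha ((Subgroup.mem_normalizer_iff.1 hb' _).1 (Ω₁.inv_mem ha))
      · rw [show n - ((i.castSucc : Fin (n + 1)) : ℕ) = (n - ((i.succ : Fin (n + 1)) : ℕ)) + 1 by
          simp only [Fin.val_castSucc, Fin.val_succ]; omega, Subgroup.lowerCentralSeries_succ]
  · rintro ⟨n, Q, hQ0, hQn, hmono, hQ, hcomm⟩
    refine Cfsg.Lib.Fusion.isNormal_of_omega_series hS hF hp hP (fun i => Q ⟨min i n, by omega⟩) n ?_ ?_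
      (fun i _ => hQ _) ?_
    · simpa using hQ0
    · simpa [Fin.last] using hQn
    · intro i hi a ha x hx
      have h1 : x ∈ Q (⟨i, hi⟩ : Fin n).succ := by simpa [min_eq_left (Nat.succ_le_of_lt hi)] using hx
      have h2 := hcomm ⟨i, hi⟩ (Subgroup.commutator_mem_commutator ((Q _).inv_mem h1) ha)
      simpa [commutatorElement_def, mul_assoc, min_eq_left hi.le] using h2

end Cfsg.Agent.S5236
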