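import Cfsg.Statements.S5244
import Cfsg.Agent.Lib.Fusion.UniqueAbelianMain

set_option autoImplicit false
open Cfsg Cfsg.FusionSystem Cfsg.Lib.Fusion

namespace Cfsg.Agent.S5244

/-- Let p be an odd prime, S a finite nonabelian p-group with a unique abelian subgroup A of index p, and F a saturated fusion system over S with no nontrivial normal subgroup (O_p(F) = 1) in which A is not F-essential. Then some subgroup Z(S)⟨x⟩ with x ∈ S outside A is F-essential, the centre Z(S) is contained in the commutator subgroup of S, and S has maximal nilpotency class (if S has order pⁿ with n ≥ 3, the term of index n − 2 of its lower central series, counting S itself as the term of index 0, is nontrivial). -/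
theorem result {Ω : Type*} [Group Ω] {S : Subgroup Ω} [Finite S] (p : ℕ) [Fact p.Prime] (hS : IsPGroup p S) (F : Cfsg.FusionSystem S) (hF : F.IsSaturated p) (hp : p ≠ 2) (hna : ¬ IsMulCommutative ↥S) (A : Subgroup Ω) (hA : A ≤ S ∧ IsMulCommutative ↥A ∧ (A.subgroupOf S).index = p) (huniq : ∀ B : Subgroup Ω, B ≤ S → IsMulCommutative ↥B → (B.subgroupOf S).index = p → B = A) (hcore : F.core = ⊥) (hAe : ¬ F.IsEssential p A) : (∃ x ∈ S, x ∉ A ∧ F.IsEssential p ((S ⊓ Subgroup.centralizer (S : Set Ω)) ⊔ Subgroup.zpowers x)) ∧ (S ⊓ Subgroup.centralizer (S : Set Ω)) ≤ (commutator ↥S).map S.subtype ∧ ∀ n : ℕ, Nat.card S = p ^ n → 3 ≤ n → Subgroup.lowerCentralSeries S (n - 2) ≠ ⊥ := by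
  have hSt := UniqueAbelian.setting_of hna hA huniq
  obtain ⟨⟨x, hxS, hxA, hx⟩, hZ0, hle⟩ := UniqueAbelian.centre_le_derived hS hSt hF hp hcore hAe
  refine ⟨⟨x, hxS, hxA, hx⟩, hle.trans (Subgroup.map_subtype_commutator S).ge, fun n hn h3 hbot => ?_⟩
  obtain ⟨j, rfl⟩ : ∃ j, n = j + 3 := ⟨n - 3, by omega⟩
  rw [show j + 3 - 2 = j + 1 by omega] at hbot
  rw [inf_eq_left.2 hle] at hZ0
  rw [UniqueAbelian.card_S_eq hS hSt, UniqueAbelian.card_A_eq hS hSt hxS hxA, hZ0,
    show p ^ (j + 3) = p * p ^ (j + 1) * p by ring] at hn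
  have hD := Nat.eq_of_mul_eq_mul_left (Nat.Prime.pos Fact.out)
    (Nat.eq_of_mul_eq_mul_right (Nat.Prime.pos Fact.out) hn)
  have h := UniqueAbelian.card_lcs hS hSt hxS hxA j
  rw [hD, hbot, Subgroup.card_bot, one_mul, inf_eq_left.2 hle, hZ0] at h
  exact absurd h (not_le.2 (Nat.pow_lt_pow_right (Nat.Prime.one_lt Fact.out) (by omega)))

end Cfsg.Agent.S5244
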