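import Cfsg.Statements.S5247
import Cfsg.Agent.Lib.Fusion.ExtSystem
import Cfsg.Agent.Lib.Fusion.Saturation
import Cfsg.Agent.Lib.Solv.Cores
-- import your own Cfsg.Agent.* helpers here

set_option autoImplicit false
set_option maxHeartbeats 1000000
open Cfsg Cfsg.Lib.Fusion

namespace Cfsg.Agent.S5247

/-- Let p be an odd prime and F a saturated fusion system over a finite p-group S. Call a fusion system E (over any subgroup) p-stable when, for every fully E-normalized subgroup Q and every χ ∈ Aut_E(Q) with χ(a⁻¹)·a·χ(a⁻¹)·χ(χ(a)) = 1 for all a ∈ Q (χ acts quadratically), χ lies in O_p(Aut_E(Q)). Then F is p-stable if and only if every normalizer fusion system N_F(R) of every non-cyclic fully F-normalized subgroup R of S is p-stable. -/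
theorem result {Ω : Type*} [Group Ω] {S : Subgroup Ω} [Finite S] (p : ℕ) [Fact p.Prime] (hS : IsPGroup p S) (F : Cfsg.FusionSystem S) (hF : F.IsSaturated p) (hp : p ≠ 2) : (∀ Q : Subgroup Ω, F.IsFullyNormalized Q → ∀ χ : MulAut ↥Q, χ ∈ F.autGroup Q → (∀ a : ↥Q, (χ a⁻¹) * a * (χ a⁻¹) * (χ (χ a)) = 1) → χ ∈ ((Cfsg.pCore p ↥(F.autGroup Q)).map (F.autGroup Q).subtype : Subgroup (MulAut ↥Q))) ↔ ∀ R : Subgroup Ω, F.IsFullyNormalized R → ¬ IsCyclic ↥R → ∀ N : Cfsg.FusionSystem (Cfsg.FusionSystem.normalizerIn S R), F.IsNormalizerSystem R N → (∀ Q : Subgroup Ω, N.IsFullyNormalized Q → ∀ χ : MulAut ↥Q, χ ∈ N.autGroup Q → (∀ a : ↥Q, (χ a⁻¹) * a * (χ a⁻¹) * (χ (χ a)) = 1) → χ ∈ ((Cfsg.pCore p ↥(N.autGroup Q)).map (N.autGroup Q).subtype : Subgroup (MulAut ↥Q))) := by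
  classical
  -- membership in the image of the `p`-core from a normal `p`-subgroup
  have hcore : ∀ {Q : Subgroup Ω} (A : Subgroup (MulAut Q)) (K : Subgroup (MulAut Q)),
      (∀ γ ∈ A, ∀ a ∈ K, γ * a * γ⁻¹ ∈ K) → IsPGroup p K → ∀ χ ∈ A, χ ∈ K →
      χ ∈ (Cfsg.pCore p A).map A.subtype := by
    intro Q A K hn hp' χ hχA hχK
    refine ⟨⟨χ, hχA⟩, ?_, rfl⟩
    refine Cfsg.Lib.Solv.le_pCore (N := K.subgroupOf A) ?_ ?_ (show (⟨χ, hχA⟩ : A) ∈ K.subgroupOf A from hχK)
    · exact ⟨fun a ha γ => hn γ γ.2 a ha⟩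
    · exact hp'.comap_of_injective A.subtype Subtype.val_injective
  constructor
  · intro h R hR _ N hN Q hQ χ hχ hquad
    have hNR : FusionSystem.normalizerIn S R ≤ S := normalizerIn_le
    have hQS : Q ≤ S := hQ.1.trans hNR
    have hle : N.autGroup Q ≤ F.autGroup Q := Subgroup.closure_mono fun γ hγ => by
      rw [Set.mem_setOf_eq, hN Q] at hγ
      exact hγ.1
    obtain ⟨Q', hQQ', hn'⟩ := exists_fullyNormalized F hQS
    obtain ⟨k, hk, hki⟩ := isConj_iff.1 hQQ'
    obtain ⟨e, he⟩ := hk.exists_equiv hki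
    have hmap := hk.map_autGroup_le e he
    have hQ'fin : Finite Q' := finite_of_le hn'.1
    have hfin := finite_mulAut_of_le (S := S) hn'.1
    set c := (MulAut.congr e).toMonoidHom
    have h1 : c χ ∈ (Cfsg.pCore p ↥(F.autGroup Q')).map (F.autGroup Q').subtype := by
      refine h Q' hn' _ (hmap ⟨χ, hle hχ, rfl⟩) fun b => ?_
      obtain ⟨a, rfl⟩ := e.surjective b
      have hc : ∀ x : Q, c χ (e x) = e (χ x) := fun x => by simp [c, MulAut.congr]
      rw [← map_inv, hc, hc, hc, ← map_mul, ← map_mul, ← map_mul, hquad a, map_one]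
    set K := ((Cfsg.pCore p ↥(F.autGroup Q')).map (F.autGroup Q').subtype).comap c
    refine hcore (N.autGroup Q) K (fun γ hγ a ha => ?_) ?_ χ hχ h1
    · obtain ⟨a', ha', hae⟩ := ha
      have hγ' : c γ ∈ F.autGroup Q' := hmap ⟨γ, hle hγ, rfl⟩
      refine ⟨⟨c γ, hγ'⟩ * a' * ⟨c γ, hγ'⟩⁻¹,
        Subgroup.Normal.conj_mem inferInstance _ ha' _, ?_⟩
      rw [MonoidHom.map_mul, MonoidHom.map_mul, MonoidHom.map_inv, MonoidHom.map_mul,
        MonoidHom.map_mul, MonoidHom.map_inv, hae, Subgroup.subtype_apply]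
    · exact ((Cfsg.Lib.Solv.isPGroup_pCore p).map _).comap_of_injective c
        (MulEquiv.injective _)
  · intro h Q hQ χ hχ hquad
    have hQS : Q ≤ S := hQ.1
    by_cases hcyc : IsCyclic Q
    · have hfin : Finite Q := finite_of_le hQS
      have hA := finite_mulAut_of_le (S := S) hQS
      have hcomm : ∀ α β : MulAut Q, α * β = β * α := fun α β =>
        (IsCyclic.mulAutMulEquiv (G := Q)).injective (by rw [map_mul, map_mul, mul_comm])
      have hQc : ∀ a b : Q, a * b = b * a := (IsCyclic.commGroup (α := Q)).mul_comm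
      refine hcore (F.autGroup Q) (Subgroup.zpowers χ) (fun γ _ a ha => ?_) ?_ χ hχ
        (Subgroup.mem_zpowers χ)
      · rwa [hcomm γ a, mul_inv_cancel_right]
      obtain ⟨k, hk⟩ := (isPGroup_of_le hS hQS).exists_card_eq
      have hδ : ∀ a : Q, χ (χ a * a⁻¹) = χ a * a⁻¹ := fun a => by
        have h1 := hquad a
        rw [map_inv] at h1
        have h2 : χ (χ a) * (χ a)⁻¹ = χ a * a⁻¹ := by
          apply mul_inv_eq_one.1
          calc χ (χ a) * (χ a)⁻¹ * (χ a * a⁻¹)⁻¹ = χ (χ a) * ((χ a)⁻¹ * a * (χ a)⁻¹) := by group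
            _ = (χ a)⁻¹ * a * (χ a)⁻¹ * χ (χ a) := hQc _ _
            _ = 1 := h1
        rw [map_mul, map_inv, h2]
      have hpow : ∀ (n : ℕ) (a : Q), (χ ^ n) a = a * (χ a * a⁻¹) ^ n := by
        intro n a
        induction n with
        | zero => simp
        | succ n ih =>
          rw [pow_succ', MulAut.mul_apply, ih, map_mul, map_pow, hδ, pow_succ' (χ a * a⁻¹),
            ← mul_assoc, hQc a (χ a * a⁻¹), inv_mul_cancel_right]
      refine IsPGroup.of_card_dvd_pow (n := k) ?_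
      rw [Nat.card_zpowers]
      refine orderOf_dvd_of_pow_eq_one (MulEquiv.ext fun a => ?_)
      rw [hpow, ← hk, pow_card_eq_one', mul_one, MulAut.one_apply]
    · have hle : Q ≤ FusionSystem.normalizerIn S Q := le_normalizerIn hQS
      obtain ⟨N, hN⟩ : ∃ N, F.IsNormalizerSystem Q N :=
        ⟨_, isNormalizerSystem_normalizerExt hQS⟩
      have heq : N.autGroup Q = F.autGroup Q := by
        refine le_antisymm (Subgroup.closure_mono fun γ hγ => ?_)
          (Subgroup.closure_mono fun γ hγ => ?_)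
        · rw [Set.mem_setOf_eq, hN Q] at hγ
          exact hγ.1
        · rw [Set.mem_setOf_eq, hN Q]
          refine ⟨hγ, hle, fun x => hle (γ x).2, ?_⟩
          have hm : Mor F (Q ⊔ Q) (autFun γ) :=
            (mor_autFun_iff.2 hγ).source_congr (sup_idem Q).symm
          obtain ⟨ψ, hψ, hψe⟩ := hm.exists_hom
          refine ⟨ψ, hψ, fun x => by rw [hψe]; exact autFun_coe γ x, ?_⟩
          rw [map_subgroupOf_eq_img hm le_sup_right hψe, img_autFun]
      have hnQ : N.IsFullyNormalized Q := by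
        refine ⟨hle, fun R hR => le_of_eq ?_⟩
        obtain ⟨φ, hφ, hrange⟩ := hR
        rw [hN Q] at hφ
        obtain ⟨-, -, -, ψ, hψ, hψe, hψQ⟩ := hφ
        suffices R = Q by rw [this]
        rw [← hrange]
        conv_rhs => rw [← hψQ]
        ext y
        constructor
        · rintro ⟨x, rfl⟩
          exact ⟨Subgroup.inclusion le_sup_left x, x.2, hψe x⟩
        · rintro ⟨⟨x, hx'⟩, hx, rfl⟩
          exact ⟨⟨x, hx⟩, (hψe ⟨x, hx⟩).symm⟩
      have := h Q hQ hcyc N hN Q hnQ χ (heq ▸ hχ) hquad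
      rwa [heq] at this

end Cfsg.Agent.S5247
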