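import Cfsg.Statements.S5251
import Cfsg.Agent.Lib.Fusion.NormalCriteria
import Cfsg.Agent.Lib.Fusion.Saturation
import Cfsg.Agent.Lib.Solv.Cores
-- import your own Cfsg.Agent.* helpers here

set_option autoImplicit false
set_option maxHeartbeats 800000
open Cfsg Cfsg.Lib.Fusion
open scoped Pointwise

namespace Cfsg.Agent.S5251

/-- Let F be a saturated fusion system over a finite p-group S, E a normal subsystem of F over T, and P an F-centric subgroup of S such that P ∩ T is not E-centric. Then some F-conjugate P* of P satisfies Out_S(P*) ∩ O_p(Out_F(P*)) ≠ 1: there is an element of N_S(P*) outside P* whose conjugation action on P* lies in O_p(Aut_F(P*)). In particular P is not both centric and radical in F. -/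
theorem result {Ω : Type*} [Group Ω] {S : Subgroup Ω} [Finite S] (p : ℕ) [Fact p.Prime] (hS : IsPGroup p S) (F : Cfsg.FusionSystem S) (hF : F.IsSaturated p) {T : Subgroup Ω} (E : Cfsg.FusionSystem T) (hE : E.IsNormalIn F p) (P : Subgroup Ω) (hP : F.IsCentric P) (hPT : ¬ E.IsCentric (P ⊓ T)) : (∃ φ ∈ F.Hom P, ∃ x ∈ S ⊓ Subgroup.normalizer (φ.range : Set Ω), x ∉ φ.range ∧ ∃ α ∈ ((Cfsg.pCore p ↥(F.autGroup φ.range)).map (F.autGroup φ.range).subtype : Subgroup (MulAut ↥φ.range)), ∀ y : ↥φ.range, ((α y : ↥φ.range) : Ω) = x * (y : Ω) * x⁻¹) ∧ ¬ F.IsRadical p P := by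
  classical
  have hinv := hE.1.2.2
  have hTc : F.StronglyClosed T := hinv.2.1
  have hTS : T ≤ S := hTc.1
  have hPS : P ≤ S := hP.1
  have hsub := hinv.1
  set U := P ⊓ T with hU
  obtain ⟨V, hUV, hV⟩ : ∃ V, E.IsConj U V ∧ ¬ FusionSystem.centralizerIn T V ≤ V := by
    by_contra h
    push Not at h
    exact hPT ⟨inf_le_right, h⟩
  have hUV' : F.IsConj U V := by
    obtain ⟨f, hf, hfi⟩ := isConj_iff.1 hUV
    exact isConj_iff.2 ⟨f, hf.of_subsystem hsub, hfi⟩
  obtain ⟨Q, hUQ, hnQ⟩ := exists_fullyNormalized F (inf_le_left.trans hPS : U ≤ S)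
  obtain ⟨k, hk, -, hki⟩ := exists_normalizerIn_map_of_fullyNormalized hS hF hnQ hUQ
  obtain ⟨k', hk', -, hki'⟩ :=
    exists_normalizerIn_map_of_fullyNormalized hS hF hnQ (isConj_trans (isConj_symm hUV') hUQ)
  have hTn : ∀ c ∈ S, ∀ x ∈ T, c * x * c⁻¹ ∈ T := fun c hc x hx => StronglyClosed.conj_mem hTc hc hx
  have hPN : P ≤ FusionSystem.normalizerIn S U := fun x hx => by
    refine mem_normalizerIn_iff.2 ⟨hPS hx, fun y => ⟨fun hy =>
      ⟨P.mul_mem (P.mul_mem hx hy.1) (P.inv_mem hx), hTn x (hPS hx) y hy.2⟩, fun hy => ?_⟩⟩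
    have h1 : x⁻¹ * (x * y * x⁻¹) * x⁻¹⁻¹ ∈ P :=
      P.mul_mem (P.mul_mem (P.inv_mem hx) hy.1) (P.inv_mem (P.inv_mem hx))
    have h2 := hTn x⁻¹ (S.inv_mem (hPS hx)) _ hy.2
    exact ⟨by simpa [mul_assoc] using h1, by simpa [mul_assoc] using h2⟩
  have hkP : Mor F P k := hk.restrict hPN
  set P' := img P k with hP'
  have hP'S : P' ≤ S := hkP.img_le_top
  have hP'c : F.IsCentric P' := centric_of_isConj hP hkP.isConj
  have hQT : Q ≤ T := by
    rw [← hki]
    exact img_le fun x hx => StronglyClosed.mem hTc hkP hx.1 hx.2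
  have hQeq : P' ⊓ T = Q := by
    refine le_antisymm (fun y hy => ?_) (le_inf (hki ▸ img_mono inf_le_left) hQT)
    obtain ⟨j, hj, hj1, -, -⟩ := hkP.exists_inv
    obtain ⟨x, hx, rfl⟩ := hkP.mem_img.1 hy.1
    have h1 := StronglyClosed.mem hTc hj hy.1 hy.2
    rw [hj1 x hx] at h1
    exact hki ▸ mem_img_of_mem (show x ∈ U from ⟨hx, h1⟩)
  -- the centralizer in `T` is not inside
  have hCQ : ¬ FusionSystem.centralizerIn T Q ≤ Q := by
    intro hle
    refine hV fun c hc => ?_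
    have hVS : V ≤ S := isConj_le_right hUV'
    have hcS : c ∈ FusionSystem.centralizerIn S V :=
      ⟨hTS (centralizerIn_le hc), hc.2⟩
    have hcN := centralizerIn_le_normalizerIn hcS
    have h1 := hk'.mem_centralizerIn (le_normalizerIn hVS) hcN hcS
    rw [hki'] at h1
    have h2 : k' c ∈ Q := hle ⟨StronglyClosed.mem hTc hk' hcN (centralizerIn_le hc), h1.2⟩
    rw [← hki'] at h2
    obtain ⟨v, hv, hve⟩ := (hk'.restrict (le_normalizerIn hVS)).mem_img.1 h2
    exact hk'.eq_of_eq (le_normalizerIn hVS hv) hcN hve ▸ hv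
  set R := FusionSystem.centralizerIn T Q
  have hRn : P' ≤ Subgroup.normalizer (R : Set Ω) := by
    have key : ∀ y ∈ P', ∀ r ∈ R, y * r * y⁻¹ ∈ R := by
      intro y hy r hr
      refine mem_centralizerIn_iff.2 ⟨hTn y (hP'S hy) r (centralizerIn_le hr), fun q hq => ?_⟩
      have hq' : y⁻¹ * q * y ∈ Q := by
        rw [← hQeq] at hq ⊢
        refine ⟨P'.mul_mem (P'.mul_mem (P'.inv_mem hy) hq.1) hy, ?_⟩
        have := hTn y⁻¹ (S.inv_mem (hP'S hy)) q hq.2
        rwa [inv_inv] at this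
      have h2 := (mem_centralizerIn_iff.1 hr).2 _ hq'
      calc y * r * y⁻¹ * q * (y * r * y⁻¹)⁻¹ = y * (r * (y⁻¹ * q * y) * r⁻¹) * y⁻¹ := by group
        _ = q := by rw [h2]; group
    intro y hy
    rw [Subgroup.mem_normalizer_iff]
    refine fun r => ⟨key y hy r, fun h => ?_⟩
    have := key y⁻¹ (P'.inv_mem hy) _ h
    simpa [mul_assoc] using this
  have hRS : R ≤ S := centralizerIn_le.trans hTS
  have hRP : ¬ R ≤ P' := fun h => hCQ fun r hr => hQeq ▸ ⟨h hr, centralizerIn_le hr⟩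
  obtain ⟨x, hxR, hxN, hxP⟩ : ∃ x ∈ R, x ∈ FusionSystem.normalizerIn S P' ∧ x ∉ P' := by
    by_contra h
    push Not at h
    have hlt : P' < P' ⊔ R := lt_of_le_of_ne le_sup_left fun e => hRP (le_sup_right.trans e.ge)
    obtain ⟨-, x, hx, hxP⟩ :=
      SetLike.lt_iff_le_and_exists.1 (normalizer_growth hS (sup_le hP'S hRS) hlt)
    have hmem : x ∈ ((P' : Set Ω) * (R : Set Ω)) := by
      rw [← Subgroup.coe_mul_of_left_le_normalizer_right P' R hRn]
      exact normalizerIn_le hx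
    obtain ⟨y, hy, r, hr, rfl⟩ := hmem
    refine hxP (P'.mul_mem hy (h r hr ?_))
    have hxS : y * r ∈ FusionSystem.normalizerIn S P' :=
      mem_normalizerIn_iff.2 ⟨S.mul_mem (hP'S hy) (hRS hr), (mem_normalizerIn_iff.1 hx).2⟩
    have h1 := (FusionSystem.normalizerIn S P').mul_mem
      ((FusionSystem.normalizerIn S P').inv_mem (le_normalizerIn hP'S hy)) hxS
    rwa [inv_mul_cancel_left] at h1
  set α : MulAut P' := conjAut S P' ⟨x, hxN⟩
  have hαA : α ∈ F.autGroup P' := autInducedBy_le_autGroup hP'S (range_conjAut S P' ▸ ⟨_, rfl⟩)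
  -- the stabilizer of the chain
  have hpres : ∀ δ ∈ F.autGroup P', ∀ q : P', (q : Ω) ∈ Q → ((δ q : P') : Ω) ∈ Q := by
    intro δ hδ q hq
    rw [← hQeq] at hq ⊢
    refine ⟨(δ q).2, ?_⟩
    rw [← autFun_coe]
    exact StronglyClosed.mem hTc ((mem_autGroup_iff hP'S).1 hδ) q.2 hq.2
  let St : Subgroup (MulAut P') :=
    { carrier := {γ | γ ∈ F.autGroup P' ∧ (∀ q : P', (q : Ω) ∈ Q → γ q = q) ∧
        ∀ q : P', ((q⁻¹ * γ q : P') : Ω) ∈ Q}
      one_mem' := ⟨(F.autGroup P').one_mem, fun _ _ => rfl, fun q => by simp [Q.one_mem]⟩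
      mul_mem' := by
        rintro a b ⟨ha, ha1, ha2⟩ ⟨hb, hb1, hb2⟩
        refine ⟨(F.autGroup P').mul_mem ha hb, fun q hq => by
          rw [MulAut.mul_apply, hb1 q hq, ha1 q hq], fun q => ?_⟩
        have e : q⁻¹ * (a * b) q = (q⁻¹ * b q) * ((b q)⁻¹ * a (b q)) := by
          rw [MulAut.mul_apply]; group
        rw [e, Subgroup.coe_mul]
        exact Q.mul_mem (hb2 q) (ha2 (b q))
      inv_mem' := by
        rintro a ⟨ha, ha1, ha2⟩
        refine ⟨(F.autGroup P').inv_mem ha, fun q hq => ?_, fun q => ?_⟩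
        · conv_lhs => rw [← ha1 q hq]
          simp
        · have h := ha2 (a⁻¹ q)
          rw [MulAut.inv_apply, MulEquiv.apply_symm_apply] at h
          have h' := Q.inv_mem h
          rw [← Subgroup.coe_inv, mul_inv_rev, inv_inv] at h'
          exact h' }
  have hαSt : α ∈ St := by
    have hα : ∀ y : P', ((α y : P') : Ω) = x * y * x⁻¹ := fun y => by
      rw [← autFun_coe]; exact autFun_conjAut _ y.2
    refine ⟨hαA, fun q hq => Subtype.ext ?_, fun q => ?_⟩
    · rw [hα]; exact (mem_centralizerIn_iff.1 hxR).2 _ hq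
    · rw [← hQeq]
      refine ⟨(q⁻¹ * α q).2, ?_⟩
      rw [Subgroup.coe_mul, Subgroup.coe_inv, hα,
        show (q : Ω)⁻¹ * (x * q * x⁻¹) = ((q : Ω)⁻¹ * x * (q : Ω)⁻¹⁻¹) * x⁻¹ by group]
      exact T.mul_mem (hTn _ (S.inv_mem (hP'S q.2)) x (centralizerIn_le hxR))
        (T.inv_mem (centralizerIn_le hxR))
  have hfin := finite_mulAut_of_le (S := S) hP'S
  have hStn : (St.subgroupOf (F.autGroup P')).Normal := by
    refine ⟨fun a ha δ => ?_⟩
    have hδ : ∀ q : P', (q : Ω) ∈ Q → (((δ : MulAut P')⁻¹ q : P') : Ω) ∈ Q :=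
      hpres _ ((F.autGroup P').inv_mem δ.2)
    obtain ⟨ha0, ha1, ha2⟩ := ha
    refine ⟨(δ * a * δ⁻¹).2, fun q hq => ?_, fun q => ?_⟩
    · show (δ : MulAut P') ((a : MulAut P') ((δ : MulAut P')⁻¹ q)) = q
      have h := ha1 _ (hδ q hq)
      simp only [Subgroup.subtype_apply] at h
      rw [h]
      simp
    · show ((q⁻¹ * (δ : MulAut P') ((a : MulAut P') ((δ : MulAut P')⁻¹ q)) : P') : Ω) ∈ Q
      have h := hpres δ δ.2 _ (ha2 ((δ : MulAut P')⁻¹ q))
      rw [map_mul, map_inv] at h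
      simpa using h
  have hStp : IsPGroup p (St.subgroupOf (F.autGroup P')) := by
    refine IsPGroup.comap_of_injective ?_ (F.autGroup P').subtype Subtype.val_injective
    refine isPGroup_of_stabilizes hS hP'S (fun i => if i = 0 then ⊥ else if i = 1 then Q else P') 2
      (by simp) (fun y hy => by simpa using hy) fun γ hγ i hi y hy hyW => ?_
    interval_cases i
    · simp only [zero_add, one_ne_zero, if_false, if_true] at hyW ⊢
      have := hγ.2.1 ⟨y, hy⟩ hyW
      rw [Subgroup.mem_bot, autFun_apply γ hy, this]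
      exact inv_mul_cancel y
    · simp only [one_ne_zero, if_false, if_true]
      rw [autFun_apply γ hy]
      exact hγ.2.2 ⟨y, hy⟩
  have hcore : α ∈ (Cfsg.pCore p ↥(F.autGroup P')).map (F.autGroup P').subtype :=
    ⟨⟨α, hαA⟩, Cfsg.Lib.Solv.le_pCore hStn hStp hαSt, rfl⟩
  refine ⟨?_, fun hrad => ?_⟩
  · obtain ⟨φ, hφ, hφe⟩ := hkP.exists_hom
    have hr : φ.range = P' := hkP.range_eq hφe
    refine ⟨φ, hφ, ?_⟩
    rw [hr]
    exact ⟨x, ⟨(mem_normalizerIn_iff.1 hxN).1, hxN.2⟩, hxP, α, hcore, fun y => by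
      rw [← autFun_coe]; exact autFun_conjAut _ y.2⟩
  · obtain ⟨e, he⟩ := hkP.exists_equiv rfl
    set c := (MulAut.congr e).toMonoidHom
    have hfinP := finite_mulAut_of_le (S := S) hPS
    have hmapA := hkP.map_autGroup e he
    obtain ⟨β, hβ, hβe⟩ : ∃ β ∈ F.autGroup P, c β = α := by
      rw [← hmapA] at hαA
      exact hαA
    set K := ((Cfsg.pCore p ↥(F.autGroup P')).map (F.autGroup P').subtype).comap c
    have hKn : (K.subgroupOf (F.autGroup P)).Normal := by
      refine ⟨fun a ha δ => ?_⟩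
      obtain ⟨a', ha', hae⟩ := ha
      have hδ' : c δ ∈ F.autGroup P' := hmapA ▸ ⟨δ, δ.2, rfl⟩
      refine ⟨⟨c δ, hδ'⟩ * a' * ⟨c δ, hδ'⟩⁻¹,
        Subgroup.Normal.conj_mem inferInstance _ ha' _, ?_⟩
      simp only [Subgroup.subtype_apply, Subgroup.coe_mul, Subgroup.coe_inv]
      rw [Subgroup.subtype_apply] at hae
      rw [hae]
      simp only [MonoidHom.map_mul, MonoidHom.map_inv, Subgroup.subtype_apply]
    have hKp : IsPGroup p (K.subgroupOf (F.autGroup P)) :=
      (((Cfsg.Lib.Solv.isPGroup_pCore p).map _).comap_of_injective c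
        (MulEquiv.injective _)).comap_of_injective (F.autGroup P).subtype Subtype.val_injective
    have hβK : c β ∈ (Cfsg.pCore p ↥(F.autGroup P')).map (F.autGroup P').subtype :=
      hβe.symm ▸ hcore
    have hβInn : β ∈ Inn P := by
      rw [← hrad.2]
      exact ⟨⟨β, hβ⟩, Cfsg.Lib.Solv.le_pCore hKn hKp hβK, rfl⟩
    rw [inn_eq_autInducedBy, mem_autInducedBy_iff] at hβInn
    obtain ⟨u, hu, hue⟩ := hβInn
    have hku : k u ∈ P' := mem_img_of_mem hu
    have hz : (k u)⁻¹ * x ∈ FusionSystem.centralizerIn S P' := by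
      refine mem_centralizerIn_iff.2
        ⟨S.mul_mem (S.inv_mem (hP'S hku)) (mem_normalizerIn_iff.1 hxN).1, fun y hy => ?_⟩
      obtain ⟨w, hw, rfl⟩ := hkP.mem_img.1 hy
      have h1 : ((α (e ⟨w, hw⟩) : P') : Ω) = x * k w * x⁻¹ := by
        rw [← autFun_coe, he]; exact autFun_conjAut _ hy
      have h2 : α (e ⟨w, hw⟩) = e (β ⟨w, hw⟩) := by
        rw [← hβe]; simp [c, MulAut.congr]
      rw [h2, he, ← autFun_coe, hue w hw, hkP.map_conj hu hw] at h1
      calc (k u)⁻¹ * x * k w * ((k u)⁻¹ * x)⁻¹ = (k u)⁻¹ * (x * k w * x⁻¹) * k u := by group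
        _ = k w := by rw [← h1]; group
    refine hxP ?_
    have := P'.mul_mem hku (hP'c.2 P' (isConj_refl hP'S) hz)
    rwa [mul_inv_cancel_left] at this

end Cfsg.Agent.S5251
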