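import Cfsg.Statements.S5253
import Mathlib
import Cfsg.Agent.Lib.Fusion.WeakControl
import Cfsg.Agent.Lib.Fusion.QuadraticControl
-- import your own Cfsg.Agent.* helpers here

set_option autoImplicit false
universe u
open Cfsg Cfsg.FusionSystem Cfsg.Lib.Fusion

namespace Cfsg.Agent.S5253

/-- Let p be a prime and W a positive characteristic p-functor with Z(Q) ≤ W(Q): W assigns to every finite p-group Q (in a fixed universe) a subgroup W(Q), nontrivial when Q is, carried to W(R) by every isomorphism Q ≅ R, and containing the centre of Q. Suppose that for every finite group G with Sylow p-subgroup P in which W(P) is not normal there is g ∈ P outside O_p(G) with [Z(O_p(G)), g, g] = 1. Then for every saturated fusion system F over a finite p-group S and every normalizer fusion system N of W(S) in F, every p-th power of an element of Z(S) that lies in the centre of N lies in the centre of F. -/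
theorem result {p : ℕ} [Fact p.Prime] (W : ∀ (Q : Type u) [Group Q], Subgroup Q) (hW1 : ∀ (Q : Type u) [Group Q] [Finite Q], IsPGroup p Q → Nontrivial Q → W Q ≠ ⊥) (hW2 : ∀ (Q R : Type u) [Group Q] [Group R] [Finite Q], IsPGroup p Q → ∀ φ : Q ≃* R, (W Q).map φ.toMonoidHom = W R) (hWZ : ∀ (Q : Type u) [Group Q] [Finite Q], IsPGroup p Q → Subgroup.center Q ≤ W Q) (hq : ∀ (G : Type u) [Group G] [Finite G] (P : Sylow p G), ¬ (((W ↥(P : Subgroup G)).map (P : Subgroup G).subtype : Subgroup G)).Normal → ∃ g : G, g ∈ (P : Subgroup G) ∧ g ∉ Cfsg.pCore p G ∧ ⁅⁅Subgroup.center ↥(Cfsg.pCore p G) |>.map (Cfsg.pCore p G).subtype, Subgroup.zpowers g⁆, Subgroup.zpowers g⁆ = ⊥) {Ω : Type u} [Group Ω] {S : Subgroup Ω} [Finite S] (hS : IsPGroup p S) (F : Cfsg.FusionSystem S) (hF : F.IsSaturated p) (N : Cfsg.FusionSystem (Cfsg.FusionSystem.normalizerIn S ((W ↥S).map S.subtype))) (hN : F.IsNormalizerSystem ((W ↥S).map S.subtype) N) : Subgroup.closure ((fun z => z ^ p) '' ((S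 ⊓ Subgroup.centralizer (S : Set Ω) : Subgroup Ω) : Set Ω)) ⊓ N.center ≤ F.center := by
  rintro x ⟨hxp, hxN⟩
  have hWS : S ≤ normalizerIn S (wSub W S) := by
    have h1 := normalizerIn_le_normalizerIn_wSub W hW2 hS (le_rfl : S ≤ S)
    rwa [normalizerIn_self] at h1
  set Z := S ⊓ Subgroup.centralizer (S : Set Ω) with hZ
  obtain ⟨z, hz, rfl⟩ : ∃ z ∈ Z, z ^ p = x := by
    refine Subgroup.closure_induction (p := fun x _ => ∃ z ∈ Z, z ^ p = x) ?_ ?_ ?_ ?_ hxp
    · rintro _ ⟨z, hz, rfl⟩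
      exact ⟨z, hz, rfl⟩
    · exact ⟨1, Z.one_mem, one_pow p⟩
    · rintro _ _ - - ⟨a, ha, rfl⟩ ⟨b, hb, rfl⟩
      refine ⟨a * b, Z.mul_mem ha hb, ?_⟩
      have hab : Commute a b := (Subgroup.mem_centralizer_iff.1 hb.2 a ha.1)
      exact hab.mul_pow p
    · rintro _ - ⟨a, ha, rfl⟩
      exact ⟨a⁻¹, Z.inv_mem ha, inv_pow a p⟩
  obtain ⟨-, -, hxg⟩ := fix_of_mem_normalizer_center (wSub_le W S) hWS hN hxN
  have hzc : ∀ t ∈ S, t * z * t⁻¹ = z := fun t ht =>
    mul_inv_eq_iff_eq_mul.2 (Subgroup.mem_centralizer_iff.1 hz.2 t ht)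
  exact mem_center_of_control W hW2 hWZ (groupControl_of_quadratic W hW2 hq) hS hF hz.1 hzc
    fun g hg hgi => hxg g hg hgi ((wSub W S).pow_mem (mem_wSub W hWZ hS hz.1 hzc) p)

end Cfsg.Agent.S5253
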