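import Cfsg.Statements.S5254
import Cfsg.Agent.Lib.Fusion.UniqueAbelianMain

set_option autoImplicit false
open Cfsg Cfsg.FusionSystem Cfsg.Lib.Fusion

namespace Cfsg.Agent.S5254

/-- Let p be an odd prime, S a finite nonabelian p-group with a unique abelian subgroup A of index p, and F a saturated fusion system over S. Then every F-essential subgroup P is A, or Z(S)⟨x⟩ for some x ∈ S outside A, or (when the second centre Z₂(S) lies in A) Z₂(S)⟨x⟩ for some x ∈ S outside A; and P has index p in its normalizer in S. -/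
theorem result {Ω : Type*} [Group Ω] {S : Subgroup Ω} [Finite S] (p : ℕ) [Fact p.Prime] (hS : IsPGroup p S) (F : Cfsg.FusionSystem S) (hF : F.IsSaturated p) (hp : p ≠ 2) (hna : ¬ IsMulCommutative ↥S) (A : Subgroup Ω) (hA : A ≤ S ∧ IsMulCommutative ↥A ∧ (A.subgroupOf S).index = p) (huniq : ∀ B : Subgroup Ω, B ≤ S → IsMulCommutative ↥B → (B.subgroupOf S).index = p → B = A) (P : Subgroup Ω) (hP : F.IsEssential p P) : (P = A ∨ (∃ x ∈ S, x ∉ A ∧ P = (S ⊓ Subgroup.centralizer (S : Set Ω)) ⊔ Subgroup.zpowers x) ∨ (((upperCentralSeries ↥S 2).map S.subtype) ≤ A ∧ ∃ x ∈ S, x ∉ A ∧ P = ((upperCentralSeries ↥S 2).map S.subtype) ⊔ Subgroup.zpowers x)) ∧ (P.subgroupOf (S ⊓ Subgroup.normalizer (P : Set Ω))).index = p := by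
  haveI := ‹Finite ↥S›
  have hSt := UniqueAbelian.setting_of hna hA huniq
  rcases eq_or_ne P A with rfl | hne
  · refine ⟨Or.inl rfl, ?_⟩
    rw [inf_eq_left.2 (UniqueAbelian.le_normalizer hS hSt)]
    exact hA.2.2
  obtain ⟨-, hD, hidx, x, hxS, hxA, -, ⟨-, hPe⟩ | ⟨-, hPe⟩⟩ :=
    UniqueAbelian.essential_shape hS hSt hP hF hne
  · exact ⟨Or.inr (Or.inl ⟨x, hxS, hxA, hPe⟩), hidx⟩
  · refine ⟨Or.inr (Or.inr ?_), hidx⟩
    rw [show (upperCentralSeries ↥S 2).map S.subtype = _ from UniqueAbelian.upperCentralSeries_two hS hSt hxS hxA hD]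
    exact ⟨fun a ha => ha.1, x, hxS, hxA, hPe⟩

end Cfsg.Agent.S5254
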