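import Cfsg.Statements.S5255
import Mathlib
import Cfsg.Agent.Lib.Fusion.SolvableSystem
-- import your own Cfsg.Agent.* helpers here

set_option autoImplicit false
open Cfsg

namespace Cfsg.Agent.S5255

open Cfsg.FusionSystem Cfsg.Lib.Fusion

/-- Let F be a saturated fusion system over a finite p-group S and T a subgroup of S strongly closed in F. Then T·C_S(T) is strongly closed in F. -/
theorem result {Ω : Type*} [Group Ω] {S : Subgroup Ω} [Finite S] (p : ℕ) [Fact p.Prime] (hS : IsPGroup p S) (F : Cfsg.FusionSystem S) (hF : F.IsSaturated p) (T : Subgroup Ω) (hT : F.StronglyClosed T) : F.StronglyClosed (T ⊔ Cfsg.FusionSystem.centralizerIn S T) := by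
  have hsup : T ⊔ centralizerIn S T ≤ S := sup_le hT.1 centralizerIn_le
  refine stronglyClosed_iff.2 ⟨hsup, fun R f hf x hxR hx => ?_⟩
  have hx' : x ∈ (centralizerIn S T) ⊔ T := by rwa [sup_comm]
  obtain ⟨c, hc, t, ht, rfl⟩ := exists_mul_of_mem_sup hT centralizerIn_le hx'
  obtain ⟨-, k, hk, hke⟩ := goodMod_of_mor hS hF hT R f hf
  have htk : t ∈ R ⊔ T := Subgroup.mem_sup_right ht
  have hck : c ∈ R ⊔ T := by
    have := (R ⊔ T).mul_mem (Subgroup.mem_sup_left hxR) ((R ⊔ T).inv_mem htk)
    rwa [mul_inv_cancel_right] at this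
  have himg : img T k = T := (hk.restrict le_sup_right).img_eq_of_card_le hT.1
    (fun y hy => StronglyClosed.mem hT hk (Subgroup.mem_sup_right hy) hy) le_rfl
  have hkc : k c ∈ centralizerIn S T := mem_centralizerIn_iff.2 ⟨hk.mem hck, fun y hy => by
    rw [← himg] at hy
    obtain ⟨z, hz, rfl⟩ := (hk.restrict le_sup_right).mem_img.1 hy
    rw [← hk.map_conj hck (Subgroup.mem_sup_right hz), (mem_centralizerIn_iff.1 hc).2 z hz]⟩
  have h1 := hke _ hxR
  rw [hk.map_mul hck htk] at h1
  have h2 : f (c * t) = k c * (k t * ((k c * k t)⁻¹ * f (c * t))) := by group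
  rw [h2, sup_comm]
  exact Subgroup.mul_mem_sup hkc (T.mul_mem (StronglyClosed.mem hT hk htk ht) h1)

end Cfsg.Agent.S5255
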