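import Cfsg.Statements.S5256
import Mathlib
import Cfsg.Agent.Lib.Fusion.FactorSystem
import Cfsg.Agent.Lib.Fusion.Hyperfocal
-- import your own Cfsg.Agent.* helpers here

set_option autoImplicit false
open Cfsg

namespace Cfsg.Agent.S5256

open Cfsg.FusionSystem Cfsg.Lib.Fusion

theorem mem_of_residual {p : ℕ} {M : Type*} [Group M] (K : Subgroup M) {g : M} (hg : g ∈ Cfsg.pResidual p M)
    (h : ∀ h : M, (orderOf h).Coprime p → h ∈ K) : g ∈ K :=
  (Subgroup.closure_le K).2 (fun x hx => h x hx) hg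

/-- Let F be a saturated fusion system over a finite p-group S, T a subgroup of S strongly closed in F, and E a factor system F/T realised along a homomorphism θ of S with kernel T. Then the hyperfocal subgroup of E is the image under θ of the hyperfocal subgroup of F (hyp(F/T) = T·hyp(F)/T). -/
theorem result {Ω : Type*} [Group Ω] {S : Subgroup Ω} [Finite S] (p : ℕ) [Fact p.Prime] (hS : IsPGroup p S) (F : Cfsg.FusionSystem S) (hF : F.IsSaturated p) (T : Subgroup Ω) (hT : F.StronglyClosed T) {Ω' : Type*} [Group Ω'] {S' : Subgroup Ω'} (θ : ↥S →* Ω') (E : Cfsg.FusionSystem S') (hE : F.IsFactorSystem T θ E) : E.hyperfocalSubgroup p = ((F.hyperfocalSubgroup p).subgroupOf S).map θ := by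
  obtain ⟨-, hker, hrange, -⟩ := id hE
  have hyS : F.hyperfocalSubgroup p ≤ S := hyperfocal_le
  show E.hyperfocalSubgroup p = imageAlong θ (F.hyperfocalSubgroup p)
  -- pointwise powers of compatible automorphisms
  have hpow : ∀ (R : Subgroup Ω) (hR : R ≤ S) (a : MulAut R) (b : MulAut (imageAlong θ R)),
      (∀ x ∈ R, autFun b (iotaFun θ x) = iotaFun θ (autFun a x)) →
      ∀ i : ℕ, ∀ x ∈ R, autFun (b ^ i) (iotaFun θ x) = iotaFun θ (autFun (a ^ i) x) := by
    intro R hR a b h i
    induction i with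
    | zero =>
      intro x hx
      rw [pow_zero, pow_zero, autFun_apply (1 : MulAut R) hx,
        autFun_apply (1 : MulAut (imageAlong θ R)) (iotaFun_mem_imageAlong hR hx)]
      rfl
    | succ i ih =>
      intro x hx
      rw [pow_succ, pow_succ, autFun_mul _ _ (iotaFun_mem_imageAlong hR hx), autFun_mul _ _ hx,
        h x hx, ih _ (autFun_mem a hx)]
  -- induced automorphisms
  have hind : ∀ (R : Subgroup Ω) (a : MulAut R), R ≤ S → a ∈ F.autGroup R →
      ∃ b ∈ E.autGroup (imageAlong θ R), ∀ x ∈ R, autFun b (iotaFun θ x) = iotaFun θ (autFun a x) := by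
    intro R a hR ha
    have hm := (mem_autGroup_iff hR).1 ha
    obtain ⟨φ, hφ, hφe⟩ := hm.exists_hom
    obtain ⟨φ', hi⟩ := exists_induced hT hker hφ
    have hge : ∀ x ∈ R, extFun φ' (iotaFun θ x) = iotaFun θ (autFun a x) := fun x hx =>
      ((inducedAlong_iff hR hφe fun z hz => hm.mem hz).1 hi x hx).2
    have hgm : φ' ∈ E.Hom (imageAlong θ R) := (hE.2.2.2 _ φ').2
      ⟨hrange ▸ imageAlong_le_range R, exists_induced_preimage hS hF hT hker hφ hi⟩
    have : Finite θ.range := Finite.of_surjective θ.rangeRestrict θ.rangeRestrict_surjective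
    have : Finite S' := hrange ▸ this
    have hm' := mor_extFun hgm
    obtain ⟨b, hb, hbe⟩ := hm'.exists_aut (hm'.img_eq_of_card_le (hrange ▸ imageAlong_le_range R)
      (fun y hy => by
        obtain ⟨x, hx, rfl⟩ := (mem_imageAlong hR).1 hy
        rw [hge x hx]
        exact iotaFun_mem_imageAlong hR (autFun_mem a hx)) le_rfl)
    exact ⟨b, hb, fun x hx => by rw [hbe _ (iotaFun_mem_imageAlong hR hx), hge x hx]⟩
  refine le_antisymm ((Subgroup.closure_le _).2 ?_) fun y hy => ?_
  · rintro _ ⟨P', a', y, hP', ha', rfl⟩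
    have hP'r : P' ≤ θ.range := hrange ▸ hP'
    rw [← autFun_coe]
    let C : Subgroup (E.autGroup P') :=
      { carrier := {c | ∀ z ∈ P', z⁻¹ * autFun (c : MulAut P') z ∈ imageAlong θ (F.hyperfocalSubgroup p)}
        one_mem' := fun z hz => by simp [autFun_apply _ hz]
        mul_mem' := fun {c d} hc hd z hz => by
          rw [Subgroup.coe_mul, autFun_mul _ _ hz]
          have := mul_mem (hd z hz) (hc _ (autFun_mem (d : MulAut P') hz))
          simpa [mul_assoc] using this
        inv_mem' := fun {c} hc z hz => by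
          have h1 := inv_mem (hc _ (autFun_mem (c : MulAut P')⁻¹ hz))
          rw [← autFun_mul _ _ hz, mul_inv_cancel, autFun_apply (1 : MulAut P') hz] at h1
          simpa using h1 }
    refine mem_of_residual C ha' (fun c hc => ?_) (y : Ω') y.2
    intro z hz
    set R := preimageAlong θ P' with hR
    have hRS : R ≤ S := preimageAlong_le
    obtain ⟨-, f, hf, hfe⟩ := (mor_factor_iff hE).1 ((mem_autGroup_iff hP').1 c.2)
    have hfi := preimageAlong_img hE hT ((mem_autGroup_iff hP').1 c.2) hf hfe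
    rw [img_autFun] at hfi
    obtain ⟨a, ha, hae⟩ := hf.exists_aut hfi
    have := finite_mulAut_of_le hRS
    obtain ⟨k, m, hm, hn⟩ := Nat.exists_eq_pow_mul_and_not_dvd (orderOf_pos (⟨a, ha⟩ : F.autGroup R)).ne' p
      (Fact.out : p.Prime).ne_one
    obtain ⟨t, ht⟩ := exists_pow_eq_self_of_coprime (x := c) (n := p ^ k) (Nat.Coprime.pow_left k hc.symm)
    set b : F.autGroup R := (⟨a, ha⟩ ^ p ^ k) ^ t with hb
    have hbres : b ∈ pResidual p (F.autGroup R) := by
      refine Subgroup.subset_closure ?_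
      show (orderOf b).Coprime p
      refine Nat.Coprime.coprime_dvd_left (orderOf_pow_dvd t) ?_
      rw [orderOf_pow_of_dvd (pow_ne_zero k (Fact.out : p.Prime).ne_zero) (hn ▸ dvd_mul_right _ m),
        hn, Nat.mul_div_cancel_left _ (pow_pos (Fact.out : p.Prime).pos k)]
      exact ((Fact.out : p.Prime).coprime_iff_not_dvd.2 hm).symm
    have hz' := hz
    rw [← imageAlong_preimageAlong hP'r] at hz'
    obtain ⟨x, hx, rfl⟩ := (mem_imageAlong hRS).1 hz'
    have hbx : x⁻¹ * autFun (b : MulAut R) x ∈ F.hyperfocalSubgroup p := by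
      have h1 := mem_hyperfocal_of_residual hRS hbres ⟨x, hx⟩
      rwa [autFun_apply _ hx]
    have hit : ∀ i : ℕ, ∀ w ∈ R, autFun ((c : MulAut P') ^ i) (iotaFun θ w) = iotaFun θ (autFun (a ^ i) w) := by
      intro i
      induction i with
      | zero =>
        intro w hw
        rw [pow_zero, pow_zero, autFun_apply (1 : MulAut R) hw,
          autFun_apply (1 : MulAut P') (mem_preimageAlong.1 hw).2]
        rfl
      | succ i ih =>
        intro w hw
        have hwP := (mem_preimageAlong.1 hw).2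
        rw [pow_succ, pow_succ, autFun_mul _ _ hwP, autFun_mul _ _ hw, hfe w hw, ← hae w hw,
          ih _ (autFun_mem a hw)]
    have h2 := hit (p ^ k * t) x hx
    rw [show (c : MulAut P') ^ (p ^ k * t) = (c : MulAut P') by
        rw [pow_mul, ← Subgroup.coe_pow, ← Subgroup.coe_pow, ht],
      show a ^ (p ^ k * t) = (b : MulAut R) by rw [hb, pow_mul, Subgroup.coe_pow, Subgroup.coe_pow]] at h2
    rw [h2, ← iotaFun_inv θ (hRS hx), ← iotaFun_mul θ (S.inv_mem (hRS hx)) (hRS (autFun_mem _ hx))]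
    exact iotaFun_mem_imageAlong hyS hbx
  · obtain ⟨w, hw, rfl⟩ := (mem_imageAlong hyS).1 hy
    let D : Subgroup Ω :=
      { carrier := {v | ∃ _ : v ∈ S, iotaFun θ v ∈ E.hyperfocalSubgroup p}
        one_mem' := ⟨S.one_mem, by rw [(iotaFun_eq_one_iff hker S.one_mem).2 T.one_mem]; exact one_mem _⟩
        mul_mem' := fun {u v} ⟨hu, hu'⟩ ⟨hv, hv'⟩ => ⟨S.mul_mem hu hv, by
          rw [iotaFun_mul θ hu hv]; exact mul_mem hu' hv'⟩
        inv_mem' := fun {u} ⟨hu, hu'⟩ => ⟨S.inv_mem hu, by rw [iotaFun_inv θ hu]; exact inv_mem hu'⟩ }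
    suffices h : F.hyperfocalSubgroup p ≤ D from (h hw).2
    refine (Subgroup.closure_le _).2 ?_
    rintro _ ⟨P, a, x, hP, ha, rfl⟩
    rw [← autFun_coe]
    have := finite_mulAut_of_le hP
    let C : Subgroup (F.autGroup P) :=
      { carrier := {c | ∀ z ∈ P, z⁻¹ * autFun (c : MulAut P) z ∈ D}
        one_mem' := fun z hz => by simp [autFun_apply _ hz]
        mul_mem' := fun {c d} hc hd z hz => by
          rw [Subgroup.coe_mul, autFun_mul _ _ hz]
          have := mul_mem (hd z hz) (hc _ (autFun_mem (d : MulAut P) hz))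
          simpa [mul_assoc] using this
        inv_mem' := fun {c} hc z hz => by
          have h1 := inv_mem (hc _ (autFun_mem (c : MulAut P)⁻¹ hz))
          rw [← autFun_mul _ _ hz, mul_inv_cancel, autFun_apply (1 : MulAut P) hz] at h1
          simpa using h1 }
    refine mem_of_residual C ha (fun c hc => ?_) (x : Ω) x.2
    intro z hz
    obtain ⟨b, hb, hbe⟩ := hind P (c : MulAut P) hP c.2
    have hb1 : (⟨b, hb⟩ : E.autGroup (imageAlong θ P)) ^ orderOf c = 1 := by
      refine Subtype.ext (aut_ext fun y hy => ?_)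
      obtain ⟨v, hv, rfl⟩ := (mem_imageAlong hP).1 hy
      rw [Subgroup.coe_pow, hpow P hP _ b hbe _ v hv, ← Subgroup.coe_pow, pow_orderOf_eq_one,
        Subgroup.coe_one, autFun_apply (1 : MulAut P) hv, Subgroup.coe_one,
        autFun_apply (1 : MulAut (imageAlong θ P)) hy]
      rfl
    have hbres : (⟨b, hb⟩ : E.autGroup (imageAlong θ P)) ∈ pResidual p _ :=
      Subgroup.subset_closure (Nat.Coprime.coprime_dvd_left (orderOf_dvd_of_pow_eq_one hb1) hc)
    refine ⟨S.mul_mem (S.inv_mem (hP hz)) (hP (autFun_mem _ hz)), ?_⟩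
    rw [iotaFun_mul θ (S.inv_mem (hP hz)) (hP (autFun_mem _ hz)), iotaFun_inv θ (hP hz), ← hbe z hz,
      autFun_apply b (iotaFun_mem_imageAlong hP hz)]
    exact mem_hyperfocal_of_residual (hrange ▸ imageAlong_le_range P) hbres ⟨_, iotaFun_mem_imageAlong hP hz⟩

end Cfsg.Agent.S5256
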