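import Cfsg.Statements.S5257
import Cfsg.Agent.Lib.Fusion.UniqueAbelianMain
import Cfsg.Agent.Lib.PLocal.ElementaryAbelian

set_option autoImplicit false
open Cfsg Cfsg.FusionSystem Cfsg.Lib.Fusion

namespace Cfsg.Agent.S5257

/-- Let p be an odd prime, S a finite nonabelian p-group with a unique abelian subgroup A of index p, and F a saturated fusion system over S having an F-essential subgroup other than A. Then the second centre Z₂(S) lies in A; Z(S) ∩ [S, S] has order p; Z(S)[S, S] has index p in A; Z(S) has index p in Z₂(S); and S/Z(S) has maximal nilpotency class (if S/Z(S) has order pᵐ with m ≥ 3 then the term of index m − 2 of the lower central series of S, counting S as index 0, is not contained in Z(S)). -/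
theorem result {Ω : Type*} [Group Ω] {S : Subgroup Ω} [Finite S] (p : ℕ) [Fact p.Prime] (hS : IsPGroup p S) (F : Cfsg.FusionSystem S) (hF : F.IsSaturated p) (hp : p ≠ 2) (hna : ¬ IsMulCommutative ↥S) (A : Subgroup Ω) (hA : A ≤ S ∧ IsMulCommutative ↥A ∧ (A.subgroupOf S).index = p) (huniq : ∀ B : Subgroup Ω, B ≤ S → IsMulCommutative ↥B → (B.subgroupOf S).index = p → B = A) (P : Subgroup Ω) (hP : F.IsEssential p P) (hPA : P ≠ A) : ((upperCentralSeries ↥S 2).map S.subtype) ≤ A ∧ Nat.card ↥((S ⊓ Subgroup.centralizer (S : Set Ω)) ⊓ ((commutator ↥S).map S.subtype)) = p ∧ (((S ⊓ Subgroup.centralizer (S : Set Ω)) ⊔ ((commutator ↥S).map S.subtype)).subgroupOf A).index = p ∧ (((S ⊓ Subgroup.centralizer (S : Set Ω))).subgroupOf ((upperCentralSeries ↥S 2).map S.subtype)).index = p ∧ ∀ m : ℕ, ((S ⊓ Subgroup.centralizer (S : Set Ω)).subgroupOf S).index = p ^ m → 3 ≤ m → ¬ Subgroup.lowerCentralSeries S (m - 2) ≤ (S ⊓ Subgroup.centralizer (S : Set Ω)) := by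
  have hSt := UniqueAbelian.setting_of hna hA huniq
  obtain ⟨hZ0, hD, -, x, hxS, hxA, -, -⟩ := UniqueAbelian.essential_shape hS hSt hP hF hPA
  rw [show (upperCentralSeries ↥S 2).map S.subtype = _ from UniqueAbelian.upperCentralSeries_two hS hSt hxS hxA hD, Subgroup.map_subtype_commutator]
  change _ ∧ Nat.card ↥(centralizerIn S S ⊓ ⁅S, S⁆) = p ∧ _
  have hZA : centralizerIn S S ≤ A := UniqueAbelian.centre_le hS hSt
  have hDA : ⁅S, S⁆ ≤ A := UniqueAbelian.derived_le_A hS hSt
  have hfin := Lib.Fusion.finite_of_le hA.1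
  have hfinZ := Lib.Fusion.finite_of_le (centralizerIn_le : centralizerIn S S ≤ S)
  refine ⟨fun a ha => ha.1, hZ0, ?_, ?_, fun m hm h3 =>
    UniqueAbelian.lcs_not_central hS hSt hxS hxA hZ0 hm h3⟩
  · have hc := Lib.PLocal.card_sup_mul_card_inf
      (A := centralizerIn S S) (B := ⁅S, S⁆) fun z hz => Subgroup.mem_centralizer_iff.2 fun d hd =>
        hSt.comm d (hDA hd) z (hZA hz)
    rw [hZ0, ← UniqueAbelian.card_A_eq hS hSt hxS hxA,
      ← ((centralizerIn S S ⊔ ⁅S, S⁆).subgroupOf A).card_mul_index,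
      Nat.card_congr (Subgroup.subgroupOfEquivOfLe (sup_le hZA hDA)).toEquiv] at hc
    have := Lib.Fusion.finite_of_le ((sup_le hZA hDA).trans hA.1)
    exact (Nat.eq_of_mul_eq_mul_left Nat.card_pos hc).symm
  · have hc := UniqueAbelian.card_pre hS hSt hxS hxA (centralizerIn S S)
    rw [hZ0] at hc
    have hle : centralizerIn S S ≤ UniqueAbelian.pre hS hSt hxS (centralizerIn S S) := fun z hz =>
      ⟨hZA hz, by
        show x * z * x⁻¹ * z⁻¹ ∈ centralizerIn S S
        rw [(mem_centre_iff.1 hz).2 x hxS, mul_inv_cancel_right, mul_inv_cancel]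
        exact Subgroup.one_mem _⟩
    rw [← ((centralizerIn S S).subgroupOf (UniqueAbelian.pre hS hSt hxS (centralizerIn S S))).card_mul_index,
      Nat.card_congr (Subgroup.subgroupOfEquivOfLe hle).toEquiv] at hc
    exact Nat.eq_of_mul_eq_mul_left Nat.card_pos hc

end Cfsg.Agent.S5257
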