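import Cfsg.Statements.S5272
import Cfsg.Agent.Lib.Fusion.InnerFamily

set_option autoImplicit false
open Cfsg

namespace Cfsg.Agent.S5272

/-- An axiomatic Glauberman–Thompson nilpotency criterion for fusion systems. Let p be an odd prime, F a saturated fusion system over a finite p-group S, and 𝒜 a nonempty family of abelian subgroups of S. For Q ≤ S write I(Q) for the intersection of the members of 𝒜 contained in Q. Assume (invariance) that for every Q ≤ S containing a member of 𝒜, every F-automorphism of Q maps I(Q) into itself, and (replacement) that for every subgroup B of S of nilpotency class at most 2, if some member of 𝒜 contains [B,B] but not B, then B normalizes some member of 𝒜 that contains [B,B] but not B. Then F is the inner fusion system of S if and only if the normalizer fusion system of I(S) in F is the inner fusion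 system of N_S(I(S)). -/
theorem result {Ω : Type*} [Group Ω] {S : Subgroup Ω} [Finite S] (p : ℕ) [Fact p.Prime] (hS : IsPGroup p ↥S) (F : Cfsg.FusionSystem S) (hF : F.IsSaturated p) (hp : p ≠ 2) (𝒜 : Set (Subgroup Ω)) (h𝒜 : ∀ A ∈ 𝒜, A ≤ S ∧ IsMulCommutative ↥A) (hne : 𝒜.Nonempty) (hinv : ∀ Q : Subgroup Ω, Q ≤ S → (∃ A ∈ 𝒜, A ≤ Q) → ∀ α ∈ F.autGroup Q, ∀ x : ↥Q, (x : Ω) ∈ (⨅ A ∈ {A : Subgroup Ω | A ∈ 𝒜 ∧ A ≤ Q}, A) → (((α : MulAut ↥Q) x : ↥Q) : Ω) ∈ (⨅ A ∈ {A : Subgroup Ω | A ∈ 𝒜 ∧ A ≤ Q}, A)) (hrep : ∀ B : Subgroup Ω, B ≤ S → ⁅⁅B, B⁆, B⁆ = ⊥ → (∃ A ∈ 𝒜, ⁅B, B⁆ ≤ A ∧ ¬ B ≤ A) → ∃ A ∈ 𝒜, ⁅B, B⁆ ≤ A ∧ ¬ B ≤ A ∧ B ≤ Subgroup.normalizer (A : Set Ω)) : (∀ P : Subgroup Ω, F.Hom P = (Cfsg.innerFusionSystem S).Hom P) ↔ ∀ N : Cfsg.FusionSystem (Cfsg.FusionSystem.normalizerIn S (⨅ A ∈ 𝒜, A)), F.IsNormalizerSystem (⨅ A ∈ 𝒜, A) N → ∀ P : Subgroup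 Ω, N.Hom P = (Cfsg.innerFusionSystem (Cfsg.FusionSystem.normalizerIn S (⨅ A ∈ 𝒜, A))).Hom P := by
  classical
  rw [← sInf_eq_iInf]
  obtain ⟨A₀, hA₀⟩ := hne
  have hIS : sInf 𝒜 ≤ S := (sInf_le hA₀).trans (h𝒜 A₀ hA₀).1
  have hinv' : ∀ Q : Subgroup Ω, Q ≤ S → (∃ A ∈ 𝒜, A ≤ Q) → ∀ k, Cfsg.Lib.Fusion.Mor F Q k →
      Cfsg.Lib.Fusion.img Q k = Q → ∀ x ∈ sInf {A ∈ 𝒜 | A ≤ Q}, k x ∈ sInf {A ∈ 𝒜 | A ≤ Q} := by
    intro Q hQ hex k hk hki x hx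
    obtain ⟨B, hB, hBQ⟩ := hex
    have hxQ : x ∈ Q := hBQ ((sInf_le (show B ∈ {A ∈ 𝒜 | A ≤ Q} from ⟨hB, hBQ⟩)) hx)
    obtain ⟨α, hα, hαe⟩ := hk.exists_aut hki
    rw [sInf_eq_iInf] at hx ⊢
    have h := hinv Q hQ ⟨B, hB, hBQ⟩ α hα ⟨x, hxQ⟩ hx
    rwa [← Cfsg.Lib.Fusion.autFun_apply α hxQ, hαe x hxQ] at h
  have hTI : S ≤ Cfsg.FusionSystem.normalizerIn S (sInf 𝒜) := fun c hc => by
    refine Cfsg.Lib.Fusion.mem_normalizerIn_of_conj hIS hc fun x hx => ?_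
    have hmor : Cfsg.Lib.Fusion.Mor F S (fun y => c * y * c⁻¹) :=
      Cfsg.Lib.Fusion.mor_conj le_rfl hc
    have h := hinv' S le_rfl ⟨A₀, hA₀, (h𝒜 A₀ hA₀).1⟩ _ hmor
      (hmor.img_eq_of_card_le le_rfl (fun y hy => hmor.mem hy) le_rfl)
    rw [show {A ∈ 𝒜 | A ≤ S} = 𝒜 from
      Set.ext fun A => ⟨fun h => h.1, fun h => ⟨h, (h𝒜 A h).1⟩⟩] at h
    exact h x hx
  exact Cfsg.Lib.Fusion.hom_inner_iff_normalizer hS hF hIS hTI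
    (Cfsg.Lib.Fusion.autP_of_family hp hS hF 𝒜 h𝒜 ⟨A₀, hA₀⟩ hinv' hrep)

end Cfsg.Agent.S5272
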