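import Cfsg.Statements.S5275
import Cfsg.Agent.Lib.Fusion.InnerSubsystem

set_option autoImplicit false
open Cfsg

namespace Cfsg.Agent.S5275

/-- A Glauberman–Thompson nilpotency criterion for fusion systems relative to a strongly closed subgroup. Let p be an odd prime, F a saturated fusion system over a finite p-group S, and D a subgroup of S that is strongly closed in F. Let Z(J(D)) be the centre of the subgroup of D generated by the abelian subgroups of D of largest order. Then F is the inner fusion system of S if and only if the normalizer fusion system of Z(J(D)) in F is the inner fusion system of N_S(Z(J(D))) = S. -/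
theorem result {Ω : Type*} [Group Ω] {S : Subgroup Ω} [Finite S] (p : ℕ) [Fact p.Prime] (hS : IsPGroup p ↥S) (F : Cfsg.FusionSystem S) (hF : F.IsSaturated p) (hp : p ≠ 2) (D : Subgroup Ω) (hD : F.StronglyClosed D) : (∀ P : Subgroup Ω, F.Hom P = (Cfsg.innerFusionSystem S).Hom P) ↔ ∀ N : Cfsg.FusionSystem (Cfsg.FusionSystem.normalizerIn S (Cfsg.centerThompsonAOf D)), F.IsNormalizerSystem (Cfsg.centerThompsonAOf D) N → ∀ P : Subgroup Ω, N.Hom P = (Cfsg.innerFusionSystem (Cfsg.FusionSystem.normalizerIn S (Cfsg.centerThompsonAOf D))).Hom P := by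
  classical
  have hDT : D ≤ S := hD.1
  have : Finite D := Cfsg.Lib.Fusion.finite_of_le hDT
  have hz : Cfsg.centerThompsonAOf D = Cfsg.Lib.Fusion.zQuot p False D S ⊥ := by
    rw [Cfsg.Lib.Fusion.centerThompsonAOf_eq_zF, Cfsg.Lib.Fusion.zQuot_bot, inf_eq_left.2 hDT,
      Cfsg.Lib.PLocal.fam_false]
  have hTW : S ≤ Cfsg.FusionSystem.normalizerIn S (Cfsg.centerThompsonAOf D) := by
    rw [hz]
    exact Cfsg.Lib.Fusion.zQuot_normal False D
      (by rw [Subgroup.normalizer_eq_top_iff.2 inferInstance]; exact le_top) fun c hc x hx hxD => Cfsg.Lib.Fusion.StronglyClosed.conj_mem hD hc hxD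
  refine Cfsg.Lib.Fusion.hom_inner_iff_normalizer hS hF
    (hz ▸ Cfsg.Lib.Fusion.zQuot_le False D) hTW fun h => ?_
  rw [hz] at h
  exact Cfsg.Lib.Fusion.autP_of_autPAt hp hS hF (fun R f hf x hx hxD => Cfsg.Lib.Fusion.StronglyClosed.mem hD hf hx hxD)
    Cfsg.Lib.Fusion.isNormal_bot Cfsg.Lib.Fusion.pAct_bot h

end Cfsg.Agent.S5275
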