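import Cfsg.Statements.S5290
import Mathlib
import Cfsg.Agent.Lib.Fusion.FrattiniInner
import Cfsg.Agent.Lib.Fusion.NormalCriteria
-- import your own Cfsg.Agent.* helpers here

set_option autoImplicit false
open Cfsg

namespace Cfsg.Agent.S5290

open Cfsg.FusionSystem Cfsg.Lib.Fusion

/-- Let F be a saturated fusion system over a finite p-group S and Q a subgroup of S. Then Q is normal in F (F = N_F(Q)) if and only if the inner fusion system of Q, consisting of the conjugations by elements of Q on subgroups of Q, is a weakly normal subsystem of F (both saturated, Q strongly closed, invariant under F-conjugation, with the Frattini property). -/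
theorem result {Ω : Type*} [Group Ω] {S : Subgroup Ω} [Finite S] (p : ℕ) [Fact p.Prime] (hS : IsPGroup p S)
    (F : Cfsg.FusionSystem S) (hF : F.IsSaturated p)
    (Q : Subgroup Ω) (hQ : Q ≤ S) :
    F.IsNormal Q ↔ (Cfsg.innerFusionSystem Q).IsWeaklyNormalIn F p := by
  have := finite_of_le hQ
  constructor
  · intro hn
    have hsc := stronglyClosed_of_isNormal hn
    refine ⟨saturated_innerFusionSystem (isPGroup_of_le hS hQ), hF, ?_, hsc, ?_, ?_⟩
    · rintro P φ ⟨hP, g, hg, he⟩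
      exact (MonoidHom.ext fun x => he x : φ = Cfsg.conjHom P g) ▸ F.conj_mem (hP.trans hQ) (hQ hg)
    · intro P hPQ φ hφ α hα
      obtain ⟨hP, g, hg, he⟩ := hφ
      have hm := (mem_autGroup_iff hQ).1 hα
      refine ⟨Cfsg.conjHom _ (autFun α g), (Cfsg.innerFusionSystem Q).conj_mem
        (by rintro _ ⟨x, -, rfl⟩; exact SetLike.coe_mem _) (autFun_mem α hg), fun x hφx hαx => ?_⟩
      show autFun α g * ((α ⟨x, hPQ x.2⟩ : Q) : Ω) * (autFun α g)⁻¹ = _
      rw [← autFun_coe α ⟨x, hPQ x.2⟩, ← autFun_coe α ⟨φ x, hφx⟩]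
      show _ = autFun α (φ x)
      rw [he x, hm.map_conj hg (hPQ x.2)]
    · intro P hP φ hφ
      obtain ⟨k, hk, hke, hkQ⟩ := (isNormal_iff.1 hn).2 P _ (mor_extFun hφ)
      obtain ⟨α, hα, hαe⟩ := (hk.restrict le_sup_right).exists_aut hkQ
      refine ⟨α, hα, Cfsg.conjHom P 1, (Cfsg.innerFusionSystem Q).conj_mem hP Q.one_mem, fun x hx => ?_⟩
      rw [← autFun_coe α]
      show φ x = autFun α ((1 : Ω) * x * 1⁻¹)
      rw [one_mul, inv_one, mul_one, hαe _ (hP x.2), hke _ x.2, extFun_coe]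
  · rintro ⟨-, -, -, hsc, -, hfr⟩
    refine isNormal_of_maps_extend hS hF hQ fun P f hf hP => ?_
    obtain ⟨φ, hφ, hφe⟩ := hf.exists_hom
    obtain ⟨α, hα, φ₀, ⟨-, g, hg, he⟩, h⟩ := hfr P hP φ hφ
    have hc : conjAut Q Q ⟨g, le_normalizerIn le_rfl hg⟩ ∈ F.autGroup Q :=
      autInducedBy_le_autGroup hQ (autInducedBy_mono hQ ((range_conjAut Q Q).le ⟨_, rfl⟩))
    refine ⟨α * conjAut Q Q ⟨g, le_normalizerIn le_rfl hg⟩, mul_mem hα hc, fun x hx => ?_⟩
    have hmem : φ₀ ⟨x, hx⟩ ∈ Q := by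
      rw [he]
      exact Q.mul_mem (Q.mul_mem hg (hP hx)) (Q.inv_mem hg)
    rw [autFun_mul _ _ (hP hx), autFun_conjAut _ (hP hx), ← hφe ⟨x, hx⟩, h _ hmem, ← autFun_apply α hmem, he]

end Cfsg.Agent.S5290
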