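import Cfsg.Statements.S5291
import Cfsg.Agent.Lib.Fusion.NormalCriteria
import Cfsg.Agent.Lib.Fusion.Alperin
-- import your own Cfsg.Agent.* helpers here

set_option autoImplicit false
open Cfsg Cfsg.Lib.Fusion

namespace Cfsg.Agent.S5291

/-- Let F be a saturated fusion system over a finite p-group S and E a weakly normal subsystem of F over a subgroup T. Suppose a subgroup R of T is normal in E (E = N_E(R)), and let R* be the subgroup of T generated by the images of R under all maps of F with source R. Then R* is normal in F (F = N_F(R*)). -/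
theorem result {Ω : Type*} [Group Ω] {S : Subgroup Ω} [Finite S] (p : ℕ) [Fact p.Prime] (hS : IsPGroup p S)
    (F : Cfsg.FusionSystem S) (hF : F.IsSaturated p)
    {T : Subgroup Ω} (E : Cfsg.FusionSystem T) (hE : E.IsWeaklyNormalIn F p)
    (R : Subgroup Ω) (hR : E.IsNormal R) :
    F.IsNormal (Subgroup.closure {x : Ω | ∃ φ ∈ F.Hom R, ∃ r : R, x = φ r}) := by
  classical
  obtain ⟨-, -, hinv⟩ := hE
  have hsub := hinv.1
  have hTc : F.StronglyClosed T := hinv.2.1
  have hTS : T ≤ S := hTc.1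
  have hfinT : Finite T := finite_of_le hTS
  set Rs := Subgroup.closure {x : Ω | ∃ φ ∈ F.Hom R, ∃ r : R, x = φ r}
  have hRT : R ≤ T := hR.1
  have hmemRs : ∀ f, Mor F R f → ∀ r ∈ R, f r ∈ Rs := by
    intro f hf r hr
    obtain ⟨φ, hφ, hφe⟩ := hf.exists_hom
    exact Subgroup.subset_closure ⟨φ, hφ, ⟨r, hr⟩, (hφe ⟨r, hr⟩).symm⟩
  have hRsT : Rs ≤ T := by
    refine (Subgroup.closure_le _).2 ?_
    rintro _ ⟨φ, hφ, r, rfl⟩
    exact hTc.2 R hRT φ hφ r
  -- images of `R` under automorphisms of `T` are normal in `E`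
  have himgN : ∀ α ∈ F.autGroup T, E.IsNormal (img R (autFun α)) := by
    intro α hα
    have hαm : Mor F T (autFun α) := (mem_autGroup_iff hTS).1 hα
    have hαi : Mor F T (autFun α⁻¹) := (mem_autGroup_iff hTS).1 ((F.autGroup T).inv_mem hα)
    have hc1 : ∀ {x : Ω}, x ∈ T → autFun α⁻¹ (autFun α x) = x := fun {x} hx => by
      rw [← autFun_mul α⁻¹ α hx, inv_mul_cancel, autFun_apply (1 : MulAut T) hx,
        MulAut.one_apply]
    have hc2 : ∀ {x : Ω}, x ∈ T → autFun α (autFun α⁻¹ x) = x := fun {x} hx => by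
      rw [← autFun_mul α α⁻¹ hx, mul_inv_cancel, autFun_apply (1 : MulAut T) hx,
        MulAut.one_apply]
    refine isNormal_iff.2 ⟨img_le fun x hx => autFun_mem α (hRT hx), fun P f hf => ?_⟩
    obtain ⟨g, hg, hge⟩ := Mor.conj_of_invariant hinv hf.le le_rfl hf (fun x hx => hf.mem hx) hαi
    obtain ⟨k, hk, hke, hkR⟩ := (isNormal_iff.1 hR).2 _ g hg
    obtain ⟨h, hh, hhe⟩ := Mor.conj_of_invariant hinv hk.le le_rfl hk (fun x hx => hk.mem hx) hαm
    have himgeq : img (img P (autFun α⁻¹) ⊔ R) (autFun α) = P ⊔ img R (autFun α) := by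
      have h1 : img P (autFun α⁻¹) ≤ T := img_le fun x hx => autFun_mem _ (hf.le hx)
      rw [hαm.img_sup h1 hRT, ← (hαi.restrict hf.le).img_comp,
        img_congr (g := fun x => x) (fun x hx => hc2 (hf.le hx)), img_id]
    rw [himgeq] at hh
    refine ⟨h, hh, fun x hx => ?_, ?_⟩
    · have h1 := hhe _ (Subgroup.mem_sup_left (mem_img_of_mem (f := autFun α⁻¹) hx))
      rw [hc2 (hf.le hx), hke _ (mem_img_of_mem hx), hge x hx, hc2 (hf.mem hx)] at h1
      exact h1
    · rw [← (hαm.restrict hRT).img_comp,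
        img_congr (g := fun x => autFun α (k x))
          (fun x hx => hhe x (Subgroup.mem_sup_right hx)),
        (hk.restrict le_sup_right).img_comp, hkR]
  -- so the closure is normal in `E`
  have hRsN : E.IsNormal Rs := by
    have hN : (fun Q => E.IsNormal Q ∧ Q ≤ Rs) (sSup {Q | E.IsNormal Q ∧ Q ≤ Rs}) :=
      sSup_mem_of_sup (S := T) (fun Q => E.IsNormal Q ∧ Q ≤ Rs) (fun Q hQ => hQ.1.1)
        (And.intro isNormal_bot bot_le) fun Q Q' hQ hQ' =>
          And.intro (isNormal_sup hQ.1 hQ'.1) (sup_le hQ.2 hQ'.2)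
    have heq : sSup {Q | E.IsNormal Q ∧ Q ≤ Rs} = Rs := by
      refine le_antisymm hN.2 ((Subgroup.closure_le _).2 ?_)
      rintro _ ⟨φ, hφ, r, rfl⟩
      obtain ⟨α, hα, φ₀, hφ₀, hφe⟩ := hinv.2.2.2 R hRT φ hφ
      have hαR : img R (autFun α) ≤ Rs := img_le fun x hx =>
        hmemRs _ (((mem_autGroup_iff hTS).1 hα).restrict hRT) x hx
      have hm : φ₀ r ∈ R := by
        have := (stronglyClosed_iff.1 (stronglyClosed_of_isNormal hR)).2 R _ (mor_extFun hφ₀)
          r r.2 r.2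
        rwa [extFun_coe] at this
      have hmemset : img R (autFun α) ∈ {Q | E.IsNormal Q ∧ Q ≤ Rs} := ⟨himgN α hα, hαR⟩
      refine le_sSup hmemset ?_
      have hT' : φ₀ r ∈ T := hRT hm
      rw [hφe r hT', ← autFun_apply α hT']
      exact mem_img_of_mem hm
    rw [heq] at hN
    exact hN.1
  refine isNormal_of_lowerCentralSeries hS hF (hRsT.trans hTS) fun i => ?_
  have hWT : Rs.lowerCentralSeries i ≤ T := (lowerCentralSeries_le Rs i).trans hRsT
  refine ⟨hWT.trans hTS, fun P hP φ hφ x => ?_⟩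
  obtain ⟨α, hα, φ₀, hφ₀, hφe⟩ := hinv.2.2.2 P (hP.trans hWT) φ hφ
  have hW : E.StronglyClosed (Rs.lowerCentralSeries i) :=
    stronglyClosed_of_isNormal (isNormal_lowerCentralSeries hRsN i)
  have hy : φ₀ x ∈ Rs.lowerCentralSeries i := hW.2 P hP φ₀ hφ₀ x
  have hyT : φ₀ x ∈ T := hWT hy
  rw [hφe x hyT, ← autFun_apply α hyT]
  -- `α` preserves the closure
  have hαm : Mor F T (autFun α) := (mem_autGroup_iff hTS).1 hα
  have hαRs : ∀ y ∈ Rs, autFun α y ∈ Rs := by
    intro y hy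
    refine Subgroup.closure_induction (p := fun y _ => autFun α y ∈ Rs) ?_ ?_ ?_ ?_ hy
    · rintro _ ⟨ψ, hψ, r, rfl⟩
      have h1 : Mor F R (fun z => autFun α (extFun ψ z)) :=
        hαm.comp (mor_extFun hψ) fun z hz => by
          rw [extFun_apply ψ hz]; exact hTc.2 R hRT ψ hψ _
      have h2 := hmemRs _ h1 r r.2
      rwa [extFun_coe] at h2
    · rw [hαm.map_one]; exact Rs.one_mem
    · intro a b ha hb iha ihb
      rw [hαm.map_mul (hRsT ha) (hRsT hb)]
      exact Rs.mul_mem iha ihb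
    · intro a ha iha
      rw [hαm.map_inv (hRsT ha)]
      exact Rs.inv_mem iha
  have himg : img Rs (autFun α) = Rs :=
    (hαm.restrict hRsT).img_eq_of_card_le (hRsT.trans hTS) hαRs le_rfl
  obtain ⟨e, he⟩ := (hαm.restrict hRsT).exists_equiv himg
  have hchar : ((Rs.lowerCentralSeries i).subgroupOf Rs).Characteristic := by
    rw [lowerCentralSeries_subgroupOf]
    infer_instance
  have hyRs : φ₀ x ∈ Rs := lowerCentralSeries_le Rs i hy
  have h2 : (⟨φ₀ x, hyRs⟩ : Rs) ∈ ((Rs.lowerCentralSeries i).subgroupOf Rs).comap e.toMonoidHom := by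
    rw [Subgroup.characteristic_iff_comap_eq.1 hchar e]
    exact hy
  have h3 : ((e ⟨φ₀ x, hyRs⟩ : Rs) : Ω) ∈ Rs.lowerCentralSeries i := h2
  rwa [he] at h3

end Cfsg.Agent.S5291
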