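import Cfsg.Statements.S5294
import Mathlib
import Cfsg.Agent.Lib.Fusion.CenterJ
import Cfsg.Agent.Lib.Fusion.AgemoCenter

set_option autoImplicit false
universe u
open Cfsg

namespace Cfsg.Agent.S5294

open scoped Classical
open Cfsg.Lib.Fusion Cfsg.FusionSystem

/-- The points fixed by the whole group have a complement among the points fixed by a subgroup of
index prime to `p`, in an abelian `p`-group. -/
theorem exists_fixed_complement {A : Type*} [CommGroup A] {G : Type*} [Group G] [Finite G]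
    (φ : G →* MulAut A) (T : Subgroup G) {p : ℕ} [Fact p.Prime] (hA : IsPGroup p A)
    (hT : ¬ p ∣ T.index) :
    ∃ K : Subgroup A, (∀ x ∈ K, ∀ t ∈ T, φ t x = x) ∧ (∀ x ∈ K, (∀ g, φ g x = x) → x = 1) ∧
      ∀ x, (∀ t ∈ T, φ t x = x) → ∃ y, (∀ g, φ g y = y) ∧ x * y⁻¹ ∈ K := by
  let _ := Fintype.ofFinite (G ⧸ T)
  let tr : A →* A :=
    { toFun := fun x => ∏ q : G ⧸ T, φ q.out x
      map_one' := Finset.prod_eq_one fun q _ => map_one _
      map_mul' := fun x y => by simp only [map_mul, Finset.prod_mul_distrib] }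
  let AT : Subgroup A :=
    { carrier := {x | ∀ t ∈ T, φ t x = x}
      one_mem' := fun t _ => map_one _
      mul_mem' := fun ha hb t ht => by rw [map_mul, ha t ht, hb t ht]
      inv_mem' := fun ha t ht => by rw [map_inv, ha t ht] }
  have htr : ∀ x ∈ AT, ∀ g, φ g (tr x) = tr x := by
    intro x hx g
    show φ g (∏ q : G ⧸ T, φ q.out x) = ∏ q : G ⧸ T, φ q.out x
    rw [map_prod]
    refine Fintype.prod_equiv (MulAction.toPerm g) _ _ fun q => ?_
    have h1 : (QuotientGroup.mk (g * q.out) : G ⧸ T) = g • q := by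
      conv_rhs => rw [← QuotientGroup.out_eq' q]
      rfl
    obtain ⟨t, ht⟩ := QuotientGroup.mk_out_eq_mul T (g * q.out)
    rw [h1] at ht
    show φ g (φ q.out x) = φ (g • q).out x
    rw [ht, map_mul φ (g * q.out), MulAut.mul_apply, hx t t.2, map_mul, MulAut.mul_apply]
  have hfix : ∀ x, (∀ g, φ g x = x) → tr x = x ^ T.index := by
    intro x hx
    show (∏ q : G ⧸ T, φ q.out x) = _
    rw [Finset.prod_congr rfl fun q _ => hx q.out, Finset.prod_const, Finset.card_univ,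
      Subgroup.index, Nat.card_eq_fintype_card]
  have hco : ∀ x : A, ∃ m : ℕ, (x ^ T.index) ^ m = x := by
    intro x
    obtain ⟨k, hk⟩ := hA x
    exact exists_pow_eq_self_of_coprime (Nat.Coprime.coprime_dvd_right
      (orderOf_dvd_of_pow_eq_one hk)
      (((Fact.out : p.Prime).coprime_iff_not_dvd.2 hT).symm.pow_right k))
  refine ⟨tr.ker ⊓ AT, fun x hx => hx.2, fun x hx hg => ?_, fun x hx => ?_⟩
  · have h1 : x ^ T.index = 1 := (hfix x hg).symm.trans hx.1
    obtain ⟨m, hm⟩ := hco x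
    rw [← hm, h1, one_pow]
  · obtain ⟨m, hm⟩ := hco (tr x)
    have hy : ∀ g, φ g (tr x ^ m) = tr x ^ m := fun g => by rw [map_pow, htr x hx g]
    refine ⟨tr x ^ m, hy, ?_, AT.mul_mem hx (AT.inv_mem fun t _ => hy t)⟩
    show tr _ = 1
    rw [map_mul, map_inv, hfix _ hy, ← pow_mul, mul_comm m,
      pow_mul, hm, mul_inv_cancel]

/-- Let F be a saturated fusion system over a finite p-group S whose centre Z(S) lies in the largest subgroup O_p(F) normal in F. Then the centre Z(F) of F is a direct factor of Z(S): there is a subgroup K of Z(S) with Z(F) ∩ K = 1 and Z(F)K = Z(S). -/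
theorem result {Ω : Type u} [Group Ω] {S : Subgroup Ω} [Finite S] (p : ℕ) [Fact p.Prime] (hS : IsPGroup p S)
    (F : Cfsg.FusionSystem S) (hF : F.IsSaturated p) (hZ : (S ⊓ Subgroup.centralizer (S : Set Ω)) ≤ F.core) :
    ∃ K : Subgroup Ω, K ≤ (S ⊓ Subgroup.centralizer (S : Set Ω)) ∧ F.center ⊓ K = ⊥ ∧ F.center ⊔ K = (S ⊓ Subgroup.centralizer (S : Set Ω)) := by
  classical
  set Q := F.core with hQdef
  have hQ : F.IsNormal Q := isNormal_core F
  have hQS : Q ≤ S := hQ.1
  have hQSn : S ≤ Subgroup.normalizer (Q : Set Ω) :=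
    StronglyClosed.le_normalizer (stronglyClosed_of_isNormal hQ)
  have := finite_mulAut_of_le hQS
  have := finite_of_le hQS
  have hfn : F.IsFullyNormalized Q := by
    refine ⟨hQS, fun R _ => ?_⟩
    rw [show normalizerIn S Q = S from inf_eq_left.2 hQSn]
    exact Nat.card_le_card_of_injective _ (Subgroup.inclusion_injective normalizerIn_le)
  obtain ⟨-, -, T, hT⟩ := fullyNormalized_axiom hS hF hfn
  let _ : CommGroup (Subgroup.center ↥Q) :=
    { (inferInstance : Group (Subgroup.center ↥Q)) with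
      mul_comm := fun a b => Subtype.ext (Subgroup.mem_center_iff.1 b.2 a) }
  let φ : F.autGroup Q →* MulAut (Subgroup.center ↥Q) :=
    (centerHom ↥Q).comp (F.autGroup Q).subtype
  obtain ⟨K, hK1, hK2, hK3⟩ := exists_fixed_complement (A := Subgroup.center ↥Q) φ (T : Subgroup (F.autGroup Q))
    ((isPGroup_of_le hS hQS).to_subgroup (Subgroup.center ↥Q)) T.not_dvd_index
  have hφ : ∀ (g : F.autGroup Q) (x : Subgroup.center ↥Q),
      (((φ g x : Subgroup.center ↥Q) : Q) : Ω) = autFun (g : MulAut Q) ((x : Q) : Ω) :=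
    fun g x => (autFun_coe _ _).symm
  -- fixed points of `T` are central in `S`
  have hTfix : ∀ x : Subgroup.center ↥Q, (∀ t ∈ (T : Subgroup (F.autGroup Q)), φ t x = x) ↔
      ((x : Q) : Ω) ∈ S ⊓ Subgroup.centralizer (S : Set Ω) := by
    intro x
    refine ⟨fun h => ⟨hQS (x : Q).2, Subgroup.mem_centralizer_iff.2 fun s hs => ?_⟩,
      fun h t ht => ?_⟩
    · let t : F.autGroup Q := ⟨conjAut S Q ⟨s, hs, hQSn hs⟩,
        autInducedBy_le_autGroup hQS (range_conjAut S Q ▸ ⟨_, rfl⟩)⟩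
      have ht : t ∈ (T : Subgroup (F.autGroup Q)) := by
        rw [hT]
        exact range_conjAut S Q ▸ ⟨_, rfl⟩
      have h1 := congrArg (fun y : Subgroup.center ↥Q => ((y : Q) : Ω)) (h t ht)
      simp only [hφ] at h1
      rw [autFun_conjAut _ (x : Q).2] at h1
      exact mul_inv_eq_iff_eq_mul.1 h1
    · rw [hT, Subgroup.mem_subgroupOf, mem_autInducedBy_iff] at ht
      obtain ⟨c, hc, hce⟩ := ht
      refine Subtype.ext (Subtype.ext ?_)
      rw [hφ, hce _ (x : Q).2, Subgroup.mem_centralizer_iff.1 h.2 c hc, mul_inv_cancel_right]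
  -- fixed points of the whole group are central in `F`
  have hGfix : ∀ x : Subgroup.center ↥Q, (∀ g, φ g x = x) ↔ ((x : Q) : Ω) ∈ F.center := by
    intro x
    refine ⟨fun h => ?_, fun h g => Subtype.ext (Subtype.ext ?_)⟩
    · obtain ⟨hxS, hxc⟩ := (hTfix x).1 fun t _ => h t
      refine mem_center_of_fixAll hS hF hxS
        (fun y hy => Subgroup.mem_centralizer_iff.1 hxc y hy) ?_
      intro R f hf hxR
      obtain ⟨k, hk, hke, hkQ⟩ := (isNormal_iff.1 hQ).2 R f hf
      obtain ⟨α, hα, hαe⟩ := (hk.restrict le_sup_right).exists_aut hkQ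
      have h1 := congrArg (fun y : Subgroup.center ↥Q => ((y : Q) : Ω)) (h ⟨α, hα⟩)
      simp only [hφ] at h1
      rw [hαe _ (x : Q).2, hke _ hxR] at h1
      exact h1
    · rw [hφ]
      exact fixAll_of_mem_center h Q _ ((mem_autGroup_iff hQS).1 g.2) (x : Q).2
  refine ⟨(K.map (Subgroup.center ↥Q).subtype).map Q.subtype, ?_, le_bot_iff.1 ?_,
    le_antisymm (sup_le ?_ ?_) ?_⟩
  · rintro _ ⟨_, ⟨x, hx, rfl⟩, rfl⟩
    exact (hTfix x).1 (hK1 x hx)
  · rintro _ ⟨hc, _, ⟨x, hx, rfl⟩, rfl⟩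
    rw [hK2 x hx ((hGfix x).2 hc)]
    exact Subgroup.one_mem _
  · intro x hx
    exact ⟨(isCentral_iff.1 (isCentral_center F)).1 hx, Subgroup.mem_centralizer_iff.2
      (commute_of_mem_center hx)⟩
  · rintro _ ⟨_, ⟨x, hx, rfl⟩, rfl⟩
    exact (hTfix x).1 (hK1 x hx)
  · intro z hz
    have hzQ : z ∈ Q := hZ hz
    have hzA : (⟨z, hzQ⟩ : Q) ∈ Subgroup.center ↥Q := Subgroup.mem_center_iff.2 fun q =>
      Subtype.ext (Subgroup.mem_centralizer_iff.1 hz.2 q (hQS q.2))
    obtain ⟨y, hy, hyK⟩ := hK3 ⟨⟨z, hzQ⟩, hzA⟩ ((hTfix ⟨⟨z, hzQ⟩, hzA⟩).2 hz)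
    rw [← inv_mul_cancel_right z ((y : Q) : Ω)]
    exact Subgroup.mul_mem _ (Subgroup.mem_sup_right ⟨_, ⟨_, hyK, rfl⟩, rfl⟩)
      (Subgroup.mem_sup_left ((hGfix y).1 hy))

end Cfsg.Agent.S5294
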