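import Cfsg.Statements.S5295
import Cfsg.Agent.Lib.Fusion.CenterJ

set_option autoImplicit false
set_option linter.style.haveILetI false
universe u
open Cfsg Cfsg.FusionSystem Cfsg.Lib.Fusion

namespace Cfsg.Agent.S5295

/-- Let F be a saturated fusion system over a finite p-group S with p odd. Then the centre Z(F) of F is a direct factor of Z(S): there is a subgroup K of Z(S) with Z(F) ∩ K = 1 and Z(F)K = Z(S). (At the prime 2 this can fail.) -/
theorem result {Ω : Type u} [Group Ω] {S : Subgroup Ω} [Finite S] (p : ℕ) [Fact p.Prime] (hp : p ≠ 2) (hS : IsPGroup p S)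
    (F : Cfsg.FusionSystem S) (hF : F.IsSaturated p) :
    ∃ K : Subgroup Ω, K ≤ (S ⊓ Subgroup.centralizer (S : Set Ω)) ∧ F.center ⊓ K = ⊥ ∧ F.center ⊔ K = (S ⊓ Subgroup.centralizer (S : Set Ω)) := by
  classical
  set J := Cfsg.thompsonSubgroupAOf S with hJdef
  have hJe : wSub fJ S = J := fJ_map_subtype' S
  have hJS : J ≤ S := Subgroup.map_subtype_le _
  have hSJ : S ≤ normalizerIn S J := by
    have h := fJ_invariant hS (le_rfl : S ≤ S)
    rw [hJe] at h
    exact (le_normalizerIn le_rfl).trans h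
  -- the normalizer of `J` has a model
  obtain ⟨hEsat, hEn, hEsub, -⟩ := normalizerExt_over hS hF hJS hSJ
  have hEc : (normalizerExt F J S hJS hSJ).IsCentric J := by
    refine centric_of_isNormal hEn fun c hc => ?_
    obtain ⟨hcS, hcJ⟩ := mem_centralizerIn_iff.1 hc
    obtain ⟨A, hA⟩ := Cfsg.Lib.PLocal.maxF_nonempty (P := Cfsg.Lib.PLocal.Ab)
      Cfsg.Lib.PLocal.ab_bot (⊤ : Subgroup S)
    rw [← hJe]
    refine ⟨⟨c, hcS⟩, le_sSup hA (mem_of_mem_maxF hA (Subgroup.mem_top _) fun a ha => Subtype.ext ?_), rfl⟩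
    exact (mul_inv_eq_iff_eq_mul.1 (hcJ a (hJe ▸ ⟨a, le_sSup hA ha, rfl⟩))).symm
  obtain ⟨L, _, ι, ⟨hfin, hι, ⟨P, hP⟩, hcore⟩, -⟩ := exists_model hS hEsat hEn hEc
  set Z := S ⊓ Subgroup.centralizer (S : Set Ω) with hZ
  set O := Cfsg.pCore p L with hO
  haveI hOn : O.Normal := Cfsg.Lib.Transfer.pCore_normal p
  have hOP : O ≤ (P : Subgroup L) := (Cfsg.Lib.Transfer.pCore_isPGroup p).le_sylow_of_normal P
  set V := O ⊓ Subgroup.centralizer (O : Set L) with hV
  haveI : V.Normal := inferInstance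
  have hVab : ∀ u ∈ V, ∀ v ∈ V, u * v = v * u := fun u hu v hv =>
    Subgroup.mem_centralizer_iff.1 hv.2 u hu.1
  letI : CommGroup V :=
    { (inferInstance : Group V) with mul_comm := fun u v => Subtype.ext (hVab u u.2 v v.2) }
  have hzP : ∀ z : Z, ι ⟨z, z.2.1⟩ ∈ Subgroup.centralizer ((P : Subgroup L) : Set L) := fun z =>
    Subgroup.mem_centralizer_iff.2 fun y hy => by
      rw [SetLike.mem_coe, hP] at hy
      obtain ⟨t, rfl⟩ := hy
      rw [← map_mul, ← map_mul]
      exact congrArg ι (Subtype.ext (Subgroup.mem_centralizer_iff.1 z.2.2 t t.2))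
  have hzV : ∀ z : Z, ι ⟨z, z.2.1⟩ ∈ V := fun z =>
    have h := Subgroup.centralizer_le (SetLike.coe_subset_coe.2 hOP) (hzP z)
    ⟨hcore h, h⟩
  haveI : Fintype (L ⧸ (P : Subgroup L)) := Fintype.ofFinite _
  set n := Nat.card (L ⧸ (P : Subgroup L)) with hn
  let ev : Z →* V := (ι.comp (Subgroup.inclusion (inf_le_left : Z ≤ S))).codRestrict V hzV
  let f : Z → L ⧸ (P : Subgroup L) → V := fun z c => Quotient.liftOn' c
    (fun g => Cfsg.Lib.PLocal.cjN V g (ev z)) (fun a b h => by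
      have h' : a⁻¹ * b ∈ (P : Subgroup L) := QuotientGroup.leftRel_apply.1 h
      refine Subtype.ext ?_
      show a * ι ⟨z, z.2.1⟩ * a⁻¹ = b * ι ⟨z, z.2.1⟩ * b⁻¹
      calc a * ι ⟨z, z.2.1⟩ * a⁻¹ = a * (ι ⟨z, z.2.1⟩ * (a⁻¹ * b)) * b⁻¹ := by group
        _ = a * ((a⁻¹ * b) * ι ⟨z, z.2.1⟩) * b⁻¹ := by
            rw [Subgroup.mem_centralizer_iff.1 (hzP z) _ h']
        _ = _ := by group)
  let τ : Z →* V := MonoidHom.mk' (fun z => ∏ c, f z c) fun a b => by
    rw [← Finset.prod_mul_distrib]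
    refine Fintype.prod_congr _ _ fun c => ?_
    induction c using QuotientGroup.induction_on with
    | H g =>
      show Cfsg.Lib.PLocal.cjN V g (ev (a * b)) =
        Cfsg.Lib.PLocal.cjN V g (ev a) * Cfsg.Lib.PLocal.cjN V g (ev b)
      rw [map_mul, map_mul]
  have hτfix : ∀ z g, g * (τ z : L) * g⁻¹ = τ z := fun z g => by
    rw [← Cfsg.Lib.PLocal.cjN_coe V g (τ z)]
    refine congrArg Subtype.val ?_
    show Cfsg.Lib.PLocal.cjN V g (∏ c, f z c) = _
    rw [map_prod]
    refine Fintype.prod_equiv (MulAction.toPerm g) _ _ fun c => ?_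
    induction c using QuotientGroup.induction_on with
    | H c =>
      show Cfsg.Lib.PLocal.cjN V g (Cfsg.Lib.PLocal.cjN V c (ev z)) = Cfsg.Lib.PLocal.cjN V (g * c) (ev z)
      rw [map_mul, MulAut.mul_apply]
  -- fixed elements are central in the system
  have hfixed : ∀ z : Z, ∃ w : Z, ι ⟨w, w.2.1⟩ = (τ z : L) ∧ (w : Ω) ∈ F.center := by
    intro z
    obtain ⟨⟨w, hw⟩, hwe⟩ : (τ z : L) ∈ ι.range := hP ▸ hOP (τ z).2.1
    have hwc : ∀ y ∈ S, y * w = w * y := fun y hy => by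
      refine congrArg Subtype.val (hι.1 (?_ : ι (⟨y, hy⟩ * ⟨w, hw⟩) = ι (⟨w, hw⟩ * ⟨y, hy⟩)))
      rw [map_mul, map_mul, hwe]
      exact mul_inv_eq_iff_eq_mul.1 (hτfix z _)
    refine ⟨⟨w, hw, Subgroup.mem_centralizer_iff.2 hwc⟩, hwe, ?_⟩
    refine mem_center_of_fixAll hS hF hw hwc (fixAll_of_fixAt hS hF hw hwc (Or.inr (Or.inl hp)) ?_)
    rw [hJe]
    intro R g hJR hR hg hgJ hwR
    have hgE : Cfsg.Lib.Fusion.Mor (normalizerExt F J S hJS hSJ) R g :=
      mor_normalizerExt_iff.2 ⟨hg.le, fun y hy => hg.mem hy, g,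
        hg.source_congr (sup_eq_left.2 hJR).symm, fun _ _ => rfl, hgJ⟩
    obtain ⟨l, hl⟩ := exists_conj_of_mor hι hgE
    have h1 := hl w hwR
    rw [iotaFun_apply ι hw, hwe, hτfix z l, ← hwe, ← iotaFun_apply ι hw] at h1
    exact iotaFun_injOn hι (hg.mem hwR) hw h1
  -- the norm of a central element
  have hτc : ∀ z : Z, (z : Ω) ∈ F.center → τ z = ev z ^ n := by
    intro z hz
    have hfx : ∀ c, f z c = ev z := fun c => by
      induction c using QuotientGroup.induction_on with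
      | H g =>
        refine Subtype.ext ?_
        show g * ι ⟨z, z.2.1⟩ * g⁻¹ = ι ⟨z, z.2.1⟩
        have hcen : ι ⟨z, z.2.1⟩ ∈ Subgroup.center L := by
          have hzJ : (z : Ω) ∈ J := by
            rw [← hJe]
            exact mem_wSub_fJ z.2.1 fun y hy => Subgroup.mem_centralizer_iff.1 z.2.2 y hy
          refine Subgroup.mem_center_iff.2 fun l => ?_
          obtain ⟨k, hk, hke⟩ := exists_mor_of_conj_mem hι (Subgroup.zpowers_le.2 z.2.1) l (by
            intro y hy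
            obtain ⟨i, rfl⟩ := Subgroup.mem_zpowers_iff.1 hy
            rw [show ((z : Ω) ^ i) = (((⟨z, z.2.1⟩ : S) ^ i : S) : Ω) from (SubgroupClass.coe_zpow _ _).symm,
              iotaFun_apply ι ((⟨z, z.2.1⟩ : S) ^ i).2, Subtype.coe_eta, map_zpow, ← conj_zpow]
            refine zpow_mem ?_ i
            rw [← hP]
            exact hOP (((inferInstance : V.Normal).conj_mem _ (hzV z) l).1))
          have h1 := hke z (Subgroup.mem_zpowers _)
          rw [fixAll_of_mem_center hz _ _ (hEsub _ _ hk) (Subgroup.mem_zpowers _),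
            iotaFun_apply ι z.2.1] at h1
          exact mul_inv_eq_iff_eq_mul.1 h1.symm
        rw [Subgroup.mem_center_iff.1 hcen g, mul_inv_cancel_right]
    show ∏ c, f z c = _
    rw [Fintype.prod_congr _ _ hfx, Finset.prod_const, Finset.card_univ, ← Nat.card_eq_fintype_card]
  have := finite_of_le (S := S) (P := Z) inf_le_left
  refine ⟨τ.ker.map Z.subtype, Subgroup.map_subtype_le _, ?_, le_antisymm ?_ ?_⟩
  · rw [eq_bot_iff]
    rintro x ⟨hxc, z, hz, rfl⟩
    have h1 : ev z ^ n = 1 := (hτc z hxc).symm.trans hz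
    have h2 : z ^ n = 1 := by
      rw [← map_pow] at h1
      have h := hι.1 ((congrArg Subtype.val h1).trans (map_one ι).symm)
      have h' := congrArg Subtype.val h
      exact Subtype.ext h'
    obtain ⟨j, hj⟩ := (hS.to_le (inf_le_left : Z ≤ S)) z
    have hord : orderOf z = 1 := Nat.eq_one_of_dvd_coprimes
      (((Fact.out : p.Prime).coprime_iff_not_dvd.2 P.not_dvd_index).pow_left j)
      (orderOf_dvd_of_pow_eq_one hj) (orderOf_dvd_of_pow_eq_one h2)
    rw [orderOf_eq_one_iff.1 hord]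
    exact one_mem _
  · refine sup_le (fun x hx => ?_) (Subgroup.map_subtype_le _)
    exact ⟨(isCentral_center F).1 hx, Subgroup.mem_centralizer_iff.2 (commute_of_mem_center hx)⟩
  · intro x hx
    obtain ⟨w, hwe, hwc⟩ := hfixed ⟨x, hx⟩
    obtain ⟨j, hj⟩ := (hS.to_le (inf_le_left : Z ≤ S)) w
    obtain ⟨m, hm⟩ := exists_pow_eq_self_of_coprime (x := w) (n := n)
      (Nat.Coprime.coprime_dvd_right (orderOf_dvd_of_pow_eq_one hj)
        (((Fact.out : p.Prime).coprime_iff_not_dvd.2 P.not_dvd_index).symm.pow_right _))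
    set c : Z := w ^ m with hc
    have hcc : (c : Ω) ∈ F.center := by
      rw [hc, SubmonoidClass.coe_pow]; exact pow_mem hwc m
    have hk : c⁻¹ * ⟨x, hx⟩ ∈ τ.ker := by
      rw [MonoidHom.mem_ker, map_mul, map_inv, inv_mul_eq_one, hτc c hcc, hc, map_pow, ← pow_mul,
        mul_comm]
      rw [← map_pow, pow_mul, hm]
      exact Subtype.ext hwe
    have hxe : x = (c : Ω) * ((c⁻¹ * ⟨x, hx⟩ : Z) : Ω) := by
      rw [← Subgroup.coe_mul, mul_inv_cancel_left]
    rw [hxe]
    exact Subgroup.mul_mem_sup hcc ⟨_, hk, rfl⟩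

end Cfsg.Agent.S5295
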