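import Cfsg.Statements.S5297
import Mathlib
import Cfsg.Agent.Lib.Fusion.SmallControl
-- import your own Cfsg.Agent.* helpers here

set_option autoImplicit false
universe u
open Cfsg

namespace Cfsg.Agent.S5297

open Cfsg.FusionSystem Cfsg.Lib.Fusion

/-- Let F be a saturated fusion system over a finite p-group S. If every map of F between cyclic subgroups of the hyperfocal subgroup of F of order p or 4 is a map of the normalizer system of S (it extends to a map of F defined on all of S), then S is normal in F. -/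
theorem result {Ω : Type u} [Group Ω] {S : Subgroup Ω} [Finite S] (p : ℕ) [Fact p.Prime] (hS : IsPGroup p S)
    (F : Cfsg.FusionSystem S) (hF : F.IsSaturated p)
    (h : ∀ A B : Subgroup Ω, A ≤ (F.hyperfocalSubgroup p) → B ≤ (F.hyperfocalSubgroup p) → IsCyclic ↥A → (Nat.card ↥A = p ∨ Nat.card ↥A = 4) → IsCyclic ↥B → (Nat.card ↥B = p ∨ Nat.card ↥B = 4) →
      F.homSet A B ⊆ F.normalizerHom S A) :
    F.IsNormal S := by
  refine isNormal_top_of_small hS hF fun P f x hf hxP hxH hsm => ?_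
  by_cases hx1 : x = 1
  · refine ⟨1, Subgroup.one_mem _, ?_⟩
    rw [hx1, hf.map_one, autFun_apply (1 : MulAut S) S.one_mem]
    rfl
  obtain ⟨φ, hφ, hφe⟩ := (hf.restrict (Subgroup.zpowers_le.2 hxP)).exists_hom
  have hA : Subgroup.zpowers x ≤ F.hyperfocalSubgroup p := Subgroup.zpowers_le.2 hxH
  have hfx : f x ∈ F.hyperfocalSubgroup p := StronglyClosed.mem (stronglyClosed_hyperfocal hS hF) hf hxP hxH
  have hval : ∀ y : Subgroup.zpowers x, φ y ∈ Subgroup.zpowers (f x) := by
    rintro ⟨_, i, rfl⟩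
    have h1 := map_zpow φ ⟨x, Subgroup.mem_zpowers x⟩ i
    rw [hφe ⟨x, Subgroup.mem_zpowers x⟩] at h1
    exact h1 ▸ zpow_mem (Subgroup.mem_zpowers _) i
  have hc1 := card_zpowers_small hsm hx1
  have hc2 : Nat.card (Subgroup.zpowers (f x)) = Nat.card (Subgroup.zpowers x) := by
    rw [Nat.card_zpowers, Nat.card_zpowers]
    have h1 := orderOf_injective φ (F.injective_of_mem hφ) ⟨x, Subgroup.mem_zpowers x⟩
    rw [hφe ⟨x, Subgroup.mem_zpowers x⟩, Subgroup.orderOf_mk] at h1
    exact h1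
  obtain ⟨-, -, -, ψ, hψ, he, hi⟩ := h (Subgroup.zpowers x) (Subgroup.zpowers (f x)) hA (Subgroup.zpowers_le.2 hfx) inferInstance hc1
    inferInstance (by rw [hc2]; exact hc1) ⟨hφ, hval⟩
  have hm := mor_extFun hψ
  rw [map_subgroupOf_eq_img hm le_sup_right (fun z => (extFun_coe ψ z).symm)] at hi
  obtain ⟨β, hβ, hβe⟩ := (hm.restrict le_sup_right).exists_aut hi
  have hxz : x ∈ Subgroup.zpowers x := Subgroup.mem_zpowers x
  refine ⟨β, hβ, ?_⟩
  rw [hβe _ (hf.le hxP), extFun_apply ψ (Subgroup.mem_sup_left hxz)]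
  exact ((he ⟨x, hxz⟩).trans (hφe ⟨x, hxz⟩)).symm

end Cfsg.Agent.S5297
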