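import Cfsg.Statements.S5300
import Mathlib
import Cfsg.Agent.Lib.Fusion.SmallControl
-- import your own Cfsg.Agent.* helpers here

set_option autoImplicit false
universe u
open Cfsg

namespace Cfsg.Agent.S5300

open Cfsg.FusionSystem Cfsg.Lib.Fusion Cfsg.Lib.Transfer

/-- Let F be a saturated fusion system over a finite p-group S. If every cyclic subgroup of the focal subgroup of F of order p (of order 2 or 4 when p = 2) is normal in S, then S is normal in F. -/
theorem result {Ω : Type u} [Group Ω] {S : Subgroup Ω} [Finite S] (p : ℕ) [Fact p.Prime] (hS : IsPGroup p S)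
    (F : Cfsg.FusionSystem S) (hF : F.IsSaturated p)
    (hnorm : ∀ x ∈ F.focalSubgroup, (x ^ p = 1 ∨ (p = 2 ∧ x ^ 4 = 1)) → ∀ s ∈ S, s * x * s⁻¹ ∈ Subgroup.zpowers x) :
    F.IsNormal S := by
  have hfoc : F.hyperfocalSubgroup p ≤ F.focalSubgroup := (focal_eq hS hF).symm ▸ le_sup_left
  have hcent : ∀ x ∈ F.hyperfocalSubgroup p, x ^ p = 1 → ∀ s ∈ S, s * x * s⁻¹ = x := by
    intro x hx hxp s hs
    by_cases hx1 : x = 1
    · simp [hx1]
    have hn := hnorm x (hfoc hx) (Or.inl hxp)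
    have hX : Subgroup.zpowers x ≤ S := Subgroup.zpowers_le.2 (hyperfocal_le hx)
    have := finite_of_le hX
    have hm : Mor F (Subgroup.zpowers x) (fun y => s * y * s⁻¹) := mor_conj hX hs
    obtain ⟨α, hα, hαe⟩ := hm.exists_aut (hm.img_eq_of_card_le hX (fun y hy => by
      obtain ⟨i, rfl⟩ := Subgroup.mem_zpowers_iff.1 hy
      show s * x ^ i * s⁻¹ ∈ _
      rw [← conj_zpow]
      exact zpow_mem (hn s hs) i) le_rfl)
    have hord : orderOf x = p := orderOf_eq_prime hxp hx1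
    obtain ⟨m, hm'⟩ := Subgroup.mem_zpowers_iff.1 (hn s hs)
    -- the exponent is congruent to one
    obtain ⟨k, hk⟩ := hS ⟨s, hs⟩
    have hk' : s ^ p ^ k = 1 := congrArg Subtype.val hk
    have hit : ∀ i : ℕ, s ^ i * x * (s ^ i)⁻¹ = x ^ (m ^ i) := by
      intro i
      induction i with
      | zero => simp
      | succ i ih =>
        rw [pow_succ', show s * s ^ i * x * (s * s ^ i)⁻¹ = s * (s ^ i * x * (s ^ i)⁻¹) * s⁻¹ by group,
          ih, ← conj_zpow, ← hm', ← zpow_mul, pow_succ']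
    have h1 := hit (p ^ k)
    rw [hk', one_mul, inv_one, mul_one] at h1
    have h2 : ((m ^ (p ^ k) : ℤ) : ZMod p) = 1 := by
      have h3 : x ^ (m ^ (p ^ k) - 1) = 1 := by rw [zpow_sub, zpow_one, ← h1, mul_inv_cancel]
      have h4 := orderOf_dvd_iff_zpow_eq_one.2 h3
      rw [hord] at h4
      have h5 := (ZMod.intCast_zmod_eq_zero_iff_dvd _ p).2 h4
      push_cast at h5 ⊢
      exact sub_eq_zero.1 h5
    push_cast at h2
    rw [ZMod.pow_card_pow] at h2
    have h6 : (p : ℤ) ∣ m - 1 := by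
      refine (ZMod.intCast_zmod_eq_zero_iff_dvd _ p).1 ?_
      push_cast
      rw [h2, sub_self]
    rw [← hm']
    have h7 : x ^ (m - 1) = 1 := orderOf_dvd_iff_zpow_eq_one.1 (hord.symm ▸ h6)
    rwa [zpow_sub, zpow_one, mul_inv_eq_one] at h7
  refine isNormal_top_of_pairs hS hF fun R hc _ D hDR hDs hDinv => ?_
  let V₁ : Subgroup Ω :=
    { carrier := {x | x ∈ D ∧ x ^ p = 1}
      one_mem' := ⟨D.one_mem, one_pow p⟩
      mul_mem' := fun {a b} ha hb => ⟨D.mul_mem ha.1 hb.1, by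
        have hcomm : Commute a b := by
          have := hcent b (hDs b hb.1).1 hb.2 a (hc.1 (hDR ha.1))
          exact mul_inv_eq_iff_eq_mul.1 this
        rw [hcomm.mul_pow, ha.2, hb.2, one_mul]⟩
      inv_mem' := fun {a} ha => ⟨D.inv_mem ha.1, by rw [inv_pow, ha.2, inv_one]⟩ }
  refine ⟨2, fun j => if j = 0 then S else if j = 1 then V₁ else ⊥,
    fun x hx => hc.1 (hDR hx), fun x _ hx => Subgroup.mem_bot.1 hx, fun γ hγ j x hx hxj => ?_, ?_⟩
  · have hm := (mem_autGroup_iff hc.1).1 hγ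
    have hxR := hDR hx
    rcases j with _ | _ | j
    · exact hm.mem hxR
    · refine ⟨hDinv γ hγ x hx, ?_⟩
      rw [autFun_apply γ hxR, ← Subgroup.coe_pow, ← map_pow,
        show (⟨x, hxR⟩ : R) ^ p = 1 from Subtype.ext hxj.2, map_one, Subgroup.coe_one]
    · have hx0 : x ∈ (⊥ : Subgroup Ω) := hxj
      rw [Subgroup.mem_bot] at hx0
      subst hx0
      show autFun γ 1 ∈ (⊥ : Subgroup Ω)
      rw [hm.map_one]
      exact one_mem _
  intro j hj c hc' x hx hxj
  have hxS : x ∈ S := hc.1 (hDR hx)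
  rcases j with _ | _ | j
  · show x⁻¹ * (c * x * c⁻¹) ∈ V₁
    by_cases hxp : x ^ p = 1
    · rw [hcent x (hDs x hx).1 hxp c hc', inv_mul_cancel]
      exact one_mem _
    obtain ⟨hp2, hx4⟩ := (hDs x hx).2.resolve_left hxp
    obtain ⟨i, hi⟩ := Subgroup.mem_zpowers_iff.1 (hnorm x (hfoc (hDs x hx).1) (Or.inr ⟨hp2, hx4⟩) c hc')
    subst hp2
    have hord : orderOf x = 4 := orderOf_eq_prime_pow (p := 2) (n := 1) (by simpa using hxp) hx4
    rw [← hi]
    refine ⟨D.mul_mem (D.inv_mem hx) (D.zpow_mem hx i), ?_⟩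
    have hodd : ¬ (2 : ℤ) ∣ i := by
      rintro ⟨t, rfl⟩
      apply hxp
      have h8 : (c * x * c⁻¹) ^ (2 : ℕ) = 1 := by
        rw [← hi, ← zpow_natCast, ← zpow_mul]
        refine orderOf_dvd_iff_zpow_eq_one.1 ?_
        rw [hord]
        exact ⟨t, by push_cast; ring⟩
      rwa [conj_pow, conj_eq_one_iff] at h8
    rw [← zpow_natCast, show x⁻¹ * x ^ i = x ^ (i - 1) by rw [zpow_sub, zpow_one]; exact (Commute.zpow_self x i).inv_right.symm.eq, ← zpow_mul]
    refine orderOf_dvd_iff_zpow_eq_one.1 ?_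
    rw [hord]
    push_cast
    omega
  · show x⁻¹ * (c * x * c⁻¹) ∈ (⊥ : Subgroup Ω)
    rw [hcent x (hDs x hx).1 hxj.2 c hc', inv_mul_cancel]
    exact one_mem _
  · omega

end Cfsg.Agent.S5300
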