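import Cfsg.Statements.S5315
import Cfsg.Agent.Lib.Fusion.FactorSystem
import Cfsg.Agent.Lib.Fusion.Hyperfocal
import Cfsg.Agent.Lib.Fusion.NormalCriteria
-- import your own Cfsg.Agent.* helpers here

set_option autoImplicit false
open Cfsg Cfsg.Lib.Fusion

namespace Cfsg.Agent.S5315

/-- An analogue of Grün's lemma for fusion systems. Let F be a saturated fusion system over a finite p-group S that is perfect in the sense that its hyperfocal subgroup is all of S (F coincides with its p-residual subsystem). Then the second centre of F equals its centre: every fusion system over S/(Z(F) ∩ S) that is the factor system of F modulo its centre Z(F), read through the quotient map, has trivial centre. -/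
theorem result {Ω : Type*} [Group Ω] {S : Subgroup Ω} [Finite S] (p : ℕ) [Fact p.Prime] (hS : IsPGroup p S) (F : Cfsg.FusionSystem S) (hF : F.IsSaturated p)
    (hperf : F.hyperfocalSubgroup p = S)
    (E : Cfsg.FusionSystem (⊤ : Subgroup (↥S ⧸ (F.center).subgroupOf S)))
    (hE : F.IsFactorSystem F.center (QuotientGroup.mk' ((F.center).subgroupOf S)) E) : E.center = ⊥ := by
  classical
  set Z := F.center with hZdef
  set θ := QuotientGroup.mk' (Z.subgroupOf S)
  have hZc : F.IsCentral Z := isCentral_center F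
  have hZS : Z ≤ S := hZc.1
  have hfixZ : ∀ {R : Subgroup Ω} {f : Ω → Ω}, Mor F R f → ∀ x ∈ R, x ∈ Z → f x = x := by
    intro R f hf x hxR hxZ
    obtain ⟨k, -, hke, hkZ⟩ := (isCentral_iff.1 hZc).2 R f hf
    rw [← hke x hxR, hkZ x hxZ]
  have hTc : F.StronglyClosed Z := stronglyClosed_iff.2
    ⟨hZS, fun R f hf x hxR hxZ => (hfixZ hf x hxR hxZ).symm ▸ hxZ⟩
  have hZcomm : ∀ z ∈ Z, ∀ s ∈ S, s * z = z * s := fun z hz s hs => by
    have h := hfixZ (mor_conj le_rfl hs) z (hZS hz) hz
    rwa [mul_inv_eq_iff_eq_mul] at h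
  have hker : ∀ s : S, θ s = 1 ↔ (s : Ω) ∈ Z := hE.2.1
  set A := FusionSystem.preimageAlong θ E.center with hA
  have hAS : A ≤ S := preimageAlong_le
  have hZA : Z ≤ A := le_preimageAlong hker hZS
  have hEc : E.IsCentral E.center := isCentral_center E
  -- maps move elements of `A` inside cosets of `Z`
  have hmod : ∀ {R : Subgroup Ω} {f : Ω → Ω}, Mor F R f → ∀ x ∈ R, x ∈ A → x⁻¹ * f x ∈ Z := by
    intro R f hf x hxR hxA
    obtain ⟨φ, hφ, hφe⟩ := hf.exists_hom
    obtain ⟨φ', hind⟩ := exists_induced hTc hker hφ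
    obtain ⟨ψ, hψ, hψind⟩ := exists_induced_preimage hS hF hTc hker hφ hind
    have hφ' : φ' ∈ E.Hom (FusionSystem.imageAlong θ R) :=
      (hE.2.2.2 _ φ').2 ⟨le_top, ψ, hψ, hψind⟩
    obtain ⟨h1, h2⟩ := (inducedAlong_iff hf.le hφe fun _ hy => hf.mem hy).1 hind x hxR
    obtain ⟨k, -, hke, hkc⟩ := (isCentral_iff.1 hEc).2 _ _ (mor_extFun hφ')
    rw [← hke _ h1, hkc _ (mem_preimageAlong.1 hxA).2] at h2
    exact (iotaFun_eq_iff hker (hf.le hxR) (hf.mem hxR)).1 h2
  have hAc : F.StronglyClosed A := stronglyClosed_iff.2 ⟨hAS, fun R f hf x hxR hxA => by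
    have := A.mul_mem hxA (hZA (hmod hf x hxR hxA))
    rwa [mul_inv_cancel_left] at this⟩
  have hAnormal : F.IsNormal A := by
    refine isNormal_of_series hS hF (fun i => if i = 0 then ⊥ else if i = 1 then Z else A) 2
      (by simp) (by simp) (fun i hi => ?_) fun i hi a ha x hx => ?_
    · interval_cases i
      · exact stronglyClosed_of_isNormal isNormal_bot
      · simpa using hTc
      · simpa using hAc
    · interval_cases i
      · simp only [zero_add] at hx
        simp only [one_ne_zero, if_false, if_true] at hx ⊢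
        rw [Subgroup.mem_bot, hZcomm x hx a (hAS ha), mul_inv_cancel_right, inv_mul_cancel]
      · simp only [Nat.reduceAdd, OfNat.ofNat_ne_zero, if_false, OfNat.ofNat_ne_one] at hx
        simp only [one_ne_zero, if_false, if_true]
        exact hmod (mor_conj le_rfl (hAS ha)) x (hAS hx) hx
  -- automorphisms of `p'`-order fix `A` pointwise
  have hres : ∀ P : Subgroup Ω, P ≤ S → ∀ β ∈ pResidual p (F.autGroup P), ∀ x : P,
      (x : Ω) ∈ A → (((β : F.autGroup P) : MulAut P) x : Ω) = x := by
    intro P hP β hβ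
    refine Subgroup.closure_induction
      (p := fun (β : F.autGroup P) _ => ∀ x : P, (x : Ω) ∈ A → ((β : MulAut P) x : Ω) = x)
      ?_ ?_ ?_ ?_ hβ
    · intro γ hγ x hxA
      have hm : Mor F P (autFun (γ : MulAut P)) := (mem_autGroup_iff hP).1 γ.2
      have hz := hmod hm x x.2 hxA
      rw [autFun_coe] at hz
      set z : P := x⁻¹ * (γ : MulAut P) x
      have hzfix : (γ : MulAut P) z = z := by
        apply Subtype.ext
        rw [← autFun_coe]
        exact hfixZ hm z z.2 hz
      have hpow : ∀ n : ℕ, (((γ ^ n : F.autGroup P) : MulAut P)) x = x * z ^ n := by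
        intro n
        induction n with
        | zero => simp
        | succ n ih =>
          rw [pow_succ', Subgroup.coe_mul, MulAut.mul_apply, ih, map_mul, map_pow, hzfix,
            pow_succ', ← mul_assoc]
          simp [z]
      have h1 := hpow (orderOf γ)
      rw [pow_orderOf_eq_one, Subgroup.coe_one, MulAut.one_apply, left_eq_mul] at h1
      obtain ⟨k, hk⟩ := (isPGroup_of_le hS hP) z
      have h2 : orderOf z = 1 := Nat.eq_one_of_dvd_coprimes (hγ.pow_right k)
        (orderOf_dvd_of_pow_eq_one h1) (orderOf_dvd_of_pow_eq_one hk)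
      rw [orderOf_eq_one_iff, inv_mul_eq_one] at h2
      exact congrArg Subtype.val h2.symm
    · intro x _
      simp
    · intro a b _ _ iha ihb x hxA
      have hb : (b : MulAut P) x = x := Subtype.ext (ihb x hxA)
      rw [Subgroup.coe_mul, MulAut.mul_apply, hb]
      exact iha x hxA
    · intro a _ iha x hxA
      have ha : (a : MulAut P) x = x := Subtype.ext (iha x hxA)
      rw [Subgroup.coe_inv]
      conv_lhs => rw [← ha]
      simp
  -- `A` is central in `S`
  have hfocal : F.hyperfocalSubgroup p ≤ Subgroup.centralizer (A : Set Ω) := by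
    refine (Subgroup.closure_le _).2 ?_
    rintro _ ⟨P, β, u, hP, -, rfl⟩
    rw [SetLike.mem_coe, Subgroup.mem_centralizer_iff]
    intro a ha
    obtain ⟨k, hk, hke, hkA⟩ := (isNormal_iff.1 hAnormal).2 P _ ((mem_autGroup_iff hP).1 β.2)
    have hu : (u : Ω) ∈ P ⊔ A := Subgroup.mem_sup_left u.2
    have haP : a ∈ P ⊔ A := Subgroup.mem_sup_right ha
    have hku : k u = ((β : MulAut P) u : Ω) := by rw [hke _ u.2, autFun_coe]
    have hkaA : k a ∈ A := hkA.le (mem_img_of_mem ha)
    obtain ⟨z, hz, hkz⟩ : ∃ z ∈ Z, k a = a * z :=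
      ⟨a⁻¹ * k a, hmod hk a haP ha, by rw [mul_inv_cancel_left]⟩
    have hc : a⁻¹ * ((u : Ω) * a * (u : Ω)⁻¹) ∈ Z := hmod (mor_conj le_rfl (hP u.2)) a (hAS ha) ha
    set c := a⁻¹ * ((u : Ω) * a * (u : Ω)⁻¹) with hcdef
    have hua : (u : Ω) * a * (u : Ω)⁻¹ = a * c := by rw [hcdef, mul_inv_cancel_left]
    have hacm : a * c ∈ P ⊔ A := Subgroup.mem_sup_right (A.mul_mem ha (hZA hc))
    have hwS : ((β : MulAut P) u : Ω) ∈ S := hP ((β : MulAut P) u).2
    have h3 : k ((u : Ω) * a * (u : Ω)⁻¹) = k (a * c) := congrArg k hua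
    rw [hk.map_conj hu haP, hk.map_mul haP (Subgroup.mem_sup_right (hZA hc)),
      hfixZ hk c (Subgroup.mem_sup_right (hZA hc)) hc, hku, hkz] at h3
    set w := ((β : MulAut P) u : Ω)
    have h4 : w * a * w⁻¹ = a * c := by
      have e1 : w * (a * z) * w⁻¹ = w * a * w⁻¹ * z := by
        rw [← mul_assoc w a z, mul_assoc (w * a) z w⁻¹, ← hZcomm z hz w⁻¹ (S.inv_mem hwS),
          ← mul_assoc]
      have e2 : a * z * c = a * c * z := by rw [mul_assoc, hZcomm c hc z (hZS hz), ← mul_assoc]
      rw [e1, e2] at h3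
      exact mul_right_cancel h3
    have h5 : (u : Ω) * a * (u : Ω)⁻¹ = w * a * w⁻¹ := by rw [hua, h4]
    show a * ((u : Ω)⁻¹ * w) = (u : Ω)⁻¹ * w * a
    calc a * ((u : Ω)⁻¹ * w) = (u : Ω)⁻¹ * ((u : Ω) * a * (u : Ω)⁻¹) * w := by group
      _ = (u : Ω)⁻¹ * w * a := by rw [h5]; group
  rw [hperf] at hfocal
  have hAcomm : ∀ a ∈ A, ∀ s ∈ S, s * a * s⁻¹ = a := fun a ha s hs => by
    rw [mul_inv_eq_iff_eq_mul]
    exact (Subgroup.mem_centralizer_iff.1 (hfocal hs) a ha).symm
  -- so `A` is central in `F`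
  have hAcentral : F.IsCentral A := by
    refine isCentral_of_singleton_classes hS hF hAS fun R f hf x hxR hxA => ?_
    let K : Ω → Ω → Prop := fun x y => (x ∈ A ∨ y ∈ A) → x = y
    have hK : RelCond S K :=
      { refl := fun _ _ _ => rfl
        symm := fun _ _ _ _ h h' => (h (Or.symm h')).symm
        trans := fun x _ y _ z _ h h' h'' => by
          rcases h'' with h1 | h1
          · have e := h (Or.inl h1)
            rw [e]; exact h' (Or.inl (e ▸ h1))
          · have e := h' (Or.inr h1)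
            rw [← e]; exact h (Or.inr (e.symm ▸ h1))
        conj := fun c hc x _ h => by
          rcases h with h1 | h1
          · exact (hAcomm x h1 c hc).symm
          · have h2 := StronglyClosed.conj_mem hAc (S.inv_mem hc) h1
            rw [inv_inv] at h2
            have h3 : x ∈ A := by simpa [mul_assoc] using h2
            exact (hAcomm x h3 c hc).symm }
    refine (rel_of_autGroup hS hF hK (fun P hP α hα y hy => ?_) hf hxR (Or.inl hxA)).symm
    have hyA : (y : Ω) ∈ A := by
      rcases hy with h1 | h1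
      · exact h1
      · have hm := (mem_autGroup_iff hP.1).1 ((F.autGroup P).inv_mem hα)
        have h2 := StronglyClosed.mem hAc hm (α y).2 h1
        rwa [autFun_coe, MulAut.inv_apply, MulEquiv.symm_apply_apply] at h2
    obtain ⟨β, c, hβ, hc, he⟩ := exists_residual_mul hS hF hP hα
    obtain ⟨hmem, hye⟩ := he y
    rw [hye, hres P hP.1 β hβ ⟨_, hmem⟩ (show c * (y : Ω) * c⁻¹ ∈ A by rw [hAcomm _ hyA c hc]; exact hyA)]
    exact (hAcomm _ hyA c hc).symm
  have hAZ : A ≤ Z := le_sSup hAcentral
  rw [eq_bot_iff]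
  intro e he
  obtain ⟨s, rfl⟩ := QuotientGroup.mk'_surjective (Z.subgroupOf S) e
  rw [Subgroup.mem_bot]
  exact (hker s).2 (hAZ ⟨s, he, rfl⟩)

end Cfsg.Agent.S5315
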