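import Cfsg.Statements.S5331
import Mathlib
import Cfsg.Agent.Lib.Fusion.Hyperfocal
import Cfsg.Agent.Lib.Fusion.InnerCriteria
import Cfsg.Agent.Lib.PLocal.ThompsonS4
-- import your own Cfsg.Agent.* helpers here

set_option autoImplicit false
open Cfsg

namespace Cfsg.Agent.S5331

/-- Let S be a finite abelian 2-group that is a direct product of cyclic groups of pairwise distinct orders 2^{a_1} < 2^{a_2} < ⋯ < 2^{a_n} (all a_i ≥ 1). Then every saturated fusion system over S is the inner one: its maps are exactly the conjugations by elements of S. -/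
theorem result {Ω : Type*} [Group Ω] {S : Subgroup Ω} [Finite S] (n : ℕ) (a : Fin n → ℕ) (ha : StrictMono a) (ha1 : ∀ i, 1 ≤ a i) (e : ↥S ≃* Multiplicative ((i : Fin n) → ZMod (2 ^ a i))) (F : Cfsg.FusionSystem S) (hF : F.IsSaturated 2) (P : Subgroup Ω) : F.Hom P = (Cfsg.innerFusionSystem S).Hom P := by
  classical
  haveI : Fact (Nat.Prime 2) := ⟨Nat.prime_two⟩
  have hcomm : ∀ x y : S, x * y = y * x := fun x y => e.injective (by rw [map_mul, map_mul, mul_comm])
  have hab : ∀ x ∈ S, ∀ y ∈ S, x * y = y * x := fun x hx y hy => congrArg Subtype.val (hcomm ⟨x, hx⟩ ⟨y, hy⟩)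
  have hS : IsPGroup 2 S := by
    refine IsPGroup.of_card (n := ∑ i, a i) ?_
    rw [Nat.card_congr e.toEquiv, Nat.card_congr Multiplicative.toAdd, Nat.card_pi,
      ← Finset.prod_pow_eq_pow_sum]
    exact Finset.prod_congr rfl fun i _ => Nat.card_zmod _
  have hdich : ∀ (m : ℕ) (x : ZMod (2 ^ m)), 1 ≤ m → x + x = 0 → x = 0 ∨ x = ((2 ^ (m - 1) : ℕ) : ZMod (2 ^ m)) := by
    intro m x hm hx
    have hd : 2 ^ m ∣ x.val + x.val := by
      rw [← ZMod.natCast_eq_zero_iff]
      rw [Nat.cast_add, ZMod.natCast_zmod_val, hx]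
    have hlt := ZMod.val_lt x
    have hpow : 2 ^ m = 2 ^ (m - 1) + 2 ^ (m - 1) := by
      conv_lhs => rw [show m = (m - 1) + 1 by omega, pow_succ]
      omega
    obtain ⟨c, hc⟩ := hd
    rcases c with _ | _ | c
    · left
      rw [← ZMod.natCast_zmod_val x, show x.val = 0 by omega, Nat.cast_zero]
    · right
      rw [← ZMod.natCast_zmod_val x, show x.val = 2 ^ (m - 1) by omega]
    · exfalso
      have : 2 ^ m * 2 ≤ 2 ^ m * (c + 1 + 1) := Nat.mul_le_mul_left _ (by omega)
      omega
  let W : ℕ → S → Prop := fun k x => x ^ 2 = 1 ∧ ∃ y : S, y ^ 2 ^ k = x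
  have hcrit : ∀ (k : ℕ) (x : S), W k x → (∀ i, a i = k + 1 → (e x).toAdd i = 0) → W (k + 1) x := by
    intro k x hx hzero
    refine ⟨hx.1, ?_⟩
    obtain ⟨y, hy⟩ := hx.2
    have h2 : ∀ i, (e x).toAdd i + (e x).toAdd i = 0 := fun i => by
      have h := congrArg (fun z : S => (e z).toAdd i) hx.1
      simpa [map_pow, two_nsmul, ← two_mul] using h
    have hv : ∀ i, ∃ v : ZMod (2 ^ a i), (2 ^ (k + 1)) • v = (e x).toAdd i := by
      intro i
      rcases hdich _ _ (ha1 i) (h2 i) with h | h
      · exact ⟨0, by rw [h, smul_zero]⟩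
      · rcases Nat.lt_trichotomy (a i) (k + 1) with hlt | heq | hgt
        · refine ⟨0, ?_⟩
          rw [smul_zero, ← hy]
          simp only [map_pow, toAdd_pow, Pi.smul_apply, nsmul_eq_mul]
          rw [(ZMod.natCast_eq_zero_iff (2 ^ k) (2 ^ a i)).2 (Nat.pow_dvd_pow 2 (by omega)), zero_mul]
        · exact ⟨0, by rw [smul_zero, hzero i heq]⟩
        · refine ⟨((2 ^ (a i - 1 - (k + 1)) : ℕ) : ZMod (2 ^ a i)), ?_⟩
          rw [h, nsmul_eq_mul, ← Nat.cast_mul, ← pow_add]
          congr 2
          omega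
    choose v hv using hv
    refine ⟨e.symm (Multiplicative.ofAdd v), e.injective ?_⟩
    rw [map_pow, MulEquiv.apply_symm_apply]
    exact Multiplicative.toAdd.injective (funext fun i => hv i)
  have htop : ∀ δ : MulAut S, Odd (orderOf δ) → δ = 1 := by
    intro δ hodd
    have hcop : (orderOf δ).Coprime 2 := Nat.coprime_two_right.2 hodd
    have hit : ∀ (m : ℕ) (x : S), (⇑δ)^[m] x = (δ ^ m) x := by
      intro m
      induction m with
      | zero => intro x; rfl
      | succ m ih => intro x; rw [Function.iterate_succ_apply', ih, pow_succ']; rfl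
    have hW : ∀ k x, W k x → W k (δ x) := fun k x ⟨h1, y, hy⟩ =>
      ⟨by rw [← map_pow, h1, map_one], δ y, by rw [← map_pow, hy]⟩
    have hfix : ∀ m k, (∑ i, a i) ≤ k + m → ∀ x, W k x → δ x = x := by
      intro m
      induction m with
      | zero =>
        intro k hk x hx
        obtain ⟨y, hy⟩ := hx.2
        have hx1 : x = 1 := by
          rw [← hy]
          refine e.injective (Multiplicative.toAdd.injective (funext fun i => ?_))
          simp only [map_pow, toAdd_pow, Pi.smul_apply, map_one, toAdd_one, Pi.zero_apply, nsmul_eq_mul]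
          rw [(ZMod.natCast_eq_zero_iff (2 ^ k) (2 ^ a i)).2 (Nat.pow_dvd_pow 2 ?_), zero_mul]
          have := Finset.single_le_sum (f := a) (fun j _ => Nat.zero_le _) (Finset.mem_univ i)
          omega
        rw [hx1, map_one]
      | succ m ih =>
        intro k hk x hx
        have hsm : ∀ z, W (k + 1) z → δ z = z := ih (k + 1) (by omega)
        by_cases hx1 : W (k + 1) x
        · exact hsm x hx1
        set u := x⁻¹ * δ x with hu
        have hdx := hW k x hx
        have hdx1 : ¬ W (k + 1) (δ x) := fun h => hx1 (δ.injective (hsm _ h) ▸ h)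
        have hu2 : u ^ 2 = 1 := by rw [hu, (show Commute x⁻¹ (δ x) from hcomm _ _).mul_pow, inv_pow, hx.1, hdx.1, inv_one, mul_one]
        have huk : W k u := by
          obtain ⟨y, hy⟩ := hx.2
          obtain ⟨y', hy'⟩ := hdx.2
          exact ⟨hu2, y⁻¹ * y', by rw [(show Commute y⁻¹ y' from hcomm _ _).mul_pow, inv_pow, hy, hy']⟩
        have huW : W (k + 1) u := by
          refine hcrit k u huk fun i hi => ?_
          have key : ∀ z, W k z → ¬ W (k + 1) z → (e z).toAdd i = ((2 ^ (a i - 1) : ℕ) : ZMod (2 ^ a i)) := by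
            intro z hz hz1
            have h2 : (e z).toAdd i + (e z).toAdd i = 0 := by
              have h := congrArg (fun w : S => (e w).toAdd i) hz.1
              simpa [map_pow, two_nsmul, ← two_mul] using h
            refine (hdich _ _ (ha1 i) h2).resolve_left fun h0 => hz1 (hcrit k z hz fun j hj => ?_)
            rw [ha.injective (hj.trans hi.symm)]
            exact h0
          rw [hu, map_mul, map_inv, toAdd_mul, toAdd_inv, Pi.add_apply, Pi.neg_apply, key x hx hx1, key _ hdx hdx1,
            neg_add_cancel]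
        have hfu : δ u = u := hsm u huW
        have hdel : δ x = x * u := by rw [hu, mul_inv_cancel_left]
        have hpow : ∀ j : ℕ, (⇑δ)^[j] x = x * u ^ j := by
          intro j
          induction j with
          | zero => simp
          | succ j ihj => rw [Function.iterate_succ_apply', ihj, map_mul, map_pow, hfu, hdel, mul_assoc, ← pow_succ']
        have h1 := hpow (orderOf δ)
        rw [hit, pow_orderOf_eq_one, MulAut.one_apply] at h1
        have hu1 : u = 1 := by
          rw [← orderOf_eq_one_iff]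
          exact Nat.eq_one_of_dvd_coprimes hcop (orderOf_dvd_of_pow_eq_one (mul_eq_left.1 h1.symm))
            (orderOf_dvd_of_pow_eq_one hu2)
        rw [hdel, hu1, mul_one]
    refine MulEquiv.ext fun x => ?_
    exact Cfsg.Lib.PLocal.fixed_of_fix_omega_abelian (p := 2) hS hcomm δ (orderOf δ) hcop
      (fun z => by rw [hit, pow_orderOf_eq_one]; rfl)
      (fun z hz => hfix _ 0 (Nat.le_add_left _ _) z ⟨hz, z, by simp⟩) x
  have haut : ∀ α ∈ F.autGroup S, α = 1 := by
    haveI := Cfsg.Lib.Fusion.finite_mulAut_of_le (le_refl S)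
    have hA : IsPGroup 2 (F.autGroup S) := by
      rintro ⟨α, hα⟩
      set k := (orderOf α).factorization 2
      refine ⟨k, Subtype.ext (htop (α ^ 2 ^ k) ?_)⟩
      rw [orderOf_pow, Nat.gcd_eq_right (Nat.ordProj_dvd _ 2)]
      exact Nat.coprime_two_right.1 (Nat.coprime_ordCompl Nat.prime_two (orderOf_pos α).ne').symm
    obtain ⟨T, hT⟩ := (Cfsg.Lib.Fusion.fullyNormalized_axiom hS hF (Cfsg.Lib.Fusion.fullyNormalized_top (F := F))).2.2
    intro α hα
    have htopT : (T : Subgroup (F.autGroup S)) = ⊤ := (T.is_maximal' (hA.to_subgroup ⊤) le_top).symm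
    have h1 : (⟨α, hα⟩ : F.autGroup S) ∈ (T : Subgroup (F.autGroup S)) := htopT.ge (Subgroup.mem_top _)
    rw [hT, Subgroup.mem_subgroupOf, Cfsg.Lib.Fusion.mem_autInducedBy_iff] at h1
    obtain ⟨c, hc, he⟩ := h1
    refine Cfsg.Lib.Fusion.aut_ext fun x hx => ?_
    rw [he x hx, hab c hc x hx, mul_inv_cancel_right, Cfsg.Lib.Fusion.autFun_apply _ hx]
    rfl
  refine (Cfsg.Lib.Fusion.innerSys_iff).1 ?_ P
  intro Q f hf
  obtain ⟨β, hβ, hβe⟩ := Cfsg.Lib.Fusion.exists_aut_of_abelian hS hF hab hf
  refine ⟨1, S.one_mem, fun x hx => ?_⟩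
  rw [← hβe x hx, haut β hβ, Cfsg.Lib.Fusion.autFun_apply _ (hf.le hx)]
  simp

end Cfsg.Agent.S5331
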