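import Cfsg.Statements.S5332
import Cfsg.Agent.Lib.Fusion.InnerSubsystem

set_option autoImplicit false
open Cfsg

namespace Cfsg.Agent.S5332

/-- Let p be odd and F a saturated fusion system over a finite p-group S that is not the inner system of S. Then F contains a saturated constrained subsystem over S that is itself not the inner system. -/
theorem result {Ω : Type*} [Group Ω] {S : Subgroup Ω} [Finite S] (p : ℕ) [Fact p.Prime] (hS : IsPGroup p S) (F : Cfsg.FusionSystem S) (hF : F.IsSaturated p) (hp : p ≠ 2) (hne : ∃ P : Subgroup Ω, F.Hom P ≠ (Cfsg.innerFusionSystem S).Hom P) : ∃ E : Cfsg.FusionSystem S, E ≤ F ∧ E.IsConstrained p ∧ ∃ P : Subgroup Ω, E.Hom P ≠ (Cfsg.innerFusionSystem S).Hom P := by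
  classical
  have hnA : ¬ Cfsg.Lib.Fusion.AutP F p := fun h => by
    obtain ⟨P, hP⟩ := hne
    exact hP ((Cfsg.Lib.Fusion.autP_iff_hom hS hF).1 h P)
  obtain ⟨E, hsub, hE, hEn⟩ := Cfsg.Lib.Fusion.exists_constrained_of_not_autP hp hS hF hnA
  refine ⟨E, fun P φ hφ => ?_, hE, ?_⟩
  · exact Cfsg.Lib.Fusion.mem_hom_iff_mor.2 (hsub _ _ (Cfsg.Lib.Fusion.mor_extFun hφ))
  · by_contra hcon
    exact hEn ((Cfsg.Lib.Fusion.autP_iff_hom hS hE.1).2 fun P => by_contra fun h => hcon ⟨P, h⟩)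

end Cfsg.Agent.S5332
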