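import Cfsg.Statements.S5346
import Mathlib
import Cfsg.Agent.Lib.ThreeT.Structure

set_option autoImplicit false
open Cfsg

namespace Cfsg.Agent.S5346

/-- Let D be a conjugation-invariant generating set of 3-transpositions of a finite group G and d a member of D. Then D has width 1 (no two different members of D commute) if and only if G is the product of the subgroup generated by d with the largest normal 3-subgroup of G. -/
theorem result {G : Type*} [Group G] [Finite G] {D : Set G} (hD : Cfsg.IsThreeTranspositionGroup D) {d : G} (hd : d ∈ D) : Cfsg.commutingWidth D = 1 ↔ Subgroup.zpowers d ⊔ Cfsg.pCore 3 G = ⊤ := by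
  classical
  haveI : Fact (Nat.Prime 3) := ⟨Nat.prime_three⟩
  obtain ⟨hT, hc, hgen⟩ := hD
  have hbdd : BddAbove {n : ℕ | ∃ E : Set G, E ⊆ D ∧ E.Finite ∧ (∀ a ∈ E, ∀ b ∈ E, Commute a b) ∧ E.ncard = n} := by
    refine ⟨Nat.card G, ?_⟩
    rintro n ⟨E, -, -, -, rfl⟩
    rw [← Set.ncard_univ]
    exact Set.ncard_le_ncard (Set.subset_univ E)
  constructor
  · intro hw
    have hnc : ∀ a ∈ D, ∀ b ∈ D, a ≠ b → ¬ Commute a b := by
      intro a ha b hb hab hcab
      have h2 : ({a, b} : Set G).ncard ≤ Cfsg.commutingWidth D := le_csSup hbdd ⟨{a, b},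
        Set.insert_subset ha (Set.singleton_subset_iff.2 hb), Set.toFinite _, by
          rintro x (rfl | rfl) y (rfl | rfl)
          · exact Commute.refl _
          · exact hcab
          · exact hcab.symm
          · exact Commute.refl _, rfl⟩
      rw [hw, Set.ncard_pair hab] at h2
      omega
    have hconjd : ∀ a, a ∈ conjugatesOf d ↔ a ∈ D := by
      intro a
      constructor
      · intro ha
        obtain ⟨g, rfl⟩ := isConj_iff.1 ha
        exact hc g d hd
      · intro ha
        show IsConj d a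
        rw [isConj_iff]
        by_cases hda : d = a
        · exact ⟨1, by simpa using hda⟩
        · exact ⟨d * a, Lib.ThreeT.conj_pair hT hd ha (hnc d hd a ha hda)⟩
    have hres := Cfsg.Agent.S5560.result Nat.prime_three (by norm_num) d (hT.1 d hd) (fun a ha b hb => by
      rw [hconjd] at ha hb
      by_cases hab : a = b
      · exact ⟨0, by rw [pow_zero, hab, Lib.ThreeT.mul_self (hT.1 b hb), orderOf_one]⟩
      · have h3 := (hT.2 a ha b hb).resolve_left fun h2 =>
          hnc a ha b hb hab ((Lib.ThreeT.commute_iff_sq (hT.1 a ha) (hT.1 b hb)).2 h2)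
        rcases (Nat.dvd_prime Nat.prime_three).1 (orderOf_dvd_of_pow_eq_one h3) with h1 | h1
        · exact ⟨0, by rw [h1]; rfl⟩
        · exact ⟨1, by rw [h1]; rfl⟩)
    rw [eq_top_iff, ← hgen, Subgroup.closure_le]
    intro a ha
    rw [SetLike.mem_coe, show a = d * (d * a) from (Lib.ThreeT.cancel (Lib.ThreeT.mul_self (hT.1 d hd)) a).symm]
    exact mul_mem (Subgroup.mem_sup_left (Subgroup.mem_zpowers d))
      (Subgroup.mem_sup_right (hres d ((hconjd d).2 hd) a ((hconjd a).2 ha)))
  · intro htop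
    refine le_antisymm (csSup_le ⟨1, {d}, by simpa using hd, Set.toFinite _, by simp, by simp⟩ ?_)
      (le_csSup hbdd ⟨{d}, by simpa using hd, Set.toFinite _, by simp, by simp⟩)
    rintro n ⟨E, hE, hfin, hEc, rfl⟩
    rw [Set.ncard_le_one hfin]
    intro a ha b hb
    set π := QuotientGroup.mk' (Cfsg.pCore 3 G)
    have hz : ∀ x : G, π x = 1 ∨ π x = π d := by
      intro x
      have hx : x ∈ Subgroup.zpowers d ⊔ Cfsg.pCore 3 G := by rw [htop]; trivial
      obtain ⟨y, hy, z, hz, rfl⟩ := Subgroup.mem_sup_of_normal_right.1 hx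
      have hπz : π z = 1 := (QuotientGroup.eq_one_iff z).2 hz
      obtain ⟨k, rfl⟩ := hy
      rw [map_mul, hπz, mul_one]
      show π (d ^ k) = 1 ∨ _
      rcases Int.even_or_odd k with ⟨j, rfl⟩ | ⟨j, rfl⟩
      · left; rw [← two_mul, zpow_mul, zpow_two, Lib.ThreeT.mul_self (hT.1 d hd), one_zpow, map_one]
      · right; show π (d ^ (2 * j + 1)) = π d; rw [zpow_add, zpow_mul, zpow_two, Lib.ThreeT.mul_self (hT.1 d hd), one_zpow, one_mul, zpow_one]
    have hne : ∀ x ∈ D, π x ≠ 1 := by
      intro x hx e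
      obtain ⟨k, hk⟩ := Lib.ThreeT.exponent_pow_mem ((QuotientGroup.eq_one_iff x).1 e)
      have h2 : x ^ 2 = 1 := by rw [← hT.1 x hx]; exact pow_orderOf_eq_one x
      have hco : Nat.Coprime 2 (3 ^ k) := Nat.Coprime.pow_right k (by norm_num)
      have : x = 1 := by simpa [hco.gcd_eq_one] using pow_gcd_eq_one.2 (show x ^ 2 = 1 ∧ x ^ 3 ^ k = 1 from ⟨h2, hk⟩)
      have h3 := hT.1 x hx
      rw [this, orderOf_one] at h3
      omega
    have hab : π (a * b) = 1 := by
      rw [map_mul, (hz a).resolve_left (hne a (hE ha)), (hz b).resolve_left (hne b (hE hb)), ← map_mul,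
        Lib.ThreeT.mul_self (hT.1 d hd), map_one]
    obtain ⟨k, hk⟩ := Lib.ThreeT.exponent_pow_mem ((QuotientGroup.eq_one_iff _).1 hab)
    have h2 := (Lib.ThreeT.commute_iff_sq (hT.1 a (hE ha)) (hT.1 b (hE hb))).1 (hEc a ha b hb)
    have hco : Nat.Coprime 2 (3 ^ k) := Nat.Coprime.pow_right k (by norm_num)
    have : a * b = 1 := by simpa [hco.gcd_eq_one] using pow_gcd_eq_one.2 (show (a * b) ^ 2 = 1 ∧ (a * b) ^ 3 ^ k = 1 from ⟨h2, hk⟩)
    rwa [mul_eq_one_iff_eq_inv, Lib.ThreeT.inv_self (hT.1 b (hE hb))] at this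

end Cfsg.Agent.S5346
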