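import Cfsg.Statements.S5350
import Mathlib
import Cfsg.Agent.Lib.ThreeT.Structure

set_option autoImplicit false
open Cfsg

namespace Cfsg.Agent.S5350

/-- Let D be a conjugacy class of 3-transpositions generating the finite group G, with at least two members, and d a member of D. Then the set of members w of D whose commuting partners in D (other than w) are exactly those of d (other than d) coincides with the set of members of D lying in the coset of d modulo the largest normal 3-subgroup of G, and also with the orbit of d under conjugation by that normal 3-subgroup. -/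
theorem result {G : Type*} [Group G] [Finite G] {D : Set G} (hD : Cfsg.IsThreeTranspositionClass D) (hD2 : ∃ a ∈ D, ∃ b ∈ D, a ≠ b) {d : G} (hd : d ∈ D) : {w : G | w ∈ D ∧ {y : G | y ∈ D ∧ y ≠ d ∧ Commute d y} = {y : G | y ∈ D ∧ y ≠ w ∧ Commute w y}} = {w : G | w ∈ D ∧ d⁻¹ * w ∈ Cfsg.pCore 3 G} ∧ {w : G | w ∈ D ∧ {y : G | y ∈ D ∧ y ≠ d ∧ Commute d y} = {y : G | y ∈ D ∧ y ≠ w ∧ Commute w y}} = {w : G | ∃ g ∈ Cfsg.pCore 3 G, w = g * d * g⁻¹} := by
  have h := Lib.ThreeT.GenClass.of_isClass hD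
  have key : ∀ v, v ∈ D → (Lib.ThreeT.Wrel D d v ↔ d⁻¹ * v ∈ Cfsg.pCore 3 G) := by
    intro v hv
    constructor
    · intro hW
      rw [Lib.ThreeT.inv_self (h.tset.1 d hd)]
      exact Lib.ThreeT.Wrel.mem_pCore h hd hv hW
    · exact fun hmem => Lib.ThreeT.Wrel_of_mem_pCore h hd hv hmem
  constructor
  · ext v
    exact ⟨fun hv => ⟨hv.1, (key v hv.1).1 hv.2⟩, fun hv => ⟨hv.1, (key v hv.1).2 hv.2⟩⟩
  · ext v
    constructor
    · rintro ⟨hv, hW⟩
      obtain ⟨g, hg, hgv⟩ := Lib.ThreeT.Wrel.exists_orbit h hd hv hW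
      exact ⟨g, hg, hgv.symm⟩
    · rintro ⟨g, hg, rfl⟩
      exact ⟨h.conj g d hd, (key _ (h.conj g d hd)).2 (Lib.ThreeT.orbit_mem_pCore hg)⟩

end Cfsg.Agent.S5350
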