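import Cfsg.Statements.S5351
import Mathlib
import Cfsg.Agent.Lib.ThreeT.Structure

set_option autoImplicit false
open Cfsg

namespace Cfsg.Agent.S5351

/-- Let D be a conjugacy class of 3-transpositions generating the finite group G, with at least two members. Then for every prime p > 3 the largest normal p-subgroup of G is central, and exactly one of the following holds: the largest normal 2-subgroup of G is not central; the largest normal 3-subgroup of G is not central; the layer of G (the product of its components) is non-trivial. -/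
theorem result {G : Type*} [Group G] [Finite G] {D : Set G} (hD : Cfsg.IsThreeTranspositionClass D) (hD2 : ∃ a ∈ D, ∃ b ∈ D, a ≠ b) : (∀ p : ℕ, p.Prime → 3 < p → Cfsg.pCore p G ≤ Subgroup.center G) ∧ ((¬ Cfsg.pCore 2 G ≤ Subgroup.center G ∧ Cfsg.pCore 3 G ≤ Subgroup.center G ∧ Cfsg.layer G = ⊥) ∨ (Cfsg.pCore 2 G ≤ Subgroup.center G ∧ ¬ Cfsg.pCore 3 G ≤ Subgroup.center G ∧ Cfsg.layer G = ⊥) ∨ (Cfsg.pCore 2 G ≤ Subgroup.center G ∧ Cfsg.pCore 3 G ≤ Subgroup.center G ∧ Cfsg.layer G ≠ ⊥)) := by
  have h := Lib.ThreeT.GenClass.of_isClass hD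
  obtain ⟨a, ha, b, hb, hab⟩ := hD2
  refine ⟨fun p hp hp3 => h.pCore_le_center hp hp3, ?_⟩
  by_cases h2 : Cfsg.pCore 2 G ≤ Subgroup.center G
  · by_cases h3 : Cfsg.pCore 3 G ≤ Subgroup.center G
    · refine Or.inr (Or.inr ⟨h2, h3, fun hE => ?_⟩)
      have hF : Cfsg.fittingSubgroup G ≤ Subgroup.center G := by
        rw [Cfsg.Lib.Solv.fitting_eq_iSup_pCore]
        refine iSup_le fun p => ?_
        rcases lt_or_ge 3 (p : ℕ) with hp | hp
        · exact h.pCore_le_center p.2 hp
        · rcases (show (p : ℕ) = 2 ∨ (p : ℕ) = 3 by have := p.2.two_le; omega) with e | e <;> rw [e]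
          · exact h2
          · exact h3
      have hle := Cfsg.Lib.Comp.centralizer_fitting_le_of_layer_eq_bot hE
      have htop : ∀ g : G, g ∈ Subgroup.center G := fun g => hF (hle
        (Subgroup.mem_centralizer_iff.2 fun x hx => (Subgroup.mem_center_iff.1 (hF hx) g).symm))
      obtain ⟨g, rfl⟩ := h.trans a ha b hb
      exact hab (by rw [Subgroup.mem_center_iff.1 (htop a) g, mul_inv_cancel_right])
    · exact Or.inr (Or.inl ⟨h2, h3, h.layer_move_three h3⟩)
  · exact Or.inl ⟨h2, h.pCore_exclusive ha h2, h.layer_move_two h2⟩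

end Cfsg.Agent.S5351
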