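import Cfsg.Statements.S5352
import Mathlib
import Cfsg.Agent.Lib.ThreeT.Components

set_option autoImplicit false
open Cfsg

namespace Cfsg.Agent.S5352

/-- Let D be a conjugacy class of 3-transpositions generating the finite group G, with at least two members, and suppose the largest normal 2-subgroup and the largest normal 3-subgroup of G are both central. Then G has a quasisimple normal subgroup L such that the generalized Fitting subgroup of G is the product of L and the centre; and either L = G or the image of D in G/L has width 1, in the sense that two members of D whose commutator lies in L have the same image modulo L. -/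
theorem result {G : Type*} [Group G] [Finite G] {D : Set G} (hD : Cfsg.IsThreeTranspositionClass D) (hD2 : ∃ a ∈ D, ∃ b ∈ D, a ≠ b) (h2 : Cfsg.pCore 2 G ≤ Subgroup.center G) (h3 : Cfsg.pCore 3 G ≤ Subgroup.center G) : ∃ L : Subgroup G, L.Normal ∧ Cfsg.IsQuasisimple L ∧ Cfsg.generalizedFittingSubgroup G = L ⊔ Subgroup.center G ∧ (L = ⊤ ∨ ∀ a ∈ D, ∀ b ∈ D, a * b * a⁻¹ * b⁻¹ ∈ L → a⁻¹ * b ∈ L) := by
  have h := Lib.ThreeT.GenClass.of_isClass hD
  obtain ⟨d, hd, hd'⟩ := id hD2
  have hL := h.layer_isComponent hd (h.layer_ne_bot hD2 h2 h3)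
  haveI hLn : (Cfsg.layer G).Normal := h.component_normal hL
  refine ⟨Cfsg.layer G, hLn, hL.2, ?_, Or.inr ?_⟩
  · unfold Cfsg.generalizedFittingSubgroup
    rw [le_antisymm (h.fitting_le_center h2 h3) Lib.ThreeT.center_le_fitting]
  · intro a ha b hb hab
    by_cases hc : Commute a b
    · obtain ⟨n, hn, hna⟩ := h.component_orbit hL b hb a ha hc.symm
      rw [← hna]
      have h1 : a⁻¹ * n * a ∈ Cfsg.layer G := by simpa using hLn.conj_mem n hn a⁻¹
      simpa [mul_assoc] using (Cfsg.layer G).mul_mem h1 ((Cfsg.layer G).inv_mem hn)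
    · have h3' : (a * b) ^ 3 = 1 := (h.tset.2 a ha b hb).resolve_left fun h2 =>
        hc ((Lib.ThreeT.commute_iff_sq (h.tset.1 a ha) (h.tset.1 b hb)).2 h2)
      rw [Lib.ThreeT.inv_self (h.tset.1 a ha)] at hab ⊢
      rw [Lib.ThreeT.inv_self (h.tset.1 b hb)] at hab
      have h4 : a * b * a * b * (a * b) = 1 := by rw [← h3', pow_succ, pow_succ, pow_one]; simp only [mul_assoc]
      have := (Cfsg.layer G).inv_mem hab
      rwa [inv_eq_of_mul_eq_one_right h4] at this

end Cfsg.Agent.S5352
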