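import Cfsg.Statements.S5354
import Mathlib
import Cfsg.Agent.Lib.ThreeT.Components

set_option autoImplicit false
open Cfsg

namespace Cfsg.Agent.S5354

/-- Let D be a conjugation-invariant generating set of 3-transpositions of the finite group G on which G acts primitively by conjugation, and suppose two different members of D commute (width at least 2). Then G has a quasisimple normal subgroup L of index at most 2 with the generalized Fitting subgroup of G equal to L times the centre, the commuting graph of D is connected, and for d in D the subgroup generated by the members of D commuting with d is a maximal D-subgroup: it is proper, and every subgroup generated by members of D that contains it is either it or G. -/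
theorem result {G : Type*} [Group G] [Finite G] {D : Set G} (hD : Cfsg.IsThreeTranspositionGroup D) (hprim : Cfsg.IsPrimitiveUnderConj D) (hw : ∃ a ∈ D, ∃ b ∈ D, a ≠ b ∧ Commute a b) : (∃ L : Subgroup G, L.Normal ∧ Cfsg.IsQuasisimple L ∧ L.index ≤ 2 ∧ Cfsg.generalizedFittingSubgroup G = L ⊔ Subgroup.center G) ∧ (Cfsg.commutingGraph D).Connected ∧ ∀ d ∈ D, Subgroup.closure {y : G | y ∈ D ∧ Commute d y} ≠ ⊤ ∧ ∀ H : Subgroup G, Cfsg.IsDSubgroup D H → Subgroup.closure {y : G | y ∈ D ∧ Commute d y} ≤ H → H = Subgroup.closure {y : G | y ∈ D ∧ Commute d y} ∨ H = ⊤ := by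
  classical
  obtain ⟨hT, hc, hgen⟩ := hD
  have h : Lib.ThreeT.GenClass D := ⟨hT, hc, hprim.1, hgen⟩
  obtain ⟨a, ha, b, hb, hab, hcab⟩ := hw
  have hnc := Lib.ThreeT.nc_of_two h ⟨a, ha, b, hb, hab⟩
  have hcore : ∀ (p : ℕ) (R : G → G → Prop), Equivalence R →
      (∀ g x y : G, R x y → R (g * x * g⁻¹) (g * y * g⁻¹)) →
      (∀ g ∈ Cfsg.pCore p G, ∀ x ∈ D, R x (g * x * g⁻¹)) → ¬ (∀ x ∈ D, ∀ y ∈ D, R x y) →
      Cfsg.pCore p G ≤ Subgroup.center G := by
    intro p R hR hinv hsub hnot
    by_contra hnc'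
    obtain ⟨g, hg, hgd⟩ := h.exists_moved hnc' ha
    exact hnot (h.rel_of_prim hprim R hR hinv ha (h.conj g a ha) hgd.symm (hsub g hg a ha))
  have h2 : Cfsg.pCore 2 G ≤ Subgroup.center G := by
    refine hcore 2 (Lib.ThreeT.Vrel D) ⟨fun _ e _ => Iff.rfl, fun h e he => (h e he).symm,
      fun h1 h2 e he => (h1 e he).trans (h2 e he)⟩ (fun g x y hxy => hxy.conj h g)
      (fun g hg x hx => Lib.ThreeT.Vrel_of_mem_pCore h hx (h.conj g x hx)
        (Lib.ThreeT.orbit_mem_pCore hg)) fun hall => ?_
    obtain ⟨p, hp, q, hq, hpq⟩ := hnc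
    exact hpq (((hall p hp q hq) q hq).2 (Commute.refl q))
  have h3 : Cfsg.pCore 3 G ≤ Subgroup.center G := by
    refine hcore 3 (Lib.ThreeT.Wrel D) ⟨fun _ => rfl, Eq.symm, Eq.trans⟩
      (fun g x y hxy => Lib.ThreeT.Wrel.conj h hxy g)
      (fun g hg x hx => Lib.ThreeT.Wrel_of_mem_pCore h hx (h.conj g x hx)
        (Lib.ThreeT.orbit_mem_pCore hg)) fun hall => ?_
    exact Lib.ThreeT.Wrel.not_commute hb (hall a ha b hb) hab hcab
  have hcon : (Cfsg.commutingGraph D).Connected := by
    haveI : Nonempty D := ⟨⟨a, ha⟩⟩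
    refine SimpleGraph.Connected.mk ?_
    intro x y
    let R : G → G → Prop := Relation.ReflTransGen fun p q => p ∈ D ∧ q ∈ D ∧ Commute p q
    have hR : Equivalence R := by
      haveI : Std.Symm (fun p q : G => p ∈ D ∧ q ∈ D ∧ Commute p q) :=
        ⟨fun p q hh => ⟨hh.2.1, hh.1, hh.2.2.symm⟩⟩
      exact ⟨fun _ => Relation.ReflTransGen.refl, fun {p q} hh => symm_of R hh, Relation.ReflTransGen.trans⟩
    have hall := h.rel_of_prim hprim R hR (fun g p q hpq =>
      hpq.lift (fun z => g * z * g⁻¹) fun s t hst =>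
        ⟨h.conj g s hst.1, h.conj g t hst.2.1, (Lib.ThreeT.commute_conj_iff g).2 hst.2.2⟩)
      ha hb hab (Relation.ReflTransGen.single ⟨ha, hb, hcab⟩)
    have key : ∀ q : G, R (x : G) q → ∀ hq : q ∈ D, (Cfsg.commutingGraph D).Reachable x ⟨q, hq⟩ := by
      intro q hxq
      induction hxq with
      | refl => intro _; exact SimpleGraph.Reachable.refl _
      | @tail s t _ hst ih =>
        intro ht
        refine (ih hst.1).trans ?_
        by_cases hst' : s = t
        · subst hst'; exact SimpleGraph.Reachable.refl _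
        · exact SimpleGraph.Adj.reachable ⟨fun e => hst' (congrArg Subtype.val e), Or.inl hst.2.2⟩
    exact key y (hall x x.2 y y.2) y.2
  have hL := h.layer_isComponent ha (h.layer_ne_bot ⟨a, ha, b, hb, hab⟩ h2 h3)
  haveI hLn : (Cfsg.layer G).Normal := h.component_normal hL
  have hF : Cfsg.generalizedFittingSubgroup G = Cfsg.layer G ⊔ Subgroup.center G := by
    unfold Cfsg.generalizedFittingSubgroup
    rw [le_antisymm (h.fitting_le_center h2 h3) Lib.ThreeT.center_le_fitting]
  have hi := h.index_le_two_of_connected hL ha hcon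
  have hbig := h.big_of_component hL hF (h.fitting_le_center h2 h3)
    (Lib.ThreeT.commutator_le_of_index_le_two hi) ha
  refine ⟨⟨Cfsg.layer G, hLn, hL.2, hi, hF⟩, hcon, fun d hd => ?_⟩
  set C := Subgroup.closure {y : G | y ∈ D ∧ Commute d y}
  have hCle : C ≤ Subgroup.centralizer {d} := by
    rw [Subgroup.closure_le]
    intro y hy
    refine Subgroup.mem_centralizer_iff.2 fun w hw => ?_
    rw [Set.mem_singleton_iff.1 hw]; exact hy.2.eq
  refine ⟨fun htop => ?_, fun H hH hle => ?_⟩
  · obtain ⟨e, he, hde⟩ := h.exists_not_commute hnc hd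
    have : e ∈ Subgroup.centralizer {d} := hCle (by rw [htop]; trivial)
    exact hde (Subgroup.mem_centralizer_iff.1 this d rfl)
  by_cases hall : ∀ y ∈ D, y ∈ H → Commute d y
  · left
    refine le_antisymm ?_ hle
    rw [← hH, Subgroup.closure_le]
    exact fun y hy => Subgroup.subset_closure ⟨hy.1, hall y hy.1 hy.2⟩
  · right
    push Not at hall
    obtain ⟨e, he, heH, hde⟩ := hall
    have := hbig.com_maximal hd (fun y hy hdy => hle (Subgroup.subset_closure ⟨hy, hdy⟩)) he heH hde
    rw [eq_top_iff, ← h.gen, Subgroup.closure_le]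
    exact this

end Cfsg.Agent.S5354
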