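import Cfsg.Statements.S5355
import Mathlib
import Cfsg.Agent.Lib.ThreeT.Structure

set_option autoImplicit false
open Cfsg

namespace Cfsg.Agent.S5355

/-- Let D be a conjugacy class of 3-transpositions generating the finite group G, with at least two members, and d a member of D. Suppose that every member of D commuting with d commutes with exactly the same members of D as d does, and that exactly one member of D other than d commutes with d. Then G is isomorphic to the symmetric group of degree 4. -/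
theorem result {G : Type*} [Group G] [Finite G] {D : Set G} (hD : Cfsg.IsThreeTranspositionClass D) (hD2 : ∃ a ∈ D, ∃ b ∈ D, a ≠ b) {d : G} (hd : d ∈ D) (hV : {y : G | y ∈ D ∧ Commute d y} = {v : G | v ∈ D ∧ ∀ e ∈ D, Commute v e ↔ Commute d e}) (hm : {y : G | y ∈ D ∧ Commute d y}.ncard = 2) : Nonempty (G ≃* Equiv.Perm (Fin 4)) := by
  classical
  have h := Lib.ThreeT.GenClass.of_isClass hD
  have hnc := Lib.ThreeT.nc_of_two h hD2
  have hone : ∀ p ∈ D, ∃ p', Lib.ThreeT.com D p = {p'} := by
    intro p hp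
    obtain ⟨g, rfl⟩ := h.trans d hd p hp
    have h1 : (Lib.ThreeT.com D d).ncard = 1 := by
      have he : Lib.ThreeT.com D d = {y : G | y ∈ D ∧ Commute d y} \ {d} := by
        ext y
        exact ⟨fun hy => ⟨⟨hy.1, hy.2.2⟩, hy.2.1⟩, fun hy => ⟨hy.1.1, hy.2, hy.1.2⟩⟩
      rw [he, Set.ncard_sdiff_singleton_of_mem (show d ∈ {y : G | y ∈ D ∧ Commute d y} from ⟨hd, Commute.refl d⟩), hm]
    obtain ⟨p', hp'⟩ := Set.ncard_eq_one.1 h1
    exact ⟨g * p' * g⁻¹, by
      rw [← Lib.ThreeT.image_com h g d, hp', Set.image_singleton]; rfl⟩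
  choose! pr hpr using hone
  have hprD : ∀ p ∈ D, pr p ∈ D ∧ pr p ≠ p ∧ Commute p (pr p) := fun p hp => by
    have : pr p ∈ Lib.ThreeT.com D p := by rw [hpr p hp]; rfl
    exact this
  have huniq : ∀ p ∈ D, ∀ y ∈ D, y ≠ p → Commute p y → y = pr p := fun p hp y hy hne hc => by
    have : y ∈ Lib.ThreeT.com D p := ⟨hy, hne, hc⟩
    rwa [hpr p hp] at this
  -- conjugation of the pair products
  have hkey : ∀ p ∈ D, ∀ q ∈ D, ¬ Commute p q →
      q * (p * pr p) * q = p * pr p * (q * pr q) ∧ Commute (p * pr p) (q * pr q) := by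
    intro p hp q hq hpq
    obtain ⟨hp', hne', hc'⟩ := hprD p hp
    have hqp' : ¬ Commute q (pr p) := by
      intro hc
      by_cases e : q = pr p
      · exact hpq (e ▸ hc')
      · have h1 : p = pr (pr p) := huniq _ hp' p hp hne'.symm hc'.symm
        have h2 : q = pr (pr p) := huniq _ hp' q hq e hc.symm
        exact hpq (h1.trans h2.symm ▸ Commute.refl p)
    obtain ⟨φ, h1, h2, h3⟩ := Lib.ThreeT.exists_hom_perm4 (Lib.ThreeT.mul_self (h.tset.1 p hp))
      (Lib.ThreeT.mul_self (h.tset.1 q hq)) (Lib.ThreeT.mul_self (h.tset.1 _ hp'))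
      (Lib.ThreeT.braid h.tset hp hq hpq) (Lib.ThreeT.braid h.tset hq hp' hqp') hc'.eq
    have h4 : φ (Equiv.swap 0 3) = pr q := by
      have hxD : φ (Equiv.swap 0 3) ∈ D := by
        have he' : (Equiv.swap 0 3 : Equiv.Perm (Fin 4)) = (Equiv.swap 0 1 * Equiv.swap 1 2) *
            Equiv.swap 2 3 * (Equiv.swap 0 1 * Equiv.swap 1 2)⁻¹ := by decide +kernel
        rw [he', map_mul, map_mul, map_inv, h3]
        exact h.conj _ _ hp'
      refine huniq q hq _ hxD ?_ ?_
      · rw [← h2]
        exact fun e => absurd (Lib.ThreeT.injective_perm4 φ (by rw [h1, h3]; exact hne'.symm) e) (by decide +kernel)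
      · rw [← h2]
        show φ _ * φ _ = φ _ * φ _
        rw [← map_mul, ← map_mul]; exact congrArg φ (by decide +kernel)
    constructor
    · rw [← h1, ← h2, ← h3] at *
      rw [← h3, ← h4, h1] at *
      exact (by rw [← h1, ← map_mul, ← map_mul, ← map_mul, ← map_mul, ← map_mul]; exact congrArg φ (by decide +kernel))
    · show _ * _ = _ * _
      rw [← h3, ← h4, ← h2, ← h1, ← map_mul, ← map_mul, ← map_mul, ← map_mul]
      exact congrArg φ (by decide +kernel)
  obtain ⟨z, hz, hdz⟩ := h.exists_not_commute hnc hd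
  obtain ⟨hd', hdne, hdc⟩ := hprD d hd
  have hzd' : ¬ Commute z (pr d) := by
    intro hc
    by_cases e : z = pr d
    · exact hdz (e ▸ hdc)
    · have h1 : d = pr (pr d) := huniq _ hd' d hd hdne.symm hdc.symm
      have h2 : z = pr (pr d) := huniq _ hd' z hz e hc.symm
      exact hdz (h1.trans h2.symm ▸ Commute.refl d)
  obtain ⟨φ, h1, h2, h3⟩ := Lib.ThreeT.exists_hom_perm4 (Lib.ThreeT.mul_self (h.tset.1 d hd))
    (Lib.ThreeT.mul_self (h.tset.1 z hz)) (Lib.ThreeT.mul_self (h.tset.1 _ hd'))
    (Lib.ThreeT.braid h.tset hd hz hdz) (Lib.ThreeT.braid h.tset hz hd' hzd') hdc.eq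
  have hinj := Lib.ThreeT.injective_perm4 φ (by rw [h1, h3]; exact hdne.symm)
  -- every member is a transposition of the symmetric group
  have hall : ∀ c ∈ D, c ∈ φ.range := by
    intro c hc
    have hr1 : d ∈ φ.range := ⟨_, h1⟩
    have hr2 : z ∈ φ.range := ⟨_, h2⟩
    have hr3 : pr d ∈ φ.range := ⟨_, h3⟩
    have hswapD : φ (Equiv.swap 0 3) ∈ D := by
      have he' : (Equiv.swap 0 3 : Equiv.Perm (Fin 4)) = (Equiv.swap 0 1 * Equiv.swap 1 2) *
          Equiv.swap 2 3 * (Equiv.swap 0 1 * Equiv.swap 1 2)⁻¹ := by decide +kernel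
      rw [he', map_mul, map_mul, map_inv, h3]
      exact h.conj _ _ hd'
    by_cases hcd : Commute d c
    · by_cases e : c = d
      · exact e ▸ hr1
      · exact (huniq d hd c hc e hcd).symm ▸ hr3
    by_cases hcz : Commute z c
    · by_cases e : c = z
      · exact e ▸ hr2
      · have h' : φ (Equiv.swap 0 3) = pr z := huniq z hz _ hswapD (by
          rw [← h2]; exact fun e' => absurd (hinj e') (by decide +kernel)) (by
          rw [← h2]
          show φ _ * φ _ = φ _ * φ _
          rw [← map_mul, ← map_mul]; exact congrArg φ (by decide +kernel))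
        rw [huniq z hz c hc e hcz, ← h']
        exact ⟨_, rfl⟩
    have hdi := Lib.ThreeT.inv_self (h.tset.1 d hd)
    set u := d * z * d with hu
    have huD : u ∈ D := by rw [hu]; nth_rewrite 2 [← hdi]; exact h.conj d z hz
    have huR : u ∈ φ.range := ⟨Equiv.swap 0 1 * Equiv.swap 1 2 * Equiv.swap 0 1, by rw [map_mul, map_mul, h1, h2]⟩
    by_cases hcu : Commute u c
    · by_cases e : c = u
      · exact e ▸ huR
      · have hsD : φ (Equiv.swap 0 1 * Equiv.swap 0 3 * Equiv.swap 0 1) ∈ D := by
          rw [map_mul, map_mul, h1]; nth_rewrite 2 [← hdi]; exact h.conj d _ hswapD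
        have hu' : φ (Equiv.swap 0 1 * Equiv.swap 1 2 * Equiv.swap 0 1) = u := by
          rw [map_mul, map_mul, h1, h2]
        have h' : φ (Equiv.swap 0 1 * Equiv.swap 0 3 * Equiv.swap 0 1) = pr u := huniq u huD _ hsD (by
          rw [← hu']; exact fun e' => absurd (hinj e') (by decide +kernel)) (by
          rw [← hu']
          show φ _ * φ _ = φ _ * φ _
          rw [← map_mul, ← map_mul]; exact congrArg φ (by decide +kernel))
        rw [huniq u huD c hc e hcu, ← h']
        exact ⟨_, rfl⟩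
    exfalso
    have hdd := Lib.ThreeT.mul_self (h.tset.1 d hd)
    obtain ⟨k1, k1c⟩ := hkey c hc d hd (fun e => hcd e.symm)
    obtain ⟨k2, k2c⟩ := hkey c hc z hz (fun e => hcz e.symm)
    obtain ⟨k3, k3c⟩ := hkey d hd z hz hdz
    obtain ⟨k4, k4c⟩ := hkey c hc u huD (fun e => hcu e.symm)
    have hxd : d * (d * pr d) * d = d * pr d := by
      rw [hdc.eq]; simp only [mul_assoc, hdd, mul_one]; exact hdc.eq.symm ▸ rfl
    set xc := c * pr c
    set xd := d * pr d
    set xz := z * pr z
    have hxd2 : xd * xd = 1 := by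
      show d * pr d * (d * pr d) = 1
      rw [← sq, hdc.mul_pow, sq, sq, hdd, Lib.ThreeT.mul_self (h.tset.1 _ hd'), one_mul]
    have hzz := Lib.ThreeT.mul_self (h.tset.1 z hz)
    have hxz2 : xz * xz = 1 := by
      show z * pr z * (z * pr z) = 1
      rw [← sq, (hprD z hz).2.2.mul_pow, sq, sq, hzz, Lib.ThreeT.mul_self (h.tset.1 _ (hprD z hz).1), one_mul]
    have hsplit : ∀ p q : G, d * (p * q) * d = d * p * d * (d * q * d) := fun p q => by
      simp only [mul_assoc, Lib.ThreeT.cancel hdd]
    have hsplitz : ∀ p q : G, z * (p * q) * z = z * p * z * (z * q * z) := fun p q => by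
      simp only [mul_assoc, Lib.ThreeT.cancel hzz]
    have hxz : z * xz * z = xz := by
      show z * (z * pr z) * z = z * pr z
      rw [(hprD z hz).2.2.eq]; simp only [mul_assoc, hzz, mul_one]; exact (hprD z hz).2.2.eq.symm ▸ rfl
    have hzfix : d * (z * (d * xc * d) * z) * d = xc := by
      rw [k1, hsplitz, k2, k3]
      rw [show xc * xz * (xd * xz) = xc * xd by
        rw [k3c.eq, ← mul_assoc, mul_assoc xc xz xz, hxz2, mul_one]]
      rw [hsplit, k1, hxd, mul_assoc, hxd2, mul_one]
    have hu' : u * xc * u = xc := by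
      calc u * xc * u = d * (z * (d * xc * d) * z) * d := by rw [hu]; simp only [mul_assoc]
        _ = xc := hzfix
    rw [hu'] at k4
    have hone' : u * pr u = 1 := by
      have := k4.symm
      rwa [mul_eq_left] at this
    rw [mul_eq_one_iff_eq_inv, ← inv_inj, inv_inv, Lib.ThreeT.inv_self (h.tset.1 u huD)] at hone'
    exact (hprD u huD).2.1 hone'.symm
  have hrange : φ.range = ⊤ := by
    rw [eq_top_iff, ← h.gen, Subgroup.closure_le]
    exact hall
  exact ⟨((MonoidHom.ofInjective hinj).trans ((MulEquiv.subgroupCongr hrange).trans Subgroup.topEquiv)).symm⟩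

end Cfsg.Agent.S5355
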