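import Cfsg.Statements.S5356
import Cfsg.Agent.Lib.ThreeT.Cores

set_option autoImplicit false
open Cfsg
open scoped Pointwise commutatorElement

namespace Cfsg.Agent.S5356



/-- Let D be a conjugacy class of 3-transpositions generating the finite group G, with at least two members, and d a member of D such that every member of D commuting with d commutes with exactly the same members of D as d. Then there is a Sylow 3-subgroup P of G normalized by d such that G is generated by d, P and the largest normal 2-subgroup of G. -/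
theorem result {G : Type*} [Group G] [Finite G] {D : Set G} (hD : Cfsg.IsThreeTranspositionClass D) (hD2 : ∃ a ∈ D, ∃ b ∈ D, a ≠ b) {d : G} (hd : d ∈ D) (hV : {y : G | y ∈ D ∧ Commute d y} = {v : G | v ∈ D ∧ ∀ e ∈ D, Commute v e ↔ Commute d e}) : ∃ P : Sylow 3 G, d ∈ Subgroup.normalizer (P : Set G) ∧ Subgroup.zpowers d ⊔ (P : Subgroup G) ⊔ Cfsg.pCore 2 G = ⊤ := by
  classical
  haveI : Fact (Nat.Prime 2) := ⟨Nat.prime_two⟩
  haveI : Fact (Nat.Prime 3) := ⟨Nat.prime_three⟩
  have h := Cfsg.Lib.ThreeT.GenClass.of_isClass hD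
  have hnc := Cfsg.Lib.ThreeT.nc_of_two h hD2
  have hdd : d * d = 1 := Cfsg.Lib.ThreeT.mul_self (h.tset.1 d hd)
  have hdi : d⁻¹ = d := Cfsg.Lib.ThreeT.inv_self (h.tset.1 d hd)
  haveI hNn : (Cfsg.pCore 2 G).Normal := inferInstance
  -- commuting members
  have hV1 : ∀ a ∈ D, ∀ e ∈ D, Commute a e → Cfsg.Lib.ThreeT.Vrel D a e := by
    intro a ha e he hc
    obtain ⟨g, rfl⟩ := h.trans d hd a ha
    have he' : g⁻¹ * e * g ∈ D := Cfsg.Lib.ThreeT.conj_mem_of_conjInv h.conj he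
    have hc' : Commute d (g⁻¹ * e * g) := by
      have := (Commute.map hc (MulAut.conj g⁻¹).toMonoidHom)
      simpa [MulAut.conj_apply, mul_assoc] using this
    have hmem : g⁻¹ * e * g ∈ {v : G | v ∈ D ∧ ∀ e ∈ D, Commute v e ↔ Commute d e} :=
      hV ▸ ⟨he', hc'⟩
    have hv : Cfsg.Lib.ThreeT.Vrel D d (g⁻¹ * e * g) := fun f hf => (hmem.2 f hf).symm
    simpa [mul_assoc] using hv.conj h g
  have h32 : ∀ x : G, (∃ j : ℕ, x ^ 3 ^ j = 1) → x ∈ Cfsg.pCore 2 G → x = 1 := by
    rintro x ⟨j, hj⟩ hx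
    obtain ⟨k, hk⟩ := Cfsg.Lib.Solv.isPGroup_pCore 2 ⟨x, hx⟩
    have hk' : x ^ 2 ^ k = 1 := congrArg Subtype.val hk
    exact orderOf_eq_one_iff.1 (Nat.eq_one_of_dvd_coprimes
      (Nat.Coprime.pow _ _ (by norm_num : Nat.Coprime 2 3))
      (orderOf_dvd_of_pow_eq_one hk') (orderOf_dvd_of_pow_eq_one hj))
  let q : G →* G ⧸ Cfsg.pCore 2 G := QuotientGroup.mk' _
  have hq : ∀ x, q x = 1 ↔ x ∈ Cfsg.pCore 2 G := fun x => QuotientGroup.eq_one_iff x
  have hqs : Function.Surjective q := QuotientGroup.mk'_surjective _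
  have hq1 : ∀ a ∈ D, ∀ e ∈ D, Commute a e → q a = q e := by
    intro a ha e he hc
    have h1 := (hq _).2 (Cfsg.Lib.ThreeT.Vrel.mem_pCore h ha he (hV1 a ha e he hc))
    rw [map_mul, mul_eq_one_iff_eq_inv] at h1
    rw [h1, ← map_inv, Cfsg.Lib.ThreeT.inv_self (h.tset.1 e he)]
  have hcube : ∀ a ∈ D, ∀ b ∈ D, ¬ Commute a b → (a * b) ^ 3 = 1 := fun a ha b hb hc =>
    (h.tset.2 a ha b hb).resolve_left fun h2 =>
      hc ((Cfsg.Lib.ThreeT.commute_iff_sq (h.tset.1 a ha) (h.tset.1 b hb)).2 h2)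
  have hq2 : ∀ a ∈ D, ∀ b ∈ D, q a = q b → Commute a b := by
    intro a ha b hb hab
    by_contra hc
    have hm : q (a * b) = 1 := by
      rw [map_mul, hab, ← map_mul, Cfsg.Lib.ThreeT.mul_self (h.tset.1 b hb), map_one]
    have h1 := h32 _ ⟨1, by simpa using hcube a ha b hb hc⟩ ((hq _).1 hm)
    rw [mul_eq_one_iff_eq_inv, Cfsg.Lib.ThreeT.inv_self (h.tset.1 b hb)] at h1
    exact hc (h1 ▸ Commute.refl a)
  have hqd : ∀ a ∈ D, q a ≠ 1 := by
    intro a ha h1
    obtain ⟨a0, ha0, b0, hb0, hc⟩ := hnc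
    have key : ∀ x ∈ D, q x = 1 := by
      intro x hx
      obtain ⟨g, rfl⟩ := h.trans a ha x hx
      simp [h1]
    exact hc (hq2 a0 ha0 b0 hb0 (by rw [key _ ha0, key _ hb0]))
  obtain ⟨P0, hP0, hmem0⟩ := Cfsg.Lib.ThreeT.width_one_pgroup (S := q '' D)
    ⟨by
      rintro _ ⟨a, ha, rfl⟩
      exact orderOf_eq_prime
        (by rw [← map_pow, sq, Cfsg.Lib.ThreeT.mul_self (h.tset.1 a ha), map_one]) (hqd a ha),
     by
      rintro _ ⟨a, ha, rfl⟩ _ ⟨b, hb, rfl⟩
      rw [← map_mul, ← map_pow, ← map_pow]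
      rcases h.tset.2 a ha b hb with e | e
      · exact Or.inl (by rw [e, map_one])
      · exact Or.inr (by rw [e, map_one])⟩
    (by
      rintro _ ⟨a, ha, rfl⟩ _ ⟨b, hb, rfl⟩
      exact ⟨_, h.conj a b hb, by simp⟩)
    (by
      rintro _ ⟨a, ha, rfl⟩ _ ⟨b, hb, rfl⟩ hne hc
      apply hne
      by_cases hab : Commute a b
      · exact hq1 a ha b hb hab
      · have h3 : (q a * q b) ^ 3 = 1 := by
          rw [← map_mul, ← map_pow, hcube a ha b hb hab, map_one]
        have h2 : (q a * q b) ^ 2 = 1 := by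
          rw [hc.mul_pow, sq, sq, ← map_mul, ← map_mul, Cfsg.Lib.ThreeT.mul_self (h.tset.1 a ha),
            Cfsg.Lib.ThreeT.mul_self (h.tset.1 b hb), map_one, one_mul]
        rw [pow_succ, h2, one_mul, mul_eq_one_iff_eq_inv] at h3
        rw [h3, ← map_inv, Cfsg.Lib.ThreeT.inv_self (h.tset.1 b hb)])
  let T1 : Subgroup G := Subgroup.closure {x | ∃ a ∈ D, ∃ b ∈ D, a * b = x}
  have hTgen : ∀ a ∈ D, ∀ b ∈ D, a * b ∈ T1 := fun a ha b hb =>
    Subgroup.subset_closure ⟨a, ha, b, hb, rfl⟩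
  have hT1n : T1.Normal := ⟨fun x hx g => by
    induction hx using Subgroup.closure_induction with
    | mem x hx =>
      obtain ⟨a, ha, b, hb, rfl⟩ := hx
      exact Subgroup.subset_closure ⟨_, h.conj g a ha, _, h.conj g b hb, by group⟩
    | one => simp
    | mul x y _ _ hx hy =>
      rw [show g * (x * y) * g⁻¹ = g * x * g⁻¹ * (g * y * g⁻¹) by group]
      exact mul_mem hx hy
    | inv x _ hx =>
      rw [show g * x⁻¹ * g⁻¹ = (g * x * g⁻¹)⁻¹ by group]
      exact inv_mem hx⟩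
  have hP1n : (T1.map q).Normal := hT1n.map q hqs
  have hP1le : T1.map q ≤ P0 := by
    rw [Subgroup.map_le_iff_le_comap]
    refine (Subgroup.closure_le _).2 ?_
    rintro _ ⟨a, ha, b, hb, rfl⟩
    show q (a * b) ∈ P0
    rw [map_mul]
    exact hmem0 _ ⟨a, ha, rfl⟩ _ ⟨b, hb, rfl⟩
  have hP1 : IsPGroup 3 ↥(T1.map q) := hP0.to_le hP1le
  have hcov : ∀ x : G, x ∈ T1 ∨ d * x ∈ T1 := by
    intro x
    have hx : x ∈ Subgroup.closure D := by rw [h.gen]; trivial
    have step : ∀ a ∈ D, ∀ y : G, (y ∈ T1 ∨ d * y ∈ T1) → (a * y ∈ T1 ∨ d * (a * y) ∈ T1) := by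
      intro a ha y hy
      rcases hy with h1 | h1
      · right
        rw [← mul_assoc]
        exact T1.mul_mem (hTgen d hd a ha) h1
      · left
        have := T1.mul_mem (hTgen a ha d hd) h1
        simpa [mul_assoc, Cfsg.Lib.ThreeT.cancel hdd] using this
    induction hx using Subgroup.closure_induction_left with
    | one => exact Or.inl T1.one_mem
    | mul_left a ha y hy ih => exact step a ha y ih
    | inv_mul_cancel a ha y hy ih =>
      rw [Cfsg.Lib.ThreeT.inv_self (h.tset.1 a ha)]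
      exact step a ha y ih
  have hodd : ∀ x : G, ∀ k : ℕ, x ^ 3 ^ k = 1 → x ∈ T1 := by
    intro x k hk
    rcases hcov x with h1 | h1
    · exact h1
    have hsq : x ^ 2 ∈ T1 := by
      have := T1.mul_mem (hT1n.conj_mem _ h1 d) h1
      rw [show x ^ 2 = d * (d * x) * d⁻¹ * (d * x) by
        simp only [sq, mul_assoc, inv_mul_cancel_left, Cfsg.Lib.ThreeT.cancel hdd]]
      exact this
    obtain ⟨m, hm⟩ : Odd (3 ^ k) := Odd.pow (by decide)
    rw [hm, pow_succ, pow_mul, mul_eq_one_iff_eq_inv] at hk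
    have h2 := T1.pow_mem hsq m
    rw [hk] at h2
    exact inv_mem_iff.1 h2
  -- the maximal invariant subgroup
  let K : Subgroup G := Subgroup.centralizer {d}
  obtain ⟨R0⟩ : Nonempty (Sylow 3 K) := inferInstance
  let ok : Subgroup G → Prop := fun X => IsPGroup 3 X ∧ ∀ r ∈ X, d * r * d⁻¹ ∈ X
  have hok0 : ok ((R0 : Subgroup K).map K.subtype) := by
    refine ⟨R0.isPGroup'.map _, ?_⟩
    rintro _ ⟨⟨r, hr⟩, hrR, rfl⟩
    have hc : r * d = d * r := (Subgroup.mem_centralizer_iff.1 hr d rfl).symm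
    refine ⟨⟨r, hr⟩, hrR, ?_⟩
    show r = d * r * d⁻¹
    rw [← hc, mul_inv_cancel_right]
  obtain ⟨R, hR0R, hRmax⟩ := Finite.exists_le_maximal (p := ok) hok0
  obtain ⟨hRp, hRd⟩ := hRmax.1
  obtain ⟨P, hRP⟩ := hRp.exists_le_sylow
  have hPK : ∀ r ∈ P, r * d = d * r → r ∈ R := by
    intro r hr hc
    have hrK : r ∈ K := Subgroup.mem_centralizer_iff.2 (by intro y hy; rw [Set.mem_singleton_iff.1 hy]; exact hc.symm)
    have hle : (R0 : Subgroup K) ≤ (P : Subgroup G).subgroupOf K :=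
      fun k hk => Subgroup.mem_subgroupOf.2 (hRP (hR0R ⟨k, hk, rfl⟩))
    have heq := R0.is_maximal' (P.isPGroup'.comap_subtype (K := K)) hle
    exact hR0R ⟨⟨r, hrK⟩, heq ▸ hr, rfl⟩
  have hP1S : ∀ {H : Type _} [Group H] (N1 : Subgroup H) [N1.Normal] (S : Sylow 3 H),
      IsPGroup 3 N1 → N1 ≤ (S : Subgroup H) := by
    intro H _ N1 _ S hN1
    have := S.is_maximal' (IsPGroup.to_sup_of_normal_left hN1 S.isPGroup') le_sup_right
    exact this ▸ le_sup_left
  have hEq : R = (P : Subgroup G) := by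
    by_contra hne
    have hlt : R.subgroupOf (P : Subgroup G) < ⊤ :=
      lt_top_iff_ne_top.2 fun e => hne (le_antisymm hRP (Subgroup.subgroupOf_eq_top.1 e))
    haveI := P.isPGroup'.isNilpotent
    obtain ⟨hh, hhN, hhR⟩ := SetLike.exists_of_lt
      (Group.normalizerCondition_of_isNilpotent _ hlt)
    obtain ⟨x0, hx0⟩ := hh
    rw [Subgroup.mem_subgroupOf] at hhR
    have hn1 : ∀ r ∈ R, x0 * r * x0⁻¹ ∈ R := fun r hr =>
      Subgroup.mem_subgroupOf.1 ((Subgroup.mem_normalizer_iff.1 hhN ⟨r, hRP hr⟩).1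
        (Subgroup.mem_subgroupOf.2 hr))
    have hn2 : ∀ r ∈ R, x0⁻¹ * r * x0 ∈ R := fun r hr => by
      have := Subgroup.mem_subgroupOf.1 ((Subgroup.mem_normalizer_iff.1 (inv_mem hhN) ⟨r, hRP hr⟩).1
        (Subgroup.mem_subgroupOf.2 hr))
      simpa using this
    apply hhR
    show x0 ∈ R
    have haD : x0 * d * x0⁻¹ ∈ D := h.conj x0 d hd
    by_cases hc : Commute d (x0 * d * x0⁻¹)
    · obtain ⟨t, htN, ht⟩ := Cfsg.Lib.ThreeT.Vrel.exists_orbit h hnc hd haD
        (hV1 d hd _ haD hc)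
      have hgK : t⁻¹ * x0 ∈ K := by
        refine Subgroup.mem_centralizer_iff.2 ?_
        intro y hy
        rw [Set.mem_singleton_iff.1 hy]
        have : t⁻¹ * (x0 * d * x0⁻¹) * t = d := by rw [← ht]; group
        have e2 : t⁻¹ * (x0 * d) = d * (t⁻¹ * x0) := by
          calc t⁻¹ * (x0 * d) = t⁻¹ * (x0 * d * x0⁻¹) * t * (t⁻¹ * x0) := by group
            _ = _ := by rw [this]
        rw [← e2, mul_assoc]
      have hqg : q (t⁻¹ * x0) = q x0 := by
        rw [map_mul, (hq _).2 (inv_mem htN), one_mul]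
      obtain ⟨k, hk⟩ := P.isPGroup' ⟨x0, hx0⟩
      have hx0T : q x0 ∈ T1.map q :=
        ⟨x0, hodd x0 k (congrArg Subtype.val hk), rfl⟩
      let f : K →* (q.comp K.subtype).range := (q.comp K.subtype).rangeRestrict
      have hfs : Function.Surjective f := MonoidHom.rangeRestrict_surjective _
      have hle := hP1S ((T1.map q).subgroupOf (q.comp K.subtype).range) (R0.mapSurjective hfs)
        hP1.comap_subtype
      have hmem : f ⟨t⁻¹ * x0, hgK⟩ ∈ ((R0.mapSurjective hfs : Sylow 3 _) : Subgroup _) := by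
        apply hle
        rw [Subgroup.mem_subgroupOf]
        show q (t⁻¹ * x0) ∈ T1.map q
        rw [hqg]
        exact hx0T
      obtain ⟨r, hr, hre⟩ := hmem
      have hre' : q (r : G) = q x0 := (congrArg Subtype.val hre).trans hqg
      have hrP : (r : G) ∈ R := hR0R ⟨r, hr, rfl⟩
      obtain ⟨j, hj⟩ := P.isPGroup' ⟨(r : G)⁻¹ * x0, mul_mem (inv_mem (hRP hrP)) hx0⟩
      have h1 := h32 _ ⟨j, congrArg Subtype.val hj⟩
        ((hq _).1 (by rw [map_mul, map_inv, hre', inv_mul_cancel]))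
      rwa [← inv_mul_eq_one.1 h1]
    · have hx3 := hcube d hd _ haD hc
      have hbr := Cfsg.Lib.ThreeT.braid h.tset hd haD hc
      have hai := Cfsg.Lib.ThreeT.inv_self (h.tset.1 _ haD)
      have haa := Cfsg.Lib.ThreeT.mul_self (h.tset.1 _ haD)
      have hxR : ∀ r ∈ R, d * (x0 * d * x0⁻¹) * r * (d * (x0 * d * x0⁻¹))⁻¹ ∈ R := by
        intro r hr
        have := hRd _ (hn1 _ (hRd _ (hn2 r hr)))
        convert this using 1
        group
      generalize ha : x0 * d * x0⁻¹ = a at *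
      have hxinv : (d * a)⁻¹ = (d * a) * (d * a) := by
        rw [inv_eq_iff_mul_eq_one]
        simpa [pow_succ, mul_assoc] using hx3
      have hxN : d * a ∈ Subgroup.normalizer (R : Set G) := by
        refine Subgroup.mem_normalizer_iff.2 fun r => ⟨hxR r, fun hr => ?_⟩
        have h1 := hxR _ (hxR _ hr)
        have e3 : (d * a) * (d * a) * (d * a) = 1 := by rw [← hxinv, inv_mul_cancel]
        convert h1 using 1
        calc r = ((d * a) * (d * a) * (d * a)) * r * ((d * a) * (d * a) * (d * a))⁻¹ := by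
              rw [e3]; group
          _ = _ := by group
      have hdx : d * (d * a) * d⁻¹ = (d * a)⁻¹ := by
        rw [hdi, mul_inv_rev, hdi, hai]
        simp only [mul_assoc, Cfsg.Lib.ThreeT.cancel hdd]
      have hok : ok (R ⊔ Subgroup.zpowers (d * a)) := by
        refine ⟨IsPGroup.to_sup_of_normal_left' hRp ?_ (Subgroup.zpowers_le.2 hxN), ?_⟩
        · rintro ⟨y, hy⟩
          obtain ⟨i, rfl⟩ := Subgroup.mem_zpowers_iff.1 hy
          refine ⟨1, Subtype.ext ?_⟩
          show ((d * a) ^ i) ^ 3 ^ 1 = 1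
          rw [pow_one, ← zpow_natCast, ← zpow_mul, mul_comm, zpow_mul, zpow_natCast, hx3, one_zpow]
        · suffices R ⊔ Subgroup.zpowers (d * a) ≤
              (R ⊔ Subgroup.zpowers (d * a)).comap (MulAut.conj d).toMonoidHom from
            fun r hr => this hr
          refine sup_le (fun r hr => ?_) (Subgroup.zpowers_le.2 ?_)
          · exact Subgroup.mem_sup_left (hRd r hr)
          · rw [Subgroup.mem_comap]
            show d * (d * a) * d⁻¹ ∈ R ⊔ Subgroup.zpowers (d * a)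
            rw [hdx]
            exact Subgroup.inv_mem _ (Subgroup.mem_sup_right (Subgroup.mem_zpowers _))
      have hxmem : d * a ∈ R :=
        hRmax.le_of_ge hok le_sup_left (Subgroup.mem_sup_right (Subgroup.mem_zpowers _))
      have hrP : (d * a)⁻¹ * x0 ∈ (P : Subgroup G) := mul_mem (inv_mem (hRP hxmem)) hx0
      have hrd : (d * a)⁻¹ * x0 * d = d * ((d * a)⁻¹ * x0) := by
        have e4 : (d * a)⁻¹ * a * (d * a) = d := by
          rw [mul_inv_rev, hdi, hai]
          calc a * d * a * (d * a) = (a * d * a) * (d * a) := rfl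
            _ = (d * a * d) * (d * a) := by rw [hbr]
            _ = d := by simp only [mul_assoc, Cfsg.Lib.ThreeT.cancel hdd, haa, mul_one]
        calc (d * a)⁻¹ * x0 * d = (d * a)⁻¹ * (x0 * d * x0⁻¹) * (d * a) * ((d * a)⁻¹ * x0) := by
              group
          _ = _ := by rw [ha, e4]
      have := R.mul_mem hxmem (hPK _ hrP hrd)
      rwa [mul_inv_cancel_left] at this
  refine ⟨P, ?_, ?_⟩
  · refine Subgroup.mem_normalizer_iff.2 ?_
    intro r
    refine ⟨fun hr => ?_, fun hr => ?_⟩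
    · exact hEq ▸ hRd r (hEq ▸ hr)
    · have := hEq ▸ hRd _ (hEq ▸ hr)
      simpa [hdi, mul_assoc, Cfsg.Lib.ThreeT.cancel hdd, hdd] using this
  · rw [eq_top_iff, ← h.gen, Subgroup.closure_le]
    intro a ha
    have h1 : q (d * a) ∈ ((P.mapSurjective hqs : Sylow 3 _) : Subgroup _) :=
      hP1S (T1.map q) _ hP1 ⟨_, hTgen d hd a ha, rfl⟩
    obtain ⟨r, hr, hre⟩ := h1
    have hn : r⁻¹ * (d * a) ∈ Cfsg.pCore 2 G :=
      (hq _).1 (by rw [map_mul, map_inv, hre, inv_mul_cancel])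
    have : a = d * r * (r⁻¹ * (d * a)) := by
      simp only [mul_assoc, mul_inv_cancel_left, Cfsg.Lib.ThreeT.cancel hdd]
    rw [this]
    exact Subgroup.mul_mem _ (Subgroup.mul_mem _
      (Subgroup.mem_sup_left (Subgroup.mem_sup_left (Subgroup.mem_zpowers d)))
      (Subgroup.mem_sup_left (Subgroup.mem_sup_right hr))) (Subgroup.mem_sup_right hn)

end Cfsg.Agent.S5356
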