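import Cfsg.Statements.S5361
import Mathlib
import Cfsg.Agent.Lib.ThreeT.Structure

set_option autoImplicit false
open Cfsg
open scoped commutatorElement
set_option linter.style.haveILetI false

namespace Cfsg.Agent.S5361

/-- Let D be a conjugacy class of 3-transpositions generating the finite group G, and suppose the centre of G is trivial and some two different members of D commute. Then the following are equivalent: (1) the commutator subgroup of G is simple (possibly of prime order); (2) G acts primitively on D by conjugation; (3) the largest normal 2-subgroup and the largest normal 3-subgroup of G are trivial and the commuting graph of D is connected. -/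
theorem result {G : Type*} [Group G] [Finite G] {D : Set G} (hD : Cfsg.IsThreeTranspositionClass D) (hZ : Subgroup.center G = ⊥) (hw : ∃ a ∈ D, ∃ b ∈ D, a ≠ b ∧ Commute a b) : (IsSimpleGroup (commutator G) ↔ Cfsg.IsPrimitiveUnderConj D) ∧ (Cfsg.IsPrimitiveUnderConj D ↔ (Cfsg.pCore 2 G = ⊥ ∧ Cfsg.pCore 3 G = ⊥ ∧ (Cfsg.commutingGraph D).Connected)) := by
  classical
  have h := Lib.ThreeT.GenClass.of_isClass hD
  obtain ⟨a, ha, b, hb, hab, hc⟩ := hw
  have hnc := Lib.ThreeT.nc_of_two h ⟨a, ha, b, hb, hab⟩
  have h1 : IsSimpleGroup (commutator G) → Cfsg.IsPrimitiveUnderConj D := by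
    intro hs
    refine (Lib.ThreeT.Big.of_simple hD hs ?_).isPrimitive
    by_contra hcomm
    push Not at hcomm
    letI : CommGroup (commutator G) := { (inferInstance : Group (commutator G)) with mul_comm := hcomm }
    obtain ⟨g, hg⟩ := h.trans a ha b hb
    have hmem : a * b ∈ commutator G := by
      have he : a * b = ⁅a, g⁆ := by
        rw [commutatorElement_def, Lib.ThreeT.inv_self (h.tset.1 a ha), ← hg]
        simp only [mul_assoc]
      rw [he]
      exact Subgroup.commutator_mem_commutator (Subgroup.mem_top _) (Subgroup.mem_top _)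
    have hne : a * b ≠ 1 := fun e => hab (by rw [mul_eq_one_iff_eq_inv.1 e, Lib.ThreeT.inv_self (h.tset.1 b hb)])
    set z : commutator G := ⟨a * b, hmem⟩
    have hz : orderOf z = 2 := by
      rw [Subgroup.orderOf_mk]
      exact orderOf_eq_prime ((Lib.ThreeT.commute_iff_sq (h.tset.1 a ha) (h.tset.1 b hb)).1 hc) hne
    have hztop : Subgroup.zpowers z = ⊤ := (hs.eq_bot_or_eq_top_of_normal _ inferInstance).resolve_left
      (fun e => by rw [Subgroup.zpowers_eq_bot] at e; exact hne (congrArg Subtype.val e))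
    have hcard : Nat.card (commutator G) = 2 := by
      rw [← Subgroup.card_top (G := commutator G), ← hztop, Nat.card_zpowers, hz]
    have hcen : a * b ∈ Subgroup.center G := by
      refine Subgroup.mem_center_iff.2 fun k => ?_
      have hk : k * (a * b) * k⁻¹ ∈ commutator G :=
        (inferInstance : (commutator G).Normal).conj_mem _ hmem k
      have h2 : (⟨_, hk⟩ : commutator G) ∈ Subgroup.zpowers z := by rw [hztop]; trivial
      obtain ⟨i, hi⟩ := h2
      rcases Int.even_or_odd i with ⟨j, rfl⟩ | ⟨j, rfl⟩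
      · exfalso
        simp only [← two_mul, zpow_mul, zpow_two] at hi
        rw [show z * z = 1 by rw [← sq, ← hz]; exact pow_orderOf_eq_one z, one_zpow] at hi
        have hi' : (1 : G) = k * (a * b) * k⁻¹ := congrArg Subtype.val hi
        exact hne (mul_left_cancel (mul_right_cancel (hi'.symm.trans (by group : (1 : G) = k * 1 * k⁻¹))))
      · simp only [zpow_add, zpow_mul, zpow_two] at hi
        rw [show z * z = 1 by rw [← sq, ← hz]; exact pow_orderOf_eq_one z, one_zpow, one_mul, zpow_one] at hi
        have hi' : a * b = k * (a * b) * k⁻¹ := congrArg Subtype.val hi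
        exact (eq_mul_inv_iff_mul_eq.1 hi').symm
    rw [hZ, Subgroup.mem_bot] at hcen
    exact hne hcen
  have hall_ne : ∀ x : G, x ∈ Subgroup.center G → x = 1 := fun x hx => by rwa [hZ, Subgroup.mem_bot] at hx
  have h2 : Cfsg.IsPrimitiveUnderConj D →
      (Cfsg.pCore 2 G = ⊥ ∧ Cfsg.pCore 3 G = ⊥ ∧ (Cfsg.commutingGraph D).Connected) := by
    intro hp
    have orb : ∀ (p : ℕ) (R : G → G → Prop), Equivalence R →
        (∀ g x y : G, R x y → R (g * x * g⁻¹) (g * y * g⁻¹)) →
        (∀ g ∈ Cfsg.pCore p G, ∀ x ∈ D, R x (g * x * g⁻¹)) → ¬ (∀ x ∈ D, ∀ y ∈ D, R x y) →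
        Cfsg.pCore p G = ⊥ := by
      intro p R hR hinv hsub hnot
      rw [← le_bot_iff, ← hZ]
      by_contra hnc'
      obtain ⟨g, hg, hgd⟩ := h.exists_moved hnc' ha
      exact hnot (h.rel_of_prim hp R hR hinv ha (h.conj g a ha) hgd.symm (hsub g hg a ha))
    refine ⟨?_, ?_, ?_⟩
    · refine orb 2 (Lib.ThreeT.Vrel D) ⟨fun _ e _ => Iff.rfl, fun h e he => (h e he).symm,
        fun h1 h2 e he => (h1 e he).trans (h2 e he)⟩ (fun g x y hxy => hxy.conj h g)
        (fun g hg x hx => Lib.ThreeT.Vrel_of_mem_pCore h hx (h.conj g x hx)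
          (Lib.ThreeT.orbit_mem_pCore hg)) fun hall => ?_
      obtain ⟨p, hp, q, hq, hpq⟩ := hnc
      exact hpq (((hall p hp q hq) q hq).2 (Commute.refl q))
    · refine orb 3 (Lib.ThreeT.Wrel D) ⟨fun _ => rfl, Eq.symm, Eq.trans⟩ (fun g x y hxy => Lib.ThreeT.Wrel.conj h hxy g)
        (fun g hg x hx => Lib.ThreeT.Wrel_of_mem_pCore h hx (h.conj g x hx)
          (Lib.ThreeT.orbit_mem_pCore hg)) fun hall => ?_
      exact Lib.ThreeT.Wrel.not_commute hb (hall a ha b hb) hab hc
    · haveI : Nonempty D := ⟨⟨a, ha⟩⟩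
      refine SimpleGraph.Connected.mk ?_
      intro x y
      let R : G → G → Prop := Relation.ReflTransGen fun p q => p ∈ D ∧ q ∈ D ∧ Commute p q
      have hR : Equivalence R := by
        haveI : Std.Symm (fun p q : G => p ∈ D ∧ q ∈ D ∧ Commute p q) :=
          ⟨fun p q hh => ⟨hh.2.1, hh.1, hh.2.2.symm⟩⟩
        exact ⟨fun _ => Relation.ReflTransGen.refl, fun {p q} hh => symm_of R hh, Relation.ReflTransGen.trans⟩
      have hall := h.rel_of_prim hp R hR (fun g p q hpq =>
        hpq.lift (fun z => g * z * g⁻¹) fun s t hst =>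
          ⟨h.conj g s hst.1, h.conj g t hst.2.1, (Lib.ThreeT.commute_conj_iff g).2 hst.2.2⟩)
        ha hb hab (Relation.ReflTransGen.single ⟨ha, hb, hc⟩)
      have key : ∀ q : G, R (x : G) q → ∀ hq : q ∈ D, (Cfsg.commutingGraph D).Reachable x ⟨q, hq⟩ := by
        intro q hxq
        induction hxq with
        | refl => intro _; exact SimpleGraph.Reachable.refl _
        | @tail s t _ hst ih =>
          intro ht
          refine (ih hst.1).trans ?_
          by_cases hst' : s = t
          · subst hst'; exact SimpleGraph.Reachable.refl _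
          · exact SimpleGraph.Adj.reachable ⟨fun e => hst' (congrArg Subtype.val e), Or.inl hst.2.2⟩
      exact key y (hall x x.2 y y.2) y.2
  have h3 : (Cfsg.pCore 2 G = ⊥ ∧ Cfsg.pCore 3 G = ⊥ ∧ (Cfsg.commutingGraph D).Connected) →
      IsSimpleGroup (commutator G) := by
    rintro ⟨hO2, hO3, hcon⟩
    have hsol : ∀ N : Subgroup G, N.Normal → Group.IsSolvable ↥N → N = ⊥ := by
      intro N hN hs
      by_contra hne
      obtain ⟨p, hp, hpne⟩ := Lib.ThreeT.GenClass.exists_pCore_ne_bot hne hs
      rcases lt_or_ge 3 p with hp3 | hp3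
      · exact hpne (le_bot_iff.1 (hZ ▸ h.pCore_le_center hp hp3))
      · rcases (show p = 2 ∨ p = 3 by have := hp.two_le; omega) with rfl | rfl
        · exact hpne hO2
        · exact hpne hO3
    have hNbig : ∀ N : Subgroup G, N.Normal → N ≠ ⊥ →
        (∀ K : Subgroup G, K.Normal → K ≤ N → K = ⊥ ∨ K = N) → commutator G ≤ N := by
      intro N hN hne hmin
      have horb := h.commute_orbit hsol (N := N) hne hmin
      have hconn : ∀ y : D, ∃ n ∈ N, n * a * n⁻¹ = (y : G) := by
        intro y
        obtain ⟨w⟩ := hcon.preconnected ⟨a, ha⟩ y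
        suffices hw : ∀ {u v : D}, (Cfsg.commutingGraph D).Walk u v →
            (∃ n ∈ N, n * a * n⁻¹ = (u : G)) → ∃ n ∈ N, n * a * n⁻¹ = (v : G) from
          hw w ⟨1, one_mem _, by group⟩
        intro u v w
        induction w with
        | nil => exact id
        | @cons s t _ hst _ ih =>
          rintro ⟨n, hn, hna⟩
          have hcst : Commute (s : G) (t : G) := hst.2.elim id Commute.symm
          obtain ⟨m, hm, hms⟩ := horb t t.2 s s.2 hcst.symm
          exact ih ⟨m * n, N.mul_mem hm hn, by rw [← Lib.ThreeT.conj_conj, hna, hms]⟩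
      have htop : Subgroup.zpowers a ⊔ N = ⊤ := by
        rw [eq_top_iff, ← h.gen, Subgroup.closure_le]
        intro y hy
        obtain ⟨n, hn, hny⟩ := hconn ⟨y, hy⟩
        show y ∈ Subgroup.zpowers a ⊔ N
        rw [← show n * a * n⁻¹ = y from hny]
        exact mul_mem (mul_mem (Subgroup.mem_sup_right hn) (Subgroup.mem_sup_left (Subgroup.mem_zpowers a)))
          (inv_mem (Subgroup.mem_sup_right hn))
      rw [commutator_def, Subgroup.commutator_le]
      intro p _ q _
      rw [← QuotientGroup.eq_one_iff]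
      have hz : ∀ x : G, (x : G ⧸ N) ∈ Subgroup.zpowers (a : G ⧸ N) := by
        intro x
        have hx : x ∈ Subgroup.zpowers a ⊔ N := by rw [htop]; trivial
        obtain ⟨y, ⟨i, rfl⟩, z, hz, rfl⟩ := Subgroup.mem_sup_of_normal_right.1 hx
        exact ⟨i, by rw [QuotientGroup.mk_mul, (QuotientGroup.eq_one_iff z).2 hz, mul_one]; rfl⟩
      obtain ⟨i, hi⟩ := hz p
      obtain ⟨j, hj⟩ := hz q
      change (QuotientGroup.mk' N) _ = 1
      rw [map_commutatorElement, commutatorElement_eq_one_iff_commute]
      simp only [QuotientGroup.mk'_apply, ← hi, ← hj]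
      exact Commute.zpow_zpow_self _ i j
    have hCne : commutator G ≠ ⊥ := by
      intro e
      have := (commutator_eq_bot_iff_center_eq_top G).1 e
      have hone : a = 1 := hall_ne a (by rw [this]; trivial)
      have := h.tset.1 a ha
      rw [hone, orderOf_one] at this
      omega
    have hCmin : ∀ K : Subgroup G, K.Normal → K ≤ commutator G → K = ⊥ ∨ K = commutator G := by
      intro K hK hle
      by_cases hKb : K = ⊥
      · exact Or.inl hKb
      obtain ⟨N, hN, hNK, hNne, hmin⟩ := Cfsg.Lib.Solv.exists_minimal_normal_le hKb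
      exact Or.inr (le_antisymm hle ((hNbig N hN hNne hmin).trans hNK))
    haveI : Nontrivial (commutator G) := (Subgroup.nontrivial_iff_ne_bot _).2 hCne
    refine ⟨fun M hM => ?_⟩
    by_cases hMb : M = ⊥
    · exact Or.inl hMb
    right
    have := h.minimal_simple hsol (N := commutator G) hCne hCmin (M.map (commutator G).subtype)
      (Subgroup.map_subtype_le M)
      (by simpa [Subgroup.map_eq_bot_iff_of_injective _ (commutator G).subtype_injective] using hMb)
      (fun n hn => by
        refine Subgroup.mem_normalizer_iff.2 fun x => ⟨?_, ?_⟩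
        · rintro ⟨y, hy, rfl⟩
          exact ⟨_, hM.conj_mem y hy ⟨n, hn⟩, rfl⟩
        · rintro ⟨y, hy, hye⟩
          refine ⟨_, hM.conj_mem y hy ⟨n, hn⟩⁻¹, ?_⟩
          show n⁻¹ * (y : G) * n⁻¹⁻¹ = x
          rw [show (y : G) = n * x * n⁻¹ from hye]; group)
    apply Subgroup.map_injective (commutator G).subtype_injective
    rw [this, ← MonoidHom.range_eq_map, Subgroup.range_subtype]
  exact ⟨⟨h1, fun hp => h3 (h2 hp)⟩, ⟨h2, fun h' => h1 (h3 h')⟩⟩

end Cfsg.Agent.S5361
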