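import Cfsg.Statements.S5365
import Cfsg.Agent.Lib.ThreeT.Cores

set_option autoImplicit false
open Cfsg
open scoped Pointwise commutatorElement

namespace Cfsg.Agent.S5365

set_option maxHeartbeats 2000000

open Cfsg.Lib.ThreeT

set_option synthInstance.maxSize 4000 in
set_option synthInstance.maxHeartbeats 200000 in
/-- The Petersen graph has no proper colouring of its edges with three colours. -/
theorem petersen : ∀ e1 e2 : Fin 3, e1 ≠ e2 → ∀ e3 : Fin 3, e3 ≠ e1 → e3 ≠ e2 →
    ∀ e4 : Fin 3, e4 ≠ e1 → ∀ e5 : Fin 3, e5 ≠ e1 → e5 ≠ e4 →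
    ∀ e6 : Fin 3, e6 ≠ e2 → ∀ e7 : Fin 3, e7 ≠ e2 → e7 ≠ e6 →
    ∀ e8 : Fin 3, e8 ≠ e3 → ∀ e9 : Fin 3, e9 ≠ e3 → e9 ≠ e8 →
    ∀ e10 : Fin 3, e10 ≠ e8 → e10 ≠ e7 → ∀ e11 : Fin 3, e11 ≠ e8 → e11 ≠ e10 → e11 ≠ e5 →
    ∀ e12 : Fin 3, e12 ≠ e6 → e12 ≠ e9 → ∀ e13 : Fin 3, e13 ≠ e6 → e13 ≠ e12 → e13 ≠ e5 → e13 ≠ e11 →
    ∀ e14 : Fin 3, e14 ≠ e4 → e14 ≠ e9 → e14 ≠ e12 →
    ∀ e15 : Fin 3, e15 ≠ e4 → e15 ≠ e14 → e15 ≠ e7 → e15 ≠ e10 → False := by
  decide +kernel

set_option synthInstance.maxSize 4000 in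
set_option synthInstance.maxHeartbeats 200000 in
theorem perm3_a : ∀ A B : Equiv.Perm (Fin 3), A * A = 1 → B * B = 1 → A ≠ 1 → B ≠ 1 →
    A * B = B * A → A = B := by decide +kernel

set_option synthInstance.maxSize 4000 in
set_option synthInstance.maxHeartbeats 200000 in
theorem perm3_b : ∀ A B Y : Equiv.Perm (Fin 3), A * A = 1 → B * B = 1 → Y * Y = 1 → A ≠ 1 → B ≠ 1 →
    Y ≠ 1 → A ≠ B → Y = A ∨ Y = B ∨ Y = A * B * A := by decide +kernel

theorem perm3_c : ∃ A B : Equiv.Perm (Fin 3), A * B ≠ B * A := by decide +kernel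

theorem perm3_d : ∀ Z : Equiv.Perm (Fin 3), (∀ A, A * Z = Z * A) → Z = 1 := by decide +kernel

/-- The normal forms of a braid quadruple. -/
def x5 {H : Type*} [Group H] (a b c e : H) (t : ((Fin 2 × Fin 3) × Fin 4) × Fin 5) : H :=
  w a b c t.1 * ![1, e, e * c, e * c * b, e * c * b * a] t.2

theorem x5_bijective : Function.Bijective (x5 (Equiv.swap 0 1 : Equiv.Perm (Fin 5)) (Equiv.swap 1 2)
    (Equiv.swap 2 3) (Equiv.swap 3 4)) := by decide +kernel

/-- Four involutions with the relations of the symmetric group of degree 5. -/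
theorem exists_hom_perm5 {G : Type*} [Group G] {a b c e : G} (ha : a * a = 1) (hb : b * b = 1)
    (hc : c * c = 1) (he : e * e = 1) (hab : a * b * a = b * a * b) (hbc : b * c * b = c * b * c)
    (hce : c * e * c = e * c * e) (hac : a * c = c * a) (hae : a * e = e * a) (hbe : b * e = e * b) :
    ∃ φ : Equiv.Perm (Fin 5) →* G, φ (Equiv.swap 0 1) = a ∧ φ (Equiv.swap 1 2) = b ∧
      φ (Equiv.swap 2 3) = c ∧ φ (Equiv.swap 3 4) = e := by
  set A : Equiv.Perm (Fin 5) × G := (Equiv.swap 0 1, a) with hA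
  set B : Equiv.Perm (Fin 5) × G := (Equiv.swap 1 2, b) with hB
  set C : Equiv.Perm (Fin 5) × G := (Equiv.swap 2 3, c) with hC
  set E : Equiv.Perm (Fin 5) × G := (Equiv.swap 3 4, e) with hE
  have hA2 : A * A = 1 := Prod.ext (by simp [hA]) ha
  have hB2 : B * B = 1 := Prod.ext (by simp [hB]) hb
  have hC2 : C * C = 1 := Prod.ext (by simp [hC]) hc
  have hE2 : E * E = 1 := Prod.ext (by simp [hE]) he
  have hAB : A * B * A = B * A * B := Prod.ext
    (show (Equiv.swap 0 1 * Equiv.swap 1 2 * Equiv.swap 0 1 : Equiv.Perm (Fin 5)) = Equiv.swap 1 2 * Equiv.swap 0 1 * Equiv.swap 1 2 by decide) hab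
  have hBC : B * C * B = C * B * C := Prod.ext
    (show (Equiv.swap 1 2 * Equiv.swap 2 3 * Equiv.swap 1 2 : Equiv.Perm (Fin 5)) = Equiv.swap 2 3 * Equiv.swap 1 2 * Equiv.swap 2 3 by decide) hbc
  have hCE : C * E * C = E * C * E := Prod.ext
    (show (Equiv.swap 2 3 * Equiv.swap 3 4 * Equiv.swap 2 3 : Equiv.Perm (Fin 5)) = Equiv.swap 3 4 * Equiv.swap 2 3 * Equiv.swap 3 4 by decide) hce
  have hAC : A * C = C * A := Prod.ext
    (show (Equiv.swap 0 1 * Equiv.swap 2 3 : Equiv.Perm (Fin 5)) = Equiv.swap 2 3 * Equiv.swap 0 1 by decide) hac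
  have hAE : A * E = E * A := Prod.ext
    (show (Equiv.swap 0 1 * Equiv.swap 3 4 : Equiv.Perm (Fin 5)) = Equiv.swap 3 4 * Equiv.swap 0 1 by decide) hae
  have hBE : B * E = E * B := Prod.ext
    (show (Equiv.swap 1 2 * Equiv.swap 3 4 : Equiv.Perm (Fin 5)) = Equiv.swap 3 4 * Equiv.swap 1 2 by decide) hbe
  have hAm : A ∈ Subgroup.closure ({A, B, C, E} : Set _) := Subgroup.subset_closure (by simp)
  have hBm : B ∈ Subgroup.closure ({A, B, C, E} : Set _) := Subgroup.subset_closure (by simp)
  have hCm : C ∈ Subgroup.closure ({A, B, C, E} : Set _) := Subgroup.subset_closure (by simp)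
  have hEm : E ∈ Subgroup.closure ({A, B, C, E} : Set _) := Subgroup.subset_closure (by simp)
  have hstep : ∀ (t : (Fin 2 × Fin 3) × Fin 4) (y : Equiv.Perm (Fin 5) × G),
      y ∈ Subgroup.closure ({A, B, C} : Set _) → ∃ t', w A B C t * y = w A B C t' := by
    intro t y hy
    have hmem : w A B C t ∈ Subgroup.closure ({A, B, C} : Set _) := by
      have hAm : A ∈ Subgroup.closure ({A, B, C} : Set _) := Subgroup.subset_closure (by simp)
      have hBm : B ∈ Subgroup.closure ({A, B, C} : Set _) := Subgroup.subset_closure (by simp)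
      have hCm : C ∈ Subgroup.closure ({A, B, C} : Set _) := Subgroup.subset_closure (by simp)
      obtain ⟨⟨i, j⟩, k⟩ := t
      refine mul_mem (mul_mem ?_ ?_) ?_
      · fin_cases i <;> simp [one_mem, hAm]
      · fin_cases j <;> simp [one_mem, hBm, mul_mem hBm hAm]
      · fin_cases k <;> simp [one_mem, hCm, mul_mem hCm hBm, mul_mem (mul_mem hCm hBm) hAm]
    obtain ⟨t', ht'⟩ := exists_w_of_mem hA2 hB2 hC2 hAB hBC hAC (mul_mem hmem hy)
    exact ⟨t', ht'.symm⟩
  have hA3 : A ∈ Subgroup.closure ({A, B, C} : Set _) := Subgroup.subset_closure (by simp)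
  have hB3 : B ∈ Subgroup.closure ({A, B, C} : Set _) := Subgroup.subset_closure (by simp)
  have hC3 : C ∈ Subgroup.closure ({A, B, C} : Set _) := Subgroup.subset_closure (by simp)
  have hmul : ∀ t, ∀ y ∈ ({A, B, C, E} : Set _), ∃ t', x5 A B C E t * y = x5 A B C E t' := by
    rintro ⟨t, k⟩ y hy
    -- a coset representative times a generator
    have key : ∃ z ∈ Subgroup.closure ({A, B, C} : Set _), ∃ k' : Fin 5,
        (![1, E, E * C, E * C * B, E * C * B * A] k) * y =
          z * ![1, E, E * C, E * C * B, E * C * B * A] k' := by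
      rcases hy with rfl | rfl | rfl | rfl <;> fin_cases k
      · exact ⟨A, hA3, 0, by simp⟩
      · exact ⟨A, hA3, 1, by simp [hAE]⟩
      · exact ⟨A, hA3, 2, by simp only [Fin.isValue]; show E * C * A = A * (E * C); rw [mul_assoc E, ← hAC, ← mul_assoc, ← hAE, mul_assoc]⟩
      · exact ⟨1, one_mem _, 4, by simp⟩
      · exact ⟨1, one_mem _, 3, by simp [mul_assoc, hA2]⟩
      · exact ⟨B, hB3, 0, by simp⟩
      · exact ⟨B, hB3, 1, by simp [hBE]⟩
      · exact ⟨1, one_mem _, 3, by simp⟩
      · exact ⟨1, one_mem _, 2, by simp [mul_assoc, hB2]⟩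
      · refine ⟨A, hA3, 4, ?_⟩
        show E * C * B * A * B = A * (E * C * B * A)
        calc E * C * B * A * B = E * C * (B * A * B) := by group
          _ = E * (C * A) * B * A := by rw [← hAB]; group
          _ = (E * A) * C * B * A := by rw [← hAC]; group
          _ = _ := by rw [← hAE]; group
      · exact ⟨C, hC3, 0, by simp⟩
      · exact ⟨1, one_mem _, 2, by simp⟩
      · exact ⟨1, one_mem _, 1, by simp [mul_assoc, hC2]⟩
      · refine ⟨B, hB3, 3, ?_⟩
        show E * C * B * C = B * (E * C * B)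
        calc E * C * B * C = E * (C * B * C) := by group
          _ = (E * B) * C * B := by rw [← hBC]; group
          _ = _ := by rw [← hBE]; group
      · refine ⟨B, hB3, 4, ?_⟩
        show E * C * B * A * C = B * (E * C * B * A)
        calc E * C * B * A * C = E * C * B * (A * C) := by group
          _ = E * (C * B * C) * A := by rw [hAC]; group
          _ = (E * B) * C * B * A := by rw [← hBC]; group
          _ = _ := by rw [← hBE]; group
      · exact ⟨1, one_mem _, 1, by simp⟩
      · exact ⟨1, one_mem _, 0, by simp [hE2]⟩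
      · refine ⟨C, hC3, 2, ?_⟩
        show E * C * E = C * (E * C)
        rw [← hCE, mul_assoc]
      · refine ⟨C, hC3, 3, ?_⟩
        show E * C * B * E = C * (E * C * B)
        calc E * C * B * E = E * C * (B * E) := by group
          _ = (E * C * E) * B := by rw [hBE]; group
          _ = _ := by rw [← hCE]; group
      · refine ⟨C, hC3, 4, ?_⟩
        show E * C * B * A * E = C * (E * C * B * A)
        calc E * C * B * A * E = E * C * B * (A * E) := by group
          _ = E * C * (B * E) * A := by rw [hAE]; group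
          _ = (E * C * E) * B * A := by rw [hBE]; group
          _ = _ := by rw [← hCE]; group
    obtain ⟨z, hz, k', hk'⟩ := key
    obtain ⟨t', ht'⟩ := hstep t z hz
    refine ⟨(t', k'), ?_⟩
    show w A B C t * _ * y = w A B C t' * _
    rw [mul_assoc, hk', ← mul_assoc, ht']
  have hone : ∃ t, x5 A B C E t = 1 := ⟨(((0, 0), 0), 0), by simp [x5, w, u]⟩
  have hinv : ∀ y ∈ ({A, B, C, E} : Set _), y⁻¹ = y := by
    rintro y (rfl | rfl | rfl | rfl) <;> exact inv_eq_of_mul_eq_one_right ‹_›
  obtain ⟨φ, hφ⟩ := exists_hom_of_cover ({A, B, C, E} : Set _)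
    (x5 (Equiv.swap 0 1 : Equiv.Perm (Fin 5)) (Equiv.swap 1 2) (Equiv.swap 2 3) (Equiv.swap 3 4))
    (x5 A B C E)
    (fun t => by
      show (MonoidHom.fst _ _) (w A B C t.1 * _) = _
      rw [map_mul, map_w]
      obtain ⟨t, k⟩ := t
      fin_cases k <;> rfl)
    x5_bijective
    (fun t => by
      obtain ⟨⟨⟨i, j⟩, k⟩, l⟩ := t
      refine mul_mem (mul_mem (mul_mem ?_ ?_) ?_) ?_
      · fin_cases i <;> simp [one_mem, hAm]
      · fin_cases j <;> simp [one_mem, hBm, mul_mem hBm hAm]
      · fin_cases k <;> simp [one_mem, hCm, mul_mem hCm hBm, mul_mem (mul_mem hCm hBm) hAm]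
      · fin_cases l <;> simp [one_mem, hEm, mul_mem hEm hCm, mul_mem (mul_mem hEm hCm) hBm,
          mul_mem (mul_mem (mul_mem hEm hCm) hBm) hAm])
    (fun x hx => by
      induction hx using Subgroup.closure_induction_right with
      | one => exact hone
      | mul_right x _ y hy ih => obtain ⟨t, rfl⟩ := ih; exact (hmul t y hy).imp fun _ h => h.symm
      | mul_inv_cancel x _ y hy ih =>
        obtain ⟨t, rfl⟩ := ih
        rw [hinv y hy]; exact (hmul t y hy).imp fun _ h => h.symm)
  exact ⟨φ, hφ A (by simp), hφ B (by simp), hφ C (by simp), hφ E (by simp)⟩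

theorem swap_partners : ∀ i j : Fin 5, i ≠ j → ∃ k l m n : Fin 5, k ≠ l ∧ m ≠ n ∧
    Equiv.swap k l ≠ Equiv.swap i j ∧ Equiv.swap m n ≠ Equiv.swap i j ∧ Equiv.swap k l ≠ Equiv.swap m n ∧
    Equiv.swap k l * Equiv.swap i j = Equiv.swap i j * Equiv.swap k l ∧
    Equiv.swap m n * Equiv.swap i j = Equiv.swap i j * Equiv.swap m n := by
  decide +kernel

theorem central_five : ∀ p : Equiv.Perm (Fin 5),
    p * (Equiv.swap 0 1 * Equiv.swap 1 2) = (Equiv.swap 0 1 * Equiv.swap 1 2) * p →
    p * (Equiv.swap 2 3 * Equiv.swap 3 4) = (Equiv.swap 2 3 * Equiv.swap 3 4) * p → p = 1 := by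
  decide +kernel


/-- Let D be a non-empty conjugation-invariant set of involutions of a finite group G satisfying the 3-transposition order conditions, and suppose that for every d in D the members of D other than d commuting with d generate a subgroup isomorphic to the symmetric group of degree 3, and the largest normal 3-subgroup of the centralizer of d has order 3. Then the subgroup generated by D is isomorphic to the symmetric group of degree 5 or to the direct product of two symmetric groups of degree 3. -/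
theorem result {G : Type*} [Group G] [Finite G] {D : Set G} (hD : Cfsg.IsThreeTranspositionSet D) (hconj : ∀ g : G, ∀ d ∈ D, g * d * g⁻¹ ∈ D) (hne : D.Nonempty) (hloc : ∀ d ∈ D, Nonempty (↥(Subgroup.closure {y : G | y ∈ D ∧ y ≠ d ∧ Commute d y}) ≃* Equiv.Perm (Fin 3)) ∧ Nat.card (Cfsg.pCore 3 ↥(Subgroup.centralizer ({d} : Set G))) = 3) : Nonempty (↥(Subgroup.closure D) ≃* Equiv.Perm (Fin 5)) ∨ Nonempty (↥(Subgroup.closure D) ≃* Equiv.Perm (Fin 3) × Equiv.Perm (Fin 3)) := by
  classical
  haveI : Fact (Nat.Prime 3) := ⟨Nat.prime_three⟩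
  have hmulself : ∀ x ∈ D, x * x = 1 := fun x hx => mul_self (hD.1 x hx)
  have hinvs : ∀ x ∈ D, x⁻¹ = x := fun x hx => inv_self (hD.1 x hx)
  have hbraid : ∀ x ∈ D, ∀ y ∈ D, ¬ Commute x y → x * y * x = y * x * y :=
    fun x hx y hy h => braid hD hx hy h
  have hconj' : ∀ x ∈ D, ∀ y ∈ D, x * y * x ∈ D := fun x hx y hy => by
    have := hconj x y hy; rwa [hinvs x hx] at this
  have hTconj : ∀ x : G, ∀ d y, y ∈ com D d → x * y * x⁻¹ ∈ com D (x * d * x⁻¹) :=
    fun x d y hy => ⟨hconj x y hy.1, fun e => hy.2.1 (by simpa using e), (commute_conj_iff x).2 hy.2.2⟩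
  have hsymm : ∀ {x y}, x ∈ D → y ∈ com D x → x ∈ com D y := fun hx hy => ⟨hx, hy.2.1.symm, hy.2.2.symm⟩
  -- the shape of com D d
  have hL : ∀ d ∈ D, (∀ x ∈ com D d, ∀ y ∈ com D d, Commute x y → x = y) ∧
      (∀ x ∈ com D d, ∀ y ∈ com D d, x ≠ y → ∀ z ∈ com D d, z = x ∨ z = y ∨ z = x * y * x) ∧
      (∃ x ∈ com D d, ∃ y ∈ com D d, x ≠ y) ∧
      (∀ z ∈ Subgroup.closure (com D d), (∀ x ∈ com D d, Commute x z) → z = 1) := by
    intro d hd
    obtain ⟨f⟩ : Nonempty (↥(Subgroup.closure (com D d)) ≃* Equiv.Perm (Fin 3)) := (hloc d hd).1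
    have F1 := perm3_a
    have F2 := perm3_b
    obtain ⟨A0, B0, hAB0⟩ := perm3_c
    have F4 := perm3_d
    let m : ∀ x, x ∈ com D d → ↥(Subgroup.closure (com D d)) := fun x hx => ⟨x, Subgroup.subset_closure hx⟩
    have hsq : ∀ x hx, f (m x hx) * f (m x hx) = 1 := fun x hx => by
      rw [← map_mul, show m x hx * m x hx = 1 from Subtype.ext (hmulself x hx.1), map_one]
    have hne1 : ∀ x hx, f (m x hx) ≠ 1 := fun x hx e => by
      have h1 := congrArg Subtype.val (f.injective (e.trans (map_one f).symm))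
      have h2 := hD.1 x hx.1
      rw [show x = 1 from h1, orderOf_one] at h2
      omega
    have hinj : ∀ x hx y hy, f (m x hx) = f (m y hy) → x = y := fun x hx y hy e =>
      congrArg Subtype.val (f.injective e)
    have h1 : ∀ x ∈ com D d, ∀ y ∈ com D d, Commute x y → x = y := fun x hx y hy hc =>
      hinj x hx y hy (F1 _ _ (hsq x hx) (hsq y hy) (hne1 x hx) (hne1 y hy)
        (by rw [← map_mul, ← map_mul, show m x hx * m y hy = m y hy * m x hx from Subtype.ext hc.eq]))
    refine ⟨h1, fun x hx y hy hxy z hz => ?_, ?_, fun z hz hcz => ?_⟩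
    · rcases F2 _ _ _ (hsq x hx) (hsq y hy) (hsq z hz) (hne1 x hx) (hne1 y hy) (hne1 z hz)
        (fun e => hxy (hinj x hx y hy e)) with e | e | e
      · exact Or.inl (hinj z hz x hx e)
      · exact Or.inr (Or.inl (hinj z hz y hy e))
      · rw [← map_mul, ← map_mul] at e
        exact Or.inr (Or.inr (congrArg Subtype.val (f.injective e)))
    · by_contra hcon
      push Not at hcon
      haveI : IsMulCommutative (Subgroup.closure (com D d)) :=
        Subgroup.isMulCommutative_closure fun x hx y hy => by rw [hcon x hx y hy]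
      apply hAB0
      obtain ⟨A, rfl⟩ := f.surjective A0
      obtain ⟨B, rfl⟩ := f.surjective B0
      rw [← map_mul, ← map_mul, mul_comm']
    · have hall : ∀ y ∈ Subgroup.closure (com D d), Commute y z := by
        intro y hy
        induction hy using Subgroup.closure_induction with
        | mem y hy => exact hcz y hy
        | one => exact Commute.one_left z
        | mul a b _ _ ha hb => exact ha.mul_left hb
        | inv a _ ha => exact ha.inv_left
      have h2 := F4 (f ⟨z, hz⟩) (fun A => by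
        obtain ⟨y, rfl⟩ := f.surjective A
        rw [← map_mul, ← map_mul, show y * ⟨z, hz⟩ = ⟨z, hz⟩ * y from Subtype.ext (hall y y.2).eq])
      exact congrArg Subtype.val (f.injective (h2.trans (map_one f).symm))
  have hthree : ∀ d ∈ D, ∀ x ∈ com D d, ∀ y ∈ com D d, x ≠ y → x * y * x ∈ com D d := by
    intro d hd x hx y hy _
    have h1 := hTconj x d y hy
    rw [show x * d * x⁻¹ = d by rw [hx.2.2.symm.eq, mul_inv_cancel_right], hinvs x hx.1] at h1
    exact h1
  have hEq : ∀ d ∈ D, ∀ d' ∈ D, ∀ x y, x ∈ com D d → y ∈ com D d → x ∈ com D d' → y ∈ com D d' →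
      x ≠ y → com D d = com D d' := by
    intro d hd d' hd' x y hx hy hx' hy' hxy
    ext z
    constructor
    · intro hz
      rcases (hL d hd).2.1 x hx y hy hxy z hz with rfl | rfl | rfl
      exacts [hx', hy', hthree d' hd' x hx' y hy' hxy]
    · intro hz
      rcases (hL d' hd').2.1 x hx' y hy' hxy z hz with rfl | rfl | rfl
      exacts [hx, hy, hthree d hd x hx y hy hxy]
  -- four-group pairs against an outside member
  have hu : ∀ g ∈ D, ∀ x ∈ D, ∀ y ∈ com D x, ¬ Commute g x → ¬ Commute g y →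
      x * y * g * y * x ∈ com D g := by
    intro g hg x hx y hy hgx hgy
    obtain ⟨φ, h1, h2, h3⟩ := exists_hom_perm4 (hmulself x hx) (hmulself g hg) (hmulself y hy.1)
      (hbraid x hx g hg fun e => hgx e.symm) (hbraid g hg y hy.1 hgy) hy.2.2.eq
    have hinj := injective_perm4 φ (by rw [h1, h3]; exact hy.2.1.symm)
    have he : x * y * g * y * x = φ (Equiv.swap 0 3) := by
      rw [← h1, ← h2, ← h3, ← map_mul, ← map_mul, ← map_mul, ← map_mul]
      exact congrArg φ (by decide +kernel)
    refine ⟨?_, ?_, ?_⟩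
    · have := hconj' x hx _ (hconj' y hy.1 g hg)
      simpa [mul_assoc] using this
    · rw [he, ← h2]
      exact fun e => absurd (hinj e) (by decide)
    · rw [he, ← h2]
      show φ _ * φ _ = φ _ * φ _
      rw [← map_mul, ← map_mul]; exact congrArg φ (by decide +kernel)
  have hrow : ∀ g ∈ D, ∀ x ∈ D, ∀ y ∈ D, ∀ y' ∈ D, y ≠ y' → ¬ Commute g y → ¬ Commute g y' →
      x * y * g * y * x ≠ x * y' * g * y' * x := by
    intro g hg x hx y hy y' hy' hne hc hc' e
    apply hne
    have e1 : y * g * y = y' * g * y' := by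
      simpa [mul_assoc] using mul_right_cancel e
    rw [hbraid y hy g hg fun h => hc h.symm, hbraid y' hy' g hg fun h => hc' h.symm] at e1
    simpa using e1
  by_cases hA : ∃ d ∈ D, ∃ e ∈ D, ¬ Commute d e ∧
      ∃ a ∈ com D d, ∃ b ∈ com D d, a ∈ com D e ∧ b ∈ com D e ∧ a ≠ b
  · -- two triangles
    obtain ⟨d, hd, e, he, hde, a, had, b, hbd, hae, hbe, hab⟩ := hA
    have hdne : d ≠ e := fun h => hde (h ▸ Commute.refl d)
    have hTde : com D d = com D e := hEq d hd e he a b had hbd hae hbe hab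
    have hda := hsymm hd had
    have hea := hsymm he hae
    have hB : ∀ x ∈ com D d, com D x = com D a := fun x hx =>
      (hEq a had.1 x hx.1 d e hda hea (hsymm hd hx) (hsymm he (hTde ▸ hx)) hdne).symm
    have hA' : ∀ y ∈ com D a, com D y = com D d := by
      intro y hy
      have hyb : y ∈ com D b := (hB b hbd).symm ▸ hy
      exact (hEq d hd y hy.1 a b had hbd (hsymm had.1 hy) (hsymm hbd.1 hyb) hab).symm
    -- everything lies in the two triangles
    have hcover : ∀ g ∈ D, g ∈ com D d ∨ g ∈ com D a := by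
      intro g hg
      by_contra hout
      push Not at hout
      have hncA : ∀ x ∈ com D d, ¬ Commute g x := by
        intro x hx hc
        by_cases hgx : g = x
        · exact hout.1 (hgx ▸ hx)
        · exact hout.2 (hB x hx ▸ (⟨hg, hgx, hc.symm⟩ : g ∈ com D x))
      have hncB : ∀ y ∈ com D a, ¬ Commute g y := by
        intro y hy hc
        by_cases hgy : g = y
        · exact hout.2 (hgy ▸ hy)
        · exact hout.1 (hA' y hy ▸ (⟨hg, hgy, hc.symm⟩ : g ∈ com D y))
      have hU : ∀ x ∈ com D d, ∀ y ∈ com D a, x * y * g * y * x ∈ com D g := fun x hx y hy =>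
        hu g hg x hx.1 y (hB x hx ▸ hy) (hncA x hx) (hncB y hy)
      have hf : d * e * d ∈ com D a := hthree a had.1 d hda e hea hdne
      have hfne1 : d * e * d ≠ d := fun h => hdne (by
        calc d = d * (d * e * d) * d := by rw [h]; simp [mul_assoc, hmulself d hd]
          _ = e := by simp [mul_assoc, cancel (hmulself d hd), hmulself d hd])
      have hfne2 : d * e * d ≠ e := fun h => hde (by
        show d * e = e * d
        calc d * e = d * e * d * d := by rw [mul_assoc (d * e), hmulself d hd, mul_one]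
          _ = e * d := by rw [h])
      have hbd' : ¬ (b * d * g * d * b = a * d * g * d * a) := by
        intro h
        have := hrow g hg d hd a had.1 b hbd.1 hab (hncA a had) (hncA b hbd)
        apply this
        have hh : ∀ x, Commute d x → d * x * g * x * d = x * d * g * d * x := fun x hc => by
          rw [mul_assoc (d * x * g) x d, mul_assoc (x * d * g) d x]
          exact congrArg₂ (fun p q => p * g * q) hc.eq hc.eq.symm
        rw [hh a had.2.2, hh b hbd.2.2]
        exact h.symm
      obtain ⟨f, hfB, hfd, heq⟩ : ∃ f ∈ com D a, f ≠ d ∧ b * d * g * d * b = a * f * g * f * a := by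
        rcases (hL g hg).2.1 _ (hU a had d hda) _ (hU a had e hea)
          (hrow g hg a had.1 d hd e he hdne (hncB d hda) (hncB e hea)) _ (hU b hbd d hda) with h | h | h
        · exact absurd h hbd'
        · exact ⟨e, hea, hdne.symm, h⟩
        · refine ⟨d * e * d, hf, hfne1, h.trans ?_⟩
          rcases (hL g hg).2.1 _ (hU a had d hda) _ (hU a had e hea)
            (hrow g hg a had.1 d hd e he hdne (hncB d hda) (hncB e hea)) _ (hU a had _ hf) with h' | h' | h'
          · exact absurd h'.symm (hrow g hg a had.1 d hd _ hf.1 hfne1.symm (hncB d hda) (hncB _ hf))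
          · exact absurd h'.symm (hrow g hg a had.1 e he _ hf.1 hfne2.symm (hncB e hea) (hncB _ hf))
          · exact h'.symm
      generalize hw : (a * b) * (f * d) = w
      have hbf : Commute b f := ((hB b hbd).symm ▸ hfB : f ∈ com D b).2.2
      have hwg : Commute w g := by
        have hw' : w = a * f * (b * d) := by
          rw [← hw]; simp only [mul_assoc, reduceCtorEq]
          rw [← mul_assoc b f, hbf.eq, mul_assoc]
        have h1 : (a * f) * g * (a * f)⁻¹ = (b * d) * g * (b * d)⁻¹ := by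
          rw [mul_inv_rev, mul_inv_rev, hinvs a had.1, hinvs b hbd.1, hinvs f hfB.1, hinvs d hd]
          simpa [mul_assoc] using heq.symm
        have haf : (a * f)⁻¹ = a * f := by
          rw [mul_inv_rev, hinvs a had.1, hinvs f hfB.1, hfB.2.2.eq]
        show w * g = g * w
        rw [hw']
        calc a * f * (b * d) * g = a * f * ((b * d) * g * (b * d)⁻¹) * (b * d) := by group
          _ = a * f * ((a * f) * g * (a * f)⁻¹) * (b * d) := by rw [h1]
          _ = (a * f * (a * f)) * g * ((a * f)⁻¹ * (b * d)) := by group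
          _ = g * (a * f * (b * d)) := by
            nth_rewrite 1 [← haf]
            rw [inv_mul_cancel, one_mul, haf]
      have hdw : a * d * w * d * a = w⁻¹ := by
        rw [← hw, mul_inv_rev, mul_inv_rev, mul_inv_rev, hinvs a had.1, hinvs b hbd.1, hinvs f hfB.1, hinvs d hd]
        have c1 : Commute d a := had.2.2
        have c2 : Commute d b := hbd.2.2
        have c3 : Commute a f := hfB.2.2
        calc a * d * (a * b * (f * d)) * d * a = a * (d * a) * b * f * a := by
              simp only [mul_assoc, cancel (hmulself d hd)]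
          _ = (a * a) * (d * b) * (f * a) := by rw [c1.eq]; group
          _ = (b * d) * (a * f) := by rw [hmulself a had.1, one_mul, c2.eq, c3.eq]
          _ = b * (d * a) * f := by group
          _ = b * a * (d * f) := by rw [c1.eq]; group
          _ = d * f * (b * a) := by
            have cb : Commute b (d * f) := c2.symm.mul_right hbf
            have ca : Commute a (d * f) := c1.symm.mul_right c3
            exact (cb.mul_left ca).eq
      generalize hu0 : a * d * g * d * a = u0
      have hu0T : u0 ∈ com D g := hu0 ▸ hU a had d hda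
      have hu0w : Commute u0 w := by
        have hda' : d * a = a * d := had.2.2.eq
        have hadad : a * d * (a * d) = 1 := by
          rw [mul_assoc, ← mul_assoc d a, hda', mul_assoc, hmulself d hd, mul_one, hmulself a had.1]
        have hcgi : Commute w⁻¹ g := hwg.inv_left
        show u0 * w = w * u0
        rw [← hu0]
        have h1 : a * d * w⁻¹ * d * a = w := by
          have := congrArg (·⁻¹) hdw
          simpa [mul_inv_rev, hinvs a had.1, hinvs d hd, mul_assoc, hda'] using this
        calc a * d * g * d * a * w = a * d * g * d * a * (a * d * w⁻¹ * d * a) := by rw [h1]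
          _ = a * d * (g * w⁻¹) * d * a := by
            simp only [mul_assoc, cancel (hmulself a had.1), cancel (hmulself d hd)]
          _ = a * d * (w⁻¹ * g) * d * a := by rw [hcgi.eq]
          _ = (a * d * w⁻¹ * d * a) * (a * d * g * d * a) := by
            simp only [mul_assoc, cancel (hmulself a had.1), cancel (hmulself d hd)]
          _ = _ := by rw [h1]
      have hwne : w ≠ 1 := by
        intro h1
        rw [← hw, mul_eq_one_iff_eq_inv, mul_inv_rev, hinvs d hd, hinvs f hfB.1] at h1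
        have hcd : Commute d (d * f) := h1 ▸ had.2.2.mul_right hbd.2.2
        have hc : Commute d f := by
          have := (Commute.refl d).mul_right hcd
          rwa [cancel (hmulself d hd)] at this
        exact hfd ((hL a had.1).1 f hfB d hda hc.symm)
      -- w lies in the 3-core
      have hN : (Subgroup.closure D).Normal := ⟨fun x hx k => by
        induction hx using Subgroup.closure_induction with
        | mem x hx => exact Subgroup.subset_closure (hconj k x hx)
        | one => simp
        | mul x y _ _ hx hy =>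
          rw [show k * (x * y) * k⁻¹ = k * x * k⁻¹ * (k * y * k⁻¹) by group]; exact mul_mem hx hy
        | inv x _ hx =>
          rw [show k * x⁻¹ * k⁻¹ = (k * x * k⁻¹)⁻¹ by group]; exact inv_mem hx⟩
      have hpair : ∀ x ∈ D, ∀ y ∈ D, ¬ Commute x y → ∃ k ∈ Subgroup.closure D, k * x * k⁻¹ = y :=
        fun x hx y hy hc => ⟨x * y, mul_mem (Subgroup.subset_closure hx) (Subgroup.subset_closure hy),
          conj_pair hD hx hy hc⟩
      have htog : ∀ y ∈ D, ∃ k ∈ Subgroup.closure D, k * y * k⁻¹ = g := by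
        intro y hy
        by_cases hyA : y ∈ com D d
        · exact hpair y hy g hg fun h => hncA y hyA h.symm
        by_cases hyB : y ∈ com D a
        · exact hpair y hy g hg fun h => hncB y hyB h.symm
        have hya : ¬ Commute y a := by
          intro hc
          by_cases hya : y = a
          · exact hyA (hya ▸ had)
          · exact hyB ⟨hy, hya, hc.symm⟩
        obtain ⟨k1, hk1, e1⟩ := hpair y hy a had.1 hya
        obtain ⟨k2, hk2, e2⟩ := hpair a had.1 g hg fun h => hncA a had h.symm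
        exact ⟨k2 * k1, mul_mem hk2 hk1, by rw [← e2, ← e1]; group⟩
      let D' : Set ↥(Subgroup.closure D) := {x | (x : G) ∈ D}
      have hgc : GenClass D' :=
        { tset := ⟨fun x hx => by rw [← Subgroup.orderOf_coe]; exact hD.1 _ hx, fun x hx y hy =>
            (hD.2 _ hx _ hy).imp (fun h => Subtype.ext (by simpa using h)) fun h => Subtype.ext (by simpa using h)⟩
          conj := fun k x hx => hconj k x hx
          trans := fun x hx y hy => by
            obtain ⟨k1, hk1, e1⟩ := htog x hx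
            obtain ⟨k2, hk2, e2⟩ := htog y hy
            refine ⟨⟨k2⁻¹ * k1, mul_mem (inv_mem hk2) hk1⟩, Subtype.ext ?_⟩
            show k2⁻¹ * k1 * x * (k2⁻¹ * k1)⁻¹ = y
            rw [show k2⁻¹ * k1 * (x : G) * (k2⁻¹ * k1)⁻¹ = k2⁻¹ * (k1 * x * k1⁻¹) * k2 by group, e1, ← e2]
            group
          gen := Subgroup.closure_closure_coe_preimage }
      have hcore : ∀ x ∈ D, ∀ y ∈ D, com D x = com D y → x * y ∈ Cfsg.pCore 3 G := by
        intro x hx y hy hxy
        have hW : Wrel D' (⟨x, Subgroup.subset_closure hx⟩ : ↥(Subgroup.closure D))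
            ⟨y, Subgroup.subset_closure hy⟩ := by
          have key : ∀ (p : G) (hp : p ∈ Subgroup.closure D), com D' ⟨p, hp⟩ = Subtype.val ⁻¹' com D p := by
            intro p hp
            ext z
            exact ⟨fun h => ⟨h.1, fun e => h.2.1 (Subtype.ext e), congrArg Subtype.val h.2.2.eq⟩,
              fun h => ⟨h.1, fun e => h.2.1 (congrArg Subtype.val e), Subtype.ext h.2.2.eq⟩⟩
          unfold Wrel
          rw [key, key, hxy]
        have h1 := Wrel.mem_pCore hgc (x := ⟨x, Subgroup.subset_closure hx⟩) (y := ⟨y, Subgroup.subset_closure hy⟩) hx hy hW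
        haveI := hN
        have h2 : x * y ∈ (Cfsg.pCore 3 ↥(Subgroup.closure D)).map (Subgroup.closure D).subtype := ⟨_, h1, rfl⟩
        rw [Cfsg.Lib.Solv.map_pCore_subgroup] at h2
        exact h2.1
      have hwcore : w ∈ Cfsg.pCore 3 G := hw ▸ Subgroup.mul_mem _
        (hcore a had.1 b hbd.1 (hB b hbd).symm)
        (hcore f hfB.1 d hd ((hA' f hfB).trans (hA' d hda).symm))
      -- the core of the centralizer of g
      obtain ⟨P, hP, hPm⟩ := width_one_pgroup (S := com D g)
        ⟨fun x hx => hD.1 x hx.1, fun x hx y hy => hD.2 x hx.1 y hy.1⟩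
        (fun x hx y hy => by
          have := hTconj x g y hy
          rwa [show x * g * x⁻¹ = g by rw [hx.2.2.symm.eq, mul_inv_cancel_right]] at this)
        (fun x hx y hy hne hc => hne ((hL g hg).1 x hx y hy hc))
      let C := Subgroup.centralizer ({g} : Set G)
      let Z := Subgroup.closure {z | ∃ x ∈ com D g, ∃ y ∈ com D g, x * y = z}
      have hcomC : ∀ x ∈ com D g, x ∈ C := fun x hx =>
        Subgroup.mem_centralizer_singleton_iff.2 hx.2.2.symm.eq
      have hZC : Z ≤ C := (Subgroup.closure_le _).2 (by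
        rintro _ ⟨x, hx, y, hy, rfl⟩; exact C.mul_mem (hcomC x hx) (hcomC y hy))
      have hZP : Z ≤ P := (Subgroup.closure_le _).2 (by
        rintro _ ⟨x, hx, y, hy, rfl⟩; exact hPm x hx y hy)
      have hZn : (Z.subgroupOf C).Normal := ⟨fun z hz k => by
        rw [Subgroup.mem_subgroupOf] at hz ⊢
        have hk : (k : G) * g * (k : G)⁻¹ = g := by
          rw [Subgroup.mem_centralizer_singleton_iff.1 k.2, mul_inv_cancel_right]
        show (k : G) * z * (k : G)⁻¹ ∈ Z
        generalize (z : G) = z at hz ⊢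
        induction hz using Subgroup.closure_induction with
        | mem z hz =>
          obtain ⟨x, hx, y, hy, rfl⟩ := hz
          exact Subgroup.subset_closure ⟨_, hk ▸ hTconj k g x hx, _, hk ▸ hTconj k g y hy, by group⟩
        | one => simp
        | mul x y _ _ hx hy =>
          rw [show (k : G) * (x * y) * (k : G)⁻¹ = k * x * (k : G)⁻¹ * (k * y * (k : G)⁻¹) by group]
          exact mul_mem hx hy
        | inv x _ hx =>
          rw [show (k : G) * x⁻¹ * (k : G)⁻¹ = (k * x * (k : G)⁻¹)⁻¹ by group]; exact inv_mem hx⟩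
      have hX : Nat.card (Cfsg.pCore 3 ↥C) = 3 := (hloc g hg).2
      have hZX : Z.subgroupOf C ≤ Cfsg.pCore 3 ↥C :=
        Cfsg.Lib.Solv.le_pCore hZn ((hP.to_le hZP).comap_subtype (K := C))
      have hwC : w ∈ C := Subgroup.mem_centralizer_singleton_iff.2 hwg.eq
      have hwX : (⟨w, hwC⟩ : ↥C) ∈ Cfsg.pCore 3 ↥C :=
        Cfsg.Lib.Solv.le_pCore (N := (Cfsg.pCore 3 G).subgroupOf C) inferInstance
          (Cfsg.Lib.Solv.isPGroup_pCore 3).comap_subtype (Subgroup.mem_subgroupOf.2 hwcore)
      obtain ⟨x0, hx0, y0, hy0, hne0⟩ := (hL g hg).2.2.1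
      have hZeq : Z.subgroupOf C = Cfsg.pCore 3 ↥C := by
        refine Subgroup.eq_of_le_of_card_ge hZX ?_
        rw [hX]
        have hm : (⟨x0 * y0, C.mul_mem (hcomC x0 hx0) (hcomC y0 hy0)⟩ : ↥C) ∈ Z.subgroupOf C :=
          Subgroup.mem_subgroupOf.2 (Subgroup.subset_closure ⟨x0, hx0, y0, hy0, rfl⟩)
        obtain ⟨k, hk⟩ := (IsPGroup.iff_card).1 ((hP.to_le hZP).comap_subtype (K := C) : IsPGroup 3 ↥(Z.subgroupOf C))
        refine le_of_le_of_eq ?_ hk.symm
        rcases Nat.eq_zero_or_pos k with rfl | hk0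
        · exfalso
          rw [pow_zero, Subgroup.card_eq_one] at hk
          rw [show Z.subgroupOf C = ⊥ from hk, Subgroup.mem_bot] at hm
          have := congrArg Subtype.val hm
          simp only [Subgroup.coe_one, mul_eq_one_iff_eq_inv, hinvs y0 hy0.1] at this
          exact hne0 this
        · exact le_self_pow (by norm_num) hk0.ne'
      have hwZ : w ∈ Z := Subgroup.mem_subgroupOf.1 (hZeq ▸ hwX : (⟨w, hwC⟩ : ↥C) ∈ Z.subgroupOf C)
      have hcard : Nat.card ↥(Z.subgroupOf C) = 3 := by rw [hZeq, hX]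
      haveI := isCyclic_of_prime_card hcard
      have hZab : ∀ x ∈ Z, ∀ y ∈ Z, Commute x y := fun x hx y hy => by
        have := @mul_comm _ (IsCyclic.commGroup (α := ↥(Z.subgroupOf C))).toCommMonoid.toCommSemigroup.toCommMagma
          (⟨⟨x, hZC hx⟩, Subgroup.mem_subgroupOf.2 hx⟩ : ↥(Z.subgroupOf C)) ⟨⟨y, hZC hy⟩, Subgroup.mem_subgroupOf.2 hy⟩
        exact congrArg (fun z : ↥(Z.subgroupOf C) => ((z : ↥C) : G)) this
      have hZcl : Z ≤ Subgroup.closure (com D g) := (Subgroup.closure_le _).2 (by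
        rintro _ ⟨x, hx, y, hy, rfl⟩
        exact mul_mem (Subgroup.subset_closure hx) (Subgroup.subset_closure hy))
      refine hwne ((hL g hg).2.2.2 w (hZcl hwZ) fun y hy => ?_)
      have := hu0w.mul_left (hZab (u0 * y) (Subgroup.subset_closure ⟨u0, hu0T, y, hy, rfl⟩) w hwZ)
      rwa [cancel (hmulself u0 hu0T.1)] at this
    -- the product of the two triangles
    right
    have hcomm : ∀ x ∈ com D d, ∀ y ∈ com D a, Commute x y := fun x hx y hy =>
      ((hB x hx).symm ▸ hy : y ∈ com D x).2.2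
    have hcl : ∀ x ∈ Subgroup.closure (com D d), ∀ y ∈ Subgroup.closure (com D a), Commute x y := by
      have h1 : Subgroup.closure (com D d) ≤ Subgroup.centralizer (com D a) :=
        (Subgroup.closure_le _).2 fun x hx => Subgroup.mem_centralizer_iff.2 fun y hy => (hcomm x hx y hy).eq.symm
      intro x hx y hy
      have h2 : Subgroup.closure (com D a) ≤ Subgroup.centralizer ({x} : Set G) :=
        (Subgroup.closure_le _).2 fun y hy =>
          Subgroup.mem_centralizer_singleton_iff.2 (Subgroup.mem_centralizer_iff.1 (h1 hx) y hy)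
      exact (Subgroup.mem_centralizer_singleton_iff.1 (h2 hy)).symm
    let ψ : ↥(Subgroup.closure (com D d)) × ↥(Subgroup.closure (com D a)) →* G :=
      MonoidHom.noncommCoprod (Subgroup.closure (com D d)).subtype (Subgroup.closure (com D a)).subtype
        fun x y => hcl x x.2 y y.2
    have hψinj : Function.Injective ψ := by
      rw [injective_iff_map_eq_one]
      rintro ⟨x, y⟩ hxy
      have hxy' : (x : G) * y = 1 := hxy
      have hx1 : (x : G) = 1 := by
        refine (hL d hd).2.2.2 x x.2 fun z hz => ?_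
        rw [mul_eq_one_iff_eq_inv.1 hxy']
        exact (hcl z (Subgroup.subset_closure hz) _ y.2).inv_right
      rw [hx1, one_mul] at hxy'
      exact Prod.ext (Subtype.ext hx1) (Subtype.ext hxy')
    have hrange : ψ.range = Subgroup.closure D := by
      refine le_antisymm ?_ ((Subgroup.closure_le _).2 fun g hg => ?_)
      · rintro _ ⟨⟨x, y⟩, rfl⟩
        exact mul_mem (Subgroup.closure_mono (fun z hz => hz.1) x.2) (Subgroup.closure_mono (fun z hz => hz.1) y.2)
      · rcases hcover g hg with h | h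
        · exact ⟨(⟨g, Subgroup.subset_closure h⟩, 1), mul_one g⟩
        · exact ⟨(1, ⟨g, Subgroup.subset_closure h⟩), one_mul g⟩
    obtain ⟨f1⟩ : Nonempty (↥(Subgroup.closure (com D d)) ≃* Equiv.Perm (Fin 3)) := (hloc d hd).1
    obtain ⟨f2⟩ : Nonempty (↥(Subgroup.closure (com D a)) ≃* Equiv.Perm (Fin 3)) := (hloc a had.1).1
    exact ⟨((MulEquiv.subgroupCongr hrange.symm).trans (MonoidHom.ofInjective hψinj).symm).trans
      (f1.prodCongr f2)⟩
  · -- the Petersen graph
    push Not at hA
    left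
    obtain ⟨d, hd⟩ := hne
    obtain ⟨a, had, b, hbd, hab⟩ := (hL d hd).2.2.1
    obtain ⟨s2, hs2, hs2d⟩ : ∃ s ∈ com D b, s ≠ d := by
      obtain ⟨x, hx, y, hy, hxy⟩ := (hL b hbd.1).2.2.1
      by_cases h : x = d
      · exact ⟨y, hy, fun e => hxy (h.trans e.symm)⟩
      · exact ⟨x, hx, h⟩
    have hncab : ¬ Commute a b := fun h => hab ((hL d hd).1 a had b hbd h)
    have hncd : ¬ Commute d s2 := fun h => hs2d ((hL b hbd.1).1 d (hsymm hd hbd) s2 hs2 h).symm
    have hs2a : s2 ≠ a := fun h => hncab (h ▸ hs2.2.2).symm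
    have hnca : ¬ Commute s2 a := fun h =>
      hs2d (hA a had.1 b hbd.1 hncab d (hsymm hd had) s2 ⟨hs2.1, hs2a, h.symm⟩ (hsymm hd hbd) hs2).symm
    obtain ⟨φ, p1, p2, p3, p4⟩ := exists_hom_perm5 (hmulself d hd) (hmulself s2 hs2.1) (hmulself a had.1)
      (hmulself b hbd.1) (hbraid d hd s2 hs2.1 hncd) (hbraid s2 hs2.1 a had.1 hnca)
      (hbraid a had.1 b hbd.1 hncab) had.2.2.eq hbd.2.2.eq hs2.2.2.symm.eq
    have hinj : Function.Injective φ := by
      rw [injective_iff_map_eq_one]
      intro p hp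
      have hA5 : ∀ i j k l : Fin 5, i ≠ j → k ≠ l → Equiv.swap i j * Equiv.swap k l ∈ alternatingGroup (Fin 5) :=
        fun i j k l hij hkl => Equiv.Perm.mem_alternatingGroup.2 (by
          rw [map_mul, Equiv.Perm.sign_swap hij, Equiv.Perm.sign_swap hkl]; rfl)
      haveI := alternatingGroup.isSimpleGroup_five
      rcases (inferInstance : (φ.ker.subgroupOf (alternatingGroup (Fin 5))).Normal).eq_bot_or_eq_top with hb' | ht
      · have hcent : ∀ t ∈ alternatingGroup (Fin 5), p * t = t * p := by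
          intro t ht'
          have hmem : p * t * p⁻¹ * t⁻¹ ∈ alternatingGroup (Fin 5) :=
            mul_mem ((inferInstance : (alternatingGroup (Fin 5)).Normal).conj_mem t ht' p) (inv_mem ht')
          have h1 : (⟨_, hmem⟩ : alternatingGroup (Fin 5)) ∈ φ.ker.subgroupOf (alternatingGroup (Fin 5)) := by
            rw [Subgroup.mem_subgroupOf, MonoidHom.mem_ker]
            simp [hp]
          rw [hb', Subgroup.mem_bot] at h1
          have h2 : p * t * p⁻¹ * t⁻¹ = 1 := congrArg Subtype.val h1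
          calc p * t = p * t * p⁻¹ * t⁻¹ * (t * p) := by group
            _ = t * p := by rw [h2, one_mul]
        exact central_five p (hcent _ (hA5 0 1 1 2 (by decide) (by decide))) (hcent _ (hA5 2 3 3 4 (by decide) (by decide)))
      · exfalso
        rw [Subgroup.subgroupOf_eq_top] at ht
        have h1 := MonoidHom.mem_ker.1 (ht (hA5 0 1 1 2 (by decide) (by decide)))
        rw [map_mul, p1, p2, mul_eq_one_iff_eq_inv, hinvs s2 hs2.1] at h1
        exact hs2d h1.symm
    have hswD : ∀ i j : Fin 5, i ≠ j → φ (Equiv.swap i j) ∈ D := by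
      intro i j hij
      obtain ⟨σ, hσ⟩ := isConj_iff.1 (Equiv.Perm.isConj_swap (show (0 : Fin 5) ≠ 1 by decide) hij)
      rw [← hσ, map_mul, map_mul, map_inv, p1]
      exact hconj _ d hd
    have hclosed : ∀ i j : Fin 5, i ≠ j → ∀ y ∈ com D (φ (Equiv.swap i j)),
        ∃ k l : Fin 5, k ≠ l ∧ y = φ (Equiv.swap k l) := by
      intro i j hij y hy
      obtain ⟨k, l, m, n, hkl, hmn, h1, h2, h12, c1, c2⟩ := swap_partners i j hij
      have mk : ∀ k l : Fin 5, k ≠ l → Equiv.swap k l ≠ Equiv.swap i j →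
          Equiv.swap k l * Equiv.swap i j = Equiv.swap i j * Equiv.swap k l →
          φ (Equiv.swap k l) ∈ com D (φ (Equiv.swap i j)) := fun k l hkl h c =>
        ⟨hswD k l hkl, fun e => h (hinj e), by
          show φ _ * φ _ = φ _ * φ _
          rw [← map_mul, ← map_mul, c]⟩
      rcases (hL _ (hswD i j hij)).2.1 _ (mk k l hkl h1 c1) _ (mk m n hmn h2 c2)
        (fun e => h12 (hinj e)) y hy with rfl | rfl | rfl
      · exact ⟨k, l, hkl, rfl⟩
      · exact ⟨m, n, hmn, rfl⟩
      · refine ⟨Equiv.swap k l m, Equiv.swap k l n, (Equiv.injective _).ne hmn, ?_⟩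
        rw [← map_mul, ← map_mul, Equiv.swap_apply_apply, Equiv.swap_inv]
    have hall : ∀ g ∈ D, ∃ k l : Fin 5, k ≠ l ∧ g = φ (Equiv.swap k l) := by
      intro g hg
      by_contra hout
      push Not at hout
      have hnc : ∀ i j : Fin 5, i ≠ j → ¬ Commute g (φ (Equiv.swap i j)) := by
        intro i j hij hc
        obtain ⟨k, l, hkl, e⟩ := hclosed i j hij g ⟨hg, hout i j hij, hc.symm⟩
        exact hout k l hkl e
      obtain ⟨x0, hx0, y0, hy0, hne0⟩ := (hL g hg).2.2.1
      let U : Fin 5 → Fin 5 → Fin 5 → Fin 5 → G := fun i j k l =>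
        φ (Equiv.swap i j) * φ (Equiv.swap k l) * g * φ (Equiv.swap k l) * φ (Equiv.swap i j)
      let col : G → Fin 3 := fun z => if z = x0 then 0 else if z = y0 then 1 else 2
      have hcomS : ∀ i j k l : Fin 5, Equiv.swap i j * Equiv.swap k l = Equiv.swap k l * Equiv.swap i j →
          U i j k l = U k l i j := by
        intro i j k l c
        have c' : φ (Equiv.swap i j) * φ (Equiv.swap k l) = φ (Equiv.swap k l) * φ (Equiv.swap i j) := by
          rw [← map_mul, ← map_mul, c]
        simp only [U]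
        rw [c', mul_assoc _ (φ (Equiv.swap k l)) (φ (Equiv.swap i j)), ← c']
        simp only [mul_assoc]
      have hUT : ∀ i j k l : Fin 5, i ≠ j → k ≠ l → Equiv.swap k l ≠ Equiv.swap i j →
          Equiv.swap i j * Equiv.swap k l = Equiv.swap k l * Equiv.swap i j → U i j k l ∈ com D g := by
        intro i j k l hij hkl hne c
        exact hu g hg _ (hswD i j hij) _ ⟨hswD k l hkl, fun e => hne (hinj e), by
          show φ _ * φ _ = φ _ * φ _; rw [← map_mul, ← map_mul, c]⟩ (hnc i j hij) (hnc k l hkl)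
      have hdec : ∀ z ∈ com D g, ![x0, y0, x0 * y0 * x0] (col z) = z := by
        intro z hz
        simp only [col]
        split_ifs with c1 c2
        · exact c1.symm
        · exact c2.symm
        · exact ((((hL g hg).2.1 x0 hx0 y0 hy0 hne0 z hz).resolve_left c1).resolve_left c2).symm
      have hcol : ∀ z ∈ com D g, ∀ z' ∈ com D g, z ≠ z' → col z ≠ col z' := fun z hz z' hz' hzz e =>
        hzz (by rw [← hdec z hz, ← hdec z' hz', e])
      have hP : ∀ i j k l k' l' : Fin 5, i ≠ j → k ≠ l → k' ≠ l' →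
          Equiv.swap k l ≠ Equiv.swap i j → Equiv.swap k' l' ≠ Equiv.swap i j →
          Equiv.swap k l ≠ Equiv.swap k' l' →
          Equiv.swap i j * Equiv.swap k l = Equiv.swap k l * Equiv.swap i j →
          Equiv.swap i j * Equiv.swap k' l' = Equiv.swap k' l' * Equiv.swap i j →
          col (U i j k l) ≠ col (U i j k' l') := by
        intro i j k l k' l' hij hkl hkl' h1 h2 h3 c1 c2
        exact hcol _ (hUT i j k l hij hkl h1 c1) _ (hUT i j k' l' hij hkl' h2 c2)
          (hrow g hg _ (hswD i j hij) _ (hswD k l hkl) _ (hswD k' l' hkl') (fun e => h3 (hinj e))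
            (hnc k l hkl) (hnc k' l' hkl'))
      let Z : Fin 5 → Fin 5 → Fin 5 → Fin 5 → Fin 3 := fun i j k l => col (U i j k l)
      have hs : ∀ i j k l : Fin 5, Equiv.swap i j * Equiv.swap k l = Equiv.swap k l * Equiv.swap i j →
          Z i j k l = Z k l i j := fun i j k l c => congrArg col (hcomS i j k l c)
      have q : ∀ i j k l k' l' : Fin 5, i ≠ j ∧ k ≠ l ∧ k' ≠ l' ∧ Equiv.swap k l ≠ Equiv.swap i j ∧
          Equiv.swap k' l' ≠ Equiv.swap i j ∧ Equiv.swap k l ≠ Equiv.swap k' l' ∧
          Equiv.swap i j * Equiv.swap k l = Equiv.swap k l * Equiv.swap i j ∧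
          Equiv.swap i j * Equiv.swap k' l' = Equiv.swap k' l' * Equiv.swap i j →
          Z i j k l ≠ Z i j k' l' := fun i j k l k' l' h =>
        hP i j k l k' l' h.1 h.2.1 h.2.2.1 h.2.2.2.1 h.2.2.2.2.1 h.2.2.2.2.2.1 h.2.2.2.2.2.2.1 h.2.2.2.2.2.2.2
      refine petersen (Z 0 1 2 3) (Z 0 1 2 4) (q 0 1 2 3 2 4 (by decide))
        (Z 0 1 3 4) (q 0 1 3 4 2 3 (by decide)) (q 0 1 3 4 2 4 (by decide))
        (Z 2 3 0 4) ?_ (Z 2 3 1 4) ?_ (q 2 3 1 4 0 4 (by decide))
        (Z 2 4 0 3) ?_ (Z 2 4 1 3) ?_ (q 2 4 1 3 0 3 (by decide))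
        (Z 3 4 0 2) ?_ (Z 3 4 1 2) ?_ (q 3 4 1 2 0 2 (by decide))
        (Z 0 2 1 3) ?_ ?_ (Z 0 2 1 4) ?_ (q 0 2 1 4 1 3 (by decide)) ?_
        (Z 0 3 1 2) ?_ ?_ (Z 0 3 1 4) ?_ (q 0 3 1 4 1 2 (by decide)) ?_ ?_
        (Z 0 4 1 2) ?_ ?_ ?_ (Z 0 4 1 3) ?_ (q 0 4 1 3 1 2 (by decide)) ?_ ?_
      · rw [hs 0 1 2 3 (by decide)]; exact q 2 3 0 4 0 1 (by decide)
      · rw [hs 0 1 2 3 (by decide)]; exact q 2 3 1 4 0 1 (by decide)
      · rw [hs 0 1 2 4 (by decide)]; exact q 2 4 0 3 0 1 (by decide)
      · rw [hs 0 1 2 4 (by decide)]; exact q 2 4 1 3 0 1 (by decide)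
      · rw [hs 0 1 3 4 (by decide)]; exact q 3 4 0 2 0 1 (by decide)
      · rw [hs 0 1 3 4 (by decide)]; exact q 3 4 1 2 0 1 (by decide)
      · rw [hs 3 4 0 2 (by decide)]; exact q 0 2 1 3 3 4 (by decide)
      · rw [hs 2 4 1 3 (by decide), hs 0 2 1 3 (by decide)]; exact q 1 3 0 2 2 4 (by decide)
      · rw [hs 3 4 0 2 (by decide)]; exact q 0 2 1 4 3 4 (by decide)
      · rw [hs 2 3 1 4 (by decide), hs 0 2 1 4 (by decide)]; exact q 1 4 0 2 2 3 (by decide)
      · rw [hs 2 4 0 3 (by decide)]; exact q 0 3 1 2 2 4 (by decide)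
      · rw [hs 3 4 1 2 (by decide), hs 0 3 1 2 (by decide)]; exact q 1 2 0 3 3 4 (by decide)
      · rw [hs 2 4 0 3 (by decide)]; exact q 0 3 1 4 2 4 (by decide)
      · rw [hs 2 3 1 4 (by decide), hs 0 3 1 4 (by decide)]; exact q 1 4 0 3 2 3 (by decide)
      · rw [hs 0 2 1 4 (by decide), hs 0 3 1 4 (by decide)]; exact q 1 4 0 3 0 2 (by decide)
      · rw [hs 2 3 0 4 (by decide)]; exact q 0 4 1 2 2 3 (by decide)
      · rw [hs 3 4 1 2 (by decide), hs 0 4 1 2 (by decide)]; exact q 1 2 0 4 3 4 (by decide)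
      · rw [hs 0 3 1 2 (by decide), hs 0 4 1 2 (by decide)]; exact q 1 2 0 4 0 3 (by decide)
      · rw [hs 2 3 0 4 (by decide)]; exact q 0 4 1 3 2 3 (by decide)
      · rw [hs 2 4 1 3 (by decide), hs 0 4 1 3 (by decide)]; exact q 1 3 0 4 2 4 (by decide)
      · rw [hs 0 2 1 3 (by decide), hs 0 4 1 3 (by decide)]; exact q 1 3 0 4 0 2 (by decide)
    have hrange : φ.range = Subgroup.closure D := by
      refine le_antisymm ?_ ((Subgroup.closure_le _).2 fun g hg => ?_)
      · rw [MonoidHom.range_eq_map, ← Equiv.Perm.closure_isSwap, MonoidHom.map_closure, Subgroup.closure_le]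
        rintro _ ⟨s, ⟨i, j, hij, rfl⟩, rfl⟩
        exact Subgroup.subset_closure (hswD i j hij)
      · obtain ⟨k, l, -, rfl⟩ := hall g hg
        exact ⟨_, rfl⟩
    exact ⟨(MulEquiv.subgroupCongr hrange.symm).trans (MonoidHom.ofInjective hinj).symm⟩

end Cfsg.Agent.S5365
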