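import Cfsg.Statements.S5422
import Cfsg.Agent.Lib.Large.PairBase

set_option autoImplicit false
open Cfsg

namespace Cfsg.Agent.S5422

/-- Let Q be an extraspecial 2-subgroup of the finite group G whose centralizer in G is its centre Z and which is normal in the centralizer of Z; suppose Q has width at least 2 (order 2^(2w+1) with w ≥ 2) and g is an element of G not normalizing Z with g Z g⁻¹ inside Q. Then Z lies inside g Q g⁻¹; writing V for the subgroup generated by Z and g Z g⁻¹ (a four-group), the normalizer of V induces on V its full automorphism group, that is, the centralizer of V has index 6 in the normalizer of V; and Q is a large extraspecial 2-subgroup of G. -/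
theorem result {G : Type*} [Group G] [Finite G] (Q : Subgroup G) (hL1 : Cfsg.IsExtraspecial 2 ↥Q) (hL2 : Subgroup.centralizer (Q : Set G) = ((Subgroup.center ↥Q).map Q.subtype)) (hL3 : Subgroup.centralizer (((Subgroup.center ↥Q).map Q.subtype) : Set G) ≤ Subgroup.normalizer (Q : Set G)) (w : ℕ) (hw : 2 ≤ w) (hcard : Nat.card ↥Q = 2 ^ (2 * w + 1)) (g : G) (hg : g ∉ Subgroup.normalizer (((Subgroup.center ↥Q).map Q.subtype) : Set G)) (hZg : (((Subgroup.center ↥Q).map Q.subtype)).map (MulAut.conj g).toMonoidHom ≤ Q) : ((Subgroup.center ↥Q).map Q.subtype) ≤ (Q).map (MulAut.conj g).toMonoidHom ∧ (Subgroup.centralizer ((((Subgroup.center ↥Q).map Q.subtype) ⊔ (((Subgroup.center ↥Q).map Q.subtype)).map (MulAut.conj g).toMonoidHom : Subgroup G) : Set G)).relIndex (Subgroup.normalizer ((((Subgroup.center ↥Q).map Q.subtype) ⊔ (((Subgroup.center ↥Q).map Q.subtype)).map (MulAut.conj g).toMonoidHom : Subgroup G) : Set G)) = 6 ∧ Cfsg.IsLargeExtraspecial Q := by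
  obtain ⟨z, hz2, hz⟩ := Cfsg.Lib.Large.Pair.exists_generator hL1
  have hd := Cfsg.Lib.Large.Pair.data_of hL1 hL2 hL3 hz2 hz
  have hne : g * z * g⁻¹ ≠ z := by
    intro e
    refine hg ?_
    rw [hz, Subgroup.mem_normalizer_iff_map_conj_eq, MonoidHom.map_zpowers]
    exact congrArg Subgroup.zpowers e
  have hgQ : g * z * g⁻¹ ∈ Q := hZg ⟨z, hz ▸ Subgroup.mem_zpowers z, rfl⟩
  have h := Cfsg.Lib.Large.Pair.setting_of hd (Cfsg.Lib.Large.Pair.eight_lt hw hcard) hne hgQ
  refine ⟨?_, ?_, hL1, hL2, hL3, ?_⟩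
  · rw [hz, Subgroup.zpowers_le]
    exact h.zmem
  · have hV : ((Subgroup.center ↥Q).map Q.subtype) ⊔ ((Subgroup.center ↥Q).map Q.subtype).map (MulAut.conj g).toMonoidHom
        = Subgroup.closure ({z, g * z * g⁻¹} : Set G) := by
      rw [hz, MonoidHom.map_zpowers, Subgroup.zpowers_eq_closure, Subgroup.zpowers_eq_closure, ← Subgroup.closure_union,
        Set.singleton_union]
      rfl
    rw [hV]
    exact Cfsg.Lib.Large.Pair.relIndex_eq h
  · intro K hK hQK
    set x := g * z * g⁻¹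
    set S := Cfsg.Lib.Large.Pair.conjS g Q
    have hfour : ∀ k ∈ K, k ^ 4 = 1 → k = 1 := by
      intro k hk h4
      have d1 : orderOf k ∣ Nat.card K := by
        rw [← Subgroup.orderOf_mk k hk]; exact orderOf_dvd_natCard _
      have d2 := orderOf_dvd_of_pow_eq_one h4
      refine orderOf_eq_one_iff.1 (Nat.eq_one_of_dvd_coprimes ?_ d1 d2)
      exact Nat.Coprime.pow_right 2 (Nat.coprime_two_right.2 hK)
    have hpow : ∀ {u : G} {P : Subgroup G}, Cfsg.Agent.S5595.Data u P → ∀ q ∈ P, q ^ 4 = 1 := by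
      intro u P hu q hq
      rw [show q ^ 4 = q * q * (q * q) by simp [pow_succ, mul_assoc]]
      rcases hu.square q hq with e | e <;> rw [e]
      exacts [one_mul 1, hu.sq]
    have hnorm : ∀ q ∈ Q, ∀ k ∈ K, q * k * q⁻¹ ∈ K := fun q hq k hk =>
      (Subgroup.mem_normalizer_iff.1 (hQK hq) k).1 hk
    have hfixz : ∀ k ∈ K, k * z = z * k → k = 1 := by
      intro k hk hkz
      have hall : ∀ q ∈ Q, k * q = q * k := by
        intro q hq
        have m1 : k * q * k⁻¹ * q⁻¹ ∈ Q := mul_mem (hd.conj k hkz q hq) (inv_mem hq)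
        have m2 : k * q * k⁻¹ * q⁻¹ ∈ K := by
          rw [show k * q * k⁻¹ * q⁻¹ = k * (q * k⁻¹ * q⁻¹) by group]
          exact mul_mem hk (hnorm q hq _ (inv_mem hk))
        exact mul_inv_eq_iff_eq_mul.1 (mul_inv_eq_one.1 (hfour _ m2 (hpow hd _ m1)))
      exact hfour k hk (hpow hd k (hd.selfc k hall))
    have hinv : ∀ t, t ∈ Q → t * t = 1 → (∀ k ∈ K, k * t = t * k → k = 1) → ∀ k ∈ K, t * k * t⁻¹ = k⁻¹ := by
      intro t ht htt hfix k hk
      have ti : t⁻¹ = t := inv_eq_of_mul_eq_one_right htt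
      let f : K → K := fun a => ⟨(a : G)⁻¹ * (t * a * t⁻¹), mul_mem (inv_mem a.2) (hnorm t ht a a.2)⟩
      have hf : Function.Injective f := by
        intro a b e
        have e' : (a : G)⁻¹ * (t * a * t⁻¹) = (b : G)⁻¹ * (t * b * t⁻¹) := congrArg Subtype.val e
        have := hfix ((b : G) * (a : G)⁻¹) (mul_mem b.2 (inv_mem a.2)) (by
          have := congrArg (fun w => (b : G) * w * t * (a : G)⁻¹) e'
          simpa [mul_assoc] using this)
        exact Subtype.ext (mul_inv_eq_one.1 this).symm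
      obtain ⟨a, ha⟩ := (Finite.injective_iff_surjective.1 hf) ⟨k, hk⟩
      have ha' : (a : G)⁻¹ * (t * a * t⁻¹) = k := congrArg Subtype.val ha
      rw [← ha', ti, show t * ((a : G)⁻¹ * (t * a * t)) * t = t * (a : G)⁻¹ * t * a * (t * t) by group, htt, mul_one,
        mul_inv_rev, inv_inv, mul_inv_rev, mul_inv_rev, ti]
      group
    have hfixx : ∀ k ∈ K, k * x = x * k → k = 1 := by
      intro k hk hkx
      refine hfixz k hk ?_
      have m1 : k * z * k⁻¹ * z⁻¹ ∈ S := mul_mem (h.dx.conj k hkx z h.zmem) (inv_mem h.zmem)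
      have m2 : k * z * k⁻¹ * z⁻¹ ∈ K := by
        rw [show k * z * k⁻¹ * z⁻¹ = k * (z * k⁻¹ * z⁻¹) by group]
        exact mul_mem hk (hnorm z hd.mem _ (inv_mem hk))
      exact mul_inv_eq_iff_eq_mul.1 (mul_inv_eq_one.1 (hfour _ m2 (hpow h.dx _ m1)))
    obtain ⟨q₁, h1, h1z⟩ := Cfsg.Lib.Large.Pair.exists_move h.swap
    have m : q₁ * z * q₁⁻¹ = z * x := Cfsg.Lib.Large.Pair.conjx_move h.swap h1 h1z
    have hy := Cfsg.Lib.Large.Pair.data_conj hd q₁
    rw [m] at hy
    rw [Subgroup.eq_bot_iff_forall]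
    intro k hk
    have ez := hinv z hd.mem hd.sq hfixz k hk
    have ex := hinv x hgQ h.dx.sq hfixx k hk
    have hky : k * (z * x) = z * x * k := by
      refine (mul_inv_eq_iff_eq_mul.1 ?_).symm
      rw [show z * x * k * (z * x)⁻¹ = z * (x * k * x⁻¹) * z⁻¹ by group, ex,
        show z * k⁻¹ * z⁻¹ = (z * k * z⁻¹)⁻¹ by group, ez, inv_inv]
    have hxS : x ∈ Cfsg.Lib.Large.Pair.conjS q₁ Q := by
      rw [Cfsg.Lib.Large.Pair.mem_conjS]
      have e : q₁ * x * q₁⁻¹ = x := Cfsg.Lib.Large.Pair.conjz h.swap h1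
      rw [show q₁⁻¹ * x * q₁ = x by nth_rw 1 [← e]; group]
      exact hgQ
    have m1 : k * x * k⁻¹ * x⁻¹ ∈ Cfsg.Lib.Large.Pair.conjS q₁ Q := mul_mem (hy.conj k hky x hxS) (inv_mem hxS)
    have ek : k * x * k⁻¹ * x⁻¹ = k * k := by
      rw [show k * x * k⁻¹ * x⁻¹ = k * (x * k * x⁻¹)⁻¹ by group, ex, inv_inv]
    rw [ek] at m1
    have e1 := hfour _ (mul_mem hk hk) (hpow hy _ m1)
    refine hfour k hk ?_
    rw [show k ^ 4 = k * k * (k * k) by simp [pow_succ, mul_assoc], e1, one_mul]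

end Cfsg.Agent.S5422
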