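import Cfsg.Statements.S5430
import Cfsg.Agent.Lib.Large.PairBase

set_option autoImplicit false
open Cfsg

namespace Cfsg.Agent.S5430

/-- Let Q be a large extraspecial 2-subgroup of the finite group G (extraspecial; centralizer equal to its centre; normal in the centralizer of its centre; normalizing no non-trivial subgroup of odd order) with centre generated by z, an involution, of width w ≥ 2 (order 2^(2w+1)); let g be an element outside the centralizer H of z with g z g⁻¹ in Q; write V for the subgroup generated by z and g z g⁻¹, X for the subgroup generated by Q and g Q g⁻¹, R for the subgroup generated by the centralizer of z in g Q g⁻¹ and the centralizer of g z g⁻¹ in Q, and E for the intersection of Q and g Q g⁻¹. Then R is the centralizer of V in X and is the largest normal 2-subgroup of X, and X/R is isomorphic to the symmetric group of degree 3; moreover the normalizer of V is the product of X and the centralizer of V in H, X is normal in it, and modulo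 R it is the direct product of X/R and of the centralizer of V in H modulo R. -/
theorem result {G : Type*} [Group G] [Finite G] (Q : Subgroup G) (hQ : Cfsg.IsLargeExtraspecial Q) (z : G) (hz : ((Subgroup.center ↥Q).map Q.subtype) = Subgroup.zpowers z) (hz2 : orderOf z = 2) (w : ℕ) (hw : 2 ≤ w) (hcard : Nat.card ↥Q = 2 ^ (2 * w + 1)) (g : G) (hgH : g ∉ Subgroup.centralizer ({z} : Set G)) (hgQ : g * z * g⁻¹ ∈ Q) (V X R E : Subgroup G) (hV : V = Subgroup.closure ({z, g * z * g⁻¹} : Set G)) (hX : X = Q ⊔ (Q).map (MulAut.conj g).toMonoidHom) (hR : R = ((Q).map (MulAut.conj g).toMonoidHom ⊓ Subgroup.centralizer ({z} : Set G)) ⊔ (Q ⊓ Subgroup.centralizer ({g * z * g⁻¹} : Set G))) (hE : E = Q ⊓ (Q).map (MulAut.conj g).toMonoidHom) : R = X ⊓ Subgroup.centralizer (V : Set G) ∧ R = (Cfsg.pCore 2 ↥X).map X.subtype ∧ (∃ h : (R.subgroupOf X).Normal, Nonempty (↥X ⧸ R.subgroupOf X ≃* Equiv.Perm (Fin 3))) ∧ Subgroup.normalizer (V : Set G) = X ⊔ (Subgroup.centralizer ({z} : Set G)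 ⊓ Subgroup.centralizer (V : Set G)) ∧ (∀ y ∈ Subgroup.normalizer (V : Set G), ∀ x ∈ X, y * x * y⁻¹ ∈ X) ∧ R ≤ Subgroup.centralizer ({z} : Set G) ⊓ Subgroup.centralizer (V : Set G) ∧ (∀ x ∈ X, ∀ c ∈ Subgroup.centralizer ({z} : Set G) ⊓ Subgroup.centralizer (V : Set G), x * c * x⁻¹ * c⁻¹ ∈ R) ∧ X ⊓ (Subgroup.centralizer ({z} : Set G) ⊓ Subgroup.centralizer (V : Set G)) = R := by
  obtain ⟨h1, h2, h3, -⟩ := hQ
  have hd := Cfsg.Lib.Large.Pair.data_of h1 h2 h3 hz2 hz
  have hne : g * z * g⁻¹ ≠ z := fun e => hgH (Subgroup.mem_centralizer_singleton_iff.2 (mul_inv_eq_iff_eq_mul.1 e))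
  have h := Cfsg.Lib.Large.Pair.setting_of hd (Cfsg.Lib.Large.Pair.eight_lt hw hcard) hne hgQ
  set x := g * z * g⁻¹
  change X = Q ⊔ Cfsg.Lib.Large.Pair.conjS g Q at hX
  change R = Cfsg.Lib.Large.Pair.rad z x Q (Cfsg.Lib.Large.Pair.conjS g Q) at hR
  subst hV hX hE
  subst hR
  set S := Cfsg.Lib.Large.Pair.conjS g Q
  set V := Subgroup.closure ({z, x} : Set G)
  have hC : Subgroup.centralizer ({z} : Set G) ⊓ Subgroup.centralizer (V : Set G) = Subgroup.centralizer (V : Set G) :=
    inf_eq_right.2 fun c hc => Subgroup.mem_centralizer_singleton_iff.2 (Cfsg.Lib.Large.Pair.mem_centralizer_V.1 hc).1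
  have hinf := Cfsg.Lib.Large.Pair.sup_inf_centralizer h
  have hn : ((Cfsg.Lib.Large.Pair.rad z x Q S).subgroupOf (Q ⊔ S)).Normal :=
    ⟨fun n hn y => Subgroup.mem_subgroupOf.2
      (Cfsg.Lib.Large.Pair.sup_normalizes h y.2 (Subgroup.mem_subgroupOf.1 hn))⟩
  rw [hC]
  refine ⟨hinf.symm, Cfsg.Lib.Large.Pair.pCore_eq h, ⟨hn, Cfsg.Lib.Large.Pair.quotient_iso h hn⟩,
    Cfsg.Lib.Large.Pair.normalizer_eq h, fun y hy w hw => Cfsg.Lib.Large.Pair.normalizer_normalizes h hy hw,
    fun r hr => ((hinf.symm ▸ hr : r ∈ (Q ⊔ S) ⊓ Subgroup.centralizer (V : Set G))).2, ?_, hinf⟩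
  intro y hy c hc
  rw [← hinf]
  refine Subgroup.mem_inf.2 ⟨?_, Subgroup.mul_mem _ ?_ (Subgroup.inv_mem _ hc)⟩
  · rw [show y * c * y⁻¹ * c⁻¹ = y * (c * y⁻¹ * c⁻¹) by group]
    exact mul_mem hy (Cfsg.Lib.Large.Pair.centralizer_normalizes h hc (inv_mem hy))
  · rw [Subgroup.mem_centralizer_iff] at hc ⊢
    intro v hv
    have hyN := Cfsg.Lib.Large.Pair.sup_le_normalizer h (inv_mem hy)
    have := hc _ ((Subgroup.mem_normalizer_iff.1 hyN v).1 hv)
    rw [inv_inv] at this
    have e := congrArg (fun t => y * t * y⁻¹) this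
    convert e using 1 <;> group

end Cfsg.Agent.S5430
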