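import Cfsg.Statements.S5431
import Cfsg.Agent.Lib.Large.PairBase

set_option autoImplicit false
open Cfsg
open scoped commutatorElement

namespace Cfsg.Agent.S5431

/-- Let Q be a large extraspecial 2-subgroup of the finite group G (extraspecial; centralizer equal to its centre; normal in the centralizer of its centre; normalizing no non-trivial subgroup of odd order) with centre generated by z, an involution, of width w ≥ 2 (order 2^(2w+1)); let g be an element outside the centralizer H of z with g z g⁻¹ in Q; write V for the subgroup generated by z and g z g⁻¹, X for the subgroup generated by Q and g Q g⁻¹, R for the subgroup generated by the centralizer of z in g Q g⁻¹ and the centralizer of g z g⁻¹ in Q, and E for the intersection of Q and g Q g⁻¹. Then V is the centre of R, E lies in the second centre of R, R is nilpotent of class at most 3, E and R/E are elementary abelian, R/E is the direct product of the images of the centralizer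 of g z g⁻¹ in Q and of the centralizer of z in g Q g⁻¹ (R is their product and they meet in E), and the commutator subgroup of X and E lies in V. -/
theorem result {G : Type*} [Group G] [Finite G] (Q : Subgroup G) (hQ : Cfsg.IsLargeExtraspecial Q) (z : G) (hz : ((Subgroup.center ↥Q).map Q.subtype) = Subgroup.zpowers z) (hz2 : orderOf z = 2) (w : ℕ) (hw : 2 ≤ w) (hcard : Nat.card ↥Q = 2 ^ (2 * w + 1)) (g : G) (hgH : g ∉ Subgroup.centralizer ({z} : Set G)) (hgQ : g * z * g⁻¹ ∈ Q) (V X R E : Subgroup G) (hV : V = Subgroup.closure ({z, g * z * g⁻¹} : Set G)) (hX : X = Q ⊔ (Q).map (MulAut.conj g).toMonoidHom) (hR : R = ((Q).map (MulAut.conj g).toMonoidHom ⊓ Subgroup.centralizer ({z} : Set G)) ⊔ (Q ⊓ Subgroup.centralizer ({g * z * g⁻¹} : Set G))) (hE : E = Q ⊓ (Q).map (MulAut.conj g).toMonoidHom) : (Subgroup.center ↥R).map R.subtype = V ∧ E ≤ (Subgroup.upperCentralSeries ↥R 2).map R.subtype ∧ Subgroup.upperCentralSeries ↥R 3 = ⊤ ∧ Cfsg.IsElementaryAbelian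 2 E ∧ (∀ x ∈ R, ∀ y ∈ R, x * y * x⁻¹ * y⁻¹ ∈ E ∧ x ^ 2 ∈ E) ∧ ((Q).map (MulAut.conj g).toMonoidHom ⊓ Subgroup.centralizer ({z} : Set G)) ⊓ (Q ⊓ Subgroup.centralizer ({g * z * g⁻¹} : Set G)) = E ∧ ⁅X, E⁆ ≤ V := by
  obtain ⟨h1, h2, h3, -⟩ := hQ
  have hd := Cfsg.Lib.Large.Pair.data_of h1 h2 h3 hz2 hz
  have hne : g * z * g⁻¹ ≠ z := fun e => hgH (Subgroup.mem_centralizer_singleton_iff.2 (mul_inv_eq_iff_eq_mul.1 e))
  have h := Cfsg.Lib.Large.Pair.setting_of hd (Cfsg.Lib.Large.Pair.eight_lt hw hcard) hne hgQ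
  set x := g * z * g⁻¹
  change X = Q ⊔ Cfsg.Lib.Large.Pair.conjS g Q at hX
  change R = Cfsg.Lib.Large.Pair.rad z x Q (Cfsg.Lib.Large.Pair.conjS g Q) at hR
  change E = Q ⊓ Cfsg.Lib.Large.Pair.conjS g Q at hE
  subst hV hX hE
  subst hR
  set S := Cfsg.Lib.Large.Pair.conjS g Q
  set R := Cfsg.Lib.Large.Pair.rad z x Q S
  set V := Subgroup.closure ({z, x} : Set G)
  have hEA : ∀ e, e ∈ Q → e ∈ S → e * x = x * e ∧ e * z = z * e := fun e he he' =>
    ⟨h.dx.comm e he', hd.comm e he⟩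
  have hVR : V ≤ R := by
    rw [Subgroup.closure_le]
    rintro v (rfl | rfl)
    exacts [Cfsg.Lib.Large.Pair.zR h, Cfsg.Lib.Large.Pair.xR h]
  have hER : ∀ e, e ∈ Q → e ∈ S → e ∈ R := fun e he he' => Cfsg.Lib.Large.Pair.A_le h he (hEA e he he').1
  have hVc : ∀ v ∈ V, ∀ r ∈ R, r * v = v * r := by
    intro v hv r hr
    obtain ⟨c1, c2⟩ := Cfsg.Lib.Large.Pair.rad_comm h hr
    rcases (Cfsg.Lib.Large.Pair.mem_V h).1 hv with rfl | rfl | rfl | rfl
    exacts [by simp, c1, c2, ((show Commute r z from c1).mul_right c2).eq]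
  have hXE : ∀ y ∈ Q ⊔ S, ∀ e ∈ Q ⊓ S, y * e * y⁻¹ * e⁻¹ ∈ V := by
    intro y hy
    have hn := Cfsg.Lib.Large.Pair.sup_le_normalizer h
    have hbase : ∀ q, q ∈ Q ∨ q ∈ S → ∀ e ∈ Q ⊓ S, q * e * q⁻¹ * e⁻¹ ∈ V := by
      rintro q (hq | hq) e ⟨he, he'⟩
      · rcases hd.brack q hq e he with e1 | e1 <;> rw [e1]
        exacts [one_mem _, Subgroup.subset_closure (by simp)]
      · rcases h.dx.brack q hq e he' with e1 | e1 <;> rw [e1]
        exacts [one_mem _, Subgroup.subset_closure (by simp)]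
    rw [Subgroup.sup_eq_closure] at hy
    induction hy using Subgroup.closure_induction_left with
    | one => intro e he; simp
    | mul_left a ha b _ ih =>
      intro e he
      rw [show a * b * e * (a * b)⁻¹ * e⁻¹ = (a * (b * e * b⁻¹ * e⁻¹) * a⁻¹) * (a * e * a⁻¹ * e⁻¹) by group]
      have haN : a ∈ Subgroup.normalizer (V : Set G) :=
        hn (ha.elim (fun t => Subgroup.mem_sup_left t) fun t => Subgroup.mem_sup_right t)
      exact mul_mem ((Subgroup.mem_normalizer_iff.1 haN _).1 (ih e he)) (hbase a ha e he)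
    | inv_mul_cancel a ha b _ ih =>
      intro e he
      rw [show a⁻¹ * b * e * (a⁻¹ * b)⁻¹ * e⁻¹ = (a⁻¹ * (b * e * b⁻¹ * e⁻¹) * a⁻¹⁻¹) * (a⁻¹ * e * a⁻¹⁻¹ * e⁻¹) by
        group]
      have ha' : a⁻¹ ∈ Q ∨ a⁻¹ ∈ S := ha.imp (fun t => Q.inv_mem t) fun t => S.inv_mem t
      have haN : a⁻¹ ∈ Subgroup.normalizer (V : Set G) :=
        hn (ha'.elim (fun t => Subgroup.mem_sup_left t) fun t => Subgroup.mem_sup_right t)
      exact mul_mem ((Subgroup.mem_normalizer_iff.1 haN _).1 (ih e he)) (hbase a⁻¹ ha' e he)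
  have hcen : ∀ r : R, (r : G) ∈ V → r ∈ Subgroup.center R := fun r hr =>
    Subgroup.mem_center_iff.2 fun s => Subtype.ext (hVc _ hr s s.2)
  have hZ2 : ∀ r : R, (r : G) ∈ Q → (r : G) ∈ S → r ∈ Subgroup.upperCentralSeries R 2 := by
    intro r hr hr'
    refine Subgroup.mem_upperCentralSeries_succ_iff.2 fun s => ?_
    rw [Subgroup.upperCentralSeries_one]
    refine hcen _ ?_
    rw [← inv_inv ⁅r, s⁆, commutatorElement_inv]
    have hs : (s : G) ∈ Q ⊔ S := by
      have := s.2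
      exact ((Cfsg.Lib.Large.Pair.sup_inf_centralizer h).ge this).1
    exact inv_mem (hXE s hs r ⟨hr, hr'⟩)
  refine ⟨le_antisymm ?_ ?_, ?_, ?_, ?_, ?_, ?_, ?_⟩
  · rintro y ⟨r, hr, rfl⟩
    exact Cfsg.Lib.Large.Pair.central_rad h r.2 fun s hs =>
      congrArg Subtype.val (Subgroup.mem_center_iff.1 hr ⟨s, hs⟩)
  · exact fun v hv => ⟨⟨v, hVR hv⟩, hcen _ hv, rfl⟩
  · exact fun e he => ⟨⟨e, hER e he.1 he.2⟩, hZ2 _ he.1 he.2, rfl⟩
  · rw [eq_top_iff]
    intro r _
    refine Subgroup.mem_upperCentralSeries_succ_iff.2 fun s => ?_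
    obtain ⟨a, b⟩ := Cfsg.Lib.Large.Pair.comm_mem h r.2 s.2
    exact hZ2 _ a b
  · refine ⟨⟨⟨fun a b => Subtype.ext (Cfsg.Lib.Large.Pair.E_abelian h a.2.1 a.2.2 b.2.1 b.2.2).1⟩⟩, fun a ha => ?_⟩
    rw [pow_two]
    exact (Cfsg.Lib.Large.Pair.E_abelian h ha.1 ha.2 ha.1 ha.2).2
  · intro a ha b hb
    refine ⟨Cfsg.Lib.Large.Pair.comm_mem h ha hb, ?_⟩
    rw [pow_two]
    exact Cfsg.Lib.Large.Pair.sq_mem h ha
  · refine le_antisymm (fun e he => ⟨he.2.1, he.1.1⟩) fun e he => ⟨⟨he.2, ?_⟩, he.1, ?_⟩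
    · exact Subgroup.mem_centralizer_singleton_iff.2 (hEA e he.1 he.2).2
    · exact Subgroup.mem_centralizer_singleton_iff.2 (hEA e he.1 he.2).1
  · exact Subgroup.commutator_le.2 hXE

end Cfsg.Agent.S5431
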