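import Cfsg.Statements.S5521
import Cfsg.Agent.Lib.Golay.OctKer

set_option autoImplicit false
open Cfsg

namespace Cfsg.Agent.S5521

/-- The Mathieu group M₂₄ in its natural action on the 24 coordinate positions of the binary Golay code has minimal base size exactly 7: every set of at most 6 positions is fixed pointwise by some non-identity element of M₂₄, while some set of 7 positions is fixed pointwise only by the identity. -/
theorem result :
    (∀ B : Finset Cfsg.GolayPt, B.card ≤ 6 → ∃ g ∈ Cfsg.M24, g ≠ 1 ∧ ∀ b ∈ B, g b = b) ∧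
    (∃ B : Finset Cfsg.GolayPt, B.card = 7 ∧ ∀ g ∈ Cfsg.M24, (∀ b ∈ B, g b = b) → g = 1) := by
  classical
  refine ⟨fun B hB => ?_, ?_⟩
  · obtain ⟨E, hBE, hE⟩ := Finset.exists_superset_card_eq (s := B) (n := 6) hB (by simp [Cfsg.GolayPt])
    have h16 := Cfsg.Lib.Golay.OctKer.card_fixer_six hE
    have h1 : 1 < Nat.card (Cfsg.Lib.Golay.fixer E) := by
      by_cases ho : ∃ o ∈ Cfsg.octads, E ⊆ o
      · obtain ⟨o, ho, hs⟩ := ho
        rw [h16.1 o ho hs]; norm_num
      · rw [h16.2 ho]; norm_num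
    haveI := Finite.one_lt_card_iff_nontrivial.1 h1
    obtain ⟨g, hg⟩ := exists_ne (1 : Cfsg.Lib.Golay.fixer E)
    exact ⟨g, g.2.1, fun e => hg (Subtype.ext e), fun b hb => g.2.2 b (hBE hb)⟩
  · refine ⟨(Finset.range 7).image Cfsg.Lib.Golay.baseP, by decide +kernel, fun g hg h => ?_⟩
    have hm : g ∈ Cfsg.Lib.Golay.fixer ((Finset.range 7).image Cfsg.Lib.Golay.baseP) := ⟨hg, h⟩
    rw [Cfsg.Lib.Golay.fixer_base, Cfsg.Lib.Golay.lev_seven] at hm
    exact hm

end Cfsg.Agent.S5521
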