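import Cfsg.Statements.S5561
import Cfsg.Agent.Lib.ZStar.RankOne
import Cfsg.Agent.Lib.ZStar.BrauerSuzuki
import Cfsg.Agent.Lib.Solv.Coprime
import Cfsg.Agent.Lib.Solv.Cores

set_option autoImplicit false
open Cfsg

namespace Cfsg.Agent.S5561

/-- The case p = 3 of the Z*-type result for involution classes. Let G be a finite group and d an involution of G such that the product of any two conjugates of d has order a power of 3. Then the product of any two conjugates of d lies in O₃(G); so the conjugacy class of d lies in the coset O₃(G)d. -/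
theorem result {G : Type*} [Group G] [Finite G] (d : G) (hd : orderOf d = 2)
    (hprod : ∀ a ∈ conjugatesOf d, ∀ b ∈ conjugatesOf d, ∃ k : ℕ, orderOf (a * b) = 3 ^ k) :
    ∀ a ∈ conjugatesOf d, ∀ b ∈ conjugatesOf d, a * b ∈ Cfsg.pCore 3 G := by
  classical
  have := Fact.mk Nat.prime_three
  have := Fact.mk Nat.prime_two
  have hdd : d * d = 1 := by rw [← pow_two, ← hd, pow_orderOf_eq_one]
  have hdi : d⁻¹ = d := inv_eq_of_mul_eq_one_right hdd
  have hcj : ∀ g : G, g * d * g⁻¹ ∈ conjugatesOf d := fun g => isConj_iff.2 ⟨g, rfl⟩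
  have h3 : ∀ g : G, ∃ k, orderOf (g * d * g⁻¹ * d) = 3 ^ k := fun g =>
    hprod _ (hcj g) _ (by simpa using hcj 1)
  have hkill : ∀ (q : ℕ), q.Prime → q ≠ 3 → ∀ (H : Subgroup G), IsPGroup q H → ∀ g, g * d * g⁻¹ * d ∈ H →
      g * d * g⁻¹ * d = 1 := by
    intro q hq hq3 H hH g hg
    obtain ⟨k, hk⟩ := h3 g
    obtain ⟨j, hj⟩ := hH ⟨_, hg⟩
    have hj' : (g * d * g⁻¹ * d) ^ q ^ j = 1 := congrArg Subtype.val hj
    have hdvd := orderOf_dvd_of_pow_eq_one hj'
    rw [hk] at hdvd
    have hco : Nat.Coprime (3 ^ k) (q ^ j) :=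
      Nat.Coprime.pow _ _ ((Nat.coprime_primes Nat.prime_three hq).2 hq3.symm)
    exact orderOf_eq_one_iff.1 (by rw [hk]; exact hco.eq_one_of_dvd hdvd)
  have hpd : IsPGroup 2 (Subgroup.zpowers d) :=
    IsPGroup.of_card (n := 1) (by rw [Nat.card_zpowers, hd, pow_one])
  obtain ⟨S, hS⟩ := hpd.exists_le_sylow
  have hdS : d ∈ S := hS (Subgroup.mem_zpowers d)
  have hz : ∀ g : G, d * g * d⁻¹ * g⁻¹ ∈ Cfsg.oddCore G := by
    refine Cfsg.Lib.ZStar.zstar_sylow S d hd hdS fun g hg => ?_
    have := hkill 2 Nat.prime_two (by decide) _ S.isPGroup' g (mul_mem hg hdS)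
    exact (eq_inv_of_mul_eq_one_left this).trans hdi
  set N := Cfsg.oddCore G with hN
  set A := Subgroup.zpowers d with hA
  have hNn : N.Normal := inferInstanceAs (Cfsg.oddCore G).Normal
  have hNodd : Odd (Nat.card N) :=
    (Cfsg.Lib.ZStar.odd_card_iff_coprime _).mpr (Cfsg.Lib.Solv.coprime_pPrimeCore 2)
  have hAN : A ≤ Subgroup.normalizer (N : Set G) := by rw [Subgroup.normalizer_eq_top]; exact le_top
  have hcop : (Nat.card A).Coprime (Nat.card N) := by
    rw [hA, Nat.card_zpowers, hd]; exact hNodd.coprime_two_left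
  have hsolv : Group.IsSolvable A ∨ Group.IsSolvable N := Or.inl inferInstance
  set C := N ⊓ Subgroup.centralizer (A : Set G) with hC
  have hmemC : ∀ x, x ∈ N → x * d * x⁻¹ * d = 1 → x ∈ C := by
    intro x hxN hx
    refine ⟨hxN, ?_⟩
    have hc : x * d = d * x := by
      have : x * d * x⁻¹ = d := by rw [eq_inv_of_mul_eq_one_left hx, hdi]
      calc x * d = (x * d * x⁻¹) * x := by group
        _ = d * x := by rw [this]
    refine Subgroup.mem_centralizer_iff.2 fun a ha => ?_
    obtain ⟨j, rfl⟩ := Subgroup.mem_zpowers_iff.1 ha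
    exact (((show Commute d x from hc.symm)).zpow_left j).eq
  have hCN : C ≤ N := inf_le_left
  have hq : ∀ q : ℕ, q.Prime → q ≠ 3 → q ^ (Nat.card N).factorization q ∣ Nat.card C := by
    intro q hq hq3
    have := Fact.mk hq
    obtain ⟨Q, hQ⟩ := Cfsg.Lib.Solv.exists_invariant_sylow A N hAN hcop hsolv q
    have hle : (Q : Subgroup N).map N.subtype ≤ C := by
      intro x hx
      refine hmemC x (Subgroup.map_subtype_le _ hx) (hkill q hq hq3 _ (Q.isPGroup'.map N.subtype) x ?_)
      have h1 := (Subgroup.mem_normalizer_iff.1 (hQ (Subgroup.mem_zpowers d)) x⁻¹).1 (inv_mem hx)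
      rw [hdi] at h1
      simpa [mul_assoc] using mul_mem hx h1
    have := Subgroup.card_dvd_of_le hle
    rwa [Cfsg.Lib.Solv.card_map_subtype', Q.card_eq_multiplicity] at this
  let R0 : Sylow 3 C := default
  have hR : (R0 : Subgroup C).map C.subtype ≤ C := Subgroup.map_subtype_le _
  obtain ⟨P, hRP, hPA⟩ := Cfsg.Lib.Solv.invariant_pgroup_le_sylow A N hAN hcop hsolv 3
    ((R0 : Subgroup C).map C.subtype) (hR.trans hCN) (R0.isPGroup'.map _) (by
      refine le_trans ?_ (Subgroup.centralizer_le_normalizer _)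
      intro a ha
      rw [Subgroup.mem_centralizer_iff]
      intro x hx
      exact ((Subgroup.mem_centralizer_iff.1 (hR hx).2) a ha).symm)
  set P' := (P : Subgroup N).map N.subtype with hP'
  have hP'N : P' ≤ N := Subgroup.map_subtype_le _
  have hidx : C.relIndex N = C.relIndex P' := by
    have h1 : Nat.card (C ⊓ P' : Subgroup G) = Nat.card R0 := by
      rw [← Cfsg.Lib.Solv.card_map_subtype' (R0 : Subgroup C)]
      refine le_antisymm ?_ (Subgroup.card_le_of_le (le_inf hR hRP))
      have hp : IsPGroup 3 (C ⊓ P' : Subgroup G) := (P.isPGroup'.map N.subtype).to_le inf_le_right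
      obtain ⟨R', hR'⟩ := (hp.comap_subtype (K := C)).exists_le_sylow
      calc Nat.card (C ⊓ P' : Subgroup G) = Nat.card ((C ⊓ P').subgroupOf C) :=
            (Cfsg.Lib.Solv.card_subgroupOf inf_le_left).symm
        _ ≤ Nat.card R' := Subgroup.card_le_of_le hR'
        _ = Nat.card R0 := by rw [R'.card_eq_multiplicity, R0.card_eq_multiplicity]
        _ = _ := (Cfsg.Lib.Solv.card_map_subtype' _).symm
    have h2 := Subgroup.relIndex_mul_relIndex (⊥ : Subgroup G) C N bot_le hCN
    simp only [Subgroup.relIndex_bot_left] at h2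
    have h3' := Subgroup.relIndex_mul_relIndex (⊥ : Subgroup G) (C ⊓ P') P' bot_le inf_le_right
    simp only [Subgroup.relIndex_bot_left, Subgroup.inf_relIndex_right] at h3'
    rw [h1, Cfsg.Lib.Solv.card_map_subtype', P.card_eq_multiplicity, R0.card_eq_multiplicity] at h3'
    -- compare prime by prime
    have hc0 : Nat.card C ≠ 0 := Nat.card_pos.ne'
    have hn0 : C.relIndex N ≠ 0 := fun h => by rw [h, mul_zero] at h2; exact Nat.card_pos.ne' h2.symm
    have hp0 : C.relIndex P' ≠ 0 := fun h => by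
      rw [h, mul_zero] at h3'; exact pow_ne_zero _ three_ne_zero h3'.symm
    have hN0 : Nat.card N ≠ 0 := Nat.card_pos.ne'
    refine Nat.eq_of_factorization_eq hn0 hp0 fun q => ?_
    by_cases hqp : q.Prime
    swap
    · rw [Nat.factorization_eq_zero_of_not_prime _ hqp, Nat.factorization_eq_zero_of_not_prime _ hqp]
    have e2 := congrArg (fun m => m.factorization q) h2
    have e3 := congrArg (fun m => m.factorization q) h3'
    simp only [Nat.factorization_mul hc0 hn0, Finsupp.add_apply] at e2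
    simp only [Nat.factorization_mul (pow_ne_zero _ three_ne_zero) hp0, Finsupp.add_apply,
      Nat.Prime.factorization_pow Nat.prime_three, Finsupp.single_apply] at e3
    by_cases hq3 : q = 3
    · subst hq3
      simp only [if_true] at e3
      omega
    · rw [if_neg (Ne.symm hq3), if_neg (Ne.symm hq3)] at e3
      have := (hqp.pow_dvd_iff_le_factorization hc0).1 (hq q hqp hq3)
      omega
  have hfac : ∀ n ∈ N, ∃ p ∈ P', ∃ c ∈ C, n = p * c := by
    intro n hn
    have hinj := (Subgroup.quotientSubgroupOfEmbeddingOfLE C hP'N).injective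
    have hbij := (Nat.bijective_iff_injective_and_card _).2 ⟨hinj, hidx.symm⟩
    obtain ⟨x, hx⟩ := hbij.2 (QuotientGroup.mk ⟨n, hn⟩)
    induction x using QuotientGroup.induction_on with
    | H p =>
      rw [Subgroup.quotientSubgroupOfEmbeddingOfLE_apply_mk, QuotientGroup.eq] at hx
      exact ⟨p, p.2, (p : G)⁻¹ * n, hx, by group⟩
  have hin : ∀ n ∈ N, n * d * n⁻¹ * d ∈ P' := by
    intro n hn
    obtain ⟨p, hp, c, hc, rfl⟩ := hfac n hn
    have hcd : c * d = d * c := ((Subgroup.mem_centralizer_iff.1 hc.2) d (Subgroup.mem_zpowers d)).symm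
    have e : p * c * d * (p * c)⁻¹ * d = p * d * p⁻¹ * d := by
      rw [mul_assoc p c d, hcd]; group
    rw [e]
    have h1 := (Subgroup.mem_normalizer_iff.1 (hPA (Subgroup.mem_zpowers d)) p⁻¹).1 (inv_mem hp)
    rw [hdi] at h1
    simpa [mul_assoc] using mul_mem hp h1
  set M := Subgroup.closure {x | ∃ n ∈ N, x = n * d * n⁻¹ * d} with hM
  have hMP : M ≤ P' := (Subgroup.closure_le _).2 (by rintro x ⟨n, hn, rfl⟩; exact hin n hn)
  have hMn : (M.subgroupOf N).Normal := by
    refine (Subgroup.normal_subgroupOf_iff (hMP.trans hP'N)).2 fun h k hh hk => ?_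
    induction hh using Subgroup.closure_induction with
    | mem x hx =>
      obtain ⟨n, hn, rfl⟩ := hx
      have e : k * (n * d * n⁻¹ * d) * k⁻¹ =
          (k * n * d * (k * n)⁻¹ * d) * (k * d * k⁻¹ * d)⁻¹ := by
        symm
        calc (k * n * d * (k * n)⁻¹ * d) * (k * d * k⁻¹ * d)⁻¹
            = k * n * d * n⁻¹ * k⁻¹ * (d * d⁻¹) * (k * d⁻¹ * k⁻¹) := by group
          _ = _ := by rw [hdi, hdd]; group
      rw [e]
      exact mul_mem (Subgroup.subset_closure ⟨_, N.mul_mem hk hn, rfl⟩)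
        (inv_mem (Subgroup.subset_closure ⟨_, hk, rfl⟩))
    | one => simp
    | mul x y _ _ hx hy =>
      have := mul_mem hx hy
      simpa [mul_assoc] using this
    | inv x _ hx =>
      have := inv_mem hx
      simpa [mul_assoc] using this
  have hM3 : M ≤ Cfsg.pCore 3 G := by
    have h1 := Cfsg.Lib.Solv.le_pCore (p := 3) hMn ((P.isPGroup'.map N.subtype).to_le hMP).comap_subtype
    have h2 := Subgroup.map_mono (f := N.subtype) h1
    rw [Subgroup.subgroupOf_map_subtype, inf_eq_left.2 (hMP.trans hP'N),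
      Cfsg.Lib.Solv.map_pCore_subgroup] at h2
    exact h2.trans inf_le_left
  have hmain : ∀ g : G, g * d * g⁻¹ * d ∈ Cfsg.pCore 3 G := by
    intro g
    set t := g * d * g⁻¹ * d with ht
    have htN : t ∈ N := by
      have := hz g
      rw [hdi] at this
      have h' := hNn.conj_mem _ (inv_mem this) 1
      simpa [ht, mul_assoc, hdi] using h'
    have hinv : d * t * d = t⁻¹ := by
      simp only [ht, mul_assoc, _root_.mul_inv_rev, inv_inv, hdi, hdd, mul_one]
    have hot : Odd (orderOf t) := hNodd.of_dvd_nat (Subgroup.orderOf_dvd_natCard _ htN)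
    obtain ⟨k, hk⟩ := hot
    set s := t ^ (k + 1) with hs
    have hss : s * s = t := by
      rw [hs, ← pow_add, show k + 1 + (k + 1) = orderOf t + 1 by omega, pow_succ, pow_orderOf_eq_one, one_mul]
    have hds : d * s⁻¹ * d = s := by
      have e : d * t⁻¹ * d⁻¹ = t := by
        rw [hdi, ← hinv]; simp only [mul_assoc, hdd, mul_one]; rw [← mul_assoc d d, hdd, one_mul]
      calc d * s⁻¹ * d = d * (t⁻¹) ^ (k + 1) * d⁻¹ := by rw [hs, inv_pow, hdi]
        _ = (d * t⁻¹ * d⁻¹) ^ (k + 1) := conj_pow.symm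
        _ = s := by rw [e]
    refine hM3 (Subgroup.subset_closure ⟨s, N.pow_mem htN _, ?_⟩)
    calc t = s * s := hss.symm
      _ = s * (d * s⁻¹ * d) := by rw [hds]
      _ = _ := by group
  intro a ha b hb
  obtain ⟨g, rfl⟩ := isConj_iff.1 ha
  obtain ⟨h, rfl⟩ := isConj_iff.1 hb
  have := mul_mem (hmain g) (inv_mem (hmain h))
  have e : g * d * g⁻¹ * d * (h * d * h⁻¹ * d)⁻¹ = g * d * g⁻¹ * (h * d * h⁻¹) := by
    calc g * d * g⁻¹ * d * (h * d * h⁻¹ * d)⁻¹ = g * d * g⁻¹ * (d * d⁻¹) * (h * d⁻¹ * h⁻¹) := by group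
      _ = _ := by rw [hdi, hdd, mul_one]
  rwa [e] at this

end Cfsg.Agent.S5561
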