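import Cfsg.Statements.S5562
import Mathlib
import Cfsg.Agent.Lib.ThreeT.Basic

set_option autoImplicit false
open Cfsg

namespace Cfsg.Agent.S5562

/-- Let G be a finite group, d an involution of G whose conjugates pairwise have products of odd order, and x any involution of G. Then the conjugacy class of d is the disjoint union, over the conjugates a of d commuting with x, of the sets of conjugates of d commuting with ax: every conjugate of d commutes with ax for exactly one conjugate a of d that commutes with x. -/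
theorem result {G : Type*} [Group G] [Finite G] (d : G) (hd : orderOf d = 2)
    (hodd : ∀ a ∈ conjugatesOf d, ∀ b ∈ conjugatesOf d, Odd (orderOf (a * b)))
    (x : G) (hx : orderOf x = 2) :
    ∀ e ∈ conjugatesOf d,
      ∃! a : G, a ∈ conjugatesOf d ∧ Commute a x ∧ Commute e (a * x) := by
  intro e he
  have hxx := Lib.ThreeT.mul_self hx
  have hxi := Lib.ThreeT.inv_self hx
  have hconj : ∀ g : G, ∀ a ∈ conjugatesOf d, g * a * g⁻¹ ∈ conjugatesOf d := fun g a ha =>
    IsConj.trans ha (isConj_iff.2 ⟨g, rfl⟩)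
  have hord : ∀ a ∈ conjugatesOf d, orderOf a = 2 := fun a ha => by
    obtain ⟨g, rfl⟩ := isConj_iff.1 ha
    rw [← MulAut.conj_apply, MulEquiv.orderOf_eq, hd]
  have heo := hord e he
  have hee := Lib.ThreeT.mul_self heo
  have hei := Lib.ThreeT.inv_self heo
  set f := x * e * x⁻¹ with hf
  have hfD : f ∈ conjugatesOf d := hconj x e he
  have hff := Lib.ThreeT.mul_self (hord f hfD)
  have hfi := Lib.ThreeT.inv_self (hord f hfD)
  obtain ⟨m, hm⟩ := hodd e he f hfD
  set r := e * f with hr
  have hrinv : ∀ k : ℕ, e * r ^ k * e = (r ^ k)⁻¹ := by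
    intro k
    have h := conj_pow (i := k) (a := e) (b := r)
    rw [hei] at h
    rw [← h, ← inv_pow, hr, mul_inv_rev, hei, hfi, ← mul_assoc, hee, one_mul]
  have hrm : (r ^ m)⁻¹ = r ^ (m + 1) := by
    apply inv_eq_of_mul_eq_one_right
    rw [← pow_add, show m + (m + 1) = orderOf r by omega, pow_orderOf_eq_one]
  -- the conjugate swapping `e` and `f`
  set a := r ^ m * e with ha
  have hre : e * r ^ m = (r ^ m)⁻¹ * e := by
    rw [← hrinv m]; simp only [mul_assoc, hee, mul_one]
  have haD : a ∈ conjugatesOf d := by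
    rcases Nat.even_or_odd m with ⟨k, hk⟩ | ⟨k, hk⟩
    · have : a = r ^ k * e * (r ^ k)⁻¹ := by
        rw [ha, ← hrinv k, hk, pow_add]; simp only [mul_assoc, Lib.ThreeT.cancel hee]
      rw [this]; exact hconj _ _ he
    · have : a = r ^ (k + 1) * f * (r ^ (k + 1))⁻¹ := by
        have hf' : f = r⁻¹ * e := by rw [hr, mul_inv_rev, hei, hfi, mul_assoc, hee, mul_one]
        rw [hf', ← mul_assoc, mul_assoc _ e, pow_succ r k, mul_inv_cancel_right, ← pow_succ,
          ← hrinv (k + 1), ha, hk, show 2 * k + 1 = k + (k + 1) by omega, pow_add r k (k + 1)]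
        simp only [mul_assoc, Lib.ThreeT.cancel hee]
      rw [this]; exact hconj _ _ hfD
  have hai := Lib.ThreeT.inv_self (hord a haD)
  have haa := Lib.ThreeT.mul_self (hord a haD)
  have haea : a * e * a = f := by
    calc a * e * a = r ^ m * (r ^ m * e) := by
          rw [ha]; simp only [mul_assoc, Lib.ThreeT.cancel hee]
      _ = r ^ (2 * m + 1) * (r⁻¹ * e) := by
          rw [two_mul, pow_succ, pow_add]; simp only [mul_assoc, mul_inv_cancel_left]
      _ = f := by
          rw [← hm, pow_orderOf_eq_one, one_mul, hr, mul_inv_rev, hei, hfi, mul_assoc, hee, mul_one]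
  have hxr : x * r * x⁻¹ = r⁻¹ := by
    rw [hr, mul_inv_rev, hei, hfi, hf, hxi]
    simp only [mul_assoc, hxx, mul_one, Lib.ThreeT.cancel hxx]
  have hax : Commute a x := by
    have hfe : f = r⁻¹ * e := by rw [hr, mul_inv_rev, hei, hfi, mul_assoc, hee, mul_one]
    have h1 : x * a * x⁻¹ = a := by
      calc x * a * x⁻¹ = (x * r ^ m * x⁻¹) * (x * e * x⁻¹) := by rw [ha]; group
        _ = r ^ (m + 1) * (r⁻¹ * e) := by rw [← conj_pow, hxr, inv_pow, hrm, ← hf, hfe]
        _ = a := by rw [ha, ← mul_assoc, pow_succ, mul_inv_cancel_right]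
    show a * x = x * a
    conv_lhs => rw [← h1]
    rw [inv_mul_cancel_right]
  -- square roots of odd order are unique
  have hsqrt : ∀ p q : G, Odd (orderOf p) → Odd (orderOf q) → p * p = q * q → p = q := by
    intro p q hp hq hpq
    obtain ⟨i, hi⟩ := exists_pow_eq_self_of_coprime (x := p) (n := 2) hp.coprime_two_right.symm
    obtain ⟨j, hj⟩ := exists_pow_eq_self_of_coprime (x := q) (n := 2) hq.coprime_two_right.symm
    rw [sq] at hi hj
    have hc : Commute p q := by
      rw [← hi, ← hj, hpq]; exact Commute.pow_pow_self _ i j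
    have h2 : (p * q⁻¹) ^ 2 = 1 := by
      rw [hc.inv_right.mul_pow, inv_pow, sq, sq, hpq, mul_inv_cancel]
    have hdvd : orderOf (p * q⁻¹) ∣ orderOf p * orderOf q := by
      have := hc.inv_right.orderOf_mul_dvd_mul_orderOf
      rwa [orderOf_inv] at this
    have h1 : orderOf (p * q⁻¹) ∣ 1 := by
      have hco : Nat.Coprime 2 (orderOf p * orderOf q) := ((hp.mul hq).coprime_two_right).symm
      rw [← hco.gcd_eq_one]
      exact Nat.dvd_gcd (orderOf_dvd_of_pow_eq_one h2) hdvd
    rw [Nat.dvd_one, orderOf_eq_one_iff, mul_inv_eq_one] at h1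
    exact h1
  refine ⟨a, ⟨haD, hax, ?_⟩, ?_⟩
  · show e * (a * x) = a * x * e
    have h1 : x * e = f * x := by rw [hf, inv_mul_cancel_right]
    rw [mul_assoc a x e, h1, ← mul_assoc a f, ← mul_assoc e a, ← haea]
    simp only [mul_assoc, Lib.ThreeT.cancel haa]
  · rintro b ⟨hbD, hbx, hbe⟩
    have hbb := Lib.ThreeT.mul_self (hord b hbD)
    have hbeb : b * e * b = f := by
      have h1 : e * (b * x) = b * x * e := hbe.eq
      calc b * e * b = b * (e * (b * x)) * x := by simp only [mul_assoc, hxx, mul_one]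
        _ = b * (b * x * e) * x := by rw [h1]
        _ = f := by rw [hf, hxi]; simp only [mul_assoc, Lib.ThreeT.cancel hbb]
    have h1 : e * b = e * a := hsqrt _ _ (hodd e he b hbD) (hodd e he a haD) (by
      rw [show e * b * (e * b) = e * (b * e * b) by simp only [mul_assoc], hbeb,
        show e * a * (e * a) = e * (a * e * a) by simp only [mul_assoc], haea])
    exact mul_left_cancel h1

end Cfsg.Agent.S5562
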