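import Cfsg.Statements.S5595
import Cfsg.Agent.Lib.Solv.PGroupBasic
import Cfsg.Agent.Lib.PLocal.Constraint
import Cfsg.Agent.Lib.Transfer.Basic

set_option autoImplicit false
open Cfsg

namespace Cfsg.Agent.S5595

/-- The properties of a large extraspecial subgroup that are used. -/
structure Data {G : Type*} [Group G] (x : G) (Q : Subgroup G) : Prop where
  mem : x ∈ Q
  sq : x * x = 1
  ne : x ≠ 1
  comm : ∀ q ∈ Q, q * x = x * q
  conj : ∀ c : G, c * x = x * c → ∀ q ∈ Q, c * q * c⁻¹ ∈ Q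
  brack : ∀ a ∈ Q, ∀ b ∈ Q, a * b * a⁻¹ * b⁻¹ = 1 ∨ a * b * a⁻¹ * b⁻¹ = x
  square : ∀ a ∈ Q, a * a = 1 ∨ a * a = x
  central : ∀ a ∈ Q, (∀ b ∈ Q, a * b = b * a) → a = 1 ∨ a = x
  selfc : ∀ c : G, (∀ q ∈ Q, c * q = q * c) → c ∈ Q

/-- An element of order prime to two centralizing an involution and normalizing the extraspecial group of
order eight centralizes it. -/
theorem odd_eq_one {G : Type*} [Group G] {z x : G} {Q : Subgroup G} (hd : Data z Q) (hx : x ∈ Q)
    (hx2 : x * x = 1) (hne : x ≠ z) (hx1 : x ≠ 1)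
    (hsmall : ∀ q₀ ∈ Q, q₀ * x ≠ x * q₀ → q₀ * q₀ = z →
      ∀ q ∈ Q, ∃ i j : ℕ, q = x ^ i * q₀ ^ j)
    {a : G} (ha : a * z = z * a) {m : ℕ} (hm : Odd m) (ham : a ^ m = 1) : a = 1 ∨ ∀ q ∈ Q, a * q = q * a := by
  right
  obtain ⟨q0, hq0, hq0x⟩ : ∃ q ∈ Q, q * x ≠ x * q := by
    by_contra h
    push Not at h
    rcases hd.central x hx fun b hb => (h b hb).symm with h' | h'
    · exact hx1 h'
    · exact hne h'
  -- normalise the square
  obtain ⟨q, hq, hqx, hqq⟩ : ∃ q ∈ Q, q * x ≠ x * q ∧ q * q = z := by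
    rcases hd.square q0 hq0 with h | h
    · refine ⟨q0 * x, Q.mul_mem hq0 hx, fun e => hq0x ?_, ?_⟩
      · have := congrArg (· * x) e
        simpa [mul_assoc, hx2] using this
      · rcases hd.brack q0 hq0 x hx with hb | hb
        · exact absurd (by
            rw [mul_inv_eq_one, mul_inv_eq_iff_eq_mul] at hb; exact hb) hq0x
        · have e : q0⁻¹ = q0 := inv_eq_of_mul_eq_one_right h
          rw [e, inv_eq_of_mul_eq_one_right hx2] at hb
          calc q0 * x * (q0 * x) = q0 * x * q0 * x := by group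
            _ = z := hb
    · exact ⟨q0, hq0, hq0x, h⟩
  have hspan := hsmall q hq hqx hqq
  have hconj : ∀ w ∈ Q, a * w * a⁻¹ ∈ Q := hd.conj a ha
  have hxq : x * q * x = q * z := by
    rcases hd.brack x hx q hq with hb | hb
    · exact absurd (by rw [mul_inv_eq_one, mul_inv_eq_iff_eq_mul] at hb; exact hb.symm) hqx
    · rw [mul_inv_eq_iff_eq_mul, mul_inv_eq_iff_eq_mul] at hb
      rw [hb, mul_assoc, hx2, mul_one, hd.comm q hq]
  -- the elements with square `z`
  have hroot : ∀ w ∈ Q, w * w = z → w = q ∨ w = q * z := by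
    intro w hw hwz
    obtain ⟨i, j, rfl⟩ := hspan w hw
    have hpow : ∀ k, q ^ k = 1 ∨ q ^ k = q ∨ q ^ k = z ∨ q ^ k = q * z := by
      intro k
      induction k with
      | zero => exact Or.inl (pow_zero q)
      | succ k ih =>
        rw [pow_succ']
        rcases ih with h | h | h | h <;> rw [h]
        · right; left; rw [mul_one]
        · right; right; left; exact hqq
        · right; right; right; rfl
        · left; rw [← mul_assoc, hqq, hd.sq]
    rcases Nat.even_or_odd i with ⟨k, rfl⟩ | ⟨k, rfl⟩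
    · rw [← two_mul, pow_mul, pow_two, hx2, one_pow, one_mul] at hwz ⊢
      rcases hpow j with h | h | h | h <;> rw [h] at hwz ⊢
      · rw [one_mul] at hwz; exact absurd hwz.symm hd.ne
      · exact Or.inl rfl
      · rw [hd.sq] at hwz; exact absurd hwz.symm hd.ne
      · exact Or.inr rfl
    · rw [pow_succ, pow_mul, pow_two, hx2, one_pow, one_mul] at hwz ⊢
      exfalso
      have hz1 : z * x = x * z := (hd.comm x hx).symm
      rcases hpow j with h | h | h | h <;> rw [h] at hwz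
      · rw [mul_one, hx2] at hwz; exact hd.ne hwz.symm
      · rw [← mul_assoc, hxq] at hwz
        rw [mul_assoc, ← hd.comm q hq, ← mul_assoc, hqq, hd.sq] at hwz
        exact hd.ne hwz.symm
      · rw [← mul_assoc, mul_assoc x z x, hz1, ← mul_assoc x x z, hx2, one_mul, hd.sq] at hwz
        exact hd.ne hwz.symm
      · rw [show x * (q * z) * (x * (q * z)) = x * q * (z * x) * q * z by group, hz1,
          show x * q * (x * z) * q * z = x * q * x * (z * q) * z by group, hxq, ← hd.comm q hq,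
          show q * z * (q * z) * z = q * (z * q) * (z * z) by group, hd.sq, mul_one, ← hd.comm q hq,
          ← mul_assoc, hqq, hd.sq] at hwz
        exact hd.ne hwz.symm
  have haz : a * z * a⁻¹ = z := by rw [ha, mul_inv_cancel_right]
  have hmove : ∀ n : ℕ, a ^ n * z * (a ^ n)⁻¹ = z := fun n => by
    rw [((show Commute a z from ha).pow_left n).eq, mul_inv_cancel_right]
  obtain ⟨k, rfl⟩ := hm
  have haq : a * q * a⁻¹ = q := by
    rcases hroot _ (hconj q hq) (by
      rw [show a * q * a⁻¹ * (a * q * a⁻¹) = a * (q * q) * a⁻¹ by group, hqq, haz]) with h | h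
    · exact h
    · exfalso
      have hit : ∀ n : ℕ, a ^ n * q * (a ^ n)⁻¹ = q * z ^ n := by
        intro n
        induction n with
        | zero => simp
        | succ n ih =>
          rw [show a ^ (n + 1) * q * (a ^ (n + 1))⁻¹ = a * (a ^ n * q * (a ^ n)⁻¹) * a⁻¹ by
              rw [pow_succ']; group, ih,
            show a * (q * z ^ n) * a⁻¹ = (a * q * a⁻¹) * (a * z ^ n * a⁻¹) by group, h,
            ((show Commute a z from ha).pow_right n).eq, mul_inv_cancel_right, mul_assoc, ← pow_succ']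
      have := hit (2 * k + 1)
      rw [ham, one_mul, inv_one, mul_one, pow_succ, pow_mul, pow_two, hd.sq, one_pow, one_mul] at this
      exact hd.ne (left_eq_mul.1 this)
  have hax : a * x * a⁻¹ = x := by
    obtain ⟨i, j, hij⟩ := hspan _ (hconj x hx)
    have hit : ∀ n : ℕ, ∃ e, a ^ n * x * (a ^ n)⁻¹ = x ^ (i ^ n) * q ^ e := by
      intro n
      induction n with
      | zero => exact ⟨0, by simp⟩
      | succ n ih =>
        obtain ⟨e, he⟩ := ih
        refine ⟨if i ^ (n + 1) % 2 = 1 then j * 1 + e else 0, ?_⟩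
        by_cases hi : i % 2 = 0
        · exfalso
          rw [← Nat.mod_add_div i 2, hi, zero_add, pow_mul, pow_two, hx2, one_pow, one_mul] at hij
          have hc : (a * x * a⁻¹) * (a * q * a⁻¹) = (a * q * a⁻¹) * (a * x * a⁻¹) := by
            rw [haq, hij, ← pow_succ, ← pow_succ']
          apply hqx
          have := congrArg (fun w => a⁻¹ * w * a) hc
          simpa [mul_assoc] using this.symm
        · have hi1 : x ^ i = x := by
            rw [← Nat.mod_add_div i 2, show i % 2 = 1 by omega, pow_add, pow_mul, pow_two, hx2, one_pow,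
              pow_one, mul_one]
          have hin : ∀ l, x ^ (i ^ l) = x := by
            intro l
            induction l with
            | zero => simp
            | succ l ihl => rw [pow_succ, pow_mul, ihl, hi1]
          rw [hin] at he ⊢
          rw [hi1] at hij
          rw [if_pos (by
            have := Nat.pow_mod i (n + 1) 2
            rw [show i % 2 = 1 by omega, one_pow] at this
            omega),
            show a ^ (n + 1) * x * (a ^ (n + 1))⁻¹ = a * (a ^ n * x * (a ^ n)⁻¹) * a⁻¹ by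
              rw [pow_succ']; group, he,
            show a * (x * q ^ e) * a⁻¹ = (a * x * a⁻¹) * (a * q * a⁻¹) ^ e by rw [conj_pow]; group, hij, haq,
            mul_one, mul_assoc, ← pow_add]
    by_cases hi : i % 2 = 0
    · exfalso
      rw [← Nat.mod_add_div i 2, hi, zero_add, pow_mul, pow_two, hx2, one_pow, one_mul] at hij
      have hc : (a * x * a⁻¹) * (a * q * a⁻¹) = (a * q * a⁻¹) * (a * x * a⁻¹) := by
        rw [haq, hij, ← pow_succ, ← pow_succ']
      apply hqx
      have := congrArg (fun w => a⁻¹ * w * a) hc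
      simpa [mul_assoc] using this.symm
    have hi1 : x ^ i = x := by
      rw [← Nat.mod_add_div i 2, show i % 2 = 1 by omega, pow_add, pow_mul, pow_two, hx2, one_pow,
        pow_one, mul_one]
    rw [hi1] at hij
    have hit2 : ∀ n : ℕ, a ^ n * x * (a ^ n)⁻¹ = x * (q ^ j) ^ n := by
      intro n
      induction n with
      | zero => simp
      | succ n ih =>
        rw [show a ^ (n + 1) * x * (a ^ (n + 1))⁻¹ = a * (a ^ n * x * (a ^ n)⁻¹) * a⁻¹ by
            rw [pow_succ']; group, ih,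
          show a * (x * (q ^ j) ^ n) * a⁻¹ = (a * x * a⁻¹) * ((a * q * a⁻¹) ^ j) ^ n by
            rw [conj_pow, conj_pow]; group, hij, haq, mul_assoc, ← pow_succ']
    have := hit2 (2 * k + 1)
    rw [ham, one_mul, inv_one, mul_one, left_eq_mul] at this
    have h4 : (q ^ j) ^ 4 = 1 := by
      rw [← pow_mul, mul_comm, pow_mul, show q ^ 4 = (q * q) * (q * q) by simp [pow_succ, mul_assoc], hqq, hd.sq, one_pow]
    have hco : Nat.Coprime (2 * k + 1) 4 := by
      rw [show 4 = 2 ^ 2 by rfl]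
      exact Nat.Coprime.pow_right 2 ((Nat.coprime_two_right).2 ⟨k, rfl⟩)
    have h1 : orderOf (q ^ j) = 1 := Nat.eq_one_of_dvd_coprimes hco (orderOf_dvd_of_pow_eq_one this)
      (orderOf_dvd_of_pow_eq_one h4)
    rw [orderOf_eq_one_iff.1 h1, mul_one] at hij
    exact hij
  intro w hw
  obtain ⟨i, j, rfl⟩ := hspan w hw
  have c1 : Commute a x := mul_inv_eq_iff_eq_mul.1 hax
  have c2 : Commute a q := mul_inv_eq_iff_eq_mul.1 haq
  exact ((c1.pow_right i).mul_right (c2.pow_right j)).eq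

theorem main {G : Type*} [Group G] [Finite G] {z x : G} {Qz Qx : Subgroup G}
    (hdz : Data z Qz) (hdx : Data x Qx)
    (hQconj : ∀ h : G, h * z * h⁻¹ = x → ∀ q ∈ Qz, h * q * h⁻¹ ∈ Qx)
    (h2 : (∀ a : G, a * z = z * a → ∃ k : ℕ, a ^ 2 ^ k = 1) →
      ∀ a : G, a * x = x * a → a ∈ Qx)
    (hp : IsPGroup 2 Qz) (hx : x ∈ Qz) : z ∈ Qx := by
  by_cases hxz : x = z
  · exact hxz ▸ hdx.mem
  by_contra hzQ
  have hzx : z * x = x * z := (hdz.comm x hx).symm
  obtain ⟨q₀, hq₀, hq₀x⟩ : ∃ q ∈ Qz, q * x ≠ x * q := by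
    by_contra h
    push Not at h
    rcases hdz.central x hx fun b hb => (h b hb).symm with h' | h'
    · exact hdx.ne h'
    · exact hxz h'
  have hq0conj : q₀ * x * q₀⁻¹ = x * z := by
    rcases hdz.brack q₀ hq₀ x hx with h | h
    · exact absurd (by rw [mul_inv_eq_one, mul_inv_eq_iff_eq_mul] at h; exact h) hq₀x
    · rw [mul_inv_eq_iff_eq_mul] at h
      rw [h, hzx]
  -- no element of `Qx` maps `z` to `z * x`
  have hnoc : ∀ c ∈ Qx, c * z * c⁻¹ ≠ z * x := by
    intro c hc e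
    refine hzQ ?_
    set h := q₀ * c * q₀ with hh
    have hqq : ∀ w, w * z = z * w → q₀ * w * q₀⁻¹ * z = z * (q₀ * w * q₀⁻¹) := fun w hw => by
      have e1 : q₀⁻¹ * z = z * q₀⁻¹ := hdz.comm _ (Qz.inv_mem hq₀)
      rw [mul_assoc, e1, ← mul_assoc, mul_assoc q₀ w z, hw, ← mul_assoc, hdz.comm q₀ hq₀, mul_assoc z q₀ w,
        mul_assoc z]
    have hz' : h * z * h⁻¹ = x := by
      rw [hh, show q₀ * c * q₀ * z * (q₀ * c * q₀)⁻¹ = q₀ * (c * (q₀ * z * q₀⁻¹) * c⁻¹) * q₀⁻¹ by group,
        hdz.comm q₀ hq₀, mul_inv_cancel_right, e,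
        show q₀ * (z * x) * q₀⁻¹ = (q₀ * z * q₀⁻¹) * (q₀ * x * q₀⁻¹) by group,
        hdz.comm q₀ hq₀, mul_inv_cancel_right, hq0conj, ← mul_assoc, hzx, mul_assoc, hdz.sq, mul_one]
    have hx' : h * x * h⁻¹ = z := by
      rw [hh, show q₀ * c * q₀ * x * (q₀ * c * q₀)⁻¹ = q₀ * (c * (q₀ * x * q₀⁻¹) * c⁻¹) * q₀⁻¹ by group,
        hq0conj, show c * (x * z) * c⁻¹ = (c * x * c⁻¹) * (c * z * c⁻¹) by group, e, hdx.comm c hc,
        mul_inv_cancel_right, show x * (z * x) = z by rw [hzx, ← mul_assoc, hdx.sq, one_mul],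
        hdz.comm q₀ hq₀, mul_inv_cancel_right]
    exact hx' ▸ hQconj h hz' x hx
  have hfix : ∀ c ∈ Qx, (z * c * z⁻¹ = c * x → False) := by
    intro c hc e
    refine hnoc c hc ?_
    rw [mul_inv_eq_iff_eq_mul] at e ⊢
    calc c * z = c * (z * (x * x)) := by rw [hdx.sq, mul_one]
      _ = (c * x * z) * x := by rw [← mul_assoc z x x, hzx]; group
      _ = z * c * x := by rw [← e]
      _ = z * x * c := by rw [mul_assoc, hdx.comm c hc, mul_assoc]
  have hzc : ∀ w ∈ Qx, z * w * z⁻¹ ∈ Qx := hdx.conj z hzx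
  have hinvz : z⁻¹ = z := inv_eq_of_mul_eq_one_right hdz.sq
  -- elements of `E`
  let InE : G → Prop := fun e => e ∈ Qz ∧ e * x = x * e
  have hEc : ∀ e, InE e → ∀ w ∈ Qx, e * w * e⁻¹ ∈ Qx := fun e he => hdx.conj e he.2
  have hcapE : ∀ w, InE w → (∀ e, InE e → w * e = e * w) → w = 1 ∨ w = x ∨ w = z ∨ w = x * z := by
    intro w hw hcent
    have key : ∀ v, InE v → (∀ e, InE e → v * e = e * v) → v * q₀ = q₀ * v → v = 1 ∨ v = z := by
      intro v hv hvc hvq
      refine hdz.central v hv.1 fun b hb => ?_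
      by_cases hbx : b * x = x * b
      · exact hvc b ⟨hb, hbx⟩
      · have hb' : InE (b * q₀) := by
          refine ⟨Qz.mul_mem hb hq₀, ?_⟩
          have eb : b * x * b⁻¹ = x * z := by
            rcases hdz.brack b hb x hx with h | h
            · exact absurd (by rw [mul_inv_eq_one, mul_inv_eq_iff_eq_mul] at h; exact h) hbx
            · rw [mul_inv_eq_iff_eq_mul] at h; rw [h, hzx]
          refine mul_inv_eq_iff_eq_mul.1 ?_
          rw [show b * q₀ * x * (b * q₀)⁻¹ = b * (q₀ * x * q₀⁻¹) * b⁻¹ by group, hq0conj,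
            show b * (x * z) * b⁻¹ = (b * x * b⁻¹) * (b * z * b⁻¹) by group, eb, hdz.comm b hb,
            mul_inv_cancel_right, mul_assoc, hdz.sq, mul_one]
        have h := hvc _ hb'
        have : v * b * q₀ = b * v * q₀ := by rw [mul_assoc v, h, mul_assoc b v, hvq, mul_assoc]
        exact mul_right_cancel this
    rcases hdz.brack q₀ hq₀ w hw.1 with h | h
    · rw [mul_inv_eq_one, mul_inv_eq_iff_eq_mul] at h
      rcases key w hw hcent h.symm with h' | h'
      · exact Or.inl h'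
      · exact Or.inr (Or.inr (Or.inl h'))
    · rw [mul_inv_eq_iff_eq_mul] at h
      have hwx : InE (w * x) := ⟨Qz.mul_mem hw.1 hx, by rw [mul_assoc, ← mul_assoc x w x, ← hw.2, mul_assoc]⟩
      rcases key (w * x) hwx (fun e he => by
          rw [mul_assoc, ← he.2, ← mul_assoc, hcent e he, mul_assoc]) (by
          refine (mul_inv_eq_iff_eq_mul.1 ?_).symm
          rw [show q₀ * (w * x) * q₀⁻¹ = (q₀ * w * q₀⁻¹) * (q₀ * x * q₀⁻¹) by group, hq0conj, h,
            show z * w * (x * z) = z * (w * x) * z by group, ← hdz.comm (w * x) hwx.1, mul_assoc, hdz.sq,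
            mul_one]) with h' | h'
      · exact Or.inr (Or.inl ((eq_inv_of_mul_eq_one_left h').trans (inv_eq_of_mul_eq_one_right hdx.sq)))
      · refine Or.inr (Or.inr (Or.inr ?_))
        calc w = w * x * x := by rw [mul_assoc, hdx.sq, mul_one]
          _ = x * z := by rw [h', hzx]
  by_cases hab : ∀ e f, InE e → InE f → e * f = f * e
  · -- width one
    have hE : ∀ e, InE e → e = 1 ∨ e = x ∨ e = z ∨ e = x * z := fun e he =>
      hcapE e he fun f hf => hab e f he hf
    have hsmall : ∀ q ∈ Qz, q * x ≠ x * q → ∀ w ∈ Qz, ∃ i j : ℕ, (w = x ^ i * q ^ j ∨ w = x ^ i * z * q ^ j) := by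
      intro q hq hqx w hw
      by_cases hwx : w * x = x * w
      · rcases hE w ⟨hw, hwx⟩ with h | h | h | h
        · exact ⟨0, 0, Or.inl (by simp [h])⟩
        · exact ⟨1, 0, Or.inl (by simp [h])⟩
        · exact ⟨0, 0, Or.inr (by simp [h])⟩
        · exact ⟨1, 0, Or.inr (by simp [h])⟩
      · have cx : ∀ b ∈ Qz, b * x ≠ x * b → b * x * b⁻¹ = x * z := fun b hb hbx => by
          rcases hdz.brack b hb x hx with h | h
          · exact absurd (by rw [mul_inv_eq_one, mul_inv_eq_iff_eq_mul] at h; exact h) hbx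
          · rw [mul_inv_eq_iff_eq_mul] at h; rw [h, hzx]
        have hwq : InE (w * q⁻¹) := by
          refine ⟨Qz.mul_mem hw (Qz.inv_mem hq), mul_inv_eq_iff_eq_mul.1 ?_⟩
          have e2 : q⁻¹ * x * q = x * z := by
            have := cx q⁻¹ (Qz.inv_mem hq) (fun e => hqx (by
              have := congrArg (fun t => q * t * q) e
              simpa [mul_assoc] using this.symm))
            rwa [inv_inv] at this
          rw [show w * q⁻¹ * x * (w * q⁻¹)⁻¹ = w * (q⁻¹ * x * q) * w⁻¹ by group, e2,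
            show w * (x * z) * w⁻¹ = (w * x * w⁻¹) * (w * z * w⁻¹) by group, cx w hw hwx, hdz.comm w hw,
            mul_inv_cancel_right, mul_assoc, hdz.sq, mul_one]
        rcases hE _ hwq with h | h | h | h <;> rw [mul_inv_eq_iff_eq_mul] at h
        · exact ⟨0, 1, Or.inl (by simp [h])⟩
        · exact ⟨1, 1, Or.inl (by simp [h])⟩
        · exact ⟨0, 1, Or.inr (by simp [h])⟩
        · exact ⟨1, 1, Or.inr (by simp [h])⟩
    have hgen : ∀ q ∈ Qz, q * x ≠ x * q → q * q = z → ∀ w ∈ Qz, ∃ i j : ℕ, w = x ^ i * q ^ j := by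
      intro q hq hqx hq2 w hw
      obtain ⟨i, j, h | h⟩ := hsmall q hq hqx w hw
      · exact ⟨i, j, h⟩
      · exact ⟨i, 2 + j, by rw [h, pow_add, pow_two, hq2, mul_assoc]⟩
    have h2grp : ∀ a : G, a * z = z * a → ∃ k : ℕ, a ^ 2 ^ k = 1 := by
      intro a ha
      obtain ⟨k, m, hm, hn⟩ := Nat.exists_eq_two_pow_mul_odd (orderOf_pos a).ne'
      set b := a ^ 2 ^ k
      have hbm : b ^ m = 1 := by rw [← pow_mul, ← hn, pow_orderOf_eq_one]
      have hbz : b * z = z * b := ((show Commute a z from ha).pow_left _).eq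
      have hbQ : b ∈ Qz := by
        rcases odd_eq_one hdz hx hdx.sq hxz hdx.ne hgen hbz hm hbm with h | h
        · rw [h]; exact Qz.one_mem
        · exact hdz.selfc b h
      obtain ⟨l, hl⟩ := hp ⟨b, hbQ⟩
      refine ⟨k, ?_⟩
      exact orderOf_eq_one_iff.1 (Nat.eq_one_of_dvd_coprimes
        (Nat.Coprime.pow_left l ((Nat.coprime_two_left).2 hm))
        (orderOf_dvd_of_pow_eq_one (show b ^ 2 ^ l = 1 from congrArg Subtype.val hl))
        (orderOf_dvd_of_pow_eq_one hbm))
    exact hzQ (h2 h2grp z hzx)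
  push Not at hab
  obtain ⟨e₁, e₂, he₁, he₂, hne⟩ := hab
  -- `E` meets `Qx` in `⟨x⟩`
  have hEF : ∀ e, InE e → ∀ f ∈ Qx, f * z = z * f → ∃ i : ℕ, e * f * e⁻¹ = f * x ^ i := by
    intro e he f hf hfz
    set w := f⁻¹ * (e * f * e⁻¹) with hw
    have hfi : f⁻¹ * x = x * f⁻¹ := hdx.comm _ (Qx.inv_mem hf)
    have hwQz : InE w := by
      have h1 : f⁻¹ * e * f ∈ Qz := by
        have := hdz.conj f⁻¹ (by
          have := congrArg (fun t => f⁻¹ * t * f⁻¹) hfz
          simpa [mul_assoc] using this.symm) e he.1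
        rwa [inv_inv] at this
      refine ⟨by rw [hw, show f⁻¹ * (e * f * e⁻¹) = f⁻¹ * e * f * e⁻¹ by group]
                 exact Qz.mul_mem h1 (Qz.inv_mem he.1), ?_⟩
      exact hdx.comm w (Qx.mul_mem (Qx.inv_mem hf) (hEc e he f hf))
    have hwQx : w ∈ Qx := Qx.mul_mem (Qx.inv_mem hf) (hEc e he f hf)
    have hcent : ∀ e', InE e' → w * e' = e' * w := by
      intro e' he'
      rcases hdz.brack e' he'.1 w hwQz.1 with h | h
      · rw [mul_inv_eq_one, mul_inv_eq_iff_eq_mul] at h; exact h.symm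
      · exact absurd (h ▸ Qx.mul_mem (hEc e' he' w hwQx) (Qx.inv_mem hwQx)) hzQ
    have heq : e * f * e⁻¹ = f * w := (mul_inv_cancel_left f _).symm
    rcases hcapE w hwQz hcent with h | h | h | h
    · exact ⟨0, by rw [heq, h, pow_zero]⟩
    · exact ⟨1, by rw [heq, h, pow_one]⟩
    · exact absurd (h ▸ hwQx) hzQ
    · refine absurd ?_ hzQ
      have h' : x * (x * z) ∈ Qx := Qx.mul_mem hdx.mem (h ▸ hwQx)
      rwa [← mul_assoc, hdx.sq, one_mul] at h'
  have hxpow : ∀ i : ℕ, ∀ w ∈ Qx, w * x ^ i = x ^ i * w := fun i w hw =>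
    ((show Commute w x from hdx.comm w hw).pow_right i).eq
  have hzfix : ∀ w ∈ Qx, ∀ i : ℕ, z * w * z⁻¹ = w * x ^ i → w * z = z * w := by
    intro w hw i h
    rcases Nat.even_or_odd i with ⟨k, rfl⟩ | ⟨k, rfl⟩
    · rw [← two_mul, pow_mul, pow_two, hdx.sq, one_pow, mul_one, mul_inv_eq_iff_eq_mul] at h
      exact h.symm
    · rw [pow_succ, pow_mul, pow_two, hdx.sq, one_pow, one_mul] at h
      exact (hfix w hw h).elim
  have hstep : ∀ e, InE e → ∀ q ∈ Qx, ∃ f ∈ Qx, f * z = z * f ∧ e * q * e⁻¹ = q * f := by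
    intro e he q hq
    set f := q⁻¹ * (e * q * e⁻¹)
    have hfQ : f ∈ Qx := Qx.mul_mem (Qx.inv_mem hq) (hEc e he q hq)
    refine ⟨f, hfQ, ?_, (mul_inv_cancel_left q _).symm⟩
    set k := q⁻¹ * (z * q * z⁻¹)
    have hkQ : k ∈ Qx := Qx.mul_mem (Qx.inv_mem hq) (hzc q hq)
    have hkz : k * z = z * k := by
      have hk1 : z * k * z⁻¹ = k⁻¹ := by
        simp only [k, mul_inv_rev, inv_inv, hinvz]
        rw [show z * (q⁻¹ * (z * q * z)) * z = z * q⁻¹ * z * q * (z * z) by group, hdz.sq, mul_one]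
        group
      rcases hdx.square k hkQ with h | h
      · exact hzfix k hkQ 0 (by rw [hk1, pow_zero, mul_one, inv_eq_of_mul_eq_one_right h])
      · refine hzfix k hkQ 1 ?_
        rw [hk1, pow_one]
        refine inv_eq_of_mul_eq_one_right ?_
        rw [← mul_assoc, h, hdx.sq]
    obtain ⟨i, hi⟩ := hEF e he k hkQ hkz
    have hzf : z * f * z⁻¹ = k⁻¹ * f * k * x ^ i := by
      have e0 : e * z = z * e := hdz.comm e he.1
      calc z * f * z⁻¹ = (z * q * z⁻¹)⁻¹ * (z * e * q * e⁻¹ * z⁻¹) := by simp only [f]; group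
        _ = (z * q * z⁻¹)⁻¹ * (e * (z * q * z⁻¹) * e⁻¹) := by
          have e1 : e⁻¹ * z⁻¹ = z⁻¹ * e⁻¹ := by rw [← mul_inv_rev, ← mul_inv_rev, e0]
          rw [← e0]
          simp only [mul_assoc, e1]
        _ = (q * k)⁻¹ * (e * (q * k) * e⁻¹) := by rw [show q * k = z * q * z⁻¹ from mul_inv_cancel_left q _]
        _ = k⁻¹ * f * (e * k * e⁻¹) := by simp only [f]; group
        _ = _ := by rw [hi]; group
    rcases hdx.brack k⁻¹ (Qx.inv_mem hkQ) f hfQ with h | h
    · rw [inv_inv] at h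
      refine hzfix f hfQ i ?_
      rw [hzf, mul_inv_eq_one.1 h]
    · rw [inv_inv] at h
      refine hzfix f hfQ (1 + i) ?_
      rw [hzf, mul_inv_eq_iff_eq_mul.1 h, pow_add, pow_one, ← hdx.comm f hfQ, mul_assoc]
  -- commutators of `E` act trivially
  have htriv : ∀ q ∈ Qx, z * q = q * z := by
    intro q hq
    set c := e₁ * e₂ * e₁⁻¹ * e₂⁻¹ with hcdef
    have hc : c = z := (hdz.brack e₁ he₁.1 e₂ he₂.1).resolve_left fun h => hne (by
      rw [mul_inv_eq_one, mul_inv_eq_iff_eq_mul] at h; exact h)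
    set q' := e₁⁻¹ * (e₂⁻¹ * q * e₂) * e₁ with hq'
    have hq'Q : q' ∈ Qx := by
      have a1 : e₂⁻¹ * q * e₂ ∈ Qx := by
        have := hdx.conj e₂⁻¹ (by
          have := congrArg (fun t => e₂⁻¹ * t * e₂⁻¹) he₂.2
          simpa [mul_assoc] using this.symm) q hq
        rwa [inv_inv] at this
      have := hdx.conj e₁⁻¹ (by
        have := congrArg (fun t => e₁⁻¹ * t * e₁⁻¹) he₁.2
        simpa [mul_assoc] using this.symm) _ a1
      rwa [inv_inv] at this
    obtain ⟨f1, hf1, hf1z, h1⟩ := hstep e₁ he₁ q' hq'Q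
    obtain ⟨f2, hf2, hf2z, h2'⟩ := hstep e₂ he₂ q' hq'Q
    obtain ⟨i, hi⟩ := hEF e₁ he₁ f2 hf2 hf2z
    obtain ⟨j, hj⟩ := hEF e₂ he₂ f1 hf1 hf1z
    have A : e₁ * (e₂ * q' * e₂⁻¹) * e₁⁻¹ = q' * f1 * f2 * x ^ i := by
      rw [h2', show e₁ * (q' * f2) * e₁⁻¹ = (e₁ * q' * e₁⁻¹) * (e₁ * f2 * e₁⁻¹) by group, h1, hi]; group
    have B : e₂ * (e₁ * q' * e₁⁻¹) * e₂⁻¹ = q' * f2 * f1 * x ^ j := by
      rw [h1, show e₂ * (q' * f1) * e₂⁻¹ = (e₂ * q' * e₂⁻¹) * (e₂ * f1 * e₂⁻¹) by group, h2', hj]; group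
    have hqB : q = q' * f2 * f1 * x ^ j := by rw [← B, hq']; group
    have hzq : z * q * z⁻¹ = q' * f1 * f2 * x ^ i := by rw [← hc, ← A, hq', hcdef]; group
    obtain ⟨l, hl⟩ : ∃ l : ℕ, f1 * f2 = f2 * f1 * x ^ l := by
      rcases hdx.brack f1 hf1 f2 hf2 with h | h
      · exact ⟨0, by rw [mul_inv_eq_one, mul_inv_eq_iff_eq_mul] at h; rw [pow_zero, mul_one, h]⟩
      · refine ⟨1, ?_⟩
        rw [mul_inv_eq_iff_eq_mul, mul_inv_eq_iff_eq_mul] at h
        rw [h, pow_one, hdx.comm _ (Qx.mul_mem hf2 hf1), mul_assoc x f2 f1]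
    refine (hzfix q hq (j + l + i) ?_).symm
    rw [hzq, hqB, show q' * f1 * f2 = q' * (f1 * f2) by group, hl, pow_add, pow_add]
    have hjj : x ^ j * x ^ j = 1 := by rw [← (Commute.refl x).mul_pow, hdx.sq, one_pow]
    calc q' * (f2 * f1 * x ^ l) * x ^ i = q' * f2 * f1 * (x ^ j * x ^ j) * (x ^ l * x ^ i) := by
          rw [hjj]; group
      _ = _ := by group
  exact hzQ (hdx.selfc z htriv)

/-- Setting: `z` is an involution of the finite group `G`; for each element `x`, `Q x` denotes the largest normal 2-subgroup of the centralizer of `x`; `Q z` is extraspecial and contains its own centralizer in `G` (a large extraspecial 2-subgroup in this sense). Call the conjugates of `z` singular, and say that singular `x` is orthogonal to singular `y` when `x ∈ Q y`. Then orthogonality is symmetric: if a conjugate `x` of `z` lies in `Q z`, then `z` lies in `Q x`. -/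
theorem result {G : Type*} [Group G] [Finite G]
    (Q : G → Subgroup G)
    (hQ : ∀ x : G, Q x = (Cfsg.pCore 2 ↥(Subgroup.centralizer ({x} : Set G))).map (Subgroup.centralizer ({x} : Set G)).subtype)
    (z : G) (hz : orderOf z = 2) (hE : Cfsg.IsExtraspecial 2 ↥(Q z))
    (hC : Subgroup.centralizer ((Q z : Subgroup G) : Set G) ≤ Q z)
    (g : G) (hx : g * z * g⁻¹ ∈ Q z) : z ∈ Q (g * z * g⁻¹) := by
  haveI : Fact (Nat.Prime 2) := ⟨Nat.prime_two⟩
  have hmemQ : ∀ (y c : G), c ∈ Q y → c * y = y * c := by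
    intro y c hc
    rw [hQ] at hc
    obtain ⟨c', -, rfl⟩ := hc
    exact Subgroup.mem_centralizer_singleton_iff.1 c'.2
  -- transport
  have htrans : ∀ (h y q : G), q ∈ Q y → h * q * h⁻¹ ∈ Q (h * y * h⁻¹) := by
    intro h y q hq
    rw [hQ] at hq ⊢
    obtain ⟨q', hq', rfl⟩ := hq
    let e : Subgroup.centralizer ({y} : Set G) ≃* Subgroup.centralizer ({h * y * h⁻¹} : Set G) :=
      ((MulAut.conj h).subgroupMap _).trans (MulEquiv.subgroupCongr (by
        ext w
        rw [Subgroup.mem_centralizer_singleton_iff, Subgroup.mem_map]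
        constructor
        · rintro ⟨c, hc, rfl⟩
          rw [Subgroup.mem_centralizer_singleton_iff] at hc
          show h * c * h⁻¹ * (h * y * h⁻¹) = h * y * h⁻¹ * (h * c * h⁻¹)
          rw [show h * c * h⁻¹ * (h * y * h⁻¹) = h * (c * y) * h⁻¹ by group, hc]; group
        · intro e
          refine ⟨h⁻¹ * w * h, Subgroup.mem_centralizer_singleton_iff.2 ?_, ?_⟩
          · rw [show h⁻¹ * w * h * y = h⁻¹ * (w * (h * y * h⁻¹)) * h by group, e]; group
          · show h * (h⁻¹ * w * h) * h⁻¹ = w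
            group))
    exact ⟨e q', (Cfsg.Lib.PLocal.map_pCore_equiv (p := 2) e).le ⟨q', hq', rfl⟩, rfl⟩
  have hconjQ : ∀ y c q : G, c * y = y * c → q ∈ Q y → c * q * c⁻¹ ∈ Q y := by
    intro y c q hc hq
    have := htrans c y q hq
    rwa [hc, mul_inv_cancel_right] at this
  have hiff : ∀ (h y q : G), q ∈ Q (h * y * h⁻¹) ↔ h⁻¹ * q * h ∈ Q y := by
    intro h y q
    refine ⟨fun hq => ?_, fun hq => ?_⟩
    · have := htrans h⁻¹ _ q hq
      rw [inv_inv, show h⁻¹ * (h * y * h⁻¹) * h = y by group] at this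
      exact this
    · have := htrans h y _ hq
      rwa [show h * (h⁻¹ * q * h) * h⁻¹ = q by group] at this
  -- the base data
  obtain ⟨⟨hp, hfr, hcm⟩, hcard⟩ := hE
  have hzQ : z ∈ Q z := hC (Subgroup.mem_centralizer_iff.2 fun q hq => hmemQ z q hq)
  have hzz : z * z = 1 := by rw [← pow_two, ← hz, pow_orderOf_eq_one]
  have hz1 : z ≠ 1 := fun e => by rw [e, orderOf_one] at hz; omega
  have hcen : ∀ a : Q z, a ∈ Subgroup.center (Q z) → (a : G) = 1 ∨ (a : G) = z := by
    intro a ha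
    by_contra hcon
    push Not at hcon
    have hzc : (⟨z, hzQ⟩ : Q z) ∈ Subgroup.center (Q z) :=
      Subgroup.mem_center_iff.2 fun q => Subtype.ext (hmemQ z q q.2)
    have n1 : (1 : Subgroup.center (Q z)) ≠ ⟨_, hzc⟩ := fun e =>
      hz1 (congrArg (fun w : Subgroup.center (Q z) => ((w : Q z) : G)) e).symm
    have n2 : (⟨a, ha⟩ : Subgroup.center (Q z)) ≠ 1 := fun e =>
      hcon.1 (congrArg (fun w : Subgroup.center (Q z) => ((w : Q z) : G)) e)
    have n3 : (⟨a, ha⟩ : Subgroup.center (Q z)) ≠ ⟨_, hzc⟩ := fun e =>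
      hcon.2 (congrArg (fun w : Subgroup.center (Q z) => ((w : Q z) : G)) e)
    obtain ⟨u, -, hu⟩ := (Nat.card_eq_two_iff' (1 : Subgroup.center (Q z))).1 hcard
    exact n3 ((hu _ n2).trans (hu _ n1.symm).symm)
  have hdz : Data z (Q z) := by
    refine ⟨hzQ, hzz, hz1, fun q hq => hmemQ z q hq, fun c hc q hq => hconjQ z c q hc hq, ?_, ?_, ?_, ?_⟩
    · intro a ha b hb
      have := hcen ⟨a * b * a⁻¹ * b⁻¹, mul_mem (mul_mem (mul_mem ha hb) (inv_mem ha)) (inv_mem hb)⟩ (by
        rw [← hcm]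
        have h := Subgroup.commutator_mem_commutator (Subgroup.mem_top (⟨a, ha⟩ : Q z))
          (Subgroup.mem_top (⟨b, hb⟩ : Q z))
        exact h)
      exact this
    · intro a ha
      exact hcen ⟨a * a, mul_mem ha ha⟩ (by
        rw [← hfr]
        have h := Cfsg.Lib.Solv.pow_mem_frattini hp (⟨a, ha⟩ : Q z)
        rwa [pow_two] at h)
    · intro a ha h
      exact hcen ⟨a, ha⟩ (Subgroup.mem_center_iff.2 fun b => Subtype.ext (h b b.2).symm)
    · intro c hc
      exact hC (Subgroup.mem_centralizer_iff.2 fun q hq => (hc q hq).symm)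
  have hdx : Data (g * z * g⁻¹) (Q (g * z * g⁻¹)) := by
    have tr : ∀ a b : G, g * a * g⁻¹ = g * b * g⁻¹ → a = b := fun a b e =>
      mul_left_cancel (mul_right_cancel e)
    refine ⟨htrans g z z hzQ, by rw [show g * z * g⁻¹ * (g * z * g⁻¹) = g * (z * z) * g⁻¹ by group, hzz]; group,
      fun e => hz1 (conj_eq_one_iff.1 e), fun q hq => hmemQ _ q hq, fun c hc q hq => hconjQ _ c q hc hq,
      ?_, ?_, ?_, ?_⟩
    · intro a ha b hb
      have e : a * b * a⁻¹ * b⁻¹ = g * ((g⁻¹ * a * g) * (g⁻¹ * b * g) * (g⁻¹ * a * g)⁻¹ * (g⁻¹ * b * g)⁻¹) * g⁻¹ := by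
        group
      rw [e]
      rcases hdz.brack _ ((hiff g z a).1 ha) _ ((hiff g z b).1 hb) with h | h <;> rw [h]
      · left; group
      · exact Or.inr rfl
    · intro a ha
      have e : a * a = g * ((g⁻¹ * a * g) * (g⁻¹ * a * g)) * g⁻¹ := by group
      rw [e]
      rcases hdz.square _ ((hiff g z a).1 ha) with h | h <;> rw [h]
      · left; group
      · exact Or.inr rfl
    · intro a ha h
      rcases hdz.central _ ((hiff g z a).1 ha) (fun b hb => tr _ _ (by
          have := h _ (htrans g z b hb)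
          calc g * (g⁻¹ * a * g * b) * g⁻¹ = a * (g * b * g⁻¹) := by group
            _ = g * b * g⁻¹ * a := this
            _ = _ := by group)) with h' | h'
      · exact Or.inl (by rw [show a = g * (g⁻¹ * a * g) * g⁻¹ by group, h']; group)
      · exact Or.inr (by rw [show a = g * (g⁻¹ * a * g) * g⁻¹ by group, h'])
    · intro c hc
      refine (hiff g z c).2 (hdz.selfc _ fun q hq => tr _ _ ?_)
      calc g * (g⁻¹ * c * g * q) * g⁻¹ = c * (g * q * g⁻¹) := by group
        _ = g * q * g⁻¹ * c := hc _ (htrans g z q hq)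
        _ = _ := by group
  refine main hdz hdx (fun h e q hq => e ▸ htrans h z q hq) ?_ hp hx
  intro h2 a ha
  have hC2 : IsPGroup 2 (Subgroup.centralizer ({z} : Set G)) := fun c => by
    obtain ⟨k, hk⟩ := h2 c (Subgroup.mem_centralizer_singleton_iff.1 c.2)
    exact ⟨k, Subtype.ext hk⟩
  refine (hiff g z a).2 ?_
  rw [hQ]
  refine ⟨⟨g⁻¹ * a * g, Subgroup.mem_centralizer_singleton_iff.2 ?_⟩, ?_, rfl⟩
  · have := congrArg (fun t => g⁻¹ * t * g) ha
    simpa [mul_assoc] using this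
  · have ht : (⊤ : Subgroup (Subgroup.centralizer ({z} : Set G))) ∈
        {N : Subgroup (Subgroup.centralizer ({z} : Set G)) | N.Normal ∧ IsPGroup 2 N} :=
      ⟨inferInstance, hC2.to_subgroup ⊤⟩
    exact (le_sSup ht : ⊤ ≤ Cfsg.pCore 2 (Subgroup.centralizer ({z} : Set G))) (Subgroup.mem_top _)

end Cfsg.Agent.S5595
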