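import Cfsg.Statements.S5596
import Cfsg.Agent.Lib.Large.Singular

set_option autoImplicit false
open Cfsg

namespace Cfsg.Agent.S5596

/-- Setting: `z` is an involution of the finite group `G`; for each element `x`, `Q x` is the largest normal 2-subgroup of the centralizer of `x`; `Q z` is extraspecial and contains its own centralizer in `G`. A subgroup `U` is singular when it is elementary abelian, every non-identity element of `U` is conjugate to `z`, and any two non-identity elements `u`, `v` of `U` are orthogonal (`v ∈ Q u`). Write `QU` for the intersection of the `Q u` and `LU` for the join of the `Q u` over the non-identity `u` in `U`. If `U` is singular of order `2 ^ n` with `n ≥ 2`, then `U ≤ QU ≤ LU`, `LU` normalizes `U`, and `LU` induces on `U` its full automorphism group (the general linear group of dimension `n` over the field with two elements): every automorphism of `U` is conjugation by some element of `LU`. -/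
theorem result {G : Type*} [Group G] [Finite G]
    (Q : G → Subgroup G)
    (hQ : ∀ x : G, Q x = (Cfsg.pCore 2 ↥(Subgroup.centralizer ({x} : Set G))).map (Subgroup.centralizer ({x} : Set G)).subtype)
    (z : G) (hz : orderOf z = 2) (hE : Cfsg.IsExtraspecial 2 ↥(Q z))
    (hC : Subgroup.centralizer ((Q z : Subgroup G) : Set G) ≤ Q z)
    (U : Subgroup G) (hU2 : ∀ u ∈ U, u * u = 1)
    (hS : ∀ u ∈ U, u ≠ 1 → ∃ g : G, g * z * g⁻¹ = u)
    (hO : ∀ u ∈ U, ∀ v ∈ U, u ≠ 1 → v ≠ 1 → v ∈ Q u)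
    (QU LU : Subgroup G) (hQU : QU = ⨅ u ∈ ((U : Set G) \ {1}), Q u) (hLU : LU = ⨆ u ∈ ((U : Set G) \ {1}), Q u)
    (n : ℕ) (hn : 2 ≤ n) (hcard : Nat.card ↥U = 2 ^ n) :
    U ≤ QU ∧ QU ≤ LU ∧ LU ≤ Subgroup.normalizer (U : Set G) ∧
      ∀ φ : ↥U ≃* ↥U, ∃ g ∈ LU, ∀ u : ↥U, g * (u : G) * g⁻¹ = ((φ u : ↥U) : G) := by
  have h : Cfsg.Lib.Large.Singular.Setting Q z := ⟨hQ, hz, hE, hC⟩
  have hnorm : LU ≤ Subgroup.normalizer (U : Set G) := hLU ▸ Cfsg.Lib.Large.Singular.le_normalizer h hS hO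
  have hUcomm : ∀ a ∈ U, ∀ b ∈ U, a * b = b * a := fun a ha b hb => by
    have e : ∀ w ∈ U, w⁻¹ = w := fun w hw => inv_eq_of_mul_eq_one_right (hU2 w hw)
    rw [← e (a * b) (U.mul_mem ha hb), mul_inv_rev, e a ha, e b hb]
  have hne : U ≠ ⊥ := fun e => by
    rw [e, Subgroup.card_bot] at hcard
    exact (Nat.one_lt_two_pow (by omega : n ≠ 0)).ne hcard
  refine ⟨?_, ?_, hnorm, fun φ => ?_⟩
  · rw [hQU]
    refine le_iInf₂ fun u hu v hv => ?_
    by_cases hv1 : v = 1
    · rw [hv1]; exact one_mem _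
    exact hO u hu.1 v hv hu.2 hv1
  · obtain ⟨u, hu, hu1⟩ := (Subgroup.bot_or_exists_ne_one U).resolve_left hne
    rw [hQU, hLU]
    exact (iInf₂_le u ⟨hu, hu1⟩).trans (le_biSup Q (show u ∈ (U : Set G) \ {1} from ⟨hu, hu1⟩))
  -- agreement subgroups
  let Agree : G → Subgroup U := fun g =>
    { carrier := {w | g * (w : G) * g⁻¹ = ((φ w : U) : G)}
      one_mem' := by simp
      mul_mem' := fun {a b} ha hb => by
        show g * ((a * b : U) : G) * g⁻¹ = ((φ (a * b) : U) : G)
        rw [map_mul, Subgroup.coe_mul, Subgroup.coe_mul, ← ha, ← hb]; group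
      inv_mem' := fun {a} ha => by
        show g * ((a⁻¹ : U) : G) * g⁻¹ = ((φ a⁻¹ : U) : G)
        rw [map_inv, Subgroup.coe_inv, Subgroup.coe_inv, ← ha]; group }
  obtain ⟨W, ⟨g, hg, rfl⟩, hmax⟩ := (Set.toFinite {W : Subgroup U | ∃ g ∈ LU, Agree g = W}).exists_maximal
    ⟨_, 1, LU.one_mem, rfl⟩
  refine ⟨g, hg, fun v => ?_⟩
  by_contra hv
  -- a transvection mapping the image of `v` to its target
  set v' := g * (v : G) * g⁻¹ with hv'
  set t : G := ((φ v : U) : G)
  have hv'U : v' ∈ U := (Subgroup.mem_normalizer_iff.1 (hnorm hg) _).1 v.2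
  set W' := (Agree g).map ((U.subtype).comp φ.toMonoidHom) with hW'
  have hW'U : W' ≤ U := by
    rintro _ ⟨w, -, rfl⟩
    exact (φ w).2
  have htW : t ∉ W' := by
    rintro ⟨w, hw, e⟩
    have : w = v := φ.injective (Subtype.ext e)
    subst this
    exact hv hw
  have hvW : v' ∉ W' := by
    rintro ⟨w, hw, e⟩
    have hw' : g * (w : G) * g⁻¹ = ((φ w : U) : G) := hw
    have : w = v := Subtype.ext (mul_left_cancel (mul_right_cancel (hw'.trans e)))
    subst this
    exact hv hw
  set u := v' * t with hu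
  have huU : u ∈ U := U.mul_mem hv'U (φ v).2
  have hu1 : u ≠ 1 := fun e => hv (by
    show v' = t
    rw [hu] at e
    rw [eq_inv_of_mul_eq_one_left e, inv_eq_of_mul_eq_one_right (hU2 t (φ v).2)])
  have hvu : v' * u = t := by rw [hu, ← mul_assoc, hU2 v' hv'U, one_mul]
  have hnot : v' ∉ W' ⊔ Subgroup.zpowers u := fun hmem => by
    rcases Cfsg.Lib.Large.Singular.mem_sup_zpowers (hU2 u huU) (fun w hw => hUcomm w (hW'U hw) u huU) hmem
      with h' | h'
    · exact hvW h'
    · exact htW (hvu ▸ h')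
  have hv'Q : v' ∈ Q u := by
    by_cases h1 : v' = 1
    · rw [h1]; exact one_mem _
    · exact hO u huU v' hv'U hu1 h1
  obtain ⟨q, hq, hqW, hqv⟩ := Cfsg.Lib.Large.Singular.exists_transvection h hS hO hW'U huU hu1 hv'Q hnot
  have hqg : q * g ∈ LU := LU.mul_mem
    (by rw [hLU]; exact (le_biSup Q (show u ∈ (U : Set G) \ {1} from ⟨huU, hu1⟩)) hq) hg
  have hle : Agree g ≤ Agree (q * g) := fun w hw => by
    have hw' : g * (w : G) * g⁻¹ = ((φ w : U) : G) := hw
    show q * g * (w : G) * (q * g)⁻¹ = _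
    rw [show q * g * (w : G) * (q * g)⁻¹ = q * (g * (w : G) * g⁻¹) * q⁻¹ by group, hw',
      (hqW _ ⟨w, hw, rfl⟩ : q * ((φ w : U) : G) = ((φ w : U) : G) * q), mul_inv_cancel_right]
  have hvmem : v ∈ Agree g := hmax ⟨q * g, hqg, rfl⟩ hle (by
    show q * g * (v : G) * (q * g)⁻¹ = t
    rw [show q * g * (v : G) * (q * g)⁻¹ = q * v' * q⁻¹ by rw [hv']; group, hqv, hvu])
  exact hv hvmem

end Cfsg.Agent.S5596
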