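import Cfsg.Statements.S5597
import Cfsg.Agent.Lib.Large.Singular

set_option autoImplicit false
open Cfsg

namespace Cfsg.Agent.S5597

/-- Setting: `z` is an involution of the finite group `G`; for each element `x`, `Q x` is the largest normal 2-subgroup of the centralizer of `x`; `Q z` is extraspecial and contains its own centralizer in `G`. A subgroup `U` is singular when it is elementary abelian, every non-identity element of `U` is conjugate to `z`, and any two non-identity elements `u`, `v` of `U` are orthogonal (`v ∈ Q u`). Write `QU` for the intersection of the `Q u` and `LU` for the join of the `Q u` over the non-identity `u` in `U`. If `U` is a non-trivial singular subgroup, then `LU` acts trivially on `QU / U` (every commutator of an element of `LU` with an element of `QU` lies in `U`), and for every `x` in `QU` outside `U` the centralizer of `U` in `LU` permutes the coset `x U` transitively: each `x u` with `u ∈ U` is a conjugate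 of `x` by an element of `LU` centralizing `U`. -/
theorem result {G : Type*} [Group G] [Finite G]
    (Q : G → Subgroup G)
    (hQ : ∀ x : G, Q x = (Cfsg.pCore 2 ↥(Subgroup.centralizer ({x} : Set G))).map (Subgroup.centralizer ({x} : Set G)).subtype)
    (z : G) (hz : orderOf z = 2) (hE : Cfsg.IsExtraspecial 2 ↥(Q z))
    (hC : Subgroup.centralizer ((Q z : Subgroup G) : Set G) ≤ Q z)
    (U : Subgroup G) (hU2 : ∀ u ∈ U, u * u = 1)
    (hS : ∀ u ∈ U, u ≠ 1 → ∃ g : G, g * z * g⁻¹ = u)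
    (hO : ∀ u ∈ U, ∀ v ∈ U, u ≠ 1 → v ≠ 1 → v ∈ Q u)
    (QU LU : Subgroup G) (hQU : QU = ⨅ u ∈ ((U : Set G) \ {1}), Q u) (hLU : LU = ⨆ u ∈ ((U : Set G) \ {1}), Q u)
    (hU : U ≠ ⊥) :
    (∀ g ∈ LU, ∀ x ∈ QU, g * x * g⁻¹ * x⁻¹ ∈ U) ∧
      ∀ x ∈ QU, x ∉ U → ∀ u ∈ U, ∃ g ∈ LU ⊓ Subgroup.centralizer (U : Set G), g * x * g⁻¹ = x * u := by
  have h : Cfsg.Lib.Large.Singular.Setting Q z := ⟨hQ, hz, hE, hC⟩
  have hnorm : LU ≤ Subgroup.normalizer (U : Set G) := hLU ▸ Cfsg.Lib.Large.Singular.le_normalizer h hS hO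
  have hmemQU : ∀ x ∈ QU, ∀ u ∈ U, u ≠ 1 → x ∈ Q u := fun x hx u hu hu1 => by
    rw [hQU] at hx
    simp only [Subgroup.mem_iInf] at hx
    exact hx u ⟨hu, hu1⟩
  have htriv : ∀ g ∈ LU, ∀ x ∈ QU, g * x * g⁻¹ * x⁻¹ ∈ U := by
    intro g hg x hx
    let M : Subgroup G :=
      { carrier := {g | g ∈ Subgroup.normalizer (U : Set G) ∧ g * x * g⁻¹ * x⁻¹ ∈ U}
        one_mem' := ⟨one_mem _, by simp⟩
        mul_mem' := fun {a b} ha hb => ⟨mul_mem ha.1 hb.1, by
          rw [show a * b * x * (a * b)⁻¹ * x⁻¹ = (a * (b * x * b⁻¹ * x⁻¹) * a⁻¹) * (a * x * a⁻¹ * x⁻¹) by group]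
          exact U.mul_mem ((Subgroup.mem_normalizer_iff.1 ha.1 _).1 hb.2) ha.2⟩
        inv_mem' := fun {a} ha => ⟨inv_mem ha.1, by
          rw [show a⁻¹ * x * a⁻¹⁻¹ * x⁻¹ = a⁻¹ * (a * x * a⁻¹ * x⁻¹)⁻¹ * a⁻¹⁻¹ by group]
          exact (Subgroup.mem_normalizer_iff.1 (inv_mem ha.1) _).1 (U.inv_mem ha.2)⟩ }
    have hLM : LU ≤ M := by
      rw [hLU]
      refine iSup₂_le fun u hu q hq => ⟨hnorm (by rw [hLU]; exact (le_biSup Q hu) hq), ?_⟩
      have hd := Cfsg.Lib.Large.Singular.data h (hS u hu.1 hu.2)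
      rcases hd.brack q hq x (hmemQU x hx u hu.1 hu.2) with e | e <;> rw [e]
      · exact U.one_mem
      · exact hu.1
    exact (hLM hg).2
  refine ⟨htriv, fun x hx hxU u hu => ?_⟩
  by_cases hu1 : u = 1
  · exact ⟨1, one_mem _, by rw [hu1]; group⟩
  have hxQ := hmemQU x hx u hu hu1
  obtain ⟨q, hq, hqU, hqx⟩ := Cfsg.Lib.Large.Singular.exists_transvection h hS hO le_rfl hu hu1 hxQ
    (by rwa [sup_eq_left.2 (Subgroup.zpowers_le.2 hu)])
  exact ⟨q, ⟨by rw [hLU]; exact (le_biSup Q (show u ∈ (U : Set G) \ {1} from ⟨hu, hu1⟩)) hq,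
    Subgroup.mem_centralizer_iff.2 fun w hw => (hqU w hw).symm⟩, hqx⟩

end Cfsg.Agent.S5597
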