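import Cfsg.Statements.S5598
import Cfsg.Agent.Lib.Large.Singular

set_option autoImplicit false
open Cfsg

namespace Cfsg.Agent.S5598

/-- Setting: `z` is an involution of the finite group `G`; for each element `x`, `Q x` is the largest normal 2-subgroup of the centralizer of `x`; `Q z` is extraspecial and contains its own centralizer in `G`. A subgroup `U` is singular when it is elementary abelian, every non-identity element of `U` is conjugate to `z`, and any two non-identity elements `u`, `v` of `U` are orthogonal (`v ∈ Q u`). Write `QU` for the intersection of the `Q u` and `LU` for the join of the `Q u` over the non-identity `u` in `U`. If the singular subgroup `U` is generated by a set `T` of non-identity elements, then `QU` is already the intersection of the `Q t` over `t ∈ T`. -/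
theorem result {G : Type*} [Group G] [Finite G]
    (Q : G → Subgroup G)
    (hQ : ∀ x : G, Q x = (Cfsg.pCore 2 ↥(Subgroup.centralizer ({x} : Set G))).map (Subgroup.centralizer ({x} : Set G)).subtype)
    (z : G) (hz : orderOf z = 2) (hE : Cfsg.IsExtraspecial 2 ↥(Q z))
    (hC : Subgroup.centralizer ((Q z : Subgroup G) : Set G) ≤ Q z)
    (U : Subgroup G) (hU2 : ∀ u ∈ U, u * u = 1)
    (hS : ∀ u ∈ U, u ≠ 1 → ∃ g : G, g * z * g⁻¹ = u)
    (hO : ∀ u ∈ U, ∀ v ∈ U, u ≠ 1 → v ≠ 1 → v ∈ Q u)
    (QU LU : Subgroup G) (hQU : QU = ⨅ u ∈ ((U : Set G) \ {1}), Q u) (hLU : LU = ⨆ u ∈ ((U : Set G) \ {1}), Q u)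
    (T : Set G) (hT : Subgroup.closure T = U) (hT1 : (1 : G) ∉ T) :
    QU = ⨅ t ∈ T, Q t := by
  have h : Cfsg.Lib.Large.Singular.Setting Q z := ⟨hQ, hz, hE, hC⟩
  have hTU : T ⊆ U := hT ▸ Subgroup.subset_closure
  rw [hQU]
  refine le_antisymm (le_iInf₂ fun t ht => iInf₂_le t ⟨hTU ht, fun e => hT1 (e ▸ ht)⟩) ?_
  intro x hx
  simp only [Subgroup.mem_iInf] at hx ⊢
  suffices key : ∀ u ∈ Subgroup.closure T, u ∈ U ∧ (u = 1 ∨ x ∈ Q u) by
    exact fun u hu => (key u (hT.symm ▸ hu.1)).2.resolve_left hu.2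
  intro u hu
  induction hu using Subgroup.closure_induction with
  | mem t ht => exact ⟨hTU ht, Or.inr (hx t ht)⟩
  | one => exact ⟨U.one_mem, Or.inl rfl⟩
  | inv a _ ha =>
    refine ⟨U.inv_mem ha.1, ?_⟩
    rw [inv_eq_of_mul_eq_one_right (hU2 a ha.1)]
    exact ha.2
  | mul a b _ _ ha hb =>
    refine ⟨U.mul_mem ha.1 hb.1, ?_⟩
    by_cases ha1 : a = 1
    · rw [ha1, one_mul]; exact hb.2
    by_cases hb1 : b = 1
    · rw [hb1, mul_one]; exact ha.2
    by_cases hab : a * b = 1
    · exact Or.inl hab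
    right
    have hd := Cfsg.Lib.Large.Singular.data h (hS a ha.1 ha1)
    have hbQ := hO a ha.1 b hb.1 ha1 hb1
    have hne : b ≠ a := fun e => hab (e ▸ hU2 a ha.1)
    obtain ⟨q, hq, hqb⟩ : ∃ q ∈ Q a, q * b ≠ b * q := by
      by_contra hcon
      push Not at hcon
      rcases hd.central b hbQ fun c hc => (hcon c hc).symm with e | e
      · exact hb1 e
      · exact hne e
    have e1 : q * b * q⁻¹ = a * b := by
      rw [((Cfsg.Lib.Large.Singular.conj_cases hd hq hbQ).resolve_left fun e => hqb e.1).2,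
        ← hd.comm b hbQ]
    have hxb := Cfsg.Lib.Large.Singular.translate h q b x (hb.2.resolve_left hb1)
    rw [e1] at hxb
    rcases Cfsg.Lib.Large.Singular.conj_cases hd hq (ha.2.resolve_left ha1) with ⟨-, e⟩ | ⟨-, e⟩ <;>
      rw [e] at hxb
    · exact hxb
    · have haQ : a ∈ Q (a * b) := hO (a * b) (U.mul_mem ha.1 hb.1) a ha.1 hab ha1
      exact (Q (a * b)).mul_mem_cancel_right haQ |>.1 hxb

end Cfsg.Agent.S5598
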