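import Cfsg.Statements.S5738
import Mathlib

set_option autoImplicit false
open Cfsg

namespace Cfsg.Agent.S5738

/-- Let F ⊆ K be finite fields with |F| = q and [K : F] = n ≥ 2, so |K| = q^n. Regard K as an n-dimensional F-vector space; the multiplications by non-zero elements of K form a cyclic subgroup of GL_F(K) of order q^n − 1 acting regularly on the non-zero vectors (a Singer group). Its normaliser in GL_F(K) has order n·(q^n − 1). -/
theorem result {F K : Type*} [Field F] [Fintype F] [Field K] [Fintype K] [Algebra F K] (n : ℕ) (hn : 2 ≤ n) (hdim : Module.finrank F K = n) :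
    Nat.card (Subgroup.normalizer (((Units.map ((Algebra.lmul F K : K →ₐ[F] Module.End F K) : K →* Module.End F K)).range : Subgroup (Module.End F K)ˣ) : Set (Module.End F K)ˣ)) = n * (Fintype.card K - 1) := by
  classical
  let E := Module.End F K
  let μ : Kˣ →* Eˣ := Units.map ((Algebra.lmul F K : K →ₐ[F] E) : K →* E)
  have hμ : ∀ (a : Kˣ) (x : K), ((μ a : Eˣ) : E) x = (a : K) * x := fun a x => rfl
  let aut : (K ≃ₐ[F] K) → Eˣ := fun σ => (LinearMap.GeneralLinearGroup.generalLinearEquiv F K).symm σ.toLinearEquiv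
  have haut : ∀ σ x, ((aut σ : Eˣ) : E) x = σ x := fun σ x => rfl
  let Φ : Kˣ × (K ≃ₐ[F] K) → Subgroup.normalizer ((μ.range : Subgroup Eˣ) : Set Eˣ) := fun p =>
    ⟨μ p.1 * aut p.2, by
      refine Subgroup.mul_mem _ (Subgroup.le_normalizer ⟨_, rfl⟩) (Subgroup.mem_normalizer_iff.2 fun h => ?_)
      have hconj : ∀ a : Kˣ, aut p.2 * μ a * (aut p.2)⁻¹ = μ (Units.map (p.2.toAlgHom : K →* K) a) := by
        intro a
        rw [mul_inv_eq_iff_eq_mul]
        refine Units.ext (LinearMap.ext fun x => ?_)
        change p.2 ((a : K) * x) = p.2 (a : K) * p.2 x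
        exact map_mul p.2 _ _
      constructor
      · rintro ⟨a, rfl⟩
        exact ⟨_, (hconj a).symm⟩
      · rintro ⟨a, ha⟩
        refine ⟨Units.map (p.2.symm.toAlgHom : K →* K) a, ?_⟩
        have h2 := hconj (Units.map (p.2.symm.toAlgHom : K →* K) a)
        rw [show Units.map (p.2.toAlgHom : K →* K) (Units.map (p.2.symm.toAlgHom : K →* K) a) = a from
          Units.ext (p.2.apply_symm_apply _), ha] at h2
        exact mul_left_cancel (mul_right_cancel h2)⟩
  have hinj : Function.Injective Φ := by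
    rintro ⟨a, σ⟩ ⟨b, τ⟩ h
    have h' : ∀ x, (a : K) * σ x = (b : K) * τ x := fun x =>
      congrArg (fun u : Eˣ => (u : E) x) (congrArg Subtype.val h)
    have h1 := h' 1
    rw [map_one, map_one, mul_one, mul_one] at h1
    obtain rfl := Units.ext h1
    exact Prod.ext rfl (AlgEquiv.ext fun x => mul_left_cancel₀ a.ne_zero (h' x))
  have hsurj : Function.Surjective Φ := by
    rintro ⟨g, hg⟩
    have hg0 : (g : E) 1 ≠ 0 := by
      intro h0
      have h : ((g⁻¹ : Eˣ) : E) ((g : E) 1) = 1 := congrArg (fun f : E => f 1) g.inv_mul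
      rw [h0, map_zero] at h
      exact zero_ne_one h
    let a : Kˣ := Units.mk0 _ hg0
    have hmul : ∀ x y : K, (g : E) (x * y) * (g : E) 1 = (g : E) x * (g : E) y := by
      intro x y
      rcases eq_or_ne x 0 with rfl | hx
      · simp
      obtain ⟨b, hb⟩ := (Subgroup.mem_normalizer_iff.1 hg (μ (Units.mk0 x hx))).1 ⟨_, rfl⟩
      have hb' : ∀ z, (g : E) (x * z) = (b : K) * (g : E) z := fun z => by
        have h := congrArg (fun u : Eˣ => (u : E) z) (show μ b * g = g * μ (Units.mk0 x hx) by
          rw [hb, inv_mul_cancel_right])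
        exact h.symm
      have h1 := hb' 1
      rw [mul_one] at h1
      rw [h1, hb']; ring
    let φ : K →ₐ[F] K := AlgHom.ofLinearMap (((g : E) 1)⁻¹ • (g : E)) (inv_mul_cancel₀ hg0) fun x y => by
      have := hmul x y
      change _ * (g : E) (x * y) = _ * (g : E) x * (_ * (g : E) y)
      field_simp
      linear_combination this
    have hb : Function.Bijective φ := AlgHom.bijective φ
    refine ⟨⟨a, AlgEquiv.ofBijective φ hb⟩, Subtype.ext (Units.ext (LinearMap.ext fun x => ?_))⟩
    change (g : E) 1 * (((g : E) 1)⁻¹ * (g : E) x) = (g : E) x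
    rw [mul_inv_cancel_left₀ hg0]
  rw [← Nat.card_eq_of_bijective Φ ⟨hinj, hsurj⟩, Nat.card_prod, IsGalois.card_aut_eq_finrank, hdim,
    Nat.card_units, Nat.card_eq_fintype_card, mul_comm]

end Cfsg.Agent.S5738
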