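import Cfsg.Statements.S5739
import Mathlib

set_option autoImplicit false
open Cfsg

namespace Cfsg.Agent.S5739

/-- Let F ⊆ K be finite fields with |F| = q and [K : F] = n ≥ 2, and let M ≤ GL_F(K) be the Singer group of multiplications by non-zero elements of K. If g ∈ GL_F(K) does not normalise M, then the order of M ∩ gMg⁻¹ divides q^r − 1 for some proper divisor r of n. In particular, when n is prime, that order divides q − 1. -/
theorem result {F K : Type*} [Field F] [Fintype F] [Field K] [Fintype K] [Algebra F K] (n : ℕ) (hn : 2 ≤ n) (hdim : Module.finrank F K = n)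
    (g : (Module.End F K)ˣ) (hg : ((Units.map ((Algebra.lmul F K : K →ₐ[F] Module.End F K) : K →* Module.End F K)).range).map (MulAut.conj g).toMonoidHom ≠ (Units.map ((Algebra.lmul F K : K →ₐ[F] Module.End F K) : K →* Module.End F K)).range) :
    ∃ r : ℕ, 1 ≤ r ∧ r ∣ n ∧ r < n ∧ Nat.card ↥(((Units.map ((Algebra.lmul F K : K →ₐ[F] Module.End F K) : K →* Module.End F K)).range).map (MulAut.conj g).toMonoidHom ⊓ (Units.map ((Algebra.lmul F K : K →ₐ[F] Module.End F K) : K →* Module.End F K)).range) ∣ Fintype.card F ^ r - 1 := by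
  classical
  let E := Module.End F K
  let μ : Kˣ →* Eˣ := Units.map ((Algebra.lmul F K : K →ₐ[F] E) : K →* E)
  have hμ : ∀ (a : Kˣ) (x : K), ((μ a : Eˣ) : E) x = (a : K) * x := fun a x => rfl
  have hμi : Function.Injective μ := fun a b h => Units.ext (by simpa [hμ] using congrArg (fun u : Eˣ => (u : E) 1) h)
  change μ.range.map (MulAut.conj g).toMonoidHom ≠ μ.range at hg
  change ∃ r, 1 ≤ r ∧ r ∣ n ∧ r < n ∧ Nat.card ↥(μ.range.map (MulAut.conj g).toMonoidHom ⊓ μ.range) ∣ _
  set I := μ.range.map (MulAut.conj g).toMonoidHom ⊓ μ.range with hI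
  let S : Set K := {x | ∃ a : Kˣ, (a : K) = x ∧ μ a ∈ I}
  let L : IntermediateField F K := IntermediateField.adjoin F S
  have hL : L ≠ ⊤ := by
    intro htop
    refine hg (Subgroup.eq_of_le_of_card_ge ?_ (le_of_eq ?_))
    swap
    · exact Nat.card_congr (μ.range.equivMapOfInjective _ (MulAut.conj g).injective).toEquiv
    rintro _ ⟨_, ⟨b, rfl⟩, rfl⟩
    set u := (MulAut.conj g).toMonoidHom (μ b)
    -- the conjugated element is `K`-linear
    let R : Subalgebra F K :=
      { carrier := {x | ∀ z, (u : E) (x * z) = x * (u : E) z}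
        mul_mem' := fun {x y} hx hy z => by
          simp only [Set.mem_setOf_eq] at hx hy
          rw [mul_assoc, hx, hy, mul_assoc]
        add_mem' := fun {x y} hx hy z => by
          simp only [Set.mem_setOf_eq] at hx hy
          rw [add_mul, map_add, hx, hy, add_mul]
        algebraMap_mem' := fun r z => by
          rw [← Algebra.smul_def, ← Algebra.smul_def, map_smul] }
    have hSR : Algebra.adjoin F S ≤ R := Algebra.adjoin_le fun x hx => by
      obtain ⟨a, rfl, ⟨_, ⟨c, rfl⟩, hc⟩, -⟩ := hx
      intro z
      have hcomm : u * μ a = μ a * u := by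
        rw [← hc]
        exact (((Commute.all b c).map μ).map (MulAut.conj g).toMonoidHom).eq
      exact congrArg (fun w : Eˣ => (w : E) z) hcomm
    have hR : ∀ x, x ∈ R := fun x => by
      refine hSR ?_
      have h1 : x ∈ L.toSubalgebra := by rw [htop]; trivial
      rwa [IntermediateField.adjoin_toSubalgebra_of_isAlgebraic (fun y _ => IsAlgebraic.of_finite F y)] at h1
    have hu0 : (u : E) 1 ≠ 0 := by
      intro h0
      have h : ((u⁻¹ : Eˣ) : E) ((u : E) 1) = 1 := congrArg (fun f : E => f 1) u.inv_mul
      rw [h0, map_zero] at h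
      exact zero_ne_one h
    refine ⟨Units.mk0 _ hu0, Units.ext (LinearMap.ext fun x => ?_)⟩
    rw [hμ]
    have := hR x 1
    rw [mul_one] at this
    rw [this, mul_comm]; rfl
  refine ⟨Module.finrank F L, Module.finrank_pos, hdim ▸ ⟨Module.finrank L K, (Module.finrank_mul_finrank F L K).symm⟩, ?_, ?_⟩
  · rw [← hdim]
    exact (Submodule.finrank_lt (s := L.toSubalgebra.toSubmodule) fun h => hL (IntermediateField.toSubalgebra_injective (Subalgebra.toSubmodule_injective (h.trans (by simp)))))
  · let J : Subgroup Kˣ := (Units.map (L.val : L →* K)).range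
    have hle : I.comap μ ≤ J := fun a ha => by
      have hmem : (a : K) ∈ L := IntermediateField.subset_adjoin F S ⟨a, rfl, ha⟩
      exact ⟨Units.mk0 ⟨a, hmem⟩ fun h => a.ne_zero (congrArg Subtype.val h), Units.ext rfl⟩
    have h1 : Nat.card (I.comap μ) = Nat.card I := by
      rw [Nat.card_congr ((I.comap μ).equivMapOfInjective μ hμi).toEquiv,
        Subgroup.map_comap_eq_self (H := I) (f := μ) (by exact inf_le_right)]
    rw [← h1]
    refine (Subgroup.card_dvd_of_le hle).trans ?_
    rw [← Nat.card_congr (MonoidHom.ofInjective (f := Units.map (L.val : L →* K))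
      (Units.map_injective L.val.injective)).toEquiv, Nat.card_units,
      ← Module.card_eq_pow_finrank (K := F) (V := L), Nat.card_eq_fintype_card]

end Cfsg.Agent.S5739
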