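import Cfsg.Statements.S5747
import Mathlib
import Cfsg.Agent.Lib.Classical.IrredundantBase

set_option autoImplicit false
open Cfsg
open scoped Matrix

namespace Cfsg.Agent.S5747

/-- Let a finite group G act on a finite set Ω. An irredundant base is a sequence of points ω₁, …, ω_t whose pointwise stabiliser is trivial and in which each ω_i is moved by some element fixing ω₁, …, ω_{i−1}. Then all irredundant bases have the same length if and only if every reordering of an irredundant base is again an irredundant base. -/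
theorem result {G Ω : Type*} [Group G] [Finite G] [MulAction G Ω] [Fintype Ω] :
    (∀ (t t' : ℕ) (f : Fin t → Ω) (f' : Fin t' → Ω), ((∀ g : G, (∀ i : Fin t, g • f i = f i) → g = 1) ∧ ∀ i : Fin t, ∃ g : G, (∀ j : Fin t, j < i → g • f j = f j) ∧ g • f i ≠ f i) → ((∀ g : G, (∀ i : Fin t', g • f' i = f' i) → g = 1) ∧ ∀ i : Fin t', ∃ g : G, (∀ j : Fin t', j < i → g • f' j = f' j) ∧ g • f' i ≠ f' i) → t = t') ↔
    (∀ (t : ℕ) (f : Fin t → Ω) (σ : Equiv.Perm (Fin t)), ((∀ g : G, (∀ i : Fin t, g • f i = f i) → g = 1) ∧ ∀ i : Fin t, ∃ g : G, (∀ j : Fin t, j < i → g • f j = f j) ∧ g • f i ≠ f i) → ((∀ g : G, (∀ i : Fin t, g • (f ∘ σ) i = (f ∘ σ) i) → g = 1) ∧ ∀ i : Fin t, ∃ g : G, (∀ j : Fin t, j < i → g • (f ∘ σ) j = (f ∘ σ) j) ∧ g • (f ∘ σ) i ≠ (f ∘ σ) i)) := by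
  classical
  simp only [Cfsg.Lib.Classical.IrredundantBase.irr_top_ofFn]
  constructor
  · intro h t f σ hf
    refine Cfsg.Lib.Classical.IrredundantBase.reorder_of_sameSize ?_ _ _ hf (Equiv.Perm.ofFn_comp_perm σ f)
    intro l l' hl hl'
    exact h _ _ l.get l'.get (by rwa [List.ofFn_get]) (by rwa [List.ofFn_get])
  · intro h t t' f f' hf hf'
    have hR : Cfsg.Lib.Classical.IrredundantBase.Reorder (Ω := Ω) (⊤ : Subgroup G) := by
      intro l l' hl hp
      obtain ⟨σ, hσ⟩ := Cfsg.Lib.Classical.IrredundantBase.exists_ofFn_eq hp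
      exact hσ ▸ h _ l.get σ (by rwa [List.ofFn_get])
    have := Cfsg.Lib.Classical.IrredundantBase.sameSize_of_reorder (Nat.card (⊤ : Subgroup G)) ⊤ le_rfl hR _ _ hf hf'
    simpa using this

end Cfsg.Agent.S5747
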