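import Cfsg.Statements.S5754
import Mathlib

set_option autoImplicit false
open Cfsg
open scoped Matrix

namespace Cfsg.Agent.S5754

/-- Let V be a finite-dimensional vector space over a finite field F carrying an anisotropic quadratic form Q (Q(v) = 0 only for v = 0). Then the group of all maps v ↦ φ(v) + c, with φ an isometry of Q and c ∈ V, acts on V as a binary permutation group: given n ≥ 2 and two n-tuples u, u' of vectors such that every pair of corresponding entries of u is carried to that of u' by such a map, one such map carries u to u'. -/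
theorem result {F V : Type*} [Field F] [Finite F] [AddCommGroup V] [Module F V] [Module.Finite F V]
    (Q : QuadraticForm F V) (hQ : Q.Anisotropic) (n : ℕ) (hn : 2 ≤ n) (u u' : Fin n → V)
    (h2 : ∀ i j : Fin n, i ≠ j → ∃ (φ : Q.IsometryEquiv Q) (c : V), φ (u i) + c = u' i ∧ φ (u j) + c = u' j) :
    ∃ (φ : Q.IsometryEquiv Q) (c : V), ∀ i, φ (u i) + c = u' i := by
  classical
  haveI := Fintype.ofFinite F
  have hdim : Module.finrank F V ≤ 2 := by
    by_contra hlt
    obtain ⟨e, he⟩ : ∃ e : Fin 3 → V, LinearIndependent F e := ⟨_, (Module.finBasis F V).linearIndependent.comp (Fin.castLE (show 3 ≤ Module.finrank F V by omega)) (Fin.castLE_injective _)⟩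
    let P : MvPolynomial (Fin 3) F :=
      MvPolynomial.C (Q (e 0)) * MvPolynomial.X 0 ^ 2 + MvPolynomial.C (Q (e 1)) * MvPolynomial.X 1 ^ 2 + MvPolynomial.C (Q (e 2)) * MvPolynomial.X 2 ^ 2
      + MvPolynomial.C (QuadraticMap.polar Q (e 0) (e 1)) * (MvPolynomial.X 0 * MvPolynomial.X 1)
      + MvPolynomial.C (QuadraticMap.polar Q (e 0) (e 2)) * (MvPolynomial.X 0 * MvPolynomial.X 2)
      + MvPolynomial.C (QuadraticMap.polar Q (e 1) (e 2)) * (MvPolynomial.X 1 * MvPolynomial.X 2)
    have heval : ∀ x : Fin 3 → F, MvPolynomial.eval x P = Q (x 0 • e 0 + x 1 • e 1 + x 2 • e 2) := fun x => by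
      rw [QuadraticMap.map_add Q, QuadraticMap.map_add Q, QuadraticMap.polar_add_left, Q.map_smul, Q.map_smul, Q.map_smul,
        QuadraticMap.polar_smul_left, QuadraticMap.polar_smul_left, QuadraticMap.polar_smul_left, QuadraticMap.polar_smul_right, QuadraticMap.polar_smul_right, QuadraticMap.polar_smul_right]
      simp only [P, map_add, map_mul, map_pow, MvPolynomial.eval_C, MvPolynomial.eval_X, smul_eq_mul]
      ring
    have d2 : ∀ (c : F) (p : MvPolynomial (Fin 3) F), p.totalDegree ≤ 2 → (MvPolynomial.C c * p).totalDegree ≤ 2 := fun c p hp =>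
      (MvPolynomial.totalDegree_mul _ _).trans (by simpa using hp)
    have dsq : ∀ i : Fin 3, (MvPolynomial.X i ^ 2 : MvPolynomial (Fin 3) F).totalDegree ≤ 2 := fun i => by simp
    have dmul : ∀ i j : Fin 3, (MvPolynomial.X i * MvPolynomial.X j : MvPolynomial (Fin 3) F).totalDegree ≤ 2 := fun i j =>
      (MvPolynomial.totalDegree_mul _ _).trans (by simp)
    have dadd : ∀ p q : MvPolynomial (Fin 3) F, p.totalDegree ≤ 2 → q.totalDegree ≤ 2 → (p + q).totalDegree ≤ 2 := fun p q hp hq =>
      (MvPolynomial.totalDegree_add _ _).trans (max_le hp hq)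
    have hdeg : P.totalDegree ≤ 2 :=
      dadd _ _ (dadd _ _ (dadd _ _ (dadd _ _ (dadd _ _ (d2 _ _ (dsq _)) (d2 _ _ (dsq _))) (d2 _ _ (dsq _))) (d2 _ _ (dmul _ _))) (d2 _ _ (dmul _ _))) (d2 _ _ (dmul _ _))
    obtain ⟨p, hp⟩ := CharP.exists F
    haveI : Fact p.Prime := ⟨CharP.char_is_prime F p⟩
    have hdiv := char_dvd_card_solutions p (f := P) (by rw [Fintype.card_fin]; omega)
    have h0 : MvPolynomial.eval (0 : Fin 3 → F) P = 0 := by rw [heval]; simp
    haveI : Nonempty {x : Fin 3 → F // MvPolynomial.eval x P = 0} := ⟨⟨0, h0⟩⟩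
    have hlt1 : 1 < Fintype.card {x : Fin 3 → F // MvPolynomial.eval x P = 0} :=
      lt_of_lt_of_le (Fact.out : p.Prime).one_lt (Nat.le_of_dvd Fintype.card_pos hdiv)
    obtain ⟨⟨x, hx⟩, hne⟩ := Fintype.exists_ne_of_one_lt_card hlt1 ⟨0, h0⟩
    rw [heval] at hx
    have := Fintype.linearIndependent_iff.1 he x (by rw [Fin.sum_univ_three]; exact hQ _ hx)
    exact hne (Subtype.ext (funext this))
  have hQd : ∀ i j, Q (u i - u j) = Q (u' i - u' j) := by
    intro i j
    rcases eq_or_ne i j with rfl | hij
    · simp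
    obtain ⟨φ, c, hi, hj⟩ := h2 i j hij
    rw [← φ.map_app (u i - u j), map_sub, ← hi, ← hj, add_sub_add_right_eq_sub]
  let o : Fin n := ⟨0, by omega⟩
  set w : Fin n → V := fun i => u i - u o with hw
  set w' : Fin n → V := fun i => u' i - u' o with hw'
  have hpol : ∀ i j, QuadraticMap.polar Q (w i) (w j) = QuadraticMap.polar Q (w' i) (w' j) := by
    intro i j
    have h1 : ∀ a b : V, QuadraticMap.polar Q a b = Q a + Q b - Q (a - b) := fun a b => by
      have := QuadraticMap.map_add Q (a - b) b
      rw [sub_add_cancel, sub_eq_add_neg a b, QuadraticMap.polar_add_left, QuadraticMap.polar_neg_left, QuadraticMap.polar_self] at this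
      rw [sub_eq_add_neg a b, this, nsmul_eq_mul]
      push_cast
      ring
    rw [h1, h1]
    simp only [hw, hw', sub_sub_sub_cancel_right, hQd]
  have hQsum : ∀ c : Fin n → F, Q (∑ i, c i • w i) = Q (∑ i, c i • w' i) := by
    intro c
    rw [QuadraticMap.map_sum, QuadraticMap.map_sum]
    simp only [QuadraticMap.polarSym2]
    congr 1
    · exact Finset.sum_congr rfl fun i _ => by rw [Q.map_smul, Q.map_smul]; simp only [hw, hw', hQd]
    · refine Finset.sum_congr rfl fun p _ => ?_
      induction p using Sym2.ind with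
      | _ i j => simp [QuadraticMap.polar_smul_left, QuadraticMap.polar_smul_right, hpol]
  let S : (Fin n → F) →ₗ[F] V := Fintype.linearCombination F w
  let S' : (Fin n → F) →ₗ[F] V := Fintype.linearCombination F w'
  have hker : LinearMap.ker S ≤ LinearMap.ker S' := fun c hc => by
    rw [LinearMap.mem_ker] at hc ⊢
    refine hQ _ ?_
    have := hQsum c
    simp only [S, S', Fintype.linearCombination_apply] at hc ⊢
    rw [← this, hc, map_zero]
  suffices h : ∃ φ : Q.IsometryEquiv Q, ∀ i, φ (w i) = w' i by
    obtain ⟨φ, hφ⟩ := h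
    refine ⟨φ, u' o - φ (u o), fun i => ?_⟩
    have := hφ i
    simp only [hw, hw', map_sub] at this
    rw [← add_sub_assoc, add_sub_right_comm, this, sub_add_cancel]
  rcases eq_or_ne (LinearMap.range S) ⊤ with htop | htop
  · obtain ⟨R, hR⟩ := S.exists_rightInverse_of_surjective htop
    have hT : ∀ c, S' (R (S c)) = S' c := fun c => by
      rw [← sub_eq_zero, ← map_sub]
      exact hker (by rw [LinearMap.mem_ker, map_sub, ← LinearMap.comp_apply, hR]; simp)
    have hQT : ∀ x, Q (S' (R x)) = Q x := fun x => by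
      conv_rhs => rw [← LinearMap.id_apply (R := F) x, ← hR]
      exact (hQsum (R x)).symm
    have hinj : Function.Injective (S'.comp R) := by
      rw [← LinearMap.ker_eq_bot, LinearMap.ker_eq_bot']
      intro x hx
      refine hQ x ?_
      rw [← hQT x, show S' (R x) = 0 from hx, map_zero]
    refine ⟨{ LinearEquiv.ofInjectiveEndo (S'.comp R) hinj with map_app' := hQT }, fun i => ?_⟩
    have hSi : S (Pi.single i 1) = w i := by simp [S, Fintype.linearCombination_apply_single]
    show S' (R (w i)) = w' i
    rw [← hSi, hT]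
    simp [S', Fintype.linearCombination_apply_single]
  · have h1 : Module.finrank F (LinearMap.range S) ≤ 1 := by
      have := Submodule.finrank_lt htop
      omega
    by_cases hall : ∀ i, w i = 0
    · refine ⟨QuadraticMap.IsometryEquiv.refl Q, fun i => ?_⟩
      show w i = w' i
      rw [hall i, eq_comm]
      refine hQ _ ?_
      simp only [hw, hw', ← hQd i o]
      simp only [hw] at hall
      rw [hall i, map_zero]
    · push Not at hall
      obtain ⟨k, hk⟩ := hall
      have hko : k ≠ o := fun h => hk (by simp [hw, h])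
      obtain ⟨φ, c, hi, hj⟩ := h2 k o hko
      have hφk : φ (w k) = w' k := by simp only [hw, hw', map_sub, ← hi, ← hj, add_sub_add_right_eq_sub]
      refine ⟨φ, fun i => ?_⟩
      have hmem : ∀ i, w i ∈ LinearMap.range S := fun i => ⟨Pi.single i 1, by simp [S, Fintype.linearCombination_apply_single]⟩
      obtain ⟨a, ha⟩ : ∃ a : F, a • w k = w i := by
        rw [← Submodule.mem_span_singleton]
        have he : (F ∙ w k) = LinearMap.range S := Submodule.eq_of_le_of_finrank_le ((Submodule.span_singleton_le_iff_mem _ _).2 (hmem k)) (by rw [finrank_span_singleton hk]; exact h1)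
        rw [he]; exact hmem i
      have hk' : (Pi.single i 1 - a • Pi.single k 1 : Fin n → F) ∈ LinearMap.ker S := by
        rw [LinearMap.mem_ker, map_sub, map_smul]
        simp [S, Fintype.linearCombination_apply_single, ha]
      have := hker hk'
      rw [LinearMap.mem_ker, map_sub, map_smul] at this
      simp [S', Fintype.linearCombination_apply_single, sub_eq_zero] at this
      rw [← ha, map_smul, hφk, this]

end Cfsg.Agent.S5754
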