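import Cfsg.Statements.S5763
import Mathlib

set_option autoImplicit false
open Cfsg
open scoped Matrix

namespace Cfsg.Agent.S5763

/-- In the symmetric group on 8 letters any two Sylow 2-subgroups have non-trivial intersection: for a Sylow 2-subgroup H and every element x, H ∩ xHx⁻¹ ≠ 1. -/
theorem result (H : Sylow 2 (Equiv.Perm (Fin 8))) (x : Equiv.Perm (Fin 8)) :
    (H : Subgroup (Equiv.Perm (Fin 8))) ⊓ (H : Subgroup (Equiv.Perm (Fin 8))).map (MulAut.conj x).toMonoidHom ≠ ⊥ := by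
  classical
  have hc8 : Fintype.card ((ZMod 2 × ZMod 2) × ZMod 2) = Fintype.card (Fin 8) := by simp
  let e : (ZMod 2 × ZMod 2) × ZMod 2 ≃ Fin 8 := Fintype.equivOfCardEq hc8
  -- reduce to the transported model
  suffices main : ∀ (P : Sylow 2 (Equiv.Perm ((ZMod 2 × ZMod 2) × ZMod 2))) (y : Equiv.Perm ((ZMod 2 × ZMod 2) × ZMod 2)),
      ∃ w, w ≠ 1 ∧ w ∈ (P : Subgroup _) ∧ y⁻¹ * w * y ∈ (P : Subgroup _) by
    let ψ : Equiv.Perm ((ZMod 2 × ZMod 2) × ZMod 2) ≃* Equiv.Perm (Fin 8) := e.permCongrHom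
    let P : Sylow 2 (Equiv.Perm ((ZMod 2 × ZMod 2) × ZMod 2)) := H.comapOfInjective ψ.toMonoidHom ψ.injective (fun g _ => ψ.surjective g)
    obtain ⟨w, hw1, hwP, hwy⟩ := main P (ψ.symm x)
    intro hbot
    refine hw1 (ψ.injective ?_)
    rw [map_one]
    apply (Subgroup.eq_bot_iff_forall _).1 hbot
    refine ⟨hwP, Subgroup.mem_map_equiv.2 ?_⟩
    change ψ ((ψ.symm x)⁻¹ * w * ψ.symm x) ∈ H at hwy
    show x⁻¹ * ψ w * x ∈ H
    simpa [map_mul, map_inv] using hwy
  intro P y
  let a : Equiv.Perm ((ZMod 2 × ZMod 2) × ZMod 2) := Equiv.prodCongr (Equiv.refl _) (Equiv.addRight (1 : ZMod 2))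
  let N : Subgroup (Equiv.Perm ((ZMod 2 × ZMod 2) × ZMod 2)) :=
    { carrier := {g | ∃ (t : ZMod 2 × ZMod 2) (ε : ZMod 2 × ZMod 2 → ZMod 2), ∀ p, g p = (p.1 + t, p.2 + ε p.1)}
      one_mem' := ⟨0, fun _ => 0, fun p => by simp⟩
      mul_mem' := fun {g h} ⟨t, ε, hg⟩ ⟨s, δ, hh⟩ => ⟨s + t, fun i => δ i + ε (i + s), fun p => by simp [hg, hh, add_assoc]⟩
      inv_mem' := fun {g} ⟨t, ε, hg⟩ => ⟨-t, fun i => -ε (i - t), fun p => by
        rw [Equiv.Perm.inv_eq_iff_eq, hg]
        simp [sub_eq_add_neg, add_assoc, CharTwo.add_self_eq_zero]⟩ }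
  let σ : Equiv.Perm ((ZMod 2 × ZMod 2) × ZMod 2) := Equiv.prodCongr (Equiv.prodComm _ _) (Equiv.refl _)
  have hσσ : σ⁻¹ = σ := Equiv.ext fun p => rfl
  have hnorm : ∀ g ∈ N, σ * g * σ ∈ N := by
    rintro g ⟨t, ε, hg⟩
    exact ⟨(t.2, t.1), fun i => ε (i.2, i.1), fun p => by simp [σ, hg, Prod.swap, Prod.ext_iff]⟩
  have hcP : Nat.card (Equiv.Perm ((ZMod 2 × ZMod 2) × ZMod 2)) = 2 ^ 7 * 315 := by
    rw [Nat.card_eq_fintype_card, Fintype.card_perm, hc8]; rfl
  have hN64 : Nat.card N = 64 := by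
    let f : (ZMod 2 × ZMod 2) × (ZMod 2 × ZMod 2 → ZMod 2) → N := fun te =>
      ⟨(Equiv.prodCongrRight (fun i => Equiv.addRight (te.2 i))).trans (Equiv.prodCongr (Equiv.addRight te.1) (Equiv.refl _)),
        te.1, te.2, fun p => by simp [Equiv.prodCongrRight]⟩
    rw [← Nat.card_congr (Equiv.ofBijective f ⟨?_, ?_⟩)]
    · simp
    · rintro ⟨t, ε⟩ ⟨s, δ⟩ h
      have h' := fun p => congrArg (fun g : N => g.1 p) h
      refine Prod.ext ?_ (funext fun i => ?_)
      · simpa [f] using congrArg Prod.fst (h' ((0, 0), 0))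
      · simpa [f] using congrArg Prod.snd (h' (i, 0))
    · rintro ⟨g, t, ε, hg⟩
      exact ⟨(t, ε), Subtype.ext (Equiv.ext fun p => by simp [f, hg, Equiv.prodCongrRight])⟩
  have hNp : IsPGroup 2 N := IsPGroup.of_card (n := 6) hN64
  have hσp : IsPGroup 2 (Subgroup.zpowers σ) := by
    refine IsPGroup.of_card (n := 1) ?_
    rw [Nat.card_zpowers]
    rw [pow_one]
    refine orderOf_eq_prime (Equiv.ext fun p => rfl) ?_
    intro h
    have := Equiv.congr_fun h ((0, 1), 0)
    simp [σ] at this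
  have hle : Subgroup.zpowers σ ≤ Subgroup.normalizer (N : Set (Equiv.Perm ((ZMod 2 × ZMod 2) × ZMod 2))) := by
    rw [Subgroup.zpowers_le, Subgroup.mem_normalizer_iff]
    intro g
    refine ⟨fun h => by rw [hσσ]; exact hnorm g h, fun h => ?_⟩
    rw [hσσ] at h
    have := hnorm _ h
    rwa [show σ * (σ * g * σ) * σ = g from by
      rw [show σ * (σ * g * σ) * σ = (σ * σ) * g * (σ * σ) by group]
      rw [show σ * σ = 1 from Equiv.ext fun p => rfl]; group] at this
  have hSp := IsPGroup.to_sup_of_normal_left' hNp hσp hle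
  obtain ⟨S, hS⟩ := hSp.exists_le_sylow
  obtain ⟨h, rfl⟩ := MulAction.exists_smul_eq (Equiv.Perm ((ZMod 2 × ZMod 2) × ZMod 2)) S P
  have hNS : ∀ g ∈ N, h * g * h⁻¹ ∈ ((h • S : Sylow 2 _) : Subgroup (Equiv.Perm ((ZMod 2 × ZMod 2) × ZMod 2))) := fun g hg =>
    ⟨g, hS (Subgroup.mem_sup_left hg), rfl⟩
  suffices key : ∃ w, w ∈ N ∧ (h⁻¹ * y * h)⁻¹ * w * (h⁻¹ * y * h) ∈ N ∧ w ≠ 1 by
    obtain ⟨w, hw, hwz, hw1⟩ := key
    refine ⟨h * w * h⁻¹, fun hh => hw1 (conj_eq_one_iff.1 hh), hNS w hw, ?_⟩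
    have := hNS _ hwz
    convert this using 1
    group
  generalize h⁻¹ * y * h = z
  -- membership criterion
  have crit : ∀ g, g * a = a * g → ((∀ p, g p = p ∨ g p = a p) ∨ ((∀ p, g p ≠ p ∧ g p ≠ a p) ∧ ∀ p, g (g p) = p ∨ g (g p) = a p)) → g ∈ N := by
    intro g hga hg
    have h1 : ∀ i s, g (i, s) = ((g (i, 0)).1, s + (g (i, 0)).2) := by
      intro i s
      have hs : s = 0 ∨ s = 1 := by revert s; decide
      rcases hs with rfl | rfl
      · simp
      · have := Equiv.congr_fun hga (i, 0)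
        simp only [Equiv.Perm.mul_apply] at this
        have e0 : a (i, (0 : ZMod 2)) = (i, 1) := by simp [a]
        rw [e0] at this
        rw [this]
        exact Prod.ext rfl (add_comm _ _)
    have h2 : ∀ q r : (ZMod 2 × ZMod 2) × ZMod 2, q = r ∨ q = a r → q.1 = r.1 := by
      rintro q r (rfl | rfl) <;> rfl
    have h3 : ∀ q r : (ZMod 2 × ZMod 2) × ZMod 2, q.1 = r.1 → q = r ∨ q = a r := by decide +kernel
    have htr : ∀ τ : ZMod 2 × ZMod 2 → ZMod 2 × ZMod 2, ((∀ i, τ i = i) ∨ ((∀ i, τ i ≠ i) ∧ ∀ i, τ (τ i) = i)) → ∀ i, τ i = i + τ (0, 0) := by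
      decide +kernel
    have := htr (fun i => (g (i, 0)).1) (by
      rcases hg with hg | ⟨hg, hg'⟩
      · exact Or.inl fun i => h2 _ _ (hg (i, 0))
      · refine Or.inr ⟨fun i hi => ?_, fun i => ?_⟩
        · rcases h3 (g (i, 0)) (i, 0) hi with e | e
          exacts [(hg _).1 e, (hg _).2 e]
        · have := h2 _ _ (hg' (i, 0))
          rw [h1 i 0, h1 _ ((0 : ZMod 2) + _)] at this
          exact this)
    exact ⟨(g ((0, 0), 0)).1, fun i => (g (i, 0)).2, fun p => by rw [← this p.1]; exact h1 p.1 p.2⟩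
  set b := z * a * z⁻¹ with hb
  have critb : ∀ g, g * b = b * g → ((∀ p, g p = p ∨ g p = b p) ∨ ((∀ p, g p ≠ p ∧ g p ≠ b p) ∧ ∀ p, g (g p) = p ∨ g (g p) = b p)) → z⁻¹ * g * z ∈ N := by
    intro g hgb hg
    refine crit _ ?_ ?_
    · calc z⁻¹ * g * z * a = z⁻¹ * (g * b) * z := by rw [hb]; group
        _ = z⁻¹ * (b * g) * z := by rw [hgb]
        _ = a * (z⁻¹ * g * z) := by rw [hb]; group
    · have hbz : ∀ p, b (z p) = z (a p) := fun p => by simp [hb]
      rcases hg with hg | ⟨hg, hg'⟩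
      · refine Or.inl fun p => ?_
        have := hg (z p)
        rw [hbz] at this
        simpa [Equiv.symm_apply_eq] using this
      · refine Or.inr ⟨fun p => ?_, fun p => ?_⟩
        · have := hg (z p)
          rw [hbz] at this
          simpa [Equiv.symm_apply_eq] using this
        · have := hg' (z p)
          rw [hbz] at this
          simpa [Equiv.symm_apply_eq] using this
  have haa : ∀ p, a (a p) = p := by decide +kernel
  have hap : ∀ p, a p ≠ p := by decide +kernel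
  have hbb : ∀ p, b (b p) = p := fun p => by simp [hb, haa]
  have hbp : ∀ p, b p ≠ p := fun p hp => hap (z⁻¹ p) (z.injective (by simpa [hb] using hp))
  by_cases hshare : ∃ p, a p = b p
  · obtain ⟨p, hp⟩ := hshare
    have hcom : ∀ c : Equiv.Perm ((ZMod 2 × ZMod 2) × ZMod 2), c p = a p → c (a p) = p → Equiv.swap p (a p) * c = c * Equiv.swap p (a p) := by
      intro c h1 h2
      rw [Equiv.mul_swap_eq_swap_mul, h1, h2, Equiv.swap_comm]
    have hbap : b (a p) = p := by rw [hp, hbb]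
    have hpt : ∀ c : Equiv.Perm ((ZMod 2 × ZMod 2) × ZMod 2), c p = a p → c (a p) = p → ∀ q, Equiv.swap p (a p) q = q ∨ Equiv.swap p (a p) q = c q := by
      intro c h1 h2 q
      rcases eq_or_ne q p with rfl | h3
      · exact Or.inr (by rw [Equiv.swap_apply_left, h1])
      rcases eq_or_ne q (a p) with rfl | h4
      · exact Or.inr (by rw [Equiv.swap_apply_right, h2])
      exact Or.inl (Equiv.swap_apply_of_ne_of_ne h3 h4)
    refine ⟨_, crit _ (hcom a rfl (haa p)) (Or.inl (hpt a rfl (haa p))), critb _ (hcom b hp.symm hbap) (Or.inl (hpt b hp.symm hbap)), ?_⟩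
    intro h1
    exact hap p (Equiv.swap_eq_refl_iff.1 h1).symm
  push Not at hshare
  set d := a * b with hd
  have hd1 : ∀ p, d p ≠ p := fun p hp => hshare p (by
    have := congrArg a hp
    simp only [hd, Equiv.Perm.mul_apply, haa] at this
    exact this.symm)
  have ha1 : a * a = 1 := Equiv.ext haa
  have hb1 : b * b = 1 := Equiv.ext hbb
  have hia : a⁻¹ = a := inv_eq_of_mul_eq_one_right ha1
  have hib : b⁻¹ = b := inv_eq_of_mul_eq_one_right hb1
  have hbad : b = a * d := by rw [hd, ← mul_assoc, ha1, one_mul]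
  have hinv : ∀ k : ℤ, a * d ^ k = d ^ (-k) * a := by
    intro k
    have h1 : a * d * a⁻¹ = d⁻¹ := by rw [hd, _root_.mul_inv_rev, hia, hib, ← mul_assoc, ha1, one_mul]
    have h2 : a * d ^ k * a⁻¹ = d ^ (-k) := by rw [← conj_zpow, h1, inv_zpow']
    rw [← h2, mul_assoc (a * d ^ k), inv_mul_cancel, mul_one]
  have hsep : ∀ (j : ℤ) p, a p ≠ (d ^ j) p := by
    intro j p hj
    rcases Int.even_or_odd j with ⟨m, hm⟩ | ⟨m, hm⟩
    · refine hap ((d ^ m) p) ?_
      rw [← Equiv.Perm.mul_apply, hinv, Equiv.Perm.mul_apply, hj, ← Equiv.Perm.mul_apply, ← zpow_add, hm]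
      congr 2
      ring
    · refine hbp ((d ^ m) p) ?_
      have hbd : b * d ^ m = d ^ (-(1 + m)) * a := by
        rw [hbad, mul_assoc, ← zpow_one_add, hinv]
      rw [← Equiv.Perm.mul_apply, hbd, Equiv.Perm.mul_apply, hj, ← Equiv.Perm.mul_apply, ← zpow_add, hm]
      congr 2
      ring
  have hper : ∀ p, (d ^ 4) p = p ∧ ((d ^ 2) p ≠ p → ∀ q, ∃ j : ℤ, q = (d ^ j) p ∨ q = a ((d ^ j) p)) := by
    intro p
    set L := Function.minimalPeriod d p with hL
    have hLpos : 0 < L := hL ▸ Function.minimalPeriod_pos_of_mem_periodicPts ⟨orderOf d, orderOf_pos d, by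
      show (d : _ → _)^[orderOf d] p = p
      rw [← Equiv.Perm.coe_pow, pow_orderOf_eq_one]; rfl⟩
    have hit : ∀ m : ℕ, (d ^ m) p = (d : _ → _)^[m] p := fun m => by rw [← Equiv.Perm.coe_pow]
    let T : Finset ((ZMod 2 × ZMod 2) × ZMod 2) := (Finset.range L).image fun m => (d ^ m) p
    have hT : T.card = L := by
      rw [Finset.card_image_of_injOn, Finset.card_range]
      intro i hi j hj hij
      simp only [Finset.coe_range, Set.mem_Iio] at hi hj
      simp only [hit] at hij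
      exact Function.iterate_injOn_Iio_minimalPeriod hi hj hij
    have hdisj : Disjoint T (T.image a) := by
      rw [Finset.disjoint_left]
      intro q hq hq'
      simp only [T, Finset.mem_image] at hq hq'
      obtain ⟨i, -, rfl⟩ := hq
      obtain ⟨q', ⟨j, -, rfl⟩, hj⟩ := hq'
      refine hsep ((i : ℤ) - j) ((d ^ j) p) ?_
      rw [hj, ← zpow_natCast d j, ← Equiv.Perm.mul_apply, ← zpow_add, sub_add_cancel, zpow_natCast]
    have hcard : (T ∪ T.image a).card = 2 * L := by
      rw [Finset.card_union_of_disjoint hdisj, Finset.card_image_of_injective _ a.injective, hT]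
      omega
    have h8 : 2 * L ≤ 8 := hcard ▸ (Finset.card_le_univ _).trans (by simp)
    have h1 : L ≠ 1 := fun h => hd1 p (Function.minimalPeriod_eq_one_iff_isFixedPt.1 h)
    have hLp : (d ^ L) p = p := by rw [hit]; exact Function.iterate_minimalPeriod
    have h3 : L ≠ 3 := by
      intro h
      have hdT : ∀ q ∈ T, d q ∈ T := by
        intro q hq
        simp only [T, Finset.mem_image, Finset.mem_range] at hq ⊢
        obtain ⟨i, hi, rfl⟩ := hq
        by_cases hiL : i + 1 < L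
        · exact ⟨i + 1, hiL, by rw [pow_succ', Equiv.Perm.mul_apply]⟩
        · refine ⟨0, hLpos, ?_⟩
          rw [← Equiv.Perm.mul_apply, ← pow_succ', show i + 1 = L by omega, hLp]; simp
      have hdT' : ∀ q, d q ∈ T → q ∈ T := by
        intro q hq
        have : T.image d = T := Finset.eq_of_subset_of_card_le (Finset.image_subset_iff.2 hdT) (by rw [Finset.card_image_of_injective _ d.injective])
        rw [← this, Finset.mem_image] at hq
        obtain ⟨r, hr, hrq⟩ := hq
        exact d.injective hrq ▸ hr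
      set U := T ∪ T.image a with hU
      have haU : ∀ q, q ∈ U → a q ∈ U := by
        intro q hq
        simp only [hU, Finset.mem_union, Finset.mem_image] at hq ⊢
        rcases hq with hq | ⟨r, hr, rfl⟩
        · exact Or.inr ⟨q, hq, rfl⟩
        · exact Or.inl (by rwa [haa])
      have hbU : ∀ q, q ∈ U → b q ∈ U := by
        intro q hq
        simp only [hU, Finset.mem_union, Finset.mem_image] at hq ⊢
        rcases hq with hq | ⟨r, hr, rfl⟩
        · exact Or.inr ⟨d q, hdT q hq, by rw [hd, Equiv.Perm.mul_apply, haa]⟩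
        · refine Or.inl (hdT' _ ?_)
          rw [hd, Equiv.Perm.mul_apply, hbb, haa]
          exact hr
      obtain ⟨q, hq⟩ : ∃ q, q ∈ Uᶜ := Finset.card_pos.1 (by rw [Finset.card_compl, hcard, h]; simp)
      rw [Finset.mem_compl] at hq
      have haq : a q ∉ U := fun hm => hq (by simpa [haa] using haU _ hm)
      have hbq : b q ∉ U := fun hm => hq (by simpa [hbb] using hbU _ hm)
      have hsub : ({q, a q, b q} : Finset _) ⊆ Uᶜ := by
        simp [Finset.insert_subset_iff, hq, haq, hbq]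
      have := Finset.card_le_card hsub
      rw [Finset.card_compl, hcard, h] at this
      rw [Finset.card_insert_of_notMem (by simp [(hap q).symm, (hbp q).symm]), Finset.card_pair (hshare q)] at this
      simp at this
    have hL24 : L = 2 ∨ L = 4 := by omega
    refine ⟨?_, fun hne q => ?_⟩
    · rcases hL24 with h | h
      · rw [show (4 : ℕ) = L + L by omega, pow_add, Equiv.Perm.mul_apply, hLp, hLp]
      · rw [← h, hLp]
    · have h4 : L = 4 := hL24.resolve_left fun h => hne ((congrArg (fun m => (d ^ m) p) h).symm.trans hLp)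
      have hU : T ∪ T.image a = Finset.univ := Finset.eq_univ_of_card _ (by rw [hcard, h4]; simp)
      have := hU ▸ Finset.mem_univ q
      simp only [T, Finset.mem_union, Finset.mem_image] at this
      rcases this with ⟨i, -, rfl⟩ | ⟨r, ⟨i, -, rfl⟩, rfl⟩
      · exact ⟨i, Or.inl (by rw [zpow_natCast])⟩
      · exact ⟨i, Or.inr (by rw [zpow_natCast])⟩
  have fin : ∀ k : ℤ, (∀ p, (d ^ k) p ≠ p) → (∀ p, (d ^ k) ((d ^ k) p) = p) → ∃ w, w ∈ N ∧ z⁻¹ * w * z ∈ N ∧ w ≠ 1 := by
    intro k hk1 hk2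
    have hinvw : d ^ (-k) = d ^ k := by
      rw [zpow_neg]; exact inv_eq_of_mul_eq_one_right (Equiv.ext hk2)
    have hca : d ^ k * a = a * d ^ k := by rw [hinv, hinvw]
    have hcb : d ^ k * b = b * d ^ k := by
      rw [hbad, ← mul_assoc, hca, mul_assoc, mul_assoc, ← zpow_add_one, ← zpow_one_add, add_comm]
    refine ⟨d ^ k, crit _ hca (Or.inr ⟨fun p => ⟨hk1 p, fun h => hsep k p h.symm⟩, fun p => Or.inl (hk2 p)⟩),
      critb _ hcb (Or.inr ⟨fun p => ⟨hk1 p, fun h => hsep (k - 1) (d p) ?_⟩, fun p => Or.inl (hk2 p)⟩),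
      fun h => hk1 ((0, 0), 0) (by rw [h]; rfl)⟩
    rw [← Equiv.Perm.mul_apply, ← Equiv.Perm.mul_apply, ← zpow_add_one, sub_add_cancel, ← hbad]
    exact h.symm
  by_cases h2 : ∀ p, d (d p) = p
  · exact fin 1 (by simpa using hd1) (by simpa using h2)
  · push Not at h2
    obtain ⟨p, hp⟩ := h2
    refine fin 2 (fun q hq => hp ?_) fun q => ?_
    · have hp' : (d ^ 2) p ≠ p := by rw [pow_two]; exact hp
      obtain ⟨j, rfl | rfl⟩ := (hper p).2 hp' q
      · rw [← Equiv.Perm.mul_apply, zpow_mul_comm, Equiv.Perm.mul_apply, EmbeddingLike.apply_eq_iff_eq] at hq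
        exact (absurd hq hp')
      · have e : (d ^ (2 : ℤ)) * a = a * d ^ (-2 : ℤ) := by rw [hinv]; rfl
        rw [← Equiv.Perm.mul_apply, e, Equiv.Perm.mul_apply, EmbeddingLike.apply_eq_iff_eq, ← Equiv.Perm.mul_apply, zpow_mul_comm,
          Equiv.Perm.mul_apply, EmbeddingLike.apply_eq_iff_eq, zpow_neg] at hq
        exact absurd (Equiv.Perm.inv_eq_iff_eq.1 hq).symm hp'
    · rw [← Equiv.Perm.mul_apply, ← zpow_add]
      exact (hper q).1

end Cfsg.Agent.S5763
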