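import Cfsg.Statements.S5885
import Mathlib

set_option autoImplicit false
open Cfsg
open scoped Matrix

namespace Cfsg.Agent.S5885

/-- Let n be an odd positive integer such that every primitive permutation group of degree n contains the alternating group (so the symmetric and alternating groups are the only primitive groups of degree n). Let G be a finite group, M a maximal subgroup of G of index n, and H a maximal subgroup of M. Then H is a second maximal subgroup of G: H is maximal in every maximal subgroup K of G containing H. -/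
theorem result {G : Type*} [Group G]
    [Finite G] (n : ℕ) (hodd : Odd n)
    (hA : ∀ P : Subgroup (Equiv.Perm (Fin n)), MulAction.IsPreprimitive P (Fin n) → alternatingGroup (Fin n) ≤ P)
    (M : Subgroup G) (hM : IsCoatom M) (hn : M.index = n) (H : Subgroup G) (hHM : H ≤ M)
    (hmax : IsCoatom (H.subgroupOf M)) (K : Subgroup G) (hK : IsCoatom K) (hHK : H ≤ K) :
    IsCoatom (H.subgroupOf K) := by
  classical
  by_cases hKM : K = M
  · subst hKM; exact hmax
  -- `H` is the intersection of `K` and `M`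
  have hne : H.subgroupOf M ≠ ⊤ := hmax.1
  have hnMK : ¬ M ≤ K := fun h => hKM (((hM.le_iff).1 h).resolve_left hK.1)
  have hnKM : ¬ K ≤ M := fun h => hKM (((hK.le_iff).1 h).resolve_left hM.1).symm
  have hint : ∀ x, x ∈ K → x ∈ M → x ∈ H := by
    intro x hxK hxM
    rcases eq_or_lt_of_le (show H.subgroupOf M ≤ K.subgroupOf M from fun y hy => hHK hy) with h | h
    · have : (⟨x, hxM⟩ : M) ∈ H.subgroupOf M := h ▸ hxK
      exact this
    · exact absurd (fun y hy => show (⟨y, hy⟩ : M) ∈ K.subgroupOf M from (hmax.2 _ h).symm ▸ Subgroup.mem_top _) hnMK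
  refine ⟨fun h => hnKM ((Subgroup.subgroupOf_eq_top.1 h).trans hHM), fun L' hL' => ?_⟩
  by_contra hL'top
  set L := L'.map K.subtype with hLdef
  have hLK : L ≤ K := Subgroup.map_subtype_le L'
  have hHL : H ≤ L := fun x hx => ⟨⟨x, hHK hx⟩, hL'.le hx, rfl⟩
  obtain ⟨k, hkK, hkL⟩ : ∃ k ∈ K, k ∉ L := by
    by_contra! h
    refine hL'top (eq_top_iff.2 fun x _ => ?_)
    obtain ⟨y, hy, hyx⟩ := h x x.2
    rwa [← Subtype.ext hyx]
  obtain ⟨l₀, hl₀L, hl₀M⟩ : ∃ l ∈ L, l ∉ M := by
    by_contra! h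
    refine hL'.not_ge fun x hx => ?_
    exact hint x x.2 (h x ⟨x, hx, rfl⟩)
  set N := M.normalCore
  have hNM : N ≤ M := M.normalCore_le
  by_cases hNH : ¬ N ≤ H
  · have hHN : H ⊔ N = M := by
      refine le_antisymm (sup_le hHM hNM) ?_
      by_contra h
      have hlt : H.subgroupOf M < (H ⊔ N).subgroupOf M :=
        lt_of_le_of_ne (fun y hy => Subgroup.mem_sup_left hy) fun he => hNH fun x hx => by
          have : (⟨x, hNM hx⟩ : M) ∈ H.subgroupOf M := he.symm ▸ (Subgroup.mem_sup_right hx : x ∈ H ⊔ N)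
          exact this
      exact h (Subgroup.subgroupOf_eq_top.1 (hmax.2 _ hlt))
    have hLN : L ⊔ N = ⊤ := hM.2 _ (lt_of_le_of_ne (hHN ▸ sup_le_sup_right hHL N)
      fun h => hl₀M (h.symm ▸ Subgroup.mem_sup_left hl₀L))
    obtain ⟨l, hl, x, hx, rfl⟩ : ∃ l ∈ L, ∃ x ∈ N, l * x = k := by
      have : k ∈ ((L ⊔ N : Subgroup G) : Set G) := hLN ▸ Subgroup.mem_top k
      rw [Subgroup.mul_normal] at this
      exact Set.mem_mul.1 this
    have hxK : x ∈ K := by simpa using K.mul_mem (K.inv_mem (hLK hl)) hkK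
    exact hkL (L.mul_mem hl (hHL (hint x hxK (hNM hx))))
  push Not at hNH
  -- the coset action
  let Ω := G ⧸ M
  let ω : Ω := ((1 : G) : Ω)
  have : Fintype Ω := Fintype.ofFinite _
  have hcard : Fintype.card Ω = n := by rw [← Nat.card_eq_fintype_card, ← Subgroup.index_eq_card, hn]
  have hω : ∀ g : G, g • ω = ω ↔ g ∈ M := fun g => by
    rw [← MulAction.mem_stabilizer_iff, MulAction.stabilizer_quotient]
  have hprim : MulAction.IsPreprimitive G Ω := by
    have : Nontrivial Ω := Fintype.one_lt_card_iff_nontrivial.1 (by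
      rcases Nat.lt_or_ge 1 n with h | h
      · omega
      · have := hodd.pos
        have h1 : M.index = 1 := by omega
        exact absurd (Subgroup.index_eq_one.1 h1) hM.1)
    rw [← MulAction.isCoatom_stabilizer_iff_preprimitive (G := G) ω, MulAction.stabilizer_quotient]
    exact hM
  let e : Ω ≃ Fin n := (Fintype.equivFin Ω).trans (finCongr hcard)
  let ρ : G →* Equiv.Perm (Fin n) := e.permCongrHom.toMonoidHom.comp (MulAction.toPermHom G Ω)
  have hP : MulAction.IsPreprimitive ρ.range (Fin n) := by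
    let f : Ω →ₑ[ρ.rangeRestrict] Fin n :=
      { toFun := e
        map_smul' := fun g x => by
          change e (g • x) = ρ g (e x)
          simp [ρ, Equiv.permCongrHom, Equiv.permCongr_apply] }
    exact (MulAction.isPreprimitive_congr (f := f) ρ.rangeRestrict_surjective e.bijective).1 hprim
  have h3 : ∀ a b c : Ω, a ≠ b → b ≠ c → ∃ g : G, ∀ x, g • x = (Equiv.swap a b * Equiv.swap b c) x := by
    intro a b c hab hbc
    have hmem : e.permCongrHom (Equiv.swap a b * Equiv.swap b c) ∈ alternatingGroup (Fin n) := by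
      rw [Equiv.Perm.mem_alternatingGroup]
      simp [Equiv.permCongrHom, Equiv.permCongr_def, hab, hbc]
    obtain ⟨g, hg⟩ := hA _ hP hmem
    refine ⟨g, fun x => ?_⟩
    have h := e.permCongrHom.injective hg
    exact congrFun (congrArg (fun σ : Equiv.Perm Ω => (σ : Ω → Ω)) h) x
  let B : Set Ω := {y | ∃ l ∈ L, l • ω = y}
  let B' : Set Ω := {y | y ∈ B ∧ y ≠ ω}
  set b := l₀ • ω
  have hbω : b ≠ ω := fun h => hl₀M ((hω l₀).1 h)
  set x := k • ω
  set y := k • b
  have hblock : ∀ l ∈ L, k • l • ω ∉ B := by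
    rintro l hl ⟨l', hl', h⟩
    have h1 : l'⁻¹ * k * l ∈ M := (hω _).1 (by rw [mul_smul, mul_smul, ← h, inv_smul_smul])
    have h2 : l'⁻¹ * k * l ∈ H := hint _ (K.mul_mem (K.mul_mem (K.inv_mem (hLK hl')) hkK) (hLK hl)) h1
    have h3 := L.mul_mem (L.mul_mem hl' (hHL h2)) (L.inv_mem hl)
    exact hkL (by convert h3 using 1; group)
  have hxB : x ∉ B := by simpa using hblock 1 L.one_mem
  have hyB : y ∉ B := hblock l₀ hl₀L
  have hωB : ω ∈ B := ⟨1, L.one_mem, one_smul _ _⟩
  have hbB : b ∈ B := ⟨l₀, hl₀L, rfl⟩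
  have hxy : x ≠ y := fun h => hbω (smul_left_cancel k h).symm
  have hxω : x ≠ ω := fun h => hxB (h ▸ hωB)
  have hyω : y ≠ ω := fun h => hyB (h ▸ hωB)
  have hbx : b ≠ x := fun h => hxB (h ▸ hbB)
  have hby : b ≠ y := fun h => hyB (h ▸ hbB)
  -- `H` is the stabiliser of `B'` in `M`
  let S : Subgroup G := M ⊓
    { carrier := {g | ∀ z, g • z ∈ B' ↔ z ∈ B'}
      one_mem' := fun z => by simp
      mul_mem' := fun {g g'} hg hg' z => by rw [mul_smul, hg, hg']
      inv_mem' := fun {g} hg z => by rw [← hg (g⁻¹ • z), smul_inv_smul] }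
  have hHB : ∀ h ∈ H, ∀ z, z ∈ B' → h • z ∈ B' := by
    rintro h hh z ⟨⟨l, hl, rfl⟩, hz⟩
    refine ⟨⟨h * l, L.mul_mem (hHL hh) hl, mul_smul _ _ _⟩, fun he => hz ?_⟩
    rw [← inv_smul_smul h (l • ω), he, (hω _).2 (M.inv_mem (hHM hh))]
  have hHS : H ≤ S := fun h hh => ⟨hHM hh, fun z => ⟨fun hz => by
    simpa using hHB h⁻¹ (H.inv_mem hh) _ hz, hHB h hh z⟩⟩
  have hSH : ∀ g ∈ S, g ∈ H := by
    intro g hg
    rcases eq_or_lt_of_le (show H.subgroupOf M ≤ S.subgroupOf M from fun y hy => hHS hy) with h | h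
    · exact (h ▸ (show (⟨g, hg.1⟩ : M) ∈ S.subgroupOf M from hg) : (⟨g, hg.1⟩ : M) ∈ H.subgroupOf M)
    · exfalso
      obtain ⟨c, hc⟩ := h3 x b y hbx.symm hby
      have hcM : c ∈ M := (hω c).1 (by rw [hc]; simp [Equiv.swap_apply_of_ne_of_ne, hbω.symm, hyω.symm, hxω.symm])
      have hcS : (⟨c, hcM⟩ : M) ∈ S.subgroupOf M := (hmax.2 _ h).symm ▸ Subgroup.mem_top _
      have h1 : c • b ∈ B' := (hcS.2 b).2 ⟨hbB, hbω⟩
      rw [hc] at h1
      simp [Equiv.swap_apply_of_ne_of_ne, hxy.symm, hby.symm] at h1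
      exact hyB h1.1
  -- some point lies outside `B` and `k • B`
  obtain ⟨z, hzB, hzB2⟩ : ∃ z, z ∉ B ∧ ∀ l ∈ L, k • l • ω ≠ z := by
    by_contra! hall
    have hcompl : (fun z => k • z) '' B = Bᶜ := by
      ext z
      constructor
      · rintro ⟨_, ⟨l, hl, rfl⟩, rfl⟩
        exact hblock l hl
      · intro hz
        obtain ⟨l, hl, hlz⟩ := hall z hz
        exact ⟨_, ⟨l, hl, rfl⟩, hlz⟩
    have h1 := Set.ncard_add_ncard_compl B
    rw [← hcompl, Set.ncard_image_of_injective _ (MulAction.injective k), Nat.card_eq_fintype_card, hcard] at h1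
    exact Nat.not_even_iff_odd.2 hodd ⟨B.ncard, h1.symm⟩
  have hyz : y ≠ z := fun h => hzB2 l₀ hl₀L h
  have hxz : x ≠ z := fun h => hzB2 1 L.one_mem (by simpa using h)
  obtain ⟨g, hg⟩ := h3 x y z hxy hyz
  have hfix : ∀ p ∈ B, g • p = p := by
    intro p hp
    rw [hg]
    have hpx : p ≠ x := fun h => hxB (h ▸ hp)
    have hpy : p ≠ y := fun h => hyB (h ▸ hp)
    have hpz : p ≠ z := fun h => hzB (h ▸ hp)
    simp [Equiv.swap_apply_of_ne_of_ne, hpx, hpy, hpz]
  have hgH : g ∈ H := by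
    refine hSH g ⟨(hω g).1 (hfix ω hωB), fun p => ?_⟩
    constructor
    · intro hp
      have : g • g • p = g • p := hfix _ hp.1
      rwa [← smul_left_cancel g this]
    · intro hp
      rwa [hfix p hp.1]
  have hgx : g • x = y := by rw [hg]; simp [Equiv.swap_apply_of_ne_of_ne, hxy, hxz]
  have hgy : g • y = z := by rw [hg]; simp [Equiv.swap_apply_of_ne_of_ne, hxz.symm, hyz.symm]
  have hconj : l₀⁻¹ * k⁻¹ * g * k ∈ M := (hω _).1 (by
    rw [mul_smul, mul_smul, mul_smul]
    change l₀⁻¹ • k⁻¹ • g • x = ω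
    rw [hgx]
    change l₀⁻¹ • k⁻¹ • k • l₀ • ω = ω
    rw [inv_smul_smul, inv_smul_smul])
  have hconjL : k⁻¹ * g * k ∈ L := by
    have h1 := L.mul_mem hl₀L (hHL (hint _ (K.mul_mem (K.mul_mem (K.mul_mem (K.inv_mem (hLK hl₀L)) (K.inv_mem hkK)) (hHK hgH)) hkK) hconj))
    convert h1 using 1; group
  refine hzB2 _ (L.mul_mem hconjL hl₀L) ?_
  rw [← hgy, mul_smul, mul_smul, mul_smul, smul_inv_smul]

end Cfsg.Agent.S5885
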