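import Cfsg.Statements.S5887
import Mathlib
import Cfsg.Agent.Lib.Classical.TensorMax
import Cfsg.Agent.Lib.Classical.FieldTransvection

set_option autoImplicit false
open Cfsg
open scoped Matrix

namespace Cfsg.Agent.S5887

/-- Let F be a finite field, n a positive integer and r a composite number (r > 1, not prime) that divides n with r < n. Let K be a subalgebra of the algebra of n × n matrices over F which is a field of degree r over F (commutative, every non-zero element invertible, of dimension r over F). Then the normaliser N of K in GL_n(F) (a group of type ΓL_{n/r}(F_{q^r})) is not a maximal subgroup of GL_n(F), and N ∩ SL_n(F) is not a maximal subgroup of SL_n(F): both lie properly inside the normaliser of an intermediate subfield of prime degree over F. -/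
theorem result {F : Type*} [Field F]
    [Fintype F] (n r : ℕ) (hr1 : 1 < r) (hrp : ¬ r.Prime) (hrn : r ∣ n) (hlt : r < n)
    (K : Subalgebra F (Matrix (Fin n) (Fin n) F)) (hK : Cfsg.Geo.IsFieldSubalgebra r K) :
    ¬ IsCoatom (Cfsg.Geo.subalgebraNormalizer K) ∧
      ¬ Cfsg.Geo.IsMaximalIn (Cfsg.Geo.specialLinear (Fin n) F)
        (Cfsg.Geo.subalgebraNormalizer K ⊓ Cfsg.Geo.specialLinear (Fin n) F) := by
  classical
  -- the field structure on `K`
  let iCR : CommRing K := { (inferInstance : Ring K) with mul_comm := fun a b => Subtype.ext (hK.comm a.1 a.2 b.1 b.2) }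
  have : Nonempty (Fin n) := ⟨⟨0, by omega⟩⟩
  have hfield : IsField K :=
    { exists_pair_ne := ⟨0, 1, zero_ne_one⟩
      mul_comm := mul_comm
      mul_inv_cancel := fun {a} ha => by
        obtain ⟨y, hy, h⟩ := hK.inv a.1 a.2 (fun e => ha (Subtype.ext e))
        exact ⟨⟨y, hy⟩, Subtype.ext h⟩ }
  let iF : Field K := hfield.toField
  have hfin : Finite K := Finite.of_injective (fun k : K => (k : Matrix (Fin n) (Fin n) F)) Subtype.val_injective
  obtain ⟨ℓ, hℓ, hℓr⟩ := Nat.exists_prime_and_dvd (show r ≠ 1 by omega)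
  have := Fact.mk hℓ
  have hcardG : Nat.card (K ≃ₐ[F] K) = r := by rw [IsGalois.card_aut_eq_finrank]; exact hK.finrank_eq
  obtain ⟨σ, hσ⟩ := exists_prime_orderOf_dvd_card' (G := K ≃ₐ[F] K) ℓ (by rw [hcardG]; exact hℓr)
  let L : IntermediateField F K := IntermediateField.fixedField (Subgroup.zpowers σ)
  have hLd : Module.finrank F L * ℓ = r := by
    rw [← hσ, ← Nat.card_zpowers, ← IntermediateField.finrank_fixedField_eq_card (Subgroup.zpowers σ), Module.finrank_mul_finrank]
    exact hK.finrank_eq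
  set d := Module.finrank F L
  have hd1 : 1 < d := by
    rcases Nat.lt_or_ge 1 d with h | h
    · exact h
    · interval_cases d
      · simp at hLd; omega
      · exact absurd (by rw [← hLd, one_mul]; exact hℓ) hrp
  have hdr : d < r := by rw [← hLd]; exact lt_mul_of_one_lt_right (by omega) hℓ.one_lt
  let K₀ : Subalgebra F (Matrix (Fin n) (Fin n) F) := L.toSubalgebra.map K.val
  have hK₀K : K₀ ≤ K := by rintro _ ⟨x, -, rfl⟩; exact x.2
  have hK₀dim : Module.finrank F K₀ = d :=
    (L.toSubalgebra.equivMapOfInjective K.val Subtype.val_injective).toLinearEquiv.finrank_eq.symm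
  -- conjugation invariance
  have hle : Cfsg.Geo.subalgebraNormalizer K ≤ Cfsg.Geo.subalgebraNormalizer K₀ := by
    intro g hg
    let φ : K →ₐ[F] K :=
      { toFun := fun k => ⟨g.1 * k.1 * (g⁻¹).1, (hg k.1).1 k.2⟩
        map_one' := Subtype.ext (by simp)
        map_mul' := fun a b => Subtype.ext (by
          change g.1 * (a.1 * b.1) * (g⁻¹).1 = (g.1 * a.1 * (g⁻¹).1) * (g.1 * b.1 * (g⁻¹).1)
          simp [mul_assoc])
        map_zero' := Subtype.ext (by simp)
        map_add' := fun a b => Subtype.ext (by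
          change g.1 * (a.1 + b.1) * (g⁻¹).1 = g.1 * a.1 * (g⁻¹).1 + g.1 * b.1 * (g⁻¹).1
          rw [mul_add, add_mul])
        commutes' := fun c => Subtype.ext (by
          change g.1 * algebraMap F (Matrix (Fin n) (Fin n) F) c * (g⁻¹).1 = algebraMap F (Matrix (Fin n) (Fin n) F) c
          rw [(Algebra.commutes c g.1).symm, mul_assoc, Units.mul_inv, mul_one]) }
    have hφ : Function.Bijective φ := Finite.injective_iff_bijective.1 φ.injective
    let e : K ≃ₐ[F] K := AlgEquiv.ofBijective φ hφ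
    have hstab : ∀ x, x ∈ L ↔ e x ∈ L := by
      intro x
      simp only [L, IntermediateField.mem_fixedField_iff]
      have hcomm : ∀ a b : K ≃ₐ[F] K, a * b = b * a := fun a b => IsCyclic.commGroup.mul_comm a b
      constructor
      · intro h f hf
        have h1 : (f * e) x = (e * f) x := by rw [hcomm]
        simpa [AlgEquiv.mul_apply, h f hf] using h1
      · intro h f hf
        apply e.injective
        have h1 : (e * f) x = (f * e) x := by rw [hcomm]
        simpa [AlgEquiv.mul_apply, h f hf] using h1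
    intro k
    constructor
    · rintro ⟨x, hx, rfl⟩
      exact ⟨e x, (hstab x).1 hx, rfl⟩
    · rintro ⟨y, hy, hyk⟩
      obtain ⟨x, hx⟩ := e.surjective y
      subst hx
      refine ⟨x, (hstab x).2 hy, ?_⟩
      have h1 : g.1 * x.1 * (g⁻¹).1 = g.1 * k * (g⁻¹).1 := hyk
      have h2 := congrArg (fun X => (g⁻¹).1 * X * g.1) h1
      simpa [mul_assoc] using h2
  -- a small nilpotent matrix gives elements outside the normaliser
  have key : ∀ (A : Subalgebra F (Matrix (Fin n) (Fin n) F)), A ≤ K → ∀ N : Matrix (Fin n) (Fin n) F,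
      N * N = 0 → N ≠ 0 → N.rank < Module.finrank F A → 2 * N.rank < n →
      ∃ g : Matrix.GeneralLinearGroup (Fin n) F, g.1 = 1 + N ∧ g ∉ Cfsg.Geo.subalgebraNormalizer A ∧ g ∈ Cfsg.Geo.specialLinear (Fin n) F := by
    intro A hAK N hN hN0 hrA hrn'
    have h1 : (1 + N) * (1 - N) = 1 := by simp [mul_sub, add_mul, hN]
    have h2 : (1 - N) * (1 + N) = 1 := by simp [sub_mul, mul_add, hN]
    refine ⟨⟨1 + N, 1 - N, h1, h2⟩, rfl, fun hg => ?_, ?_⟩
    · have hcom : ∀ k ∈ A, N * k = k * N := by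
        intro k hk
        have hmem : (1 + N) * k * (1 - N) - k ∈ A := sub_mem ((hg k).1 hk) hk
        have heq : (1 + N) * k * (1 - N) - k = N * k + (-(k + N * k)) * N := by noncomm_ring
        have hr : ((1 + N) * k * (1 - N) - k).rank < n := by
          rw [heq]
          refine lt_of_le_of_lt ((Cfsg.Lib.Classical.rank_add_le' _ _).trans (Nat.add_le_add (Matrix.rank_mul_le_left _ _) (Matrix.rank_mul_le_right _ _))) ?_
          omega
        by_cases h0 : (1 + N) * k * (1 - N) - k = 0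
        · have h3 := congrArg (fun X => X * (1 + N)) (sub_eq_zero.1 h0)
          rw [mul_assoc ((1 + N) * k), h2, mul_one, add_mul, one_mul, mul_add, mul_one] at h3
          exact add_left_cancel h3
        · obtain ⟨y, -, hy⟩ := hK.inv _ (hAK hmem) h0
          rw [Matrix.rank_of_isUnit _ ⟨⟨_, y, hy, mul_eq_one_comm.1 hy⟩, rfl⟩, Fintype.card_fin] at hr
          exact absurd hr (lt_irrefl _)
      -- the range of `N` is `A`-invariant
      obtain ⟨v, hv⟩ : ∃ v, N *ᵥ v ≠ 0 := by
        by_contra! h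
        exact hN0 (Matrix.ext_iff_mulVec.2 fun v => by rw [h v, Matrix.zero_mulVec])
      let ψ : A →ₗ[F] LinearMap.range N.mulVecLin :=
        { toFun := fun k => ⟨k.1 *ᵥ (N *ᵥ v), ⟨k.1 *ᵥ v, by simp [Matrix.mulVec_mulVec, hcom k.1 k.2]⟩⟩
          map_add' := fun a b => Subtype.ext (by simp [Matrix.add_mulVec, add_mul])
          map_smul' := fun c a => Subtype.ext (by simp [Matrix.smul_mulVec, smul_mul_assoc]) }
      have hψ : Function.Injective ψ := by
        rw [← LinearMap.ker_eq_bot, LinearMap.ker_eq_bot']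
        intro k hk
        by_contra hk0
        obtain ⟨y, -, hy⟩ := hK.inv k.1 (hAK k.2) (fun e => hk0 (Subtype.ext e))
        have hk' : k.1 *ᵥ (N *ᵥ v) = 0 := congrArg Subtype.val hk
        have h4 := congrArg (y *ᵥ ·) hk'
        simp only [Matrix.mulVec_mulVec, mul_eq_one_comm.1 hy, Matrix.one_mulVec, Matrix.mulVec_zero] at h4
        rw [← mul_assoc, mul_eq_one_comm.1 hy, one_mul] at h4
        exact hv h4
      have := LinearMap.finrank_le_finrank_of_injective hψ
      exact absurd (this.trans_eq rfl) (not_le.2 hrA)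
    · rw [Cfsg.Geo.specialLinear, MonoidHom.mem_ker]
      ext
      rw [Matrix.GeneralLinearGroup.val_det_apply]
      change (1 + N).det = 1
      obtain ⟨p, hp⟩ := CharP.exists F
      have hp' : p.Prime := CharP.char_is_prime F p
      have := Fact.mk hp'
      have hpow : (1 + N) ^ p = 1 := by
        rw [add_pow_char_of_commute (p := p) (Commute.one_left N), one_pow,
          pow_eq_zero_of_le hp'.two_le (by rw [pow_two, hN]), add_zero]
      apply frobenius_inj F p
      rw [map_one, frobenius_def, ← Matrix.det_pow, hpow, Matrix.det_one]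
  have hr2 : 2 * r ≤ n := by
    obtain ⟨c, rfl⟩ := hrn
    rcases c with _ | _ | c <;> nlinarith
  -- two nilpotent matrices
  obtain ⟨N₁, hN₁, hN₁0, hN₁r, hN₁c⟩ : ∃ N : Matrix (Fin n) (Fin n) F, N * N = 0 ∧ N ≠ 0 ∧ N.rank ≤ d ∧ ∀ k ∈ K₀, N * k = k * N := by
    obtain ⟨N, e1, e2, e3, e4⟩ := Cfsg.Lib.Classical.FieldTransvection.exists_sq_zero (K.val.comp L.val) (by omega)
    refine ⟨N, e1, e2, e3, ?_⟩
    rintro _ ⟨y, hy, rfl⟩
    exact e4 ⟨y, hy⟩
  obtain ⟨g₁, hg₁, hg₁K, hg₁S⟩ := key K le_rfl N₁ hN₁ hN₁0 (by rw [hK.finrank_eq]; omega) (by omega)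
  have hg₁K₀ : g₁ ∈ Cfsg.Geo.subalgebraNormalizer K₀ := by
    intro k
    have hcm : ∀ k' ∈ K₀, g₁.1 * k' * (g₁⁻¹).1 = k' := fun k' hk' => by
      have : g₁.1 * k' = k' * g₁.1 := by rw [hg₁, add_mul, mul_add, one_mul, mul_one, hN₁c k' hk']
      rw [this, mul_assoc, Units.mul_inv, mul_one]
    constructor
    · intro hk; rw [hcm k hk]; exact hk
    · intro hk
      have h5 := hcm _ hk
      have h6 := congrArg (fun X => (g₁⁻¹).1 * X * g₁.1) h5
      simp [mul_assoc] at h6
      have h7 := congrArg (fun X => (g₁⁻¹).1 * X * g₁.1) (rfl : g₁.1 * k * (g₁⁻¹).1 = g₁.1 * k * (g₁⁻¹).1)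
      simp [mul_assoc] at h7
      have e1 : k = g₁.1 * k * (g₁⁻¹).1 := by
        have h8 : (g₁⁻¹).1 * (g₁.1 * (g₁.1 * k * (g₁⁻¹).1) * (g₁⁻¹).1) * g₁.1 = (g₁⁻¹).1 * (g₁.1 * k * (g₁⁻¹).1) * g₁.1 := by rw [h5]
        simpa [mul_assoc] using h8.symm
      rw [e1]; exact hk
  obtain ⟨N₂, hN₂, hN₂0, hN₂r⟩ : ∃ N : Matrix (Fin n) (Fin n) F, N * N = 0 ∧ N ≠ 0 ∧ N.rank ≤ 1 :=
    ⟨Matrix.vecMulVec (Pi.single (⟨0, by omega⟩ : Fin n) 1) (Pi.single (⟨1, by omega⟩ : Fin n) 1), by simp [Matrix.vecMulVec_mul_vecMulVec],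
      fun h => by simpa [Matrix.vecMulVec_apply] using congrFun (congrFun h ⟨0, by omega⟩) ⟨1, by omega⟩,
      Matrix.rank_vecMulVec_le _ _⟩
  obtain ⟨g₂, -, hg₂K, hg₂S⟩ := key K₀ hK₀K N₂ hN₂ hN₂0 (by omega) (by omega)
  constructor
  · intro h
    have htop := h.2 _ (lt_of_le_of_ne hle fun e => hg₁K (by rw [e]; exact hg₁K₀))
    exact hg₂K (by rw [htop]; exact Subgroup.mem_top g₂)
  · rintro ⟨-, h⟩
    rcases h (Cfsg.Geo.subalgebraNormalizer K₀ ⊓ Cfsg.Geo.specialLinear (Fin n) F) (inf_le_inf_right _ hle) inf_le_right with e | e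
    · have hmem : g₁ ∈ Cfsg.Geo.subalgebraNormalizer K₀ ⊓ Cfsg.Geo.specialLinear (Fin n) F := ⟨hg₁K₀, hg₁S⟩
      rw [e] at hmem
      exact hg₁K hmem.1
    · have hmem : g₂ ∈ Cfsg.Geo.specialLinear (Fin n) F := hg₂S
      rw [← e] at hmem
      exact hg₂K hmem.1

end Cfsg.Agent.S5887
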