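import Cfsg.Statements.S5895
import Mathlib
import Cfsg.Agent.Lib.Classical.AffineExample

set_option autoImplicit false
open Cfsg
open scoped Matrix

namespace Cfsg.Agent.S5895

/-- For every prime p and every d ≥ 2 there is a finite group G with a maximal subgroup M of index p^d and a maximal subgroup H of M that is not second maximal in G: some maximal subgroup K of G contains H without H being maximal in K. (One may take G the affine group V ⋊ GL(V) of V = 𝔽_p^d, M = GL(V), H the stabiliser in M of a line W of V, and K = V ⋊ H, with H < W ⋊ H < K.) So the prime-index hypothesis in the second-maximality criterion cannot be relaxed to prime-power index. -/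
theorem result (p d : ℕ) (hp : p.Prime)
    (hd : 2 ≤ d) :
    ∃ (G : Type) (_ : Group G) (_ : Finite G) (M H K : Subgroup G), IsCoatom M ∧ M.index = p ^ d ∧ H ≤ M ∧
      IsCoatom (H.subgroupOf M) ∧ IsCoatom K ∧ H ≤ K ∧ ¬ IsCoatom (H.subgroupOf K) := by
  have := Fact.mk hp
  have hv : LinearIndependent (ZMod p) ![(Pi.single ⟨0, by omega⟩ 1 : Fin d → ZMod p), Pi.single ⟨1, by omega⟩ 1] := by
    rw [LinearIndependent.pair_iff]
    intro a b h
    have h0 := congrFun h ⟨0, by omega⟩
    have h1 := congrFun h ⟨1, by omega⟩
    simp [Pi.single_apply] at h0 h1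
    exact ⟨h0, h1⟩
  simpa [Nat.card_fun] using Cfsg.Lib.Classical.AffineExample.exists_example _ _ hv

end Cfsg.Agent.S5895
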