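import Cfsg.Statements.S5896
import Mathlib

set_option autoImplicit false
open Cfsg

namespace Cfsg.Agent.S5896

open Matrix
open scoped commutatorElement

variable {R : Type*} [CommRing R]

private def U (x : R) : SpecialLinearGroup (Fin 2) R := ⟨!![1, x; 0, 1], by simp [det_fin_two_of]⟩
private def L (x : R) : SpecialLinearGroup (Fin 2) R := ⟨!![1, 0; x, 1], by simp [det_fin_two_of]⟩
private def D (u : Rˣ) : SpecialLinearGroup (Fin 2) R := ⟨!![(u : R), 0; 0, (u⁻¹ : Rˣ)], by simp [det_fin_two_of]⟩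

private lemma U_coe (x : R) : (U x : Matrix (Fin 2) (Fin 2) R) = !![1, x; 0, 1] := rfl
private lemma L_coe (x : R) : (L x : Matrix (Fin 2) (Fin 2) R) = !![1, 0; x, 1] := rfl
private lemma D_coe (u : Rˣ) : (D u : Matrix (Fin 2) (Fin 2) R) = !![(u : R), 0; 0, ((u⁻¹ : Rˣ) : R)] := rfl

private lemma U_add (x y : R) : U x * U y = U (x + y) := by
  apply Subtype.ext; simp [U_coe, mul_fin_two, add_comm]

private lemma L_add (x y : R) : L x * L y = L (x + y) := by
  apply Subtype.ext; simp [L_coe, mul_fin_two]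

private lemma D_mul_U (u : Rˣ) (x : R) : D u * U x = U ((u : R) * u * x) * D u := by
  apply Subtype.ext
  simp [U_coe, D_coe, mul_fin_two]
  linear_combination -((u : R) * x) * u.mul_inv

private lemma D_mul_L (u : Rˣ) (x : R) : D u * L x = L (((u⁻¹ : Rˣ) : R) * (u⁻¹ : Rˣ) * x) * D u := by
  apply Subtype.ext
  simp [L_coe, D_coe, mul_fin_two]
  linear_combination -(((u⁻¹ : Rˣ) : R) * x) * u.inv_mul

private lemma comm_U (u : Rˣ) (x : R) : ⁅D u, U x⁆ = U (((u : R) * u - 1) * x) := by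
  rw [commutatorElement_def, mul_inv_eq_iff_eq_mul, mul_inv_eq_iff_eq_mul, U_add, D_mul_U]
  congr 2; ring

private lemma comm_L (u : Rˣ) (x : R) : ⁅D u, L x⁆ = L ((((u⁻¹ : Rˣ) : R) * (u⁻¹ : Rˣ) - 1) * x) := by
  rw [commutatorElement_def, mul_inv_eq_iff_eq_mul, mul_inv_eq_iff_eq_mul, L_add, D_mul_L]
  congr 2; ring

private lemma D_eq (a b : R) (u : Rˣ) (h : (u : R) = 1 + a * b) :
    D u = L (-(b * ((u⁻¹ : Rˣ) : R))) * U a * L b * U (-(a * ((u⁻¹ : Rˣ) : R))) := by
  have h1 := u.mul_inv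
  have h2 : ((u⁻¹ : Rˣ) : R) * (1 + a * b) = 1 := by rw [← h]; exact u.inv_mul
  apply Subtype.ext
  simp [U_coe, L_coe, D_coe, mul_fin_two]
  refine ⟨⟨?_, ?_⟩, ?_, ?_⟩
  · linear_combination h
  · linear_combination a * h2
  · linear_combination b * h2
  · linear_combination (1 - ((u⁻¹ : Rˣ) : R) * a * b) * h2

private lemma decomp (g : SpecialLinearGroup (Fin 2) R) (c : Rˣ) (hc : g.1 1 0 = c) :
    g = U ((g.1 0 0 - 1) * ((c⁻¹ : Rˣ) : R)) * L (c : R) * U ((g.1 1 1 - 1) * ((c⁻¹ : Rˣ) : R)) := by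
  have hd : g.1 0 0 * g.1 1 1 - g.1 0 1 * g.1 1 0 = 1 := (det_fin_two g.1).symm.trans g.2
  have hc1 := c.inv_mul
  rw [hc] at hd
  apply Subtype.ext
  rw [eta_fin_two g.1, hc]
  simp [U_coe, L_coe, mul_fin_two]
  refine ⟨?_, ?_⟩
  · linear_combination -((c⁻¹ : Rˣ) : R) * hd - g.1 0 1 * hc1
  · linear_combination -(g.1 1 1 - 1) * hc1

/-- Every element is in a subgroup containing all elementary matrices. -/
private lemma eq_top_of_UL (hR : ∀ a : R, IsUnit a ∨ (5 : R) ∣ a) (h5 : IsNilpotent (5 : R))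
    (M : Subgroup (SpecialLinearGroup (Fin 2) R)) (hU : ∀ x, U x ∈ M) (hL : ∀ x, L x ∈ M) : M = ⊤ := by
  rw [Subgroup.eq_top_iff']
  have hc : ∀ g : SpecialLinearGroup (Fin 2) R, IsUnit (g.1 1 0) → g ∈ M := fun g hg => by
    rw [decomp g hg.unit hg.unit_spec.symm]
    exact M.mul_mem (M.mul_mem (hU _) (hL _)) (hU _)
  intro g
  rcases hR (g.1 1 0) with h | ⟨c, hcc⟩
  · exact hc g h
  rcases hR (g.1 0 0) with h | ⟨a, ha⟩
  · have : IsUnit ((L 1 * g).1 1 0) := by
      simp [L_coe, Matrix.mul_apply, Fin.sum_univ_two]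
      refine IsNilpotent.isUnit_add_left_of_commute ?_ h (Commute.all _ _)
      rw [hcc]; exact (Commute.all _ _).isNilpotent_mul_right h5
    exact (M.mul_mem_cancel_left (hL 1)).1 (hc _ this)
  · have hd : g.1 0 0 * g.1 1 1 - g.1 0 1 * g.1 1 0 = 1 := (det_fin_two g.1).symm.trans g.2
    have hu : IsUnit (5 : R) := IsUnit.of_mul_eq_one (a * g.1 1 1 - g.1 0 1 * c) (by linear_combination hd - g.1 1 1 * ha + g.1 0 1 * hcc)
    obtain ⟨m, hm⟩ := h5
    have h1 : IsUnit (0 : R) := hm ▸ hu.pow m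
    haveI := subsingleton_of_zero_eq_one (isUnit_zero_iff.1 h1)
    exact hc g (by rw [Subsingleton.elim (g.1 1 0) 1]; exact isUnit_one)

private lemma pow5 {n : Type*} [Fintype n] [DecidableEq n] (m : ℕ) (Y : Matrix n n R) :
    ∃ Z : Matrix n n R, (1 + (5 : R) ^ (m + 1) • Y) ^ 5 = 1 + (5 : R) ^ (m + 1 + 1) • Z := by
  set s : R := (5 : R) ^ m
  refine ⟨Polynomial.aeval Y ((Polynomial.X + Polynomial.C (10 * s) * Polynomial.X ^ 2 + Polynomial.C (50 * s ^ 2) * Polynomial.X ^ 3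
    + Polynomial.C (125 * s ^ 3) * Polynomial.X ^ 4 + Polynomial.C (125 * s ^ 4) * Polynomial.X ^ 5) : Polynomial R), ?_⟩
  have : ((1 + Polynomial.C ((5 : R) ^ (m + 1)) * Polynomial.X) ^ 5 : Polynomial R) =
      1 + Polynomial.C ((5 : R) ^ (m + 1 + 1)) * (Polynomial.X + Polynomial.C (10 * s) * Polynomial.X ^ 2 + Polynomial.C (50 * s ^ 2) * Polynomial.X ^ 3
    + Polynomial.C (125 * s ^ 3) * Polynomial.X ^ 4 + Polynomial.C (125 * s ^ 4) * Polynomial.X ^ 5) := by
    simp only [s, map_pow, map_mul, pow_succ, map_ofNat]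
    ring
  revert this
  generalize (Polynomial.X + Polynomial.C (10 * s) * Polynomial.X ^ 2 + Polynomial.C (50 * s ^ 2) * Polynomial.X ^ 3
    + Polynomial.C (125 * s ^ 3) * Polynomial.X ^ 4 + Polynomial.C (125 * s ^ 4) * Polynomial.X ^ 5 : Polynomial R) = Q
  generalize (5 : R) ^ (m + 1 + 1) = u
  generalize (5 : R) ^ (m + 1) = t
  intro this
  have h' := congrArg (Polynomial.aeval Y) this
  simp only [map_pow, map_add, map_one, map_mul, Polynomial.aeval_C, Polynomial.aeval_X, ← Algebra.smul_def] at h'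
  exact h'

set_option maxHeartbeats 1000000 in
theorem result (d : ℕ) :
    ∃ (G : Type) (_ : Group G) (_ : Finite G) (H : Subgroup G), commutator G = ⊤ ∧ IsCoatom H ∧ Group.IsSolvable H ∧
      derivedSeries H d ≠ ⊥ := by
  classical
  set k := 3 ^ d + 1 with hk
  haveI : NeZero (5 ^ k) := ⟨by positivity⟩
  haveI : Fact (1 < 5 ^ k) := ⟨Nat.one_lt_pow (by simp [k]) (by norm_num)⟩
  have hR : ∀ a : ZMod (5 ^ k), IsUnit a ∨ (5 : ZMod (5 ^ k)) ∣ a := by
    intro a
    by_cases h : 5 ∣ a.val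
    · right
      obtain ⟨b, hb⟩ := h
      exact ⟨b, by rw [← ZMod.natCast_zmod_val a, hb]; push_cast; rfl⟩
    · left
      rw [← ZMod.natCast_zmod_val a, ZMod.isUnit_iff_coprime]
      exact (((Nat.Prime.coprime_iff_not_dvd (by norm_num)).2 h).symm).pow_right _
  have h5k : (5 : ZMod (5 ^ k)) ^ k = 0 := by
    have : (((5 : ℕ) ^ k : ℕ) : ZMod (5 ^ k)) = 0 := ZMod.natCast_self _
    push_cast at this; exact this
  have h5 : IsNilpotent (5 : ZMod (5 ^ k)) := ⟨k, h5k⟩
  let π : ZMod (5 ^ k) →+* ZMod 5 := ZMod.castHom (dvd_pow_self 5 (by simp [k])) _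
  have hπ5 : ∀ x, π x = 0 ↔ (5 : ZMod (5 ^ k)) ∣ x := by
    intro x
    constructor
    · intro h
      have : ((x.val : ℕ) : ZMod 5) = 0 := by
        rw [← h]; conv_rhs => rw [← ZMod.natCast_zmod_val x, map_natCast]
      obtain ⟨b, hb⟩ := (ZMod.natCast_eq_zero_iff _ _).1 this
      exact ⟨b, by rw [← ZMod.natCast_zmod_val x, hb]; push_cast; rfl⟩
    · rintro ⟨b, rfl⟩
      rw [map_mul, show π 5 = 0 from by rw [map_ofNat]; rfl, zero_mul]
  let H : Subgroup (SpecialLinearGroup (Fin 2) (ZMod (5 ^ k))) :=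
    { carrier := {g | π (g.1 1 0) = 0}
      one_mem' := by simp
      mul_mem' := fun {g h} hg hh => by
        change π (g.1 1 0) = 0 at hg
        change π (h.1 1 0) = 0 at hh
        show π ((g * h).1 1 0) = 0
        simp [Matrix.mul_apply, Fin.sum_univ_two, hg, hh]
      inv_mem' := fun {g} hg => by simp_all [SpecialLinearGroup.coe_inv, adjugate_fin_two] }
  have h2 : IsUnit (2 : ZMod (5 ^ k)) := by
    have : IsUnit (((2 : ℕ) : ZMod (5 ^ k))) := (ZMod.isUnit_iff_coprime _ _).2 (Nat.Coprime.pow_right _ (by norm_num))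
    simpa using this
  have h3 : IsUnit (3 : ZMod (5 ^ k)) := by
    have : IsUnit (((3 : ℕ) : ZMod (5 ^ k))) := (ZMod.isUnit_iff_coprime _ _).2 (Nat.Coprime.pow_right _ (by norm_num))
    simpa using this
  refine ⟨_, inferInstance, inferInstance, H, ?_, ⟨?_, ?_⟩, ?_, ?_⟩
  · refine eq_top_of_UL hR h5 _ (fun x => ?_) fun x => ?_
    · have : U x = ⁅D h2.unit, U (((h3.unit⁻¹ : (ZMod (5 ^ k))ˣ) : ZMod (5 ^ k)) * x)⁆ := by
        rw [comm_U]; congr 1
        rw [IsUnit.unit_spec]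
        linear_combination -x * h3.val_inv_mul
      rw [this]
      exact Subgroup.commutator_mem_commutator (Subgroup.mem_top _) (Subgroup.mem_top _)
    · have : L x = ⁅D h2.unit⁻¹, L (((h3.unit⁻¹ : (ZMod (5 ^ k))ˣ) : ZMod (5 ^ k)) * x)⁆ := by
        rw [comm_L]; congr 1
        rw [inv_inv, IsUnit.unit_spec]
        linear_combination -x * h3.val_inv_mul
      rw [this]
      exact Subgroup.commutator_mem_commutator (Subgroup.mem_top _) (Subgroup.mem_top _)
  · intro htop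
    have h1 : π ((L (1 : ZMod (5 ^ k))).1 1 0) = 0 := (htop ▸ Subgroup.mem_top (L (1 : ZMod (5 ^ k))) : L (1 : ZMod (5 ^ k)) ∈ H)
    simp [L_coe] at h1
    haveI : Fact (Nat.Prime 5) := ⟨by norm_num⟩
    exact one_ne_zero (α := ZMod 5) h1
  · intro M hM
    obtain ⟨g, hg, hgH⟩ := SetLike.exists_of_lt hM
    have hU : ∀ x, U x ∈ M := fun x => hM.le (show π ((U x).1 1 0) = 0 by simp [U_coe])
    have hcu : IsUnit (g.1 1 0) := (hR _).resolve_right fun h => hgH ((hπ5 _).2 h)
    have hLc : L (g.1 1 0) ∈ M := by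
      have := decomp g hcu.unit hcu.unit_spec.symm
      rw [IsUnit.unit_spec] at this
      rw [this] at hg
      exact (M.mul_mem_cancel_left (hU _)).1 ((M.mul_mem_cancel_right (hU _)).1 hg)
    have hn : ∀ n : ℕ, L ((n : ZMod (5 ^ k)) * g.1 1 0) ∈ M := by
      intro n
      induction n with
      | zero => rw [show L (((0 : ℕ) : ZMod (5 ^ k)) * g.1 1 0) = 1 from Subtype.ext (by simp [L_coe, Matrix.one_fin_two])]; exact M.one_mem
      | succ n ih => rw [Nat.cast_succ, add_mul, one_mul, ← L_add]; exact M.mul_mem ih hLc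
    refine eq_top_of_UL hR h5 M hU fun x => ?_
    have := hn (x * (hcu.unit⁻¹ : (ZMod (5 ^ k))ˣ)).val
    rw [ZMod.natCast_zmod_val, mul_assoc] at this
    rwa [show ((hcu.unit⁻¹ : (ZMod (5 ^ k))ˣ) : ZMod (5 ^ k)) * g.1 1 0 = 1 from by
      conv_lhs => arg 2; rw [← hcu.unit_spec]
      exact hcu.unit.inv_mul, mul_one] at this
  · -- solvable
    let χ : H →* ZMod 5 :=
      { toFun := fun g => π (g.1.1 0 0)
        map_one' := by simp
        map_mul' := fun g h => by
          have hh : π (h.1.1 1 0) = 0 := h.2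
          simp [Matrix.mul_apply, Fin.sum_univ_two, hh] }
    have hker : IsPGroup 5 χ.toHomUnits.ker := by
      intro g
      refine ⟨k + 1, ?_⟩
      apply Subtype.ext; apply Subtype.ext; apply Subtype.ext
      show ((g.1.1 ^ _ : SpecialLinearGroup (Fin 2) (ZMod (5 ^ k))) : Matrix (Fin 2) (Fin 2) (ZMod (5 ^ k))) = ((1 : SpecialLinearGroup (Fin 2) (ZMod (5 ^ k))) : Matrix (Fin 2) (Fin 2) (ZMod (5 ^ k)))
      refine (Matrix.SpecialLinearGroup.coe_pow _ _).trans (Eq.trans ?_ Matrix.SpecialLinearGroup.coe_one.symm)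
      set A : Matrix (Fin 2) (Fin 2) (ZMod (5 ^ k)) := g.1.1.1 with hA
      have ha : π (A 0 0) = 1 := congrArg Units.val g.2
      have hc : π (A 1 0) = 0 := g.1.2
      have hd : π (A 1 1) = 1 := by
        have := congrArg π ((det_fin_two A).symm.trans g.1.1.2)
        simpa [ha, hc] using this
      have hmap : A.map π = !![1, π (A 0 1); 0, 1] := by
        ext i j; fin_cases i <;> fin_cases j <;> simp [ha, hc, hd]
      have hpow : ∀ n : ℕ, (!![1, π (A 0 1); 0, 1] : Matrix (Fin 2) (Fin 2) (ZMod 5)) ^ n = !![1, n * π (A 0 1); 0, 1] := by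
        intro n
        induction n with
        | zero => simp [Matrix.one_fin_two]
        | succ n ih => rw [pow_succ, ih]; simp [mul_fin_two]; ring
      have h0 : (A ^ 5).map π = 1 := by
        rw [Matrix.map_pow, hmap, hpow]
        simp [show (5 : ZMod 5) = 0 from rfl, Matrix.one_fin_two]
      have hX : ∀ i j, (5 : ZMod (5 ^ k)) ∣ (A ^ 5 - (1 : Matrix (Fin 2) (Fin 2) (ZMod (5 ^ k)))) i j := by
        intro i j
        rw [← hπ5]
        have := congrFun (congrFun h0 i) j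
        simp only [Matrix.map_apply] at this
        rw [Matrix.sub_apply, map_sub, this, ← Matrix.map_apply (f := π), Matrix.map_one _ (map_zero π) (map_one π), sub_self]
      choose X hX using hX
      have step : ∀ m : ℕ, ∃ Y : Matrix (Fin 2) (Fin 2) (ZMod (5 ^ k)), (A ^ 5) ^ (5 ^ m) = 1 + (5 : ZMod (5 ^ k)) ^ (m + 1) • Y := by
        intro m
        induction m with
        | zero =>
          refine ⟨Matrix.of X, ?_⟩
          ext i j
          simp only [pow_zero, pow_one, Matrix.add_apply, Matrix.smul_apply, Matrix.of_apply, smul_eq_mul, zero_add, ← hX, Matrix.sub_apply]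
          ring
        | succ m ih =>
          obtain ⟨Y, hY⟩ := ih
          obtain ⟨Z, hZ⟩ := pow5 m Y
          exact ⟨Z, by rw [show 5 ^ (m + 1) = 5 ^ m * 5 from pow_succ _ _, pow_mul, hY, hZ]⟩
      obtain ⟨Y, hY⟩ := step k
      rw [show 5 ^ (k + 1) = 5 * 5 ^ k from pow_succ' _ _, pow_mul, hY, show (5 : ZMod (5 ^ k)) ^ (k + 1) = 5 ^ k * 5 from pow_succ _ _, h5k, zero_mul, zero_smul, add_zero]
    haveI : Fact (Nat.Prime 5) := ⟨by norm_num⟩
    haveI := hker.isNilpotent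
    exact solvable_of_ker_le_range χ.toHomUnits.ker.subtype χ.toHomUnits (by rw [Subgroup.range_subtype])
  · have main : ∀ j : ℕ, ∀ x : ZMod (5 ^ k),
        (∃ hm : U ((5 : ZMod (5 ^ k)) ^ (3 ^ j) * x) ∈ H, (⟨_, hm⟩ : H) ∈ derivedSeries H j) ∧
        (∃ hm : L ((5 : ZMod (5 ^ k)) ^ (3 ^ j) * x) ∈ H, (⟨_, hm⟩ : H) ∈ derivedSeries H j) := by
      intro j
      induction j with
      | zero =>
        intro x
        refine ⟨⟨show π ((U _).1 1 0) = 0 by simp [U_coe], by simp⟩, ⟨show π ((L _).1 1 0) = 0 by simpa [L_coe] using (hπ5 _).2 (dvd_mul_right _ _), by simp⟩⟩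
      | succ j ih =>
        set s := (5 : ZMod (5 ^ k)) ^ (3 ^ j) with hs
        have hsn : IsNilpotent s := h5.pow_of_pos (by positivity)
        have hu : IsUnit (1 + s * s) := IsNilpotent.isUnit_one_add ((Commute.all _ _).isNilpotent_mul_left hsn)
        have hw : IsUnit (2 + s * s) := IsNilpotent.isUnit_add_left_of_commute ((Commute.all _ _).isNilpotent_mul_left hsn) h2 (Commute.all _ _)
        set u := hu.unit with hud
        have hu' : (u : ZMod (5 ^ k)) = 1 + s * s := hu.unit_spec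
        obtain ⟨hLm, hLD⟩ := (ih (-(((u⁻¹ : (ZMod (5 ^ k))ˣ) : ZMod (5 ^ k))))).2
        obtain ⟨hUm, hUD⟩ := (ih 1).1
        obtain ⟨hLm', hLD'⟩ := (ih 1).2
        obtain ⟨hUm', hUD'⟩ := (ih (-(((u⁻¹ : (ZMod (5 ^ k))ˣ) : ZMod (5 ^ k))))).1
        have hDe := D_eq s s u hu'
        simp only [mul_one, mul_neg] at hLm hUm hLm' hUm' hLD hUD hLD' hUD'
        have hDm : D u ∈ H := by rw [hDe]; exact H.mul_mem (H.mul_mem (H.mul_mem hLm hUm) hLm') hUm'
        have hDD : (⟨D u, hDm⟩ : H) ∈ derivedSeries H j := by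
          have := (derivedSeries H j).mul_mem ((derivedSeries H j).mul_mem ((derivedSeries H j).mul_mem hLD hUD) hLD') hUD'
          convert this using 1
          exact Subtype.ext hDe
        intro x
        have h33 : (5 : ZMod (5 ^ k)) ^ (3 ^ (j + 1)) = s * s * s := by rw [hs, ← pow_add, ← pow_add, pow_succ]; congr 1; ring
        constructor
        · obtain ⟨hm, hmD⟩ := (ih (((hw.unit⁻¹ : (ZMod (5 ^ k))ˣ) : ZMod (5 ^ k)) * x)).1
          have e : U ((5 : ZMod (5 ^ k)) ^ (3 ^ (j + 1)) * x) = ⁅D u, U (s * (((hw.unit⁻¹ : (ZMod (5 ^ k))ˣ) : ZMod (5 ^ k)) * x))⁆ := by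
            rw [comm_U, h33, hu']; congr 1
            linear_combination -(s * s * s * x) * hw.val_inv_mul
          refine ⟨by rw [e]; exact H.mul_mem (H.mul_mem (H.mul_mem hDm hm) (H.inv_mem hDm)) (H.inv_mem hm), ?_⟩
          have := Subgroup.commutator_mem_commutator hDD hmD
          rw [derivedSeries_succ]
          convert this using 1
          exact Subtype.ext e
        · obtain ⟨hm, hmD⟩ := (ih (-(u : ZMod (5 ^ k)) * u * (((hw.unit⁻¹ : (ZMod (5 ^ k))ˣ) : ZMod (5 ^ k)) * x))).2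
          have e : L ((5 : ZMod (5 ^ k)) ^ (3 ^ (j + 1)) * x) = ⁅D u, L (s * (-(u : ZMod (5 ^ k)) * u * (((hw.unit⁻¹ : (ZMod (5 ^ k))ˣ) : ZMod (5 ^ k)) * x)))⁆ := by
            rw [comm_L, h33]; congr 1
            have hui := u.inv_mul
            rw [hu'] at hui ⊢
            linear_combination -(s * s * s * x) * hw.val_inv_mul + (((u⁻¹ : (ZMod (5 ^ k))ˣ) : ZMod (5 ^ k)) * (1 + s * s) + 1) * (s * (((hw.unit⁻¹ : (ZMod (5 ^ k))ˣ) : ZMod (5 ^ k)) * x)) * hui
          refine ⟨by rw [e]; exact H.mul_mem (H.mul_mem (H.mul_mem hDm hm) (H.inv_mem hDm)) (H.inv_mem hm), ?_⟩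
          have := Subgroup.commutator_mem_commutator hDD hmD
          rw [derivedSeries_succ]
          convert this using 1
          exact Subtype.ext e
    intro hbot
    obtain ⟨hm, hD⟩ := (main d 1).1
    rw [hbot, Subgroup.mem_bot] at hD
    have := congrArg (fun g : H => g.1.1 0 1) hD
    simp [U_coe] at this
    have h' : (((5 ^ 3 ^ d : ℕ)) : ZMod (5 ^ k)) = 0 := by push_cast; exact this
    rw [ZMod.natCast_eq_zero_iff, Nat.pow_dvd_pow_iff_le_right (by norm_num)] at h'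
    omega

end Cfsg.Agent.S5896
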