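import Cfsg.Statements.S5902
import Mathlib
import Cfsg.Agent.S5901

set_option autoImplicit false
open Cfsg

namespace Cfsg.Agent.S5902

/-- Let G be a finite group, X a subgroup whose own subgroup lattice is complemented, and suppose X lies in exactly one maximal subgroup M of G. Then every subgroup H of G not contained in the normal core of M has a complement in the subgroup lattice of G (some C with H ⊔ C = G and H ⊓ C = 1); in particular the subgroup lattice of G modulo the normal core of M is complemented. -/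
theorem result {G : Type*} [Group G] [Finite G] (X M : Subgroup G)
    (hK : ComplementedLattice (Subgroup X))
    (hM : IsCoatom M) (hXM : X ≤ M) (huniq : ∀ M' : Subgroup G, IsCoatom M' → X ≤ M' → M' = M) :
    (∀ H : Subgroup G, ¬ H ≤ M.normalCore → ∃ C : Subgroup G, H ⊔ C = ⊤ ∧ H ⊓ C = ⊥) ∧
    ComplementedLattice (Subgroup (G ⧸ M.normalCore)) := by
  have main : ∀ H : Subgroup G, ¬ H ≤ M.normalCore → ∃ C : Subgroup G, H ⊔ C = ⊤ ∧ H ⊓ C = ⊥ := by
    intro H hH
    obtain ⟨h, hh, hhc⟩ := SetLike.not_le_iff_exists.1 hH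
    obtain ⟨g, hg⟩ : ∃ g : G, g * h * g⁻¹ ∉ M := by
      by_contra! hc
      exact hhc hc
    let φ : G ≃* G := MulAut.conj g
    have hH' : ¬ H.map φ.toMonoidHom ≤ M := fun hle => hg (hle ⟨h, hh, rfl⟩)
    obtain ⟨C, hC1, hC2⟩ := Cfsg.Agent.S5901.result ⊥ X M bot_le (fun e => hM.1 (top_le_iff.1 (e ▸ hXM)))
      (fun Y _ hY => by
        obtain ⟨C, hC⟩ := hK.exists_isCompl (Y.subgroupOf X)
        refine ⟨C.map X.subtype, bot_le, Subgroup.map_subtype_le C, ?_, ?_⟩
        · rw [← Subgroup.map_subgroupOf_eq_of_le hY, ← Subgroup.map_sup, hC.sup_eq_top]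
          exact (MonoidHom.range_eq_map _).symm.trans X.range_subtype
        · rw [← Subgroup.map_subgroupOf_eq_of_le hY, ← Subgroup.map_inf _ _ _ X.subtype_injective,
            hC.inf_eq_bot, Subgroup.map_bot])
      hM hXM huniq (H.map φ.toMonoidHom) hH' (inf_bot_eq _)
    refine ⟨C.comap φ.toMonoidHom, ?_, ?_⟩
    · rw [← Subgroup.comap_map_eq_self_of_injective (f := φ.toMonoidHom) φ.injective H,
        Subgroup.comap_sup_eq φ.toMonoidHom (H.map φ.toMonoidHom) C φ.surjective, hC1, Subgroup.comap_top]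
    · rw [← Subgroup.comap_map_eq_self_of_injective (f := φ.toMonoidHom) φ.injective H,
        ← Subgroup.comap_inf, hC2, MonoidHom.comap_bot, MonoidHom.ker_eq_bot_iff]
      exact φ.injective
  refine ⟨main, ⟨fun Hb => ?_⟩⟩
  let q := QuotientGroup.mk' M.normalCore
  have hq : Function.Surjective q := QuotientGroup.mk'_surjective _
  have hHb : (Hb.comap q).map q = Hb := Subgroup.map_comap_eq_self_of_surjective hq Hb
  by_cases hH : Hb.comap q ≤ M.normalCore
  · refine ⟨⊤, ?_⟩
    have : Hb = ⊥ := by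
      rw [← hHb, Subgroup.map_eq_bot_iff]
      simpa [q] using hH
    rw [this]; exact isCompl_bot_top
  · obtain ⟨C, hC1, hC2⟩ := main _ hH
    refine ⟨C.map q, disjoint_iff.2 (eq_bot_iff.2 ?_), codisjoint_iff.2 ?_⟩
    · rintro _ ⟨hx, c, hc, rfl⟩
      have h1 : c ∈ Hb.comap q ⊓ C := ⟨hx, hc⟩
      rw [hC2, Subgroup.mem_bot] at h1
      simp [h1]
    · rw [← hHb, ← Subgroup.map_sup, hC1, Subgroup.map_top_of_surjective q hq]

end Cfsg.Agent.S5902
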