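import Cfsg.Statements.S5903
import Mathlib
import Cfsg.Agent.S5901

set_option autoImplicit false
open Cfsg

namespace Cfsg.Agent.S5903

/-- Let G be a finite simple group, X a subgroup lying in exactly one maximal subgroup M of G, and N a subgroup of prime order with N ≤ X that is central in M. If the subgroup lattice of X/N is complemented, then the subgroup lattice of G is complemented. -/
theorem result {G : Type*} [Group G] [Finite G] [IsSimpleGroup G] (X M N : Subgroup G)
    (hM : IsCoatom M) (hXM : X ≤ M) (huniq : ∀ M' : Subgroup G, IsCoatom M' → X ≤ M' → M' = M)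
    (hNX : N ≤ X) (hN : (Nat.card N).Prime) (hcen : ∀ n ∈ N, ∀ m ∈ M, m * n = n * m)
    [(N.subgroupOf X).Normal] (hK : ComplementedLattice (Subgroup (X ⧸ N.subgroupOf X))) :
    ComplementedLattice (Subgroup G) := by
  have hXtop : X ≠ ⊤ := fun e => hM.1 (top_le_iff.1 (e ▸ hXM))
  have hNbot : N ≠ ⊥ := fun e => hN.ne_one (by rw [e]; exact Subgroup.card_bot)
  have hNX' : N ≠ ⊤ := fun e => hXtop (top_le_iff.1 (e ▸ hNX))
  have hint : ∀ Y : Subgroup G, N ≤ Y → Y ≤ X → ∃ C : Subgroup G, N ≤ C ∧ C ≤ X ∧ Y ⊔ C = X ∧ Y ⊓ C = N := by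
    intro Y hNY hYX
    let q := QuotientGroup.mk' (N.subgroupOf X)
    obtain ⟨Cb, hCb⟩ := hK.exists_isCompl ((Y.subgroupOf X).map q)
    have hker : q.ker = N.subgroupOf X := QuotientGroup.ker_mk' _
    have hY' : ((Y.subgroupOf X).map q).comap q = Y.subgroupOf X := by
      rw [Subgroup.comap_map_eq, hker, sup_eq_left]
      exact fun z hz => hNY hz
    refine ⟨(Cb.comap q).map X.subtype, ?_, Subgroup.map_subtype_le _, ?_, ?_⟩
    · intro z hz
      exact ⟨⟨z, hNX hz⟩, Subgroup.ker_le_comap q Cb (show (⟨z, hNX hz⟩ : X) ∈ q.ker by rw [hker]; exact hz), rfl⟩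
    · rw [← Subgroup.map_subgroupOf_eq_of_le hYX, ← Subgroup.map_sup, ← hY',
        Subgroup.comap_sup_eq q _ _ (QuotientGroup.mk'_surjective _), hCb.sup_eq_top, Subgroup.comap_top]
      exact (MonoidHom.range_eq_map _).symm.trans X.range_subtype
    · rw [← Subgroup.map_subgroupOf_eq_of_le hYX, ← Subgroup.map_inf _ _ _ X.subtype_injective, ← hY',
        ← Subgroup.comap_inf, hCb.inf_eq_bot, MonoidHom.comap_bot, hker,
        Subgroup.map_subgroupOf_eq_of_le hNX]
  refine ⟨fun H => ?_⟩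
  by_cases hH1 : H = ⊥
  · exact ⟨⊤, hH1 ▸ isCompl_bot_top⟩
  by_cases hH2 : H = ⊤
  · exact ⟨⊥, hH2 ▸ isCompl_top_bot⟩
  obtain ⟨g, hgM, hgN⟩ : ∃ g : G, ¬ H.map (MulAut.conj g).toMonoidHom ≤ M ∧
      H.map (MulAut.conj g).toMonoidHom ⊓ N = ⊥ := by
    by_contra! hc
    have : Fact (Nat.card N).Prime := ⟨hN⟩
    have key : ∀ g : G, (∀ x ∈ N, g⁻¹ * x * g ∈ H) ∨ ∀ h ∈ H, ∀ x ∈ N, h * (g⁻¹ * x * g) = g⁻¹ * x * g * h := by
      intro g
      by_cases hle : H.map (MulAut.conj g).toMonoidHom ≤ M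
      · refine Or.inr fun h hh x hx => ?_
        have h1 : (g * h * g⁻¹) * x = x * (g * h * g⁻¹) := hcen x hx _ (hle ⟨h, hh, rfl⟩)
        have h2 := congrArg (fun z => g⁻¹ * z * g) h1
        simpa [mul_assoc] using h2
      · refine Or.inl fun x hx => ?_
        rcases Subgroup.eq_bot_or_eq_top_of_prime_card
          ((H.map (MulAut.conj g).toMonoidHom).subgroupOf N) with h1 | h1
        · rw [Subgroup.subgroupOf_eq_bot] at h1
          exact absurd (disjoint_iff.1 h1) (hc g hle)
        · obtain ⟨h, hh, hhx⟩ := (Subgroup.subgroupOf_eq_top.1 h1) hx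
          have : g⁻¹ * x * g = h := by rw [← hhx]; simp [mul_assoc]
          rw [this]; exact hh
    let O : Set G := {z | ∃ g : G, ∃ x ∈ N, g⁻¹ * x * g = z ∧ ¬ ∀ x ∈ N, g⁻¹ * x * g ∈ H}
    have hQ : ∀ q ∈ Subgroup.closure O, ∀ h ∈ H, h * q = q * h := by
      intro q hq h hh
      have : Subgroup.closure O ≤ Subgroup.centralizer {h} := by
        rw [Subgroup.closure_le]
        rintro _ ⟨g, x, hx, rfl, hg⟩
        exact Subgroup.mem_centralizer_singleton_iff.2 ((key g).resolve_left hg h hh x hx).symm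
      exact (Subgroup.mem_centralizer_singleton_iff.1 (this hq)).symm
    have htop : Subgroup.normalClosure (N : Set G) = ⊤ :=
      (inferInstance : (Subgroup.normalClosure (N : Set G)).Normal).eq_bot_or_eq_top.resolve_left
        fun e => hNbot (eq_bot_iff.2 (e ▸ Subgroup.le_normalClosure))
    have hgen : H ⊔ Subgroup.closure O = ⊤ := by
      rw [eq_top_iff, ← htop, Subgroup.normalClosure, Subgroup.closure_le]
      intro z hz
      obtain ⟨x, hx, hxz⟩ := Group.mem_conjugatesOfSet_iff.1 hz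
      obtain ⟨a, rfl⟩ := isConj_iff.1 hxz
      by_cases hga : ∀ x ∈ N, a⁻¹⁻¹ * x * a⁻¹ ∈ H
      · exact Subgroup.mem_sup_left (by simpa using hga x hx)
      · exact Subgroup.mem_sup_right (Subgroup.subset_closure ⟨a⁻¹, x, hx, by simp, hga⟩)
    have hnorm : (Subgroup.closure O).Normal := by
      refine Subgroup.normalizer_eq_top_iff.1 (top_le_iff.1 ?_)
      rw [← hgen]
      refine sup_le (fun h hh => Subgroup.mem_normalizer_iff.2 fun q => ⟨fun hq => ?_, fun hq => ?_⟩)
        Subgroup.le_normalizer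
      · rw [hQ q hq h hh, mul_inv_cancel_right]; exact hq
      · have h1 := hQ _ hq h⁻¹ (H.inv_mem hh)
        have h2 : q = h * q * h⁻¹ := by
          have h3 := congrArg (fun z => z * h) h1
          simp [mul_assoc] at h3
          simpa [mul_assoc] using h3
        rwa [← h2] at hq
    rcases hnorm.eq_bot_or_eq_top with h | h
    · exact hH2 (by rw [← hgen, h, sup_bot_eq])
    · have hHc : H ≤ Subgroup.center G := fun x hx =>
        Subgroup.mem_center_iff.2 fun z => (hQ z (h ▸ Subgroup.mem_top z) x hx).symm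
      rcases (Subgroup.center G).normal_of_characteristic.eq_bot_or_eq_top with hc' | hc'
      · exact hH1 (eq_bot_iff.2 (hc' ▸ hHc))
      · have hHn : H.Normal := ⟨fun x hx z => by
          rw [Subgroup.mem_center_iff.1 (hHc hx) z, mul_inv_cancel_right]; exact hx⟩
        exact hHn.eq_bot_or_eq_top.elim hH1 hH2
  let φ : G ≃* G := MulAut.conj g
  obtain ⟨C, hC1, hC2⟩ := Cfsg.Agent.S5901.result N X M hNX hXtop hint hM hXM huniq _ hgM hgN
  have hH : (H.map φ.toMonoidHom).comap φ.toMonoidHom = H :=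
    Subgroup.comap_map_eq_self_of_injective (f := φ.toMonoidHom) φ.injective H
  refine ⟨C.comap φ.toMonoidHom, disjoint_iff.2 ?_, codisjoint_iff.2 ?_⟩
  · rw [← hH, ← Subgroup.comap_inf, hC2, MonoidHom.comap_bot, MonoidHom.ker_eq_bot_iff]
    exact φ.injective
  · rw [← hH, Subgroup.comap_sup_eq φ.toMonoidHom _ C φ.surjective, hC1, Subgroup.comap_top]

end Cfsg.Agent.S5903
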