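import Cfsg.Statements.S5905
import Mathlib

set_option autoImplicit false
open Cfsg
open scoped Matrix

namespace Cfsg.Agent.S5905

/-- Let Ω be a finite set and f : Ω → Fin b a map onto b ≥ 2 labels whose fibres all have the same size a ≥ 2 (a partition of Ω into b blocks of size a, so |Ω| = ab). Then the stabilizer of this partition in the symmetric group on Ω — the permutations g such that x and y lie in the same block exactly when g x and g y do, a group isomorphic to the imprimitive wreath product S_a ≀ S_b — is a maximal subgroup of the symmetric group. -/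
theorem result {Ω : Type*} [Fintype Ω] [DecidableEq Ω] (a b : ℕ) (ha : 2 ≤ a) (hb : 2 ≤ b)
    (f : Ω → Fin b) (hf : ∀ i : Fin b, Nat.card {x : Ω // f x = i} = a) :
    IsCoatom (Subgroup.closure {g : Equiv.Perm Ω | ∀ x y : Ω, f x = f y ↔ f (g x) = f (g y)}) := by
  classical
  set S := Subgroup.closure {g : Equiv.Perm Ω | ∀ x y : Ω, f x = f y ↔ f (g x) = f (g y)} with hS
  have hmem : ∀ g ∈ S, ∀ x y : Ω, f x = f y ↔ f (g x) = f (g y) := by
    intro g hg
    induction hg using Subgroup.closure_induction with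
    | mem g hg => exact hg
    | one => simp
    | mul g h _ _ hg hh => intro x y; exact (hh x y).trans (hg _ _)
    | inv g _ hg => intro x y; simpa using (hg (g⁻¹ x) (g⁻¹ y)).symm
  have hin : ∀ g : Equiv.Perm Ω, (∀ x y : Ω, f x = f y ↔ f (g x) = f (g y)) → g ∈ S := fun g h => Subgroup.subset_closure h
  have hsame : ∀ x y, f x = f y → Equiv.swap x y ∈ S := by
    intro x y h
    refine hin _ fun u v => ?_
    have : ∀ z, f (Equiv.swap x y z) = f z := fun z => by
      rcases eq_or_ne z x with rfl | hx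
      · simp [h]
      rcases eq_or_ne z y with rfl | hy
      · simp [h]
      rw [Equiv.swap_apply_of_ne_of_ne hx hy]
    rw [this, this]
  have e : ∀ i : Fin b, Nonempty ({x : Ω // f x = i} ≃ Fin a) := fun i => by
    rw [← hf i]; exact ⟨Finite.equivFin _⟩
  let E : Ω ≃ Fin b × Fin a :=
    (Equiv.sigmaFiberEquiv f).symm.trans ((Equiv.sigmaCongrRight fun i => (e i).some).trans (Equiv.sigmaEquivProd _ _))
  have hE : ∀ x, (E x).1 = f x := fun x => rfl
  have hblock : ∀ σ : Equiv.Perm (Fin b), ∃ s ∈ S, ∀ x, f (s x) = σ (f x) := by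
    intro σ
    let s : Equiv.Perm Ω := E.trans ((Equiv.prodCongr σ (Equiv.refl _)).trans E.symm)
    have h : ∀ x, f (s x) = σ (f x) := fun x => by rw [← hE, ← hE]; simp [s]
    exact ⟨s, hin _ fun x y => by rw [h, h, σ.injective.eq_iff], h⟩
  have hsurj : ∀ i, ∃ x, f x = i := fun i => ⟨E.symm (i, ⟨0, by omega⟩), by rw [← hE]; simp⟩
  obtain ⟨x₀, hx₀⟩ := hsurj ⟨0, by omega⟩
  obtain ⟨y₀, hy₀⟩ := hsurj ⟨1, by omega⟩
  have hne₀ : f x₀ ≠ f y₀ := by simp [hx₀, hy₀]
  constructor
  · intro htop
    obtain ⟨x₁, hx₁, hx₁'⟩ : ∃ x₁, f x₁ = f x₀ ∧ x₁ ≠ x₀ := by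
      refine ⟨E.symm (f x₀, if (E x₀).2 = ⟨0, by omega⟩ then ⟨1, by omega⟩ else ⟨0, by omega⟩), by rw [← hE]; simp [hE], fun h => ?_⟩
      have := congrArg (fun x => (E x).2) h
      simp only [Equiv.apply_symm_apply] at this
      split at this
      · rename_i h0; rw [h0] at this; simp at this
      · rename_i h0; exact h0 this.symm
    have := (hmem (Equiv.swap x₀ y₀) (htop ▸ Subgroup.mem_top _) x₀ x₁).1 hx₁.symm
    rw [Equiv.swap_apply_left, Equiv.swap_apply_of_ne_of_ne hx₁' (fun h => hne₀ (by rw [← hx₁, h])), hx₁] at this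
    exact hne₀ this.symm
  · intro H hH
    obtain ⟨g, hgH, hgS⟩ := SetLike.exists_of_lt hH
    obtain ⟨u, v, huv, huvH⟩ : ∃ u v, f u ≠ f v ∧ Equiv.swap u v ∈ H := by
      by_contra hc
      push Not at hc
      refine hgS (hin g fun x y => ⟨fun h => ?_, fun h => ?_⟩)
      · by_contra h'
        refine hc _ _ h' ?_
        rw [Equiv.swap_apply_apply]
        exact H.mul_mem (H.mul_mem hgH (hH.le (hsame x y h))) (H.inv_mem hgH)
      · by_contra h'
        refine hc x y h' ?_
        have := H.mul_mem (H.mul_mem (H.inv_mem hgH) (hH.le (hsame _ _ h))) hgH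
        rw [Equiv.swap_apply_apply] at this
        simpa [mul_assoc] using this
    rw [eq_top_iff, ← Equiv.Perm.closure_isSwap, Subgroup.closure_le]
    rintro _ ⟨w, z, hwz, rfl⟩
    by_cases hf' : f w = f z
    · exact hH.le (hsame w z hf')
    let σ : Equiv.Perm (Fin b) := Equiv.swap (Equiv.swap (f u) (f w) (f v)) (f z) * Equiv.swap (f u) (f w)
    have hne : f w ≠ Equiv.swap (f u) (f w) (f v) := fun h =>
      huv ((Equiv.swap (f u) (f w)).injective (by rw [Equiv.swap_apply_left]; exact h))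
    obtain ⟨s₀, hs₀, h₀⟩ := hblock σ
    have hu : f (s₀ u) = f w := by
      rw [h₀]; simp only [σ, Equiv.Perm.mul_apply, Equiv.swap_apply_left]
      exact Equiv.swap_apply_of_ne_of_ne hne hf'
    have hv : f (s₀ v) = f z := by
      rw [h₀]; simp only [σ, Equiv.Perm.mul_apply, Equiv.swap_apply_left]
    set s := Equiv.swap (s₀ v) z * (Equiv.swap (s₀ u) w * s₀) with hs
    have hsS : s ∈ S := S.mul_mem (hsame _ _ hv) (S.mul_mem (hsame _ _ hu) hs₀)
    have hsu : s u = w := by
      simp only [hs, Equiv.Perm.mul_apply, Equiv.swap_apply_left]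
      exact Equiv.swap_apply_of_ne_of_ne (fun h => hf' (by rw [h, hv])) hwz
    have hsv : s v = z := by
      simp only [hs, Equiv.Perm.mul_apply]
      rw [Equiv.swap_apply_of_ne_of_ne (x := s₀ v) (fun h => hf' (by rw [← hu, ← hv, h])) (fun h => hf' (by rw [← hv, h])),
        Equiv.swap_apply_left]
    rw [← hsu, ← hsv, Equiv.swap_apply_apply]
    exact H.mul_mem (H.mul_mem (hH.le hsS) huvH) (H.inv_mem (hH.le hsS))

end Cfsg.Agent.S5905
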