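import Cfsg.Statements.S5908
import Cfsg.Agent.Lib.UThreeTwo.Structure
import Cfsg.Agent.S0282
-- import your own Cfsg.Agent.* helpers here

set_option autoImplicit false
open Cfsg

namespace Cfsg.Agent.S5908

/-- The subgroup lattice of PSU₃(2) (the solvable group of order 72, realised over the field with 4 elements) is not complemented: some subgroup H has no subgroup X with H ⊔ X = ⊤ and H ⊓ X = ⊥. -/
theorem result {F : Type*} [Field F] [Fintype F] (hF : Fintype.card F = 4) :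
    ¬ ComplementedLattice (Subgroup (Cfsg.PSU 3 F 2)) := by
  intro hc
  obtain ⟨N, hN, -, -, ⟨iso⟩⟩ := Cfsg.UThreeTwo.structure_thm hF
  let π : Cfsg.PSU 3 F 2 →* QuaternionGroup 2 := iso.toMonoidHom.comp (QuotientGroup.mk' N)
  have hπ : Function.Surjective π := iso.surjective.comp (QuotientGroup.mk'_surjective N)
  let H : Subgroup (Cfsg.PSU 3 F 2) := (Subgroup.zpowers (QuaternionGroup.a 2 : QuaternionGroup 2)).comap π
  obtain ⟨X, hX⟩ := hc.exists_isCompl H
  have hcard : Nat.card (Cfsg.PSU 3 F 2) = 72 := (Cfsg.Agent.S0282.result hF).1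
  haveI : Finite (Cfsg.PSU 3 F 2) := Nat.finite_of_card_ne_zero (by rw [hcard]; norm_num)
  have key : ∀ y : QuaternionGroup 2, y ^ 2 = 1 ∨ y ^ 3 = 1 → y = 1 ∨ y = QuaternionGroup.a 2 := by decide
  have hXbot : X = ⊥ := by
    by_contra hne
    obtain ⟨r, hr, hrd⟩ := Nat.exists_prime_and_dvd (n := Nat.card X) (fun h => hne (Subgroup.card_eq_one.1 h))
    haveI := Fact.mk hr
    obtain ⟨x, hx⟩ := exists_prime_orderOf_dvd_card' (G := X) r hrd
    have hxo : orderOf (x : Cfsg.PSU 3 F 2) = r := by rw [Subgroup.orderOf_coe]; exact hx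
    have hr72 : r ∣ 2 ^ 3 * 3 ^ 2 := by
      have := orderOf_dvd_natCard (x : Cfsg.PSU 3 F 2)
      rwa [hxo, hcard] at this
    have hr23 : r = 2 ∨ r = 3 := by
      rcases hr.dvd_mul.1 hr72 with h | h
      · exact Or.inl ((Nat.prime_dvd_prime_iff_eq hr Nat.prime_two).1 (hr.dvd_of_dvd_pow h))
      · exact Or.inr ((Nat.prime_dvd_prime_iff_eq hr Nat.prime_three).1 (hr.dvd_of_dvd_pow h))
    have hy : π x ^ r = 1 := by rw [← map_pow, ← hxo, pow_orderOf_eq_one, map_one]
    have hxH : (x : Cfsg.PSU 3 F 2) ∈ H := by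
      show π x ∈ Subgroup.zpowers _
      rcases key (π x) (by rcases hr23 with e | e <;> rw [e] at hy; exacts [Or.inl hy, Or.inr hy]) with e | e <;> rw [e]
      · exact Subgroup.one_mem _
      · exact Subgroup.mem_zpowers _
    have hx1 : (x : Cfsg.PSU 3 F 2) = 1 := Subgroup.mem_bot.1 (hX.disjoint.le_bot ⟨hxH, x.2⟩)
    rw [hx1, orderOf_one] at hxo
    exact hr.one_lt.ne hxo
  have hH : H = ⊤ := by simpa [hXbot] using hX.sup_eq_top
  obtain ⟨g, hg⟩ := hπ (QuaternionGroup.a 1)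
  obtain ⟨k, hk⟩ : π g ∈ Subgroup.zpowers (QuaternionGroup.a 2 : QuaternionGroup 2) := (hH ▸ Subgroup.mem_top g : g ∈ H)
  have h2 : ((QuaternionGroup.a 2 : QuaternionGroup 2) ^ k) ^ (2 : ℕ) = 1 := by
    rw [← zpow_natCast ((QuaternionGroup.a 2 : QuaternionGroup 2) ^ k), ← zpow_mul, mul_comm k, zpow_mul, zpow_natCast,
      show (QuaternionGroup.a 2 : QuaternionGroup 2) ^ 2 = 1 by decide, one_zpow]
  simp only at hk
  rw [hk, hg] at h2
  exact absurd h2 (by decide)

end Cfsg.Agent.S5908
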