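-- Proof of statement S5909.
import Cfsg.Statements.S5909
import Mathlib

set_option autoImplicit false
open Cfsg

namespace Cfsg.Agent.S5909

open Equiv MulAction
open scoped Pointwise

section aux

variable {Ω : Type*} [Fintype Ω] [DecidableEq Ω] {a b : ℕ} (f : Ω → Fin b)

/-- Preservation of the partition. -/
def Pres (g : Perm Ω) : Prop := ∀ x y : Ω, f x = f y ↔ f (g x) = f (g y)

omit [Fintype Ω] [DecidableEq Ω] in
lemma pres_of_closure {g : Perm Ω} (h : g ∈ Subgroup.closure {g : Perm Ω | ∀ x y : Ω, f x = f y ↔ f (g x) = f (g y)}) :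
    Pres f g := by
  induction h using Subgroup.closure_induction with
  | mem g hg => exact hg
  | one => exact fun x y => Iff.rfl
  | mul g g' _ _ hg hg' => exact fun x y => (hg' x y).trans (hg _ _)
  | inv g _ hg =>
    exact fun x y => by
      have := hg (g⁻¹ x) (g⁻¹ y)
      rw [show g (g⁻¹ x) = x from g.apply_symm_apply x, show g (g⁻¹ y) = y from g.apply_symm_apply y] at this
      exact this.symm

omit [Fintype Ω] in
lemma pres_swap {p q : Ω} (h : f p = f q) : Pres f (swap p q) := fun x y => by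
  have : ∀ z, f (swap p q z) = f z := fun z => by
    rcases eq_or_ne z p with rfl | h1
    · rw [swap_apply_left, h]
    · rcases eq_or_ne z q with rfl | h2
      · rw [swap_apply_right, h]
      · rw [swap_apply_of_ne_of_ne h1 h2]
  rw [this, this]

omit [Fintype Ω] [DecidableEq Ω] in
lemma pres_mul {g g' : Perm Ω} (hg : Pres f g) (hg' : Pres f g') : Pres f (g * g') :=
  fun x y => (hg' x y).trans (hg _ _)

omit [Fintype Ω] [DecidableEq Ω] in
lemma pres_inv {g : Perm Ω} (hg : Pres f g) : Pres f g⁻¹ := fun x y => by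
  have := hg (g⁻¹ x) (g⁻¹ y)
  rw [show g (g⁻¹ x) = x from g.apply_symm_apply x, show g (g⁻¹ y) = y from g.apply_symm_apply y] at this
  exact this.symm

variable (hf : ∀ i : Fin b, Nat.card {x : Ω // f x = i} = a)
include hf

lemma exists_equiv : ∃ E : Ω ≃ Fin b × Fin a, ∀ x, (E x).1 = f x := by
  refine ⟨((Equiv.sigmaFiberEquiv f).symm.trans (Equiv.sigmaCongrRight fun i => Finite.equivFinOfCardEq (hf i))).trans
    (Equiv.sigmaEquivProd _ _), fun x => rfl⟩

/-- An element preserving the partition, even, with `y ↦ y'`, fixing `x` when asked. -/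
lemma exists_move (ha : 2 ≤ a) (hb : 2 ≤ b) (y y' : Ω) (S : Finset Ω) (hS : ∀ x ∈ S, f x ≠ f y ∧ f x ≠ f y')
    (hp : ∃ p q, p ≠ q ∧ f p = f q ∧ p ∉ insert y' S ∧ q ∉ insert y' S) :
    ∃ σ ∈ alternatingGroup Ω, Pres f σ ∧ σ y = y' ∧ ∀ x ∈ S, σ x = x := by
  obtain ⟨E, hE⟩ := exists_equiv f hf
  let i := f y
  let j := f y'
  let P : Perm Ω := E.trans ((Equiv.prodCongr (swap i j) (Equiv.refl _)).trans E.symm)
  have hfP : ∀ z, f (P z) = swap i j (f z) := fun z => by
    rw [← hE, ← hE]; simp [P]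
  let τ := swap (P y) y' * P
  have hτf : f (P y) = f y' := by rw [hfP]; simp [i, j]
  have hP : Pres f P := fun x z => by rw [hfP, hfP, (swap i j).injective.eq_iff]
  have hτy : τ y = y' := by simp [τ]
  have hτS : ∀ x ∈ S, τ x = x := by
    intro x hx
    obtain ⟨h1, h2⟩ := hS x hx
    have hPx : P x = x := by
      apply E.injective
      simp only [P, Equiv.trans_apply, Equiv.apply_symm_apply, Equiv.prodCongr_apply, Equiv.coe_refl]
      refine Prod.ext ?_ rfl
      simp only [Prod.map_fst, hE]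
      exact swap_apply_of_ne_of_ne h1 h2
    show swap (P y) y' (P x) = x
    rw [hPx, swap_apply_of_ne_of_ne]
    · intro h; rw [h, hτf] at h2; exact h2 rfl
    · intro h; rw [h] at h2; exact h2 rfl
  have hτP : Pres f τ := pres_mul f (pres_swap f hτf) hP
  by_cases hs : Perm.sign τ = 1
  · exact ⟨τ, Equiv.Perm.mem_alternatingGroup.2 hs, hτP, hτy, hτS⟩
  · obtain ⟨p, q, hpq, hfpq, hp', hq'⟩ := hp
    simp only [Finset.mem_insert, not_or] at hp' hq'
    refine ⟨swap p q * τ, Equiv.Perm.mem_alternatingGroup.2 ?_, pres_mul f (pres_swap f hfpq) hτP, ?_, fun x hx => ?_⟩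
    · rw [map_mul, Perm.sign_swap hpq, (Int.units_eq_one_or _).resolve_left hs]; decide
    · show swap p q (τ y) = y'
      rw [hτy, swap_apply_of_ne_of_ne (Ne.symm hp'.1) (Ne.symm hq'.1)]
    · show swap p q (τ x) = x
      rw [hτS x hx, swap_apply_of_ne_of_ne (fun h : x = p => hp'.2 (h ▸ hx)) (fun h : x = q => hq'.2 (h ▸ hx))]

/-- Two points of a block avoiding given blocks or points. -/
lemma exists_pair (ha : 2 ≤ a) (i : Fin b) : ∃ p q, p ≠ q ∧ f p = i ∧ f q = i := by
  obtain ⟨E, hE⟩ := exists_equiv f hf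
  refine ⟨E.symm (i, ⟨0, by omega⟩), E.symm (i, ⟨1, by omega⟩), fun h => ?_, ?_, ?_⟩
  · simpa using E.symm.injective h
  · rw [← hE]; simp
  · rw [← hE]; simp

lemma exists_third (ha : 3 ≤ a) (x y : Ω) : ∃ z, z ≠ x ∧ z ≠ y ∧ f z = f x := by
  classical
  by_contra! h
  have : ({z : Ω | f z = f x} : Finset Ω) ⊆ {x, y} := fun z hz => by
    simp only [Finset.mem_filter, Finset.mem_univ, true_and] at hz
    simp only [Finset.mem_insert, Finset.mem_singleton]
    by_contra! h'
    exact h z h'.1 h'.2 hz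
  have h1 := Finset.card_le_card this
  have h2 : ({z : Ω | f z = f x} : Finset Ω).card = a := by
    rw [← hf (f x), Nat.card_eq_fintype_card, Fintype.card_subtype]
  have h3 : ({x, y} : Finset Ω).card ≤ 2 := Finset.card_le_two
  omega

lemma partner (ha : a = 2) : ∃ π : Perm Ω, (∀ x, π x ≠ x ∧ π (π x) = x ∧ f (π x) = f x) ∧
    ∀ x y, f x = f y → y = x ∨ y = π x := by
  obtain ⟨E, hE⟩ := exists_equiv f hf
  subst ha
  have h2 : ∀ k : Fin 2, k.rev ≠ k ∧ ∀ l : Fin 2, l = k ∨ l = k.rev := by decide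
  let π : Perm Ω := E.trans ((Equiv.prodCongr (Equiv.refl _) Fin.revPerm).trans E.symm)
  have hπ : ∀ x, π x = E.symm ((E x).1, (E x).2.rev) := fun x => by simp [π, Prod.map]
  refine ⟨π, fun x => ⟨fun h => (h2 (E x).2).1 ?_, ?_, ?_⟩, fun x y h => ?_⟩
  · rw [hπ, Equiv.symm_apply_eq] at h
    exact congrArg Prod.snd h
  · rw [hπ, hπ]; simp
  · rw [← hE, ← hE, hπ]; simp
  · rcases (h2 (E x).2).2 (E y).2 with e | e
    · exact Or.inl (E.injective (Prod.ext (by rw [hE, hE, h]) e))
    · right
      rw [hπ, Equiv.eq_symm_apply]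
      exact Prod.ext (by rw [hE, hE, h]) e

/-- With blocks of size two, a group above the stabiliser contains a three-cycle. -/
lemma three_cycle_two (ha : a = 2) (hn : Fintype.card Ω ≠ 8) (hn4 : Fintype.card Ω ≠ 4) (H : Subgroup (Perm Ω))
    (hN : ∀ σ ∈ alternatingGroup Ω, Pres f σ → σ ∈ H) {g : Perm Ω} (hg : g ∈ H) {x0 y0 : Ω}
    (hx0 : f x0 = f y0) (hsplit : f (g x0) ≠ f (g y0)) : ∃ c ∈ H, Perm.IsThreeCycle c := by
  obtain ⟨π, hπ, hblk⟩ := partner f hf ha
  have hpp : ∀ u, π (π u) = u := fun u => (hπ u).2.1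
  have hne : ∀ u, π u ≠ u := fun u => (hπ u).1
  have hfp : ∀ u, f (π u) = f u := fun u => (hπ u).2.2
  have key : ∀ h ∈ H, ∀ i j, f (h i) = f (h (π i)) → f (h j) ≠ f (h (π j)) → ∃ c ∈ H, Perm.IsThreeCycle c := by
    intro h hh i j hi hj
    have hij : f i ≠ f j := fun e => by
      rcases hblk i j e with rfl | rfl
      · exact hj hi
      · rw [hpp] at hj; exact hj hi.symm
    set u := h i
    set x := h j
    set y := h (π j)
    have hu' : h (π i) = π u := (hblk u (h (π i)) hi).resolve_left fun e => hne i (h.injective e)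
    have hsi : Perm.sign (swap i (π i) * swap j (π j)) = 1 := by
      rw [map_mul, Perm.sign_swap (hne i).symm, Perm.sign_swap (hne j).symm]; decide
    have hs := hN _ (Equiv.Perm.mem_alternatingGroup.2 hsi) (pres_mul f (pres_swap f (hfp i).symm) (pres_swap f (hfp j).symm))
    have hz : swap u (π u) * swap x y ∈ H := by
      have := H.mul_mem (H.mul_mem hh hs) (H.inv_mem hh)
      have e : h * (swap i (π i) * swap j (π j)) * h⁻¹ = swap u (π u) * swap x y := by
        rw [← hu', Equiv.swap_apply_apply, Equiv.swap_apply_apply]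
        group
      rwa [e] at this
    have hxy : x ≠ y := fun e => hne j (h.injective e).symm
    have hxu : x ≠ u := fun e => hij (congrArg f (h.injective e)).symm
    have hxu' : x ≠ π u := by
      rw [← hu']; exact fun e => hij (by rw [h.injective e, hfp])
    have hyu : y ≠ u := fun e => hij (by rw [← h.injective e, hfp])
    have hyu' : y ≠ π u := by
      rw [← hu']; exact fun e => hij (by rw [← hfp i, ← h.injective e, hfp])
    have hyx : y ≠ π x := fun e => hj (show f x = f y by rw [e, hfp])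
    have hsc : Perm.sign (swap u (π u) * swap x (π x)) = 1 := by
      rw [map_mul, Perm.sign_swap (hne u).symm, Perm.sign_swap (hne x).symm]; decide
    have hc := hN _ (Equiv.Perm.mem_alternatingGroup.2 hsc) (pres_mul f (pres_swap f (hfp u).symm) (pres_swap f (hfp x).symm))
    refine ⟨_, H.mul_mem hz hc, ?_⟩
    have hcomm : swap u (π u) * swap x y = swap x y * swap u (π u) := by
      refine Perm.Disjoint.commute fun z => ?_
      rcases eq_or_ne z u with rfl | h1
      · exact Or.inr (swap_apply_of_ne_of_ne hxu.symm hyu.symm)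
      rcases eq_or_ne z (π u) with rfl | h2
      · exact Or.inr (swap_apply_of_ne_of_ne hxu'.symm hyu'.symm)
      · exact Or.inl (swap_apply_of_ne_of_ne h1 h2)
    have e : swap u (π u) * swap x y * (swap u (π u) * swap x (π x)) = swap x y * swap x (π x) := by
      rw [hcomm, mul_assoc, ← mul_assoc (swap u (π u)), swap_mul_self, one_mul]
    rw [e]
    exact Perm.isThreeCycle_swap_mul_swap_same hxy (hne x).symm hyx
  by_cases hall : ∃ i, f (g i) = f (g (π i))
  · obtain ⟨i, hi⟩ := hall
    refine key g hg i x0 hi ?_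
    rcases hblk x0 y0 hx0 with rfl | rfl
    · exact absurd rfl hsplit
    · exact hsplit
  push Not at hall
  -- the transported matching
  let m : Perm Ω := g * π * g⁻¹
  have hmm : ∀ u, m (m u) = u := fun u => by simp [m, hpp]
  have hmne : ∀ u, m u ≠ u := fun u h => hne (g⁻¹ u) (g.injective (by simpa [m] using h))
  have hmp : ∀ u, m u ≠ π u := fun u h => hall (g⁻¹ u) (by
    rw [show g (g⁻¹ u) = u by simp, show g (π (g⁻¹ u)) = m u from rfl, h, hfp])
  have hgm : ∀ u, g⁻¹ (m u) = π (g⁻¹ u) := fun u => by simp [m]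
  have hgg : ∀ z, g (g⁻¹ z) = z := fun z => g.apply_symm_apply z
  have hfg : ∀ p q, f (g⁻¹ p) = f (g⁻¹ q) → q = p ∨ q = m p := fun p q h => by
    rcases hblk _ _ h with e | e
    · exact Or.inl (g⁻¹.injective e)
    · exact Or.inr (g⁻¹.injective (by rw [e, hgm]))
  by_cases hcom : ∃ u, m (π u) ≠ π (m u)
  · obtain ⟨u, hu⟩ := hcom
    obtain ⟨x, hx⟩ : ∃ x, x = m u := ⟨_, rfl⟩
    obtain ⟨y, hy⟩ : ∃ y, y = m (π u) := ⟨_, rfl⟩
    rw [← hx, ← hy] at hu
    have hxu : x ≠ u := hx ▸ hmne u
    have hxu' : x ≠ π u := hx ▸ hmp u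
    have hσs : Perm.sign (swap u x * swap (π u) (π x)) = 1 := by
      rw [map_mul, Perm.sign_swap hxu.symm, Perm.sign_swap (π.injective.ne hxu.symm)]; decide
    have hσp : Pres f (swap u x * swap (π u) (π x)) := by
      have hc : ∀ z, (swap u x * swap (π u) (π x)) (π z) = π ((swap u x * swap (π u) (π x)) z) := by
        have h1 : π * swap u x * π⁻¹ = swap (π u) (π x) := by rw [Equiv.swap_apply_apply]
        have h2 : π * swap (π u) (π x) * π⁻¹ = swap u x := by rw [← Equiv.swap_apply_apply, hpp, hpp]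
        have hcomm : swap u x * swap (π u) (π x) = swap (π u) (π x) * swap u x := by
          refine Perm.Disjoint.commute fun z => ?_
          rcases eq_or_ne z u with rfl | h1
          · exact Or.inr (swap_apply_of_ne_of_ne (hne _).symm (fun e => hxu' (by rw [e, hpp])))
          rcases eq_or_ne z x with rfl | h2
          · exact Or.inr (swap_apply_of_ne_of_ne hxu' (hne _).symm)
          · exact Or.inl (swap_apply_of_ne_of_ne h1 h2)
        have h3 : π * (swap u x * swap (π u) (π x)) * π⁻¹ = swap u x * swap (π u) (π x) :=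
          calc _ = (π * swap u x * π⁻¹) * (π * swap (π u) (π x) * π⁻¹) := by group
            _ = _ := by rw [h1, h2, hcomm]
        intro z
        conv_lhs => rw [← h3]
        simp
      set σ := swap u x * swap (π u) (π x)
      intro p q
      constructor
      · intro h
        rcases hblk p q h with rfl | rfl
        · rfl
        · rw [hc, hfp]
      · intro h
        rcases hblk _ _ h with e | e
        · rw [σ.injective e]
        · rw [← hc] at e; rw [σ.injective e, hfp]
    have hσ := hN _ (Equiv.Perm.mem_alternatingGroup.2 hσs) hσp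
    set σ := swap u x * swap (π u) (π x) with hσdef
    have hσu : σ u = x := by
      show swap u x (swap (π u) (π x) u) = x
      rw [swap_apply_of_ne_of_ne (hne u).symm (fun e => hxu' (by rw [e, hpp])), swap_apply_left]
    have hσx : σ x = u := by
      show swap u x (swap (π u) (π x) x) = u
      rw [swap_apply_of_ne_of_ne hxu' (hne x).symm, swap_apply_right]
    refine key _ (H.mul_mem (H.mul_mem (H.inv_mem hg) hσ) hg) (g⁻¹ u) (g⁻¹ (π u)) ?_ ?_
    · rw [← hgm]
      simp only [Perm.mul_apply, hgg, ← hx, hσu, hσx]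
      rw [hx, hgm, hfp]
    · rw [← hgm]
      simp only [Perm.mul_apply, hgg, ← hy]
      intro h
      have hσu' : σ (π u) = π x := by
        show swap u x (swap (π u) (π x) (π u)) = π x
        rw [swap_apply_left, swap_apply_of_ne_of_ne (fun e => hxu' (by rw [← e, hpp])) (hne x)]
      have hyu : y ≠ u := fun e => hxu' (by
        have := congrArg m (hy.symm.trans e)
        rw [hmm] at this
        rw [hx, this])
      have hyx : y ≠ x := fun e => hne u (m.injective (hy.symm.trans (e.trans hx)))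
      have hyu' : y ≠ π u := hy ▸ hmne _
      have hσy : σ y = y := by
        show swap u x (swap (π u) (π x) y) = y
        rw [swap_apply_of_ne_of_ne hyu' hu, swap_apply_of_ne_of_ne hyu hyx]
      rw [hσu', hσy] at h
      rcases hfg _ _ h with e | e
      · exact hu e
      · exact hxu (π.injective (m.injective (hy.symm.trans e))).symm
  · push Not at hcom
    -- two commuting matchings: use three quadrangles
    let quad : Ω → Finset Ω := fun u => {u, π u, m u, π (m u)}
    have hqc : ∀ u, (quad u).card = 4 := fun u => by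
      have h1 : u ≠ π u := (hne u).symm
      have h2 : u ≠ m u := (hmne u).symm
      have h3 : u ≠ π (m u) := fun e => hmp u (by rw [← hpp (m u), ← e])
      have h4 : π u ≠ m u := (hmp u).symm
      have h5 : π u ≠ π (m u) := π.injective.ne h2
      have h6 : m u ≠ π (m u) := (hne _).symm
      simp [quad, h1, h2, h3, h4, h5, h6]
    have hqπ : ∀ u z, z ∈ quad u → π z ∈ quad u := fun u z hz => by
      simp only [quad, Finset.mem_insert, Finset.mem_singleton] at hz ⊢
      rcases hz with rfl | rfl | rfl | rfl <;> simp [hpp]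
    have hqm : ∀ u z, z ∈ quad u → m z ∈ quad u := fun u z hz => by
      simp only [quad, Finset.mem_insert, Finset.mem_singleton] at hz ⊢
      rcases hz with rfl | rfl | rfl | rfl <;> simp [hmm, hcom]
    have hself : ∀ u, u ∈ quad u := fun u => by simp [quad]
    have hdis : ∀ u w, w ∉ quad u → Disjoint (quad u) (quad w) := fun u w hw => by
      rw [Finset.disjoint_right]
      intro z hz hz'
      simp only [quad, Finset.mem_insert, Finset.mem_singleton] at hz
      rcases hz with rfl | rfl | rfl | rfl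
      · exact hw hz'
      · exact hw (hpp w ▸ hqπ u _ hz')
      · exact hw (hmm w ▸ hqm u _ hz')
      · exact hw (hmm w ▸ hqm u _ (hpp (m w) ▸ hqπ u _ hz'))
    obtain ⟨u⟩ : Nonempty Ω := ⟨x0⟩
    obtain ⟨w, hw⟩ : ∃ w, w ∉ quad u := by
      by_contra! h
      refine hn4 ?_
      rw [← hqc u, ← Finset.card_univ]
      exact congrArg Finset.card (Finset.eq_univ_of_forall h).symm
    obtain ⟨p, hp⟩ : ∃ p, p ∉ quad u ∪ quad w := by
      by_contra! h
      refine hn ?_
      rw [← Finset.card_univ, ← Finset.eq_univ_of_forall h, Finset.card_union_of_disjoint (hdis u w hw), hqc, hqc]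
    simp only [Finset.mem_union, not_or] at hp
    have hσs : Perm.sign (swap u (π u) * swap w (π w)) = 1 := by
      rw [map_mul, Perm.sign_swap (hne u).symm, Perm.sign_swap (hne w).symm]; decide
    have hσ := hN _ (Equiv.Perm.mem_alternatingGroup.2 hσs) (pres_mul f (pres_swap f (hfp u).symm) (pres_swap f (hfp w).symm))
    set σ := swap u (π u) * swap w (π w) with hσdef
    have hfix : ∀ z, z ∉ quad u → z ∉ quad w → σ z = z := fun z h1 h2 => by
      show swap u (π u) (swap w (π w) z) = z
      rw [swap_apply_of_ne_of_ne (fun e : z = w => h2 (e ▸ hself w)) (fun e : z = π w => h2 (e ▸ hqπ w _ (hself w))),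
        swap_apply_of_ne_of_ne (fun e : z = u => h1 (e ▸ hself u)) (fun e : z = π u => h1 (e ▸ hqπ u _ (hself u)))]
    refine key _ (H.mul_mem (H.mul_mem (H.inv_mem hg) hσ) hg) (g⁻¹ p) (g⁻¹ u) ?_ ?_
    · rw [← hgm]
      simp only [Perm.mul_apply, hgg]
      rw [hfix p hp.1 hp.2, hfix (m p) (fun h => hp.1 (hmm p ▸ hqm u _ h)) (fun h => hp.2 (hmm p ▸ hqm w _ h)), hgm, hfp]
    · rw [← hgm]
      simp only [Perm.mul_apply, hgg]
      intro h
      have hwq : ∀ z ∈ quad u, z ≠ w ∧ z ≠ π w := fun z hz => ⟨fun e => hw (e ▸ hz), fun e => hw (hpp w ▸ hqπ u _ (e ▸ hz))⟩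
      have e1 : σ u = π u := by
        show swap u (π u) (swap w (π w) u) = π u
        rw [swap_apply_of_ne_of_ne (hwq u (hself u)).1 (hwq u (hself u)).2, swap_apply_left]
      have e2 : σ (m u) = m u := by
        show swap u (π u) (swap w (π w) (m u)) = m u
        rw [swap_apply_of_ne_of_ne (hwq _ (hqm u _ (hself u))).1 (hwq _ (hqm u _ (hself u))).2,
          swap_apply_of_ne_of_ne (hmne u) (hmp u)]
      rw [e1, e2] at h
      rcases hfg _ _ h with e | e
      · exact hmp u e
      · exact hne u (m.injective e).symm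

end aux

/-- Let Ω be a finite set whose size is not 8, and f : Ω → Fin b a labelling with b ≥ 2 whose fibres all have the same size a ≥ 2 (a partition into b blocks of size a). Then the even permutations preserving the partition — the intersection of the imprimitive wreath product S_a ≀ S_b with the alternating group — form a maximal subgroup of the alternating group on Ω. -/
theorem result {Ω : Type*} [Fintype Ω] [DecidableEq Ω] (h8 : Fintype.card Ω ≠ 8) (a b : ℕ) (ha : 2 ≤ a) (hb : 2 ≤ b)
    (f : Ω → Fin b) (hf : ∀ i : Fin b, Nat.card {x : Ω // f x = i} = a) :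
    IsCoatom ((Subgroup.closure {g : Equiv.Perm Ω | ∀ x y : Ω, f x = f y ↔ f (g x) = f (g y)} ⊓ alternatingGroup Ω).subgroupOf (alternatingGroup Ω)) := by
  classical
  obtain ⟨E, hE⟩ := exists_equiv f hf
  have hcard : Fintype.card Ω = b * a := by rw [Fintype.card_congr E]; simp
  have other : ∀ i : Fin b, ∃ j, j ≠ i := fun i => by
    haveI : Nontrivial (Fin b) := Fin.nontrivial_iff_two_le.2 hb
    exact exists_ne i
  constructor
  · intro h
    obtain ⟨p, q, hpq, hp, hq⟩ := exists_pair f hf ha ⟨0, by omega⟩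
    obtain ⟨r, s, hrs, hr, hs⟩ := exists_pair f hf ha ⟨1, by omega⟩
    have h1 : Perm.IsThreeCycle (swap p q * swap p r) :=
      Perm.isThreeCycle_swap_mul_swap_same hpq (fun e => by rw [e, hr] at hp; simp at hp) (fun e => by rw [e, hr] at hq; simp at hq)
    have hmem : (⟨_, h1.mem_alternatingGroup⟩ : alternatingGroup Ω) ∈
        (Subgroup.closure {g : Equiv.Perm Ω | ∀ x y : Ω, f x = f y ↔ f (g x) = f (g y)} ⊓ alternatingGroup Ω).subgroupOf (alternatingGroup Ω) := by
      rw [h]; trivial
    have hP := pres_of_closure f (Subgroup.mem_inf.1 (Subgroup.mem_subgroupOf.1 hmem)).1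
    have hsp : s ≠ p := fun e => by rw [e, hp] at hs; simp at hs
    have hsq : s ≠ q := fun e => by rw [e, hq] at hs; simp at hs
    have hrq : r ≠ q := fun e => by rw [e, hq] at hr; simp at hr
    have := (hP r s).1 (hr.trans hs.symm)
    simp only [Perm.mul_apply, swap_apply_right, swap_apply_left] at this
    rw [swap_apply_of_ne_of_ne hsp hrs.symm, swap_apply_of_ne_of_ne hsp hsq, hq, hs] at this
    simp at this
  intro K hK
  set H : Subgroup (Perm Ω) := K.map (alternatingGroup Ω).subtype with hH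
  have hHA : H ≤ alternatingGroup Ω := Subgroup.map_subtype_le K
  have hN : ∀ σ ∈ alternatingGroup Ω, Pres f σ → σ ∈ H := fun σ hσ hp =>
    ⟨⟨σ, hσ⟩, hK.le (Subgroup.mem_subgroupOf.2 (Subgroup.mem_inf.2 ⟨Subgroup.subset_closure hp, hσ⟩)), rfl⟩
  obtain ⟨g₀, hg₀K, hg₀⟩ := SetLike.exists_of_lt hK
  have hg₀H : (g₀ : Perm Ω) ∈ H := ⟨g₀, hg₀K, rfl⟩
  have hnp : ¬ Pres f (g₀ : Perm Ω) := fun h =>
    hg₀ (Subgroup.mem_subgroupOf.2 (Subgroup.mem_inf.2 ⟨Subgroup.subset_closure h, g₀.2⟩))
  obtain ⟨g, hg, x0, y0, hxy0, hsplit⟩ : ∃ g ∈ H, ∃ x y, f x = f y ∧ f (g x) ≠ f (g y) := by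
    by_contra! hcon
    refine hnp fun x y => ⟨hcon _ hg₀H x y, fun h => ?_⟩
    have := hcon _ (H.inv_mem hg₀H) _ _ h
    simpa using this
  have htrans : ∀ y y' : Ω, ∃ σ ∈ H, Pres f σ ∧ σ y = y' := fun y y' => by
    obtain ⟨j, hj⟩ := other (f y')
    obtain ⟨p, q, hpq, hp, hq⟩ := exists_pair f hf ha j
    obtain ⟨σ, hσA, hσP, hσy, -⟩ := exists_move f hf ha hb y y' ∅ (by simp) ⟨p, q, hpq, hp.trans hq.symm,
      fun e => hj (by rw [← hp, show p = y' by simpa using e]),
      fun e => hj (by rw [← hq, show q = y' by simpa using e])⟩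
    exact ⟨σ, hN σ hσA hσP, hσP, hσy⟩
  suffices hA : alternatingGroup Ω ≤ H by
    refine eq_top_iff.2 fun x _ => ?_
    obtain ⟨y, hy, e⟩ := hA x.2
    rwa [← Subtype.ext e]
  haveI : Nontrivial Ω := by
    rw [← Fintype.one_lt_card_iff_nontrivial, hcard]
    calc 1 < 2 * 2 := by norm_num
      _ ≤ b * a := Nat.mul_le_mul hb ha
  by_cases hn4 : Fintype.card Ω = 4
  · obtain ⟨σ, hσ, hσP, hσu⟩ := htrans (g x0) x0
    have hkH : σ * g ∈ H := H.mul_mem hσ hg
    have hk0 : (σ * g) x0 = x0 := hσu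
    have hk1 : σ * g ≠ 1 := fun h => by
      refine hsplit ?_
      rw [show g = σ⁻¹ from eq_inv_of_mul_eq_one_right h]
      exact (pres_inv f hσP x0 y0).1 hxy0
    have h3 : Perm.IsThreeCycle (σ * g) := by
      rw [← card_support_eq_three_iff]
      have h1 : (σ * g).support.card ≠ 1 := Perm.card_support_ne_one _
      have h0 : (σ * g).support.card ≠ 0 := fun h => hk1 (Perm.card_support_eq_zero.1 h)
      have hle : (σ * g).support.card ≤ 3 := by
        have := Finset.card_lt_card (Finset.ssubset_univ_iff.2 fun h : (σ * g).support = Finset.univ =>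
          Perm.notMem_support.2 hk0 (h ▸ Finset.mem_univ x0))
        rw [Finset.card_univ, hn4] at this
        omega
      have h2 : (σ * g).support.card ≠ 2 := fun h => by
        have := (Perm.card_support_eq_two.1 h).sign_eq
        rw [Equiv.Perm.mem_alternatingGroup.1 (hHA hkH)] at this
        simp at this
      omega
    haveI : MulAction.IsPretransitive H Ω := ⟨fun x y => by
      obtain ⟨τ, hτ, -, h⟩ := htrans x y; exact ⟨⟨τ, hτ⟩, h⟩⟩
    have hd4 : 4 ∣ Nat.card H := by
      have h := MulAction.index_stabilizer_of_transitive H x0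
      rw [Nat.card_eq_fintype_card, hn4] at h
      exact h ▸ (MulAction.stabilizer H x0).index_dvd_card
    have hd3 : 3 ∣ Nat.card H := by
      rw [← h3.orderOf, ← Subgroup.orderOf_mk _ hkH]
      exact orderOf_dvd_natCard _
    have hA12 : Nat.card (alternatingGroup Ω) = 12 := by
      rw [nat_card_alternatingGroup, Nat.card_eq_fintype_card, hn4]
      rfl
    refine (Subgroup.eq_of_le_of_card_ge hHA ?_).ge
    rw [hA12]
    exact Nat.le_of_dvd Nat.card_pos (Nat.Coprime.mul_dvd_of_dvd_of_dvd (by decide : Nat.Coprime 3 4) hd3 hd4)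
  have hc : ∃ c ∈ H, Perm.IsThreeCycle c := by
    by_cases ha2 : a = 2
    · exact three_cycle_two f hf ha2 h8 hn4 H hN hg hxy0 hsplit
    · obtain ⟨p, q, hpq, hp, hq⟩ := exists_pair f hf ha ⟨0, by omega⟩
      obtain ⟨r, hrp, hrq, hr⟩ := exists_third f hf (by omega) p q
      have h3 := Perm.isThreeCycle_swap_mul_swap_same hpq hrp.symm hrq.symm
      exact ⟨_, hN _ h3.mem_alternatingGroup (pres_mul f (pres_swap f (hp.trans hq.symm)) (pres_swap f hr.symm)), h3⟩
  obtain ⟨c, hcH, hc3⟩ := hc
  refine Equiv.Perm.alternatingGroup_le_of_isPreprimitive_of_isThreeCycle_mem ?_ hc3 hcH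
  haveI : MulAction.IsPretransitive H Ω := ⟨fun x y => by
    obtain ⟨τ, hτ, -, h⟩ := htrans x y; exact ⟨⟨τ, hτ⟩, h⟩⟩
  refine { isTrivialBlock_of_isBlock := @fun B hB => ?_ }
  by_contra hnt
  rw [IsTrivialBlock, not_or] at hnt
  obtain ⟨hsub, huniv⟩ := hnt
  rw [Set.not_subsingleton_iff] at hsub
  obtain ⟨x, hx, y, hy, hxy⟩ := hsub
  have hfix : ∀ σ ∈ H, ∀ u ∈ B, σ u ∈ B → ∀ v ∈ B, σ v ∈ B := by
    intro σ hσ u hu hσu v hv
    have h := hB.smul_eq_of_nonempty (g := (⟨σ, hσ⟩ : H)) ⟨σ u, Set.smul_mem_smul_set (a := (⟨σ, hσ⟩ : H)) hu, hσu⟩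
    rw [← h]
    exact Set.smul_mem_smul_set (a := (⟨σ, hσ⟩ : H)) hv
  have hout : ∀ u ∈ B, ∀ v ∈ B, f v ≠ f u → ∀ v', f v' ≠ f u → v' ∈ B := by
    intro u hu v hv hvu v' hv'u
    have hp : ∃ p q, p ≠ q ∧ f p = f q ∧ p ∉ insert v' ({u} : Finset Ω) ∧ q ∉ insert v' ({u} : Finset Ω) := by
      simp only [Finset.mem_insert, Finset.mem_singleton, not_or]
      by_cases hb3 : 3 ≤ b
      · obtain ⟨j, -, hj⟩ := Finset.exists_mem_notMem_of_card_lt_card (s := {f u, f v'}) (t := Finset.univ)
          (lt_of_le_of_lt Finset.card_le_two (by simp; omega))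
        simp only [Finset.mem_insert, Finset.mem_singleton, not_or] at hj
        obtain ⟨p, q, hpq, hp, hq⟩ := exists_pair f hf ha j
        exact ⟨p, q, hpq, hp.trans hq.symm, ⟨fun e => hj.2 (by rw [← hp, e]), fun e => hj.1 (by rw [← hp, e])⟩,
          fun e => hj.2 (by rw [← hq, e]), fun e => hj.1 (by rw [← hq, e])⟩
      · have ha3 : 3 ≤ a := by
          by_contra h
          refine hn4 ?_
          rw [hcard, show a = 2 by omega, show b = 2 by omega]
        obtain ⟨p, hpu, -, hp⟩ := exists_third f hf ha3 u u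
        obtain ⟨q, hqu, hqp, hq⟩ := exists_third f hf ha3 u p
        exact ⟨p, q, hqp.symm, hp.trans hq.symm, ⟨fun e => hv'u (by rw [← e, hp]), hpu⟩, fun e => hv'u (by rw [← e, hq]), hqu⟩
    obtain ⟨σ, hσA, hσP, hσv, hσu⟩ := exists_move f hf ha hb v v' {u}
      (fun z hz => by rw [Finset.mem_singleton.1 hz]; exact ⟨hvu.symm, hv'u.symm⟩) hp
    have h1 : σ u ∈ B := by rw [hσu u (Finset.mem_singleton_self u)]; exact hu
    exact hσv ▸ hfix σ (hN σ hσA hσP) u hu h1 v hv
  by_cases hcross : ∃ v ∈ B, f v ≠ f x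
  · obtain ⟨v, hv, hvx⟩ := hcross
    refine huniv (Set.eq_univ_of_forall fun w => ?_)
    rcases eq_or_ne (f w) (f x) with e | e
    · exact hout v hv x hx hvx.symm w (e ▸ hvx.symm)
    · exact hout x hx v hv hvx w e
  push Not at hcross
  have hBX : ∀ w, w ∈ B ↔ f w = f x := by
    refine fun w => ⟨hcross w, fun hw => ?_⟩
    rcases eq_or_ne w x with rfl | hwx
    · exact hx
    by_cases ha2 : a = 2
    · obtain ⟨π, -, hblk⟩ := partner f hf ha2
      have h1 := (hblk x y (hcross y hy).symm).resolve_left hxy.symm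
      have h2 := (hblk x w hw.symm).resolve_left hwx
      exact h2 ▸ h1 ▸ hy
    rcases eq_or_ne w y with rfl | hwy
    · exact hy
    obtain ⟨j, hj⟩ := other (f x)
    obtain ⟨p, q, hpq, hp, hq⟩ := exists_pair f hf ha j
    have hne : ∀ r, f r = f x → r ≠ p ∧ r ≠ q := fun r hr => ⟨fun e => hj (by rw [← hp, ← e, hr]), fun e => hj (by rw [← hq, ← e, hr])⟩
    have hσ : swap p q * swap y w ∈ H := hN _ (Equiv.Perm.mem_alternatingGroup.2 (by
      rw [map_mul, Perm.sign_swap hpq, Perm.sign_swap hwy.symm]; decide))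
      (pres_mul f (pres_swap f (hp.trans hq.symm)) (pres_swap f ((hcross y hy).trans hw.symm)))
    have hσx : (swap p q * swap y w) x = x := by
      rw [Perm.mul_apply, swap_apply_of_ne_of_ne hxy hwx.symm, swap_apply_of_ne_of_ne (hne x rfl).1 (hne x rfl).2]
    have := hfix _ hσ x hx (by rw [hσx]; exact hx) y hy
    rwa [Perm.mul_apply, swap_apply_left, swap_apply_of_ne_of_ne (hne w hw).1 (hne w hw).2] at this
  obtain ⟨σ, hσ, hσP, hσx⟩ := htrans x x0
  obtain ⟨τ, hτ, hτP, hτx⟩ := htrans (g x0) x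
  have hy0 : f (σ⁻¹ y0) = f x := by
    have := (pres_inv f hσP x0 y0).1 hxy0
    rw [← this, ← hσx]
    simp
  have h1 := hfix (τ * g * σ) (H.mul_mem (H.mul_mem hτ hg) hσ) x hx
    (by rw [Perm.mul_apply, Perm.mul_apply, hσx, hτx]; exact hx) (σ⁻¹ y0) ((hBX _).2 hy0)
  have h2 := (hBX _).1 h1
  simp only [Perm.mul_apply, show σ (σ⁻¹ y0) = y0 from σ.apply_symm_apply y0] at h2
  refine hsplit ((hτP _ _).2 ?_)
  rw [hτx, h2]

end Cfsg.Agent.S5909
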