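import Cfsg.Statements.S5910
import Mathlib

set_option autoImplicit false
open Cfsg
open scoped Matrix

namespace Cfsg.Agent.S5910

/-- Let Ω be a set with 8 elements and f : Ω → Fin 4 a labelling whose four fibres all have size 2 (a partition of the 8 points into 4 pairs). Then the group of even permutations preserving this partition, (S₂ ≀ S₄) ∩ A₈, is not a maximal subgroup of the alternating group A₈ (it lies in a subgroup isomorphic to the affine group AGL₃(2)). -/
theorem result {Ω : Type*} [Fintype Ω] [DecidableEq Ω] (h8 : Fintype.card Ω = 8)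
    (f : Ω → Fin 4) (hf : ∀ i : Fin 4, Nat.card {x : Ω // f x = i} = 2) :
    ¬ IsCoatom ((Subgroup.closure {g : Equiv.Perm Ω | ∀ x y : Ω, f x = f y ↔ f (g x) = f (g y)} ⊓ alternatingGroup Ω).subgroupOf (alternatingGroup Ω)) := by
  classical
  set S := Subgroup.closure {g : Equiv.Perm Ω | ∀ x y : Ω, f x = f y ↔ f (g x) = f (g y)} with hS
  have hmem : ∀ g ∈ S, ∀ x y : Ω, f x = f y ↔ f (g x) = f (g y) := by
    intro g hg
    induction hg using Subgroup.closure_induction with
    | mem g hg => exact hg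
    | one => simp
    | mul g h _ _ hg hh => intro x y; exact (hh x y).trans (hg _ _)
    | inv g _ hg => intro x y; simpa using (hg (g⁻¹ x) (g⁻¹ y)).symm
  have k : Fin 4 ≃ ZMod 2 × ZMod 2 := (Fintype.equivFinOfCardEq (by simp)).symm
  have e' : ∀ i : Fin 4, Nonempty ({x : Ω // f x = i} ≃ ZMod 2) := fun i => by
    obtain ⟨e⟩ : Nonempty ({x : Ω // f x = i} ≃ Fin 2) := by rw [← hf i]; exact ⟨Finite.equivFin _⟩
    exact ⟨e⟩
  let E : Ω ≃ (ZMod 2 × ZMod 2) × ZMod 2 :=
    (Equiv.sigmaFiberEquiv f).symm.trans (((Equiv.sigmaCongrRight fun i => (e' i).some).trans (Equiv.sigmaEquivProd _ _)).trans (Equiv.prodCongr k (Equiv.refl _)))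
  have hE : ∀ x, (E x).1 = k (f x) := fun x => rfl
  let M : Subgroup (Equiv.Perm Ω) :=
    { carrier := {g | ∀ a b c, E (g (E.symm (a + b + c))) = E (g (E.symm a)) + E (g (E.symm b)) + E (g (E.symm c))}
      one_mem' := fun a b c => by simp
      mul_mem' := fun {g h} hg hh a b c => by
        have := hg (E (h (E.symm a))) (E (h (E.symm b))) (E (h (E.symm c)))
        rw [← hh, E.symm_apply_apply, E.symm_apply_apply, E.symm_apply_apply, E.symm_apply_apply] at this
        simpa using this
      inv_mem' := fun {g} hg a b c => by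
        have := hg (E (g⁻¹ (E.symm a))) (E (g⁻¹ (E.symm b))) (E (g⁻¹ (E.symm c)))
        simp at this
        rw [← this]
        simp }
  have hperm : ∀ σ : Equiv.Perm (ZMod 2 × ZMod 2), ∀ a b c, σ (a + b + c) = σ a + σ b + σ c := by decide +kernel
  have hfun : ∀ ε : ZMod 2 × ZMod 2 → ZMod 2, ε (0, 0) + ε (0, 1) + ε (1, 0) + ε (1, 1) = 0 → ∀ a b c, ε (a + b + c) = ε a + ε b + ε c := by decide +kernel
  have hsub : S ⊓ alternatingGroup Ω ≤ M := by
    rintro g ⟨hgS, hgA⟩
    let G := E.permCongr g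
    have hb : ∀ p q, p.1 = q.1 → (G p).1 = (G q).1 := by
      intro p q h
      have := (hmem g hgS (E.symm p) (E.symm q)).1 (k.injective (by rw [← hE, ← hE, E.apply_symm_apply, E.apply_symm_apply, h]))
      simpa [G, Equiv.permCongr_apply, hE] using congrArg k this
    have hσinj : Function.Injective fun i => (G (i, (0 : ZMod 2))).1 := by
      rw [Finite.injective_iff_surjective]
      intro j
      refine ⟨(G.symm (j, 0)).1, ?_⟩
      show (G ((G.symm (j, 0)).1, 0)).1 = j
      rw [hb ((G.symm (j, 0)).1, 0) (G.symm (j, 0)) rfl, G.apply_symm_apply]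
    let σ : Equiv.Perm (ZMod 2 × ZMod 2) := Equiv.ofBijective _ ⟨hσinj, Finite.injective_iff_surjective.1 hσinj⟩
    let ε : ZMod 2 × ZMod 2 → ZMod 2 := fun i => (G (i, 0)).2
    have h1 : ∀ p, (G p).1 = σ p.1 := fun p => hb p (p.1, 0) rfl
    have h2 : ∀ p, (G p).2 = p.2 + ε p.1 := by
      rintro ⟨i, s⟩
      have hne : ∀ u v : ZMod 2, u ≠ v → u = 1 + v := by decide
      have hs : s = 0 ∨ s = 1 := by revert s; decide
      rcases hs with rfl | rfl
      · simp [ε]
      · refine hne _ _ fun h => ?_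
        have := G.injective (Prod.ext (h1 (i, 1) |>.trans (h1 (i, 0)).symm) h)
        simp at this
    have hG : G = (Equiv.prodCongr σ (Equiv.refl _)) * Equiv.prodCongrRight (fun i => Equiv.addRight (ε i)) :=
      Equiv.ext fun p => Prod.ext (by simp [h1, Equiv.prodCongrRight]) (by simp [h2, Equiv.prodCongrRight])
    have hsgn : Equiv.Perm.sign G = 1 := by
      simp only [G, Equiv.Perm.sign_permCongr]
      exact hgA
    have hleft : Equiv.prodCongr σ (Equiv.refl (ZMod 2)) = Equiv.prodCongrLeft (fun _ : ZMod 2 => σ) := Equiv.ext fun p => rfl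
    rw [hG, map_mul, hleft, Equiv.Perm.sign_prodCongrLeft, Equiv.Perm.sign_prodCongrRight, Finset.prod_const, Finset.card_univ, ZMod.card, Int.units_sq, one_mul] at hsgn
    have hadd : ∀ t : ZMod 2, Equiv.Perm.sign (Equiv.addRight t) = if t = 0 then 1 else -1 := by decide +kernel
    simp only [hadd] at hsgn
    have hsum : ε (0, 0) + ε (0, 1) + ε (1, 0) + ε (1, 1) = 0 := by
      have : ∀ δ : ZMod 2 × ZMod 2 → ZMod 2, (∏ i, if δ i = 0 then (1 : ℤˣ) else -1) = 1 → δ (0, 0) + δ (0, 1) + δ (1, 0) + δ (1, 1) = 0 := by decide +kernel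
      exact this ε hsgn
    intro a b c
    show G (a + b + c) = G a + G b + G c
    refine Prod.ext ?_ ?_
    · simp only [Prod.fst_add, h1]
      exact hperm σ _ _ _
    · simp only [Prod.snd_add, Prod.fst_add, h2, hfun ε hsum]
      abel
  let r : Equiv.Perm ((ZMod 2 × ZMod 2) × ZMod 2) :=
    { toFun := fun p => ((p.1.2, p.2), p.1.1), invFun := fun p => ((p.2, p.1.1), p.1.2), left_inv := fun p => rfl, right_inv := fun p => rfl }
  let g : Equiv.Perm Ω := E.symm.permCongr r
  have hgM : g ∈ M := fun a b c => by simp [g, r, Equiv.permCongr_apply]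
  have hgA : g ∈ alternatingGroup Ω := by
    show Equiv.Perm.sign g = 1
    simp only [g, Equiv.Perm.sign_permCongr]
    have : r ^ 3 = 1 := Equiv.ext fun p => rfl
    have := congrArg Equiv.Perm.sign this
    rw [map_pow, map_one, pow_succ, Int.units_sq, one_mul] at this
    exact this
  have hgS : g ∉ S := fun h => by
    have := (hmem g h (E.symm ((0, 0), 0)) (E.symm ((0, 0), 1))).1 (k.injective (by rw [← hE, ← hE]; simp))
    have := congrArg k this
    simp [g, r, ← hE, Equiv.permCongr_apply] at this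
  obtain ⟨t, htA, htM⟩ : ∃ t ∈ alternatingGroup Ω, t ∉ M := by
    let t := E.symm.permCongr (Equiv.swap ((0, 0), 0) ((0, 0), 1) * Equiv.swap ((0, 0), 1) ((0, 1), 0))
    refine ⟨t, ?_, fun h => ?_⟩
    · show Equiv.Perm.sign t = 1
      simp only [t, Equiv.Perm.sign_permCongr]
      decide +kernel
    · have := h ((0, 0), 0) ((1, 0), 0) ((1, 1), 0)
      simp only [t, Equiv.permCongr_apply, E.apply_symm_apply, Equiv.symm_symm] at this
      revert this
      decide +kernel
  intro hco
  have hlt : (S ⊓ alternatingGroup Ω).subgroupOf (alternatingGroup Ω) < M.subgroupOf (alternatingGroup Ω) :=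
    lt_of_le_not_ge (fun x hx => hsub hx) fun hle => hgS (hle (show (⟨g, hgA⟩ : alternatingGroup Ω) ∈ M.subgroupOf _ from hgM)).1
  exact htM ((Subgroup.subgroupOf_eq_top.1 (hco.2 _ hlt)) htA)

end Cfsg.Agent.S5910
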