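import Cfsg.Statements.S5911
import Mathlib
import Cfsg.Agent.Lib.PermGroup.JordanPrime
import Cfsg.Agent.Lib.PermGroup.PrimeDegree
import Cfsg.Agent.Lib.PermGroup.ThreePrimes

set_option autoImplicit false
open Cfsg
open scoped Matrix

namespace Cfsg.Agent.S5911

/-- Let Ω be a finite set whose size n is not 6. Then every subgroup of the symmetric group on Ω of index n is the stabilizer of a point. -/
theorem result {Ω : Type*} [Fintype Ω] [DecidableEq Ω] (h6 : Fintype.card Ω ≠ 6)
    (H : Subgroup (Equiv.Perm Ω)) (hH : H.index = Fintype.card Ω) :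
    ∃ x : Ω, H = MulAction.stabilizer (Equiv.Perm Ω) x := by
  open Pointwise in
  classical
  have hne : H.index ≠ 0 := Subgroup.index_ne_zero_of_finite
  rw [hH] at hne
  haveI : Nonempty Ω := Fintype.card_pos_iff.1 (Nat.pos_of_ne_zero hne)
  set n := Fintype.card Ω with hn
  have hcard : Nat.card H * n = n.factorial := by
    have := H.card_mul_index
    rwa [hH, Nat.card_eq_fintype_card (α := Equiv.Perm Ω), Fintype.card_perm] at this
  have hpt : ∀ x : Ω, (MulAction.stabilizer (Equiv.Perm Ω) x).index = n := fun x => by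
    rw [MulAction.index_stabilizer_of_transitive, Nat.card_eq_fintype_card]
  have fin : ∀ x, H ≤ MulAction.stabilizer (Equiv.Perm Ω) x → H = MulAction.stabilizer (Equiv.Perm Ω) x := fun x hle => by
    refine Subgroup.eq_of_le_of_card_ge hle (le_of_eq ?_)
    apply Nat.eq_of_mul_eq_mul_right (Nat.pos_of_ne_zero hne)
    nth_rw 1 [← hpt x]
    rw [Subgroup.card_mul_index, hcard, Nat.card_eq_fintype_card, Fintype.card_perm]
  by_cases htr : MulAction.IsPretransitive H Ω
  · obtain ⟨x⟩ := ‹Nonempty Ω›
    refine ⟨x, fin x ?_⟩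
    have hdvd : n ∣ Nat.card H := ⟨Nat.card (MulAction.stabilizer H x), by
      rw [hn, ← Nat.card_eq_fintype_card, ← MulAction.index_stabilizer_of_transitive H x, Subgroup.index_mul_card]⟩
    have hH1 : Nat.card H = (n - 1).factorial := by
      apply Nat.eq_of_mul_eq_mul_right (Nat.pos_of_ne_zero hne)
      rw [hcard, mul_comm, Nat.mul_factorial_pred hne]
    rw [hH1] at hdvd
    rcases (show n = 1 ∨ 2 ≤ n by omega) with h1 | h2
    · intro h _
      haveI := Fintype.card_le_one_iff_subsingleton.1 h1.le
      exact Subsingleton.elim _ _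
    exfalso
    have hnp : ¬ n.Prime := fun hp => by
      have := (hp.dvd_factorial).1 hdvd
      omega
    have h8 : 8 ≤ n := by
      by_contra h8
      interval_cases n <;> first | omega | (norm_num [Nat.factorial] at hdvd; done) | exact hnp (by norm_num)
    obtain ⟨p, hp, hp1, hp2⟩ : ∃ p : ℕ, p.Prime ∧ n < 2 * p ∧ p + 3 ≤ n := by
      by_cases h : 11 ≤ n ∧ n ≠ 14 ∧ n ≠ 15 ∧ n ≠ 16
      · obtain ⟨p, q, hp, hq, h1, h2, h3⟩ := Cfsg.Lib.PermGroup.exists_prime_pair h.1 h.2.1 h.2.2.1 h.2.2.2
        exact ⟨p, hp, h1, by omega⟩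
      rcases (show n = 8 ∨ n = 9 ∨ n = 10 ∨ n = 14 ∨ n = 15 ∨ n = 16 by omega) with h | h | h | h | h | h
      · exact ⟨5, by norm_num, by omega, by omega⟩
      · exact ⟨5, by norm_num, by omega, by omega⟩
      · exact ⟨7, by norm_num, by omega, by omega⟩
      · exact ⟨11, by norm_num, by omega, by omega⟩
      · exact ⟨11, by norm_num, by omega, by omega⟩
      · exact ⟨13, by norm_num, by omega, by omega⟩
    haveI := Fact.mk hp
    obtain ⟨g, hg⟩ := exists_prime_orderOf_dvd_card' (G := H) p (by rw [hH1]; exact hp.dvd_factorial.2 (by omega))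
    rw [← Subgroup.orderOf_coe] at hg
    have hgc : (g : Equiv.Perm Ω).IsCycle :=
      Equiv.Perm.isCycle_of_prime_order' (by rw [hg]; exact hp) (by rw [hg]; exact hp1)
    have hgs : (g : Equiv.Perm Ω).support.card = p := by rw [← hgc.orderOf, hg]
    have hprim := Cfsg.Lib.PermGroup.isPreprimitive_of_cycle htr hp hgc hgs g.2 (by omega)
    have hA := Cfsg.Lib.PermGroup.alternatingGroup_le_of_prime_cycle hprim hp (by omega) hgc hgs g.2
    haveI : Nontrivial Ω := Fintype.one_lt_card_iff_nontrivial.1 (by omega)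
    have h2' := Subgroup.index_dvd_of_le hA
    rw [hH, alternatingGroup.index_eq_two] at h2'
    have := Nat.le_of_dvd (by norm_num) h2'
    omega
  · obtain ⟨x, y, hxy⟩ : ∃ x y : Ω, y ∉ MulAction.orbit H x := by
      by_contra hc
      push Not at hc
      exact htr ⟨fun x y => hc x y⟩
    set s := MulAction.orbit H x with hs
    have hxs : x ∈ s := MulAction.mem_orbit_self x
    have hHs : ∀ g ∈ H, ∀ z, g z ∈ s ↔ z ∈ s := fun g hg z => by
      have : MulAction.orbit H ((⟨g, hg⟩ : H) • z) = MulAction.orbit H z := MulAction.orbit_eq_iff.2 (MulAction.mem_orbit z _)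
      change (⟨g, hg⟩ : H) • z ∈ s ↔ _
      rw [hs, ← MulAction.orbit_eq_iff, ← MulAction.orbit_eq_iff, this]
    let t : Finset Ω := s.toFinset
    let P : Set.powersetCard Ω t.card := ⟨t, rfl⟩
    have hle : H ≤ MulAction.stabilizer (Equiv.Perm Ω) P := fun g hg => by
      rw [MulAction.mem_stabilizer_iff]
      refine Subtype.ext ?_
      show g • t = t
      ext z
      rw [← Finset.inv_smul_mem_iff]
      simp only [t, Set.mem_toFinset, Equiv.Perm.smul_def]
      simpa using hHs g⁻¹ (H.inv_mem hg) z
    haveI : MulAction.IsPretransitive (Equiv.Perm Ω) (Set.powersetCard Ω t.card) := Set.powersetCard.isPretransitive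
    have hdvd : n.choose t.card ∣ n := by
      have := Subgroup.index_dvd_of_le hle
      rwa [hH, MulAction.index_stabilizer_of_transitive, Set.powersetCard.card, Nat.card_eq_fintype_card] at this
    have hC : ∀ m k : ℕ, 2 ≤ k → k + 2 ≤ m → m < m.choose k := by
      intro m
      induction m with
      | zero => intro k _ h; omega
      | succ m ih =>
        intro k hk hkm
        obtain ⟨j, rfl⟩ : ∃ j, k = j + 1 := ⟨k - 1, by omega⟩
        rw [Nat.choose_succ_succ']
        rcases (show j + 3 ≤ m ∨ j + 2 = m by omega) with h | h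
        · have := ih (j + 1) hk (by omega)
          have := Nat.choose_pos (show j ≤ m by omega)
          omega
        · subst h
          rw [Nat.choose_succ_self_right]
          have := Nat.choose_pos (show j ≤ j + 2 by omega)
          rcases (show j = 1 ∨ 2 ≤ j by omega) with rfl | hj
          · decide
          · have := ih j hj (by omega)
            omega
    have ht1 : 0 < t.card := Finset.card_pos.2 ⟨x, Set.mem_toFinset.2 hxs⟩
    have htn : t.card < n := Finset.card_lt_univ_of_notMem (x := y) (by simpa [t] using hxy)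
    have hk : t.card = 1 ∨ tᶜ.card = 1 := by
      rw [Finset.card_compl]
      by_contra hc
      push Not at hc
      exact absurd (Nat.le_of_dvd (by omega) hdvd) (not_le.2 (hC n _ (by omega) (by omega)))
    rcases hk with h | h
    · obtain ⟨z, hz⟩ := Finset.card_eq_one.1 h
      have hz' : ∀ w, w ∈ s ↔ w = z := fun w => by rw [← Set.mem_toFinset, ← Finset.mem_singleton, ← hz]
      refine ⟨z, fin z fun g hg => ?_⟩
      exact (hz' _).1 ((hHs g hg z).2 ((hz' z).2 rfl))
    · obtain ⟨z, hz⟩ := Finset.card_eq_one.1 h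
      have hz' : ∀ w, w ∉ s ↔ w = z := fun w => by rw [← Set.mem_toFinset, ← Finset.mem_compl, ← Finset.mem_singleton, ← hz]
      refine ⟨z, fin z fun g hg => ?_⟩
      exact (hz' _).1 (fun hm => (hz' z).2 rfl ((hHs g hg z).1 hm))

end Cfsg.Agent.S5911
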