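import Cfsg.Statements.S5912
import Mathlib
import Cfsg.Agent.Lib.Classical.SymSix

set_option autoImplicit false
open Cfsg
open scoped Matrix

namespace Cfsg.Agent.S5912

/-- The symmetric group on a 6-element set Ω has exactly two conjugacy classes of subgroups of index 6: there are two non-conjugate subgroups of index 6 (a point stabilizer and a transitive subgroup isomorphic to S₅), and every subgroup of index 6 is conjugate to one of them. -/
theorem result {Ω : Type*} [Fintype Ω] [DecidableEq Ω] (h6 : Fintype.card Ω = 6) :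
    ∃ H₁ H₂ : Subgroup (Equiv.Perm Ω), H₁.index = 6 ∧ H₂.index = 6 ∧
      (¬ ∃ g : Equiv.Perm Ω, Subgroup.map (MulAut.conj g).toMonoidHom H₁ = H₂) ∧
      ∀ H : Subgroup (Equiv.Perm Ω), H.index = 6 →
        ∃ g : Equiv.Perm Ω, Subgroup.map (MulAut.conj g).toMonoidHom H₁ = H ∨ Subgroup.map (MulAut.conj g).toMonoidHom H₂ = H := by
  classical
  obtain ⟨a⟩ : Nonempty Ω := Fintype.card_pos_iff.1 (by omega)
  obtain ⟨H, hH, hne⟩ := Cfsg.Lib.Classical.SymSix.exists_exotic h6
  obtain ⟨φ, hφ⟩ := Cfsg.Lib.Classical.SymSix.exists_auto h6 hH a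
  have hconj : ∀ (g : Equiv.Perm Ω) (b : Ω), Subgroup.map (MulAut.conj g).toMonoidHom (MulAction.stabilizer (Equiv.Perm Ω) b) = MulAction.stabilizer (Equiv.Perm Ω) (g b) :=
    fun g b => (MulAction.stabilizer_smul_eq_stabilizer_map_conj g b).symm
  refine ⟨MulAction.stabilizer (Equiv.Perm Ω) a, H, Cfsg.Lib.Classical.SymSix.index_stab h6 a, hH, ?_, fun K hK => ?_⟩
  · rintro ⟨g, hg⟩
    exact hne (g a) (by rw [← hg, hconj])
  · obtain ⟨b, hb | hb⟩ := Cfsg.Lib.Classical.SymSix.classify h6 hH hne hφ K hK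
    · exact ⟨Equiv.swap a b, Or.inl (by rw [hconj, Equiv.swap_apply_left, hb])⟩
    · refine ⟨φ.symm (Equiv.swap a b), Or.inr ?_⟩
      rw [hb, hφ]
      ext x
      rw [Subgroup.mem_map_equiv]
      simp [map_mul, map_inv, Equiv.swap_apply_eq_iff]

end Cfsg.Agent.S5912
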