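import Cfsg.Statements.S5938
import Mathlib
import Cfsg.Agent.Lib.Classical.PrimeFieldPolyhedral
import Cfsg.Agent.S0803
-- import your own Cfsg.Agent.* helpers here

set_option autoImplicit false
open Cfsg

namespace Cfsg.Agent.S5938

open Cfsg.Lib.QuatTwo in
theorem rel_map {G G' : Type*} [Group G] [Group G'] (f : G →* G') (hf : Function.Injective f) {x y w : G} (h : Rel x y w) :
    Rel (f x) (f y) (f w) where
  hx := by rw [← map_mul, h.hx, map_one]
  hy := by rw [← map_mul, h.hy, map_one]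
  hc := by rw [← map_mul, h.hc, map_mul]
  hx1 := fun e => h.hx1 (hf (by rw [e, map_one]))
  hy1 := fun e => h.hy1 (hf (by rw [e, map_one]))
  hxy := fun e => h.hxy (hf e)
  hw := by rw [← map_pow, h.hw, map_one]
  hw1 := fun e => h.hw1 (hf (by rw [e, map_one]))
  hwx := by rw [← map_inv, ← map_mul, ← map_mul, h.hwx]
  hwy := by rw [← map_inv, ← map_mul, ← map_mul, h.hwy, map_mul]

open Equiv in
theorem rel_four : Cfsg.Lib.QuatTwo.Rel (swap (0 : Fin 4) 1 * swap 2 3) (swap 0 2 * swap 1 3) (swap 1 2 * swap 2 3) :=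
  ⟨by decide, by decide, by decide, by decide, by decide, by decide, by decide, by decide, by decide, by decide⟩

/-- Let p be a prime with p ≡ ±1 (mod 8) and F a field with p elements. Then PSL_2(F) has a maximal subgroup isomorphic to the symmetric group S_4. -/
theorem result {F : Type*} [Field F] [Fintype F] (p : ℕ) [Fact p.Prime] (hF : Fintype.card F = p) (hp : p % 8 = 1 ∨ p % 8 = 7) : ∃ H : Subgroup (Matrix.ProjectiveSpecialLinearGroup (Fin 2) F), IsCoatom H ∧ Nonempty (H ≃* Equiv.Perm (Fin 4)) := by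
  classical
  haveI : CharP F p := by
    obtain ⟨p', hp'⟩ := CharP.exists F
    obtain ⟨k, hpp, hk⟩ := FiniteField.card F p'
    have : p = p' := (Nat.prime_dvd_prime_iff_eq Fact.out hpp).1
      ((Fact.out : p.Prime).dvd_of_dvd_pow (n := k) (by rw [← hk, hF]))
    rw [this]; exact hp'
  have h2 : (2 : F) ≠ 0 := Ring.two_ne_zero (by rw [ringChar.eq F p]; omega)
  haveI : NeZero (2 : F) := ⟨h2⟩
  have hPSL : 2 * Nat.card (Matrix.ProjectiveSpecialLinearGroup (Fin 2) F) = p * ((p + 1) * (p - 1)) := by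
    have h := Cfsg.Lib.PSLTwoOdd.card_preimage (F := F) (Set.univ)
    rw [Set.preimage_univ, Nat.card_congr (Equiv.Set.univ _), Nat.card_congr (Equiv.Set.univ _), Cfsg.Lib.Classical.TwoDim.card_SL, hF] at h
    exact h.symm
  have hex := (Cfsg.Agent.S0803.result hF).2 (by
    rw [Nat.pow_mod]; have hlt : p % 16 < 16 := Nat.mod_lt _ (by norm_num)
    have : p % 16 = 1 ∨ p % 16 = 7 ∨ p % 16 = 9 ∨ p % 16 = 15 := by omega
    rcases this with h | h | h | h <;> rw [h] <;> norm_num)
  obtain ⟨H, ⟨e⟩⟩ := hex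
  have hH : Nat.card H = 24 := by rw [Nat.card_congr e.toEquiv]; rw [Nat.card_perm, Nat.card_fin]; rfl
  have hR := rel_map (H.subtype.comp e.symm.toMonoidHom) (Subtype.val_injective.comp e.symm.injective) rel_four
  refine ⟨H, ⟨fun h => ?_, fun K hK => ?_⟩, ⟨e⟩⟩
  · rw [h, Subgroup.card_top] at hH
    rw [hH] at hPSL
    have : 7 * 8 * 6 ≤ p * ((p + 1) * (p - 1)) ∨ p = 5 := by
      rcases Nat.lt_or_ge p 7 with h7 | h7
      · right; interval_cases p <;> simp_all (config := { decide := true })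
      · left; rw [mul_assoc]; exact Nat.mul_le_mul h7 (Nat.mul_le_mul (by omega) (by omega))
    rcases this with h7 | rfl <;> omega
  · rcases Cfsg.Lib.Classical.Polyhedral.overgroup hF (by omega) K hR (hK.le (SetLike.coe_mem _)) (hK.le (SetLike.coe_mem _)) with hT | hT
    · exact hT
    exfalso
    have hlt : 24 < Nat.card K := hH ▸ lt_of_le_of_ne (Subgroup.card_le_of_le hK.le) fun e' => hK.ne (Subgroup.eq_of_le_of_card_ge hK.le e'.ge)
    have hdvd : Nat.card H ∣ Nat.card K := Subgroup.card_dvd_of_le hK.le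
    have hd : 2 * Nat.card K ∣ p * ((p + 1) * (p - 1)) := hPSL ▸ Nat.mul_dvd_mul_left 2 (Subgroup.card_subgroup_dvd_card K)
    rw [hH] at hdvd
    omega

end Cfsg.Agent.S5938
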