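import Cfsg.Statements.S5947
import Mathlib

set_option autoImplicit false
open Cfsg
open scoped Matrix

namespace Cfsg.Agent.S5947

/-- Let F ⊆ K be finite fields with |F| = q and [K : F] = n ≥ 2, regard K as an n-dimensional F-vector space, and let M ≤ GL_F(K) be the Singer group of multiplications by non-zero elements of K (cyclic of order q^n − 1). Assume (n, q) ≠ (6, 2), and that it is not the case that n = 2 with q a prime such that q + 1 is a power of 2. Then every abelian subgroup of GL_F(K) of order q^n − 1 is conjugate to M. -/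
theorem result {F K : Type*} [Field F] [Fintype F] [Field K] [Fintype K] [Algebra F K] (n : ℕ) (hn : 2 ≤ n) (hdim : Module.finrank F K = n)
    (hex1 : ¬ (n = 6 ∧ Fintype.card F = 2))
    (hex2 : ¬ (n = 2 ∧ (Fintype.card F).Prime ∧ ∃ a : ℕ, Fintype.card F + 1 = 2 ^ a))
    (U : Subgroup (Module.End F K)ˣ) (hU : IsMulCommutative U) (hcard : Nat.card U = Fintype.card K - 1) :
    ∃ g : (Module.End F K)ˣ, U.map (MulAut.conj g).toMonoidHom = (Units.map ((Algebra.lmul F K : K →ₐ[F] Module.End F K) : K →* Module.End F K)).range := by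
  classical
  set p := ringChar F with hp
  haveI : CharP F p := ringChar.charP F
  haveI : Fact p.Prime := ⟨CharP.char_is_prime F p⟩
  haveI : CharP (Module.End F K) p := charP_of_injective_algebraMap (algebraMap F (Module.End F K)).injective p
  obtain ⟨⟨N, hN0⟩, -, hN⟩ := FiniteField.card F p
  set Q := Fintype.card K with hQ
  have hQq : Q = Fintype.card F ^ n := by rw [hQ, Module.card_eq_pow_finrank (K := F) (V := K), hdim]
  have hQp : Q = p ^ (N * n) := by rw [hQq, hN, PNat.mk_coe, ← pow_mul]
  have hQ1 : 1 < Q := Fintype.one_lt_card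
  let S : Submodule F (Module.End F K) := Submodule.span F (Set.range fun u : U => ((u : (Module.End F K)ˣ) : Module.End F K))
  have hUS : ∀ u : U, ((u : (Module.End F K)ˣ) : Module.End F K) ∈ S := fun u => Submodule.subset_span ⟨u, rfl⟩
  have h1 : (1 : Module.End F K) ∈ S := hUS 1
  have hmul : ∀ a ∈ S, ∀ b ∈ S, a * b ∈ S := by
    intro a ha b hb
    refine Submodule.span_induction (p := fun x _ => x * b ∈ S) ?_ (by simp) (fun x y _ _ hx hy => by rw [add_mul]; exact add_mem hx hy)
      (fun c x _ hx => by rw [smul_mul_assoc]; exact S.smul_mem c hx) ha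
    rintro x ⟨u, rfl⟩
    refine Submodule.span_induction (p := fun y _ => _ * y ∈ S) ?_ (by simp) (fun x y _ _ hx hy => by rw [mul_add]; exact add_mem hx hy)
      (fun c x _ hx => by rw [mul_smul_comm]; exact S.smul_mem c hx) hb
    rintro y ⟨w, rfl⟩
    simpa using hUS (u * w)
  have hcomm : ∀ a ∈ S, ∀ b ∈ S, Commute a b := by
    intro a ha b hb
    refine Submodule.span_induction (p := fun x _ => Commute x b) ?_ (Commute.zero_left _) (fun x y _ _ hx hy => hx.add_left hy)
      (fun c x _ hx => hx.smul_left c) ha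
    rintro x ⟨u, rfl⟩
    refine Submodule.span_induction (p := fun y _ => Commute _ y) ?_ (Commute.zero_right _) (fun x y _ _ hx hy => hx.add_right hy)
      (fun c x _ hx => hx.smul_right c) hb
    rintro y ⟨w, rfl⟩
    exact congrArg (fun z : U => ((z : (Module.End F K)ˣ) : Module.End F K)) (hU.is_comm.comm u w)
  have hpow : ∀ a ∈ S, a ^ Q = a := by
    intro a ha
    refine Submodule.span_induction (p := fun x _ => x ^ Q = x) ?_ (zero_pow (by omega)) (fun x y hx' hy' hx hy => ?_)
      (fun c x _ hx => ?_) ha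
    · rintro x ⟨u, rfl⟩
      have hu : u ^ (Q - 1) = 1 := by rw [← hcard]; exact pow_card_eq_one'
      have h2 : u ^ Q = u := by rw [show Q = (Q - 1) + 1 by omega, pow_succ, hu, one_mul]
      simpa using congrArg (fun z : U => ((z : (Module.End F K)ˣ) : Module.End F K)) h2
    · rw [hQp, add_pow_char_pow_of_commute (x := x) (y := y) (p := p) (h := hcomm x hx' y hy'), ← hQp, hx, hy]
    · rw [smul_pow, hx, hQq, FiniteField.pow_card_pow]
  have hpm : ∀ a ∈ S, ∀ k : ℕ, a ^ k ∈ S := fun a ha k => by
    induction k with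
    | zero => rwa [pow_zero]
    | succ k ih => rw [pow_succ]; exact hmul _ ih _ ha
  haveI : Finite (Module.End F K) := Finite.of_injective _ DFunLike.coe_injective
  -- a vector with trivial annihilator
  obtain ⟨v, hv⟩ := Finite.exists_min fun v : K => Nat.card {a : S // (a : Module.End F K) v = 0}
  have hann : ∀ a ∈ S, a v = 0 → a = 0 := by
    intro a ha hav
    by_contra ha0
    obtain ⟨w, hw⟩ : ∃ w, a w ≠ 0 := by
      by_contra h
      push Not at h
      exact ha0 (LinearMap.ext h)
    set e := a ^ (Q - 1) with he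
    have heS : e ∈ S := hpm a ha _
    have hea : e * a = a := by rw [he, ← pow_succ, Nat.sub_add_cancel (by omega), hpow a ha]
    have hae : a * e = a := by rw [(hcomm a ha e heS).eq, hea]
    have hev : e v = 0 := by
      rw [he, show Q - 1 = (Q - 2) + 1 by omega, pow_succ, Module.End.mul_apply, hav, map_zero]
    have hee : e * e = e := by
      conv_lhs => arg 2; rw [he, show Q - 1 = (Q - 2) + 1 by omega, pow_succ]
      rw [← mul_assoc, (hcomm e heS _ (hpm a ha _)).eq, mul_assoc, hea, ← pow_succ, show (Q - 2) + 1 = Q - 1 by omega]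
    have hsub : ∀ b ∈ S, b (v + e w) = 0 → b v = 0 := by
      intro b hb h
      have h' := congrArg e h
      rw [map_zero, map_add, map_add] at h'
      have x1 : e (b v) = 0 := by
        rw [← Module.End.mul_apply, (hcomm e heS b hb).eq, Module.End.mul_apply, hev, map_zero]
      have x2 : e (b (e w)) = b (e w) := by
        rw [← Module.End.mul_apply e b, (hcomm e heS b hb).eq, Module.End.mul_apply, ← Module.End.mul_apply e e, hee]
      rw [x1, x2, zero_add] at h'
      rwa [map_add, h', add_zero] at h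
    let f : {b : S // (b : Module.End F K) (v + e w) = 0} → {b : S // (b : Module.End F K) v = 0} :=
      fun b => ⟨b.1, hsub _ b.1.2 b.2⟩
    have hf : Function.Injective f := fun x y h => Subtype.ext (by simpa [f] using congrArg Subtype.val h)
    have hsurj := (hf.bijective_of_nat_card_le (hv _)).2 ⟨⟨e, heS⟩, hev⟩
    obtain ⟨⟨b, hb⟩, hbe⟩ := hsurj
    have hb' : e (v + e w) = 0 := by
      have : b = ⟨e, heS⟩ := by simpa [f] using congrArg Subtype.val hbe
      rw [this] at hb; exact hb
    rw [map_add, hev, zero_add, ← Module.End.mul_apply, hee] at hb'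
    apply hw
    rw [← hae, Module.End.mul_apply, hb', map_zero]
  let ev : S →ₗ[F] K := (LinearMap.applyₗ v).comp S.subtype
  have hev : Function.Injective ev := LinearMap.ker_eq_bot.1 (LinearMap.ker_eq_bot'.2 fun a h => Subtype.ext (hann _ a.2 h))
  let ι : Option U → S := fun u => u.elim 0 fun u => ⟨_, hUS u⟩
  have hι : Function.Injective ι := by
    rintro (_ | u) (_ | w) h
    · rfl
    · exact absurd (congrArg Subtype.val h).symm (Units.ne_zero (w : (Module.End F K)ˣ))
    · exact absurd (congrArg Subtype.val h) (Units.ne_zero (u : (Module.End F K)ˣ))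
    · exact congrArg some (Subtype.ext (Units.ext (congrArg Subtype.val h)))
  have hcK : Nat.card K ≤ Nat.card (Option U) := by
    rw [Finite.card_option, hcard, Nat.card_eq_fintype_card]; omega
  have hbij : Function.Bijective ι :=
    hι.bijective_of_nat_card_le ((Nat.card_le_card_of_injective _ hev).trans hcK)
  have hevb : Function.Bijective ev :=
    hev.bijective_of_nat_card_le (hcK.trans (Nat.card_le_card_of_injective _ hι))
  let k : Subalgebra F (Module.End F K) := S.toSubalgebra h1 (fun a b ha hb => hmul a ha b hb)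
  have hk : IsField k := by
    refine ⟨⟨0, 1, zero_ne_one⟩, fun a b => Subtype.ext (hcomm _ a.2 _ b.2).eq, fun {a} ha => ?_⟩
    obtain ⟨(_ | u), hu⟩ := hbij.2 ⟨(a : Module.End F K), a.2⟩
    · exact absurd (Subtype.ext (congrArg Subtype.val hu).symm) ha
    · refine ⟨⟨_, hUS u⁻¹⟩, Subtype.ext ?_⟩
      show (a : Module.End F K) * _ = 1
      rw [← show ((u : (Module.End F K)ˣ) : Module.End F K) = a from congrArg Subtype.val hu]
      simp
  letI : Field k := hk.toField
  haveI : Fintype k := Fintype.ofFinite k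
  have hck : Fintype.card k = Fintype.card K := by
    rw [← Nat.card_eq_fintype_card, ← Nat.card_eq_fintype_card]; exact Nat.card_eq_of_bijective _ hevb
  haveI h1' := FiniteField.isSplittingField_sub K F
  haveI h2' : Polynomial.IsSplittingField F k (Polynomial.X ^ Fintype.card K - Polynomial.X) := hck ▸ FiniteField.isSplittingField_sub k F
  let φ : k ≃ₐ[F] K := (Polynomial.IsSplittingField.algEquiv k (Polynomial.X ^ Fintype.card K - Polynomial.X : Polynomial F)).trans
    (Polynomial.IsSplittingField.algEquiv K (Polynomial.X ^ Fintype.card K - Polynomial.X : Polynomial F)).symm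
  let T : K ≃ₗ[F] K := (LinearEquiv.ofBijective ev hevb).symm.trans
    ({ φ.toLinearEquiv with toFun := fun a => φ ⟨a.1, a.2⟩, invFun := fun x => ⟨(φ.symm x).1, (φ.symm x).2⟩ } : S ≃ₗ[F] K)
  let g : (Module.End F K)ˣ := LinearMap.GeneralLinearGroup.ofLinearEquiv T
  have hT : ∀ a : k, ∀ x, T ((a : Module.End F K) x) = φ a * T x := by
    intro a x
    obtain ⟨b, rfl⟩ := hevb.2 x
    have e1 : (a : Module.End F K) (ev b) = ev ⟨_, hmul _ a.2 _ b.2⟩ := rfl
    simp only [T, LinearEquiv.trans_apply, e1, LinearEquiv.ofBijective_symm_apply_apply]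
    show φ ⟨_, _⟩ = φ a * φ ⟨b.1, b.2⟩
    rw [← map_mul]; rfl
  have key : ∀ (u : U) (y : Kˣ), φ ⟨_, hUS u⟩ = (y : K) →
      g * (u : (Module.End F K)ˣ) * g⁻¹ = Units.map ((Algebra.lmul F K : K →ₐ[F] Module.End F K) : K →* Module.End F K) y := by
    intro u y hy
    rw [mul_inv_eq_iff_eq_mul]
    refine Units.ext (LinearMap.ext fun x => ?_)
    show T (((u : (Module.End F K)ˣ) : Module.End F K) x) = (y : K) * T x
    rw [← hy]; exact hT ⟨_, hUS u⟩ x
  refine ⟨g, le_antisymm ?_ ?_⟩
  · rintro _ ⟨u, hu, rfl⟩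
    refine ⟨Units.mk0 (φ ⟨_, hUS ⟨u, hu⟩⟩) ?_, (key ⟨u, hu⟩ _ rfl).symm⟩
    rw [map_ne_zero_iff φ φ.injective]
    exact fun h => u.ne_zero (congrArg Subtype.val h)
  · rintro _ ⟨y, rfl⟩
    obtain ⟨(_ | u), hu⟩ := hbij.2 ⟨(φ.symm (y : K)).1, (φ.symm (y : K)).2⟩
    · exact absurd (φ.symm.map_eq_zero_iff.1 (Subtype.ext (congrArg Subtype.val hu).symm)) y.ne_zero
    · refine ⟨u, u.2, key u y ?_⟩
      rw [show (⟨_, hUS u⟩ : k) = φ.symm (y : K) from Subtype.ext (congrArg Subtype.val hu :), φ.apply_symm_apply]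

end Cfsg.Agent.S5947
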